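import Cfsg.Statements.S3897
import Cfsg.Agent.Lib.H68.Isolated

set_option autoImplicit false
open Cfsg

namespace Cfsg.Agent.S3897

open H68.Isolated MulAction
open scoped Pointwise

/-- complement meets every Sylow trivially -/
theorem compl_inf {G : Type*} [Group G] [Finite G] {p : ℕ} [Fact p.Prime] (P Q : Sylow p G) (N : Subgroup G)
    (hN : N.IsComplement' (Q : Subgroup G)) : N ⊓ (P : Subgroup G) = ⊥ := by
  have h1 : ¬ p ∣ Nat.card N := by
    rw [← hN.index_eq_card]
    exact Q.not_dvd_index
  refine disjoint_iff.1 (Subgroup.disjoint_of_coprime_natCard ?_)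
  obtain ⟨k, hk⟩ := IsPGroup.iff_card.1 P.2
  rw [hk]
  exact Nat.Coprime.pow_right k ((Nat.Prime.coprime_iff_not_dvd Fact.out).2 h1).symm

theorem result {G : Type*} [Group G] [Finite G] {p : ℕ} [Fact p.Prime] (hp : p ≠ 2) (P : Sylow p G) :
    (p + 1) * Nat.card ↥(P : Subgroup G) < 2 * p * Nat.card {c : ConjClasses G // ∀ x ∈ c.carrier, ∃ k : ℕ, orderOf x = p ^ k} ↔
      Cfsg.HasNormalPComplement p G ∧ IsMulCommutative ↥(P : Subgroup G) := by
  constructor
  · intro h
    have h1 := two_mul_card_le P
    have hp0 : 0 < p := (Fact.out : p.Prime).pos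
    set k := Nat.card (PClass p G) with hk
    have h2 : Nat.card (P : Subgroup G) < p * Nat.card (isoSubgroup P) := by
      have h3 : 2 * p * k ≤ p * (Nat.card (P : Subgroup G) + Nat.card (isoSubgroup P)) := by
        calc 2 * p * k = p * (2 * k) := by ring
          _ ≤ _ := Nat.mul_le_mul_left p h1
      nlinarith
    have hZ : isoSubgroup P = (P : Subgroup G) := by
      refine Subgroup.eq_of_le_of_card_ge (isoSubgroup_le P) ?_
      obtain ⟨n, hn⟩ := IsPGroup.iff_card.1 P.2
      have hd : Nat.card (isoSubgroup P) ∣ p ^ n := hn ▸ Subgroup.card_dvd_of_le (isoSubgroup_le P)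
      obtain ⟨m, hm, hm'⟩ := (Nat.dvd_prime_pow Fact.out).1 hd
      rw [hn, hm'] at h2 ⊢
      have : n < m + 1 := by
        apply (Nat.pow_lt_pow_iff_right (Fact.out : p.Prime).one_lt).1
        calc p ^ n < p * p ^ m := h2
          _ = p ^ (m + 1) := by ring
      exact Nat.pow_le_pow_right hp0 (by omega)
    have hiso : ∀ y ∈ P, IsIso P y := fun y hy => by
      have : y ∈ isoSubgroup P := by rw [hZ]; exact hy
      exact this
    refine ⟨?_, ⟨⟨fun a b => Subtype.ext ((hiso b b.2).comm a.2)⟩⟩⟩
    have hNC : Subgroup.normalizer (P : Set G) ≤ Subgroup.centralizer (P : Set G) := by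
      intro n hn
      rw [Subgroup.mem_centralizer_iff]
      intro y hy
      have h3 := (hiso y hy).2 n ((Subgroup.mem_set_normalizer_iff.1 hn y).1 hy)
      rw [mul_inv_eq_iff_eq_mul] at h3
      exact h3.symm
    exact ⟨P, _, inferInstance, MonoidHom.ker_transferSylow_isComplement' P hNC⟩
  · rintro ⟨⟨Q, N, hN, hc⟩, hcomm⟩
    have hNP := compl_inf P Q N hc
    have hbij : Function.Bijective (toClass P) := by
      refine ⟨fun y z h => ?_, toClass_surjective P⟩
      rw [toClass_eq_iff] at h
      obtain ⟨g, hg⟩ := h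
      -- image in G/N is abelian
      have hcard : Nat.card N * Nat.card (P : Subgroup G) = Nat.card G := by
        rw [← hc.card_mul_card]
        congr 1
        rw [Sylow.card_eq_multiplicity, Sylow.card_eq_multiplicity]
      have hNPc : N.IsComplement' (P : Subgroup G) := by
        apply Subgroup.isComplement'_of_card_mul_and_disjoint hcard
        rw [disjoint_iff]; exact hNP
      obtain ⟨⟨n, q⟩, hnq⟩ := hNPc.2 g
      have hnq' : (n : G) * (q : G) = g := hnq
      have hq : (q : G) * y * (q : G)⁻¹ = y := by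
        have := hcomm.is_comm.comm q y
        have h3 : (q : G) * y = y * q := congrArg Subtype.val this
        rw [h3]; group
      have h4 : (n : G) * y * (n : G)⁻¹ = z := by
        rw [← hg, ← hnq']
        calc (n : G) * y * (n : G)⁻¹ = (n : G) * ((q : G) * y * (q : G)⁻¹) * (n : G)⁻¹ := by rw [hq]
          _ = _ := by group
      have h5 : (z : G) * (y : G)⁻¹ ∈ N := by
        rw [← h4]
        have : (n : G) * y * (n : G)⁻¹ * (y : G)⁻¹ = n * (y * (n : G)⁻¹ * (y : G)⁻¹) := by group
        rw [this]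
        exact mul_mem n.2 (hN.conj_mem _ (inv_mem n.2) _)
      have h6 : (z : G) * (y : G)⁻¹ ∈ N ⊓ (P : Subgroup G) := Subgroup.mem_inf.2 ⟨h5, mul_mem z.2 (inv_mem y.2)⟩
      rw [hNP, Subgroup.mem_bot, mul_inv_eq_one] at h6
      exact Subtype.ext h6.symm
    have h7 : Nat.card (P : Subgroup G) = Nat.card (PClass p G) := Nat.card_congr (Equiv.ofBijective _ hbij)
    change (p + 1) * Nat.card ↥(P : Subgroup G) < 2 * p * Nat.card (PClass p G)
    rw [← h7]
    have h8 : 0 < Nat.card (P : Subgroup G) := Nat.card_pos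
    have h9 : 1 < p := (Fact.out : p.Prime).one_lt
    nlinarith

end Cfsg.Agent.S3897
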