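import Cfsg.Statements.S0560
import Cfsg.Agent.Lib.H12.FacSylow

set_option autoImplicit false
open Pointwise
open Cfsg

namespace Cfsg.Agent.S0560

/-- conjugate of a Sylow of `H` by an element of `H`, in `G` -/
theorem conj_map {G : Type*} [Group G] (H : Subgroup G) (p : ℕ) [Fact p.Prime] (P : Sylow p H)
    (h : G) (hh : h ∈ H) :
    ∃ P' : Sylow p H, (P' : Subgroup H).map H.subtype = MulAut.conj h • ((P : Subgroup H).map H.subtype) := by
  refine ⟨(⟨h, hh⟩ : H) • P, ?_⟩
  ext x
  rw [H12.Basic.mem_conj_smul, Sylow.coe_subgroup_smul]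
  constructor
  · rintro ⟨y, hy, rfl⟩
    change y ∈ MulAut.conj (⟨h, hh⟩ : H) • (P : Subgroup H) at hy
    rw [H12.Basic.mem_conj_smul] at hy
    exact ⟨_, hy, rfl⟩
  · rintro ⟨y, hy, e⟩
    refine ⟨⟨h, hh⟩ * y * ⟨h, hh⟩⁻¹, ?_, ?_⟩
    · change _ ∈ MulAut.conj (⟨h, hh⟩ : H) • (P : Subgroup H)
      rw [H12.Basic.mem_conj_smul]
      have : (⟨h, hh⟩ : H)⁻¹ * (⟨h, hh⟩ * y * (⟨h, hh⟩ : H)⁻¹) * ⟨h, hh⟩ = y := by group
      rw [this]; exact hy
    · have e' : (y : G) = h⁻¹ * x * h := e
      change h * (y : G) * h⁻¹ = x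
      rw [e']; group

theorem result {G : Type*} [Group G] [Finite G] (H K : Subgroup G) (hHK : ∀ g : G, ∃ h ∈ H, ∃ k ∈ K, g = h * k) (p : ℕ) [Fact p.Prime] : ∃ (P : Sylow p H) (Q : Sylow p K) (R : Sylow p G), ((R : Subgroup G) : Set G) = (((P : Subgroup H).map H.subtype : Subgroup G) : Set G) * (((Q : Subgroup K).map K.subtype : Subgroup G) : Set G) := by
  have P0 : Sylow p H := default
  have Q0 : Sylow p K := default
  obtain ⟨S1, hS1⟩ := (P0.2.map H.subtype).exists_le_sylow
  obtain ⟨S2, hS2⟩ := (Q0.2.map K.subtype).exists_le_sylow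
  obtain ⟨g, hg⟩ := MulAction.exists_smul_eq G S1 S2
  obtain ⟨h, hh, k, hk, e⟩ := hHK g⁻¹
  obtain ⟨P, hP⟩ := conj_map H p P0 h⁻¹ (H.inv_mem hh)
  obtain ⟨Q, hQ⟩ := conj_map K p Q0 k hk
  have eR : h⁻¹ • S1 = k • S2 := by
    rw [← hg, ← mul_smul]
    congr 1
    have : g = (h * k)⁻¹ := by rw [← e, inv_inv]
    rw [this]; group
  have hPR : (P : Subgroup H).map H.subtype ≤ ((k • S2 : Sylow p G) : Subgroup G) := by
    rw [← eR, hP, Sylow.coe_subgroup_smul]
    exact Subgroup.pointwise_smul_le_pointwise_smul_iff.mpr hS1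
  have hQR : (Q : Subgroup K).map K.subtype ≤ ((k • S2 : Sylow p G) : Subgroup G) := by
    rw [hQ, Sylow.coe_subgroup_smul]
    exact Subgroup.pointwise_smul_le_pointwise_smul_iff.mpr hS2
  refine ⟨P, Q, k • S2, H12.FacSylow.eq_mul_of_card hPR hQR ?_⟩
  have c1 : Nat.card ((k • S2 : Sylow p G) : Subgroup G) = p ^ (Nat.card G).factorization p :=
    Sylow.card_eq_multiplicity _
  have c2 : Nat.card ((P : Subgroup H).map H.subtype) = p ^ (Nat.card H).factorization p := by
    rw [Subgroup.card_map_of_injective H.subtype_injective]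
    exact Sylow.card_eq_multiplicity _
  have c3 : Nat.card ((Q : Subgroup K).map K.subtype) = p ^ (Nat.card K).factorization p := by
    rw [Subgroup.card_map_of_injective K.subtype_injective]
    exact Sylow.card_eq_multiplicity _
  have hp : p.Prime := Fact.out
  have hle : (P : Subgroup H).map H.subtype ⊓ (Q : Subgroup K).map K.subtype ≤ H ⊓ K :=
    inf_le_inf (Subgroup.map_subtype_le _) (Subgroup.map_subtype_le _)
  have hpg : IsPGroup p ((P : Subgroup H).map H.subtype ⊓ (Q : Subgroup K).map K.subtype : Subgroup G) :=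
    (P.2.map H.subtype).to_le inf_le_left
  obtain ⟨n, hn⟩ := IsPGroup.iff_card.mp hpg
  have c4 : n ≤ (Nat.card (H ⊓ K : Subgroup G)).factorization p := by
    rw [← hp.pow_dvd_iff_le_factorization Nat.card_pos.ne', ← hn]
    exact Subgroup.card_dvd_of_le hle
  have hfac := H12.FacSylow.fac_card hHK
  have hfac' : (Nat.card G).factorization p + (Nat.card (H ⊓ K : Subgroup G)).factorization p
      = (Nat.card H).factorization p + (Nat.card K).factorization p := by
    have := congrArg (fun n => n.factorization p) hfac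
    simp only [Nat.factorization_mul Nat.card_pos.ne' Nat.card_pos.ne', Finsupp.add_apply] at this
    exact this
  rw [c1, c2, c3, hn, ← pow_add, ← pow_add]
  apply Nat.pow_le_pow_right hp.pos
  omega

end Cfsg.Agent.S0560
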