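import Cfsg.Statements.S3012

set_option autoImplicit false
open Cfsg
namespace Cfsg.Agent.S3012

theorem result {G : Type*} [Group G] [Finite G] (V K : Subgroup G) [K.Normal] (hV : Cfsg.IsElementaryAbelian 2 V) (hV1 : V ≠ ⊥) (hS : Cfsg.IsSidkiPair V) (hVK : V ⊓ K = ⊥) : Cfsg.IsSidkiPair (V.map (QuotientGroup.mk' K)) := by
  have hnontriv : ∀ w ∈ V, w ≠ 1 → (QuotientGroup.mk' K w) ≠ 1 := by
    intro w hw hw1 h
    apply hw1
    have : w ∈ V ⊓ K := ⟨hw, (QuotientGroup.eq_one_iff w).1 h⟩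
    rwa [hVK, Subgroup.mem_bot] at this
  rintro hb vb ⟨v, hv, rfl⟩ hodd hinv
  -- k with hb = k ^ 2
  obtain ⟨m, hm⟩ := hodd
  obtain ⟨k, hk⟩ := QuotientGroup.mk'_surjective K (hb ^ (m + 1))
  have hsq : (hb ^ (m + 1)) ^ 2 = hb := by
    rw [← pow_mul, show (m + 1) * 2 = (2 * m + 1) + 1 by ring, pow_succ, ← hm,
      pow_orderOf_eq_one, one_mul]
  have hv2 : v * v = 1 := by have := hV.2 v hv; rwa [pow_two] at this
  have hvinv : v⁻¹ = v := by rw [inv_eq_iff_mul_eq_one]; exact hv2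
  set h' : G := k * v * k⁻¹ * v with hh'
  have hmap : QuotientGroup.mk' K h' = hb := by
    have h1 : QuotientGroup.mk' K h' = hb ^ (m + 1) * (QuotientGroup.mk' K v) * (hb ^ (m + 1))⁻¹ *
        (QuotientGroup.mk' K v)⁻¹ := by
      rw [← hk, ← map_inv (QuotientGroup.mk' K) v, hvinv, hh']
      simp only [map_mul, map_inv]
    have h2 : QuotientGroup.mk' K v * (hb ^ (m + 1))⁻¹ * (QuotientGroup.mk' K v)⁻¹ = hb ^ (m + 1) := by
      rw [← inv_pow, ← conj_pow, ← conj_inv, hinv, inv_inv]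
    calc QuotientGroup.mk' K h' = hb ^ (m + 1) * ((QuotientGroup.mk' K v) * (hb ^ (m + 1))⁻¹ *
        (QuotientGroup.mk' K v)⁻¹) := by rw [h1]; group
      _ = hb := by rw [h2, ← pow_two, hsq]
  have hinv' : v * h' * v⁻¹ = h'⁻¹ := by
    have h1 : h'⁻¹ = v⁻¹ * k * v⁻¹ * k⁻¹ := by rw [hh']; group
    rw [h1, hvinv, hh']
    calc v * (k * v * k⁻¹ * v) * v = v * k * v * k⁻¹ * (v * v) := by group
      _ = _ := by rw [hv2, mul_one]
  -- pass to an odd-order power congruent to h'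
  obtain ⟨a, n, hn, hord⟩ : ∃ a n : ℕ, Odd n ∧ orderOf h' = 2 ^ a * n := by
    obtain ⟨a, n, hn, h⟩ := Nat.exists_eq_two_pow_mul_odd (orderOf_pos h').ne'
    exact ⟨a, n, hn, h⟩
  obtain ⟨e, he1, he2⟩ : ∃ e : ℕ, e ≡ 0 [MOD 2 ^ a] ∧ e ≡ 1 [MOD (2 * m + 1)] := by
    have hcop : Nat.Coprime (2 ^ a) (2 * m + 1) := by
      apply Nat.Coprime.pow_left
      simp
    exact ⟨(Nat.chineseRemainder hcop 0 1 : ℕ), (Nat.chineseRemainder hcop 0 1).2.1,
      (Nat.chineseRemainder hcop 0 1).2.2⟩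
  have hodd' : Odd (orderOf (h' ^ e)) := by
    have h1 : (h' ^ e) ^ n = 1 := by
      rw [← pow_mul, ← orderOf_dvd_iff_pow_eq_one, hord]
      exact Nat.mul_dvd_mul ((Nat.modEq_zero_iff_dvd).1 he1) dvd_rfl
    exact Odd.of_dvd_nat hn (orderOf_dvd_of_pow_eq_one h1)
  have hinv'' : v * h' ^ e * v⁻¹ = (h' ^ e)⁻¹ := by
    rw [← conj_pow, hinv', inv_pow]
  obtain ⟨w, hw, hw1, hwc⟩ := hS (h' ^ e) v hv hodd' hinv''
  refine ⟨QuotientGroup.mk' K w, ⟨w, hw, rfl⟩, hnontriv w hw hw1, ?_⟩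
  have h3 : QuotientGroup.mk' K (h' ^ e) = hb := by
    rw [map_pow, hmap]
    have h4 : hb ^ e = hb ^ 1 := by
      rw [pow_eq_pow_iff_modEq, hm]
      exact he2
    rw [h4, pow_one]
  rw [← h3, ← map_mul, hwc, map_mul]

end Cfsg.Agent.S3012
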