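import Cfsg.Statements.S3013

set_option autoImplicit false
open Cfsg
namespace Cfsg.Agent.S3013

theorem result {G : Type*} [Group G] [Finite G] (V : Subgroup G) (hV : Cfsg.IsElementaryAbelian 2 V) (hV1 : V ≠ ⊥) (hS : Cfsg.IsSidkiPair V) (v x : G) (hv : v ∈ V) (hx : Odd (orderOf x)) (hinv : v * x * v⁻¹ = x⁻¹) (C : Subgroup G) (hC : C = Subgroup.centralizer ({v} : Set G) ⊓ Subgroup.centralizer ({x} : Set G)) : C ⊓ V ≠ ⊥ ∧ Cfsg.IsSidkiPair ((C ⊓ V).subgroupOf C) := by
  have hcomm : ∀ a ∈ V, ∀ b ∈ V, a * b = b * a := by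
    intro a ha b hb
    have := hV.1.1.1 (⟨a, ha⟩ : V) ⟨b, hb⟩
    exact congrArg Subtype.val this
  constructor
  · obtain ⟨w, hw, hw1, hwc⟩ := hS x v hv hx hinv
    intro h
    apply hw1
    have : w ∈ C ⊓ V := by
      refine ⟨?_, hw⟩
      rw [hC]
      exact ⟨Subgroup.mem_centralizer_singleton_iff.2 (hcomm w hw v hv),
        Subgroup.mem_centralizer_singleton_iff.2 hwc⟩
    rwa [h, Subgroup.mem_bot] at this
  · rintro ⟨h, hh⟩ ⟨u, hu⟩ huV hodd hinvu
    have huV' : u ∈ V := (Subgroup.mem_subgroupOf.1 huV).2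
    have hodd' : Odd (orderOf h) := by rwa [Subgroup.orderOf_mk] at hodd
    have hinvu' : u * h * u⁻¹ = h⁻¹ := congrArg Subtype.val hinvu
    rw [hC] at hh hu
    have hhv : h * v = v * h := Subgroup.mem_centralizer_singleton_iff.1 hh.1
    have hhx : h * x = x * h := Subgroup.mem_centralizer_singleton_iff.1 hh.2
    have hux : u * x = x * u := Subgroup.mem_centralizer_singleton_iff.1 hu.2
    have hoddxh : Odd (orderOf (x * h)) := by
      have h1 : Commute x h := hhx.symm
      exact Odd.of_dvd_nat (hx.mul hodd') h1.orderOf_mul_dvd_mul_orderOf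
    have hinvx : (u * v) * (x * h) * (u * v)⁻¹ = (x * h)⁻¹ := by
      have h1 : v * h * v⁻¹ = h := by rw [← hhv]; group
      have h2 : u * x⁻¹ * u⁻¹ = x⁻¹ := by
        rw [← conj_inv, hux]; group
      calc (u * v) * (x * h) * (u * v)⁻¹ = u * ((v * x * v⁻¹) * (v * h * v⁻¹)) * u⁻¹ := by group
        _ = (u * x⁻¹ * u⁻¹) * (u * h * u⁻¹) := by rw [hinv, h1]; group
        _ = x⁻¹ * h⁻¹ := by rw [h2, hinvu']
        _ = (x * h)⁻¹ := by rw [← mul_inv_rev, hhx]
    obtain ⟨w, hw, hw1, hwc⟩ := hS (x * h) (u * v) (mul_mem huV' hv) hoddxh hinvx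
    have hwv : w * v = v * w := hcomm w hw v hv
    -- w commutes with x⁻¹ h
    have hwc1 : Commute w (x * h) := hwc
    have hwc2 : Commute w (x⁻¹ * h) := by
      have h1 : x⁻¹ * h = v * (x * h) * v⁻¹ := by
        calc x⁻¹ * h = (v * x * v⁻¹) * (v * h * v⁻¹) := by rw [hinv, ← hhv]; group
          _ = _ := by group
      rw [h1]
      have h2 : Commute w v := hwv
      exact (h2.mul_right hwc1).mul_right h2.inv_right
    have hwh2 : Commute w (h ^ 2) := by
      have h1 : h ^ 2 = (x * h) * (x⁻¹ * h) := by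
        have h2 : h * x⁻¹ = x⁻¹ * h := by
          have h3 : Commute h x := hhx
          exact h3.inv_right.eq
        calc h ^ 2 = h * h := pow_two h
          _ = x * (x⁻¹ * h) * h := by group
          _ = x * (h * x⁻¹) * h := by rw [h2]
          _ = _ := by group
      rw [h1]
      exact hwc1.mul_right hwc2
    have hwh : Commute w h := by
      obtain ⟨m, hm⟩ := hodd'
      have h1 : h = (h ^ 2) ^ (m + 1) := by
        rw [← pow_mul, show 2 * (m + 1) = (2 * m + 1) + 1 by ring, pow_succ, ← hm,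
          pow_orderOf_eq_one, one_mul]
      rw [h1]; exact hwh2.pow_right _
    have hwx : Commute w x := by
      have h1 : x = (x * h) * h⁻¹ := by group
      rw [h1]; exact hwc1.mul_right hwh.inv_right
    have hwC : w ∈ C := by
      rw [hC]
      exact ⟨Subgroup.mem_centralizer_singleton_iff.2 hwv,
        Subgroup.mem_centralizer_singleton_iff.2 hwx.eq⟩
    refine ⟨⟨w, hwC⟩, ?_, ?_, ?_⟩
    · rw [Subgroup.mem_subgroupOf]; exact ⟨hwC, hw⟩
    · intro h1; exact hw1 (congrArg Subtype.val h1)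
    · exact Subtype.ext hwh.eq

end Cfsg.Agent.S3013
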