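import Cfsg.Statements.S2278
import Cfsg.Agent.Lib.H43.RegPair

set_option autoImplicit false
open Cfsg

namespace Cfsg.Agent.S2278


open Matrix H43.RegUni H43.RegHess H43.RegPair H43.RegCrit H94.Transv Cfsg.Geo

theorem ext3 {F : Type*} [Field F] {a11 a12 a13 a21 a22 a23 a31 a32 a33 b11 b12 b13 b21 b22 b23 b31 b32 b33 : F}
    (h11 : a11 = b11) (h12 : a12 = b12) (h13 : a13 = b13) (h21 : a21 = b21) (h22 : a22 = b22) (h23 : a23 = b23)
    (h31 : a31 = b31) (h32 : a32 = b32) (h33 : a33 = b33) :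
    (!![a11, a12, a13; a21, a22, a23; a31, a32, a33] : Matrix (Fin 3) (Fin 3) F) =
      !![b11, b12, b13; b21, b22, b23; b31, b32, b33] := by
  rw [h11, h12, h13, h21, h22, h23, h31, h32, h33]

theorem l_AU {F : Type*} [Field F] {z : F} (hz : z ^ 2 = z + 1) (h2 : (2 : F) = 0) :
    (!![1, 0, 0; (z + 1), 1, 1; 1, 0, 1] : Matrix (Fin 3) (Fin 3) F) * !![0, 0, z; z, z, 0; 0, z, (z + 1)] = !![0, 0, z; z, z, 0; 0, z, (z + 1)] * !![1, 1, 0; 0, 1, 1; 0, 0, 1] := by
  rw [Matrix.mul_fin_three, Matrix.mul_fin_three]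
  exact ext3 (by linear_combination (0 : F) * hz + ((0 : F) + (0 : F) * z) * h2) (by linear_combination (0 : F) * hz + ((0 : F) + (0 : F) * z) * h2) (by linear_combination (0 : F) * hz + ((0 : F) + (0 : F) * z) * h2) (by linear_combination (0 : F) * hz + ((0 : F) + (0 : F) * z) * h2) (by linear_combination (0 : F) * hz + ((0 : F) + (0 : F) * z) * h2) (by linear_combination (1 : F) * hz + ((1 : F) + (1 : F) * z) * h2) (by linear_combination (0 : F) * hz + ((0 : F) + (0 : F) * z) * h2) (by linear_combination (0 : F) * hz + ((0 : F) + (0 : F) * z) * h2) (by linear_combination (0 : F) * hz + ((0 : F) + (0 : F) * z) * h2)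

theorem l_UB {F : Type*} [Field F] {z : F} (hz : z ^ 2 = z + 1) (h2 : (2 : F) = 0) :
    (!![0, 0, z; z, z, 0; 0, z, (z + 1)] : Matrix (Fin 3) (Fin 3) F) * !![(z + 1), (z + 1), z; z, (z + 1), 0; 1, 1, 1] = !![1, 1, 0; 0, 1, 1; 0, 0, 1] * !![0, 0, z; z, z, 0; 0, z, (z + 1)] := by
  rw [Matrix.mul_fin_three, Matrix.mul_fin_three]
  exact ext3 (by linear_combination (0 : F) * hz + ((0 : F) + (0 : F) * z) * h2) (by linear_combination (0 : F) * hz + ((0 : F) + (0 : F) * z) * h2) (by linear_combination (0 : F) * hz + ((0 : F) + (0 : F) * z) * h2) (by linear_combination (2 : F) * hz + ((1 : F) + (1 : F) * z) * h2) (by linear_combination (2 : F) * hz + ((1 : F) + (1 : F) * z) * h2) (by linear_combination (1 : F) * hz + ((0 : F) + (0 : F) * z) * h2) (by linear_combination (1 : F) * hz + ((1 : F) + (1 : F) * z) * h2) (by linear_combination (1 : F) * hz + ((1 : F) + (1 : F) * z) * h2) (by linear_combination (0 : F) * hz + ((0 : F) + (0 : F) * z) * h2)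

theorem l_AT {F : Type*} [Field F] {z : F} (hz : z ^ 2 = z + 1) (h2 : (2 : F) = 0) :
    (!![1, 0, 0; (z + 1), 1, 1; 1, 0, 1] : Matrix (Fin 3) (Fin 3) F) * !![1, 0, z; 0, 1, 0; 0, 0, 1] = !![1, 0, z; (z + 1), 1, 0; 1, 0, (z + 1)] := by
  rw [Matrix.mul_fin_three]
  exact ext3 (by linear_combination (0 : F) * hz + ((0 : F) + (0 : F) * z) * h2) (by linear_combination (0 : F) * hz + ((0 : F) + (0 : F) * z) * h2) (by linear_combination (0 : F) * hz + ((0 : F) + (0 : F) * z) * h2) (by linear_combination (0 : F) * hz + ((0 : F) + (0 : F) * z) * h2) (by linear_combination (0 : F) * hz + ((0 : F) + (0 : F) * z) * h2) (by linear_combination (1 : F) * hz + ((1 : F) + (1 : F) * z) * h2) (by linear_combination (0 : F) * hz + ((0 : F) + (0 : F) * z) * h2) (by linear_combination (0 : F) * hz + ((0 : F) + (0 : F) * z) * h2) (by linear_combination (0 : F) * hz + ((0 : F) + (0 : F) * z) * h2)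

theorem l_ATB {F : Type*} [Field F] {z : F} (hz : z ^ 2 = z + 1) (h2 : (2 : F) = 0) :
    (!![1, 0, z; (z + 1), 1, 0; 1, 0, (z + 1)] : Matrix (Fin 3) (Fin 3) F) * !![(z + 1), (z + 1), z; z, (z + 1), 0; 1, 1, 1] = !![1, 1, 0; 0, 1, 1; 0, 0, 1] := by
  rw [Matrix.mul_fin_three]
  exact ext3 (by linear_combination (0 : F) * hz + ((0 : F) + (1 : F) * z) * h2) (by linear_combination (0 : F) * hz + ((0 : F) + (1 : F) * z) * h2) (by linear_combination (0 : F) * hz + ((0 : F) + (1 : F) * z) * h2) (by linear_combination (1 : F) * hz + ((1 : F) + (2 : F) * z) * h2) (by linear_combination (1 : F) * hz + ((1 : F) + (2 : F) * z) * h2) (by linear_combination (1 : F) * hz + ((0 : F) + (1 : F) * z) * h2) (by linear_combination (0 : F) * hz + ((1 : F) + (1 : F) * z) * h2) (by linear_combination (0 : F) * hz + ((1 : F) + (1 : F) * z) * h2) (by linear_combination (0 : F) * hz + ((0 : F) + (1 : F) * z) * h2)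

theorem l_Ug {F : Type*} [Field F] {z : F} (hz : z ^ 2 = z + 1) (h2 : (2 : F) = 0) :
    (!![0, 0, z; z, z, 0; 0, z, (z + 1)] : Matrix (Fin 3) (Fin 3) F) * !![1, 1, 1; (z + 1), z, 0; (z + 1), 0, 0] = !![1, 1, 1; (z + 1), z, 0; (z + 1), 0, 0] * !![1, 1, 0; 0, 1, 1; 0, 0, 1] := by
  rw [Matrix.mul_fin_three, Matrix.mul_fin_three]
  exact ext3 (by linear_combination (1 : F) * hz + ((0 : F) + (1 : F) * z) * h2) (by linear_combination (0 : F) * hz + ((-1 : F) + (0 : F) * z) * h2) (by linear_combination (0 : F) * hz + ((-1 : F) + (0 : F) * z) * h2) (by linear_combination (1 : F) * hz + ((0 : F) + (1 : F) * z) * h2) (by linear_combination (1 : F) * hz + ((0 : F) + (0 : F) * z) * h2) (by linear_combination (0 : F) * hz + ((0 : F) + (0 : F) * z) * h2) (by linear_combination (2 : F) * hz + ((1 : F) + (2 : F) * z) * h2) (by linear_combination (1 : F) * hz + ((0 : F) + (0 : F) * z) * h2) (by linear_combination (0 : F) * hz + ((0 : F) + (0 : F) * z) * h2)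

theorem l_XX {F : Type*} [Field F] {z : F} (hz : z ^ 2 = z + 1) (h2 : (2 : F) = 0) :
    (!![1, 1, 0; 0, 1, 1; 0, 0, 1] : Matrix (Fin 3) (Fin 3) F) * !![1, 1, 0; 0, 1, 1; 0, 0, 1] = !![1, 0, 1; 0, 1, 0; 0, 0, 1] := by
  rw [Matrix.mul_fin_three]
  exact ext3 (by linear_combination (0 : F) * hz + ((0 : F) + (0 : F) * z) * h2) (by linear_combination (0 : F) * hz + ((1 : F) + (0 : F) * z) * h2) (by linear_combination (0 : F) * hz + ((0 : F) + (0 : F) * z) * h2) (by linear_combination (0 : F) * hz + ((0 : F) + (0 : F) * z) * h2) (by linear_combination (0 : F) * hz + ((0 : F) + (0 : F) * z) * h2) (by linear_combination (0 : F) * hz + ((1 : F) + (0 : F) * z) * h2) (by linear_combination (0 : F) * hz + ((0 : F) + (0 : F) * z) * h2) (by linear_combination (0 : F) * hz + ((0 : F) + (0 : F) * z) * h2) (by linear_combination (0 : F) * hz + ((0 : F) + (0 : F) * z) * h2)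


theorem JS_eq {F : Type*} [Field F] : ((JS 3 F : Matrix.SpecialLinearGroup (Fin 3) F) : Matrix (Fin 3) (Fin 3) F) =
    !![1, 1, 0; 0, 1, 1; 0, 0, 1] := by
  change 1 + NN 3 F = _
  ext i j
  fin_cases i <;> fin_cases j <;> simp [NN]

theorem JS_regular {F : Type*} [Field F] : IsNilpotent (((JS 3 F : Matrix.SpecialLinearGroup (Fin 3) F) : Matrix (Fin 3) (Fin 3) F) - 1) ∧
    (((JS 3 F : Matrix.SpecialLinearGroup (Fin 3) F) : Matrix (Fin 3) (Fin 3) F) - 1) ^ (3 - 1) ≠ 0 := by
  change IsNilpotent (1 + NN 3 F - 1) ∧ (1 + NN 3 F - 1) ^ (3 - 1) ≠ 0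
  rw [add_sub_cancel_left]; exact ⟨NN_nilpotent, NN_pow_ne (by omega)⟩

theorem hasT_sq {F : Type*} [Field F] (h2 : (2 : F) = 0) {K : Subgroup (GL (Fin 3) F)}
    (hx : Matrix.SpecialLinearGroup.toGL (JS 3 F) ∈ K) :
    HasT K (Pi.single (0 : Fin 3) 1) (Pi.single (2 : Fin 3) 1) := by
  refine ⟨by simp, _, K.mul_mem hx hx, ?_⟩
  rw [← map_mul]
  change ((JS 3 F * JS 3 F : Matrix.SpecialLinearGroup (Fin 3) F) : Matrix (Fin 3) (Fin 3) F) = _
  rw [Matrix.SpecialLinearGroup.coe_mul, JS_eq, Matrix.mul_fin_three]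
  have : (tm (Pi.single (0 : Fin 3) 1) (Pi.single (2 : Fin 3) 1) : Matrix (Fin 3) (Fin 3) F) =
      !![1, 0, 1; 0, 1, 0; 0, 0, 1] := by
    ext i j
    fin_cases i <;> fin_cases j <;> simp [tm, vecMulVec_apply]
  rw [this]
  exact ext3 (by ring) (by linear_combination h2) (by ring) (by ring) (by ring) (by linear_combination h2)
    (by ring) (by ring) (by ring)

/-- `q = 2` -/
theorem case2 {F : Type*} [Field F] [Fintype F] (hq : Fintype.card F = 2) :
    Subgroup.closure ({JS 3 F, gS (by omega) * JS 3 F * (gS (by omega))⁻¹} : Set (Matrix.SpecialLinearGroup (Fin 3) F)) = ⊤ := by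
  classical
  have h2 : (2 : F) = 0 := by
    have := FiniteField.cast_card_eq_zero F
    rw [hq] at this
    exact_mod_cast this
  apply eq_top_of_map
  set H := Subgroup.closure ({JS 3 F, gS (by omega) * JS 3 F * (gS (by omega))⁻¹} : Set (Matrix.SpecialLinearGroup (Fin 3) F)) with hH
  have m1 : JS 3 F ∈ H := Subgroup.subset_closure (by simp)
  have m2 : gS (by omega) * JS 3 F * (gS (by omega))⁻¹ ∈ H := Subgroup.subset_closure (by simp)
  obtain ⟨κ₀, hκ, hmain⟩ := exists_kappa (n := 3) le_rfl (ll 3 F) ll_ne (u := Matrix.SpecialLinearGroup.toGL (JS 3 F))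
    (w := Matrix.SpecialLinearGroup.toGL (gS (by omega) * JS 3 F * (gS (by omega))⁻¹)) rfl (gS_conj (by omega))
  refine hmain (K := H.map Matrix.SpecialLinearGroup.toGL) ⟨_, m1, rfl⟩ ⟨_, m2, rfl⟩ 1 ?_ (hasT_sq h2 ⟨_, m1, rfl⟩)
  intro x hx
  refine ⟨0, ?_⟩
  rw [pow_zero, mul_one]
  have h3 := FiniteField.pow_card_sub_one_eq_one x hx
  rw [hq] at h3
  simpa using h3

/-- `q = 4` -/
theorem case4 {F : Type*} [Field F] [Fintype F] (hq : Fintype.card F = 4) :
    ∃ g : Matrix.SpecialLinearGroup (Fin 3) F,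
    Subgroup.closure ({JS 3 F, g * JS 3 F * g⁻¹} : Set (Matrix.SpecialLinearGroup (Fin 3) F)) = ⊤ := by
  classical
  have h2 : (2 : F) = 0 := by
    have h4 := FiniteField.cast_card_eq_zero F
    rw [hq] at h4
    have h5 : (2 : F) * 2 = 0 := by
      rw [← h4]; norm_num
    rcases mul_eq_zero.1 h5 with h | h <;> exact h
  obtain ⟨z, hz0, hzg, hzo⟩ := exists_zeta F
  have hz1 : z ≠ 1 := by
    intro h
    have := hzo 1 (by rw [h, one_pow])
    rw [hq] at this
    revert this; decide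
  have hz3 : z ^ 3 = 1 := by
    have := FiniteField.pow_card_sub_one_eq_one z hz0
    rw [hq] at this
    exact this
  have hz : z ^ 2 = z + 1 := by
    have h6 : (z - 1) * (z ^ 2 + z + 1) = 0 := by linear_combination hz3
    rcases mul_eq_zero.1 h6 with h | h
    · exact absurd (sub_eq_zero.1 h) hz1
    · linear_combination h - (z + 1) * h2
  let g : Matrix.SpecialLinearGroup (Fin 3) F := ⟨!![1, 1, 1; (z + 1), z, 0; (z + 1), 0, 0], by
    rw [Matrix.det_fin_three]
    simp
    linear_combination (-1 : F) * hz - (z + 1) * h2⟩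
  let U : Matrix (Fin 3) (Fin 3) F := !![0, 0, z; z, z, 0; 0, z, (z + 1)]
  have hgv : (g : Matrix (Fin 3) (Fin 3) F) = !![1, 1, 1; (z + 1), z, 0; (z + 1), 0, 0] := rfl
  have hU : ((g * JS 3 F * g⁻¹ : Matrix.SpecialLinearGroup (Fin 3) F) : Matrix (Fin 3) (Fin 3) F) = U := by
    have e1 : U * (g : Matrix (Fin 3) (Fin 3) F) = (g : Matrix (Fin 3) (Fin 3) F) * (JS 3 F : Matrix (Fin 3) (Fin 3) F) := by
      rw [hgv, JS_eq]; exact l_Ug hz h2
    rw [Matrix.SpecialLinearGroup.coe_mul, Matrix.SpecialLinearGroup.coe_mul, ← e1, mul_assoc,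
      ← Matrix.SpecialLinearGroup.coe_mul, mul_inv_cancel, Matrix.SpecialLinearGroup.coe_one, mul_one]
  refine ⟨g, ?_⟩
  set u : Matrix.SpecialLinearGroup (Fin 3) F := g * JS 3 F * g⁻¹ with hu
  apply eq_top_of_map
  set H := Subgroup.closure ({JS 3 F, u} : Set (Matrix.SpecialLinearGroup (Fin 3) F)) with hH
  have m1 : JS 3 F ∈ H := Subgroup.subset_closure (by simp)
  have m2 : u ∈ H := Subgroup.subset_closure (by simp)
  -- the word
  have hA : ((u * JS 3 F * u⁻¹ : Matrix.SpecialLinearGroup (Fin 3) F) : Matrix (Fin 3) (Fin 3) F) = !![1, 0, 0; (z + 1), 1, 1; 1, 0, 1] := by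
    have e1 := l_AU hz h2
    rw [Matrix.SpecialLinearGroup.coe_mul, Matrix.SpecialLinearGroup.coe_mul, hU, JS_eq, ← e1, mul_assoc]
    change _ * (U * _) = _
    rw [← hU, ← Matrix.SpecialLinearGroup.coe_mul, mul_inv_cancel, Matrix.SpecialLinearGroup.coe_one, mul_one]
  have hB : ((u⁻¹ * JS 3 F * u : Matrix.SpecialLinearGroup (Fin 3) F) : Matrix (Fin 3) (Fin 3) F) = !![(z + 1), (z + 1), z; z, (z + 1), 0; 1, 1, 1] := by
    have e1 := l_UB hz h2
    rw [mul_assoc, Matrix.SpecialLinearGroup.coe_mul, Matrix.SpecialLinearGroup.coe_mul, hU, JS_eq]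
    change _ * (_ * U) = _
    change U * _ = _ * U at e1
    rw [← e1, ← hU, ← mul_assoc, ← Matrix.SpecialLinearGroup.coe_mul, inv_mul_cancel, Matrix.SpecialLinearGroup.coe_one, one_mul]
  have hT : HasT (H.map Matrix.SpecialLinearGroup.toGL) (Pi.single (0 : Fin 3) 1) (z • Pi.single (2 : Fin 3) 1) := by
    refine ⟨by simp, Matrix.SpecialLinearGroup.toGL ((u * JS 3 F * u⁻¹)⁻¹ * JS 3 F * (u⁻¹ * JS 3 F * u)⁻¹),
      ⟨_, H.mul_mem (H.mul_mem (H.inv_mem (H.mul_mem (H.mul_mem m2 m1) (H.inv_mem m2))) m1)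
        (H.inv_mem (H.mul_mem (H.mul_mem (H.inv_mem m2) m1) m2)), rfl⟩, ?_⟩
    have e0 : (tm (Pi.single (0 : Fin 3) 1) (z • Pi.single (2 : Fin 3) 1) : Matrix (Fin 3) (Fin 3) F) =
        !![1, 0, z; 0, 1, 0; 0, 0, 1] := by
      ext i j
      fin_cases i <;> fin_cases j <;> simp [tm, vecMulVec_apply]
    rw [e0]
    change (((u * JS 3 F * u⁻¹)⁻¹ * JS 3 F * (u⁻¹ * JS 3 F * u)⁻¹ : Matrix.SpecialLinearGroup (Fin 3) F) : Matrix (Fin 3) (Fin 3) F) = _
    rw [Matrix.SpecialLinearGroup.coe_mul, Matrix.SpecialLinearGroup.coe_mul, JS_eq, ← l_ATB hz h2, ← l_AT hz h2, ← hA, ← hB]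
    rw [← mul_assoc, ← mul_assoc, ← Matrix.SpecialLinearGroup.coe_mul, inv_mul_cancel, Matrix.SpecialLinearGroup.coe_one,
      one_mul, mul_assoc, ← Matrix.SpecialLinearGroup.coe_mul, mul_inv_cancel, Matrix.SpecialLinearGroup.coe_one, mul_one]
  have hT1 : HasT (H.map Matrix.SpecialLinearGroup.toGL) (Pi.single (0 : Fin 3) 1) (Pi.single (2 : Fin 3) 1) :=
    hasT_sq h2 ⟨_, m1, rfl⟩
  have hUH : Hess U := by
    constructor
    · intro i j hij
      fin_cases i <;> fin_cases j <;> simp [U] at hij ⊢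
    · intro i j hij
      fin_cases i <;> fin_cases j <;> simp [U] at hij ⊢ <;> exact hz0
  have hc : Cyc (Matrix.SpecialLinearGroup.toGL u) (Pi.single (0 : Fin 3) 1) (Pi.single (2 : Fin 3) 1) := by
    apply Hess.toCyc _ (by omega)
    change Hess ((u : Matrix.SpecialLinearGroup (Fin 3) F) : Matrix (Fin 3) (Fin 3) F)
    rw [hU]; exact hUH
  apply hc.specialLinear_le (K := H.map Matrix.SpecialLinearGroup.toGL) ⟨_, m2, rfl⟩ (by omega)
  intro a
  by_cases ha : a = 0
  · rw [ha, zero_smul]; exact HasT.zero_right _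
  obtain ⟨k, rfl⟩ := hzg a ha
  have hred : z ^ k = z ^ (k % 3) := by
    conv_lhs => rw [← Nat.div_add_mod k 3, pow_add, pow_mul, hz3, one_pow, one_mul]
  rw [hred]
  have : k % 3 < 3 := Nat.mod_lt _ (by norm_num)
  interval_cases (k % 3)
  · simpa using hT1
  · simpa using hT
  · rw [hz, add_smul, one_smul]
    exact hT.add_right hT1

/-- the remaining fields -/
theorem case_gen {F : Type*} [Field F] [Fintype F] (hq2 : Fintype.card F ≠ 2) (hq4 : Fintype.card F ≠ 4) :
    ∃ g : Matrix.SpecialLinearGroup (Fin 3) F,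
    Subgroup.closure ({WS 3 F, g * WS 3 F * g⁻¹} : Set (Matrix.SpecialLinearGroup (Fin 3) F)) = ⊤ := by
  classical
  have hq1 : 1 < Fintype.card F := Fintype.one_lt_card
  obtain ⟨z, hz0, hzg, hzo⟩ := exists_zeta F
  let d : Fin 3 → F := ![z, (z ^ 2)⁻¹, z]
  have hz1 : z ≠ 1 := by
    intro h
    have := Nat.le_of_dvd one_pos (hzo 1 (by rw [h, one_pow]))
    omega
  have hz3 : (z ^ 2)⁻¹ ≠ z := by
    intro h
    have h3 : z ^ 3 = 1 := by
      rw [pow_succ]
      nth_rewrite 2 [← h]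
      exact mul_inv_cancel₀ (pow_ne_zero 2 hz0)
    have h4 := hzo 3 h3
    have h5 := (Nat.dvd_prime Nat.prime_three).1 h4
    omega
  have hdne : ∀ i, d i ≠ 0 := by
    intro i
    fin_cases i
    · exact hz0
    · exact inv_ne_zero (pow_ne_zero 2 hz0)
    · exact hz0
  have hprod : ∏ i, d i = 1 := by
    rw [Fin.prod_univ_three]
    change z * (z ^ 2)⁻¹ * z = 1
    field_simp
  have hne : ∀ i : Fin 3, (i : ℕ) ≠ 0 → (i : ℕ) ≠ 3 - 1 → d i ≠ z := by
    intro i h0 h1
    fin_cases i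
    · exact absurd rfl h0
    · exact hz3
    · exact absurd rfl h1
  have hμ : ∀ S : AddSubgroup F, (∀ s ∈ S, (d ⟨3 - 2, by omega⟩ / z) * s ∈ S) → ∀ x ∈ S, x ≠ 0 → ∀ a, a ∈ S := by
    intro S hS x hx hx0 a
    let L : Subfield F :=
      { carrier := {a | ∀ s ∈ S, a * s ∈ S}
        mul_mem' := by
          intro a b ha hb s hs
          rw [mul_assoc]; exact ha _ (hb _ hs)
        one_mem' := by intro s hs; rwa [one_mul]
        add_mem' := by
          intro a b ha hb s hs
          rw [add_mul]; exact S.add_mem (ha s hs) (hb s hs)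
        zero_mem' := by intro s _; rw [zero_mul]; exact S.zero_mem
        neg_mem' := by
          intro a ha s hs
          rw [neg_mul]; exact S.neg_mem (ha s hs)
        inv_mem' := by
          intro a ha s hs
          by_cases ha0 : a = 0
          · rw [ha0, _root_.inv_zero, zero_mul]; exact S.zero_mem
          have hpow : ∀ k : ℕ, a ^ k * s ∈ S := by
            intro k
            induction k with
            | zero => rwa [pow_zero, one_mul]
            | succ k ih => rw [pow_succ', mul_assoc]; exact ha _ ih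
          have h1 : a⁻¹ = a ^ (Fintype.card F - 2) := by
            symm
            apply eq_inv_of_mul_eq_one_left
            rw [← pow_succ]
            have : Fintype.card F - 2 + 1 = Fintype.card F - 1 := by omega
            rw [this]
            exact FiniteField.pow_card_sub_one_eq_one a ha0
          rw [h1]; exact hpow _ }
    have hμL : (d ⟨3 - 2, by omega⟩ / z) ∈ L := hS
    have hLtop : L = ⊤ := by
      by_contra hLt
      have hr1 : 1 < Fintype.card L := Fintype.one_lt_card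
      have hcard : Fintype.card F = Fintype.card L ^ Module.finrank L F := Module.card_eq_pow_finrank
      set r := Fintype.card L with hr
      have hm : 2 ≤ Module.finrank L F := by
        by_contra hcon
        have h01 : Module.finrank L F = 0 ∨ Module.finrank L F = 1 := by omega
        rcases h01 with h | h
        · rw [h, pow_zero] at hcard; omega
        · rw [h, pow_one] at hcard
          apply hLt
          rw [eq_top_iff]
          intro y _
          have hbij : Function.Bijective (L.subtype) :=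
            (Fintype.bijective_iff_injective_and_card _).2 ⟨Subtype.val_injective, hcard.symm⟩
          obtain ⟨w, hw⟩ := hbij.2 y
          rw [← hw]; exact w.2
      have hz3L : (z ^ 3) ^ (r - 1) = 1 := by
        have h1 : (d ⟨3 - 2, by omega⟩ / z) = (z ^ 3)⁻¹ := by
          change (z ^ 2)⁻¹ / z = _
          field_simp
        rw [h1] at hμL
        have h2 : z ^ 3 ∈ L := by
          have := L.inv_mem hμL
          rwa [inv_inv] at this
        have h3 := FiniteField.pow_card_sub_one_eq_one (⟨z ^ 3, h2⟩ : L) (by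
          intro h
          exact pow_ne_zero 3 hz0 (congrArg Subtype.val h))
        have h4 := congrArg Subtype.val h3
        simpa using h4
      rw [← pow_mul] at hz3L
      have hdvd := hzo _ hz3L
      have hle := Nat.le_of_dvd (by omega) hdvd
      have hr2 : r ^ 2 ≤ Fintype.card F := by
        rw [hcard]; exact Nat.pow_le_pow_right (by omega) hm
      have hr3 : r = 2 := by
        have : r ^ 2 - 1 ≤ 3 * (r - 1) := by omega
        obtain ⟨s, hs⟩ : ∃ s, r = s + 2 := ⟨r - 2, by omega⟩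
        rw [hs] at this ⊢
        have h1 : (s + 2) ^ 2 - 1 = s * s + 4 * s + 3 := by
          have : (s + 2) ^ 2 = s * s + 4 * s + 3 + 1 := by ring
          rw [this]; simp
        rw [h1] at this
        have h2 : 3 * (s + 2 - 1) = 3 * s + 3 := by omega
        rw [h2] at this
        have : s = 0 := by nlinarith
        omega
      rw [hr3] at hle hr2
      omega
    have : a / x ∈ L := by rw [hLtop]; trivial
    have := this x hx
    rwa [div_mul_cancel₀ _ hx0] at this
  obtain ⟨u, y, hy, hu, hH, hnil, hcl⟩ := exists_pair (n := 3) le_rfl d z rfl rfl hdne hprod hz1 hne hμ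
  have hy2 : y 2 = 0 := hy
  -- the conjugating matrix
  set M : Matrix (Fin 3) (Fin 3) F := (u : Matrix (Fin 3) (Fin 3) F) - 1 with hM
  set e0 : Fin 3 → F := Pi.single (⟨0, by omega⟩ : Fin 3) 1 with he0
  let G : Matrix (Fin 3) (Fin 3) F := fun i k => (M ^ (k : ℕ) *ᵥ e0) i
  have hMG : M * G = G * LL (fun _ => 1) := by
    ext i k
    have e1 : (M * G) i k = (M ^ ((k : ℕ) + 1) *ᵥ e0) i := by
      rw [_root_.pow_succ', ← Matrix.mulVec_mulVec]
      rfl
    rw [e1, Matrix.mul_apply, Fin.sum_univ_three]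
    fin_cases k
    · simp [LL, G]
    · simp [LL, G]
    · change (M ^ 3 *ᵥ e0) i = _
      rw [hnil, Matrix.zero_mulVec]
      simp [LL]
  have huval : ∀ i j, (u : Matrix (Fin 3) (Fin 3) F) i j = (Matrix.diagonal d * (1 + LL (fun _ => 1)) +
        vecMulVec y ((Pi.single (⟨3 - 1, by omega⟩ : Fin 3) 1 : Fin 3 → F) ᵥ* (1 + LL (fun _ => 1))) : Matrix (Fin 3) (Fin 3) F) i j := by
    intro i j; rw [hu]
  have hlr := last_row_apply (F := F) (n := 3) (by omega)
  have u10 : (u : Matrix (Fin 3) (Fin 3) F) 1 0 = (z ^ 2)⁻¹ := by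
    rw [huval, Matrix.add_apply, Matrix.diagonal_mul, vecMulVec_apply, hlr, if_pos (by simp), mul_zero, add_zero]
    simp [LL, d]
  have u20 : (u : Matrix (Fin 3) (Fin 3) F) 2 0 = 0 := by
    rw [huval, Matrix.add_apply, Matrix.diagonal_mul, vecMulVec_apply, hlr, if_pos (by simp), mul_zero, add_zero]
    simp [LL]
  have u21 : (u : Matrix (Fin 3) (Fin 3) F) 2 1 = z := by
    rw [huval, Matrix.add_apply, Matrix.diagonal_mul, vecMulVec_apply, hy2, zero_mul, add_zero]
    simp [LL, d]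
  have M10 : M 1 0 = (z ^ 2)⁻¹ := by rw [hM, Matrix.sub_apply, u10]; simp
  have M20 : M 2 0 = 0 := by rw [hM, Matrix.sub_apply, u20]; simp
  have M21 : M 2 1 = z := by rw [hM, Matrix.sub_apply, u21]; simp
  have hMe0 : ∀ i, (M *ᵥ e0) i = M i 0 := by
    intro i
    rw [he0, Matrix.mulVec_single_one]; rfl
  have hG0 : ∀ i, G i 0 = e0 i := by
    intro i
    change (M ^ 0 *ᵥ e0) i = _
    rw [pow_zero, Matrix.one_mulVec]
  have hG1 : ∀ i, G i 1 = M i 0 := by
    intro i
    change (M ^ 1 *ᵥ e0) i = _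
    rw [pow_one, hMe0]
  have hG22 : G 2 2 = z * (z ^ 2)⁻¹ := by
    change (M ^ 2 *ᵥ e0) 2 = _
    rw [_root_.pow_two, ← Matrix.mulVec_mulVec, Matrix.mulVec, dotProduct, Fin.sum_univ_three, hMe0, hMe0, hMe0, M20, M10, M21]
    ring
  have hdetG : G.det = (z ^ 3)⁻¹ := by
    rw [Matrix.det_fin_three, hG0, hG0, hG0, hG1, hG1, hG1, hG22, M10, M20]
    simp [he0]
    field_simp
  let g : Matrix.SpecialLinearGroup (Fin 3) F := ⟨z • G, by
    rw [Matrix.det_smul, hdetG, Fintype.card_fin]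
    exact mul_inv_cancel₀ (pow_ne_zero 3 hz0)⟩
  have hgu : g * WS 3 F * g⁻¹ = u := by
    rw [mul_inv_eq_iff_eq_mul]
    apply Subtype.ext
    rw [Matrix.SpecialLinearGroup.coe_mul, Matrix.SpecialLinearGroup.coe_mul]
    change (z • G) * (1 + LL (fun _ => 1)) = (u : Matrix (Fin 3) (Fin 3) F) * (z • G)
    rw [Matrix.smul_mul, Matrix.mul_smul]
    congr 1
    have : (u : Matrix (Fin 3) (Fin 3) F) = M + 1 := by rw [hM, sub_add_cancel]
    rw [this, mul_add, mul_one, add_mul, one_mul, hMG, add_comm]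
  exact ⟨g, by rw [hgu]; exact hcl⟩
/-- Let F be a finite field. Then SL_3(F) is generated by two conjugate regular unipotent elements: there are u with u − 1 nilpotent and (u − 1)² ≠ 0, and g, such that u and g u g⁻¹ generate SL_3(F). -/
theorem result {F : Type*} [Field F] [Fintype F] :
    ∃ u g : Matrix.SpecialLinearGroup (Fin 3) F, IsNilpotent ((u : Matrix (Fin 3) (Fin 3) F) - 1) ∧ ((u : Matrix (Fin 3) (Fin 3) F) - 1) ^ (3 - 1) ≠ 0 ∧
      Subgroup.closure ({u, g * u * g⁻¹} : Set (Matrix.SpecialLinearGroup (Fin 3) F)) = ⊤ := by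

  classical
  by_cases h2 : Fintype.card F = 2
  · exact ⟨JS 3 F, gS (by omega), JS_regular.1, JS_regular.2, case2 h2⟩
  by_cases h4 : Fintype.card F = 4
  · obtain ⟨g, hg⟩ := case4 h4
    exact ⟨JS 3 F, g, JS_regular.1, JS_regular.2, hg⟩
  obtain ⟨g, hg⟩ := case_gen h2 h4
  exact ⟨WS 3 F, g, (WS_regular (by omega)).1, (WS_regular (by omega)).2, hg⟩

end Cfsg.Agent.S2278
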