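import Cfsg.Statements.S2402
import Cfsg.Agent.Lib.H45.SLnGen
import Cfsg.Agent.Lib.H45.SL2Basic

set_option autoImplicit false
open Cfsg

namespace Cfsg.Agent.S2402

variable {K : Type*} [Field K]

theorem sum_two_squares [Finite K] (t : K) : ∃ a b : K, a ^ 2 + b ^ 2 = t := by
  by_cases hF : ringChar K = 2
  · obtain ⟨a, ha⟩ := FiniteField.isSquare_of_char_two hF t
    exact ⟨a, 0, by rw [ha]; ring⟩
  · obtain ⟨a, b, hab⟩ := H45.SL2.diag_form_universal hF 1 1 t one_ne_zero one_ne_zero
    exact ⟨a, b, by linear_combination hab⟩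

/-- conjugating a transvection by a diagonal element -/
theorem diag_conj {n : ℕ} (h : Matrix.SpecialLinearGroup (Fin (n + 1)) K) (d : Fin (n + 1) → K)
    (hd0 : ∀ i, d i ≠ 0) (hh : h.1 = Matrix.diagonal d) {i j : Fin (n + 1)} (hij : i ≠ j) (t : K) :
    h * Matrix.SpecialLinearGroup.transvection hij t * h⁻¹ =
      Matrix.SpecialLinearGroup.transvection hij (d i * (d j)⁻¹ * t) := by
  rw [mul_inv_eq_iff_eq_mul]
  apply Subtype.ext
  change h.1 * (1 + Matrix.single i j t) = (1 + Matrix.single i j (d i * (d j)⁻¹ * t)) * h.1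
  rw [hh, mul_add, add_mul, mul_one, one_mul]
  congr 1
  ext a b
  rw [Matrix.diagonal_mul, Matrix.mul_diagonal, Matrix.single_apply, Matrix.single_apply]
  by_cases hab : i = a ∧ j = b
  · rw [if_pos hab, if_pos hab, ← hab.1, ← hab.2]
    have := hd0 j
    field_simp
  · rw [if_neg hab, if_neg hab]; ring

/-- Explicit two-element generation of `PSL_{n+1}(K)` for a finite field `K` with more than three elements: let `k` generate the multiplicative group of `K`, `h = diag(k, k⁻¹, 1, …, 1)`, `x = 1 + E₁₂` (the elementary transvection) and `w` the monomial matrix with entries `1` in positions `(i, i+1)` and `(−1)^n` in position `(n+1, 1)`. Then `h` and `x·w` generate `SL_{n+1}(K)` modulo its centre: the subgroup they generate together with the centre is everything. -/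
theorem result {K : Type*} [Field K] [Fintype K] (hK : 3 < Fintype.card K) (n : ℕ) (hn : 1 ≤ n)
    (k : Kˣ) (hk : ∀ u : Kˣ, u ∈ Subgroup.zpowers k)
    (h x w : Matrix.SpecialLinearGroup (Fin (n + 1)) K)
    (hh : (h : Matrix (Fin (n + 1)) (Fin (n + 1)) K) =
      Matrix.diagonal (fun i => if i.val = 0 then (k : K) else if i.val = 1 then ((k⁻¹ : Kˣ) : K) else 1))
    (hx : (x : Matrix (Fin (n + 1)) (Fin (n + 1)) K) = Matrix.transvection (0 : Fin (n + 1)) (1 : Fin (n + 1)) 1)
    (hw : (w : Matrix (Fin (n + 1)) (Fin (n + 1)) K) =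
      Matrix.of (fun i j => if j.val = i.val + 1 then 1 else if i.val = n ∧ j.val = 0 then (-1) ^ n else 0)) :
    Subgroup.closure ({h, x * w} : Set (Matrix.SpecialLinearGroup (Fin (n + 1)) K)) ⊔
      Subgroup.center (Matrix.SpecialLinearGroup (Fin (n + 1)) K) = ⊤ := by
  classical
  have hone : ((1 : Fin (n + 1)) : ℕ) = 1 := by
    rw [Fin.val_one', Nat.mod_eq_of_lt (by omega)]
  have h01 : (0 : Fin (n + 1)) ≠ 1 := by
    intro h
    have := congrArg Fin.val h
    rw [hone] at this
    exact zero_ne_one this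
  set H := Subgroup.closure ({h, x * w} : Set (Matrix.SpecialLinearGroup (Fin (n + 1)) K)) with hH
  have hhH : h ∈ H := Subgroup.subset_closure (by simp)
  have hyH : x * w ∈ H := Subgroup.subset_closure (by simp)
  have hx' : x = Matrix.SpecialLinearGroup.transvection h01 1 := Subtype.ext hx
  set d : Fin (n + 1) → K := fun i => if i.val = 0 then (k : K) else if i.val = 1 then ((k⁻¹ : Kˣ) : K) else 1 with hd
  have hd0 : ∀ i, d i ≠ 0 := by
    intro i
    rw [hd]
    dsimp only
    split
    · exact Units.ne_zero k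
    · split
      · exact Units.ne_zero _
      · exact one_ne_zero
  -- the element w h w⁻¹
  set h' := w * h * w⁻¹ with hh'
  have hh'v : h'.1 = Matrix.diagonal (fun i => d (i + 1)) := by
    have e1 : h' * w = w * h := by rw [hh']; group
    have e2 : h'.1 * w.1 = w.1 * h.1 := congrArg Subtype.val e1
    have e3 : Matrix.diagonal (fun i => d (i + 1)) * w.1 = w.1 * h.1 := by
      rw [hh]
      change Matrix.diagonal (fun i => d (i + 1)) * w.1 = w.1 * Matrix.diagonal d
      have hw' : w.1 = H45.SLnGen.cyc n := hw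
      rw [hw']
      ext a b
      rw [Matrix.diagonal_mul, Matrix.mul_diagonal, H45.SLnGen.cyc_apply]
      by_cases hb : b = a + 1
      · rw [if_pos hb, hb]; ring
      · rw [if_neg hb]; ring
    have hu : IsUnit w.1.det := by rw [w.2]; exact isUnit_one
    calc h'.1 = h'.1 * w.1 * w.1⁻¹ := by rw [mul_assoc, Matrix.mul_nonsing_inv _ hu, mul_one]
      _ = Matrix.diagonal (fun i => d (i + 1)) * w.1 * w.1⁻¹ := by rw [e2, e3]
      _ = _ := by rw [mul_assoc, Matrix.mul_nonsing_inv _ hu, mul_one]
  have hcomm : h * h' = h' * h := by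
    apply Subtype.ext
    change h.1 * h'.1 = h'.1 * h.1
    rw [hh, hh'v, Matrix.diagonal_mul_diagonal, Matrix.diagonal_mul_diagonal]
    congr 1; ext i; ring
  have hX : ∀ t : K, h * Matrix.SpecialLinearGroup.transvection h01 t * h⁻¹ =
      Matrix.SpecialLinearGroup.transvection h01 ((k : K) ^ 2 * t) := by
    intro t
    rw [diag_conj h d hd0 hh h01 t]
    congr 1
    have e1 : d 0 = k := by rw [hd]; simp
    have e2 : d 1 = ((k⁻¹ : Kˣ) : K) := by
      rw [hd]; dsimp only; rw [hone]; simp
    rw [e1, e2]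
    have : (((k⁻¹ : Kˣ) : K))⁻¹ = k := by simp
    rw [this]; ring
  set r : K := d (0 + 1) * (d (1 + 1))⁻¹ with hr
  have hr0 : r ≠ 0 := mul_ne_zero (hd0 _) (inv_ne_zero (hd0 _))
  have hX' : ∀ t : K, h' * Matrix.SpecialLinearGroup.transvection h01 t * h'⁻¹ =
      Matrix.SpecialLinearGroup.transvection h01 (r * t) := by
    intro t
    rw [diag_conj h' (fun i => d (i + 1)) (fun i => hd0 _) hh'v h01 t]
  -- k² ≠ 1
  have hk2 : (k : K) ^ 2 ≠ 1 := by
    intro h0
    have h1 : k ^ 2 = 1 := by apply Units.ext; simpa using h0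
    have h2 := orderOf_le_of_pow_eq_one (by norm_num) h1
    have h3 := orderOf_eq_card_of_forall_mem_zpowers hk
    rw [Nat.card_eq_fintype_card, Fintype.card_units] at h3
    omega
  have hrk : r⁻¹ - 1 ≠ 0 := by
    intro h0
    have h1 : d (1 + 1) = d (0 + 1) := by
      have h2 : r⁻¹ = 1 := by linear_combination h0
      have h3 : r = 1 := by rw [← inv_inv r, h2, inv_one]
      rw [hr, mul_inv_eq_one₀ (hd0 _)] at h3
      exact h3.symm
    rw [zero_add] at h1
    have e2 : d 1 = ((k⁻¹ : Kˣ) : K) := by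
      rw [hd]; dsimp only; rw [hone]; simp
    rw [e2] at h1
    by_cases hn1 : n = 1
    · subst hn1
      have : d (1 + 1) = k := by
        have h3 : (1 : Fin 2) + 1 = 0 := by decide
        rw [hd]
        dsimp only
        rw [if_pos]
        rw [h3]; rfl
      rw [this] at h1
      apply hk2
      have : (k : K) * ((k⁻¹ : Kˣ) : K) = 1 := by simp
      rw [← h1] at this
      rw [pow_two]; exact this
    · have hv : ((1 : Fin (n + 1)) + 1).val = 2 := by
        rw [Fin.val_add, hone, Nat.mod_eq_of_lt (by omega)]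
      have : d (1 + 1) = 1 := by
        rw [hd]; dsimp only
        rw [hv]; simp
      rw [this] at h1
      apply hk2
      have h4 : (k : K) * ((k⁻¹ : Kˣ) : K) = 1 := by simp
      rw [← h1, mul_one] at h4
      rw [h4]; ring
  -- the key element
  set c : K := r⁻¹ - 1 with hc
  set e : K := r * ((k : K) ^ 2 - 1) * c with he
  have he0 : e ≠ 0 := mul_ne_zero (mul_ne_zero hr0 (sub_ne_zero.2 hk2)) hrk
  have hz : (x * w) * h * (x * w)⁻¹ = h' * Matrix.SpecialLinearGroup.transvection h01 c := by
    have e1 : (x * w) * h * (x * w)⁻¹ = x * h' * x⁻¹ := by rw [hh']; group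
    rw [e1, hx', mul_inv_eq_iff_eq_mul]
    have e2 := hX' r⁻¹
    rw [mul_inv_cancel₀ hr0, mul_inv_eq_iff_eq_mul] at e2
    rw [mul_assoc, ← Matrix.SpecialLinearGroup.transvection_add, hc, sub_add_cancel, ← e2]
  have heH : Matrix.SpecialLinearGroup.transvection h01 e ∈ H := by
    have hzH : h' * Matrix.SpecialLinearGroup.transvection h01 c ∈ H := by
      rw [← hz]; exact H.mul_mem (H.mul_mem hyH hhH) (H.inv_mem hyH)
    have hcm : h * (h' * Matrix.SpecialLinearGroup.transvection h01 c) * h⁻¹ *
        (h' * Matrix.SpecialLinearGroup.transvection h01 c)⁻¹ ∈ H :=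
      H.mul_mem (H.mul_mem (H.mul_mem hhH hzH) (H.inv_mem hhH)) (H.inv_mem hzH)
    have e1 : h * (h' * Matrix.SpecialLinearGroup.transvection h01 c) * h⁻¹ *
        (h' * Matrix.SpecialLinearGroup.transvection h01 c)⁻¹ =
        h' * ((h * Matrix.SpecialLinearGroup.transvection h01 c * h⁻¹) * (Matrix.SpecialLinearGroup.transvection h01 c)⁻¹) * h'⁻¹ := by
      calc _ = (h * h') * Matrix.SpecialLinearGroup.transvection h01 c * h⁻¹ * (Matrix.SpecialLinearGroup.transvection h01 c)⁻¹ * h'⁻¹ := by group
        _ = (h' * h) * Matrix.SpecialLinearGroup.transvection h01 c * h⁻¹ * (Matrix.SpecialLinearGroup.transvection h01 c)⁻¹ * h'⁻¹ := by rw [hcomm]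
        _ = _ := by group
    rw [e1, hX, Matrix.SpecialLinearGroup.transvection_inv, ← Matrix.SpecialLinearGroup.transvection_add, hX'] at hcm
    have e2 : r * ((k : K) ^ 2 * c + -c) = e := by rw [he]; ring
    rw [e2] at hcm
    exact hcm
  -- closure properties
  have hsq : ∀ u : K, Matrix.SpecialLinearGroup.transvection h01 (u ^ 2 * e) ∈ H := by
    intro u
    by_cases hu : u = 0
    · rw [hu]; simp only [ne_eq, OfNat.ofNat_ne_zero, not_false_eq_true, zero_pow, zero_mul]
      rw [Matrix.SpecialLinearGroup.transvection_coeff_zero]; exact H.one_mem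
    · have hpow : ∀ m : ℕ, Matrix.SpecialLinearGroup.transvection h01 ((k : K) ^ (2 * m) * e) ∈ H := by
        intro m
        induction m with
        | zero => simpa using heH
        | succ m ih =>
          have h1 := H.mul_mem (H.mul_mem hhH ih) (H.inv_mem hhH)
          rw [hX] at h1
          have e1 : (k : K) ^ 2 * ((k : K) ^ (2 * m) * e) = (k : K) ^ (2 * (m + 1)) * e := by ring
          rw [e1] at h1
          exact h1
      obtain ⟨m, hm⟩ := (mem_powers_iff_mem_zpowers.2 (hk (Units.mk0 u hu)))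
      have hm' : (k : K) ^ m = u := by
        have := congrArg Units.val hm
        simpa using this
      have := hpow m
      rw [← hm', ← pow_mul, mul_comm m 2]
      exact this
  have hall : ∀ t : K, Matrix.SpecialLinearGroup.transvection h01 t ∈ H := by
    intro t
    obtain ⟨a, b, hab⟩ := sum_two_squares (t / e)
    have e1 : t = a ^ 2 * e + b ^ 2 * e := by
      rw [← add_mul, hab]; field_simp
    rw [e1, Matrix.SpecialLinearGroup.transvection_add]
    exact H.mul_mem (hsq a) (hsq b)
  have hxH : x ∈ H := by rw [hx']; exact hall 1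
  have hwH : w ∈ H := by
    have := H.mul_mem (H.inv_mem hxH) hyH
    rwa [inv_mul_cancel_left] at this
  have htop : H = ⊤ := H45.SLnGen.eq_top_of_cyc hn H w hw hwH h01 hall
  rw [htop, top_sup_eq]

end Cfsg.Agent.S2402
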