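import Cfsg.Statements.S2403
import Cfsg.Agent.Lib.H45.SLnGen

set_option autoImplicit false
open Cfsg

namespace Cfsg.Agent.S2403

theorem small {K : Type*} [Field K] [Fintype K] (hK : Fintype.card K ≤ 3) (c : K) : c = 0 ∨ c = 1 ∨ c = -1 := by
  classical
  by_contra hcon
  push Not at hcon
  obtain ⟨h0, h1, h2⟩ := hcon
  have h3 : ({0, 1, c, c + 1} : Finset K).card = 4 := by
    rw [Finset.card_insert_of_notMem, Finset.card_insert_of_notMem, Finset.card_pair]
    · intro h; have : (1 : K) = 0 := by linear_combination -h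
      exact one_ne_zero this
    · simp only [Finset.mem_insert, Finset.mem_singleton, not_or]
      refine ⟨fun h => h1 h.symm, fun h => h0 (by linear_combination -h)⟩
    · simp only [Finset.mem_insert, Finset.mem_singleton, not_or]
      exact ⟨zero_ne_one, fun h => h0 h.symm, fun h => h2 (by linear_combination -h)⟩
  have h4 := Finset.card_le_univ ({0, 1, c, c + 1} : Finset K)
  omega

/-- Explicit two-element generation of `PSL_{n+1}(K)` over the fields with two or three elements: with `x = 1 + E₁₂` and `w` the monomial matrix with entries `1` in positions `(i, i+1)` and `(−1)^n` in position `(n+1, 1)`, the elements `x` and `w` generate `SL_{n+1}(K)` modulo its centre. -/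
theorem result {K : Type*} [Field K] [Fintype K] (hK : Fintype.card K ≤ 3) (n : ℕ) (hn : 1 ≤ n)
    (x w : Matrix.SpecialLinearGroup (Fin (n + 1)) K)
    (hx : (x : Matrix (Fin (n + 1)) (Fin (n + 1)) K) = Matrix.transvection (0 : Fin (n + 1)) (1 : Fin (n + 1)) 1)
    (hw : (w : Matrix (Fin (n + 1)) (Fin (n + 1)) K) =
      Matrix.of (fun i j => if j.val = i.val + 1 then 1 else if i.val = n ∧ j.val = 0 then (-1) ^ n else 0)) :
    Subgroup.closure ({x, w} : Set (Matrix.SpecialLinearGroup (Fin (n + 1)) K)) ⊔
      Subgroup.center (Matrix.SpecialLinearGroup (Fin (n + 1)) K) = ⊤ := by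
  have h01 : (0 : Fin (n + 1)) ≠ 1 := by
    intro h
    have := congrArg Fin.val h
    rw [Fin.val_one', Nat.mod_eq_of_lt (by omega)] at this
    exact zero_ne_one this
  have hxc : x ∈ Subgroup.closure ({x, w} : Set (Matrix.SpecialLinearGroup (Fin (n + 1)) K)) :=
    Subgroup.subset_closure (by simp)
  have hwc : w ∈ Subgroup.closure ({x, w} : Set (Matrix.SpecialLinearGroup (Fin (n + 1)) K)) :=
    Subgroup.subset_closure (by simp)
  have hx' : x = Matrix.SpecialLinearGroup.transvection h01 1 := Subtype.ext hx
  have htop : Subgroup.closure ({x, w} : Set (Matrix.SpecialLinearGroup (Fin (n + 1)) K)) = ⊤ := by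
    apply H45.SLnGen.eq_top_of_cyc hn _ w hw hwc h01
    intro c
    rcases small hK c with rfl | rfl | rfl
    · rw [Matrix.SpecialLinearGroup.transvection_coeff_zero]; exact Subgroup.one_mem _
    · rw [← hx']; exact hxc
    · rw [← Matrix.SpecialLinearGroup.transvection_inv, ← hx']; exact Subgroup.inv_mem _ hxc
  rw [htop, top_sup_eq]

end Cfsg.Agent.S2403
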