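import Cfsg.Statements.S0282
import Mathlib
import Cfsg.Agent.Lib.H7.UnitSU
import Cfsg.Agent.Lib.H4.Burnside

set_option autoImplicit false
open Cfsg

namespace Cfsg.Agent.S0282

/-- PSU_3(2) is a solvable group of order 72. -/
theorem result {F : Type*} [Field F] [Fintype F] (hF : Fintype.card F = 4) : Nat.card (Cfsg.PSU 3 F 2) = 72 ∧ Group.IsSolvable (Cfsg.PSU 3 F 2) := by
  have hF' : Fintype.card F = 2 ^ 2 := hF
  have h1 := H7.UnitSU.card_SU hF' 3 (by omega)
  have h2 := H7.UnitSU.card_center hF' (n := 3) (by omega)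
  have h3 := Subgroup.card_eq_card_quotient_mul_card_subgroup (Subgroup.center (Cfsg.SU 3 F 2))
  rw [h2] at h3
  have hcard : Nat.card (Cfsg.PSU 3 F 2) = 72 := by
    have h4 : Nat.card (Cfsg.SU 3 F 2) = 216 := by
      have : ∏ i ∈ Finset.range 3, (if Even i then 2 ^ (i + 1) + 1 else 2 ^ (i + 1) - 1) = 81 := by decide
      rw [this] at h1
      omega
    rw [h4] at h3
    have h5 : Nat.gcd 3 (2 + 1) = 3 := rfl
    rw [h5] at h3
    change Nat.card (↥(Cfsg.SU 3 F 2) ⧸ Subgroup.center ↥(Cfsg.SU 3 F 2)) = 72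
    omega
  refine ⟨hcard, ?_⟩
  haveI : Finite (Cfsg.PSU 3 F 2) := Nat.finite_of_card_ne_zero (by rw [hcard]; norm_num)
  exact H4.Burnside.isSolvable_of_card_eq 2 3 Nat.prime_two Nat.prime_three 72 _ hcard ⟨3, 2, by norm_num⟩

end Cfsg.Agent.S0282
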