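import Cfsg.Statements.S3058
import Mathlib
import Cfsg.Agent.S0058
import Cfsg.Agent.Lib.H56.SPE
import Cfsg.Agent.Lib.H56.SylGraph
import Cfsg.Agent.Lib.H56.Basic
import Cfsg.Agent.Lib.H56.Cyc
import Cfsg.Agent.Lib.H1.Coprime

set_option autoImplicit false
open Cfsg

namespace Cfsg.Agent.S3058

open Subgroup H28.Cj H28.RelSyl H56.SPE

/-- Let p be a prime and G a finite group whose Sylow p-subgroups are not chain-connected through nontrivial intersections (so G has a strongly p-embedded subgroup). If N and M are normal subgroups of G whose orders are both divisible by p, then the order of N ∩ M is divisible by p. Consequently, among the normal subgroups of G whose order is divisible by p there is a smallest one (the intersection of all of them). -/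
theorem result {G : Type*} [Group G] [Finite G]
    (p : ℕ) [Fact p.Prime] (hG : ¬ Cfsg.IsSylowChainConnected p G)
    (N M : Subgroup G) [N.Normal] [M.Normal] (hN : p ∣ Nat.card N) (hM : p ∣ Nat.card M) :
    p ∣ Nat.card ↥(N ⊓ M) := by
  have hp : p.Prime := Fact.out
  by_contra hD
  obtain ⟨H, hS⟩ := H56.SylGraph.exists_cspe_of_not_connected p hG
  obtain ⟨P, hP, hP1⟩ := hS.exists_sylow
  have hPN : IsSyl p ((P : Subgroup G) ⊓ N) N :=
    (isSyl_top P).inf_normal (by rw [normalizer_eq_top]) le_top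
  have hPN1 : (P : Subgroup G) ⊓ N ≠ ⊥ := by
    intro h
    apply hPN.not_dvd
    rw [h, relIndex_bot_left]
    exact hN
  have hle : normalizer (((P : Subgroup G) ⊓ N : Subgroup G) : Set G) ≤ H :=
    hS.normalizer_le hPN.isPGroup hPN1 (inf_le_left.trans hP)
  have hNH : ¬ N ≤ H := by
    intro hcon
    apply hS.1
    rw [eq_top_iff, ← hPN.frattini_sup (H := ⊤) (by rw [normalizer_eq_top]) le_top]
    exact sup_le hcon (inf_le_right.trans hle)
  have hPM : IsSyl p ((P : Subgroup G) ⊓ M) M :=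
    (isSyl_top P).inf_normal (by rw [normalizer_eq_top]) le_top
  have hexN : ∃ x ∈ (P : Subgroup G) ⊓ N, orderOf x = p := by
    have : p ∣ Nat.card ((P : Subgroup G) ⊓ N : Subgroup G) := dvd_card_of_ne_bot hPN.isPGroup hPN1
    obtain ⟨x, hx⟩ := exists_prime_orderOf_dvd_card' p this
    exact ⟨x, x.2, by rw [orderOf_submonoid]; exact hx⟩
  have hexM : ∃ y ∈ (P : Subgroup G) ⊓ M, orderOf y = p := by
    have h1 : (P : Subgroup G) ⊓ M ≠ ⊥ := by
      intro h
      apply hPM.not_dvd
      rw [h, relIndex_bot_left]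
      exact hM
    have : p ∣ Nat.card ((P : Subgroup G) ⊓ M : Subgroup G) := dvd_card_of_ne_bot hPM.isPGroup h1
    obtain ⟨x, hx⟩ := exists_prime_orderOf_dvd_card' p this
    exact ⟨x, x.2, by rw [orderOf_submonoid]; exact hx⟩
  obtain ⟨x, hx, hxp⟩ := hexN
  obtain ⟨y, hy, hyp⟩ := hexM
  -- no p-elements in D
  have hDp : ∀ z ∈ N ⊓ M, ∀ k : ℕ, z ^ p ^ k = 1 → z = 1 := by
    intro z hz k hk
    by_contra hz1
    have h1 : orderOf z ∣ p ^ k := orderOf_dvd_of_pow_eq_one hk
    obtain ⟨j, hj, hjk⟩ := (Nat.dvd_prime_pow hp).mp h1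
    have hj0 : j ≠ 0 := by
      rintro rfl
      rw [pow_zero, orderOf_eq_one_iff] at hjk
      exact hz1 hjk
    apply hD
    have h2 : orderOf z ∣ Nat.card (N ⊓ M : Subgroup G) := by
      rw [← Nat.card_zpowers]
      exact card_dvd_of_le (by rw [zpowers_le]; exact hz)
    rw [hjk] at h2
    exact (dvd_pow_self p hj0).trans h2
  have hxy : x * y * x⁻¹ * y⁻¹ = 1 := by
    have h1 : x * y * x⁻¹ * y⁻¹ ∈ (P : Subgroup G) :=
      mul_mem (mul_mem (mul_mem hx.1 hy.1) (inv_mem hx.1)) (inv_mem hy.1)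
    have h2 : x * y * x⁻¹ * y⁻¹ ∈ N := by
      have : x * y * x⁻¹ * y⁻¹ = x * (y * x⁻¹ * y⁻¹) := by group
      rw [this]
      exact mul_mem hx.2 (Normal.conj_mem inferInstance _ (inv_mem hx.2) _)
    have h3 : x * y * x⁻¹ * y⁻¹ ∈ M :=
      M.mul_mem (Normal.conj_mem inferInstance _ hy.2 _) (M.inv_mem hy.2)
    obtain ⟨k, hk⟩ := P.2 ⟨_, h1⟩
    exact hDp _ ⟨h2, h3⟩ k (by simpa [Subtype.ext_iff] using hk)
  have hcomm : x * y = y * x := by
    have := congrArg (fun t => t * y * x) hxy
    simpa [mul_assoc] using this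
  -- D ≤ H
  have hDcop : ∀ A : Subgroup G, IsPGroup p A → (Nat.card A).Coprime (Nat.card (N ⊓ M : Subgroup G)) := by
    intro A hA
    obtain ⟨n, hn⟩ := hA.exists_card_eq
    rw [hn]
    exact (hp.coprime_iff_not_dvd.mpr hD).pow_left n
  have hcent : ∀ e : G, e ∈ (P : Subgroup G) → e ≠ 1 → centralizer ({e} : Set G) ≤ H := by
    intro e he he1
    have h1 : centralizer ({e} : Set G) ≤ normalizer ((zpowers e : Subgroup G) : Set G) := by
      have : centralizer ({e} : Set G) = centralizer ((zpowers e : Subgroup G) : Set G) := by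
        rw [← centralizer_closure, zpowers_eq_closure]
      rw [this]
      exact centralizer_le_normalizer _
    refine h1.trans (hS.normalizer_le (P.2.to_le (by rw [zpowers_le]; exact he)) ?_ ?_)
    · rw [Ne, zpowers_eq_bot]; exact he1
    · rw [zpowers_le]; exact hP he
  have hDH : N ⊓ M ≤ H := by
    let A : Subgroup G := closure {x, y}
    have hAP : A ≤ P := by
      rw [closure_le]
      rintro z (rfl | rfl)
      · exact hx.1
      · exact hy.1
    haveI hAc : IsMulCommutative A := by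
      refine Subgroup.isMulCommutative_closure ?_
      rintro a (rfl | rfl) b (rfl | rfl)
      · rfl
      · exact hcomm
      · exact hcomm.symm
      · rfl
    have hAncyc : ¬ IsCyclic A := by
      intro hcyc
      have h1 : x ∈ zpowers y :=
        H56.Cyc.mem_zpowers_of_dvd_of_le hcyc (subset_closure (by simp)) (subset_closure (by simp))
          (by rw [hxp, hyp])
      have h2 : x ∈ M := (zpowers_le.mpr hy.2) h1
      have h3 : x = 1 := hDp x ⟨hx.2, h2⟩ 1 (by rw [pow_one, ← hxp, pow_orderOf_eq_one])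
      rw [h3, orderOf_one] at hxp
      exact hp.one_lt.ne hxp
    have := Cfsg.Agent.S0058.result A (N ⊓ M) hAncyc (by rw [normalizer_eq_top]; exact le_top)
      (hDcop A (P.2.to_le hAP))
    rw [← this]
    refine iSup₂_le fun a ha => ?_
    exact inf_le_right.trans (hcent a (hAP ha.1) ha.2)
  apply hNH
  intro n hn
  -- n y n⁻¹ ∈ D⟨y⟩
  have h1 : n * y * n⁻¹ * y⁻¹ ∈ N ⊓ M := by
    constructor
    · have : n * y * n⁻¹ * y⁻¹ = n * (y * n⁻¹ * y⁻¹) := by group
      rw [this]
      exact mul_mem hn (Normal.conj_mem inferInstance _ (inv_mem hn) _)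
    · exact M.mul_mem (Normal.conj_mem inferInstance _ hy.2 _) (M.inv_mem hy.2)
  have hyle : zpowers y ≤ normalizer ((N ⊓ M : Subgroup G) : Set G) := by
    rw [normalizer_eq_top]; exact le_top
  have hypg : IsPGroup p (zpowers y) := P.2.to_le (by rw [zpowers_le]; exact hy.1)
  have hsyl : IsSyl p (zpowers y) ((N ⊓ M) ⊔ zpowers y) := by
    refine ⟨le_sup_right, hypg, ?_⟩
    have hdis : zpowers y ⊓ (N ⊓ M) = ⊥ :=
      (Subgroup.disjoint_of_coprime_natCard (hDcop _ hypg)).eq_bot
    have h5 := H1.Coprime.relIndex_sup_of_disjoint hyle hdis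
    have h6 := relIndex_mul_card (le_sup_left : N ⊓ M ≤ (N ⊓ M) ⊔ zpowers y)
    have h7 := relIndex_mul_card (le_sup_right : zpowers y ≤ (N ⊓ M) ⊔ zpowers y)
    rw [h5, ← h7, mul_comm] at h6
    have h8 := Nat.eq_of_mul_eq_mul_right Nat.card_pos h6
    rw [← h8]
    exact hD
  have hsyl2 : IsSyl p (cj n (zpowers y)) ((N ⊓ M) ⊔ zpowers y) := by
    apply isSyl_of_card_le hsyl (isPGroup_cj.mpr hypg)
    · rw [cj_le_iff, zpowers_le, mem_cj, inv_inv]
      have : n * y * n⁻¹ = (n * y * n⁻¹ * y⁻¹) * y := by group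
      rw [this]
      exact mul_mem (le_sup_left (a := N ⊓ M) h1) (le_sup_right (a := N ⊓ M) (mem_zpowers y))
    · rw [card_cj]
  obtain ⟨g, hg, hge⟩ := hsyl.exists_conj_eq hsyl2
  rw [H56.Basic.mem_sup_of_le_normalizer hyle] at hg
  obtain ⟨d, hd, z, hz, rfl⟩ := hg
  rw [← cj_cj, cj_eq_self_of_mem hz] at hge
  have h3 : d⁻¹ * n ∈ H := by
    have h4 : normalizer ((zpowers y : Subgroup G) : Set G) ≤ H := by
      refine hS.normalizer_le hypg ?_ ?_
      · rw [Ne, zpowers_eq_bot]
        rintro rfl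
        rw [orderOf_one] at hyp
        exact hp.one_lt.ne hyp
      · rw [zpowers_le]; exact hP hy.1
    apply h4
    rw [mem_normalizer_iff_cj, ← cj_cj, hge, cj_inv_cj]
  have := mul_mem (hDH hd) h3
  simpa using this

end Cfsg.Agent.S3058
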