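import Cfsg.Statements.S1894
import Cfsg.Agent.Lib.H37.PBasic

set_option autoImplicit false
open Cfsg

namespace Cfsg.Agent.S1894

open Subgroup

/-- Let P be a finite p-group, A a normal subgroup of P and B an abelian subgroup of A that is normal in P. Then some subgroup C of A containing B is normal in P and is self-centralizing and normal in A (C ∈ SCN(A)). -/
theorem result {P : Type*} [Group P] [Finite P] {p : ℕ} [Fact p.Prime] (hP : IsPGroup p P)
    (A : Subgroup P) [A.Normal] (B : Subgroup P) [B.Normal] (hBA : B ≤ A) (hB : IsMulCommutative B) :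
    ∃ C : Subgroup P, C.Normal ∧ B ≤ C ∧ Cfsg.IsSCN A C := by
  classical
  -- a maximal element among abelian normal subgroups of P between B and A
  let S : Set (Subgroup P) := {C | C.Normal ∧ B ≤ C ∧ C ≤ A ∧ ∀ x ∈ C, ∀ y ∈ C, x * y = y * x}
  have hBS : B ∈ S := ⟨inferInstance, le_refl _, hBA, fun x hx y hy => by
    have := hB.is_comm.comm (⟨x, hx⟩ : B) ⟨y, hy⟩
    exact congrArg Subtype.val this⟩
  have hfin : S.Finite := Set.toFinite S
  obtain ⟨C, hC⟩ := hfin.exists_maximal ⟨B, hBS⟩
  obtain ⟨⟨hCn, hBC, hCA, hCab⟩, hmax⟩ := hC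
  haveI := hCn
  refine ⟨C, hCn, hBC, hCA, ?_, ?_⟩
  · rw [normalizer_eq_top]; exact le_top
  · have hCcent : C ≤ centralizer (C : Set P) := fun x hx => by
      rw [mem_centralizer_iff]
      intro y hy
      exact hCab y hy x hx
    by_contra hne
    have hlt : C < A ⊓ centralizer (C : Set P) := lt_of_le_of_ne (le_inf hCA hCcent) (Ne.symm hne)
    haveI : (centralizer (C : Set P)).Normal := inferInstance
    haveI : (A ⊓ centralizer (C : Set P)).Normal := inferInstance
    obtain ⟨x, hx, hxC, hxc⟩ := H37.PBasic.exists_central_mod hP C (A ⊓ centralizer (C : Set P)) hlt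
    have hxA : x ∈ A := hx.1
    have hxcent : ∀ y ∈ C, y * x = x * y := mem_centralizer_iff.mp hx.2
    -- C ⊔ zpowers x is in S
    have hD : C ⊔ zpowers x ∈ S := by
      have hmem : ∀ y ∈ C ⊔ zpowers x, ∃ c ∈ C, ∃ n : ℤ, y = c * x ^ n := by
        intro y hy
        rw [mem_sup_of_normal_left] at hy
        obtain ⟨c, hc, z, hz, rfl⟩ := hy
        obtain ⟨n, rfl⟩ := mem_zpowers_iff.mp hz
        exact ⟨c, hc, n, rfl⟩
      refine ⟨⟨?_⟩, hBC.trans le_sup_left, sup_le hCA ((zpowers_le).mpr hxA), ?_⟩
      · intro y hy g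
        obtain ⟨c, hc, n, rfl⟩ := hmem y hy
        have h1 : g * (c * x ^ n) * g⁻¹ = (g * c * g⁻¹) * (g * x * g⁻¹) ^ n := by
          rw [conj_zpow]; group
        rw [h1]
        apply mul_mem
        · exact mem_sup_left (hCn.conj_mem c hc g)
        · apply zpow_mem
          have h2 : g * x * g⁻¹ = (g * x * g⁻¹ * x⁻¹) * x := by group
          rw [h2]
          exact mul_mem (mem_sup_left (hxc g)) (mem_sup_right (mem_zpowers x))
      · intro y hy z hz
        obtain ⟨c, hc, n, rfl⟩ := hmem y hy
        obtain ⟨d, hd, m, rfl⟩ := hmem z hz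
        have hcd : Commute c d := hCab c hc d hd
        have hcx : Commute c x := hxcent c hc
        have hdx : Commute d x := hxcent d hd
        have h1 : Commute (c * x ^ n) (d * x ^ m) := by
          apply Commute.mul_left
          · exact hcd.mul_right (hcx.zpow_right m)
          · exact (hdx.symm.zpow_left n).mul_right ((Commute.refl x).zpow_zpow n m)
        exact h1
    have := hmax hD le_sup_left
    exact hxC (this (mem_sup_right (mem_zpowers x)))

end Cfsg.Agent.S1894
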