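import Cfsg.Statements.S5382
import Cfsg.Agent.Lib.H64.J2R

set_option autoImplicit false
open Cfsg

namespace Cfsg.Agent.S5382

/-- Let G be a finite group of Hall–Janko type: it has more than one class of involutions and an involution z whose centralizer C has generalized Fitting subgroup Q extraspecial of order 32 with C/Q isomorphic to the commutator subgroup of the isometry group of the elliptic quadratic form in dimension 4 over the field with two elements (the alternating group of degree 5), with z not weakly closed in Q. Then for every involution t not conjugate to z, the centralizer of t is isomorphic to the direct product of an elementary abelian group of order 4 and the alternating group of degree 5, and the normalizer of the largest normal 2-subgroup of that centralizer is isomorphic to the direct product of the alternating groups of degrees 4 and 5. -/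
theorem result {G : Type*} [Group G] [Finite G] (z : G) (hz : orderOf z = 2) (Q : Subgroup (Subgroup.centralizer ({z} : Set G))) [Q.Normal] (hF : Cfsg.generalizedFittingSubgroup (Subgroup.centralizer ({z} : Set G)) = Q) (hQ : Cfsg.IsExtraspecial 2 Q) (hcard : Nat.card Q = 2 ^ 5) (e : (Subgroup.centralizer ({z} : Set G)) ⧸ Q ≃* Cfsg.Omega (ZMod 2) (Cfsg.quadFormMinus 1 (ZMod 2) 1 1)) (hnwc : ∃ g : G, (∃ hq : g * z * g⁻¹ ∈ Subgroup.centralizer ({z} : Set G), (⟨g * z * g⁻¹, hq⟩ : Subgroup.centralizer ({z} : Set G)) ∈ Q) ∧ g * z * g⁻¹ ≠ z) (hcl : ∃ x y : G, orderOf x = 2 ∧ orderOf y = 2 ∧ ¬ IsConj x y) (t : G) (ht : orderOf t = 2) (htz : ¬ IsConj t z) : Nonempty (↥(Subgroup.centralizer ({t} : Set G)) ≃* (Multiplicative (ZMod 2) × Multiplicative (ZMod 2)) × alternatingGroup (Fin 5)) ∧ Nonempty (↥(Subgroup.normalizer (((Cfsg.pCore 2 ↥(Subgroup.centralizer ({t} : Set G))).map (Subgroup.subtype (Subgroup.centralizer ({t} : Set G))) : Subgroup G) : Set G)) ≃* alternatingGroup (Fin 4) × alternatingGroup (Fin 5)) := by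
  have hidx : Q.index = 60 := by
    rw [Subgroup.index_eq_card, Nat.card_congr e.toEquiv, H64.J2.card_omega]
  have H := H64.J2.HJ.of_hyp hz inferInstance hF hQ (by rw [hcard]; norm_num) hidx hnwc
  have htt : t * t = 1 := by rw [← pow_two, ← ht, pow_orderOf_eq_one]
  have ht1 : t ≠ 1 := by
    rintro rfl
    rw [orderOf_one] at ht
    norm_num at ht
  obtain ⟨g, hg⟩ := H.conj_into htt
  have hconj : IsConj t (g * t * g⁻¹) := isConj_iff.2 ⟨g, rfl⟩
  have htz' : ¬ IsConj z (g * t * g⁻¹) := fun h => htz (hconj.trans h.symm)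
  have htt' : (⟨g * t * g⁻¹, hg⟩ : Subgroup.centralizer ({z} : Set G)) * ⟨g * t * g⁻¹, hg⟩ = 1 := by
    apply Subtype.ext
    change g * t * g⁻¹ * (g * t * g⁻¹) = 1
    calc g * t * g⁻¹ * (g * t * g⁻¹) = g * (t * t) * g⁻¹ := by group
      _ = 1 := by rw [htt]; group
  have htQ : (⟨g * t * g⁻¹, hg⟩ : Subgroup.centralizer ({z} : Set G)) ∉ Q := by
    intro h
    refine htz' (H.conj_Q h htt' fun h1 => ht1 ?_)
    have h2 : g * t * g⁻¹ = 1 := congrArg Subtype.val h1
    exact conj_eq_one_iff.1 h2
  obtain ⟨y, D, ⟨f⟩⟩ := H.exists_iso htQ htt' htz'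
  obtain ⟨c⟩ := D.centralizer_equiv f
  obtain ⟨n⟩ := D.norm_equiv f
  constructor
  · exact ⟨(((MulAut.conj g).subgroupMap (Subgroup.centralizer ({t} : Set G))).trans
      (MulEquiv.subgroupCongr (H64.J2.map_centralizer g t))).trans c⟩
  · have h1 : (H64.J2.W t).map (MulAut.conj g).toMonoidHom = D.E := by
      rw [H64.J2.map_W]
      exact D.W_eq f
    have h2 : (Subgroup.normalizer ((H64.J2.W t : Subgroup G) : Set G)).map (MulAut.conj g).toMonoidHom =
        Subgroup.normalizer ((D.E : Subgroup G) : Set G) := by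
      rw [← h1]
      exact Subgroup.map_equiv_normalizer_eq _ _
    exact ⟨(((MulAut.conj g).subgroupMap (Subgroup.normalizer ((H64.J2.W t : Subgroup G) : Set G))).trans
      (MulEquiv.subgroupCongr h2)).trans n⟩

end Cfsg.Agent.S5382
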