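import Cfsg.Statements.S2286
import Cfsg.Agent.Lib.H43.SL2Setup

set_option autoImplicit false
open Cfsg

namespace Cfsg.Agent.S2286

/-- For every finite field F, SL_2(F) and PSL_2(F) have presentations with 3 generators and at most 9 relations; when F has characteristic 2, PSL_2(F) has a presentation with 3 generators and at most 5 relations. -/
theorem result {F : Type*} [Field F] [Fintype F] :
    (∃ rels : Finset (FreeGroup (Fin 3)), rels.card ≤ 9 ∧ Nonempty (PresentedGroup (↑rels : Set (FreeGroup (Fin 3))) ≃* Matrix.SpecialLinearGroup (Fin 2) F)) ∧ (∃ rels : Finset (FreeGroup (Fin 3)), rels.card ≤ 9 ∧ Nonempty (PresentedGroup (↑rels : Set (FreeGroup (Fin 3))) ≃* Matrix.ProjectiveSpecialLinearGroup (Fin 2) F)) ∧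
    (CharP F 2 → ∃ rels : Finset (FreeGroup (Fin 3)), rels.card ≤ 5 ∧ Nonempty (PresentedGroup (↑rels : Set (FreeGroup (Fin 3))) ≃* Matrix.ProjectiveSpecialLinearGroup (Fin 2) F)) := by
  obtain ⟨ζ, hζ⟩ := H43.SL2R.exists_gen F
  by_cases h2 : (2 : F) = 0
  · obtain ⟨R1, hR1⟩ := H43.SL2R.pres_SL2_even h2 hζ
    obtain ⟨R2, hR2⟩ := H43.SL2R.pres_PSL2_even h2 hζ
    obtain ⟨s1, h1, f1⟩ := H43.SL2R.fin_of_pres R1 hR1
    obtain ⟨s2, h2', f2⟩ := H43.SL2R.fin_of_pres R2 hR2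
    rw [Fintype.card_fin] at h1 h2'
    exact ⟨⟨s1, by omega, f1⟩, ⟨s2, by omega, f2⟩, fun _ => ⟨s2, h2', f2⟩⟩
  · obtain ⟨R1, hR1⟩ := H43.SL2R.pres_SL2_odd h2 hζ
    obtain ⟨R2, hR2⟩ := H43.SL2R.pres_PSL2_odd h2 hζ
    obtain ⟨s1, h1, f1⟩ := H43.SL2R.fin_of_pres R1 hR1
    obtain ⟨s2, h2', f2⟩ := H43.SL2R.fin_of_pres R2 hR2
    simp only [Fintype.card_sum, Fintype.card_fin] at h1 h2'
    refine ⟨⟨s1, h1, f1⟩, ⟨s2, h2', f2⟩, fun hc => absurd ?_ h2⟩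
    have := CharP.cast_eq_zero F 2
    exact_mod_cast this

end Cfsg.Agent.S2286
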