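import Cfsg.Statements.S0281
import Mathlib
import Cfsg.Agent.Lib.H7.UnitSU
import Cfsg.Agent.Lib.H7.SmallField
import Cfsg.Agent.Lib.H6.SLCard

set_option autoImplicit false
open Cfsg

namespace Cfsg.Agent.S0281

open Matrix

/-- SU_2(q) is isomorphic to SL_2(q). -/
theorem result {F K : Type*} [Field F] [Fintype F] [Field K] [Fintype K] {q : ℕ} (hF : Fintype.card F = q ^ 2) (hK : Fintype.card K = q) : Nonempty (Cfsg.SU 2 F q ≃* Matrix.SpecialLinearGroup (Fin 2) K) := by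
  rename_i _ fF _ fK
  classical
  have hq := H7.QuadExt.one_lt_q hF
  obtain ⟨σ, hσ⟩ := H7.SmallField.exists_embedding hK hF
  obtain ⟨x, hx⟩ := H7.SmallField.exists_not_fixed hF
  obtain ⟨θ, hθ⟩ := H7.QuadExt.exists_norm_eq (c := (-1 : F)) hF (by rw [H7.QuadExt.neg_pow_q hF, one_pow])
  have hθ0 : θ ≠ 0 := by
    rintro rfl
    rw [zero_pow (by omega)] at hθ
    simp at hθ
  have hsub : x - x ^ q ≠ 0 := fun h => hx (sub_eq_zero.1 h).symm
  set s : F := x - x ^ q with hs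
  have hsbar : s ^ q = -s := by
    rw [hs, H7.QuadExt.sub_pow_q hF, H7.QuadExt.pow_q_pow_q hF]; ring
  let P : Matrix (Fin 2) (Fin 2) F := !![x, x ^ q * θ; 1, θ]
  let J : Matrix (Fin 2) (Fin 2) F := !![0, 1; -1, 0]
  have hdet : P.det = θ * s := by
    simp only [P, det_fin_two_of, hs]; ring
  have hPu : IsUnit P.det := by
    rw [hdet]; exact (mul_ne_zero hθ0 hsub).isUnit
  have hbP : H7.UnitSU.bar q P = !![x ^ q, x * θ ^ q; 1, θ ^ q] := by
    ext i j
    fin_cases i <;> fin_cases j <;> simp [P, H7.UnitSU.bar, mul_pow, H7.QuadExt.pow_q_pow_q hF]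
  have hPJ : Pᵀ * (s⁻¹ • J) * H7.UnitSU.bar q P = 1 := by
    rw [hbP]
    have hθ' : θ ^ q * θ = -1 := by rw [← pow_succ]; exact hθ
    ext i j
    fin_cases i <;> fin_cases j
    · simp [P, J, Matrix.mul_apply, Fin.sum_univ_two, hs]
      field_simp
      ring
    · simp [P, J, Matrix.mul_apply, Fin.sum_univ_two]
      ring
    · simp [P, J, Matrix.mul_apply, Fin.sum_univ_two]
      ring
    · simp [P, J, Matrix.mul_apply, Fin.sum_univ_two]
      field_simp
      rw [hs]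
      linear_combination (x ^ q - x) * hθ'
  have hJ : ∀ A : Matrix (Fin 2) (Fin 2) F, Aᵀ * J * A = A.det • J := by
    intro A
    rw [Matrix.det_fin_two]
    ext i j
    fin_cases i <;> fin_cases j <;> simp [J, Matrix.mul_apply, Fin.sum_univ_two] <;> ring
  have hPP : P * P⁻¹ = 1 := Matrix.mul_nonsing_inv P hPu
  have hPP' : P⁻¹ * P = 1 := Matrix.nonsing_inv_mul P hPu
  have hbmul : ∀ A B : Matrix (Fin 2) (Fin 2) F, H7.UnitSU.bar q (A * B) = H7.UnitSU.bar q A * H7.UnitSU.bar q B := by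
    intro A B
    ext i j
    simp [H7.UnitSU.bar, Matrix.mul_apply, H7.QuadExt.sum_pow_q hF, mul_pow, -Fin.sum_univ_two]
  -- the homomorphism
  let f₀ : SpecialLinearGroup (Fin 2) K →* SpecialLinearGroup (Fin 2) F :=
    { toFun := fun A => ⟨P⁻¹ * (SpecialLinearGroup.map σ A : Matrix (Fin 2) (Fin 2) F) * P, by
        rw [det_mul, det_mul, mul_comm, ← mul_assoc, ← det_mul, hPP, det_one, one_mul]
        exact (SpecialLinearGroup.map σ A).2⟩
      map_one' := by
        apply Subtype.ext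
        simp [hPP']
      map_mul' := by
        intro A B
        apply Subtype.ext
        rw [map_mul]
        change P⁻¹ * ((SpecialLinearGroup.map σ A : Matrix (Fin 2) (Fin 2) F) * (SpecialLinearGroup.map σ B : Matrix (Fin 2) (Fin 2) F)) * P =
          (P⁻¹ * (SpecialLinearGroup.map σ A : Matrix (Fin 2) (Fin 2) F) * P) * (P⁻¹ * (SpecialLinearGroup.map σ B : Matrix (Fin 2) (Fin 2) F) * P)
        have : P⁻¹ * (SpecialLinearGroup.map σ A : Matrix (Fin 2) (Fin 2) F) * P * (P⁻¹ * (SpecialLinearGroup.map σ B : Matrix (Fin 2) (Fin 2) F) * P)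
          = P⁻¹ * (SpecialLinearGroup.map σ A : Matrix (Fin 2) (Fin 2) F) * (P * P⁻¹) * (SpecialLinearGroup.map σ B : Matrix (Fin 2) (Fin 2) F) * P := by
          simp only [Matrix.mul_assoc]
        rw [this, hPP, Matrix.mul_one]
        simp only [Matrix.mul_assoc] }
  have hmem : ∀ A, f₀ A ∈ Cfsg.SU 2 F q := by
    intro A
    refine (H7.UnitSU.mem_SU_iff hF _).2 ?_
    set B : Matrix (Fin 2) (Fin 2) F := (SpecialLinearGroup.map σ A : Matrix (Fin 2) (Fin 2) F) with hB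
    have hBb : H7.UnitSU.bar q B = B := by
      ext i j
      exact (hσ _).2 ⟨A i j, rfl⟩
    have hBdet : B.det = 1 := (SpecialLinearGroup.map σ A).2
    change (P⁻¹ * B * P)ᵀ * H7.UnitSU.bar q (P⁻¹ * B * P) = 1
    have key : (P⁻¹ * B * P)ᵀ * (Pᵀ * (s⁻¹ • J) * H7.UnitSU.bar q P) * H7.UnitSU.bar q (P⁻¹ * B * P) = 1 := by
      have e1 : (P⁻¹ * B * P)ᵀ * Pᵀ = Pᵀ * Bᵀ := by
        rw [← transpose_mul, ← Matrix.mul_assoc, ← Matrix.mul_assoc, hPP, Matrix.one_mul, transpose_mul]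
      have e2 : H7.UnitSU.bar q P * H7.UnitSU.bar q (P⁻¹ * B * P) = B * H7.UnitSU.bar q P := by
        rw [← hbmul, ← Matrix.mul_assoc, ← Matrix.mul_assoc, hPP, Matrix.one_mul, hbmul, hBb]
      have e3 : (P⁻¹ * B * P)ᵀ * (Pᵀ * (s⁻¹ • J) * H7.UnitSU.bar q P) * H7.UnitSU.bar q (P⁻¹ * B * P) =
          ((P⁻¹ * B * P)ᵀ * Pᵀ) * (s⁻¹ • J) * (H7.UnitSU.bar q P * H7.UnitSU.bar q (P⁻¹ * B * P)) := by
        simp only [Matrix.mul_assoc]
      rw [e3, e1, e2]
      have e4 : Pᵀ * Bᵀ * (s⁻¹ • J) * (B * H7.UnitSU.bar q P) = Pᵀ * (s⁻¹ • (Bᵀ * J * B)) * H7.UnitSU.bar q P := by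
        simp only [Matrix.mul_assoc, Matrix.smul_mul, Matrix.mul_smul]
      rw [e4, hJ, hBdet, one_smul, hPJ]
    rw [hPJ, Matrix.mul_one] at key
    exact key
  let f : SpecialLinearGroup (Fin 2) K →* Cfsg.SU 2 F q := f₀.codRestrict _ hmem
  have hinj : Function.Injective f := by
    intro A B h
    have h1 : f₀ A = f₀ B := congrArg Subtype.val h
    have h2 : P⁻¹ * (SpecialLinearGroup.map σ A : Matrix (Fin 2) (Fin 2) F) * P = P⁻¹ * (SpecialLinearGroup.map σ B : Matrix (Fin 2) (Fin 2) F) * P :=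
      congrArg Subtype.val h1
    have h3 : (SpecialLinearGroup.map σ A : Matrix (Fin 2) (Fin 2) F) = (SpecialLinearGroup.map σ B : Matrix (Fin 2) (Fin 2) F) := by
      have := congrArg (fun M => P * M * P⁻¹) h2
      simp only [Matrix.mul_assoc, hPP, Matrix.mul_one] at this
      simpa only [← Matrix.mul_assoc, hPP, Matrix.one_mul] using this
    apply Subtype.ext
    ext i j
    exact σ.injective (congrFun (congrFun h3 i) j)
  have hcard : Nat.card (SpecialLinearGroup (Fin 2) K) = Nat.card (Cfsg.SU 2 F q) := by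
    have h1 := H7.UnitSU.card_SU hF 2 (by omega)
    have h2 := H6.SLCard.card_sl (F := K) (n := 2) (by omega)
    rw [hK] at h2
    have e1 : ∏ i ∈ Finset.range 2, (if Even i then q ^ (i + 1) + 1 else q ^ (i + 1) - 1) = (q + 1) * (q ^ 2 - 1) := by
      simp [Finset.prod_range_succ]
    rw [e1] at h1
    rw [Fin.prod_univ_two] at h2
    have e2 : 2 * (2 - 1) / 2 = 1 := rfl
    have e3 : ((0 : Fin 2) : ℕ) = 0 := rfl
    have e4 : ((1 : Fin 2) : ℕ) = 1 := rfl
    rw [e2, pow_one] at h1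
    rw [e3, e4, pow_zero, pow_one] at h2
    have e5 : q ^ 2 - q = (q - 1) * q := by rw [Nat.sub_mul, sq, one_mul]
    rw [e5] at h2
    have h3 : Nat.card (SpecialLinearGroup (Fin 2) K) = q * (q ^ 2 - 1) := by
      apply Nat.eq_of_mul_eq_mul_left (show 0 < q - 1 by omega)
      rw [h2]; ring
    have h4 : Nat.card (Cfsg.SU 2 F q) = q * (q ^ 2 - 1) := by
      apply Nat.eq_of_mul_eq_mul_left (show 0 < q + 1 by omega)
      rw [h1]; ring
    rw [h3, h4]
  have hbij : Function.Bijective f := (Nat.bijective_iff_injective_and_card f).2 ⟨hinj, hcard⟩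
  exact ⟨(MulEquiv.ofBijective f hbij).symm⟩

end Cfsg.Agent.S0281
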