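import Cfsg.Statements.S0987
import Mathlib
import Cfsg.Agent.Lib.H21.SylowTools

set_option autoImplicit false
open Cfsg

namespace Cfsg.Agent.S0987

open Subgroup H21.SimpleBasic H21.SylowTools

/-- if `K` is a normal subgroup containing the Sylow subgroup `R`, and `K` has only one Sylow
p-subgroup then `R` is normal. -/
theorem sylow_normal_of_normal_le {G : Type*} [Group G] [Finite G] {r : ℕ} [Fact r.Prime]
    (R : Sylow r G) (K : Subgroup G) [K.Normal] (hRK : (R : Subgroup G) ≤ K)
    (h : Nat.card (Sylow r K) = 1) : (R : Subgroup G).Normal := by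
  have hs : Subsingleton (Sylow r K) := (Nat.card_eq_one_iff_unique.1 h).1
  have h1 : ((R.subtype hRK : Sylow r K) : Subgroup K).Normal := Sylow.normal_of_subsingleton _
  have h2 : ((R.subtype hRK : Sylow r K) : Subgroup K).Characteristic :=
    Sylow.characteristic_of_normal _ h1
  have h3 : (((R.subtype hRK : Sylow r K) : Subgroup K).map K.subtype).Normal :=
    ConjAct.normal_of_characteristic_of_normal
  rw [Sylow.coe_subtype, Subgroup.map_subgroupOf_eq_of_le hRK] at h3
  exact h3

/-- a Sylow p-subgroup is contained in every normal subgroup of index prime to `p` -/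
theorem sylow_le_of_coprime_index {G : Type*} [Group G] [Finite G] {r : ℕ} [hr : Fact r.Prime]
    (R : Sylow r G) (K : Subgroup G) [K.Normal] (h : ¬ r ∣ K.index) : (R : Subgroup G) ≤ K := by
  intro x hx
  obtain ⟨k, hk⟩ := R.2 ⟨x, hx⟩
  have hk' : x ^ (r ^ k) = 1 := congrArg Subtype.val hk
  rw [← QuotientGroup.eq_one_iff]
  have h1 : orderOf (x : G ⧸ K) ∣ r ^ k := by
    apply orderOf_dvd_of_pow_eq_one
    rw [← QuotientGroup.mk_pow, hk']; rfl
  have h2 : orderOf (x : G ⧸ K) ∣ K.index := by
    have := orderOf_dvd_natCard (x : G ⧸ K)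
    exact this
  have h3 : Nat.Coprime (r ^ k) K.index := Nat.Coprime.pow_left _ ((Nat.Prime.coprime_iff_not_dvd hr.out).2 h)
  rw [← orderOf_eq_one_iff]
  exact Nat.eq_one_of_dvd_coprimes h3 h1 h2

/-- If a finite group has order pqr for primes p < q < r, then its Sylow r-subgroups are normal. -/
theorem result {G : Type*} [Group G] [Finite G] (p q r : ℕ) (hp : p.Prime) (hq : q.Prime) [Fact r.Prime] (hpq : p < q) (hqr : q < r) (hG : Nat.card G = p * q * r) (R : Sylow r G) : (R : Subgroup G).Normal := by
  have hr : Fact r.Prime := inferInstance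
  have hfp : Fact p.Prime := ⟨hp⟩
  have hmin : (Nat.card G).minFac = p := by
    rw [hG]
    have h1 : p ∣ p * q * r := ⟨q * r, by ring⟩
    apply le_antisymm (Nat.minFac_le_of_dvd hp.two_le h1)
    have h2 : (p * q * r) ≠ 1 := by
      intro h
      have := Nat.eq_one_of_mul_eq_one_left h
      have := hr.out.one_lt
      omega
    have h3 := Nat.minFac_prime h2
    have h4 := Nat.minFac_dvd (p * q * r)
    rcases (Nat.Prime.dvd_mul h3).1 h4 with h | h
    · rcases (Nat.Prime.dvd_mul h3).1 h with h | h
      · rw [(Nat.prime_dvd_prime_iff_eq h3 hp).1 h]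
      · rw [(Nat.prime_dvd_prime_iff_eq h3 hq).1 h]; omega
    · rw [(Nat.prime_dvd_prime_iff_eq h3 hr.out).1 h]; omega
  obtain ⟨P⟩ : Nonempty (Sylow p G) := inferInstance
  have hpqr : ¬ p ∣ q * r := by
    intro h
    rcases (Nat.Prime.dvd_mul hp).1 h with h | h
    · have := (Nat.prime_dvd_prime_iff_eq hp hq).1 h; omega
    · have := (Nat.prime_dvd_prime_iff_eq hp hr.out).1 h; omega
  have hPcard : Nat.card (P : Subgroup G) = p := by
    have := card_sylow_eq_pow (a := 1) (m := q * r) (by rw [hG]; ring) hpqr P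
    rwa [pow_one] at this
  have hPcyc : IsCyclic (P : Subgroup G) := isCyclic_of_prime_card hPcard
  have hcompl := IsCyclic.isComplement' hmin hPcyc
  set K := (MonoidHom.transferSylow P (hPcyc.normalizer_le_centralizer hmin)).ker with hK
  have hKcard : Nat.card K = q * r := by
    have h1 := hcompl.card_mul
    rw [hPcard, hG] at h1
    have : Nat.card K * p = (q * r) * p := by rw [h1]; ring
    exact Nat.eq_of_mul_eq_mul_right hp.pos this
  have hKindex : K.index = p := by
    have h1 := Subgroup.card_mul_index K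
    rw [hKcard, hG] at h1
    have h0 : 0 < q * r := Nat.mul_pos hq.pos hr.out.pos
    apply Nat.eq_of_mul_eq_mul_left h0
    rw [h1]; ring
  have hRK : (R : Subgroup G) ≤ K := by
    apply sylow_le_of_coprime_index
    rw [hKindex]
    intro h
    have := Nat.le_of_dvd hp.pos h
    omega
  apply sylow_normal_of_normal_le R K hRK
  have h1 : Nat.card (Sylow r K) ∣ q := card_sylow_dvd_of_card (a := 1) (by rw [hKcard]; ring)
  have h2 : Nat.card (Sylow r K) ≡ 1 [MOD r] := card_sylow_modEq_one r K
  rcases (Nat.dvd_prime hq).1 h1 with h | h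
  · exact h
  · exfalso
    rw [h] at h2
    unfold Nat.ModEq at h2
    rw [Nat.mod_eq_of_lt hqr, Nat.mod_eq_of_lt hr.out.one_lt] at h2
    have := hq.one_lt
    omega

end Cfsg.Agent.S0987
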