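import Cfsg.Statements.S0678
import Cfsg.Agent.Lib.H14.DegreeSeven

set_option autoImplicit false
open Cfsg

namespace Cfsg.Agent.S0678

/-- A non-solvable transitive permutation group on 7 points that does not contain the alternating group is a simple group of order 168. -/
theorem result {α : Type*} [Fintype α] [DecidableEq α] (hα : Fintype.card α = 7) (G : Subgroup (Equiv.Perm α)) [MulAction.IsPretransitive G α] (hG : ¬ Group.IsSolvable G) (hA : ¬ alternatingGroup α ≤ G) : Nat.card G = 168 ∧ IsSimpleGroup G := by
  have hcard := H14.DegreeSeven.card_eq_168 hα G hG hA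
  refine ⟨hcard, ?_⟩
  haveI : Nontrivial G := by
    rw [← Finite.one_lt_card_iff_nontrivial, hcard]
    norm_num
  refine ⟨fun N hN => ?_⟩
  by_cases hb : N = ⊥
  · exact Or.inl hb
  · right
    haveI := H14.PrimeSylow.transitive_of_normal (p := 7) hα G N hN hb
    have hns := H14.PrimeSylow2.not_isSolvable_of_normal (p := 7) hα G hG N hN hb
    let e : N ≃* (N.map G.subtype : Subgroup (Equiv.Perm α)) :=
      N.equivMapOfInjective G.subtype G.subtype_injective
    haveI : MulAction.IsPretransitive (N.map G.subtype : Subgroup (Equiv.Perm α)) α := by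
      refine ⟨fun x y => ?_⟩
      obtain ⟨g, hg⟩ := MulAction.exists_smul_eq N x y
      exact ⟨e g, hg⟩
    have h1 := H14.DegreeSeven.card_eq_168 hα (N.map G.subtype) (fun h => hns (by
      exact solvable_of_solvable_injective (f := e.toMonoidHom) e.injective))
      (fun h => hA (h.trans (Subgroup.map_subtype_le N)))
    apply Subgroup.eq_top_of_card_eq
    rw [hcard, ← h1]
    exact Nat.card_congr e.toEquiv

end Cfsg.Agent.S0678
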