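import Cfsg.Statements.S5045
import Cfsg.Agent.Lib.H85.RootInv

set_option autoImplicit false
open Cfsg

namespace Cfsg.Agent.S5045

/-- Let G be a finite group generated by a set D of root involutions, and W the set of members of D whose product with every other member of D has even order or is trivial (the isolated vertices of the odd-order-product graph on D). Then W is conjugation-invariant and generates a normal 2-subgroup of G meeting D in exactly W; the commutator of two members of D lying in different connected components of that graph, each with more than one member, lies in the subgroup generated by W; and for a in such a component, every member of D commuting with a, different from a and with product with a in D, lies in that component or in W. -/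
theorem result {G : Type*} [Group G] [Finite G] {D : Set G} (hD : Cfsg.IsRootInvolutionSet D) :
    (∀ w ∈ {w | Cfsg.IsIsolatedElem (Cfsg.OddAdj D) D w}, ∀ g : G, g * w * g⁻¹ ∈ {w | Cfsg.IsIsolatedElem (Cfsg.OddAdj D) D w}) ∧
    (Subgroup.closure {w | Cfsg.IsIsolatedElem (Cfsg.OddAdj D) D w}).Normal ∧
    IsPGroup 2 ↥(Subgroup.closure {w | Cfsg.IsIsolatedElem (Cfsg.OddAdj D) D w}) ∧
    (Subgroup.closure {w | Cfsg.IsIsolatedElem (Cfsg.OddAdj D) D w} : Set G) ∩ D = {w | Cfsg.IsIsolatedElem (Cfsg.OddAdj D) D w} ∧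
    (∀ a ∈ D, ∀ b ∈ D, (∃ a' ∈ Cfsg.elemComponentOf (Cfsg.OddAdj D) D a, a' ≠ a) →
      (∃ b' ∈ Cfsg.elemComponentOf (Cfsg.OddAdj D) D b, b' ≠ b) →
      Cfsg.elemComponentOf (Cfsg.OddAdj D) D a ≠ Cfsg.elemComponentOf (Cfsg.OddAdj D) D b →
        a * b * a⁻¹ * b⁻¹ ∈ Subgroup.closure {w | Cfsg.IsIsolatedElem (Cfsg.OddAdj D) D w}) ∧
    (∀ a ∈ D, (∃ a' ∈ Cfsg.elemComponentOf (Cfsg.OddAdj D) D a, a' ≠ a) →
      Cfsg.productPartners D a ⊆ Cfsg.elemComponentOf (Cfsg.OddAdj D) D a ∪ {w | Cfsg.IsIsolatedElem (Cfsg.OddAdj D) D w}) := by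
  have hinv : ∀ w ∈ {w | Cfsg.IsIsolatedElem (Cfsg.OddAdj D) D w}, ∀ g : G,
      g * w * g⁻¹ ∈ {w | Cfsg.IsIsolatedElem (Cfsg.OddAdj D) D w} := by
    intro w hw g
    refine ⟨hD.conj_mem w hw.1 g, fun b => ?_⟩
    have e : ∀ x : G, g⁻¹ * (g * x * g⁻¹) * g⁻¹⁻¹ = x := fun x => by group
    refine ⟨fun h => ?_, fun h => ?_⟩
    · have h1 := H85.RootInv.oddAdj_conj hD g⁻¹ h
      rw [e] at h1
      exact (hw.2 _).1 h1
    · have h1 := H85.RootInv.oddAdj_conj hD g⁻¹ h
      rw [e] at h1
      exact (hw.2 _).2 h1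
  have hle : Subgroup.closure {w | Cfsg.IsIsolatedElem (Cfsg.OddAdj D) D w} ≤ Cfsg.pCore 2 G := by
    rw [Subgroup.closure_le]
    intro w hw
    exact H85.RootInv.mem_pCore_of_isolated hD hw.1 fun g hg =>
      (hw.2 _).1 (H85.RootInv.oddAdj_iff.2 ⟨hw.1, hg⟩)
  have hQ : IsPGroup 2 (Cfsg.pCore 2 G) := H1.Cores.isPGroup_pCore 2
  have h6 : ∀ a ∈ D, (∃ a' ∈ Cfsg.elemComponentOf (Cfsg.OddAdj D) D a, a' ≠ a) →
      Cfsg.productPartners D a ⊆ Cfsg.elemComponentOf (Cfsg.OddAdj D) D a ∪
        {w | Cfsg.IsIsolatedElem (Cfsg.OddAdj D) D w} := by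
    intro a ha hc e he
    obtain ⟨heD, hae, hl⟩ := H85.RootInv.line_of_productPartners he
    by_cases hiso : Cfsg.IsIsolatedElem (Cfsg.OddAdj D) D e
    · exact Or.inr hiso
    · left
      exact ⟨heD, H85.RootInv.reach_of_line hD ha heD hae hl (H85.RootInv.exists_odd_of_comp hc)
        (H85.RootInv.exists_odd_of_not_isolated hD heD hiso)⟩
  refine ⟨hinv, H85.RootInv.closure_normal hinv, hQ.to_le hle, ?_, ?_, h6⟩
  · apply Set.Subset.antisymm
    · rintro d ⟨h1, h2⟩
      refine ⟨h2, ?_⟩
      have key : ∀ b, ¬ Cfsg.OddAdj D d b := by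
        intro b hb
        have hb' := H85.RootInv.oddAdj_iff.1 hb
        have hbD := hb'.2.1
        have hdQ : d ∈ Cfsg.pCore 2 G := hle h1
        have h3 : (d * b) ^ 2 ∈ Cfsg.pCore 2 G := by
          have : (d * b) ^ 2 = d * (b * d * b⁻¹) := by
            rw [H85.RootInv.inv_eq hD hbD, pow_two]; group
          rw [this]
          exact Subgroup.mul_mem _ hdQ
            ((inferInstance : (Cfsg.pCore 2 G).Normal).conj_mem _ hdQ b)
        obtain ⟨k, hk⟩ := hQ ⟨_, h3⟩
        have hk' : ((d * b) ^ 2) ^ 2 ^ k = 1 := by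
          have := congrArg Subtype.val hk
          simpa only [SubmonoidClass.mk_pow, OneMemClass.coe_one] using this
        rw [← pow_mul, mul_comm, ← pow_succ] at hk'
        have h4 := H85.RootInv.eq_one_of_odd_isPGroup hb'.2.2.2 hk'
        exact hb'.2.2.1 (H85.RootInv.eq_of_mul_eq_one hD hbD h4).symm
      exact fun b => ⟨key b, fun h3 => key b (H85.RootInv.oddAdj_symm hD h3)⟩
    · intro w hw
      exact ⟨Subgroup.subset_closure hw, hw.1⟩
  · intro a ha b hb hca hcb hne
    rw [H85.RootInv.inv_eq hD ha, H85.RootInv.inv_eq hD hb]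
    have hcomp : ∀ x, Relation.ReflTransGen (Cfsg.OddAdj D) a x →
        Relation.ReflTransGen (Cfsg.OddAdj D) b x → False := by
      intro x h1 h2
      apply hne
      have h3 := h1.trans (H85.RootInv.reach_symm hD h2)
      ext y
      refine ⟨fun h => ⟨h.1, (H85.RootInv.reach_symm hD h3).trans h.2⟩, fun h => ⟨h.1, h3.trans h.2⟩⟩
    rcases H85.RootInv.tri hD ha hb with h | h | h
    · have : a * b * a * b = 1 := by
        have := H85.RootInv.mul_sq_of_commute hD ha hb h
        rw [pow_two] at this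
        rw [← this]; group
      rw [this]; exact Subgroup.one_mem _
    · exact (hcomp b (Relation.ReflTransGen.single (H85.RootInv.oddAdj_iff.2 ⟨ha, h⟩))
        Relation.ReflTransGen.refl).elim
    · have e : a * b * a * b = (a * b) ^ 2 := by rw [pow_two]; group
      rw [e]
      apply Subgroup.subset_closure
      have hm := H85.RootInv.four_mem hD ha h
      have hca' := H85.RootInv.four_comm_left hD ha h
      have hcb' := H85.RootInv.four_comm_right hD ha h
      by_contra hiso
      have hn := H85.RootInv.exists_odd_of_not_isolated hD hm hiso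
      have r1 := H85.RootInv.reach_of_line hD ha hm hca' (H85.RootInv.four_mul_left_mem hD ha h)
        (H85.RootInv.exists_odd_of_comp hca) hn
      have r2 := H85.RootInv.reach_of_line hD hb hm hcb' (H85.RootInv.four_mul_right_mem hD ha h)
        (H85.RootInv.exists_odd_of_comp hcb) hn
      exact hcomp _ r1 r2

end Cfsg.Agent.S5045
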