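import Cfsg.Statements.S3755
import Cfsg.Agent.Lib.H65.CoCyclic
import Cfsg.Agent.Lib.H65.PBasic2
import Cfsg.Agent.Lib.H65.MaxLocal
import Cfsg.Agent.Lib.H26.PxQ
import Cfsg.Agent.Lib.H10.Dihedral
import Cfsg.Agent.Lib.H1.Cores
import Cfsg.Agent.Lib.H28.RelHall

set_option autoImplicit false
open Cfsg

namespace Cfsg.Agent.S3755

open Subgroup

/-- A subgroup isomorphic to `H` gives a section isomorphic to `H`. -/
theorem involves_of_injective {H G : Type*} [Group H] [Group G] (f : H →* G) (hf : Function.Injective f) :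
    Cfsg.Involves H G := by
  have hb : ((⊥ : Subgroup G).subgroupOf f.range) = ⊥ := by
    rw [eq_bot_iff]
    intro x hx
    rw [mem_subgroupOf, mem_bot] at hx
    rw [mem_bot]
    exact Subtype.ext hx
  have hn : ((⊥ : Subgroup G).subgroupOf f.range).Normal := by rw [hb]; infer_instance
  exact ⟨f.range, ⊥, hn, ⟨((QuotientGroup.quotientMulEquivOfEq hb).trans
    (QuotientGroup.quotientBot)).trans (MonoidHom.ofInjective hf).symm⟩⟩

/-- the counting step -/
theorem four_le {X : Type*} [Group X] [Finite X] (U : Subgroup X) (hU : IsPGroup 2 U) {y a : X} {q : ℕ}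
    (hq : q.Prime) (hq5 : 5 ≤ q) (hy : orderOf y = q) (ha : a * a = 1) (hay : a * y * a⁻¹ = y⁻¹)
    (hyU : y ∈ normalizer (U : Set X)) (hcU : ¬ U ≤ centralizer {y}) :
    4 ≤ (U ⊓ centralizer {a}).relIndex U := by
  have hqf : Fact q.Prime := ⟨hq⟩
  have h2f : Fact (Nat.Prime 2) := ⟨Nat.prime_two⟩
  by_contra hlt
  push Not at hlt
  -- the index of a subgroup of U is a power of two
  have hpow : ∀ D : Subgroup X, ∃ k : ℕ, D.relIndex U = 2 ^ k := by
    intro D
    obtain ⟨n, hn⟩ := IsPGroup.iff_card.mp hU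
    have : D.relIndex U ∣ 2 ^ n := by rw [← hn]; exact Subgroup.index_dvd_card _
    obtain ⟨k, -, hk⟩ := (Nat.dvd_prime_pow Nat.prime_two).mp this
    exact ⟨k, hk⟩
  have h1 : (U ⊓ centralizer {a}).relIndex U ≤ 2 := by
    obtain ⟨k, hk⟩ := hpow (U ⊓ centralizer {a})
    rw [hk] at hlt ⊢
    have : k < 2 := by
      by_contra h
      have : (2:ℕ) ^ 2 ≤ 2 ^ k := Nat.pow_le_pow_right (by norm_num) (by omega)
      omega
    exact (Nat.pow_le_pow_right (by norm_num) (by omega : k ≤ 1)).trans (by norm_num)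
  -- the conjugate
  set b := y * a * y⁻¹ with hb
  have h2 : (U ⊓ centralizer {b}).relIndex U ≤ 2 := by
    have e1 : (U ⊓ centralizer {a}).map (MulAut.conj y).toMonoidHom = U ⊓ centralizer {b} := by
      ext z
      constructor
      · rintro ⟨w, hw, rfl⟩
        refine mem_inf.mpr ⟨(mem_normalizer_iff.mp hyU w).mp (mem_inf.mp hw).1, ?_⟩
        rw [mem_centralizer_singleton_iff]
        have h3 : w * a = a * w := mem_centralizer_singleton_iff.mp (mem_inf.mp hw).2
        show y * w * y⁻¹ * (y * a * y⁻¹) = y * a * y⁻¹ * (y * w * y⁻¹)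
        calc y * w * y⁻¹ * (y * a * y⁻¹) = y * (w * a) * y⁻¹ := by group
          _ = y * (a * w) * y⁻¹ := by rw [h3]
          _ = y * a * y⁻¹ * (y * w * y⁻¹) := by group
      · intro hz
        refine ⟨y⁻¹ * z * y, mem_inf.mpr ⟨?_, ?_⟩, by simp [mul_assoc]⟩
        · have := (mem_normalizer_iff.mp (inv_mem hyU) z).mp (mem_inf.mp hz).1
          rwa [inv_inv] at this
        · rw [mem_centralizer_singleton_iff]
          have h3 : z * (y * a * y⁻¹) = (y * a * y⁻¹) * z := mem_centralizer_singleton_iff.mp (mem_inf.mp hz).2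
          calc y⁻¹ * z * y * a = y⁻¹ * (z * (y * a * y⁻¹)) * y := by group
            _ = y⁻¹ * ((y * a * y⁻¹) * z) * y := by rw [h3]
            _ = a * (y⁻¹ * z * y) := by group
    have e2 : U.map (MulAut.conj y).toMonoidHom = U := H65.Semi.map_conj_eq_of_mem_normalizer hyU
    have e3 : (U ⊓ centralizer {b}).relIndex U = (U ⊓ centralizer {a}).relIndex U := by
      have e4 := Subgroup.relIndex_map_map_of_injective (U ⊓ centralizer {a}) U
        (f := (MulAut.conj y).toMonoidHom) (MulAut.conj y).injective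
      rw [e1, e2] at e4
      exact e4
    rw [e3]; exact h1
  have h3 : ((U ⊓ centralizer {a}) ⊓ (U ⊓ centralizer {b})).relIndex U ≤ 4 :=
    (Subgroup.relIndex_inf_le).trans (Nat.mul_le_mul h1 h2)
  have h4 : (U ⊓ centralizer {a}) ⊓ (U ⊓ centralizer {b}) ≤ U ⊓ centralizer {y} := by
    intro z hz
    have hza : z * a = a * z := mem_centralizer_singleton_iff.mp (mem_inf.mp (mem_inf.mp hz).1).2
    have hzb : z * b = b * z := mem_centralizer_singleton_iff.mp (mem_inf.mp (mem_inf.mp hz).2).2
    refine mem_inf.mpr ⟨(mem_inf.mp (mem_inf.mp hz).1).1, ?_⟩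
    -- b * a = y^2
    have e1 : b * a = y ^ 2 := by
      have : a * y⁻¹ * a = y := by
        have h5 : a * y⁻¹ * a⁻¹ = y := by
          have := congrArg (·⁻¹) hay
          simpa [mul_assoc] using this
        have h6 : a⁻¹ = a := inv_eq_of_mul_eq_one_left ha
        rwa [h6] at h5
      rw [hb, pow_two]
      calc y * a * y⁻¹ * a = y * (a * y⁻¹ * a) := by group
        _ = y * y := by rw [this]
    have e2 : Commute z (y ^ 2) := by
      rw [← e1]
      exact (show Commute z b from hzb).mul_right hza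
    have e3 : Nat.Coprime 2 (orderOf y) := by
      rw [hy]
      exact (Nat.coprime_primes Nat.prime_two hq).mpr (by omega)
    obtain ⟨m, hm⟩ := exists_pow_eq_self_of_coprime e3
    rw [mem_centralizer_singleton_iff]
    rw [← hm]
    exact (e2.pow_right m)
  have h5 : (U ⊓ centralizer {y}).relIndex U ≤ 4 := by
    refine le_trans ?_ h3
    apply Nat.le_of_dvd
    · exact Nat.pos_of_ne_zero Subgroup.index_ne_zero_of_finite
    · exact Subgroup.relIndex_dvd_of_le_left U h4
  obtain ⟨k, hk⟩ := hpow (U ⊓ centralizer {y})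
  have hyq : IsPGroup q (zpowers y) := by
    rw [IsPGroup.iff_card, Nat.card_zpowers]
    exact ⟨1, by rw [hy, pow_one]⟩
  have h6 := H65.PBasic2.card_modEq_card_inf_centralizer (p := q) (zpowers y) U hyq (zpowers_le.mpr hyU)
  rw [H65.PBasic2.centralizer_zpowers] at h6
  have h7 : (U ⊓ centralizer {y}).relIndex U * Nat.card (U ⊓ centralizer {y} : Subgroup X) = Nat.card U := by
    have := Subgroup.relIndex_mul_relIndex ⊥ (U ⊓ centralizer {y}) U bot_le inf_le_left
    rw [Subgroup.relIndex_bot_left, Subgroup.relIndex_bot_left] at this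
    rw [mul_comm]; exact this
  obtain ⟨n, hn⟩ := IsPGroup.iff_card.mp (hU.to_le (inf_le_left : U ⊓ centralizer {y} ≤ U))
  rw [hk] at h5 h7
  have hk2 : k ≤ 2 := by
    by_contra h
    have : (2:ℕ) ^ 3 ≤ 2 ^ k := Nat.pow_le_pow_right (by norm_num) (by omega)
    omega
  rw [← h7, hn] at h6
  have hcop : Nat.Coprime q (2 ^ n) := Nat.Coprime.pow_right n ((Nat.coprime_primes hq Nat.prime_two).mpr (by omega))
  have h8 : q ∣ 2 ^ k * 2 ^ n - 2 ^ n := (Nat.modEq_iff_dvd' (Nat.le_mul_of_pos_left _ (Nat.pow_pos (by norm_num)))).mp h6.symm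
  have h9 : 2 ^ k * 2 ^ n - 2 ^ n = (2 ^ k - 1) * 2 ^ n := by rw [Nat.sub_mul, one_mul]
  rw [h9] at h8
  have h10 : q ∣ 2 ^ k - 1 := hcop.dvd_of_dvd_mul_right h8
  have hk0 : k = 0 := by
    interval_cases k
    · rfl
    · exact absurd (Nat.le_of_dvd (by norm_num) h10) (by norm_num; omega)
    · exact absurd (Nat.le_of_dvd (by norm_num) h10) (by norm_num; omega)
  apply hcU
  rw [hk0, pow_zero] at hk
  exact (relIndex_eq_one.mp hk).trans inf_le_right

/-- Let M and V be subgroups of a finite group with V an elementary abelian 2-group, M normalizing V and acting faithfully on it (M ∩ C(V) = 1), and C_M(O_{2'}(M)) ≤ O_{2'}(M). If some elementary abelian 2-subgroup A of M satisfies |V : C_V(A)| < |A|², then M has a section isomorphic to the symmetric group of degree 3. -/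
theorem result {X : Type*} [Group X] [Finite X] (M V : Subgroup X) (hV : Cfsg.IsElementaryAbelian 2 V) (hMV : M ≤ Subgroup.normalizer (V : Set X)) (hfaith : M ⊓ Subgroup.centralizer (V : Set X) = ⊥) (hcon : Subgroup.centralizer (Cfsg.pPrimeCore 2 ↥M : Set ↥M) ≤ Cfsg.pPrimeCore 2 ↥M) (A : Subgroup X) (hAM : A ≤ M) (hA : Cfsg.IsElementaryAbelian 2 A) (hsmall : (V ⊓ Subgroup.centralizer (A : Set X)).relIndex V < Nat.card A ^ 2) : Cfsg.Involves (Equiv.Perm (Fin 3)) ↥M := by
  classical
  have h2f : Fact (Nat.Prime 2) := ⟨Nat.prime_two⟩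
  by_contra hno
  let K : Subgroup X := (pPrimeCore 2 M).map M.subtype
  have hKM : K ≤ M := Subgroup.map_subtype_le _
  have hKcop : (Nat.card K).Coprime 2 :=
    Nat.Coprime.coprime_dvd_left (Subgroup.card_map_dvd _ _) (H1.Cores.coprime_card_pPrimeCore 2)
  have hMK : M ≤ normalizer (K : Set X) := by
    rw [le_normalizer_iff]
    rintro m hm _ ⟨x, hx, rfl⟩
    have hn : (pPrimeCore 2 M).Normal := inferInstance
    exact ⟨⟨m, hm⟩ * x * ⟨m, hm⟩⁻¹, hn.conj_mem x hx ⟨m, hm⟩, rfl⟩
  have hKself : M ⊓ centralizer (K : Set X) ≤ K := by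
    intro x hx
    have h1 : (⟨x, (mem_inf.mp hx).1⟩ : M) ∈ centralizer (pPrimeCore 2 M : Set M) := by
      rw [mem_centralizer_iff]
      intro y hy
      apply Subtype.ext
      exact (mem_centralizer_iff.mp (mem_inf.mp hx).2) y (Subgroup.mem_map_of_mem _ hy)
    exact ⟨_, hcon h1, rfl⟩
  have hVp : IsPGroup 2 V := by
    intro x
    exact ⟨1, by apply Subtype.ext; simpa using hV.2 x x.2⟩
  have key : ∀ n : ℕ, ∀ A : Subgroup X, Nat.card A = n → A ≤ M → Cfsg.IsElementaryAbelian 2 A →
      Nat.card A ^ 2 ≤ (V ⊓ centralizer (A : Set X)).relIndex V := by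
    intro n
    induction n using Nat.strong_induction_on with
    | _ n ih =>
    intro A hn hAM hA
    have hAc : ∀ x ∈ A, ∀ y ∈ A, x * y = y * x := fun x hx y hy =>
      congrArg Subtype.val (hA.1.is_comm.comm (⟨x, hx⟩ : A) ⟨y, hy⟩)
    have hAp : IsPGroup 2 A := by
      intro x
      exact ⟨1, by apply Subtype.ext; simpa using hA.2 x x.2⟩
    by_cases hA1 : A = ⊥
    · rw [hA1, Subgroup.card_bot]
      have : (V ⊓ centralizer ((⊥ : Subgroup X) : Set X)).relIndex V ≠ 0 := Subgroup.index_ne_zero_of_finite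
      omega
    have hcop : (Nat.card A).Coprime (Nat.card K) := by
      obtain ⟨k, hk⟩ := IsPGroup.iff_card.mp hAp
      rw [hk]; exact Nat.Coprime.pow_left _ hKcop.symm
    have hAmul : IsMulCommutative A := hA.1
    obtain ⟨B, hBA, ⟨a, ha, hBa⟩, hBK⟩ : ∃ B : Subgroup X, B ≤ A ∧ (∃ a ∈ A, B ⊔ zpowers a = A) ∧
        ¬ K ⊓ centralizer (B : Set X) ≤ centralizer (A : Set X) := by
      by_contra hcon2
      push Not at hcon2
      have h1 : K ≤ centralizer (A : Set X) := by
        apply H65.CoCyclic.gen_cocyclic A K hAmul (hAM.trans hMK) hcop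
        rintro B hB ⟨a, ha, hBa⟩
        exact hcon2 B hB ⟨a, ha, hBa⟩
      have h2 : A ≤ K := by
        rw [le_centralizer_iff] at h1
        exact (le_inf hAM h1).trans hKself
      apply hA1
      have h3 : A ⊓ K = ⊥ := (Subgroup.disjoint_of_coprime_natCard hcop).eq_bot
      rwa [inf_eq_left.mpr h2] at h3
    have hBM : B ≤ M := hBA.trans hAM
    have hBne : B ≠ A := by
      intro h
      apply hBK
      rw [h]; exact inf_le_right
    have hBel : Cfsg.IsElementaryAbelian 2 B :=
      ⟨⟨⟨fun x y => Subtype.ext (hAc x (hBA x.2) y (hBA y.2))⟩⟩, fun x hx => hA.2 x (hBA hx)⟩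
    have hBp : IsPGroup 2 B := hAp.to_le hBA
    have ha2 : a * a = 1 := by rw [← pow_two]; exact hA.2 a ha
    have hBa' : B ⊔ zpowers a = A := hBa
    have hcA : centralizer (A : Set X) = centralizer (B : Set X) ⊓ centralizer {a} := by
      rw [← hBa', ← H65.PBasic2.centralizer_zpowers]
      apply le_antisymm
      · exact le_inf (centralizer_le (show B ≤ B ⊔ zpowers a from le_sup_left))
          (centralizer_le (show zpowers a ≤ B ⊔ zpowers a from le_sup_right))
      · rw [le_centralizer_iff]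
        refine sup_le ?_ ?_
        · rw [le_centralizer_iff]; exact inf_le_left
        · rw [le_centralizer_iff]; exact inf_le_right
    -- an element k of C_K(B) not centralized by a
    obtain ⟨k, hk, hkA⟩ := SetLike.not_le_iff_exists.mp hBK
    have hka : ¬ (k * a = a * k) := by
      intro h
      apply hkA
      rw [hcA]
      exact mem_inf.mpr ⟨(mem_inf.mp hk).2, mem_centralizer_singleton_iff.mpr h⟩
    have haM : a ∈ M := hAM ha
    set y0 := k * a * k⁻¹ * a⁻¹ with hy0
    have hy0K : y0 ∈ K := by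
      have h1 : a * k⁻¹ * a⁻¹ ∈ K := (mem_normalizer_iff.mp (hMK haM) _).mp (inv_mem (mem_inf.mp hk).1)
      have h2 := mul_mem (mem_inf.mp hk).1 h1
      simpa [hy0, mul_assoc] using h2
    have haB : a ∈ centralizer (B : Set X) := by
      rw [mem_centralizer_iff]
      intro b hb
      exact hAc b (hBA hb) a ha
    have hy0B : y0 ∈ centralizer (B : Set X) :=
      mul_mem (mul_mem (mul_mem (mem_inf.mp hk).2 haB) (inv_mem (mem_inf.mp hk).2)) (inv_mem haB)
    have hy0ne : y0 ≠ 1 := by
      intro h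
      rw [hy0, mul_inv_eq_one] at h
      exact hka (mul_inv_eq_iff_eq_mul.mp h)
    have ha' : a⁻¹ = a := inv_eq_of_mul_eq_one_left ha2
    have hinv : a * y0 * a⁻¹ = y0⁻¹ := by
      rw [hy0, ha']
      have : (k * a * k⁻¹ * a)⁻¹ = a⁻¹ * k * a⁻¹ * k⁻¹ := by group
      rw [this, ha']
      calc a * (k * a * k⁻¹ * a) * a = a * k * a * k⁻¹ * (a * a) := by group
        _ = a * k * a * k⁻¹ := by rw [ha2, mul_one]
    -- a power of prime order
    have hoy : orderOf y0 ≠ 1 := fun h => hy0ne (orderOf_eq_one_iff.mp h)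
    obtain ⟨q, hq, hqd⟩ := Nat.exists_prime_and_dvd hoy
    obtain ⟨m, hm⟩ := hqd
    have hm0 : m ≠ 0 := by
      rintro rfl
      rw [mul_zero] at hm
      exact (orderOf_pos y0).ne' hm
    set y := y0 ^ m with hy
    have hyo : orderOf y = q := by
      rw [hy, orderOf_pow_of_dvd hm0 ⟨q, by rw [hm, mul_comm]⟩, hm]
      exact Nat.mul_div_cancel _ (Nat.pos_of_ne_zero hm0)
    have hyK : y ∈ K := pow_mem hy0K m
    have hyB : y ∈ centralizer (B : Set X) := pow_mem hy0B m
    have hyinv : a * y * a⁻¹ = y⁻¹ := by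
      rw [hy, ← conj_pow, hinv, inv_pow]
    have hqK : q ∣ Nat.card K := by
      rw [← hyo, ← Subgroup.orderOf_mk y hyK]
      exact orderOf_dvd_natCard _
    have hq2 : q ≠ 2 := by
      rintro rfl
      have := Nat.Coprime.coprime_dvd_left hqK hKcop
      norm_num at this
    have hyM : y ∈ M := hKM hyK
    have hq3 : q ≠ 3 := by
      rintro rfl
      apply hno
      have hyo' : orderOf (⟨y, hyM⟩ : M) = 3 := by rw [Subgroup.orderOf_mk]; exact hyo
      have h1 : (⟨a, haM⟩ : M) * ⟨a, haM⟩ = 1 := Subtype.ext ha2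
      have h2 : (⟨a, haM⟩ : M) * ⟨y, hyM⟩ * (⟨a, haM⟩ : M)⁻¹ = (⟨y, hyM⟩ : M)⁻¹ := Subtype.ext hyinv
      have h3 : (⟨a, haM⟩ : M) ∉ zpowers (⟨y, hyM⟩ : M) := by
        intro h
        obtain ⟨i, hi⟩ := mem_zpowers_iff.mp h
        have h4 : y ^ i = a := congrArg Subtype.val hi
        have h5 : Commute a y := by rw [← h4]; exact (Commute.refl y).zpow_left i
        have h6 : y = y⁻¹ := by
          have := hyinv
          rwa [h5.eq, mul_inv_cancel_right] at this
        have h7 : y ^ 2 = 1 := by rw [pow_two]; nth_rewrite 2 [h6]; exact mul_inv_cancel y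
        have h8 := orderOf_dvd_of_pow_eq_one h7
        rw [hyo] at h8
        norm_num at h8
      obtain ⟨e⟩ := H10.Dihedral.dihedral_three_mulEquiv
      have hinj := H10.Dihedral.lift_injective 3 (⟨a, haM⟩ : M) ⟨y, hyM⟩ h1 hyo' h2 h3
      exact involves_of_injective (MonoidHom.comp (H10.Dihedral.lift 3 (⟨a, haM⟩ : M) ⟨y, hyM⟩ h1
        (hyo' ▸ pow_orderOf_eq_one _) h2) e.symm.toMonoidHom) (hinj.comp e.symm.injective)
    have hq5 : 5 ≤ q := by
      have := hq.two_le
      by_contra h
      have h1 : q = 2 ∨ q = 3 ∨ q = 4 := by omega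
      rcases h1 with h1 | h1 | h1
      · exact hq2 h1
      · exact hq3 h1
      · rw [h1] at hq; exact absurd hq (by norm_num)
    -- U = C_V(B)
    set U := V ⊓ centralizer (B : Set X) with hU
    have hyU : y ∈ normalizer (U : Set X) := by
      have h1 : ∀ z : X, z ∈ normalizer (V : Set X) → z ∈ centralizer (B : Set X) → ∀ u ∈ U, z * u * z⁻¹ ∈ U := by
        intro z hz1 hz2 u hu
        exact mem_inf.mpr ⟨(mem_normalizer_iff.mp hz1 u).mp (mem_inf.mp hu).1,
          mul_mem (mul_mem hz2 (mem_inf.mp hu).2) (inv_mem hz2)⟩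
      rw [mem_normalizer_iff]
      intro u
      refine ⟨h1 y (hMV hyM) hyB u, fun h => ?_⟩
      have := h1 y⁻¹ (inv_mem (hMV hyM)) (inv_mem hyB) _ h
      simpa [mul_assoc] using this
    have hcU : ¬ U ≤ centralizer {y} := by
      intro hcU
      have h1 : ⁅V, zpowers y⁆ = ⊥ := by
        apply H26.PxQ.commutator_eq_bot_pxq (p := 2) (P := B) hBp ?_ hVp ?_ (hBM.trans hMV)
          ((zpowers_le.mpr hyM).trans hMV) ?_
        · intro z hz
          have h3 : orderOf z ∣ orderOf y := by
            obtain ⟨i, rfl⟩ := mem_zpowers_iff.mp hz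
            apply orderOf_dvd_of_pow_eq_one
            rw [← zpow_natCast, ← zpow_mul, mul_comm, zpow_mul, zpow_natCast, pow_orderOf_eq_one, one_zpow]
          rw [hyo] at h3
          exact Nat.Coprime.coprime_dvd_left h3 ((Nat.coprime_primes hq Nat.prime_two).mpr hq2)
        · rw [Subgroup.commutator_comm, Subgroup.commutator_eq_bot_iff_le_centralizer, zpowers_le]
          exact hyB
        · rw [Subgroup.commutator_eq_bot_iff_le_centralizer, H65.PBasic2.centralizer_zpowers]
          exact hcU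
      have h2 : y ∈ M ⊓ centralizer (V : Set X) := by
        refine mem_inf.mpr ⟨hyM, ?_⟩
        rw [Subgroup.commutator_comm, Subgroup.commutator_eq_bot_iff_le_centralizer, zpowers_le] at h1
        exact h1
      rw [hfaith, mem_bot] at h2
      rw [h2, orderOf_one] at hyo
      omega
    have h4 := four_le U (hVp.to_le inf_le_left) hq hq5 hyo ha2 hyinv hyU hcU
    have hcard : Nat.card A ≤ 2 * Nat.card B := by
      have hz : zpowers a ≤ normalizer (B : Set X) := by
        rw [zpowers_le, mem_normalizer_iff]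
        intro b
        have h1 : ∀ z ∈ A, ∀ b ∈ B, z * b * z⁻¹ ∈ B := by
          intro z hz b hb
          rw [hAc z hz b (hBA hb), mul_inv_cancel_right]
          exact hb
        refine ⟨h1 a ha b, fun h => ?_⟩
        have := h1 a⁻¹ (inv_mem ha) _ h
        simpa [mul_assoc] using this
      have h5 := H28.RelHall.card_sup_dvd hz
      rw [sup_comm, hBa'] at h5
      have h6 : Nat.card (zpowers a) ∣ 2 := by
        rw [Nat.card_zpowers]
        exact orderOf_dvd_of_pow_eq_one (hA.2 a ha)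
      exact Nat.le_of_dvd (Nat.mul_pos (by norm_num) Nat.card_pos)
        (h5.trans (Nat.mul_dvd_mul_right h6 _))
    have hBlt : Nat.card B < n := by
      rw [← hn]
      rcases Nat.lt_or_ge (Nat.card B) (Nat.card A) with h | h
      · exact h
      · exact absurd (Subgroup.eq_of_le_of_card_ge hBA h) hBne
    have h5 := ih _ hBlt B rfl hBM hBel
    have h6 : V ⊓ centralizer (A : Set X) = U ⊓ centralizer {a} := by
      rw [hcA, hU, inf_assoc]
    have h7 := Subgroup.relIndex_mul_relIndex (U ⊓ centralizer {a}) U V inf_le_left inf_le_left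
    rw [h6, ← h7]
    calc Nat.card A ^ 2 ≤ (2 * Nat.card B) ^ 2 := Nat.pow_le_pow_left hcard 2
      _ = 4 * Nat.card B ^ 2 := by ring
      _ ≤ _ := Nat.mul_le_mul h4 h5
  exact absurd (key _ A rfl hAM hA) (not_le_of_gt hsmall)

end Cfsg.Agent.S3755
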