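import Cfsg.Statements.S3909
import Cfsg.Agent.Lib.H68.TwoGen

set_option autoImplicit false
open Cfsg

namespace Cfsg.Agent.S3909

/-- Let G be a finite group in which any two abelian subgroups of the same order are conjugate. Let M be a normal subgroup of G. If M contains an element of the same order as a ∈ G, then a ∈ M; and if M is elementary abelian of order p^t with p prime and t ≥ 2, then M is the unique Sylow p-subgroup of G. -/
theorem result {G : Type*} [Group G] [Finite G] (hB : ∀ A B : Subgroup G, IsMulCommutative ↥A → IsMulCommutative ↥B → Nat.card ↥A = Nat.card ↥B → ∃ g : G, B = A.map (MulAut.conj g).toMonoidHom) (M : Subgroup G) [M.Normal] :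
    (∀ a : G, (∃ m ∈ M, orderOf m = orderOf a) → a ∈ M) ∧
    ∀ (p t : ℕ) [Fact p.Prime], 2 ≤ t → Nat.card ↥M = p ^ t → Cfsg.IsElementaryAbelian p M → ∀ P : Sylow p G, (P : Subgroup G) = M := by
  constructor
  · rintro a ⟨m, hm, hma⟩
    have hz : ∀ x : G, IsMulCommutative ↥(Subgroup.zpowers x) := fun x => inferInstance
    obtain ⟨g, hg⟩ := hB (Subgroup.zpowers m) (Subgroup.zpowers a) (hz m) (hz a)
      (by rw [Nat.card_zpowers, Nat.card_zpowers, hma])
    have h1 : a ∈ Subgroup.zpowers a := Subgroup.mem_zpowers a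
    rw [hg] at h1
    obtain ⟨y, hy, rfl⟩ := Subgroup.mem_map.1 h1
    have hyM : y ∈ M := (Subgroup.zpowers_le.2 hm) hy
    simpa [MulAut.conj_apply] using Subgroup.Normal.conj_mem ‹M.Normal› y hyM g
  · intro p t hp ht hcard hel P
    have hpp : p.Prime := hp.out
    have hfirst : ∀ a : G, (∃ m ∈ M, orderOf m = orderOf a) → a ∈ M := by
      rintro a ⟨m, hm, hma⟩
      have hz : ∀ x : G, IsMulCommutative ↥(Subgroup.zpowers x) := fun x => inferInstance
      obtain ⟨g, hg⟩ := hB (Subgroup.zpowers m) (Subgroup.zpowers a) (hz m) (hz a)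
        (by rw [Nat.card_zpowers, Nat.card_zpowers, hma])
      have h1 : a ∈ Subgroup.zpowers a := Subgroup.mem_zpowers a
      rw [hg] at h1
      obtain ⟨y, hy, rfl⟩ := Subgroup.mem_map.1 h1
      have hyM : y ∈ M := (Subgroup.zpowers_le.2 hm) hy
      simpa [MulAut.conj_apply] using Subgroup.Normal.conj_mem ‹M.Normal› y hyM g
    -- a subgroup of order `p^2` of `M`
    obtain ⟨A, hA⟩ := Sylow.exists_subgroup_card_pow_prime (G := M) p (n := 2)
      (by rw [hcard]; exact pow_dvd_pow p ht)
    have hA' : Nat.card (A.map M.subtype) = p ^ 2 := by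
      rw [Subgroup.card_subtype, hA]
    have hAM : A.map M.subtype ≤ M := Subgroup.map_subtype_le A
    have hAc : IsMulCommutative ↥(A.map M.subtype) := by
      refine ⟨⟨fun a b => ?_⟩⟩
      have h1 := hel.1.is_comm.comm ⟨a, hAM a.2⟩ ⟨b, hAM b.2⟩
      ext
      simpa using congrArg Subtype.val h1
    have hnc : ∀ w : G, orderOf w ≠ p ^ 2 := by
      intro w hw
      have hz : IsMulCommutative ↥(Subgroup.zpowers w) := inferInstance
      obtain ⟨g, hg⟩ := hB (A.map M.subtype) (Subgroup.zpowers w) hAc hz
        (by rw [Nat.card_zpowers, hw, hA'])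
      have h1 : w ∈ Subgroup.zpowers w := Subgroup.mem_zpowers w
      rw [hg] at h1
      obtain ⟨y, hy, rfl⟩ := Subgroup.mem_map.1 h1
      have hyp : y ^ p = 1 := hel.2 y (hAM hy)
      have h2 : ((MulAut.conj g).toMonoidHom y) ^ p = 1 := by
        rw [← map_pow, hyp, map_one]
      have h3 := orderOf_dvd_of_pow_eq_one h2
      rw [hw] at h3
      have h4 := Nat.le_of_dvd hpp.pos h3
      have := hpp.two_le
      nlinarith
    -- an element of order `p` in `M`
    obtain ⟨m, hm⟩ := exists_prime_orderOf_dvd_card' (G := M) p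
      (by rw [hcard]; exact dvd_pow_self p (by omega))
    have hm' : orderOf (m : G) = p := by rw [Subgroup.orderOf_coe, hm]
    have hPM : (P : Subgroup G) ≤ M := by
      intro x hx
      obtain ⟨k, hk⟩ := (IsPGroup.iff_orderOf.1 P.2) ⟨x, hx⟩
      have hk' : orderOf x = p ^ k := by rw [← hk, Subgroup.orderOf_mk]
      rcases k with _ | _ | k
      · rw [pow_zero, orderOf_eq_one_iff] at hk'
        rw [hk']; exact one_mem _
      · apply hfirst
        exact ⟨m, m.2, by rw [hm', hk', zero_add, pow_one]⟩
      · exfalso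
        apply hnc (x ^ p ^ k)
        rw [orderOf_pow' x (pow_ne_zero k hpp.ne_zero), hk', Nat.gcd_eq_right (pow_dvd_pow p (by omega)),
          Nat.pow_div (by omega) hpp.pos]
        congr 1; omega
    have hMp : IsPGroup p M := IsPGroup.of_card hcard
    exact (P.is_maximal' hMp hPM).symm

end Cfsg.Agent.S3909
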