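import Cfsg.Statements.S3911
import Cfsg.Agent.Lib.H68.AbLift
import Cfsg.Agent.S3908
import Cfsg.Agent.S3909

set_option autoImplicit false
open Cfsg

namespace Cfsg.Agent.S3911

/-- for odd `q` dividing `|M|` and `|G : M|` the Sylow `q`-subgroups are cyclic -/
theorem sylow_cyclic {G : Type*} [Group G] [Finite G] (hB : H68.AbLift.AbConj G) (M : Subgroup G) [M.Normal]
    {q : ℕ} (hq : q.Prime) (hq2 : q ≠ 2) (hqM : q ∣ Nat.card M) (hqG : q ∣ M.index) :
    ∃ Q : Subgroup G, IsPGroup q Q ∧ ¬ q ∣ Q.index ∧ IsCyclic Q := by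
  have := Fact.mk hq
  obtain ⟨Q⟩ := (Sylow.nonempty : Nonempty (Sylow q G))
  refine ⟨Q, Q.2, Q.not_dvd_index, ?_⟩
  rcases (Cfsg.Agent.S3908.result hB).2 q hq2 Q with h | h
  · exact h
  · exfalso
    obtain ⟨m, hm⟩ := exists_prime_orderOf_dvd_card' (G := M) q hqM
    have hm' : orderOf (m : G) = q := by rw [Subgroup.orderOf_coe, hm]
    have hQM : (Q : Subgroup G) ≤ M := by
      intro x hx
      by_cases hx1 : x = 1
      · rw [hx1]; exact M.one_mem
      · exact (Cfsg.Agent.S3909.result hB M).1 x ⟨m, m.2, by rw [hm', orderOf_eq_prime (h x hx) hx1]⟩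
    exact Q.not_dvd_index (hqG.trans (Subgroup.index_dvd_of_le hQM))


/-- Let G be a finite group in which any two abelian subgroups of the same order are conjugate. If M is a normal subgroup of G of odd order, then any two abelian subgroups of G/M of the same order are conjugate in G/M. -/
theorem result {G : Type*} [Group G] [Finite G] (hB : ∀ A B : Subgroup G, IsMulCommutative ↥A → IsMulCommutative ↥B → Nat.card ↥A = Nat.card ↥B → ∃ g : G, B = A.map (MulAut.conj g).toMonoidHom) (M : Subgroup G) [M.Normal] (hM : Odd (Nat.card ↥M)) :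
    ∀ A B : Subgroup (G ⧸ M), IsMulCommutative ↥A → IsMulCommutative ↥B → Nat.card ↥A = Nat.card ↥B →
      ∃ g : G ⧸ M, B = A.map (MulAut.conj g).toMonoidHom := by
  apply H68.AbLift.abConj_quotient hB M
  intro q hq hqM hqG
  apply sylow_cyclic hB M hq _ hqM hqG
  rintro rfl
  exact (Nat.not_even_iff_odd.2 hM) (even_iff_two_dvd.2 hqM)

end Cfsg.Agent.S3911
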