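import Cfsg.Statements.S5945
import Cfsg.Agent.Lib.H98.PermSix

set_option autoImplicit false
open Cfsg

namespace Cfsg.Agent.S5945

open Equiv H98.PermIndex2

theorem mem_iff_stab (H : Subgroup (Perm (Fin 6))) (g : Perm (Fin 6)) :
    g ∈ H ↔ g • ((1 : Perm (Fin 6)) : Perm (Fin 6) ⧸ H) = ((1 : Perm (Fin 6)) : Perm (Fin 6) ⧸ H) := by
  rw [MulAction.Quotient.smul_coe, smul_eq_mul, mul_one, QuotientGroup.eq]
  simp

theorem mem_stab_coset (H : Subgroup (Perm (Fin 6))) (k g : Perm (Fin 6)) :
    g ∈ MulAction.stabilizer (Perm (Fin 6)) ((k : Perm (Fin 6)) : Perm (Fin 6) ⧸ H) ↔ k⁻¹ * g * k ∈ H := by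
  rw [MulAction.mem_stabilizer_iff, MulAction.Quotient.smul_coe, smul_eq_mul, QuotientGroup.eq,
    ← H.inv_mem_iff]
  simp [mul_assoc]

theorem third : ∀ a b : Fin 6, ∃ c : Fin 6, c ≠ a ∧ c ≠ b := by decide

theorem result : Nat.card {H : Subgroup (Equiv.Perm (Fin 6)) // H.index = 6} = 12 ∧ (∀ H : Subgroup (Equiv.Perm (Fin 6)), H.index = 6 → Nonempty (H ≃* Equiv.Perm (Fin 5))) ∧ ∃ H : Subgroup (Equiv.Perm (Fin 6)), H.index = 6 ∧ ∀ a : Fin 6, H ≠ MulAction.stabilizer (Equiv.Perm (Fin 6)) a := by
  classical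
  have h6 : Fintype.card (Fin 6) = 6 := Fintype.card_fin 6
  have h5 : 5 ≤ Fintype.card (Fin 6) := by rw [h6]; norm_num
  obtain ⟨K, hK, hKn⟩ := H98.PermSix.exists_transitive h6
  have hK6 : K.index = 6 := by rw [hK, h6]
  refine ⟨?_, ?_, K, hK6, hKn⟩
  · -- count
    let F : Fin 6 ⊕ (Perm (Fin 6) ⧸ K) → {H : Subgroup (Equiv.Perm (Fin 6)) // H.index = 6} := fun s =>
      match s with
      | Sum.inl a => ⟨MulAction.stabilizer (Perm (Fin 6)) a, by
          rw [MulAction.index_stabilizer_of_transitive, Nat.card_eq_fintype_card, h6]⟩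
      | Sum.inr x => ⟨MulAction.stabilizer (Perm (Fin 6)) x, by
          rw [MulAction.index_stabilizer_of_transitive]; exact hK6⟩
    have hcardK : Nat.card (Perm (Fin 6) ⧸ K) = 6 := hK6
    have hF : Function.Bijective F := by
      constructor
      · have mixed : ∀ (a : Fin 6) (x : Perm (Fin 6) ⧸ K), MulAction.stabilizer (Perm (Fin 6)) a ≠ MulAction.stabilizer (Perm (Fin 6)) x := by
          intro a x h
          obtain ⟨k, rfl⟩ := QuotientGroup.mk_surjective x
          apply hKn (k⁻¹ a)
          ext g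
          have h1 : k * g * k⁻¹ ∈ MulAction.stabilizer (Perm (Fin 6)) a ↔ g ∈ K := by
            rw [h, mem_stab_coset]
            simp [mul_assoc]
          rw [← h1, MulAction.mem_stabilizer_iff, MulAction.mem_stabilizer_iff]
          simp only [Perm.smul_def, Perm.mul_apply]
          constructor
          · intro h
            have h5 := congrArg (k⁻¹ : Perm (Fin 6)) h
            simpa using h5
          · intro h; rw [h]; simp
        rintro (a | x) (b | y) h
        · congr 1
          have h1 : MulAction.stabilizer (Perm (Fin 6)) a = MulAction.stabilizer (Perm (Fin 6)) b := congrArg Subtype.val h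
          by_contra hab
          obtain ⟨c, hca, hcb⟩ : ∃ c : Fin 6, c ≠ a ∧ c ≠ b := third a b
          have h2 : swap b c ∈ MulAction.stabilizer (Perm (Fin 6)) a := swap_apply_of_ne_of_ne hab hca.symm
          rw [h1] at h2
          have h3 : swap b c b = b := h2
          rw [swap_apply_left] at h3
          exact hcb h3
        · exact absurd (congrArg Subtype.val h) (mixed a y)
        · exact absurd (congrArg Subtype.val h).symm (mixed b x)
        · congr 1
          have h1 : MulAction.stabilizer (Perm (Fin 6)) x = MulAction.stabilizer (Perm (Fin 6)) y := congrArg Subtype.val h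
          by_contra hxy
          obtain ⟨z, hz⟩ : ∃ z : Perm (Fin 6) ⧸ K, z ∉ ({x, y} : Finset _) := by
            by_contra hcon
            push Not at hcon
            letI : Fintype (Perm (Fin 6) ⧸ K) := Fintype.ofFinite _
            have h2 : ({x, y} : Finset (Perm (Fin 6) ⧸ K)) = Finset.univ := Finset.eq_univ_iff_forall.mpr hcon
            have h3 := Finset.card_le_two (a := x) (b := y)
            rw [h2, Finset.card_univ, ← Nat.card_eq_fintype_card, hcardK] at h3
            omega
          simp only [Finset.mem_insert, Finset.mem_singleton, not_or] at hz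
          obtain ⟨g, hg⟩ := (cosetIso h5 K hK).surjective (swap y z)
          have h2 : g ∈ MulAction.stabilizer (Perm (Fin 6)) x := by
            rw [MulAction.mem_stabilizer_iff, ← cosetIso_apply h5 K hK, hg]
            exact swap_apply_of_ne_of_ne hxy (Ne.symm hz.1)
          rw [h1, MulAction.mem_stabilizer_iff, ← cosetIso_apply h5 K hK, hg, swap_apply_left] at h2
          exact hz.2 h2
      · rintro ⟨H, hH⟩
        by_cases hs : ∃ b : Fin 6, H = MulAction.stabilizer (Equiv.Perm (Fin 6)) b
        · obtain ⟨b, rfl⟩ := hs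
          exact ⟨Sum.inl b, rfl⟩
        · push Not at hs
          obtain ⟨k, hk⟩ := conj_of_not_stab h6 H K (by rw [hH, h6]) hK hs hKn
          refine ⟨Sum.inr ((k⁻¹ : Perm (Fin 6)) : Perm (Fin 6) ⧸ K), ?_⟩
          apply Subtype.ext
          show MulAction.stabilizer (Perm (Fin 6)) ((k⁻¹ : Perm (Fin 6)) : Perm (Fin 6) ⧸ K) = H
          ext g
          rw [mem_stab_coset, hk, inv_inv]
    rw [← Nat.card_congr (Equiv.ofBijective F hF), Nat.card_sum, hcardK, Nat.card_fin]
  · intro H hH
    have hHc : H.index = Fintype.card (Fin 6) := by rw [hH, h6]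
    set φ := cosetIso h5 H hHc with hφ
    set x₀ : Perm (Fin 6) ⧸ H := ((1 : Perm (Fin 6)) : Perm (Fin 6) ⧸ H) with hx₀
    let ψ : Perm {x : Perm (Fin 6) ⧸ H // x ≠ x₀} →* Perm (Fin 6) :=
      φ.symm.toMonoidHom.comp (Perm.ofSubtype)
    have hψ : Function.Injective ψ := φ.symm.injective.comp Perm.ofSubtype_injective
    have hcard : Nat.card {x : Perm (Fin 6) ⧸ H // x ≠ x₀} = 5 := by
      letI : Fintype (Perm (Fin 6) ⧸ H) := Fintype.ofFinite _
      have h1 : Fintype.card (Perm (Fin 6) ⧸ H) = 6 := by
        rw [← Nat.card_eq_fintype_card]; exact hH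
      rw [Nat.card_eq_fintype_card, Fintype.card_subtype_compl, h1, Fintype.card_subtype_eq]
    have hrange : ψ.range = H := by
      apply Subgroup.eq_of_le_of_card_ge
      · rintro _ ⟨σ, rfl⟩
        rw [mem_iff_stab, ← cosetIso_apply h5 H hHc]
        show φ (φ.symm (Perm.ofSubtype σ)) x₀ = x₀
        rw [MulEquiv.apply_symm_apply]
        exact Perm.ofSubtype_apply_of_not_mem σ (by simp)
      · have h1 := H.card_mul_index
        have h720 : Nat.card (Perm (Fin 6)) = 720 := by
          rw [Nat.card_perm, Nat.card_fin]; rfl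
        rw [hH, h720] at h1
        rw [Nat.card_congr (MonoidHom.ofInjective hψ).toEquiv.symm, Nat.card_perm, hcard]
        have : (5 : ℕ).factorial = 120 := rfl
        omega
    obtain ⟨e⟩ : Nonempty ({x : Perm (Fin 6) ⧸ H // x ≠ x₀} ≃ Fin 5) :=
      Finite.card_eq.mp (by rw [hcard, Nat.card_fin])
    exact ⟨((MulEquiv.subgroupCongr hrange).symm.trans (MonoidHom.ofInjective hψ).symm).trans e.permCongrHom⟩

end Cfsg.Agent.S5945
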