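import Mathlib
import Cfsg.Statements.S4116
import Cfsg.Agent.Lib.H71.Basic
import Cfsg.Agent.Lib.H71.Basic2
import Cfsg.Agent.Lib.H71.TICount

set_option autoImplicit false
open Cfsg

namespace Cfsg.Agent.S4116

/-- Let G be a finite group with a subgroup H whose order is coprime to its index (a Hall subgroup) and which meets each of its conjugates by elements outside N_G(H) trivially. Then every subgroup of G whose order is divisible only by primes dividing the order of H lies in a conjugate of H. -/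
theorem result {G : Type*} [Group G] [Finite G] (H : Subgroup G)
    (hHall : (Nat.card H).Coprime H.index) (hTI : Cfsg.IsTISubset (H : Set G))
    (K : Subgroup G) (hK : ∀ q : ℕ, q.Prime → q ∣ Nat.card K → q ∣ Nat.card H) :
    ∃ g : G, K ≤ H.map (MulAut.conj g).toMonoidHom := by
  classical
  have hmem : ∀ g x : G, x ∈ H.map (MulAut.conj g).toMonoidHom ↔ g⁻¹ * x * g ∈ H := by
    intro g x
    constructor
    · rintro ⟨h, hh, rfl⟩
      have : g⁻¹ * (g * h * g⁻¹) * g = h := by group
      simp only [MulEquiv.coe_toMonoidHom, MulAut.conj_apply]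
      rw [this]; exact hh
    · intro hh
      refine ⟨_, hh, ?_⟩
      simp only [MulEquiv.coe_toMonoidHom, MulAut.conj_apply]
      group
  -- TI
  have hTI' : ∀ g h x : G, x ≠ 1 → g⁻¹ * x * g ∈ H → h⁻¹ * x * h ∈ H → h⁻¹ * g ∈ Subgroup.normalizer (H : Set G) := by
    intro g h x hx hg hh
    by_contra hn
    have h1 := hTI (h⁻¹ * g) hn (g⁻¹ * x * g) hg (by
      have : (h⁻¹ * g) * (g⁻¹ * x * g) * (h⁻¹ * g)⁻¹ = h⁻¹ * x * h := by group
      rw [this]; exact hh)
    apply hx
    have : x = g * (g⁻¹ * x * g) * g⁻¹ := by group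
    rw [this, h1]; group
  -- elements of K normalizing H^g lie in H^g
  have hnorm : ∀ g k : G, k ∈ K → g⁻¹ * k * g ∈ Subgroup.normalizer (H : Set G) → g⁻¹ * k * g ∈ H := by
    intro g k hk hn
    have hHn : (H.subgroupOf (Subgroup.normalizer (H : Set G))).Normal := Subgroup.normal_in_normalizer
    have h1 : (⟨g⁻¹ * k * g, hn⟩ : Subgroup.normalizer (H : Set G)) ∈ H.subgroupOf (Subgroup.normalizer (H : Set G)) := by
      apply H71.Basic2.mem_of_orderOf_coprime_index
      rw [Subgroup.orderOf_mk]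
      have h2 : orderOf (g⁻¹ * k * g) ∣ Nat.card K := by
        have : orderOf (g⁻¹ * k * g) = orderOf k := by
          have := orderOf_injective (MulAut.conj g⁻¹).toMonoidHom (MulAut.conj g⁻¹).injective k
          simpa using this
        rw [this]
        exact Subgroup.orderOf_dvd_natCard K hk
      have h3 : (H.subgroupOf (Subgroup.normalizer (H : Set G))).index ∣ H.index := by
        have := Subgroup.relIndex_mul_index (H := H) (K := Subgroup.normalizer (H : Set G)) Subgroup.le_normalizer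
        exact ⟨_, this.symm⟩
      apply Nat.Coprime.coprime_dvd_right h3
      apply Nat.coprime_of_dvd
      intro q hq hq1 hq2
      have h4 := hK q hq (hq1.trans h2)
      have h5 := Nat.dvd_gcd h4 hq2
      rw [Nat.coprime_iff_gcd_eq_one.1 hHall] at h5
      exact hq.one_lt.ne' (Nat.dvd_one.1 h5)
    exact Subgroup.mem_subgroupOf.1 h1
  -- the intersections, as subgroups of K
  let D : G → Subgroup K := fun g => (H.map (MulAut.conj g).toMonoidHom).subgroupOf K
  have hD : ∀ (g : G) (k : K), k ∈ D g ↔ g⁻¹ * (k : G) * g ∈ H := by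
    intro g k
    rw [Subgroup.mem_subgroupOf, hmem]
  by_contra hcon
  push Not at hcon
  have hDtop : ∀ g, D g ≠ ⊤ := by
    intro g h
    apply hcon g
    rw [← Subgroup.subgroupOf_eq_top]; exact h
  -- conj structure
  have hkey : ∀ (g h : G) (k d : K), d ∈ D g → d ≠ 1 → k * d * k⁻¹ ∈ D h → h⁻¹ * ((k : G) * g) ∈ Subgroup.normalizer (H : Set G) := by
    intro g h k d hd hd1 hk
    rw [hD] at hd hk
    apply hTI' ((k : G) * g) h ((k * d * k⁻¹ : K) : G)
    · intro h'
      apply hd1
      apply Subtype.ext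
      have h2 : ((k * d * k⁻¹ : K) : G) = 1 := h'
      push_cast at h2
      have : (d : G) = (k : G)⁻¹ * ((k : G) * d * (k : G)⁻¹) * k := by group
      rw [this, h2]; simp
    · have : ((k : G) * g)⁻¹ * ((k * d * k⁻¹ : K) : G) * ((k : G) * g) = g⁻¹ * (d : G) * g := by push_cast; group
      rw [this]; exact hd
    · exact hk
  have hself : ∀ (g : G) (k d : K), d ∈ D g → d ≠ 1 → k * d * k⁻¹ ∈ D g → k ∈ D g := by
    intro g k d hd hd1 hk
    have h1 := hkey g g k d hd hd1 hk
    rw [hD]
    apply hnorm g k k.2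
    have : g⁻¹ * (k : G) * g = g⁻¹ * ((k : G) * g) := by group
    rw [this]; exact h1
  -- K nontrivial
  have hK1 : Nat.card K ≠ 1 := by
    intro h
    apply hcon 1
    rw [Subgroup.card_eq_one.1 h]; exact bot_le
  -- for each prime q | |K| some D g contains a Sylow q-subgroup
  have hsyl : ∀ q : ℕ, q.Prime → q ∣ Nat.card K → ∃ g : G, ∃ Q : Sylow q K, (Q : Subgroup K) ≤ D g := by
    intro q hq hqK
    haveI : Fact q.Prime := ⟨hq⟩
    obtain ⟨S⟩ : Nonempty (Sylow q H) := inferInstance
    obtain ⟨Q⟩ : Nonempty (Sylow q K) := inferInstance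
    -- S.map is Sylow in G
    have hScard : Nat.card ((S : Subgroup H).map H.subtype) = q ^ (Nat.card G).factorization q := by
      rw [Subgroup.card_map_of_injective H.subtype_injective, S.card_eq_multiplicity]
      congr 1
      have h1 : Nat.card H * H.index = Nat.card G := Subgroup.card_mul_index H
      rw [← h1, Nat.factorization_mul Nat.card_pos.ne' Subgroup.index_ne_zero_of_finite, Finsupp.add_apply]
      have h2 : ¬ q ∣ H.index := by
        intro h
        have h5 := Nat.dvd_gcd (hK q hq hqK) h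
        rw [Nat.coprime_iff_gcd_eq_one.1 hHall] at h5
        exact hq.one_lt.ne' (Nat.dvd_one.1 h5)
      rw [Nat.factorization_eq_zero_of_not_dvd h2, add_zero]
    let T : Sylow q G := Sylow.ofCard ((S : Subgroup H).map H.subtype) hScard
    have hQp : IsPGroup q ((Q : Subgroup K).map K.subtype) := Q.2.map _
    obtain ⟨T', hT'⟩ := hQp.exists_le_sylow
    obtain ⟨g, hg⟩ := MulAction.exists_smul_eq G T T'
    refine ⟨g, Q, ?_⟩
    intro x hx
    rw [hD]
    have h1 : (x : G) ∈ (T' : Subgroup G) := hT' ⟨x, hx, rfl⟩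
    rw [← hg, Sylow.coe_subgroup_smul, Subgroup.mem_pointwise_smul_iff_inv_smul_mem, ← map_inv, MulAut.smul_def, MulAut.conj_apply, inv_inv] at h1
    have h2 : g⁻¹ * (x : G) * g ∈ (S : Subgroup H).map H.subtype := h1
    obtain ⟨z, -, hz⟩ := h2
    rw [← hz]; exact z.2
  obtain ⟨p, hp, hpK⟩ := Nat.exists_prime_and_dvd hK1
  obtain ⟨g₁, Q₁, hQ₁⟩ := hsyl p hp hpK
  -- some D g₂ not conjugate to D g₁
  have hex : ∃ g₂ : G, D g₂ ≠ ⊥ ∧ ∀ k : K, g₂⁻¹ * ((k : G) * g₁) ∉ Subgroup.normalizer (H : Set G) := by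
    by_contra hno
    push Not at hno
    apply hDtop g₁
    apply Subgroup.eq_top_of_card_eq
    apply Nat.dvd_antisymm (Subgroup.card_subgroup_dvd_card _)
    rw [Nat.dvd_iff_prime_pow_dvd_dvd]
    intro q n hq hqn
    rcases Nat.eq_zero_or_pos n with rfl | hn
    · simp
    have hqK : q ∣ Nat.card K := (dvd_pow_self q hn.ne').trans hqn
    haveI : Fact q.Prime := ⟨hq⟩
    obtain ⟨g₂, Q₂, hQ₂⟩ := hsyl q hq hqK
    have hne : D g₂ ≠ ⊥ := by
      intro h
      rw [h, le_bot_iff] at hQ₂
      exact Q₂.ne_bot_of_dvd_card hqK hQ₂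
    obtain ⟨k, hk⟩ := hno g₂ hne
    -- D g₂ = k D g₁ k⁻¹
    have h1 : Nat.card (D g₂) ∣ Nat.card (D g₁) := by
      have hle : (D g₂) ≤ (D g₁).map (MulAut.conj k).toMonoidHom := by
        intro x hx
        rw [hD] at hx
        refine ⟨k⁻¹ * x * k, ?_, ?_⟩
        · change k⁻¹ * x * k ∈ D g₁
          rw [hD]
          rw [Subgroup.mem_normalizer_iff''] at hk
          have := (hk (g₂⁻¹ * (x : G) * g₂)).1 hx
          have e : (g₂⁻¹ * ((k : G) * g₁))⁻¹ * (g₂⁻¹ * (x : G) * g₂) * (g₂⁻¹ * ((k : G) * g₁)) = g₁⁻¹ * ((k⁻¹ * x * k : K) : G) * g₁ := by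
            push_cast; group
          rwa [e] at this
        · simp only [MulEquiv.coe_toMonoidHom, MulAut.conj_apply]
          group
      have := Subgroup.card_dvd_of_le hle
      rwa [Subgroup.card_map_of_injective (MulAut.conj k).injective] at this
    have h2 : q ^ n ∣ Nat.card (Q₂ : Subgroup K) := Q₂.pow_dvd_card_of_pow_dvd_card hqn
    exact (h2.trans (Subgroup.card_dvd_of_le hQ₂)).trans h1
  obtain ⟨g₂, hD2, hg₂⟩ := hex
  haveI : Fact p.Prime := ⟨hp⟩
  have hD1 : D g₁ ≠ ⊥ := by
    intro h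
    rw [h, le_bot_iff] at hQ₁
    exact Q₁.ne_bot_of_dvd_card hpK hQ₁
  -- count
  let E : Bool → Subgroup K := fun b => if b then D g₁ else D g₂
  have hg₂' : ∀ k : K, g₁⁻¹ * ((k : G) * g₂) ∉ Subgroup.normalizer (H : Set G) := by
    intro k hk
    apply hg₂ k⁻¹
    have := Subgroup.inv_mem _ hk
    have e : (g₁⁻¹ * ((k : G) * g₂))⁻¹ = g₂⁻¹ * (((k⁻¹ : K) : G) * g₁) := by push_cast; group
    rwa [e] at this
  have hcount := H71.TICount.sum_le E E (by
    intro i j k d hd hd1 hk
    cases i <;> cases j <;> simp only [E, if_true, if_false, Bool.false_eq_true] at hd hk ⊢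
    · exact ⟨trivial, hself g₂ k d hd hd1 hk⟩
    · exact absurd (hkey g₂ g₁ k d hd hd1 hk) (hg₂' k)
    · exact absurd (hkey g₁ g₂ k d hd hd1 hk) (hg₂ k)
    · exact ⟨trivial, hself g₁ k d hd hd1 hk⟩)
  rw [Fintype.sum_bool] at hcount
  simp only [E, if_true, Bool.false_eq_true, if_false] at hcount
  have hidx : ∀ g, D g ≠ ⊥ → Nat.card K ≤ 2 * ((D g).index * (Nat.card (D g) - 1)) := by
    intro g hg
    have h1 := Subgroup.card_mul_index (D g)
    have h2 : 2 ≤ Nat.card (D g) := by
      have h3 : Nat.card (D g) ≠ 1 := fun h => hg (Subgroup.card_eq_one.1 h)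
      have h4 : 0 < Nat.card (D g) := Nat.card_pos
      omega
    obtain ⟨m, hm⟩ := Nat.exists_eq_add_of_le h2
    rw [hm] at h1 ⊢
    have : 2 + m - 1 = m + 1 := by omega
    rw [this]
    nlinarith
  have h1 := hidx g₁ hD1
  have h2 := hidx g₂ hD2
  have h3 : 0 < Nat.card K := Nat.card_pos
  omega

end Cfsg.Agent.S4116
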