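import Cfsg.Statements.S4035
import Cfsg.Agent.Lib.H70.Cover

set_option autoImplicit false
open Cfsg

namespace Cfsg.Agent.S4035

open Subgroup in
/-- Let G be a finite group and p a prime such that p divides the size of no conjugacy class of p-regular elements (elements of order prime to p). Then G is the internal direct product of a Sylow p-subgroup P and a normal subgroup H of order prime to p: P is normal, P ⊓ H = 1 and PH = G. -/
theorem result {G : Type*} [Group G] [Finite G] {p : ℕ} [Fact p.Prime]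
    (h : ∀ x : G, (orderOf x).Coprime p → ¬ p ∣ (ConjClasses.mk x).carrier.ncard) (P : Sylow p G) :
    (P : Subgroup G).Normal ∧ ∃ H : Subgroup G, H.Normal ∧ ¬ p ∣ Nat.card H ∧
      (P : Subgroup G) ⊓ H = ⊥ ∧ (P : Subgroup G) ⊔ H = ⊤ := by
  have hp : p.Prime := Fact.out
  have hcl : ∀ x : G, (orderOf x).Coprime p → ¬ p ∣ (centralizer ({x} : Set G)).index := by
    intro x hx
    rw [← H70.Basic.ncard_class]
    exact h x hx
  -- every element is in a conjugate of P C(P)
  have hcov : (P : Subgroup G) ⊔ centralizer ((P : Subgroup G) : Set G) = ⊤ := by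
    apply H70.Cover.eq_top_of_cover
    intro y
    obtain ⟨a, b, hab, ⟨k, hk⟩, hb⟩ := H70.Real.exists_decomp p hp y
    have hyb : (orderOf (y ^ b)).Coprime p := ((Nat.Prime.coprime_iff_not_dvd hp).mpr hb).symm
    have hX : IsPGroup p (zpowers (y ^ a)) := by
      apply IsPGroup.of_card (n := k)
      rw [Nat.card_zpowers, hk]
    have hXC : zpowers (y ^ a) ≤ centralizer ({y ^ b} : Set G) := by
      rw [zpowers_le, mem_centralizer_singleton_iff, ← pow_add, ← pow_add, add_comm]
    obtain ⟨R, hXR, hRC⟩ := H70.Cover.exists_sylow_between _ (hcl _ hyb) _ hXC hX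
    obtain ⟨g, hg⟩ := MulAction.exists_smul_eq G P R
    have hconj : ∀ z ∈ (R : Subgroup G), g⁻¹ * z * g ∈ (P : Subgroup G) := by
      intro z hz
      rw [← hg, Sylow.coe_subgroup_smul] at hz
      obtain ⟨w, hw, rfl⟩ := hz
      simp only [MulDistribMulAction.toMonoidEnd_apply, MulDistribMulAction.toMonoidHom_apply,
        MulAut.smul_def, MulAut.conj_apply]
      have : g⁻¹ * (g * w * g⁻¹) * g = w := by group
      rw [this]; exact hw
    have hconj' : ∀ w ∈ (P : Subgroup G), g * w * g⁻¹ ∈ (R : Subgroup G) := by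
      intro w hw
      rw [← hg, Sylow.coe_subgroup_smul]
      exact ⟨w, hw, by simp⟩
    refine ⟨g, ?_⟩
    have e : g⁻¹ * y * g = (g⁻¹ * y ^ a * g) * (g⁻¹ * y ^ b * g) := by
      calc g⁻¹ * y * g = g⁻¹ * (y ^ a * y ^ b) * g := by rw [hab]
        _ = _ := by group
    rw [e]
    apply mul_mem
    · exact (le_sup_left : (P : Subgroup G) ≤ _) (hconj _ (hXR (mem_zpowers _)))
    · apply (le_sup_right : centralizer ((P : Subgroup G) : Set G) ≤ _)
      rw [mem_centralizer_iff]
      intro w hw
      have h1 := mem_centralizer_singleton_iff.mp (hRC (hconj' w hw))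
      calc w * (g⁻¹ * y ^ b * g) = g⁻¹ * ((g * w * g⁻¹) * y ^ b) * g := by group
        _ = g⁻¹ * (y ^ b * (g * w * g⁻¹)) * g := by rw [h1]
        _ = g⁻¹ * y ^ b * g * w := by group
  have hPn : (P : Subgroup G).Normal := by
    rw [← normalizer_eq_top_iff, eq_top_iff, ← hcov]
    apply sup_le le_normalizer
    exact centralizer_le_normalizer _
  refine ⟨hPn, ?_⟩
  have hcop : (Nat.card (P : Subgroup G)).Coprime (P : Subgroup G).index := P.card_coprime_index
  obtain ⟨H, hH⟩ := exists_right_complement'_of_coprime hcop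
  have hHcard : Nat.card H = (P : Subgroup G).index := (hH.symm.index_eq_card).symm
  have hpH : ¬ p ∣ Nat.card H := by rw [hHcard]; exact P.not_dvd_index
  have hHC : ∀ x ∈ H, ∀ w ∈ (P : Subgroup G), w * x = x * w := by
    intro x hx w hw
    have hxr : (orderOf x).Coprime p := by
      rw [Nat.coprime_comm, Nat.Prime.coprime_iff_not_dvd hp]
      intro hd
      exact hpH (hd.trans (orderOf_dvd_natCard H hx))
    obtain ⟨R, -, hRC⟩ := H70.Cover.exists_sylow_between _ (hcl _ hxr) ⊥ bot_le IsPGroup.of_bot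
    haveI := hPn
    have hRP : (R : Subgroup G) = P := by
      obtain ⟨g, hg⟩ := MulAction.exists_smul_eq G P R
      rw [Sylow.smul_eq_of_normal] at hg
      rw [hg]
    rw [hRP] at hRC
    exact mem_centralizer_singleton_iff.mp (hRC hw)
  refine ⟨H, ?_, hpH, hH.disjoint.eq_bot, hH.sup_eq_top⟩
  rw [← normalizer_eq_top_iff, eq_top_iff, ← hH.sup_eq_top]
  apply sup_le ?_ le_normalizer
  apply H70.Basic.le_normalizer_of_conj
  intro w hw x hx
  rw [hHC x hx w hw]
  simpa using hx

end Cfsg.Agent.S4035
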