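import Cfsg.Statements.S1237
import Cfsg.Agent.Lib.H26.RankTwoAut5
import Cfsg.Agent.Lib.H26.U34
import Cfsg.Agent.S1141

set_option autoImplicit false
open Cfsg

namespace Cfsg.Agent.S1237

/-- Let T be a finite 2-group of 2-rank exactly 2 (it has a Klein four-subgroup but no elementary abelian subgroup of order 8) admitting an automorphism φ such that any two involutions of T are carried to one another by a power of φ. Then T ≅ Z_{2^n} × Z_{2^n} for some n ≥ 1, or T is isomorphic to a Sylow 2-subgroup of PSU(3) over the field with 16 elements. -/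
theorem result {T : Type*} [Group T] [Finite T] (hT : IsPGroup 2 T) (h2 : Cfsg.PRankLE 2 2 T) (h1 : ¬ Cfsg.PRankLE 2 1 T) (φ : MulAut T) (htrans : ∀ s t : T, orderOf s = 2 → orderOf t = 2 → ∃ k : ℕ, (φ ^ k) s = t) {F : Type*} [Field F] [Fintype F] (hF : Fintype.card F = 16) (P : Sylow 2 (Cfsg.PSU 3 F 4)) : (∃ n : ℕ, 1 ≤ n ∧ Nonempty (T ≃* Multiplicative (ZMod (2 ^ n) × ZMod (2 ^ n)))) ∨ Nonempty (T ≃* (P : Subgroup (Cfsg.PSU 3 F 4))) := by
  classical
  obtain ⟨α, hα⟩ := H26.RankTwoAut5.exists_setup hT h2 h1 φ htrans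
  by_cases hna : ∃ x y : T, x * y ≠ y * x
  · right
    obtain ⟨u1, u2, v1, v2, e1, e2, hg⟩ := H26.RankTwoAut3.exists_gen hα hna
    -- the same for `P`
    have hK : Fintype.card F = (2 ^ 2) ^ 2 := by rw [hF]; norm_num
    have hsuz := (Cfsg.Agent.S1141.result (n := 2) le_rfl hK P).2.2
    obtain ⟨-, hPp, hPna, -, K, hKc, hKreg⟩ := hsuz
    have hdata := H26.U34.data_sylow hF P
    have hPfin : Finite P := hdata.finite
    obtain ⟨k, hk⟩ := hKc.exists_generator
    have hsqiff : ∀ x : P, x * x = 1 ↔ x ∈ Subgroup.center P := hdata.sq_iff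
    have hr2 : Cfsg.PRankLE 2 2 P := by
      intro A _ hA2
      have hle : A ≤ Subgroup.center P := fun a ha => by
        rw [← hsqiff, ← pow_two]; exact hA2 a ha
      have := Subgroup.card_le_of_le hle
      rw [hdata.center] at this
      exact this.trans (by norm_num)
    have hr1 : ¬ Cfsg.PRankLE 2 1 P := by
      intro hr
      have := hr (Subgroup.center P) inferInstance (fun a ha => by
        rw [pow_two]; exact (hsqiff a).mpr ha)
      rw [hdata.center] at this
      norm_num at this
    obtain ⟨β, hβ⟩ := H26.RankTwoAut5.exists_setup hPp hr2 hr1 (k : MulAut P) (by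
      intro s t hs ht
      have hs1 : s ≠ 1 := fun h => by rw [h, orderOf_one] at hs; omega
      have ht1 : t ≠ 1 := fun h => by rw [h, orderOf_one] at ht; omega
      have hs2 : s * s = 1 := (pow_two s).symm.trans (orderOf_dvd_iff_pow_eq_one.mp (dvd_of_eq hs))
      have ht2 : t * t = 1 := (pow_two t).symm.trans (orderOf_dvd_iff_pow_eq_one.mp (dvd_of_eq ht))
      obtain ⟨j, hj, -⟩ := hKreg s t hs1 hs2 ht1 ht2
      have hmem := hk j
      rw [← mem_powers_iff_mem_zpowers] at hmem
      obtain ⟨i, hi⟩ := hmem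
      refine ⟨i, ?_⟩
      have h3 : ((k ^ i : K) : MulAut P) s = t := by
        have h4 : k ^ i = j := hi
        rw [h4]; exact hj
      simpa using h3)
    obtain ⟨u1', u2', v1', v2', e1', e2', hg'⟩ := H26.RankTwoAut3.exists_gen hβ hPna
    exact H26.RankTwoAut4.iso hg hg'
  · left
    push Not at hna
    have hnt : Nontrivial T := by
      by_contra hns
      rw [not_nontrivial_iff_subsingleton] at hns
      apply h1
      intro A _ _
      have : Nat.card A ≤ 1 := by
        rw [Finite.card_le_one_iff_subsingleton]; infer_instance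
      omega
    exact H26.RankTwoAut.abelian_iso hα hna hnt

end Cfsg.Agent.S1237
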