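import Cfsg.Statements.S4569
import Cfsg.Agent.Lib.H79.SixMain
import Cfsg.Agent.Lib.H79.NilCount
import Cfsg.Agent.S4646

set_option autoImplicit false
open Cfsg

namespace Cfsg.Agent.S4569

theorem card_of_rank_one {G : Type*} [Group G] [Finite G] {p : ℕ} {M : Ideal Cfsg.AlgInt} (hM : Cfsg.IsPModular p M)
    (P : Sylow p G) (hab : ∀ x ∈ (P : Subgroup G), ∀ y ∈ (P : Subgroup G), x * y = y * x)
    (h1 : Cfsg.blockRank p (Cfsg.principalBlock M G) = 1) :
    Nat.card (Cfsg.principalBlock M G) = Nat.card (P : Subgroup G) := by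
  haveI : Fact p.Prime := ⟨hM.1⟩
  have hnil := (Cfsg.Agent.S4646.result p M hM (G := G)).2 h1
  obtain ⟨D, hD⟩ := H20.DefGrp.exists_isDefectGroup hM (H78.PrincReal.isPBlock_principal (M := M) (G := G))
  obtain ⟨Q, hQ⟩ := H79.KLTwo.principal_sylow hM hD
  obtain ⟨g, hg⟩ := MulAction.exists_smul_eq G P Q
  have hQab : ∀ x ∈ D, ∀ y ∈ D, x * y = y * x := by
    intro x hx y hy
    rw [← hQ, ← hg] at hx hy
    obtain ⟨x', hx', rfl⟩ := hx
    obtain ⟨y', hy', rfl⟩ := hy
    have := hab x' hx' y' hy'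
    show g * x' * g⁻¹ * (g * y' * g⁻¹) = g * y' * g⁻¹ * (g * x' * g⁻¹)
    calc g * x' * g⁻¹ * (g * y' * g⁻¹) = g * (x' * y') * g⁻¹ := by group
      _ = g * (y' * x') * g⁻¹ := by rw [this]
      _ = _ := by group
  rw [H79.NilCount.card_of_nilpotent hM hnil hD hQab, ← hQ]
  exact Nat.card_congr (Sylow.equiv Q P).toEquiv

/-- Let G be a finite group whose Sylow 2-subgroup P is elementary abelian of order 16, suppose the centralizer of P has index 9 in its normalizer, and let M be a maximal ideal of the algebraic integers containing 2. Then the principal 2-block contains exactly 16 irreducible characters and has 2-regular rank 9. -/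
theorem result {G : Type*} [Group G] [Finite G] (M : Ideal Cfsg.AlgInt) (hM : Cfsg.IsPModular 2 M) (P : Sylow 2 G) (hcard : Nat.card P = 16) (hel : ∀ x : P, x ^ 2 = 1) (he : (Subgroup.centralizer ((P : Subgroup G) : Set G)).relIndex (Subgroup.normalizer ((P : Subgroup G) : Set G)) = 9) : Nat.card (Cfsg.principalBlock M G) = 16 ∧ Cfsg.blockRank 2 (Cfsg.principalBlock M G) = 9 := by
  obtain ⟨U, V, h⟩ := H79.SixCfg.exists_cfg P hcard hel he
  rcases h.sixteen_or_eight hM with h1 | ⟨h8, h1⟩
  · exact h1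
  · exfalso
    have h2 := card_of_rank_one hM P h.comm h1
    have h4 : Nat.card (P : Subgroup G) = 16 := hcard
    rw [h2, h4] at h8
    norm_num at h8

end Cfsg.Agent.S4569
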