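import Cfsg.Statements.S1946
import Cfsg.Agent.Lib.H38.SmallExp
import Cfsg.Agent.Lib.H38.NilComm
import Cfsg.Agent.Lib.H2.Frobenius
import Cfsg.Agent.Lib.H2.NPC
open H38.Basic H38.PPrime H38.SmallExp

set_option autoImplicit false
open Cfsg

namespace Cfsg.Agent.S1946

/-- Let P be a Sylow p-subgroup of the finite group G. Then G has a normal p-complement if and only if P controls the fusion of its elements of order dividing p (dividing 4 when p = 2): whenever such an element a of P has a G-conjugate g a g⁻¹ in P, that conjugate is already x a x⁻¹ for some x in P. -/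
theorem result {G : Type*} [Group G] [Finite G] {p : ℕ} [Fact p.Prime] (P : Sylow p G) :
    Cfsg.HasNormalPComplement p G ↔
      ∀ a ∈ (P : Subgroup G), (a ^ p = 1 ∨ (p = 2 ∧ a ^ 4 = 1)) → ∀ g : G, g * a * g⁻¹ ∈ (P : Subgroup G) →
        ∃ x ∈ (P : Subgroup G), g * a * g⁻¹ = x * a * x⁻¹ := by
  constructor
  · intro h a ha _ g hg
    have hc := H2.NPC.isComplement'_residual_of_hasNPC h P
    set N := Cfsg.pResidual p G with hN
    have hNn : N.Normal := by
      rw [← Subgroup.normalizer_eq_top_iff, eq_top_iff]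
      intro x _
      rw [mem_normalizer_iff']
      refine Subgroup.eq_of_le_of_card_ge ?_ (by rw [card_conj])
      rw [hN, Cfsg.pResidual, MonoidHom.map_closure, Subgroup.closure_le]
      rintro _ ⟨y, hy, rfl⟩
      apply Subgroup.subset_closure
      show Nat.Coprime (orderOf _) p
      simp only [MulEquiv.toMonoidHom_eq_coe, MonoidHom.coe_coe, MulAut.conj_apply]
      rw [orderOf_conj]; exact hy
    obtain ⟨⟨⟨n, hn⟩, ⟨x, hx⟩⟩, hnx⟩ := (hc.existsUnique g).exists
    have hgx : n * x = g := hnx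
    refine ⟨x, hx, ?_⟩
    have h1 : x * a * x⁻¹ ∈ (P : Subgroup G) := mul_mem (mul_mem hx ha) (inv_mem hx)
    have h2 : g * a * g⁻¹ * (x * a * x⁻¹)⁻¹ ∈ N := by
      have := N.mul_mem hn (hNn.conj_mem _ (N.inv_mem hn) (x * a * x⁻¹))
      convert this using 1
      rw [← hgx]; group
    have h3 : g * a * g⁻¹ * (x * a * x⁻¹)⁻¹ ∈ (P : Subgroup G) := mul_mem hg (inv_mem h1)
    have h4 : g * a * g⁻¹ * (x * a * x⁻¹)⁻¹ = 1 := by
      have := hc.disjoint.le_bot ⟨h2, h3⟩
      exact this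
    exact mul_inv_eq_one.1 h4
  · intro h
    apply H2.Frobenius.hasNPC_of_local
    intro D hD g hg hgo
    by_contra hgC
    obtain ⟨E, hED, hEN, hEne, hEgen, hEexp⟩ := exists_smallExp hD hg hgo hgC
    -- move `E` into `P`
    obtain ⟨y, -, hy⟩ := (isSyl_sylow P).exists_conj_le (hD.to_le hED) le_top
    -- `E' ≤ [E', P]`
    have hE'P : E.map (MulAut.conj y).toMonoidHom ≤ ⁅E.map (MulAut.conj y).toMonoidHom, (P : Subgroup G)⁆ := by
      rw [Subgroup.map_le_iff_le_comap]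
      conv_lhs => rw [← hEgen]
      rw [Subgroup.closure_le]
      rintro _ ⟨e, he, rfl⟩
      show y * (e⁻¹ * (g * e * g⁻¹)) * y⁻¹ ∈ ⁅E.map (MulAut.conj y).toMonoidHom, (P : Subgroup G)⁆
      have h1 : y * e * y⁻¹ ∈ (P : Subgroup G) := hy (conj_mem_conj.2 he)
      have h2 : y * (g * e * g⁻¹) * y⁻¹ ∈ (P : Subgroup G) :=
        hy (conj_mem_conj.2 ((Subgroup.mem_normalizer_iff.1 hEN e).1 he))
      have h3 : (y * e * y⁻¹) ^ p = 1 ∨ (p = 2 ∧ (y * e * y⁻¹) ^ 4 = 1) := by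
        rw [← ex_iff, conj_pow, hEexp e he]; group
      obtain ⟨x, hx, hxe⟩ := h _ h1 h3 (y * g * y⁻¹) (by
        have e1 : y * g * y⁻¹ * (y * e * y⁻¹) * (y * g * y⁻¹)⁻¹ = y * (g * e * g⁻¹) * y⁻¹ := by group
        rw [e1]; exact h2)
      have e1 : y * (e⁻¹ * (g * e * g⁻¹)) * y⁻¹ =
          (y * e * y⁻¹)⁻¹ * (y * g * y⁻¹ * (y * e * y⁻¹) * (y * g * y⁻¹)⁻¹) := by group
      rw [e1, hxe]
      have h4 := Subgroup.commutator_mem_commutator (Subgroup.inv_mem _ (conj_mem_conj.2 he :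
        y * e * y⁻¹ ∈ E.map (MulAut.conj y).toMonoidHom)) hx
      have e2 : (y * e * y⁻¹)⁻¹ * (x * (y * e * y⁻¹) * x⁻¹) =
          (y * e * y⁻¹)⁻¹ * x * (y * e * y⁻¹)⁻¹⁻¹ * x⁻¹ := by group
      rw [e2]
      exact h4
    -- contradiction with nilpotency of `P`
    have := H38.NilComm.eq_bot_of_le_commutator P.2 hy hE'P
    apply hEne
    rw [conj_eq_iff, conj_bot] at this
    exact this

end Cfsg.Agent.S1946
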