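import Cfsg.Statements.S4914
import Cfsg.Agent.Lib.H82.IsNav6

set_option autoImplicit false
open Cfsg

namespace Cfsg.Agent.S4914
open Cfsg H18 H18.CharBasic H18.CharOrtho H18.CharInd H18.CharQuot H77.GlaubP H82.IsNav
open scoped ComplexConjugate

theorem sylow_inv {G : Type*} [Group G] [Finite G] (p : ℕ) [Fact p.Prime] (P K Q : Subgroup G)
    (hPK : P ≤ Subgroup.normalizer (K : Set G)) (hQK : Q ≤ K)
    (hQn : ∀ k ∈ K, ∀ q ∈ Q, k * q * k⁻¹ ∈ Q) (hQp : ∃ a : ℕ, Nat.card ↥Q = p ^ a)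
    (hQsyl : ¬ p ∣ Q.relIndex K) (y : G) (hy : y ∈ P) (q : G) (hq : q ∈ Q) :
    y * q * y⁻¹ ∈ Q := by
  have hmem : y * q * y⁻¹ ∈ K := (Subgroup.mem_normalizer_iff.1 (hPK hy) q).1 (hQK hq)
  haveI hn : (Q.subgroupOf K).Normal := ⟨fun n hn g => by
    rw [Subgroup.mem_subgroupOf] at hn ⊢
    exact hQn g g.2 n hn⟩
  obtain ⟨a, ha⟩ := hQp
  have h1 : (y * q * y⁻¹) ^ (p ^ a) = 1 := by
    rw [conj_pow, ← ha]
    have : q ^ Nat.card Q = 1 := by
      have := pow_card_eq_one' (x := (⟨q, hq⟩ : Q))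
      exact congrArg Subtype.val this
    rw [this, mul_one, mul_inv_cancel]
  have h2 : ((⟨_, hmem⟩ : K) : K ⧸ Q.subgroupOf K) ^ (p ^ a) = 1 := by
    rw [← QuotientGroup.mk_pow]
    have : (⟨_, hmem⟩ : K) ^ (p ^ a) = 1 := Subtype.ext h1
    rw [this]
    rfl
  have h3 : ((⟨_, hmem⟩ : K) : K ⧸ Q.subgroupOf K) ^ (Nat.card (K ⧸ Q.subgroupOf K)) = 1 :=
    pow_card_eq_one'
  have h4 : Nat.Coprime (p ^ a) (Nat.card (K ⧸ Q.subgroupOf K)) :=
    Nat.Coprime.pow_left _ ((Nat.Prime.coprime_iff_not_dvd (Fact.out)).2 hQsyl)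
  have h5 : ((⟨_, hmem⟩ : K) : K ⧸ Q.subgroupOf K) = 1 := by
    have h6 := Nat.dvd_gcd (orderOf_dvd_of_pow_eq_one h2) (orderOf_dvd_of_pow_eq_one h3)
    rw [h4] at h6
    exact orderOf_eq_one_iff.1 (Nat.dvd_one.1 h6)
  rw [QuotientGroup.eq_one_iff] at h5
  exact h5

/-- Let P and K be subgroups of a finite group G with P a p-group normalizing K, and suppose K has a normal Sylow p-subgroup Q. Let C be the subgroup of those k ∈ K whose commutator with every element of P lies in Q (so that C/Q is the fixed-point subgroup of P on K/Q). Then there is a bijection f from the P-invariant irreducible complex characters of K onto the P-invariant irreducible complex characters of C such that, for every P-invariant irreducible character χ of K, the multiplicity of f(χ) in the restriction of χ to C is a natural number congruent to 1 or to −1 modulo p, every other P-invariant irreducible character of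 C occurs in that restriction with multiplicity divisible by p, and the degrees of χ and f(χ) are congruent modulo p up to sign. -/
theorem result {G : Type*} [Group G] [Finite G] (p : ℕ) [Fact p.Prime] (P K Q C : Subgroup G) (hP : IsPGroup p ↥P) (hPK : P ≤ Subgroup.normalizer (K : Set G)) (hQK : Q ≤ K) (hQn : ∀ k ∈ K, ∀ q ∈ Q, k * q * k⁻¹ ∈ Q) (hQp : ∃ a : ℕ, Nat.card ↥Q = p ^ a) (hQsyl : ¬ p ∣ Q.relIndex K) (hCK : C ≤ K) (hC : ∀ k : G, k ∈ C ↔ (k ∈ K ∧ ∀ x ∈ P, x * k * x⁻¹ * k⁻¹ ∈ Q)) : ∃ f : {χ : Cfsg.IrrCharacter ↥K // (∀ x ∈ P, ∀ k k' : ↥K, (k' : G) = x * (k : G) * x⁻¹ → (χ : ↥K → ℂ) k' = (χ : ↥K → ℂ) k)} → {ξ : Cfsg.IrrCharacter ↥C // (∀ x ∈ P, ∀ k k' : ↥C, (k' : G) = x * (k : G) * x⁻¹ → (ξ : ↥C → ℂ) k' = (ξ : ↥C → ℂ) k)}, Function.Bijective f ∧ ∀ χ, (∀ ξ : {ξ : Cfsg.IrrCharacter ↥C // (∀ x ∈ P, ∀ k k' : ↥C, (k' : G) = x * (k : G) * x⁻¹ → (ξ : ↥C → ℂ) k' = (ξ : ↥C → ℂ) k)}, ∃ m : ℕ,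 (Nat.card ↥C : ℂ)⁻¹ * ∑ᶠ c : ↥C, (χ.1 : ↥K → ℂ) (Subgroup.inclusion hCK c) * (starRingEnd ℂ) ((ξ.1 : ↥C → ℂ) c) = (m : ℂ) ∧ (ξ = f χ → ((m : ZMod p) = 1 ∨ (m : ZMod p) = -1)) ∧ (ξ ≠ f χ → p ∣ m)) ∧ ((Cfsg.charDegree ((f χ).1 : ↥C → ℂ) : ZMod p) = (Cfsg.charDegree (χ.1 : ↥K → ℂ) : ZMod p) ∨ (Cfsg.charDegree ((f χ).1 : ↥C → ℂ) : ZMod p) = -(Cfsg.charDegree (χ.1 : ↥K → ℂ) : ZMod p)) := by
  classical
  haveI hn : (Q.subgroupOf K).Normal := ⟨fun n hn g => by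
    rw [Subgroup.mem_subgroupOf] at hn ⊢
    exact hQn g g.2 n hn⟩
  have hQinv := sylow_inv p P K Q hPK hQK hQn hQp hQsyl
  letI := Fintype.ofFinite K
  letI := Fintype.ofFinite C
  letI := Fintype.ofFinite (Q.subgroupOf K)
  letI := Fintype.ofFinite ((Q.subgroupOf K).comap (Subgroup.inclusion hCK))
  let φ0 : P →* MulAut G := MulAut.conj.comp P.subtype
  have hφ0 : ∀ (x : P) (g : G), φ0 x g = x * g * (x : G)⁻¹ := fun x g => rfl
  have hKi : ∀ x : P, ∀ k ∈ K, φ0 x k ∈ K := fun x k hk =>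
    (Subgroup.mem_normalizer_iff.1 (hPK x.2) k).1 hk
  have hCi : ∀ x : P, ∀ k ∈ C, φ0 x k ∈ C := by
    intro y k hk
    rw [hC]
    refine ⟨hKi y k (hCK hk), ?_⟩
    intro x hx
    have h1 := ((hC k).1 hk).2 ((y : G)⁻¹ * x * y) (P.mul_mem (P.mul_mem (P.inv_mem y.2) hx) y.2)
    have h2 := hQinv y y.2 _ h1
    have h3 : (y : G) * ((y : G)⁻¹ * x * y * k * ((y : G)⁻¹ * x * y)⁻¹ * k⁻¹) * (y : G)⁻¹ =
        x * (φ0 y k) * x⁻¹ * (φ0 y k)⁻¹ := by
      rw [hφ0]; group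
    rwa [h3] at h2
  let φ : P →* MulAut K := resAct φ0 K hKi
  let φC : P →* MulAut C := resAct φ0 C hCi
  have hD : Dat p φ φC (Subgroup.inclusion hCK) (Q.subgroupOf K) :=
    { hS := hP
      inj := Subgroup.inclusion_injective hCK
      eqv := fun s c => rfl
      qinv := fun s q hq => hQinv s s.2 _ hq
      mem := by
        intro k
        constructor
        · rintro ⟨c, rfl⟩ s
          exact ((hC _).1 c.2).2 s s.2
        · intro h1
          exact ⟨⟨k, (hC _).2 ⟨k.2, fun x hx => h1 ⟨x, hx⟩⟩⟩, rfl⟩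
      pg := by
        obtain ⟨a, ha⟩ := hQp
        exact (IsPGroup.of_card ha).comap_of_injective K.subtype K.subtype_injective
      idx := hQsyl }
  have hinvK : ∀ χ : IrrCharacter K, (∀ x ∈ P, ∀ k k' : K, (k' : G) = x * (k : G) * x⁻¹ →
      (χ : K → ℂ) k' = (χ : K → ℂ) k) ↔ Inv φ (χ : K → ℂ) := by
    intro χ
    constructor
    · intro h1 s k
      exact h1 s s.2 k _ rfl
    · intro h1 x hx k k' hk
      have : k' = φ ⟨x, hx⟩ k := Subtype.ext hk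
      rw [this]
      exact h1 ⟨x, hx⟩ k
  have hinvC : ∀ χ : IrrCharacter C, (∀ x ∈ P, ∀ k k' : C, (k' : G) = x * (k : G) * x⁻¹ →
      (χ : C → ℂ) k' = (χ : C → ℂ) k) ↔ Inv φC (χ : C → ℂ) := by
    intro χ
    constructor
    · intro h1 s k
      exact h1 s s.2 k _ rfl
    · intro h1 x hx k k' hk
      have : k' = φC ⟨x, hx⟩ k := Subtype.ext hk
      rw [this]
      exact h1 ⟨x, hx⟩ k
  choose f hf1 hf2 using fun χ : {χ : IrrCharacter K // (∀ x ∈ P, ∀ k k' : K,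
    (k' : G) = x * (k : G) * x⁻¹ → (χ : K → ℂ) k' = (χ : K → ℂ) k)} =>
      final_ex hD χ.1 ((hinvK χ.1).1 χ.2)
  refine ⟨fun χ => ⟨f χ, (hinvC _).2 (hf1 χ)⟩, ⟨?_, ?_⟩, ?_⟩
  · intro χ χ' h1
    have h2 : f χ = f χ' := congrArg Subtype.val h1
    apply Subtype.ext
    refine final_uniq hD ((hinvK _).1 χ.2) ((hinvK _).1 χ'.2) (hf1 χ) (hf2 χ) ?_
    rw [h2]
    exact hf2 χ'
  · intro ξ
    obtain ⟨χ, h1, h2⟩ := final_ex' hD ξ.1 ((hinvC _).1 ξ.2)
    refine ⟨⟨χ, (hinvK _).2 h1⟩, ?_⟩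
    apply Subtype.ext
    exact final_uniq' hD h1 (hf1 _) ((hinvC _).1 ξ.2) (hf2 ⟨χ, (hinvK _).2 h1⟩) h2
  · intro χ
    constructor
    · intro ξ
      refine ⟨mult (Subgroup.inclusion hCK) χ.1 ξ.1, ?_, ?_, ?_⟩
      · rw [← mult_spec, classInner, finsum_eq_sum_of_fintype]
      · rintro rfl
        exact final_one hD ((hinvK _).1 χ.2) (hf1 χ) (hf2 χ)
      · intro h1
        by_contra h2
        apply h1
        apply Subtype.ext
        exact final_uniq' hD ((hinvK _).1 χ.2) ((hinvC _).1 ξ.2) (hf1 χ) h2 (hf2 χ)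
    · have h1 := final_deg hD ((hinvK _).1 χ.2) (hf1 χ) (hf2 χ)
      rcases final_one hD ((hinvK _).1 χ.2) (hf1 χ) (hf2 χ) with h2 | h2
      · left
        rw [h1, h2, one_mul]
      · right
        rw [h1, h2, neg_one_mul, neg_neg]

end Cfsg.Agent.S4914
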