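import Cfsg.Statements.S2504
import Cfsg.Agent.Lib.H85.AbPerm

set_option autoImplicit false
open Cfsg

namespace Cfsg.Agent.S2504

/-- The largest order of an abelian subgroup of the alternating group of degree n is 3^k when n = 3k, 4·3^(k−1) when n = 3k + 1, and 16·3^(k−2) when n = 3k + 2, for every k ≥ 2 (so for all degrees n ≥ 6). -/
theorem result (k : ℕ) (hk : 2 ≤ k) :
    IsGreatest {c : ℕ | ∃ A : Subgroup (alternatingGroup (Fin (3 * k))), IsMulCommutative A ∧ Nat.card A = c} (3 ^ k) ∧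
    IsGreatest {c : ℕ | ∃ A : Subgroup (alternatingGroup (Fin (3 * k + 1))), IsMulCommutative A ∧ Nat.card A = c}
      (4 * 3 ^ (k - 1)) ∧
    IsGreatest {c : ℕ | ∃ A : Subgroup (alternatingGroup (Fin (3 * k + 2))), IsMulCommutative A ∧ Nat.card A = c}
      (16 * 3 ^ (k - 2)) := by
  refine ⟨?_, ?_, ?_⟩
  · refine H85.AbPerm.greatest_alt (H85.AbPerm.P_three_pow k) ?_
    intro A hA _
    have h1 := H85.AbPerm.perm_le A hA
    rw [Nat.card_eq_fintype_card (α := Fin _), Fintype.card_fin] at h1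
    exact h1.trans (H85.AbPerm.f_three k).le
  · obtain ⟨j, rfl⟩ : ∃ j, k = j + 1 := ⟨k-1, by omega⟩
    refine H85.AbPerm.greatest_alt (H85.AbPerm.P_one_mod j) ?_
    intro A hA _
    have h1 := H85.AbPerm.perm_le A hA
    rw [Nat.card_eq_fintype_card (α := Fin _), Fintype.card_fin] at h1
    exact h1.trans (H85.AbPerm.f_three_one j).le
  · obtain ⟨j, rfl⟩ : ∃ j, k = j + 2 := ⟨k-2, by omega⟩
    refine H85.AbPerm.greatest_alt (H85.AbPerm.P_two_mod j) ?_
    intro A hA hs
    refine H85.AbPerm.alt_bound (j+2) hk ?_ A hA hs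
    rw [Nat.card_eq_fintype_card, Fintype.card_fin]

end Cfsg.Agent.S2504
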