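import Cfsg.Statements.S4444
import Mathlib
import Cfsg.Agent.Lib.H77.GlaubP

set_option autoImplicit false
open Cfsg

namespace Cfsg.Agent.S4444

/-- conjugation action of `S` on a subgroup `G` normalized by it -/
def conjHom {Γ : Type*} [Group Γ] (G S : Subgroup Γ) (hnorm : ∀ s ∈ S, ∀ g ∈ G, s * g * s⁻¹ ∈ G) :
    S →* MulAut G where
  toFun s :=
    { toFun := fun g => ⟨s * g * s⁻¹, hnorm s s.2 g g.2⟩
      invFun := fun g => ⟨(s : Γ)⁻¹ * g * s, by
        have := hnorm (s : Γ)⁻¹ (S.inv_mem s.2) g g.2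
        simpa using this⟩
      left_inv := fun g => by ext; simp [mul_assoc]
      right_inv := fun g => by ext; simp [mul_assoc]
      map_mul' := fun g h => by ext; simp [mul_assoc] }
  map_one' := by ext g; simp
  map_mul' s t := by ext g; simp [mul_assoc]

/-- The Glauberman correspondence for a p-group of operators. Inside a finite group Γ let S normalise G with the orders of G and S coprime, S a p-group, and let C = G ⊓ C(S) be the fixed points. Call an irreducible character χ of G S-invariant when χ(s g s⁻¹) = χ(g) for s ∈ S, g ∈ G. Then: (i) for every S-invariant χ there is exactly one irreducible character β of C whose multiplicity [χ_C, β] in the restriction of χ is not divisible by p; (ii) that multiplicity is ≡ 1 or ≡ −1 (mod p); (iii) distinct S-invariant χ give distinct β; (iv) every irreducible character of C arises in this way. So χ ↦ β is a bijection from the S-invariant irreducible characters of G onto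 the irreducible characters of C. -/
theorem result {Γ : Type*} [Group Γ] [Fintype Γ] (G S : Subgroup Γ) [Fintype G] (hnorm : ∀ s ∈ S, ∀ g ∈ G, s * g * s⁻¹ ∈ G) (hcop : (Nat.card G).Coprime (Nat.card S)) (p : ℕ) (hp : p.Prime) (hS : IsPGroup p S) (C : Subgroup Γ) [Fintype C] (hC : C = G ⊓ Subgroup.centralizer (S : Set Γ)) (hCG : C ≤ G) : (∀ χ : Cfsg.IrrCharacter G, (∀ s ∈ S, ∀ g g' : G, (g' : Γ) = s * g * s⁻¹ → (χ : G → ℂ) g' = (χ : G → ℂ) g) → ∃! β : Cfsg.IrrCharacter C, ∃ m : ℕ, Cfsg.classInner (fun c : C => (χ : G → ℂ) ⟨c, hCG c.2⟩) (β : C → ℂ) = (m : ℂ) ∧ ¬ p ∣ m) ∧ (∀ χ : Cfsg.IrrCharacter G, (∀ s ∈ S, ∀ g g' : G, (g' : Γ) = s * g * s⁻¹ → (χ : G → ℂ) g' = (χ : G → ℂ) g) → ∀ β : Cfsg.IrrCharacter C, ∀ m : ℕ, Cfsg.classInner (fun c : C => (χ : G → ℂ) ⟨c, hCG c.2⟩) (β : C → ℂ) = (m : ℂ) → ¬ p ∣ m → ((m : ℤ) ≡ 1 [ZMOD p] ∨ (m : ℤ) ≡ -1 [ZMOD p])) ∧ (∀ χ χ' : Cfsg.IrrCharacter G, (∀ s ∈ S, ∀ g g' : G, (g' : Γ) = s * g * s⁻¹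 → (χ : G → ℂ) g' = (χ : G → ℂ) g) → (∀ s ∈ S, ∀ g g' : G, (g' : Γ) = s * g * s⁻¹ → (χ' : G → ℂ) g' = (χ' : G → ℂ) g) → ∀ β : Cfsg.IrrCharacter C, ∀ m m' : ℕ, Cfsg.classInner (fun c : C => (χ : G → ℂ) ⟨c, hCG c.2⟩) (β : C → ℂ) = (m : ℂ) → ¬ p ∣ m → Cfsg.classInner (fun c : C => (χ' : G → ℂ) ⟨c, hCG c.2⟩) (β : C → ℂ) = (m' : ℂ) → ¬ p ∣ m' → χ = χ') ∧ (∀ β : Cfsg.IrrCharacter C, ∃ χ : Cfsg.IrrCharacter G, (∀ s ∈ S, ∀ g g' : G, (g' : Γ) = s * g * s⁻¹ → (χ : G → ℂ) g' = (χ : G → ℂ) g) ∧ ∃ m : ℕ, Cfsg.classInner (fun c : C => (χ : G → ℂ) ⟨c, hCG c.2⟩) (β : C → ℂ) = (m : ℂ) ∧ ¬ p ∣ m) := by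
  classical
  have hfact : Fact p.Prime := ⟨hp⟩
  have hfin : Fintype (Cfsg.IrrCharacter G) := Fintype.ofFinite _
  by_cases hS1 : Nat.card S = 1
  · have hSbot : S = ⊥ := Subgroup.card_eq_one.mp hS1
    have hCG' : C = G := by
      rw [hC, hSbot]
      refine inf_eq_left.mpr fun x _ => ?_
      rw [Subgroup.mem_centralizer_iff]
      intro y hy
      have : y = 1 := by simpa using hy
      rw [this]; group
    let ι : C →* G := Subgroup.inclusion hCG
    have hιs : Function.Surjective ι := fun g => ⟨⟨g, by rw [hCG']; exact g.2⟩, rfl⟩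
    have hinner : ∀ (χ : Cfsg.IrrCharacter G) (β : Cfsg.IrrCharacter C),
        Cfsg.classInner (fun c : C => (χ : G → ℂ) ⟨c, hCG c.2⟩) (β : C → ℂ)
          = if (fun c : C => (χ : G → ℂ) (ι c)) = β.1 then 1 else 0 := fun χ β =>
      H18.CharOrtho.inner_irr (H18.CharBasic.isIrrCharacter_comp ι hιs χ.2) β.2
    have hinner' : ∀ (χ : Cfsg.IrrCharacter G) (β : Cfsg.IrrCharacter C) (m : ℕ),
        Cfsg.classInner (fun c : C => (χ : G → ℂ) ⟨c, hCG c.2⟩) (β : C → ℂ) = m → ¬ p ∣ m →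
          (fun c : C => (χ : G → ℂ) (ι c)) = β.1 ∧ m = 1 := by
      intro χ β m hm hpm
      rw [hinner] at hm
      split_ifs at hm with h
      · exact ⟨h, by exact_mod_cast hm.symm⟩
      · exact absurd (by
          have : m = 0 := by exact_mod_cast hm.symm
          rw [this]; exact dvd_zero _) hpm
    refine ⟨?_, ?_, ?_, ?_⟩
    · intro χ _
      refine ⟨⟨_, H18.CharBasic.isIrrCharacter_comp ι hιs χ.2⟩, ⟨1, ?_, hp.one_lt.ne' ∘ Nat.dvd_one.mp⟩, ?_⟩
      · rw [hinner, if_pos rfl]; simp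
      · rintro β ⟨m, hm, hpm⟩
        exact Subtype.ext (hinner' χ β m hm hpm).1.symm
    · intro χ _ β m hm hpm
      left
      rw [(hinner' χ β m hm hpm).2]
      simp
    · intro χ χ' _ _ β m m' hm hpm hm' hpm'
      apply Subtype.ext
      funext g
      obtain ⟨c, rfl⟩ := hιs g
      have h1 := (hinner' χ β m hm hpm).1
      have h2 := (hinner' χ' β m' hm' hpm').1
      exact congrFun (h1.trans h2.symm) c
    · intro β
      have hιi : Function.Injective ι := Subgroup.inclusion_injective hCG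
      let e : C ≃* G := MulEquiv.ofBijective ι ⟨hιi, hιs⟩
      refine ⟨⟨fun g => β.1 (e.symm g), H18.CharBasic.isIrrCharacter_comp e.symm.toMonoidHom
        e.symm.surjective β.2⟩, ?_, 1, ?_, hp.one_lt.ne' ∘ Nat.dvd_one.mp⟩
      · intro s hs g g' hg'
        have : s = 1 := by rw [hSbot] at hs; simpa using hs
        rw [this] at hg'
        have : g' = g := Subtype.ext (by rw [hg']; group)
        rw [this]
      · rw [hinner, if_pos]
        · simp
        · funext c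
          show β.1 (e.symm (e c)) = β.1 c
          rw [e.symm_apply_apply]
  have hpG : ¬ p ∣ Nat.card G := by
    intro h
    obtain ⟨k, hk⟩ := (IsPGroup.iff_card).mp hS
    have hk0 : k ≠ 0 := by rintro rfl; exact hS1 (by simpa using hk)
    have h1 : p ∣ Nat.card S := by rw [hk]; exact dvd_pow_self p hk0
    have h2 := Nat.dvd_gcd h h1
    rw [hcop] at h2
    exact hp.one_lt.ne' (Nat.dvd_one.mp h2)
  set φ := conjHom G S hnorm with hφ
  have hφa : ∀ (s : S) (g : G), ((φ s g : G) : Γ) = s * g * (s : Γ)⁻¹ := fun s g => rfl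
  let ι : C →* G := Subgroup.inclusion hCG
  have hι : Function.Injective ι := Subgroup.inclusion_injective hCG
  have hCC : ∀ g : G, (∃ c, ι c = g) ↔ ∀ s, φ s g = g := by
    intro g
    constructor
    · rintro ⟨c, rfl⟩ s
      apply Subtype.ext
      rw [hφa]
      have h1 : (c : Γ) ∈ Subgroup.centralizer (S : Set Γ) := by
        have h2 : (c : Γ) ∈ G ⊓ Subgroup.centralizer (S : Set Γ) := hC ▸ c.2
        exact h2.2
      have h2 := Subgroup.mem_centralizer_iff.mp h1 s s.2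
      show (s : Γ) * (c : Γ) * (s : Γ)⁻¹ = c
      rw [h2]; group
    · intro h
      have h1 : (g : Γ) ∈ C := by
        rw [hC]
        refine Subgroup.mem_inf.mpr ⟨g.2, ?_⟩
        rw [Subgroup.mem_centralizer_iff]
        intro s hs
        have h2 := congrArg Subtype.val (h ⟨s, hs⟩)
        rw [hφa] at h2
        have h3 : s * (g : Γ) * s⁻¹ = g := h2
        calc s * (g : Γ) = s * g * s⁻¹ * s := by group
          _ = g * s := by rw [h3]
      exact ⟨⟨g, h1⟩, rfl⟩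
  have hinv : ∀ χ : Cfsg.IrrCharacter G, (∀ s ∈ S, ∀ g g' : G, (g' : Γ) = s * g * s⁻¹ →
      (χ : G → ℂ) g' = (χ : G → ℂ) g) ↔ H77.GlaubP.Inv φ χ.1 := by
    intro χ
    constructor
    · intro h s g
      exact h s s.2 g (φ s g) (hφa s g)
    · intro h s hs g g' hg'
      have : g' = φ ⟨s, hs⟩ g := Subtype.ext (by rw [hφa]; exact hg')
      rw [this]
      exact h ⟨s, hs⟩ g
  have hmult : ∀ (χ : Cfsg.IrrCharacter G) (β : Cfsg.IrrCharacter C),
      Cfsg.classInner (fun c : C => (χ : G → ℂ) ⟨c, hCG c.2⟩) (β : C → ℂ)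
        = (H77.GlaubP.mult ι χ β : ℂ) := fun χ β => H77.GlaubP.mult_spec ι χ β
  have hmultm : ∀ (χ : Cfsg.IrrCharacter G) (β : Cfsg.IrrCharacter C) (m : ℕ),
      Cfsg.classInner (fun c : C => (χ : G → ℂ) ⟨c, hCG c.2⟩) (β : C → ℂ) = (m : ℂ) →
        H77.GlaubP.mult ι χ β = m := fun χ β m h => by
    rw [hmult] at h; exact_mod_cast h
  refine ⟨?_, ?_, ?_, ?_⟩
  · intro χ hχ
    rw [hinv] at hχ
    obtain ⟨β, hβ⟩ := H77.GlaubP.exists_mult_not_dvd φ hS ι hι hCC hpG χ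
    refine ⟨β, ⟨_, hmult χ β, hβ⟩, ?_⟩
    rintro γ ⟨m, hm, hm'⟩
    have h1 := hmultm χ γ m hm
    rw [← h1] at hm'
    exact H77.GlaubP.corr_unique φ hS ι hι hCC hpG hχ hm' hβ
  · intro χ hχ β m hm hm'
    rw [hinv] at hχ
    have h1 := hmultm χ β m hm
    rw [← h1] at hm' ⊢
    exact H77.GlaubP.mult_modEq φ hS ι hι hCC hpG hχ hm'
  · intro χ χ' hχ hχ' β m m' hm hm1 hm' hm1'
    rw [hinv] at hχ hχ'
    rw [← hmultm χ β m hm] at hm1
    rw [← hmultm χ' β m' hm'] at hm1'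
    exact H77.GlaubP.inv_unique φ hS ι hι hCC hpG hχ hχ' hm1 hm1'
  · intro β
    obtain ⟨χ, hχ, hχβ⟩ := H77.GlaubP.exists_inv φ hS ι hι hCC hpG β
    exact ⟨χ, (hinv χ).mpr hχ, _, hmult χ β, hχβ⟩

end Cfsg.Agent.S4444
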