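import Cfsg.Statements.S0048
import Cfsg.Agent.Lib.H2.Solv

set_option autoImplicit false
open Cfsg

namespace Cfsg.Agent.S0048

theorem aux (n : ℕ) : ∀ (G : Type*) [Group G] [Finite G] (_ : Group.IsSolvable G)
    (_ : Nat.card G = n) (M : Subgroup G) (_ : IsCoatom M), IsPrimePow M.index := by
  induction n using Nat.strong_induction_on with
  | _ n ih =>
    intro G _ _ hs hn M hM
    haveI : Nontrivial G := by
      by_contra h
      rw [not_nontrivial_iff_subsingleton] at h
      exact hM.1 (Subsingleton.elim _ _)
    obtain ⟨p, hp, P, hPn, hPne, hPp, -⟩ := H2.Solv.exists_normal_abelian_pgroup G hs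
    haveI : Fact p.Prime := ⟨hp⟩
    by_cases hPM : P ≤ M
    · have hker : (QuotientGroup.mk' P).ker ≤ M := by rw [QuotientGroup.ker_mk']; exact hPM
      have hco := H2.Solv.isCoatom_map (QuotientGroup.mk'_surjective P) hM hker
      have hcardlt : Nat.card (G ⧸ P) < n := by
        rw [← hn, Subgroup.card_eq_card_quotient_mul_card_subgroup P]
        exact lt_mul_of_one_lt_right Nat.card_pos (P.one_lt_card_iff_ne_bot.2 hPne)
      have h1 := ih _ hcardlt (G ⧸ P) inferInstance rfl _ hco
      rwa [Subgroup.index_map_eq _ (QuotientGroup.mk'_surjective P) hker] at h1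
    · have hsup : M ⊔ P = ⊤ :=
        hM.2 _ (lt_of_le_of_ne le_sup_left (fun h => hPM (by rw [h]; exact le_sup_right)))
      have hidx : M.index = M.relIndex P := by
        rw [← Subgroup.relIndex_top_right, ← hsup]
        have h1 : (M ⊓ P).relIndex P * P.relIndex (M ⊔ P) = (M ⊓ P).relIndex (M ⊔ P) :=
          Subgroup.relIndex_mul_relIndex _ _ _ inf_le_right le_sup_right
        have h2 : (M ⊓ P).relIndex M * M.relIndex (M ⊔ P) = (M ⊓ P).relIndex (M ⊔ P) :=
          Subgroup.relIndex_mul_relIndex _ _ _ inf_le_left le_sup_left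
        rw [Subgroup.relIndex_sup_right, Subgroup.inf_relIndex_right] at h1
        rw [Subgroup.inf_relIndex_left] at h2
        have h3 : P.relIndex M ≠ 0 := (Subgroup.index_ne_zero_of_finite : (P.subgroupOf M).index ≠ 0)
        have h4 : P.relIndex M * M.relIndex (M ⊔ P) = P.relIndex M * M.relIndex P := by
          rw [h2, ← h1, mul_comm]
        exact Nat.eq_of_mul_eq_mul_left (Nat.pos_of_ne_zero h3) h4
      obtain ⟨k, hk⟩ := IsPGroup.iff_card.1 hPp
      have hdvd : M.index ∣ p ^ k := by
        rw [hidx, ← hk]; exact Subgroup.relIndex_dvd_card _ _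
      obtain ⟨j, -, hj⟩ := (Nat.dvd_prime_pow hp).1 hdvd
      rw [hj]
      have hj0 : j ≠ 0 := by
        rintro rfl
        rw [pow_zero, Subgroup.index_eq_one] at hj
        exact hM.1 hj
      exact hp.isPrimePow.pow hj0

/-- In a finite solvable group every maximal subgroup has index a prime power. -/
theorem result {G : Type*} [Group G] [Finite G] [Group.IsSolvable G]
    (M : Subgroup G) (hM : IsCoatom M) : IsPrimePow M.index :=
  aux _ G inferInstance rfl M hM

end Cfsg.Agent.S0048
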