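import Cfsg.Statements.S0076
import Cfsg.Agent.Lib.H2.Conj

set_option autoImplicit false
open Cfsg

namespace Cfsg.Agent.S0076

open Pointwise

theorem mem_norm {G : Type*} [Group G] {Y : Set G} {g : G} :
    g ∈ Subgroup.normalizer Y ↔ (fun y => g * y * g⁻¹) '' Y = Y := by
  rw [Subgroup.mem_set_normalizer_iff]
  constructor
  · intro h
    ext x
    constructor
    · rintro ⟨y, hy, rfl⟩
      exact (h y).1 hy
    · intro hx
      refine ⟨g⁻¹ * x * g, ?_, by group⟩
      rw [h]
      have : g * (g⁻¹ * x * g) * g⁻¹ = x := by group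
      rwa [this]
  · intro h x
    constructor
    · intro hx; rw [← h]; exact ⟨x, hx, rfl⟩
    · intro hx
      rw [← h] at hx
      obtain ⟨y, hy, hyx⟩ := hx
      have : y = x := mul_left_cancel (mul_right_cancel hyx)
      rwa [← this]

/-- Two P-invariant subsets of a Sylow p-subgroup P that are conjugate in G are conjugate under the normalizer of P. -/
theorem result {G : Type*} [Group G] [Finite G] {p : ℕ} [Fact p.Prime] (P : Sylow p G) (X Y : Set G) (hXP : X ⊆ P) (hYP : Y ⊆ P) (hX : ∀ x ∈ P, (fun y => x * y * x⁻¹) '' X = X) (hY : ∀ x ∈ P, (fun y => x * y * x⁻¹) '' Y = Y) (g : G) (hg : (fun y => g * y * g⁻¹) '' X = Y) : ∃ n ∈ Subgroup.normalizer (P : Set G), (fun y => n * y * n⁻¹) '' X = Y := by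
  set S := Subgroup.normalizer Y with hS
  have h1 : (P : Subgroup G) ≤ S := fun x hx => mem_norm.2 (hY x hx)
  have h2 : ((g • P : Sylow p G) : Subgroup G) ≤ S := by
    intro x hx
    rw [H2.Conj.mem_sylow_smul] at hx
    have h3 : g⁻¹ * x * g ∈ Subgroup.normalizer X := mem_norm.2 (hX _ hx)
    rw [hS, Subgroup.mem_set_normalizer_iff]
    have h4 : ∀ z, z ∈ Y ↔ g⁻¹ * z * g ∈ X := by
      intro z
      rw [← hg]
      constructor
      · rintro ⟨y, hy, rfl⟩
        have : g⁻¹ * (g * y * g⁻¹) * g = y := by group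
        simpa only [this] using hy
      · intro hz
        exact ⟨_, hz, by group⟩
    intro z
    rw [h4, h4, Subgroup.mem_set_normalizer_iff.1 h3]
    have : g⁻¹ * x * g * (g⁻¹ * z * g) * (g⁻¹ * x * g)⁻¹ = g⁻¹ * (x * z * x⁻¹) * g := by group
    rw [this]
  obtain ⟨s, hs⟩ := MulAction.exists_smul_eq S ((g • P).subtype h2) (P.subtype h1)
  rw [Sylow.smul_subtype] at hs
  have hs' : (s : G) • g • P = P := Sylow.subtype_injective hs
  refine ⟨(s : G) * g, Sylow.smul_eq_iff_mem_normalizer.1 (by rw [mul_smul]; exact hs'), ?_⟩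
  rw [← mem_norm.1 s.2, ← hg, ← Set.image_comp]
  congr 1
  ext y
  simp only [Function.comp]
  group

end Cfsg.Agent.S0076
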