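import Cfsg.Statements.S0113
import Cfsg.Agent.Lib.H3.MaxClass2

set_option autoImplicit false
set_option linter.all false
open Cfsg

namespace Cfsg.Agent.S0113

/-- A 2-group of maximal class contains a cyclic subgroup of index 2. -/
theorem result {X : Type*} [Group X] [Finite X] (n : ℕ) (hn : 3 ≤ n) (hX : Nat.card X = 2 ^ n) (hc : Group.nilpotencyClass X = n - 1) : ∃ C : Subgroup X, IsCyclic C ∧ C.index = 2 := by
  haveI : Fact (Nat.Prime 2) := ⟨Nat.prime_two⟩
  have hab := H3.MaxClassP.index_commutator_eq (p := 2) (by omega : 2 ≤ n) hX hc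
  obtain ⟨a, t, ha, hidx, -⟩ := H3.MaxClass2.exists_structure hn hX (by rw [hab]; norm_num)
  exact ⟨Subgroup.zpowers a, inferInstance, hidx⟩

end Cfsg.Agent.S0113
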