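import Cfsg.Statements.S0436

set_option autoImplicit false
open Cfsg

namespace Cfsg.Agent.S0436

/-- two members of a set of 3-transpositions commute iff the square of the product is 1 -/
theorem commute_iff {G : Type*} [Group G] {a b : G} (ha : orderOf a = 2) (hb : orderOf b = 2) :
    Commute a b ↔ (a * b) ^ 2 = 1 := by
  have ha2 : a * a = 1 := by
    have := pow_orderOf_eq_one a
    rwa [ha, pow_two] at this
  have hb2 : b * b = 1 := by
    have := pow_orderOf_eq_one b
    rwa [hb, pow_two] at this
  have hai : a⁻¹ = a := inv_eq_of_mul_eq_one_left ha2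
  have hbi : b⁻¹ = b := inv_eq_of_mul_eq_one_left hb2
  constructor
  · intro h
    rw [h.mul_pow, pow_two, pow_two, ha2, hb2, one_mul]
  · intro h
    rw [pow_two] at h
    have h1 : (a * b)⁻¹ = a * b := inv_eq_of_mul_eq_one_left h
    rw [mul_inv_rev, hai, hbi] at h1
    exact h1.symm

/-- For distinct commuting members a, b of a set of 3-transpositions E, a member e of E centralises the product a * b if and only if it centralises both a and b. -/
theorem result {G : Type*} [Group G] {E : Set G} (hE : Cfsg.IsThreeTranspositionSet E) {a b e : G} (ha : a ∈ E) (hb : b ∈ E) (he : e ∈ E) (hab : a ≠ b) (hcomm : Commute a b) : Commute e (a * b) ↔ (Commute e a ∧ Commute e b) := by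
  constructor
  · intro h
    have hsq : ∀ x ∈ E, x * x = 1 := fun x hx => by
      have := pow_orderOf_eq_one x
      rwa [hE.1 x hx, pow_two] at this
    have ha2 := hsq a ha
    have hb2 := hsq b hb
    have he2 := hsq e he
    suffices hea : Commute e a by
      refine ⟨hea, ?_⟩
      have : b = a * (a * b) := by rw [← mul_assoc, ha2, one_mul]
      rw [this]
      exact hea.mul_right h
    by_contra hea
    -- (e a)^3 = 1, (e b)^3 = 1
    have h3a : (e * a) ^ 3 = 1 := by
      rcases hE.2 e he a ha with h2 | h3
      · exact absurd ((commute_iff (hE.1 e he) (hE.1 a ha)).2 h2) hea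
      · exact h3
    have heb : ¬ Commute e b := by
      intro heb
      apply hea
      have : a = (a * b) * b := by rw [mul_assoc, hb2, mul_one]
      rw [this]
      exact h.mul_right heb
    have h3b : (e * b) ^ 3 = 1 := by
      rcases hE.2 e he b hb with h2 | h3
      · exact absurd ((commute_iff (hE.1 e he) (hE.1 b hb)).2 h2) heb
      · exact h3
    -- e a e = a e a ; e b e = b e b ; e (a b) e = a b
    have hea3 : e * a * e = a * e * a := by
      have h1 : e * a * e * (a * e * a) = 1 := by
        rw [← h3a]; simp only [pow_succ, pow_zero, one_mul, mul_assoc]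
      have h2 : (a * e * a) * (a * e * a) = 1 := by
        simp only [mul_assoc]
        rw [← mul_assoc a a, ha2, one_mul, ← mul_assoc e e, he2, one_mul, ha2]
      have h3 : (a * e * a)⁻¹ = a * e * a := inv_eq_of_mul_eq_one_left h2
      rw [← h3]; exact eq_inv_of_mul_eq_one_left h1
    have heb3 : e * b * e = b * e * b := by
      have h1 : e * b * e * (b * e * b) = 1 := by
        rw [← h3b]; simp only [pow_succ, pow_zero, one_mul, mul_assoc]
      have h2 : (b * e * b) * (b * e * b) = 1 := by
        simp only [mul_assoc]
        rw [← mul_assoc b b, hb2, one_mul, ← mul_assoc e e, he2, one_mul, hb2]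
      have h3 : (b * e * b)⁻¹ = b * e * b := inv_eq_of_mul_eq_one_left h2
      rw [← h3]; exact eq_inv_of_mul_eq_one_left h1
    have hab' : e * (a * b) * e = a * b := by
      rw [h.eq, mul_assoc, he2, mul_one]
    -- then (e a e)(e b e) = a b
    have h4 : (a * e * a) * (b * e * b) = a * b := by
      rw [← hea3, ← heb3, ← hab']
      simp only [mul_assoc]
      rw [← mul_assoc e e, he2, one_mul]
    -- a e a b e b = a b -> e (a b) e b = b -> (a b) b = b... a = 1? 
    have h5 : e * (a * b) * e * b = b := by
      have h6 : a * (e * (a * b) * e * b) = (a * e * a) * (b * e * b) := by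
        simp only [mul_assoc]
      rw [h4] at h6
      exact mul_left_cancel h6
    rw [hab', mul_assoc, hb2, mul_one] at h5
    exact hab h5
  · rintro ⟨h1, h2⟩
    exact h1.mul_right h2

end Cfsg.Agent.S0436
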