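import Cfsg.Statements.S0437
import Cfsg.Agent.S0436

set_option autoImplicit false
open Cfsg

namespace Cfsg.Agent.S0437

/-- if `e` commutes with `a * b * c` then it commutes with `a` -/
theorem aux {G : Type*} [Group G] {E : Set G} (hE : Cfsg.IsThreeTranspositionSet E) {a b c e : G} (ha : a ∈ E) (hb : b ∈ E) (hc : c ∈ E) (he : e ∈ E) (hab : a ≠ b) (hac : a ≠ c) (h₁ : Commute a b) (h₂ : Commute a c) (h₃ : Commute b c) (h : Commute e (a * b * c)) : Commute e a := by
  have hsq : ∀ x ∈ E, x * x = 1 := fun x hx => by
    have := pow_orderOf_eq_one x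
    rwa [hE.1 x hx, pow_two] at this
  have ha2 := hsq a ha
  have hb2 := hsq b hb
  have hc2 := hsq c hc
  have he2 := hsq e he
  have hai : a⁻¹ = a := inv_eq_of_mul_eq_one_left ha2
  have hbi : b⁻¹ = b := inv_eq_of_mul_eq_one_left hb2
  have hci : c⁻¹ = c := inv_eq_of_mul_eq_one_left hc2
  have hei : e⁻¹ = e := inv_eq_of_mul_eq_one_left he2
  by_cases hec : Commute e c
  · have : Commute e (a * b) := by
      have h5 : a * b = a * b * c * c := by rw [mul_assoc, hc2, mul_one]
      rw [h5]; exact h.mul_right hec
    exact ((S0436.result hE ha hb he hab h₁).1 this).1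
  by_cases heb : Commute e b
  · have : Commute e (a * c) := by
      have h5 : a * c = a * b * c * b := by
        rw [mul_assoc (a * b), ← h₃.eq, mul_assoc a, ← mul_assoc b b, hb2, one_mul]
      rw [h5]; exact h.mul_right heb
    exact ((S0436.result hE ha hc he hac h₂).1 this).1
  by_contra hea
  have braid : ∀ x ∈ E, ¬ Commute e x → e * x * e = x * e * x := by
    intro x hx hex
    have h3a : (e * x) ^ 3 = 1 := by
      rcases hE.2 e he x hx with h2 | h3
      · exact absurd ((S0436.commute_iff (hE.1 e he) (hE.1 x hx)).2 h2) hex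
      · exact h3
    have hx2 := hsq x hx
    have h1 : e * x * e * (x * e * x) = 1 := by
      rw [← h3a]; simp only [pow_succ, pow_zero, one_mul, mul_assoc]
    have h2 : (x * e * x) * (x * e * x) = 1 := by
      simp only [mul_assoc]
      rw [← mul_assoc x x, hx2, one_mul, ← mul_assoc e e, he2, one_mul, hx2]
    have h3 : (x * e * x)⁻¹ = x * e * x := inv_eq_of_mul_eq_one_left h2
    rw [← h3]; exact eq_inv_of_mul_eq_one_left h1
  have h3e : (a * e) ^ 3 = 1 := by
    rcases hE.2 a ha e he with h2 | h3
    · exact absurd ((S0436.commute_iff (hE.1 a ha) (hE.1 e he)).2 h2).symm hea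
    · exact h3
  have habc : e * (a * b * c) * e = a * b * c := by
    rw [h.eq, mul_assoc, he2, mul_one]
  -- product of conjugates
  have h4 : (a * e * a) * (b * e * b) * (c * e * c) = a * b * c := by
    rw [← braid a ha hea, ← braid b hb heb, ← braid c hc hec, ← habc]
    have : e * a * e * (e * b * e) * (e * c * e) = e * (a * (e * e) * b * (e * e) * c) * e := by
      simp only [mul_assoc]
    rw [this, he2]; simp only [mul_assoc, mul_one, one_mul]
  -- e a b e b c e c = b c
  have h5 : e * (a * b) * e * (b * c) * e * c = b * c := by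
    have h6 : a * (e * (a * b) * e * (b * c) * e * c) = (a * e * a) * (b * e * b) * (c * e * c) := by
      simp only [mul_assoc]
    rw [h4, mul_assoc a] at h6
    exact mul_left_cancel h6
  have h6 : e * (a * b) * e * (b * c) = b * e := by
    have : e * (a * b) * e * (b * c) * e * c = b * e * e * c := by
      rw [h5, mul_assoc b, he2, mul_one]
    exact mul_right_cancel (mul_right_cancel this)
  -- (a b) e (b c) = e b e = b e b
  have h7 : (a * b) * e * (b * c) = b * e * b := by
    rw [← braid b hb heb]
    have h8 : e * (e * (a * b) * e * (b * c)) = (a * b) * e * (b * c) := by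
      have h9 : e * (e * (a * b) * e * (b * c)) = (e * e) * (a * b) * e * (b * c) := by
        simp only [mul_assoc]
      rw [h9, he2, one_mul]
    rw [← h8, h6, mul_assoc]
  set f := b * e * b with hf
  -- a f c = f
  have hf2 : f * f = 1 := by
    rw [hf]
    simp only [mul_assoc]
    rw [← mul_assoc b b, hb2, one_mul, ← mul_assoc e e, he2, one_mul, hb2]
  have h8 : a * f * c = f := by
    rw [← h7]
    have h9 : a * f * c = a * (b * e) * (b * c) := by rw [hf]; simp only [mul_assoc]
    rw [h7, h9, ← h7]; simp only [mul_assoc]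
  -- c = f a f
  have h9 : f * a * f = c := by
    have h10 : (f * a) * (a * f * c) = (f * a) * f := by rw [h8]
    have h11 : (f * a) * (a * f * c) = f * (a * a) * f * c := by simp only [mul_assoc]
    rw [h11, ha2, mul_one, hf2, one_mul] at h10
    exact h10.symm
  -- a f = b (a e) b
  have h12 : a * f = b * (a * e) * b⁻¹ := by
    rw [hf, hbi, ← mul_assoc, ← mul_assoc, h₁.eq, mul_assoc b]
  have h13 : (a * f) ^ 3 = 1 := by
    rw [h12, conj_pow, h3e]; group
  have h14 : (a * f) ^ 2 = a * c := by
    rw [← h9, pow_two]; simp only [mul_assoc]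
  have h15 : (a * c) ^ 2 = 1 := by
    rw [h₂.mul_pow, pow_two, pow_two, ha2, hc2, one_mul]
  have h16 : a * f = 1 := by
    have h17 : (a * f) ^ 4 = 1 := by
      rw [show 4 = 2 * 2 by rfl, pow_mul, h14, h15]
    calc a * f = (a * f) ^ 3 * (a * f) := by rw [h13, one_mul]
      _ = (a * f) ^ 4 := by rw [← pow_succ]
      _ = 1 := h17
  have h18 : a * c = 1 := by rw [← h14, h16, one_pow]
  apply hac
  rw [← hci]
  exact eq_inv_of_mul_eq_one_left h18

/-- For three distinct, pairwise commuting members a, b, c of a set of 3-transpositions E, a member e of E centralises a * b * c if and only if it centralises each of a, b and c. -/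
theorem result {G : Type*} [Group G] {E : Set G} (hE : Cfsg.IsThreeTranspositionSet E) {a b c e : G} (ha : a ∈ E) (hb : b ∈ E) (hc : c ∈ E) (he : e ∈ E) (hab : a ≠ b) (hac : a ≠ c) (hbc : b ≠ c) (h₁ : Commute a b) (h₂ : Commute a c) (h₃ : Commute b c) : Commute e (a * b * c) ↔ (Commute e a ∧ Commute e b ∧ Commute e c) := by
  constructor
  · intro h
    refine ⟨aux hE ha hb hc he hab hac h₁ h₂ h₃ h, ?_, ?_⟩
    · refine aux hE hb ha hc he hab.symm hbc h₁.symm h₃ h₂ ?_
      rwa [← h₁.eq]
    · refine aux hE hc ha hb he hac.symm hbc.symm h₂.symm h₃.symm h₁ ?_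
      have : c * a * b = a * b * c := by
        rw [mul_assoc]; exact (h₂.mul_left h₃).eq.symm
      rwa [this]
  · rintro ⟨h1, h2, h3⟩
    exact (h1.mul_right h2).mul_right h3

end Cfsg.Agent.S0437
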