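import Cfsg.Statements.S0438
import Cfsg.Agent.S0436

set_option autoImplicit false
open Cfsg

namespace Cfsg.Agent.S0438

/-- Let E be a set of 3-transpositions closed under conjugation, and x an involutory automorphism of the group mapping E to itself. If some a in E fails to commute with its image x a, then x fixes an element of E. -/
theorem result {G : Type*} [Group G] {E : Set G} (hE : Cfsg.IsThreeTranspositionSet E) (hconj : ∀ g : G, ∀ d ∈ E, g * d * g⁻¹ ∈ E) (x : G ≃* G) (hx : ∀ g : G, x (x g) = g) (hxE : ∀ d ∈ E, x d ∈ E) {a : G} (ha : a ∈ E) (h : ¬ Commute a (x a)) : ∃ d ∈ E, x d = d := by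
  have hsq : ∀ x ∈ E, x * x = 1 := fun x hx => by
    have := pow_orderOf_eq_one x
    rwa [hE.1 x hx, pow_two] at this
  have ha2 := hsq a ha
  have hb := hxE a ha
  set b := x a with hbdef
  have hb2 := hsq b hb
  have hai : a⁻¹ = a := inv_eq_of_mul_eq_one_left ha2
  have h3a : (a * b) ^ 3 = 1 := by
    rcases hE.2 a ha b hb with h2 | h3
    · exact absurd ((S0436.commute_iff (hE.1 a ha) (hE.1 b hb)).2 h2) h
    · exact h3
  have hbraid : a * b * a = b * a * b := by
    have h1 : a * b * a * (b * a * b) = 1 := by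
      rw [← h3a]; simp only [pow_succ, pow_zero, one_mul, mul_assoc]
    have h2 : (b * a * b) * (b * a * b) = 1 := by
      simp only [mul_assoc]
      rw [← mul_assoc b b, hb2, one_mul, ← mul_assoc a a, ha2, one_mul, hb2]
    have h3 : (b * a * b)⁻¹ = b * a * b := inv_eq_of_mul_eq_one_left h2
    rw [← h3]; exact eq_inv_of_mul_eq_one_left h1
  refine ⟨a * b * a⁻¹, hconj a b hb, ?_⟩
  rw [hai, map_mul, map_mul, ← hbdef, hbdef, hx, ← hbdef, hbraid]

end Cfsg.Agent.S0438
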