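import Cfsg.Statements.S0444
import Cfsg.Agent.S0436
import Cfsg.Agent.Lib.H10.Dihedral

set_option autoImplicit false
open Cfsg

namespace Cfsg.Agent.S0444

/-- Two members of a set of 3-transpositions which do not commute generate a subgroup isomorphic to the symmetric group on three letters. -/
theorem result {G : Type*} [Group G] {E : Set G} (hE : Cfsg.IsThreeTranspositionSet E) {d e : G} (hd : d ∈ E) (he : e ∈ E) (h : ¬ Commute d e) : Nonempty (Subgroup.closure ({d, e} : Set G) ≃* Equiv.Perm (Fin 3)) := by
  have hsq : ∀ x ∈ E, x * x = 1 := fun x hx => by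
    have := pow_orderOf_eq_one x
    rwa [hE.1 x hx, pow_two] at this
  have h3 : orderOf (d * e) = 3 := by
    apply orderOf_eq_prime
    · rcases hE.2 d hd e he with h2 | h3
      · exact absurd ((S0436.commute_iff (hE.1 d hd) (hE.1 e he)).2 h2) h
      · exact h3
    · intro h1
      apply h
      have : d = e := by
        rw [eq_inv_of_mul_eq_one_left h1]
        exact inv_eq_of_mul_eq_one_left (hsq e he)
      rw [this]
  obtain ⟨f⟩ := H10.Dihedral.closure_pair_mulEquiv d e (hsq d hd) (hsq e he) (by rw [h3])
  rw [h3] at f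
  obtain ⟨g⟩ := H10.Dihedral.dihedral_three_mulEquiv
  exact ⟨f.trans g⟩

end Cfsg.Agent.S0444
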