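import Cfsg.Statements.S0447
import Cfsg.Agent.Lib.H5.DihedralLift
import Cfsg.Agent.Lib.H2.Gaschutz
import Cfsg.Agent.Lib.H19.AltCover3

set_option autoImplicit false
open Cfsg

namespace Cfsg.Agent.S0447

open Equiv Equiv.Perm
open scoped commutatorElement

/-- from the data of two involutions generating a Sylow 2-subgroup of `A_n` -/
theorem split_of {H A : Type*} [Group H] [Finite H] [Group A] [Finite A] (φ : H →* A) (hφ : Function.Surjective φ)
    (hker : φ.ker = Subgroup.center H) (hc : Nat.card (Subgroup.center H) = 2)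
    (a b : A) (ha : orderOf a = 2) (hb : orderOf b = 2) (hab : a ≠ b)
    (hodd : Odd (Subgroup.closure ({a, b} : Set A)).index)
    (hlift : ∀ x : H, orderOf (φ x) = 2 → x ^ 2 = 1)
    (hord : orderOf (a * b) = 2 ∨ (orderOf (a * b) = 4)) :
    ∃ L : Subgroup H, (Subgroup.center H).IsComplement' L := by
  classical
  obtain ⟨x, hx⟩ := hφ a
  obtain ⟨y, hy⟩ := hφ b
  have hx1 : orderOf x = 2 := by
    apply orderOf_eq_prime (hlift x (by rw [hx, ha]))
    rintro rfl
    rw [← hx, map_one, orderOf_one] at ha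
    norm_num at ha
  have hy1 : orderOf y = 2 := by
    apply orderOf_eq_prime (hlift y (by rw [hy, hb]))
    rintro rfl
    rw [← hy, map_one, orderOf_one] at hb
    norm_num at hb
  have hxy : x ≠ y := by
    rintro rfl
    exact hab (by rw [← hx, ← hy])
  have hxyo : orderOf (x * y) = orderOf (a * b) := by
    have h1 : orderOf (a * b) ∣ orderOf (x * y) := by
      rw [← hx, ← hy, ← map_mul]
      exact orderOf_map_dvd φ _
    have h2 : orderOf (x * y) ∣ orderOf (a * b) := by
      rcases hord with h | h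
      · rw [h]
        apply orderOf_dvd_of_pow_eq_one
        apply hlift
        rw [map_mul, hx, hy, h]
      · rw [h]
        apply orderOf_dvd_of_pow_eq_one
        have h3 : (x * y) ^ 4 = ((x * y) ^ 2) ^ 2 := by rw [← pow_mul]
        rw [h3]
        apply hlift
        rw [map_pow, map_mul, hx, hy, orderOf_pow, h]
        norm_num
    exact Nat.dvd_antisymm h2 h1
  obtain ⟨e1⟩ := H5.DihedralLift.closure_involutions_equiv hx1 hy1 hxy
  obtain ⟨e2⟩ := H5.DihedralLift.closure_involutions_equiv ha hb hab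
  have hcard : Nat.card (Subgroup.closure ({x, y} : Set H)) = Nat.card (Subgroup.closure ({a, b} : Set A)) := by
    rw [Nat.card_congr e1.toEquiv, Nat.card_congr e2.toEquiv, hxyo]
  have hmap : (Subgroup.closure ({x, y} : Set H)).map φ = Subgroup.closure ({a, b} : Set A) := by
    rw [MonoidHom.map_closure, Set.image_pair, hx, hy]
  have hinj : ∀ w ∈ Subgroup.closure ({x, y} : Set H), φ w = 1 → w = 1 := by
    intro w hw hw1
    let f : Subgroup.closure ({x, y} : Set H) →* Subgroup.closure ({a, b} : Set A) :=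
      { toFun := fun w => ⟨φ (w : H), by rw [← hmap]; exact ⟨w, w.2, rfl⟩⟩
        map_one' := Subtype.ext (map_one φ)
        map_mul' := fun u v => Subtype.ext (map_mul φ (u : H) (v : H)) }
    have hf : Function.Surjective f := by
      rintro ⟨v, hv⟩
      rw [← hmap] at hv
      obtain ⟨u, hu, rfl⟩ := hv
      exact ⟨⟨u, hu⟩, rfl⟩
    have hf2 : Function.Injective f :=
      ((Nat.bijective_iff_surjective_and_card f).mpr ⟨hf, hcard⟩).1
    have h1 : f ⟨w, hw⟩ = f 1 := by
      rw [map_one]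
      exact Subtype.ext hw1
    exact congrArg Subtype.val (hf2 h1)
  have hKc : IsMulCommutative (Subgroup.center H) := inferInstance
  apply H2.Gaschutz.exists_complement (Subgroup.center H) ((Subgroup.closure ({a, b} : Set A)).comap φ) ?_
    (Subgroup.closure ({x, y} : Set H)) ?_ ?_ ?_
  · rw [hc, Subgroup.index_comap_of_surjective _ hφ]
    exact (Nat.coprime_two_left).mpr hodd
  · rw [← Subgroup.map_le_iff_le_comap, hmap]
  · rw [Subgroup.eq_bot_iff_forall]
    rintro w ⟨hw1, hw2⟩
    apply hinj w hw1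
    have : w ∈ φ.ker := by rw [hker]; exact hw2
    exact this
  · apply le_antisymm
    · rw [sup_le_iff]
      constructor
      · rw [← hker]
        intro w hw
        rw [Subgroup.mem_comap, (MonoidHom.mem_ker.mp hw)]
        exact one_mem _
      · rw [← Subgroup.map_le_iff_le_comap, hmap]
    · intro w hw
      rw [Subgroup.mem_comap, ← hmap] at hw
      obtain ⟨u, hu, hu1⟩ := hw
      have h1 : w = (w * u⁻¹) * u := by group
      rw [h1]
      apply mul_mem
      · apply Subgroup.mem_sup_left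
        rw [← hker, MonoidHom.mem_ker, map_mul, map_inv, hu1, mul_inv_cancel]
      · exact Subgroup.mem_sup_right hu

/-- an involution of `A_n`, `n ≤ 7`, has cycle type `{2,2}` -/
theorem cycleType_inv {n : ℕ} (hn : n ≤ 7) {g : Perm (Fin n)} (hg : orderOf g = 2) (hs : sign g = 1) :
    g.cycleType = {2, 2} := by
  have h1 : ∀ k ∈ g.cycleType, k = 2 := by
    intro k hk
    have h2 := dvd_of_mem_cycleType hk
    have h3 := two_le_of_mem_cycleType hk
    rw [hg] at h2
    exact le_antisymm (Nat.le_of_dvd (by norm_num) h2) h3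
  have h2 : g.cycleType = Multiset.replicate (Multiset.card g.cycleType) 2 := Multiset.eq_replicate_card.mpr h1
  have h3 : g.cycleType.sum ≤ 7 := by
    rw [sum_cycleType]
    exact (Finset.card_le_univ _).trans (by rw [Fintype.card_fin]; exact hn)
  have h4 : (-1 : ℤˣ) ^ (g.cycleType.sum + Multiset.card g.cycleType) = 1 := by
    rw [← sign_of_cycleType]; exact hs
  rw [h2] at h3 h4
  rw [Multiset.sum_replicate, Multiset.card_replicate] at h4
  rw [Multiset.sum_replicate] at h3
  have h5 : Multiset.card g.cycleType ≠ 0 := by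
    intro h0
    rw [Multiset.card_eq_zero, cycleType_eq_zero] at h0
    rw [h0, orderOf_one] at hg
    norm_num at hg
  obtain ⟨c, hc⟩ : ∃ c, c = Multiset.card g.cycleType := ⟨_, rfl⟩
  rw [← hc] at h2 h3 h4 h5
  have h6 : c = 2 := by
    have h7 : c ≤ 3 := by
      simp only [smul_eq_mul] at h3
      omega
    interval_cases c
    · exact absurd rfl h5
    · exact absurd h4 (by decide)
    · rfl
    · exact absurd h4 (by decide)
  rw [h2, h6]
  rfl

theorem conj_inv {n : ℕ} {g h : Perm (Fin n)} (hg : g.cycleType = {2, 2}) (hh : h.cycleType = {2, 2}) :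
    ∃ c : Perm (Fin n), sign c = 1 ∧ c * g * c⁻¹ = h := by
  obtain ⟨c, hc⟩ := isConj_iff.mp (isConj_iff_cycleType_eq.mpr (hg.trans hh.symm))
  rcases Int.units_eq_one_or (sign c) with h1 | h1
  · exact ⟨c, h1, hc⟩
  · obtain ⟨t, ht⟩ : ∃ t, t ∈ g.cycleFactorsFinset := by
      have h2 : (2 : ℕ) ∈ g.cycleType := by rw [hg]; simp
      rw [cycleType_def, Multiset.mem_map] at h2
      obtain ⟨t, ht, -⟩ := h2
      exact ⟨t, ht⟩
    have h3 : Commute t g := self_mem_cycle_factors_commute ht
    have h4 : sign t = -1 := by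
      have h5 : t.IsCycle := (mem_cycleFactorsFinset_iff.mp ht).1
      have h6 : t.support.card ∈ g.cycleType := by
        rw [cycleType_def, Multiset.mem_map]
        exact ⟨t, ht, rfl⟩
      have h7 : t.support.card = 2 := by
        rw [hg] at h6
        simpa using h6
      rw [h5.sign, h7]
      norm_num
    refine ⟨c * t, by rw [map_mul, h1, h4]; norm_num, ?_⟩
    rw [← hc, mul_inv_rev]
    have h5 : c * t * g * (t⁻¹ * c⁻¹) = c * (t * g * t⁻¹) * c⁻¹ := by group
    rw [h5, h3.eq, mul_inv_cancel_right]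

theorem conj_alt {n : ℕ} (hn : n ≤ 7) {g h : alternatingGroup (Fin n)} (hg : orderOf g = 2) (hh : orderOf h = 2) :
    ∃ c : alternatingGroup (Fin n), c * g * c⁻¹ = h := by
  have h1 : orderOf (g : Perm (Fin n)) = 2 := by rw [Subgroup.orderOf_coe]; exact hg
  have h2 : orderOf (h : Perm (Fin n)) = 2 := by rw [Subgroup.orderOf_coe]; exact hh
  obtain ⟨c, hc1, hc2⟩ := conj_inv (cycleType_inv hn h1 (mem_alternatingGroup.mp g.2))
    (cycleType_inv hn h2 (mem_alternatingGroup.mp h.2))
  exact ⟨⟨c, mem_alternatingGroup.mpr hc1⟩, Subtype.ext hc2⟩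

theorem mem_dt {n : ℕ} {a b c d : Fin n} (h1 : a ≠ b) (h2 : c ≠ d) : swap a b * swap c d ∈ alternatingGroup (Fin n) := by
  rw [mem_alternatingGroup, map_mul, sign_swap h1, sign_swap h2]
  norm_num

/-- product of two transpositions. -/
def dt {n : ℕ} (a b c d : Fin n) (h1 : a ≠ b) (h2 : c ≠ d) : alternatingGroup (Fin n) :=
  ⟨swap a b * swap c d, mem_dt h1 h2⟩

theorem card_alt {n : ℕ} (hn : 2 ≤ n) : 2 * Nat.card (alternatingGroup (Fin n)) = n.factorial := by
  have hnt : Nontrivial (Fin n) := Fin.nontrivial_iff_two_le.mpr (by omega)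
  have := two_mul_nat_card_alternatingGroup (α := Fin n)
  rw [this, Nat.card_perm, Nat.card_eq_fintype_card, Fintype.card_fin]

theorem key_gen {n : ℕ} (N : ℕ) (a b : alternatingGroup (Fin n)) (ha : orderOf a = 2) (hb : orderOf b = 2) (hab : a ≠ b)
    (ho : orderOf (a * b) = 2 ∨ orderOf (a * b) = 4) (hN : Odd N)
    (hcard : Nat.card (alternatingGroup (Fin n)) = 2 * orderOf (a * b) * N) :
    ∃ a b : alternatingGroup (Fin n), orderOf a = 2 ∧ orderOf b = 2 ∧
    a ≠ b ∧ Odd (Subgroup.closure ({a, b} : Set (alternatingGroup (Fin n)))).index ∧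
    (orderOf (a * b) = 2 ∨ orderOf (a * b) = 4) := by
  refine ⟨a, b, ha, hb, hab, ?_, ho⟩
  obtain ⟨e⟩ := H5.DihedralLift.closure_involutions_equiv ha hb hab
  have h1 := Subgroup.card_mul_index (Subgroup.closure ({a, b} : Set (alternatingGroup (Fin n))))
  rw [Nat.card_congr e.toEquiv, DihedralGroup.nat_card, hcard] at h1
  have h2 : 0 < 2 * orderOf (a * b) := by rcases ho with h | h <;> rw [h] <;> norm_num
  rw [Nat.eq_of_mul_eq_mul_left h2 h1]
  exact hN

theorem ord2 {n : ℕ} {g : alternatingGroup (Fin n)} (h1 : (g : Perm (Fin n)) ^ 2 = 1) (h2 : (g : Perm (Fin n)) ≠ 1) :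
    orderOf g = 2 :=
  orderOf_eq_prime (Subtype.ext h1) (fun h => h2 (congrArg Subtype.val h))

theorem ord4 {n : ℕ} {g : alternatingGroup (Fin n)} (h1 : (g : Perm (Fin n)) ^ 4 = 1) (h2 : (g : Perm (Fin n)) ^ 2 ≠ 1) :
    orderOf g = 4 :=
  orderOf_eq_prime_pow (p := 2) (n := 1) (fun h => h2 (congrArg Subtype.val h)) (Subtype.ext h1)

set_option maxRecDepth 4000 in
/-- generators of a Sylow 2-subgroup of `A_n`. -/
theorem exists_gen {n : ℕ} (hn4 : 4 ≤ n) (hn : n ≤ 7) : ∃ a b : alternatingGroup (Fin n), orderOf a = 2 ∧ orderOf b = 2 ∧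
    a ≠ b ∧ Odd (Subgroup.closure ({a, b} : Set (alternatingGroup (Fin n)))).index ∧
    (orderOf (a * b) = 2 ∨ orderOf (a * b) = 4) := by
  have hA := card_alt (n := n) (by omega)
  have f4 : Nat.factorial 4 = 24 := rfl
  have f5 : Nat.factorial 5 = 120 := rfl
  have f6 : Nat.factorial 6 = 720 := rfl
  have f7 : Nat.factorial 7 = 5040 := rfl
  interval_cases n
  · have h2 : orderOf (dt (n := 4) 0 1 2 3 (by decide) (by decide) * dt (n := 4) 0 2 1 3 (by decide) (by decide)) = 2 :=
      ord2 (by decide) (by decide)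
    refine key_gen 3 (dt 0 1 2 3 (by decide) (by decide)) (dt 0 2 1 3 (by decide) (by decide)) (ord2 (by decide) (by decide))
      (ord2 (by decide) (by decide)) (fun h => absurd (congrArg Subtype.val h) (by decide)) (Or.inl h2) (by decide) ?_
    rw [h2]
    rw [f4] at hA
    omega
  · have h2 : orderOf (dt (n := 5) 0 1 2 3 (by decide) (by decide) * dt (n := 5) 0 2 1 3 (by decide) (by decide)) = 2 :=
      ord2 (by decide) (by decide)
    refine key_gen 15 (dt 0 1 2 3 (by decide) (by decide)) (dt 0 2 1 3 (by decide) (by decide)) (ord2 (by decide) (by decide))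
      (ord2 (by decide) (by decide)) (fun h => absurd (congrArg Subtype.val h) (by decide)) (Or.inl h2) (by decide) ?_
    rw [h2]
    rw [f5] at hA
    omega
  · have h2 : orderOf (dt (n := 6) 0 1 2 3 (by decide) (by decide) * dt (n := 6) 0 2 4 5 (by decide) (by decide)) = 4 :=
      ord4 (by decide) (by decide)
    refine key_gen 45 (dt 0 1 2 3 (by decide) (by decide)) (dt 0 2 4 5 (by decide) (by decide)) (ord2 (by decide) (by decide))
      (ord2 (by decide) (by decide)) (fun h => absurd (congrArg Subtype.val h) (by decide)) (Or.inr h2) (by decide) ?_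
    rw [h2]
    rw [f6] at hA
    omega
  · have h2 : orderOf (dt (n := 7) 0 1 2 3 (by decide) (by decide) * dt (n := 7) 0 2 4 5 (by decide) (by decide)) = 4 :=
      ord4 (by decide) (by decide)
    refine key_gen 315 (dt 0 1 2 3 (by decide) (by decide)) (dt 0 2 4 5 (by decide) (by decide)) (ord2 (by decide) (by decide))
      (ord2 (by decide) (by decide)) (fun h => absurd (congrArg Subtype.val h) (by decide)) (Or.inr h2) (by decide) ?_
    rw [h2]
    rw [f7] at hA
    omega

theorem card_alt_small {n : ℕ} (hn : n ≤ 3) : Odd (Nat.card (alternatingGroup (Fin n))) := by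
  rcases Nat.lt_or_ge n 2 with h | h
  · have h1 : Subsingleton (Fin n) := by
      interval_cases n <;> infer_instance
    have h2 : Nat.card (alternatingGroup (Fin n)) = 1 := Nat.card_unique
    rw [h2]; exact odd_one
  · have := card_alt h
    interval_cases n
    · rw [show Nat.factorial 2 = 2 from rfl] at this
      have h3 : Nat.card (alternatingGroup (Fin 2)) = 1 := by omega
      rw [h3]; exact odd_one
    · rw [show Nat.factorial 3 = 6 from rfl] at this
      have h3 : Nat.card (alternatingGroup (Fin 3)) = 3 := by omega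
      rw [h3]; decide

theorem part1 (n : ℕ) (H : Type) [Group H] [Finite H] (hn : n ≤ 7) (hH : Cfsg.IsNonsplitDoubleCover H (alternatingGroup (Fin n)))
    (x : H) (hx : orderOf x = 2) : x ∈ Subgroup.center H := by
  classical
  obtain ⟨hc, ⟨e⟩, hns⟩ := hH
  by_contra hxc
  obtain ⟨φ, hφ⟩ : ∃ φ : H →* alternatingGroup (Fin n), φ = e.toMonoidHom.comp (QuotientGroup.mk' (Subgroup.center H)) :=
    ⟨_, rfl⟩
  have hsurj : Function.Surjective φ := by
    rw [hφ]
    exact e.surjective.comp (QuotientGroup.mk'_surjective _)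
  have hker : φ.ker = Subgroup.center H := by
    ext w
    rw [hφ, MonoidHom.mem_ker]
    show e (QuotientGroup.mk' (Subgroup.center H) w) = 1 ↔ _
    rw [map_eq_one_iff e e.injective, QuotientGroup.mk'_apply, QuotientGroup.eq_one_iff]
  have hφx : orderOf (φ x) = 2 := by
    apply orderOf_eq_prime
    · rw [← map_pow, ← hx, pow_orderOf_eq_one, map_one]
    · intro h0
      apply hxc
      rw [← hker]
      exact h0
  rcases Nat.lt_or_ge n 4 with h4 | h4
  · have h5 := card_alt_small (n := n) (by omega)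
    have h6 : orderOf (φ x) ∣ Nat.card (alternatingGroup (Fin n)) := orderOf_dvd_natCard _
    rw [hφx] at h6
    exact (Nat.not_even_iff_odd.mpr h5) (even_iff_two_dvd.mpr h6)
  obtain ⟨a, b, ha, hb, hab, hodd, hord⟩ := exists_gen h4 hn
  have hlift : ∀ w : H, orderOf (φ w) = 2 → w ^ 2 = 1 := by
    intro w hw
    obtain ⟨c, hc'⟩ := conj_alt hn hφx hw
    obtain ⟨d, rfl⟩ := hsurj c
    have h7 : w * (d * x * d⁻¹)⁻¹ ∈ Subgroup.center H := by
      rw [← hker, MonoidHom.mem_ker, map_mul, map_inv, ← hc', map_mul, map_mul, map_inv, mul_inv_cancel]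
    obtain ⟨k, hk⟩ : ∃ k, k = w * (d * x * d⁻¹)⁻¹ := ⟨_, rfl⟩
    rw [← hk] at h7
    have h8 : w = k * (d * x * d⁻¹) := by rw [hk]; group
    have h9 : k ^ 2 = 1 := by
      have h10 : (⟨k, h7⟩ : Subgroup.center H) ^ Nat.card (Subgroup.center H) = 1 := pow_card_eq_one'
      rw [hc] at h10
      exact congrArg Subtype.val h10
    have h10 : (d * x * d⁻¹) ^ 2 = 1 := by
      rw [conj_pow, ← hx, pow_orderOf_eq_one, mul_one, mul_inv_cancel]
    have h11 : Commute k (d * x * d⁻¹) := (Subgroup.mem_center_iff.mp h7 _).symm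
    rw [h8, h11.mul_pow, h9, h10, one_mul]
  obtain ⟨L, hL⟩ := split_of φ hsurj hker hc a b ha hb hab hodd hlift hord
  exact hns L hL

set_option maxRecDepth 4000 in
theorem part2 : ∃ (H : Type) (_ : Group H) (_ : Finite H), Cfsg.IsNonsplitDoubleCover H (alternatingGroup (Fin 8)) ∧
    ∃ x y : H, x ≠ y ∧ orderOf x = 2 ∧ orderOf y = 2 := by
  obtain ⟨Γ, i1, i2, z, hz, hzo, hzc, hN, ⟨e⟩⟩ := H19.AltCover.exists_cover 8 (by norm_num)
  have hcen : Subgroup.center Γ = Subgroup.zpowers z := by
    apply le_antisymm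
    · intro w hw
      have h1 : e (QuotientGroup.mk' (Subgroup.zpowers z) w) ∈ Subgroup.center (alternatingGroup (Fin 8)) := by
        rw [Subgroup.mem_center_iff]
        intro g
        obtain ⟨g', rfl⟩ := e.surjective g
        obtain ⟨g'', rfl⟩ := QuotientGroup.mk'_surjective _ g'
        rw [← map_mul, ← map_mul, ← map_mul, ← map_mul, Subgroup.mem_center_iff.mp hw]
      rw [alternatingGroup.center_eq_bot (by rw [Nat.card_eq_fintype_card, Fintype.card_fin]; norm_num), Subgroup.mem_bot,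
        map_eq_one_iff e e.injective, QuotientGroup.mk'_apply, QuotientGroup.eq_one_iff] at h1
      exact h1
    · rw [Subgroup.zpowers_le]; exact hz
  obtain ⟨φ, hφ⟩ : ∃ φ : Γ →* alternatingGroup (Fin 8), φ = e.toMonoidHom.comp (QuotientGroup.mk' (Subgroup.zpowers z)) :=
    ⟨_, rfl⟩
  have hsurj : Function.Surjective φ := by
    rw [hφ]
    exact e.surjective.comp (QuotientGroup.mk'_surjective _)
  have hker : ∀ w, φ w = 1 ↔ w = 1 ∨ w = z := by
    intro w
    rw [hφ]
    show e (QuotientGroup.mk' (Subgroup.zpowers z) w) = 1 ↔ _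
    rw [map_eq_one_iff e e.injective, QuotientGroup.mk'_apply, QuotientGroup.eq_one_iff]
    constructor
    · intro h
      obtain ⟨k, hk⟩ := Subgroup.mem_zpowers_iff.mp h
      rcases Int.even_or_odd' k with ⟨m, hm | hm⟩
      · left
        have hz2 : z ^ (2 : ℤ) = 1 := by
          have : z ^ 2 = 1 := by rw [← hzo, pow_orderOf_eq_one]
          exact_mod_cast this
        rw [← hk, hm, zpow_mul, hz2, one_zpow]
      · right
        have hz2 : z ^ (2 : ℤ) = 1 := by
          have : z ^ 2 = 1 := by rw [← hzo, pow_orderOf_eq_one]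
          exact_mod_cast this
        rw [← hk, hm, zpow_add, zpow_mul, hz2, one_zpow, one_mul, zpow_one]
    · rintro (rfl | rfl)
      · exact one_mem _
      · exact Subgroup.mem_zpowers _
  refine ⟨Γ, i1, i2, ⟨?_, ?_, ?_⟩, ?_⟩
  · rw [hcen, Nat.card_zpowers, hzo]
  · exact ⟨(QuotientGroup.quotientMulEquivOfEq hcen).trans e⟩
  · intro L hL
    have h1 : commutator Γ ≤ L := by
      rw [commutator_def, Subgroup.commutator_le]
      intro g₁ _ g₂ _
      obtain ⟨⟨⟨c₁, hc₁⟩, ⟨l₁, hl₁⟩⟩, h1⟩ := hL.surjective g₁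
      obtain ⟨⟨⟨c₂, hc₂⟩, ⟨l₂, hl₂⟩⟩, h2⟩ := hL.surjective g₂
      have e1 : c₁ * l₁ = g₁ := h1
      have e2 : c₂ * l₂ = g₂ := h2
      have k1 := Subgroup.mem_center_iff.mp hc₁
      have k2 := Subgroup.mem_center_iff.mp hc₂
      have h3 : ⁅g₁, g₂⁆ = ⁅l₁, l₂⁆ := by
        rw [← e1, ← e2, commutatorElement_def, commutatorElement_def, mul_inv_rev, mul_inv_rev]
        have k1' := Subgroup.mem_center_iff.mp (inv_mem hc₁)
        have k2' := Subgroup.mem_center_iff.mp (inv_mem hc₂)
        calc c₁ * l₁ * (c₂ * l₂) * (l₁⁻¹ * c₁⁻¹) * (l₂⁻¹ * c₂⁻¹)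
            = c₁ * (l₁ * c₂) * l₂ * (l₁⁻¹ * c₁⁻¹) * (l₂⁻¹ * c₂⁻¹) := by group
          _ = c₁ * (c₂ * l₁) * l₂ * (c₁⁻¹ * l₁⁻¹) * (c₂⁻¹ * l₂⁻¹) := by rw [k2, k1', k2']
          _ = c₁ * c₂ * (l₁ * l₂ * c₁⁻¹) * l₁⁻¹ * c₂⁻¹ * l₂⁻¹ := by group
          _ = c₁ * c₂ * (c₁⁻¹ * (l₁ * l₂)) * l₁⁻¹ * c₂⁻¹ * l₂⁻¹ := by rw [k1']
          _ = c₁ * (c₂ * c₁⁻¹) * (l₁ * l₂ * l₁⁻¹ * c₂⁻¹) * l₂⁻¹ := by group
          _ = c₁ * (c₁⁻¹ * c₂) * (c₂⁻¹ * (l₁ * l₂ * l₁⁻¹)) * l₂⁻¹ := by rw [k1', k2' (l₁ * l₂ * l₁⁻¹)]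
          _ = l₁ * l₂ * l₁⁻¹ * l₂⁻¹ := by group
      rw [h3]
      exact mul_mem (mul_mem (mul_mem hl₁ hl₂) (inv_mem hl₁)) (inv_mem hl₂)
    have h2 : z ∈ Subgroup.center Γ ⊓ L := ⟨hz, h1 hzc⟩
    rw [hL.disjoint.eq_bot, Subgroup.mem_bot] at h2
    rw [h2, orderOf_one] at hzo
    norm_num at hzo
  · by_contra hcon
    push Not at hcon
    have hz1 : z ≠ 1 := by
      intro h0
      rw [h0, orderOf_one] at hzo
      norm_num at hzo
    have hzz : z * z = 1 := by
      have : z ^ 2 = 1 := by rw [← hzo, pow_orderOf_eq_one]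
      rwa [pow_two] at this
    have hsq : ∀ w : Γ, φ w ≠ 1 → φ w * φ w = 1 → w * w = z := by
      intro w hw hw2
      rw [← map_mul, hker] at hw2
      rcases hw2 with h | h
      · exfalso
        have h1 : w ≠ 1 := by
          rintro rfl
          exact hw (map_one φ)
        have h2 : orderOf w = 2 := orderOf_eq_prime (by rw [pow_two, h]) h1
        by_cases hwz : w = z
        · exact hw ((hker w).mpr (Or.inr hwz))
        · exact hcon w z hwz h2 hzo
      · exact h
    have hzcomm : ∀ w, w * z = z * w := fun w => Subgroup.mem_center_iff.mp hz w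
    have anti : ∀ w₁ w₂ : Γ, φ w₁ ≠ 1 → φ w₁ * φ w₁ = 1 → φ w₂ ≠ 1 → φ w₂ * φ w₂ = 1 → φ (w₁ * w₂) ≠ 1 →
        φ (w₁ * w₂) * φ (w₁ * w₂) = 1 → w₁ * w₂ = z * (w₂ * w₁) := by
      intro w₁ w₂ h1 h1' h2 h2' h3 h3'
      have e1 := hsq w₁ h1 h1'
      have e2 := hsq w₂ h2 h2'
      have e3 := hsq _ h3 h3'
      have h4 : w₁ * (w₁ * w₂ * (w₁ * w₂)) * w₂ = w₁ * z * w₂ := by rw [e3]
      have h5 : w₁ * (w₁ * w₂ * (w₁ * w₂)) * w₂ = (w₁ * w₁) * (w₂ * w₁) * (w₂ * w₂) := by group
      rw [h5, e1, e2, hzcomm, ← mul_assoc, hzz, one_mul, hzcomm, mul_assoc] at h4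
      rw [h4, ← mul_assoc, hzz, one_mul]
    have ne_of : ∀ {g : alternatingGroup (Fin 8)}, (g : Perm (Fin 8)) ≠ 1 → g ≠ 1 :=
      fun h1 h2 => h1 (congrArg Subtype.val h2)
    have sq_of : ∀ {g : alternatingGroup (Fin 8)}, (g : Perm (Fin 8)) * (g : Perm (Fin 8)) = 1 → g * g = 1 :=
      fun h1 => Subtype.ext h1
    obtain ⟨x, hx⟩ := hsurj (dt 0 1 2 3 (by decide) (by decide))
    obtain ⟨y, hy⟩ := hsurj (dt 0 2 1 3 (by decide) (by decide))
    obtain ⟨w, hw⟩ := hsurj (dt 4 5 6 7 (by decide) (by decide))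
    have a1 := anti x w (by rw [hx]; exact ne_of (by decide)) (by rw [hx]; exact sq_of (by decide))
      (by rw [hw]; exact ne_of (by decide)) (by rw [hw]; exact sq_of (by decide))
      (by rw [map_mul, hx, hw]; exact ne_of (by decide)) (by rw [map_mul, hx, hw]; exact sq_of (by decide))
    have a2 := anti y w (by rw [hy]; exact ne_of (by decide)) (by rw [hy]; exact sq_of (by decide))
      (by rw [hw]; exact ne_of (by decide)) (by rw [hw]; exact sq_of (by decide))
      (by rw [map_mul, hy, hw]; exact ne_of (by decide)) (by rw [map_mul, hy, hw]; exact sq_of (by decide))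
    have a3 := anti (x * y) w (by rw [map_mul, hx, hy]; exact ne_of (by decide))
      (by rw [map_mul, hx, hy]; exact sq_of (by decide))
      (by rw [hw]; exact ne_of (by decide)) (by rw [hw]; exact sq_of (by decide))
      (by rw [map_mul, map_mul, hx, hy, hw]; exact ne_of (by decide))
      (by rw [map_mul, map_mul, hx, hy, hw]; exact sq_of (by decide))
    have a4 : x * y * w = w * (x * y) := by
      rw [mul_assoc, a2, ← mul_assoc, hzcomm, mul_assoc, ← mul_assoc x w y, a1]
      rw [mul_assoc z, ← mul_assoc z z, hzz, one_mul, mul_assoc]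
    rw [a4] at a3
    apply hz1
    have a5 : z * (w * (x * y)) = 1 * (w * (x * y)) := by rw [one_mul]; exact a3.symm
    exact mul_right_cancel a5

/-- Involutions in double covers of alternating groups: for n ≤ 7, a finite non-split double cover of the alternating group of degree n has exactly one element of order 2 (the central one); for degree 8 there is a non-split double cover with two distinct involutions. -/
theorem result : (∀ (n : ℕ) (H : Type) (_ : Group H) (_ : Finite H), n ≤ 7 → Cfsg.IsNonsplitDoubleCover H (alternatingGroup (Fin n)) → ∀ x y : H, orderOf x = 2 → orderOf y = 2 → x = y) ∧ ∃ (H : Type) (_ : Group H) (_ : Finite H), Cfsg.IsNonsplitDoubleCover H (alternatingGroup (Fin 8)) ∧ ∃ x y : H, x ≠ y ∧ orderOf x = 2 ∧ orderOf y = 2 := by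
  refine ⟨fun n H _ _ hn hH x y hx hy => ?_, part2⟩
  have h1 := part1 n H hn hH x hx
  have h2 := part1 n H hn hH y hy
  have hc : Nat.card (Subgroup.center H) = 2 := hH.1
  have hx1 : (⟨x, h1⟩ : Subgroup.center H) ≠ 1 := by
    intro h0
    have : x = 1 := congrArg Subtype.val h0
    rw [this, orderOf_one] at hx
    norm_num at hx
  have hy1 : (⟨y, h2⟩ : Subgroup.center H) ≠ 1 := by
    intro h0
    have : y = 1 := congrArg Subtype.val h0
    rw [this, orderOf_one] at hy
    norm_num at hy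
  obtain ⟨u, v, huv, hall⟩ := Nat.card_eq_two_iff.mp hc
  have hall' : ∀ w : Subgroup.center H, w = u ∨ w = v := by
    intro w
    have : w ∈ ({u, v} : Set (Subgroup.center H)) := by rw [hall]; trivial
    simpa using this
  have hxy : (⟨x, h1⟩ : Subgroup.center H) = ⟨y, h2⟩ := by
    rcases hall' 1 with h | h <;> rcases hall' ⟨x, h1⟩ with h' | h' <;> rcases hall' ⟨y, h2⟩ with h'' | h'' <;> first | exact h'.trans h''.symm | (exact absurd (h'.trans h.symm) hx1) | (exact absurd (h''.trans h.symm) hy1)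
  exact congrArg Subtype.val hxy

end Cfsg.Agent.S0447
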