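import Cfsg.Statements.S0496
import Mathlib
import Cfsg.Agent.Lib.H21.NE9
import Cfsg.Agent.Lib.H21.NE10

set_option autoImplicit false
open Cfsg

namespace Cfsg.Agent.S0496

/-- A non-abelian finite simple group of order at most 1092 has order 60, 168, 360, 504, 660 or 1092. -/
theorem result {G : Type*} [Group G] [Finite G] [IsSimpleGroup G]
    (hG : ¬ IsMulCommutative G) (h : Nat.card G ≤ 1092) :
    Nat.card G = 60 ∨ Nat.card G = 168 ∨ Nat.card G = 360 ∨ Nat.card G = 504 ∨ Nat.card G = 660 ∨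
      Nat.card G = 1092 := by
  rcases Nat.lt_or_ge (Nat.card G) 2 with h0 | h0
  · exfalso
    have : 1 < Nat.card G := Finite.one_lt_card
    omega
  have hmem : Nat.card G ∈ H21.NE.Cert1092.exc := by
    rcases Nat.lt_or_ge (Nat.card G) 300 with h1 | h1
    · exact H21.NE.mem_of_goC hG H21.NE.Cert1092.h0 h0 (by rw [H21.NE.Cert1092.l0]; exact h1)
    rcases Nat.lt_or_ge (Nat.card G) 600 with h2 | h2
    · exact H21.NE.mem_of_goC hG H21.NE.Cert1092.h1 h1 (by rw [H21.NE.Cert1092.l1]; exact h2)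
    rcases Nat.lt_or_ge (Nat.card G) 850 with h3 | h3
    · exact H21.NE.mem_of_goC hG H21.NE.Cert1092.h2 h2 (by rw [H21.NE.Cert1092.l2]; exact h3)
    · exact H21.NE.mem_of_goC hG H21.NE.Cert1092.h3 h3 (by rw [H21.NE.Cert1092.l3]; omega)
  simp only [H21.NE.Cert1092.exc, List.mem_cons, List.not_mem_nil, or_false] at hmem
  rcases hmem with h1 | h1 | h1 | h1 | h1 | h1 | h1
  · exact Or.inl h1
  · exact Or.inr (Or.inl h1)
  · exact Or.inr (Or.inr (Or.inl h1))
  · exact Or.inr (Or.inr (Or.inr (Or.inl h1)))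
  · exact Or.inr (Or.inr (Or.inr (Or.inr (Or.inl h1))))
  · exfalso
    refine H21.NE.no_of_sylB hG (p := 5) (a := 2) (m := 36) (by norm_num) ?_
    rw [h1]
    decide +kernel
  · exact Or.inr (Or.inr (Or.inr (Or.inr (Or.inr h1))))

end Cfsg.Agent.S0496
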