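import Cfsg.Statements.S0657
import Cfsg.Agent.Lib.H51.QdStab3

set_option autoImplicit false
open Cfsg

namespace Cfsg.Agent.S0657

/-- For odd p, a group that fails to be p-stable modulo its largest normal subgroup of order prime to p, and whose upper p-series does not stop there, has a section isomorphic to SL(2, p). -/
theorem result {G : Type*} [Group G] [Finite G] {p : ℕ} [Fact p.Prime] (hp : p ≠ 2) (hO : Cfsg.pPrimeCore p G < Cfsg.pPrimePCore p G) (hns : ¬ Cfsg.IsPStable p (G ⧸ Cfsg.pPrimeCore p G)) : ∃ (K L : Subgroup G) (hL : (L.subgroupOf K).Normal), K ≤ ⊤ ∧ Nonempty ((K ⧸ L.subgroupOf K) ≃* Matrix.SpecialLinearGroup (Fin 2) (ZMod p)) := by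

  set X := G ⧸ Cfsg.pPrimeCore p G with hX
  have h1 : ¬ IsNormalizerPStable p X := by
    intro hst
    apply hns
    refine ⟨(Fact.out : p.Prime).odd_of_ne_two hp, ?_, ?_⟩
    · intro h
      apply hO.ne
      show Cfsg.pPrimeCore p G = (pCore p X).comap (QuotientGroup.mk' (Cfsg.pPrimeCore p G))
      rw [h, MonoidHom.comap_bot, QuotientGroup.ker_mk']
    · intro A P hA hP hAP _ _ hq
      rintro _ ⟨⟨a, haN⟩, ha, rfl⟩
      refine hst P hP a haN ?_
      rw [eq_bot_iff, ← hq]
      have hle : Subgroup.zpowers a ≤ A := Subgroup.zpowers_le.2 ha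
      exact Subgroup.commutator_mono (Subgroup.commutator_mono le_rfl hle) hle
  have h2 : Involves (qd p) X := by
    by_contra h
    exact h1 (H51.QdStab2.stable hp h)
  have h3 := H51.QdStab3.involves_sl2_of_qd h2
  have h4 := H51.Involves.involves_of_hom (QuotientGroup.mk' (Cfsg.pPrimeCore p G)) (QuotientGroup.mk'_surjective _) h3
  obtain ⟨K, L, hL, he⟩ := h4
  exact ⟨K, L, hL, le_top, he⟩

end Cfsg.Agent.S0657
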