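import Cfsg.Statements.S0723
import Cfsg.Agent.Lib.H15.Scott
import Cfsg.Agent.Lib.H15.Jordan
import Cfsg.Agent.S0721
import Cfsg.Agent.S0722

set_option autoImplicit false
open Cfsg

namespace Cfsg.Agent.S0723

/-- The core of the O'Nan–Scott Theorem. Let `H` be a primitive permutation group on a finite set whose unique minimal normal subgroup `N` is non-abelian, and `K` a point stabiliser. Then there are a non-abelian simple group `T` and an isomorphism `N ≃* T^m` (`m ≥ 1`) under which `K ⊓ N` becomes either a product `∏ K_i` of proper subgroups `K_i < T`, or the set of functions constant on each block of a partition of the index set into blocks of one common size `k ≥ 2`. -/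
theorem result {α : Type*} [Finite α] (H : Subgroup (Equiv.Perm α)) [MulAction.IsPreprimitive H α] (N : Subgroup H) [N.Normal] (hN : N ≠ ⊥) (hmin : ∀ M : Subgroup H, M.Normal → M ≤ N → M = ⊥ ∨ M = N) (huniq : ∀ L : Subgroup H, L.Normal → L ≠ ⊥ → (∀ M : Subgroup H, M.Normal → M ≤ L → M = ⊥ ∨ M = L) → L = N) (hnab : ¬ IsMulCommutative N) (a : α) : ∃ (T : Type) (_ : Group T) (m : ℕ) (e : N ≃* (Fin m → T)), IsSimpleGroup T ∧ ¬ IsMulCommutative T ∧ 0 < m ∧ ((∃ K : Fin m → Subgroup T, (∀ i, K i ≠ ⊤) ∧ ∀ n : N, (n : H) ∈ MulAction.stabilizer H a ↔ ∀ i, e n i ∈ K i) ∨ (∃ (k : ℕ) (c : Fin m → Fin m), 2 ≤ k ∧ (∀ j : Fin m, Nat.card {i : Fin m // c i = j} = k ∨ Nat.card {i : Fin m // c i = j} = 0) ∧ ∀ n : N, (n : H) ∈ MulAction.stabilizer H a ↔ ∀ i j : Fin m, c i = c j → e n i = e n j)) := by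
  classical
  obtain ⟨T, hTg, m, hTs, hm, ⟨e⟩⟩ := Cfsg.Agent.S0721.result N hN hmin
  have hT : ∃ a b : T, a * b ≠ b * a := by
    by_contra hcon
    push Not at hcon
    apply hnab
    refine ⟨⟨fun x y => e.injective ?_⟩⟩
    rw [map_mul, map_mul]
    funext i
    exact hcon _ _
  have hTn : ¬ IsMulCommutative T := by
    intro h
    obtain ⟨a, b, hab⟩ := hT
    exact hab (h.is_comm.comm a b)
  set St := MulAction.stabilizer H a with hSt
  let M : Subgroup (Fin m → T) := St.comap (N.subtype.comp e.symm.toMonoidHom)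
  have hM : ∀ x, x ∈ M ↔ ((e.symm x : N) : H) ∈ St := fun x => Iff.rfl
  let A : Set ((Fin m → T) ≃* (Fin m → T)) :=
    {φ | ∃ k ∈ St, ∀ x, ((e.symm (φ x) : N) : H) = k * (e.symm x : N) * k⁻¹}
  have hAk : ∀ k ∈ St, (e.symm.trans ((MulAut.conjNormal k).trans e)) ∈ A := by
    intro k hk
    refine ⟨k, hk, ?_⟩
    intro x
    simp [MulAut.conjNormal_apply]
  have htr := H15.Jordan.transitive_of_normal (G := H) (X := α) inferInstance N hN
  have hinv : ∀ φ ∈ A, ∀ x, φ x ∈ M ↔ x ∈ M := by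
    rintro φ ⟨k, hk, hφ⟩ x
    rw [hM, hM, hφ, Subgroup.mul_mem_cancel_right _ (St.inv_mem hk), Subgroup.mul_mem_cancel_left _ hk]
  -- the subgroup of H attached to L
  let X : Subgroup (Fin m → T) → Subgroup H := fun L => (L.comap e.toMonoidHom).map N.subtype
  have hX : ∀ L (n : N), (n : H) ∈ X L ↔ e n ∈ L := by
    intro L n
    constructor
    · rintro ⟨n', hn', hnn⟩
      rw [← Subtype.ext hnn]
      exact hn'
    · intro h
      exact ⟨n, h, rfl⟩
  have hXN : ∀ L, X L ≤ N := fun L => Subgroup.map_subtype_le _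
  have hXconj : ∀ L : Subgroup (Fin m → T), (∀ φ ∈ A, ∀ x ∈ L, φ x ∈ L) → ∀ k ∈ St, ∀ x ∈ X L,
      k * x * k⁻¹ ∈ X L := by
    intro L hL k hk x hx
    obtain ⟨n, hn, rfl⟩ := hx
    have h1 := hL _ (hAk k hk) (e n) hn
    have h2 : (e.symm.trans ((MulAut.conjNormal k).trans e)) (e n) = e (MulAut.conjNormal k n) := by
      simp
    rw [h2, ← hX] at h1
    rwa [MulAut.conjNormal_apply] at h1
  have hmax : ∀ L : Subgroup (Fin m → T), M ≤ L → (∀ φ ∈ A, ∀ x ∈ L, φ x ∈ L) → L = M ∨ L = ⊤ := by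
    intro L hML hL
    have h1 := Cfsg.Agent.S0722.result H N hN hmin a (X L) (hXN L) (by
      rintro x ⟨hx, hxN⟩
      rw [show x = ((⟨x, hxN⟩ : N) : H) from rfl, hX]
      apply hML
      rw [hM, MulEquiv.symm_apply_apply]
      exact hx) (by
      intro k hk
      rw [Subgroup.mem_normalizer_iff]
      intro x
      constructor
      · exact hXconj L hL k hk x
      · intro hx
        have h3 := hXconj L hL k⁻¹ (St.inv_mem hk) _ hx
        have h4 : k⁻¹ * (k * x * k⁻¹) * k⁻¹⁻¹ = x := by group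
        rwa [h4] at h3)
    rcases h1 with h | h
    · left
      ext x
      have h2 := hX L (e.symm x)
      rw [MulEquiv.apply_symm_apply, h] at h2
      rw [← h2, hM]
      constructor
      · rintro ⟨h3, -⟩; exact h3
      · intro h3; exact ⟨h3, (e.symm x).2⟩
    · right
      rw [eq_top_iff]
      intro x _
      have h2 := hX L (e.symm x)
      rw [MulEquiv.apply_symm_apply, h] at h2
      exact h2.1 (e.symm x).2
  have hMt : M ≠ ⊤ := by
    intro h
    apply hN
    rw [Subgroup.eq_bot_iff_forall]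
    intro n hn
    have h1 : ∀ n ∈ N, n ∈ St := by
      intro n hn
      have h2 : e ⟨n, hn⟩ ∈ M := by rw [h]; trivial
      rw [hM, MulEquiv.symm_apply_apply] at h2
      exact h2
    apply Subtype.ext
    ext x
    obtain ⟨g, hg⟩ := MulAction.exists_smul_eq N a x
    have h3 : (g : H) • a = a := h1 g g.2
    have hx : x = a := by
      rw [← hg]; exact h3
    rw [hx]
    exact h1 n hn
  have hirr : ∀ L : Subgroup (Fin m → T), L.Normal → (∀ φ ∈ A, ∀ x ∈ L, φ x ∈ L) → L = ⊥ ∨ L = ⊤ := by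
    intro L hLn hL
    have hXn : (X L).Normal := by
      constructor
      intro x hx h
      obtain ⟨g, hg⟩ := MulAction.exists_smul_eq N a (h • a)
      have hk : (g : H)⁻¹ * h ∈ St := by
        rw [hSt, MulAction.mem_stabilizer_iff, mul_smul, inv_smul_eq_iff]
        exact hg.symm
      have h1 := hXconj L hL _ hk x hx
      obtain ⟨n, hn, hn'⟩ := h1
      have h2 : h * x * h⁻¹ = (g : H) * (((g : H)⁻¹ * h) * x * ((g : H)⁻¹ * h)⁻¹) * (g : H)⁻¹ := by group
      rw [h2, ← hn']
      refine ⟨g * n * g⁻¹, ?_, rfl⟩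
      change e (g * n * g⁻¹) ∈ L
      rw [map_mul, map_mul, map_inv]
      exact hLn.conj_mem _ hn _
    rcases hmin (X L) hXn (hXN L) with h | h
    · left
      rw [Subgroup.eq_bot_iff_forall]
      intro x hx
      have h2 := hX L (e.symm x)
      rw [MulEquiv.apply_symm_apply, h, Subgroup.mem_bot] at h2
      have h3 : e.symm x = 1 := Subtype.ext (h2.2 hx)
      rwa [← map_one e.symm, e.symm.injective.eq_iff] at h3
    · right
      rw [eq_top_iff]
      intro x _
      have h2 := hX L (e.symm x)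
      rw [MulEquiv.apply_symm_apply, h] at h2
      exact h2.1 (e.symm x).2
  rcases H15.Scott.core hT A M hinv hmax hMt hirr with ⟨K, hK, hKM⟩ | ⟨θ, c, k, hk, hc, hcM⟩
  · refine ⟨T, hTg, m, e, hTs, hTn, hm, Or.inl ⟨K, hK, ?_⟩⟩
    intro n
    rw [← hKM, hM, MulEquiv.symm_apply_apply]
  · refine ⟨T, hTg, m, e.trans (MulEquiv.piCongrRight θ), hTs, hTn, hm, Or.inr ⟨k, c, hk, hc, ?_⟩⟩
    intro n
    rw [← MulEquiv.symm_apply_apply e n, ← hM, hcM]
    simp only [MulEquiv.symm_apply_apply]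
    exact Iff.rfl

end Cfsg.Agent.S0723
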