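import Cfsg.Statements.S0730
import Cfsg.Agent.Lib.H15.AbInv
import Cfsg.Agent.Lib.H15.FieldAut
import Cfsg.Agent.Lib.H15.InvTwo
import Cfsg.Agent.Lib.H15.Q8Lin2
import Cfsg.Agent.S0729

set_option autoImplicit false
open Cfsg

namespace Cfsg.Agent.S0730

/-- A sharply triply transitive group of degree `p^f + 1`, `p` an odd prime and `f` odd, is isomorphic to the projective general linear group of degree 2 over the field with `p^f` elements (for even `f` there is a second, twisted, group). -/
theorem result {α : Type*} [Fintype α] [DecidableEq α] {p f : ℕ} (hp : p.Prime) (hp2 : p ≠ 2) (hfo : Odd f) (hα : Fintype.card α = p ^ f + 1) (G : Subgroup (Equiv.Perm α)) (h3 : MulAction.IsMultiplyPretransitive G α 3) (hsharp : ∀ x : Fin 3 ↪ α, MulAction.stabilizer G x = ⊥) : ∃ (F : Type) (_ : Field F) (_ : Fintype F), Fintype.card F = p ^ f ∧ Nonempty (G ≃* Matrix.ProjGenLinGroup (Fin 2) F) := by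
  classical
  have h := H15.Sharp3.sharp_of h3 hsharp
  have hfin : Finite G := inferInstance
  have hpodd : Odd p := hp.odd_of_ne_two hp2
  have hp3 : 3 ≤ p := by
    have := hp.two_le
    omega
  have hf1 : 1 ≤ f := by
    obtain ⟨k, hk⟩ := hfo
    omega
  have hpf : 3 ≤ p ^ f := by
    calc 3 ≤ p := hp3
      _ = p ^ 1 := (pow_one p).symm
      _ ≤ p ^ f := Nat.pow_le_pow_right (by omega) hf1
  have hqodd : Odd (p ^ f) := hpodd.pow
  have heven : Even (Fintype.card α) := by
    rw [hα]
    exact hqodd.add_one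
  obtain ⟨i, o, u, hio, hiu, hou⟩ := Fintype.two_lt_card_iff.1 (show 2 < Fintype.card α by omega)
  obtain ⟨s, hsi, hso, hsu⟩ := h.ex i o u o i u hio hiu hou (Ne.symm hio) hou hiu
  obtain ⟨p', hp', V, _, _, _, H, hV, hreg, ⟨e⟩⟩ := H15.SharpLin.exists_iso h (by omega) hio
  have hV' : Nat.card V = p ^ f := by omega
  have hnt : Nontrivial V := by
    rw [← Finite.one_lt_card_iff_nontrivial]
    omega
  have htr : ∀ v w : V, v ≠ 0 → w ≠ 0 → ∃ h : H, (h : V ≃ₗ[ZMod p'] V) v = w :=
    fun v w hv hw => (hreg v w hv hw).exists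
  have hfree : ∀ (h : H) (v : V), v ≠ 0 → (h : V ≃ₗ[ZMod p'] V) v = v → h = 1 := by
    intro h v hv hh
    exact (hreg v v hv hv).unique hh rfl
  have hcardH := H15.Q8Lin.card_H H htr hfree
  have hpp' : p' = p := by
    have h4 : Nat.card V = p' ^ Module.finrank (ZMod p') V := by
      rw [Module.natCard_eq_pow_finrank (K := ZMod p'), Nat.card_zmod]
    rw [hV'] at h4
    have h5 : p ∣ p' ^ Module.finrank (ZMod p') V := by
      rw [← h4]
      exact dvd_pow_self p (by omega)
    exact ((Nat.prime_dvd_prime_iff_eq hp hp'.out).1 (hp.dvd_of_dvd_pow h5)).symm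
  subst hpp'
  have hcommH : ∀ a b : H, a * b = b * a := by
    by_cases h6 : 6 ≤ Fintype.card α
    · obtain ⟨N, hN1, hN2, hN3, hN4⟩ := Cfsg.Agent.S0729.result heven h6 G h3 hsharp hio hiu hou s hsi hso hsu
      have hinv := H15.InvTwo.inverted h i o u hio hiu hou s hsi hso hsu N hN1 hN3 hN4
      have hNc : ∀ a ∈ N, ∀ b ∈ N, a * b = b * a := by
        intro a ha b hb
        have h7 := hinv _ (N.mul_mem ha hb)
        have h8 : s * (a * b) * s⁻¹ = (s * a * s⁻¹) * (s * b * s⁻¹) := by group
        rw [h8, hinv a ha, hinv b hb, ← mul_inv_rev] at h7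
        exact (inv_injective h7).symm
      have hidx : ((N.subgroupOf (MulAction.stabilizer G i ⊓ MulAction.stabilizer G o)).comap
          e.symm.toMonoidHom).index = 2 := by
        rw [Subgroup.index_comap_of_surjective _ e.symm.surjective]
        exact hN3
      apply H15.FieldAut.comm_of_index_two htr hfree f hfo hV' hcardH (N :=
        (N.subgroupOf (MulAction.stabilizer G i ⊓ MulAction.stabilizer G o)).comap e.symm.toMonoidHom) ?_ hidx
      constructor
      constructor
      rintro ⟨a, ha⟩ ⟨b, hb⟩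
      apply Subtype.ext
      apply e.symm.injective
      rw [Subgroup.mem_comap, Subgroup.mem_subgroupOf] at ha hb
      change e.symm (a * b) = e.symm (b * a)
      rw [map_mul, map_mul]
      exact Subtype.ext (hNc _ ha _ hb)
    · have h7 : p' ^ f = 3 := by
        have h8 : p' ^ f < 5 := by omega
        obtain ⟨k, hk⟩ := hqodd
        omega
      have h8 : Nat.card H = 2 := by omega
      have hf2 : Fact (Nat.Prime 2) := ⟨Nat.prime_two⟩
      have h9 : IsCyclic H := isCyclic_of_prime_card h8
      have h10 := IsCyclic.isMulCommutative (α := H)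
      exact fun a b => mul_comm' a b
  have hab : ∀ a b : G, a • i = i → a • o = o → b • i = i → b • o = o → a * b = b * a := by
    intro a b ha1 ha2 hb1 hb2
    have h7 := hcommH (e ⟨a, ha1, ha2⟩) (e ⟨b, hb1, hb2⟩)
    rw [← map_mul, ← map_mul] at h7
    exact congrArg Subtype.val (e.injective h7)
  have hinv := H15.AbInv.inverted h heven i o u hio hiu hou s hsi hso hsu hab
  obtain ⟨F, _, _, hF, e'⟩ := H15.SharpPGL.main h i o u hio hiu hou s hsi hso hsu hinv
  exact ⟨F, inferInstance, inferInstance, by omega, e'⟩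

end Cfsg.Agent.S0730
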