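import Cfsg.Statements.S0809
import Cfsg.Agent.Lib.H17.SL2Four

set_option autoImplicit false
open Cfsg

namespace Cfsg.Agent.S0809

/-- In SL_2(q), q odd: any two subgroups of order 4 are conjugate, and the normaliser of a subgroup of order 4 has order 2(q − 1) if q ≡ 1 (mod 4) and 2(q + 1) if q ≡ 3 (mod 4); consequently all involutions of PSL_2(q) are conjugate. -/
theorem result {F : Type*} [Field F] [Fintype F] {q : ℕ} (hF : Fintype.card F = q) (hodd : Odd q) (A : Subgroup (Matrix.SpecialLinearGroup (Fin 2) F)) (hA : Nat.card A = 4) : (∀ B : Subgroup (Matrix.SpecialLinearGroup (Fin 2) F), Nat.card B = 4 → ∃ g : Matrix.SpecialLinearGroup (Fin 2) F, B = A.map (MulAut.conj g).toMonoidHom) ∧ (q % 4 = 1 → Nat.card ↥(Subgroup.normalizer (A : Set (Matrix.SpecialLinearGroup (Fin 2) F))) = 2 * (q - 1)) ∧ (q % 4 = 3 → Nat.card ↥(Subgroup.normalizer (A : Set (Matrix.SpecialLinearGroup (Fin 2) F))) = 2 * (q + 1)) ∧ (∀ x y : Matrix.ProjectiveSpecialLinearGroup (Fin 2) F, orderOf x = 2 → orderOf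 y = 2 → IsConj x y) := by
  classical
  have h2 : (2 : F) ≠ 0 := H45.SL2.two_ne_zero_of_odd (by rw [hF]; exact hodd)
  obtain ⟨x, hx, rfl⟩ := H17.SL2Four.exists_gen h2 A hA
  have hcard := H17.SL2Four.card_normalizer hF hodd x hx
  obtain ⟨hc1, hc3⟩ := H17.SL2Four.card_torus (F := F) hF hodd
  refine ⟨?_, ?_, ?_, ?_⟩
  · intro B hB
    obtain ⟨y, hy, rfl⟩ := H17.SL2Four.exists_gen h2 B hB
    exact H17.SL2Four.zpowers_conj (H58.SL2Prod.isConj_of_sq h2 hx hy)
  · intro h
    rw [hcard, hc1 h]
  · intro h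
    rw [hcard, hc3 h]
  · intro X Y hX hY
    obtain ⟨a, rfl⟩ := QuotientGroup.mk_surjective X
    obtain ⟨b, rfl⟩ := QuotientGroup.mk_surjective Y
    have ha : a * a = -1 := by
      apply H17.SL2Four.lift_invol h2 a
      · intro h; rw [h, orderOf_one] at hX; omega
      · have h := pow_orderOf_eq_one (QuotientGroup.mk a :
          Matrix.ProjectiveSpecialLinearGroup (Fin 2) F)
        rw [hX, sq] at h
        exact h
    have hb : b * b = -1 := by
      apply H17.SL2Four.lift_invol h2 b
      · intro h; rw [h, orderOf_one] at hY; omega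
      · have h := pow_orderOf_eq_one (QuotientGroup.mk b :
          Matrix.ProjectiveSpecialLinearGroup (Fin 2) F)
        rw [hY, sq] at h
        exact h
    have h := H58.SL2Prod.isConj_of_sq h2 ha hb
    exact MonoidHom.map_isConj
      (QuotientGroup.mk' (Subgroup.center (Matrix.SpecialLinearGroup (Fin 2) F))) h

end Cfsg.Agent.S0809
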