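import Cfsg.Statements.S0856
import Cfsg.Agent.Lib.H31.Clifford
import Cfsg.Agent.Lib.H18.Primitive

set_option autoImplicit false
open Cfsg

namespace Cfsg.Agent.S0856

open H18.CharBasic H18.CharOrtho H18.CharInd H18.CharQuot in
theorem core {G : Type*} [Group G] [Fintype G] [Fintype (IrrCharacter G)] {χ A : G → ℂ}
    (hχ : IsCharacter G χ) (hχ0 : ∀ β : IrrCharacter G, (β : G → ℂ) * χ ≠ 0)
    (hA : IsCharacter G A) (hnorm : classInner (A * χ) (A * χ) = classInner A A) :
    ∀ β γ : IrrCharacter G, classInner A (β : G → ℂ) ≠ 0 → classInner A (γ : G → ℂ) ≠ 0 →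
      classInner ((β : G → ℂ) * χ) ((γ : G → ℂ) * χ) = if β = γ then 1 else 0 := by
  classical
  have hm : ∀ β : IrrCharacter G, IsCharacter G ((β : G → ℂ) * χ) := fun β =>
    isCharacter_mul (isCharacter_of_isIrr β.2) hχ
  have h1 : ∀ β γ : IrrCharacter G, ∃ n : ℕ,
      classInner ((β : G → ℂ) * χ) ((γ : G → ℂ) * χ) = n := fun β γ =>
    inner_char_natCast (hm β) (hm γ)
  choose n hn using h1
  have h2 : ∀ β : IrrCharacter G, ∃ a : ℕ, classInner A (β : G → ℂ) = a := fun β =>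
    inner_char_natCast hA (isCharacter_of_isIrr β.2)
  choose a ha using h2
  have hAe : A = ∑ β : IrrCharacter G, (a β : ℂ) • (β : G → ℂ) := by
    have := mem_classFun_expand (isClassFunction_of_isCharacter hA)
    rw [Finset.sum_congr rfl (fun β _ => by rw [ha β])] at this
    exact this
  have hAχ : A * χ = ∑ β : IrrCharacter G, (a β : ℂ) • ((β : G → ℂ) * χ) := by
    conv_lhs => rw [hAe]
    rw [Finset.sum_mul]
    refine Finset.sum_congr rfl fun β _ => ?_
    rw [smul_mul_assoc]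
  have hAA : classInner A A = ((∑ β : IrrCharacter G, a β * a β : ℕ) : ℂ) := by
    conv_lhs => arg 2; rw [hAe]
    rw [inner_sum_right]
    push_cast
    refine Finset.sum_congr rfl fun β _ => ?_
    rw [H18.CharOrtho.inner_smul_right, ha β]
    simp
  have hBB : classInner (A * χ) (A * χ) =
      ((∑ β : IrrCharacter G, ∑ γ : IrrCharacter G, a β * a γ * n β γ : ℕ) : ℂ) := by
    conv_lhs => rw [hAχ]
    rw [H18.CharOrtho.inner_sum_left]
    push_cast
    refine Finset.sum_congr rfl fun β _ => ?_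
    rw [H18.CharOrtho.inner_smul_left, inner_sum_right, Finset.mul_sum]
    refine Finset.sum_congr rfl fun γ _ => ?_
    rw [H18.CharOrtho.inner_smul_right, hn]
    simp; ring
  have hpos : ∀ β, 1 ≤ n β β := by
    intro β
    by_contra hcon
    have h0 : n β β = 0 := by omega
    have h3 := hn β β
    rw [h0, Nat.cast_zero] at h3
    exact hχ0 β (H18.CharOrtho.inner_self_eq_zero.1 h3)
  rw [hAA, hBB] at hnorm
  have hnorm' : ∑ β : IrrCharacter G, ∑ γ : IrrCharacter G, a β * a γ * n β γ =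
      ∑ β : IrrCharacter G, a β * a β := by exact_mod_cast hnorm
  have hle : ∀ β ∈ (Finset.univ : Finset (IrrCharacter G)),
      a β * a β ≤ ∑ γ : IrrCharacter G, a β * a γ * n β γ := by
    intro β _
    calc a β * a β ≤ a β * a β * n β β := Nat.le_mul_of_pos_right _ (hpos β)
      _ ≤ ∑ γ : IrrCharacter G, a β * a γ * n β γ :=
        Finset.single_le_sum (f := fun γ => a β * a γ * n β γ) (fun _ _ => Nat.zero_le _)
          (Finset.mem_univ β)
  have heq := (Finset.sum_eq_sum_iff_of_le hle).1 hnorm'.symm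
  intro β γ hβ hγ
  have haβ : 0 < a β := by
    rw [ha β] at hβ
    exact Nat.pos_of_ne_zero (by exact_mod_cast hβ)
  have haγ : 0 < a γ := by
    rw [ha γ] at hγ
    exact Nat.pos_of_ne_zero (by exact_mod_cast hγ)
  have h3 := heq β (Finset.mem_univ _)
  rw [← Finset.add_sum_erase _ _ (Finset.mem_univ β)] at h3
  have h4 : a β * a β ≤ a β * a β * n β β := Nat.le_mul_of_pos_right _ (hpos β)
  have h5 : a β * a β * n β β = a β * a β := by omega
  have h6 : ∑ γ ∈ Finset.univ.erase β, a β * a γ * n β γ = 0 := by omega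
  by_cases h : β = γ
  · rw [if_pos h, ← h, hn]
    have : n β β = 1 := Nat.eq_of_mul_eq_mul_left (Nat.mul_pos haβ haβ) (by rw [h5, mul_one])
    rw [this, Nat.cast_one]
  · rw [if_neg h, hn]
    have h7 := (Finset.sum_eq_zero_iff.1 h6) γ (by simp [Ne.symm h])
    have h8 : n β γ = 0 := by
      rcases Nat.mul_eq_zero.1 h7 with h9 | h9
      · exact absurd h9 (Nat.mul_pos haβ haγ).ne'
      · exact h9
    rw [h8, Nat.cast_zero]

/-- Let N be a normal subgroup of the finite group G and φ, ϑ irreducible characters of N that are invariant under conjugation by G, such that the pointwise product φ * ϑ is irreducible and ϑ is the restriction of an irreducible character χ of G. Then multiplication by χ is a bijection from the set of irreducible characters of G having nonzero inner product with the function induced from φ onto the set of those having nonzero inner product with the function induced from φ * ϑ. -/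
theorem result {G : Type*} [Group G] [Fintype G] (N : Subgroup G) [hN : N.Normal] (φ ϑ : N → ℂ) (hφ : Cfsg.IsIrrCharacter N φ) (hϑ : Cfsg.IsIrrCharacter N ϑ) (hφinv : ∀ (g : G) (n : N), φ ⟨g * n * g⁻¹, hN.conj_mem (n : G) n.2 g⟩ = φ n) (hϑinv : ∀ (g : G) (n : N), ϑ ⟨g * n * g⁻¹, hN.conj_mem (n : G) n.2 g⟩ = ϑ n) (hprod : Cfsg.IsIrrCharacter N (φ * ϑ)) (χ : G → ℂ) (hχ : Cfsg.IsIrrCharacter G χ) (hext : ∀ n : N, χ n = ϑ n) : Set.BijOn (fun β : G → ℂ => β * χ) {β : G → ℂ | Cfsg.IsIrrCharacter G β ∧ Cfsg.classInner (Cfsg.indFun N φ) β ≠ 0} {ψ : G → ℂ | Cfsg.IsIrrCharacter G ψ ∧ Cfsg.classInner (Cfsg.indFun N (φ * ϑ)) ψ ≠ 0} := by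
  classical
  have hfinI : Finite (Cfsg.IrrCharacter G) := (H18.CharOrtho.finite_irr_set (G := G)).to_subtype
  have : Fintype (Cfsg.IrrCharacter G) := Fintype.ofFinite _
  have hχ' := H18.CharBasic.isCharacter_of_isIrr hχ
  have hA : Cfsg.IsCharacter G (Cfsg.indFun N φ) :=
    H18.CharInd.isCharacter_ind N (H18.CharBasic.isCharacter_of_isIrr hφ)
  have hB : Cfsg.indFun N (φ * ϑ) = Cfsg.indFun N φ * χ := by
    rw [← H18.CharInd.indFun_mul_restrict N φ (H18.CharBasic.isClassFunction_of_isIrr hχ)]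
    congr 1
    funext x
    rw [Pi.mul_apply, hext]
  have hinert : ∀ ζ : N → ℂ, (∀ (g : G) (n : N), ζ ⟨g * n * g⁻¹, hN.conj_mem (n : G) n.2 g⟩ = ζ n) →
      H31.Clifford.inertia N ζ = ⊤ := by
    intro ζ hζ
    rw [eq_top_iff]
    intro g _
    rw [H31.Clifford.mem_inertia_iff]
    exact hζ g
  have hcardN : (Nat.card N : ℂ) ≠ 0 := H18.CharOrtho.card_ne_zero'
  have hnA := H31.Clifford.norm_ind N hφ
  rw [hinert φ hφinv] at hnA
  have hnB := H31.Clifford.norm_ind N hprod
  rw [hinert (φ * ϑ) (by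
    intro g n
    rw [Pi.mul_apply, Pi.mul_apply, hφinv, hϑinv])] at hnB
  have hnorm : Cfsg.classInner (Cfsg.indFun N φ * χ) (Cfsg.indFun N φ * χ) =
      Cfsg.classInner (Cfsg.indFun N φ) (Cfsg.indFun N φ) := by
    rw [← hB]
    exact mul_left_cancel₀ hcardN (hnB.trans hnA.symm)
  have hne0 : ∀ β : Cfsg.IrrCharacter G, (β : G → ℂ) * χ ≠ 0 := by
    intro β h
    have := congrFun h 1
    rw [Pi.mul_apply, Pi.zero_apply] at this
    rcases mul_eq_zero.1 this with h | h
    · exact H18.CharBasic.irr_one_ne_zero β.2 h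
    · exact H18.CharBasic.irr_one_ne_zero hχ h
  have key := core hχ' hne0 hA hnorm
  have hirr : ∀ β : G → ℂ, Cfsg.IsIrrCharacter G β → Cfsg.classInner (Cfsg.indFun N φ) β ≠ 0 →
      Cfsg.IsIrrCharacter G (β * χ) := by
    intro β hβ hne
    apply H18.CharOrtho.isIrr_of_norm_one
      (H18.CharBasic.isCharacter_mul (H18.CharBasic.isCharacter_of_isIrr hβ) hχ')
    have := key ⟨β, hβ⟩ ⟨β, hβ⟩ hne hne
    rwa [if_pos rfl] at this
  have hAe := H18.CharOrtho.mem_classFun_expand (H18.CharBasic.isClassFunction_of_isCharacter hA)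
  have hBe : ∀ ψ : G → ℂ, Cfsg.classInner (Cfsg.indFun N (φ * ϑ)) ψ =
      ∑ β : Cfsg.IrrCharacter G, Cfsg.classInner (Cfsg.indFun N φ) (β : G → ℂ) *
        Cfsg.classInner ((β : G → ℂ) * χ) ψ := by
    intro ψ
    rw [hB]
    conv_lhs => rw [hAe]
    rw [Finset.sum_mul, H18.CharOrtho.inner_sum_left]
    refine Finset.sum_congr rfl fun β _ => ?_
    rw [smul_mul_assoc, H18.CharOrtho.inner_smul_left]
  refine ⟨?_, ?_, ?_⟩
  · rintro β ⟨hβ, hne⟩
    refine ⟨hirr β hβ hne, ?_⟩
    show Cfsg.classInner (Cfsg.indFun N (φ * ϑ)) (β * χ) ≠ 0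
    rw [hBe, Finset.sum_eq_single (⟨β, hβ⟩ : Cfsg.IrrCharacter G)]
    · have := key ⟨β, hβ⟩ ⟨β, hβ⟩ hne hne
      rw [if_pos rfl] at this
      rw [this, mul_one]
      exact hne
    · intro γ _ hγ
      by_cases h0 : Cfsg.classInner (Cfsg.indFun N φ) (γ : G → ℂ) = 0
      · rw [h0, zero_mul]
      · have := key γ ⟨β, hβ⟩ h0 hne
        rw [if_neg hγ] at this
        rw [this, mul_zero]
    · intro h; exact absurd (Finset.mem_univ _) h
  · rintro β ⟨hβ, hne⟩ γ ⟨hγ, hne'⟩ heq
    simp only at heq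
    by_contra hcon
    have h1 := key ⟨β, hβ⟩ ⟨γ, hγ⟩ hne hne'
    rw [if_neg (fun h => hcon (congrArg Subtype.val h))] at h1
    have h2 := key ⟨β, hβ⟩ ⟨β, hβ⟩ hne hne
    rw [if_pos rfl] at h2
    simp only at h1 h2
    rw [← heq] at h1
    rw [h1] at h2
    exact zero_ne_one h2
  · rintro ψ ⟨hψ, hne⟩
    rw [hBe] at hne
    obtain ⟨β, _, hβ⟩ := Finset.exists_ne_zero_of_sum_ne_zero hne
    have h1 : Cfsg.classInner (Cfsg.indFun N φ) (β : G → ℂ) ≠ 0 := left_ne_zero_of_mul hβ
    have h2 := right_ne_zero_of_mul hβ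
    refine ⟨β, ⟨β.2, h1⟩, ?_⟩
    by_contra hcon
    exact h2 (H18.CharOrtho.inner_irr_ne (hirr β β.2 h1) hψ hcon)

end Cfsg.Agent.S0856
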