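import Cfsg.Statements.S0979
import Mathlib
import Cfsg.Agent.Lib.H21.BrauerNum

set_option autoImplicit false
open Cfsg

namespace Cfsg.Agent.S0979

/-- No finite simple group has order 5472 = 2^5 * 3^2 * 19. -/
theorem result {G : Type*} [Group G] [Finite G] [IsSimpleGroup G] : Nat.card G ≠ 5472 := by
  have := Fintype.ofFinite G
  exact H21.BrauerNum.not_5472

end Cfsg.Agent.S0979
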