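import Cfsg.Statements.S0980
import Mathlib
import Cfsg.Agent.Lib.H21.NE4

set_option autoImplicit false
open Cfsg

namespace Cfsg.Agent.S0980

/-- No finite simple group has order 5760 = 2^7 * 3^2 * 5. -/
theorem result {G : Type*} [Group G] [Finite G] [IsSimpleGroup G] : Nat.card G ≠ 5760 := by
  intro hN
  have h5 : Fact (Nat.Prime 5) := ⟨by norm_num⟩
  refine H21.NE.no_order hN (by norm_num) 5 76 [(2, 128)] ?_ ?_
  · intro x hx
    rw [List.mem_singleton] at hx
    rw [hx]
    exact Nat.prime_two
  · decide +kernel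

end Cfsg.Agent.S0980
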