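import Cfsg.Statements.S1153
import Cfsg.Agent.Lib.H24.ReeSyl

set_option autoImplicit false
open Cfsg

namespace Cfsg.Agent.S1153

open H24.ReeStr H24.ReeAct H24.ReeInt H24.ReeSub H24.ReeUni in
theorem three_aux {K : Type*} [Field K] {e : ℕ} [H24.ReeGrp.RF K e] [Finite K] {p q r : Pt K} (h1 : p ≠ q) (h2 : p ≠ r)
    (h3 : q ≠ r) (S : Subgroup (G1 K e)) (hS : ∀ g ∈ S, g • p = p ∧ g • q = q ∧ g • r = r) : Nat.card S ≤ 2 := by
  classical
  obtain ⟨g, g1, g2⟩ := two_trans (K := K) (e := e) h1 (show (none : Pt K) ≠ o0 by simp)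
  rcases hr : g • r with _ | ⟨t, u, v⟩
  · rw [← g1] at hr
    exact absurd (MulAction.injective g hr).symm h2
  · have hne : (t, u, v) ≠ ((0 : K), (0 : K), (0 : K)) := by
      intro h
      rw [h] at hr
      have : g • r = g • q := by rw [hr, g2]
      exact h3 (MulAction.injective g this).symm
    have key : ∀ x ∈ S, g * x * g⁻¹ = 1 ∨ g * x * g⁻¹ = hT (-1) := by
      intro x hx
      obtain ⟨a, b, c⟩ := hS x hx
      have gi1 : g⁻¹ • (none : Pt K) = p := by rw [inv_smul_eq_iff, g1]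
      have gi2 : g⁻¹ • (o0 : Pt K) = q := by rw [inv_smul_eq_iff, g2]
      have gi3 : g⁻¹ • (some (t, u, v) : Pt K) = r := by rw [inv_smul_eq_iff, hr]
      have k1 : (g * x * g⁻¹) • (none : Pt K) = none := by rw [mul_smul, mul_smul, gi1, a, g1]
      have k2 : (g * x * g⁻¹) • (o0 : Pt K) = o0 := by rw [mul_smul, mul_smul, gi2, b, g2]
      have k3 : (g * x * g⁻¹) • (some (t, u, v) : Pt K) = some (t, u, v) := by rw [mul_smul, mul_smul, gi3, c, hr]
      rcases three_pt k1 k2 hne k3 with h | h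
      · exact Or.inl h
      · exact Or.inr h.1
    have hinj : Function.Injective (fun x : S => (⟨g * x * g⁻¹, by
        rcases key x x.2 with h | h
        · rw [h]; simp
        · rw [h]; simp⟩ : ({1, hT (-1)} : Set (G1 K e)))) := by
      intro x y hxy
      have := congrArg Subtype.val hxy
      simp only at this
      exact Subtype.ext (mul_left_cancel (mul_right_cancel this))
    have h5 := Nat.card_le_card_of_injective _ hinj
    refine h5.trans ?_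
    have : Nat.card ({1, hT (-1)} : Set (G1 K e)) = ({1, hT (-1)} : Set (G1 K e)).ncard := rfl
    rw [this]
    have h6 := Set.ncard_insert_le (1 : G1 K e) {hT (-1)}
    rw [Set.ncard_singleton] at h6
    exact h6

open H24.ReeStr H24.ReeAct H24.ReeInt H24.ReeSub H24.ReeUni in
theorem stab_coset {K : Type*} [Field K] {e : ℕ} [H24.ReeGrp.RF K e] [Finite K] (g x : G1 K e) :
    x ∈ MulAction.stabilizer ↥(Cfsg.Lie.twistedG2 K e) (QuotientGroup.mk g : ↥(Cfsg.Lie.twistedG2 K e) ⧸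
      ((Cfsg.Lie.chevG2.borelSubgroup K ⊓ Cfsg.Lie.twistedG2 K e)).subgroupOf (Cfsg.Lie.twistedG2 K e)) ↔
      x • (g • (none : Pt K)) = g • (none : Pt K) := by
  rw [MulAction.mem_stabilizer_iff, MulAction.Quotient.smul_mk, eq_comm, QuotientGroup.eq, Subgroup.mem_subgroupOf,
    Subgroup.mem_inf]
  rw [smul_eq_mul]
  rw [show ((g⁻¹ * (x * g) : G1 K e) : GL Cfsg.Lie.chevG2.Idx K) ∈ Cfsg.Lie.chevG2.borelSubgroup K ∧
    ((g⁻¹ * (x * g) : G1 K e) : GL Cfsg.Lie.chevG2.Idx K) ∈ Cfsg.Lie.twistedG2 K e ↔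
    ((g⁻¹ * (x * g) : G1 K e) : GL Cfsg.Lie.chevG2.Idx K) ∈ Cfsg.Lie.chevG2.borelSubgroup K from
    ⟨fun h => h.1, fun h => ⟨h, (g⁻¹ * (x * g) : G1 K e).2⟩⟩, mem_B_iff, mul_smul, mul_smul, inv_smul_eq_iff]

open H24.ReeStr H24.ReeAct H24.ReeInt H24.ReeSub H24.ReeUni in
theorem ne_coset {K : Type*} [Field K] {e : ℕ} [H24.ReeGrp.RF K e] [Finite K] (g x : G1 K e) :
    (QuotientGroup.mk g : ↥(Cfsg.Lie.twistedG2 K e) ⧸
      ((Cfsg.Lie.chevG2.borelSubgroup K ⊓ Cfsg.Lie.twistedG2 K e)).subgroupOf (Cfsg.Lie.twistedG2 K e)) = QuotientGroup.mk x ↔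
      g • (none : Pt K) = x • (none : Pt K) := by
  rw [QuotientGroup.eq, Subgroup.mem_subgroupOf, Subgroup.mem_inf]
  rw [show ((g⁻¹ * x : G1 K e) : GL Cfsg.Lie.chevG2.Idx K) ∈ Cfsg.Lie.chevG2.borelSubgroup K ∧
    ((g⁻¹ * x : G1 K e) : GL Cfsg.Lie.chevG2.Idx K) ∈ Cfsg.Lie.twistedG2 K e ↔
    ((g⁻¹ * x : G1 K e) : GL Cfsg.Lie.chevG2.Idx K) ∈ Cfsg.Lie.chevG2.borelSubgroup K from
    ⟨fun h => h.1, fun h => ⟨h, (g⁻¹ * x : G1 K e).2⟩⟩, mem_B_iff, mul_smul, inv_smul_eq_iff]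
  exact eq_comm

/-- In the small Ree group ²G₂(q), q = 3^(2m+1), realised as G¹ inside the Chevalley group G₂ over the field with q elements, with `B¹ = G¹ ∩ B`: in the action of `G¹` on the cosets of `B¹`, the joint stabiliser of any three distinct cosets has order at most 2, and for some three distinct cosets it has order exactly 2. -/
theorem result {K : Type*} [Field K] [Fintype K] {m : ℕ} (hK : Fintype.card K = 3 ^ (2 * m + 1)) :
    (∀ x y z : ↥(Cfsg.Lie.twistedG2 K (3 ^ m)) ⧸ ((Cfsg.Lie.chevG2.borelSubgroup K ⊓ Cfsg.Lie.twistedG2 K (3 ^ m))).subgroupOf (Cfsg.Lie.twistedG2 K (3 ^ m)), x ≠ y → x ≠ z → y ≠ z →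
        Nat.card ↥(MulAction.stabilizer ↥(Cfsg.Lie.twistedG2 K (3 ^ m)) x ⊓ MulAction.stabilizer ↥(Cfsg.Lie.twistedG2 K (3 ^ m)) y ⊓ MulAction.stabilizer ↥(Cfsg.Lie.twistedG2 K (3 ^ m)) z) ≤ 2) ∧
      ∃ x y z : ↥(Cfsg.Lie.twistedG2 K (3 ^ m)) ⧸ ((Cfsg.Lie.chevG2.borelSubgroup K ⊓ Cfsg.Lie.twistedG2 K (3 ^ m))).subgroupOf (Cfsg.Lie.twistedG2 K (3 ^ m)), x ≠ y ∧ x ≠ z ∧ y ≠ z ∧
        Nat.card ↥(MulAction.stabilizer ↥(Cfsg.Lie.twistedG2 K (3 ^ m)) x ⊓ MulAction.stabilizer ↥(Cfsg.Lie.twistedG2 K (3 ^ m)) y ⊓ MulAction.stabilizer ↥(Cfsg.Lie.twistedG2 K (3 ^ m)) z) = 2 := by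
  haveI := H24.ReeGrp.rf_of_card hK
  refine ⟨?_, ?_⟩
  · intro x y z hxy hxz hyz
    obtain ⟨a, rfl⟩ := QuotientGroup.mk_surjective x
    obtain ⟨b, rfl⟩ := QuotientGroup.mk_surjective y
    obtain ⟨c, rfl⟩ := QuotientGroup.mk_surjective z
    refine three_aux (K := K) (e := 3 ^ m) (p := (a : H24.ReeStr.G1 K (3 ^ m)) • (none : H24.ReeAct.Pt K))
      (q := (b : H24.ReeStr.G1 K (3 ^ m)) • (none : H24.ReeAct.Pt K))
      (r := (c : H24.ReeStr.G1 K (3 ^ m)) • (none : H24.ReeAct.Pt K))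
      (fun h => hxy ((ne_coset a b).2 h)) (fun h => hxz ((ne_coset a c).2 h)) (fun h => hyz ((ne_coset b c).2 h)) _ ?_
    rintro g hg
    rw [Subgroup.mem_inf, Subgroup.mem_inf, stab_coset, stab_coset, stab_coset] at hg
    exact ⟨hg.1.1, hg.1.2, hg.2⟩
  · obtain ⟨a, ha⟩ := H24.ReeStr.trans_pt (K := K) (e := 3 ^ m) none none
    obtain ⟨b, hb⟩ := H24.ReeStr.trans_pt (K := K) (e := 3 ^ m) none H24.ReeStr.o0
    obtain ⟨c, hc⟩ := H24.ReeStr.trans_pt (K := K) (e := 3 ^ m) none (some (0, 1, 0))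
    have n1 : (none : H24.ReeAct.Pt K) ≠ H24.ReeStr.o0 := by simp
    have n2 : (none : H24.ReeAct.Pt K) ≠ some (0, 1, 0) := by simp
    have n3 : (H24.ReeStr.o0 : H24.ReeAct.Pt K) ≠ some (0, 1, 0) := by simp
    refine ⟨QuotientGroup.mk a, QuotientGroup.mk b, QuotientGroup.mk c, ?_, ?_, ?_, ?_⟩
    · rw [Ne, ne_coset, ha, hb]; exact n1
    · rw [Ne, ne_coset, ha, hc]; exact n2
    · rw [Ne, ne_coset, hb, hc]; exact n3
    · apply le_antisymm
      · refine three_aux (K := K) (e := 3 ^ m) n1 n2 n3 _ ?_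
        rintro g hg
        rw [Subgroup.mem_inf, Subgroup.mem_inf, stab_coset, stab_coset, stab_coset, ha, hb, hc] at hg
        exact ⟨hg.1.1, hg.1.2, hg.2⟩
      · have h2 : Nat.card (Subgroup.zpowers (H24.ReeStr.hT (-1) : H24.ReeStr.G1 K (3 ^ m))) = 2 := by
          rw [Nat.card_zpowers]
          apply orderOf_eq_prime
          · rw [pow_two, ← H24.ReeStr.hT_mul]
            have : (-1 : Kˣ) * -1 = 1 := by simp
            rw [this]
            exact map_one (H24.ReeStr.hTH (K := K) (e := 3 ^ m))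
          · intro h
            have h1 : (H24.ReeStr.hT (-1) : H24.ReeStr.G1 K (3 ^ m)) = H24.ReeStr.hT 1 :=
              h.trans (map_one (H24.ReeStr.hTH (K := K) (e := 3 ^ m))).symm
            have h2 := congrArg Units.val (H24.ReeStr.hT_inj h1)
            simp only [Units.val_neg, Units.val_one] at h2
            have h3 := H24.ReeUni.three0 (K := K) (e := 3 ^ m)
            have : (1 : K) = 0 := by linear_combination h3 + h2
            exact one_ne_zero this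
        rw [← h2]
        apply Subgroup.card_le_of_le
        rw [Subgroup.zpowers_le, Subgroup.mem_inf, Subgroup.mem_inf, stab_coset, stab_coset, stab_coset, ha, hb, hc]
        exact ⟨⟨(H24.ReeStr.hT_fix (-1)).1, (H24.ReeStr.hT_fix (-1)).2.1⟩, H24.ReeUni.hT_neg_one 1⟩

end Cfsg.Agent.S1153
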