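import Cfsg.Statements.S1316
import Cfsg.Agent.Lib.H26.GenFitting

set_option autoImplicit false
open Cfsg

namespace Cfsg.Agent.S1316

theorem result {X : Type*} [Group X] [Finite X] : (⨅ n : ℕ, (derivedSeries ↥(Cfsg.generalizedFittingSubgroup X) n).map (Cfsg.generalizedFittingSubgroup X).subtype) = Cfsg.layer X := by
  apply le_antisymm
  · set F := generalizedFittingSubgroup X with hF
    set E := (layer X).subgroupOf F with hE
    have hEF : layer X ≤ F := H26.Components.layer_le_gFitting
    have hEn : (layer X).Normal := inferInstance
    have hEn' : E.Normal := inferInstance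
    have hFn : Group.IsNilpotent (fittingSubgroup X) := H1.Cores.isNilpotent_fittingSubgroup
    have hs : Group.IsSolvable (F ⧸ E) := by
      have hFs : Group.IsSolvable (fittingSubgroup X) := inferInstance
      refine Group.isSolvable_of_surjective (f := (QuotientGroup.mk' E).comp
        (Subgroup.inclusion (H26.Components.fitting_le_gFitting (G := X)))) ?_
      intro x
      obtain ⟨⟨y, hy⟩, rfl⟩ := QuotientGroup.mk'_surjective _ x
      obtain ⟨a, ha, b, hb, rfl⟩ := H26.Components.mem_gFitting_iff.mp hy
      refine ⟨⟨b, hb⟩, ?_⟩
      simp only [MonoidHom.coe_comp, Function.comp_apply]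
      rw [QuotientGroup.mk'_apply, QuotientGroup.mk'_apply, QuotientGroup.eq]
      rw [hE, Subgroup.mem_subgroupOf]
      have : b⁻¹ * (a * b) ∈ layer X := by
        have := hEn.conj_mem a ha b⁻¹
        rw [inv_inv] at this
        rw [← mul_assoc]; exact this
      exact this
    obtain ⟨n, hn⟩ := hs.solvable
    refine (iInf_le _ n).trans ?_
    have h1 : (derivedSeries F n).map (QuotientGroup.mk' E) ≤ ⊥ := by
      rw [← hn]
      exact map_derivedSeries_le_derivedSeries _ _
    rw [le_bot_iff, Subgroup.map_eq_bot_iff, QuotientGroup.ker_mk'] at h1
    have h2 := Subgroup.map_mono (f := F.subtype) h1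
    rwa [hE, Subgroup.map_subgroupOf_eq_of_le hEF] at h2
  · refine le_iInf fun n => ?_
    set F := generalizedFittingSubgroup X with hF
    have hEF : layer X ≤ F := H26.Components.layer_le_gFitting
    have h1 : (layer X).subgroupOf F ≤ derivedSeries F n := by
      induction n with
      | zero => exact le_top
      | succ n ih =>
        rw [derivedSeries_succ]
        have h2 : (layer X).subgroupOf F = ⁅(layer X).subgroupOf F, (layer X).subgroupOf F⁆ := by
          apply Subgroup.map_injective F.subtype_injective
          rw [Subgroup.map_commutator, Subgroup.map_subgroupOf_eq_of_le hEF,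
            H26.Components.commutator_layer_self]
        rw [h2]
        exact Subgroup.commutator_mono ih ih
    have h2 := Subgroup.map_mono (f := F.subtype) h1
    rwa [Subgroup.map_subgroupOf_eq_of_le hEF] at h2

end Cfsg.Agent.S1316
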