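import Cfsg.Statements.S1312
import Cfsg.Agent.Lib.H27.CompAct
import Cfsg.Agent.S1316

set_option autoImplicit false
open Cfsg

namespace Cfsg.Agent.S1312

open Subgroup H26.Basic H26.LocalFitting H1.Coprime H1.Coprime2 H27.CompAct
open scoped Pointwise commutatorElement

variable {G : Type*} [Group G] [Finite G]

/-- the Fitting subgroup of `M` in `G` -/
def fitt (M : Subgroup G) : Subgroup G := (fittingSubgroup M).map M.subtype

theorem fitt_le (M : Subgroup G) : fitt M ≤ M := Subgroup.map_subtype_le _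

theorem pc_le_fitt {p : ℕ} [Fact p.Prime] (M : Subgroup G) : pc p M ≤ fitt M :=
  Subgroup.map_mono (H1.Cores.pCore_le_fittingSubgroup p)

theorem nilp_le_fitt {M W : Subgroup G} (hW : W ≤ M) (hn : M ≤ normalizer (W : Set G))
    (hnil : Group.IsNilpotent W) : W ≤ fitt M := by
  have h1 : (W.subgroupOf M).Normal := (normal_subgroupOf_iff_le_normalizer hW).mpr hn
  have h2 : Group.IsNilpotent (W.subgroupOf M) :=
    Group.nilpotent_of_mulEquiv (Subgroup.subgroupOfEquivOfLe hW).symm
  have h3 := Subgroup.map_mono (f := M.subtype) (H1.Cores.le_fittingSubgroup h1 h2)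
  rwa [Subgroup.map_subgroupOf_eq_of_le hW] at h3

theorem le_pc_of_le_fitt {p : ℕ} [hp : Fact p.Prime] {M W : Subgroup G} (hW : IsPGroup p W)
    (h : W ≤ fitt M) : W ≤ pc p M := by
  have hWM := h.trans (fitt_le M)
  have h1 : W.subgroupOf M ≤ fittingSubgroup M := by
    have h2 := Subgroup.comap_mono (f := M.subtype) h
    rwa [fitt, Subgroup.comap_map_eq_self_of_injective M.subtype_injective] at h2
  set F := fittingSubgroup M with hF
  have hnil : Group.IsNilpotent F := H1.Cores.isNilpotent_fittingSubgroup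
  have h2 : IsPGroup p ((W.subgroupOf M).subgroupOf F) := (hW.comap_subtype).comap_subtype
  obtain ⟨P, hP⟩ := h2.exists_le_sylow
  have hPn : (P : Subgroup F).Normal := by
    have := (Group.isNilpotent_of_finite_tfae (G := F)).out 0 3
    exact (this.mp hnil) p hp P
  have h3 : (W.subgroupOf M).subgroupOf F ≤ pCore p F := hP.trans (H1.Cores.le_pCore hPn P.2)
  have h4 := Subgroup.map_mono (f := F.subtype) h3
  rw [Subgroup.map_subgroupOf_eq_of_le h1, H1.Cores.map_subtype_pCore] at h4
  have h5 := Subgroup.map_mono (f := M.subtype) (h4.trans inf_le_right)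
  rwa [Subgroup.map_subgroupOf_eq_of_le hWM] at h5

/-- a perfect subgroup of `F*` lies in the layer -/
theorem perfect_le_layer {X : Type*} [Group X] [Finite X] {K : Subgroup X} (hK : ⁅K, K⁆ = K)
    (h : K ≤ generalizedFittingSubgroup X) : K ≤ layer X := by
  rw [← Cfsg.Agent.S1316.result (X := X)]
  refine le_iInf fun n => ?_
  set F := generalizedFittingSubgroup X
  have h1 : K.subgroupOf F ≤ derivedSeries F n := by
    induction n with
    | zero => exact le_top
    | succ n ih =>
      rw [derivedSeries_succ]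
      have h2 : K.subgroupOf F = ⁅K.subgroupOf F, K.subgroupOf F⁆ := by
        apply Subgroup.map_injective F.subtype_injective
        rw [Subgroup.map_commutator, Subgroup.map_subgroupOf_eq_of_le h, hK]
      rw [h2]
      exact Subgroup.commutator_mono ih ih
  have h2 := Subgroup.map_mono (f := F.subtype) h1
  rwa [Subgroup.map_subgroupOf_eq_of_le h] at h2

/-- half of the component step -/
theorem layer_le {M N : Subgroup G}
    (h1 : (generalizedFittingSubgroup M).map M.subtype ≤ N)
    (h2 : (generalizedFittingSubgroup N).map N.subtype ≤ M) :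
    (layer M).map M.subtype ≤ (layer N).map N.subtype := by
  rw [layer, sSup_eq_iSup', Subgroup.map_iSup]
  refine iSup_le fun ⟨K₀, hK₀⟩ => ?_
  have hK : CompIn M (K₀.map M.subtype) := compIn_map_subtype.mpr hK₀
  set K := K₀.map M.subtype with hKdef
  set FN := (generalizedFittingSubgroup N).map N.subtype with hFN
  have hKN : K ≤ N := (Subgroup.map_mono (H26.Components.component_le_gFitting hK₀)).trans h1
  have hNFN : N ≤ normalizer (FN : Set G) :=
    Subgroup.le_normalizer.trans (normalizer_le_normalizer_map_char N _)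
  have hKF : K ≤ FN := by
    have h3 : K.subgroupOf M ≤ normalizer ((FN.subgroupOf M : Subgroup M) : Set M) := by
      apply le_normalizer_of_conj_mem
      intro a ha x hx
      exact conj_mem_of_le_normalizer (hKN.trans hNFN) ha hx
    rcases H26.Components.le_or_commutator_eq_bot_of_le_normalizer hK.2 h3 with h4 | h4
    · have h5 := Subgroup.map_mono (f := M.subtype) h4
      rwa [Subgroup.map_subgroupOf_eq_of_le hK.1, Subgroup.map_subgroupOf_eq_of_le h2] at h5
    · have h5 := (subgroupOf_commutator_eq_bot_iff hK.1 h2).mp h4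
      -- `K` centralizes `F*(N)`
      have h6 : K.subgroupOf N ≤ centralizer (generalizedFittingSubgroup N : Set N) := by
        rw [← Subgroup.commutator_eq_bot_iff_le_centralizer]
        have h7 : ⁅(K.subgroupOf N).map N.subtype,
            (generalizedFittingSubgroup N).map N.subtype⁆ = ⊥ := by
          rw [Subgroup.map_subgroupOf_eq_of_le hKN]; exact h5
        exact (map_commutator_eq_bot_iff N.subtype N.subtype_injective).mp h7
      have h7 := Subgroup.map_mono (f := N.subtype)
        (h6.trans H26.Components.centralizer_gFitting_le)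
      rwa [Subgroup.map_subgroupOf_eq_of_le hKN] at h7
  have h3 : K.subgroupOf N ≤ generalizedFittingSubgroup N := by
    have h4 := Subgroup.comap_mono (f := N.subtype) hKF
    rwa [hFN, Subgroup.comap_map_eq_self_of_injective N.subtype_injective] at h4
  have h4 : ⁅K.subgroupOf N, K.subgroupOf N⁆ = K.subgroupOf N := by
    apply Subgroup.map_injective N.subtype_injective
    rw [Subgroup.map_commutator, Subgroup.map_subgroupOf_eq_of_le hKN, hK.perfect]
  have h5 := Subgroup.map_mono (f := N.subtype) (perfect_le_layer h4 h3)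
  rwa [Subgroup.map_subgroupOf_eq_of_le hKN] at h5

/-- a subgroup of `M` commuting with all `O_q(M)` lies in `F(M)` if `E(M) = 1`. -/
theorem le_fitt_of_comm {M W : Subgroup G} (hE : layer M = ⊥) (hW : W ≤ M)
    (h : ∀ q : ℕ, q.Prime → ⁅W, pc q M⁆ = ⊥) : W ≤ fitt M := by
  have h1 : W.subgroupOf M ≤ centralizer (fittingSubgroup M : Set M) := by
    rw [← Subgroup.commutator_eq_bot_iff_le_centralizer, Subgroup.commutator_comm,
      H1.Cores.fittingSubgroup_eq_iSup_pCore]
    refine commutator_iSup_left_eq_bot fun q => ?_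
    rw [Subgroup.commutator_comm]
    have h2 : ⁅(W.subgroupOf M).map M.subtype, (pCore (q : ℕ) M).map M.subtype⁆ = ⊥ := by
      rw [Subgroup.map_subgroupOf_eq_of_le hW]; exact h q q.2
    exact (map_commutator_eq_bot_iff M.subtype M.subtype_injective).mp h2
  have h2 := H26.Components.centralizer_gFitting_le (G := M)
  rw [generalizedFittingSubgroup, hE, bot_sup_eq] at h2
  have h3 := Subgroup.map_mono (f := M.subtype) (h1.trans h2)
  rwa [Subgroup.map_subgroupOf_eq_of_le hW] at h3

/-- data for a pair of subgroups -/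
structure Pair (M N : Subgroup G) : Prop where
  hEM : layer M = ⊥
  hEN : layer N = ⊥
  hMN : fitt M ≤ N
  hNM : fitt N ≤ M
  /-- nontrivial normal subgroups of `M` have normalizer `M` -/
  hM : ∀ W : Subgroup G, W ≠ ⊥ → W ≤ M → M ≤ normalizer (W : Set G) →
    normalizer (W : Set G) = M
  hN : ∀ W : Subgroup G, W ≠ ⊥ → W ≤ N → N ≤ normalizer (W : Set G) →
    normalizer (W : Set G) = N

theorem Pair.symm {M N : Subgroup G} (h : Pair M N) : Pair N M :=
  ⟨h.hEN, h.hEM, h.hNM, h.hMN, h.hN, h.hM⟩

theorem Pair.comm_pc {M N : Subgroup G} (h : Pair M N) {p q : ℕ} [Fact p.Prime] [Fact q.Prime]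
    (hpq : p ≠ q) : ⁅pc p M, pc q N⁆ = ⊥ := by
  have h1 : pc p M ≤ N := (pc_le_fitt M).trans h.hMN
  have h2 : pc q N ≤ M := (pc_le_fitt N).trans h.hNM
  have hp : p.Prime := Fact.out
  have hq : q.Prime := Fact.out
  apply commutator_eq_bot_of_coprime (isPGroup_pc p M) ?_ (h1.trans (le_normalizer_pc q N))
    (h2.trans (le_normalizer_pc p M))
  obtain ⟨n, hn⟩ := IsPGroup.iff_card.mp (isPGroup_pc q N)
  rw [hn]
  exact Nat.Coprime.pow_left n ((Nat.coprime_primes hq hp).mpr hpq.symm)

theorem comm_pc_self (M : Subgroup G) {p q : ℕ} [Fact p.Prime] [Fact q.Prime]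
    (hpq : p ≠ q) : ⁅pc p M, pc q M⁆ = ⊥ := by
  have hp : p.Prime := Fact.out
  have hq : q.Prime := Fact.out
  apply commutator_eq_bot_of_coprime (isPGroup_pc p M) ?_ ((pc_le p M).trans (le_normalizer_pc q M))
    ((pc_le q M).trans (le_normalizer_pc p M))
  obtain ⟨n, hn⟩ := IsPGroup.iff_card.mp (isPGroup_pc q M)
  rw [hn]
  exact Nat.Coprime.pow_left n ((Nat.coprime_primes hq hp).mpr hpq.symm)

theorem Pair.ne_bot {M N : Subgroup G} (h : Pair M N) {p : ℕ} [hp : Fact p.Prime]
    (h1 : pc p M ≠ ⊥) : pc p N ≠ ⊥ := by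
  intro h2
  apply h1
  have h3 : pc p M ≤ fitt N := by
    apply le_fitt_of_comm h.hEN ((pc_le_fitt M).trans h.hMN)
    intro q hq
    have : Fact q.Prime := ⟨hq⟩
    by_cases hpq : p = q
    · subst hpq
      rw [h2, Subgroup.commutator_bot_right]
    · exact h.comm_pc hpq
  have h4 := le_pc_of_le_fitt (isPGroup_pc p M) h3
  rw [h2] at h4
  exact le_bot_iff.mp h4

theorem Pair.pc_le_inf {M N : Subgroup G} (h : Pair M N) {p : ℕ} [hp : Fact p.Prime] :
    pc p M ≤ pc p (M ⊓ N) :=
  le_pc (le_inf (pc_le p M) ((pc_le_fitt M).trans h.hMN))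
    (inf_le_left.trans (le_normalizer_pc p M)) (isPGroup_pc p M)

theorem Pair.pc_le_inf' {M N : Subgroup G} (h : Pair M N) {p : ℕ} [hp : Fact p.Prime] :
    pc p N ≤ pc p (M ⊓ N) := by
  rw [inf_comm]; exact h.symm.pc_le_inf

theorem Pair.normalizer_pc {M N : Subgroup G} (h : Pair M N) {p : ℕ} [hp : Fact p.Prime]
    (h1 : pc p M ≠ ⊥) : normalizer (pc p M : Set G) = M :=
  h.hM _ h1 (pc_le p M) (le_normalizer_pc p M)

theorem Pair.centralizer_le {M N : Subgroup G} (h : Pair M N) {p : ℕ} [hp : Fact p.Prime]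
    (h1 : pc p M ≠ ⊥) : centralizer (pc p (M ⊓ N) : Set G) ≤ M ⊓ N := by
  apply le_inf
  · refine (Subgroup.centralizer_le h.pc_le_inf).trans ?_
    exact (Subgroup.centralizer_le_normalizer _).trans (h.normalizer_pc h1).le
  · refine (Subgroup.centralizer_le h.pc_le_inf').trans ?_
    exact (Subgroup.centralizer_le_normalizer _).trans (h.symm.normalizer_pc (h.ne_bot h1)).le

/-- `N_G(O_p(D)) ≤ N_G(O_q(D))` -/
theorem Pair.norm_le {M N : Subgroup G} (h : Pair M N) {p q : ℕ} [hp : Fact p.Prime]
    [hq : Fact q.Prime] (hpq : p ≠ q) (h1 : pc p M ≠ ⊥) :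
    normalizer (pc p (M ⊓ N) : Set G) ≤ normalizer (pc q (M ⊓ N) : Set G) := by
  set D := M ⊓ N with hD
  set C := centralizer (pc p D : Set G) with hC
  have hCD : C ≤ D := h.centralizer_le h1
  have hDC : D ≤ normalizer (C : Set G) := le_normalizer_centralizer (le_normalizer_pc p D)
  have h2 : pc q D ≤ C := by
    rw [hC, ← Subgroup.commutator_eq_bot_iff_le_centralizer]
    exact comm_pc_self D hpq.symm
  have h3 : pc q C = pc q D := by
    apply le_antisymm
    · exact le_pc ((pc_le q C).trans hCD) (hDC.trans (normalizer_le_normalizer_pc q C))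
        (isPGroup_pc q C)
    · exact le_pc h2 (hCD.trans (le_normalizer_pc q D)) (isPGroup_pc q D)
  rw [← h3]
  exact (le_normalizer_centralizer le_rfl).trans (normalizer_le_normalizer_pc q C)

/-- the main step: `O_p(M ∩ N) = O_p(M)` if two primes divide `|F(M)|`. -/
theorem Pair.pc_inf_le {M N : Subgroup G} (h : Pair M N) {p q : ℕ} [hp : Fact p.Prime]
    [hq : Fact q.Prime] (hpq : p ≠ q) (h1 : pc p M ≠ ⊥) (h2 : pc q M ≠ ⊥) :
    pc p (M ⊓ N) ≤ pc p M := by
  set D := M ⊓ N with hD
  -- `A r = C(O_{r'}(F(M)))`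
  let A : ℕ → Subgroup G := fun r => ⨅ s : {s : ℕ // s.Prime ∧ s ≠ r}, centralizer (pc s M : Set G)
  have hA : ∀ r s : ℕ, s.Prime → s ≠ r → A r ≤ centralizer (pc s M : Set G) := fun r s hs hsr =>
    iInf_le (fun s : {s : ℕ // s.Prime ∧ s ≠ r} => centralizer (pc s M : Set G)) ⟨s, hs, hsr⟩
  have hApM : A p ≤ M := (hA p q hq.out hpq.symm).trans
    ((Subgroup.centralizer_le_normalizer _).trans (h.normalizer_pc h2).le)
  have hAqM : A q ≤ M := (hA q p hp.out hpq).trans
    ((Subgroup.centralizer_le_normalizer _).trans (h.normalizer_pc h1).le)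
  have hMA : ∀ r, M ≤ normalizer (A r : Set G) := by
    intro r
    apply le_normalizer_of_conj_mem
    intro m hm x hx
    simp only [A, Subgroup.mem_iInf] at hx ⊢
    intro s
    exact conj_mem_of_le_normalizer (le_normalizer_centralizer (le_normalizer_pc s M)) hm (hx s)
  have hDA : ∀ r : ℕ, r.Prime → pc r D ≤ A r := by
    intro r hr
    have : Fact r.Prime := ⟨hr⟩
    refine le_iInf fun ⟨s, hs, hsr⟩ => ?_
    have : Fact s.Prime := ⟨hs⟩
    rw [← Subgroup.commutator_eq_bot_iff_le_centralizer]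
    exact commutator_eq_bot_mono (comm_pc_self D hsr.symm) le_rfl h.pc_le_inf
  -- `[A p, A q] ≤ F(M)`
  have hAA : ⁅A p, A q⁆ ≤ fitt M := by
    have h3 : ⁅A p, A q⁆ ≤ A p ⊓ A q :=
      le_inf (Subgroup.le_normalizer_iff_commutator_le_left.mp (hAqM.trans (hMA p)))
        (Subgroup.le_normalizer_iff_commutator_le_right.mp (hApM.trans (hMA q)))
    refine h3.trans ?_
    apply le_fitt_of_comm h.hEM (inf_le_left.trans hApM)
    intro s hs
    rw [Subgroup.commutator_eq_bot_iff_le_centralizer]
    by_cases hsp : s = p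
    · subst hsp
      exact inf_le_right.trans (hA q s hs hpq)
    · exact inf_le_left.trans (hA p s hs hsp)
  have hMD : fitt M ≤ fitt D := by
    have h3 : fitt M ≤ D := le_inf (fitt_le M) h.hMN
    have hch : (fittingSubgroup M).Characteristic := H1.Cores.fittingSubgroup_characteristic
    refine nilp_le_fitt h3 (inf_le_left.trans (Subgroup.le_normalizer.trans
      (normalizer_le_normalizer_map_char M _))) ?_
    have : Group.IsNilpotent (fittingSubgroup M) := H1.Cores.isNilpotent_fittingSubgroup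
    exact Group.nilpotent_of_mulEquiv
      ((fittingSubgroup M).equivMapOfInjective M.subtype M.subtype_injective)
  -- `A p` normalizes `O_q(D)`
  have hnorm : A p ≤ normalizer (pc q D : Set G) := by
    have h3 : ∀ x ∈ A p, MulAut.conj x • pc q D ≤ pc q D := by
      intro x hx
      refine le_pc_of_le_fitt (W := MulAut.conj x • pc q D) ((isPGroup_pc q D).map _) ?_
      intro y hy
      rw [H1.SZ.mem_conj_smul] at hy
      have h4 : ⁅x, x⁻¹ * y * x⁆ ∈ fitt D :=
        hMD (hAA (Subgroup.commutator_mem_commutator hx (hDA q hq.out hy)))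
      have h5 : y = ⁅x, x⁻¹ * y * x⁆ * (x⁻¹ * y * x) := by
        rw [commutatorElement_def]; group
      rw [h5]
      exact mul_mem h4 (pc_le_fitt D hy)
    intro x hx
    apply H1.SZ.mem_normalizer_of_conj_smul_eq
    apply Subgroup.eq_of_le_of_card_ge (h3 x hx)
    rw [H1.SZ.card_conj_smul]
  have hnorm2 : A p ≤ normalizer (pc p D : Set G) := by
    refine hnorm.trans ?_
    exact h.norm_le hpq.symm h2
  -- conclusion
  have h3 : pc p D ≤ pc p (A p) := le_pc (hDA p hp.out) hnorm2 (isPGroup_pc p D)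
  refine h3.trans ?_
  exact le_pc ((pc_le p (A p)).trans hApM) ((hMA p).trans (normalizer_le_normalizer_pc p (A p)))
    (isPGroup_pc p (A p))

theorem isPGroup_gFitting_of {M : Subgroup G} (hE : layer M = ⊥) (p : ℕ)
    (h : ∀ q : ℕ, q.Prime → q ≠ p → pc q M = ⊥) (hp : p.Prime) :
    IsPGroup p (generalizedFittingSubgroup M) := by
  rw [generalizedFittingSubgroup, hE, bot_sup_eq]
  have h1 : fittingSubgroup M ≤ pCore p M := by
    rw [H1.Cores.fittingSubgroup_eq_iSup_pCore]
    refine iSup_le fun q => ?_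
    by_cases hq : (q : ℕ) = p
    · rw [hq]
    · have h2 := h q q.2 hq
      rw [pc, Subgroup.map_eq_bot_iff_of_injective _ M.subtype_injective] at h2
      rw [h2]; exact bot_le
  exact (H1.Cores.isPGroup_pCore p).to_le h1

/-- Let G be a non-abelian finite simple group and M ≠ N maximal subgroups of G with F*(M) ≤ N and F*(N) ≤ M. Then there is a prime p such that F*(M) and F*(N) are both p-groups. -/
theorem result {G : Type*} [Group G] [Finite G] [IsSimpleGroup G] (hna : ¬ IsMulCommutative G) (M N : Subgroup G) (hM : IsCoatom M) (hN : IsCoatom N) (hMN : M ≠ N) (h1 : (Cfsg.generalizedFittingSubgroup ↥M).map M.subtype ≤ N) (h2 : (Cfsg.generalizedFittingSubgroup ↥N).map N.subtype ≤ M) : ∃ p : ℕ, p.Prime ∧ IsPGroup p ↥(Cfsg.generalizedFittingSubgroup ↥M) ∧ IsPGroup p ↥(Cfsg.generalizedFittingSubgroup ↥N) := by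
  have _ := hna
  have key : ∀ M : Subgroup G, IsCoatom M → ∀ W : Subgroup G, W ≠ ⊥ → W ≤ M →
      M ≤ normalizer (W : Set G) → normalizer (W : Set G) = M := by
    intro M hM W hW hWM hn
    by_contra hcon
    have h3 := hM.2 _ (lt_of_le_of_ne hn (Ne.symm hcon))
    rw [Subgroup.normalizer_eq_top_iff] at h3
    rcases h3.eq_bot_or_eq_top with h4 | h4
    · exact hW h4
    · rw [h4] at hWM
      exact hM.1 (top_le_iff.mp hWM)
  -- the layers
  have hEE : (layer M).map M.subtype = (layer N).map N.subtype :=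
    le_antisymm (layer_le h1 h2) (layer_le h2 h1)
  have hE : (layer M).map M.subtype = ⊥ := by
    by_contra hcon
    apply hMN
    have e1 := key M hM _ hcon (Subgroup.map_subtype_le _)
      (Subgroup.le_normalizer.trans (normalizer_le_normalizer_map_char M _))
    rw [hEE] at hcon
    have e2 := key N hN _ hcon (Subgroup.map_subtype_le _)
      (Subgroup.le_normalizer.trans (normalizer_le_normalizer_map_char N _))
    rw [← e1, ← e2, hEE]
  have hEM : layer M = ⊥ :=
    (Subgroup.map_eq_bot_iff_of_injective _ M.subtype_injective).mp hE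
  have hEN : layer N = ⊥ :=
    (Subgroup.map_eq_bot_iff_of_injective _ N.subtype_injective).mp (hEE ▸ hE)
  have hpair : Pair M N := by
    refine ⟨hEM, hEN, ?_, ?_, key M hM, key N hN⟩
    · exact (Subgroup.map_mono H26.Components.fitting_le_gFitting).trans h1
    · exact (Subgroup.map_mono H26.Components.fitting_le_gFitting).trans h2
  by_cases hex : ∃ p q : ℕ, p.Prime ∧ q.Prime ∧ p ≠ q ∧ pc p M ≠ ⊥ ∧ pc q M ≠ ⊥
  · exfalso
    obtain ⟨p, q, hp, hq, hpq, hp1, hq1⟩ := hex
    have : Fact p.Prime := ⟨hp⟩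
    have : Fact q.Prime := ⟨hq⟩
    apply hMN
    have e1 := hpair.pc_inf_le hpq hp1 hq1
    have e2 := hpair.symm.pc_inf_le hpq (hpair.ne_bot hp1) (hpair.ne_bot hq1)
    rw [inf_comm] at e2
    have e3 : pc p M = pc p N :=
      le_antisymm (hpair.pc_le_inf.trans e2) (hpair.pc_le_inf'.trans e1)
    rw [← hpair.normalizer_pc hp1, ← hpair.symm.normalizer_pc (hpair.ne_bot hp1), e3]
  · push Not at hex
    by_cases hex2 : ∃ p : ℕ, p.Prime ∧ pc p M ≠ ⊥
    · obtain ⟨p, hp, hp1⟩ := hex2
      have : Fact p.Prime := ⟨hp⟩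
      refine ⟨p, hp, isPGroup_gFitting_of hEM p (fun q hq hqp => hex p q hp hq hqp.symm hp1) hp,
        isPGroup_gFitting_of hEN p (fun q hq hqp => ?_) hp⟩
      have : Fact q.Prime := ⟨hq⟩
      by_contra h3
      exact hpair.symm.ne_bot h3 (hex p q hp hq hqp.symm hp1)
    · push Not at hex2
      refine ⟨2, Nat.prime_two, isPGroup_gFitting_of hEM 2 (fun q hq _ => hex2 q hq) Nat.prime_two,
        isPGroup_gFitting_of hEN 2 (fun q hq _ => ?_) Nat.prime_two⟩
      have : Fact q.Prime := ⟨hq⟩
      by_contra h3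
      exact hpair.symm.ne_bot h3 (hex2 q hq)

end Cfsg.Agent.S1312
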