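import Cfsg.Statements.S1313
import Cfsg.Agent.Lib.H26.GenFitting

set_option autoImplicit false
open Cfsg

namespace Cfsg.Agent.S1313

theorem card_mulAut_le (F : Type*) [Group F] [Finite F] :
    Nat.card (MulAut F) ≤ Nat.factorial (Nat.card F - 1) := by
  classical
  have h1 : Nat.card {x : F // x ≠ 1} = Nat.card F - 1 := by
    have := Fintype.ofFinite F
    rw [Nat.card_eq_fintype_card, Nat.card_eq_fintype_card, Fintype.card_subtype_compl,
      Fintype.card_subtype_eq]
  rw [← h1, ← Nat.card_perm]
  let g : MulAut F → Equiv.Perm {x : F // x ≠ 1} := fun φ =>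
    (φ.toEquiv).subtypeEquiv (fun x => by simp)
  apply Nat.card_le_card_of_injective g
  intro φ ψ h
  apply MulEquiv.ext
  intro x
  by_cases hx : x = 1
  · rw [hx, map_one, map_one]
  · have := congrArg Subtype.val (DFunLike.congr_fun h ⟨x, hx⟩)
    exact this

theorem result {H : Type*} [Group H] [Finite H] : Nat.card H ≤ Nat.factorial (Nat.card ↥(Cfsg.generalizedFittingSubgroup H)) := by
  set F := generalizedFittingSubgroup H with hF
  have hFn : F.Normal := inferInstance
  -- the conjugation action
  let f : H →* MulAut F := MulAut.conjNormal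
  have hker : f.ker = Subgroup.centralizer (F : Set H) := by
    ext x
    rw [MonoidHom.mem_ker, Subgroup.mem_centralizer_iff]
    constructor
    · intro h y hy
      have := DFunLike.congr_fun h ⟨y, hy⟩
      have h2 := congrArg Subtype.val this
      simp only [f, MulAut.conjNormal_apply, MulAut.one_apply] at h2
      rw [mul_inv_eq_iff_eq_mul] at h2
      exact h2.symm
    · intro h
      apply MulEquiv.ext
      intro y
      apply Subtype.ext
      simp only [f, MulAut.conjNormal_apply, MulAut.one_apply]
      rw [mul_inv_eq_iff_eq_mul]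
      exact (h y y.2).symm
  have h1 : Nat.card f.ker ≤ Nat.card F := by
    rw [hker]
    exact Nat.le_of_dvd Nat.card_pos
      (Subgroup.card_dvd_of_le H26.Components.centralizer_gFitting_le)
  have h2 : Nat.card f.range ≤ Nat.factorial (Nat.card F - 1) := by
    have h3 : Nat.card f.range ≤ Nat.card (MulAut F) :=
      Nat.card_le_card_of_injective _ f.range.subtype_injective
    exact h3.trans (card_mulAut_le F)
  have h3 : Nat.card H = Nat.card f.ker * Nat.card f.range := by
    rw [← Subgroup.index_ker f, Subgroup.card_mul_index]
  rw [h3]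
  calc Nat.card f.ker * Nat.card f.range ≤ Nat.card F * Nat.factorial (Nat.card F - 1) :=
        Nat.mul_le_mul h1 h2
    _ = Nat.factorial (Nat.card F) := Nat.mul_factorial_pred Nat.card_pos.ne'

end Cfsg.Agent.S1313
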