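import Cfsg.Statements.S1326
import Cfsg.Agent.Lib.H26.GenFitting

set_option autoImplicit false
open Cfsg

namespace Cfsg.Agent.S1326

theorem result {X : Type*} [Group X] [Finite X] : Subgroup.centralizer (Cfsg.fittingSubgroup X : Set X) ≤ Cfsg.fittingSubgroup X ↔ Cfsg.layer X = ⊥ := by
  constructor
  · intro h
    have h1 : layer X ≤ fittingSubgroup X :=
      (Subgroup.commutator_eq_bot_iff_le_centralizer.mp
        H26.Components.commutator_layer_fittingSubgroup).trans h
    have h2 : Group.IsNilpotent (fittingSubgroup X) := H1.Cores.isNilpotent_fittingSubgroup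
    apply H26.GenFitting.layer_eq_bot_of_isNilpotent
    exact Subgroup.isNilpotent_of_ker_le_center (Subgroup.inclusion h1)
      (by rw [(MonoidHom.ker_eq_bot_iff _).mpr (Subgroup.inclusion_injective h1)]; exact bot_le)
  · intro h
    have h1 := H26.Components.centralizer_gFitting_le (G := X)
    rw [generalizedFittingSubgroup, h, bot_sup_eq] at h1
    exact h1

end Cfsg.Agent.S1326
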