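import Cfsg.Statements.S1892
import Cfsg.Agent.Lib.H37.PSolv
import Cfsg.Agent.Lib.H37.Comm

set_option autoImplicit false
open Cfsg

namespace Cfsg.Agent.S1892

/-- Let S be a finite p-solvable group with no nontrivial normal subgroup of order prime to p, A a p-subgroup of S, and Q a nontrivial A-invariant subgroup of order prime to p with [A, Q] = Q. Then the commutator [O_p(S), A, Q] is nontrivial. -/
theorem result {S : Type*} [Group S] [Finite S] {p : ℕ} [Fact p.Prime]
    (hS : Cfsg.IsPSolvable p S) (hred : Cfsg.pPrimeCore p S = ⊥)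
    (A Q : Subgroup S) (hA : IsPGroup p A) (hQ : ¬ p ∣ Nat.card Q) (hQ1 : Q ≠ ⊥)
    (hinv : ∀ a ∈ A, ∀ x ∈ Q, a * x * a⁻¹ ∈ Q) (hAQ : ⁅A, Q⁆ = Q) :
    ⁅⁅Cfsg.pCore p S, A⁆, Q⁆ ≠ ⊥ := by
  intro hbot
  set R := Cfsg.pCore p S with hR
  have hRp : IsPGroup p R := H1.Cores.isPGroup_pCore p
  have hAQn : A ≤ Subgroup.normalizer (Q : Set S) := H1.Coprime.le_normalizer_of_conj_mem hinv
  have hn : ∀ X : Subgroup S, X ≤ Subgroup.normalizer (R : Set S) := fun X => by
    rw [Subgroup.normalizer_eq_top]; exact le_top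
  set M := ⁅R, A⁆ with hM
  have hAM : A ≤ Subgroup.normalizer (M : Set S) := H1.Coprime2.le_normalizer_commutator_right R A
  have hQM : Q ≤ Subgroup.normalizer (M : Set S) := by
    have h1 : Q ≤ Subgroup.centralizer (M : Set S) := by
      rw [← Subgroup.commutator_eq_bot_iff_le_centralizer, Subgroup.commutator_comm]; exact hbot
    exact h1.trans (Subgroup.centralizer_le_normalizer _)
  have h1 := H37.Comm.commutator_commutator_le (A := A) (Q := Q) (R := R) (M := M) (hn A) hAM (hn Q) hQM
    (by rw [Subgroup.commutator_comm])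
  rw [hAQ, Subgroup.commutator_comm] at h1
  have hcop : (Nat.card Q).Coprime (Nat.card R) :=
    (H1.Cores.coprime_card_of_isPGroup hRp ((Nat.Prime.coprime_iff_not_dvd (Fact.out : p.Prime)).mpr hQ).symm).symm
  haveI : Group.IsSolvable R := by
    haveI := hRp.isNilpotent; infer_instance
  have h2 := H1.Coprime2.commutator_eq_bot_of Q R (hn Q) hcop (Or.inr inferInstance) (by
    rw [eq_bot_iff, ← hbot]
    exact Subgroup.commutator_mono h1 le_rfl)
  rw [Subgroup.commutator_comm, Subgroup.commutator_eq_bot_iff_le_centralizer] at h2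
  have h3 : Q ≤ R := h2.trans (H37.PSolv.centralizer_pCore_le hS hred)
  apply hQ1
  rw [eq_bot_iff, ← H1.Coprime.inf_eq_bot_of_coprime_card hcop]
  exact le_inf le_rfl h3

end Cfsg.Agent.S1892
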