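import Cfsg.Statements.S1893
import Cfsg.Agent.Lib.H37.HallSCN

set_option autoImplicit false
set_option maxHeartbeats 1000000
open Cfsg

namespace Cfsg.Agent.S1893

/-- Let S be a finite solvable group, π a set of primes containing neither 2 nor 3, H a Hall π-subgroup of S, and A a self-centralizing normal subgroup of the Fitting subgroup F(H). Then C_S(A) = A × D for a normal subgroup D of C_S(A) whose order has no prime divisor in π. -/
theorem result {S : Type*} [Group S] [Finite S] [Group.IsSolvable S]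
    (π : Set ℕ) (h2 : 2 ∉ π) (h3 : 3 ∉ π) (H : Subgroup S) (hH : Cfsg.IsPiHall π H)
    (A : Subgroup S) (hA : Cfsg.IsSCN ((Cfsg.fittingSubgroup H).map H.subtype) A) :
    ∃ D : Subgroup S, D ≤ Subgroup.centralizer (A : Set S) ∧
      (∀ c ∈ Subgroup.centralizer (A : Set S), ∀ d ∈ D, c * d * c⁻¹ ∈ D) ∧
      A ⊓ D = ⊥ ∧ A ⊔ D = Subgroup.centralizer (A : Set S) ∧
      ∀ q : ℕ, q.Prime → q ∣ Nat.card D → q ∉ π := by
  have hS : Group.IsSolvable S := inferInstance
  have h5 : ∀ q ∈ π, q.Prime → 5 ≤ q := by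
    intro q hq hqp
    by_contra h
    have : q < 5 := by omega
    interval_cases q
    · exact absurd hqp (by norm_num)
    · exact absurd hqp (by norm_num)
    · exact h2 hq
    · exact h3 hq
    · exact absurd hqp (by norm_num)
  set C := Subgroup.centralizer (A : Set S) with hC
  have hAab : A ≤ C := by
    intro a ha
    have : a ∈ (fittingSubgroup H).map H.subtype ⊓ Subgroup.centralizer (A : Set S) := by
      rw [hA.2.2]; exact ha
    exact (Subgroup.mem_inf.mp this).2
  have hAH : A ≤ H := hA.1.trans (Subgroup.map_subtype_le _)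
  have hcA : ∀ c ∈ C, ∀ a ∈ A, a * c = c * a := by
    intro c hc a ha
    exact Subgroup.mem_centralizer_iff.mp hc a ha
  have hAn : (A.subgroupOf C).Normal := by
    refine ⟨fun n hn g => ?_⟩
    have h1 := hcA g g.2 n hn
    have h2 : g * n * g⁻¹ = n := by
      apply Subtype.ext
      show (g : S) * n * (g : S)⁻¹ = n
      rw [← h1, mul_inv_cancel_right]
    rw [h2]; exact hn
  have hidx : ∀ q : ℕ, q.Prime → q ∈ π → ¬ q ∣ (A.subgroupOf C).index := by
    intro q hq hqπ
    have iq : Fact q.Prime := ⟨hq⟩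
    obtain ⟨Q⟩ : Nonempty (Sylow q C) := inferInstance
    have hQ : (Q : Subgroup C) ≤ A.subgroupOf C := by
      intro x hx
      have h1 : ∃ k, orderOf (x : S) = q ^ k := by
        obtain ⟨k, hk⟩ := (IsPGroup.iff_orderOf.mp Q.2) ⟨x, hx⟩
        refine ⟨k, ?_⟩
        rw [← hk, Subgroup.orderOf_mk, Subgroup.orderOf_coe]
      obtain ⟨k, hk⟩ := h1
      exact H37.HallSCN.mem_of hS π h5 H hH A hA hq hqπ hk x.2
    intro h
    have h2 := Subgroup.index_dvd_of_le hQ
    exact Q.not_dvd_index (h.trans h2)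
  have hcop : (Nat.card (A.subgroupOf C)).Coprime (A.subgroupOf C).index := by
    apply Nat.coprime_of_dvd
    intro r hr h1 h2
    apply hidx r hr ?_ h2
    apply hH.1 r hr
    have h3 : Nat.card (A.subgroupOf C) = Nat.card A :=
      Nat.card_congr (Subgroup.subgroupOfEquivOfLe hAab).toEquiv
    rw [h3] at h1
    exact h1.trans (Subgroup.card_dvd_of_le hAH)
  obtain ⟨D, hD⟩ := Subgroup.exists_right_complement'_of_coprime hcop
  have hDn : D.Normal := by
    refine ⟨fun n hn g => ?_⟩
    have h1 : g ∈ A.subgroupOf C ⊔ D := by rw [hD.sup_eq_top]; trivial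
    rw [← SetLike.mem_coe, Subgroup.normal_mul] at h1
    obtain ⟨a, ha, d, hd, rfl⟩ := h1
    have h2 : a * d * n * (a * d)⁻¹ = d * n * d⁻¹ := by
      have h3 : a * (d * n * d⁻¹) = (d * n * d⁻¹) * a := by
        apply Subtype.ext
        exact hcA _ (d * n * d⁻¹).2 a ha
      calc a * d * n * (a * d)⁻¹ = a * (d * n * d⁻¹) * a⁻¹ := by group
        _ = _ := by rw [h3, mul_inv_cancel_right]
    rw [h2]
    exact D.mul_mem (D.mul_mem hd hn) (D.inv_mem hd)
  refine ⟨D.map C.subtype, Subgroup.map_subtype_le _, ?_, ?_, ?_, ?_⟩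
  · rintro c hc _ ⟨d, hd, rfl⟩
    exact ⟨_, hDn.conj_mem d hd ⟨c, hc⟩, rfl⟩
  · rw [eq_bot_iff]
    rintro _ ⟨ha, ⟨d, hd, rfl⟩⟩
    have h1 : d ∈ A.subgroupOf C ⊓ D := Subgroup.mem_inf.mpr ⟨ha, hd⟩
    rw [hD.disjoint.eq_bot, Subgroup.mem_bot] at h1
    rw [h1]; exact Subgroup.mem_bot.mpr rfl
  · have h1 : A = (A.subgroupOf C).map C.subtype := by
      rw [Subgroup.map_subgroupOf_eq_of_le hAab]
    conv_lhs => rw [h1]
    rw [← Subgroup.map_sup, hD.sup_eq_top, ← MonoidHom.range_eq_map, Subgroup.range_subtype]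
  · intro q hq hqd hqπ
    rw [Subgroup.card_map_of_injective C.subtype_injective] at hqd
    apply hidx q hq hqπ
    rw [hD.symm.index_eq_card]
    exact hqd

end Cfsg.Agent.S1893
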