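import Cfsg.Statements.S1898

set_option autoImplicit false
open Cfsg
open scoped commutatorElement

namespace Cfsg.Agent.S1898

/-- Let X be a finite 2-group whose derived subgroup is elementary abelian and central. Then the subgroup generated by the elements of order dividing 4 has exponent dividing 4, and every automorphism of X fixing each element of order dividing 4 has 2-power order. -/
theorem result {X : Type*} [Group X] [Finite X] (hX : IsPGroup 2 X)
    (hel : Cfsg.IsElementaryAbelian 2 (commutator X)) (hcen : commutator X ≤ Subgroup.center X) :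
    (∀ x ∈ Subgroup.closure {g : X | g ^ 4 = 1}, x ^ 4 = 1) ∧
      ∀ φ : MulAut X, (∀ g : X, g ^ 4 = 1 → φ g = g) → ∃ k : ℕ, φ ^ (2 ^ k) = 1 := by
  have hcomm : ∀ x y : X, ⁅x, y⁆ ∈ commutator X := fun x y =>
    Subgroup.commutator_mem_commutator (Subgroup.mem_top x) (Subgroup.mem_top y)
  have hc2 : ∀ x y : X, ⁅x, y⁆ ^ 2 = 1 := fun x y => hel.2 _ (hcomm x y)
  have hcc : ∀ x y z : X, ⁅x, y⁆ * z = z * ⁅x, y⁆ := fun x y z =>
    ((Subgroup.mem_center_iff.mp (hcen (hcomm x y))) z).symm
  -- squares are central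
  have hsq : ∀ x y : X, y * x ^ 2 = x ^ 2 * y := by
    intro x y
    have h1 : y * x * y⁻¹ = ⁅y, x⁆ * x := by
      rw [commutatorElement_def]; group
    have h2 : (y * x * y⁻¹) ^ 2 = x ^ 2 := by
      rw [h1, pow_two, mul_assoc, ← mul_assoc x, ← hcc y x x, ← mul_assoc, ← mul_assoc, ← pow_two, hc2, one_mul,
        pow_two]
    have h3 : (y * x * y⁻¹) ^ 2 = y * x ^ 2 * y⁻¹ := by
      rw [conj_pow]
    rw [h3] at h2
    exact mul_inv_eq_iff_eq_mul.mp h2
  have hmul4 : ∀ x y : X, (x * y) ^ 4 = x ^ 4 * y ^ 4 := by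
    intro x y
    have h1 : (x * y) ^ 2 = ⁅x⁻¹, y⁆ * (x ^ 2 * y ^ 2) := by
      have : (x * y) ^ 2 = x ^ 2 * ⁅x⁻¹, y⁆ * y ^ 2 := by
        rw [commutatorElement_def]; simp only [pow_two]; group
      rw [this, ← hcc, mul_assoc]
    have h4 : (x * y) ^ 4 = ((x * y) ^ 2) ^ 2 := by rw [← pow_mul]
    rw [h4, h1]
    have h5 : (⁅x⁻¹, y⁆ * (x ^ 2 * y ^ 2)) ^ 2 = ⁅x⁻¹, y⁆ ^ 2 * (x ^ 2 * y ^ 2) ^ 2 :=
      (Commute.mul_pow (hcc x⁻¹ y (x ^ 2 * y ^ 2)) 2)
    have h6 : (x ^ 2 * y ^ 2) ^ 2 = (x ^ 2) ^ 2 * (y ^ 2) ^ 2 :=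
      Commute.mul_pow ((hsq y (x ^ 2))) 2
    rw [h5, hc2, one_mul, h6, ← pow_mul, ← pow_mul]
  refine ⟨?_, ?_⟩
  · intro x hx
    induction hx using Subgroup.closure_induction with
    | mem x hx => exact hx
    | one => exact one_pow 4
    | mul x y _ _ hx hy => rw [hmul4, hx, hy, one_mul]
    | inv x _ hx => rw [inv_pow, hx, inv_one]
  · intro φ hφ
    haveI : Finite (MulAut X) := inferInstance
    have hpos : 0 < orderOf φ := orderOf_pos φ
    obtain ⟨k, m, hm, hkm⟩ := Nat.exists_eq_two_pow_mul_odd hpos.ne'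
    refine ⟨k, ?_⟩
    set ψ : MulAut X := φ ^ (2 ^ k) with hψ
    have hψm : ψ ^ m = 1 := by
      rw [hψ, ← pow_mul, ← hkm, pow_orderOf_eq_one]
    have hφpow : ∀ n : ℕ, ∀ g : X, g ^ 4 = 1 → (φ ^ n) g = g := by
      intro n
      induction n with
      | zero => intro g _; rfl
      | succ n ih => intro g hg; rw [pow_succ, MulAut.mul_apply, hφ g hg, ih g hg]
    have hψ4 : ∀ g : X, g ^ 4 = 1 → ψ g = g := hφpow _
    have key : ∀ j : ℕ, ∀ x : X, x ^ (2 ^ j) = 1 → ψ x = x := by
      intro j
      induction j with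
      | zero =>
        intro x hx
        have : x = 1 := by simpa using hx
        rw [this, map_one]
      | succ j ih =>
        intro x hx
        have hx2 : ψ (x ^ 2) = x ^ 2 := by
          apply ih
          rw [← pow_mul, ← pow_succ']; exact hx
        set c : X := x⁻¹ * ψ x with hc
        have hψx : ψ x = x * c := by rw [hc, mul_inv_cancel_left]
        have hc4 : c ^ 4 = 1 := by
          have h1 : (ψ x) ^ 4 = x ^ 4 := by
            rw [← map_pow]
            have : x ^ 4 = x ^ 2 * x ^ 2 := by rw [← pow_add]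
            rw [this, map_mul, hx2]
          rw [hψx, hmul4] at h1
          exact mul_eq_left.mp h1
        have hψc : ψ c = c := hψ4 c hc4
        have hpow : ∀ n : ℕ, (ψ ^ n) x = x * c ^ n := by
          intro n
          induction n with
          | zero => simp
          | succ n ihn =>
            rw [pow_succ', MulAut.mul_apply, ihn, map_mul, map_pow, hψc, hψx, mul_assoc, ← pow_succ']
        have h1 := hpow m
        rw [hψm] at h1
        have h2 : c ^ m = 1 := by
          have : x = x * c ^ m := h1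
          exact (mul_eq_left.mp this.symm)
        have hcop : Nat.Coprime m 4 := by
          have : Nat.Coprime m 2 := hm.coprime_two_right
          exact Nat.Coprime.pow_right 2 this
        have h3 : orderOf c ∣ 1 := by
          have ha := orderOf_dvd_of_pow_eq_one h2
          have hb := orderOf_dvd_of_pow_eq_one hc4
          have := Nat.dvd_gcd ha hb
          rwa [Nat.Coprime.gcd_eq_one hcop] at this
        have h4 : c = 1 := by
          rw [← orderOf_eq_one_iff]; exact Nat.dvd_one.mp h3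
        rw [hψx, h4, mul_one]
    ext x
    obtain ⟨j, hj⟩ := hX x
    exact key j x hj

end Cfsg.Agent.S1898
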