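import Cfsg.Statements.S1899

set_option autoImplicit false
open Cfsg

namespace Cfsg.Agent.S1899

/-- Let a dihedral group of order 2n, n odd and n > 1, act on a finite abelian 2-group A through automorphisms d and t with d^n = 1, t² = 1 and t d t⁻¹ = d⁻¹, and suppose that d fixes only the identity. Then A is the internal direct product of C_A(t) and its image under d. -/
theorem result {A : Type*} [CommGroup A] [Finite A] (hA : IsPGroup 2 A)
    {n : ℕ} (hn : Odd n) (hn1 : 1 < n) (d t : MulAut A) (hd : d ^ n = 1) (ht : t ^ 2 = 1) (hdt : t * d * t⁻¹ = d⁻¹)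
    (hfix : ∀ a : A, d a = a → a = 1) :
    (MulEquiv.toMonoidHom t).eqLocus (MonoidHom.id A) ⊓ ((MulEquiv.toMonoidHom t).eqLocus (MonoidHom.id A)).map d.toMonoidHom = ⊥ ∧
      (MulEquiv.toMonoidHom t).eqLocus (MonoidHom.id A) ⊔ ((MulEquiv.toMonoidHom t).eqLocus (MonoidHom.id A)).map d.toMonoidHom = ⊤ := by
  -- d ∘ d fixes only 1
  have hd2 : ∀ a : A, d (d a) = a → a = 1 := by
    intro a ha
    apply hfix
    obtain ⟨m, hm⟩ := hn
    have h2 : (d ^ 2) a = a := by
      rw [pow_two]; exact ha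
    have hfixpow : ∀ k : ℕ, ((d ^ 2) ^ k) a = a := by
      intro k
      induction k with
      | zero => rfl
      | succ k ih => rw [pow_succ, MulAut.mul_apply, h2, ih]
    have h3 : (d ^ n) a = a := by rw [hd]; rfl
    rw [hm, pow_add, pow_one, pow_mul, MulAut.mul_apply] at h3
    have h4 : ((d ^ 2) ^ m) (d a) = ((d ^ 2) ^ m) a := by rw [h3, hfixpow]
    exact (((d ^ 2) ^ m)).injective h4
  have htt : ∀ a : A, t (t a) = a := by
    intro a
    have : (t ^ 2) a = a := by rw [ht]; rfl
    rwa [pow_two] at this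
  have htd : ∀ a : A, t (d a) = d⁻¹ (t a) := by
    intro a
    have := congrArg (fun f : MulAut A => f (t a)) hdt
    simpa [MulAut.mul_apply] using this
  have hddi : ∀ a : A, d (d⁻¹ a) = a := fun a => by
    have : (d * d⁻¹) a = a := by rw [mul_inv_cancel]; rfl
    simpa using this
  constructor
  · rw [eq_bot_iff]
    intro x hx
    obtain ⟨hx1, y, hy, hxy⟩ := hx
    have hx1' : t x = x := hx1
    have hy' : t y = y := hy
    have hxy' : d y = x := hxy
    rw [Subgroup.mem_bot]
    apply hd2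
    -- t x = x, x = d y, t y = y: t (d y) = d⁻¹ (t y) = d⁻¹ y, so d⁻¹ y = d y
    have h1 : d⁻¹ y = x := by
      rw [← hy', ← htd, hxy', hx1']
    -- so y = d x = d (d y)
    have h2 : y = d x := by rw [← h1, hddi]
    rw [← h2, hxy']
  · rw [eq_top_iff]
    intro x _
    -- the map y ↦ y * (d (d y))⁻¹ is injective hence surjective
    have hinj : Function.Injective (fun y : A => y * (d (d y))⁻¹) := by
      intro y z hyz
      simp only at hyz
      have h6 : y * z⁻¹ = d (d y) * (d (d z))⁻¹ := by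
        have h5 : y = z * (d (d z))⁻¹ * (d (d y)) := by
          rw [← hyz, inv_mul_cancel_right]
        calc y * z⁻¹ = (z * (d (d z))⁻¹ * (d (d y))) * z⁻¹ := by rw [← h5]
          _ = d (d y) * (d (d z))⁻¹ := by
            rw [mul_assoc z, mul_comm z, mul_inv_cancel_right, mul_comm]
      have : d (d (y * z⁻¹)) = y * z⁻¹ := by
        rw [map_mul, map_mul, map_inv, map_inv, ← h6]
      have h7 := hd2 _ this
      exact mul_inv_eq_one.mp h7
    have hsurj := Finite.surjective_of_injective hinj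
    obtain ⟨w, hw⟩ := hsurj x
    simp only at hw
    -- let y = t w; x = w * (d d w)⁻¹
    -- (y * t y) with y = t w : t w * w ; second: y⁻¹ * (d² t) y⁻¹ .. = (t w)⁻¹ * (d d w)⁻¹
    have hc1 : t w * w ∈ (MulEquiv.toMonoidHom t).eqLocus (MonoidHom.id A) := by
      show t (t w * w) = t w * w
      rw [map_mul, htt, mul_comm]
    have hc2 : (t w)⁻¹ * (d (d w))⁻¹ ∈ ((MulEquiv.toMonoidHom t).eqLocus (MonoidHom.id A)).map d.toMonoidHom := by
      refine ⟨d⁻¹ ((t w)⁻¹ * (d (d w))⁻¹), ?_, hddi _⟩
      show t (d⁻¹ ((t w)⁻¹ * (d (d w))⁻¹)) = d⁻¹ ((t w)⁻¹ * (d (d w))⁻¹)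
      have hdid : ∀ a : A, d⁻¹ (d a) = a := fun a => by
        have : (d⁻¹ * d) a = a := by rw [inv_mul_cancel]; rfl
        simpa using this
      have htdi : ∀ a : A, t (d⁻¹ a) = d (t a) := by
        intro a
        have := htd (d⁻¹ a)
        rw [hddi] at this
        rw [this, hddi]
      rw [htdi, map_mul, map_mul, map_inv, map_inv, map_inv, map_inv, htt, map_mul, map_inv, map_inv, hdid, mul_comm]
      congr 2
      -- d (t (d (d w))) = d⁻¹ (t w)
      rw [htd, htd, hddi]
    have : x = (t w * w) * ((t w)⁻¹ * (d (d w))⁻¹) := by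
      rw [← hw]
      rw [mul_comm (t w) w, mul_assoc, mul_inv_cancel_left]
    rw [this]
    exact Subgroup.mul_mem_sup hc1 hc2

end Cfsg.Agent.S1899
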