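import Cfsg.Statements.S1900
import Cfsg.Agent.Lib.H37.Syl
import Cfsg.Agent.Lib.H27.GenSub
import Cfsg.Agent.Lib.H13.ElemAb
import Cfsg.Agent.Lib.H13.Thompson

set_option autoImplicit false
set_option maxHeartbeats 1000000
open Cfsg

namespace Cfsg.Agent.S1900

open Subgroup
open scoped commutatorElement

section
variable {S : Type*} [Group S] [Finite S] {p q : ℕ} [Fact p.Prime] [Fact q.Prime]

omit [Finite S] in
/-- if `[N, P] ≤ V ≤ N` then `P` normalizes `V` -/
theorem norm_of_comm {N P V : Subgroup S} (h1 : ⁅N, P⁆ ≤ V) (h2 : V ≤ N) : P ≤ normalizer (V : Set S) := by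
  apply H1.Coprime.le_normalizer_of_conj_mem
  intro g hg v hv
  have : g * v * g⁻¹ = ⁅v, g⁆⁻¹ * v := by rw [commutatorElement_def]; group
  rw [this]
  exact mul_mem (inv_mem (h1 (commutator_mem_commutator (h2 hv) hg))) hv

theorem step (hpq : p ≠ q) (P Q X₁ X₂ N : Subgroup S) [P.Normal] [N.Normal] (hP : IsPGroup p P)
    (hQ : Cfsg.IsElementaryAbelian q Q) (hQc : q ^ 2 ≤ Nat.card Q) (h₁ : X₁ ≤ Q) (h₂ : X₂ ≤ Q)
    (hc₁ : Nat.card X₁ = q)
    (honly : ∀ X : Subgroup S, X ≤ Q → Nat.card X = q → P ⊓ centralizer (X : Set S) ≠ ⊥ → X = X₁ ∨ X = X₂)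
    (h12 : (P ⊓ centralizer (X₁ : Set S)) ⊓ (P ⊓ centralizer (X₂ : Set S)) = ⊥)
    (hN : N ≤ P) (hcomm : ⁅P ⊓ centralizer (X₁ : Set S), P ⊓ centralizer (X₂ : Set S)⁆ ≤ N) :
    ⁅P ⊓ centralizer (X₁ : Set S), P ⊓ centralizer (X₂ : Set S)⁆ ≤ (N ⊓ centralizer (X₂ : Set S)) ⊔ ⁅N, P⁆ := by
  have hpq' : p.Coprime q := (Nat.coprime_primes Fact.out Fact.out).mpr hpq
  have hcopP : ∀ K : Subgroup S, K ≤ P → (Nat.card K).Coprime q := by
    intro K hK
    obtain ⟨k, hk⟩ := IsPGroup.iff_card.mp (hP.to_le hK)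
    rw [hk]
    exact Nat.Coprime.pow_left k hpq'
  set M := ⁅N, P⁆ with hM
  set V := (N ⊓ centralizer (X₂ : Set S)) ⊔ M with hV
  have hMN : M ≤ N := commutator_le_left N P
  have hVN : V ≤ N := sup_le inf_le_left hMN
  have hPV : P ≤ normalizer (V : Set S) := norm_of_comm le_sup_right hVN
  have hcommQ : ∀ a ∈ Q, ∀ b ∈ Q, a * b = b * a := fun a ha b hb => H13.ElemAb.comm hQ ha hb
  have hQV : Q ≤ normalizer (V : Set S) := by
    refine H1.Coprime2.le_normalizer_sup (H1.Coprime2.le_normalizer_inf ?_ ?_) ?_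
    · rw [normalizer_eq_top]; exact le_top
    · apply H1.Coprime2.le_normalizer_centralizer
      apply H1.Coprime.le_normalizer_of_conj_mem
      intro a ha x hx
      rw [hcommQ a ha x (h₂ hx), mul_inv_cancel_right]; exact hx
    · rw [normalizer_eq_top]; exact le_top
  -- N ≤ N₁ V
  have hgen : N ≤ (N ⊓ centralizer (X₁ : Set S)) ⊔ V := by
    apply H27.GenSub.le_of_centralizers q Q N _ hQ hQc (by rw [normalizer_eq_top]; exact le_top)
    · intro h
      have := hcopP N hN
      rw [Nat.coprime_comm, Nat.Prime.coprime_iff_not_dvd Fact.out] at this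
      exact this h
    · intro a ha ha1
      have hza : zpowers a ≤ Q := zpowers_le.mpr ha
      have hca : Nat.card (zpowers a) = q := by
        rw [Nat.card_zpowers]
        exact orderOf_eq_prime (hQ.2 a ha) ha1
      have hcent : centralizer ({a} : Set S) = centralizer (zpowers a : Set S) := by
        ext z
        rw [mem_centralizer_singleton_iff, mem_centralizer_iff]
        constructor
        · rintro h _ ⟨k, rfl⟩
          exact ((show Commute z a from h).zpow_right k).eq.symm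
        · intro h
          exact (h a (mem_zpowers a)).symm
      by_cases hb : P ⊓ centralizer (zpowers a : Set S) = ⊥
      · have : N ⊓ centralizer ({a} : Set S) = ⊥ := by
          rw [eq_bot_iff, ← hb, hcent]; exact inf_le_inf_right _ hN
        rw [this]; exact bot_le
      · rcases honly _ hza hca hb with h | h
        · rw [hcent, h]; exact le_sup_left
        · rw [hcent, h]; exact le_sup_left.trans le_sup_right
  -- [X₁, N] ≤ V
  have hXN : ∀ a ∈ X₁, ∀ n ∈ N, ⁅n, a⁆ ∈ V := by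
    intro a ha n hn
    obtain ⟨n₁, hn₁, v, hv, rfl⟩ := H37.Syl.exists_mul_of_mem_sup ((inf_le_left.trans hN).trans hPV) (hgen hn)
    have h1 : a * n₁ * a⁻¹ = n₁ := by
      rw [mem_centralizer_iff.mp hn₁.2 a ha, mul_inv_cancel_right]
    have : ⁅n₁ * v, a⁆ = n₁ * (v * (a * v⁻¹ * a⁻¹)) * (a * n₁ * a⁻¹)⁻¹ := by
      rw [commutatorElement_def]; group
    rw [this, h1]
    exact (mem_normalizer_iff.mp (hPV (hN hn₁.1)) _).mp
      (mul_mem hv ((mem_normalizer_iff.mp (hQV (h₁ ha)) _).mp (inv_mem hv)))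
  -- P₂ = [P₂, X₁]
  have hQn2 : X₁ ≤ normalizer ((P ⊓ centralizer (X₂ : Set S) : Subgroup S) : Set S) := by
    refine H1.Coprime2.le_normalizer_inf ?_ ?_
    · rw [normalizer_eq_top]; exact le_top
    · apply H1.Coprime2.le_normalizer_centralizer
      apply H1.Coprime.le_normalizer_of_conj_mem
      intro a ha x hx
      rw [hcommQ a (h₁ ha) x (h₂ hx), mul_inv_cancel_right]; exact hx
  have hsolv : Group.IsSolvable (P ⊓ centralizer (X₂ : Set S) : Subgroup S) := by
    haveI := (hP.to_le (inf_le_left : P ⊓ centralizer (X₂ : Set S) ≤ P)).isNilpotent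
    infer_instance
  have h3 : ⁅(P ⊓ centralizer (X₂ : Set S) : Subgroup S), X₁⁆ = P ⊓ centralizer (X₂ : Set S) := by
    have h4 := H1.Coprime2.commutator_sup_centralizer X₁ (P ⊓ centralizer (X₂ : Set S)) hQn2
      (by rw [hc₁]; exact (hcopP _ inf_le_left).symm) (Or.inr hsolv)
    have h5 : (P ⊓ centralizer (X₂ : Set S)) ⊓ centralizer (X₁ : Set S) = ⊥ := by
      rw [eq_bot_iff, ← h12]
      exact le_inf (le_inf (inf_le_left.trans inf_le_left) inf_le_right) inf_le_left
    rwa [h5, sup_bot_eq] at h4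
  rw [commutator_le]
  intro x hx
  -- the subgroup of y in P with [x, y] ∈ V
  let K : Subgroup S :=
    { carrier := {y | y ∈ P ∧ ⁅x, y⁆ ∈ V}
      mul_mem' := by
        rintro u v ⟨hu, hu'⟩ ⟨hv, hv'⟩
        refine ⟨mul_mem hu hv, ?_⟩
        have : ⁅x, u * v⁆ = ⁅x, u⁆ * (u * ⁅x, v⁆ * u⁻¹) := by
          simp only [commutatorElement_def]; group
        rw [this]
        exact mul_mem hu' ((mem_normalizer_iff.mp (hPV hu) _).mp hv')
      one_mem' := ⟨one_mem _, by simp⟩
      inv_mem' := by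
        rintro u ⟨hu, hu'⟩
        refine ⟨inv_mem hu, ?_⟩
        have : ⁅x, u⁻¹⁆ = u⁻¹ * ⁅x, u⁆⁻¹ * u := by
          simp only [commutatorElement_def]; group
        rw [this]
        exact (mem_normalizer_iff''.mp (hPV hu) _).mp (inv_mem hu') }
  suffices h6 : P ⊓ centralizer (X₂ : Set S) ≤ K from fun y hy => (h6 hy).2
  rw [← h3, commutator_le]
  intro y hy a ha
  have hPn : P.Normal := inferInstance
  have hNn : N.Normal := inferInstance
  have hMn : M.Normal := inferInstance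
  refine ⟨?_, ?_⟩
  · have : ⁅y, a⁆ = y * (a * y⁻¹ * a⁻¹) := by rw [commutatorElement_def]; group
    rw [this]
    exact mul_mem hy.1 (hPn.conj_mem _ (inv_mem hy.1) _)
  · set c := ⁅x, y⁆ with hc
    have hcN : c ∈ N := hcomm (commutator_mem_commutator hx hy)
    have hxa : a * x = x * a := mem_centralizer_iff.mp hx.2 a ha
    set m₁ := ⁅c, y⁻¹⁆ with hm₁
    have hm₁M : m₁ ∈ M := commutator_mem_commutator hcN (inv_mem hy.1)
    set e := a * (c⁻¹ * m₁) * a⁻¹ with he
    have heN : e ∈ N := hNn.conj_mem _ (mul_mem (inv_mem hcN) (hMN hm₁M)) _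
    have e1 : x * a = a * x := hxa.symm
    have e2 : x⁻¹ * a = a * x⁻¹ := by
      have := (Commute.inv_left (show Commute x a from e1)).eq
      exact this
    have e3 : a⁻¹ * x = x * a⁻¹ := by
      have := (Commute.inv_right (show Commute x a from e1)).eq
      exact this.symm
    have key : ⁅x, ⁅y, a⁆⁆ = (c * ⁅e, y⁆⁻¹ * c⁻¹) * ⁅c, a⁆ * (a * m₁ * a⁻¹) := by
      have e5 : c⁻¹ * m₁ = y⁻¹ * c⁻¹ * y := by
        rw [hm₁, commutatorElement_def]; group
      have e6 : (c * ⁅e, y⁆⁻¹ * c⁻¹) * ⁅c, a⁆ * (a * m₁ * a⁻¹) = c * (y * e * y⁻¹) := by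
        rw [he]
        simp only [commutatorElement_def]
        group
      rw [e6, he, e5, hc]
      have e7 : a⁻¹ * x⁻¹ * a = x⁻¹ := by
        have : a⁻¹ * x⁻¹ * a = (a⁻¹ * x * a)⁻¹ := by group
        rw [this, mul_assoc, e1, inv_mul_cancel_left]
      have e8 : x⁻¹ * a * x = a := by
        rw [mul_assoc, hxa, inv_mul_cancel_left]
      have e9 : ⁅x, ⁅y, a⁆⁆ = x * y * a * y⁻¹ * (a⁻¹ * x⁻¹ * a) * y * a⁻¹ * y⁻¹ := by
        simp only [commutatorElement_def]; group
      have e10 : ⁅x, y⁆ * (y * (a * (y⁻¹ * ⁅x, y⁆⁻¹ * y) * a⁻¹) * y⁻¹) =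
          x * y * (x⁻¹ * a * x) * y⁻¹ * x⁻¹ * y * a⁻¹ * y⁻¹ := by
        simp only [commutatorElement_def]; group
      rw [e9, e10, e7, e8]
    rw [key]
    refine mul_mem (mul_mem ?_ (hXN a ha c hcN)) ?_
    · exact le_sup_right (a := N ⊓ centralizer (X₂ : Set S)) (hMn.conj_mem _ (inv_mem (commutator_mem_commutator heN hy.1)) _)
    · exact le_sup_right (a := N ⊓ centralizer (X₂ : Set S)) (hMn.conj_mem _ hm₁M _)

end



/-- Let S = PQ be a finite group with P a normal Sylow p-subgroup and Q elementary abelian of order q², q a prime different from p. If exactly two subgroups X₁, X₂ of order q in Q have a nontrivial centralizer in P, then P is the internal direct product of C_P(X₁) and C_P(X₂): they commute elementwise, meet trivially and generate P. -/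
theorem result {S : Type*} [Group S] [Finite S] {p q : ℕ} [Fact p.Prime] [Fact q.Prime] (hpq : p ≠ q)
    (P : Sylow p S) [(P : Subgroup S).Normal] (Q : Subgroup S) (hQ : Cfsg.IsElementaryAbelian q Q) (hQc : Nat.card Q = q ^ 2)
    (hS : (P : Subgroup S) ⊔ Q = ⊤)
    (X₁ X₂ : Subgroup S) (h₁ : X₁ ≤ Q) (h₂ : X₂ ≤ Q) (h₁₂ : X₁ ≠ X₂) (hc₁ : Nat.card X₁ = q) (hc₂ : Nat.card X₂ = q)
    (hf₁ : (P : Subgroup S) ⊓ Subgroup.centralizer (X₁ : Set S) ≠ ⊥)
    (hf₂ : (P : Subgroup S) ⊓ Subgroup.centralizer (X₂ : Set S) ≠ ⊥)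
    (honly : ∀ X : Subgroup S, X ≤ Q → Nat.card X = q →
      (P : Subgroup S) ⊓ Subgroup.centralizer (X : Set S) ≠ ⊥ → X = X₁ ∨ X = X₂) :
    ⁅(P : Subgroup S) ⊓ Subgroup.centralizer (X₁ : Set S), (P : Subgroup S) ⊓ Subgroup.centralizer (X₂ : Set S)⁆ = ⊥ ∧
      ((P : Subgroup S) ⊓ Subgroup.centralizer (X₁ : Set S)) ⊓ ((P : Subgroup S) ⊓ Subgroup.centralizer (X₂ : Set S)) = ⊥ ∧
      ((P : Subgroup S) ⊓ Subgroup.centralizer (X₁ : Set S)) ⊔ ((P : Subgroup S) ⊓ Subgroup.centralizer (X₂ : Set S)) = P := by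
  have hpq' : p.Coprime q := (Nat.coprime_primes Fact.out Fact.out).mpr hpq
  have hPp : IsPGroup p (P : Subgroup S) := P.isPGroup'
  have hcopP : ∀ K : Subgroup S, K ≤ (P : Subgroup S) → (Nat.card K).Coprime q := by
    intro K hK
    obtain ⟨k, hk⟩ := IsPGroup.iff_card.mp (hPp.to_le hK)
    rw [hk]
    exact Nat.Coprime.pow_left k hpq'
  have hcommQ : ∀ a ∈ Q, ∀ b ∈ Q, a * b = b * a := fun a ha b hb => H13.ElemAb.comm hQ ha hb
  have hcentz : ∀ a : S, Subgroup.centralizer ({a} : Set S) = Subgroup.centralizer (Subgroup.zpowers a : Set S) := by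
    intro a
    ext z
    rw [Subgroup.mem_centralizer_singleton_iff, Subgroup.mem_centralizer_iff]
    constructor
    · rintro h _ ⟨k, rfl⟩
      exact ((show Commute z a from h).zpow_right k).eq.symm
    · intro h
      exact (h a (Subgroup.mem_zpowers a)).symm
  have hzcard : ∀ a ∈ Q, a ≠ 1 → Nat.card (Subgroup.zpowers a) = q := by
    intro a ha ha1
    rw [Nat.card_zpowers]
    exact orderOf_eq_prime (hQ.2 a ha) ha1
  have hq1 : 1 < q := (Fact.out : q.Prime).one_lt
  -- generators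
  obtain ⟨a, haX, ha1⟩ : ∃ a ∈ X₁, a ≠ 1 := by
    have : X₁ ≠ ⊥ := by intro h; rw [h, Subgroup.card_bot] at hc₁; omega
    obtain ⟨a, ha⟩ := Subgroup.ne_bot_iff_exists_ne_one.mp this
    exact ⟨a, a.2, fun h => ha (Subtype.ext h)⟩
  obtain ⟨b, hbX, hb1⟩ : ∃ a ∈ X₂, a ≠ 1 := by
    have : X₂ ≠ ⊥ := by intro h; rw [h, Subgroup.card_bot] at hc₂; omega
    obtain ⟨a, ha⟩ := Subgroup.ne_bot_iff_exists_ne_one.mp this
    exact ⟨a, a.2, fun h => ha (Subtype.ext h)⟩
  have hXa : Subgroup.zpowers a = X₁ :=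
    Subgroup.eq_of_le_of_card_ge (Subgroup.zpowers_le.mpr haX) (by rw [hzcard a (h₁ haX) ha1, hc₁])
  have hXb : Subgroup.zpowers b = X₂ :=
    Subgroup.eq_of_le_of_card_ge (Subgroup.zpowers_le.mpr hbX) (by rw [hzcard b (h₂ hbX) hb1, hc₂])
  have hX12 : X₁ ⊓ X₂ = ⊥ := by
    by_contra hne
    apply h₁₂
    have h1 : Nat.card (X₁ ⊓ X₂ : Subgroup S) ∣ q := by
      conv_rhs => rw [← hc₁]
      exact Subgroup.card_dvd_of_le inf_le_left
    rcases (Nat.dvd_prime (Fact.out : q.Prime)).mp h1 with h | h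
    · exact absurd (Subgroup.card_eq_one.mp h) hne
    · have h2 : X₁ ⊓ X₂ = X₁ := Subgroup.eq_of_le_of_card_ge inf_le_left (by rw [h, hc₁])
      have h3 : X₁ ⊓ X₂ = X₂ := Subgroup.eq_of_le_of_card_ge inf_le_right (by rw [h, hc₂])
      rw [← h2, h3]
  have hsup : X₁ ⊔ X₂ = Q := by
    apply Subgroup.eq_of_le_of_card_ge (sup_le h₁ h₂)
    have hn : X₁ ≤ Subgroup.normalizer (X₂ : Set S) := by
      apply H1.Coprime.le_normalizer_of_conj_mem
      intro a ha x hx
      rw [hcommQ a (h₁ ha) x (h₂ hx), mul_inv_cancel_right]; exact hx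
    have := H13.Thompson.card_sup_mul_card_inf hn
    rw [hX12, Subgroup.card_bot, mul_one, hc₁, hc₂] at this
    rw [this, hQc, sq]
  have hfix : (P : Subgroup S) ⊓ Subgroup.centralizer (Q : Set S) = ⊥ := by
    by_contra hne
    have hab : a * b ∈ Q := mul_mem (h₁ haX) (h₂ hbX)
    have hab1 : a * b ≠ 1 := by
      intro h
      have : a ∈ X₁ ⊓ X₂ := by
        refine ⟨haX, ?_⟩
        rw [eq_inv_of_mul_eq_one_left h]; exact Subgroup.inv_mem _ hbX
      rw [hX12, Subgroup.mem_bot] at this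
      exact ha1 this
    have h1 := honly (Subgroup.zpowers (a * b)) (Subgroup.zpowers_le.mpr hab) (hzcard _ hab hab1) (by
      intro h
      apply hne
      rw [eq_bot_iff, ← h]
      exact inf_le_inf_left _ (Subgroup.centralizer_le (Subgroup.zpowers_le.mpr hab)))
    rcases h1 with h1 | h1
    · have h2 : a * b ∈ X₁ := by rw [← h1]; exact Subgroup.mem_zpowers _
      have h3 : b ∈ X₁ ⊓ X₂ := by
        refine ⟨?_, hbX⟩
        have : b = a⁻¹ * (a * b) := by group
        rw [this]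
        exact Subgroup.mul_mem _ (Subgroup.inv_mem _ haX) h2
      rw [hX12, Subgroup.mem_bot] at h3
      exact hb1 h3
    · have h2 : a * b ∈ X₂ := by rw [← h1]; exact Subgroup.mem_zpowers _
      have h3 : a ∈ X₁ ⊓ X₂ := by
        refine ⟨haX, ?_⟩
        have : a = (a * b) * b⁻¹ := by group
        rw [this]
        exact Subgroup.mul_mem _ h2 (Subgroup.inv_mem _ hbX)
      rw [hX12, Subgroup.mem_bot] at h3
      exact ha1 h3
  have h12 : ((P : Subgroup S) ⊓ Subgroup.centralizer (X₁ : Set S)) ⊓ ((P : Subgroup S) ⊓ Subgroup.centralizer (X₂ : Set S)) = ⊥ := by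
    rw [eq_bot_iff, ← hfix]
    refine le_inf (inf_le_left.trans inf_le_left) ?_
    intro z hz
    have h3 : Q ≤ Subgroup.centralizer ({z} : Set S) := by
      rw [← hsup]
      refine sup_le ?_ ?_
      · intro x hx
        rw [Subgroup.mem_centralizer_singleton_iff]
        exact Subgroup.mem_centralizer_iff.mp hz.1.2 x hx
      · intro x hx
        rw [Subgroup.mem_centralizer_singleton_iff]
        exact Subgroup.mem_centralizer_iff.mp hz.2.2 x hx
    rw [Subgroup.mem_centralizer_iff]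
    intro x hx
    exact Subgroup.mem_centralizer_singleton_iff.mp (h3 hx)
  have hQn : ∀ K : Subgroup S, K.Normal → Q ≤ Subgroup.normalizer (K : Set S) := by
    intro K hK
    rw [Subgroup.normalizer_eq_top]; exact le_top
  have hcardlt : ∀ A B : Subgroup S, A < B → Nat.card A < Nat.card B := by
    intro A B hAB
    by_contra hcon
    exact hAB.ne (Subgroup.eq_of_le_of_card_ge hAB.le (not_lt.mp hcon))
  -- main induction
  have main : ∀ n : ℕ, ∀ N : Subgroup S, Nat.card N = n → N.Normal → N ≤ (P : Subgroup S) → ⁅((P : Subgroup S) ⊓ Subgroup.centralizer (X₁ : Set S)), ((P : Subgroup S) ⊓ Subgroup.centralizer (X₂ : Set S))⁆ ≤ N → ⁅((P : Subgroup S) ⊓ Subgroup.centralizer (X₁ : Set S)), ((P : Subgroup S) ⊓ Subgroup.centralizer (X₂ : Set S))⁆ = ⊥ := by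
    intro n
    induction n using Nat.strong_induction_on with
    | _ n ih =>
    intro N hn hN hNP hcN
    by_cases hne : N = ⊥
    · rw [hne] at hcN; exact le_bot_iff.mp hcN
    · haveI := hN
      have hlt : ⁅N, (P : Subgroup S)⁆ < N :=
        H1.Coprime2.commutator_lt_of_isPGroup hPp (hPp.to_le hNP) (by rw [Subgroup.normalizer_eq_top]; exact le_top) hne
      have hM : (⁅N, (P : Subgroup S)⁆ : Subgroup S).Normal := inferInstance
      refine ih (Nat.card (⁅N, (P : Subgroup S)⁆ : Subgroup S)) ?_ _ rfl hM (hlt.le.trans hNP) ?_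
      · rw [← hn]
        exact hcardlt _ _ hlt
      · have s0 := step hpq (P : Subgroup S) Q X₁ X₂ N hPp hQ hQc.ge h₁ h₂ hc₁ honly h12 hNP
        have s1 := s0 hcN
        have s3 := step hpq (P : Subgroup S) Q X₂ X₁ N hPp hQ hQc.ge h₂ h₁ hc₂ (fun X h1 h2 h3 => (honly X h1 h2 h3).symm)
          (by rw [inf_comm]; exact h12) hNP
        have hcN' := hcN
        rw [Subgroup.commutator_comm] at hcN'
        have s2 := s3 hcN'
        rw [Subgroup.commutator_comm] at s2
        intro w hw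
        have hw1 := s1 hw
        have hw2 := s2 hw
        set M := ⁅N, (P : Subgroup S)⁆ with hM'
        have hcen : ∀ X : Subgroup S, w ∈ (N ⊓ Subgroup.centralizer (X : Set S)) ⊔ M → ∀ x ∈ X, x * w * x⁻¹ * w⁻¹ ∈ M := by
          intro X hX x hx
          obtain ⟨c, hc, m, hm, rfl⟩ := H37.Syl.exists_mul_of_mem_sup (A := N ⊓ Subgroup.centralizer (X : Set S)) (B := M)
            (by rw [Subgroup.normalizer_eq_top]; exact le_top) hX
          have h1 : x * c * x⁻¹ = c := by
            rw [Subgroup.mem_centralizer_iff.mp hc.2 x hx, mul_inv_cancel_right]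
          have h2 : x * (c * m) * x⁻¹ * (c * m)⁻¹ = (x * c * x⁻¹) * (x * m * x⁻¹) * m⁻¹ * c⁻¹ := by group
          rw [h2, h1]
          have h3 : c * (x * m * x⁻¹) * m⁻¹ * c⁻¹ = c * ((x * m * x⁻¹) * m⁻¹) * c⁻¹ := by group
          rw [h3]
          exact hM.conj_mem _ (mul_mem (hM.conj_mem _ hm _) (inv_mem hm)) _
        have hQw : ∀ x ∈ Q, x * w * x⁻¹ * w⁻¹ ∈ M := by
          intro x hx
          rw [← hsup] at hx
          obtain ⟨u, hu, v, hv, rfl⟩ := H37.Syl.exists_mul_of_mem_sup (A := X₁) (B := X₂) (by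
            apply H1.Coprime.le_normalizer_of_conj_mem
            intro a ha x hx
            rw [hcommQ a (h₁ ha) x (h₂ hx), mul_inv_cancel_right]; exact hx) hx
          have e1 := hcen X₂ hw1 v hv
          have e2 := hcen X₁ hw2 u hu
          have e3 : u * v * w * (u * v)⁻¹ * w⁻¹ = u * (v * w * v⁻¹ * w⁻¹) * u⁻¹ * (u * w * u⁻¹ * w⁻¹) := by group
          rw [e3]
          exact mul_mem (hM.conj_mem _ e1 _) e2
        have hsolv : Group.IsSolvable N := by
          haveI := (hPp.to_le hNP).isNilpotent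
          infer_instance
        obtain ⟨c, hc, hcM⟩ := H1.Coprime.exists_fixed_of_coset_fixed Q N (hQn N hN)
          (by rw [hQc]; exact Nat.Coprime.pow_left 2 (hcopP N hNP).symm) (Or.inr hsolv) M hlt.le
          (by rw [Subgroup.normalizer_eq_top]; exact le_top) (hQn M hM) w (hcN hw) hQw
        have hc1 : c ∈ (P : Subgroup S) ⊓ Subgroup.centralizer (Q : Set S) := ⟨hNP hc.1, hc.2⟩
        rw [hfix, Subgroup.mem_bot] at hc1
        rw [hc1, mul_one] at hcM
        exact inv_mem_iff.mp hcM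
  refine ⟨main _ (P : Subgroup S) rfl inferInstance le_rfl
    ((Subgroup.commutator_mono inf_le_left le_rfl).trans ((Subgroup.commutator_mono le_rfl inf_le_left).trans (Subgroup.commutator_le_left _ _))), h12, ?_⟩
  apply le_antisymm (sup_le inf_le_left inf_le_left)
  apply H27.GenSub.le_of_centralizers q Q (P : Subgroup S) _ hQ hQc.ge (hQn _ inferInstance)
  · intro h
    have := hcopP P le_rfl
    rw [Nat.coprime_comm, Nat.Prime.coprime_iff_not_dvd Fact.out] at this
    exact this h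
  · intro x hx hx1
    rw [hcentz]
    by_cases hb : (P : Subgroup S) ⊓ Subgroup.centralizer (Subgroup.zpowers x : Set S) = ⊥
    · rw [hb]; exact bot_le
    · rcases honly _ (Subgroup.zpowers_le.mpr hx) (hzcard x hx hx1) hb with h | h
      · rw [h]; exact le_sup_left
      · rw [h]; exact le_sup_right

end Cfsg.Agent.S1900
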