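import Cfsg.Statements.S1901
import Cfsg.Agent.Lib.H37.PSolv

set_option autoImplicit false
open Cfsg

namespace Cfsg.Agent.S1901

open Subgroup

/-- key lemma: a `p`-subgroup `T` normalizing a `p'`-subgroup `Q` that normalizes a Sylow `p`-subgroup centralizes `Q` -/
theorem key {p : ℕ} [hp : Fact p.Prime] (n : ℕ) : ∀ {G : Type _} [Group G] [Finite G], Nat.card G = n →
    Cfsg.IsPSolvable p G → ∀ P Q T : Subgroup G, IsPGroup p P → P.index.Coprime p → (Nat.card Q).Coprime p →
    IsPGroup p T → Q ≤ normalizer (P : Set G) → T ≤ normalizer (Q : Set G) → ⁅Q, T⁆ = ⊥ := by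
  induction n using Nat.strong_induction_on with
  | _ n ih =>
  intro G _ _ hn hG P Q T hP hPi hQ hT hQP hTQ
  by_cases hnt : Nontrivial G
  swap
  · rw [not_nontrivial_iff_subsingleton] at hnt
    exact Subsingleton.elim _ _
  have red : ∀ N : Subgroup G, N.Normal → N ≠ ⊥ → ⁅Q, T⁆ ≤ N := by
    intro N hN hne
    have hcard : Nat.card (G ⧸ N) < n := by
      rw [← hn]
      have h1 := N.card_eq_card_quotient_mul_card_subgroup
      rw [h1]
      have h2 : 1 < Nat.card N := by
        rw [Subgroup.one_lt_card_iff_ne_bot]; exact hne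
      exact lt_mul_of_one_lt_right Nat.card_pos h2
    have h := ih _ hcard rfl (H37.PSolv.quotient hG N) (P.map (QuotientGroup.mk' N)) (Q.map (QuotientGroup.mk' N))
      (T.map (QuotientGroup.mk' N)) (hP.map _)
      (Nat.Coprime.coprime_dvd_left (P.index_map_dvd (QuotientGroup.mk'_surjective N)) hPi)
      (Nat.Coprime.coprime_dvd_left (Q.card_map_dvd _) hQ) (hT.map _)
      (by
        refine (Subgroup.map_mono hQP).trans ?_
        exact Subgroup.le_normalizer_map _)
      (by
        refine (Subgroup.map_mono hTQ).trans ?_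
        exact Subgroup.le_normalizer_map _)
    rw [← Subgroup.map_commutator, Subgroup.map_eq_bot_iff, QuotientGroup.ker_mk'] at h
    exact h
  have hcopTQ : (Nat.card T).Coprime (Nat.card Q) := H1.Cores.coprime_card_of_isPGroup hT hQ
  haveI : Group.IsSolvable T := by
    haveI := hT.isNilpotent; infer_instance
  rcases H37.PSolv.core_ne_bot hG with h1 | h1
  · have h2 := red _ inferInstance h1
    have h3 : ⁅Q, T⁆ ≤ Q := H1.Coprime2.commutator_le_left hTQ
    rw [eq_bot_iff, ← H1.Cores.disjoint_of_isPGroup (H1.Cores.isPGroup_pCore (G := G) p) hQ]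
    exact le_inf h2 h3
  · set D := pPrimeCore p G with hD
    have hDc : (Nat.card D).Coprime p := H1.Cores.coprime_card_pPrimeCore p
    have h2 := red D inferInstance h1
    have h3 : ⁅Q, T⁆ ≤ Q := H1.Coprime2.commutator_le_left hTQ
    -- Q ∩ D centralizes P
    have h4 : P ≤ centralizer ((Q ⊓ D : Subgroup G) : Set G) := by
      rw [← Subgroup.commutator_eq_bot_iff_le_centralizer, eq_bot_iff,
        ← H1.Cores.disjoint_of_isPGroup hP hDc]
      refine le_inf ?_ ?_
      · exact H1.Coprime2.commutator_le_left (inf_le_left.trans hQP)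
      · exact (Subgroup.commutator_mono le_rfl inf_le_right).trans (Subgroup.commutator_le_right _ _)
    have h5 : T ≤ normalizer ((Q ⊓ D : Subgroup G) : Set G) :=
      H1.Coprime2.le_normalizer_inf hTQ (by rw [Subgroup.normalizer_eq_top]; exact le_top)
    have h6 : T ≤ centralizer ((Q ⊓ D : Subgroup G) : Set G) := by
      set N := normalizer ((Q ⊓ D : Subgroup G) : Set G) with hN
      set C := centralizer ((Q ⊓ D : Subgroup G) : Set G) with hC
      have hCN : C ≤ N := Subgroup.centralizer_le_normalizer _
      haveI : (C.subgroupOf N).Normal := by infer_instance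
      have hidx : ((C.subgroupOf N).index).Coprime p := by
        refine Nat.Coprime.coprime_dvd_left ?_ hPi
        have e1 : (C.subgroupOf N).index = C.relIndex N := rfl
        rw [e1]
        exact (Subgroup.relIndex_dvd_index_of_le hCN).trans (Subgroup.index_dvd_of_le h4)
      intro t ht
      have : (QuotientGroup.mk' (C.subgroupOf N)) ⟨t, h5 ht⟩ = 1 := by
        set x := (QuotientGroup.mk' (C.subgroupOf N)) ⟨t, h5 ht⟩ with hx
        have hx1 : orderOf x ∣ (C.subgroupOf N).index := by
          rw [Subgroup.index_eq_card]; exact orderOf_dvd_natCard x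
        obtain ⟨k, hk⟩ := hT ⟨t, ht⟩
        have hx2 : orderOf x ∣ p ^ k := by
          apply orderOf_dvd_of_pow_eq_one
          rw [hx, ← map_pow]
          have : (⟨t, h5 ht⟩ : N) ^ (p ^ k) = 1 := by
            apply Subtype.ext
            have := congrArg Subtype.val hk
            simpa using this
          rw [this, map_one]
        have h7 := Nat.Coprime.coprime_dvd_left hx1 (Nat.Coprime.coprime_dvd_right hx2 (Nat.Coprime.pow_right k hidx))
        rw [Nat.coprime_self] at h7
        exact orderOf_eq_one_iff.mp h7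
      exact Subgroup.mem_subgroupOf.mp ((QuotientGroup.eq_one_iff _).mp this)
    have h7 : ⁅(Q ⊓ D : Subgroup G), T⁆ = ⊥ := by
      rw [Subgroup.commutator_comm, Subgroup.commutator_eq_bot_iff_le_centralizer]; exact h6
    have h8 := H1.Coprime2.le_centralizer_of_series T Q (Q ⊓ D) hTQ hcopTQ (Or.inl inferInstance) (le_inf h3 h2) h7
    rw [Subgroup.commutator_comm, Subgroup.commutator_eq_bot_iff_le_centralizer]; exact h8



/-- Let G be a finite p-solvable group and Q a subgroup of order prime to p such that p divides the index of C_G(Q) in N_G(Q). Then Q normalizes no Sylow p-subgroup of G. -/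
theorem result {G : Type*} [Group G] [Finite G] {p : ℕ} [Fact p.Prime]
    (hG : Cfsg.IsPSolvable p G) (Q : Subgroup G) (hQ : ¬ p ∣ Nat.card Q)
    (hA : p ∣ (Subgroup.centralizer (Q : Set G)).relIndex (Subgroup.normalizer (Q : Set G)))
    (P : Sylow p G) : ¬ Q ≤ Subgroup.normalizer ((P : Subgroup G) : Set G) := by
  intro hQP
  set N := Subgroup.normalizer (Q : Set G) with hN
  set C := Subgroup.centralizer (Q : Set G) with hC
  obtain ⟨T⟩ : Nonempty (Sylow p N) := inferInstance
  have hTp : IsPGroup p ((T : Subgroup N).map N.subtype) := T.isPGroup'.map _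
  have h1 := key (p := p) (Nat.card G) (G := G) rfl hG P Q ((T : Subgroup N).map N.subtype) P.isPGroup'
    ((Nat.Prime.coprime_iff_not_dvd (Fact.out : p.Prime)).mpr P.not_dvd_index).symm
    ((Nat.Prime.coprime_iff_not_dvd (Fact.out : p.Prime)).mpr hQ).symm hTp hQP (Subgroup.map_subtype_le _)
  rw [Subgroup.commutator_comm, Subgroup.commutator_eq_bot_iff_le_centralizer] at h1
  have h2 : (T : Subgroup N) ≤ C.subgroupOf N := by
    intro x hx
    exact Subgroup.mem_subgroupOf.mpr (h1 ⟨x, hx, rfl⟩)
  exact T.not_dvd_index (hA.trans (Subgroup.index_dvd_of_le h2))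

end Cfsg.Agent.S1901
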