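import Cfsg.Statements.S1905
import Cfsg.Agent.Lib.H37.StrongEmb

set_option autoImplicit false
open Cfsg

namespace Cfsg.Agent.S1905

open Subgroup

/-- Let M be a subgroup of even order of a finite group S such that M contains the centralizer in S of each of its involutions and the normal core of M in S has odd order. Then all involutions of S are conjugate. If moreover N_S(X) ≤ M for a Sylow 2-subgroup X of M and I is an involution in the centre of X, then all involutions of M are conjugate in M and M = M₀ C_M(I) for some subgroup M₀ of M of odd order. -/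
theorem result {S : Type*} [Group S] [Finite S] (M : Subgroup S) (hM : Even (Nat.card M))
    (hC : ∀ i ∈ M, orderOf i = 2 → Subgroup.centralizer ({i} : Set S) ≤ M) (hcore : Odd (Nat.card M.normalCore)) :
    (∀ x y : S, orderOf x = 2 → orderOf y = 2 → IsConj x y) ∧
      ∀ (X : Sylow 2 M) (I : M), I ∈ (Subgroup.center ↥(X : Subgroup ↥M)).map (X : Subgroup ↥M).subtype → orderOf I = 2 →
        Subgroup.normalizer (((X : Subgroup M).map M.subtype : Subgroup S) : Set S) ≤ M →
        (∀ x y : M, orderOf x = 2 → orderOf y = 2 → IsConj x y) ∧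
          ∃ M₀ : Subgroup M, Odd (Nat.card M₀) ∧
            ∀ m : M, ∃ a ∈ M₀, ∃ c ∈ Subgroup.centralizer ({I} : Set M), m = a * c := by
  classical
  -- an involution in M
  haveI : Fact (Nat.Prime 2) := ⟨Nat.prime_two⟩
  obtain ⟨⟨i₀, hi₀M⟩, hi₀⟩ := exists_prime_orderOf_dvd_card' (G := M) 2 (even_iff_two_dvd.mp hM)
  have hi₀2 : orderOf i₀ = 2 := by
    rw [← hi₀]; exact orderOf_injective M.subtype M.subtype_injective ⟨i₀, hi₀M⟩
  -- an involution not conjugate to an involution of M lies in M
  have claimA : ∀ a b : S, a ∈ M → orderOf a = 2 → orderOf b = 2 → ¬ IsConj a b → b ∈ M := by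
    intro a b ha ha2 hb2 hab
    obtain ⟨t, ht, ht2⟩ := H37.Invol.exists_invol ha2 hb2 hab
    obtain ⟨h1, h2⟩ := H37.Invol.commute_of_mem_zpowers (H37.Invol.mul_self_of_order_two ha2)
      (H37.Invol.mul_self_of_order_two hb2) ht (H37.Invol.mul_self_of_order_two ht2)
    have htM : t ∈ M := hC a ha ha2 (by rw [mem_centralizer_singleton_iff]; exact h1.symm)
    exact hC t htM ht2 (by rw [mem_centralizer_singleton_iff]; exact h2)
  -- i₀ is not in the core
  have hcore' : i₀ ∉ M.normalCore := by
    intro h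
    have h1 : orderOf (⟨i₀, h⟩ : M.normalCore) = 2 := by
      rw [← hi₀2]; exact (orderOf_injective M.normalCore.subtype M.normalCore.subtype_injective ⟨i₀, h⟩).symm
    have h2 : 2 ∣ Nat.card M.normalCore := by rw [← h1]; exact orderOf_dvd_natCard _
    exact absurd (even_iff_two_dvd.mpr h2) (by rw [Nat.not_even_iff_odd]; exact hcore)
  have hconj : ∀ x y : S, orderOf x = 2 → orderOf y = 2 → IsConj x y := by
    intro x y hx hy
    by_contra hxy
    -- one of x, y is not conjugate to i₀
    obtain ⟨y', hy'2, hy'⟩ : ∃ y' : S, orderOf y' = 2 ∧ ¬ IsConj i₀ y' := by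
      by_cases h : IsConj i₀ x
      · exact ⟨y, hy, fun h2 => hxy (h.symm.trans h2)⟩
      · exact ⟨x, hx, h⟩
    have hy'M : y' ∈ M := claimA i₀ y' hi₀M hi₀2 hy'2 hy'
    apply hcore'
    intro g
    have h1 : IsConj i₀ (g * i₀ * g⁻¹) := isConj_iff.mpr ⟨g, rfl⟩
    apply claimA y' _ hy'M hy'2
    · rw [← H37.Invol.conj_orderOf h1]; exact hi₀2
    · intro h2; exact hy' (h1.trans h2.symm)
  refine ⟨hconj, ?_⟩
  intro X I hI hI2 hN
  have hMt : M ≠ ⊤ := by
    rintro rfl
    apply hcore'
    intro g; trivial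
  have hI2' : orderOf (I : S) = 2 := by
    rw [← hI2]; exact orderOf_injective M.subtype M.subtype_injective I
  -- X is Sylow in S
  obtain ⟨Q, hQ⟩ := H37.StrongEmb.exists_sylow_eq ((X : Subgroup M).map M.subtype) (X.isPGroup'.map _) (by
    intro R hR hXR hRN
    have hRM : R ≤ M := hRN.trans hN
    have h1 : (X : Subgroup M) ≤ R.subgroupOf M := by
      intro x hx
      rw [mem_subgroupOf]
      exact hXR ⟨x, hx, rfl⟩
    have h2 : R.subgroupOf M = X := X.is_maximal' (hR.of_equiv (subgroupOfEquivOfLe hRM).symm) h1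
    have h3 : (R.subgroupOf M).map M.subtype = R := by
      rw [subgroupOf_map_subtype, inf_eq_left.mpr hRM]
    rw [← h3, h2])
  have hQM : (Q : Subgroup S) ≤ M := by rw [hQ]; exact map_subtype_le _
  have hS : ∀ g j : S, orderOf j = 2 → j ∈ M → g⁻¹ * j * g ∈ M → g ∈ M := by
    intro g j hj hjM hjg
    exact H37.StrongEmb.mem_of_meet M hC Q hQM (by rw [hQ]; exact hN) hj hjM hjg
  constructor
  · intro x y hx hy
    have hx' : orderOf (x : S) = 2 := by rw [← hx]; exact orderOf_injective M.subtype M.subtype_injective x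
    have hy' : orderOf (y : S) = 2 := by rw [← hy]; exact orderOf_injective M.subtype M.subtype_injective y
    obtain ⟨g, hg⟩ := isConj_iff.mp (hconj x y hx' hy')
    have hgM : g ∈ M := by
      apply hS g y hy' y.2
      rw [← hg]
      have : g⁻¹ * (g * (x : S) * g⁻¹) * g = x := by group
      rw [this]; exact x.2
    exact isConj_iff.mpr ⟨⟨g, hgM⟩, Subtype.ext hg⟩
  · obtain ⟨t, htM, ht2, ht⟩ := H37.StrongEmb.exists_factorization M hMt hC hS hconj I I.2 hI2'
    let D : Subgroup S := M ⊓ M.map (MulAut.conj t).toMonoidHom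
    have hDmem : ∀ x : S, x ∈ D ↔ x ∈ M ∧ t⁻¹ * x * t ∈ M := by
      intro x
      constructor
      · rintro ⟨h1, y, hy, rfl⟩
        refine ⟨h1, ?_⟩
        have : t⁻¹ * ((MulAut.conj t).toMonoidHom y) * t = y := by
          show t⁻¹ * (t * y * t⁻¹) * t = y
          group
        rw [this]; exact hy
      · rintro ⟨h1, h2⟩
        refine ⟨h1, t⁻¹ * x * t, h2, ?_⟩
        show t * (t⁻¹ * x * t) * t⁻¹ = x
        group
    refine ⟨D.subgroupOf M, ?_, ?_⟩
    · rw [← Nat.not_even_iff_odd]
      intro heven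
      obtain ⟨⟨z, hz⟩, hz2⟩ := exists_prime_orderOf_dvd_card' (G := D.subgroupOf M) 2 (even_iff_two_dvd.mp heven)
      have hz2' : orderOf (z : S) = 2 := by
        rw [← hz2, ← orderOf_injective (D.subgroupOf M).subtype (D.subgroupOf M).subtype_injective,
          ← orderOf_injective M.subtype M.subtype_injective]
        rfl
      rw [mem_subgroupOf] at hz
      obtain ⟨h1, h2⟩ := (hDmem z).mp hz
      exact htM (hS t z hz2' h1 h2)
    · intro m
      obtain ⟨k, hk, hkt, hkm⟩ := ht m m.2
      refine ⟨⟨k, hk⟩, ?_, ⟨k, hk⟩⁻¹ * m, ?_, ?_⟩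
      · rw [mem_subgroupOf]
        exact (hDmem k).mpr ⟨hk, hkt⟩
      · rw [mem_centralizer_singleton_iff] at hkm ⊢
        exact Subtype.ext hkm
      · rw [mul_inv_cancel_left]

end Cfsg.Agent.S1905
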