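import Cfsg.Statements.S1906
import Cfsg.Agent.Lib.H78.TrPar
import Cfsg.Agent.Lib.H42.TwoRank
import Cfsg.Agent.Lib.H72.PGroupCenter

set_option autoImplicit false
open Cfsg

namespace Cfsg.Agent.S1906


open Module in
theorem repr_dg {F V : Type*} [Field F] [AddCommGroup V] [Module F V] {ι : Type*} [Fintype ι] [DecidableEq ι]
    (b : Basis ι F V) (ε : ι → ℤˣ) (v : V) (j : ι) :
    b.repr (H42.TwoRank.dg b ε v) j = ((ε j : ℤ) : F) * b.repr v j := by
  have h1 : b.repr.toLinearMap ∘ₗ ((H42.TwoRank.dg b ε : V ≃ₗ[F] V) : V →ₗ[F] V) =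
      (Finsupp.lmapDomain F F (id : ι → ι)) ∘ₗ (b.repr.toLinearMap ∘ₗ H42.TwoRank.dgL b ε) := by
    ext i
    simp [H42.TwoRank.coe_dg]
  have h2 : ∀ w : V, b.coord j (H42.TwoRank.dgL b ε w) = ((ε j : ℤ) : F) * b.coord j w := by
    intro w
    have : b.coord j ∘ₗ H42.TwoRank.dgL b ε = ((ε j : ℤ) : F) • b.coord j := by
      apply b.ext
      intro i
      rw [LinearMap.comp_apply, H42.TwoRank.dgL_apply, map_smul, LinearMap.smul_apply]
      rcases eq_or_ne i j with rfl | h
      · rfl
      · simp [h]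
    have := congrArg (fun L : V →ₗ[F] F => L w) this
    simpa using this
  exact h2 v

open Module in
/-- linear maps commuting with all sign operators commute with each other -/
theorem comm_of_comm_dg {F V : Type*} [Field F] [AddCommGroup V] [Module F V] {ι : Type*} [Fintype ι] [DecidableEq ι]
    (h2 : (2 : F) ≠ 0) (b : Basis ι F V) (x y : V ≃ₗ[F] V)
    (hx : ∀ ε : ι → ℤˣ, x * H42.TwoRank.dg b ε = H42.TwoRank.dg b ε * x)
    (hy : ∀ ε : ι → ℤˣ, y * H42.TwoRank.dg b ε = H42.TwoRank.dg b ε * y) : x * y = y * x := by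
  have key : ∀ z : V ≃ₗ[F] V, (∀ ε : ι → ℤˣ, z * H42.TwoRank.dg b ε = H42.TwoRank.dg b ε * z) →
      ∀ i, ∃ c : F, z (b i) = c • b i := by
    intro z hz i
    refine ⟨b.repr (z (b i)) i, ?_⟩
    apply b.repr.injective
    ext j
    rw [map_smul, Basis.repr_self, Finsupp.smul_apply, smul_eq_mul]
    rcases eq_or_ne i j with rfl | h
    · simp
    · rw [Finsupp.single_eq_of_ne (Ne.symm h), mul_zero]
      have h3 := congrArg (fun w : V ≃ₗ[F] V => b.repr (w (b i)) j) (hz (Pi.mulSingle i (-1)))
      change b.repr (z (H42.TwoRank.dg b (Pi.mulSingle i (-1)) (b i))) j =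
        b.repr (H42.TwoRank.dg b (Pi.mulSingle i (-1)) (z (b i))) j at h3
      rw [repr_dg, H42.TwoRank.dg_apply, Pi.mulSingle_eq_same, Pi.mulSingle_eq_of_ne (Ne.symm h), map_smul, map_smul] at h3
      simp only [Finsupp.smul_apply, smul_eq_mul, Units.val_neg, Units.val_one, Int.cast_neg, Int.cast_one] at h3
      have h4 : (2 : F) * b.repr (z (b i)) j = 0 := by linear_combination -h3
      rcases mul_eq_zero.1 h4 with h5 | h5
      · exact absurd h5 h2
      · exact h5
  apply LinearEquiv.toLinearMap_injective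
  apply b.ext
  intro i
  obtain ⟨c, hc⟩ := key x hx i
  obtain ⟨d, hd⟩ := key y hy i
  change x (y (b i)) = y (x (b i))
  rw [hc, hd, map_smul, map_smul, hc, hd, smul_smul, smul_smul, mul_comm]


/-- Let G be a finite group with no subgroup of index 2 whose Sylow 2-subgroup X embeds in GL₃(F) for a finite field F of odd order. If X contains an elementary abelian subgroup of order 8, then X is abelian. -/
theorem result {G : Type*} [Group G] [Finite G] (hG : ∀ H : Subgroup G, H.index ≠ 2) (X : Sylow 2 G)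
    {F : Type*} [Field F] [Fintype F] (hF : Odd (Fintype.card F))
    (f : ↥(X : Subgroup G) →* GL (Fin 3) F) (hf : Function.Injective f)
    (E : Subgroup G) (hE : E ≤ (X : Subgroup G)) (hEa : Cfsg.IsElementaryAbelian 2 E) (hE8 : Nat.card E = 8) :
    IsMulCommutative (X : Subgroup G) := by

  classical
  haveI : Fact (Nat.Prime 2) := ⟨Nat.prime_two⟩
  have h2 : (2 : F) ≠ 0 := by
    apply Ring.two_ne_zero
    intro h
    have := FiniteField.even_card_of_char_two h
    rw [← Nat.not_even_iff_odd] at hF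
    exact hF (by rwa [Nat.even_iff])
  have hm1 : (-1 : Fˣ) ≠ 1 := by
    intro h
    apply h2
    have h3 := congrArg (fun u : Fˣ => (u : F)) h
    simp only [Units.val_neg, Units.val_one] at h3
    linear_combination -h3
  let V := Fin 3 → F
  have hfr : Module.finrank F V = 3 := by simp [V]
  let φ : ↥(X : Subgroup G) →* (V ≃ₗ[F] V) :=
    ((LinearMap.GeneralLinearGroup.generalLinearEquiv F V).toMonoidHom.comp
      (Matrix.GeneralLinearGroup.toLin (n := Fin 3) (R := F)).toMonoidHom).comp f
  haveI hfinV : Finite (V ≃ₗ[F] V) := by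
    haveI : Finite (V → V) := inferInstance
    exact Finite.of_injective (fun e : V ≃ₗ[F] V => (e : V → V)) (fun a b h => LinearEquiv.ext (congrFun h))
  have hφ : Function.Injective φ := by
    intro x y hxy
    apply hf
    exact (Matrix.GeneralLinearGroup.toLin (n := Fin 3) (R := F)).injective
      ((LinearMap.GeneralLinearGroup.generalLinearEquiv F V).injective hxy)
  let E' : Subgroup ↥(X : Subgroup G) := E.subgroupOf X
  have hE'8 : Nat.card E' = 8 := by
    rw [← hE8]
    exact Nat.card_congr (Subgroup.subgroupOfEquivOfLe hE).toEquiv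
  have hE'c : ∀ a ∈ E', ∀ b ∈ E', a * b = b * a := by
    intro a ha b hb
    apply Subtype.ext
    have := hEa.1.is_comm.comm ⟨(a : G), ha⟩ ⟨(b : G), hb⟩
    exact congrArg (fun w : ↥E => (w : G)) this
  have hE's : ∀ a ∈ E', a ^ 2 = 1 := by
    intro a ha
    apply Subtype.ext
    exact hEa.2 _ ha
  -- commuting subgroups of exponent two have order dividing 8
  have hdvd : ∀ K : Subgroup ↥(X : Subgroup G), (∀ a ∈ K, ∀ b ∈ K, a * b = b * a) → (∀ a ∈ K, a ^ 2 = 1) →
      Nat.card K ∣ 8 := by
    intro K hKc hKs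
    have h3 := H42.TwoRank.card_dvd_two_pow (V := V) h2 (K.map φ)
      (by rintro _ ⟨a, ha, rfl⟩ _ ⟨b, hb, rfl⟩; rw [← map_mul, ← map_mul, hKc a ha b hb])
      (by rintro _ ⟨a, ha, rfl⟩; rw [← map_pow, hKs a ha, map_one])
    rw [hfr] at h3
    rw [Nat.card_congr (K.equivMapOfInjective φ hφ).toEquiv]
    exact h3
  -- the basis
  obtain ⟨b, hb⟩ := H42.TwoRank.exists_le_range (V := V) h2 (E'.map φ)
      (by rintro _ ⟨a, ha, rfl⟩ _ ⟨b, hb, rfl⟩; rw [← map_mul, ← map_mul, hE'c a ha b hb])
      (by rintro _ ⟨a, ha, rfl⟩; rw [← map_pow, hE's a ha, map_one])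
  have hrange : E'.map φ = (H42.TwoRank.dg b).range := by
    apply Subgroup.eq_of_le_of_card_ge hb
    rw [← Nat.card_congr (E'.equivMapOfInjective φ hφ).toEquiv, hE'8]
    have h3 : Nat.card (H42.TwoRank.dg b).range = 2 ^ 3 := by
      rw [← Nat.card_congr (MonoidHom.ofInjective (H42.TwoRank.dg_injective h2 b)).toEquiv, H42.TwoRank.card_units_pi,
        Fintype.card_fin, hfr]
    rw [h3]; norm_num
  obtain ⟨t, htE, ht⟩ : (H42.TwoRank.dg b (fun _ => -1)) ∈ E'.map φ := by rw [hrange]; exact ⟨_, rfl⟩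
  -- the determinant
  let ϕ : ↥(X : Subgroup G) →* Fˣ := LinearEquiv.det.comp φ
  have hϕt : ϕ t = -1 := by
    apply Units.ext
    change ((LinearEquiv.det (φ t) : Fˣ) : F) = _
    rw [LinearEquiv.coe_det, ht, H42.TwoRank.det_dg]
    simp [hfr]
  have htcen : ∀ x : ↥(X : Subgroup G), x * t = t * x := by
    intro x
    apply hφ
    rw [map_mul, map_mul, ht]
    have h3 : ∀ v : V, H42.TwoRank.dg b (fun _ => -1) v = -v := by
      intro v
      apply b.repr.injective
      ext j
      rw [repr_dg]
      simp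
    ext v : 1
    change φ x (H42.TwoRank.dg b (fun _ => -1) v) = H42.TwoRank.dg b (fun _ => -1) (φ x v)
    rw [h3, h3, map_neg]
  have ht2 : t ^ 2 = 1 := hE's t htE
  by_contra hna
  -- Z0
  let Z0 : Subgroup ↥(X : Subgroup G) :=
    { carrier := {z | z ∈ Subgroup.center ↥(X : Subgroup G) ∧ z ^ 2 = 1}
      one_mem' := ⟨Subgroup.one_mem _, one_pow 2⟩
      mul_mem' := by
        rintro a c ⟨ha, ha2⟩ ⟨hc, hc2⟩
        refine ⟨Subgroup.mul_mem _ ha hc, ?_⟩
        have hac : Commute a c := ((Subgroup.mem_center_iff.1 ha) c).symm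
        rw [hac.mul_pow, ha2, hc2, one_mul]
      inv_mem' := by
        rintro a ⟨ha, ha2⟩
        refine ⟨Subgroup.inv_mem _ ha, ?_⟩
        rw [inv_pow, ha2, inv_one] }
  have hZ0 : ∀ z, z ∈ Z0 ↔ z ∈ Subgroup.center ↥(X : Subgroup G) ∧ z ^ 2 = 1 := fun z => Iff.rfl
  have hZ0n : Z0.Normal := by
    constructor
    intro n hn g
    have h3 := Subgroup.mem_center_iff.1 hn.1 g
    have : g * n * g⁻¹ = n := by rw [h3]; group
    rw [this]; exact hn
  have hZE : Z0 ≤ E' := by
    have h3 : Nat.card (E' ⊔ Z0 : Subgroup _) ∣ 8 := by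
      apply hdvd
      · intro a ha c hc
        obtain ⟨e, he, z, hz, rfl⟩ := Subgroup.mem_sup_of_normal_right.1 ha
        obtain ⟨e', he', z', hz', rfl⟩ := Subgroup.mem_sup_of_normal_right.1 hc
        have c1 := Subgroup.mem_center_iff.1 hz.1
        have c2 := Subgroup.mem_center_iff.1 hz'.1
        have c3 := hE'c e he e' he'
        calc e * z * (e' * z') = e * (z * e') * z' := by group
          _ = e * (e' * z) * z' := by rw [c1]
          _ = (e * e') * (z * z') := by group
          _ = (e' * e) * (z' * z) := by rw [c3, c2]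
          _ = e' * (e * z') * z := by group
          _ = e' * (z' * e) * z := by rw [c2]
          _ = _ := by group
      · intro a ha
        obtain ⟨e, he, z, hz, rfl⟩ := Subgroup.mem_sup_of_normal_right.1 ha
        have c1 : Commute e z := Subgroup.mem_center_iff.1 hz.1 e
        rw [c1.mul_pow, hE's e he, hz.2, one_mul]
    have h4 : E' = E' ⊔ Z0 := by
      apply Subgroup.eq_of_le_of_card_ge le_sup_left
      rw [hE'8]; exact Nat.le_of_dvd (by norm_num) h3
    rw [h4]; exact le_sup_right
  have hne : Z0 ≠ E' := by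
    intro h
    apply hna
    have hc : ∀ (x : ↥(X : Subgroup G)) (ε : Fin (Module.finrank F V) → ℤˣ),
        φ x * H42.TwoRank.dg b ε = H42.TwoRank.dg b ε * φ x := by
      intro x ε
      obtain ⟨e, he, hee⟩ : (H42.TwoRank.dg b ε) ∈ E'.map φ := by rw [hrange]; exact ⟨_, rfl⟩
      rw [← h] at he
      rw [← hee, ← map_mul, ← map_mul, Subgroup.mem_center_iff.1 he.1 x]
    refine ⟨⟨fun x y => ?_⟩⟩
    apply hφ
    rw [map_mul, map_mul]
    exact comm_of_comm_dg h2 b _ _ (hc x) (hc y)
  have hcardle : Nat.card Z0 ≤ 4 := by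
    have h3 : Nat.card Z0 ∣ 8 := hE'8 ▸ Subgroup.card_dvd_of_le hZE
    have h4 : Nat.card Z0 ≠ 8 := by
      intro h
      exact hne (Subgroup.eq_of_le_of_card_ge hZE (by rw [hE'8, h]))
    have h5 : Nat.card Z0 ≤ 8 := Nat.le_of_dvd (by norm_num) h3
    interval_cases h : Nat.card Z0 <;> omega
  have hp : IsPGroup 2 ↥(X : Subgroup G) := X.isPGroup'
  have hcomm : commutator ↥(X : Subgroup G) ≠ ⊥ := by
    intro h
    apply hna
    refine ⟨⟨fun x y => ?_⟩⟩
    have h3 : x * y * x⁻¹ * y⁻¹ ∈ commutator ↥(X : Subgroup G) :=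
      Subgroup.commutator_mem_commutator (Subgroup.mem_top x) (Subgroup.mem_top y)
    rw [h, Subgroup.mem_bot] at h3
    exact commutatorElement_eq_one_iff_mul_comm.1 h3
  have hinf := H72.PGroupCenter.normal_inf_center_ne_bot hp (commutator ↥(X : Subgroup G)) hcomm
  obtain ⟨z, hz, hzo⟩ : ∃ z ∈ commutator ↥(X : Subgroup G) ⊓ Subgroup.center ↥(X : Subgroup G), orderOf z = 2 := by
    have h3 : 2 ∣ Nat.card ↥(commutator ↥(X : Subgroup G) ⊓ Subgroup.center ↥(X : Subgroup G)) := by
      have h4 : IsPGroup 2 ↥(commutator ↥(X : Subgroup G) ⊓ Subgroup.center ↥(X : Subgroup G)) := hp.to_subgroup _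
      obtain ⟨k, hk⟩ := IsPGroup.iff_card.1 h4
      rcases k with _ | k
      · exact absurd (Subgroup.card_eq_one.1 (by rw [hk, pow_zero])) hinf
      · rw [hk]; exact dvd_pow_self 2 (Nat.succ_ne_zero k)
    obtain ⟨w, hw⟩ := exists_prime_orderOf_dvd_card' 2 h3
    exact ⟨w, w.2, (Subgroup.orderOf_coe w).trans hw⟩
  have hz2 : z ^ 2 = 1 := by
    have := pow_orderOf_eq_one z
    rwa [hzo] at this
  have hz1 : z ≠ 1 := by
    intro h; rw [h, orderOf_one] at hzo; norm_num at hzo
  have hϕc : ∀ w ∈ commutator ↥(X : Subgroup G), ϕ w = 1 := fun w hw =>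
    Abelianization.commutator_subset_ker ϕ hw
  have hϕz : ϕ z = 1 := hϕc z hz.1
  have hzZ : z ∈ Z0 := ⟨hz.2, hz2⟩
  have htZ : t ∈ Z0 := ⟨Subgroup.mem_center_iff.2 htcen, ht2⟩
  have ht1 : t ≠ 1 := by
    intro h; rw [h, map_one] at hϕt; exact hm1 hϕt.symm
  have htz : t ≠ z := by
    intro h; rw [h, hϕz] at hϕt; exact hm1 hϕt.symm
  have hall : ∀ y ∈ Z0, y = 1 ∨ y = t ∨ y = z ∨ y = t * z := by
    intro y hy
    by_contra hcon
    push Not at hcon
    obtain ⟨c1, c2, c3, c4⟩ := hcon
    have h3 : ({1, t, z, t * z, y} : Finset ↥(X : Subgroup G)).card = 5 := by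
      rw [Finset.card_insert_of_notMem, Finset.card_insert_of_notMem, Finset.card_insert_of_notMem,
        Finset.card_insert_of_notMem, Finset.card_singleton]
      · simp only [Finset.mem_singleton]
        exact fun h => c4 h.symm
      · simp only [Finset.mem_insert, Finset.mem_singleton, not_or]
        refine ⟨fun h => ht1 ?_, fun h => c3 h.symm⟩
        exact (mul_eq_right.1 h.symm)
      · simp only [Finset.mem_insert, Finset.mem_singleton, not_or]
        refine ⟨htz, fun h => hz1 (mul_eq_left.1 h.symm), fun h => c2 h.symm⟩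
      · simp only [Finset.mem_insert, Finset.mem_singleton, not_or]
        refine ⟨fun h => ht1 h.symm, fun h => hz1 h.symm, fun h => htz ?_, fun h => c1 h.symm⟩
        have h5 : z = t⁻¹ := eq_inv_of_mul_eq_one_right h.symm
        rw [h5]
        have : t * t = 1 := by rw [← pow_two]; exact ht2
        exact (inv_eq_of_mul_eq_one_right this).symm
    have h4 : (({1, t, z, t * z, y} : Finset ↥(X : Subgroup G)) : Set ↥(X : Subgroup G)) ⊆ (Z0 : Set _) := by
      intro w hw
      simp only [Finset.coe_insert, Finset.coe_singleton, Set.mem_insert_iff, Set.mem_singleton_iff] at hw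
      rcases hw with rfl | rfl | rfl | rfl | rfl
      · exact Z0.one_mem
      · exact htZ
      · exact hzZ
      · exact Z0.mul_mem htZ hzZ
      · exact hy
    have h5 := Set.ncard_le_ncard h4 (Set.toFinite _)
    rw [Set.ncard_coe_finset, h3] at h5
    have h6 : (Z0 : Set ↥(X : Subgroup G)).ncard = Nat.card Z0 := rfl
    omega
  -- the normalizer of X acts
  have hcj : ∀ g ∈ Subgroup.normalizer ((X : Subgroup G) : Set G), ∀ x : ↥(X : Subgroup G),
      g⁻¹ * (x : G) * g ∈ (X : Subgroup G) := by
    intro g hg x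
    have h3 := Subgroup.inv_mem _ hg
    have := (Subgroup.mem_normalizer_iff.1 h3 (x : G)).1 x.2
    rwa [inv_inv] at this
  have hmain : ∀ g ∈ Subgroup.normalizer ((X : Subgroup G) : Set G), g * (t : G) = t * g := by
    intro g hg
    let α : ↥(X : Subgroup G) →* ↥(X : Subgroup G) :=
      { toFun := fun x => ⟨g⁻¹ * (x : G) * g, hcj g hg x⟩
        map_one' := by apply Subtype.ext; simp
        map_mul' := by
          intro x y
          apply Subtype.ext
          change g⁻¹ * ((x : G) * (y : G)) * g = (g⁻¹ * (x : G) * g) * (g⁻¹ * (y : G) * g)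
          group }
    have hαv : ∀ x, ((α x : ↥(X : Subgroup G)) : G) = g⁻¹ * (x : G) * g := fun x => rfl
    have hαinj : Function.Injective α := by
      intro x y hxy
      have h3 := congrArg Subtype.val hxy
      rw [hαv, hαv] at h3
      apply Subtype.ext
      have h4 := mul_right_cancel h3
      exact mul_left_cancel h4
    have hαs : Function.Surjective α := Finite.surjective_of_injective hαinj
    have hαZ : ∀ y ∈ Z0, α y ∈ Z0 := by
      intro y hy
      refine ⟨?_, by rw [← map_pow, hy.2, map_one]⟩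
      rw [Subgroup.mem_center_iff]
      intro x
      obtain ⟨x', rfl⟩ := hαs x
      rw [← map_mul, ← map_mul, Subgroup.mem_center_iff.1 hy.1]
    have hαc : ∀ y ∈ commutator ↥(X : Subgroup G), α y ∈ commutator ↥(X : Subgroup G) := by
      intro y hy
      have h3 : (commutator ↥(X : Subgroup G)).map α ≤ commutator ↥(X : Subgroup G) := by
        rw [commutator_def, Subgroup.map_commutator]
        exact Subgroup.commutator_mono le_top le_top
      exact h3 ⟨y, hy, rfl⟩
    have hαz : α z = z := by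
      have h3 := hϕc _ (hαc z hz.1)
      rcases hall _ (hαZ z hzZ) with h | h | h | h
      · exact absurd (hαinj (h.trans (map_one α).symm)) hz1
      · rw [h, hϕt] at h3; exact absurd h3 hm1
      · exact h
      · rw [h, map_mul, hϕt, hϕz, mul_one] at h3; exact absurd h3 hm1
    have hαt : α t = t := by
      rcases hall _ (hαZ t htZ) with h | h | h | h
      · exact absurd (hαinj (h.trans (map_one α).symm)) ht1
      · exact h
      · exact absurd (hαinj (h.trans hαz.symm)) htz
      · exfalso
        have hg1 : g⁻¹ * (t : G) * g = t * z := congrArg Subtype.val h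
        have hg2 : g⁻¹ * (z : G) * g = z := congrArg Subtype.val hαz
        have hpow : ∀ k : ℕ, (g ^ k)⁻¹ * (t : G) * g ^ k = t * z ^ k := by
          intro k
          induction k with
          | zero => simp
          | succ k ih =>
            have : (g ^ (k + 1))⁻¹ * (t : G) * g ^ (k + 1) = g⁻¹ * ((g ^ k)⁻¹ * (t : G) * g ^ k) * g := by
              rw [pow_succ]; group
            rw [this, ih]
            have h5 : g⁻¹ * ((z : G) ^ k) * g = (z : G) ^ k := by
              have h6 : g⁻¹ * ((z : G) ^ k) * g = (g⁻¹ * (z : G) * g) ^ k := by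
                have := (conj_pow (a := g⁻¹) (b := (z : G)) (i := k))
                rw [inv_inv] at this
                exact this.symm
              rw [h6, hg2]
            calc g⁻¹ * ((t : G) * (z : G) ^ k) * g = (g⁻¹ * (t : G) * g) * (g⁻¹ * ((z : G) ^ k) * g) := by group
              _ = (t : G) * z * (z : G) ^ k := by rw [hg1, h5]
              _ = (t : G) * (z : G) ^ (k + 1) := by rw [pow_succ', mul_assoc]
        obtain ⟨a, m, hm, ham⟩ := Nat.exists_eq_two_pow_mul_odd (n := orderOf g) (orderOf_pos g).ne'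
        have hgm : (g ^ m) ^ (2 ^ a) = 1 := by
          rw [← pow_mul, mul_comm, ← ham, pow_orderOf_eq_one]
        have hPg : IsPGroup 2 (Subgroup.zpowers (g ^ m)) := by
          rw [IsPGroup.iff_card, Nat.card_zpowers]
          have h7 : orderOf (g ^ m) ∣ 2 ^ a := orderOf_dvd_of_pow_eq_one hgm
          obtain ⟨j, _, hj⟩ := (Nat.dvd_prime_pow Nat.prime_two).1 h7
          exact ⟨j, hj⟩
        have hgX : g ^ m ∈ (X : Subgroup G) := by
          have h7 := hPg.inf_normalizer_sylow X
          have h8 : g ^ m ∈ Subgroup.zpowers (g ^ m) ⊓ Subgroup.normalizer ((X : Subgroup G) : Set G) :=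
            ⟨Subgroup.mem_zpowers _, Subgroup.pow_mem _ hg m⟩
          exact (h7.le h8).2
        have h9 := hpow m
        have h10 := congrArg Subtype.val (htcen ⟨g ^ m, hgX⟩)
        change g ^ m * (t : G) = t * g ^ m at h10
        rw [mul_assoc, ← h10, inv_mul_cancel_left] at h9
        have h11 : (z : G) ^ m = 1 := mul_eq_left.1 h9.symm
        have h12 : z ^ m = 1 := Subtype.ext h11
        have h13 : 2 ∣ m := by rw [← hzo]; exact orderOf_dvd_of_pow_eq_one h12
        exact (Nat.not_even_iff_odd.2 hm) (even_iff_two_dvd.2 h13)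
    have h14 : g⁻¹ * (t : G) * g = t := congrArg Subtype.val hαt
    calc g * (t : G) = g * (g⁻¹ * (t : G) * g) := by rw [h14]
      _ = (t : G) * g := by group
  obtain ⟨H, hH⟩ := H78.TrPar.exists_index_two X ϕ hm1 (t : G) t.2 (by
    have := congrArg Subtype.val ht2
    exact this) hϕt hmain
  exact hG H hH


end Cfsg.Agent.S1906
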