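import Cfsg.Statements.S1907
import Cfsg.Agent.Lib.H1.Coprime2
import Cfsg.Agent.Lib.H30.PLen
import Cfsg.Agent.Lib.H13.SylowN

set_option autoImplicit false
set_option maxHeartbeats 1000000
open Cfsg

namespace Cfsg.Agent.S1907

/-- Let P be a Sylow p-subgroup of a finite group G, H = P ∩ O_{p',p}(G), N = N_G(H) and D = O_{p'}(G). (a) If y is an element of p-power order of N and d ∈ D with d⁻¹ y d ∈ N, then d = d₁ d₂ with d₁ ∈ C_D(y) and d₂ ∈ C_D(H). (b) Two elements of P that are conjugate in G are conjugate in N. -/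
theorem result {G : Type*} [Group G] [Finite G] {p : ℕ} [Fact p.Prime] (P : Sylow p G) :
    (∀ y ∈ Subgroup.normalizer (((P : Subgroup G) ⊓ Cfsg.pPrimePCore p G : Subgroup G) : Set G), (∃ k : ℕ, orderOf y = p ^ k) →
      ∀ d ∈ Cfsg.pPrimeCore p G, d⁻¹ * y * d ∈ Subgroup.normalizer (((P : Subgroup G) ⊓ Cfsg.pPrimePCore p G : Subgroup G) : Set G) →
        ∃ d₁ ∈ Cfsg.pPrimeCore p G ⊓ Subgroup.centralizer ({y} : Set G),
          ∃ d₂ ∈ Cfsg.pPrimeCore p G ⊓ Subgroup.centralizer (((P : Subgroup G) ⊓ Cfsg.pPrimePCore p G : Subgroup G) : Set G), d = d₁ * d₂) ∧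
    ∀ x y : G, x ∈ (P : Subgroup G) → y ∈ (P : Subgroup G) → IsConj x y →
      ∃ n ∈ Subgroup.normalizer (((P : Subgroup G) ⊓ Cfsg.pPrimePCore p G : Subgroup G) : Set G), n * x * n⁻¹ = y := by
  set M := Cfsg.pPrimePCore p G with hM
  set D := Cfsg.pPrimeCore p G with hD
  set H := (P : Subgroup G) ⊓ M with hH
  set N := Subgroup.normalizer (H : Set G) with hN
  have hDc : (Nat.card D).Coprime p := H1.Cores.coprime_card_pPrimeCore p
  have hHp : IsPGroup p H := P.isPGroup'.to_le inf_le_left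
  have hDN : D ⊓ N ≤ D ⊓ Subgroup.centralizer (H : Set G) := by
    refine le_inf inf_le_left ?_
    rw [← Subgroup.commutator_eq_bot_iff_le_centralizer, eq_bot_iff,
      ← H1.Cores.disjoint_of_isPGroup hHp hDc]
    refine le_inf ?_ ?_
    · exact H1.Coprime2.commutator_le_right inf_le_right
    · exact (Subgroup.commutator_mono inf_le_left le_rfl).trans (Subgroup.commutator_le_left _ _)
  have hCN : Subgroup.centralizer (H : Set G) ≤ N := Subgroup.centralizer_le_normalizer _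
  have parta : ∀ y ∈ N, (∃ k : ℕ, orderOf y = p ^ k) → ∀ d ∈ D, d⁻¹ * y * d ∈ N →
      ∃ d₁ ∈ D ⊓ Subgroup.centralizer ({y} : Set G), ∃ d₂ ∈ D ⊓ Subgroup.centralizer (H : Set G), d = d₁ * d₂ := by
    rintro y hy ⟨k, hk⟩ d hd hyd
    have hyp : IsPGroup p (Subgroup.zpowers y) := IsPGroup.of_card (by rw [Nat.card_zpowers]; exact hk)
    set C := D ⊓ Subgroup.centralizer (H : Set G) with hC
    have hCc : (Nat.card C).Coprime p := Nat.Coprime.coprime_dvd_left (Subgroup.card_dvd_of_le inf_le_left) hDc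
    haveI : Group.IsSolvable (Subgroup.zpowers y) := by
      haveI := hyp.isNilpotent; infer_instance
    have hyN : Subgroup.zpowers y ≤ N := (Subgroup.zpowers_le).mpr hy
    have hNC : N ≤ Subgroup.normalizer (C : Set G) := by
      apply H1.Coprime2.le_normalizer_inf
      · rw [Subgroup.normalizer_eq_top]; exact le_top
      · exact H1.Coprime2.le_normalizer_centralizer le_rfl
    obtain ⟨c, hc1, hc2⟩ := H1.Coprime.exists_fixed_in_coset (Subgroup.zpowers y) C (hyN.trans hNC)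
      (H1.Cores.coprime_card_of_isPGroup hyp hCc) (Or.inl inferInstance) d (by
        rintro a ⟨m, rfl⟩
        apply hDN
        have h1 : d⁻¹ * y ^ m * d ∈ N := by
          have : d⁻¹ * y ^ m * d = (d⁻¹ * y * d) ^ m := by
            have := (conj_zpow (i := m) (a := d⁻¹) (b := y))
            rw [inv_inv] at this
            exact this.symm
          rw [this]
          exact zpow_mem hyd m
        refine Subgroup.mem_inf.mpr ⟨?_, mul_mem h1 (inv_mem (zpow_mem hy m))⟩
        have : d⁻¹ * y ^ m * d * (y ^ m)⁻¹ = d⁻¹ * (y ^ m * d * (y ^ m)⁻¹) := by group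
        rw [this]
        have hDn : D.Normal := inferInstance
        exact mul_mem (inv_mem hd) (hDn.conj_mem _ hd _))
    refine ⟨c, Subgroup.mem_inf.mpr ⟨?_, ?_⟩, c⁻¹ * d, ?_, by group⟩
    · have : c = d * (d⁻¹ * c) := by group
      rw [this]
      exact mul_mem hd hc2.1
    · rw [Subgroup.mem_centralizer_singleton_iff]
      exact (Subgroup.mem_centralizer_iff.mp hc1 y (Subgroup.mem_zpowers y)).symm
    · have : c⁻¹ * d = (d⁻¹ * c)⁻¹ := by group
      rw [this]
      exact inv_mem hc2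
  refine ⟨parta, ?_⟩
  intro x y hx hy hxy
  obtain ⟨g, hg⟩ := isConj_iff.mp hxy
  -- Frattini
  have hfrat : N ⊔ D = ⊤ := by
    have h1 := H13.SylowN.frattini P M
    rw [eq_top_iff, ← h1]
    refine sup_le le_sup_left ?_
    rw [hM, H30.PLen.pPrimePCore_eq_sup P]
    exact sup_le le_sup_right (Subgroup.le_normalizer.trans le_sup_left)
  have hgt : g ∈ D ⊔ N := by rw [sup_comm, hfrat]; trivial
  rw [Subgroup.mem_sup_of_normal_left] at hgt
  obtain ⟨d, hd, n, hn, hdn⟩ := hgt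
  have hPN : (P : Subgroup G) ≤ N := by
    apply H1.Coprime2.le_normalizer_inf Subgroup.le_normalizer
    rw [Subgroup.normalizer_eq_top]; exact le_top
  have hz : n * x * n⁻¹ ∈ N := mul_mem (mul_mem hn (hPN hx)) (inv_mem hn)
  have hyz : d⁻¹ * y * d = n * x * n⁻¹ := by
    rw [← hg, ← hdn]; group
  obtain ⟨k, hk⟩ := P.isPGroup' ⟨y, hy⟩
  have hyk : y ^ p ^ k = 1 := congrArg Subtype.val hk
  obtain ⟨j, -, hj⟩ := (Nat.dvd_prime_pow (Fact.out : p.Prime)).mp (orderOf_dvd_of_pow_eq_one hyk)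
  obtain ⟨d₁, hd₁, d₂, hd₂, hd12⟩ := parta y (hPN hy) ⟨j, hj⟩ d hd (by rw [hyz]; exact hz)
  refine ⟨d₂ * n, mul_mem (hCN hd₂.2) hn, ?_⟩
  have h1 : d₁ * y = y * d₁ := by
    have := Subgroup.mem_centralizer_singleton_iff.mp hd₁.2
    first | exact this | exact this.symm
  have h2 : d₂ * n * x * (d₂ * n)⁻¹ = d₂ * (n * x * n⁻¹) * d₂⁻¹ := by group
  rw [h2, ← hyz, hd12]
  have h3 : d₂ * ((d₁ * d₂)⁻¹ * y * (d₁ * d₂)) * d₂⁻¹ = d₁⁻¹ * (y * d₁) := by group
  rw [h3, ← h1]; group

end Cfsg.Agent.S1907
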