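import Cfsg.Statements.S1924
import Cfsg.Agent.Lib.H38.CycTransfer
import Cfsg.Agent.Lib.H38.Basic
import Cfsg.Agent.Lib.H52.PRes
import Cfsg.Agent.Lib.H13.Thompson
open H38.Basic H38.CycTransfer

set_option autoImplicit false
open Cfsg

namespace Cfsg.Agent.S1924

/-- A consequence of Thompson's transfer lemma. Let G be a finite group, L a subgroup with O²(L) = L, T a Sylow 2-subgroup of L and S a Sylow 2-subgroup of G containing T. Suppose D ≤ S is a dihedral subgroup of order at least 4 (the four-group counts) with D ∩ T = 1 and S = TD as a set of products (so |S| = |T|·|D|), and C ≤ D is cyclic of index 2 in D. If no involution of D outside C is G-conjugate to an involution of the subgroup generated by T and C, and the involution of C is not G-conjugate to any involution of T, then G has a normal subgroup K, containing every Sylow 2-subgroup of L as a Sylow 2-subgroup, with G = KD. -/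
theorem result {G : Type*} [Group G] [Finite G] (L T S D C : Subgroup G) (hL : Cfsg.pResidual 2 ↥L = ⊤)
    (hTL : T ≤ L) (hT2 : IsPGroup 2 T) (hTsyl : ¬ 2 ∣ T.relIndex L)
    (hS2 : IsPGroup 2 S) (hSsyl : ¬ 2 ∣ S.index) (hTS : T ≤ S)
    (hDS : D ≤ S) (hDih : ∃ n : ℕ, 2 ≤ n ∧ Nonempty (↥D ≃* DihedralGroup n)) (hDT : D ⊓ T = ⊥) (hTD : T ⊔ D = S) (hTDc : Nat.card T * Nat.card D = Nat.card S)
    (hCD : C ≤ D) (hC : IsCyclic ↥C) (hCi : C.relIndex D = 2)
    (h1 : ∀ x ∈ D, x ∉ C → orderOf x = 2 → ∀ g : G, g * x * g⁻¹ ∈ T ⊔ C → False)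
    (h2 : ∀ c ∈ C, orderOf c = 2 → ∀ g : G, g * c * g⁻¹ ∈ T → False) :
    ∃ K : Subgroup G, K.Normal ∧ K ⊔ D = ⊤ ∧
      ∀ T' : Subgroup G, T' ≤ L → IsPGroup 2 T' → ¬ 2 ∣ T'.relIndex L → T' ≤ K ∧ ¬ 2 ∣ T'.relIndex K := by
  have hp2 : Fact (Nat.Prime 2) := ⟨Nat.prime_two⟩
  obtain ⟨n, hn, ⟨e⟩⟩ := hDih
  have hnz : NeZero n := ⟨by omega⟩
  have hDc : Nat.card ↥D = 2 * n := by
    rw [Nat.card_congr e.toEquiv, DihedralGroup.nat_card]
  have hCc : Nat.card ↥D = Nat.card ↥C * 2 := by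
    rw [← hCi, ← Subgroup.relIndex_bot_left, ← Subgroup.relIndex_bot_left]
    exact (Subgroup.relIndex_mul_relIndex _ _ _ bot_le hCD).symm
  have hCn : Nat.card ↥C = n := by omega
  obtain ⟨⟨c, hcC⟩, hcgen⟩ := hC.exists_generator
  have hcC' : C = Subgroup.zpowers c := by
    apply le_antisymm
    · intro y hy
      obtain ⟨i, hi⟩ := hcgen ⟨y, hy⟩
      exact ⟨i, congrArg Subtype.val hi⟩
    · rw [Subgroup.zpowers_le]; exact hcC
  have hordc : orderOf c = n := by rw [← Nat.card_zpowers, ← hcC', hCn]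
  -- elements of `D` outside `C` are involutions
  have hinv : ∀ x ∈ D, x ∉ C → orderOf x = 2 := by
    intro x hx hxC
    have hord : ∀ y (hy : y ∈ D), orderOf (e ⟨y, hy⟩) = orderOf y := by
      intro y hy
      rw [MulEquiv.orderOf_eq, Subgroup.orderOf_mk]
    have hx1 : x ≠ 1 := fun h => hxC (h ▸ C.one_mem)
    rcases h : e ⟨x, hx⟩ with i | i
    · rcases h' : e ⟨c, hCD hcC⟩ with j | j
      · exfalso
        apply hxC
        have h3 : orderOf (DihedralGroup.r j : DihedralGroup n) = n := by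
          rw [← h', hord, hordc]
        have h4 : (DihedralGroup.r i : DihedralGroup n) ∈ Subgroup.zpowers (DihedralGroup.r j : DihedralGroup n) := by
          have h5 : Subgroup.zpowers (DihedralGroup.r j : DihedralGroup n) = Subgroup.zpowers (DihedralGroup.r 1 : DihedralGroup n) := by
            refine Subgroup.eq_of_le_of_card_ge ?_ ?_
            · rw [Subgroup.zpowers_le]
              refine ⟨(j.val : ℤ), ?_⟩
              simp [DihedralGroup.r_one_pow]
            · rw [Nat.card_zpowers, Nat.card_zpowers, h3, DihedralGroup.orderOf_r_one]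
          rw [h5]
          refine ⟨(i.val : ℤ), ?_⟩
          simp [DihedralGroup.r_one_pow]
        obtain ⟨l, hl⟩ := h4
        have h6 : e (⟨c, hCD hcC⟩ ^ l) = e ⟨x, hx⟩ := by rw [map_zpow, h', h]; exact hl
        have h7 := congrArg Subtype.val (e.injective h6)
        rw [hcC']
        exact ⟨l, h7⟩
      · have h3 : orderOf c = 2 := by rw [← hord c (hCD hcC), h', DihedralGroup.orderOf_sr]
        rw [hordc] at h3
        have h4 : (e ⟨x, hx⟩) ^ 2 = 1 := by
          rw [h]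
          subst h3
          have : ∀ i : ZMod 2, (DihedralGroup.r i : DihedralGroup 2) ^ 2 = 1 := by decide
          exact this i
        have h5 : x ^ 2 = 1 := by
          rw [← orderOf_dvd_iff_pow_eq_one, hord, orderOf_dvd_iff_pow_eq_one] at h4
          exact h4
        exact orderOf_eq_prime h5 hx1
    · rw [← hord x hx, h, DihedralGroup.orderOf_sr]
  obtain ⟨x, hxD, hxC⟩ : ∃ x ∈ D, x ∉ C := by
    by_contra hcon
    push Not at hcon
    have : C.relIndex D = 1 := Subgroup.relIndex_eq_one.2 hcon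
    omega
  -- `M = T C` has index two in `S`
  set M := T ⊔ C with hM
  have hMS : M ≤ S := sup_le hTS (hCD.trans hDS)
  have hxM : x ∉ M := by
    intro h
    exact h1 x hxD hxC (hinv x hxD hxC) 1 (by simpa using h)
  have hTCM : Nat.card ↥T * Nat.card ↥C ≤ Nat.card ↥M := by
    have hinj : Function.Injective (fun q : ↥T × ↥C => (⟨q.1.1 * q.2.1, M.mul_mem (Subgroup.mem_sup_left q.1.2) (Subgroup.mem_sup_right q.2.2)⟩ : ↥M)) := by
      rintro ⟨⟨t, ht⟩, ⟨d, hd⟩⟩ ⟨⟨t', ht'⟩, ⟨d', hd'⟩⟩ h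
      have h : t * d = t' * d' := congrArg Subtype.val h
      have h3 : t'⁻¹ * t = d' * d⁻¹ := by
        calc t'⁻¹ * t = t'⁻¹ * (t * d) * d⁻¹ := by group
          _ = t'⁻¹ * (t' * d') * d⁻¹ := by rw [h]
          _ = _ := by group
      have h4 : t'⁻¹ * t ∈ D ⊓ T := ⟨by rw [h3]; exact D.mul_mem (hCD hd') (D.inv_mem (hCD hd)), T.mul_mem (T.inv_mem ht') ht⟩
      rw [hDT, Subgroup.mem_bot] at h4
      rw [h4] at h3
      have h5 : t = t' := (inv_mul_eq_one.1 h4).symm
      have h6 : d = d' := (mul_inv_eq_one.1 h3.symm).symm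
      subst h5 h6; rfl
    have := Nat.card_le_card_of_injective _ hinj
    rwa [Nat.card_prod] at this
  have cardrel : ∀ A B : Subgroup G, A ≤ B → A.relIndex B * Nat.card ↥A = Nat.card ↥B := by
    intro A B hAB
    rw [mul_comm, ← Subgroup.relIndex_bot_left, ← Subgroup.relIndex_bot_left]
    exact Subgroup.relIndex_mul_relIndex _ _ _ bot_le hAB
  have hMidx : M.relIndex S = 2 := by
    have e1 := cardrel M S hMS
    have e2 : M.relIndex S * Nat.card ↥M ≤ 2 * Nat.card ↥M := by
      rw [e1, ← hTDc, hCc]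
      calc Nat.card ↥T * (Nat.card ↥C * 2) = 2 * (Nat.card ↥T * Nat.card ↥C) := by ring
        _ ≤ _ := Nat.mul_le_mul_left _ hTCM
    have e3 : M.relIndex S ≤ 2 := Nat.le_of_mul_le_mul_right e2 Nat.card_pos
    have e4 : M.relIndex S ≠ 1 := by
      intro h; exact hxM (Subgroup.relIndex_eq_one.1 h (hDS hxD))
    have e5 : M.relIndex S ≠ 0 := by
      intro h; rw [h, zero_mul] at e1; exact Nat.card_pos.ne' e1.symm
    omega
  have hSodd : Odd S.index := by rw [← Nat.not_even_iff_odd, even_iff_two_dvd]; exact hSsyl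
  have hMindex : M.index = 2 ^ (0 + 1) * S.index := by
    rw [← Subgroup.relIndex_mul_index hMS, hMidx, zero_add, pow_one]
  have hsgn : ∀ y ∈ D, y ∉ C → sgn M y = -1 := by
    intro y hy hyC
    have hy2 := hinv y hy hyC
    refine sgn_eq M y 0 S.index (by rw [zero_add, pow_one, ← hy2, pow_orderOf_eq_one]) ?_ hSodd hMindex
    intro g hg
    rw [pow_zero, pow_one] at hg
    exact h1 y hy hyC hy2 g hg
  set N0 := (sgn M).ker with hN0
  have hN0idx : N0.index = 2 := index_ker _ (hsgn x hxD hxC)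
  have hcN0 : c ∈ N0 := by
    rw [hN0, MonoidHom.mem_ker]
    have e1 := hsgn (x * c) (D.mul_mem hxD (hCD hcC)) (fun h => hxC (by
      have := C.mul_mem h (C.inv_mem hcC)
      simpa using this))
    rw [map_mul, hsgn x hxD hxC] at e1
    simpa using e1
  set K0 := Cfsg.pResidual 2 G with hK0
  have hK0N0 : ∀ y : G, Nat.Coprime (orderOf y) 2 → y ∈ N0 := fun y hy => odd_order_mem_ker _ hy
  have hLK0 : L ≤ K0 := by
    intro y hy
    have e1 : (⟨y, hy⟩ : ↥L) ∈ Cfsg.pResidual 2 ↥L := by rw [hL]; trivial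
    have e2 : Cfsg.pResidual 2 ↥L ≤ K0.comap L.subtype := by
      show Subgroup.closure _ ≤ _
      rw [Subgroup.closure_le]
      intro z hz
      show (z : G) ∈ K0
      refine Subgroup.subset_closure ?_
      show Nat.Coprime (orderOf (z : G)) 2
      rw [Subgroup.orderOf_coe]; exact hz
    exact e2 e1
  have hTK0 : T ≤ K0 := hTL.trans hLK0
  have hTN0 : T ≤ N0 := hTK0.trans (by
    show Subgroup.closure _ ≤ _
    rw [Subgroup.closure_le]; exact hK0N0)
  obtain ⟨k, hk⟩ := (Nat.dvd_prime_pow Nat.prime_two).1 (show orderOf c ∣ 2 ^ (Nat.card ↥S).factorization 2 from by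
    have e1 : orderOf c ∣ Nat.card ↥S := by
      have := orderOf_dvd_natCard (⟨c, hDS (hCD hcC)⟩ : ↥S)
      rwa [Subgroup.orderOf_mk] at this
    obtain ⟨l, hl⟩ := IsPGroup.iff_card.1 hS2
    rw [hl] at e1 ⊢
    simpa [Nat.factorization_pow, Nat.prime_two.factorization] using e1)
  have hrel : T.relIndex N0 = 2 ^ k * S.index := by
    have e1 := Subgroup.relIndex_mul_index hTN0
    have e2 := Subgroup.relIndex_mul_index hTS
    have e3 := cardrel T S hTS
    have e4 : T.relIndex S = Nat.card ↥D := by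
      rw [← hTDc, mul_comm] at e3
      exact Nat.eq_of_mul_eq_mul_left Nat.card_pos e3
    rw [e4, hDc, ← hordc, hk.2] at e2
    rw [hN0idx, ← e2] at e1
    have e5 : (T.relIndex N0) * 2 = (2 ^ k * S.index) * 2 := by rw [e1]; ring
    exact Nat.eq_of_mul_eq_mul_right two_pos e5
  obtain ⟨K, hKodd, hTK⟩ := descent T K0 hTK0 le_rfl k N0 c S.index hK0N0 hcN0
    (by rw [← hk.2, pow_orderOf_eq_one]) (by
    rintro j rfl g hg
    refine h2 (c ^ 2 ^ j) (C.pow_mem hcC _) ?_ g hg
    rw [orderOf_pow' _ (pow_ne_zero _ two_ne_zero), hk.2, pow_succ,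
      Nat.gcd_eq_right (Dvd.intro _ rfl), Nat.mul_div_cancel_left _ (pow_pos two_pos _)]) hSodd hrel
  have hK0K : K0 ≤ K := by
    show Subgroup.closure _ ≤ _
    rw [Subgroup.closure_le]; exact hKodd
  have hTK0odd : ¬ 2 ∣ T.relIndex K0 := by
    intro h
    have e1 := h.trans (Dvd.intro _ (Subgroup.relIndex_mul_relIndex T K0 K hTK0 hK0K))
    rw [← Nat.not_even_iff_odd, even_iff_two_dvd] at hTK
    exact hTK e1
  have hK0n : K0.Normal := inferInstance
  refine ⟨K0, hK0n, ?_, ?_⟩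
  · have e1 := H52.PRes.sup_resOf_eq_of_sylow (p := 2) (IsPGroup.toSylow hS2 hSsyl)
    have e2 : ((IsPGroup.toSylow hS2 hSsyl : Sylow 2 G) : Subgroup G) = S := rfl
    rw [e2] at e1
    rw [eq_top_iff, ← e1, ← hTD]
    exact sup_le (sup_le (hTK0.trans le_sup_left) le_sup_right) le_sup_left
  · intro T' hT'L hT'2 hT'syl
    refine ⟨hT'L.trans hLK0, ?_⟩
    have e1 : Nat.card ↥T = Nat.card ↥T' :=
      IsSyl.card_eq (p := 2) (H := L) ⟨hTL, hT2, hTsyl⟩ ⟨hT'L, hT'2, hT'syl⟩
    have e2 := cardrel T K0 hTK0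
    have e3 := cardrel T' K0 (hT'L.trans hLK0)
    rw [← e1, ← e2] at e3
    rw [Nat.eq_of_mul_eq_mul_right Nat.card_pos e3]
    exact hTK0odd

end Cfsg.Agent.S1924
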