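import Cfsg.Statements.S1935
import Cfsg.Agent.Lib.H78.QOff5
import Cfsg.Agent.S0599

set_option autoImplicit false
open Cfsg

namespace Cfsg.Agent.S1935


open H78.QOff
open scoped commutatorElement

/-- Existence of a quadratic offender inside an offender. -/
theorem exists_quad {Ω : Type*} [Group Ω] [Finite Ω] (p : ℕ) [Fact p.Prime] (V G : Subgroup Ω)
    (hV : Cfsg.IsElementaryAbelian p V)
    (hGV : G ≤ Subgroup.normalizer (V : Set Ω)) (hfaith : G ⊓ Subgroup.centralizer (V : Set Ω) = ⊥)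
    (E : Subgroup Ω) (hEG : E ≤ G) (hE1 : E ≠ ⊥) (hE : Cfsg.IsElementaryAbelian p E)
    (hoff : Nat.card ↥V ≤ Nat.card ↥E * Nat.card ↥(V ⊓ Subgroup.centralizer (E : Set Ω))) :
    ∃ A : Subgroup Ω, A ≤ G ∧ A ≠ ⊥ ∧
      Nat.card ↥V ≤ Nat.card ↥A * Nat.card ↥(V ⊓ Subgroup.centralizer (A : Set Ω)) ∧
      ⁅⁅V, A⁆, A⁆ = ⊥ := by
  classical
  obtain ⟨A, ⟨hAE, hA1⟩, hAmax⟩ := Set.exists_max_image {A : Subgroup Ω | A ≤ E ∧ A ≠ ⊥}
    (fun A => Nat.card ↥A * Nat.card ↥(V ⊓ Subgroup.centralizer (A : Set Ω))) (Set.toFinite _)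
    ⟨E, le_rfl, hE1⟩
  have hAoff : Nat.card ↥V ≤ Nat.card ↥A * Nat.card ↥(V ⊓ Subgroup.centralizer (A : Set Ω)) :=
    hoff.trans (hAmax E ⟨le_rfl, hE1⟩)
  have hbo : Cfsg.IsBestOffenderOn p V A := by
    refine ⟨?_, ?_, ?_⟩
    · intro B hB
      by_cases hB1 : B = ⊥
      · subst hB1
        rw [Subgroup.card_bot, one_mul]
        refine le_trans ?_ hAoff
        exact Subgroup.card_le_of_le inf_le_left
      · exact hAmax B ⟨hB.trans hAE, hB1⟩
    · have : (⁅A, A⁆ : Subgroup Ω) = ⊥ := by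
        rw [Subgroup.commutator_eq_bot_iff_le_centralizer]
        intro a ha
        rw [Subgroup.mem_centralizer_iff]
        intro b hb
        have := hE.1.is_comm.comm ⟨b, hAE hb⟩ ⟨a, hAE ha⟩
        exact congrArg Subtype.val this
      rw [this]; exact bot_le
    · intro a ha
      rw [hE.2 a (hAE ha)]
      exact Subgroup.one_mem _
  have hAV : A ≤ Subgroup.normalizer (V : Set Ω) := (hAE.trans hEG).trans hGV
  obtain ⟨h1, h2, h3⟩ := Cfsg.Agent.S0599.result V A hV hAV hbo V le_rfl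
  have hVA : ⁅V, A⁆ ≠ ⊥ := by
    intro h
    rw [Subgroup.commutator_comm, Subgroup.commutator_eq_bot_iff_le_centralizer] at h
    apply hA1
    rw [eq_bot_iff, ← hfaith]
    exact le_inf (hAE.trans hEG) h
  set B := A ⊓ Subgroup.centralizer ((⁅V, A⁆ : Subgroup Ω) : Set Ω) with hB
  have hBA : B ≤ A := inf_le_left
  refine ⟨B, (hBA.trans hAE).trans hEG, ?_, ?_, ?_⟩
  · intro h
    apply h3 hVA
    rw [h]
    exact Subgroup.commutator_bot_right V
  · have h4 := h1.1 ⊥ bot_le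
    rw [Subgroup.card_bot, one_mul] at h4
    refine le_trans ?_ h4
    apply le_of_eq
    have : V ⊓ Subgroup.centralizer (((⊥ : Subgroup Ω) : Set Ω)) = V := by
      rw [inf_eq_left]
      intro v _
      rw [Subgroup.mem_centralizer_iff]
      intro b hb
      have : b = 1 := by simpa using hb
      rw [this, one_mul, mul_one]
    rw [this]
  · rw [Subgroup.commutator_comm, Subgroup.commutator_eq_bot_iff_le_centralizer]
    intro b hb
    have h5 := hb.2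
    apply Subgroup.centralizer_le _ h5
    exact Subgroup.commutator_mono le_rfl hBA


/-- Let p ≥ 5 be a prime and, inside an ambient finite group, let G be a p-subgroup acting faithfully by conjugation on an elementary abelian p-subgroup V that it normalizes (only the identity of G centralizes V). Suppose V is an F-module for G: some nontrivial elementary abelian subgroup E of G satisfies #E · #C_V(E) ≥ #V. Then G contains such an offender A that moreover acts quadratically on V ([V, A, A] = 1) and is normal in its normal closure in G. -/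
theorem result {Ω : Type*} [Group Ω] [Finite Ω] (p : ℕ) [Fact p.Prime] (hp : 5 ≤ p) (V G : Subgroup Ω) (hV : Cfsg.IsElementaryAbelian p V) (hG : IsPGroup p ↥G) (hGV : G ≤ Subgroup.normalizer (V : Set Ω)) (hfaith : G ⊓ Subgroup.centralizer (V : Set Ω) = ⊥) (hF : ∃ E : Subgroup Ω, E ≤ G ∧ E ≠ ⊥ ∧ Cfsg.IsElementaryAbelian p E ∧ Nat.card ↥V ≤ Nat.card ↥E * Nat.card ↥(V ⊓ Subgroup.centralizer (E : Set Ω))) : ∃ A : Subgroup Ω, A ≤ G ∧ A ≠ ⊥ ∧ Cfsg.IsElementaryAbelian p A ∧ Nat.card ↥V ≤ Nat.card ↥A * Nat.card ↥(V ⊓ Subgroup.centralizer (A : Set Ω)) ∧ ⁅⁅V, A⁆, A⁆ = ⊥ ∧ ∀ g ∈ Subgroup.closure {x : Ω | ∃ h ∈ G, ∃ a ∈ A, x = h * a * h⁻¹}, ∀ a ∈ A, g * a * g⁻¹ ∈ A := by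

  classical
  obtain ⟨E, hEG, hE1, hE, hoff⟩ := hF
  obtain ⟨A₁, hA₁G, hA₁1, hA₁off, hA₁q⟩ := exists_quad p V G hV hGV hfaith E hEG hE1 hE hoff
  letI : CommGroup V := { (inferInstance : Group V) with
    mul_comm := fun a b => hV.1.is_comm.comm a b }
  let φ : G →* MulAut V := V.normalizerMonoidHom.comp (Subgroup.inclusion hGV)
  have hφa : ∀ (g : G) (v : V), ((φ g v : V) : Ω) = (g : Ω) * v * (g : Ω)⁻¹ := fun g v => rfl
  have hφ : Function.Injective φ := by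
    rw [injective_iff_map_eq_one]
    intro g hg
    have h1 : (g : Ω) ∈ G ⊓ Subgroup.centralizer (V : Set Ω) := by
      refine ⟨g.2, ?_⟩
      show (g : Ω) ∈ Subgroup.centralizer (V : Set Ω)
      rw [Subgroup.mem_centralizer_iff]
      intro v hv
      have h2 := hφa g ⟨v, hv⟩
      rw [hg] at h2
      have h3 : v = (g : Ω) * v * (g : Ω)⁻¹ := h2
      calc v * (g : Ω) = ((g : Ω) * v * (g : Ω)⁻¹) * (g : Ω) := by rw [← h3]
        _ = (g : Ω) * v := by group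
    rw [hfaith, Subgroup.mem_bot] at h1
    exact Subtype.ext h1
  have hcardmap : ∀ A : Subgroup G, Nat.card (A.map G.subtype : Subgroup Ω) = Nat.card A := by
    intro A
    exact Subgroup.card_map_of_injective G.subtype_injective
  have hFx : ∀ A : Subgroup G, Nat.card {v : V // ∀ a ∈ A, φ a v = v}
      = Nat.card ↥(V ⊓ Subgroup.centralizer ((A.map G.subtype : Subgroup Ω) : Set Ω)) := by
    intro A
    apply Nat.card_congr
    refine
      { toFun := fun w => ⟨((w : V) : Ω), ?_⟩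
        invFun := fun v => ⟨⟨(v : Ω), v.2.1⟩, ?_⟩
        left_inv := ?_
        right_inv := ?_ }
    · refine ⟨(w : V).2, ?_⟩
      show _ ∈ Subgroup.centralizer ((A.map G.subtype : Subgroup Ω) : Set Ω)
      rw [Subgroup.mem_centralizer_iff]
      rintro _ ⟨a, ha, rfl⟩
      have h1 := congrArg (fun t : V => (t : Ω)) (w.2 a ha)
      have h3 : (a : Ω) * ((w : V) : Ω) * (a : Ω)⁻¹ = ((w : V) : Ω) := h1
      show (a : Ω) * _ = _ * (a : Ω)
      conv_rhs => rw [← h3]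
      group
    · intro a ha
      apply Subtype.ext
      rw [hφa]
      show (a : Ω) * (v : Ω) * (a : Ω)⁻¹ = v
      have h1 := Subgroup.mem_centralizer_iff.mp v.2.2 (a : Ω) ⟨a, ha, rfl⟩
      rw [h1]; group
    · intro w; rfl
    · intro v; rfl
  set A₀ : Subgroup G := A₁.subgroupOf G with hA₀
  have hA₀map : A₀.map G.subtype = A₁ := by
    rw [hA₀, Subgroup.subgroupOf_map_subtype, inf_eq_left.mpr hA₁G]
  have hA₀1 : A₀ ≠ ⊥ := by
    intro h
    apply hA₁1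
    rw [← hA₀map, h, Subgroup.map_bot]
  have hA₀q : ∀ a ∈ A₀, ∀ b ∈ A₀, ∀ v : V, φ a (φ b v * v⁻¹) = φ b v * v⁻¹ := by
    intro a ha b hb v
    apply Subtype.ext
    rw [hφa]
    have h2 : ((φ b v * v⁻¹ : V) : Ω) ∈ ⁅V, A₁⁆ := by
      have : ((φ b v * v⁻¹ : V) : Ω) = ⁅(b : Ω), (v : Ω)⁆ := rfl
      rw [this, Subgroup.commutator_comm]
      exact Subgroup.commutator_mem_commutator hb v.2
    have h3 : ⁅(a : Ω), ((φ b v * v⁻¹ : V) : Ω)⁆ = 1 := by
      rw [← Subgroup.mem_bot, ← hA₁q, Subgroup.commutator_comm]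
      exact Subgroup.commutator_mem_commutator ha h2
    exact mul_inv_eq_one.mp h3
  have hA₀off : Nat.card V ≤ Nat.card A₀ * Nat.card {v : V // ∀ a ∈ A₀, φ a v = v} := by
    rw [hFx, ← hcardmap A₀, hA₀map]
    exact hA₁off
  have hVp : ∀ x : V, x ^ p = 1 := fun x => Subtype.ext (hV.2 _ x.2)
  obtain ⟨A, hA1, hAq, hAc, hAp, hAoff, hAn⟩ :=
    abs_main (p := p) hp hG (M := V) hVp φ hφ A₀ hA₀1 hA₀q hA₀off
  refine ⟨A.map G.subtype, ?_, ?_, ⟨?_, ?_⟩, ?_, ?_, ?_⟩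
  · rintro _ ⟨a, _, rfl⟩; exact a.2
  · intro h
    apply hA1
    rw [eq_bot_iff]
    intro a ha
    have h1 : (a : Ω) ∈ A.map G.subtype := ⟨a, ha, rfl⟩
    rw [h, Subgroup.mem_bot] at h1
    rw [Subgroup.mem_bot]
    exact Subtype.ext h1
  · refine ⟨⟨?_⟩⟩
    rintro ⟨_, a, ha, rfl⟩ ⟨_, b, hb, rfl⟩
    apply Subtype.ext
    exact congrArg (fun t : G => (t : Ω)) (hAc a ha b hb)
  · rintro _ ⟨a, ha, rfl⟩
    exact congrArg (fun t : G => (t : Ω)) (hAp a ha)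
  · rw [hcardmap, ← hFx]
    exact hAoff
  · rw [Subgroup.commutator_eq_bot_iff_le_centralizer, Subgroup.commutator_le]
    rintro v hv _ ⟨a, ha, rfl⟩
    rw [Subgroup.mem_centralizer_iff]
    rintro _ ⟨b, hb, rfl⟩
    have h2 := congrArg (fun t : V => (t : Ω)) (hAq b hb a ha ⟨v, hv⟩)
    have h3 : (b : Ω) * ((a : Ω) * v * (a : Ω)⁻¹ * v⁻¹) * (b : Ω)⁻¹
        = (a : Ω) * v * (a : Ω)⁻¹ * v⁻¹ := h2
    have h5 : Commute (b : Ω) ((a : Ω) * v * (a : Ω)⁻¹ * v⁻¹) := by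
      show (b : Ω) * ((a : Ω) * v * (a : Ω)⁻¹ * v⁻¹) = ((a : Ω) * v * (a : Ω)⁻¹ * v⁻¹) * (b : Ω)
      calc (b : Ω) * ((a : Ω) * v * (a : Ω)⁻¹ * v⁻¹)
          = ((b : Ω) * ((a : Ω) * v * (a : Ω)⁻¹ * v⁻¹) * (b : Ω)⁻¹) * (b : Ω) := by group
        _ = _ := by rw [h3]
    have h6 : ⁅v, (a : Ω)⁆ = ((a : Ω) * v * (a : Ω)⁻¹ * v⁻¹)⁻¹ := by
      rw [commutatorElement_def]; group
    show (b : Ω) * ⁅v, (a : Ω)⁆ = ⁅v, (a : Ω)⁆ * (b : Ω)
    rw [h6]
    exact h5.inv_right.eq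
  · intro g hg
    have hcl : ∀ g ∈ Subgroup.closure {x : Ω | ∃ h ∈ G, ∃ a ∈ A.map G.subtype, x = h * a * h⁻¹},
        ∃ g' : G, (g' : Ω) = g ∧ g' ∈ Subgroup.normalizer (A : Set G) := by
      intro g hg
      induction hg using Subgroup.closure_induction with
      | mem x hx =>
        obtain ⟨h, hh, _, ⟨a, ha, rfl⟩, rfl⟩ := hx
        refine ⟨⟨h, hh⟩ * a * ⟨h, hh⟩⁻¹, rfl, ?_⟩
        apply hAn
        exact Subgroup.subset_closure ⟨⟨h, hh⟩, a, ha, rfl⟩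
      | one => exact ⟨1, rfl, Subgroup.one_mem _⟩
      | mul x y _ _ hx hy =>
        obtain ⟨x', rfl, hx'⟩ := hx
        obtain ⟨y', rfl, hy'⟩ := hy
        exact ⟨x' * y', rfl, Subgroup.mul_mem _ hx' hy'⟩
      | inv x _ hx =>
        obtain ⟨x', rfl, hx'⟩ := hx
        exact ⟨x'⁻¹, rfl, Subgroup.inv_mem _ hx'⟩
    obtain ⟨g', rfl, hg'⟩ := hcl g hg
    rintro _ ⟨a, ha, rfl⟩
    rw [Subgroup.mem_normalizer_iff] at hg'
    exact ⟨_, (hg' a).mp ha, rfl⟩


end Cfsg.Agent.S1935
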