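import Cfsg.Statements.S1939
import Cfsg.Agent.Lib.H38.WeakClosed

set_option autoImplicit false
open Cfsg

namespace Cfsg.Agent.S1939

/-- Let S be a Sylow p-subgroup of the finite group G and a an element of S that is the only G-conjugate of a lying in S. Then every power of a has the same property: for every n, the only G-conjugate of a^n lying in S is a^n. -/
theorem result {G : Type*} [Group G] [Finite G] {p : ℕ} [Fact p.Prime] (S : Sylow p G) (a : G)
    (haS : a ∈ (S : Subgroup G)) (hwc : ∀ g : G, g * a * g⁻¹ ∈ (S : Subgroup G) → g * a * g⁻¹ = a) (n : ℕ) :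
    ∀ g : G, g * a ^ n * g⁻¹ ∈ (S : Subgroup G) → g * a ^ n * g⁻¹ = a ^ n := by
  intro g hg
  have h : H38.WeakClosed.WC (S : Subgroup G) a := ⟨haS, hwc⟩
  have hA : ({a ^ n} : Set G) ⊆ ((S : Subgroup G) : Set G) := by
    rw [Set.singleton_subset_iff]; exact (S : Subgroup G).pow_mem haS n
  obtain ⟨m, hm, hm2⟩ := h.factor (A := {a ^ n}) (g := g) hA (by intro x hx; rw [Set.mem_singleton_iff.1 hx]; exact hg)
  rw [← hm2 (a ^ n) rfl]
  have : m * a ^ n = a ^ n * m := (Commute.pow_right (show Commute m a from hm) n)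
  rw [this]; group

end Cfsg.Agent.S1939
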