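import Cfsg.Statements.S1940


set_option autoImplicit false
open Cfsg

namespace Cfsg.Agent.S1940

/-- Let the finite group L act by automorphisms on the finite abelian group M, and let N be an L-invariant subgroup of M such that M/N is a p-group on which L acts trivially (every l • m lies in the coset mN). If every element of M is a product of an element of N and an element fixed by a Sylow p-subgroup T of L, then every element of M is a product of an element of N and an element fixed by all of L. -/
theorem result {L : Type*} [Group L] [Finite L] {M : Type*} [CommGroup M] [Finite M] [MulDistribMulAction L M]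
    {p : ℕ} [Fact p.Prime] (N : Subgroup M) (hN : ∀ (l : L) (m : M), m ∈ N → l • m ∈ N)
    (hquot : IsPGroup p (M ⧸ N)) (htriv : ∀ (l : L) (m : M), (l • m) * m⁻¹ ∈ N) (T : Sylow p L)
    (hT : ∀ m : M, ∃ n ∈ N, ∃ c : M, (∀ t ∈ (T : Subgroup L), t • c = c) ∧ m = n * c) :
    ∀ m : M, ∃ n ∈ N, ∃ c : M, (∀ l : L, l • c = c) ∧ m = n * c := by
  classical
  haveI : Fintype (L ⧸ (T : Subgroup L)) := Fintype.ofFinite _
  intro m
  obtain ⟨n, hn, c, hc, hm⟩ := hT m
  -- the product of the translates of `c`
  let f : L ⧸ (T : Subgroup L) → M := Quotient.lift (fun l : L => l • c) (by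
    intro a b hab
    have h1 : a⁻¹ * b ∈ (T : Subgroup L) := QuotientGroup.leftRel_apply.1 hab
    have h2 := hc _ h1
    show a • c = b • c
    rw [mul_smul, inv_smul_eq_iff] at h2
    exact h2.symm)
  have hf : ∀ l : L, f (QuotientGroup.mk l) = l • c := fun l => rfl
  set d : M := ∏ q : L ⧸ (T : Subgroup L), f q with hd
  have hdfix : ∀ l : L, l • d = d := by
    intro l
    rw [hd, Finset.smul_prod']
    refine Fintype.prod_equiv (MulAction.toPerm l) _ _ ?_
    intro q
    induction q using QuotientGroup.induction_on with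
    | H z =>
      rw [hf, MulAction.toPerm_apply, MulAction.Quotient.smul_mk, hf, smul_eq_mul, mul_smul]
  have hdmk : (QuotientGroup.mk d : M ⧸ N) = (QuotientGroup.mk c) ^ ((T : Subgroup L).index) := by
    have h1 : (QuotientGroup.mk d : M ⧸ N) = ∏ q : L ⧸ (T : Subgroup L), (QuotientGroup.mk (f q) : M ⧸ N) := by
      rw [hd]; exact map_prod (QuotientGroup.mk' N) _ _
    have h2 : ∀ q : L ⧸ (T : Subgroup L), (QuotientGroup.mk (f q) : M ⧸ N) = QuotientGroup.mk c := by
      intro q
      induction q using QuotientGroup.induction_on with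
      | H z =>
        rw [hf, eq_comm, QuotientGroup.eq]
        have := htriv z c
        rw [mul_comm] at this
        exact this
    rw [h1, Finset.prod_congr rfl (fun q _ => h2 q), Finset.prod_const, Finset.card_univ, Subgroup.index,
      Nat.card_eq_fintype_card]
  have hcop : p.Coprime (T : Subgroup L).index :=
    (Nat.Prime.coprime_iff_not_dvd Fact.out).2 T.not_dvd_index
  obtain ⟨j, hj⟩ : ∃ j : ℕ, ((QuotientGroup.mk c : M ⧸ N) ^ ((T : Subgroup L).index)) ^ j = QuotientGroup.mk c := by
    have h1 : (orderOf (QuotientGroup.mk c : M ⧸ N)).Coprime (T : Subgroup L).index := hquot.orderOf_coprime hcop _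
    obtain ⟨j, hj⟩ := exists_pow_eq_self_of_coprime h1.symm
    exact ⟨j, hj⟩
  refine ⟨m * (d ^ j)⁻¹, ?_, d ^ j, ?_, ?_⟩
  · rw [← QuotientGroup.eq_one_iff, QuotientGroup.mk_mul, QuotientGroup.mk_inv, QuotientGroup.mk_pow, hdmk, hj, hm,
      QuotientGroup.mk_mul, (QuotientGroup.eq_one_iff n).2 hn, one_mul, mul_inv_cancel]
  · intro l
    rw [smul_pow', hdfix]
  · simp

end Cfsg.Agent.S1940
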