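import Cfsg.Statements.S1941
import Cfsg.Agent.Lib.H38.Cocycle
import Cfsg.Agent.Lib.H26.GenFitting
open H38.Basic

set_option autoImplicit false
open Cfsg

namespace Cfsg.Agent.S1941

/-- Let G be a finite group with no nontrivial normal subgroup of order prime to p, T a Sylow p-subgroup of G and E(G) the layer of G (the subgroup generated by its components). An automorphism of G of p-power order that fixes T and E(G) elementwise is inner. -/
theorem result {G : Type*} [Group G] [Finite G] {p : ℕ} [Fact p.Prime] (hcore : Cfsg.pPrimeCore p G = ⊥)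
    (T : Sylow p G) (α : MulAut G) (hα : ∃ j : ℕ, orderOf α = p ^ j) (hfixT : ∀ x ∈ (T : Subgroup G), α x = x)
    (hfixE : ∀ x ∈ Cfsg.layer G, α x = x) : ∃ g : G, ∀ x : G, α x = g * x * g⁻¹ := by
  have hF : Cfsg.generalizedFittingSubgroup G = Cfsg.layer G ⊔ Cfsg.pCore p G :=
    H26.GenFitting.gFitting_eq_of_pPrimeCore_eq_bot hcore
  set F := Cfsg.generalizedFittingSubgroup G with hFdef
  have hcen : Subgroup.centralizer (F : Set G) ≤ F := H26.Components.centralizer_gFitting_le
  have hFn : F.Normal := inferInstance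
  have hfixF : ∀ x ∈ F, α x = x := by
    have : F ≤ (MonoidHom.eqLocus α.toMonoidHom (MonoidHom.id G)) := by
      rw [hF]
      refine sup_le (fun x hx => hfixE x hx) (fun x hx => hfixT x (H1.Cores.pCore_le_sylow T hx))
    exact fun x hx => this hx
  set Z := Subgroup.centralizer (F : Set G) with hZdef
  have hZn : Z.Normal := inferInstance
  have hZab : ∀ a ∈ Z, ∀ b ∈ Z, a * b = b * a := fun a ha b hb =>
    (Subgroup.mem_centralizer_iff.1 hb a (hcen ha))
  have hZp : IsPGroup p ↥Z := by
    have h1 : Z ≤ Cfsg.fittingSubgroup G := by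
      apply H1.Cores.le_fittingSubgroup hZn
      let : CommGroup ↥Z := { (inferInstance : Group ↥Z) with mul_comm := fun a b => Subtype.ext (hZab a a.2 b b.2) }
      exact CommGroup.isNilpotent
    rw [H1.Cores.fittingSubgroup_eq_pCore_of p hcore] at h1
    exact (H1.Cores.isPGroup_pCore p).to_le h1
  have hc : ∀ g, α g * g⁻¹ ∈ Z := by
    intro g
    rw [hZdef, Subgroup.mem_centralizer_iff]
    intro f hf
    have h1 : g⁻¹ * f * g ∈ F := by simpa using hFn.conj_mem f hf g⁻¹
    have h2 := hfixF _ h1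
    rw [map_mul, map_mul, map_inv, hfixF f hf] at h2
    -- `α(g)⁻¹ f α(g) = g⁻¹ f g`
    calc f * (α g * g⁻¹) = α g * ((α g)⁻¹ * f * α g) * g⁻¹ := by group
      _ = α g * (g⁻¹ * f * g) * g⁻¹ := by rw [h2]
      _ = _ := by group
  obtain ⟨z, -, hz⟩ := H38.Cocycle.exists_conj T α Z hZab hZp hfixT hc
  exact ⟨z, hz⟩

end Cfsg.Agent.S1941
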