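import Cfsg.Statements.S1945
import Cfsg.Agent.Lib.H38.WCSplit
import Cfsg.Agent.Lib.H1.Solv

set_option autoImplicit false
open Cfsg

namespace Cfsg.Agent.S1945

/-- Let S be a Sylow p-subgroup of the finite group G, and assume that p is odd or that G is solvable. The elements of S each of which is its only G-conjugate in S form a subgroup W of Z(S); W is then a direct factor of Z(S): there is a subgroup K of Z(S) with W ∩ K = 1 and WK = Z(S). (For p = 2 and G not solvable this can fail.) -/
theorem result {G : Type*} [Group G] [Finite G] {p : ℕ} [Fact p.Prime] (S : Sylow p G) (h : p ≠ 2 ∨ Group.IsSolvable G) :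
    ∃ W K : Subgroup G, (∀ x : G, x ∈ W ↔ (x ∈ (S : Subgroup G) ∧ ∀ g : G, g * x * g⁻¹ ∈ (S : Subgroup G) → g * x * g⁻¹ = x)) ∧
      K ≤ ((S : Subgroup G) ⊓ Subgroup.centralizer ((S : Subgroup G) : Set G)) ∧ W ⊓ K = ⊥ ∧ W ⊔ K = ((S : Subgroup G) ⊓ Subgroup.centralizer ((S : Subgroup G) : Set G)) := by
  rcases h with h | h
  · exact H38.WCSplit.odd_case h S
  · refine H38.WCSplit.core_case S ?_
    rintro x ⟨hxS, hxc⟩
    rw [H38.PPrime.mem_pPrimePCore]
    have hs : Group.IsSolvable (G ⧸ Cfsg.pPrimeCore p G) := inferInstance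
    apply H1.Solv.centralizer_pCore_le hs p (H1.Cores.pPrimeCore_quotient_pPrimeCore p)
    rw [Subgroup.mem_centralizer_iff]
    intro y hy
    have h1 := H1.Cores.pCore_le_sylow (S.mapSurjective (QuotientGroup.mk'_surjective (Cfsg.pPrimeCore p G))) hy
    rw [Sylow.coe_mapSurjective] at h1
    obtain ⟨s, hs, rfl⟩ := h1
    have := Subgroup.mem_centralizer_iff.1 hxc s hs
    exact congrArg (QuotientGroup.mk' (Cfsg.pPrimeCore p G)) this

end Cfsg.Agent.S1945
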