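import Cfsg.Statements.S1947
import Cfsg.Agent.Lib.H38.SmallExp
import Cfsg.Agent.Lib.H38.NilComm
import Cfsg.Agent.Lib.H2.Frobenius
open H38.Basic H38.PPrime H38.SmallExp

set_option autoImplicit false
open Cfsg

namespace Cfsg.Agent.S1947

/-- Let G be a finite group and p a prime. If every element of G of order dividing p (dividing 4 when p = 2) lies in some fixed term Z_n(G) of the upper central series, then G has a normal p-complement. -/
theorem result {G : Type*} [Group G] [Finite G] {p : ℕ} [Fact p.Prime] (n : ℕ)
    (h : ∀ a : G, (a ^ p = 1 ∨ (p = 2 ∧ a ^ 4 = 1)) → a ∈ Subgroup.upperCentralSeries G n) : Cfsg.HasNormalPComplement p G := by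
  apply H2.Frobenius.hasNPC_of_local
  intro D hD g hg hgo
  by_contra hgC
  obtain ⟨E, hED, hEN, hEne, hEgen, hEexp⟩ := exists_smallExp hD hg hgo hgC
  -- `E ≤ Z_k(G)` for all `k ≤ n`
  have key : ∀ j : ℕ, j ≤ n → E ≤ Subgroup.upperCentralSeries G (n - j) := by
    intro j
    induction j with
    | zero =>
      intro _ x hx
      exact h x (ex_iff.1 (hEexp x hx))
    | succ j ih =>
      intro hj
      have h1 := ih (by omega)
      have e : n - j = (n - (j + 1)) + 1 := by omega
      rw [e] at h1
      conv_lhs => rw [← hEgen]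
      rw [Subgroup.closure_le]
      rintro _ ⟨y, hy, rfl⟩
      have h2 := (Subgroup.mem_upperCentralSeries_succ_iff).1 (h1 (E.inv_mem hy)) g
      show _ ∈ Subgroup.upperCentralSeries G (n - (j + 1))
      convert h2 using 1
      group
  have := key n le_rfl
  rw [Nat.sub_self, Subgroup.upperCentralSeries_zero, le_bot_iff] at this
  exact hEne this

end Cfsg.Agent.S1947
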