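import Cfsg.Statements.S1948
import Cfsg.Agent.Lib.H38.PPrime
open H38.Basic H38.PPrime H38.Goldschmidt

set_option autoImplicit false
open Cfsg

namespace Cfsg.Agent.S1948

/-- Let S be a Sylow p-subgroup of the finite group G. Then G = N_G(S)·O_{p'}(G) if and only if G is p-constrained and N_G(S) controls fusion in S, in the sense that whenever a subgroup Q of S has a conjugate g Q g⁻¹ inside S, the element g is a product n c with n normalizing S and c centralizing Q. -/
theorem result {G : Type*} [Group G] [Finite G] {p : ℕ} [Fact p.Prime] (S : Sylow p G) :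
    Subgroup.normalizer ((S : Subgroup G) : Set G) ⊔ Cfsg.pPrimeCore p G = ⊤ ↔
      (Cfsg.IsPConstrained p G ∧
        ∀ Q : Subgroup G, Q ≤ (S : Subgroup G) → ∀ g : G, Q.map (MulAut.conj g).toMonoidHom ≤ (S : Subgroup G) →
          ∃ n ∈ Subgroup.normalizer ((S : Subgroup G) : Set G), ∃ c ∈ Subgroup.centralizer (Q : Set G), g = n * c) := by
  set K := Cfsg.pPrimeCore p G with hK
  haveI hKn : K.Normal := H1.Cores.pPrimeCore_normal p
  have hKp : (Nat.card ↥K).Coprime p := H1.Cores.coprime_card_pPrimeCore p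
  have hSK : ∀ x, x ∈ (S : Subgroup G) → x ∈ K → x = 1 := by
    intro x hx hxK
    refine eq_one_of_coprime_of_isPGroup S.2 hx ?_
    refine Nat.Coprime.coprime_dvd_left ?_ hKp
    have := orderOf_dvd_natCard (⟨x, hxK⟩ : ↥K)
    rwa [Subgroup.orderOf_mk] at this
  constructor
  · intro htop
    have hdec : ∀ g : G, ∃ k ∈ K, ∃ n ∈ Subgroup.normalizer ((S : Subgroup G) : Set G), g = k * n := by
      intro g
      have hg : g ∈ Subgroup.normalizer ((S : Subgroup G) : Set G) ⊔ K := htop ▸ Subgroup.mem_top g
      rw [mem_sup_iff_of_le_normalizer (H := Subgroup.normalizer ((S : Subgroup G) : Set G)) (K := K)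
        Subgroup.le_normalizer_of_normal] at hg
      exact hg
    -- a subgroup normalized by `N(S)` generates with `K` a normal subgroup
    have hnorm : ∀ D : Subgroup G, Subgroup.normalizer ((S : Subgroup G) : Set G) ≤ Subgroup.normalizer (D : Set G) →
        (D ⊔ K).Normal := by
      intro D hD
      rw [← Subgroup.normalizer_eq_top_iff, eq_top_iff]
      intro g _
      obtain ⟨k, hk, n, hn, rfl⟩ := hdec g
      refine mul_mem (Subgroup.le_normalizer (Subgroup.mem_sup_right hk)) ?_
      rw [mem_normalizer_iff', conj_sup, mem_normalizer_iff'.1 (hD hn), conj_normal]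
    have hSX : (S : Subgroup G) ≤ Cfsg.pPrimePCore p G := by
      refine le_sup_left.trans (le_pPrimePCore (hnorm S le_rfl) ?_)
      intro x hx
      rw [mem_sup_iff_of_le_normalizer (H := (S : Subgroup G)) (K := K)
        Subgroup.le_normalizer_of_normal] at hx
      obtain ⟨k, hk, s, hs, rfl⟩ := hx
      obtain ⟨j, hj⟩ := S.2 ⟨s, hs⟩
      refine ⟨j, ?_⟩
      have e : (QuotientGroup.mk (k * s) : G ⧸ K) = QuotientGroup.mk s := by
        rw [QuotientGroup.mk_mul, (QuotientGroup.eq_one_iff k).2 hk, one_mul]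
      rw [← QuotientGroup.eq_one_iff, QuotientGroup.mk_pow, e, ← QuotientGroup.mk_pow]
      have : s ^ p ^ j = 1 := by simpa using congrArg Subtype.val hj
      rw [this]; rfl
    refine ⟨?_, ?_⟩
    · have hSs : IsSyl p (S : Subgroup G) (Cfsg.pPrimePCore p G) := (isSyl_sylow S).of_le hSX le_top
      rw [isPConstrained_iff' hSs]
      intro x hx
      have hCN := Subgroup.centralizer_le_normalizer ((S : Subgroup G) : Set G)
      have hT : IsSyl p ((S : Subgroup G) ⊓ Subgroup.centralizer ((S : Subgroup G) : Set G))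
          (Subgroup.centralizer ((S : Subgroup G) : Set G)) :=
        ((isSyl_sylow S).of_le Subgroup.le_normalizer le_top).inf_normal hCN (le_normalizer_centralizer _)
      have hcen : Subgroup.centralizer ((S : Subgroup G) : Set G) ≤ Subgroup.centralizer
          (((S : Subgroup G) ⊓ Subgroup.centralizer ((S : Subgroup G) : Set G) : Subgroup G) : Set G) :=
        Subgroup.centralizer_le (fun _ h => h.1)
      obtain ⟨D, hD, hDp, hDd⟩ := exists_complement_of_central hT hcen
      obtain ⟨t, ht, d, hd, rfl⟩ := hDd x hx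
      refine mul_mem (hSX ht.1) (pPrimeCore_le_pPrimePCore ?_)
      have hDn : Subgroup.normalizer ((S : Subgroup G) : Set G) ≤ Subgroup.normalizer (D : Set G) := by
        intro n hn
        rw [Subgroup.mem_normalizer_iff]
        intro y
        rw [hD, hD, orderOf_conj]
        have := (Subgroup.mem_normalizer_iff.1 (le_normalizer_centralizer _ hn)) y
        tauto
      have := hnorm D hDn
      exact (le_sup_left.trans (H1.Cores.le_pPrimeCore this
        (Nat.Coprime.coprime_dvd_left (H1.Cores.card_sup_dvd_mul D K) (Nat.Coprime.mul_left hDp hKp)))) hd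
    · intro Q hQ g hg
      obtain ⟨k, hk, n, hn, e⟩ := hdec g⁻¹
      have hgn : g = n⁻¹ * k⁻¹ := by rw [← mul_inv_rev, ← e, inv_inv]
      refine ⟨n⁻¹, inv_mem hn, k⁻¹, ?_, hgn⟩
      rw [Subgroup.mem_centralizer_iff]
      intro q hq
      have h1 : g * q * g⁻¹ ∈ (S : Subgroup G) := hg (conj_mem_conj.2 hq)
      have h2 : k⁻¹ * q * k ∈ (S : Subgroup G) := by
        have := (Subgroup.mem_normalizer_iff.1 hn _).1 h1
        have e2 : n * (g * q * g⁻¹) * n⁻¹ = k⁻¹ * q * k := by rw [hgn]; group
        rwa [e2] at this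
      have h3 : k⁻¹ * q * k * q⁻¹ ∈ K := by
        have := K.mul_mem (K.inv_mem hk) (hKn.conj_mem k hk q)
        convert this using 1
        group
      have h4 := hSK _ ((S : Subgroup G).mul_mem h2 ((S : Subgroup G).inv_mem (hQ hq))) h3
      have h5 : k⁻¹ * q * k = q := mul_inv_eq_one.1 h4
      calc q * k⁻¹ = (k⁻¹ * q * k) * k⁻¹ := by rw [h5]
        _ = k⁻¹ * q := by group
  · rintro ⟨hcon, hctl⟩
    have hR := inf_pPrimePCore_isSyl (G := G) S
    set R := (S : Subgroup G) ⊓ Cfsg.pPrimePCore p G with hRdef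
    rw [isPConstrained_iff' hR] at hcon
    have hX : Cfsg.pPrimePCore p G ≤ Subgroup.normalizer ((S : Subgroup G) : Set G) ⊔ K := by
      rw [pPrimePCore_eq_sup hR, sup_comm]
      exact sup_le_sup_right (inf_le_left.trans Subgroup.le_normalizer) _
    rw [eq_top_iff, ← sup_normalizer_eq_top hR]
    refine sup_le le_sup_right ?_
    intro g hg
    obtain ⟨n, hn, c, hc, rfl⟩ := hctl R inf_le_left g (by rw [mem_normalizer_iff'.1 hg]; exact inf_le_left)
    exact mul_mem (Subgroup.mem_sup_left hn) (hX (hcon hc))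

end Cfsg.Agent.S1948
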