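import Cfsg.Statements.S1949
import Cfsg.Agent.Lib.H38.InvCrit
import Cfsg.Agent.Lib.H52.PRes
open H38.Basic H38.InvCrit H38.SmallExp
open scoped commutatorElement

set_option autoImplicit false
open Cfsg

namespace Cfsg.Agent.S1949

/-- Let P be a finite p-group and G a group of automorphisms of P containing the inner automorphisms. Then there is a G-invariant subgroup D of P, contained in the subgroup generated by the elements x⁻¹α(x) with x in P and α in O^p(G), of exponent dividing p when p is odd and dividing 4 when p = 2, with [D, P] ≤ Z(D), such that every automorphism in G of order prime to p that fixes D elementwise is the identity; moreover every maximal abelian subgroup A of D is normal in P and every automorphism in G fixing A elementwise has p-power order. -/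
theorem result {P : Type*} [Group P] [Finite P] {p : ℕ} [Fact p.Prime] (hP : IsPGroup p P)
    (G : Subgroup (MulAut P)) (hG : Cfsg.Inn P ≤ G) :
    ∃ D : Subgroup P,
      (∀ α ∈ G, D.map α.toMonoidHom = D) ∧
      D ≤ Subgroup.closure {y : P | ∃ α ∈ Cfsg.pResidual p ↥G, ∃ x : P, y = x⁻¹ * (α : MulAut P) x} ∧
      (∀ d ∈ D, d ^ p = 1 ∨ (p = 2 ∧ d ^ 4 = 1)) ∧
      ⁅D, (⊤ : Subgroup P)⁆ ≤ D ⊓ Subgroup.centralizer (D : Set P) ∧
      (∀ α ∈ G, (orderOf α).Coprime p → (∀ d ∈ D, α d = d) → α = 1) ∧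
      ∀ A : Subgroup P, A ≤ D → IsMulCommutative ↥A →
        (∀ B : Subgroup P, A ≤ B → B ≤ D → IsMulCommutative ↥B → B = A) →
        A.Normal ∧ ∀ α ∈ G, (∀ a ∈ A, α a = a) → ∃ k : ℕ, orderOf α = p ^ k := by
  have hGc : ∀ x : P, MulAut.conj x ∈ G := fun x => hG ⟨x, rfl⟩
  have hHn : (Cfsg.pResidual p ↥G).Normal := inferInstance
  have hmem : ∀ α : ↥G, (orderOf α).Coprime p → α ∈ Cfsg.pResidual p ↥G := fun α h => Subgroup.subset_closure h
  generalize Cfsg.pResidual p ↥G = R at hHn hmem ⊢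
  have hQi : Inv G (Subgroup.closure {y : P | ∃ α ∈ R, ∃ x : P, y = x⁻¹ * (α : MulAut P) x}) := by
    intro β hβ d hd
    induction hd using Subgroup.closure_induction with
    | mem d hd =>
      obtain ⟨α, hα, x, rfl⟩ := hd
      apply Subgroup.subset_closure
      have h1 : (⟨β, hβ⟩ : ↥G) * α * (⟨β, hβ⟩ : ↥G)⁻¹ ∈ R := hHn.conj_mem α hα _
      refine ⟨_, h1, β x, ?_⟩
      have e1 : (((⟨β, hβ⟩ : ↥G) * α * (⟨β, hβ⟩ : ↥G)⁻¹ : ↥G) : MulAut P) = β * (α : MulAut P) * β⁻¹ := rfl
      rw [e1, MulAut.mul_apply, MulAut.mul_apply, MulAut.inv_apply_self, map_mul, map_inv]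
    | one => rw [map_one]; exact Subgroup.one_mem _
    | mul a b _ _ ha hb => rw [map_mul]; exact Subgroup.mul_mem _ ha hb
    | inv a _ ha => rw [map_inv]; exact Subgroup.inv_mem _ ha
  refine exists_small hP G hGc _ hQi ?_
  intro α hα hαp x
  apply Subgroup.subset_closure
  exact ⟨⟨α, hα⟩, hmem _ (by rwa [Subgroup.orderOf_mk]), x, rfl⟩

end Cfsg.Agent.S1949
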