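import Cfsg.Statements.S1953
import Cfsg.Agent.Lib.H38.SLFree
import Cfsg.Agent.Lib.H38.CRad2
open H38.Basic H38.CRad

set_option autoImplicit false
open Cfsg

namespace Cfsg.Agent.S1953

/-- Let p be an odd prime and P a Sylow p-subgroup of the finite group G, and suppose that for no p-subgroup Q of G does N_G(Q)/C_G(Q) have a section isomorphic to SL₂(p). Call a subgroup Q of P centric-radical when Z(Q) is a Sylow p-subgroup of C_G(Q) and the only normal subgroup X of N_G(Q) containing Q·C_G(Q) such that the index of Q·C_G(Q) in X is a power of p is Q·C_G(Q) itself (that is, N_G(Q)/Q·C_G(Q) has no nontrivial normal p-subgroup). Then there is a centric-radical subgroup Q of P contained in every centric-radical subgroup of P; it is normal in P, and N_G(Q) controls strong fusion in P: whenever a subgroup A of P has g A g⁻¹ ≤ P, the element g is a product h c with h in N_G(Q) and c centralizing A. -/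
theorem result {G : Type*} [Group G] [Finite G] {p : ℕ} [Fact p.Prime] (hp : p ≠ 2) (P : Sylow p G)
    (hfree : ∀ Q : Subgroup G, IsPGroup p ↥Q → ¬ ∃ (H K : Subgroup G) (_ : (K.subgroupOf H).Normal),
      Subgroup.centralizer (Q : Set G) ≤ K ∧ K ≤ H ∧ H ≤ Subgroup.normalizer (Q : Set G) ∧
      Nonempty ((↥H ⧸ K.subgroupOf H) ≃* Matrix.SpecialLinearGroup (Fin 2) (ZMod p)))
    (cr : Subgroup G → Prop)
    (hcr : ∀ Q : Subgroup G, cr Q ↔ (Q ≤ (P : Subgroup G) ∧
      (∃ R : Sylow p ↥(Subgroup.centralizer (Q : Set G)),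
        (R : Subgroup ↥(Subgroup.centralizer (Q : Set G))).map (Subgroup.centralizer (Q : Set G)).subtype = Q ⊓ Subgroup.centralizer (Q : Set G)) ∧
      ∀ X : Subgroup G, X ≤ Subgroup.normalizer (Q : Set G) →
        (∀ n ∈ Subgroup.normalizer (Q : Set G), X.map (MulAut.conj n).toMonoidHom = X) →
        Q ⊔ Subgroup.centralizer (Q : Set G) ≤ X → (∃ k : ℕ, (Q ⊔ Subgroup.centralizer (Q : Set G)).relIndex X = p ^ k) →
        X = Q ⊔ Subgroup.centralizer (Q : Set G))) :
    ∃ Q : Subgroup G, cr Q ∧ (∀ R : Subgroup G, cr R → Q ≤ R) ∧ (∀ x ∈ (P : Subgroup G), Q.map (MulAut.conj x).toMonoidHom = Q) ∧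
      ∀ A : Subgroup G, A ≤ (P : Subgroup G) → ∀ g : G, A.map (MulAut.conj g).toMonoidHom ≤ (P : Subgroup G) →
        ∃ h ∈ Subgroup.normalizer (Q : Set G), ∃ c ∈ Subgroup.centralizer (A : Set G), g = h * c := by
  have hslf := H38.SLFree.slf_of hfree
  set K := inducedFunctor kInfUpper (P : Subgroup G) with hK
  have hPp : IsPGroup p ↥(P : Subgroup G) := P.2
  have hnil : Group.IsNilpotent ↥(P : Subgroup G) := hPp.isNilpotent
  have hf : IsConjugacyFunctor p (inducedFunctor kInfUpper : Subgroup G → Subgroup G) :=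
    H38.Section.isConjugacyFunctor_induced (H39.KLocal.kInf_charPFunctor (Or.inr rfl))
  have hctl := H38.SLFree.sf (Or.inr rfl) hp G hslf P
  have hKP : K ≤ (P : Subgroup G) := Subgroup.map_subtype_le _
  have hcen : (P : Subgroup G) ⊓ Subgroup.centralizer (K : Set G) ≤ K := by
    rintro x ⟨hx, hxc⟩
    have h1 := H39.KInf.centralizer_kInfUpper_le (P := ↥(P : Subgroup G))
    refine ⟨⟨x, hx⟩, h1 ?_, rfl⟩
    have hxc' : ∀ k ∈ (K : Set G), k * x = x * k := Subgroup.mem_centralizer_iff.1 hxc
    rw [Subgroup.mem_centralizer_iff]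
    intro k hk
    apply Subtype.ext
    exact hxc' (k : G) ⟨k, hk, rfl⟩
  obtain ⟨Q, hQ, hleast, hPQ, hmain⟩ := H38.CRad2.main P hKP (H38.Functor.le_normalizer_W hf hPp) hcen hctl
  have hiff : ∀ R : Subgroup G, cr R ↔ CR p (P : Subgroup G) R := by
    intro R
    rw [hcr R, CR]
    refine and_congr Iff.rfl (and_congr ?_ ?_)
    · constructor
      · rintro ⟨S, hS⟩
        rw [← hS]; exact isSyl_of_sylow S
      · intro h
        exact ⟨h.toSylow, h.map_toSylow⟩
    · refine forall_congr' fun X => imp_congr_right fun _ => ?_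
      refine imp_congr ?_ Iff.rfl
      constructor
      · intro h n hn
        exact mem_normalizer_iff'.2 (h n hn)
      · intro h n hn
        exact mem_normalizer_iff'.1 (h hn)
  refine ⟨Q, (hiff Q).2 hQ, fun R hR => hleast R ((hiff R).1 hR), fun x hx => mem_normalizer_iff'.1 (hPQ hx), hmain⟩

end Cfsg.Agent.S1953
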