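import Cfsg.Statements.S1956
import Cfsg.Agent.Lib.H38.Basic

set_option autoImplicit false
open Cfsg

namespace Cfsg.Agent.S1956

/-- Let P be a Sylow p-subgroup of the finite group G such that every element of P of order dividing p (dividing 4 when p = 2) is central in P. Then the fusion of these elements is controlled by N_G(P): if such an element a of P has g a g⁻¹ in P, then g = n c with n normalizing P and c commuting with a. -/
theorem result {G : Type*} [Group G] [Finite G] {p : ℕ} [Fact p.Prime] (P : Sylow p G)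
    (hcen : ∀ a ∈ (P : Subgroup G), (a ^ p = 1 ∨ (p = 2 ∧ a ^ 4 = 1)) → ∀ y ∈ (P : Subgroup G), a * y = y * a) :
    ∀ a ∈ (P : Subgroup G), (a ^ p = 1 ∨ (p = 2 ∧ a ^ 4 = 1)) → ∀ g : G, g * a * g⁻¹ ∈ (P : Subgroup G) →
      ∃ n ∈ Subgroup.normalizer ((P : Subgroup G) : Set G), ∃ c : G, c * a = a * c ∧ g = n * c := by
  intro a ha hpa g hg
  have h1 : ∀ y ∈ (P : Subgroup G), a * y = y * a := hcen a ha hpa
  have hpa' : (g * a * g⁻¹) ^ p = 1 ∨ (p = 2 ∧ (g * a * g⁻¹) ^ 4 = 1) := by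
    rw [conj_pow, conj_pow]
    rcases hpa with h | ⟨h, h'⟩
    · left; rw [h]; group
    · right; refine ⟨h, ?_⟩; rw [h']; group
  have h2 : ∀ y ∈ (P : Subgroup G), g * a * g⁻¹ * y = y * (g * a * g⁻¹) := hcen _ hg hpa'
  have hPC : (P : Subgroup G) ≤ Subgroup.centralizer ({g * a * g⁻¹} : Set G) := by
    intro y hy
    rw [Subgroup.mem_centralizer_iff]
    rintro _ rfl
    exact h2 y hy
  have hs1 : H38.Basic.IsSyl p (P : Subgroup G) (Subgroup.centralizer ({g * a * g⁻¹} : Set G)) :=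
    (H38.Basic.isSyl_sylow P).of_le hPC le_top
  have hPC' : ((P : Subgroup G).map (MulAut.conj g).toMonoidHom) ≤ Subgroup.centralizer ({g * a * g⁻¹} : Set G) := by
    intro y hy
    rw [H38.Basic.mem_conj] at hy
    rw [Subgroup.mem_centralizer_iff]
    rintro _ rfl
    have := h1 _ hy
    calc g * a * g⁻¹ * y = g * (a * (g⁻¹ * y * g)) * g⁻¹ := by group
      _ = g * (g⁻¹ * y * g * a) * g⁻¹ := by rw [this]
      _ = y * (g * a * g⁻¹) := by group
  obtain ⟨c, hc, hcP⟩ := hs1.exists_conj_le (H38.Basic.isPGroup_conj P.2 g) hPC'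
  rw [H38.Basic.conj_conj] at hcP
  have hn : c * g ∈ Subgroup.normalizer ((P : Subgroup G) : Set G) := by
    rw [H38.Basic.mem_normalizer_iff']
    exact Subgroup.eq_of_le_of_card_ge hcP (by rw [H38.Basic.card_conj])
  have hc' : g * a * g⁻¹ * c = c * (g * a * g⁻¹) := (Subgroup.mem_centralizer_iff.1 hc) _ rfl
  refine ⟨c * g, hn, g⁻¹ * c⁻¹ * g, ?_, by group⟩
  calc g⁻¹ * c⁻¹ * g * a = g⁻¹ * c⁻¹ * (g * a * g⁻¹ * c) * c⁻¹ * g := by group
    _ = g⁻¹ * c⁻¹ * (c * (g * a * g⁻¹)) * c⁻¹ * g := by rw [hc']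
    _ = a * (g⁻¹ * c⁻¹ * g) := by group

end Cfsg.Agent.S1956
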