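import Cfsg.Statements.S2001
import Cfsg.Agent.Lib.H39.PairTransfer

set_option autoImplicit false
open Cfsg

namespace Cfsg.Agent.S2001

/-- Let p be a prime dividing the order of the finite group G, P a Sylow p-subgroup, W a conjugacy functor for p on G with Z(H) ≤ W(H) for every nontrivial p-subgroup H, and V a central functor: a conjugacy functor with V(H) ≤ Z(H), and V(H) ≤ V(K) whenever Z(H) ≤ Z(K), for nontrivial p-subgroups H, K. Say that W with V controls transfer in a subgroup L when some Sylow p-subgroup Q of L satisfies Q ∩ L' = (Q ∩ (N_L(W(Q)))')·(Q ∩ (C_L(V(Q)))') as a product of two subgroups. If W with V controls transfer in N_G(H) for every subgroup H with Z(P) ≤ H ≤ P, then W with V controls transfer in G. -/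
theorem result {G : Type*} [Group G] [Finite G] {p : ℕ} [Fact p.Prime] (hdiv : p ∣ Nat.card G) (P : Sylow p G) (W V : Subgroup G → Subgroup G) (hW : Cfsg.IsConjugacyFunctor p W) (hV : Cfsg.IsConjugacyFunctor p V) (hWZ : ∀ H : Subgroup G, IsPGroup p ↥H → H ⊓ Subgroup.centralizer ((H : Subgroup G) : Set G) ≤ W H) (hVZ : ∀ H : Subgroup G, IsPGroup p ↥H → V H ≤ H ⊓ Subgroup.centralizer ((H : Subgroup G) : Set G)) (hVmono : ∀ H K : Subgroup G, IsPGroup p ↥H → IsPGroup p ↥K → H ≠ ⊥ → K ≠ ⊥ → H ⊓ Subgroup.centralizer ((H : Subgroup G) : Set G) ≤ K ⊓ Subgroup.centralizer ((K : Subgroup G) : Set G) → V H ≤ V K) (hloc : ∀ H : Subgroup G, (P : Subgroup G) ⊓ Subgroup.centralizer (((P : Subgroup G) : Subgroup G) : Set G) ≤ H → H ≤ (P : Subgroup G) → ∃ Q : Subgroup G, Q ≤ Subgroup.normalizer ((H : Subgroup G) : Set G) ∧ IsPGroup p ↥Q ∧ ¬ p ∣ (Q).relIndex (Subgroup.normalizer ((H : Subgroup G) : Set G)) ∧ ∀ x : G, x ∈ Q ⊓ ⁅Subgroup.normalizer ((H : Subgroup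 G) : Set G), Subgroup.normalizer ((H : Subgroup G) : Set G)⁆ ↔ ∃ a ∈ Q ⊓ ⁅Subgroup.normalizer ((H : Subgroup G) : Set G) ⊓ Subgroup.normalizer ((W Q : Subgroup G) : Set G), Subgroup.normalizer ((H : Subgroup G) : Set G) ⊓ Subgroup.normalizer ((W Q : Subgroup G) : Set G)⁆, ∃ b ∈ Q ⊓ ⁅Subgroup.normalizer ((H : Subgroup G) : Set G) ⊓ Subgroup.centralizer ((V Q : Subgroup G) : Set G), Subgroup.normalizer ((H : Subgroup G) : Set G) ⊓ Subgroup.centralizer ((V Q : Subgroup G) : Set G)⁆, x = a * b) : ∃ Q : Subgroup G, IsPGroup p ↥Q ∧ ¬ p ∣ Q.index ∧ ∀ x : G, x ∈ Q ⊓ commutator G ↔ ∃ a ∈ Q ⊓ ⁅Subgroup.normalizer ((W Q : Subgroup G) : Set G), Subgroup.normalizer ((W Q : Subgroup G) : Set G)⁆, ∃ b ∈ Q ⊓ ⁅Subgroup.centralizer ((V Q : Subgroup G) : Set G), Subgroup.centralizer ((V Q : Subgroup G) : Set G)⁆, x = a * b := by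
  have hSne : (P : Subgroup G) ≠ ⊥ := P.ne_bot_of_dvd_card hdiv
  have main := H39.PairTransfer.transfer P hSne hW hV hWZ hVmono (fun H h1 h2 => by
    obtain ⟨Q, hQ1, hQ2, hQ3, hQ4⟩ := hloc H h1 h2
    refine ⟨Q, ⟨hQ1, hQ2, hQ3⟩, fun x hx => ?_⟩
    obtain ⟨a, ha, b, hb, rfl⟩ := (hQ4 x).1 hx
    exact Subgroup.mul_mem_sup ha hb)
  refine ⟨P, P.2, P.not_dvd_index, fun x => ⟨fun hx => ?_, ?_⟩⟩
  · rw [commutator_def] at hx
    have h1 := main hx
    have hN : (P : Subgroup G) ⊓ ⁅Subgroup.centralizer ((V (P : Subgroup G) : Subgroup G) : Set G),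
        Subgroup.centralizer ((V (P : Subgroup G) : Subgroup G) : Set G)⁆ ≤
        Subgroup.normalizer (((P : Subgroup G) ⊓ ⁅Subgroup.normalizer ((W (P : Subgroup G) : Subgroup G) : Set G),
          Subgroup.normalizer ((W (P : Subgroup G) : Subgroup G) : Set G)⁆ : Subgroup G) : Set G) := by
      refine inf_le_left.trans (le_trans ?_ (H39.Comm.inf_normalizer_le _ _))
      refine le_inf Subgroup.le_normalizer ?_
      refine (H38.Functor.le_normalizer_W hW P.2).trans (Subgroup.le_normalizer_iff_commutator_le_right.2 ?_)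
      exact Subgroup.commutator_mono le_rfl (Subgroup.commutator_le_self _)
    have h2 := Subgroup.coe_mul_of_right_le_normalizer_left _ _ hN
    have h3 : x ∈ (((P : Subgroup G) ⊓ ⁅Subgroup.normalizer ((W (P : Subgroup G) : Subgroup G) : Set G),
          Subgroup.normalizer ((W (P : Subgroup G) : Subgroup G) : Set G)⁆ ⊔
        (P : Subgroup G) ⊓ ⁅Subgroup.centralizer ((V (P : Subgroup G) : Subgroup G) : Set G),
        Subgroup.centralizer ((V (P : Subgroup G) : Subgroup G) : Set G)⁆ : Subgroup G) : Set G) := h1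
    rw [h2] at h3
    obtain ⟨a, ha, b, hb, hab⟩ := Set.mem_mul.1 h3
    exact ⟨a, ha, b, hb, hab.symm⟩
  · rintro ⟨a, ha, b, hb, rfl⟩
    rw [commutator_def]
    exact mul_mem (inf_le_inf_left _ (Subgroup.commutator_mono le_top le_top) ha)
      (inf_le_inf_left _ (Subgroup.commutator_mono le_top le_top) hb)

end Cfsg.Agent.S2001
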