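import Cfsg.Statements.S2007
import Cfsg.Agent.Lib.H39.SylowAux

set_option autoImplicit false
open Cfsg

namespace Cfsg.Agent.S2007

/-- Let p be a prime, G a finite group with Sylow p-subgroup S, and T a normal subgroup of S containing C_S(T). If N_G(T)/C_G(T) is a p-group (every element of N_G(T) of order prime to p centralizes T), then N_G(T) has a normal p-complement. -/
theorem result {G : Type*} [Group G] [Finite G] {p : ℕ} [Fact p.Prime] (S : Sylow p G) (T : Subgroup G) (hTS : T ≤ (S : Subgroup G)) (hTn : (S : Subgroup G) ≤ Subgroup.normalizer ((T : Subgroup G) : Set G)) (hC : (S : Subgroup G) ⊓ Subgroup.centralizer ((T : Subgroup G) : Set G) ≤ T) (hN : ∀ g ∈ Subgroup.normalizer ((T : Subgroup G) : Set G), (orderOf g).Coprime p → g ∈ Subgroup.centralizer ((T : Subgroup G) : Set G)) : Cfsg.HasNormalPComplement p ↥(Subgroup.normalizer ((T : Subgroup G) : Set G)) := by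
  classical
  set L : Subgroup G := Subgroup.normalizer ((T : Subgroup G) : Set G) with hL
  set C : Subgroup ↥L := (Subgroup.centralizer ((T : Subgroup G) : Set G)).subgroupOf L with hCdef
  have hCn : C.Normal := by
    rw [hCdef, hL]; infer_instance
  apply H39.PNilp.of_normal_of_index C
  · -- C has a central Sylow subgroup
    let S' : Subgroup ↥L := (S : Subgroup G).subgroupOf L
    have hS'idx : ¬ p ∣ S'.index := (S.subtype hTn).not_dvd_index
    have h1 : ¬ p ∣ S'.relIndex C := fun h => hS'idx (h.trans (H39.SylowAux.relIndex_dvd_index_of_normal_right S' C))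
    refine H39.SylowAux.pNilp_of_central (p := p) (S'.subgroupOf C) ?_ ?_ h1
    · intro x hx
      rw [Subgroup.mem_center_iff]
      intro c
      apply Subtype.ext
      apply Subtype.ext
      have hxS : ((x : ↥L) : G) ∈ (S : Subgroup G) := hx
      have hxC : ((x : ↥L) : G) ∈ Subgroup.centralizer ((T : Subgroup G) : Set G) := x.2
      have hxT : ((x : ↥L) : G) ∈ T := hC ⟨hxS, hxC⟩
      have hcC : ((c : ↥L) : G) ∈ Subgroup.centralizer ((T : Subgroup G) : Set G) := c.2
      exact (Subgroup.mem_centralizer_iff.1 hcC _ hxT).symm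
    · have h2 : IsPGroup p ↥S' := S.2.comap_of_injective L.subtype L.subtype_injective
      exact h2.comap_of_injective C.subtype C.subtype_injective
  · apply H39.SylowAux.index_pow_of_coprime_mem
    intro x hx
    show (x : G) ∈ Subgroup.centralizer ((T : Subgroup G) : Set G)
    apply hN x x.2
    rwa [Subgroup.orderOf_coe]

end Cfsg.Agent.S2007
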