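import Cfsg.Statements.S2015
import Cfsg.Agent.Lib.H39.KTrans

set_option autoImplicit false
universe u
open Cfsg

namespace Cfsg.Agent.S2015

/-- For p ≥ 5, every finite p-group P has a characteristic subgroup K containing Z(P), depending only on P, whose normalizer controls transfer wherever P is a Sylow subgroup: for every finite group G and every embedding ι of P onto a Sylow p-subgroup of G, the intersection of ι(P) with the derived subgroup of G equals its intersection with the derived subgroup of N_G(ι(K)). -/
theorem result (p : ℕ) [Fact p.Prime] (hp : 5 ≤ p) (P : Type u) [Group P] [Finite P] (hP : IsPGroup p P) : ∃ K : Subgroup P, K.Characteristic ∧ Subgroup.center P ≤ K ∧ ∀ (G : Type u) [Group G] [Finite G] (ι : P →* G), Function.Injective ι → (∃ T : Sylow p G, (T : Subgroup G) = ι.range) → ι.range ⊓ commutator G = ι.range ⊓ (commutator ↥(Subgroup.normalizer ((K.map ι : Subgroup G) : Set G))).map (Subgroup.normalizer ((K.map ι : Subgroup G) : Set G)).subtype := by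
  have hch := H39.KInf.kInfLower_isCharPFunctor.{u} p
  refine ⟨Cfsg.kInfLower P, H39.Cubic2.kInfLower_char P, H39.KInf.center_le_kInfLower, ?_⟩
  intro G _ _ ι hι hT
  obtain ⟨T, hT⟩ := hT
  have h1 : (T : Subgroup G) = (⊤ : Subgroup P).map ι := by rw [hT, MonoidHom.range_eq_map]
  have h2 : Cfsg.inducedFunctor (G := P) Cfsg.kInfLower ⊤ = Cfsg.kInfLower P := by
    have h3 := hch.2 ↥(⊤ : Subgroup P) P (hP.to_subgroup _) Subgroup.topEquiv
    exact h3
  have h4 : Cfsg.inducedFunctor Cfsg.kInfLower (T : Subgroup G) = (Cfsg.kInfLower P).map ι := by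
    rw [h1, H39.Sect.ind_map hch hι (hP.to_subgroup _), h2]
  have h5 := H39.KTrans.kInf_inf_commutator hp (Or.inl rfl) T
  rw [h4] at h5
  rw [← hT, Subgroup.map_subtype_commutator]
  exact h5

end Cfsg.Agent.S2015
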