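import Cfsg.Statements.S2133
import Cfsg.Agent.Lib.H91.M24Cent

set_option autoImplicit false
open Cfsg

namespace Cfsg.Agent.S2133

/-- The Mathieu group M₂₄ (the automorphism group of the length-24 binary code) has an involution whose centraliser is isomorphic to the centraliser of a transvection in SL(5, 2) (a group of shape 2^{1+6}:GL(3, 2)). -/
theorem result (s : Matrix.SpecialLinearGroup (Fin 5) (ZMod 2)) (hs : (s : Matrix (Fin 5) (Fin 5) (ZMod 2)) = Matrix.transvection 0 1 1) : ∃ z : ↥Cfsg.M24, orderOf z = 2 ∧ Nonempty (↥(Subgroup.centralizer ({z} : Set ↥Cfsg.M24)) ≃* ↥(Subgroup.centralizer ({s} : Set (Matrix.SpecialLinearGroup (Fin 5) (ZMod 2))))) := by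
  obtain ⟨u, hu, hu1⟩ : ∃ u ∈ H91.M24Cent.U0, u ≠ 1 := by
    by_contra hcon
    push Not at hcon
    have h : H91.M24Cent.U0 = ⊥ := (Subgroup.eq_bot_iff_forall _).2 hcon
    have := H91.M24Cent.card_U0
    rw [h, Subgroup.card_bot] at this
    exact absurd this (by norm_num)
  have hv0 := H91.M24Cent.mem_U0.1 hu
  obtain ⟨z, hz⟩ : ∃ z : Cfsg.M24, z = (u : Cfsg.M24) := ⟨_, rfl⟩
  have hv : (((1 : Cfsg.M24) * z * (1 : Cfsg.M24)⁻¹ : Cfsg.M24) : Equiv.Perm Cfsg.GolayPt) ∈ H57.OctStab.VO := by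
    rw [one_mul, inv_one, mul_one, hz]
    exact hv0
  have hz1 : z ≠ 1 := by
    intro h
    apply hu1
    apply Subtype.ext
    rw [← hz, h]
    rfl
  have hzo : orderOf z = 2 := by
    apply orderOf_eq_prime _ hz1
    rw [pow_two, hz]
    apply Subtype.ext
    exact H57.OctStab.VO_sq hv0
  have hvU : H91.M24Cent.vv hv ∈ H91.M24Cent.U0 := hv
  obtain ⟨Φ, -⟩ := H91.M24Cent.exists_Phi hvU (H91.M24Cent.vv_ne hv hz1)
  have hs1 : s = (H91.Holomorph.z1 : H91.TransvCent.SL (2 + 1 + 2)) := by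
    apply Subtype.ext
    exact hs.trans H91.Holomorph.hz1.symm
  refine ⟨z, hzo, ?_⟩
  rw [hs1]
  exact ⟨(H91.M24Cent.Psi hv hz1).trans Φ⟩

end Cfsg.Agent.S2133
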