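import Cfsg.Statements.S2162
import Mathlib
import Cfsg.Agent.Lib.H41.NilSq
import Cfsg.Agent.Lib.H41.SpMat2

set_option autoImplicit false
open Cfsg

namespace Cfsg.Agent.S2162


theorem sq_one {F : Type*} [Field F] {n : ℕ} (a : Matrix.SpecialLinearGroup (Fin n) F) (ha : orderOf a = 2) :
    (a : Matrix (Fin n) (Fin n) F) * (a : Matrix (Fin n) (Fin n) F) = 1 := by
  have h : a ^ 2 = 1 := by rw [← ha]; exact pow_orderOf_eq_one a
  rw [pow_two] at h
  rw [← Matrix.SpecialLinearGroup.coe_mul, h, Matrix.SpecialLinearGroup.coe_one]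

theorem nsq {F : Type*} [Field F] [CharP F 2] {n : ℕ} (A : Matrix (Fin n) (Fin n) F) (hA : A * A = 1) (x : Fin n → F) :
    (A - 1).mulVecLin ((A - 1).mulVecLin x) = 0 := by
  have h2 : (2 : F) = 0 := CharTwo.two_eq_zero
  have : (A - 1) * (A - 1) = 0 := by
    have e : (A - 1) * (A - 1) = A * A + 1 - (2 : F) • A := by
      rw [two_smul]; noncomm_ring
    rw [e, hA, h2, zero_smul, sub_zero, ← two_smul F (1 : Matrix (Fin n) (Fin n) F), h2, zero_smul]
  rw [Matrix.mulVecLin_apply, Matrix.mulVecLin_apply, Matrix.mulVec_mulVec, this, Matrix.zero_mulVec]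

theorem ne_zero {F : Type*} [Field F] {n : ℕ} (a : Matrix.SpecialLinearGroup (Fin n) F) (ha : orderOf a = 2) :
    ((a : Matrix (Fin n) (Fin n) F) - 1).mulVecLin ≠ 0 := by
  intro h
  have h1 : (a : Matrix (Fin n) (Fin n) F) - 1 = 0 := by
    apply Matrix.toLin'.injective
    rw [Matrix.toLin'_apply', h, map_zero]
  have h2 : a = 1 := by
    apply Matrix.SpecialLinearGroup.ext
    intro i j
    rw [Matrix.SpecialLinearGroup.coe_one, sub_eq_zero.mp h1]
  rw [h2, orderOf_one] at ha
  omega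

/-- Conjugacy of involutions in the special linear group over a finite field of characteristic two, in dimension at least 3: two elements of order 2 of SL_n(F) are conjugate in SL_n(F) exactly when the matrices a − 1 and b − 1 have the same rank (the rank of a − 1 is the dimension of the commutator space [V, a]). -/
theorem result {F : Type*} [Field F] [Fintype F] [CharP F 2] {n : ℕ} (hn : 3 ≤ n) (a b : Matrix.SpecialLinearGroup (Fin n) F) (ha : orderOf a = 2) (hb : orderOf b = 2) :
    IsConj a b ↔ ((a : Matrix (Fin n) (Fin n) F) - 1).rank = ((b : Matrix (Fin n) (Fin n) F) - 1).rank := by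
  constructor
  · intro h
    obtain ⟨g, hg⟩ := isConj_iff.mp h
    have hga : (g : Matrix (Fin n) (Fin n) F) * (a : Matrix (Fin n) (Fin n) F) = (b : Matrix (Fin n) (Fin n) F) * (g : Matrix (Fin n) (Fin n) F) := by
      have : g * a = b * g := by rw [← hg]; group
      rw [← Matrix.SpecialLinearGroup.coe_mul, this, Matrix.SpecialLinearGroup.coe_mul]
    have hdg : IsUnit (g : Matrix (Fin n) (Fin n) F).det := by
      rw [g.det_coe]; exact isUnit_one
    have h1 : (g : Matrix (Fin n) (Fin n) F) * ((a : Matrix (Fin n) (Fin n) F) - 1) = ((b : Matrix (Fin n) (Fin n) F) - 1) * (g : Matrix (Fin n) (Fin n) F) := by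
      rw [mul_sub, sub_mul, hga, mul_one, one_mul]
    rw [← Matrix.rank_mul_eq_right_of_isUnit_det _ ((a : Matrix (Fin n) (Fin n) F) - 1) hdg, h1,
      Matrix.rank_mul_eq_left_of_isUnit_det _ _ hdg]
  · intro hr
    have hA := sq_one a ha
    have hB := sq_one b hb
    obtain ⟨g, hg⟩ := H41.NilSq.exists_conj ((a : Matrix (Fin n) (Fin n) F) - 1).mulVecLin ((b : Matrix (Fin n) (Fin n) F) - 1).mulVecLin
      (nsq _ hA) (nsq _ hB) hr
    have hdet : LinearMap.det (g : (Fin n → F) →ₗ[F] (Fin n → F)) ≠ 0 := (LinearEquiv.isUnit_det' g).ne_zero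
    obtain ⟨c, hc⟩ := H41.SpMat2.exists_sqrt (LinearMap.det (g : (Fin n → F) →ₗ[F] (Fin n → F)))⁻¹
    obtain ⟨h, hh1, hh2⟩ := H41.NilSq.exists_comm_det ((a : Matrix (Fin n) (Fin n) F) - 1).mulVecLin (nsq _ hA) (ne_zero a ha) c
    let M : Matrix (Fin n) (Fin n) F := LinearMap.toMatrix' ((g : (Fin n → F) →ₗ[F] (Fin n → F)) ∘ₗ h)
    have hM : ∀ x, Matrix.mulVec M x = g (h x) := by
      intro x
      rw [← Matrix.toLin'_apply, Matrix.toLin'_toMatrix']
      rfl
    have hMdet : M.det = 1 := by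
      rw [LinearMap.det_toMatrix', LinearMap.det_comp, hh2, hc, mul_inv_cancel₀ hdet]
    obtain ⟨m, hm⟩ : ∃ m : Matrix.SpecialLinearGroup (Fin n) F, (m : Matrix (Fin n) (Fin n) F) = M := ⟨⟨M, hMdet⟩, rfl⟩
    rw [isConj_iff]
    refine ⟨m, ?_⟩
    rw [mul_inv_eq_iff_eq_mul]
    have key : M * (a : Matrix (Fin n) (Fin n) F) = (b : Matrix (Fin n) (Fin n) F) * M := by
      apply Matrix.toLin'.injective
      apply LinearMap.ext
      intro x
      rw [Matrix.toLin'_apply, Matrix.toLin'_apply, ← Matrix.mulVec_mulVec, ← Matrix.mulVec_mulVec, hM, hM]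
      have h1 := hg (h x)
      rw [← hh1, Matrix.mulVecLin_apply, Matrix.mulVecLin_apply, Matrix.sub_mulVec, Matrix.sub_mulVec,
        Matrix.one_mulVec, Matrix.one_mulVec, map_sub, map_sub] at h1
      exact sub_left_injective h1
    apply Matrix.SpecialLinearGroup.ext
    intro i j
    rw [Matrix.SpecialLinearGroup.coe_mul, Matrix.SpecialLinearGroup.coe_mul, hm, key]


end Cfsg.Agent.S2162
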