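import Cfsg.Statements.S2163
-- import your own Cfsg.Agent.* helpers here

set_option autoImplicit false
open Cfsg

namespace Cfsg.Agent.S2163

/-- Over a finite field of characteristic two and for n ≥ 3: for every ℓ with 1 ≤ ℓ and 2ℓ ≤ n, the matrix j_ℓ that is the identity plus the entries 1 in positions (n − ℓ + i, i) for i < ℓ (an identity block of size ℓ in the lower left corner) lies in SL_n(F), has order 2, and j_ℓ − 1 has rank ℓ. Together with the conjugacy criterion by rank, these matrices represent the conjugacy classes of involutions of SL_n(F). -/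
theorem result {F : Type*} [Field F] [Fintype F] [CharP F 2] {n : ℕ} (hn : 3 ≤ n) (ℓ : ℕ) (h1 : 1 ≤ ℓ) (h2 : 2 * ℓ ≤ n) :
    ∃ a : Matrix.SpecialLinearGroup (Fin n) F, (a : Matrix (Fin n) (Fin n) F) = 1 + Matrix.of (fun i j : Fin n => if j.val < ℓ ∧ i.val = j.val + (n - ℓ) then (1 : F) else 0) ∧ orderOf a = 2 ∧ ((a : Matrix (Fin n) (Fin n) F) - 1).rank = ℓ := by
  set N : Matrix (Fin n) (Fin n) F := Matrix.of (fun i j : Fin n => if j.val < ℓ ∧ i.val = j.val + (n - ℓ) then (1 : F) else 0) with hN
  have hNN : N * N = 0 := by
    ext i k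
    rw [Matrix.mul_apply]
    apply Finset.sum_eq_zero
    intro j _
    simp only [hN, Matrix.of_apply]
    by_cases hj : j.val < ℓ ∧ i.val = j.val + (n - ℓ)
    · have : ¬ (k.val < ℓ ∧ j.val = k.val + (n - ℓ)) := by omega
      rw [if_neg this, mul_zero]
    · rw [if_neg hj, zero_mul]
  have hdet : (1 + N).det = 1 := by
    rw [Matrix.det_of_isLowerTriangular]
    · apply Finset.prod_eq_one
      intro i _
      rw [Matrix.add_apply, Matrix.one_apply_eq, hN, Matrix.of_apply, if_neg (by omega), add_zero]
    · intro i j hij
      have hij' : i < j := hij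
      have hij2 : i.val < j.val := hij'
      rw [Matrix.add_apply, Matrix.one_apply_ne (ne_of_lt hij'), hN, Matrix.of_apply,
        if_neg (by omega), add_zero]
  have hrank : N.rank = ℓ := by
    apply le_antisymm
    · let P : Matrix (Fin n) (Fin ℓ) F := Matrix.of fun i k => if i.val = k.val + (n - ℓ) then 1 else 0
      let R : Matrix (Fin ℓ) (Fin n) F := Matrix.of fun k j => if j.val = k.val then 1 else 0
      have hPR : N = P * R := by
        ext i j
        rw [Matrix.mul_apply]
        by_cases hj : j.val < ℓ
        · rw [Finset.sum_eq_single (⟨j.val, hj⟩ : Fin ℓ)]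
          · simp [hN, P, R, hj]
          · intro k _ hk
            have : ¬ (j.val = k.val) := fun h => hk (Fin.ext h.symm)
            simp [R, this]
          · simp
        · have : ∀ k : Fin ℓ, ¬ (j.val = k.val) := fun k h => hj (by omega)
          simp [hN, R, this, hj]
      rw [hPR]
      calc (P * R).rank ≤ P.rank := Matrix.rank_mul_le_left P R
        _ ≤ Fintype.card (Fin ℓ) := Matrix.rank_le_card_width P
        _ = ℓ := Fintype.card_fin ℓ
    · let P : Matrix (Fin ℓ) (Fin n) F := Matrix.of fun k i => if i.val = k.val + (n - ℓ) then 1 else 0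
      let R : Matrix (Fin n) (Fin ℓ) F := Matrix.of fun j k => if j.val = k.val then 1 else 0
      have h : P * N * R = 1 := by
        ext a b
        rw [Matrix.mul_apply, Finset.sum_eq_single (⟨b.val, by omega⟩ : Fin n)]
        · rw [Matrix.mul_apply, Finset.sum_eq_single (⟨a.val + (n - ℓ), by omega⟩ : Fin n)]
          · have hb := b.isLt
            by_cases hab : a = b
            · subst hab
              simp [P, R, hN]
            · have : a.val ≠ b.val := fun h => hab (Fin.ext h)
              simp [P, R, hN, hab, this]
          · intro i _ hi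
            have : ¬ (i.val = a.val + (n - ℓ)) := fun h => hi (Fin.ext h)
            simp [P, this]
          · simp
        · intro j _ hj
          have : ¬ (j.val = b.val) := fun h => hj (Fin.ext h)
          simp [R, this]
        · simp
      calc ℓ = Fintype.card (Fin ℓ) := (Fintype.card_fin ℓ).symm
        _ = (1 : Matrix (Fin ℓ) (Fin ℓ) F).rank := (Matrix.rank_one).symm
        _ = (P * N * R).rank := by rw [h]
        _ ≤ (P * N).rank := Matrix.rank_mul_le_left _ _
        _ ≤ N.rank := Matrix.rank_mul_le_right _ _
  obtain ⟨A, hA⟩ : ∃ A : Matrix.SpecialLinearGroup (Fin n) F, (A : Matrix (Fin n) (Fin n) F) = 1 + N :=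
    ⟨⟨1 + N, hdet⟩, rfl⟩
  refine ⟨A, hA, ?_, ?_⟩
  · apply orderOf_eq_prime
    · apply Matrix.SpecialLinearGroup.ext
      intro i j
      rw [Matrix.SpecialLinearGroup.coe_pow, Matrix.SpecialLinearGroup.coe_one, hA]
      refine congrFun (congrFun ?_ i) j
      have h2 : (2 : F) = 0 := CharTwo.two_eq_zero
      have : N + N = 0 := by
        rw [← two_smul F N, h2, zero_smul]
      rw [pow_two, mul_add, add_mul, add_mul, one_mul, mul_one, one_mul, hNN, add_zero, add_assoc, this,
        add_zero]
    · intro h
      rw [h, Matrix.SpecialLinearGroup.coe_one] at hA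
      have : N = 0 := by simpa using hA.symm
      rw [this, Matrix.rank_zero] at hrank
      omega
  · rw [hA, add_sub_cancel_left, hrank]

end Cfsg.Agent.S2163
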