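import Cfsg.Statements.S2164
import Mathlib
import Cfsg.Agent.Lib.H41.HermMat
import Cfsg.Agent.Lib.H41.SpMat2

set_option autoImplicit false
open Cfsg

namespace Cfsg.Agent.S2164


theorem sq_one {F : Type*} [Field F] {n q : ℕ} (a : ↥(Cfsg.SU n F q)) (ha : orderOf a = 2) :
    ((a : Matrix.SpecialLinearGroup (Fin n) F) : Matrix (Fin n) (Fin n) F) * ((a : Matrix.SpecialLinearGroup (Fin n) F) : Matrix (Fin n) (Fin n) F) = 1 := by
  have h : a ^ 2 = 1 := by rw [← ha]; exact pow_orderOf_eq_one a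
  rw [pow_two] at h
  have h' : (a : Matrix.SpecialLinearGroup (Fin n) F) * (a : Matrix.SpecialLinearGroup (Fin n) F) = 1 := congrArg Subtype.val h
  rw [← Matrix.SpecialLinearGroup.coe_mul, h', Matrix.SpecialLinearGroup.coe_one]

theorem nsq {F : Type*} [Field F] [CharP F 2] {n : ℕ} (A : Matrix (Fin n) (Fin n) F) (hA : A * A = 1) (x : Fin n → F) :
    (A - 1).mulVecLin ((A - 1).mulVecLin x) = 0 := by
  have h2 : (2 : F) = 0 := CharTwo.two_eq_zero
  have : (A - 1) * (A - 1) = 0 := by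
    have e : (A - 1) * (A - 1) = A * A + 1 - (2 : F) • A := by
      rw [two_smul]; noncomm_ring
    rw [e, hA, h2, zero_smul, sub_zero, ← two_smul F (1 : Matrix (Fin n) (Fin n) F), h2, zero_smul]
  rw [Matrix.mulVecLin_apply, Matrix.mulVecLin_apply, Matrix.mulVec_mulVec, this, Matrix.zero_mulVec]

theorem ne_zero {F : Type*} [Field F] {n q : ℕ} (a : ↥(Cfsg.SU n F q)) (ha : orderOf a = 2) :
    (((a : Matrix.SpecialLinearGroup (Fin n) F) : Matrix (Fin n) (Fin n) F) - 1).mulVecLin ≠ 0 := by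
  intro h
  have h1 : ((a : Matrix.SpecialLinearGroup (Fin n) F) : Matrix (Fin n) (Fin n) F) - 1 = 0 := by
    apply Matrix.toLin'.injective
    rw [Matrix.toLin'_apply', h, map_zero]
  have h2 : a = 1 := by
    apply Subtype.ext
    apply Matrix.SpecialLinearGroup.ext
    intro i j
    rw [sub_eq_zero.mp h1]
    rfl
  rw [h2, orderOf_one] at ha
  omega

theorem adj {F : Type*} [Field F] {σ : F →+* F} {n : ℕ} (A : Matrix (Fin n) (Fin n) F)
    (hA : A * A = 1) (hAs : ∀ u v, H41.HermMat.bh σ n (Matrix.mulVec A u) (Matrix.mulVec A v) = H41.HermMat.bh σ n u v)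
    (x y : Fin n → F) : H41.HermMat.bh σ n ((A - 1).mulVecLin x) y = H41.HermMat.bh σ n x ((A - 1).mulVecLin y) := by
  rw [Matrix.mulVecLin_apply, Matrix.mulVecLin_apply, Matrix.sub_mulVec, Matrix.sub_mulVec, Matrix.one_mulVec,
    Matrix.one_mulVec, map_sub, map_sub, LinearMap.sub_apply]
  congr 1
  rw [← hAs x (Matrix.mulVec A y), Matrix.mulVec_mulVec, hA, Matrix.one_mulVec]

theorem conj_of_rank {F : Type*} [Field F] [Fintype F] [CharP F 2] {n q : ℕ} (hF : Fintype.card F = q ^ 2)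
    (a b : ↥(Cfsg.SU n F q)) (ha : orderOf a = 2) (hb : orderOf b = 2)
    (hr : (((a : Matrix.SpecialLinearGroup (Fin n) F) : Matrix (Fin n) (Fin n) F) - 1).rank = (((b : Matrix.SpecialLinearGroup (Fin n) F) : Matrix (Fin n) (Fin n) F) - 1).rank) : IsConj a b := by
  obtain ⟨σ, hσ⟩ := H41.FieldQ.exists_frob hF
  have hσ2 : ∀ x, σ (σ x) = x := fun x => by rw [hσ, hσ, H41.FieldQ.pow_q_sq hF]
  have hA := sq_one a ha
  have hB := sq_one b hb
  have hAs := (H41.HermMat.mem_SU_iff hσ a.1).mp a.2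
  have hBs := (H41.HermMat.mem_SU_iff hσ b.1).mp b.2
  obtain ⟨g, hg0, hg⟩ := H41.HermInv.exists_conj hF hσ (H41.HermMat.bh σ n) (H41.HermMat.bh_herm hσ2)
    H41.HermMat.bh_nondeg (((a : Matrix.SpecialLinearGroup (Fin n) F) : Matrix (Fin n) (Fin n) F) - 1).mulVecLin
    (nsq _ hA) (adj _ hA hAs) (((b : Matrix.SpecialLinearGroup (Fin n) F) : Matrix (Fin n) (Fin n) F) - 1).mulVecLin
    (nsq _ hB) (adj _ hB hBs) hr
  let M0 : Matrix (Fin n) (Fin n) F := LinearMap.toMatrix' (g : (Fin n → F) →ₗ[F] (Fin n → F))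
  have hM0 : ∀ x, Matrix.mulVec M0 x = g x := by
    intro x
    rw [← Matrix.toLin'_apply, Matrix.toLin'_toMatrix']
    rfl
  have hM0n : M0.det * σ M0.det = 1 := by
    apply H41.HermMat.det_norm
    intro u v
    rw [hM0, hM0, hg0]
  have hM0g : M0.det = LinearMap.det (g : (Fin n → F) →ₗ[F] (Fin n → F)) := LinearMap.det_toMatrix' _
  obtain ⟨c, hc⟩ := H41.SpMat2.exists_sqrt (M0.det)⁻¹
  have hcn : c * σ c = 1 := by
    have h1 : (c * σ c) ^ 2 = 1 := by
      rw [mul_pow, ← map_pow, hc, map_inv₀, ← mul_inv, hM0n, inv_one]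
    have h2 : (c * σ c - 1) ^ 2 = 0 := by
      have h3 : (2 : F) = 0 := CharTwo.two_eq_zero
      linear_combination h1 + (1 - c * σ c) * h3
    exact sub_eq_zero.mp (pow_eq_zero_iff (two_ne_zero) |>.mp h2)
  have hdet : M0.det ≠ 0 := by
    intro h0
    rw [h0, zero_mul] at hM0n
    exact zero_ne_one hM0n
  obtain ⟨h, hh0, hh1, hh2⟩ := H41.HermInv.exists_comm_det hF hσ (H41.HermMat.bh σ n) (H41.HermMat.bh_herm hσ2)
    H41.HermMat.bh_nondeg (((a : Matrix.SpecialLinearGroup (Fin n) F) : Matrix (Fin n) (Fin n) F) - 1).mulVecLin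
    (nsq _ hA) (adj _ hA hAs) (ne_zero a ha) c hcn
  let M : Matrix (Fin n) (Fin n) F := LinearMap.toMatrix' ((g : (Fin n → F) →ₗ[F] (Fin n → F)) ∘ₗ h)
  have hM : ∀ x, Matrix.mulVec M x = g (h x) := by
    intro x
    rw [← Matrix.toLin'_apply, Matrix.toLin'_toMatrix']
    rfl
  have hMdet : M.det = 1 := by
    rw [LinearMap.det_toMatrix', LinearMap.det_comp, hh2, hc, ← hM0g, mul_inv_cancel₀ hdet]
  obtain ⟨m, hm⟩ : ∃ m : Matrix.SpecialLinearGroup (Fin n) F, (m : Matrix (Fin n) (Fin n) F) = M := ⟨⟨M, hMdet⟩, rfl⟩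
  have hmem : m ∈ Cfsg.SU n F q := by
    rw [H41.HermMat.mem_SU_iff hσ]
    intro u v
    rw [hm, hM, hM, hg0, hh0]
  rw [isConj_iff]
  refine ⟨⟨m, hmem⟩, ?_⟩
  rw [mul_inv_eq_iff_eq_mul]
  have key : M * ((a : Matrix.SpecialLinearGroup (Fin n) F) : Matrix (Fin n) (Fin n) F) = ((b : Matrix.SpecialLinearGroup (Fin n) F) : Matrix (Fin n) (Fin n) F) * M := by
    apply Matrix.toLin'.injective
    apply LinearMap.ext
    intro x
    rw [Matrix.toLin'_apply, Matrix.toLin'_apply, ← Matrix.mulVec_mulVec, ← Matrix.mulVec_mulVec, hM, hM]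
    have h1 := hg (h x)
    rw [← hh1, Matrix.mulVecLin_apply, Matrix.mulVecLin_apply, Matrix.sub_mulVec, Matrix.sub_mulVec,
      Matrix.one_mulVec, Matrix.one_mulVec, map_sub, map_sub] at h1
    exact sub_left_injective h1
  apply Subtype.ext
  apply Matrix.SpecialLinearGroup.ext
  intro i j
  change (m * (a : Matrix.SpecialLinearGroup (Fin n) F) : Matrix.SpecialLinearGroup (Fin n) F) i j = ((b : Matrix.SpecialLinearGroup (Fin n) F) * m : Matrix.SpecialLinearGroup (Fin n) F) i j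
  rw [Matrix.SpecialLinearGroup.coe_mul, Matrix.SpecialLinearGroup.coe_mul, hm, key]

theorem rank_of_conj {F : Type*} [Field F] {n : ℕ} (a b : Matrix.SpecialLinearGroup (Fin n) F) (h : IsConj a b) :
    ((a : Matrix (Fin n) (Fin n) F) - 1).rank = ((b : Matrix (Fin n) (Fin n) F) - 1).rank := by
  obtain ⟨g, hg⟩ := isConj_iff.mp h
  have hga : (g : Matrix (Fin n) (Fin n) F) * (a : Matrix (Fin n) (Fin n) F) = (b : Matrix (Fin n) (Fin n) F) * (g : Matrix (Fin n) (Fin n) F) := by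
    have : g * a = b * g := by rw [← hg]; group
    rw [← Matrix.SpecialLinearGroup.coe_mul, this, Matrix.SpecialLinearGroup.coe_mul]
  have hdg : IsUnit (g : Matrix (Fin n) (Fin n) F).det := by
    rw [g.det_coe]; exact isUnit_one
  have h1 : (g : Matrix (Fin n) (Fin n) F) * ((a : Matrix (Fin n) (Fin n) F) - 1) = ((b : Matrix (Fin n) (Fin n) F) - 1) * (g : Matrix (Fin n) (Fin n) F) := by
    rw [mul_sub, sub_mul, hga, mul_one, one_mul]
  rw [← Matrix.rank_mul_eq_right_of_isUnit_det _ ((a : Matrix (Fin n) (Fin n) F) - 1) hdg, h1,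
    Matrix.rank_mul_eq_left_of_isUnit_det _ _ hdg]

theorem coe_conj {F : Type*} [Field F] {n q : ℕ} (a b : ↥(Cfsg.SU n F q)) (h : IsConj a b) :
    IsConj (a : Matrix.SpecialLinearGroup (Fin n) F) (b : Matrix.SpecialLinearGroup (Fin n) F) := by
  obtain ⟨g, hg⟩ := isConj_iff.mp h
  rw [isConj_iff]
  exact ⟨g.1, congrArg Subtype.val hg⟩

/-- Conjugacy of involutions in the special unitary group SU_n(q), q even, n ≥ 3, realised over the field F with q² elements as the matrices of determinant 1 preserving the form Σ u_i v_i^q: for two elements of order 2 of SU_n(q) the following are equivalent — they are conjugate in SU_n(q); they are conjugate in SL_n(F); the matrices a − 1 and b − 1 have the same rank. -/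
theorem result {F : Type*} [Field F] [Fintype F] [CharP F 2] {n q : ℕ} (hF : Fintype.card F = q ^ 2) (hn : 3 ≤ n) (a b : ↥(Cfsg.SU n F q)) (ha : orderOf a = 2) (hb : orderOf b = 2) :
    (IsConj a b ↔ IsConj (a : Matrix.SpecialLinearGroup (Fin n) F) (b : Matrix.SpecialLinearGroup (Fin n) F)) ∧
    (IsConj a b ↔ (((a : Matrix.SpecialLinearGroup (Fin n) F) : Matrix (Fin n) (Fin n) F) - 1).rank = (((b : Matrix.SpecialLinearGroup (Fin n) F) : Matrix (Fin n) (Fin n) F) - 1).rank) := by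
  refine ⟨⟨coe_conj a b, fun h => conj_of_rank hF a b ha hb (rank_of_conj _ _ h)⟩,
    ⟨fun h => rank_of_conj _ _ (coe_conj a b h), conj_of_rank hF a b ha hb⟩⟩


end Cfsg.Agent.S2164
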