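import Cfsg.Statements.S2165
import Mathlib
-- import your own Cfsg.Agent.* helpers here

set_option autoImplicit false
open Cfsg

namespace Cfsg.Agent.S2165

/-- the coordinate swap -/
def swapFun (n ℓ : ℕ) (h2 : 2 * ℓ ≤ n) (i : Fin n) : Fin n :=
  if h : i.val < ℓ then ⟨i.val + (n - ℓ), by omega⟩
  else if h' : i.val < n - ℓ then i
  else ⟨i.val - (n - ℓ), by omega⟩

theorem swapFun_invol (n ℓ : ℕ) (h2 : 2 * ℓ ≤ n) : Function.Involutive (swapFun n ℓ h2) := by
  intro i
  unfold swapFun
  by_cases h : i.val < ℓ
  · have h3 : ¬ (i.val + (n - ℓ) < ℓ) := by omega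
    have h4 : ¬ (i.val + (n - ℓ) < n - ℓ) := by omega
    simp only [h, h3, dite_true, dite_false, h4]
    apply Fin.ext; simp
  · by_cases h' : i.val < n - ℓ
    · simp [h, h']
    · have hi := i.isLt
      have h3 : i.val - (n - ℓ) < ℓ := by omega
      simp only [h, h', dite_true, dite_false, h3]
      apply Fin.ext; simp; omega

theorem swapFun_eq_iff (n ℓ : ℕ) (h2 : 2 * ℓ ≤ n) (i j : Fin n) :
    j = swapFun n ℓ h2 i ↔ ((j.val < ℓ ∧ i.val = j.val + (n - ℓ)) ∨ (i.val < ℓ ∧ j.val = i.val + (n - ℓ)) ∨ (i = j ∧ ℓ ≤ i.val ∧ i.val < n - ℓ)) := by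
  unfold swapFun
  have hi := i.isLt
  have hj := j.isLt
  by_cases h : i.val < ℓ
  · rw [dif_pos h, Fin.ext_iff, Fin.ext_iff]
    simp only
    omega
  · by_cases h' : i.val < n - ℓ
    · rw [dif_neg h, dif_pos h', Fin.ext_iff, Fin.ext_iff]
      omega
    · rw [dif_neg h, dif_neg h', Fin.ext_iff, Fin.ext_iff]
      simp only
      omega

/-- Over a field F of characteristic two with q² elements and for n ≥ 3: for every ℓ with 1 ≤ ℓ and 2ℓ ≤ n, the permutation matrix k_ℓ that interchanges coordinates i and n − ℓ + i for i < ℓ and fixes the others lies in SU_n(q) (for the form Σ u_i v_i^q), has order 2, and k_ℓ − 1 has rank ℓ. -/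
theorem result {F : Type*} [Field F] [Fintype F] [CharP F 2] {n q : ℕ} (hF : Fintype.card F = q ^ 2) (hn : 3 ≤ n) (ℓ : ℕ) (h1 : 1 ≤ ℓ) (h2 : 2 * ℓ ≤ n) :
    ∃ a : ↥(Cfsg.SU n F q), (((a : Matrix.SpecialLinearGroup (Fin n) F) : Matrix (Fin n) (Fin n) F) = Matrix.of (fun i j : Fin n => if (j.val < ℓ ∧ i.val = j.val + (n - ℓ)) ∨ (i.val < ℓ ∧ j.val = i.val + (n - ℓ)) ∨ (i = j ∧ ℓ ≤ i.val ∧ i.val < n - ℓ) then (1 : F) else 0)) ∧ orderOf a = 2 ∧ ((((a : Matrix.SpecialLinearGroup (Fin n) F) : Matrix (Fin n) (Fin n) F)) - 1).rank = ℓ := by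
  have hM : Matrix.of (fun i j : Fin n => if (j.val < ℓ ∧ i.val = j.val + (n - ℓ)) ∨ (i.val < ℓ ∧ j.val = i.val + (n - ℓ)) ∨ (i = j ∧ ℓ ≤ i.val ∧ i.val < n - ℓ) then (1 : F) else 0)
      = Matrix.of (fun i j : Fin n => if j = swapFun n ℓ h2 i then (1 : F) else 0) := by
    ext i j
    simp only [Matrix.of_apply, swapFun_eq_iff]
  rw [hM]
  set f := swapFun n ℓ h2 with hf
  have hfi : Function.Involutive f := swapFun_invol n ℓ h2
  set M : Matrix (Fin n) (Fin n) F := Matrix.of (fun i j : Fin n => if j = f i then (1 : F) else 0) with hMdef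
  have hmv : ∀ (v : Fin n → F) (i : Fin n), (M.mulVec v) i = v (f i) := by
    intro v i
    rw [Matrix.mulVec, dotProduct, Finset.sum_eq_single (f i)]
    · simp [hMdef]
    · intro j _ hj
      simp [hMdef, hj]
    · simp
  have hMM : M * M = 1 := by
    ext i j
    rw [Matrix.mul_apply, Finset.sum_eq_single (f i)]
    · by_cases hij : i = j
      · subst hij
        simp [hMdef, hfi i]
      · have : ¬ (j = i) := fun h => hij h.symm
        simp [hMdef, hfi i, hij, this]
    · intro k _ hk
      simp [hMdef, hk]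
    · simp
  have h20 : (2 : F) = 0 := CharTwo.two_eq_zero
  have hdet : M.det = 1 := by
    have h : M.det * M.det = 1 := by rw [← Matrix.det_mul, hMM, Matrix.det_one]
    have h' : (M.det - 1) * (M.det - 1) = 0 := by
      have : (M.det - 1) * (M.det - 1) = M.det * M.det - 2 * M.det + 1 := by ring
      rw [this, h, h20, zero_mul, sub_zero]
      rw [show (1 : F) + 1 = 2 by norm_num, h20]
    have := mul_self_eq_zero.mp h'
    exact sub_eq_zero.mp this
  have hrank : (M - 1).rank = ℓ := by
    have hneg : (-1 : F) = 1 := CharTwo.neg_eq 1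
    have hentry : ∀ i j : Fin n, (M - 1) i j = if ((i.val < ℓ ∧ (j.val = i.val ∨ j.val = i.val + (n - ℓ))) ∨ (¬ (i.val < n - ℓ) ∧ (j.val + (n - ℓ) = i.val ∨ j.val = i.val))) then (1 : F) else 0 := by
      intro i j
      have hi := i.isLt
      have hj := j.isLt
      rw [Matrix.sub_apply]
      simp only [hMdef, Matrix.of_apply, Matrix.one_apply, hf, swapFun_eq_iff]
      by_cases hij : i = j
      · subst hij
        by_cases ha : i.val < ℓ
        · rw [if_neg (by omega), if_pos rfl, if_pos (by omega), zero_sub, hneg]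
        · by_cases hb : i.val < n - ℓ
          · rw [if_pos (by omega), if_pos rfl, if_neg (by omega), sub_self]
          · rw [if_neg (by omega), if_pos rfl, if_pos (by omega), zero_sub, hneg]
      · have hij' : i.val ≠ j.val := fun h => hij (Fin.ext h)
        rw [if_neg hij, sub_zero]
        by_cases hc : (j.val < ℓ ∧ i.val = j.val + (n - ℓ)) ∨ (i.val < ℓ ∧ j.val = i.val + (n - ℓ)) ∨ (i = j ∧ ℓ ≤ i.val ∧ i.val < n - ℓ)
        · rw [if_pos hc, if_pos (by omega)]
        · rw [if_neg hc, if_neg (by omega)]
    apply le_antisymm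
    · let P : Matrix (Fin n) (Fin ℓ) F := Matrix.of fun i k => if i.val = k.val ∨ i.val = k.val + (n - ℓ) then 1 else 0
      have hPR : M - 1 = P * P.transpose := by
        ext i j
        have hi := i.isLt
        have hj := j.isLt
        rw [Matrix.mul_apply, hentry]
        by_cases ha : i.val < ℓ
        · rw [Finset.sum_eq_single (⟨i.val, ha⟩ : Fin ℓ)]
          · have e1 : P i ⟨i.val, ha⟩ = 1 := by simp [P]
            have e2 : P.transpose ⟨i.val, ha⟩ j = if j.val = i.val ∨ j.val = i.val + (n - ℓ) then 1 else 0 := rfl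
            rw [e1, e2, one_mul]
            split_ifs <;> first | rfl | (exfalso; omega)
          · intro k _ hk
            have hk' : k.val ≠ i.val := fun h => hk (Fin.ext h)
            simp only [P, Matrix.of_apply]
            rw [if_neg (by omega), zero_mul]
          · simp
        · by_cases hb : i.val < n - ℓ
          · rw [if_neg (by omega)]
            symm
            apply Finset.sum_eq_zero
            intro k _
            simp only [P, Matrix.of_apply]
            rw [if_neg (by omega), zero_mul]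
          · rw [Finset.sum_eq_single (⟨i.val - (n - ℓ), by omega⟩ : Fin ℓ)]
            · simp only [P, Matrix.of_apply, Matrix.transpose_apply, mul_ite, mul_one, mul_zero]
              split_ifs <;> first | rfl | (exfalso; omega)
            · intro k _ hk
              have hk' : k.val ≠ i.val - (n - ℓ) := fun h => hk (Fin.ext h)
              simp only [P, Matrix.of_apply]
              rw [if_neg (by omega), zero_mul]
            · simp
      rw [hPR]
      calc (P * P.transpose).rank ≤ P.rank := Matrix.rank_mul_le_left P _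
        _ ≤ Fintype.card (Fin ℓ) := Matrix.rank_le_card_width P
        _ = ℓ := Fintype.card_fin ℓ
    · let P : Matrix (Fin ℓ) (Fin n) F := Matrix.of fun k i => if i.val = k.val then 1 else 0
      let R : Matrix (Fin n) (Fin ℓ) F := Matrix.of fun j k => if j.val = k.val + (n - ℓ) then 1 else 0
      have h : P * (M - 1) * R = 1 := by
        ext a b
        have ha := a.isLt
        have hb := b.isLt
        rw [Matrix.mul_apply, Finset.sum_eq_single (⟨b.val + (n - ℓ), by omega⟩ : Fin n)]
        · rw [Matrix.mul_apply, Finset.sum_eq_single (⟨a.val, by omega⟩ : Fin n)]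
          · rw [hentry]
            simp only [P, R, Matrix.of_apply, Matrix.one_apply, mul_ite, mul_one, mul_zero]
            by_cases hab : a = b
            · subst hab
              rw [if_pos rfl]
              split_ifs <;> first | rfl | (exfalso; omega)
            · have : a.val ≠ b.val := fun h => hab (Fin.ext h)
              rw [if_neg hab]
              split_ifs <;> first | rfl | (exfalso; omega)
          · intro i _ hi
            have : ¬ (i.val = a.val) := fun h => hi (Fin.ext h)
            simp [P, this]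
          · simp
        · intro j _ hj
          have : ¬ (j.val = b.val + (n - ℓ)) := fun h => hj (Fin.ext h)
          simp [R, this]
        · simp
      calc ℓ = Fintype.card (Fin ℓ) := (Fintype.card_fin ℓ).symm
        _ = (1 : Matrix (Fin ℓ) (Fin ℓ) F).rank := (Matrix.rank_one).symm
        _ = (P * (M - 1) * R).rank := by rw [h]
        _ ≤ (P * (M - 1)).rank := Matrix.rank_mul_le_left _ _
        _ ≤ (M - 1).rank := Matrix.rank_mul_le_right _ _
  obtain ⟨A, hA⟩ : ∃ A : Matrix.SpecialLinearGroup (Fin n) F, (A : Matrix (Fin n) (Fin n) F) = M :=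
    ⟨⟨M, hdet⟩, rfl⟩
  have hAmem : A ∈ Cfsg.SU n F q := by
    change ∀ u v, Cfsg.hermForm n F q (Matrix.mulVec (A : Matrix (Fin n) (Fin n) F) u) (Matrix.mulVec (A : Matrix (Fin n) (Fin n) F) v) = Cfsg.hermForm n F q u v
    intro u v
    rw [hA]
    unfold Cfsg.hermForm
    simp only [hmv]
    exact Equiv.sum_comp (hfi.toPerm) (fun i => u i * v i ^ q)
  refine ⟨⟨A, hAmem⟩, hA, ?_, ?_⟩
  · apply orderOf_eq_prime
    · apply Subtype.ext
      change A ^ 2 = 1
      apply Matrix.SpecialLinearGroup.ext
      intro i j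
      rw [Matrix.SpecialLinearGroup.coe_pow, Matrix.SpecialLinearGroup.coe_one, hA, pow_two, hMM]
    · intro h
      have h' : A = 1 := congrArg Subtype.val h
      rw [h', Matrix.SpecialLinearGroup.coe_one] at hA
      rw [← hA, sub_self, Matrix.rank_zero] at hrank
      omega
  · rw [← hA] at hrank
    exact hrank

end Cfsg.Agent.S2165
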