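import Cfsg.Statements.S2166
import Mathlib
import Cfsg.Agent.Lib.H41.SpMat2

set_option autoImplicit false
open Cfsg

namespace Cfsg.Agent.S2166

/-- Conjugacy of involutions in the symplectic group Sp_{2m}(F), F a finite field of characteristic two, m ≥ 2 (Sp taken as the matrices A with A J Aᵀ = J, acting on column vectors, with the alternating form f(u, v) = u ⬝ (J v)). For an involution t write V(t) for the set of vectors v with f(v, t v) = 0 (a subspace). Two involutions a, b are conjugate in Sp_{2m}(F) exactly when a − 1 and b − 1 have the same rank and, in case that rank is even, V(a) and V(b) have the same number of elements. -/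
theorem result {F : Type*} [Field F] [Fintype F] [CharP F 2] {m : ℕ} (hm : 2 ≤ m) (a b : ↥(Matrix.symplecticGroup (Fin m) F)) (ha : orderOf a = 2) (hb : orderOf b = 2) :
    IsConj a b ↔ ((((a : ↥(Matrix.symplecticGroup (Fin m) F)) : Matrix (Fin m ⊕ Fin m) (Fin m ⊕ Fin m) F) - 1).rank = (((b : ↥(Matrix.symplecticGroup (Fin m) F)) : Matrix (Fin m ⊕ Fin m) (Fin m ⊕ Fin m) F) - 1).rank ∧
      (Even (((a : ↥(Matrix.symplecticGroup (Fin m) F)) : Matrix (Fin m ⊕ Fin m) (Fin m ⊕ Fin m) F) - 1).rank → Nat.card {v : Fin m ⊕ Fin m → F // Cfsg.sympForm m F v (Matrix.mulVec ((a : ↥(Matrix.symplecticGroup (Fin m) F)) : Matrix (Fin m ⊕ Fin m) (Fin m ⊕ Fin m) F) v) = 0} = Nat.card {v : Fin m ⊕ Fin m → F // Cfsg.sympForm m F v (Matrix.mulVec ((b : ↥(Matrix.symplecticGroup (Fin m) F)) : Matrix (Fin m ⊕ Fin m) (Fin m ⊕ Fin m) F) v) = 0})) :=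
  by
  classical
  have hA := H41.SpMat2.sq_of_orderOf a ha
  have hB := H41.SpMat2.sq_of_orderOf b hb
  obtain ⟨φ, hφ, hφc⟩ := H41.SpMat2.exists_addHom a.1 hA a.2
  obtain ⟨ψ, hψ, hψc⟩ := H41.SpMat2.exists_addHom b.1 hB b.2
  -- counting: all of V iff the card is that of V
  have hcnt : ∀ (θ : (Fin m ⊕ Fin m → F) →+ F) (c : ↥(Matrix.symplecticGroup (Fin m) F)),
      (∀ v, θ v = Cfsg.sympForm m F v (Matrix.mulVec (c : Matrix (Fin m ⊕ Fin m) (Fin m ⊕ Fin m) F) v)) →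
      ((∀ v, θ v = 0) ↔ Nat.card {v : Fin m ⊕ Fin m → F // Cfsg.sympForm m F v (Matrix.mulVec (c : Matrix (Fin m ⊕ Fin m) (Fin m ⊕ Fin m) F) v) = 0} = Nat.card (Fin m ⊕ Fin m → F)) := by
    intro θ c hθ
    constructor
    · intro h
      exact Nat.card_congr (Equiv.subtypeUnivEquiv (fun v => by rw [← hθ, h]))
    · intro h v
      by_contra hv
      have : Nat.card {v : Fin m ⊕ Fin m → F // Cfsg.sympForm m F v (Matrix.mulVec (c : Matrix (Fin m ⊕ Fin m) (Fin m ⊕ Fin m) F) v) = 0} < Nat.card (Fin m ⊕ Fin m → F) := by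
        rw [Nat.card_eq_fintype_card, Nat.card_eq_fintype_card]
        exact Fintype.card_subtype_lt (x := v) (by rw [← hθ]; exact hv)
      omega
  constructor
  · intro h
    obtain ⟨g, hg⟩ := isConj_iff.mp h
    have hga : (g : Matrix (Fin m ⊕ Fin m) (Fin m ⊕ Fin m) F) * (a : Matrix (Fin m ⊕ Fin m) (Fin m ⊕ Fin m) F) = (b : Matrix (Fin m ⊕ Fin m) (Fin m ⊕ Fin m) F) * (g : Matrix (Fin m ⊕ Fin m) (Fin m ⊕ Fin m) F) := by
      have : g * a = b * g := by rw [← hg]; group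
      exact congrArg Subtype.val this
    have hg1 : (g : Matrix (Fin m ⊕ Fin m) (Fin m ⊕ Fin m) F) * ((g⁻¹ : Matrix.symplecticGroup (Fin m) F) : Matrix (Fin m ⊕ Fin m) (Fin m ⊕ Fin m) F) = 1 :=
      congrArg Subtype.val (mul_inv_cancel g)
    have hg2 : ((g⁻¹ : Matrix.symplecticGroup (Fin m) F) : Matrix (Fin m ⊕ Fin m) (Fin m ⊕ Fin m) F) * (g : Matrix (Fin m ⊕ Fin m) (Fin m ⊕ Fin m) F) = 1 :=
      congrArg Subtype.val (inv_mul_cancel g)
    have hdg : IsUnit (g : Matrix (Fin m ⊕ Fin m) (Fin m ⊕ Fin m) F).det := Matrix.isUnit_det_of_right_inverse hg1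
    constructor
    · have h1 : (g : Matrix (Fin m ⊕ Fin m) (Fin m ⊕ Fin m) F) * ((a : Matrix (Fin m ⊕ Fin m) (Fin m ⊕ Fin m) F) - 1) = ((b : Matrix (Fin m ⊕ Fin m) (Fin m ⊕ Fin m) F) - 1) * (g : Matrix (Fin m ⊕ Fin m) (Fin m ⊕ Fin m) F) := by
        rw [mul_sub, sub_mul, hga, mul_one, one_mul]
      rw [← Matrix.rank_mul_eq_right_of_isUnit_det _ ((a : Matrix (Fin m ⊕ Fin m) (Fin m ⊕ Fin m) F) - 1) hdg, h1,
        Matrix.rank_mul_eq_left_of_isUnit_det _ _ hdg]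
    · intro _
      have hmem := (H41.SpMat.bsp_mem_iff (g : Matrix (Fin m ⊕ Fin m) (Fin m ⊕ Fin m) F)).mp g.2
      have e : ∀ v, Cfsg.sympForm m F v (Matrix.mulVec (a : Matrix (Fin m ⊕ Fin m) (Fin m ⊕ Fin m) F) v) = Cfsg.sympForm m F (Matrix.mulVec (g : Matrix (Fin m ⊕ Fin m) (Fin m ⊕ Fin m) F) v) (Matrix.mulVec (b : Matrix (Fin m ⊕ Fin m) (Fin m ⊕ Fin m) F) (Matrix.mulVec (g : Matrix (Fin m ⊕ Fin m) (Fin m ⊕ Fin m) F) v)) := by
        intro v
        rw [Matrix.mulVec_mulVec, ← hga, ← Matrix.mulVec_mulVec, ← H41.SpMat.bsp_apply, ← H41.SpMat.bsp_apply, hmem]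
      let eqv : (Fin m ⊕ Fin m → F) ≃ (Fin m ⊕ Fin m → F) :=
        { toFun := fun v => Matrix.mulVec (g : Matrix (Fin m ⊕ Fin m) (Fin m ⊕ Fin m) F) v
          invFun := fun v => Matrix.mulVec ((g⁻¹ : Matrix.symplecticGroup (Fin m) F) : Matrix (Fin m ⊕ Fin m) (Fin m ⊕ Fin m) F) v
          left_inv := fun v => by simp only [Matrix.mulVec_mulVec, hg2, Matrix.one_mulVec]
          right_inv := fun v => by simp only [Matrix.mulVec_mulVec, hg1, Matrix.one_mulVec] }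
      exact Nat.card_congr (eqv.subtypeEquiv (fun v => by rw [e v]; rfl))
  · rintro ⟨hr, hc⟩
    obtain ⟨g, hg1, hg2⟩ := H41.SpInv.exists_conj H41.SpMat2.exists_sqrt (H41.SpMat.bsp m F) H41.SpMat.bsp_self
      H41.SpMat.bsp_nondeg (H41.SpMat2.nMap a.1) (H41.SpMat2.nMap_sq a.1 hA) (H41.SpMat2.nMap_adj a.1 hA a.2)
      (H41.SpMat2.nMap b.1) (H41.SpMat2.nMap_sq b.1 hB) (H41.SpMat2.nMap_adj b.1 hB b.2) hr (by
        intro hev
        have h1 := hc hev
        have h2 := hcnt φ a hφ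
        have h3 := hcnt ψ b hψ
        rw [← h1] at h3
        have h4 := h2.trans h3.symm
        have h5 : ∀ x, φ x = H41.SpMat.bsp m F x (H41.SpMat2.nMap a.1 x) := fun x => by
          rw [hφ, H41.SpMat2.form_eq]
        have h6 : ∀ x, ψ x = H41.SpMat.bsp m F x (H41.SpMat2.nMap b.1 x) := fun x => by
          rw [hψ, H41.SpMat2.form_eq]
        simp only [h5, h6] at h4
        exact h4)
    let M : Matrix (Fin m ⊕ Fin m) (Fin m ⊕ Fin m) F := LinearMap.toMatrix' (g : (Fin m ⊕ Fin m → F) →ₗ[F] (Fin m ⊕ Fin m → F))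
    have hM : ∀ x, Matrix.mulVec M x = g x := by
      intro x
      rw [← Matrix.toLin'_apply, Matrix.toLin'_toMatrix']
      rfl
    have hMmem : M ∈ Matrix.symplecticGroup (Fin m) F := by
      rw [H41.SpMat.bsp_mem_iff]
      intro x y
      rw [hM, hM, hg1]
    rw [isConj_iff]
    refine ⟨⟨M, hMmem⟩, ?_⟩
    rw [mul_inv_eq_iff_eq_mul]
    apply Subtype.ext
    change M * (a : Matrix (Fin m ⊕ Fin m) (Fin m ⊕ Fin m) F) = (b : Matrix (Fin m ⊕ Fin m) (Fin m ⊕ Fin m) F) * M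
    apply Matrix.toLin'.injective
    apply LinearMap.ext
    intro x
    rw [Matrix.toLin'_apply, Matrix.toLin'_apply, ← Matrix.mulVec_mulVec, ← Matrix.mulVec_mulVec, hM, hM]
    have h1 := hg2 x
    rw [H41.SpMat2.nMap_apply, H41.SpMat2.nMap_apply, map_sub] at h1
    exact sub_left_injective h1


end Cfsg.Agent.S2166
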