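import Cfsg.Statements.S2167
import Mathlib
import Cfsg.Agent.Lib.H41.SpMat2
-- import your own Cfsg.Agent.* helpers here

set_option autoImplicit false
open Cfsg

namespace Cfsg.Agent.S2167

/-- For an involution t of the symplectic group Sp_{2m}(F), m ≥ 2, F a finite field of characteristic two (matrices A with A J Aᵀ = J acting on column vectors, alternating form f(u, v) = u ⬝ (J v)): the set V(t) of vectors v with f(v, t v) = 0 has either q^{2m} or q^{2m−1} elements, q the order of F (it is a subspace of codimension at most 1), and if it is the whole space then t − 1 has even rank. -/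
theorem result {F : Type*} [Field F] [Fintype F] [CharP F 2] {m : ℕ} (hm : 2 ≤ m) (a : ↥(Matrix.symplecticGroup (Fin m) F)) (ha : orderOf a = 2) :
    (Nat.card {v : Fin m ⊕ Fin m → F // Cfsg.sympForm m F v (Matrix.mulVec ((a : ↥(Matrix.symplecticGroup (Fin m) F)) : Matrix (Fin m ⊕ Fin m) (Fin m ⊕ Fin m) F) v) = 0} = Fintype.card F ^ (2 * m) ∨ Nat.card {v : Fin m ⊕ Fin m → F // Cfsg.sympForm m F v (Matrix.mulVec ((a : ↥(Matrix.symplecticGroup (Fin m) F)) : Matrix (Fin m ⊕ Fin m) (Fin m ⊕ Fin m) F) v) = 0} * Fintype.card F = Fintype.card F ^ (2 * m)) ∧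
    ((∀ v : Fin m ⊕ Fin m → F, Cfsg.sympForm m F v (Matrix.mulVec ((a : ↥(Matrix.symplecticGroup (Fin m) F)) : Matrix (Fin m ⊕ Fin m) (Fin m ⊕ Fin m) F) v) = 0) → Even (((a : ↥(Matrix.symplecticGroup (Fin m) F)) : Matrix (Fin m ⊕ Fin m) (Fin m ⊕ Fin m) F) - 1).rank) := by
  have hA := H41.SpMat2.sq_of_orderOf a ha
  obtain ⟨φ, hφ, hφc⟩ := H41.SpMat2.exists_addHom a.1 hA a.2
  have hcardV : Nat.card (Fin m ⊕ Fin m → F) = Fintype.card F ^ (2 * m) := by
    rw [Nat.card_eq_fintype_card, Fintype.card_pi]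
    simp [two_mul]
  have hcardK : Nat.card {v : Fin m ⊕ Fin m → F // Cfsg.sympForm m F v (Matrix.mulVec ((a : ↥(Matrix.symplecticGroup (Fin m) F)) : Matrix (Fin m ⊕ Fin m) (Fin m ⊕ Fin m) F) v) = 0} = Nat.card φ.ker := by
    apply Nat.card_congr
    exact Equiv.subtypeEquivRight (fun v => by rw [AddMonoidHom.mem_ker, hφ])
  constructor
  · rw [hcardK]
    by_cases h : ∀ v, φ v = 0
    · left
      rw [← hcardV]
      have : φ.ker = ⊤ := by
        ext v; simp [h]
      rw [this]
      exact Nat.card_congr AddSubgroup.topEquiv.toEquiv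
    · right
      push Not at h
      obtain ⟨v, hv⟩ := h
      have hsurj : Function.Surjective φ := by
        intro b
        obtain ⟨c, hc⟩ : ∃ c : F, c ^ 2 = b / φ v := H41.SpMat2.exists_sqrt _
        exact ⟨c • v, by rw [hφc, hc, div_mul_cancel₀ _ hv]⟩
      rw [← hcardV, ← AddSubgroup.card_mul_index φ.ker, AddSubgroup.index_ker]
      congr 1
      rw [AddMonoidHom.range_eq_top.mpr hsurj, Nat.card_congr AddSubgroup.topEquiv.toEquiv,
        Nat.card_eq_fintype_card]
  · intro h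
    obtain ⟨k, hk, -⟩ := H41.SpInv.exists_u_alt (H41.SpMat.bsp m F) H41.SpMat.bsp_nondeg (H41.SpMat2.nMap a.1)
      (H41.SpMat2.nMap_adj a.1 hA a.2) (fun x => by rw [← H41.SpMat2.form_eq]; exact h x)
    rw [H41.SpMat2.finrank_range_nMap] at hk
    exact ⟨k, by omega⟩

end Cfsg.Agent.S2167
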