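import Cfsg.Statements.S2168
import Cfsg.Agent.Lib.H48.OInvSp

set_option autoImplicit false
open Cfsg

namespace Cfsg.Agent.S2168


theorem result {F : Type*} [Field F] [Fintype F] [CharP F 2] {m : ℕ} (hm : 4 ≤ m) (t s : ↥(Cfsg.isometryGroup F (Cfsg.quadFormPlus m F))) (ht : orderOf t = 2) (hs : orderOf s = 2) :
    IsConj t s ↔ ∃ g ∈ Cfsg.preserving (Units.coeHom (Matrix (Fin m ⊕ Fin m) (Fin m ⊕ Fin m) F)) (fun u v => Cfsg.quadFormPlus m F (u + v) - Cfsg.quadFormPlus m F u - Cfsg.quadFormPlus m F v), g * ((t : ↥(Cfsg.isometryGroup F (Cfsg.quadFormPlus m F))) : GL (Fin m ⊕ Fin m) F) * g⁻¹ = ((s : ↥(Cfsg.isometryGroup F (Cfsg.quadFormPlus m F))) : GL (Fin m ⊕ Fin m) F) := by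
  revert t s
  rw [← H48.QuadStd.coe_qPlus]
  intro t s ht hs
  exact H48.OInv.isConj_iff_sp (H48.QuadStd.nd_qPlus m) (m := m) (by simp [two_mul]) t s ht hs


end Cfsg.Agent.S2168
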