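import Cfsg.Statements.S2169
import Cfsg.Agent.Lib.H48.OInvSp

set_option autoImplicit false
open Cfsg

namespace Cfsg.Agent.S2169


theorem result {F : Type*} [Field F] [Fintype F] [CharP F 2] {m : ℕ} (hm : 4 ≤ m) (t : ↥(Cfsg.isometryGroup F (Cfsg.quadFormPlus m F))) (ht : orderOf t = 2) :
    t ∈ Cfsg.Omega F (Cfsg.quadFormPlus m F) ↔ Even ((((t : ↥(Cfsg.isometryGroup F (Cfsg.quadFormPlus m F))) : GL (Fin m ⊕ Fin m) F) : Matrix (Fin m ⊕ Fin m) (Fin m ⊕ Fin m) F) - 1).rank := by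
  revert t
  rw [← H48.QuadStd.coe_qPlus]
  intro t ht
  have hidx : (Cfsg.Omega F (⇑(H48.QuadStd.qPlus m F))).index = 2 :=
    (H17.DicksonInv.main_even (H48.QuadSplit.nd_iff.mp (H48.QuadStd.nd_qPlus m)) (by simp; omega)
      (Or.inr (by simp only [Fintype.card_sum, Fintype.card_fin]; omega))).1
  have ht2 := H48.OInv.sq_of_order t ht
  rw [← H48.OInv.finrank_range_mN]
  by_cases hc : Module.finrank F (LinearMap.range (H48.OInv.mN t)) = m ∧
      ∀ x, H48.QuadStd.qPlus m F (H48.OInv.mN t x) = 0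
  · refine iff_of_true
      (H48.OInv.alt_max_centralizer (by omega) hidx t ht2 hc.1 hc.2 t rfl) ?_
    exact (H48.OInv.oi_of_sq t ht2).even_rank (H48.QuadStd.nd_qPlus m) hc.2
  · exact H48.OInv.mem_Omega_iff_rank (H48.QuadStd.nd_qPlus m) (by simp [two_mul]) t ht2 hc


end Cfsg.Agent.S2169
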