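import Cfsg.Statements.S2171
import Cfsg.Agent.Lib.H48.OInvSp

set_option autoImplicit false
open Cfsg

namespace Cfsg.Agent.S2171


theorem result {F : Type*} [Field F] [Fintype F] [CharP F 2] {m : ℕ} (hm : 4 ≤ m) (c d : F) (hcd : ∀ z₁ z₂ : F, z₁ ^ 2 + c * z₁ * z₂ + d * z₂ ^ 2 = 0 → z₁ = 0 ∧ z₂ = 0) (t : ↥(Cfsg.isometryGroup F (Cfsg.quadFormMinus (m - 1) F c d))) (ht : orderOf t = 2) :
    t ∈ Cfsg.Omega F (Cfsg.quadFormMinus (m - 1) F c d) ↔ Even ((((t : ↥(Cfsg.isometryGroup F (Cfsg.quadFormMinus (m - 1) F c d))) : GL ((Fin (m - 1) ⊕ Fin (m - 1)) ⊕ Fin 2) F) : Matrix ((Fin (m - 1) ⊕ Fin (m - 1)) ⊕ Fin 2) ((Fin (m - 1) ⊕ Fin (m - 1)) ⊕ Fin 2) F) - 1).rank := by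
  revert t
  rw [← H48.QuadStd.coe_qMinus]
  intro t ht
  have ht2 := H48.OInv.sq_of_order t ht
  rw [← H48.OInv.finrank_range_mN]
  refine H48.OInv.mem_Omega_iff_rank (H48.QuadStd.nd_qMinus (m - 1) (H48.QuadStd.disc_ne_zero hcd))
    (m := m) (by simp only [Fintype.card_sum, Fintype.card_fin]; omega) t ht2 ?_
  rintro ⟨h1, h2⟩
  obtain ⟨k, hk1, hk2⟩ := H48.OInv.minus_hn hcd _ (H48.OInv.oi_of_sq t ht2) h2
  omega


end Cfsg.Agent.S2171
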