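import Cfsg.Statements.S2172
import Cfsg.Agent.Lib.H48.OInvSp

set_option autoImplicit false
open Cfsg

namespace Cfsg.Agent.S2172


theorem result {F : Type*} [Field F] [Fintype F] [CharP F 2] {m : ℕ} (hm : 4 ≤ m) (t s : ↥(Cfsg.isometryGroup F (Cfsg.quadFormPlus m F))) (ht : orderOf t = 2) (hs : orderOf s = 2) (htO : t ∈ Cfsg.Omega F (Cfsg.quadFormPlus m F)) (hsO : s ∈ Cfsg.Omega F (Cfsg.quadFormPlus m F)) (hconj : IsConj t s) :
    (¬ (((((t : ↥(Cfsg.isometryGroup F (Cfsg.quadFormPlus m F))) : GL (Fin m ⊕ Fin m) F) : Matrix (Fin m ⊕ Fin m) (Fin m ⊕ Fin m) F) - 1).rank = m ∧ ∀ v : Fin m ⊕ Fin m → F, Cfsg.quadFormPlus m F (v + Matrix.mulVec (((t : ↥(Cfsg.isometryGroup F (Cfsg.quadFormPlus m F))) : GL (Fin m ⊕ Fin m) F) : Matrix (Fin m ⊕ Fin m) (Fin m ⊕ Fin m) F) v) = 0) →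
      ∃ g ∈ Cfsg.Omega F (Cfsg.quadFormPlus m F), g * t * g⁻¹ = s) ∧
    ((((((t : ↥(Cfsg.isometryGroup F (Cfsg.quadFormPlus m F))) : GL (Fin m ⊕ Fin m) F) : Matrix (Fin m ⊕ Fin m) (Fin m ⊕ Fin m) F) - 1).rank = m ∧ ∀ v : Fin m ⊕ Fin m → F, Cfsg.quadFormPlus m F (v + Matrix.mulVec (((t : ↥(Cfsg.isometryGroup F (Cfsg.quadFormPlus m F))) : GL (Fin m ⊕ Fin m) F) : Matrix (Fin m ⊕ Fin m) (Fin m ⊕ Fin m) F) v) = 0) →
      ((∃ g ∈ Cfsg.Omega F (Cfsg.quadFormPlus m F), g * t * g⁻¹ = s) ↔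
        Even (Module.finrank F ↥(LinearMap.range (Matrix.toLin' ((((t : ↥(Cfsg.isometryGroup F (Cfsg.quadFormPlus m F))) : GL (Fin m ⊕ Fin m) F) : Matrix (Fin m ⊕ Fin m) (Fin m ⊕ Fin m) F) - 1)) ⊓ LinearMap.range (Matrix.toLin' ((((s : ↥(Cfsg.isometryGroup F (Cfsg.quadFormPlus m F))) : GL (Fin m ⊕ Fin m) F) : Matrix (Fin m ⊕ Fin m) (Fin m ⊕ Fin m) F) - 1)))))) := by
  revert t s
  rw [← H48.QuadStd.coe_qPlus]
  intro t s ht hs htO hsO hconj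
  have hF : Fintype.card F ≠ 2 ∨ Fintype.card (Fin m ⊕ Fin m) ≠ 4 :=
    Or.inr (by simp only [Fintype.card_sum, Fintype.card_fin]; omega)
  have hidx : (Cfsg.Omega F (⇑(H48.QuadStd.qPlus m F))).index = 2 :=
    (H17.DicksonInv.main_even (H48.QuadSplit.nd_iff.mp (H48.QuadStd.nd_qPlus m)) (by simp; omega)
      hF).1
  have hflag : (∀ v : Fin m ⊕ Fin m → F, H48.QuadStd.qPlus m F (v + Matrix.mulVec
      (((t : ↥(Cfsg.isometryGroup F (⇑(H48.QuadStd.qPlus m F)))) : GL (Fin m ⊕ Fin m) F) :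
        Matrix (Fin m ⊕ Fin m) (Fin m ⊕ Fin m) F) v) = 0) ↔
      ∀ v, H48.QuadStd.qPlus m F (H48.OInv.mN t v) = 0 := by
    apply forall_congr'
    intro v
    have : v + Matrix.mulVec
      (((t : ↥(Cfsg.isometryGroup F (⇑(H48.QuadStd.qPlus m F)))) : GL (Fin m ⊕ Fin m) F) :
        Matrix (Fin m ⊕ Fin m) (Fin m ⊕ Fin m) F) v = H48.OInv.mN t v := by
      rw [H48.OInv.mN_apply]
      have h2 : (2 : F) = 0 := CharTwo.two_eq_zero
      ext i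
      simp only [Pi.add_apply, Pi.sub_apply]
      linear_combination (v i) * h2
    rw [this]
  constructor
  · intro hc
    refine H48.OInv.conj_in_Omega (H48.QuadStd.nd_qPlus m) (m := m) (by simp [two_mul]) hidx t s ht
      ?_ hconj
    rintro ⟨h1, h2⟩
    exact hc ⟨h1, hflag.mpr h2⟩
  · rintro ⟨h1, h2⟩
    exact H48.OInv.conj_in_Omega_max (H48.QuadStd.nd_qPlus m) (by simp [two_mul]) hF t s ht h1
      (hflag.mp h2) hconj


end Cfsg.Agent.S2172
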