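import Cfsg.Statements.S2178
import Cfsg.Agent.Lib.H47.RootCentT

set_option autoImplicit false
open Cfsg

namespace Cfsg.Agent.S2178

open H22.RCCheck H22.RCComb H22.ChevRel H22.ChevSys H22.ChevMain H47.RootCent Cfsg.Lie in
theorem aux (b0 J0 : List ℕ) (m r : ℕ) (l : List ℕ) (hb0 : b0 = [r])
    (hck : chk H22.PoinF4.rcxF4 2 b0 [] (fun _ => 1) J0
      (fun r => [3, 7, 8, 9, 10, 11, 12, 13, 14, 18, 19, 20, 27, 28, 29, 33, 34, 35, 36, 37, 38, 39,
        40, 44].elem r) = true)
    (hck2 : (decide (m < chevF4.rank) && decide (r < chevF4.nroots) &&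
      decide (chevF4.cartan m r = 1) && ((List.range chevF4.rank).all fun j => Nat.beq j m ||
        (decide (chevF4.cartan j r = 0) && J0.elem j)) &&
      (J0.all fun j => decide (j < chevF4.rank) && l.elem (chevF4.neg (chevF4.simple j))) &&
      (l.all fun s => J0.any fun j => Nat.beq (chevF4.neg (chevF4.simple j)) s)) = true)
    {F : Type*} [Field F] [CharP F 2] (t : GL chevF4.Idx F)
    (ht : (t : Matrix chevF4.Idx chevF4.Idx F) = chevF4.x F r 1) :
    chevF4.group F ⊓ Subgroup.centralizer {t} = chevF4.posUnipotent F ⊔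
      ⨆ s ∈ l, chevF4.rootSubgroup F s := by
  have R : Rel chevF4 F := H22.ChevAll.rel chevF4 (by simp) F
  simp only [Bool.and_eq_true, decide_eq_true_eq, List.all_eq_true, List.mem_range,
    Bool.or_eq_true, List.any_eq_true, List.elem_eq_mem] at hck2
  obtain ⟨⟨⟨⟨⟨h1, h2⟩, h3⟩, h4⟩, h5⟩, h6⟩ := hck2
  have hne : ∀ j < chevF4.rank, j ≠ m → chevF4.cartan j r = 0 ∧ j ∈ J0 := by
    intro j hj hjm
    exact (h4 j hj).resolve_left fun h => hjm (Nat.eq_of_beq_eq_true h)
  have E := hyp_of_chk R hck (by
    intro h hh hc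
    refine torus1 R H22.PoinF4.rcxF4.rc h1 h2 h3 (fun j hj hjm => (hne j hj hjm).1)
      (fun j hj hjm => (hne j hj hjm).2) h hh (hc r (by simp [hb0])))
  have hz : LP R (lift chevF4.nroots b0) (fun _ => (1 : F)) = t := by
    subst hb0
    rw [LP_lift R (by simpa using h2)]
    simp only [List.map_cons, List.map_nil, List.prod_cons, List.prod_nil, mul_one]
    exact (xg_eq R ht).symm
  have hcent := E.cent_eq H22.ChevLex.lexF4
  rw [hz] at hcent
  rw [hcent]
  apply le_antisymm
  · refine MJ_le_of (X := H22.PoinF4.rcxF4) le_sup_left fun j hj hj' c => ?_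
    refine Subgroup.mem_sup_right ?_
    have := (h5 j hj).2
    exact (le_iSup₂ (f := fun s (_ : s ∈ l) => chevF4.rootSubgroup F s) _ this) (xg_mem R _ c)
  · refine sup_le_sup_left ?_ _
    refine iSup₂_le fun s hs => ?_
    obtain ⟨j, hj, hjs⟩ := h6 s hs
    exact rootSubgroup_le_MJ (h5 j hj).1 hj (Nat.eq_of_beq_eq_true hjs)

/-- Centralizers of the long and the short root involutions in the Chevalley group G of type F₄ over a finite field F of characteristic two (this problem's root numbering for type F₄, from the Chevalley data module: fundamental roots p₁, p₂ short, p₃, p₄ long, with indices 33, 27, 25, 24, their negatives 14, 20, 22, 23; highest root 47, highest short root 44; U the subgroup generated by the positive root subgroups). For an element t of G with matrix x_47(1): the centralizer of t in G is the subgroup generated by U and the root subgroups X_{−p₁}, X_{−p₂}, X_{−p₃} (the unipotent radical of the maximal parabolic subgroup whose Levi factor has fundamental roots p₁, p₂, p₃, together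 with that Levi factor's root subgroups; the Levi factor is of type C₃). For an element u of G with matrix x_44(1): the centralizer of u in G is generated by U and X_{−p₂}, X_{−p₃}, X_{−p₄} (the same construction for the Levi factor with fundamental roots p₂, p₃, p₄, of type B₃). -/
theorem result {F : Type*} [Field F] [Fintype F] [CharP F 2] (t u : GL Cfsg.Lie.chevF4.Idx F) (ht : (t : Matrix Cfsg.Lie.chevF4.Idx Cfsg.Lie.chevF4.Idx F) = Cfsg.Lie.chevF4.x F 47 1) (hu : (u : Matrix Cfsg.Lie.chevF4.Idx Cfsg.Lie.chevF4.Idx F) = Cfsg.Lie.chevF4.x F 44 1) :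
    Cfsg.Lie.chevF4.group F ⊓ Subgroup.centralizer {t} = Cfsg.Lie.chevF4.posUnipotent F ⊔ Cfsg.Lie.chevF4.rootSubgroup F 14 ⊔ Cfsg.Lie.chevF4.rootSubgroup F 20 ⊔ Cfsg.Lie.chevF4.rootSubgroup F 22 ∧
    Cfsg.Lie.chevF4.group F ⊓ Subgroup.centralizer {u} = Cfsg.Lie.chevF4.posUnipotent F ⊔ Cfsg.Lie.chevF4.rootSubgroup F 20 ⊔ Cfsg.Lie.chevF4.rootSubgroup F 22 ⊔ Cfsg.Lie.chevF4.rootSubgroup F 23 := by
  constructor
  · rw [aux [47] [0, 1, 2] 3 47 [14, 20, 22] rfl (by decide +kernel) (by decide +kernel) t ht]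
    simp only [List.mem_cons, List.not_mem_nil, or_false, iSup_or, iSup_sup_eq, iSup_iSup_eq_left,
      sup_assoc]
  · rw [aux [44] [1, 2, 3] 0 44 [20, 22, 23] rfl (by decide +kernel) (by decide +kernel) u hu]
    simp only [List.mem_cons, List.not_mem_nil, or_false, iSup_or, iSup_sup_eq, iSup_iSup_eq_left,
      sup_assoc]

end Cfsg.Agent.S2178
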