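import Cfsg.Statements.S2179
import Cfsg.Agent.Lib.H47.RootCentT

set_option autoImplicit false
open Cfsg

namespace Cfsg.Agent.S2179

open H22.RGD H22.RCCheck H22.RCComb H22.ChevRel H22.ChevSys H22.ChevMain H22.ChevUni H47.RootCent
  Cfsg.Lie

/-- short roots -/
def sh (r : ℕ) : Bool := [3, 7, 8, 9, 10, 11, 12, 13, 14, 18, 19, 20, 27, 28, 29, 33, 34, 35, 36, 37,
  38, 39, 40, 44].elem r

theorem ck1 : chk H22.PoinF4.rcxF4 2 [47, 44] [] (fun _ => 1) [1, 2] sh = true := by decide +kernel
theorem ck2 : chk H22.PoinF4.rcxF4 2 [39, 45] [40, 44, 46, 47] (fun r => if r = 39 then 3 else 2)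
    [0, 3] sh = true := by decide +kernel

theorem rel (F : Type*) [Field F] : Rel chevF4 F := H22.ChevAll.rel chevF4 (by simp) F

theorem rk {j : ℕ} (hj : j < chevF4.rank) : j = 0 ∨ j = 1 ∨ j = 2 ∨ j = 3 := by
  have : chevF4.rank = 4 := rfl
  omega

theorem c00 : chevF4.cartan 0 44 = 1 := by decide +kernel
theorem c01 : chevF4.cartan 3 44 = 0 := by decide +kernel
theorem c02 : chevF4.cartan 0 47 = 0 := by decide +kernel
theorem c03 : chevF4.cartan 3 47 = 1 := by decide +kernel
theorem c04 : chevF4.cartan 1 44 = 0 := by decide +kernel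
theorem c05 : chevF4.cartan 2 44 = 0 := by decide +kernel
theorem c06 : chevF4.cartan 1 47 = 0 := by decide +kernel
theorem c07 : chevF4.cartan 2 47 = 0 := by decide +kernel
theorem d00 : chevF4.cartan 0 39 = 0 := by decide +kernel
theorem d01 : chevF4.cartan 1 39 = -1 := by decide +kernel
theorem d02 : chevF4.cartan 2 39 = 1 := by decide +kernel
theorem d03 : chevF4.cartan 3 39 = 0 := by decide +kernel
theorem d04 : chevF4.cartan 0 45 = 0 := by decide +kernel
theorem d05 : chevF4.cartan 1 45 = 2 := by decide +kernel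
theorem d06 : chevF4.cartan 2 45 = -1 := by decide +kernel
theorem d07 : chevF4.cartan 3 45 = 0 := by decide +kernel
theorem n0 : chevF4.neg (chevF4.simple 0) = 14 := by decide +kernel
theorem n1 : chevF4.neg (chevF4.simple 1) = 20 := by decide +kernel
theorem n2 : chevF4.neg (chevF4.simple 2) = 22 := by decide +kernel
theorem n3 : chevF4.neg (chevF4.simple 3) = 23 := by decide +kernel
theorem s0 : chevF4.simple 0 = 33 := by decide +kernel
theorem s3 : chevF4.simple 3 = 24 := by decide +kernel

section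
variable {F : Type*} [Field F] [CharP F 2]

theorem E1 : Hyp (rel F) H22.PoinF4.rcxF4 (lift chevF4.nroots [47, 44]) (lift chevF4.nroots [])
    (fun _ => 1) (fun j : Fin chevF4.rank => (j : ℕ) ∈ [1, 2]) := by
  refine hyp_of_chk (rel F) ck1 fun h hh hc => ?_
  refine torus2 (rel F) H22.PoinF4.rcxF4.rc (m1 := 0) (m2 := 3) (r1 := 44) (r2 := 47)
    (by decide) (by decide) (by decide) (by decide) ?_ ?_ ?_ h hh (hc 44 (by simp)) (hc 47 (by simp))
  · intro j hj h1 h2
    rcases rk hj with rfl | rfl | rfl | rfl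
    · exact absurd rfl h1
    · exact ⟨c04, c06⟩
    · exact ⟨c05, c07⟩
    · exact absurd rfl h2
  · intro j hj h1 h2
    rcases rk hj with rfl | rfl | rfl | rfl
    · exact absurd rfl h1
    · simp
    · simp
    · exact absurd rfl h2
  · intro x y hx hy h1 h2
    rw [c00, c01] at h1
    rw [c02, c03] at h2
    exact ⟨by simpa using h1, by simpa using h2⟩

theorem E2 : Hyp (rel F) H22.PoinF4.rcxF4 (lift chevF4.nroots [39, 45])
    (lift chevF4.nroots [40, 44, 46, 47]) (fun r => if (r : ℕ) = 39 then 3 else 2)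
    (fun j : Fin chevF4.rank => (j : ℕ) ∈ [0, 3]) := by
  refine hyp_of_chk (rel F) ck2 fun h hh hc => ?_
  refine torus2 (rel F) H22.PoinF4.rcxF4.rc (m1 := 1) (m2 := 2) (r1 := 39) (r2 := 45)
    (by decide) (by decide) (by decide) (by decide) ?_ ?_ ?_ h hh (hc 39 (by simp)) (hc 45 (by simp))
  · intro j hj h1 h2
    rcases rk hj with rfl | rfl | rfl | rfl
    · exact ⟨d00, d04⟩
    · exact absurd rfl h1
    · exact absurd rfl h2
    · exact ⟨d03, d07⟩
  · intro j hj h1 h2
    rcases rk hj with rfl | rfl | rfl | rfl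
    · simp
    · exact absurd rfl h1
    · exact absurd rfl h2
    · simp
  · intro x y hx hy h1 h2
    rw [d01, d02, zpow_neg, zpow_one, zpow_one] at h1
    rw [d05, d06, zpow_neg, zpow_one] at h2
    have e1 : y = x := by
      rw [inv_mul_eq_one₀ hx] at h1; exact h1.symm
    subst e1
    have e2 : y ^ (2 : ℤ) * y⁻¹ = y := by
      rw [show (2 : ℤ) = 1 + 1 by norm_num, zpow_add₀ hx, zpow_one, mul_assoc, mul_inv_cancel₀ hx,
        mul_one]
    rw [e2] at h2
    exact ⟨h2, h2⟩

/-- conjugation of `x_s(u)` by `x_r(t)` when there is a single commutator term of type (1,1) -/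
theorem conj_one {r s k : ℕ} {e : ℤ} (hr : r < chevF4.nroots) (hs : s < chevF4.nroots) (h1 : s ≠ r)
    (h2 : s ≠ chevF4.neg r) (h : chevF4.commTerms r s = [(k, e, 1, 1)]) (t u : F) :
    xg (rel F) r t * xg (rel F) s u = xg (rel F) s u * xg (rel F) k (e * t * u) * xg (rel F) r t := by
  have h3 := comm_g (rel F) hr hs h1 h2 (-t) u
  have h4 : xg (rel F) r t * xg (rel F) s u * (xg (rel F) r t)⁻¹ =
      xg (rel F) s u * wg (rel F) (chevF4.commWord F r s (-t) u) := by
    rw [xg_inv, mul_assoc, h3, ← xg_inv]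
    simp [mul_assoc]
  rw [mul_inv_eq_iff_eq_mul] at h4
  rw [h4]
  unfold ChevalleyDatum.commWord
  rw [h]
  simp [wg]

theorem cm {r s : ℕ} (h : (decide (r < chevF4.nroots) && decide (s < chevF4.nroots) &&
    okT chevF4 2 [] r s) = true) (a b : F) : Commute (xg (rel F) r a) (xg (rel F) s b) := by
  simp only [Bool.and_eq_true, decide_eq_true_eq] at h
  exact comm_of_ok (rel F) (p := 2) h.1.1 h.1.2 H22.PoinF4.rcxF4.rc h.2 a b

theorem k34 : chevF4.commTerms 34 39 = [(44, 1, 1, 1)] := by decide +kernel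
theorem k27 : chevF4.commTerms 27 39 = [(40, 1, 1, 1)] := by decide +kernel
theorem k26 : chevF4.commTerms 26 45 = [(47, 1, 1, 1)] := by decide +kernel
theorem k25 : chevF4.commTerms 25 45 = [(46, 1, 1, 1)] := by decide +kernel

/-- all positive roots except four commute with `x_39`, `x_45` -/
theorem ckz : ((List.range chevF4.nroots).all fun r => Nat.blt r 24 || [25, 26, 27, 34].elem r ||
    (okT chevF4 2 [] r 39 && okT chevF4 2 [] r 45)) = true := by decide +kernel

theorem ckz' {r : ℕ} (hr : r < 48) (h1 : 24 ≤ r) (h2 : r ∉ [25, 26, 27, 34]) (a : F) :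
    Commute (xg (rel F) r a) (xg (rel F) 39 1 * xg (rel F) 45 1) := by
  have h := ckz
  rw [List.all_eq_true] at h
  have h3 := h r (List.mem_range.2 hr)
  simp only [Bool.or_eq_true, Bool.and_eq_true, Nat.blt_eq, List.elem_eq_mem,
    decide_eq_true_eq] at h3
  rcases h3 with (h3 | h3) | ⟨h3, h4⟩
  · omega
  · exact absurd h3 h2
  · exact (comm_of_ok (rel F) (p := 2) hr (by decide) H22.PoinF4.rcxF4.rc h3 a 1).mul_right
      (comm_of_ok (rel F) (p := 2) hr (by decide) H22.PoinF4.rcxF4.rc h4 a 1)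

theorem pr_split (t : ℕ → F) (k m m' : ℕ) : pr (rel F) t k (m + m') =
    pr (rel F) t k m * pr (rel F) t (k + m) m' := by
  unfold pr
  rw [← List.prod_append, ← List.map_append, List.range'_append_1]

theorem pr_comm {t : ℕ → F} {k m : ℕ} {z : GL chevF4.Idx F}
    (h : ∀ r, k ≤ r → r < k + m → ∀ a : F, Commute (xg (rel F) r a) z) :
    Commute (pr (rel F) t k m) z := by
  unfold pr
  have : ∀ l : List ℕ, (∀ r ∈ l, ∀ a : F, Commute (xg (rel F) r a) z) →
      Commute ((l.map fun r => xg (rel F) r (t r)).prod) z := by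
    intro l
    induction l with
    | nil => intro _; simp
    | cons r l ih =>
      intro h
      rw [List.map_cons, List.prod_cons]
      exact (h r (by simp) _).mul_left (ih fun r hr => h r (by simp [hr]))
  refine this _ fun r hr a => ?_
  rw [List.mem_range'_1] at hr
  exact h r hr.1 hr.2 a

/-- the main computation -/
theorem zero_of {t : ℕ → F} (h : Commute (pr (rel F) t 24 24) (xg (rel F) 39 1 * xg (rel F) 45 1)) :
    t 25 = 0 ∧ t 26 = 0 ∧ t 27 = 0 ∧ t 34 = 0 := by
  set x := xg (rel F) with hx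
  set z : GL chevF4.Idx F := x 39 1 * x 45 1 with hz
  have e0 : pr (rel F) t 24 24 = x 24 (t 24) * (x 25 (t 25) * x 26 (t 26) * x 27 (t 27) *
      pr (rel F) t 28 6 * x 34 (t 34)) * pr (rel F) t 35 13 := by
    rw [show (24 : ℕ) = 4 + (6 + (1 + 13)) by norm_num, pr_split, pr_split, pr_split]
    simp [pr, List.range'_succ, mul_assoc]
    rfl
  have h24 : Commute (x 24 (t 24)) z := ckz' (by norm_num) (by norm_num) (by simp) _
  have h35 : Commute (pr (rel F) t 35 13) z := pr_comm fun r h1 h2 a => ckz' (by omega) (by omega)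
    (by simp; omega) a
  have h28 : Commute (pr (rel F) t 28 6) z := pr_comm fun r h1 h2 a => ckz' (by omega) (by omega)
    (by simp; omega) a
  have h28' : ∀ c, Commute (pr (rel F) t 28 6) (x 44 c) := by
    intro c
    refine pr_comm fun r h1 h2 a => ?_
    have : r = 28 ∨ r = 29 ∨ r = 30 ∨ r = 31 ∨ r = 32 ∨ r = 33 := by omega
    rcases this with rfl | rfl | rfl | rfl | rfl | rfl <;> exact cm (by decide +kernel) _ _
  set w := x 25 (t 25) * x 26 (t 26) * x 27 (t 27) * pr (rel F) t 28 6 * x 34 (t 34) with hw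
  have hwz : Commute w z := by
    have : w = (x 24 (t 24))⁻¹ * pr (rel F) t 24 24 * (pr (rel F) t 35 13)⁻¹ := by
      rw [e0]; simp [mul_assoc]
    rw [this]
    exact (h24.inv_left.mul_left h).mul_left h35.inv_left
  -- conjugation by the factors
  have a34 : x 34 (t 34) * z = z * x 44 (t 34) * x 34 (t 34) := by
    have h1 := conj_one (F := F) (r := 34) (s := 39) (by decide) (by decide) (by decide) (by decide +kernel)
      k34 (t 34) 1
    have h2 := (cm (F := F) (r := 34) (s := 45) (by decide +kernel) (t 34) 1).eq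
    have h3 := (cm (F := F) (r := 44) (s := 45) (by decide +kernel) (t 34) 1).eq
    simp only [Int.cast_one, one_mul, mul_one] at h1
    calc x 34 (t 34) * (x 39 1 * x 45 1) = (x 34 (t 34) * x 39 1) * x 45 1 := by rw [mul_assoc]
      _ = x 39 1 * x 44 (t 34) * (x 34 (t 34) * x 45 1) := by rw [h1]; simp only [mul_assoc]; rfl
      _ = x 39 1 * (x 44 (t 34) * x 45 1) * x 34 (t 34) := by rw [h2]; simp only [mul_assoc]; rfl
      _ = _ := by rw [h3]; simp only [hz, mul_assoc]; rfl
  have a27 : x 27 (t 27) * z = z * x 40 (t 27) * x 27 (t 27) := by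
    have h1 := conj_one (F := F) (r := 27) (s := 39) (by decide) (by decide) (by decide) (by decide +kernel)
      k27 (t 27) 1
    have h2 := (cm (F := F) (r := 27) (s := 45) (by decide +kernel) (t 27) 1).eq
    have h3 := (cm (F := F) (r := 40) (s := 45) (by decide +kernel) (t 27) 1).eq
    simp only [Int.cast_one, one_mul, mul_one] at h1
    calc x 27 (t 27) * (x 39 1 * x 45 1) = (x 27 (t 27) * x 39 1) * x 45 1 := by rw [mul_assoc]
      _ = x 39 1 * x 40 (t 27) * (x 27 (t 27) * x 45 1) := by rw [h1]; simp only [mul_assoc]; rfl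
      _ = x 39 1 * (x 40 (t 27) * x 45 1) * x 27 (t 27) := by rw [h2]; simp only [mul_assoc]; rfl
      _ = _ := by rw [h3]; simp only [hz, mul_assoc]; rfl
  have a26 : x 26 (t 26) * z = z * x 47 (t 26) * x 26 (t 26) := by
    have h1 := conj_one (F := F) (r := 26) (s := 45) (by decide) (by decide) (by decide) (by decide +kernel)
      k26 (t 26) 1
    have h2 := (cm (F := F) (r := 26) (s := 39) (by decide +kernel) (t 26) 1).eq
    simp only [Int.cast_one, one_mul, mul_one] at h1
    calc x 26 (t 26) * (x 39 1 * x 45 1) = (x 26 (t 26) * x 39 1) * x 45 1 := by rw [mul_assoc]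
      _ = x 39 1 * (x 26 (t 26) * x 45 1) := by rw [h2]; simp only [mul_assoc]; rfl
      _ = _ := by rw [h1]; simp only [hz, mul_assoc]; rfl
  have a25 : x 25 (t 25) * z = z * x 46 (t 25) * x 25 (t 25) := by
    have h1 := conj_one (F := F) (r := 25) (s := 45) (by decide) (by decide) (by decide) (by decide +kernel)
      k25 (t 25) 1
    have h2 := (cm (F := F) (r := 25) (s := 39) (by decide +kernel) (t 25) 1).eq
    simp only [Int.cast_one, one_mul, mul_one] at h1
    calc x 25 (t 25) * (x 39 1 * x 45 1) = (x 25 (t 25) * x 39 1) * x 45 1 := by rw [mul_assoc]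
      _ = x 39 1 * (x 25 (t 25) * x 45 1) := by rw [h2]; simp only [mul_assoc]; rfl
      _ = _ := by rw [h1]; simp only [hz, mul_assoc]; rfl
  have b1 : ∀ c, x 27 (t 27) * x 44 c = x 44 c * x 27 (t 27) := fun c => (cm (by decide +kernel) _ _).eq
  have b2 : ∀ c, x 26 (t 26) * x 44 c = x 44 c * x 26 (t 26) := fun c => (cm (by decide +kernel) _ _).eq
  have b3 : ∀ c, x 25 (t 25) * x 44 c = x 44 c * x 25 (t 25) := fun c => (cm (by decide +kernel) _ _).eq
  have b4 : ∀ c, x 26 (t 26) * x 40 c = x 40 c * x 26 (t 26) := fun c => (cm (by decide +kernel) _ _).eq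
  have b5 : ∀ c, x 25 (t 25) * x 40 c = x 40 c * x 25 (t 25) := fun c => (cm (by decide +kernel) _ _).eq
  have b6 : ∀ c, x 25 (t 25) * x 47 c = x 47 c * x 25 (t 25) := fun c => (cm (by decide +kernel) _ _).eq
  have fin : w * z = z * (x 46 (t 25) * x 47 (t 26) * x 40 (t 27) * x 44 (t 34)) * w := by
    calc w * z = x 25 (t 25) * x 26 (t 26) * x 27 (t 27) * pr (rel F) t 28 6 *
          (x 34 (t 34) * z) := by rw [hw]; simp only [mul_assoc]
      _ = x 25 (t 25) * x 26 (t 26) * x 27 (t 27) * (pr (rel F) t 28 6 * (z * x 44 (t 34))) *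
          x 34 (t 34) := by rw [a34]; simp only [mul_assoc]
      _ = x 25 (t 25) * x 26 (t 26) * (x 27 (t 27) * z) * x 44 (t 34) * (pr (rel F) t 28 6 *
          x 34 (t 34)) := by
          rw [(h28.mul_right (h28' (t 34))).eq]; simp only [mul_assoc]
      _ = x 25 (t 25) * (x 26 (t 26) * z) * x 40 (t 27) * (x 27 (t 27) * x 44 (t 34)) *
          (pr (rel F) t 28 6 * x 34 (t 34)) := by rw [a27]; simp only [mul_assoc]
      _ = x 25 (t 25) * z * x 47 (t 26) * (x 26 (t 26) * x 40 (t 27)) * x 44 (t 34) *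
          (x 27 (t 27) * pr (rel F) t 28 6 * x 34 (t 34)) := by
          rw [a26, b1]; simp only [mul_assoc]
      _ = (x 25 (t 25) * z) * x 47 (t 26) * x 40 (t 27) * (x 26 (t 26) * x 44 (t 34)) *
          (x 27 (t 27) * pr (rel F) t 28 6 * x 34 (t 34)) := by
          rw [b4]; simp only [mul_assoc]
      _ = z * x 46 (t 25) * (x 25 (t 25) * x 47 (t 26)) * x 40 (t 27) * x 44 (t 34) *
          (x 26 (t 26) * x 27 (t 27) * pr (rel F) t 28 6 * x 34 (t 34)) := by
          rw [a25, b2]; simp only [mul_assoc]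
      _ = z * x 46 (t 25) * x 47 (t 26) * (x 25 (t 25) * x 40 (t 27)) * x 44 (t 34) *
          (x 26 (t 26) * x 27 (t 27) * pr (rel F) t 28 6 * x 34 (t 34)) := by
          rw [b6]; simp only [mul_assoc]
      _ = z * x 46 (t 25) * x 47 (t 26) * x 40 (t 27) * (x 25 (t 25) * x 44 (t 34)) *
          (x 26 (t 26) * x 27 (t 27) * pr (rel F) t 28 6 * x 34 (t 34)) := by
          rw [b5]; simp only [mul_assoc]
      _ = _ := by rw [b3, hw]; simp only [mul_assoc]
  rw [hwz.eq] at fin
  have f1 : x 46 (t 25) * x 47 (t 26) * x 40 (t 27) * x 44 (t 34) = 1 := by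
    have h1 := mul_right_cancel fin
    exact (mul_eq_left.1 h1.symm)
  -- coordinates
  have hlt : ∀ r ∈ [46, 47, 40, 44], r < chevF4.nroots := by decide
  set d : Fin chevF4.nroots → F := fun r => if (r : ℕ) = 46 then t 25 else if (r : ℕ) = 47 then t 26 else
    if (r : ℕ) = 40 then t 27 else t 34 with hd
  have f2 : LP (rel F) (lift chevF4.nroots [46, 47, 40, 44]) d =
      LP (rel F) (lift chevF4.nroots []) d := by
    have e : (lift chevF4.nroots [46, 47, 40, 44]) = [⟨46, by decide⟩, ⟨47, by decide⟩,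
      ⟨40, by decide⟩, ⟨44, by decide⟩] := by rfl
    rw [e]
    simp only [LP_cons, LP_nil, hd]
    have : lift chevF4.nroots [] = [] := rfl
    rw [this, LP_nil, mul_one, ← f1]
    simp [mul_assoc]
    rfl
  have hcomm : Comm (rel F) (lift chevF4.nroots [46, 47, 40, 44]) := by
    intro r hr s hs a b
    rw [mem_lift] at hr hs
    refine E2.comm r ?_ s ?_ a b
    · rw [← lift_append, mem_lift]
      revert hr; simp; omega
    · rw [← lift_append, mem_lift]
      revert hs; simp; omega
  have f3 := fun (r : Fin chevF4.nroots) => LP_inj (rel F) H22.ChevLex.lexF4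
    (l := lift chevF4.nroots [46, 47, 40, 44]) (l' := lift chevF4.nroots [])
    (by decide) (by
      intro r hr
      rw [mem_lift] at hr
      show 24 ≤ (r : ℕ)
      revert hr; simp; omega) hcomm (by decide) (by intro r hr; rw [mem_lift] at hr; simp at hr)
    (by intro r hr; rw [mem_lift] at hr; simp at hr) f2 r
  have g : ∀ r : ℕ, ∀ hr : r < 48, r ∈ [46, 47, 40, 44] → d ⟨r, hr⟩ = 0 := by
    intro r hr hm
    have h1 := f3 ⟨r, hr⟩ (by
      show 24 ≤ r
      revert hm; simp; omega)
    rw [if_pos (mem_lift.2 hm), if_neg (by rw [mem_lift]; simp)] at h1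
    exact h1
  refine ⟨?_, ?_, ?_, ?_⟩
  · simpa [hd] using g 46 (by norm_num) (by simp)
  · simpa [hd] using g 47 (by norm_num) (by simp)
  · simpa [hd] using g 40 (by norm_num) (by simp)
  · simpa [hd] using g 44 (by norm_num) (by simp)

end

/-- Centralizers of the two remaining classes of involutions in the Chevalley group G of type F₄ over a finite field F of characteristic two (this problem's root numbering for type F₄, from the Chevalley data module: p₁, p₂ short, p₃, p₄ long with indices 33, 27, 25, 24 and negatives 14, 20, 22, 23; U generated by the positive root subgroups). For an element of G with matrix x_47(1)x_44(1) (highest root times highest short root): its centralizer in G is generated by U, X_{−p₂} and X_{−p₃}. For an element of G with matrix x_39(1)x_45(1) (roots (1,2,2,1) and (2,4,2,1), an orthogonal short/long pair): its centralizer in G is generated by X_{p₁}, X_{−p₁}, X_{p₄}, X_{−p₄} and the root subgroups of all positive roots other than p₂ (27), p₃ (25), p₁ + p₂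 (34) and p₃ + p₄ (26). -/
theorem result {F : Type*} [Field F] [Fintype F] [CharP F 2] (w v : GL Cfsg.Lie.chevF4.Idx F) (hw : (w : Matrix Cfsg.Lie.chevF4.Idx Cfsg.Lie.chevF4.Idx F) = Cfsg.Lie.chevF4.x F 47 1 * Cfsg.Lie.chevF4.x F 44 1) (hv : (v : Matrix Cfsg.Lie.chevF4.Idx Cfsg.Lie.chevF4.Idx F) = Cfsg.Lie.chevF4.x F 39 1 * Cfsg.Lie.chevF4.x F 45 1) :
    Cfsg.Lie.chevF4.group F ⊓ Subgroup.centralizer {w} = Cfsg.Lie.chevF4.posUnipotent F ⊔ Cfsg.Lie.chevF4.rootSubgroup F 20 ⊔ Cfsg.Lie.chevF4.rootSubgroup F 22 ∧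
    Cfsg.Lie.chevF4.group F ⊓ Subgroup.centralizer {v} = Cfsg.Lie.chevF4.rootSubgroup F 33 ⊔ Cfsg.Lie.chevF4.rootSubgroup F 14 ⊔ Cfsg.Lie.chevF4.rootSubgroup F 24 ⊔ Cfsg.Lie.chevF4.rootSubgroup F 23 ⊔
      Subgroup.closure {g : GL Cfsg.Lie.chevF4.Idx F | ∃ (r : ℕ) (c : F), Cfsg.Lie.chevF4.IsPosRoot r ∧ r ∉ [27, 25, 34, 26] ∧ (g : Matrix Cfsg.Lie.chevF4.Idx Cfsg.Lie.chevF4.Idx F) = Cfsg.Lie.chevF4.x F r c} := by
  have R : Rel chevF4 F := rel F
  constructor
  · have hz : LP (rel F) (lift chevF4.nroots [47, 44]) (fun _ => (1 : F)) = w := by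
      rw [LP_lift (rel F) (by decide)]
      simp only [List.map_cons, List.map_nil, List.prod_cons, List.prod_nil, mul_one]
      apply Units.ext
      rw [hw]; rfl
    have hcent := (E1 (F := F)).cent_eq H22.ChevLex.lexF4
    rw [hz] at hcent
    rw [hcent, sup_assoc]
    apply le_antisymm
    · refine MJ_le_of (X := H22.PoinF4.rcxF4) le_sup_left fun j hj hj' c => ?_
      simp only [List.mem_cons, List.not_mem_nil, or_false] at hj
      refine Subgroup.mem_sup_right ?_
      rcases hj with rfl | rfl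
      · rw [n1]; exact Subgroup.mem_sup_left (xg_mem (rel F) _ c)
      · rw [n2]; exact Subgroup.mem_sup_right (xg_mem (rel F) _ c)
    · refine sup_le_sup_left (sup_le ?_ ?_) _
      · exact rootSubgroup_le_MJ (j := 1) (by decide) (by simp) n1
      · exact rootSubgroup_le_MJ (j := 2) (by decide) (by simp) n2
  · have hz : LP (rel F) (lift chevF4.nroots [39, 45]) (fun _ => (1 : F)) = v := by
      rw [LP_lift (rel F) (by decide)]
      simp only [List.map_cons, List.map_nil, List.prod_cons, List.prod_nil, mul_one]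
      apply Units.ext
      rw [hv]; rfl
    have hz2 : v = xg (rel F) 39 1 * xg (rel F) 45 1 := by
      apply Units.ext
      rw [hv]; rfl
    set K : Subgroup (GL chevF4.Idx F) := chevF4.rootSubgroup F 33 ⊔ chevF4.rootSubgroup F 14 ⊔
      chevF4.rootSubgroup F 24 ⊔ chevF4.rootSubgroup F 23 ⊔
      Subgroup.closure {g : GL chevF4.Idx F | ∃ (r : ℕ) (c : F), chevF4.IsPosRoot r ∧
        r ∉ [27, 25, 34, 26] ∧ (g : Matrix chevF4.Idx chevF4.Idx F) = chevF4.x F r c} with hK
    have hKp : ∀ r : ℕ, 24 ≤ r → r < 48 → r ∉ [27, 25, 34, 26] → ∀ c : F, xg (rel F) r c ∈ K := by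
      intro r h1 h2 h3 c
      refine Subgroup.mem_sup_right (Subgroup.subset_closure ⟨r, c, ?_, h3, rfl⟩)
      exact (H22.PoinF4.rcxF4.rc.isPos_iff r h2).2 h1
    have hK33 : ∀ c : F, xg (rel F) 33 c ∈ K := hKp 33 (by norm_num) (by norm_num) (by simp)
    have hK24 : ∀ c : F, xg (rel F) 24 c ∈ K := hKp 24 (by norm_num) (by norm_num) (by simp)
    have hK14 : ∀ c : F, xg (rel F) 14 c ∈ K := fun c => Subgroup.mem_sup_left
      (Subgroup.mem_sup_left (Subgroup.mem_sup_left (Subgroup.mem_sup_right (xg_mem (rel F) _ c))))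
    have hK23 : ∀ c : F, xg (rel F) 23 c ∈ K := fun c => Subgroup.mem_sup_left
      (Subgroup.mem_sup_right (xg_mem (rel F) _ c))
    have hMK : MJ (rel F) (fun j : Fin chevF4.rank => (j : ℕ) ∈ [0, 3]) ≤ K := by
      unfold MJ
      rw [Subgroup.closure_le]
      rintro _ ⟨j, hj, c, h⟩
      simp only [List.mem_cons, List.not_mem_nil, or_false] at hj
      rcases hj with hj | hj <;> rw [hj] at h <;> rcases h with rfl | rfl
      · rw [s0]; exact hK33 c
      · rw [n0]; exact hK14 c
      · rw [s3]; exact hK24 c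
      · rw [n3]; exact hK23 c
    apply le_antisymm
    · rintro g ⟨hg, hc⟩
      have hc' := Subgroup.mem_centralizer_singleton_iff.1 hc
      rw [← hz] at hc'
      obtain ⟨y, hy, hyz, m, hm, rfl⟩ := (E2 (F := F)).cent H22.ChevLex.lexF4 hg hc'
      refine K.mul_mem ?_ (hMK hm)
      rw [hz, hz2] at hyz
      rw [chevSys_U, posUnipotent_eq_Vk (rel F) H22.PoinF4.rcxF4.rc] at hy
      obtain ⟨t, rfl⟩ := (mem_Vk_iff (rel F) H22.ChevLex.lexF4 24 24 rfl le_rfl y).1 hy
      obtain ⟨h1, h2, h3, h4⟩ := zero_of hyz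
      unfold pr
      apply Subgroup.list_prod_mem
      intro y hy
      simp only [List.mem_map] at hy
      obtain ⟨r, hr, rfl⟩ := hy
      rw [List.mem_range'_1] at hr
      by_cases h5 : r ∈ [27, 25, 34, 26]
      · simp only [List.mem_cons, List.not_mem_nil, or_false] at h5
        rcases h5 with rfl | rfl | rfl | rfl
        · rw [h3, xg_zero]; exact K.one_mem
        · rw [h1, xg_zero]; exact K.one_mem
        · rw [h4, xg_zero]; exact K.one_mem
        · rw [h2, xg_zero]; exact K.one_mem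
      · exact hKp r hr.1 (by omega) h5 _
    · have key : ∀ r : ℕ, r < 48 → (∀ c : F, Commute (xg (rel F) r c) v) →
          chevF4.rootSubgroup F r ≤ chevF4.group F ⊓ Subgroup.centralizer {v} := by
        intro r hr h y hy
        rw [mem_rootSubgroup (rel F)] at hy
        obtain ⟨c, rfl⟩ := hy
        exact ⟨xg_mem_group (rel F) hr c, Subgroup.mem_centralizer_singleton_iff.2 (h c)⟩
      have hcm : ∀ r : ℕ, okT chevF4 2 [] r 39 = true → okT chevF4 2 [] r 45 = true → r < 48 →
          ∀ c : F, Commute (xg (rel F) r c) v := by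
        intro r h1 h2 hr c
        rw [hz2]
        exact (comm_of_ok (rel F) (p := 2) hr (by decide) H22.PoinF4.rcxF4.rc h1 c 1).mul_right
          (comm_of_ok (rel F) (p := 2) hr (by decide) H22.PoinF4.rcxF4.rc h2 c 1)
      refine sup_le (sup_le (sup_le (sup_le ?_ ?_) ?_) ?_) ?_
      · exact key 33 (by norm_num) (hcm 33 (by decide +kernel) (by decide +kernel) (by norm_num))
      · exact key 14 (by norm_num) (hcm 14 (by decide +kernel) (by decide +kernel) (by norm_num))
      · exact key 24 (by norm_num) (hcm 24 (by decide +kernel) (by decide +kernel) (by norm_num))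
      · exact key 23 (by norm_num) (hcm 23 (by decide +kernel) (by decide +kernel) (by norm_num))
      · rw [Subgroup.closure_le]
        rintro g ⟨r, c, h1, h2, h3⟩
        have hr : 24 ≤ r := (H22.PoinF4.rcxF4.rc.isPos_iff r h1.1).1 h1
        have e : g = xg (rel F) r c := xg_eq (rel F) h3
        rw [e]
        refine ⟨xg_mem_group (rel F) h1.1 c, Subgroup.mem_centralizer_singleton_iff.2 ?_⟩
        rw [hz2]
        refine ckz' h1.1 hr ?_ c
        revert h2; simp; omega

end Cfsg.Agent.S2179
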