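import Cfsg.Statements.S2186
import Cfsg.Agent.Lib.H47.RootPair

set_option autoImplicit false
open Cfsg

namespace Cfsg.Agent.S2186

open H47.RootPair H47.RootCent Cfsg.Lie

theorem kG2 : (ckPair chevG2 2 (fun r => [0, 1, 5, 6, 10, 11].elem r) && ckInv chevG2 (fun r => [0, 1, 5, 6, 10, 11].elem r)) = true := by
  decide +kernel
theorem kD4 : (ckPair chevD4 2 (fun _ => true) && ckInv chevD4 (fun _ => true)) = true := by
  decide +kernel
theorem kE6 : (ckPair chevE6 2 (fun _ => true) && ckInv chevE6 (fun _ => true)) = true := by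
  decide +kernel
theorem kE7 : (ckPair chevE7 2 (fun _ => true) && ckInv chevE7 (fun _ => true)) = true := by
  decide +kernel
theorem kE8 : (ckPair chevE8 2 (fun _ => true) && ckInv chevE8 (fun _ => true)) = true := by
  decide +kernel

theorem key {F : Type*} [Field F] [CharP F 2] (D : ChevalleyDatum)
    (hD' : D ∈ [chevG2, chevB2, chevD4, chevF4, chevE6, chevE7, chevE8]) (T : ℕ → Bool)
    (h : (ckPair D 2 T && ckInv D T) = true) (hT : T (D.nroots - 1) = true)
    (g : GL D.Idx F) (hg : g ∈ D.group F) :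
    IsPGroup 2 ↥(D.rootSubgroup F (D.nroots - 1) ⊔
      (D.rootSubgroup F (D.nroots - 1)).map (MulAut.conj g).toMonoidHom) ∨
    ∃ h ∈ D.group F, (D.rootSubgroup F (D.nroots - 1) ⊔
      (D.rootSubgroup F (D.nroots - 1)).map (MulAut.conj g).toMonoidHom).map
        (MulAut.conj h).toMonoidHom = D.rootSubgroup F (D.nroots - 1) ⊔ D.rootSubgroup F 0 := by
  have : Fact (Nat.Prime 2) := ⟨Nat.prime_two⟩
  rw [Bool.and_eq_true] at h
  obtain ⟨X, ⟨Z⟩⟩ := H22.ChevRC.exists_rcx hD'
  exact main (p := 2) (H22.ChevAll.rel D hD' F) Z h.1 h.2 hT hg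

/-- Let G be the Chevalley group of type G₂ (over a field with at least four elements), D₄, E₆, E₇ or E₈ over a finite field F of characteristic two, and let X be the root subgroup of the highest root (the last root index) — a long root subgroup, of order |F|. For every g in G, the subgroup generated by X and its conjugate g X g⁻¹ is either a 2-group or is conjugate by an element of G to the subgroup generated by X and the root subgroup of the lowest root (index 0, the negative of the highest root), which is a copy of SL₂(F). -/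
theorem result {F : Type*} [Field F] [Fintype F] [CharP F 2] (D : Cfsg.Lie.ChevalleyDatum) (hD : D ∈ [Cfsg.Lie.chevG2, Cfsg.Lie.chevD4, Cfsg.Lie.chevE6, Cfsg.Lie.chevE7, Cfsg.Lie.chevE8]) (hF : D = Cfsg.Lie.chevG2 → 4 ≤ Fintype.card F) (g : GL D.Idx F) (hg : g ∈ D.group F) :
    IsPGroup 2 ↥(D.rootSubgroup F (D.nroots - 1) ⊔ (D.rootSubgroup F (D.nroots - 1)).map (MulAut.conj g).toMonoidHom) ∨
    ∃ h ∈ D.group F, (D.rootSubgroup F (D.nroots - 1) ⊔ (D.rootSubgroup F (D.nroots - 1)).map (MulAut.conj g).toMonoidHom).map (MulAut.conj h).toMonoidHom = D.rootSubgroup F (D.nroots - 1) ⊔ D.rootSubgroup F 0 := by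
  simp only [List.mem_cons, List.not_mem_nil, or_false] at hD
  rcases hD with rfl | rfl | rfl | rfl | rfl
  · exact key _ (by simp) _ kG2 (by decide) g hg
  · exact key _ (by simp) _ kD4 rfl g hg
  · exact key _ (by simp) _ kE6 rfl g hg
  · exact key _ (by simp) _ kE7 rfl g hg
  · exact key _ (by simp) _ kE8 rfl g hg

end Cfsg.Agent.S2186
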