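import Cfsg.Statements.S2197
import Cfsg.Agent.Lib.H41.Tt7

set_option autoImplicit false
open Cfsg
open scoped MatrixGroups

namespace Cfsg.Agent.S2197

/-- The Tits group (the commutator subgroup of ²F₄(2)) has no faithful 2-transitive action on a finite set with more than two points. -/
theorem result {Ω : Type*} [Fintype Ω] [MulAction Cfsg.Lie.TitsGroup Ω] [FaithfulSMul Cfsg.Lie.TitsGroup Ω] (hΩ : 3 ≤ Fintype.card Ω) :
    ¬ MulAction.IsMultiplyPretransitive Cfsg.Lie.TitsGroup Ω 2 := by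
  haveI hs : IsSimpleGroup Cfsg.Lie.TitsGroup := H22.OctSimple.s1074.2.1
  obtain ⟨S, ψ, x, O, hG, hH, hodd⟩ := H22.OctRes.all2 (K := ZMod 2) (m := 0) (by simp)
  have hG' : S.Γ = Cfsg.Lie.twistedF4 (ZMod 2) 1 := hG
  have hH1 : S.H = ⊥ := by
    apply Subgroup.eq_bot_of_card_eq
    rw [hH]; norm_num
  have hcard : Nat.card Cfsg.Lie.TitsGroup = 17971200 := by
    rw [H22.OctSimple.s1074.2.2.2]; norm_num
  have key : ∀ (Γ : Subgroup (GL (Cfsg.Lie.chevF4).Idx (ZMod 2))), S.Γ = Γ → IsSimpleGroup (commutator Γ) →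
      Nat.card (commutator Γ) = 17971200 → ∀ (inst : MulAction (commutator Γ) Ω) (_ : FaithfulSMul (commutator Γ) Ω),
      ¬ MulAction.IsMultiplyPretransitive (commutator Γ) Ω 2 := by
    rintro _ rfl hs' hc' inst hf
    exact H41.Tt7.main O hodd (fun a => by revert a; decide) hH1 hs' hc' (by rw [Nat.card_eq_fintype_card]; exact hΩ)
  exact key _ hG' hs hcard inferInstance inferInstance

end Cfsg.Agent.S2197
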