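import Cfsg.Statements.S2214
import Cfsg.Agent.Lib.H47.ChevSub
import Cfsg.Agent.Lib.H22.ChevRC

set_option autoImplicit false
open Cfsg

namespace Cfsg.Agent.S2214

/-- Let k be an algebraically closed field of prime characteristic p, G the adjoint Chevalley group of type G₂, B₂, D₄, F₄, E₆, E₇ or E₈ over k (the matrix group generated by the root elements x_s(t), t ∈ k, acting on the Lie algebra), q = p^a with a ≥ 1, and K a subgroup of G containing every root element x_s(t) with t^q = t and consisting of matrices all of whose entries c satisfy c^q = c. Then the centralizer of K in G is trivial, and the normalizer of K in G is exactly the set of elements of G all of whose entries c satisfy c^q = c. -/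
theorem result {k : Type*} [Field k] [IsAlgClosed k] (p : ℕ) [Fact p.Prime] [CharP k p] (D : Cfsg.Lie.ChevalleyDatum) (hD : D ∈ [Cfsg.Lie.chevG2, Cfsg.Lie.chevB2, Cfsg.Lie.chevD4, Cfsg.Lie.chevF4, Cfsg.Lie.chevE6, Cfsg.Lie.chevE7, Cfsg.Lie.chevE8]) (a : ℕ) (ha : 1 ≤ a) (K : Subgroup (GL D.Idx k)) (hKG : K ≤ D.group k)
    (hLK : Subgroup.closure {g : GL D.Idx k | ∃ (s : ℕ) (t : k), t ^ (p ^ a) = t ∧ (g : Matrix D.Idx D.Idx k) = D.x k s t} ≤ K)
    (hKfix : ∀ g ∈ K, ∀ i j : D.Idx, ((g : Matrix D.Idx D.Idx k) i j) ^ (p ^ a) = (g : Matrix D.Idx D.Idx k) i j) :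
    D.group k ⊓ Subgroup.centralizer (K : Set (GL D.Idx k)) = ⊥ ∧
    ∀ g : GL D.Idx k, g ∈ D.group k → (g ∈ Subgroup.normalizer (K : Set (GL D.Idx k)) ↔ ∀ i j : D.Idx, ((g : Matrix D.Idx D.Idx k) i j) ^ (p ^ a) = (g : Matrix D.Idx D.Idx k) i j) := by
  obtain ⟨X, ⟨Z⟩⟩ := H22.ChevRC.exists_rcx hD
  have R := H22.ChevAll.rel D hD k
  have hσ : ∀ c : k, iterateFrobenius k p a c = c ^ (p ^ a) := fun c => iterateFrobenius_def p a c
  have hiff : ∀ g : GL D.Idx k, H47.ChevSub.Fr (D := D) (iterateFrobenius k p a) g = g ↔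
      ∀ i j : D.Idx, ((g : Matrix D.Idx D.Idx k) i j) ^ (p ^ a) = (g : Matrix D.Idx D.Idx k) i j := by
    intro g
    rw [H47.ChevSub.Fr_eq_iff]
    simp only [hσ]
  have h := H47.ChevSub.main R (iterateFrobenius k p a) Z K hKG ?_ ?_
  · refine ⟨h.1, fun g hg => ?_⟩
    rw [h.2 g hg, hiff]
  · refine le_trans ?_ hLK
    unfold H47.ChevSub.L
    rw [Subgroup.closure_le]
    rintro g ⟨s, t, ht, rfl⟩
    exact Subgroup.subset_closure ⟨s, t, by rw [← hσ, ht], rfl⟩
  · intro g hg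
    rw [hiff]; exact hKfix g hg

end Cfsg.Agent.S2214
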