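import Cfsg.Statements.S2221
import Cfsg.Agent.Lib.H98.SylAc

set_option autoImplicit false
open Cfsg

namespace Cfsg.Agent.S2221

open Subgroup H98.SylAa H98.SylAb H98.SylAc

theorem dec_iff_internal {G : Type*} [Group G] (R : Subgroup G) :
    (∃ S₁ S₂ : Subgroup G, S₁ ≠ ⊥ ∧ S₂ ≠ ⊥ ∧ Cfsg.IsInternalDirectProduct S₁ S₂ R) ↔ Dec R := by
  constructor
  · rintro ⟨A, B, hA, hB, hAR, hBR, hc, hi, hs⟩
    refine ⟨A.subgroupOf R, B.subgroupOf R, ?_, ?_, ?_, ?_, ?_⟩
    · intro h
      apply hA
      rw [Subgroup.subgroupOf_eq_bot] at h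
      exact h.eq_bot_of_le hAR
    · intro h
      apply hB
      rw [Subgroup.subgroupOf_eq_bot] at h
      exact h.eq_bot_of_le hBR
    · intro a ha b hb
      exact Subtype.ext (hc a ha b hb)
    · rw [Subgroup.subgroupOf, Subgroup.subgroupOf, ← Subgroup.comap_inf, hi]
      exact (MonoidHom.comap_bot R.subtype).trans (Subgroup.ker_subtype R)
    · rw [← Subgroup.subgroupOf_sup hAR hBR, hs, Subgroup.subgroupOf_self]
  · rintro ⟨A, B, hA, hB, hc, hi, hs⟩
    refine ⟨A.map R.subtype, B.map R.subtype, ?_, ?_, ?_, ?_, ?_, ?_, ?_⟩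
    · rwa [ne_eq, Subgroup.map_eq_bot_iff_of_injective _ R.subtype_injective]
    · rwa [ne_eq, Subgroup.map_eq_bot_iff_of_injective _ R.subtype_injective]
    · rintro _ ⟨a, ha, rfl⟩; exact a.2
    · rintro _ ⟨a, ha, rfl⟩; exact a.2
    · rintro _ ⟨a, ha, rfl⟩ _ ⟨b, hb, rfl⟩
      exact congrArg Subtype.val (hc a ha b hb)
    · rw [← Subgroup.map_inf _ _ _ R.subtype_injective, hi, Subgroup.map_bot]
    · rw [← Subgroup.map_sup, hs, ← MonoidHom.range_eq_map, Subgroup.range_subtype]

theorem dec_prod {P Q : Type*} [Group P] [Group Q] [Nontrivial P] [Nontrivial Q] : Dec (P × Q) := by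
  refine ⟨(⊤ : Subgroup P).prod ⊥, (⊥ : Subgroup P).prod ⊤, ?_, ?_, ?_, ?_, ?_⟩
  · intro h
    obtain ⟨x, hx⟩ := exists_ne (1 : P)
    have : ((x, 1) : P × Q) ∈ (⊤ : Subgroup P).prod (⊥ : Subgroup Q) := by simp [Subgroup.mem_prod]
    rw [h, Subgroup.mem_bot] at this
    exact hx (congrArg Prod.fst this)
  · intro h
    obtain ⟨x, hx⟩ := exists_ne (1 : Q)
    have : ((1, x) : P × Q) ∈ (⊥ : Subgroup P).prod (⊤ : Subgroup Q) := by simp [Subgroup.mem_prod]
    rw [h, Subgroup.mem_bot] at this
    exact hx (congrArg Prod.snd this)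
  · rintro ⟨a, b⟩ h ⟨c, d⟩ h'
    simp only [Subgroup.mem_prod, Subgroup.mem_bot] at h h'
    rw [h.2, h'.1]
    simp
  · rw [eq_bot_iff]
    rintro ⟨a, b⟩ ⟨h, h'⟩
    have h1 : b = 1 := Subgroup.mem_bot.mp (Subgroup.mem_prod.mp h).2
    have h2 : a = 1 := Subgroup.mem_bot.mp (Subgroup.mem_prod.mp h').1
    rw [Subgroup.mem_bot, h1, h2]
    rfl
  · rw [eq_top_iff]
    rintro ⟨a, b⟩ _
    have : ((a, b) : P × Q) = (a, 1) * (1, b) := by simp
    rw [this]
    exact Subgroup.mul_mem_sup (by simp [Subgroup.mem_prod]) (by simp [Subgroup.mem_prod])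

theorem dec_four {T : Type*} [Group T] (hT : Nat.card T = 4) (h : ∀ x : T, x * x = 1) : Dec T := by
  haveI : Finite T := Nat.finite_of_card_ne_zero (by omega)
  haveI : Nontrivial T := by
    rw [← Finite.one_lt_card_iff_nontrivial, hT]; norm_num
  obtain ⟨a, ha⟩ := exists_ne (1 : T)
  have hz : ∀ x : T, x ≠ 1 → Nat.card (Subgroup.zpowers x) = 2 := by
    intro x hx
    rw [Nat.card_zpowers]
    exact orderOf_eq_prime (by rw [pow_two]; exact h x) hx
  have hz2 : ∀ x y : T, y ∈ Subgroup.zpowers x → y = 1 ∨ y = x := by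
    intro x y hy
    obtain ⟨k, rfl⟩ := Subgroup.mem_zpowers_iff.mp hy
    rcases Int.even_or_odd' k with ⟨c, hc | hc⟩
    · left
      rw [hc, zpow_mul, zpow_two, h, one_zpow]
    · right
      rw [hc, zpow_add, zpow_mul, zpow_two, h, one_zpow, one_mul, zpow_one]
  have hne : Subgroup.zpowers a ≠ ⊤ := by
    intro h1
    have := hz a ha
    rw [h1, Subgroup.card_top, hT] at this
    omega
  obtain ⟨b, hb⟩ : ∃ b, b ∉ Subgroup.zpowers a := by
    by_contra hcon
    push Not at hcon
    exact hne (eq_top_iff.mpr fun x _ => hcon x)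
  have hb1 : b ≠ 1 := by rintro rfl; exact hb (Subgroup.one_mem _)
  refine ⟨Subgroup.zpowers a, Subgroup.zpowers b, ?_, ?_, ?_, ?_, ?_⟩
  · rw [ne_eq, Subgroup.zpowers_eq_bot]; exact ha
  · rw [ne_eq, Subgroup.zpowers_eq_bot]; exact hb1
  · intro x _ y _
    have h1 := h (x * y)
    have h2 : x⁻¹ = x := inv_eq_of_mul_eq_one_left (h x)
    have h3 : y⁻¹ = y := inv_eq_of_mul_eq_one_left (h y)
    have h4 : (x * y)⁻¹ = x * y := inv_eq_of_mul_eq_one_left h1
    rw [← h4, mul_inv_rev, h2, h3]
  · rw [eq_bot_iff]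
    rintro x ⟨h1, h2⟩
    rcases hz2 a x h1 with rfl | rfl
    · exact Subgroup.one_mem _
    · rcases hz2 b x h2 with h3 | h3
      · rw [h3]; exact Subgroup.one_mem _
      · exfalso; exact hb (h3 ▸ Subgroup.mem_zpowers x)
  · have h1 : Nat.card (Subgroup.zpowers a ⊔ Subgroup.zpowers b : Subgroup T) ∣ 4 := by
      rw [← hT]; exact Subgroup.card_subgroup_dvd_card _
    have h2 : 2 < Nat.card (Subgroup.zpowers a ⊔ Subgroup.zpowers b : Subgroup T) := by
      rw [← hz a ha]
      have hlt : Subgroup.zpowers a < Subgroup.zpowers a ⊔ Subgroup.zpowers b := by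
        apply lt_of_le_of_ne le_sup_left
        intro h3
        apply hb
        rw [h3]
        exact Subgroup.mem_sup_right (Subgroup.mem_zpowers b)
      exact Set.ncard_lt_ncard hlt (Set.toFinite _)
    have h3 : Nat.card (Subgroup.zpowers a ⊔ Subgroup.zpowers b : Subgroup T) = 4 := by
      have h4 := Nat.le_of_dvd (by norm_num) h1
      interval_cases hc : Nat.card (Subgroup.zpowers a ⊔ Subgroup.zpowers b : Subgroup T)
      · norm_num at h1
      · rfl
    exact Subgroup.eq_top_of_card_eq _ (by rw [h3, hT])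

theorem model_two : Model 2 (Equiv.Perm (Fin 2)) Equiv.Perm.sign := by
  refine ⟨MonoidHom.id _, fun _ _ h => h, fun _ => rfl, ?_⟩
  have : ex 2 = 1 := by
    have := ex_two_mul 1
    rw [ex_one] at this
    exact this
  rw [this, Nat.card_eq_fintype_card]
  simp [Fintype.card_perm]

theorem sign2 : ∀ b d : Equiv.Perm (Fin 2), Equiv.Perm.sign b = Equiv.Perm.sign d → b = d := by decide

noncomputable def kerEquiv {P : Type} [Group P] (ε : P →* ℤˣ) :
    (ε.coprod (Equiv.Perm.sign : Equiv.Perm (Fin 2) →* ℤˣ)).ker ≃* P :=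
  MulEquiv.ofBijective ((MonoidHom.fst _ _).comp (Subgroup.subtype _)) ⟨by
    rintro ⟨⟨a, b⟩, h⟩ ⟨⟨c, d⟩, h'⟩ e
    have e1 : a = c := e
    subst e1
    rw [MonoidHom.mem_ker] at h h'
    simp only [MonoidHom.coprod_apply] at h h'
    have e2 : Equiv.Perm.sign b = Equiv.Perm.sign d := mul_left_cancel (h.trans h'.symm)
    have e3 : b = d := sign2 b d e2
    subst e3
    rfl, by
    intro a
    have : ∃ b : Equiv.Perm (Fin 2), Equiv.Perm.sign b = ε a := by
      rcases Int.units_eq_one_or (ε a) with h | h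
      · exact ⟨1, by rw [h, map_one]⟩
      · exact ⟨Equiv.swap 0 1, by rw [h]; decide⟩
    obtain ⟨b, hb⟩ := this
    exact ⟨⟨(a, b), by
      rw [MonoidHom.mem_ker, MonoidHom.coprod_apply, hb]
      exact Int.units_mul_self _⟩, rfl⟩⟩

theorem sq_one4 : ∀ x : alternatingGroup (Fin 4), x ^ 4 = 1 → x * x = 1 := by decide +kernel
theorem sq_one5 : ∀ x : alternatingGroup (Fin 5), x ^ 4 = 1 → x * x = 1 := by decide +kernel

theorem dec_small {n : ℕ} (hn : n = 4 ∨ n = 5) (P : Sylow 2 (alternatingGroup (Fin n))) : Dec P := by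
  have hsq : ∀ x : alternatingGroup (Fin n), x ^ 4 = 1 → x * x = 1 := by
    rcases hn with rfl | rfl
    · exact sq_one4
    · exact sq_one5
  have hcard : Nat.card P = 4 := by
    have h1 := P.card_eq_multiplicity
    haveI : Nontrivial (Fin n) := Fin.nontrivial_iff_two_le.mpr (by omega)
    have h2 : Nat.card (alternatingGroup (Fin n)) = n.factorial / 2 := by
      rw [nat_card_alternatingGroup, Nat.card_fin]
    rw [h1, h2]
    rcases hn with rfl | rfl
    · have : Nat.factorial 4 / 2 = 2 ^ 2 * 3 := by decide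
      rw [this, Nat.factorization_mul (by norm_num) (by norm_num), Finsupp.add_apply, Nat.Prime.factorization_pow Nat.prime_two]
      rw [Nat.factorization_eq_zero_of_not_dvd (show ¬ 2 ∣ 3 by norm_num)]
      simp
    · have : Nat.factorial 5 / 2 = 2 ^ 2 * 15 := by decide
      rw [this, Nat.factorization_mul (by norm_num) (by norm_num), Finsupp.add_apply, Nat.Prime.factorization_pow Nat.prime_two]
      rw [Nat.factorization_eq_zero_of_not_dvd (show ¬ 2 ∣ 15 by norm_num)]
      simp
  refine dec_four hcard ?_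
  intro x
  apply Subtype.ext
  apply hsq
  have := pow_card_eq_one' (x := x)
  rw [hcard] at this
  exact congrArg Subtype.val this

/-- Direct decomposability of the Sylow 2-subgroups of the alternating groups. Let n ≥ 4 and let P be a Sylow 2-subgroup of the alternating group of degree n. Then P is the internal direct product of two nontrivial subgroups if and only if n = 4, n = 5, or n ≡ 2, 3 (mod 4) with 4⌊n/4⌋ not a power of 2. In the remaining cases (n ≡ 0, 1 (mod 4) with n ≥ 8, or n ≡ 2, 3 (mod 4) with 4⌊n/4⌋ a power of 2) P is directly indecomposable. -/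
theorem result (n : ℕ) (hn : 4 ≤ n)
    (P : Sylow 2 (alternatingGroup (Fin n))) :
    (∃ S₁ S₂ : Subgroup (alternatingGroup (Fin n)), S₁ ≠ ⊥ ∧ S₂ ≠ ⊥ ∧
        Cfsg.IsInternalDirectProduct S₁ S₂ (P : Subgroup (alternatingGroup (Fin n)))) ↔
      (n = 4 ∨ n = 5 ∨ ((n % 4 = 2 ∨ n % 4 = 3) ∧ ∀ r : ℕ, 4 * (n / 4) ≠ 2 ^ r)) := by
  have e0 := dec_iff_internal (P : Subgroup (alternatingGroup (Fin n)))
  rw [e0]
  obtain ⟨m, hm⟩ : ∃ m, m = n / 4 := ⟨_, rfl⟩
  have hm1 : 1 ≤ m := by omega
  have hr : n % 4 = 0 ∨ n % 4 = 1 ∨ n % 4 = 2 ∨ n % 4 = 3 := by omega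
  have hmod1 : ∀ {P : Type} [Group P] {ε : P →* ℤˣ}, Model (4 * m) P ε → n % 4 = 0 ∨ n % 4 = 1 → Model n P ε := by
    intro P _ ε hP h
    rcases h with h | h
    · have : n = 4 * m := by omega
      rw [this]; exact hP
    · have : n = 4 * m + 1 := by omega
      rw [this]
      refine model_add hP ?_
      have h2 := ex_two_mul_add_one (2 * m)
      rw [show 2 * (2 * m) = 4 * m by ring] at h2
      exact h2
  have hmod2 : ∀ {P : Type} [Group P] {ε : P →* ℤˣ}, Model (4 * m) P ε → n % 4 = 2 ∨ n % 4 = 3 →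
      Model n (P × Equiv.Perm (Fin 2)) (ε.coprod Equiv.Perm.sign) := by
    intro P _ ε hP h
    have h3 : ex (4 * m + 2) = ex (4 * m) + 1 := by
      have h4 := ex_two_mul (2 * m + 1)
      have h5 := ex_two_mul_add_one m
      have h6 := ex_two_mul (2 * m)
      rw [show 2 * (2 * m + 1) = 4 * m + 2 by ring] at h4
      rw [show 2 * (2 * m) = 4 * m by ring] at h6
      omega
    have h2 : Model (4 * m + 2) (P × Equiv.Perm (Fin 2)) (ε.coprod Equiv.Perm.sign) := by
      refine model_prod hP model_two ?_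
      have := ex_two_mul 1
      rw [ex_one] at this
      rw [h3]
      have h7 : ex 2 = 1 := this
      rw [h7]
    rcases h with h | h
    · have : n = 4 * m + 2 := by omega
      rw [this]; exact h2
    · have : n = 4 * m + 2 + 1 := by omega
      rw [this]
      refine model_add h2 ?_
      have h4 := ex_two_mul_add_one (2 * m + 1)
      rw [show 2 * (2 * m + 1) = 4 * m + 2 by ring] at h4
      exact h4
  have hn4 : 4 * (n / 4) = 4 * m := by rw [hm]
  rw [hn4]
  by_cases hpow : ∀ r : ℕ, 4 * m ≠ 2 ^ r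
  · obtain ⟨P₁, _, ε, Q, _, δ, hM, hC, hG, hG', hn1, hn2⟩ := shape m hm1 hpow
    have h45 : n ≠ 4 ∧ n ≠ 5 := by
      constructor
      · intro h
        exact hpow 2 (by omega)
      · intro h
        exact hpow 2 (by omega)
    rcases (by omega : (n % 4 = 0 ∨ n % 4 = 1) ∨ (n % 4 = 2 ∨ n % 4 = 3)) with h | h
    · have hM' := hmod1 hM h
      obtain ⟨e⟩ := final_iso (by omega) hM' (by
        obtain ⟨x, hx⟩ := hG.g3
        exact ⟨(x, 1), by simp [hx]⟩) P
      rw [dec_iff e]
      constructor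
      · intro h1
        exact absurd h1 (not_dec_prod hC hG hG')
      · rintro (h1 | h1 | ⟨h1, -⟩)
        · omega
        · omega
        · omega
    · have hM' := hmod2 hM h
      obtain ⟨e⟩ := final_iso (by omega) hM' (by
        obtain ⟨x, hx⟩ := hG.g3
        exact ⟨((x, 1), 1), by simp [hx]⟩) P
      rw [dec_iff (e.trans (kerEquiv _))]
      constructor
      · intro _
        exact Or.inr (Or.inr ⟨h, hpow⟩)
      · intro _
        exact dec_prod
  · push Not at hpow
    obtain ⟨k, hk⟩ := hpow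
    have hk2 : 2 ≤ k := by
      by_contra h
      have : k = 0 ∨ k = 1 := by omega
      rcases this with rfl | rfl
      · rw [pow_zero] at hk; omega
      · rw [pow_one] at hk; omega
    obtain ⟨W, _, ε, hM, hnt, hε, hE, hU, h2, h3⟩ := tower k (by omega)
    rw [← hk] at hM
    rcases (by omega : (n % 4 = 0 ∨ n % 4 = 1) ∨ (n % 4 = 2 ∨ n % 4 = 3)) with h | h
    · by_cases hm2 : m = 1
      · have h45 : n = 4 ∨ n = 5 := by omega
        constructor
        · intro _
          rcases h45 with h5 | h5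
          · exact Or.inl h5
          · exact Or.inr (Or.inl h5)
        · intro _
          exact dec_small h45 P
      · have hk3 : 3 ≤ k := by
          by_contra h5
          have : k = 2 := by omega
          subst this
          omega
        have hM' := hmod1 hM h
        obtain ⟨e⟩ := final_iso (by omega) hM' hε P
        rw [dec_iff e]
        constructor
        · intro h1
          exact absurd h1 (h3 hk3)
        · rintro (h1 | h1 | ⟨h1, -⟩)
          · omega
          · omega
          · omega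
    · have hM' := hmod2 hM h
      haveI := hM.finite
      obtain ⟨e⟩ := final_iso (by omega) hM' (by
        obtain ⟨x, hx⟩ := hε
        exact ⟨(x, 1), by simp [hx]⟩) P
      rw [dec_iff (e.trans (kerEquiv _))]
      constructor
      · intro h1
        exact absurd h1 (not_dec_of_center hM.isPGroup hU)
      · rintro (h1 | h1 | ⟨-, h1⟩)
        · omega
        · omega
        · exact absurd hk (h1 k)

end Cfsg.Agent.S2221
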