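import Cfsg.Statements.S2222
import Cfsg.Agent.Lib.H42.SylowTwoPerm
import Cfsg.Agent.Lib.H42.Pronormal

set_option autoImplicit false
open Cfsg

namespace Cfsg.Agent.S2222

open H42.Pronormal H42.SylowTwoPerm in
/-- In the alternating group of degree n ≥ 5 every subgroup H of odd index is pronormal: for every element g, the subgroups H and gHg⁻¹ are conjugate by an element of the subgroup they generate. -/
theorem result (n : ℕ) (hn : 5 ≤ n)
    (H : Subgroup (alternatingGroup (Fin n))) (hH : Odd H.index) : Cfsg.IsPronormal H := by
  have h2 : ¬ 2 ∣ H.index := by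
    rw [Nat.two_dvd_ne_zero, ← Nat.odd_iff]; exact hH
  obtain ⟨S, hS⟩ := exists_sylow_le (p := 2) H h2
  by_cases h6 : 6 ≤ n
  · apply isPronormal_of_selfNorm H S hS
    intro x hx
    obtain ⟨P, hP, hxP⟩ := selfNorm_alt (by rw [Fintype.card_fin]; exact h6) S (x := (x : Equiv.Perm (Fin n)))
      (fun g hg => ⟨x * g * x⁻¹, hx g hg, rfl⟩)
    exact hS ((hP x).2 hxP)
  · obtain rfl : n = 5 := by omega
    have hcard : Nat.card (alternatingGroup (Fin 5)) = 60 := by
      rw [nat_card_alternatingGroup]; simp [Nat.factorial]
    have hdvd : H.index ∣ 60 := by rw [← hcard]; exact H.index_dvd_card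
    have hcase : H.index = 1 ∨ H.index = 3 ∨ H.index = 5 ∨ H.index = 15 := by
      have hle : H.index ≤ 60 := Nat.le_of_dvd (by norm_num) hdvd
      generalize H.index = k at *
      interval_cases k <;> omega
    rcases hcase with h | h | h | h
    · rw [Subgroup.index_eq_one] at h
      apply isPronormal_of_coatom
      intro K hK
      left
      rw [h] at hK ⊢
      exact le_antisymm le_top hK
    · exact isPronormal_of_index_prime H (by rw [h]; norm_num)
    · exact isPronormal_of_index_prime H (by rw [h]; norm_num)
    · have h4 : Nat.card H = 4 := by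
        have := H.card_mul_index
        rw [h, hcard] at this
        omega
      have hSc : Nat.card S = 4 := by
        have := S.card_eq_multiplicity
        rw [this, hcard]
        have : Nat.factorization 60 2 = 2 := by
          rw [Nat.factorization_def _ Nat.prime_two]
          have : (60 : ℕ) = 2 ^ 2 * 15 := by norm_num
          rw [this, padicValNat.mul (by norm_num) (by norm_num), padicValNat.prime_pow,
            padicValNat.eq_zero_of_not_dvd (by norm_num)]
        rw [this]; norm_num
      have : (S : Subgroup (alternatingGroup (Fin 5))) = H := by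
        apply Subgroup.eq_of_le_of_card_ge hS
        rw [h4]
        exact hSc.ge
      rw [← this]
      exact isPronormal_sylow S

end Cfsg.Agent.S2222
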