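import Cfsg.Statements.S2225
import Cfsg.Agent.Lib.H38.Pron4
import Cfsg.Agent.Lib.H38.Pron6
import Cfsg.Agent.Lib.H38.Pron7
import Cfsg.Agent.Lib.H38.Pron9


set_option autoImplicit false
open Cfsg

namespace Cfsg.Agent.S2225

/-- Let F be a finite field and d = 2^w ≥ 2 a power of 2 such that PSL_d(F) is simple. Then every subgroup H of PSL_d(F) of odd index is pronormal: for every g, H and gHg⁻¹ are conjugate by an element of the subgroup they generate. -/
theorem result {F : Type*} [Field F] [Fintype F]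
    (w : ℕ) (hw : 1 ≤ w) (hs : IsSimpleGroup (Matrix.ProjectiveSpecialLinearGroup (Fin (2 ^ w)) F))
    (H : Subgroup (Matrix.ProjectiveSpecialLinearGroup (Fin (2 ^ w)) F)) (hH : Odd H.index) : Cfsg.IsPronormal H := by
  rcases Nat.even_or_odd (Fintype.card F) with he | ho
  · -- characteristic two
    have hp : Fact (Nat.Prime 2) := ⟨Nat.prime_two⟩
    have hc : CharP F 2 := by
      obtain ⟨p, hpc⟩ := CharP.exists F
      obtain ⟨k, hpp, hk⟩ := FiniteField.card F p
      have : 2 ∣ p ^ (k : ℕ) := by rw [← hk]; exact even_iff_two_dvd.1 he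
      have h2 : 2 ∣ p := Nat.prime_two.dvd_of_dvd_pow this
      have h3 : 2 = p := (Nat.prime_dvd_prime_iff_eq Nat.prime_two hpp).1 h2
      rw [h3]; exact hpc
    have : NeZero (2 ^ w) := ⟨by positivity⟩
    refine H38.Pron.psl_pron 2 H ?_
    rw [← even_iff_two_dvd, Nat.not_even_iff_odd]
    exact hH
  · by_cases hw1 : w = 1
    · clear hs
      have h2 : 2 ^ w = 2 := by rw [hw1]; rfl
      generalize 2 ^ w = n at *
      subst h2
      exact H38.Pron.pron_two_of_odd ho H hH
    · have hw2 : 2 ≤ w := by omega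
      have hmod : Fintype.card F % 4 = 1 ∨ Fintype.card F % 4 = 3 := by
        have := Nat.odd_iff.1 ho
        omega
      rcases hmod with h | h
      · exact H38.Pron.P.pron (H38.Pron.P_SL_one hw2 h) H hH
      · exact H38.Pron.P.pron (H38.Pron.P_SL_three hw2 h) H hH


end Cfsg.Agent.S2225
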