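import Cfsg.Statements.S2226
import Cfsg.Agent.Lib.H38.Pron12
import Cfsg.Agent.Lib.H38.Pron14


set_option autoImplicit false
open Cfsg

namespace Cfsg.Agent.S2226

/-- Let F be a finite field with q² elements and d = 2^w ≥ 4 a power of 2 such that the unitary group PSU_d(q) (realised over F) is simple. Then every subgroup H of PSU_d(q) of odd index is pronormal: for every g, H and gHg⁻¹ are conjugate by an element of the subgroup they generate. -/
theorem result {F : Type*} [Field F] [Fintype F] (q : ℕ)
    (hF : Fintype.card F = q ^ 2) (w : ℕ) (hw : 2 ≤ w) (hs : IsSimpleGroup (Cfsg.PSU (2 ^ w) F q))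
    (H : Subgroup (Cfsg.PSU (2 ^ w) F q)) (hH : Odd H.index) : Cfsg.IsPronormal H := by
  rcases Nat.even_or_odd q with he | ho
  · -- characteristic two
    have hp : Fact (Nat.Prime 2) := ⟨Nat.prime_two⟩
    have hc : CharP F 2 := by
      obtain ⟨p, hpc⟩ := CharP.exists F
      obtain ⟨k, hpp, hk⟩ := FiniteField.card F p
      have : 2 ∣ p ^ (k : ℕ) := by rw [← hk, hF, pow_two]; exact Dvd.dvd.mul_right (even_iff_two_dvd.1 he) q
      have h2 : 2 ∣ p := Nat.prime_two.dvd_of_dvd_pow this
      have h3 : 2 = p := (Nat.prime_dvd_prime_iff_eq Nat.prime_two hpp).1 h2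
      rw [h3]; exact hpc
    refine H38.Pron.psu_pron 2 q hF (m := 2 ^ (w - 1)) (by positivity) ?_ H ?_
    · rw [← pow_succ']; congr 1; omega
    · rw [← even_iff_two_dvd, Nat.not_even_iff_odd]
      exact hH
  · have hmod : q % 4 = 1 ∨ q % 4 = 3 := by
      have := Nat.odd_iff.1 ho
      omega
    rcases hmod with h | h
    · exact H38.Pron.P.pron (H38.Pron.P_SU_one hw hF h) H hH
    · exact H38.Pron.P.pron (H38.Pron.P_SU_three hw hF h) H hH


end Cfsg.Agent.S2226
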