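import Cfsg.Statements.S2231
import Mathlib
import Cfsg.Agent.Lib.H42.QdFree
import Cfsg.Agent.Lib.H42.PFix

set_option autoImplicit false
open Cfsg

namespace Cfsg.Agent.S2231

open H42.QdFree H42.PFix Matrix

theorem fix_two {K : Type*} [Field K] {g : Matrix.SpecialLinearGroup (Fin 2) K} {v w : Fin 2 → K}
    (hD : v 0 * w 1 - v 1 * w 0 ≠ 0) (hv : (g : Matrix (Fin 2) (Fin 2) K) *ᵥ v = v)
    (hw : (g : Matrix (Fin 2) (Fin 2) K) *ᵥ w = w) : g = 1 := by
  have v0 := congrFun hv 0
  have v1 := congrFun hv 1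
  have w0 := congrFun hw 0
  have w1 := congrFun hw 1
  simp only [mulVec, dotProduct, Fin.sum_univ_two] at v0 v1 w0 w1
  apply Subtype.ext
  ext i j
  fin_cases i <;> fin_cases j
  · have : (g 0 0 - 1) * (v 0 * w 1 - v 1 * w 0) = 0 := by linear_combination w 1 * v0 - v 1 * w0
    rcases mul_eq_zero.1 this with h | h
    · simpa using sub_eq_zero.1 h
    · exact absurd h hD
  · have : (g 0 1) * (v 0 * w 1 - v 1 * w 0) = 0 := by linear_combination v 0 * w0 - w 0 * v0
    rcases mul_eq_zero.1 this with h | h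
    · simpa using h
    · exact absurd h hD
  · have : (g 1 0) * (v 0 * w 1 - v 1 * w 0) = 0 := by linear_combination w 1 * v1 - v 1 * w1
    rcases mul_eq_zero.1 this with h | h
    · simpa using h
    · exact absurd h hD
  · have : (g 1 1 - 1) * (v 0 * w 1 - v 1 * w 0) = 0 := by linear_combination v 0 * w1 - w 0 * v1
    rcases mul_eq_zero.1 this with h | h
    · simpa using sub_eq_zero.1 h
    · exact absurd h hD

/-- stabilizer of a vector -/
def stab {K : Type*} [Field K] {n : ℕ} (v : Fin n → K) : Subgroup (Matrix.SpecialLinearGroup (Fin n) K) where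
  carrier := {g | (g : Matrix (Fin n) (Fin n) K) *ᵥ v = v}
  one_mem' := by simp
  mul_mem' := by
    intro a b ha hb
    change ((a * b : Matrix.SpecialLinearGroup (Fin n) K) : Matrix (Fin n) (Fin n) K) *ᵥ v = v
    rw [Matrix.SpecialLinearGroup.coe_mul, ← mulVec_mulVec]
    rw [show (b : Matrix (Fin n) (Fin n) K) *ᵥ v = v from hb]
    exact ha
  inv_mem' := by
    intro a ha
    change ((a⁻¹ : Matrix.SpecialLinearGroup (Fin n) K) : Matrix (Fin n) (Fin n) K) *ᵥ v = v
    have h1 : ((a⁻¹ * a : Matrix.SpecialLinearGroup (Fin n) K) : Matrix (Fin n) (Fin n) K) *ᵥ v = v := by simp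
    rw [Matrix.SpecialLinearGroup.coe_mul, ← mulVec_mulVec] at h1
    rwa [show (a : Matrix (Fin n) (Fin n) K) *ᵥ v = v from ha] at h1

theorem stab_isPGroup {K : Type*} [Field K] {p : ℕ} [Fact p.Prime] [CharP K p] {v : Fin 2 → K} (hv : v ≠ 0) :
    IsPGroup p (stab v) := by
  rw [isPGroup_iff_pow_pow_eq_one]
  rintro ⟨g, hg⟩
  refine ⟨1, ?_⟩
  apply Subtype.ext
  change g ^ p ^ 1 = 1
  have hp : p.Prime := Fact.out
  apply pow_eq_one_of_nilp (m := 2) _ (by rw [pow_one]; exact hp.two_le)
  have hv' : (g : Matrix (Fin 2) (Fin 2) K) *ᵥ v = v := hg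
  have v0 := congrFun hv' 0
  have v1 := congrFun hv' 1
  simp only [mulVec, dotProduct, Fin.sum_univ_two] at v0 v1
  have hdet : g 0 0 * g 1 1 - g 0 1 * g 1 0 = 1 := by
    have := g.det_coe
    rwa [Matrix.det_fin_two] at this
  have hsing : (g 0 0 - 1) * (g 1 1 - 1) - g 0 1 * g 1 0 = 0 := by
    have e0 : ((g 0 0 - 1) * (g 1 1 - 1) - g 0 1 * g 1 0) * v 0 = 0 := by
      linear_combination (g 1 1 - 1) * v0 - g 0 1 * v1
    have e1 : ((g 0 0 - 1) * (g 1 1 - 1) - g 0 1 * g 1 0) * v 1 = 0 := by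
      linear_combination (g 0 0 - 1) * v1 - g 1 0 * v0
    rcases mul_eq_zero.1 e0 with h | h
    · exact h
    rcases mul_eq_zero.1 e1 with h' | h'
    · exact h'
    · exfalso; apply hv
      ext i; fin_cases i
      · exact h
      · exact h'
  have htr : g 0 0 + g 1 1 = 2 := by linear_combination hdet - hsing
  rw [pow_two]
  ext i j
  rw [Matrix.mul_apply, Fin.sum_univ_two]
  fin_cases i <;> fin_cases j
  · simp
    linear_combination (g 0 0 - 1) * htr - hsing
  · simp
    linear_combination (g 0 1) * htr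
  · simp
    linear_combination (g 1 0) * htr
  · simp
    linear_combination (g 1 1 - 1) * htr - hsing

/-- Let p be an odd prime and K a finite field of characteristic p. Then Qd(p) (the natural semidirect product of an elementary abelian group of order p² by SL₂(p)) is not involved in the projective special linear group PSL₂(K). -/
theorem result {p : ℕ} [Fact p.Prime] (hp : p ≠ 2) {K : Type*} [Field K] [Fintype K] [CharP K p] : ¬ Cfsg.Involves ↥(Cfsg.qd p) (Matrix.ProjectiveSpecialLinearGroup (Fin 2) K) := by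
  classical
  intro h
  have h2 := involves_of_quotient _ h
  have : Finite (Matrix.SpecialLinearGroup (Fin 2) K) := by
    unfold Matrix.SpecialLinearGroup; infer_instance
  revert h2
  apply not_involves hp
  intro Q hQ hQne
  obtain ⟨v, -, hv0, hvfix⟩ := exists_fixed hQ (V := Fin 2 → K)
    (fun g v => ((g : Matrix.SpecialLinearGroup (Fin 2) K) : Matrix (Fin 2) (Fin 2) K) *ᵥ v) (by simp)
    (by intro g h v; rw [mulVec_mulVec]; simp) (by simp) ⊤ (by simp) (by
      have h1 : Nat.card (⊤ : AddSubgroup (Fin 2 → K)) = Nat.card K ^ 2 := by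
        rw [AddSubgroup.card_top, Nat.card_fun, Nat.card_eq_fintype_card (α := Fin 2), Fintype.card_fin]
      rw [h1]
      apply dvd_pow _ (by norm_num)
      obtain ⟨n, hn, hcard⟩ := FiniteField.card K p
      rw [Nat.card_eq_fintype_card, hcard]
      exact dvd_pow_self p n.ne_zero)
  refine ⟨stab v, stab_isPGroup hv0, ?_⟩
  rintro x hx ⟨k, hk⟩
  change (x : Matrix (Fin 2) (Fin 2) K) *ᵥ v = v
  set w := (x : Matrix (Fin 2) (Fin 2) K) *ᵥ v with hw
  -- w is fixed by Q
  have hwfix : ∀ g ∈ Q, (g : Matrix (Fin 2) (Fin 2) K) *ᵥ w = w := by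
    intro g hg
    have h1 : x⁻¹ * g * x ∈ Q := by
      have := (Subgroup.mem_normalizer_iff.1 (inv_mem hx) g).1 hg
      simpa using this
    have h2 := hvfix ⟨_, h1⟩
    have h3 := congrArg (fun u => (x : Matrix (Fin 2) (Fin 2) K) *ᵥ u) h2
    simp only [mulVec_mulVec, ← Matrix.SpecialLinearGroup.coe_mul] at h3
    rw [hw, mulVec_mulVec, ← Matrix.SpecialLinearGroup.coe_mul]
    have h4 : x * (x⁻¹ * g * x) = g * x := by group
    rw [h4] at h3
    rw [h3]
  have hD : v 0 * w 1 - v 1 * w 0 = 0 := by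
    by_contra hD
    apply hQne
    rw [eq_bot_iff]
    intro g hg
    rw [Subgroup.mem_bot]
    exact fix_two hD (hvfix ⟨g, hg⟩) (hwfix g hg)
  obtain ⟨c, hc⟩ : ∃ c : K, w = c • v := by
    by_cases h0 : v 0 = 0
    · have h1 : v 1 ≠ 0 := by
        intro h1; apply hv0; ext i; fin_cases i
        · exact h0
        · exact h1
      refine ⟨w 1 / v 1, ?_⟩
      ext i; fin_cases i
      · simp only [Fin.zero_eta, Pi.smul_apply, smul_eq_mul, h0, mul_zero]
        rw [h0, zero_mul, zero_sub, neg_eq_zero] at hD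
        rcases mul_eq_zero.1 hD with h | h
        · exact absurd h h1
        · exact h
      · simp [h1]
    · refine ⟨w 0 / v 0, ?_⟩
      ext i; fin_cases i
      · simp [h0]
      · simp only [Fin.mk_one, Pi.smul_apply, smul_eq_mul]
        field_simp
        linear_combination hD
  have hpow : ∀ m : ℕ, ((x ^ m : Matrix.SpecialLinearGroup (Fin 2) K) : Matrix (Fin 2) (Fin 2) K) *ᵥ v = c ^ m • v := by
    intro m
    induction m with
    | zero => simp
    | succ m ih =>
      rw [pow_succ, Matrix.SpecialLinearGroup.coe_mul, ← mulVec_mulVec, ← hw, hc, mulVec_smul, ih, smul_smul, pow_succ, mul_comm]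
  have h5 := hpow (p ^ k)
  rw [hk, Matrix.SpecialLinearGroup.coe_one, one_mulVec] at h5
  have h6 : c ^ p ^ k = 1 := by
    have h7 : (c ^ p ^ k - 1) • v = 0 := by rw [sub_smul, one_smul, ← h5, sub_self]
    rcases smul_eq_zero.1 h7 with h | h
    · exact sub_eq_zero.1 h
    · exact absurd h hv0
  rw [hc, eq_one_of_pow h6, one_smul]

end Cfsg.Agent.S2231
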