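import Cfsg.Statements.S2232
import Mathlib
import Cfsg.Agent.Lib.H42.QdFree
import Cfsg.Agent.Lib.H42.PFix
import Cfsg.Agent.Lib.H42.Herm3

set_option autoImplicit false
open Cfsg

namespace Cfsg.Agent.S2232

open H42.QdFree H42.PFix H42.Herm3 Matrix

/-- Let p be an odd prime, q a power of p and K a finite field with q² elements. Then Qd(p) (the natural semidirect product of an elementary abelian group of order p² by SL₂(p)) is not involved in the projective special unitary group PSU₃(q) realised over K. -/
theorem result {p : ℕ} [Fact p.Prime] (hp : p ≠ 2) {K : Type*} [Field K] [Fintype K] [CharP K p] (n : ℕ) (hn : 1 ≤ n) (hK : Fintype.card K = (p ^ n) ^ 2) : ¬ Cfsg.Involves ↥(Cfsg.qd p) (Cfsg.PSU 3 K (p ^ n)) := by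
  classical
  intro h
  have h2 := involves_of_quotient _ h
  have : Finite (Matrix.SpecialLinearGroup (Fin 3) K) := by
    unfold Matrix.SpecialLinearGroup; infer_instance
  revert h2
  apply not_involves hp
  intro Q hQ hQne
  obtain ⟨v, hv0, hvv, hN, hU⟩ := exists_unip hK Q hQ hQne
  refine ⟨(unip K (p ^ n) v).comap (SU 3 K (p ^ n)).subtype, ?_, ?_⟩
  · exact (unip_isPGroup (p := p) (p ^ n)).comap_of_injective _ (Subgroup.subtype_injective _)
  · intro x hx hk
    exact hU x hx hk

end Cfsg.Agent.S2232
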