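import Cfsg.Statements.S2239
import Cfsg.Agent.Lib.H42.SuzSub2

set_option autoImplicit false
open Cfsg

namespace Cfsg.Agent.S2239

open H42.SuzSub

theorem exists_hom {F : Type*} [Field F] [Fintype F] {m : ℕ} (hF : Fintype.card F = 2 ^ (2 * m + 1)) {K : Type*} [Field K] [Fintype K] {k : ℕ} (hK : Fintype.card K = 2 ^ (2 * k + 1)) (hdiv : 2 * k + 1 ∣ 2 * m + 1) : Nonempty (K →+* F) := by
  classical
  have hfact : Fact (Nat.Prime 2) := ⟨Nat.prime_two⟩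
  have := H8.SuzField.charP_two hF
  have h1 : Nat.card (H42.SubF.subF F 2 (2 * k + 1)) = 2 ^ (2 * k + 1) := H42.SubF.card_subF hF (by omega) hdiv
  have h2 : Fintype.card K = Fintype.card (H42.SubF.subF F 2 (2 * k + 1)) := by
    rw [hK, ← h1, Nat.card_eq_fintype_card]
  exact ⟨(H42.SubF.subF F 2 (2 * k + 1)).subtype.comp (FiniteField.ringEquivOfCardEq h2 : K ≃+* _).toRingHom⟩

/-- Subfield subgroups of the Suzuki group: let q = 2^(2m+1) and s = 2^(2k+1) with m, k ≥ 1 and 2k+1 dividing 2m+1 (so q is a power of s), both groups realised as stabilisers in SL₄ of the Suzuki–Tits ovoid. Then Sz(q) has a subgroup isomorphic to Sz(s), and any two subgroups of Sz(q) isomorphic to Sz(s) are conjugate. -/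
theorem result {F : Type*} [Field F] [Fintype F] {m : ℕ} (hm : 1 ≤ m) (hF : Fintype.card F = 2 ^ (2 * m + 1)) {K : Type*} [Field K] [Fintype K] {k : ℕ} (hk : 1 ≤ k) (hK : Fintype.card K = 2 ^ (2 * k + 1)) (hdiv : 2 * k + 1 ∣ 2 * m + 1) :
    (∃ S : Subgroup ↥(Cfsg.Sz F m), Nonempty (↥S ≃* ↥(Cfsg.Sz K k))) ∧
    ∀ S₁ S₂ : Subgroup ↥(Cfsg.Sz F m), Nonempty (↥S₁ ≃* ↥(Cfsg.Sz K k)) → Nonempty (↥S₂ ≃* ↥(Cfsg.Sz K k)) →
      ∃ g : ↥(Cfsg.Sz F m), S₂ = S₁.map (MulAut.conj g).toMonoidHom := by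
  obtain ⟨ι⟩ := exists_hom hF hK hdiv
  constructor
  · exact ⟨(mapSz hk hF hK hdiv ι).range, ⟨(MonoidHom.ofInjective (mapSz_inj hk hF hK hdiv ι)).symm⟩⟩
  · have key : ∀ S : Subgroup ↥(Cfsg.Sz F m), Nonempty (↥S ≃* ↥(Cfsg.Sz K k)) →
        ∃ g : ↥(Cfsg.Sz F m), S.map (MulAut.conj g).toMonoidHom = (mapSz hk hF hK hdiv ι).range := by
      rintro S ⟨e⟩
      obtain ⟨g, α, h⟩ := exists_conj_mapSz hm hF hk hK hdiv (S.subtype.comp e.symm.toMonoidHom)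
        (S.subtype_injective.comp e.symm.injective)
      refine ⟨g, ?_⟩
      rw [range_eq hk hF hK hdiv ι α, ← h]
      ext x
      constructor
      · rintro ⟨y, hy, rfl⟩
        refine ⟨e ⟨y, hy⟩, ?_⟩
        change g * ((e.symm (e ⟨y, hy⟩) : S) : ↥(Cfsg.Sz F m)) * g⁻¹ = g * y * g⁻¹
        rw [e.symm_apply_apply]
      · rintro ⟨y, rfl⟩
        exact ⟨((e.symm y : S) : ↥(Cfsg.Sz F m)), (e.symm y).2, rfl⟩
    intro S₁ S₂ h₁ h₂
    obtain ⟨g₁, hg₁⟩ := key S₁ h₁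
    obtain ⟨g₂, hg₂⟩ := key S₂ h₂
    refine ⟨g₂⁻¹ * g₁, ?_⟩
    have h3 : S₂ = (S₂.map (MulAut.conj g₂).toMonoidHom).map (MulAut.conj g₂⁻¹).toMonoidHom := by
      rw [Subgroup.map_map]
      have : (MulAut.conj g₂⁻¹).toMonoidHom.comp (MulAut.conj g₂).toMonoidHom = MonoidHom.id _ := by
        ext x : 1
        change g₂⁻¹ * (g₂ * x * g₂⁻¹) * g₂⁻¹⁻¹ = x
        group
      rw [this, Subgroup.map_id]
    rw [h3, hg₂, ← hg₁, Subgroup.map_map]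
    congr 1
    ext x : 1
    change g₂⁻¹ * (g₁ * x * g₁⁻¹) * g₂⁻¹⁻¹ = (g₂⁻¹ * g₁) * x * (g₂⁻¹ * g₁)⁻¹
    group

end Cfsg.Agent.S2239
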