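import Cfsg.Statements.S2240
import Cfsg.Agent.Lib.H8.SuzTorus3
import Cfsg.Agent.Lib.H8.SuzSimple
import Cfsg.Agent.Lib.H42.SubF

set_option autoImplicit false
open Cfsg

namespace Cfsg.Agent.S2240

open H8.SuzOvoid H8.SuzField H8.SuzMat H8.SuzStab H8.SuzGroup H8.SuzSylow H8.SuzCent H8.SuzSimple H8.SuzTorus

variable {F : Type*} [Field F] [Fintype F] {m : ℕ}

theorem tG_add (hF : Fintype.card F = 2 ^ (2 * m + 1)) (b c : F) :
    (tG hF 0 b : Sz F m) * tG hF 0 c = tG hF 0 (b + c) := by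
  rw [tG_mul, th_zero]
  congr 1
  · ring
  · ring

/-- conjugation by a stabiliser element -/
theorem conj_tG (hF : Fintype.card F = 2 ^ (2 * m + 1)) (a b : F) (k : Fˣ) (y : F) :
    (tG hF a b * dG hF k : Sz F m) * tG hF 0 y * (tG hF a b * dG hF k)⁻¹ = tG hF 0 (k * th m (k : F) * y) := by
  have h1 : (tG hF a b * dG hF k : Sz F m) * tG hF 0 y * (tG hF a b * dG hF k)⁻¹ =
      tG hF a b * (dG hF k * tG hF 0 y * (dG hF k)⁻¹) * (tG hF a b)⁻¹ := by group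
  rw [h1, dG_conj, mul_zero, mul_inv_eq_iff_eq_mul, tG_mul, tG_mul, th_zero]
  congr 1
  · ring
  · ring

theorem mpr (hm : 1 ≤ m) (hF : Fintype.card F = 2 ^ (2 * m + 1)) (n : ℕ) (hn : 2 ≤ n) (h : n ∣ 2 * m + 1) :
    ∃ E : Subgroup ↥(Cfsg.Sz F m), Cfsg.IsElementaryAbelian 2 E ∧ Nat.card ↥E = 2 ^ n ∧
      ∀ x : ↥(Cfsg.Sz F m), E ⊓ E.map (MulAut.conj x).toMonoidHom ≠ ⊥ → x ∈ Subgroup.normalizer (E : Set ↥(Cfsg.Sz F m)) := by
  have : Fact (Nat.Prime 2) := ⟨Nat.prime_two⟩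
  have := charP_two hF
  let K := H42.SubF.subF F 2 n
  have hK : Nat.card K = 2 ^ n := H42.SubF.card_subF hF (by omega) h
  have h2 : (2 : F) = 0 := two_eq_zero hF
  let E : Subgroup (Sz F m) :=
    { carrier := {g | ∃ b ∈ K, g = tG hF 0 b}
      mul_mem' := by
        rintro _ _ ⟨b, hb, rfl⟩ ⟨c, hc, rfl⟩
        exact ⟨b + c, K.add_mem hb hc, tG_add hF b c⟩
      one_mem' := ⟨0, K.zero_mem, (tG_one hF).symm⟩
      inv_mem' := by
        rintro _ ⟨b, hb, rfl⟩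
        refine ⟨b, hb, ?_⟩
        rw [inv_eq_iff_mul_eq_one, tG_add, ← two_mul, h2, zero_mul, tG_one] }
  have hE : ∀ {g : Sz F m}, g ∈ E ↔ ∃ b ∈ K, g = tG hF 0 b := fun {g} => Iff.rfl
  refine ⟨E, ?_, ?_, ?_⟩
  · refine ⟨⟨⟨?_⟩⟩, ?_⟩
    · rintro ⟨_, b, hb, rfl⟩ ⟨_, c, hc, rfl⟩
      apply Subtype.ext
      change (tG hF 0 b : Sz F m) * tG hF 0 c = tG hF 0 c * tG hF 0 b
      rw [tG_add, tG_add, add_comm]
    · rintro _ ⟨b, hb, rfl⟩
      rw [pow_two, tG_add, ← two_mul, h2, zero_mul, tG_one]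
  · rw [← hK]
    apply Nat.card_congr
    exact (Equiv.ofBijective (fun b : K => (⟨tG hF 0 b, b, b.2, rfl⟩ : E)) ⟨by
      intro b c hbc
      exact Subtype.ext (tG_inj hF (congrArg Subtype.val hbc)).2, by
      rintro ⟨_, b, hb, rfl⟩
      exact ⟨⟨b, hb⟩, rfl⟩⟩).symm
  · intro g hg
    rw [Ne, Subgroup.eq_bot_iff_forall] at hg
    push Not at hg
    obtain ⟨y, ⟨hy1, hy2⟩, hy3⟩ := hg
    obtain ⟨c, hc, rfl⟩ := hE.1 hy1
    obtain ⟨x, hx, hx2⟩ := Subgroup.mem_map.1 hy2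
    obtain ⟨b, hb, rfl⟩ := hE.1 hx
    have hx3 : g * tG hF 0 b * g⁻¹ = tG hF 0 c := hx2
    have hb0 : b ≠ 0 := by
      rintro rfl
      rw [tG_one, mul_one, mul_inv_cancel] at hx3
      exact hy3 hx3.symm
    have hb1 : (tG hF 0 b : Sz F m) ≠ 1 := by
      intro h0
      rw [← tG_one hF] at h0
      exact hb0 (tG_inj hF h0).2
    have hinf := fix_inf_of_conj hF ⟨0, b, rfl⟩ hb1 (g := g) (by rw [hx3]; exact ⟨0, c, rfl⟩)
    obtain ⟨a, b', k, hk⟩ := eq_TD_of_fix_inf hF hm g.2 hinf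
    have hh : g = tG hF a b' * dG hF k := Subtype.ext hk
    have hconj : ∀ y : F, g * tG hF 0 y * g⁻¹ = tG hF 0 (k * th m (k : F) * y) := by
      intro y
      rw [hh]; exact conj_tG hF a b' k y
    have hkb : (k : F) * th m (k : F) * b = c := by
      rw [hconj] at hx3
      exact (tG_inj hF hx3).2
    have hkK : (k : F) * th m (k : F) ∈ K := by
      rw [eq_div_of_mul_eq hb0 hkb]
      exact K.div_mem hc hb
    have hk0 : (k : F) * th m (k : F) ≠ 0 := mul_ne_zero k.ne_zero (fun h => k.ne_zero (th_eq_zero.1 h))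
    rw [Subgroup.mem_normalizer_iff]
    intro z
    constructor
    · intro hz
      obtain ⟨d, hd, rfl⟩ := hE.1 hz
      rw [hconj]
      exact hE.2 ⟨_, K.mul_mem hkK hd, rfl⟩
    · intro hz
      obtain ⟨d, hd, hd2⟩ := hE.1 hz
      refine hE.2 ⟨((k : F) * th m (k : F))⁻¹ * d, K.mul_mem (K.inv_mem hkK) hd, ?_⟩
      have h5 := hconj (((k : F) * th m (k : F))⁻¹ * d)
      rw [mul_inv_cancel_left₀ hk0, ← hd2] at h5
      have h6 : z = g⁻¹ * (g * z * g⁻¹) * g := by group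
      rw [h6, ← h5]; group

theorem mp (hm : 1 ≤ m) (hF : Fintype.card F = 2 ^ (2 * m + 1)) (n : ℕ) (hn : 2 ≤ n)
    (h : ∃ E : Subgroup ↥(Cfsg.Sz F m), Cfsg.IsElementaryAbelian 2 E ∧ Nat.card ↥E = 2 ^ n ∧
      ∀ x : ↥(Cfsg.Sz F m), E ⊓ E.map (MulAut.conj x).toMonoidHom ≠ ⊥ → x ∈ Subgroup.normalizer (E : Set ↥(Cfsg.Sz F m))) : n ∣ 2 * m + 1 := by
  have : Fact (Nat.Prime 2) := ⟨Nat.prime_two⟩
  have := charP_two hF
  have h2 : (2 : F) = 0 := two_eq_zero hF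
  obtain ⟨E, hE, hcard, hTI⟩ := h
  have hcomm : ∀ a ∈ E, ∀ b ∈ E, a * b = b * a := by
    intro a ha b hb
    exact congrArg Subtype.val (hE.1.is_comm.comm ⟨a, ha⟩ ⟨b, hb⟩)
  have hsq : ∀ a ∈ E, a ^ 2 = 1 := hE.2
  have hnt : E ≠ ⊥ := by
    rintro rfl
    rw [Subgroup.card_bot] at hcard
    have : 2 ^ 2 ≤ 2 ^ n := Nat.pow_le_pow_right (by norm_num) hn
    omega
  obtain ⟨⟨e0, he0⟩, he01'⟩ := Subgroup.ne_bot_iff_exists_ne_one.1 hnt
  have he01 : e0 ≠ 1 := fun h => he01' (Subtype.ext h)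
  have ho : orderOf e0 = 2 := orderOf_eq_prime (hsq e0 he0) he01
  obtain ⟨x, hx0⟩ := conj_mem_TT hm hF ho
  have hx : ∀ e ∈ E, ∃ b, x * e * x⁻¹ = tG hF 0 b := by
    intro e he
    obtain ⟨a, b, hab⟩ := hx0 e (hcomm _ he _ he0)
    have h1 : (tG hF a b : Sz F m) ^ 2 = 1 := by
      rw [← hab, conj_pow, hsq e he, mul_one, mul_inv_cancel]
    rw [tG_sq, ← tG_one hF] at h1
    have h3 := (tG_inj hF h1).2
    have ha : a = 0 := by
      rcases mul_eq_zero.1 h3 with h | h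
      · exact th_eq_zero.1 h
      · exact h
    subst ha
    exact ⟨b, hab⟩
  let A : AddSubgroup F :=
    { carrier := {b | x⁻¹ * tG hF 0 b * x ∈ E}
      zero_mem' := by
        change x⁻¹ * tG hF 0 0 * x ∈ E
        rw [tG_one, mul_one, inv_mul_cancel]; exact E.one_mem
      add_mem' := by
        intro a b ha hb
        change x⁻¹ * tG hF 0 (a + b) * x ∈ E
        rw [← tG_add, show x⁻¹ * (tG hF 0 a * tG hF 0 b) * x = (x⁻¹ * tG hF 0 a * x) * (x⁻¹ * tG hF 0 b * x) by group]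
        exact E.mul_mem ha hb
      neg_mem' := by
        intro a ha
        change x⁻¹ * tG hF 0 (-a) * x ∈ E
        rw [show -a = a by
          rw [neg_eq_iff_add_eq_zero, ← two_mul, h2, zero_mul]]
        exact ha }
  have hA : ∀ {b : F}, b ∈ A ↔ x⁻¹ * tG hF 0 b * x ∈ E := fun {b} => Iff.rfl
  have hAcard : Nat.card A = 2 ^ n := by
    rw [← hcard]
    apply Nat.card_congr
    exact Equiv.ofBijective (fun b : A => (⟨x⁻¹ * tG hF 0 b * x, b.2⟩ : E)) ⟨by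
      intro b c hbc
      have h3 : x⁻¹ * tG hF 0 (b : F) * x = x⁻¹ * tG hF 0 (c : F) * x := congrArg Subtype.val hbc
      exact Subtype.ext (tG_inj hF (mul_left_cancel (mul_right_cancel h3))).2, by
      rintro ⟨e, he⟩
      obtain ⟨b, hb⟩ := hx e he
      have h4 : x⁻¹ * tG hF 0 b * x = e := by rw [← hb]; group
      exact ⟨⟨b, by rw [hA, h4]; exact he⟩, Subtype.ext h4⟩⟩
  -- scaling
  have hscale : ∀ a ∈ A, a ≠ 0 → ∀ b ∈ A, b ≠ 0 → ∀ c ∈ A, b / a * c ∈ A := by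
    intro a ha ha0 b hb hb0 c hc
    obtain ⟨k, hk⟩ := exists_dG_conj (m := m) hF ha0 hb0
    have hkb : (k : F) * th m (k : F) = b / a := by
      rw [dG_conj] at hk
      rw [eq_div_iff ha0]
      exact (tG_inj hF hk).2
    have h1 := hTI (x⁻¹ * dG hF k * x) (by
      intro h3
      rw [Subgroup.eq_bot_iff_forall] at h3
      have h4 := h3 (x⁻¹ * tG hF 0 b * x) ⟨hb, Subgroup.mem_map.2 ⟨_, ha, by
        change (x⁻¹ * dG hF k * x) * (x⁻¹ * tG hF 0 a * x) * (x⁻¹ * dG hF k * x)⁻¹ = _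
        rw [← hk]; group⟩⟩
      apply hb0
      have h5 : tG hF 0 b = (1 : Sz F m) := by
        have : tG hF 0 b = x * (x⁻¹ * tG hF 0 b * x) * x⁻¹ := by group
        rw [this, h4]; group
      rw [← tG_one hF] at h5
      exact (tG_inj hF h5).2)
    have h3 := (Subgroup.mem_normalizer_iff.1 h1 _).1 hc
    rw [hA, ← hkb]
    have h4 := dG_conj (m := m) hF k 0 c
    rw [mul_zero] at h4
    rw [← h4]
    have h5 : x⁻¹ * (dG hF k * tG hF 0 c * (dG hF k)⁻¹) * x =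
      x⁻¹ * dG hF k * x * (x⁻¹ * tG hF 0 c * x) * (x⁻¹ * dG hF k * x)⁻¹ := by group
    rw [h5]
    exact h3
  obtain ⟨a0, ha0⟩ := hx e0 he0
  have ha0A : a0 ∈ A := by
    rw [hA, ← ha0]
    have : x⁻¹ * (x * e0 * x⁻¹) * x = e0 := by group
    rw [this]; exact he0
  have ha00 : a0 ≠ 0 := by
    rintro rfl
    rw [tG_one] at ha0
    apply he01
    have : e0 = x⁻¹ * (x * e0 * x⁻¹) * x := by group
    rw [this, ha0]; group
  let B : AddSubgroup F :=
    { carrier := {b | a0 * b ∈ A}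
      zero_mem' := by
        change a0 * 0 ∈ A
        rw [mul_zero]; exact A.zero_mem
      add_mem' := by
        intro a b ha hb
        change a0 * (a + b) ∈ A
        rw [mul_add]; exact A.add_mem ha hb
      neg_mem' := by
        intro a ha
        change a0 * (-a) ∈ A
        rw [mul_neg]; exact A.neg_mem ha }
  have hBcard : Nat.card B = 2 ^ n := by
    rw [← hAcard]
    apply Nat.card_congr
    exact Equiv.ofBijective (fun b : B => (⟨a0 * b, b.2⟩ : A)) ⟨by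
      intro b c hbc
      exact Subtype.ext (mul_left_cancel₀ ha00 (congrArg Subtype.val hbc)), by
      rintro ⟨e, he⟩
      refine ⟨⟨a0⁻¹ * e, ?_⟩, Subtype.ext (mul_inv_cancel_left₀ ha00 e)⟩
      change a0 * (a0⁻¹ * e) ∈ A
      rwa [mul_inv_cancel_left₀ ha00]⟩
  apply H42.SubF.dvd_of_closed hF B _ _ hBcard
  · change a0 * 1 ∈ A
    rwa [mul_one]
  · intro a ha b hb
    change a0 * (a * b) ∈ A
    by_cases ha1 : a = 0
    · rw [ha1, zero_mul, mul_zero]; exact A.zero_mem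
    · have h3 := hscale a0 ha0A ha00 (a0 * a) ha (mul_ne_zero ha00 ha1) (a0 * b) hb
      rwa [show a0 * a / a0 * (a0 * b) = a0 * (a * b) by field_simp] at h3

theorem result {F : Type*} [Field F] [Fintype F] {m : ℕ} (hm : 1 ≤ m) (hF : Fintype.card F = 2 ^ (2 * m + 1)) (n : ℕ) (hn : 2 ≤ n) :
    (∃ E : Subgroup ↥(Cfsg.Sz F m), Cfsg.IsElementaryAbelian 2 E ∧ Nat.card ↥E = 2 ^ n ∧
      ∀ x : ↥(Cfsg.Sz F m), E ⊓ E.map (MulAut.conj x).toMonoidHom ≠ ⊥ → x ∈ Subgroup.normalizer (E : Set ↥(Cfsg.Sz F m))) ↔ n ∣ 2 * m + 1 :=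
  ⟨mp hm hF n hn, mpr hm hF n hn⟩

end Cfsg.Agent.S2240
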