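import Cfsg.Statements.S2241
import Mathlib
import Cfsg.Agent.Lib.H8.SuzTorus2

set_option autoImplicit false
open Cfsg

namespace Cfsg.Agent.S2241

open H8.SuzOvoid H8.SuzField H8.SuzMat H8.SuzStab H8.SuzGroup H8.SuzSylow H8.SuzCent H8.TICount H8.SuzTorus

theorem no_solution {F : Type*} [Field F] [Fintype F] {m : ℕ} (hF : Fintype.card F = 2 ^ (2 * m + 1)) (t : F)
    (h : t + th m t = 1) : False := by
  have hc := charP_two hF
  have h1 : th m t + t ^ 2 = 1 := by
    have := congrArg (th m) h
    rwa [th_add hF, th_th hF, th_one] at this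
  have h2 : t ^ 2 = t := by linear_combination h1 - h
  have h3 : t * (t - 1) = 0 := by linear_combination h2
  rcases mul_eq_zero.1 h3 with h4 | h4
  · rw [h4, th_zero, add_zero] at h
    exact zero_ne_one h
  · have h5 : t = 1 := sub_eq_zero.1 h4
    rw [h5, th_one, CharTwo.add_self_eq_zero] at h
    exact zero_ne_one h

/-- Real 2-elements of the Suzuki group: with q = 2^(2m+1), m ≥ 1, and the group realised as the stabiliser in SL₄ of the Suzuki–Tits ovoid, a non-identity element of a Sylow 2-subgroup is conjugate to its inverse if and only if it is an involution; in particular no element of order 4 is conjugate to its inverse. -/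
theorem result {F : Type*} [Field F] [Fintype F] {m : ℕ} (hm : 1 ≤ m) (hF : Fintype.card F = 2 ^ (2 * m + 1)) (P : Sylow 2 ↥(Cfsg.Sz F m)) (g : ↥(Cfsg.Sz F m)) (hg : g ∈ (P : Subgroup ↥(Cfsg.Sz F m))) (h1 : g ≠ 1) :
    IsConj g g⁻¹ ↔ orderOf g = 2 := by
  have hfact : Fact (Nat.Prime 2) := ⟨Nat.prime_two⟩
  have hc := charP_two hF
  constructor
  · intro hconj
    -- conjugate into TT
    obtain ⟨y, hy⟩ := MulAction.exists_smul_eq (Cfsg.Sz F m) P (PT hm hF)
    have hyg : y * g * y⁻¹ ∈ (PT hm hF : Subgroup (Cfsg.Sz F m)) := by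
      rw [← hy, Sylow.coe_subgroup_smul]
      exact ⟨g, hg, rfl⟩
    obtain ⟨a, b, hab⟩ : y * g * y⁻¹ ∈ TT (m := m) hF := hyg
    have hconj' : IsConj (tG hF a b : Cfsg.Sz F m) (tG hF a b)⁻¹ := by
      rw [← hab]
      have e1 : IsConj g (y * g * y⁻¹) := isConj_iff.2 ⟨y, rfl⟩
      have e2 : IsConj g⁻¹ (y * g * y⁻¹)⁻¹ := isConj_iff.2 ⟨y, by group⟩
      exact (e1.symm.trans hconj).trans e2
    have hord : orderOf g = orderOf (tG hF a b : Cfsg.Sz F m) := by rw [← hab, orderOf_conj']
    have hne : (tG hF a b : Cfsg.Sz F m) ≠ 1 := by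
      intro h
      rw [h, orderOf_one] at hord
      exact h1 (orderOf_eq_one_iff.1 hord)
    rw [hord]
    obtain ⟨x, hx⟩ := isConj_iff.1 hconj'
    have hinv : (tG hF a b : Cfsg.Sz F m)⁻¹ = tG hF a (b + th m a * a) := by
      rw [inv_eq_iff_mul_eq_one, tG_mul, ← tG_one hF]
      congr 1
      · exact CharTwo.add_self_eq_zero a
      · have := CharTwo.add_self_eq_zero (b + th m a * a)
        linear_combination this
    have hfix := fix_inf_of_conj hF ⟨a, b, rfl⟩ hne (by rw [hx]; exact inv_mem ⟨a, b, rfl⟩)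
    obtain ⟨c, d, k, hk⟩ := eq_TD_of_fix_inf hF hm x.2 hfix
    have hxe : x = tG hF c d * dG hF k := Subtype.ext hk
    have hx' : x * tG hF a b = tG hF a (b + th m a * a) * x := by
      rw [← hinv, ← hx]; group
    rw [hxe, mul_assoc, D_T, ← mul_assoc, tG_mul, ← mul_assoc (tG hF a _), tG_mul] at hx'
    have hx2 := mul_right_cancel hx'
    obtain ⟨e1, e2⟩ := tG_inj hF hx2
    by_cases ha : a = 0
    · subst ha
      have hb : b ≠ 0 := by
        rintro rfl
        exact hne (tG_one hF)
      apply orderOf_eq_prime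
      · rw [tG_sq, mul_zero, tG_one]
      · exact hne
    · exfalso
      have hk1 : (k : F) = 1 := by
        have : ((k : F) - 1) * a = 0 := by linear_combination e1
        rcases mul_eq_zero.1 this with h | h
        · exact sub_eq_zero.1 h
        · exact absurd h ha
      rw [hk1, th_one] at e2
      apply no_solution (m := m) hF (c / a)
      rw [th_div]
      have hta : th m a ≠ 0 := fun h => ha (th_eq_zero.1 h)
      have e3 : th m a * c + th m c * a = th m a * a := by
        have := CharTwo.two_eq_zero (R := F)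
        linear_combination e2 + th m a * c * this
      field_simp
      linear_combination e3
  · intro h2
    have : g⁻¹ = g := by
      have h3 : g ^ 2 = 1 := by rw [← h2]; exact pow_orderOf_eq_one g
      rw [inv_eq_iff_mul_eq_one, ← pow_two, h3]
    rw [this]

end Cfsg.Agent.S2241
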