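import Cfsg.Statements.S2244
import Cfsg.Agent.Lib.H42.WkMain
import Cfsg.Agent.Lib.H22.ChevAll

set_option autoImplicit false
open Cfsg

namespace Cfsg.Agent.S2244

/-- Weakly closed unipotent subgroups of Chevalley groups: let G be the Chevalley group of type G₂, B₂, D₄, F₄, E₆, E₇ or E₈ over a finite field F (the matrix group generated by the root elements), with |F| ≠ 2, and |F| ≠ 3 as well for the types G₂, B₂, D₄, F₄. Let U be the subgroup generated by the positive root subgroups. If X ≤ U is weakly closed in U with respect to G (every G-conjugate of X lying in U equals X), then X is the unipotent radical U_J of a standard parabolic subgroup for some set J of fundamental roots. -/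
theorem result {F : Type*} [Field F] [Fintype F] (D : Cfsg.Lie.ChevalleyDatum) (hD : D ∈ [Cfsg.Lie.chevG2, Cfsg.Lie.chevB2, Cfsg.Lie.chevD4, Cfsg.Lie.chevF4, Cfsg.Lie.chevE6, Cfsg.Lie.chevE7, Cfsg.Lie.chevE8])
    (h2 : Fintype.card F ≠ 2) (h3 : D ∈ [Cfsg.Lie.chevG2, Cfsg.Lie.chevB2, Cfsg.Lie.chevD4, Cfsg.Lie.chevF4] → Fintype.card F ≠ 3)
    (X : Subgroup (GL D.Idx F)) (hXU : X ≤ D.posUnipotent F)
    (hwc : ∀ g ∈ D.group F, X.map (MulAut.conj g).toMonoidHom ≤ D.posUnipotent F → X.map (MulAut.conj g).toMonoidHom = X) :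
    ∃ J : Set ℕ, (∀ j ∈ J, j < D.rank) ∧ X = D.unipotentRadical F J := by
  have R := H22.ChevAll.rel D hD F
  have hq := Fintype.one_lt_card (α := F)
  have hne1 : Fintype.card F ≠ 1 := by omega
  simp only [List.mem_cons, List.not_mem_nil, or_false] at hD
  rcases hD with rfl | rfl | rfl | rfl | rfl | rfl | rfl
  · have h3' := h3 (by simp)
    by_cases h4 : Fintype.card F = 4
    · exact H42.WkMain.main_G2 R h4 hXU hwc
    · exact H42.WkMain.main_sep R H22.PoinG2.rcxG2 H22.ChevLex.lexG2 (M := 3) H42.WkSep.wkG2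
        (by omega) hXU hwc
  · have h3' := h3 (by simp)
    exact H42.WkMain.main_sep R H22.PoinB2.rcxB2 H22.ChevLex.lexB2 (M := 2) H42.WkSep.wkB2
        (by omega) hXU hwc
  · have h3' := h3 (by simp)
    exact H42.WkMain.main_sep R H22.PoinD4.rcxD4 H22.ChevLex.lexD4 (M := 2) H42.WkSep.wkD4
        (by omega) hXU hwc
  · have h3' := h3 (by simp)
    exact H42.WkMain.main_sep R H22.PoinF4.rcxF4 H22.ChevLex.lexF4 (M := 2) H42.WkSep.wkF4
        (by omega) hXU hwc
  · exact H42.WkMain.main_sep R H22.PoinE6.rcxE6 H22.ChevLex.lexE6 (M := 1) H42.WkSep.wkE6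
        (by omega) hXU hwc
  · exact H42.WkMain.main_sep R H22.PoinE7.rcxE7 H22.ChevLex.lexE7 (M := 1) H42.WkSep.wkE7
        (by omega) hXU hwc
  · exact H42.WkMain.main_sep R H22.PoinE8.rcxE8 H22.ChevLex.lexE8 (M := 1) H42.WkSep.wkE8
        (by omega) hXU hwc

end Cfsg.Agent.S2244
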