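import Cfsg.Statements.S2245
import Cfsg.Agent.Lib.H42.SylowTwoPerm
import Cfsg.Agent.Lib.H42.AltGen

set_option autoImplicit false
open Cfsg

namespace Cfsg.Agent.S2245

open Equiv H42.SylowTwoPerm H42.AltGen

theorem two_of_ne {n : ℕ} (hn : 5 ≤ n) (h6 : ¬ ∃ k : ℕ, 2 ≤ k ∧ n = 2 ^ k + 1) (P : Sylow 2 (Perm (Fin n))) :
    Two (P : Subgroup (Perm (Fin n))) := by
  obtain ⟨μ, hμ⟩ := exists_isMatch P
  by_cases hev : 2 ∣ n
  · exact two_of_even P.isPGroup' hμ (by rw [Fintype.card_fin]; omega) (by rwa [Fintype.card_fin])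
  · apply two_of_odd P.isPGroup' hμ (by rw [Fintype.card_fin]; omega) (by rwa [Fintype.card_fin])
    intro j hj
    rw [Fintype.card_fin] at hj
    apply h6
    refine ⟨j, ?_, hj⟩
    by_contra hlt
    push Not at hlt
    interval_cases j <;> omega

theorem eq_top_of_alt_le {n : ℕ} (hn : 5 ≤ n) {P : Sylow 2 (Perm (Fin n))} {M : Subgroup (Perm (Fin n))}
    (hP : (P : Subgroup (Perm (Fin n))) ≤ M) (hA : alternatingGroup (Fin n) ≤ M) : M = ⊤ := by
  obtain ⟨μ, hμ⟩ := exists_isMatch P
  obtain ⟨a, ha⟩ : ∃ a, μ a ≠ a := by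
    by_contra h
    push Not at h
    have : Fintype.card (Fin n) ≤ 1 := by
      rw [Fintype.card_le_one_iff]
      intro a b
      exact hμ.fix a b (h a) (h b)
    rw [Fintype.card_fin] at this
    omega
  rw [Subgroup.eq_top_iff']
  intro g
  rcases Int.units_eq_one_or (Perm.sign g) with h | h
  · exact hA (Perm.mem_alternatingGroup.2 h)
  · have h2 : g * swap a (μ a) ∈ alternatingGroup (Fin n) := by
      rw [Perm.mem_alternatingGroup, map_mul, h, Perm.sign_swap (Ne.symm ha)]; rfl
    have h4 := mul_mem (hA h2) (hP (hμ.mem a))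
    rwa [mul_assoc, swap_mul_self, mul_one] at h4

theorem exists_three (n : ℕ) (hn : 5 ≤ n) (a : Fin n) : ∃ g ∈ alternatingGroup (Fin n), g a ≠ a := by
  obtain ⟨x, hx⟩ : ∃ x, x ∉ ({a} : Finset (Fin n)) := by
    by_contra hcon
    push Not at hcon
    have : (Finset.univ : Finset (Fin n)) ⊆ {a} := fun w _ => hcon w
    have h2 := Finset.card_le_card this
    rw [Finset.card_univ, Fintype.card_fin] at h2
    simp at h2
    omega
  obtain ⟨y, hy⟩ : ∃ y, y ∉ ({a, x} : Finset (Fin n)) := by
    by_contra hcon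
    push Not at hcon
    have : (Finset.univ : Finset (Fin n)) ⊆ {a, x} := fun w _ => hcon w
    have h2 := Finset.card_le_card this
    have h3 : ({a, x} : Finset (Fin n)).card ≤ 2 := Finset.card_le_two
    rw [Finset.card_univ, Fintype.card_fin] at h2
    omega
  simp only [Finset.mem_singleton, Finset.mem_insert, not_or] at hx hy
  refine ⟨swap a x * swap a y, cyc_mem_alt (Ne.symm hx) (Ne.symm hy.1), ?_⟩
  rw [cyc_apply₁ (Ne.symm hx) (Ne.symm hy.1) (Ne.symm hy.2)]
  exact hy.1

/-- For n ≥ 5 with n ≠ 6, a Sylow 2-subgroup of the alternating group A_n lies in exactly one maximal subgroup of A_n if and only if n = 2^k + 1 for some k ≥ 2; the same holds for the symmetric group S_n. -/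
theorem result (n : ℕ) (hn : 5 ≤ n) (h6 : n ≠ 6) :
    ((∀ R : Sylow 2 ↥(alternatingGroup (Fin n)), (∃! M : Subgroup ↥(alternatingGroup (Fin n)), IsCoatom M ∧ (R : Subgroup ↥(alternatingGroup (Fin n))) ≤ M) ↔ ∃ k : ℕ, 2 ≤ k ∧ n = 2 ^ k + 1) ∧
    (∀ R : Sylow 2 (Equiv.Perm (Fin n)), (∃! M : Subgroup (Equiv.Perm (Fin n)), IsCoatom M ∧ (R : Subgroup (Equiv.Perm (Fin n))) ≤ M) ↔ ∃ k : ℕ, 2 ≤ k ∧ n = 2 ^ k + 1)) := by
  constructor
  · intro R
    obtain ⟨P, hP⟩ := exists_sylow_perm R
    constructor
    · rintro ⟨M, ⟨hM, hRM⟩, huniq⟩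
      by_contra hne
      obtain ⟨A, B, hA, hB, hA', hB', hK⟩ := two_of_ne hn hne P
      have key : ∀ A : Subgroup (Perm (Fin n)), (P : Subgroup (Perm (Fin n))) ≤ A → ¬ alternatingGroup (Fin n) ≤ A →
          A ⊓ alternatingGroup (Fin n) ≤ M.map (alternatingGroup (Fin n)).subtype := by
        intro A hA hA'
        have h1 : A.comap (alternatingGroup (Fin n)).subtype ≠ ⊤ := by
          intro h
          apply hA'
          intro x hx
          have : (⟨x, hx⟩ : alternatingGroup (Fin n)) ∈ A.comap (alternatingGroup (Fin n)).subtype := by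
            rw [h]; trivial
          exact this
        obtain h2 | ⟨N, hN, hle⟩ := eq_top_or_exists_le_coatom (A.comap (alternatingGroup (Fin n)).subtype)
        · exact absurd h2 h1
        · have h3 : N = M := huniq N ⟨hN, le_trans (fun x hx => hA ((hP x).1 hx)) hle⟩
          rw [← h3]
          rintro x ⟨hx1, hx2⟩
          exact ⟨⟨x, hx2⟩, hle hx1, rfl⟩
      have h4 := hK _ (key A hA hA') (key B hB hB')
      apply hM.1
      rw [Subgroup.eq_top_iff']
      intro x
      obtain ⟨y, hy, hyx⟩ := h4 x.2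
      have : y = x := Subtype.ext hyx
      rwa [← this]
    · rintro ⟨k, hk, hnk⟩
      obtain ⟨a₀, hfix, hmv⟩ := alt_le_of_moves P hk (by rw [Fintype.card_fin]; exact hnk)
      let M₀ : Subgroup (alternatingGroup (Fin n)) := (setStab ({a₀} : Set (Fin n))).comap (alternatingGroup (Fin n)).subtype
      have hM₀ : ∀ x, x ∈ M₀ ↔ (x : Perm (Fin n)) a₀ = a₀ := by
        intro x
        constructor
        · intro h; have := (h a₀).2 rfl; exact this
        · intro h z
          rw [Set.mem_singleton_iff, Set.mem_singleton_iff]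
          constructor
          · intro hz; exact (x : Perm (Fin n)).injective (hz.trans h.symm)
          · intro hz; rw [hz]; exact h
      have hRM₀ : (R : Subgroup (alternatingGroup (Fin n))) ≤ M₀ := by
        intro x hx
        rw [hM₀]
        exact hfix _ ((hP x).1 hx)
      have hne : M₀ ≠ ⊤ := by
        intro h
        obtain ⟨g, hg, hga⟩ := exists_three n hn a₀
        have : (⟨g, hg⟩ : alternatingGroup (Fin n)) ∈ M₀ := by rw [h]; trivial
        exact hga ((hM₀ _).1 this)
      have key : ∀ M : Subgroup (alternatingGroup (Fin n)), (R : Subgroup (alternatingGroup (Fin n))) ≤ M →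
          ¬ M ≤ M₀ → M = ⊤ := by
        intro M hRM hnle
        have h1 := hmv (M.map (alternatingGroup (Fin n)).subtype)
          (fun g hg hgA => ⟨⟨g, hgA⟩, hRM ((hP ⟨g, hgA⟩).2 hg), rfl⟩)
          (by
            obtain ⟨x, hx, hx2⟩ := SetLike.not_le_iff_exists.1 hnle
            exact ⟨x, ⟨x, hx, rfl⟩, fun h => hx2 ((hM₀ x).2 h)⟩)
        rw [Subgroup.eq_top_iff']
        intro x
        obtain ⟨y, hy, hyx⟩ := h1 x.2
        have : y = x := Subtype.ext hyx
        rwa [← this]
      have hco : IsCoatom M₀ := by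
        refine ⟨hne, fun K hK => ?_⟩
        exact key K (hRM₀.trans hK.le) (fun h => (lt_irrefl _ (hK.trans_le h)))
      refine ⟨M₀, ⟨hco, hRM₀⟩, ?_⟩
      rintro M ⟨hM, hRM⟩
      by_cases hle : M ≤ M₀
      · rcases hle.eq_or_lt with h | h
        · exact h
        · exact absurd (hM.2 M₀ h) hne
      · exact absurd (key M hRM hle) hM.1
  · intro P
    constructor
    · rintro ⟨M, ⟨hM, hRM⟩, huniq⟩
      by_contra hne
      obtain ⟨A, B, hA, hB, hA', hB', hK⟩ := two_of_ne hn hne P
      have key : ∀ A : Subgroup (Perm (Fin n)), (P : Subgroup (Perm (Fin n))) ≤ A → ¬ alternatingGroup (Fin n) ≤ A →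
          A ⊓ alternatingGroup (Fin n) ≤ M := by
        intro A hA hA'
        obtain h2 | ⟨N, hN, hle⟩ := eq_top_or_exists_le_coatom A
        · rw [h2] at hA'; exact absurd le_top hA'
        · have h3 : N = M := huniq N ⟨hN, hA.trans hle⟩
          rw [← h3]
          exact inf_le_left.trans hle
      have h4 := hK _ (key A hA hA') (key B hB hB')
      exact hM.1 (eq_top_of_alt_le hn hRM h4)
    · rintro ⟨k, hk, hnk⟩
      obtain ⟨a₀, hfix, hmv⟩ := alt_le_of_moves P hk (by rw [Fintype.card_fin]; exact hnk)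
      let M₀ : Subgroup (Perm (Fin n)) := (setStab ({a₀} : Set (Fin n)))
      have hM₀ : ∀ x, x ∈ M₀ ↔ (x : Perm (Fin n)) a₀ = a₀ := by
        intro x
        constructor
        · intro h; have := (h a₀).2 rfl; exact this
        · intro h z
          rw [Set.mem_singleton_iff, Set.mem_singleton_iff]
          constructor
          · intro hz; exact (x : Perm (Fin n)).injective (hz.trans h.symm)
          · intro hz; rw [hz]; exact h
      have hRM₀ : (P : Subgroup (Perm (Fin n))) ≤ M₀ := by
        intro x hx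
        rw [hM₀]
        exact hfix _ hx
      have hne : M₀ ≠ ⊤ := by
        intro h
        obtain ⟨g, hg, hga⟩ := exists_three n hn a₀
        have : g ∈ M₀ := by rw [h]; trivial
        exact hga ((hM₀ _).1 this)
      have key : ∀ M : Subgroup (Perm (Fin n)), (P : Subgroup (Perm (Fin n))) ≤ M →
          ¬ M ≤ M₀ → M = ⊤ := by
        intro M hRM hnle
        have h1 := hmv M
          (fun g hg hgA => hRM hg)
          (by
            obtain ⟨x, hx, hx2⟩ := SetLike.not_le_iff_exists.1 hnle
            exact ⟨x, hx, fun h => hx2 ((hM₀ x).2 h)⟩)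
        exact eq_top_of_alt_le hn hRM h1
      have hco : IsCoatom M₀ := by
        refine ⟨hne, fun K hK => ?_⟩
        exact key K (hRM₀.trans hK.le) (fun h => (lt_irrefl _ (hK.trans_le h)))
      refine ⟨M₀, ⟨hco, hRM₀⟩, ?_⟩
      rintro M ⟨hM, hRM⟩
      by_cases hle : M ≤ M₀
      · rcases hle.eq_or_lt with h | h
        · exact h
        · exact absurd (hM.2 M₀ h) hne
      · exact absurd (key M hRM hle) hM.1

end Cfsg.Agent.S2245
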