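import Cfsg.Statements.S2249
import Cfsg.Agent.Lib.H42.NormRankGL

set_option autoImplicit false
open Cfsg

namespace Cfsg.Agent.S2249

open H42.NormRank H42.TwoRank

section

variable {F : Type*} [Field F] [Fintype F]

theorem card_sq_le (h2 : (2 : F) ≠ 0) (t : ℕ) (ht : t ≤ 1) :
    Nat.card {c : (Fin t → F) ≃ₗ[F] (Fin t → F) // c ^ 2 = 1} ≤ 2 ^ t := by
  classical
  have ht' : t = 0 ∨ t = 1 := by omega
  rcases ht' with rfl | rfl
  · rw [pow_zero]
    have : Subsingleton {c : (Fin 0 → F) ≃ₗ[F] (Fin 0 → F) // c ^ 2 = 1} := by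
      constructor
      intro a b
      apply Subtype.ext
      apply LinearEquiv.ext
      intro v
      exact Subsingleton.elim _ _
    exact Finite.card_le_one_iff_subsingleton.2 this
  · rw [pow_one]
    let one1 : Fin 1 → F := fun _ => 1
    have hv : ∀ (c : (Fin 1 → F) ≃ₗ[F] (Fin 1 → F)) (v : Fin 1 → F), c v = v 0 • c one1 := by
      intro c v
      rw [← map_smul]
      congr 1
      funext i
      rw [Fin.fin_one_eq_zero i]
      simp [one1]
    have hx : ∀ c : {c : (Fin 1 → F) ≃ₗ[F] (Fin 1 → F) // c ^ 2 = 1}, ((c : (Fin 1 → F) ≃ₗ[F] (Fin 1 → F)) one1) 0 ∈ ({1, -1} : Finset F) := by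
      intro c
      have h1 := congrArg (fun w : (Fin 1 → F) ≃ₗ[F] (Fin 1 → F) => w one1 0) c.2
      rw [pow_two] at h1
      have h3 : (c : (Fin 1 → F) ≃ₗ[F] (Fin 1 → F)) ((c : (Fin 1 → F) ≃ₗ[F] (Fin 1 → F)) one1) 0 = 1 := h1
      rw [hv] at h3
      have h4 : ((c : (Fin 1 → F) ≃ₗ[F] (Fin 1 → F)) one1) 0 * ((c : (Fin 1 → F) ≃ₗ[F] (Fin 1 → F)) one1) 0 = 1 := h3
      have h5 : (((c : (Fin 1 → F) ≃ₗ[F] (Fin 1 → F)) one1) 0 - 1) * (((c : (Fin 1 → F) ≃ₗ[F] (Fin 1 → F)) one1) 0 + 1) = 0 := by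
        linear_combination h4
      rw [Finset.mem_insert, Finset.mem_singleton]
      rcases mul_eq_zero.1 h5 with h | h
      · left; linear_combination h
      · right; linear_combination h
    have h6 : Nat.card {c : (Fin 1 → F) ≃ₗ[F] (Fin 1 → F) // c ^ 2 = 1} ≤ Nat.card ({1, -1} : Finset F) := by
      apply Nat.card_le_card_of_injective (fun c : {c : (Fin 1 → F) ≃ₗ[F] (Fin 1 → F) // c ^ 2 = 1} =>
        (⟨((c : (Fin 1 → F) ≃ₗ[F] (Fin 1 → F)) one1) 0, hx c⟩ : ({1, -1} : Finset F)))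
      intro c d hcd
      have hcd' : ((c : (Fin 1 → F) ≃ₗ[F] (Fin 1 → F)) one1) 0 = ((d : (Fin 1 → F) ≃ₗ[F] (Fin 1 → F)) one1) 0 := congrArg Subtype.val hcd
      apply Subtype.ext
      apply LinearEquiv.ext
      intro v
      rw [hv, hv (d : (Fin 1 → F) ≃ₗ[F] (Fin 1 → F))]
      funext i
      rw [Fin.fin_one_eq_zero i]
      change v 0 * _ = v 0 * _
      rw [hcd']
    rw [Nat.card_eq_fintype_card (α := ({1, -1} : Finset F)), Fintype.card_coe] at h6
    exact h6.trans Finset.card_le_two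

theorem card_pm_ge (h2 : (2 : F) ≠ 0) (t : ℕ) (ht : t ≤ 1) : 2 ^ t ≤ Nat.card (pm F (Fin t → F)) := by
  have ht' : t = 0 ∨ t = 1 := by omega
  rcases ht' with rfl | rfl
  · rw [pow_zero]
    exact Nat.card_pos
  · rw [card_pm h2, pow_one]

end

/-- The normal 2-rank of the general linear group over a finite field of odd order q: for n ≥ 1 and S a Sylow 2-subgroup of GL_n(F), the largest rank of an elementary abelian subgroup of S that is normal in S equals n when q ≡ 1 (mod 4) and ⌊(n + 1)/2⌋ when q ≡ 3 (mod 4). -/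
theorem result {F : Type*} [Field F] [Fintype F] {q : ℕ} (hF : Fintype.card F = q) (hodd : Odd q) (n : ℕ) (hn : 1 ≤ n) (S : Sylow 2 (Matrix.GeneralLinearGroup (Fin n) F)) :
    (q % 4 = 1 → ((∃ E : Subgroup ↥(S : Subgroup (Matrix.GeneralLinearGroup (Fin n) F)), E.Normal ∧ Cfsg.IsElementaryAbelian 2 E ∧ 2 ^ (n) ≤ Nat.card ↥E) ∧
      ∀ E : Subgroup ↥(S : Subgroup (Matrix.GeneralLinearGroup (Fin n) F)), E.Normal → Cfsg.IsElementaryAbelian 2 E → Nat.card ↥E ≤ 2 ^ (n))) ∧
    (q % 4 = 3 → ((∃ E : Subgroup ↥(S : Subgroup (Matrix.GeneralLinearGroup (Fin n) F)), E.Normal ∧ Cfsg.IsElementaryAbelian 2 E ∧ 2 ^ ((n + 1) / 2) ≤ Nat.card ↥E) ∧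
      ∀ E : Subgroup ↥(S : Subgroup (Matrix.GeneralLinearGroup (Fin n) F)), E.Normal → Cfsg.IsElementaryAbelian 2 E → Nat.card ↥E ≤ 2 ^ ((n + 1) / 2))) := by
  classical
  have hfact : Fact (Nat.Prime 2) := ⟨Nat.prime_two⟩
  have h2 : (2 : F) ≠ 0 := odd_two_ne_zero (by rw [hF]; exact hodd)
  have hq1 : 1 < q := by rw [← hF]; exact Fintype.one_lt_card
  have hcard : Nat.card (Matrix.GeneralLinearGroup (Fin n) F) = ∏ i : Fin n, (q ^ n - q ^ (i : ℕ)) := by
    rw [Matrix.card_GL_field, hF]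
  have hL : ∀ d, Nat.card ((Fin d → F) ≃ₗ[F] (Fin d → F)) = ∏ i : Fin d, (q ^ d - q ^ (i : ℕ)) := by
    intro d
    rw [card_L, hF]
  have hLne : ∀ d, Nat.card ((Fin d → F) ≃ₗ[F] (Fin d → F)) ≠ 0 := fun d => Nat.card_pos.ne'
  constructor
  · intro h4
    constructor
    · obtain ⟨f, hf⟩ := exists_embed (F := F) (k := n) (d := 1) (t := 0) (n := n) le_rfl (by omega)
      obtain ⟨T⟩ : Nonempty (Sylow 2 (Wr (Fin n) ((Fin 1 → F) ≃ₗ[F] (Fin 1 → F)) ((Fin 0 → F) ≃ₗ[F] (Fin 0 → F)))) := inferInstance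
      have hv : (Nat.card (Wr (Fin n) ((Fin 1 → F) ≃ₗ[F] (Fin 1 → F)) ((Fin 0 → F) ≃ₗ[F] (Fin 0 → F)))).factorization 2 =
          (Nat.card (Matrix.GeneralLinearGroup (Fin n) F)).factorization 2 := by
        rw [Nat.factorization_def _ Nat.prime_two, Nat.factorization_def _ Nat.prime_two, hcard, v_gl_one hodd hq1 h4,
          card_Wr, Fintype.card_fin, v_mul (mul_ne_zero (pow_ne_zero _ (hLne 1)) (hLne 0)) (Nat.factorial_ne_zero n),
          v_mul (pow_ne_zero _ (hLne 1)) (hLne 0), v_pow, hL, hL]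
        simp
      obtain ⟨e⟩ := sylow_equiv f hf hv T S
      have := NRge.congr e (wr_ge (t := 0) (pm_normal (F := F) (U := Fin 1 → F)) (D := ⊥) inferInstance pm_elab
        ⟨inferInstance, fun a ha => by rw [Subgroup.mem_bot.1 ha, one_pow]⟩ (card_pm h2).ge (by simp) T)
      rwa [Fintype.card_fin, add_zero] at this
    · intro E _ hE
      let g : (S : Subgroup (Matrix.GeneralLinearGroup (Fin n) F)) →* ((Fin n → F) ≃ₗ[F] (Fin n → F)) :=
        (H47.IsoGrp.toGL (Fin n) F).symm.toMonoidHom.comp (S : Subgroup (Matrix.GeneralLinearGroup (Fin n) F)).subtype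
      have hg : Function.Injective g := (H47.IsoGrp.toGL (Fin n) F).symm.injective.comp (Subgroup.subtype_injective _)
      have h1 := elab_map g hE
      have h3 := card_dvd_two_pow h2 (E.map g) (H42.NormRank.comm_of h1.1) h1.2
      rw [← Nat.card_congr (E.equivMapOfInjective g hg).toEquiv, Module.finrank_fintype_fun_eq_card, Fintype.card_fin] at h3
      exact Nat.le_of_dvd (by positivity) h3
  · intro h4
    obtain ⟨k, t, ht, hkt⟩ : ∃ k t : ℕ, t ≤ 1 ∧ k * 2 + t = n := ⟨n / 2, n % 2, by omega, by omega⟩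
    have hkt' : (n + 1) / 2 = Fintype.card (Fin k) + t := by rw [Fintype.card_fin]; omega
    obtain ⟨f, hf⟩ := exists_embed (F := F) (k := k) (d := 2) (t := t) (n := n) (by norm_num) hkt
    obtain ⟨T⟩ : Nonempty (Sylow 2 (Wr (Fin k) ((Fin 2 → F) ≃ₗ[F] (Fin 2 → F)) ((Fin t → F) ≃ₗ[F] (Fin t → F)))) := inferInstance
    have hv : (Nat.card (Wr (Fin k) ((Fin 2 → F) ≃ₗ[F] (Fin 2 → F)) ((Fin t → F) ≃ₗ[F] (Fin t → F)))).factorization 2 =
        (Nat.card (Matrix.GeneralLinearGroup (Fin n) F)).factorization 2 := by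
      have e1 : padicValNat 2 (Nat.card ((Fin 2 → F) ≃ₗ[F] (Fin 2 → F))) = padicValNat 2 (q ^ 2 - 1) + 1 := by
        have := v_gl_three hodd hq1 h4 1 0 (by omega)
        rw [Nat.mul_one, Nat.add_zero] at this
        rw [hL, this]
        simp
      have e2 : padicValNat 2 (Nat.card ((Fin t → F) ≃ₗ[F] (Fin t → F))) = t := by
        have ht' : t = 0 ∨ t = 1 := by omega
        rw [hL]
        rcases ht' with rfl | rfl
        · simp
        · simp only [Finset.univ_unique, Fin.default_eq_zero, Fin.isValue, Fin.val_eq_zero, pow_zero, pow_one,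
            Finset.prod_const, Finset.card_singleton]
          exact v_three_mod_four hodd hq1 h4
      have e3 := v_gl_three hodd hq1 h4 k t ht
      have e4 : 2 * k + t = n := by omega
      rw [e4] at e3
      rw [Nat.factorization_def _ Nat.prime_two, Nat.factorization_def _ Nat.prime_two, hcard, e3,
        card_Wr, Fintype.card_fin, v_mul (mul_ne_zero (pow_ne_zero _ (hLne 2)) (hLne t)) (Nat.factorial_ne_zero k),
        v_mul (pow_ne_zero _ (hLne 2)) (hLne t), v_pow, e1, e2]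
      ring
    obtain ⟨e⟩ := sylow_equiv f hf hv T S
    rw [hkt']
    constructor
    · exact NRge.congr e (wr_ge (pm_normal (F := F) (U := Fin 2 → F)) (pm_normal (F := F) (U := Fin t → F)) pm_elab pm_elab
        (card_pm h2).ge (card_pm_ge h2 t ht) T)
    · obtain ⟨P0⟩ : Nonempty (Sylow 2 ((Fin 2 → F) ≃ₗ[F] (Fin 2 → F))) := inferInstance
      exact NRle.congr e (wr_le (P0 : Subgroup ((Fin 2 → F) ≃ₗ[F] (Fin 2 → F))) P0.isPGroup' (exists_sq_ne hF h4 P0)
        (fun A hc hs hn => card_le_two hF h4 P0 A hc hs hn) (card_sq_le h2 t ht) T)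

end Cfsg.Agent.S2249
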