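import Cfsg.Statements.S2251
import Cfsg.Agent.Lib.H42.SuzMax7

set_option autoImplicit false
open Cfsg

namespace Cfsg.Agent.S2251

open H8.SuzOvoid H8.SuzField H8.SuzMat H8.SuzStab H8.SuzGroup H8.SuzSylow H8.SuzCent H8.SuzSimple H8.TICount H8.SuzTorus H42.SuzPart H42.SuzSol H42.SuzMax
open scoped Pointwise

/-- The subgroups of the Suzuki group: with q = 2^(2m+1), m ≥ 1, r = 2^m and the group realised as the stabiliser in SL₄ of the Suzuki–Tits ovoid, every proper subgroup is contained in the normalizer of a Sylow 2-subgroup, or in the normalizer of a cyclic subgroup of order q − 1, q + 2r + 1 or q − 2r + 1, or in a subgroup isomorphic to a smaller Suzuki group Sz(s) with s = 2^(2k+1) ≥ 8 and 2k+1 a proper divisor of 2m+1. -/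
theorem result {F : Type*} [Field F] [Fintype F] {m : ℕ} (hm : 1 ≤ m) (hF : Fintype.card F = 2 ^ (2 * m + 1)) (M : Subgroup ↥(Cfsg.Sz F m)) (hM : M ≠ ⊤) :
    (∃ P : Sylow 2 ↥(Cfsg.Sz F m), M ≤ Subgroup.normalizer ((P : Subgroup ↥(Cfsg.Sz F m)) : Set ↥(Cfsg.Sz F m))) ∨
    (∃ U : Subgroup ↥(Cfsg.Sz F m), IsCyclic ↥U ∧ Nat.card ↥U ∈ ({2 ^ (2 * m + 1) - 1, 2 ^ (2 * m + 1) + 2 ^ (m + 1) + 1, 2 ^ (2 * m + 1) - 2 ^ (m + 1) + 1} : Set ℕ) ∧
      M ≤ Subgroup.normalizer (U : Set ↥(Cfsg.Sz F m))) ∨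
    (∃ (K : Type) (_ : Field K) (_ : Fintype K) (k : ℕ), 1 ≤ k ∧ k < m ∧ Fintype.card K = 2 ^ (2 * k + 1) ∧ 2 * k + 1 ∣ 2 * m + 1 ∧
      ∃ S : Subgroup ↥(Cfsg.Sz F m), Nonempty (↥S ≃* ↥(Cfsg.Sz K k)) ∧ M ≤ S) := by
  have hfact : Fact (Nat.Prime 2) := ⟨Nat.prime_two⟩
  rcases good_all hm hF M hM with ⟨g, hg⟩ | ⟨V, hV, hMV⟩ | ⟨k, hk1, hk2, hk3, S, ⟨e⟩, hS⟩
  · left
    refine ⟨g • PT hm hF, ?_⟩
    intro x hx
    obtain ⟨y, hy, rfl⟩ := hg hx
    change MulAut.conj g y ∈ _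
    rw [SetLike.mem_coe, Ginf, ← normalizer_TT hm hF] at hy
    rw [Subgroup.mem_normalizer_iff]
    intro h
    have key : ∀ z : Sz F m, z ∈ ((g • PT hm hF : Sylow 2 (Sz F m)) : Subgroup (Sz F m)) ↔ g⁻¹ * z * g ∈ TT (m := m) hF := by
      intro z
      rw [Sylow.smul_def, Sylow.pointwise_smul_def, Subgroup.mem_pointwise_smul_iff_inv_smul_mem]
      rw [← map_inv, MulAut.smul_def, MulAut.conj_apply, inv_inv]
      exact Iff.rfl
    refine (key h).trans (Iff.trans ?_ (key _).symm)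
    rw [MulAut.conj_apply, show g⁻¹ * (g * y * g⁻¹ * h * (g * y * g⁻¹)⁻¹) * g = y * (g⁻¹ * h * g) * y⁻¹ by group]
    exact Subgroup.mem_normalizer_iff.1 hy _
  · right; left
    refine ⟨V, ?_, ?_, hMV⟩
    · rcases hV with ⟨g, rfl⟩ | hV
      · have := isCyclic_HH (m := m) hF
        exact isCyclic_of_surjective _ (Subgroup.equivMapOfInjective (HH (m := m) hF) _ (MulAut.conj g).injective).surjective
      · exact hV.isCyclic hF
    · rcases hV with ⟨g, rfl⟩ | hV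
      · rw [Nat.card_congr (Subgroup.equivMapOfInjective (HH (m := m) hF) _ (MulAut.conj g).injective).toEquiv.symm,
          card_HH]
        exact Or.inl rfl
      · rcases H42.SuzPart.Tor.card_cases hm hF hV with h | h
        · exact Or.inr (Or.inl h)
        · exact Or.inr (Or.inr h)
  · right; right
    have hfin : Fintype (GaloisField 2 (2 * k + 1)) := Fintype.ofFinite _
    refine ⟨GaloisField 2 (2 * k + 1), inferInstance, hfin, k, hk1, hk2, ?_, hk3, S, ⟨e⟩, hS⟩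
    rw [← Nat.card_eq_fintype_card, GaloisField.card 2 (2 * k + 1) (by omega)]

end Cfsg.Agent.S2251
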