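import Cfsg.Statements.S2254
import Mathlib
import Cfsg.Agent.Lib.H42.NilEq2

set_option autoImplicit false
open Cfsg

namespace Cfsg.Agent.S2254

open H42.NilBound H42.NilAlt H42.NilEq H42.NilEq2 Equiv

theorem exist_part {m n : ℕ} (h : m + 3 = n) (P : Sylow 2 (Perm (Fin m))) :
    ∃ M : Subgroup (Equiv.Perm (Fin n)), Group.IsNilpotent M ∧ Nat.card M = 3 * Nat.card P ∧
      Nonempty (M ≃* (↥(P : Subgroup (Equiv.Perm (Fin m))) × Multiplicative (ZMod 3))) := by
  have hcZ : Nat.card (Subgroup.zpowers (finRotate 3)) = 3 := by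
    rw [Nat.card_zpowers, (isCycle_finRotate (n := 1)).orderOf, support_finRotate]
    simp
  have hp3 : Fact (Nat.Prime 3) := ⟨Nat.prime_three⟩
  have hZc : Nat.card (Multiplicative (ZMod 3)) = 3 := by
    rw [Nat.card_eq_fintype_card, Fintype.card_multiplicative, ZMod.card]
  have eZ : Subgroup.zpowers (finRotate 3) ≃* Multiplicative (ZMod 3) := mulEquivOfPrimeCardEq hcZ hZc
  let K : Subgroup (Perm (Fin m) × Perm (Fin 3)) := (P : Subgroup _).prod (Subgroup.zpowers (finRotate 3))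
  let e1 : K ≃* K.map (emb h) := K.equivMapOfInjective (emb h) (emb_injective h)
  let e2 : K ≃* ↥(P : Subgroup (Perm (Fin m))) × Subgroup.zpowers (finRotate 3) := Subgroup.prodEquiv _ _
  let e3 : ↥(P : Subgroup (Perm (Fin m))) × Subgroup.zpowers (finRotate 3) ≃* ↥(P : Subgroup (Perm (Fin m))) × Multiplicative (ZMod 3) :=
    MulEquiv.prodCongr (MulEquiv.refl _) eZ
  let e : K.map (emb h) ≃* ↥(P : Subgroup (Perm (Fin m))) × Multiplicative (ZMod 3) := (e1.symm.trans e2).trans e3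
  refine ⟨K.map (emb h), ?_, ?_, ⟨e⟩⟩
  · have h1 : Group.IsNilpotent (P : Subgroup (Perm (Fin m))) := P.isPGroup'.isNilpotent
    exact Group.nilpotent_of_surjective e.symm.toMonoidHom e.symm.surjective
  · rw [Nat.card_congr e.toEquiv, Nat.card_prod, hZc, mul_comm]

/-- Let n ≡ 3 (mod 4). Then every nilpotent subgroup of the symmetric group on n letters has order at most 3 times the order of a Sylow 2-subgroup of the symmetric group on n − 3 letters; the bound is attained by a nilpotent subgroup isomorphic to the direct product of such a Sylow 2-subgroup with a cyclic group of order 3; and any two nilpotent subgroups attaining the bound are conjugate. -/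
theorem result  (n : ℕ) (hn : n % 4 = 3)
    (P : Sylow 2 (Equiv.Perm (Fin (n - 3)))) :
    (∀ N : Subgroup (Equiv.Perm (Fin n)), Group.IsNilpotent N → Nat.card N ≤ 3 * Nat.card P) ∧
    (∃ M : Subgroup (Equiv.Perm (Fin n)), Group.IsNilpotent M ∧ Nat.card M = 3 * Nat.card P ∧
      Nonempty (M ≃* (↥(P : Subgroup (Equiv.Perm (Fin (n - 3)))) × Multiplicative (ZMod 3)))) ∧
    (∀ N₁ N₂ : Subgroup (Equiv.Perm (Fin n)), Group.IsNilpotent N₁ → Group.IsNilpotent N₂ →
      Nat.card N₁ = 3 * Nat.card P → Nat.card N₂ = 3 * Nat.card P →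
      ∃ g : Equiv.Perm (Fin n), N₂ = N₁.map (MulAut.conj g).toMonoidHom) := by
  have hΩ : Nat.card (Fin n) = n := by rw [Nat.card_eq_fintype_card, Fintype.card_fin]
  have hPc : Nat.card P = 2 ^ padicValNat 2 (n - 3).factorial := by
    rw [P.card_eq_multiplicity, Nat.card_perm, Nat.card_eq_fintype_card (α := Fin (n - 3)), Fintype.card_fin,
      Nat.factorization_def _ Nat.prime_two]
  refine ⟨?_, exist_part (by omega) P, ?_⟩
  · intro N hN
    have h1 := le_f (G := N) (Ω := Fin n) hN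
    rw [hΩ, f_eq3 hn] at h1
    rw [hPc]
    exact h1
  · intro N₁ N₂ hN₁ hN₂ hc₁ hc₂
    obtain ⟨A₁, B₁, hAN₁, hBN₁, hA₁, hB₁, hBn₁, hcomm₁, hcard₁, hfac₁⟩ := exists_pair N₁ hN₁
    obtain ⟨A₂, B₂, hAN₂, hBN₂, hA₂, hB₂, hBn₂, hcomm₂, hcard₂, hfac₂⟩ := exists_pair N₂ hN₂
    rw [hc₁, hPc] at hcard₁
    rw [hc₂, hPc] at hcard₂
    obtain ⟨b₁, a₁⟩ := split_card (IsPGroup.iff_card.1 hA₁) hB₁ hcard₁
    obtain ⟨b₂, a₂⟩ := split_card (IsPGroup.iff_card.1 hA₂) hB₂ hcard₂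
    obtain ⟨z₁, hBz₁, hz₁, hf₁⟩ := extremal (by rw [hΩ]; exact hn) hA₁ b₁ hcomm₁ (by rw [hΩ, a₁])
    obtain ⟨z₂, hBz₂, hz₂, hf₂⟩ := extremal (by rw [hΩ]; exact hn) hA₂ b₂ hcomm₂ (by rw [hΩ, a₂])
    have hconj : IsConj z₁ z₂ := Perm.isConj_iff_cycleType_eq.2 (hz₁.trans hz₂.symm)
    obtain ⟨g, hg⟩ := isConj_iff.1 hconj
    have hfix : (Nat.card (fixer ⊤ z₂)).factorization 2 = padicValNat 2 (n - 3).factorial := by
      rw [card_fixer_top, hz₂.card_support, hΩ, Nat.factorization_def _ Nat.prime_two]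
    obtain ⟨h, -, hh⟩ := conj_main ⊤ N₁ N₂ A₁ A₂ z₁ z₂ (by rw [← hBz₁]; exact hfac₁) hAN₂
      (hBN₂ (by rw [hBz₂]; exact Subgroup.mem_zpowers z₂)) le_top le_top hf₁ hf₂ (by rw [hfix, a₁])
      (by rw [hfix, a₂]) g trivial hg
    exact ⟨h, map_eq_of_forall (by rw [hc₁, hc₂]) hh⟩

end Cfsg.Agent.S2254
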