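import Cfsg.Statements.S2255
import Mathlib
import Cfsg.Agent.Lib.H42.NilAlt

set_option autoImplicit false
open Cfsg

namespace Cfsg.Agent.S2255

open H42.NilBound H42.NilAlt

/-- Let n be a natural number not congruent to 3 modulo 4, with n ∉ {5, 6, 9}. Then every nilpotent subgroup of the alternating group on n letters has order at most the order of a Sylow 2-subgroup of the alternating group (so the nilpotent subgroups of largest order are exactly the Sylow 2-subgroups). -/
theorem result  (n : ℕ) (hn : n % 4 ≠ 3)
    (h5 : n ≠ 5) (h6 : n ≠ 6) (h9 : n ≠ 9)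
    (N : Subgroup (alternatingGroup (Fin n))) (hN : Group.IsNilpotent N)
    (P : Sylow 2 (alternatingGroup (Fin n))) :
    Nat.card N ≤ Nat.card P := by
  by_cases h4 : 4 ≤ n
  · have hNc : Nat.card (N.map (alternatingGroup (Fin n)).subtype) = Nat.card N :=
      Nat.card_congr (N.equivMapOfInjective _ (Subgroup.subtype_injective _)).symm.toEquiv
    have hNn : Group.IsNilpotent (N.map (alternatingGroup (Fin n)).subtype) :=
      Group.nilpotent_of_surjective (N.equivMapOfInjective _ (Subgroup.subtype_injective _)).toMonoidHom
        (N.equivMapOfInjective _ (Subgroup.subtype_injective _)).surjective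
    have hΩ : Nat.card (Fin n) = n := by rw [Nat.card_eq_fintype_card, Fintype.card_fin]
    have h1 := alt_bound (N.map (alternatingGroup (Fin n)).subtype) hNn (Subgroup.map_subtype_le _)
      (by rw [hΩ]; exact h4) (by rw [hΩ]; exact h5) (by rw [hΩ]; exact h6) (by rw [hΩ]; exact h9)
    rw [hNc, hΩ, f_eq hn] at h1
    have hnt : Nontrivial (Fin n) := by
      rw [Fin.nontrivial_iff_two_le]; omega
    have h2 := two_mul_nat_card_alternatingGroup (α := Fin n)
    rw [Nat.card_perm, hΩ] at h2
    have h3 : Nat.card P = 2 ^ padicValNat 2 (Nat.card (alternatingGroup (Fin n))) := by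
      rw [P.card_eq_multiplicity, Nat.factorization_def _ Nat.prime_two]
    have h4 : padicValNat 2 n.factorial = 1 + padicValNat 2 (Nat.card (alternatingGroup (Fin n))) := by
      rw [← h2, padicValNat.mul (by norm_num) Nat.card_pos.ne']
      simp
    rw [h4, pow_add, pow_one] at h1
    rw [h3]
    omega
  · have h1 : Nat.card N ≤ 1 := by
      refine (Nat.le_of_dvd Nat.card_pos (Subgroup.card_subgroup_dvd_card N)).trans ?_
      have h3 : n = 0 ∨ n = 1 ∨ n = 2 := by omega
      rcases h3 with rfl | rfl | rfl <;> (rw [Nat.card_eq_fintype_card]; decide)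
    exact h1.trans Nat.card_pos

end Cfsg.Agent.S2255
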