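import Cfsg.Statements.S2256
import Mathlib
import Cfsg.Agent.Lib.H42.NilEq2

set_option autoImplicit false
open Cfsg

namespace Cfsg.Agent.S2256

open H42.NilBound H42.NilAlt H42.NilEq H42.NilEq2 Equiv

theorem exist_part {m n : ℕ} (h : m + 3 = n) (P : Sylow 2 (alternatingGroup (Fin m))) :
    ∃ M : Subgroup (alternatingGroup (Fin n)), Group.IsNilpotent M ∧ Nat.card M = 3 * Nat.card P ∧
      Nonempty (M ≃* (↥(P : Subgroup (alternatingGroup (Fin m))) × Multiplicative (ZMod 3))) := by
  have hcZ : Nat.card (Subgroup.zpowers (finRotate 3)) = 3 := by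
    rw [Nat.card_zpowers, (isCycle_finRotate (n := 1)).orderOf, support_finRotate]
    simp
  have hp3 : Fact (Nat.Prime 3) := ⟨Nat.prime_three⟩
  have hZc : Nat.card (Multiplicative (ZMod 3)) = 3 := by
    rw [Nat.card_eq_fintype_card, Fintype.card_multiplicative, ZMod.card]
  have eZ : Subgroup.zpowers (finRotate 3) ≃* Multiplicative (ZMod 3) := mulEquivOfPrimeCardEq hcZ hZc
  have hs : Perm.sign (finRotate 3) = 1 := by rw [sign_finRotate]; rfl
  let K : Subgroup (alternatingGroup (Fin m) × Perm (Fin 3)) := (P : Subgroup _).prod (Subgroup.zpowers (finRotate 3))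
  let φ : (alternatingGroup (Fin m) × Perm (Fin 3)) →* Perm (Fin n) :=
    (emb h).comp (MonoidHom.prodMap (alternatingGroup (Fin m)).subtype (MonoidHom.id _))
  have hφ : Function.Injective φ := by
    intro x y hxy
    have h1 : (((x.1 : Perm (Fin m)), x.2) : Perm (Fin m) × Perm (Fin 3)) = ((y.1 : Perm (Fin m)), y.2) :=
      emb_injective h hxy
    rw [Prod.mk_inj] at h1
    have h2 : (x.1 : Perm (Fin m)) = y.1 := h1.1
    have h3 : x.2 = y.2 := h1.2
    exact Prod.ext (Subtype.ext h2) h3
  have hKA : K.map φ ≤ alternatingGroup (Fin n) := by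
    rintro _ ⟨x, hx, rfl⟩
    rw [Perm.mem_alternatingGroup]
    change Perm.sign (emb h ((x.1 : Perm (Fin m)), x.2)) = 1
    rw [sign_emb]
    have h1 : Perm.sign (x.1 : Perm (Fin m)) = 1 := x.1.2
    have h2 : Perm.sign x.2 = 1 := by
      obtain ⟨k, hk⟩ := Subgroup.mem_zpowers_iff.1 hx.2
      rw [← hk, map_zpow, hs, one_zpow]
    rw [h1, h2, one_mul]
  let e1 : K ≃* K.map φ := K.equivMapOfInjective φ hφ
  let e2 : K ≃* ↥(P : Subgroup (alternatingGroup (Fin m))) × Subgroup.zpowers (finRotate 3) := Subgroup.prodEquiv _ _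
  let e3 : ↥(P : Subgroup (alternatingGroup (Fin m))) × Subgroup.zpowers (finRotate 3) ≃* ↥(P : Subgroup (alternatingGroup (Fin m))) × Multiplicative (ZMod 3) :=
    MulEquiv.prodCongr (MulEquiv.refl _) eZ
  let e0 : (K.map φ).subgroupOf (alternatingGroup (Fin n)) ≃* K.map φ := Subgroup.subgroupOfEquivOfLe hKA
  let e : (K.map φ).subgroupOf (alternatingGroup (Fin n)) ≃* ↥(P : Subgroup (alternatingGroup (Fin m))) × Multiplicative (ZMod 3) :=
    ((e0.trans e1.symm).trans e2).trans e3
  refine ⟨(K.map φ).subgroupOf (alternatingGroup (Fin n)), ?_, ?_, ⟨e⟩⟩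
  · have h1 : Group.IsNilpotent (P : Subgroup (alternatingGroup (Fin m))) := P.isPGroup'.isNilpotent
    exact Group.nilpotent_of_surjective e.symm.toMonoidHom e.symm.surjective
  · rw [Nat.card_congr e.toEquiv, Nat.card_prod, hZc, mul_comm]

/-- Let n ≡ 3 (mod 4) with n ≥ 7. Then every nilpotent subgroup of the alternating group on n letters has order at most 3 times the order of a Sylow 2-subgroup of the alternating group on n − 3 letters; the bound is attained by a nilpotent subgroup isomorphic to the direct product of such a Sylow 2-subgroup with a cyclic group of order 3; and any two nilpotent subgroups of the alternating group attaining the bound are conjugate in it. -/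
theorem result  (n : ℕ) (hn : n % 4 = 3) (h7 : 7 ≤ n)
    (P : Sylow 2 (alternatingGroup (Fin (n - 3)))) :
    (∀ N : Subgroup (alternatingGroup (Fin n)), Group.IsNilpotent N → Nat.card N ≤ 3 * Nat.card P) ∧
    (∃ M : Subgroup (alternatingGroup (Fin n)), Group.IsNilpotent M ∧ Nat.card M = 3 * Nat.card P ∧
      Nonempty (M ≃* (↥(P : Subgroup (alternatingGroup (Fin (n - 3)))) × Multiplicative (ZMod 3)))) ∧
    (∀ N₁ N₂ : Subgroup (alternatingGroup (Fin n)), Group.IsNilpotent N₁ → Group.IsNilpotent N₂ →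
      Nat.card N₁ = 3 * Nat.card P → Nat.card N₂ = 3 * Nat.card P →
      ∃ g : alternatingGroup (Fin n), N₂ = N₁.map (MulAut.conj g).toMonoidHom) := by
  have hΩ : Nat.card (Fin n) = n := by rw [Nat.card_eq_fintype_card, Fintype.card_fin]
  have hnt : Nontrivial (Fin (n - 3)) := by
    rw [Fin.nontrivial_iff_two_le]; omega
  have hm : 2 * Nat.card (alternatingGroup (Fin (n - 3))) = (n - 3).factorial := by
    rw [two_mul_nat_card_alternatingGroup, Nat.card_perm, Nat.card_eq_fintype_card (α := Fin (n - 3)), Fintype.card_fin]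
  have hPc : Nat.card P = 2 ^ padicValNat 2 (Nat.card (alternatingGroup (Fin (n - 3)))) := by
    rw [P.card_eq_multiplicity, Nat.factorization_def _ Nat.prime_two]
  have hval : padicValNat 2 (n - 3).factorial = 1 + padicValNat 2 (Nat.card (alternatingGroup (Fin (n - 3)))) := by
    rw [← hm, padicValNat.mul (by norm_num) Nat.card_pos.ne']
    simp
  have hfP : f n = 2 * (3 * Nat.card P) := by
    rw [f_eq3 hn, hval, hPc, pow_add]; ring
  have hNc : ∀ N : Subgroup (alternatingGroup (Fin n)), Nat.card (N.map (alternatingGroup (Fin n)).subtype) = Nat.card N :=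
    fun N => Nat.card_congr (N.equivMapOfInjective _ (Subgroup.subtype_injective _)).symm.toEquiv
  have hNn : ∀ N : Subgroup (alternatingGroup (Fin n)), Group.IsNilpotent N → Group.IsNilpotent (N.map (alternatingGroup (Fin n)).subtype) :=
    fun N hN => Group.nilpotent_of_surjective (N.equivMapOfInjective _ (Subgroup.subtype_injective _)).toMonoidHom
      (N.equivMapOfInjective _ (Subgroup.subtype_injective _)).surjective
  refine ⟨?_, exist_part (by omega) P, ?_⟩
  · intro N hN
    have h1 := alt_bound (N.map (alternatingGroup (Fin n)).subtype) (hNn N hN) (Subgroup.map_subtype_le _)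
      (by rw [hΩ]; omega) (by rw [hΩ]; omega) (by rw [hΩ]; omega) (by rw [hΩ]; omega)
    rw [hNc, hΩ, hfP] at h1
    omega
  · -- structure of an extremal subgroup
    have key : ∀ N : Subgroup (alternatingGroup (Fin n)), Group.IsNilpotent N → Nat.card N = 3 * Nat.card P →
        ∃ A : Subgroup (Perm (Fin n)), ∃ z : Perm (Fin n), A ≤ N.map (alternatingGroup (Fin n)).subtype ∧
          z ∈ N.map (alternatingGroup (Fin n)).subtype ∧ z.IsThreeCycle ∧ Nat.card A = Nat.card P ∧
          (∀ a ∈ A, ∀ x ∈ z.support, a x = x) ∧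
          (∀ g ∈ N.map (alternatingGroup (Fin n)).subtype, ∃ a ∈ A, ∃ b ∈ Subgroup.zpowers z, g = a * b) := by
      intro N hN hc
      obtain ⟨A, B, hAN, hBN, hA, hB, hBn, hcomm, hcard, hfac⟩ := exists_pair (N.map (alternatingGroup (Fin n)).subtype) (hNn N hN)
      rw [hNc, hc, hPc] at hcard
      obtain ⟨b, a⟩ := split_card (IsPGroup.iff_card.1 hA) hB hcard
      by_cases hC : ∀ c : Perm (Fin n), (∀ b ∈ B, c * b = b * c) → Perm.sign c = 1
      · exfalso
        have hA1 : A = ⊥ := by
          rw [eq_bot_iff]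
          intro a ha
          rw [Subgroup.mem_bot]
          exact eq_one_of_even hA hB hcomm hC ha
        rw [hA1, Subgroup.card_bot] at a
        have h1 : padicValNat 2 (Nat.card (alternatingGroup (Fin (n - 3)))) = 0 := by
          by_contra h
          have := Nat.one_lt_two_pow h
          omega
        rw [h1] at hval
        have h2 : 3 ≤ padicValNat 2 (n - 3).factorial := by
          rw [← padicValNat_dvd_iff_le (Nat.factorial_ne_zero _)]
          exact (by decide : 2 ^ 3 ∣ Nat.factorial 4).trans (Nat.factorial_dvd_factorial (by omega))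
        omega
      · push Not at hC
        obtain ⟨c, hcc, hcs⟩ := hC
        obtain ⟨A', hAA', hA', hcomm', h2A⟩ := exists_enlarge hA hcomm (hAN.trans (Subgroup.map_subtype_le _)) hcc hcs
        obtain ⟨z, hBz, hz, hf⟩ := extremal (by rw [hΩ]; exact hn) hA' b hcomm' (by
          rw [hΩ, hval, pow_add, pow_one, ← a]; exact h2A)
        exact ⟨A, z, hAN, hBN (by rw [hBz]; exact Subgroup.mem_zpowers z), hz, by rw [a, hPc],
          fun a ha => hf a (hAA' ha), by rw [← hBz]; exact hfac⟩
    intro N₁ N₂ hN₁ hN₂ hc₁ hc₂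
    obtain ⟨A₁, z₁, hA₁, hzN₁, hz₁, ha₁, hf₁, hfac₁⟩ := key N₁ hN₁ hc₁
    obtain ⟨A₂, z₂, hA₂, hzN₂, hz₂, ha₂, hf₂, hfac₂⟩ := key N₂ hN₂ hc₂
    have hs₁ : z₁ ∈ alternatingGroup (Fin n) := Subgroup.map_subtype_le _ hzN₁
    have hs₂ : z₂ ∈ alternatingGroup (Fin n) := Subgroup.map_subtype_le _ hzN₂
    have hconj : IsConj (⟨z₁, hs₁⟩ : alternatingGroup (Fin n)) ⟨z₂, hs₂⟩ :=
      alternatingGroup.isThreeCycle_isConj (by rw [hΩ]; omega) hz₁ hz₂
    obtain ⟨g, hg⟩ := isConj_iff.1 hconj
    have hfixc := card_fixer_alt z₂ (by rw [hz₂.card_support, hΩ]; omega)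
    rw [hz₂.card_support, hΩ, ← hm] at hfixc
    have hfix : 2 ^ (Nat.card (fixer (alternatingGroup (Fin n)) z₂)).factorization 2 = Nat.card P := by
      rw [Nat.eq_of_mul_eq_mul_left (by norm_num) hfixc, P.card_eq_multiplicity]
    obtain ⟨h, hhA, hh⟩ := conj_main (alternatingGroup (Fin n)) _ _ A₁ A₂ z₁ z₂ hfac₁ hA₂ hzN₂
      (hA₁.trans (Subgroup.map_subtype_le _)) (hA₂.trans (Subgroup.map_subtype_le _)) hf₁ hf₂
      (by rw [hfix, ha₁]) (by rw [hfix, ha₂]) g g.2 (congrArg Subtype.val hg)
    refine ⟨⟨h, hhA⟩, map_eq_of_forall (by rw [hc₁, hc₂]) ?_⟩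
    intro x hx
    obtain ⟨y, hy, hye⟩ := hh x ⟨x, hx, rfl⟩
    have : y = ⟨h, hhA⟩ * x * ⟨h, hhA⟩⁻¹ := Subtype.ext hye
    rw [← this]
    exact hy

end Cfsg.Agent.S2256
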