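import Cfsg.Statements.S2259
import Cfsg.Agent.Lib.H42.SuzSol3
import Cfsg.Agent.Lib.H24.SzIso

set_option autoImplicit false
open Cfsg

namespace Cfsg.Agent.S2259

open H8.SuzOvoid H8.SuzField H8.SuzMat H8.SuzStab H8.SuzGroup H8.SuzSylow H8.SuzCent H8.SuzSimple H8.TICount H8.SuzTorus
open H42.SuzPart H42.SolCount H42.SuzSol

theorem sol_conj {G : Type*} [Group G] (g x : G) :
    Nat.card {y : G // Group.IsSolvable (Subgroup.closure ({g * x * g⁻¹, y} : Set G))} =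
      Nat.card {y : G // Group.IsSolvable (Subgroup.closure ({x, y} : Set G))} :=
  card_sol_equiv (MulAut.conj g) x

theorem main {F : Type*} [Field F] [Fintype F] {m : ℕ} (hm : 1 ≤ m)
    (hF : Fintype.card F = 2 ^ (2 * m + 1)) (x : ↥(Cfsg.Sz F m)) :
    (orderOf x = 2 → Nat.card {y : ↥(Cfsg.Sz F m) // Group.IsSolvable ↥(Subgroup.closure ({x, y} : Set (↥(Cfsg.Sz F m))))} = (2 ^ (2 * m + 1)) ^ 2 * (4 * 2 ^ (2 * m + 1) - 3)) ∧
    (orderOf x = 4 → Nat.card {y : ↥(Cfsg.Sz F m) // Group.IsSolvable ↥(Subgroup.closure ({x, y} : Set (↥(Cfsg.Sz F m))))} = (2 ^ (2 * m + 1)) ^ 2 * (2 ^ (2 * m + 1) + 3)) ∧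
    (x ≠ 1 → orderOf x ∣ 2 ^ (2 * m + 1) - 1 →
      Nat.card {y : ↥(Cfsg.Sz F m) // Group.IsSolvable ↥(Subgroup.closure ({x, y} : Set (↥(Cfsg.Sz F m))))} = 2 * (2 ^ (2 * m + 1)) ^ 2 * (2 ^ (2 * m + 1) - 1)) ∧
    (x ≠ 1 → orderOf x ∣ 2 ^ (2 * m + 1) + 2 ^ (m + 1) + 1 → Nat.card {y : ↥(Cfsg.Sz F m) // Group.IsSolvable ↥(Subgroup.closure ({x, y} : Set (↥(Cfsg.Sz F m))))} = 4 * (2 ^ (2 * m + 1) + 2 ^ (m + 1) + 1)) ∧
    (x ≠ 1 → orderOf x ∣ 2 ^ (2 * m + 1) - 2 ^ (m + 1) + 1 → Nat.card {y : ↥(Cfsg.Sz F m) // Group.IsSolvable ↥(Subgroup.closure ({x, y} : Set (↥(Cfsg.Sz F m))))} = 4 * (2 ^ (2 * m + 1) - 2 ^ (m + 1) + 1)) := by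
  have key : ∀ k w : ℕ, k * w = (2 ^ (2 * m + 1)) ^ 2 + 1 → Nat.Coprime k w →
      (∀ V : Subgroup (Sz F m), Tor V → Nat.card V = k ∨ Nat.card V = w) → x ≠ 1 → orderOf x ∣ k →
      Nat.card {y : ↥(Cfsg.Sz F m) // Group.IsSolvable ↥(Subgroup.closure ({x, y} : Set (↥(Cfsg.Sz F m))))} = 4 * k := by
    intro k w hkw hcop hT hx1 hxk
    have h1 : orderOf x ≠ 1 := fun h => hx1 (orderOf_eq_one_iff.1 h)
    obtain ⟨r, hr, hd⟩ := Nat.exists_prime_and_dvd h1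
    obtain ⟨c, hc⟩ := exists_pow_prime hr hd
    have hrq : r ∣ (2 ^ (2 * m + 1)) ^ 2 + 1 := by
      rw [← hkw]
      exact dvd_mul_of_dvd_left (hd.trans hxk) _
    have hTor : Tor (Subgroup.centralizer ({x ^ c} : Set (Sz F m))) := ⟨r, hr, hrq, _, hc, rfl⟩
    have hxV : x ∈ Subgroup.centralizer ({x ^ c} : Set (Sz F m)) :=
      Subgroup.mem_centralizer_singleton_iff.2 (Commute.self_pow x c).eq
    rw [card_sol_Tor hm hF hTor hxV hx1]
    rcases hT _ hTor with h | h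
    · rw [h]
    · exfalso
      have h2 := orderOf_dvd_natCard (⟨x, hxV⟩ : Subgroup.centralizer ({x ^ c} : Set (Sz F m)))
      rw [← Subgroup.orderOf_coe, h] at h2
      exact h1 (Nat.eq_one_of_dvd_coprimes hcop hxk h2)
  refine ⟨?_, ?_, ?_, ?_, ?_⟩
  · intro h
    obtain ⟨g, b, hb, hg⟩ := exists_conj_tG hm hF h
    rw [← sol_conj g x, hg]
    exact card_sol_involution hm hF ⟨0, b, rfl⟩ (orderOf_tG hF hb)
  · intro h
    obtain ⟨g, c, d, hc, hg⟩ := order_four_form hm hF h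
    rw [← sol_conj g x, hg]
    exact card_sol_four hm hF hc
  · intro hx1 hxk
    have h1 : orderOf x ≠ 1 := fun h => hx1 (orderOf_eq_one_iff.1 h)
    obtain ⟨r, hr, hd⟩ := Nat.exists_prime_and_dvd h1
    obtain ⟨c, hc⟩ := exists_pow_prime hr hd
    obtain ⟨g, hg⟩ := conj_mem_HH hm hF hr (hd.trans hxk) hc
    rw [← sol_conj g x]
    apply card_sol_HH hm hF (hg x (Commute.self_pow x c).eq)
    intro h
    apply hx1
    have : x = g⁻¹ * (g * x * g⁻¹) * g := by group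
    rw [this, h]; group
  · exact key _ _ (arith_ab hm).1 (coprime_ab hm hF) (fun V hV => H42.SuzPart.Tor.card_cases hm hF hV)
  · exact key _ _ (by rw [mul_comm]; exact (arith_ab hm).1) (coprime_ab hm hF).symm
      (fun V hV => (H42.SuzPart.Tor.card_cases hm hF hV).symm)

/-- Let G be the Suzuki group Sz(q), q = 2^(2m+1) with 2m + 1 prime and m ≥ 1, realised inside Sp_4(F) for F the field of order q, write r = 2^(m+1) (so r² = 2q), and for x ∈ G call the solubilizer of x the set of y ∈ G such that x and y generate a solvable subgroup. Then the solubilizer of an involution has q²(4q − 3) elements; that of an element of order 4 has q²(q + 3) elements; that of a non-identity element of order dividing q − 1 has 2q²(q − 1) elements; that of a non-identity element of order dividing q + r + 1 has 4(q + r + 1) elements; and that of a non-identity element of order dividing q − r + 1 has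 4(q − r + 1) elements. -/
theorem result {F : Type*} [Field F] [Fintype F] {m : ℕ} (hm : 1 ≤ m)
    (hp : (2 * m + 1).Prime) (hF : Fintype.card F = 2 ^ (2 * m + 1)) (x : ↥(Cfsg.Lie.Sz F (2 ^ (m + 1)))) :
    (orderOf x = 2 → Nat.card {y : ↥(Cfsg.Lie.Sz F (2 ^ (m + 1))) // Group.IsSolvable ↥(Subgroup.closure ({x, y} : Set (↥(Cfsg.Lie.Sz F (2 ^ (m + 1))))))} = (2 ^ (2 * m + 1)) ^ 2 * (4 * 2 ^ (2 * m + 1) - 3)) ∧
    (orderOf x = 4 → Nat.card {y : ↥(Cfsg.Lie.Sz F (2 ^ (m + 1))) // Group.IsSolvable ↥(Subgroup.closure ({x, y} : Set (↥(Cfsg.Lie.Sz F (2 ^ (m + 1))))))} = (2 ^ (2 * m + 1)) ^ 2 * (2 ^ (2 * m + 1) + 3)) ∧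
    (x ≠ 1 → orderOf x ∣ 2 ^ (2 * m + 1) - 1 →
      Nat.card {y : ↥(Cfsg.Lie.Sz F (2 ^ (m + 1))) // Group.IsSolvable ↥(Subgroup.closure ({x, y} : Set (↥(Cfsg.Lie.Sz F (2 ^ (m + 1))))))} = 2 * (2 ^ (2 * m + 1)) ^ 2 * (2 ^ (2 * m + 1) - 1)) ∧
    (x ≠ 1 → orderOf x ∣ 2 ^ (2 * m + 1) + 2 ^ (m + 1) + 1 → Nat.card {y : ↥(Cfsg.Lie.Sz F (2 ^ (m + 1))) // Group.IsSolvable ↥(Subgroup.closure ({x, y} : Set (↥(Cfsg.Lie.Sz F (2 ^ (m + 1))))))} = 4 * (2 ^ (2 * m + 1) + 2 ^ (m + 1) + 1)) ∧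
    (x ≠ 1 → orderOf x ∣ 2 ^ (2 * m + 1) - 2 ^ (m + 1) + 1 → Nat.card {y : ↥(Cfsg.Lie.Sz F (2 ^ (m + 1))) // Group.IsSolvable ↥(Subgroup.closure ({x, y} : Set (↥(Cfsg.Lie.Sz F (2 ^ (m + 1))))))} = 4 * (2 ^ (2 * m + 1) - 2 ^ (m + 1) + 1)) := by
  have e := H24.SzIso.equiv hF hm
  obtain ⟨x', rfl⟩ := e.surjective x
  have h := main hm hF x'
  rw [card_sol_equiv e x', e.orderOf_eq]
  have hne : e x' ≠ 1 ↔ x' ≠ 1 := by rw [Ne, Ne, map_eq_one_iff e e.injective]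
  rw [hne]
  exact h

end Cfsg.Agent.S2259
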