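import Cfsg.Statements.S2268
import Mathlib

set_option autoImplicit false
open Cfsg

namespace Cfsg.Agent.S2268

/-- Let G be a finite group with an abelian Sylow p-subgroup P and let Q ≤ P. Then N_G(Q) = (N_G(Q) ∩ N_G(P))·C_G(Q), so that N_G(Q)/C_G(Q) is a homomorphic image of the subgroup (N_G(Q) ∩ N_G(P))/C_G(P) of N_G(P)/C_G(P); in particular the order of N_G(Q)/C_G(Q) divides the order of N_G(P)/C_G(P). -/
theorem result {G : Type*} [Group G] [Finite G] {p : ℕ} [Fact p.Prime]
    (P : Sylow p G) (hP : IsMulCommutative (P : Subgroup G)) (Q : Subgroup G) (hQ : Q ≤ (P : Subgroup G)) :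
    Subgroup.normalizer (Q : Set G) =
      (Subgroup.normalizer (Q : Set G) ⊓ Subgroup.normalizer ((P : Subgroup G) : Set G)) ⊔ Subgroup.centralizer (Q : Set G) ∧
    ((Subgroup.centralizer (Q : Set G)).subgroupOf (Subgroup.normalizer (Q : Set G))).index ∣ ((Subgroup.centralizer ((P : Subgroup G) : Set G)).subgroupOf (Subgroup.normalizer ((P : Subgroup G) : Set G))).index := by
  have hcomm : ∀ a ∈ (P : Subgroup G), ∀ b ∈ (P : Subgroup G), a * b = b * a := by
    intro a ha b hb
    have := hP.is_comm.comm (⟨a, ha⟩ : (P : Subgroup G)) ⟨b, hb⟩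
    exact congrArg Subtype.val this
  have hPC : (P : Subgroup G) ≤ Subgroup.centralizer (Q : Set G) := by
    intro x hx
    rw [Subgroup.mem_centralizer_iff]
    intro y hy
    exact hcomm y (hQ hy) x hx
  have hCN : Subgroup.centralizer (Q : Set G) ≤ Subgroup.normalizer (Q : Set G) :=
    Subgroup.centralizer_le_normalizer _
  -- key decomposition
  have key : ∀ n ∈ Subgroup.normalizer (Q : Set G), ∃ c ∈ Subgroup.centralizer (Q : Set G),
      c * n ∈ Subgroup.normalizer (Q : Set G) ⊓ Subgroup.normalizer ((P : Subgroup G) : Set G) := by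
    intro n hn
    have hnP : ((n • P : Sylow p G) : Subgroup G) ≤ Subgroup.centralizer (Q : Set G) := by
      rintro _ ⟨x, hx, rfl⟩
      change n * x * n⁻¹ ∈ _
      have hx' := hPC hx
      rw [Subgroup.mem_centralizer_iff] at hx' ⊢
      intro y hy
      have hy' : n⁻¹ * y * n ∈ Q := by
        have := (Subgroup.mem_normalizer_iff.1 (inv_mem hn) y).1 hy
        simpa using this
      have := hx' _ hy'
      calc y * (n * x * n⁻¹) = n * ((n⁻¹ * y * n) * x) * n⁻¹ := by group
        _ = n * (x * (n⁻¹ * y * n)) * n⁻¹ := by rw [this]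
        _ = n * x * n⁻¹ * y := by group
    obtain ⟨c, hc⟩ := MulAction.exists_smul_eq (Subgroup.centralizer (Q : Set G)) ((n • P).subtype hnP) (P.subtype hPC)
    simp_rw [Sylow.smul_subtype] at hc
    have hc' : ((c : G) • (n • P)) = P := Sylow.subtype_injective hc
    refine ⟨c, c.2, mul_mem (hCN c.2) hn, ?_⟩
    rw [← mul_smul, Sylow.smul_eq_iff_mem_normalizer] at hc'
    exact hc'
  constructor
  · apply le_antisymm
    · intro n hn
      obtain ⟨c, hc, h⟩ := key n hn
      have : n = c⁻¹ * (c * n) := by group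
      rw [this]
      exact mul_mem (Subgroup.mem_sup_right (inv_mem hc)) (Subgroup.mem_sup_left h)
    · exact sup_le inf_le_left hCN
  · -- index computation
    set NQ := Subgroup.normalizer (Q : Set G) with hNQ
    set NP := Subgroup.normalizer ((P : Subgroup G) : Set G) with hNP
    set CQ := Subgroup.centralizer (Q : Set G) with hCQ
    set CP := Subgroup.centralizer ((P : Subgroup G) : Set G) with hCP
    change CQ.relIndex NQ ∣ CP.relIndex NP
    have hCPQ : CP ≤ CQ := Subgroup.centralizer_le hQ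
    have hCPN : CP ≤ NP := Subgroup.centralizer_le_normalizer _
    -- relIndex CQ NQ = relIndex CQ (NQ ⊓ NP)
    have hnorm : (CQ.subgroupOf NQ).Normal := by
      refine ⟨fun c hc n => ?_⟩
      rw [Subgroup.mem_subgroupOf] at hc ⊢
      rw [hCQ, Subgroup.mem_centralizer_iff] at hc ⊢
      intro y hy
      have hy' : (n : G)⁻¹ * y * n ∈ Q := by
        have := (Subgroup.mem_normalizer_iff.1 (inv_mem n.2) y).1 hy
        simpa using this
      have := hc _ hy'
      change y * ((n : G) * c * (n : G)⁻¹) = ((n : G) * c * (n : G)⁻¹) * y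
      calc y * ((n : G) * c * (n : G)⁻¹) = n * (((n : G)⁻¹ * y * n) * c) * (n : G)⁻¹ := by group
        _ = n * (c * ((n : G)⁻¹ * y * n)) * (n : G)⁻¹ := by rw [this]
        _ = n * c * (n : G)⁻¹ * y := by group
    have h1 : CQ.relIndex NQ = CQ.relIndex (NQ ⊓ NP) := by
      let f : ↥(NQ ⊓ NP) →* ↥NQ ⧸ CQ.subgroupOf NQ :=
        (QuotientGroup.mk' (CQ.subgroupOf NQ)).comp (Subgroup.inclusion inf_le_left)
      have hf : Function.Surjective f := by
        intro y
        obtain ⟨n, rfl⟩ := QuotientGroup.mk_surjective y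
        obtain ⟨c, hc, h⟩ := key n n.2
        refine ⟨⟨c * n, h⟩, ?_⟩
        change (QuotientGroup.mk (⟨c * n, _⟩ : NQ) : ↥NQ ⧸ CQ.subgroupOf NQ) = QuotientGroup.mk n
        rw [eq_comm, QuotientGroup.eq]
        rw [Subgroup.mem_subgroupOf]
        change (n : G)⁻¹ * (c * n) ∈ CQ
        have h2 := hnorm.conj_mem ⟨c, hCN hc⟩ hc n⁻¹
        rw [Subgroup.mem_subgroupOf] at h2
        change (n : G)⁻¹ * c * (n : G)⁻¹⁻¹ ∈ CQ at h2
        rw [inv_inv, mul_assoc] at h2
        exact h2
      have hker : f.ker = CQ.subgroupOf (NQ ⊓ NP) := by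
        ext x
        rw [MonoidHom.mem_ker]
        change (QuotientGroup.mk (Subgroup.inclusion inf_le_left x) : ↥NQ ⧸ CQ.subgroupOf NQ) = 1 ↔ _
        rw [QuotientGroup.eq_one_iff]
        exact Iff.rfl
      have h3 := Subgroup.index_ker f
      rw [hker, MonoidHom.range_eq_top.2 hf] at h3
      have h4 : Nat.card (⊤ : Subgroup (↥NQ ⧸ CQ.subgroupOf NQ)) = (CQ.subgroupOf NQ).index := by
        rw [Subgroup.card_top]; rfl
      rw [h4] at h3
      exact h3.symm
    rw [h1]
    have hle : CP ≤ NQ ⊓ NP := le_inf (hCPQ.trans hCN) hCPN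
    have h5 := Subgroup.relIndex_mul_relIndex CP (NQ ⊓ NP) NP hle inf_le_right
    rw [← h5]
    apply Dvd.dvd.mul_right
    have h6 := Subgroup.relIndex_mul_relIndex CP (CQ ⊓ (NQ ⊓ NP)) (NQ ⊓ NP) (le_inf hCPQ hle) inf_le_right
    rw [Subgroup.inf_relIndex_right] at h6
    exact Dvd.intro_left _ h6

end Cfsg.Agent.S2268
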