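import Cfsg.Statements.S2269
import Mathlib
import Cfsg.Agent.Lib.H42.SylAb

set_option autoImplicit false
open Cfsg

namespace Cfsg.Agent.S2269

open Equiv Equiv.Perm

/-- for n ≥ 6 the Sylow 2-subgroups of A_n are nonabelian -/
theorem not_comm {n : ℕ} (hn : 6 ≤ n) (P : Sylow 2 (alternatingGroup (Fin n)))
    (hP : IsMulCommutative (P : Subgroup (alternatingGroup (Fin n)))) : False := by
  have hne : ∀ i j : ℕ, ∀ hi : i < n, ∀ hj : j < n, i ≠ j → (⟨i, hi⟩ : Fin n) ≠ ⟨j, hj⟩ := by
    intro i j hi hj h h'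
    exact h (Fin.mk.inj_iff.1 h')
  obtain ⟨i0, h0⟩ : ∃ i : Fin n, i = ⟨0, by omega⟩ := ⟨_, rfl⟩
  obtain ⟨i1, h1⟩ : ∃ i : Fin n, i = ⟨1, by omega⟩ := ⟨_, rfl⟩
  obtain ⟨i2, h2⟩ : ∃ i : Fin n, i = ⟨2, by omega⟩ := ⟨_, rfl⟩
  obtain ⟨i3, h3⟩ : ∃ i : Fin n, i = ⟨3, by omega⟩ := ⟨_, rfl⟩
  obtain ⟨i4, h4⟩ : ∃ i : Fin n, i = ⟨4, by omega⟩ := ⟨_, rfl⟩
  obtain ⟨i5, h5⟩ : ∃ i : Fin n, i = ⟨5, by omega⟩ := ⟨_, rfl⟩
  have n01 : i0 ≠ i1 := by rw [h0, h1]; exact hne _ _ _ _ (by norm_num)
  have n02 : i0 ≠ i2 := by rw [h0, h2]; exact hne _ _ _ _ (by norm_num)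
  have n03 : i0 ≠ i3 := by rw [h0, h3]; exact hne _ _ _ _ (by norm_num)
  have n04 : i0 ≠ i4 := by rw [h0, h4]; exact hne _ _ _ _ (by norm_num)
  have n05 : i0 ≠ i5 := by rw [h0, h5]; exact hne _ _ _ _ (by norm_num)
  have n12 : i1 ≠ i2 := by rw [h1, h2]; exact hne _ _ _ _ (by norm_num)
  have n13 : i1 ≠ i3 := by rw [h1, h3]; exact hne _ _ _ _ (by norm_num)
  have n14 : i1 ≠ i4 := by rw [h1, h4]; exact hne _ _ _ _ (by norm_num)
  have n15 : i1 ≠ i5 := by rw [h1, h5]; exact hne _ _ _ _ (by norm_num)
  have n23 : i2 ≠ i3 := by rw [h2, h3]; exact hne _ _ _ _ (by norm_num)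
  have n24 : i2 ≠ i4 := by rw [h2, h4]; exact hne _ _ _ _ (by norm_num)
  have n25 : i2 ≠ i5 := by rw [h2, h5]; exact hne _ _ _ _ (by norm_num)
  have n34 : i3 ≠ i4 := by rw [h3, h4]; exact hne _ _ _ _ (by norm_num)
  have n35 : i3 ≠ i5 := by rw [h3, h5]; exact hne _ _ _ _ (by norm_num)
  have n45 : i4 ≠ i5 := by rw [h4, h5]; exact hne _ _ _ _ (by norm_num)
  clear h0 h1 h2 h3 h4 h5 hne
  -- the permutations
  obtain ⟨c, hc⟩ : ∃ c : alternatingGroup (Fin n), (c : Perm (Fin n)) = swap i0 i1 * swap i2 i3 :=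
    ⟨⟨_, by rw [mem_alternatingGroup, map_mul, sign_swap n01, sign_swap n23]; rfl⟩, rfl⟩
  obtain ⟨d, hd⟩ : ∃ c : alternatingGroup (Fin n), (c : Perm (Fin n)) = swap i0 i2 * swap i4 i5 :=
    ⟨⟨_, by rw [mem_alternatingGroup, map_mul, sign_swap n02, sign_swap n45]; rfl⟩, rfl⟩
  have st : ∀ a b x y : Fin n, a ≠ x → a ≠ y → b ≠ x → b ≠ y → swap a b * swap x y = swap x y * swap a b := by
    intro a b x y hax hay hbx hby
    rw [Equiv.mul_swap_eq_swap_mul, swap_apply_of_ne_of_ne hax.symm hbx.symm, swap_apply_of_ne_of_ne hay.symm hby.symm]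
  have cc : (c : Perm (Fin n)) * c = 1 := by
    rw [hc, mul_assoc, ← mul_assoc (swap i2 i3), st i2 i3 i0 i1 n02.symm n12.symm n03.symm n13.symm, mul_assoc,
      swap_mul_self, mul_one, swap_mul_self]
  have dd : (d : Perm (Fin n)) * d = 1 := by
    rw [hd, mul_assoc, ← mul_assoc (swap i4 i5), st i4 i5 i0 i2 n04.symm n24.symm n05.symm n25.symm, mul_assoc,
      swap_mul_self, mul_one, swap_mul_self]
  have cd : (c : Perm (Fin n)) * d = swap i1 i3 * swap i4 i5 * c := by
    have e0 : (c : Perm (Fin n)) i0 = i1 := by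
      rw [hc, Perm.mul_apply, swap_apply_of_ne_of_ne n02 n03, swap_apply_left]
    have e2 : (c : Perm (Fin n)) i2 = i3 := by
      rw [hc, Perm.mul_apply, swap_apply_left, swap_apply_of_ne_of_ne n03.symm n13.symm]
    have e4 : (c : Perm (Fin n)) i4 = i4 := by
      rw [hc, Perm.mul_apply, swap_apply_of_ne_of_ne n24.symm n34.symm, swap_apply_of_ne_of_ne n04.symm n14.symm]
    have e5 : (c : Perm (Fin n)) i5 = i5 := by
      rw [hc, Perm.mul_apply, swap_apply_of_ne_of_ne n25.symm n35.symm, swap_apply_of_ne_of_ne n05.symm n15.symm]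
    have e6 := Equiv.mul_swap_eq_swap_mul (c : Perm (Fin n)) i0 i2
    have e7 := Equiv.mul_swap_eq_swap_mul (c : Perm (Fin n)) i4 i5
    rw [e0, e2] at e6
    rw [e4, e5] at e7
    rw [hd, ← mul_assoc, e6, mul_assoc, e7, mul_assoc]
  have cdne : c * d ≠ d * c := by
    intro h
    have h' : (c : Perm (Fin n)) * d = d * c := congrArg Subtype.val h
    rw [cd] at h'
    have h1 := mul_right_cancel h'
    have h2 := congrArg (fun f : Perm (Fin n) => f i0) h1
    simp only [hd, Perm.mul_apply] at h2
    rw [swap_apply_of_ne_of_ne n04 n05, swap_apply_of_ne_of_ne n01 n03, swap_apply_left] at h2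
    exact n02 h2
  have cc' : c * c = 1 := Subtype.ext cc
  have dd' : d * d = 1 := Subtype.ext dd
  have h4 : (c * d) ^ 4 = 1 := by
    have e1 : ((c * d) ^ 2 : Perm (Fin n)) = swap i1 i3 * swap i0 i2 := by
      rw [pow_two]
      nth_rewrite 1 [cd]
      calc swap i1 i3 * swap i4 i5 * (c : Perm (Fin n)) * (c * d) = swap i1 i3 * swap i4 i5 * ((c * c) * d) := by group
        _ = swap i1 i3 * (swap i4 i5 * (swap i0 i2 * swap i4 i5)) := by rw [cc, one_mul, hd, mul_assoc]
        _ = swap i1 i3 * swap i0 i2 := by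
          rw [← mul_assoc (swap i4 i5), st i4 i5 i0 i2 n04.symm n24.symm n05.symm n25.symm, mul_assoc, swap_mul_self, mul_one]
    have e2 : ((c * d) ^ 4 : Perm (Fin n)) = 1 := by
      rw [show 4 = 2 * 2 by norm_num, pow_mul, e1, pow_two, mul_assoc, ← mul_assoc (swap i0 i2),
        st i0 i2 i1 i3 n01 n03 n12.symm n23, mul_assoc, swap_mul_self, mul_one, swap_mul_self]
    apply Subtype.ext
    simpa using e2
  have hpc : IsPGroup 2 (Subgroup.zpowers (c * d)) := by
    rw [isPGroup_iff_pow_pow_eq_one]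
    rintro ⟨g, hg⟩
    obtain ⟨k, rfl⟩ := Subgroup.mem_zpowers_iff.1 hg
    refine ⟨2, Subtype.ext ?_⟩
    simp only [Subgroup.coe_pow, Subgroup.coe_one]
    rw [← zpow_natCast, ← zpow_mul, mul_comm, zpow_mul, zpow_natCast]
    norm_num [h4]
  have hpd : IsPGroup 2 (Subgroup.zpowers d) := by
    rw [isPGroup_iff_pow_pow_eq_one]
    rintro ⟨g, hg⟩
    obtain ⟨k, rfl⟩ := Subgroup.mem_zpowers_iff.1 hg
    refine ⟨1, Subtype.ext ?_⟩
    simp only [Subgroup.coe_pow, Subgroup.coe_one]
    rw [← zpow_natCast, ← zpow_mul, mul_comm, zpow_mul, zpow_natCast, pow_one, pow_two, dd', one_zpow]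
  have hnorm : Subgroup.zpowers d ≤ Subgroup.normalizer ((Subgroup.zpowers (c * d) : Subgroup (alternatingGroup (Fin n))) : Set (alternatingGroup (Fin n))) := by
    rw [Subgroup.zpowers_le]
    have hinv : d * (c * d) * d⁻¹ = (c * d)⁻¹ := by
      have hci : c⁻¹ = c := inv_eq_of_mul_eq_one_left cc'
      have hdi : d⁻¹ = d := inv_eq_of_mul_eq_one_left dd'
      rw [mul_inv_rev, hci, hdi, mul_assoc, mul_assoc c, dd', mul_one]
    rw [Subgroup.mem_normalizer_iff]
    have key : ∀ x, x ∈ Subgroup.zpowers (c * d) → d * x * d⁻¹ ∈ Subgroup.zpowers (c * d) := by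
      intro x hx
      obtain ⟨k, rfl⟩ := Subgroup.mem_zpowers_iff.1 hx
      rw [← conj_zpow, hinv]
      exact Subgroup.zpow_mem _ (Subgroup.inv_mem _ (Subgroup.mem_zpowers _)) _
    intro x
    refine ⟨key x, fun h => ?_⟩
    have := key _ h
    have hdi : d⁻¹ = d := inv_eq_of_mul_eq_one_left dd'
    rw [hdi] at this
    have e : d * (d * x * d) * d = x := by
      calc d * (d * x * d) * d = (d * d) * x * (d * d) := by group
        _ = x := by rw [dd', one_mul, mul_one]
    rwa [e] at this
  have hp := IsPGroup.to_sup_of_normal_right' hpd hpc hnorm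
  obtain ⟨Q, hQ⟩ := hp.exists_le_sylow
  obtain ⟨g, hg⟩ := MulAction.exists_smul_eq (alternatingGroup (Fin n)) P Q
  have hdQ : d ∈ (Q : Subgroup _) := hQ (Subgroup.mem_sup_left (Subgroup.mem_zpowers d))
  have hcdQ : c * d ∈ (Q : Subgroup _) := hQ (Subgroup.mem_sup_right (Subgroup.mem_zpowers _))
  have hcQ : c ∈ (Q : Subgroup _) := by
    have := mul_mem hcdQ hdQ
    rwa [mul_assoc, dd', mul_one] at this
  rw [← hg] at hcQ hdQ
  rw [Sylow.coe_subgroup_smul] at hcQ hdQ
  obtain ⟨c', hc', hce⟩ := hcQ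
  obtain ⟨d', hd', hde⟩ := hdQ
  apply cdne
  have hce' : g * c' * g⁻¹ = c := hce
  have hde' : g * d' * g⁻¹ = d := hde
  rw [← hce', ← hde']
  have := hP.is_comm.comm ⟨c', hc'⟩ ⟨d', hd'⟩
  have h3 : c' * d' = d' * c' := congrArg Subtype.val this
  calc g * c' * g⁻¹ * (g * d' * g⁻¹) = g * (c' * d') * g⁻¹ := by group
    _ = g * (d' * c') * g⁻¹ := by rw [h3]
    _ = _ := by group

/-- Let n ≥ 5 and let P be an abelian Sylow p-subgroup of the alternating group A_n. Then N(P)/C(P) (taken in A_n) has even order, or P is cyclic, except when n = 5 and p = 2, where P is a four-group and N(P)/C(P) has order 3. -/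
theorem result (n : ℕ) (hn : 5 ≤ n) {p : ℕ} [Fact p.Prime]
    (P : Sylow p (alternatingGroup (Fin n))) (hP : IsMulCommutative (P : Subgroup (alternatingGroup (Fin n)))) :
    (¬ (n = 5 ∧ p = 2) → 2 ∣ ((Subgroup.centralizer ((P : Subgroup (alternatingGroup (Fin n))) : Set (alternatingGroup (Fin n)))).subgroupOf (Subgroup.normalizer ((P : Subgroup (alternatingGroup (Fin n))) : Set (alternatingGroup (Fin n))))).index ∨ IsCyclic (P : Subgroup (alternatingGroup (Fin n)))) ∧
    ((n = 5 ∧ p = 2) → ((Subgroup.centralizer ((P : Subgroup (alternatingGroup (Fin n))) : Set (alternatingGroup (Fin n)))).subgroupOf (Subgroup.normalizer ((P : Subgroup (alternatingGroup (Fin n))) : Set (alternatingGroup (Fin n))))).index = 3 ∧ IsKleinFour (P : Subgroup (alternatingGroup (Fin n)))) := by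
  have hpp : p.Prime := Fact.out
  constructor
  · intro h
    by_cases h2 : p = 2
    · exfalso
      subst h2
      exact not_comm (by by_contra h6; exact h ⟨by omega, rfl⟩) P hP
    by_cases hn2 : n < 2 * p
    · right
      -- |P| is 1 or p
      have hcard : Nat.card (P : Subgroup (alternatingGroup (Fin n))) ∣ p := by
        obtain ⟨k, hk⟩ := IsPGroup.iff_card.1 P.isPGroup'
        have h1 : Nat.card (P : Subgroup (alternatingGroup (Fin n))) ∣ n.factorial := by
          refine (Subgroup.card_subgroup_dvd_card _).trans ?_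
          have := Subgroup.card_subgroup_dvd_card (alternatingGroup (Fin n))
          rwa [Nat.card_perm, Nat.card_eq_fintype_card (α := Fin n), Fintype.card_fin] at this
        rw [hk] at h1 ⊢
        have hk1 : k ≤ 1 := by
          by_contra hk1
          have h3 : p ^ 2 ∣ n.factorial := (pow_dvd_pow p (by omega)).trans h1
          have h4 := (Nat.Prime.pow_dvd_factorial_iff hpp (n := n) (r := 2) (b := 2) (by
            apply Nat.log_lt_of_lt_pow (by omega)
            have := hpp.two_le
            nlinarith)).1 h3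
          simp at h4
          have h5 : n / p < 2 := Nat.div_lt_of_lt_mul (by rw [mul_comm]; exact hn2)
          omega
        calc p ^ k ∣ p ^ 1 := pow_dvd_pow p hk1
          _ = p := pow_one p
      rcases (Nat.dvd_prime hpp).1 hcard with h1 | h1
      · have := (Nat.card_eq_one_iff_unique.1 h1).1
        exact isCyclic_of_subsingleton
      · exact isCyclic_of_prime_card h1
    · left
      push Not at hn2
      -- p-cycle
      have hp3 : 3 ≤ p := by have := hpp.two_le; omega
      obtain ⟨c, hc⟩ : ∃ c : Perm (Fin n), c.cycleType = {p} := by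
        have := (Equiv.Perm.exists_with_cycleType_iff (Fin n) (m := {p})).2 ⟨by simp; omega, by simp; omega⟩
        exact this
      have hodd : Odd p := hpp.odd_of_ne_two h2
      have hcs : c ∈ alternatingGroup (Fin n) := by
        rw [mem_alternatingGroup, sign_of_cycleType, hc]
        simp
        obtain ⟨k, rfl⟩ := hodd
        rw [show 2 * k + 1 + 1 = 2 * (k + 1) by ring, pow_mul]; simp
      have hord : orderOf c = p := by rw [← lcm_cycleType, hc]; simp
      have hzp : IsPGroup p (Subgroup.zpowers (⟨c, hcs⟩ : alternatingGroup (Fin n))) := by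
        apply IsPGroup.of_card (n := 1)
        rw [Nat.card_zpowers, ← Subgroup.orderOf_coe, pow_one]
        exact hord
      obtain ⟨Q, hQ⟩ := hzp.exists_le_sylow
      obtain ⟨g, hg⟩ := MulAction.exists_smul_eq (alternatingGroup (Fin n)) P Q
      have hcQ : (⟨c, hcs⟩ : alternatingGroup (Fin n)) ∈ (Q : Subgroup _) := hQ (Subgroup.mem_zpowers _)
      rw [← hg, Sylow.coe_subgroup_smul] at hcQ
      obtain ⟨x, hx, hxe⟩ := hcQ
      have hxe' : (g : Perm (Fin n)) * x * (g : Perm (Fin n))⁻¹ = c := congrArg Subtype.val hxe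
      have hxt : (x : Perm (Fin n)).cycleType = {p} := by
        rw [← hc, ← hxe', cycleType_conj]
      refine H42.SylAb.two_dvd_index P hP x hx ?_ ?_
      · intro h
        have h1 : (x : Perm (Fin n)) ^ 2 = 1 := by
          rw [pow_two]
          have : (x : Perm (Fin n))⁻¹ = x := congrArg Subtype.val h
          nth_rewrite 1 [← this]
          simp
        have h3 : orderOf (x : Perm (Fin n)) ∣ 2 := orderOf_dvd_of_pow_eq_one h1
        rw [← lcm_cycleType, hxt] at h3
        simp at h3
        exact h2 ((Nat.prime_dvd_prime_iff_eq hpp Nat.prime_two).1 h3)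
      · apply alternatingGroup.isConj_of
        · rw [Equiv.Perm.isConj_iff_cycleType_eq]
          change _ = ((x : Perm (Fin n))⁻¹).cycleType
          rw [Equiv.Perm.cycleType_inv]
        · rw [← sum_cycleType, hxt]
          simp
          omega
  · rintro ⟨rfl, rfl⟩
    have hA : Nat.card (alternatingGroup (Fin 5)) = 60 := by
      rw [Nat.card_eq_fintype_card]; decide +kernel
    have hPcard : Nat.card (P : Subgroup (alternatingGroup (Fin 5))) = 4 := by
      rw [P.card_eq_multiplicity, hA]
      have : Nat.factorization 60 2 = 2 := by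
        rw [Nat.factorization_def _ Nat.prime_two, show 60 = 2 ^ 2 * 15 by norm_num,
          padicValNat.mul (by norm_num) (by norm_num), padicValNat.prime_pow,
          padicValNat.eq_zero_of_not_dvd (by norm_num)]
      rw [this]; norm_num
    have hN24 : ((Subgroup.centralizer ((P : Subgroup (alternatingGroup (Fin 5))) : Set (alternatingGroup (Fin 5)))).subgroupOf (Subgroup.normalizer ((P : Subgroup (alternatingGroup (Fin 5))) : Set (alternatingGroup (Fin 5))))).index ∣ 24 := by
      rw [← Subgroup.normalizerMonoidHom_ker, Subgroup.index_ker]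
      refine (Subgroup.card_subgroup_dvd_card _).trans ?_
      have h1 := Subgroup.card_dvd_of_injective (MulAut.toPerm (M := (P : Subgroup (alternatingGroup (Fin 5)))))
        (fun f g h => MulEquiv.toEquiv_injective h)
      rw [Nat.card_perm, hPcard] at h1
      exact h1
    have hN15 : ((Subgroup.centralizer ((P : Subgroup (alternatingGroup (Fin 5))) : Set (alternatingGroup (Fin 5)))).subgroupOf (Subgroup.normalizer ((P : Subgroup (alternatingGroup (Fin 5))) : Set (alternatingGroup (Fin 5))))).index ∣ 15 := by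
      have h1 : (P : Subgroup (alternatingGroup (Fin 5))).relIndex (Subgroup.normalizer ((P : Subgroup (alternatingGroup (Fin 5))) : Set (alternatingGroup (Fin 5)))) ∣ 15 := by
        have h2 := Subgroup.relIndex_mul_index (Subgroup.le_normalizer (H := (P : Subgroup (alternatingGroup (Fin 5)))))
        have h3 := (P : Subgroup (alternatingGroup (Fin 5))).card_mul_index
        rw [hPcard, hA] at h3
        have h4 : (P : Subgroup (alternatingGroup (Fin 5))).index = 15 := by omega
        rw [h4] at h2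
        exact ⟨_, h2.symm⟩
      exact (Subgroup.relIndex_dvd_of_le_left _ (Subgroup.le_centralizer _)).trans h1
    constructor
    · have h3 := Nat.dvd_gcd hN24 hN15
      norm_num at h3
      rcases (Nat.dvd_prime Nat.prime_three).1 h3 with h | h
      · exfalso
        rw [Subgroup.index_eq_one, Subgroup.subgroupOf_eq_top] at h
        have hc := MonoidHom.ker_transferSylow_isComplement' P h
        have hcard := hc.card_mul_card
        rw [hPcard, hA] at hcard
        have hs : IsSimpleGroup (alternatingGroup (Fin 5)) := inferInstance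
        rcases hs.eq_bot_or_eq_top_of_normal (MonoidHom.transferSylow P h).ker inferInstance with h5 | h5
        · rw [h5, Subgroup.card_bot] at hcard; omega
        · rw [h5, Subgroup.card_top, hA] at hcard; omega
      · exact h
    · refine ⟨hPcard, ?_⟩
      have h4 : ∀ x : alternatingGroup (Fin 5), x ^ 4 = 1 → x ^ 2 = 1 := by decide +kernel
      have h2 : Monoid.exponent (P : Subgroup (alternatingGroup (Fin 5))) ∣ 2 := by
        apply Monoid.exponent_dvd_of_forall_pow_eq_one
        intro g
        apply Subtype.ext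
        rw [Subgroup.coe_pow, Subgroup.coe_one]
        apply h4
        have := pow_card_eq_one' (x := g)
        rw [hPcard] at this
        have h5 := congrArg Subtype.val this
        simpa using h5
      rcases (Nat.dvd_prime Nat.prime_two).1 h2 with h | h
      · exfalso
        have := Monoid.exp_eq_one_iff.1 h
        have h6 := Nat.card_of_subsingleton (1 : (P : Subgroup (alternatingGroup (Fin 5))))
        omega
      · exact h

end Cfsg.Agent.S2269
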