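import Cfsg.Statements.S2279
import Cfsg.Agent.Lib.H43.RegPair

set_option autoImplicit false
open Cfsg

namespace Cfsg.Agent.S2279


open Matrix H43.RegUni H43.RegHess H43.RegPair H94.Transv

/-- the pair for non-prime `q` -/
theorem nonprime {F : Type*} [Field F] [Fintype F] (n : ℕ) (hn : 4 ≤ n) (hq : 4 ≤ Fintype.card F) :
    ∃ u : Matrix.SpecialLinearGroup (Fin n) F,
      (IsNilpotent ((u : Matrix (Fin n) (Fin n) F) - 1) ∧ ((u : Matrix (Fin n) (Fin n) F) - 1) ^ (n - 1) ≠ 0) ∧
      Subgroup.closure ({WS n F, u} : Set (Matrix.SpecialLinearGroup (Fin n) F)) = ⊤ := by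
  classical
  obtain ⟨z, hz0, hzg, hzo⟩ := exists_zeta F
  let d : Fin n → F := fun i => (if i = ⟨0, by omega⟩ then z else 1) * (if i = ⟨1, by omega⟩ then (z ^ 4)⁻¹ else 1) *
    (if i = ⟨n - 2, by omega⟩ then z ^ 2 else 1) * (if i = ⟨n - 1, by omega⟩ then z else 1)
  have hprod : ∏ i, d i = 1 := by
    simp only [d]
    rw [Finset.prod_mul_distrib, Finset.prod_mul_distrib, Finset.prod_mul_distrib, Finset.prod_ite_eq',
      Finset.prod_ite_eq', Finset.prod_ite_eq', Finset.prod_ite_eq']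
    simp only [Finset.mem_univ, if_true]
    field_simp
  have hz1 : z ≠ 1 := by
    intro h
    have := Nat.le_of_dvd one_pos (hzo 1 (by rw [h, one_pow]))
    omega
  have hz2 : z ^ 2 ≠ z := by
    intro h
    apply hz1
    have : z * z = z * 1 := by rw [mul_one, ← sq, h]
    exact mul_left_cancel₀ hz0 this
  have hz4 : (z ^ 4)⁻¹ ≠ z := by
    intro h
    have h5 : z ^ 5 = 1 := by
      rw [pow_succ]
      nth_rewrite 2 [← h]
      exact mul_inv_cancel₀ (pow_ne_zero 4 hz0)
    have h6 := hzo 5 h5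
    have h7 := Nat.le_of_dvd (by norm_num) h6
    have h8 : Fintype.card F ≠ 6 := card_ne_six
    have h9 : Fintype.card F = 4 ∨ Fintype.card F = 5 := by omega
    rcases h9 with h9 | h9 <;> rw [h9] at h6 <;> revert h6 <;> decide
  have hd0 : d ⟨0, by omega⟩ = z := by
    simp only [d]
    rw [if_pos trivial, if_neg (by rw [Fin.mk.injEq]; omega), if_neg (by rw [Fin.mk.injEq]; omega),
      if_neg (by rw [Fin.mk.injEq]; omega), mul_one, mul_one, mul_one]
  have hdn : d ⟨n - 1, by omega⟩ = z := by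
    simp only [d]
    rw [if_neg (by rw [Fin.mk.injEq]; omega), if_neg (by rw [Fin.mk.injEq]; omega),
      if_neg (by rw [Fin.mk.injEq]; omega), if_pos trivial, one_mul, one_mul, one_mul]
  have hdn2 : d ⟨n - 2, by omega⟩ = z ^ 2 := by
    simp only [d]
    rw [if_neg (by rw [Fin.mk.injEq]; omega), if_neg (by rw [Fin.mk.injEq]; omega),
      if_pos trivial, if_neg (by rw [Fin.mk.injEq]; omega), one_mul, one_mul, mul_one]
  have hdne : ∀ i, d i ≠ 0 := by
    intro i
    simp only [d]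
    refine mul_ne_zero (mul_ne_zero (mul_ne_zero ?_ ?_) ?_) ?_ <;> split_ifs <;>
      first | exact one_ne_zero | exact hz0 | exact pow_ne_zero _ hz0 | exact inv_ne_zero (pow_ne_zero _ hz0)
  have hne : ∀ i : Fin n, (i : ℕ) ≠ 0 → (i : ℕ) ≠ n - 1 → d i ≠ z := by
    intro i hi0 hin
    simp only [d]
    rw [if_neg (fun h => hi0 (by rw [h])), if_neg (fun h : i = ⟨n - 1, by omega⟩ => hin (by rw [h])), one_mul, mul_one]
    by_cases h1 : i = ⟨1, by omega⟩
    · rw [if_pos h1, if_neg, mul_one]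
      · exact hz4
      · rw [h1, Fin.mk.injEq]; omega
    · rw [if_neg h1, one_mul]
      split_ifs
      · exact hz2
      · exact fun h => hz1 h.symm
  obtain ⟨u, y, hy, hu, hH, hnil, hcl⟩ := exists_pair (by omega) d z hd0 hdn hdne hprod hz1 hne (by
    intro S hS x hx hx0 a
    by_cases ha : a = 0
    · rw [ha]; exact S.zero_mem
    obtain ⟨k, hk⟩ := hzg (a / x) (div_ne_zero ha hx0)
    have hk' : a = z ^ k * x := by rw [← hk, div_mul_cancel₀ _ hx0]
    rw [hdn2] at hS
    have hzz : z ^ 2 / z = z := by field_simp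
    rw [hzz] at hS
    have key : ∀ k : ℕ, z ^ k * x ∈ S := by
      intro k
      induction k with
      | zero => rw [pow_zero, one_mul]; exact hx
      | succ k ih => rw [pow_succ', mul_assoc]; exact hS _ ih
    rw [hk']; exact key k)
  exact ⟨u, regular_of_hess (by omega) hH hnil, hcl⟩
/-- Let F be a finite field with q elements and n ≥ 4. Then SL_n(F) is generated by two regular unipotent elements (elements u with u − 1 nilpotent and (u − 1)^(n−1) ≠ 0); if q is prime, the two can be taken conjugate in SL_n(F). -/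
theorem result {F : Type*} [Field F] [Fintype F] (n : ℕ) (hn : 4 ≤ n) :
    (∃ u v : Matrix.SpecialLinearGroup (Fin n) F, (IsNilpotent ((u : Matrix (Fin n) (Fin n) F) - 1) ∧ ((u : Matrix (Fin n) (Fin n) F) - 1) ^ (n - 1) ≠ 0) ∧ (IsNilpotent ((v : Matrix (Fin n) (Fin n) F) - 1) ∧ ((v : Matrix (Fin n) (Fin n) F) - 1) ^ (n - 1) ≠ 0) ∧
      Subgroup.closure ({u, v} : Set (Matrix.SpecialLinearGroup (Fin n) F)) = ⊤) ∧
    ((Fintype.card F).Prime → ∃ u g : Matrix.SpecialLinearGroup (Fin n) F, (IsNilpotent ((u : Matrix (Fin n) (Fin n) F) - 1) ∧ ((u : Matrix (Fin n) (Fin n) F) - 1) ^ (n - 1) ≠ 0) ∧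
      Subgroup.closure ({u, g * u * g⁻¹} : Set (Matrix.SpecialLinearGroup (Fin n) F)) = ⊤) := by

  classical
  by_cases hp : (Fintype.card F).Prime
  · have h := prime_case (F := F) hp hn
    set t : Matrix.SpecialLinearGroup (Fin n) F :=
      tS (⟨0, by omega⟩ : Fin n) ⟨n - 1, by omega⟩ (by rw [Ne, Fin.mk.injEq]; omega) 1 with ht
    refine ⟨⟨WS n F, t * WS n F * t⁻¹, WS_regular (by omega), ?_, h⟩, fun _ => ⟨WS n F, t, WS_regular (by omega), h⟩⟩
    have e1 : ((t * WS n F * t⁻¹ : Matrix.SpecialLinearGroup (Fin n) F) : Matrix (Fin n) (Fin n) F) - 1 =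
        (t : Matrix (Fin n) (Fin n) F) * ((WS n F : Matrix.SpecialLinearGroup (Fin n) F) - 1 : Matrix (Fin n) (Fin n) F) *
          ((t⁻¹ : Matrix.SpecialLinearGroup (Fin n) F) : Matrix (Fin n) (Fin n) F) := by
      rw [mul_sub, sub_mul, mul_one, ← Matrix.SpecialLinearGroup.coe_mul, ← Matrix.SpecialLinearGroup.coe_mul,
        ← Matrix.SpecialLinearGroup.coe_mul, mul_inv_cancel, Matrix.SpecialLinearGroup.coe_one]
    have e2 : ∀ (M : Matrix (Fin n) (Fin n) F) (k : ℕ), ((t : Matrix (Fin n) (Fin n) F) * M *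
        ((t⁻¹ : Matrix.SpecialLinearGroup (Fin n) F) : Matrix (Fin n) (Fin n) F)) ^ k =
        (t : Matrix (Fin n) (Fin n) F) * M ^ k * ((t⁻¹ : Matrix.SpecialLinearGroup (Fin n) F) : Matrix (Fin n) (Fin n) F) := by
      intro M k
      have e3 : ((t⁻¹ : Matrix.SpecialLinearGroup (Fin n) F) : Matrix (Fin n) (Fin n) F) * (t : Matrix (Fin n) (Fin n) F) = 1 := by
        rw [← Matrix.SpecialLinearGroup.coe_mul, inv_mul_cancel, Matrix.SpecialLinearGroup.coe_one]
      have e4 : (t : Matrix (Fin n) (Fin n) F) * ((t⁻¹ : Matrix.SpecialLinearGroup (Fin n) F) : Matrix (Fin n) (Fin n) F) = 1 := by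
        rw [← Matrix.SpecialLinearGroup.coe_mul, mul_inv_cancel, Matrix.SpecialLinearGroup.coe_one]
      induction k with
      | zero => rw [pow_zero, pow_zero, mul_one, e4]
      | succ k ih =>
        rw [pow_succ, ih, pow_succ]
        calc _ = (t : Matrix (Fin n) (Fin n) F) * M ^ k * (((t⁻¹ : Matrix.SpecialLinearGroup (Fin n) F) : Matrix (Fin n) (Fin n) F) *
              (t : Matrix (Fin n) (Fin n) F)) * M * ((t⁻¹ : Matrix.SpecialLinearGroup (Fin n) F) : Matrix (Fin n) (Fin n) F) := by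
                simp only [mul_assoc]
          _ = _ := by rw [e3, mul_one, mul_assoc (t : Matrix (Fin n) (Fin n) F) (M ^ k) M]
    obtain ⟨⟨k, hk⟩, hreg⟩ := WS_regular (F := F) (n := n) (by omega)
    rw [e1]
    refine ⟨⟨k, by rw [e2, hk, mul_zero, zero_mul]⟩, ?_⟩
    rw [e2]
    intro h0
    apply hreg
    have e3 : ((t⁻¹ : Matrix.SpecialLinearGroup (Fin n) F) : Matrix (Fin n) (Fin n) F) * (t : Matrix (Fin n) (Fin n) F) = 1 := by
      rw [← Matrix.SpecialLinearGroup.coe_mul, inv_mul_cancel, Matrix.SpecialLinearGroup.coe_one]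
    have h1 := congrArg (fun M => ((t⁻¹ : Matrix.SpecialLinearGroup (Fin n) F) : Matrix (Fin n) (Fin n) F) * M *
      (t : Matrix (Fin n) (Fin n) F)) h0
    simp only [mul_zero, zero_mul] at h1
    rw [← h1]
    calc _ = 1 * (((WS n F : Matrix.SpecialLinearGroup (Fin n) F) - 1 : Matrix (Fin n) (Fin n) F) ^ (n - 1)) * 1 := by
          rw [one_mul, mul_one]
      _ = _ := by rw [← e3]; simp only [mul_assoc]
  · refine ⟨?_, fun h => absurd h hp⟩
    have hq1 : 1 < Fintype.card F := Fintype.one_lt_card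
    have hq : 4 ≤ Fintype.card F := by
      by_contra hcon
      have : Fintype.card F = 2 ∨ Fintype.card F = 3 := by omega
      rcases this with h | h <;> rw [h] at hp <;> revert hp <;> decide
    obtain ⟨u, hu, hcl⟩ := nonprime n hn hq
    exact ⟨WS n F, u, WS_regular (by omega), hu, hcl⟩

end Cfsg.Agent.S2279
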