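import Cfsg.Statements.S2280
import Cfsg.Agent.Lib.H43.RegUni

set_option autoImplicit false
open Cfsg

namespace Cfsg.Agent.S2280

open Matrix H43.RegUni H94.Transv
open Cfsg.Geo

/-- Let F be a finite field and n ≥ 3. Then SL_n(F) is generated by three conjugate regular unipotent elements: there are u with u − 1 nilpotent and (u − 1)^(n−1) ≠ 0, and g, h, such that u, g u g⁻¹ and h u h⁻¹ generate SL_n(F). -/
theorem result {F : Type*} [Field F] [Fintype F] (n : ℕ) (hn : 3 ≤ n) :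
    ∃ u g h : Matrix.SpecialLinearGroup (Fin n) F, (IsNilpotent ((u : Matrix (Fin n) (Fin n) F) - 1) ∧ ((u : Matrix (Fin n) (Fin n) F) - 1) ^ (n - 1) ≠ 0) ∧
      Subgroup.closure ({u, g * u * g⁻¹, h * u * h⁻¹} : Set (Matrix.SpecialLinearGroup (Fin n) F)) = ⊤ := by
  classical
  -- the three generators: J, g J g⁻¹, h J h⁻¹
  have hn2 : 2 ≤ n := by omega
  set g : Matrix.SpecialLinearGroup (Fin n) F := gS (by omega) with hg
  have h01 : (⟨0, by omega⟩ : Fin n) ≠ ⟨n - 2, by omega⟩ := by rw [Ne, Fin.mk.injEq]; omega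
  have h02 : (⟨0, by omega⟩ : Fin n) ≠ ⟨n - 1, by omega⟩ := by rw [Ne, Fin.mk.injEq]; omega
  -- the constant κ₀ depends only on n and F
  let u' : GL (Fin n) F := Matrix.SpecialLinearGroup.toGL (JS n F)
  let w' : GL (Fin n) F := Matrix.SpecialLinearGroup.toGL (g * JS n F * g⁻¹)
  have hu : (u' : Matrix (Fin n) (Fin n) F) = 1 + NN n F := rfl
  have hw : (w' : Matrix (Fin n) (Fin n) F) = 1 + LL (ll n F) := gS_conj hn2
  obtain ⟨κ₀, hκ, hmain⟩ := exists_kappa hn (ll n F) ll_ne hu hw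
  obtain ⟨c, hc⟩ := exists_gen κ₀ hκ
  refine ⟨JS n F, g, tS ⟨0, by omega⟩ ⟨n - 2, by omega⟩ h01 c, ⟨?_, ?_⟩, ?_⟩
  · change IsNilpotent (1 + NN n F - 1)
    rw [add_sub_cancel_left]; exact NN_nilpotent
  · change (1 + NN n F - 1) ^ (n - 1) ≠ 0
    rw [add_sub_cancel_left]; exact NN_pow_ne (by omega)
  · set H := Subgroup.closure ({JS n F, g * JS n F * g⁻¹, tS ⟨0, by omega⟩ ⟨n - 2, by omega⟩ h01 c * JS n F *
      (tS ⟨0, by omega⟩ ⟨n - 2, by omega⟩ h01 c)⁻¹} : Set (Matrix.SpecialLinearGroup (Fin n) F)) with hH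
    have m1 : JS n F ∈ H := Subgroup.subset_closure (by simp)
    have m2 : g * JS n F * g⁻¹ ∈ H := Subgroup.subset_closure (by simp)
    have m3 : tS ⟨0, by omega⟩ ⟨n - 2, by omega⟩ h01 c * JS n F * (tS ⟨0, by omega⟩ ⟨n - 2, by omega⟩ h01 c)⁻¹ ∈ H :=
      Subgroup.subset_closure (by simp)
    rw [conj_JS hn c] at m3
    have m4 : tS (⟨0, by omega⟩ : Fin n) ⟨n - 1, by omega⟩ h02 c ∈ H := by
      have := H.mul_mem (H.inv_mem m1) m3
      rwa [inv_mul_cancel_left] at this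
    have hle := hmain (K := H.map Matrix.SpecialLinearGroup.toGL) ⟨_, m1, rfl⟩ ⟨_, m2, rfl⟩ c hc (by
      refine ⟨?_, _, ⟨_, m4, rfl⟩, ?_⟩
      · simp only [dotProduct_single, mul_one, Pi.single_apply]
        rw [if_neg h02]
      · change Matrix.transvection _ _ c = _
        rw [transvection_eq_tm]
        have e1 : (Pi.single (⟨0, by omega⟩ : Fin n) c : Fin n → F) = c • Pi.single (⟨0, by omega⟩ : Fin n) (1 : F) := by
          funext j; simp [Pi.single_apply]
        have e2 : (Pi.single (⟨n - 1, by omega⟩ : Fin n) c : Fin n → F) = c • Pi.single (⟨n - 1, by omega⟩ : Fin n) (1 : F) := by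
          funext j; simp [Pi.single_apply]
        rw [e1, e2, tm_smul])
    rw [eq_top_iff]
    intro x _
    have hx : Matrix.SpecialLinearGroup.toGL x ∈ specialLinear (Fin n) F := by
      rw [mem_specialLinear_iff]
      exact x.det_coe
    obtain ⟨y, hy, hxy⟩ := hle hx
    rw [← Matrix.SpecialLinearGroup.toGL_injective hxy]
    exact hy

end Cfsg.Agent.S2280
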