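import Mathlib
import Cfsg.Statements.S2282
import Cfsg.Agent.Lib.H6.UnI
import Cfsg.Agent.Lib.H43.SU3Fin

set_option autoImplicit false
open Cfsg

namespace Cfsg.Agent.S2282

/-- Let F be a field with q² elements, n ≥ 3 odd with (n, q) ≠ (3, 2), and SU_n(q) the special unitary group of the standard Hermitian form Σ u_i v_i^q. Then SU_n(q) is generated by three conjugate regular unipotent elements: there are u ∈ SU_n(q) with u − 1 nilpotent and (u − 1)^(n−1) ≠ 0, and g, h ∈ SU_n(q), such that u, g u g⁻¹ and h u h⁻¹ generate SU_n(q). -/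
theorem result {F : Type*} [Field F] [Fintype F] (q : ℕ) (hF : Fintype.card F = q ^ 2) (n : ℕ) (hn : 3 ≤ n) (hodd : Odd n) (h32 : ¬ (n = 3 ∧ q = 2)) :
    ∃ u g h : ↥(Cfsg.SU n F q), (IsNilpotent (((u : Matrix.SpecialLinearGroup (Fin n) F) : Matrix (Fin n) (Fin n) F) - 1) ∧ (((u : Matrix.SpecialLinearGroup (Fin n) F) : Matrix (Fin n) (Fin n) F) - 1) ^ (n - 1) ≠ 0) ∧
      Subgroup.closure ({u, g * u * g⁻¹, h * u * h⁻¹} : Set ↥(Cfsg.SU n F q)) = ⊤ := by
  obtain ⟨m, hm⟩ := hodd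
  by_cases h3 : n = 3
  · subst h3
    have hq2 := H44.UField.two_le hF
    have hq : 3 ≤ q := by
      by_contra hcon
      exact h32 ⟨rfl, by omega⟩
    obtain ⟨u, g, hu, hcl⟩ := H43.SU3.main hq hF
    refine ⟨u, g, 1, hu, ?_⟩
    rw [eq_top_iff, ← hcl]
    apply Subgroup.closure_mono
    intro x hx
    rcases hx with hx | hx
    · exact Or.inl hx
    · exact Or.inr (Or.inl hx)
  · obtain ⟨u, g, h, ⟨h1, h2⟩, h4⟩ := H6.UnR.main q hF m (by omega) n (by omega)
    refine ⟨u, g, h, ⟨h1, ?_⟩, h4⟩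
    rwa [show n - 1 = 2 * m by omega]

end Cfsg.Agent.S2282
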