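import Cfsg.Statements.S2288
import Cfsg.Agent.Lib.H43.SLFour

set_option autoImplicit false
open Cfsg

namespace Cfsg.Agent.S2288

/-- For every finite field F and n ≥ 4: SL_n(F) has a presentation with 7 generators and at most 25 relations, and PSL_n(F) one with 7 generators and at most 26 relations; moreover SL_4(F) has one with 6 generators and at most 21 relations and SL_5(F) one with 6 generators and at most 22 relations. -/
theorem result {F : Type*} [Field F] [Fintype F] (n : ℕ) (hn : 4 ≤ n) :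
    (∃ rels : Finset (FreeGroup (Fin 7)), rels.card ≤ 25 ∧ Nonempty (PresentedGroup (↑rels : Set (FreeGroup (Fin 7))) ≃* Matrix.SpecialLinearGroup (Fin n) F)) ∧ (∃ rels : Finset (FreeGroup (Fin 7)), rels.card ≤ 26 ∧ Nonempty (PresentedGroup (↑rels : Set (FreeGroup (Fin 7))) ≃* Matrix.ProjectiveSpecialLinearGroup (Fin n) F)) ∧
    (∃ rels : Finset (FreeGroup (Fin 6)), rels.card ≤ 21 ∧ Nonempty (PresentedGroup (↑rels : Set (FreeGroup (Fin 6))) ≃* Matrix.SpecialLinearGroup (Fin 4) F)) ∧ (∃ rels : Finset (FreeGroup (Fin 6)), rels.card ≤ 22 ∧ Nonempty (PresentedGroup (↑rels : Set (FreeGroup (Fin 6))) ≃* Matrix.SpecialLinearGroup (Fin 5) F)) := by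
  have h4 : H43.Tietze.HasPres (Matrix.SpecialLinearGroup (Fin 4) F) 4 18 := H43.SLRels.pres_four F H43.AltPres.pres_A4
  refine ⟨?_, ?_, ?_, ?_⟩
  · rcases Nat.eq_or_lt_of_le hn with h | h
    · subst h
      exact ((h4.pad 3).mono (by norm_num) : H43.Tietze.HasPres _ 7 25)
    · exact ((H43.SLRels.pres_big F h (H43.AltPres.pres_An h)).pad 2 : H43.Tietze.HasPres _ 7 25)
  · rcases Nat.eq_or_lt_of_le hn with h | h
    · subst h
      exact (((H43.SLRels.pres_psl h4).pad 3).mono (by norm_num) : H43.Tietze.HasPres _ 7 26)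
    · exact ((H43.SLRels.pres_psl (H43.SLRels.pres_big F h (H43.AltPres.pres_An h))).pad 2 : H43.Tietze.HasPres _ 7 26)
  · exact ((h4.pad 2).mono (by norm_num) : H43.Tietze.HasPres _ 6 21)
  · exact (((H43.SLRels.pres_big F (le_refl 5) H43.AltPres.pres_A5).pad 2).mono (by norm_num) : H43.Tietze.HasPres _ 6 22)

end Cfsg.Agent.S2288
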