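import Cfsg.Statements.S2291
import Cfsg.Agent.Lib.H6.UpO
import Cfsg.Agent.Lib.H43.SUTwoC
import Cfsg.Agent.Lib.H43.AltFin

set_option autoImplicit false
open Cfsg

namespace Cfsg.Agent.S2291

open H43.Tietze

/-- Let F be a field with q² elements and n ≥ 3 with (n, q) ≠ (3, 2). Then the simple group PSU_n(q) (for the standard Hermitian form) has a presentation with 2 generators and at most 80 relations. -/
theorem result {F : Type*} [Field F] [Fintype F] (q n : ℕ) (hF : Fintype.card F = q ^ 2) (hn : 3 ≤ n) (h32 : ¬ (n = 3 ∧ q = 2)) :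
    ∃ rels : Finset (FreeGroup (Fin 2)), rels.card ≤ 80 ∧ Nonempty (PresentedGroup (↑rels : Set (FreeGroup (Fin 2))) ≃* Cfsg.PSU n F q) := by
  have hq1 : 1 < q := H16.Herm.one_lt_q hF
  have h1 : ∃ m, HasPres (Cfsg.SU n F q) m 76 := by
    by_cases h3 : n = 3
    · subst h3
      have hq : 3 ≤ q := by
        by_contra h
        exact h32 ⟨rfl, by omega⟩
      exact ⟨3, (H43.U3.pres_SU3 hF hq).mono (by norm_num)⟩
    by_cases h4 : n = 4
    · subst h4
      exact ⟨6, (H6.Up.pres_SU4 hF).mono (by norm_num)⟩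
    · exact ⟨9, H6.Up.pres_big hF (by omega)⟩
  obtain ⟨m, h1⟩ := h1
  have h2 := H43.U3.psu_pres hF (by omega : 2 ≤ n) h1
  obtain ⟨a, b, hab⟩ := H43.SUTwoC.two_gen_quot (QuotientGroup.mk' (Subgroup.center (Cfsg.SU n F q)))
    (QuotientGroup.mk'_surjective _) (H43.SUTwoC.SU_two_gen hF n hn (fun h h' => h32 ⟨h, h'⟩))
  have h3 : Subgroup.closure (Set.range ![a, b]) = ⊤ := by
    rw [Matrix.range_cons, Matrix.range_cons, Matrix.range_empty, Set.union_empty, Set.singleton_union]
    exact hab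
  exact (h2.change (m' := 2) ![a, b] h3).mono (by norm_num)

end Cfsg.Agent.S2291
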