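import Mathlib
import Cfsg.Statements.S2296
import Cfsg.Agent.Lib.H6.SpPresE

set_option autoImplicit false
open Cfsg

namespace Cfsg.Agent.S2296

/-- Let F be a finite field. Sp_2n(F) has a presentation with 10 generators and at most 58 relations for n ≥ 4, with 9 generators and at most 57 relations for n = 4 or 5, and with 8 generators and at most 52 relations for n = 3; in each case PSp_2n(F) has a presentation with the same number of generators and at most one more relation. -/
theorem result {F : Type*} [Field F] [Fintype F] (n : ℕ) :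
    (4 ≤ n → (∃ rels : Finset (FreeGroup (Fin 10)), rels.card ≤ 58 ∧ Nonempty (PresentedGroup (↑rels : Set (FreeGroup (Fin 10))) ≃* Matrix.symplecticGroup (Fin n) F)) ∧ (∃ rels : Finset (FreeGroup (Fin 10)), rels.card ≤ 59 ∧ Nonempty (PresentedGroup (↑rels : Set (FreeGroup (Fin 10))) ≃* Cfsg.PSp n F))) ∧
    ((n = 4 ∨ n = 5) → (∃ rels : Finset (FreeGroup (Fin 9)), rels.card ≤ 57 ∧ Nonempty (PresentedGroup (↑rels : Set (FreeGroup (Fin 9))) ≃* Matrix.symplecticGroup (Fin n) F)) ∧ (∃ rels : Finset (FreeGroup (Fin 9)), rels.card ≤ 58 ∧ Nonempty (PresentedGroup (↑rels : Set (FreeGroup (Fin 9))) ≃* Cfsg.PSp n F))) ∧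
    (n = 3 → (∃ rels : Finset (FreeGroup (Fin 8)), rels.card ≤ 52 ∧ Nonempty (PresentedGroup (↑rels : Set (FreeGroup (Fin 8))) ≃* Matrix.symplecticGroup (Fin n) F)) ∧ (∃ rels : Finset (FreeGroup (Fin 8)), rels.card ≤ 53 ∧ Nonempty (PresentedGroup (↑rels : Set (FreeGroup (Fin 8))) ≃* Cfsg.PSp n F))) := by
  have key : ∀ n, 3 ≤ n → H43.Tietze.HasPres (Matrix.symplecticGroup (Fin n) F) 6 47 := by
    intro n hn
    obtain ⟨m, rfl⟩ : ∃ m, n = m + 2 := ⟨n - 2, by omega⟩
    exact H6.SpPres.sp_more m (by omega)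
  refine ⟨fun hn => ?_, fun hn => ?_, fun hn => ?_⟩
  · have : NeZero n := ⟨by omega⟩
    have h := (key n (by omega)).pad 4
    exact ⟨h.mono (by norm_num), (H6.SpPres.psp_of_sp h).mono (by norm_num)⟩
  · have : NeZero n := ⟨by omega⟩
    have h := (key n (by omega)).pad 3
    exact ⟨h.mono (by norm_num), (H6.SpPres.psp_of_sp h).mono (by norm_num)⟩
  · have : NeZero n := ⟨by omega⟩
    have h := (key n (by omega)).pad 2
    exact ⟨h.mono (by norm_num), (H6.SpPres.psp_of_sp h).mono (by norm_num)⟩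

end Cfsg.Agent.S2296
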