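import Cfsg.Statements.S2332
import Cfsg.Agent.Lib.H44.TSysLower

set_option autoImplicit false
open Cfsg

namespace Cfsg.Agent.S2332

/-- Smallest degree of a non-linear irreducible complex representation of SL_n over a finite field with q elements, for n ≥ 3 and (n, q) not one of (3, 2), (3, 4), (4, 2), (4, 3): every irreducible complex representation of SL_n(F) of degree at least 2 has degree at least (q^n − q)/(q − 1), and there is an irreducible complex representation of exactly that degree. -/
theorem result {F : Type*} [Field F] [Fintype F] [DecidableEq F] (n : ℕ) (hn : 3 ≤ n)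
    (hex : (n, Fintype.card F) ≠ (3, 2) ∧ (n, Fintype.card F) ≠ (3, 4) ∧ (n, Fintype.card F) ≠ (4, 2) ∧ (n, Fintype.card F) ≠ (4, 3)) :
    (∀ (k : ℕ) (ρ : Representation ℂ (Matrix.SpecialLinearGroup (Fin n) F) (Fin k → ℂ)), ρ.IsIrreducible → 2 ≤ k → (Fintype.card F ^ n - Fintype.card F) / (Fintype.card F - 1) ≤ k) ∧
    (∃ ρ : Representation ℂ (Matrix.SpecialLinearGroup (Fin n) F) (Fin ((Fintype.card F ^ n - Fintype.card F) / (Fintype.card F - 1)) → ℂ), ρ.IsIrreducible) := by
  have hq : 2 ≤ Fintype.card F := Fintype.one_lt_card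
  rw [H44.TSys.D_formula _ _ hq (by omega)]
  refine ⟨?_, H44.TSysSL.upper (by omega)⟩
  intro k ρ hρ hk
  have hc : Fintype.card (Fin n) = n := Fintype.card_fin n
  have h := H44.TSysSL.lower (ρ := ρ) (by rw [hc]; exact hn) (by rw [hc]; exact hex) hρ
    (by rw [Module.finrank_fintype_fun_eq_card, Fintype.card_fin]; exact hk)
  rw [Module.finrank_fintype_fun_eq_card, hc, Fintype.card_fin] at h
  exact h

end Cfsg.Agent.S2332
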