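import Cfsg.Statements.S2333
import Cfsg.Agent.Lib.H44.LSSpEven
import Cfsg.Agent.Lib.H44.LSIrr

set_option autoImplicit false
open Cfsg

namespace Cfsg.Agent.S2333

/-- For a finite field F of even order q and n ≥ 2 with (n, q) ≠ (2, 2), every irreducible complex representation of the symplectic group Sp_{2n}(F) of degree at least 2 has degree at least (q^n − 1)(q^n − q)/(2(q + 1)). -/
theorem result {F : Type*} [Field F] [Fintype F] [DecidableEq F] (n : ℕ) (hn : 2 ≤ n) (heven : Even (Fintype.card F)) (hex : (n, Fintype.card F) ≠ (2, 2)) :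
    (∀ (k : ℕ) (ρ : Representation ℂ (Matrix.symplecticGroup (Fin n) F) (Fin k → ℂ)), ρ.IsIrreducible → 2 ≤ k → (Fintype.card F ^ n - 1) * (Fintype.card F ^ n - Fintype.card F) / (2 * (Fintype.card F + 1)) ≤ k) := by
  classical
  have hchar : CharP F 2 := by
    have hr : CharP F (ringChar F) := ringChar.charP F
    have hprime : (ringChar F).Prime := CharP.char_is_prime F (ringChar F)
    obtain ⟨k, _, hk⟩ := @FiniteField.card F _ _ (ringChar F) hr
    have h1 : 2 ∣ ringChar F ^ (k : ℕ) := by rw [← hk]; exact heven.two_dvd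
    have h2 := Nat.prime_two.dvd_of_dvd_pow h1
    have h3 : ringChar F = 2 := ((Nat.prime_dvd_prime_iff_eq Nat.prime_two hprime).mp h2).symm
    rw [h3] at hr
    exact hr
  have hp : (Fintype.card F : ℂ) ≠ 0 := by
    rw [Nat.cast_ne_zero]
    exact Fintype.card_ne_zero
  obtain ⟨m, rfl⟩ : ∃ m, n = m + 2 := ⟨n - 2, by omega⟩
  intro k ρ hρ hk
  have h1 := H44.LSIrr.exists_ne_one ρ hρ
    (by rw [Module.finrank_fintype_fun_eq_card, Fintype.card_fin]; exact hk)
  have hF2 : 2 ≤ Fintype.card F := Fintype.one_lt_card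
  have hex' : 1 ≤ m ∨ 3 ≤ Fintype.card F := by
    by_contra hcon
    push Not at hcon
    apply hex
    rw [Prod.mk.injEq]
    omega
  have h3 := H44.LSSpEven.lower (V := Fin k → ℂ) (l := Fin (m + 2)) hp (Fintype.card_fin (m + 2))
    hex' ρ h1
  rw [Module.finrank_fintype_fun_eq_card, Fintype.card_fin] at h3
  exact Nat.div_le_of_le_mul (by rw [mul_comm (2 * (Fintype.card F + 1)) k]; exact h3)

end Cfsg.Agent.S2333
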