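import Cfsg.Statements.S2335
import Cfsg.Agent.Lib.H44.SUPerf

set_option autoImplicit false
open Cfsg

namespace Cfsg.Agent.S2335

/-- For even n ≥ 4 and a finite field F with q² elements, (n, q) not (4, 2) or (4, 3), every irreducible complex representation of the special unitary group SU_n(q) (the determinant-one isometries of the standard Hermitian form over F) of degree at least 2 has degree at least (q^n − 1)/(q + 1). -/
theorem result {F : Type*} [Field F] [Fintype F] [DecidableEq F] (n q : ℕ) (hn : 4 ≤ n) (heven : Even n) (hF : Fintype.card F = q ^ 2) (hex : (n, q) ≠ (4, 2) ∧ (n, q) ≠ (4, 3)) :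
    (∀ (k : ℕ) (ρ : Representation ℂ (Cfsg.SU n F q) (Fin k → ℂ)), ρ.IsIrreducible → 2 ≤ k → (q ^ n - 1) / (q + 1) ≤ k) := by
  classical
  have hK : Nat.card F = q ^ 2 := by rw [Nat.card_eq_fintype_card, hF]
  have hp : (Fintype.card F : ℂ) ≠ 0 := by
    rw [Nat.cast_ne_zero]
    exact Fintype.card_ne_zero
  have h32 : ¬ (n = 3 ∧ q = 2) := fun h => by omega
  intro k ρ hρ hk
  have h1 := H44.LSIrr.exists_ne_one ρ hρ
    (by rw [Module.finrank_fintype_fun_eq_card, Fintype.card_fin]; exact hk)
  have h3 := H44.LSSU.final_even (V := Fin k → ℂ) hK hn heven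
    (H44.SUPerf.simple hF n (by omega) h32) (H44.SUPerf.perf hF n (by omega) h32) hp ρ h1
  rw [Module.finrank_fintype_fun_eq_card, Fintype.card_fin] at h3
  exact Nat.div_le_of_le_mul (by rw [mul_comm (q + 1) k]; exact h3)

end Cfsg.Agent.S2335
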