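import Cfsg.Statements.S2337
import Cfsg.Agent.Lib.H44.LSSzLower
import Cfsg.Agent.Lib.H44.LSIrr
import Cfsg.Agent.S1162

set_option autoImplicit false
open Cfsg

namespace Cfsg.Agent.S2337

/-- For the Suzuki group Sz(q), q = 2^(2m+1) with m ≥ 1 (realised inside Sp₄ over the field with q elements), every irreducible complex representation of degree at least 2 has degree at least 2^m·(q − 1). -/
theorem result {F : Type*} [Field F] [Fintype F] (m : ℕ) (hm : 1 ≤ m) (hF : Fintype.card F = 2 ^ (2 * m + 1)) :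
    (∀ (k : ℕ) (ρ : Representation ℂ (Cfsg.Lie.Sz F (2 ^ (m + 1))) (Fin k → ℂ)), ρ.IsIrreducible → 2 ≤ k → 2 ^ m * (2 ^ (2 * m + 1) - 1) ≤ k) := by
  classical
  have hS := H44.SzElts.szField_of_card m hF
  have he2 : 2 ≤ 2 ^ (m + 1) := by
    calc 2 = 2 ^ 1 := rfl
      _ ≤ 2 ^ (m + 1) := Nat.pow_le_pow_right (by norm_num) (by omega)
  have hp : (Fintype.card F : ℂ) ≠ 0 := by
    rw [Nat.cast_ne_zero]
    exact Fintype.card_ne_zero
  intro k ρ hρ hk
  have h1 := H44.LSIrr.exists_ne_one ρ hρ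
    (by rw [Module.finrank_fintype_fun_eq_card, Fintype.card_fin]; exact hk)
  have hs := Cfsg.Agent.S1162.result (F := F) hm hF
  have hker : MonoidHom.ker ρ = ⊥ := by
    rcases hs.eq_bot_or_eq_top_of_normal (MonoidHom.ker ρ) inferInstance with h | h
    · exact h
    · exfalso
      obtain ⟨g, hg⟩ := h1
      apply hg
      have : g ∈ MonoidHom.ker ρ := by rw [h]; trivial
      exact this
  have hb : ρ (H44.LSSz.zHom hS (Multiplicative.ofAdd (fun _ => 1))) ≠ 1 := by
    intro h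
    have h2 : H44.LSSz.zHom hS (Multiplicative.ofAdd (fun _ => 1)) ∈ MonoidHom.ker ρ := h
    rw [hker, Subgroup.mem_bot] at h2
    have h3 : (((H44.LSSz.zHom hS (Multiplicative.ofAdd (fun _ => 1)) :
      Cfsg.Lie.Sz F (2 ^ (m + 1))) : GL (Fin 4) F) : Matrix (Fin 4) (Fin 4) F) 2 0 = 0 := by
      rw [h2]
      simp
    have h4 : (((H44.LSSz.zHom hS (Multiplicative.ofAdd (fun _ => 1)) :
      Cfsg.Lie.Sz F (2 ^ (m + 1))) : GL (Fin 4) F) : Matrix (Fin 4) (Fin 4) F) 2 0 = 1 := rfl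
    rw [h4] at h3
    exact one_ne_zero h3
  have h3 := H44.LSSz.lower (V := Fin k → ℂ) hS he2 hp m hF ρ _ hb
  rw [Module.finrank_fintype_fun_eq_card, Fintype.card_fin, hF] at h3
  exact h3

end Cfsg.Agent.S2337
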