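import Cfsg.Statements.S2343
import Cfsg.Agent.Lib.H24.ReeRep

set_option autoImplicit false
open Cfsg

namespace Cfsg.Agent.S2343

/-- For the Ree group ²G₂(q), q = 3^(2m+1) with m ≥ 1 (realised over the field with q elements), every irreducible complex representation of degree at least 2 has degree at least q² − q + 1. -/
theorem result {K : Type*} [Field K] [Fintype K] (m : ℕ) (hm : 1 ≤ m) (hK : Fintype.card K = 3 ^ (2 * m + 1)) :
    (∀ (k : ℕ) (ρ : Representation ℂ (Cfsg.Lie.twistedG2 K (3 ^ m)) (Fin k → ℂ)), ρ.IsIrreducible → 2 ≤ k → (3 ^ (2 * m + 1)) ^ 2 - 3 ^ (2 * m + 1) + 1 ≤ k) := by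
  haveI := H24.ReeGrp.rf_of_card hK
  have hn : Nat.card K = 3 ^ (2 * m + 1) := by rw [Nat.card_eq_fintype_card, hK]
  haveI hs := H24.ReeSyl.simple (K := K) (e := 3 ^ m) hn (by omega)
  intro k ρ hρ hk
  obtain ⟨g, hg⟩ := H44.LSIrr.exists_ne_one ρ hρ
    (by rw [Module.finrank_fintype_fun_eq_card, Fintype.card_fin]; exact hk)
  have hker : MonoidHom.ker ρ = ⊥ := by
    rcases hs.eq_bot_or_eq_top_of_normal (MonoidHom.ker ρ) inferInstance with h | h
    · exact h
    · exfalso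
      apply hg
      have : g ∈ MonoidHom.ker ρ := by rw [h]; trivial
      exact this
  have h0 : ρ (H24.ReeStr.uG 0 0 1 : H24.ReeStr.G1 K (3 ^ m)) ≠ 1 := by
    intro h
    have h2 : (H24.ReeStr.uG 0 0 1 : H24.ReeStr.G1 K (3 ^ m)) ∈ MonoidHom.ker ρ := h
    rw [hker, Subgroup.mem_bot, ← H24.ReeStr.uG_zero] at h2
    exact one_ne_zero (H24.ReeUni.uG_inj h2).2.2
  have h3 := H24.ReeRep.lower (V := Fin k → ℂ) hn ρ h0
  rw [Module.finrank_fintype_fun_eq_card, Fintype.card_fin, hn] at h3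
  exact h3

end Cfsg.Agent.S2343
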