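import Cfsg.Statements.S2344
import Cfsg.Agent.Lib.H44.OD13
import Cfsg.Agent.Lib.H44.LSIrr

set_option autoImplicit false
open Cfsg

namespace Cfsg.Agent.S2344

/-- For a finite field F of odd order q > 3 and n ≥ 3, every irreducible complex representation of degree at least 2 of Ω_{2n+1}(F) (the commutator subgroup of the isometry group of the quadratic form x₀² + x₁y₁ + ⋯ + x_ny_n) has degree at least (q^{2n} − 1)/(q² − 1). -/
theorem result {F : Type*} [Field F] [Fintype F] (n : ℕ) (hn : 3 ≤ n) (hodd : Odd (Fintype.card F)) (h3 : 3 < Fintype.card F) :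
    (∀ (k : ℕ) (ρ : Representation ℂ (Cfsg.Omega F (Cfsg.quadFormOdd n F)) (Fin k → ℂ)), ρ.IsIrreducible → 2 ≤ k → (Fintype.card F ^ (2 * n) - 1) / (Fintype.card F ^ 2 - 1) ≤ k) := by
  classical
  intro k ρ hρ hk
  obtain ⟨m, rfl⟩ : ∃ m, n = m + 3 := ⟨n - 3, by omega⟩
  have h5 : 5 ≤ Fintype.card F := by
    rcases hodd with ⟨r, hr⟩
    omega
  have h2 : (2 : F) ≠ 0 := H7.OmegaIso.two_ne_zero_of_odd hodd
  obtain ⟨ε⟩ := H7.OmegaIso.nonempty_odd (F := F) (m + 1)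
  have hQ : H7.Hyp.ND (H48.QuadStd.qOdd (m + 1) F 1) := H7.HypOrd.nd_odd (m + 1) h2 one_ne_zero
  let φ := H7.OmegaIso.omegaEquiv ε (H7.OmegaIso.commutator_eq_two hQ)
  obtain ⟨K, hK, hLB⟩ := H44.OM.LB_odd hodd h5 m
  have h1 := hLB (Fin k → ℂ)
    (ρ.comp φ.symm.toMonoidHom) (by
      obtain ⟨g, hg⟩ := H44.LSIrr.exists_ne_one ρ hρ (by simpa using hk)
      refine ⟨φ g, ?_⟩
      change ρ (φ.symm (φ g)) ≠ 1
      rwa [MulEquiv.symm_apply_apply])
  rw [Module.finrank_fintype_fun_eq_card, Fintype.card_fin] at h1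
  refine le_trans (Nat.div_le_of_le_mul ?_) h1
  have h6 : Fintype.card F ^ (2 * (m + 3)) = Fintype.card F ^ (2 * m + 6) := by ring_nf
  rw [h6, ← hK, Nat.add_sub_cancel, mul_comm]

end Cfsg.Agent.S2344
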