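import Cfsg.Statements.S2345
import Cfsg.Agent.Lib.H44.OM14
import Cfsg.Agent.Lib.H44.LSIrr

set_option autoImplicit false
open Cfsg

namespace Cfsg.Agent.S2345

/-- For a finite field F with q > 3 elements and n ≥ 4, every irreducible complex representation of degree at least 2 of Ω⁺_{2n}(F) (the commutator subgroup of the isometry group of the hyperbolic quadratic form x₁y₁ + ⋯ + x_ny_n) has degree at least (q^n − 1)(q^{n−1} + q)/(q² − 1). -/
theorem result {F : Type*} [Field F] [Fintype F] (n : ℕ) (hn : 4 ≤ n) (h3 : 3 < Fintype.card F) :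
    (∀ (k : ℕ) (ρ : Representation ℂ (Cfsg.Omega F (Cfsg.quadFormPlus n F)) (Fin k → ℂ)), ρ.IsIrreducible → 2 ≤ k → (Fintype.card F ^ n - 1) * (Fintype.card F ^ (n - 1) + Fintype.card F) / (Fintype.card F ^ 2 - 1) ≤ k) := by
  classical
  intro k ρ hρ hk
  obtain ⟨m, rfl⟩ : ∃ m, n = m + 3 := ⟨n - 3, by omega⟩
  obtain ⟨ε⟩ := H7.OmegaIso.nonempty_plus (F := F) (m + 1)
  have hQ : H7.Hyp.ND (H48.QuadStd.qPlus (m + 1) F) := H7.HypOrd.nd_plus (m + 1)
  let φ := H7.OmegaIso.omegaEquiv ε (H7.OmegaIso.commutator_eq_two hQ)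
  have h1 := H44.OM.LB_plus (F := F) (by omega) m (Fin k → ℂ)
    (ρ.comp φ.symm.toMonoidHom) (by
      obtain ⟨g, hg⟩ := H44.LSIrr.exists_ne_one ρ hρ (by simpa using hk)
      refine ⟨φ g, ?_⟩
      change ρ (φ.symm (φ g)) ≠ 1
      rwa [MulEquiv.symm_apply_apply])
  rw [Module.finrank_fintype_fun_eq_card, Fintype.card_fin] at h1
  refine le_trans (Nat.div_le_of_le_mul ?_) h1
  have h2 := H44.OM.KP_eq (q := Fintype.card F) (by omega) m
  have h3 : 1 ≤ Fintype.card F ^ 2 := Nat.one_le_pow _ _ (by omega)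
  have h4 : 1 ≤ Fintype.card F ^ (m + 3) := Nat.one_le_pow _ _ (by omega)
  zify [h3, h4]
  rw [h2, show m + 3 - 1 = m + 2 by omega]
  apply le_of_eq
  ring

end Cfsg.Agent.S2345
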