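import Cfsg.Statements.S2346
import Cfsg.Agent.Lib.H44.OM22
import Cfsg.Agent.Lib.H44.LSIrr

set_option autoImplicit false
open Cfsg

namespace Cfsg.Agent.S2346

/-- For a finite field F with q elements, n ≥ 4, and a, b ∈ F with z₁² + a z₁z₂ + b z₂² anisotropic, every irreducible complex representation of degree at least 2 of Ω⁻_{2n}(F) (the commutator subgroup of the isometry group of x₁y₁ + ⋯ + x_{n−1}y_{n−1} + z₁² + a z₁z₂ + b z₂²) has degree at least (q^n + 1)(q^{n−1} − q)/(q² − 1). -/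
theorem result {F : Type*} [Field F] [Fintype F] (n : ℕ) (hn : 4 ≤ n) (a b : F) (hab : ∀ z₁ z₂ : F, z₁ ^ 2 + a * z₁ * z₂ + b * z₂ ^ 2 = 0 → z₁ = 0 ∧ z₂ = 0) :
    (∀ (k : ℕ) (ρ : Representation ℂ (Cfsg.Omega F (Cfsg.quadFormMinus (n - 1) F a b)) (Fin k → ℂ)), ρ.IsIrreducible → 2 ≤ k → (Fintype.card F ^ n + 1) * (Fintype.card F ^ (n - 1) - Fintype.card F) / (Fintype.card F ^ 2 - 1) ≤ k) := by
  classical
  intro k ρ hρ hk
  obtain ⟨m, rfl⟩ : ∃ m, n = m + 4 := ⟨n - 4, by omega⟩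
  have hq : 2 ≤ Fintype.card F := Fintype.one_lt_card
  obtain ⟨ε⟩ := H7.OmegaIso.nonempty_minus (F := F) (m + 1) a b
  have hQ : H7.Hyp.ND (H48.QuadStd.qMinus (m + 1) F a b) := H7.MinusOrd.nd_minus (m + 1) hab
  let φ := H7.OmegaIso.omegaEquiv ε (H7.OmegaIso.commutator_eq_two hQ)
  have h1 := H44.OM.LB_minus' (F := F) hab m (Fin k → ℂ)
    (ρ.comp φ.symm.toMonoidHom) (by
      obtain ⟨g, hg⟩ := H44.LSIrr.exists_ne_one ρ hρ (by simpa using hk)
      refine ⟨φ g, ?_⟩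
      change ρ (φ.symm (φ g)) ≠ 1
      rwa [MulEquiv.symm_apply_apply])
  rw [Module.finrank_fintype_fun_eq_card, Fintype.card_fin] at h1
  refine le_trans (Nat.div_le_of_le_mul ?_) h1
  have h2 := H44.OM.KM_eq (q := Fintype.card F) (by omega) (m + 1)
  have h3 : 1 ≤ Fintype.card F ^ 2 := Nat.one_le_pow _ _ (by omega)
  have h4 : Fintype.card F ≤ Fintype.card F ^ (m + 4 - 1) := Nat.le_self_pow (by omega) _
  zify [h3, h4]
  rw [h2, show m + 4 - 1 = m + 3 by omega]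
  apply le_of_eq
  ring

end Cfsg.Agent.S2346
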