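import Cfsg.Statements.S2347
import Cfsg.Agent.Lib.H44.WeilRep

set_option autoImplicit false
open Cfsg

namespace Cfsg.Agent.S2347

/-- Smallest degree of a non-linear irreducible complex representation of the symplectic group Sp_{2n} over a finite field of odd order q, n ≥ 2: every irreducible complex representation of degree at least 2 has degree at least (q^n − 1)/2, and there is an irreducible complex representation of exactly that degree (a Weil representation). -/
theorem result {F : Type*} [Field F] [Fintype F] [DecidableEq F] (n : ℕ) (hn : 2 ≤ n) (hodd : Odd (Fintype.card F)) :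
    (∀ (k : ℕ) (ρ : Representation ℂ (Matrix.symplecticGroup (Fin n) F) (Fin k → ℂ)), ρ.IsIrreducible → 2 ≤ k → (Fintype.card F ^ n - 1) / 2 ≤ k) ∧
    (∃ ρ : Representation ℂ (Matrix.symplecticGroup (Fin n) F) (Fin ((Fintype.card F ^ n - 1) / 2) → ℂ), ρ.IsIrreducible) := by
  classical
  have h2 : (2 : F) ≠ 0 := by
    intro h0
    have h1 : ringChar F ∣ 2 := (CharP.cast_eq_zero_iff F (ringChar F) 2).mp (by exact_mod_cast h0)
    have h3 : ringChar F = 2 := by
      rcases (Nat.dvd_prime Nat.prime_two).mp h1 with h | h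
      · exact absurd h (CharP.char_is_prime F (ringChar F)).ne_one
      · exact h
    have h4 : ringChar F ∣ Fintype.card F :=
      (CharP.cast_eq_zero_iff F (ringChar F) (Fintype.card F)).mp (FiniteField.cast_card_eq_zero F)
    rw [h3] at h4
    obtain ⟨k, hk⟩ := hodd
    omega
  have hp : (Fintype.card F : ℂ) ≠ 0 := by
    rw [Nat.cast_ne_zero]
    exact Fintype.card_ne_zero
  obtain ⟨m, rfl⟩ : ∃ m, n = m + 1 := ⟨n - 1, by omega⟩
  refine ⟨?_, ?_⟩
  · intro k ρ hρ hk
    have h1 := H44.LSIrr.exists_ne_one ρ hρ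
      (by rw [Module.finrank_fintype_fun_eq_card, Fintype.card_fin]; exact hk)
    have h3 := H44.LSSp.lower (V := Fin k → ℂ) hodd (Fintype.card_fin (m + 1)) hp ρ h1
    rw [Module.finrank_fintype_fun_eq_card, Fintype.card_fin] at h3
    omega
  · obtain ⟨ψ, hψ⟩ : ∃ ψ : AddChar F ℂ, ψ ≠ 1 := by
      obtain ⟨ψ, hψ⟩ := AddChar.exists_apply_ne_zero.mpr (one_ne_zero (α := F))
      refine ⟨ψ, ?_⟩
      rintro rfl
      exact hψ (AddChar.one_apply _)
    have h3 := H44.Weil.odd_irreducible (l := Fin (m + 1)) ψ h2 hψ hodd (Fintype.card_fin _)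
      (by omega)
    refine H44.LSIrr.exists_coord _ h3 ?_
    have h4 := H44.Weil.finrank_odd (F := F) (l := Fin (m + 1)) h2
    rw [Fintype.card_fun, Fintype.card_fin] at h4
    omega

end Cfsg.Agent.S2347
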