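import Cfsg.Statements.S2352
import Cfsg.Agent.Lib.H44.WordPSL
import Cfsg.Agent.Lib.H44.AltEmbed

set_option autoImplicit false
open Cfsg

namespace Cfsg.Agent.S2352

/-- A non-trivial law holds in only finitely many alternating groups: for every non-trivial element w of the free group on countably many generators there is N such that for all n ≥ N some substitution of elements of the alternating group of degree n into w is not the identity. -/
theorem result (w : FreeGroup ℕ) (hw : w ≠ 1) :
    ∃ N : ℕ, ∀ n : ℕ, N ≤ n → ∃ f : ℕ → alternatingGroup (Fin n), FreeGroup.lift f w ≠ 1 := by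
  obtain ⟨N, hN⟩ := H44.WordPSL.exists_SL_not_scalar w hw
  obtain ⟨p, hp, hpp⟩ := Nat.exists_infinite_primes N
  haveI : Fact p.Prime := ⟨hpp⟩
  obtain ⟨f, hf⟩ := hN (ZMod p) (by rw [ZMod.card]; exact hp)
  obtain ⟨M, hM⟩ := H44.AltEmbed.exists_hom_alternating (Matrix.SpecialLinearGroup (Fin 2) (ZMod p))
  refine ⟨M, fun n hn => ?_⟩
  obtain ⟨φ, hφ⟩ := hM n hn
  refine ⟨fun i => φ (f i), fun h1 => ?_⟩
  have h2 : FreeGroup.lift (fun i => φ (f i)) w = φ (FreeGroup.lift f w) := by
    have : FreeGroup.lift (fun i => φ (f i)) = φ.comp (FreeGroup.lift f) := by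
      ext i; simp
    rw [this]; rfl
  rw [h2] at h1
  have h3 : FreeGroup.lift f w = 1 := hφ (by rw [h1, map_one])
  apply hf 1
  rw [h3, one_smul]
  rfl

end Cfsg.Agent.S2352
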