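import Cfsg.Statements.S2356
import Cfsg.Agent.Lib.H49.SU3Inv4

set_option autoImplicit false
open Cfsg

namespace Cfsg.Agent.S2356

theorem comm_map {G : Type*} [Group G] (φ : G ≃* G) (a b : G) : Commute (φ a) (φ b) ↔ Commute a b := by
  constructor
  · intro h
    apply φ.injective
    rw [map_mul, map_mul]
    exact h
  · intro h
    exact h.map φ

theorem ex_map {G : Type*} [Group G] (φ : G ≃* G) (t x : G) :
    (∃ y : G, y ≠ 1 ∧ y * y = 1 ∧ Commute (φ t) y ∧ Commute y (φ x)) ↔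
      ∃ y : G, y ≠ 1 ∧ y * y = 1 ∧ Commute t y ∧ Commute y x := by
  constructor
  · rintro ⟨y, h1, h2, h3, h4⟩
    obtain ⟨y, rfl⟩ := φ.surjective y
    refine ⟨y, ?_, ?_, (comm_map φ _ _).mp h3, (comm_map φ _ _).mp h4⟩
    · rintro rfl
      exact h1 (map_one φ)
    · apply φ.injective
      rw [map_mul, h2, map_one]
  · rintro ⟨y, h1, h2, h3, h4⟩
    refine ⟨φ y, ?_, ?_, (comm_map φ _ _).mpr h3, (comm_map φ _ _).mpr h4⟩
    · intro h
      exact h1 (φ.injective (by rw [h, map_one]))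
    · rw [← map_mul, h2, map_one]

theorem transfer {G : Type*} [Group G] (φ : G ≃* G) (P Q : G → Prop) (h : ∀ x, P (φ x) ↔ Q x) :
    Nat.card {x : G // x ≠ 1 ∧ x * x = 1 ∧ P x} = Nat.card {x : G // x ≠ 1 ∧ x * x = 1 ∧ Q x} := by
  symm
  apply Nat.card_congr
  apply Equiv.subtypeEquiv φ.toEquiv
  intro x
  change _ ↔ φ x ≠ 1 ∧ φ x * φ x = 1 ∧ P (φ x)
  rw [h, ← map_mul, ne_eq, ne_eq, map_eq_one_iff φ φ.injective, map_eq_one_iff φ φ.injective]

/-- Let q be odd, F the field with q² elements, S = SU_3(F) (determinant-one isometries of the standard Hermitian form) and t an involution of S. Then: exactly q(q−1) involutions other than t commute with t; exactly q(q−2)(q²−1) involutions do not commute with t but commute with some involution commuting with t; exactly (q+1)(q²−1) involutions x do not commute with t and admit no involution commuting with both t and x; and every involution can be reached from t in at most three steps,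 each step going to an involution that commutes with the previous one (the commuting involution graph is connected of diameter 3). -/
theorem result {F : Type*} [Field F] [Fintype F] {q : ℕ} (hq : Odd q)
    (hF : Fintype.card F = q ^ 2) (t : ↥(Cfsg.SU 3 F q)) (ht : t ≠ 1) (ht2 : t * t = 1) :
    Nat.card {x : ↥(Cfsg.SU 3 F q) // x ≠ 1 ∧ x * x = 1 ∧ x ≠ t ∧ Commute t x} = q * (q - 1) ∧
    Nat.card {x : ↥(Cfsg.SU 3 F q) // x ≠ 1 ∧ x * x = 1 ∧ ¬ Commute t x ∧
        ∃ y : ↥(Cfsg.SU 3 F q), y ≠ 1 ∧ y * y = 1 ∧ Commute t y ∧ Commute y x} = q * (q - 2) * (q ^ 2 - 1) ∧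
    Nat.card {x : ↥(Cfsg.SU 3 F q) // x ≠ 1 ∧ x * x = 1 ∧ ¬ Commute t x ∧
        ∀ y : ↥(Cfsg.SU 3 F q), y ≠ 1 → y * y = 1 → ¬ (Commute t y ∧ Commute y x)} = (q + 1) * (q ^ 2 - 1) ∧
    ∀ x : ↥(Cfsg.SU 3 F q), x ≠ 1 → x * x = 1 →
      ∃ y z : ↥(Cfsg.SU 3 F q), y ≠ 1 ∧ y * y = 1 ∧ z ≠ 1 ∧ z * z = 1 ∧
        Commute t y ∧ Commute y z ∧ Commute z x := by
  obtain ⟨g, hg⟩ := H49.SU3Inv.conj hF hq (H49.SU3Inv.t0 hF) t (H49.SU3Inv.rS_ne hF hq _ _)
    (H49.SU3Inv.rS_sq hF _ _) ht ht2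
  have hφ : (MulAut.conj g : ↥(Cfsg.SU 3 F q) ≃* ↥(Cfsg.SU 3 F q)) (H49.SU3Inv.t0 hF) = t := hg
  generalize (MulAut.conj g : ↥(Cfsg.SU 3 F q) ≃* ↥(Cfsg.SU 3 F q)) = φ at hφ
  subst hφ
  have key : ∀ x : ↥(Cfsg.SU 3 F q), (∀ y : ↥(Cfsg.SU 3 F q), y ≠ 1 → y * y = 1 →
      ¬ (Commute (φ (H49.SU3Inv.t0 hF)) y ∧ Commute y (φ x))) ↔
      ∀ y : ↥(Cfsg.SU 3 F q), y ≠ 1 → y * y = 1 →
      ¬ (Commute (H49.SU3Inv.t0 hF) y ∧ Commute y x) := by
    intro x
    have := ex_map φ (H49.SU3Inv.t0 hF) x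
    constructor
    · intro h y h1 h2 h3
      obtain ⟨z, a, b, c⟩ := this.mpr ⟨y, h1, h2, h3⟩
      exact h z a b c
    · intro h y h1 h2 h3
      obtain ⟨z, a, b, c⟩ := this.mp ⟨y, h1, h2, h3⟩
      exact h z a b c
  refine ⟨?_, ?_, ?_, ?_⟩
  · rw [← H49.SU3Inv.card_one hF hq]
    apply transfer φ
    intro x
    rw [comm_map, ne_eq, φ.injective.eq_iff]
  · rw [← H49.SU3Inv.card_two hF hq]
    apply transfer φ
    intro x
    rw [comm_map, ex_map]
  · rw [← H49.SU3Inv.card_three hF hq]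
    apply transfer φ
    intro x
    rw [comm_map, key]
  · intro x hx hx2
    obtain ⟨x, rfl⟩ := φ.surjective x
    obtain ⟨y, z, h1, h2, h3, h4, h5, h6, h7⟩ := H49.SU3Inv.diameter hF hq x
      (fun h => hx (by rw [h, map_one])) (by
        apply φ.injective
        rw [map_mul, hx2, map_one])
    refine ⟨φ y, φ z, ?_, ?_, ?_, ?_, (comm_map φ _ _).mpr h5, (comm_map φ _ _).mpr h6, (comm_map φ _ _).mpr h7⟩
    · intro h
      exact h1 (φ.injective (by rw [h, map_one]))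
    · rw [← map_mul, h2, map_one]
    · intro h
      exact h3 (φ.injective (by rw [h, map_one]))
    · rw [← map_mul, h4, map_one]

end Cfsg.Agent.S2356
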