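import Cfsg.Statements.S2357
import Cfsg.Agent.Lib.H24.ReeDat

set_option autoImplicit false
open Cfsg

namespace Cfsg.Agent.S2357

theorem tcount {G : Type*} [Group G] [Finite G] {A C : Subgroup G} {n : ℕ} (h : H24.ReeDat.TDat A C n) {i : ℕ} (hi : 1 < i)
    (hd : i ∣ Nat.card A) : {x : G | orderOf x = i}.ncard * n = Nat.card G * Nat.totient i := by
  have h1 := H24.ReeCnt.ti_count (Subgroup.normalizer (A : Set G)) {x : G | x ∈ A ∧ orderOf x = i} (by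
      rintro g hg x ⟨hx1, hx2⟩
      exact ⟨(Subgroup.mem_normalizer_iff.1 hg x).1 hx1, by rw [H24.ReeTor.orderOf_conj']; exact hx2⟩) (by
      rintro g x ⟨hx1, hx2⟩ ⟨hx3, hx4⟩
      have h2 : Subgroup.zpowers x ≤ A := by rw [Subgroup.zpowers_le]; exact hx1
      rw [← h.norm _ h2 (by
        intro h3
        rw [Subgroup.zpowers_eq_bot] at h3
        rw [h3, orderOf_one] at hx2
        omega)]
      apply Subgroup.mem_normalizer_fintype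
      intro y hy
      obtain ⟨k, rfl⟩ := Subgroup.mem_zpowers_iff.1 hy
      have h4 := H24.ReeTor.mem_zpowers_of_cyclic h.cyc hx1 hx3 (by rw [hx4, hx2])
      have h5 : g * x ^ k * g⁻¹ = (g * x * g⁻¹) ^ k := by
        rw [conj_zpow]
      rw [h5]
      exact Subgroup.zpow_mem _ h4 k)
  rw [h.cardN, H24.ReeCnt.ncard_cyclic h.cyc hd] at h1
  rw [← h1]
  congr 2
  ext x
  simp only [Set.mem_setOf_eq]
  constructor
  · intro hx
    obtain ⟨g, hg⟩ := h.conj_dvd (x := x) (by rw [hx]; exact hd)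
    exact ⟨g, hg, by rw [H24.ReeTor.orderOf_conj', hx]⟩
  · rintro ⟨g, hg, h⟩
    rwa [H24.ReeTor.orderOf_conj'] at h

/-- Let R be the small Ree group over the field with q = 3^(2m+1) ≥ 27 elements and write φ for Euler's totient function. Then R has exactly q²(q²−q+1) involutions, (q²−1)(q³+1) elements of order 3, and q²(q−1)(q³+1) elements of order 6 and as many of order 9; for i > 2 dividing q−1 it has φ(i)q³(q³+1)/2 elements of order i; for i > 1 dividing (q+1)/4 it has φ(i)q³(q−1)(q²−q+1)/6 elements of order i and φ(i)q³(q−1)(q²−q+1)/2 elements of order 2i; and for i > 1 dividing q − 3^(m+1) + 1 (respectively q + 3^(m+1) + 1) it has φ(i)q³(q²−1)(q + 3^(m+1) + 1)/6 (respectively φ(i)q³(q²−1)(q − 3^(m+1) + 1)/6) elements of order i. -/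
theorem result {K : Type*} [Field K] [Fintype K] {m : ℕ} (hm : 1 ≤ m)
    (hK : Fintype.card K = 3 ^ (2 * m + 1)) :
    Nat.card {g : ↥(Cfsg.Lie.twistedG2 K (3 ^ m)) // orderOf g = 2} = (3 ^ (2 * m + 1)) ^ 2 * ((3 ^ (2 * m + 1)) ^ 2 - 3 ^ (2 * m + 1) + 1) ∧
    Nat.card {g : ↥(Cfsg.Lie.twistedG2 K (3 ^ m)) // orderOf g = 3} = ((3 ^ (2 * m + 1)) ^ 2 - 1) * ((3 ^ (2 * m + 1)) ^ 3 + 1) ∧
    Nat.card {g : ↥(Cfsg.Lie.twistedG2 K (3 ^ m)) // orderOf g = 6} = (3 ^ (2 * m + 1)) ^ 2 * (3 ^ (2 * m + 1) - 1) * ((3 ^ (2 * m + 1)) ^ 3 + 1) ∧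
    Nat.card {g : ↥(Cfsg.Lie.twistedG2 K (3 ^ m)) // orderOf g = 9} = (3 ^ (2 * m + 1)) ^ 2 * (3 ^ (2 * m + 1) - 1) * ((3 ^ (2 * m + 1)) ^ 3 + 1) ∧
    (∀ i : ℕ, 2 < i → i ∣ 3 ^ (2 * m + 1) - 1 →
      2 * Nat.card {g : ↥(Cfsg.Lie.twistedG2 K (3 ^ m)) // orderOf g = i} = Nat.totient i * (3 ^ (2 * m + 1)) ^ 3 * ((3 ^ (2 * m + 1)) ^ 3 + 1)) ∧
    (∀ i : ℕ, 1 < i → i ∣ (3 ^ (2 * m + 1) + 1) / 4 →
      6 * Nat.card {g : ↥(Cfsg.Lie.twistedG2 K (3 ^ m)) // orderOf g = i} =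
          Nat.totient i * (3 ^ (2 * m + 1)) ^ 3 * (3 ^ (2 * m + 1) - 1) * ((3 ^ (2 * m + 1)) ^ 2 - 3 ^ (2 * m + 1) + 1) ∧
        2 * Nat.card {g : ↥(Cfsg.Lie.twistedG2 K (3 ^ m)) // orderOf g = 2 * i} =
          Nat.totient i * (3 ^ (2 * m + 1)) ^ 3 * (3 ^ (2 * m + 1) - 1) * ((3 ^ (2 * m + 1)) ^ 2 - 3 ^ (2 * m + 1) + 1)) ∧
    (∀ i : ℕ, 1 < i → i ∣ 3 ^ (2 * m + 1) - 3 ^ (m + 1) + 1 →
      6 * Nat.card {g : ↥(Cfsg.Lie.twistedG2 K (3 ^ m)) // orderOf g = i} =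
        Nat.totient i * (3 ^ (2 * m + 1)) ^ 3 * ((3 ^ (2 * m + 1)) ^ 2 - 1) * (3 ^ (2 * m + 1) + 3 ^ (m + 1) + 1)) ∧
    (∀ i : ℕ, 1 < i → i ∣ 3 ^ (2 * m + 1) + 3 ^ (m + 1) + 1 →
      6 * Nat.card {g : ↥(Cfsg.Lie.twistedG2 K (3 ^ m)) // orderOf g = i} =
        Nat.totient i * (3 ^ (2 * m + 1)) ^ 3 * ((3 ^ (2 * m + 1)) ^ 2 - 1) * (3 ^ (2 * m + 1) - 3 ^ (m + 1) + 1)) := by
  haveI := H24.ReeGrp.rf_of_card hK
  have hn : Nat.card K = 3 ^ (2 * m + 1) := by rw [Nat.card_eq_fintype_card, hK]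
  obtain ⟨A1, A2, C2, A3, A4, h1, h2, h3, h4, c1, c2, c3, c4, c5, c6, ⟨y, hy, c7⟩, c8⟩ := H24.ReeDat.tori4 (K := K) (e := 3 ^ m) hm hn
  obtain ⟨k, hk, hk2⟩ := H24.ReeTor.exists_s hn
  have h27 : 3 ^ 3 ≤ Nat.card K := by rw [hn]; exact Nat.pow_le_pow_right (by norm_num) (by omega)
  rw [← hn]
  have hq1 : (Nat.card K - 1) * (Nat.card K + 1) = Nat.card K ^ 2 - 1 := by
    have : Nat.card K ^ 2 = Nat.card K * Nat.card K := by ring
    rw [this]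
    obtain ⟨t, ht⟩ := Nat.exists_eq_add_of_le h27
    rw [ht]
    have e1 : 3 ^ 3 + t - 1 = 26 + t := by omega
    rw [e1]
    have : (26 + t) * (3 ^ 3 + t + 1) + 1 = (3 ^ 3 + t) * (3 ^ 3 + t) := by ring
    omega
  have hMQ : H24.ReeTor.MQ (Nat.card K) = Nat.card K ^ 2 - Nat.card K + 1 := rfl
  refine ⟨?_, ?_, ?_, ?_, ?_, ?_, ?_, ?_⟩
  · exact H24.ReeCnt.cnt2 (K := K) (e := 3 ^ m) hn
  · refine (H24.ReeCnt.cnt3 (K := K) (e := 3 ^ m) hn (k := 3) (by norm_num)).trans ?_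
    rw [H24.ReeCnt.D3 hn, mul_comm]
  · refine (H24.ReeCnt.cnt3 (K := K) (e := 3 ^ m) hn (k := 6) (by norm_num)).trans ?_
    rw [H24.ReeCnt.D6 hn, mul_comm]
  · refine (H24.ReeCnt.cnt3 (K := K) (e := 3 ^ m) hn (k := 9) (by norm_num)).trans ?_
    rw [H24.ReeCnt.D9 hn, mul_comm]
  · intro i hi hd
    exact H24.ReeCnt.cnt_h (K := K) (e := 3 ^ m) hn hi hd
  · intro i hi hd
    rw [← hMQ]
    exact ⟨H24.ReeCnt.cnt_s (K := K) (e := 3 ^ m) hm hn (s := (Nat.card K + 1) / 4) (by omega) hi hd,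
      H24.ReeCnt.cnt_2s (K := K) (e := 3 ^ m) hm hn (s := (Nat.card K + 1) / 4) (by omega) hi hd⟩
  · intro i hi hd
    have h5 := tcount h3 hi (by rw [c3]; exact hd)
    rw [H24.ReeTor.card_G1', c8, c3, c4] at h5
    change 6 * {x : ↥(Cfsg.Lie.twistedG2 K (3 ^ m)) | orderOf x = i}.ncard = _
    rw [← hq1]
    apply Nat.eq_of_mul_eq_mul_right (show 0 < Nat.card K - 3 ^ (m + 1) + 1 by omega)
    calc 6 * {x : ↥(Cfsg.Lie.twistedG2 K (3 ^ m)) | orderOf x = i}.ncard * (Nat.card K - 3 ^ (m + 1) + 1) =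
        {x : ↥(Cfsg.Lie.twistedG2 K (3 ^ m)) | orderOf x = i}.ncard * (6 * (Nat.card K - 3 ^ (m + 1) + 1)) := by ring
      _ = _ := h5
      _ = _ := by ring
  · intro i hi hd
    have h5 := tcount h4 hi (by rw [c4]; exact hd)
    rw [H24.ReeTor.card_G1', c8, c3, c4] at h5
    change 6 * {x : ↥(Cfsg.Lie.twistedG2 K (3 ^ m)) | orderOf x = i}.ncard = _
    rw [← hq1]
    apply Nat.eq_of_mul_eq_mul_right (show 0 < Nat.card K + 3 ^ (m + 1) + 1 by omega)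
    calc 6 * {x : ↥(Cfsg.Lie.twistedG2 K (3 ^ m)) | orderOf x = i}.ncard * (Nat.card K + 3 ^ (m + 1) + 1) =
        {x : ↥(Cfsg.Lie.twistedG2 K (3 ^ m)) | orderOf x = i}.ncard * (6 * (Nat.card K + 3 ^ (m + 1) + 1)) := by ring
      _ = _ := h5
      _ = _ := by ring

end Cfsg.Agent.S2357
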