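import Cfsg.Statements.S2358
import Cfsg.Agent.Lib.H24.ReeDat

set_option autoImplicit false
open Cfsg

namespace Cfsg.Agent.S2358

/-- Let R be the small Ree group over the field with q = 3^(2m+1) ≥ 27 elements. If d divides one of (q−1)/2, (q+1)/4, q − 3^(m+1) + 1 or q + 3^(m+1) + 1, then any two cyclic subgroups of R of order d are conjugate in R. -/
theorem result {K : Type*} [Field K] [Fintype K] {m : ℕ} (hm : 1 ≤ m)
    (hK : Fintype.card K = 3 ^ (2 * m + 1)) (d : ℕ)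
    (hd : d ∣ (3 ^ (2 * m + 1) - 1) / 2 ∨ d ∣ (3 ^ (2 * m + 1) + 1) / 4 ∨ d ∣ 3 ^ (2 * m + 1) - 3 ^ (m + 1) + 1 ∨ d ∣ 3 ^ (2 * m + 1) + 3 ^ (m + 1) + 1)
    (A B : Subgroup ↥(Cfsg.Lie.twistedG2 K (3 ^ m))) (hA : IsCyclic A) (hB : IsCyclic B)
    (hAd : Nat.card A = d) (hBd : Nat.card B = d) :
    ∃ g : ↥(Cfsg.Lie.twistedG2 K (3 ^ m)), B = A.map (MulAut.conj g).toMonoidHom := by
  haveI := H24.ReeGrp.rf_of_card hK
  have hn : Nat.card K = 3 ^ (2 * m + 1) := by rw [Nat.card_eq_fintype_card, hK]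
  obtain ⟨A1, A2, C2, A3, A4, h1, h2, h3, h4, c1, c2, c3, c4, -⟩ := H24.ReeDat.tori4 (K := K) (e := 3 ^ m) hm hn
  rw [hn] at h1 h2 h3 h4 c1 c2 c3 c4
  rw [← hAd] at hd
  rcases hd with hd | hd | hd | hd
  · exact h1.cyc_conj hA hB (by rw [c1]; exact hd) (by rw [hAd, hBd])
  · exact h2.cyc_conj hA hB (by rw [c2]; exact hd) (by rw [hAd, hBd])
  · exact h3.cyc_conj hA hB (by rw [c3]; exact hd) (by rw [hAd, hBd])
  · exact h4.cyc_conj hA hB (by rw [c4]; exact hd) (by rw [hAd, hBd])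

end Cfsg.Agent.S2358
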