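import Cfsg.Statements.S2359
import Cfsg.Agent.Lib.H24.ReeDat

set_option autoImplicit false
open Cfsg

namespace Cfsg.Agent.S2359

/-- Let R be the small Ree group over the field with q = 3^(2m+1) ≥ 27 elements. If H is a cyclic subgroup of R of order (q−1)/2, then the centralizer of H in R is cyclic of order q−1, and every non-trivial subgroup of H has the same centralizer as H. If H is a cyclic subgroup of order (q+1)/4, then the centralizer of H is abelian of order q+1 with no element of order 4 (so it is the direct product of H and a group of order 4 whose non-identity elements all have order 2), and every non-trivial subgroup of H has the same centralizer as H. -/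
theorem result {K : Type*} [Field K] [Fintype K] {m : ℕ} (hm : 1 ≤ m)
    (hK : Fintype.card K = 3 ^ (2 * m + 1)) (H : Subgroup ↥(Cfsg.Lie.twistedG2 K (3 ^ m))) (hH : IsCyclic H) :
    (Nat.card H = (3 ^ (2 * m + 1) - 1) / 2 →
      IsCyclic ↥(Subgroup.centralizer (H : Set ↥(Cfsg.Lie.twistedG2 K (3 ^ m)))) ∧
        Nat.card ↥(Subgroup.centralizer (H : Set ↥(Cfsg.Lie.twistedG2 K (3 ^ m)))) = 3 ^ (2 * m + 1) - 1 ∧
        ∀ A : Subgroup ↥(Cfsg.Lie.twistedG2 K (3 ^ m)), A ≤ H → A ≠ ⊥ →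
          Subgroup.centralizer (A : Set ↥(Cfsg.Lie.twistedG2 K (3 ^ m))) = Subgroup.centralizer (H : Set ↥(Cfsg.Lie.twistedG2 K (3 ^ m)))) ∧
    (Nat.card H = (3 ^ (2 * m + 1) + 1) / 4 →
      IsMulCommutative ↥(Subgroup.centralizer (H : Set ↥(Cfsg.Lie.twistedG2 K (3 ^ m)))) ∧
        Nat.card ↥(Subgroup.centralizer (H : Set ↥(Cfsg.Lie.twistedG2 K (3 ^ m)))) = 3 ^ (2 * m + 1) + 1 ∧
        (∀ x ∈ Subgroup.centralizer (H : Set ↥(Cfsg.Lie.twistedG2 K (3 ^ m))), orderOf x ≠ 4) ∧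
        ∀ A : Subgroup ↥(Cfsg.Lie.twistedG2 K (3 ^ m)), A ≤ H → A ≠ ⊥ →
          Subgroup.centralizer (A : Set ↥(Cfsg.Lie.twistedG2 K (3 ^ m))) = Subgroup.centralizer (H : Set ↥(Cfsg.Lie.twistedG2 K (3 ^ m)))) := by
  haveI := H24.ReeGrp.rf_of_card hK
  have hn : Nat.card K = 3 ^ (2 * m + 1) := by rw [Nat.card_eq_fintype_card, hK]
  obtain ⟨A1, A2, C2, A3, A4, h1, h2, h3, h4, c1, c2, c3, c4, c5, c6, c7, c8⟩ := H24.ReeDat.tori4 (K := K) (e := 3 ^ m) hm hn
  obtain ⟨k, hk, hk2⟩ := H24.ReeTor.exists_s hn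
  have h27 : 3 ^ 3 ≤ Nat.card K := by rw [hn]; exact Nat.pow_le_pow_right (by norm_num) (by omega)
  rw [← hn]
  refine ⟨fun hc => ?_, fun hc => ?_⟩
  · obtain ⟨g, hg⟩ := h1.exists_conj_le hH (by rw [hc, c1])
    have hne : H ≠ ⊥ := by
      rintro rfl
      rw [Subgroup.card_bot] at hc
      omega
    have e1 := h1.cent_sub hg hne
    refine ⟨?_, ?_, ?_⟩
    · rw [e1]; exact H24.ReeDat.cyclic_map_conj _ H24.ReeTor.cyclic_T1
    · rw [e1, H24.ReeDat.card_map_conj, H24.ReeTor.card_T1]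
    · intro A hA hA'
      rw [e1]
      exact h1.cent_sub ((Subgroup.map_mono hA).trans hg) hA'
  · obtain ⟨g, hg⟩ := h2.exists_conj_le hH (by rw [hc, c2])
    have hne : H ≠ ⊥ := by
      rintro rfl
      rw [Subgroup.card_bot] at hc
      omega
    have e1 := h2.cent_sub hg hne
    refine ⟨?_, ?_, ?_, ?_⟩
    · rw [e1]
      refine ⟨⟨?_⟩⟩
      rintro ⟨x, hx⟩ ⟨y, hy⟩
      rw [H24.ReeDat.map_conj_mem] at hx hy
      apply Subtype.ext
      have := h2.comm _ hx _ hy
      rw [inv_inv] at this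
      change x * y = y * x
      calc x * y = g⁻¹ * (g * x * g⁻¹ * (g * y * g⁻¹)) * g := by group
        _ = g⁻¹ * (g * y * g⁻¹ * (g * x * g⁻¹)) * g := by rw [this]
        _ = _ := by group
    · rw [e1, H24.ReeDat.card_map_conj, c5]
    · rw [e1]
      intro x hx h4
      rw [H24.ReeDat.map_conj_mem, inv_inv] at hx
      have := c6 _ hx
      rw [H24.ReeTor.orderOf_conj', h4] at this
      omega
    · intro A hA hA'
      rw [e1]
      exact h2.cent_sub ((Subgroup.map_mono hA).trans hg) hA'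

end Cfsg.Agent.S2359
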