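import Cfsg.Statements.S2361
import Cfsg.Agent.Lib.H24.ReeSolv

set_option autoImplicit false
open Cfsg

namespace Cfsg.Agent.S2361

/-- Let R be the small Ree group over the field with q = 3^(2m+1) ≥ 27 elements. Every solvable subgroup of R lies in the normalizer of a Sylow 2-subgroup, of a Sylow 3-subgroup, or of a cyclic subgroup of order (q−1)/2, (q+1)/4, q − 3^(m+1) + 1 or q + 3^(m+1) + 1. -/
theorem result {K : Type*} [Field K] [Fintype K] {m : ℕ} (hm : 1 ≤ m)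
    (hK : Fintype.card K = 3 ^ (2 * m + 1)) (S : Subgroup ↥(Cfsg.Lie.twistedG2 K (3 ^ m)))
    (hS : Group.IsSolvable S) :
    ∃ A : Subgroup ↥(Cfsg.Lie.twistedG2 K (3 ^ m)), S ≤ Subgroup.normalizer (A : Set ↥(Cfsg.Lie.twistedG2 K (3 ^ m))) ∧
      ((∃ P : Sylow 2 ↥(Cfsg.Lie.twistedG2 K (3 ^ m)), A = P) ∨
       (∃ P : Sylow 3 ↥(Cfsg.Lie.twistedG2 K (3 ^ m)), A = P) ∨
       (IsCyclic A ∧ (Nat.card A = (3 ^ (2 * m + 1) - 1) / 2 ∨ Nat.card A = (3 ^ (2 * m + 1) + 1) / 4 ∨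
          Nat.card A = 3 ^ (2 * m + 1) - 3 ^ (m + 1) + 1 ∨ Nat.card A = 3 ^ (2 * m + 1) + 3 ^ (m + 1) + 1))) := by
  haveI := H24.ReeGrp.rf_of_card hK
  haveI : Fact (Nat.Prime 2) := ⟨Nat.prime_two⟩
  have hn : Nat.card K = 3 ^ (2 * m + 1) := by rw [Nat.card_eq_fintype_card, hK]
  rcases H24.ReeSolv.solv_cases hS with h | ⟨p, hp, N, hp2, hne, hNp, hSN⟩ | ⟨N, h4, hNp, hSN⟩
  · have h2 : IsPGroup 2 S := by
      have hpos : 0 < Nat.card S := Nat.card_pos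
      rcases (show Nat.card S = 1 ∨ Nat.card S = 2 by omega) with h | h
      · exact IsPGroup.of_card (n := 0) (by rw [h, pow_zero])
      · exact IsPGroup.of_card (n := 1) (by rw [h, pow_one])
    obtain ⟨P, hP⟩ := h2.exists_le_sylow
    exact ⟨P, hP.trans Subgroup.le_normalizer, Or.inl ⟨P, rfl⟩⟩
  · obtain ⟨A1, A2, C2, A3, A4, h1, h2, h3, h4, c1, c2, c3, c4, -, -, -, hM⟩ := H24.ReeDat.tori4 (K := K) (e := 3 ^ m) hm hn
    obtain ⟨z, hz, hzp, hzc⟩ := H24.ReeDat.exists_central hNp hne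
    have hq : 1 < Nat.card K := Finite.one_lt_card
    obtain ⟨k, hk, hk2⟩ := H24.ReeTor.exists_s hn
    have hco2 : Nat.Coprime p 2 := (Nat.coprime_primes hp.out Nat.prime_two).2 hp2
    rw [← hn]
    rcases H24.ReeTor.prime_cases (K := K) (e := 3 ^ m) hn hp.out hzp with h | h | ⟨-, h⟩ | ⟨-, h⟩ | h
    · exact absurd h hp2
    · subst h
      obtain ⟨P, hP⟩ := H24.ReeSolv.three_norm hn hNp hne
      exact ⟨P, hSN.trans hP, Or.inr (Or.inl ⟨P, rfl⟩)⟩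
    · obtain ⟨B, hB1, hB2, hB3⟩ := h1.norm_le (p := p) (by
        rw [c1]
        apply hco2.dvd_of_dvd_mul_left
        rw [show 2 * ((Nat.card K - 1) / 2) = Nat.card K - 1 by omega]; exact h) hNp hne
      exact ⟨B, hB3 ▸ hSN, Or.inr (Or.inr ⟨hB1, Or.inl (by rw [hB2, c1])⟩)⟩
    · obtain ⟨B, hB1, hB2, hB3⟩ := h2.norm_le (p := p) (by
        rw [c2]
        have h4 : Nat.Coprime p 4 := by
          rw [show 4 = 2 ^ 2 by norm_num]; exact hco2.pow_right 2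
        apply h4.dvd_of_dvd_mul_left
        rw [show 4 * ((Nat.card K + 1) / 4) = Nat.card K + 1 by omega]; exact h) hNp hne
      exact ⟨B, hB3 ▸ hSN, Or.inr (Or.inr ⟨hB1, Or.inr (Or.inl (by rw [hB2, c2]))⟩)⟩
    · rw [hM] at h
      rcases (Nat.Prime.dvd_mul hp.out).1 h with h | h
      · obtain ⟨B, hB1, hB2, hB3⟩ := h3.norm_le (p := p) h hNp hne
        exact ⟨B, hB3 ▸ hSN, Or.inr (Or.inr ⟨hB1, Or.inr (Or.inr (Or.inl (by rw [hB2, c3])))⟩)⟩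
      · obtain ⟨B, hB1, hB2, hB3⟩ := h4.norm_le (p := p) h hNp hne
        exact ⟨B, hB3 ▸ hSN, Or.inr (Or.inr ⟨hB1, Or.inr (Or.inr (Or.inr (by rw [hB2, c4])))⟩)⟩
  · obtain ⟨P, hP⟩ := hNp.exists_le_sylow
    have h8 := (H24.ReeSyl2.sylow2 (K := K) (e := 3 ^ m) hn P).1
    have hdvd : Nat.card N ∣ 8 := by rw [← h8]; exact Subgroup.card_dvd_of_le hP
    have hle := Nat.le_of_dvd (by norm_num) hdvd
    have hcase : Nat.card N = 4 ∨ Nat.card N = 8 := by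
      interval_cases (Nat.card N) <;> first | omega | (exfalso; omega)
    rcases hcase with h | h
    · obtain ⟨B, hB1, hB2, hB3⟩ := H24.ReeSolv.four_norm (K := K) (e := 3 ^ m) hm hn h
      rw [← hn]
      exact ⟨B, hSN.trans hB3, Or.inr (Or.inr ⟨hB1, Or.inr (Or.inl hB2)⟩)⟩
    · have hNP : N = (P : Subgroup ↥(Cfsg.Lie.twistedG2 K (3 ^ m))) := Subgroup.eq_of_le_of_card_ge hP (by
        rw [h]; exact h8.le)
      exact ⟨N, hSN, Or.inl ⟨P, hNP⟩⟩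

end Cfsg.Agent.S2361
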