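import Cfsg.Statements.S2450
import Cfsg.Agent.Lib.H45.SL2Basic

set_option autoImplicit false
open Cfsg

namespace Cfsg.Agent.S2450

open H45.SL2 Polynomial

abbrev PSL (F : Type*) [Field F] := Matrix.ProjectiveSpecialLinearGroup (Fin 2) F

theorem neg_one_eq {F : Type*} [Field F] :
    ((-1 : Matrix.SpecialLinearGroup (Fin 2) F) : PSL F) = 1 := by
  rw [QuotientGroup.eq_one_iff, mem_center_iff]; exact Or.inr rfl

theorem mk_neg {F : Type*} [Field F] (A : Matrix.SpecialLinearGroup (Fin 2) F) :
    ((-A : Matrix.SpecialLinearGroup (Fin 2) F) : PSL F) = (A : PSL F) := by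
  rw [neg_eq_neg_one_mul A, QuotientGroup.mk_mul, neg_one_eq, one_mul]

/-- conjugate elements of `PSL₂` lift to elements with the same trace up to sign -/
theorem tr_of_isConj {F : Type*} [Field F] (A B : Matrix.SpecialLinearGroup (Fin 2) F)
    (h : IsConj (A : PSL F) (B : PSL F)) : tr B = tr A ∨ tr B = - tr A := by
  obtain ⟨c, hc⟩ := isConj_iff.1 h
  obtain ⟨P, rfl⟩ := QuotientGroup.mk_surjective c
  rw [← QuotientGroup.mk_inv, ← QuotientGroup.mk_mul, ← QuotientGroup.mk_mul] at hc
  rw [QuotientGroup.eq] at hc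
  rcases (mem_center_iff _).1 hc with h1 | h1
  · left
    rw [inv_mul_eq_one] at h1
    rw [← h1, tr_conj]
  · right
    rw [inv_mul_eq_iff_eq_mul] at h1
    rw [h1]
    have : P * A * P⁻¹ * (-1) = -(P * A * P⁻¹) := by rw [mul_neg, mul_one]
    rw [this, tr_neg, tr_conj]

/-- key semisimple case -/
theorem ss_case {F : Type*} [Field F] [Fintype F] (h4 : 4 ≤ Fintype.card F)
    (A B : Matrix.SpecialLinearGroup (Fin 2) F) (hA : (tr A) ^ 2 ≠ 4) (hB : NonScalar B) (γ : F) :
    ∃ P : Matrix.SpecialLinearGroup (Fin 2) F, tr (P * A * P⁻¹ * B) ≠ γ ∧ tr (P * A * P⁻¹ * B) ≠ -γ := by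
  by_contra hcon
  push Not at hcon
  have key : ∀ w : F, (-w ^ 2 + (tr A + tr B) * w - 2 = γ) ∨ (-w ^ 2 + (tr A + tr B) * w - 2 = -γ) := by
    intro w
    obtain ⟨Y, hY1, hY2⟩ := exists_transport B hB (mk2 (tr A - w) ((tr A - w) * w - 1) 1 w (by ring))
    rw [tr_mk2] at hY1
    have hc : IsConj A Y := isConj_of_tr_eq A Y (by rw [hY1]; ring) hA
    obtain ⟨P, hP⟩ := isConj_iff.1 hc
    rw [tr_mul (mk2 (tr A - w) ((tr A - w) * w - 1) 1 w (by ring))] at hY2
    simp only [mk2_00, mk2_01, mk2_10, mk2_11] at hY2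
    have h1 := hcon P
    rw [hP] at h1
    by_cases h2 : tr (Y * B) = γ
    · left; rw [← h2, hY2]; ring
    · right; rw [← h1 h2, hY2]; ring
  classical
  by_cases hchar : (γ = -γ)
  · have h0 : (X ^ 2 + (C (-(tr A + tr B)) * X + C (2 + γ)) : F[X]) = 0 := by
      apply Polynomial.eq_zero_of_natDegree_lt_card_of_eval_eq_zero _ (f := id) Function.injective_id
      · intro w
        simp only [eval_add, eval_pow, eval_X, eval_mul, eval_C, id]
        rcases key w with h | h
        · linear_combination -h
        · linear_combination -h + hchar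
      · have : (X ^ 2 + (C (-(tr A + tr B)) * X + C (2 + γ)) : F[X]).natDegree ≤ 2 := by
          compute_degree
        omega
    have h1 : (X ^ 2 + (C (-(tr A + tr B)) * X + C (2 + γ)) : F[X]).coeff 2 = 1 := by
      simp [coeff_X, coeff_C]
    rw [h0] at h1
    simp at h1
  · -- odd characteristic
    have hodd : ringChar F ≠ 2 := by
      intro h2
      apply hchar
      have := two_eq_zero_of_ringChar h2
      linear_combination this * γ
    have hcard : 5 ≤ Fintype.card F := by
      have := FiniteField.odd_card_of_char_ne_two hodd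
      omega
    have h0 : ((X ^ 2 + (C (-(tr A + tr B)) * X + C (2 + γ))) * (X ^ 2 + (C (-(tr A + tr B)) * X + C (2 - γ))) : F[X]) = 0 := by
      apply Polynomial.eq_zero_of_natDegree_lt_card_of_eval_eq_zero _ (f := id) Function.injective_id
      · intro w
        simp only [eval_add, eval_pow, eval_X, eval_mul, eval_C, id]
        rcases key w with h | h
        · apply mul_eq_zero_of_left
          linear_combination -h
        · apply mul_eq_zero_of_right
          linear_combination -h
      · have h1 : (X ^ 2 + (C (-(tr A + tr B)) * X + C (2 + γ)) : F[X]).natDegree ≤ 2 := by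
          compute_degree
        have h2 : (X ^ 2 + (C (-(tr A + tr B)) * X + C (2 - γ)) : F[X]).natDegree ≤ 2 := by
          compute_degree
        have h3 := natDegree_mul_le (p := (X ^ 2 + (C (-(tr A + tr B)) * X + C (2 + γ)) : F[X]))
          (q := (X ^ 2 + (C (-(tr A + tr B)) * X + C (2 - γ)) : F[X]))
        omega
    rcases mul_eq_zero.1 h0 with h0 | h0
    · have h1 : (X ^ 2 + (C (-(tr A + tr B)) * X + C (2 + γ)) : F[X]).coeff 2 = 1 := by
        simp [coeff_X, coeff_C]
      rw [h0] at h1
      simp at h1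
    · have h1 : (X ^ 2 + (C (-(tr A + tr B)) * X + C (2 - γ)) : F[X]).coeff 2 = 1 := by
        simp [coeff_X, coeff_C]
      rw [h0] at h1
      simp at h1

/-- a nonscalar element of trace 2 is conjugate to a transvection -/
theorem exists_transvection {F : Type*} [Field F] (A : Matrix.SpecialLinearGroup (Fin 2) F)
    (hA : NonScalar A) (h2 : tr A = 2) :
    ∃ (P : Matrix.SpecialLinearGroup (Fin 2) F) (s : F), s ≠ 0 ∧ P * A * P⁻¹ = mk2 1 s 0 1 (by ring) := by
  have hd := det_eq A
  unfold tr at h2
  have e : A.1 1 1 = 2 - A.1 0 0 := by linear_combination h2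
  rw [e] at hd
  by_cases hb : A.1 0 1 = 0
  · have ha : A.1 0 0 = 1 := by
      rw [hb] at hd
      have : (A.1 0 0 - 1) ^ 2 = 0 := by linear_combination -hd
      have h3 := pow_eq_zero_iff (two_ne_zero) |>.1 this
      linear_combination h3
    have hc : A.1 1 0 ≠ 0 := by
      intro hc
      rcases scalar_iff hb hc (by rw [e, ha]; ring) with h | h
      · exact hA.1 h
      · exact hA.2 h
    refine ⟨mk2 0 1 (-1) 0 (by ring), - A.1 1 0, neg_ne_zero.2 hc, ?_⟩
    rw [mul_inv_eq_iff_eq_mul]
    apply ext4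
    · rw [mul_00, mul_00]; simp
    · rw [mul_01, mul_01]; simp [e, ha]; ring
    · rw [mul_10, mul_10]; simp [ha]
    · rw [mul_11, mul_11]; simp [hb]
  · set b := A.1 0 1 with hbdef
    set a := A.1 0 0 with hadef
    have hc : A.1 1 0 = -(a - 1) ^ 2 / b := by
      field_simp
      linear_combination -hd
    -- P⁻¹ = [v | v'] with v = (b, 1 - a); P = !![0, -1/b... ]
    refine ⟨mk2 (b⁻¹) 0 (a - 1) b (by field_simp; ring), b⁻¹, inv_ne_zero hb, ?_⟩
    rw [mul_inv_eq_iff_eq_mul]
    apply ext4
    · rw [mul_00, mul_00]; simp only [mk2_00, mk2_01, mk2_10, mk2_11]; rw [← hadef]; field_simp; ring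
    · rw [mul_01, mul_01]; simp only [mk2_00, mk2_01, mk2_10, mk2_11]; rw [← hbdef]; field_simp; ring
    · rw [mul_10, mul_10]; simp only [mk2_00, mk2_01, mk2_10, mk2_11]; rw [← hadef, hc]; field_simp; ring
    · rw [mul_11, mul_11]; simp only [mk2_00, mk2_01, mk2_10, mk2_11]; rw [← hbdef, e]; ring

/-- every nonscalar element with `tr² = 4` has a lift of its image in `PSL₂` with trace `2` -/
theorem exists_lift_two {F : Type*} [Field F] (A : Matrix.SpecialLinearGroup (Fin 2) F)
    (hA : NonScalar A) (h4 : (tr A) ^ 2 = 4) :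
    ∃ A' : Matrix.SpecialLinearGroup (Fin 2) F, NonScalar A' ∧ tr A' = 2 ∧ (A' : PSL F) = (A : PSL F) := by
  have h3 : (tr A - 2) * (tr A + 2) = 0 := by linear_combination h4
  rcases mul_eq_zero.1 h3 with h | h
  · exact ⟨A, hA, by linear_combination h, rfl⟩
  · refine ⟨-A, ?_, by rw [tr_neg]; linear_combination -h, mk_neg A⟩
    constructor
    · intro h0; exact hA.2 (by rw [← h0, neg_neg])
    · intro h0; exact hA.1 (neg_injective h0)

/-- The Arad–Herzog conjecture for PSL(2,q): let F be a finite field with q ≥ 4 elements. For any two non-identity elements a, b of PSL(2,F), the set of products of a conjugate of a with a conjugate of b is not a single conjugacy class. -/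
theorem result {F : Type*} [Field F] [Fintype F] (h4 : 4 ≤ Fintype.card F)
    (a b : Matrix.ProjectiveSpecialLinearGroup (Fin 2) F) (ha : a ≠ 1) (hb : b ≠ 1) (c : Matrix.ProjectiveSpecialLinearGroup (Fin 2) F) :
    {g : Matrix.ProjectiveSpecialLinearGroup (Fin 2) F | ∃ u v : Matrix.ProjectiveSpecialLinearGroup (Fin 2) F, g = (u * a * u⁻¹) * (v * b * v⁻¹)} ≠ {g | IsConj c g} := by
  intro heq
  obtain ⟨A, rfl⟩ := QuotientGroup.mk_surjective a
  obtain ⟨B, rfl⟩ := QuotientGroup.mk_surjective b
  obtain ⟨D, rfl⟩ := QuotientGroup.mk_surjective c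
  have hA : NonScalar A := by
    rw [nonScalar_iff]
    intro h; exact ha ((QuotientGroup.eq_one_iff A).2 h)
  have hB : NonScalar B := by
    rw [nonScalar_iff]
    intro h; exact hb ((QuotientGroup.eq_one_iff B).2 h)
  -- every product of conjugates of lifts has trace `± tr D`
  have main : ∀ (A' B' : Matrix.SpecialLinearGroup (Fin 2) F), (A' : PSL F) = (A : PSL F) → (B' : PSL F) = (B : PSL F) →
      ∀ P Q : Matrix.SpecialLinearGroup (Fin 2) F,
      tr (P * A' * P⁻¹ * (Q * B' * Q⁻¹)) = tr D ∨ tr (P * A' * P⁻¹ * (Q * B' * Q⁻¹)) = - tr D := by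
    intro A' B' hA' hB' P Q
    apply tr_of_isConj
    have : ((P * A' * P⁻¹ * (Q * B' * Q⁻¹) : Matrix.SpecialLinearGroup (Fin 2) F) : PSL F) ∈
        {g : Matrix.ProjectiveSpecialLinearGroup (Fin 2) F | ∃ u v : Matrix.ProjectiveSpecialLinearGroup (Fin 2) F, g = (u * A * u⁻¹) * (v * B * v⁻¹)} := by
      refine ⟨P, Q, ?_⟩
      rw [QuotientGroup.mk_mul, QuotientGroup.mk_mul, QuotientGroup.mk_mul, QuotientGroup.mk_inv, hA',
        QuotientGroup.mk_mul, QuotientGroup.mk_mul, QuotientGroup.mk_inv, hB']
    rw [heq] at this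
    exact this
  by_cases hA4 : (tr A) ^ 2 = 4
  · by_cases hB4 : (tr B) ^ 2 = 4
    · -- both unipotent
      obtain ⟨A', hA', hA2, hAe⟩ := exists_lift_two A hA hA4
      obtain ⟨B', hB', hB2, hBe⟩ := exists_lift_two B hB hB4
      obtain ⟨P, s, hs, hP⟩ := exists_transvection A' hA' hA2
      obtain ⟨Q, t, ht, hQ⟩ := exists_transvection B' hB' hB2
      have h1 := main A' B' hAe hBe P Q
      rw [hP, hQ, tr_mul] at h1
      simp only [mk2_00, mk2_01, mk2_10, mk2_11] at h1
      have h2 : ∀ l : F, l ≠ 0 → 2 - s * t * l ^ 2 = tr D ∨ 2 - s * t * l ^ 2 = - tr D := by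
        intro l hl
        have h3 := main A' B' hAe hBe (mk2 0 (-l⁻¹) l 0 (by field_simp; ring) * P) Q
        have h4 : (mk2 0 (-l⁻¹) l 0 (by field_simp; ring) * P) * A' * (mk2 0 (-l⁻¹) l 0 (by field_simp; ring) * P)⁻¹
            = mk2 1 0 (-s * l ^ 2) 1 (by ring) := by
          have h5 : (mk2 0 (-l⁻¹) l 0 (by field_simp; ring) * P) * A' * (mk2 0 (-l⁻¹) l 0 (by field_simp; ring) * P)⁻¹
            = mk2 0 (-l⁻¹) l 0 (by field_simp; ring) * (P * A' * P⁻¹) * (mk2 0 (-l⁻¹) l 0 (by field_simp; ring))⁻¹ := by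
            group
          rw [h5, hP, mul_inv_eq_iff_eq_mul]
          apply ext4
          · rw [mul_00, mul_00]; simp
          · rw [mul_01, mul_01]; simp
          · rw [mul_10, mul_10]; simp
          · rw [mul_11, mul_11]; simp; field_simp
        rw [h4, hQ, tr_mul] at h3
        simp only [mk2_00, mk2_01, mk2_10, mk2_11] at h3
        rcases h3 with h3 | h3
        · left; linear_combination h3
        · right; linear_combination h3
      have h3 : ∀ l : F, l ≠ 0 → s * t * l ^ 2 = 4 := by
        intro l hl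
        have hst : s * t * l ^ 2 ≠ 0 := mul_ne_zero (mul_ne_zero hs ht) (pow_ne_zero 2 hl)
        rcases h1 with h1 | h1
        · rcases h2 l hl with h2 | h2
          · exfalso; apply hst; linear_combination h1 - h2
          · linear_combination -h1 - h2
        · rcases h2 l hl with h2 | h2
          · linear_combination -h1 - h2
          · exfalso; apply hst; linear_combination h1 - h2
      -- every nonzero element satisfies l ^ 2 = 1
      have h4' : ∀ l : F, l ≠ 0 → (l - 1) * (l + 1) = 0 := by
        intro l hl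
        have e1 := h3 l hl
        have e2 := h3 1 one_ne_zero
        have : s * t * ((l - 1) * (l + 1)) = 0 := by linear_combination e1 - e2
        rcases mul_eq_zero.1 this with h | h
        · exact absurd h (mul_ne_zero hs ht)
        · exact h
      classical
      have h5 : (Finset.univ : Finset F) ⊆ {0, 1, -1} := by
        intro l _
        by_cases hl : l = 0
        · simp [hl]
        · rcases mul_eq_zero.1 (h4' l hl) with h | h
          · have : l = 1 := by linear_combination h
            simp [this]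
          · have : l = -1 := by linear_combination h
            simp [this]
      have h6 := Finset.card_le_card h5
      have h7 : ({0, 1, -1} : Finset F).card ≤ 3 := Finset.card_le_three
      rw [Finset.card_univ] at h6
      omega
    · obtain ⟨P, hP1, hP2⟩ := ss_case h4 B A hB4 hA (tr D)
      rcases main A B rfl rfl 1 P with h | h
      · apply hP1
        rw [tr_mul_comm, ← h]; simp
      · apply hP2
        rw [tr_mul_comm, ← h]; simp
  · obtain ⟨P, hP1, hP2⟩ := ss_case h4 A B hA4 hB (tr D)
    rcases main A B rfl rfl P 1 with h | h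
    · apply hP1; rw [← h]; simp
    · apply hP2; rw [← h]; simp

end Cfsg.Agent.S2450
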