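import Cfsg.Statements.S2455
import Cfsg.Agent.Lib.H45.SL2Basic

set_option autoImplicit false
open Cfsg

namespace Cfsg.Agent.S2455

open H45.SL2

/-- A strong covering result in the direction of Thompson's conjecture (non-identity elements) for PSL(2,q), q odd: let F be a finite field of odd characteristic p with at least 5 elements and let x ∈ PSL(2,F) have order greater than 2 and not divisible by p (so x is not unipotent). Then every non-identity element of PSL(2,F) is a product of two conjugates of x. -/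
theorem result {F : Type*} [Field F] [Fintype F] (p : ℕ) [Fact p.Prime] [CharP F p] (hp : p ≠ 2) (h5 : 5 ≤ Fintype.card F)
    (x : Matrix.ProjectiveSpecialLinearGroup (Fin 2) F) (hx2 : 2 < orderOf x) (hxp : ¬ p ∣ orderOf x) : ∀ g : Matrix.ProjectiveSpecialLinearGroup (Fin 2) F, g ≠ 1 → ∃ u v : Matrix.ProjectiveSpecialLinearGroup (Fin 2) F, g = (u * x * u⁻¹) * (v * x * v⁻¹) := by
  have hrc : ringChar F ≠ 2 := by
    rw [ringChar.eq F p]; exact hp
  have h2 : (2 : F) ≠ 0 := two_ne_zero_of_ringChar hrc
  obtain ⟨A, rfl⟩ := QuotientGroup.mk_surjective x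
  -- the trace of A is not 0
  have hneg : ((-1 : Matrix.SpecialLinearGroup (Fin 2) F) : Matrix.ProjectiveSpecialLinearGroup (Fin 2) F) = 1 := by
    rw [QuotientGroup.eq_one_iff, mem_center_iff]; exact Or.inr rfl
  have hA0 : tr A ≠ 0 := by
    intro h0
    have h1 : (A : Matrix.ProjectiveSpecialLinearGroup (Fin 2) F) ^ 2 = 1 := by
      rw [← QuotientGroup.mk_pow, pow_two, sq_of_tr_zero h0, hneg]
    have h3 := orderOf_le_of_pow_eq_one (by norm_num) h1
    omega
  -- unipotent elements have p-th power one
  have huni : ∀ B : Matrix.SpecialLinearGroup (Fin 2) F, tr B = 2 → B ^ p = 1 := by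
    intro B hB
    have hd := det_eq B
    unfold tr at hB
    have hN : (B.1 - 1) * (B.1 - 1) = 0 := by
      have e : B.1 1 1 = 2 - B.1 0 0 := by linear_combination hB
      rw [e] at hd
      ext i j
      fin_cases i <;> fin_cases j
      · simp [Matrix.mul_apply, Fin.sum_univ_two]
        linear_combination -hd
      · simp [Matrix.mul_apply, Fin.sum_univ_two]
        linear_combination (B.1 0 1) * hB
      · simp [Matrix.mul_apply, Fin.sum_univ_two]
        linear_combination (B.1 1 0) * hB
      · simp [Matrix.mul_apply, Fin.sum_univ_two]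
        rw [e]
        linear_combination -hd
    have hN' : (B.1 - 1) ^ p = 0 := by
      have hp2 : 2 ≤ p := (Fact.out : p.Prime).two_le
      rw [show p = 2 + (p - 2) by omega, pow_add, pow_two, hN, zero_mul]
    have hB' : B.1 ^ p = 1 := by
      have h3 : B.1 = (B.1 - 1) + 1 := by abel
      rw [h3, add_pow_char_of_commute p (Commute.one_right _), hN', zero_add, one_pow]
    apply Subtype.ext
    exact hB'
  have hA4 : (tr A) ^ 2 ≠ 4 := by
    intro h4
    have h3 : (tr A - 2) * (tr A + 2) = 0 := by linear_combination h4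
    have hpow : (A : Matrix.ProjectiveSpecialLinearGroup (Fin 2) F) ^ p = 1 := by
      rcases mul_eq_zero.1 h3 with h | h
      · rw [← QuotientGroup.mk_pow, huni A (by linear_combination h)]; rfl
      · have h' := huni (-A) (by rw [tr_neg]; linear_combination -h)
        have h'' : (A : Matrix.ProjectiveSpecialLinearGroup (Fin 2) F) =
            ((-A : Matrix.SpecialLinearGroup (Fin 2) F) : Matrix.ProjectiveSpecialLinearGroup (Fin 2) F) := by
          rw [neg_eq_neg_one_mul A, QuotientGroup.mk_mul, hneg, one_mul]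
        rw [h'', ← QuotientGroup.mk_pow, h']; rfl
    have h5 := orderOf_dvd_of_pow_eq_one hpow
    rcases (Nat.dvd_prime Fact.out).1 h5 with h6 | h6
    · omega
    · exact hxp (by rw [h6])
  intro g hg
  obtain ⟨B, rfl⟩ := QuotientGroup.mk_surjective g
  have hB : NonScalar B := by
    rw [nonScalar_iff]
    intro h; exact hg ((QuotientGroup.eq_one_iff B).2 h)
  -- choose the sign
  have hex : ∃ b : F, (b = tr A ∨ b = - tr A) ∧ ((tr B) ^ 2 ≠ 4 ∨ (tr A) * tr B - 2 * b ≠ 0) := by
    by_cases hB2 : tr B = 2
    · refine ⟨- tr A, Or.inr rfl, Or.inr ?_⟩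
      rw [hB2]
      intro h0
      have : (2 * 2 : F) * tr A = 0 := by linear_combination h0
      rcases mul_eq_zero.1 this with h | h
      · exact (mul_ne_zero h2 h2) h
      · exact hA0 h
    · refine ⟨tr A, Or.inl rfl, ?_⟩
      by_cases hB3 : tr B = -2
      · right
        rw [hB3]
        intro h0
        have : (2 * 2 : F) * tr A = 0 := by linear_combination -h0
        rcases mul_eq_zero.1 this with h | h
        · exact (mul_ne_zero h2 h2) h
        · exact hA0 h
      · left
        intro h4
        have h3 : (tr B - 2) * (tr B + 2) = 0 := by linear_combination h4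
        rcases mul_eq_zero.1 h3 with h | h
        · exact hB2 (by linear_combination h)
        · exact hB3 (by linear_combination h)
  obtain ⟨b, hb, hb2⟩ := hex
  obtain ⟨Y, hY1, hY2⟩ := exists_two_traces hrc B hB (tr A) b hb2
  -- Y⁻¹ conjugate to A
  have hc1 : IsConj A Y⁻¹ := isConj_of_tr_eq A Y⁻¹ (by rw [tr_inv, hY1]) hA4
  obtain ⟨U, hU⟩ := isConj_iff.1 hc1
  rcases hb with rfl | rfl
  · have hc2 : IsConj A (Y * B) := isConj_of_tr_eq A (Y * B) hY2.symm hA4
    obtain ⟨V, hV⟩ := isConj_iff.1 hc2
    refine ⟨U, V, ?_⟩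
    rw [← QuotientGroup.mk_inv, ← QuotientGroup.mk_mul, ← QuotientGroup.mk_mul, hU,
      ← QuotientGroup.mk_inv, ← QuotientGroup.mk_mul, ← QuotientGroup.mk_mul, hV,
      ← QuotientGroup.mk_mul, inv_mul_cancel_left]
  · have hc2 : IsConj A (-(Y * B)) := isConj_of_tr_eq A _ (by rw [tr_neg, hY2, neg_neg]) hA4
    obtain ⟨V, hV⟩ := isConj_iff.1 hc2
    refine ⟨U, V, ?_⟩
    rw [← QuotientGroup.mk_inv, ← QuotientGroup.mk_mul, ← QuotientGroup.mk_mul, hU,
      ← QuotientGroup.mk_inv, ← QuotientGroup.mk_mul, ← QuotientGroup.mk_mul, hV,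
      neg_eq_neg_one_mul, QuotientGroup.mk_mul _ (-1) (Y * B), hneg, one_mul,
      ← QuotientGroup.mk_mul, inv_mul_cancel_left]

end Cfsg.Agent.S2455
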