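import Cfsg.Statements.S2456
import Cfsg.Agent.Lib.H46.PSL2Orders
import Cfsg.Agent.Lib.H45.SL2Basic

set_option autoImplicit false
open Cfsg

namespace Cfsg.Agent.S2456

open H46.ProjOrder H46.PSL2Orders H45.SL2

theorem result {F : Type*} [Field F] [Fintype F] [CharP F 2] (h4 : 4 ≤ Fintype.card F)
    (x : Matrix.ProjectiveSpecialLinearGroup (Fin 2) F) (hx2 : 2 < orderOf x) (hxq : ¬ orderOf x ∣ Fintype.card F + 1) : ∀ g : Matrix.ProjectiveSpecialLinearGroup (Fin 2) F, g ≠ 1 → ∃ u v : Matrix.ProjectiveSpecialLinearGroup (Fin 2) F, g = (u * x * u⁻¹) * (v * x * v⁻¹) := by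
  have h2 : (2 : F) = 0 := by
    have := CharP.cast_eq_zero F 2
    exact_mod_cast this
  obtain ⟨X, rfl⟩ := QuotientGroup.mk_surjective x
  rw [orderOf_mk_eq] at hx2 hxq
  have hfact : Fact (Nat.Prime 2) := ⟨Nat.prime_two⟩
  have hcard : Nat.card F = Fintype.card F := Nat.card_eq_fintype_card
  -- the card is even
  obtain ⟨n, -, hn⟩ := FiniteField.card F 2
  have hgcd : Nat.gcd 2 (Nat.card F - 1) = 1 := by
    have h2q : 2 ∣ Nat.card F := by
      rw [hcard, hn]; exact dvd_pow_self 2 n.ne_zero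
    have h1 : ¬ 2 ∣ Nat.card F - 1 := by omega
    exact (Nat.Prime.coprime_iff_not_dvd Nat.prime_two).mpr h1
  have htri := trichotomy_matrix 2 (Matrix.SpecialLinearGroup.toGL X : (Matrix (Fin 2) (Fin 2) F)ˣ) X.2
  have hval : ((Matrix.SpecialLinearGroup.toGL X : (Matrix (Fin 2) (Fin 2) F)ˣ) : Matrix (Fin 2) (Fin 2) F) = X.1 := rfl
  rw [hval, ← tr_eq_trace X] at htri
  obtain ⟨c, hc, hcc⟩ : ∃ c : F, c * c - tr X * c + 1 = 0 ∧ c * c ≠ 1 := by
    rcases htri with h | h | h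
    · exfalso
      have := Nat.le_of_dvd (by norm_num) h.1
      omega
    · exact h.2
    · exfalso
      apply hxq
      have := h.1
      rw [hgcd, Nat.div_one, hcard] at this
      exact this
  set t := tr X with ht
  have ht0 : t ≠ 0 := by
    intro h0
    rw [h0] at hc
    apply hcc
    linear_combination hc - h2
  have ht4 : t ^ 2 ≠ 4 := by
    intro h
    have h5 : (4 : F) = 0 := by linear_combination 2 * h2
    rw [h5] at h
    exact ht0 (pow_eq_zero_iff (two_ne_zero) |>.mp h)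
  intro g hg
  obtain ⟨B, rfl⟩ := QuotientGroup.mk_surjective g
  have hB : NonScalar B := by
    rw [nonScalar_iff]
    intro h
    apply hg
    rw [QuotientGroup.eq_one_iff]
    exact h
  -- find Z with tr Z = t, tr (Z * B) = t
  set s := tr B with hs
  obtain ⟨b, c', d, hdet, htr⟩ : ∃ b c' d : F, (t - d) * d - b * c' = 1 ∧ b - c' + d * s = t := by
    by_cases hs0 : s = 0
    · refine ⟨c, c - t, 0, ?_, ?_⟩
      · linear_combination -hc + t * c * 0
      · rw [hs0]; ring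
    · obtain ⟨b, hb⟩ : ∃ b : F, b ^ 2 = (t - t / s) * (t / s) - 1 := by
        have hch : ringChar F = 2 := ringChar.eq F 2
        obtain ⟨b, hb⟩ := FiniteField.isSquare_of_char_two hch ((t - t / s) * (t / s) - 1)
        exact ⟨b, by rw [hb]; ring⟩
      refine ⟨b, b, t / s, ?_, ?_⟩
      · linear_combination -hb
      · field_simp; ring
  obtain ⟨Z, hZ1, hZ2⟩ := exists_transport B hB (mk2 (t - d) b c' d hdet)
  have hZt : tr Z = t := by rw [hZ1, tr_mk2]; ring
  have hZBt : tr (Z * B) = t := by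
    rw [hZ2, tr_mul]
    simp only [mk2_00, mk2_01, mk2_10, mk2_11]
    linear_combination htr
  have h1 : IsConj X Z⁻¹ := isConj_of_tr_eq X Z⁻¹ (by rw [tr_inv, hZt]) ht4
  have h3 : IsConj X (Z * B) := isConj_of_tr_eq X (Z * B) (by rw [hZBt]) ht4
  rw [isConj_iff] at h1 h3
  obtain ⟨P, hP⟩ := h1
  obtain ⟨Q, hQ⟩ := h3
  refine ⟨QuotientGroup.mk P, QuotientGroup.mk Q, ?_⟩
  rw [← QuotientGroup.mk_inv, ← QuotientGroup.mk_mul, ← QuotientGroup.mk_mul, ← QuotientGroup.mk_inv,
    ← QuotientGroup.mk_mul, ← QuotientGroup.mk_mul, ← QuotientGroup.mk_mul, hP, hQ]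
  congr 1
  group

end Cfsg.Agent.S2456
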