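import Cfsg.Statements.S2459
import Mathlib
import Cfsg.Agent.Lib.H46.Sourour
import Cfsg.Agent.Lib.H46.L33

set_option autoImplicit false
open Cfsg

namespace Cfsg.Agent.S2459

/-- passing from `SL` to `PSL` -/
theorem of_SL {F : Type*} [Field F] [Fintype F] (p : ℕ) (x : Matrix.SpecialLinearGroup (Fin 3) F) (m : ℕ) (hm : x ^ m = 1)
    (hpm : ¬ p ∣ m)
    (h : ∀ A : Matrix.SpecialLinearGroup (Fin 3) F, (∀ c : F, (A : Matrix (Fin 3) (Fin 3) F) ≠ c • (1 : Matrix _ _ F)) →
        ∃ u v : Matrix.SpecialLinearGroup (Fin 3) F, A = (u * x * u⁻¹) * (v * x * v⁻¹)) :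
    ∃ x : Matrix.ProjectiveSpecialLinearGroup (Fin 3) F, ¬ p ∣ orderOf x ∧ ∀ g : Matrix.ProjectiveSpecialLinearGroup (Fin 3) F, g ≠ 1 → ∃ u v : Matrix.ProjectiveSpecialLinearGroup (Fin 3) F, g = (u * x * u⁻¹) * (v * x * v⁻¹) := by
  refine ⟨QuotientGroup.mk x, ?_, ?_⟩
  · intro hp
    apply hpm
    refine hp.trans (orderOf_dvd_of_pow_eq_one ?_)
    rw [← QuotientGroup.mk_pow, hm, QuotientGroup.mk_one]
  · intro g hg
    obtain ⟨A, rfl⟩ := QuotientGroup.mk_surjective g
    obtain ⟨u, v, huv⟩ := h A (by
      intro c hc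
      apply hg
      rw [QuotientGroup.eq_one_iff, Matrix.SpecialLinearGroup.mem_center_iff]
      have hdet := A.2
      refine ⟨c, ?_, ?_⟩
      · rw [hc, Matrix.det_smul, Matrix.det_one, mul_one] at hdet
        exact hdet
      · rw [hc, Matrix.scalar_apply, Matrix.smul_one_eq_diagonal])
    refine ⟨QuotientGroup.mk u, QuotientGroup.mk v, ?_⟩
    rw [huv]
    rfl

/-- A form of Thompson's conjecture for PSL(3,q), q > 2 (covering the non-identity elements), with a semisimple class: for F a finite field of characteristic p with more than 2 elements there is an element x of PSL(3,F) of order prime to p such that every non-identity element of PSL(3,F) is a product of two conjugates of x. -/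
theorem result {F : Type*} [Field F] [Fintype F] (p : ℕ) [Fact p.Prime] [CharP F p] (h3 : 3 ≤ Fintype.card F) :
    ∃ x : Matrix.ProjectiveSpecialLinearGroup (Fin 3) F, ¬ p ∣ orderOf x ∧ ∀ g : Matrix.ProjectiveSpecialLinearGroup (Fin 3) F, g ≠ 1 → ∃ u v : Matrix.ProjectiveSpecialLinearGroup (Fin 3) F, g = (u * x * u⁻¹) * (v * x * v⁻¹) := by
  classical
  rcases h3.eq_or_lt with h3 | h4
  · obtain ⟨x, hx4, hx⟩ := H46.L33.cover' h3.symm
    refine of_SL p x 4 hx4 ?_ hx
    intro hp
    have hp2 : p = 2 := by
      have h22 : p ∣ 2 ^ 2 := hp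
      exact (Nat.prime_dvd_prime_iff_eq (Fact.out : p.Prime) Nat.prime_two).mp ((Fact.out : p.Prime).dvd_of_dvd_pow h22)
    obtain ⟨n, _, hn⟩ := FiniteField.card F p
    rw [hp2, ← h3] at hn
    have : 2 ∣ 3 := by
      rw [hn]
      exact dvd_pow_self 2 n.2.ne'
    omega
  · -- pick an element different from 0, 1, -1
    obtain ⟨a, ha⟩ : ∃ a : F, a ∉ ({0, 1, -1} : Finset F) := by
      by_contra hcon
      push Not at hcon
      have h1 : (Finset.univ : Finset F) ⊆ {0, 1, -1} := fun x _ => hcon x
      have h2 := Finset.card_le_card h1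
      rw [Finset.card_univ] at h2
      have h3 : ({0, 1, -1} : Finset F).card ≤ 3 := Finset.card_le_three
      omega
    simp only [Finset.mem_insert, Finset.mem_singleton, not_or] at ha
    obtain ⟨ha0, ha1, ham⟩ := ha
    let d : Fin 3 → F := ![1, a, a⁻¹]
    have hinj : Function.Injective d := by
      have h12 : a ≠ a⁻¹ := by
        intro h
        have h2 : (a - 1) * (a + 1) = 0 := by
          have : a * a = 1 := by
            nth_rewrite 2 [h]
            exact mul_inv_cancel₀ ha0
          linear_combination this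
        rcases mul_eq_zero.mp h2 with h3 | h3
        · exact ha1 (by linear_combination h3)
        · exact ham (by linear_combination h3)
      have h02 : (1 : F) ≠ a⁻¹ := by
        intro h
        apply ha1
        rw [← inv_inv a, ← h, inv_one]
      intro i j hij
      fin_cases i <;> fin_cases j <;> simp [d] at hij ⊢ <;>
        first | exact ha1 hij.symm | exact ha1 hij | exact h12 hij | exact h12 hij.symm
    let D : Matrix.SpecialLinearGroup (Fin 3) F := ⟨Matrix.diagonal d, by
      rw [Matrix.det_diagonal, Fin.prod_univ_three]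
      simp [d, ha0]⟩
    have hDm : D ^ (Fintype.card F - 1) = 1 := by
      apply Subtype.ext
      rw [Matrix.SpecialLinearGroup.coe_pow]
      change (Matrix.diagonal d) ^ (Fintype.card F - 1) = 1
      rw [Matrix.diagonal_pow, ← Matrix.diagonal_one]
      congr 1
      funext i
      rw [Pi.pow_apply]
      apply FiniteField.pow_card_sub_one_eq_one
      fin_cases i <;> simp [d, ha0]
    refine of_SL p D (Fintype.card F - 1) hDm ?_ ?_
    · intro hp
      obtain ⟨n, _, hn⟩ := FiniteField.card F p
      have h5 : p ∣ Fintype.card F := by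
        rw [hn]
        exact dvd_pow_self p n.2.ne'
      have h6 : p ∣ Fintype.card F - (Fintype.card F - 1) := Nat.dvd_sub h5 hp
      have h7 : Fintype.card F - (Fintype.card F - 1) = 1 := by omega
      rw [h7] at h6
      exact (Fact.out : p.Prime).one_lt.ne' (Nat.dvd_one.mp h6)
    · intro A hA
      exact H46.Sourour.sourour A hA D D d d rfl rfl hinj hinj

end Cfsg.Agent.S2459
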