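import Cfsg.Statements.S2460
import Mathlib
import Cfsg.Agent.Lib.H46.TwF

set_option autoImplicit false
open Cfsg

namespace Cfsg.Agent.S2460

/-- A form of Thompson's conjecture for the simple groups PSp(4,q), q ≥ 3 (covering the non-identity elements), with a semisimple class: for F a finite field of characteristic p with at least 3 elements there is an element x of PSp(4,F) of order prime to p such that every non-identity element of PSp(4,F) is a product of two conjugates of x. -/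
theorem result {F : Type*} [Field F] [Fintype F] (p : ℕ) [Fact p.Prime] [CharP F p] (h3 : 3 ≤ Fintype.card F) :
    ∃ x : Cfsg.PSp 2 F, ¬ p ∣ orderOf x ∧ ∀ g : Cfsg.PSp 2 F, g ≠ 1 → ∃ u v : Cfsg.PSp 2 F, g = (u * x * u⁻¹) * (v * x * v⁻¹) := by
  classical
  have h3' : 3 ≤ Nat.card F := by rw [Nat.card_eq_fintype_card]; exact h3
  obtain ⟨τ, δ, hτ, hδ0, hδ1, hroot, hpow⟩ := H46.TwA.exists_param F h3'
  obtain ⟨C, hC⟩ : ∃ C : Matrix (Fin 2) (Fin 2) F, C = !![0, -δ; 1, τ] := ⟨_, rfl⟩
  rw [← hC] at hpow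
  have hCdet : C.det ≠ 0 := by
    rw [hC, Matrix.det_fin_two_of]
    intro h
    apply hδ0
    linear_combination h
  have hC' : C⁻¹ * C = 1 := Matrix.nonsing_inv_mul _ (isUnit_iff_ne_zero.mpr hCdet)
  set x : Matrix.symplecticGroup (Fin 2) F := H46.TwB.lv C C⁻¹ hC' with hx
  have hlv : ∀ n : ℕ, ((x ^ n : Matrix.symplecticGroup (Fin 2) F) : Matrix (Fin 2 ⊕ Fin 2) (Fin 2 ⊕ Fin 2) F) =
      Matrix.fromBlocks (C ^ n) 0 0 ((C⁻¹).transpose ^ n) := by
    intro n
    induction n with
    | zero => rw [pow_zero, pow_zero, pow_zero, Submonoid.coe_one, Matrix.fromBlocks_one]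
    | succ n ih =>
      rw [pow_succ, Submonoid.coe_mul, ih, hx, H46.TwB.lv_val, Matrix.fromBlocks_multiply, pow_succ, pow_succ]
      simp only [Matrix.mul_zero, Matrix.zero_mul, add_zero, zero_add]
  have hxpow : x ^ (Nat.card F ^ 2 - 1) = 1 := by
    apply Subtype.ext
    rw [hlv, hpow, ← Matrix.transpose_pow, Matrix.inv_pow', hpow, inv_one, Matrix.transpose_one, Matrix.fromBlocks_one]
    rfl
  refine ⟨QuotientGroup.mk x, ?_, ?_⟩
  · intro hp
    have h1 : p ∣ Nat.card F ^ 2 - 1 := by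
      refine hp.trans (orderOf_dvd_of_pow_eq_one ?_)
      rw [← QuotientGroup.mk_pow, hxpow, QuotientGroup.mk_one]
    obtain ⟨n, _, hn⟩ := FiniteField.card F p
    have h2 : p ∣ Nat.card F ^ 2 := by
      rw [Nat.card_eq_fintype_card, hn]
      exact dvd_pow (dvd_pow_self p n.2.ne') (by norm_num)
    have h4 : 1 ≤ Nat.card F ^ 2 := Nat.one_le_pow _ _ (by omega)
    have h5 : p ∣ 1 := by
      have := Nat.dvd_sub h2 h1
      rwa [Nat.sub_sub_self h4] at this
    exact (Fact.out : p.Prime).one_lt.ne' (Nat.dvd_one.mp h5)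
  · intro g hg
    obtain ⟨A, rfl⟩ := QuotientGroup.mk_surjective g
    have hcen : ∀ B : Matrix.symplecticGroup (Fin 2) F,
        ((B : Matrix (Fin 2 ⊕ Fin 2) (Fin 2 ⊕ Fin 2) F) = 1 ∨ (B : Matrix (Fin 2 ⊕ Fin 2) (Fin 2 ⊕ Fin 2) F) = -1) →
        B ∈ Subgroup.center (Matrix.symplecticGroup (Fin 2) F) := by
      intro B hB
      rw [Subgroup.mem_center_iff]
      intro D
      apply Subtype.ext
      rw [Submonoid.coe_mul, Submonoid.coe_mul]
      rcases hB with hB | hB
      · rw [hB, Matrix.one_mul, Matrix.mul_one]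
      · rw [hB, Matrix.neg_mul, Matrix.mul_neg, Matrix.one_mul, Matrix.mul_one]
    have hnc : A ∉ Subgroup.center (Matrix.symplecticGroup (Fin 2) F) := by
      intro h
      exact hg ((QuotientGroup.eq_one_iff A).mpr h)
    obtain ⟨y, z, hy, hz, hyz⟩ := H46.TwF.main h3 hroot hτ hδ1 hδ0 C hC C⁻¹ hC' A
      (fun h => hnc (hcen A (Or.inl h))) (fun h => hnc (hcen A (Or.inr h)))
    obtain ⟨u, hu⟩ := isConj_iff.mp hy
    obtain ⟨v, hv⟩ := isConj_iff.mp hz
    refine ⟨QuotientGroup.mk u, QuotientGroup.mk v, ?_⟩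
    have h1 : (QuotientGroup.mk A : Cfsg.PSp 2 F) = QuotientGroup.mk (y * z) := by
      rw [QuotientGroup.eq]
      apply hcen
      rcases hyz with h | h
      · left
        have h2 : A = y * z := Subtype.ext h
        rw [h2, inv_mul_cancel, Submonoid.coe_one]
      · right
        obtain ⟨s, hs⟩ : ∃ s : Matrix.symplecticGroup (Fin 2) F, (s : Matrix (Fin 2 ⊕ Fin 2) (Fin 2 ⊕ Fin 2) F) = -1 :=
          ⟨⟨-1, SymplecticGroup.neg_mem (one_mem _)⟩, rfl⟩
        have h2 : A = s * (y * z) := by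
          apply Subtype.ext
          rw [h, Submonoid.coe_mul _ s, hs, Matrix.neg_mul, Matrix.one_mul]
        have h3 : s⁻¹ = s := by
          rw [inv_eq_iff_mul_eq_one]
          apply Subtype.ext
          rw [Submonoid.coe_mul, hs, Matrix.neg_mul, Matrix.one_mul, neg_neg, Submonoid.coe_one]
        have hc := hcen s (Or.inr hs)
        rw [Subgroup.mem_center_iff] at hc
        have h4 : A⁻¹ * (y * z) = s := by
          rw [h2, mul_inv_rev, h3, mul_assoc, ← hc (y * z), ← mul_assoc, inv_mul_cancel, one_mul]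
        rw [h4, hs]
    rw [h1, ← hu, ← hv]
    rfl

end Cfsg.Agent.S2460
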