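import Cfsg.Statements.S2466
import Mathlib

set_option autoImplicit false
open Cfsg

namespace Cfsg.Agent.S2466

theorem exists_dvd_part {α : Type*} [Fintype α] [DecidableEq α] (σ : Equiv.Perm α) {p : ℕ}
    (hp : p.Prime) (h : p ∣ orderOf σ) : ∃ a ∈ σ.cycleType, p ∣ a := by
  rw [← Equiv.Perm.lcm_cycleType] at h
  have h1 : p ∣ σ.cycleType.prod := h.trans (Multiset.lcm_dvd.mpr fun b hb => Multiset.dvd_prod hb)
  exact hp.prime.exists_mem_multiset_dvd h1

theorem two_parts_le {C : Multiset ℕ} {a b : ℕ} (ha : a ∈ C) (hb : b ∈ C.erase a) : a + b ≤ C.sum := by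
  rw [← Multiset.cons_erase ha, Multiset.sum_cons]
  exact Nat.add_le_add_left (Multiset.single_le_sum (fun _ _ => Nat.zero_le _) _ hb) _

theorem result (n r s : ℕ) (hr : r.Prime) (hs : s.Prime) (hr2 : r ≠ 2) (hs2 : s ≠ 2) (hrs : r ≠ s) (hrn : r ≤ n) (hsn : s ≤ n) :
    (r * s ∈ Set.range (orderOf : alternatingGroup (Fin n) → ℕ)) ↔ r + s ≤ n := by
  constructor
  · rintro ⟨⟨σ, hσ⟩, hord⟩
    rw [← Subgroup.orderOf_coe] at hord
    simp only at hord
    have hsum : σ.cycleType.sum ≤ n := by
      rw [Equiv.Perm.sum_cycleType]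
      simpa using Finset.card_le_univ σ.support
    obtain ⟨a, ha, hra⟩ := exists_dvd_part σ hr (hord ▸ Dvd.intro _ rfl)
    obtain ⟨b, hb, hsb⟩ := exists_dvd_part σ hs (hord ▸ Dvd.intro_left _ rfl)
    have ha2 := Equiv.Perm.two_le_of_mem_cycleType ha
    have hb2 := Equiv.Perm.two_le_of_mem_cycleType hb
    by_cases hab : a = b
    · subst hab
      have h1 : r * s ∣ a := ((Nat.coprime_primes hr hs).mpr hrs).mul_dvd_of_dvd_of_dvd hra hsb
      have h2 := Nat.le_of_dvd (by omega) h1
      have h3 : a ≤ σ.cycleType.sum := Multiset.single_le_sum (fun _ _ => Nat.zero_le _) _ ha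
      have := hr.two_le
      have := hs.two_le
      nlinarith
    · have hb' : b ∈ σ.cycleType.erase a := (Multiset.mem_erase_of_ne (Ne.symm hab)).mpr hb
      have h1 := two_parts_le ha hb'
      have h2 := Nat.le_of_dvd (by omega) hra
      have h3 := Nat.le_of_dvd (by omega) hsb
      omega
  · intro h
    obtain ⟨σ, hσ⟩ := (Equiv.Perm.exists_with_cycleType_iff (Fin n) (m := {r, s})).mpr (by
      constructor
      · simpa using h
      · intro a ha
        simp only [Multiset.insert_eq_cons, Multiset.mem_cons, Multiset.mem_singleton] at ha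
        rcases ha with rfl | rfl
        · exact hr.two_le
        · exact hs.two_le)
    have hr' := hr.eq_two_or_odd'.resolve_left hr2
    have hs' := hs.eq_two_or_odd'.resolve_left hs2
    have hsign : σ ∈ alternatingGroup (Fin n) := by
      rw [Equiv.Perm.mem_alternatingGroup, Equiv.Perm.sign_of_cycleType, hσ]
      simp only [Multiset.insert_eq_cons, Multiset.sum_cons, Multiset.sum_singleton,
        Multiset.card_cons, Multiset.card_singleton]
      apply Even.neg_one_pow
      exact (hr'.add_odd hs').add (by decide)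
    refine ⟨⟨σ, hsign⟩, ?_⟩
    rw [← Subgroup.orderOf_coe]
    simp only
    rw [← Equiv.Perm.lcm_cycleType, hσ]
    simp only [Multiset.insert_eq_cons, Multiset.lcm_cons, Multiset.lcm_singleton, normalize_eq]
    exact ((Nat.coprime_primes hr hs).mpr hrs).lcm_eq_mul

end Cfsg.Agent.S2466
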