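import Cfsg.Statements.S2467
import Mathlib

set_option autoImplicit false
open Cfsg

namespace Cfsg.Agent.S2467

theorem exists_dvd_part {α : Type*} [Fintype α] [DecidableEq α] (σ : Equiv.Perm α) {p : ℕ}
    (hp : p.Prime) (h : p ∣ orderOf σ) : ∃ a ∈ σ.cycleType, p ∣ a := by
  rw [← Equiv.Perm.lcm_cycleType] at h
  have h1 : p ∣ σ.cycleType.prod := h.trans (Multiset.lcm_dvd.mpr fun b hb => Multiset.dvd_prod hb)
  exact hp.prime.exists_mem_multiset_dvd h1

theorem parity (C : Multiset ℕ) : (C.sum + Multiset.card C) % 2 = (Multiset.card (C.filter (Dvd.dvd 2))) % 2 := by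
  induction C using Multiset.induction with
  | empty => simp
  | cons a C ih =>
    rw [Multiset.sum_cons, Multiset.card_cons]
    by_cases h : 2 ∣ a
    · rw [Multiset.filter_cons_of_pos _ h, Multiset.card_cons]
      omega
    · rw [Multiset.filter_cons_of_neg _ h]
      omega

theorem result (n r : ℕ) (hn : 4 ≤ n) (hr : r.Prime) (hr2 : r ≠ 2) (hrn : r ≤ n) :
    (2 * r ∈ Set.range (orderOf : alternatingGroup (Fin n) → ℕ)) ↔ r + 4 ≤ n := by
  have hr' := hr.eq_two_or_odd'.resolve_left hr2
  have hr3 : 3 ≤ r := by have := hr.two_le; omega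
  constructor
  · rintro ⟨⟨σ, hσ⟩, hord⟩
    rw [← Subgroup.orderOf_coe] at hord
    simp only at hord
    have hsum : σ.cycleType.sum ≤ n := by
      rw [Equiv.Perm.sum_cycleType]
      simpa using Finset.card_le_univ σ.support
    rw [Equiv.Perm.mem_alternatingGroup, Equiv.Perm.sign_of_cycleType] at hσ
    have hpar : (σ.cycleType.sum + Multiset.card σ.cycleType) % 2 = 0 := by
      rcases Nat.even_or_odd (σ.cycleType.sum + Multiset.card σ.cycleType) with h | h
      · exact Nat.even_iff.mp h
      · rw [h.neg_one_pow] at hσ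
        exact absurd hσ (by decide)
    rw [parity] at hpar
    obtain ⟨a, ha, hra⟩ := exists_dvd_part σ hr (hord ▸ Dvd.intro_left _ rfl)
    obtain ⟨b, hb, h2b⟩ := exists_dvd_part σ Nat.prime_two (hord ▸ Dvd.intro _ rfl)
    have hge : ∀ c ∈ σ.cycleType, 2 ≤ c := fun c hc => Equiv.Perm.two_le_of_mem_cycleType hc
    have ha2 := hge a ha
    obtain ⟨C', hC'⟩ := Multiset.exists_cons_of_mem ha
    rw [hC'] at hpar hsum hb hge
    rw [Multiset.sum_cons] at hsum
    have hra' := Nat.le_of_dvd (by omega) hra
    by_cases h2a : 2 ∣ a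
    · rw [Multiset.filter_cons_of_pos _ h2a, Multiset.card_cons] at hpar
      have h1 : r * 2 ∣ a := ((Nat.coprime_primes hr Nat.prime_two).mpr hr2).mul_dvd_of_dvd_of_dvd hra h2a
      have h2 := Nat.le_of_dvd (by omega) h1
      have h3 : 0 < Multiset.card (C'.filter (Dvd.dvd 2)) := by omega
      obtain ⟨c, hc⟩ := Multiset.card_pos_iff_exists_mem.mp h3
      have hc' := (Multiset.mem_filter.mp hc).1
      have h4 := Multiset.single_le_sum (fun _ _ => Nat.zero_le _) _ hc'
      have h5 := hge c (Multiset.mem_cons_of_mem hc')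
      omega
    · rw [Multiset.filter_cons_of_neg _ h2a] at hpar
      have hb' : b ∈ C' := by
        rcases Multiset.mem_cons.mp hb with rfl | h
        · exact absurd h2b h2a
        · exact h
      have hbf : b ∈ C'.filter (Dvd.dvd 2) := Multiset.mem_filter.mpr ⟨hb', h2b⟩
      obtain ⟨D, hD⟩ := Multiset.exists_cons_of_mem hbf
      rw [hD, Multiset.card_cons] at hpar
      have h3 : 0 < Multiset.card D := by omega
      obtain ⟨c, hc⟩ := Multiset.card_pos_iff_exists_mem.mp h3
      obtain ⟨E, hE⟩ := Multiset.exists_cons_of_mem hc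
      have hle : (C'.filter (Dvd.dvd 2)).sum ≤ C'.sum := by
        obtain ⟨u, hu⟩ := Multiset.le_iff_exists_add.mp (Multiset.filter_le (Dvd.dvd 2) C')
        conv_rhs => rw [hu]
        rw [Multiset.sum_add]
        omega
      rw [hD, hE, Multiset.sum_cons, Multiset.sum_cons] at hle
      have h5 := hge b (Multiset.mem_cons_of_mem hb')
      have hc2 : c ∈ C'.filter (Dvd.dvd 2) := by rw [hD, hE]; simp
      have h6 := hge c (Multiset.mem_cons_of_mem (Multiset.mem_filter.mp hc2).1)
      omega
  · intro h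
    obtain ⟨σ, hσ⟩ := (Equiv.Perm.exists_with_cycleType_iff (Fin n) (m := {r, 2, 2})).mpr (by
      constructor
      · simpa [add_assoc] using h
      · intro a ha
        simp only [Multiset.insert_eq_cons, Multiset.mem_cons, Multiset.mem_singleton] at ha
        rcases ha with rfl | rfl | rfl
        · exact hr.two_le
        · exact le_rfl
        · exact le_rfl)
    have hsign : σ ∈ alternatingGroup (Fin n) := by
      rw [Equiv.Perm.mem_alternatingGroup, Equiv.Perm.sign_of_cycleType, hσ]
      simp only [Multiset.insert_eq_cons, Multiset.sum_cons, Multiset.sum_singleton,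
        Multiset.card_cons, Multiset.card_singleton]
      apply Even.neg_one_pow
      obtain ⟨t, ht⟩ := hr'
      refine ⟨t + 4, by omega⟩
    refine ⟨⟨σ, hsign⟩, ?_⟩
    rw [← Subgroup.orderOf_coe]
    simp only
    rw [← Equiv.Perm.lcm_cycleType, hσ]
    simp only [Multiset.insert_eq_cons, Multiset.lcm_cons, Multiset.lcm_singleton, normalize_eq]
    show Nat.lcm r (Nat.lcm 2 2) = 2 * r
    rw [Nat.lcm_self, ((Nat.coprime_primes hr Nat.prime_two).mpr hr2).lcm_eq_mul, mul_comm]

end Cfsg.Agent.S2467
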