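import Cfsg.Statements.S2471
import Cfsg.Agent.Lib.H46.PSL2Orders

set_option autoImplicit false
open Cfsg

namespace Cfsg.Agent.S2471

theorem result {F : Type*} [Field F] [Fintype F] (p : ℕ) [Fact p.Prime] [CharP F p] (hp : p ≠ 2) (h5 : 5 ≤ Fintype.card F) (g : Matrix.ProjectiveSpecialLinearGroup (Fin 2) F) :
    orderOf g ≠ 2 * p := by
  intro hg
  have hpp : p.Prime := Fact.out
  obtain ⟨n, -, hn⟩ := FiniteField.card F p
  have hpq : p ∣ Nat.card F := by
    rw [Nat.card_eq_fintype_card, hn]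
    exact dvd_pow_self p n.ne_zero
  have h1 : 1 < Nat.card F := Finite.one_lt_card
  rcases H46.PSL2Orders.order_trichotomy p g with h | h | h
  · rw [hg] at h
    have := Nat.le_of_dvd hpp.pos h
    have := hpp.pos
    omega
  · have h2 : p ∣ Nat.card F - 1 :=
      ((Dvd.intro_left 2 rfl : p ∣ 2 * p).trans (hg ▸ h)).trans (Nat.div_dvd_of_dvd (Nat.gcd_dvd_right _ _))
    have h3 : p ∣ 1 := by
      have := Nat.dvd_sub hpq h2
      rwa [Nat.sub_sub_self h1.le] at this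
    exact hpp.one_lt.ne' (Nat.dvd_one.mp h3)
  · have hd : Nat.gcd 2 (Nat.card F - 1) ∣ Nat.card F + 1 := by
      have h4 : Nat.gcd 2 (Nat.card F - 1) ∣ (Nat.card F - 1) + 2 :=
        Nat.dvd_add (Nat.gcd_dvd_right _ _) (Nat.gcd_dvd_left _ _)
      have h5 : Nat.card F - 1 + 2 = Nat.card F + 1 := by omega
      rwa [h5] at h4
    have h2 : p ∣ Nat.card F + 1 :=
      ((Dvd.intro_left 2 rfl : p ∣ 2 * p).trans (hg ▸ h)).trans (Nat.div_dvd_of_dvd hd)
    have h3 : p ∣ 1 := (Nat.dvd_add_right hpq).mp h2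
    exact hpp.one_lt.ne' (Nat.dvd_one.mp h3)

end Cfsg.Agent.S2471
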