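import Cfsg.Statements.S2478
import Cfsg.Agent.Lib.H46.TyGL

set_option autoImplicit false
open Cfsg

namespace Cfsg.Agent.S2478

/-- The number of conjugacy classes of GL(n,q): for F a finite field with q elements and n ≥ 1, the number k of conjugacy classes of GL(n,F) satisfies q^n − q^(n−1) ≤ k ≤ q^n. -/
theorem result {F : Type*} [Field F] [Fintype F] (n : ℕ) (hn : 1 ≤ n) :
    Fintype.card F ^ n - Fintype.card F ^ (n - 1) ≤ Nat.card (ConjClasses (Matrix.GeneralLinearGroup (Fin n) F)) ∧ Nat.card (ConjClasses (Matrix.GeneralLinearGroup (Fin n) F)) ≤ Fintype.card F ^ n := by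
  rw [← Nat.card_eq_fintype_card]
  refine ⟨?_, H46.TyGL.card_conjClasses_le.trans (H46.TyCount.kk_le n)⟩
  refine le_trans (le_of_eq ?_) H46.TyGL.le_card_conjClasses
  obtain ⟨m, rfl⟩ : ∃ m, n = m + 1 := ⟨n - 1, by omega⟩
  unfold H46.TyNum.phi
  rw [if_neg (by omega), Nat.add_sub_cancel, Nat.sub_mul, one_mul, pow_succ']

end Cfsg.Agent.S2478
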