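import Cfsg.Statements.S2479
import Cfsg.Agent.Lib.H46.TyBound

set_option autoImplicit false
open Cfsg

namespace Cfsg.Agent.S2479

/-- The number of conjugacy classes of SL(n,q): for F a finite field with q elements, the number k of conjugacy classes of SL(n,F) satisfies q^(n−1) < k and k ≤ (5/2)·q^(n−1) for n ≥ 2, and k ≤ q^(n−1) + 3q^(n−2) for n ≥ 3. -/
theorem result {F : Type*} [Field F] [Fintype F] (n : ℕ) (hn : 2 ≤ n) :
    Fintype.card F ^ (n - 1) < Nat.card (ConjClasses (Matrix.SpecialLinearGroup (Fin n) F)) ∧ 2 * Nat.card (ConjClasses (Matrix.SpecialLinearGroup (Fin n) F)) ≤ 5 * Fintype.card F ^ (n - 1) ∧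
      (3 ≤ n → Nat.card (ConjClasses (Matrix.SpecialLinearGroup (Fin n) F)) ≤ Fintype.card F ^ (n - 1) + 3 * Fintype.card F ^ (n - 2)) := by
  rw [← Nat.card_eq_fintype_card]
  have hq : 1 < Nat.card F := Finite.one_lt_card
  have hpos : 0 < Nat.card F - 1 := by omega
  have h1 := H46.TySL.card_SL_le (F := F) (n := n)
  refine ⟨H46.TySL.lt_card_SL hn, ?_, ?_⟩
  · have h2 := H46.TyBound.WW_general F (n := n) (by omega)
    apply Nat.le_of_mul_le_mul_left _ hpos
    calc (Nat.card F - 1) * (2 * Nat.card (ConjClasses (Matrix.SpecialLinearGroup (Fin n) F)))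
        = 2 * ((Nat.card F - 1) * Nat.card (ConjClasses (Matrix.SpecialLinearGroup (Fin n) F))) := by ring
      _ ≤ 2 * H46.TyDet.WW F n := Nat.mul_le_mul_left _ h1
      _ ≤ 5 * ((Nat.card F - 1) * Nat.card F ^ (n - 1)) := h2
      _ = (Nat.card F - 1) * (5 * Nat.card F ^ (n - 1)) := by ring
  · intro hn3
    exact Nat.le_of_mul_le_mul_left (h1.trans (H46.TyBound.WW_ge_three F hn3)) hpos

end Cfsg.Agent.S2479
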