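import Cfsg.Statements.S2480
import Cfsg.Agent.Lib.H46.TyScale
import Cfsg.Agent.Lib.H46.ClassQuot
import Cfsg.Agent.Lib.H6.SLCard

set_option autoImplicit false
open Cfsg

namespace Cfsg.Agent.S2480

open H46.ClassQuot H46.TyScale H46.TySL H46.TyDet H46.TyBound H46.TyGL Finset

variable {F : Type*} [Field F] {n : ℕ}

open scoped Classical in
/-- classes fixed by a central element -/
theorem fix_le [Finite F] (hn : 0 < n) (z : Subgroup.center (Matrix.SpecialLinearGroup (Fin n) F)) (ζ : F) (hζ0 : ζ ≠ 0)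
    (hζ : Matrix.scalar (Fin n) ζ = ((z : Matrix.SpecialLinearGroup (Fin n) F) : Matrix (Fin n) (Fin n) F)) :
    (Nat.card F - 1) * Nat.card {C : ConjClasses (Matrix.SpecialLinearGroup (Fin n) F) // cm z C = C} ≤ WW F (n / orderOf ζ) := by
  refine le_trans (Nat.mul_le_mul_left _ (card_classes_le (n := n) (fun C => cm z C = C) (SF F n ζ) ?_)) (sum_SF_le n hζ0 hn)
  intro C hC
  have h1 := cty_mem C
  unfold SF
  rw [mem_filter] at h1 ⊢
  refine ⟨h1.1, h1.2, ?_⟩
  obtain ⟨x, rfl⟩ := ConjClasses.exists_rep C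
  intro e
  rw [cty_mk]
  apply ty_scale_eq hζ0
  have h2 := congrArg cty hC
  rw [cm_mk, cty_mk, cty_mk, Matrix.SpecialLinearGroup.coe_mul, ← hζ] at h2
  rw [← h2]
  congr 1
  rw [Matrix.scalar_apply, ← Matrix.smul_eq_diagonal_mul]

theorem total_le [Finite F] (hn : 0 < n) (B : ℕ) (hB : ∀ m, 2 ≤ m → m ∣ n → WW F (n / m) ≤ B) :
    (Nat.card F - 1) * (Nat.gcd n (Nat.card F - 1) * Nat.card (ConjClasses (Matrix.ProjectiveSpecialLinearGroup (Fin n) F))) ≤
      WW F n + (Nat.gcd n (Nat.card F - 1) - 1) * B := by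
  classical
  have hne : Nonempty (Fin n) := ⟨⟨0, hn⟩⟩
  haveI : Fintype F := Fintype.ofFinite F
  haveI : Fintype (Subgroup.center (Matrix.SpecialLinearGroup (Fin n) F)) := Fintype.ofFinite _
  have hc := H6.SLCard.card_center_sl (F := F) (ι := Fin n)
  rw [Fintype.card_fin, ← Nat.card_eq_fintype_card] at hc
  have hb := burnside_le (G := Matrix.SpecialLinearGroup (Fin n) F)
  rw [hc] at hb
  have hz : ∀ z : Subgroup.center (Matrix.SpecialLinearGroup (Fin n) F), ∃ ζ : F, ζ ≠ 0 ∧ ζ ^ n = 1 ∧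
      Matrix.scalar (Fin n) ζ = ((z : Matrix.SpecialLinearGroup (Fin n) F) : Matrix (Fin n) (Fin n) F) := by
    intro z
    obtain ⟨ζ, h1, h2⟩ := Matrix.SpecialLinearGroup.mem_center_iff.mp z.2
    rw [Fintype.card_fin] at h1
    refine ⟨ζ, ?_, h1, h2⟩
    rintro rfl
    rw [zero_pow (by omega)] at h1
    exact zero_ne_one h1
  have h1 : (Nat.card F - 1) * Nat.card {C : ConjClasses (Matrix.SpecialLinearGroup (Fin n) F) // cm 1 C = C} ≤ WW F n := by
    have h2 := fix_le hn (1 : Subgroup.center (Matrix.SpecialLinearGroup (Fin n) F)) (1 : F) one_ne_zero (by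
      rw [map_one]; rfl)
    rwa [orderOf_one, Nat.div_one] at h2
  have h2 : ∀ z ∈ (univ : Finset (Subgroup.center (Matrix.SpecialLinearGroup (Fin n) F))).erase 1,
      (Nat.card F - 1) * Nat.card {C : ConjClasses (Matrix.SpecialLinearGroup (Fin n) F) // cm z C = C} ≤ B := by
    intro z hz1
    obtain ⟨ζ, hζ0, hζn, hζ⟩ := hz z
    refine (fix_le hn z ζ hζ0 hζ).trans (hB _ ?_ (orderOf_dvd_of_pow_eq_one hζn))
    have h3 : orderOf ζ ≠ 1 := by
      intro h4
      rw [orderOf_eq_one_iff] at h4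
      apply Finset.ne_of_mem_erase hz1
      rw [h4, map_one] at hζ
      apply Subtype.ext
      apply Subtype.ext
      exact hζ.symm
    have h4 : 0 < orderOf ζ := by
      have h5 : orderOf (Units.mk0 ζ hζ0) = orderOf ζ := by rw [← orderOf_units]; rfl
      rw [← h5]
      exact orderOf_pos _
    omega
  calc (Nat.card F - 1) * (Nat.gcd n (Nat.card F - 1) * Nat.card (ConjClasses (Matrix.ProjectiveSpecialLinearGroup (Fin n) F)))
      ≤ (Nat.card F - 1) * ∑ z : Subgroup.center (Matrix.SpecialLinearGroup (Fin n) F), Nat.card {C : ConjClasses (Matrix.SpecialLinearGroup (Fin n) F) // cm z C = C} :=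
        Nat.mul_le_mul_left _ hb
    _ = ∑ z : Subgroup.center (Matrix.SpecialLinearGroup (Fin n) F), (Nat.card F - 1) * Nat.card {C : ConjClasses (Matrix.SpecialLinearGroup (Fin n) F) // cm z C = C} := by
        rw [Finset.mul_sum]
    _ = (Nat.card F - 1) * Nat.card {C : ConjClasses (Matrix.SpecialLinearGroup (Fin n) F) // cm 1 C = C} +
        ∑ z ∈ (univ : Finset (Subgroup.center (Matrix.SpecialLinearGroup (Fin n) F))).erase 1, (Nat.card F - 1) * Nat.card {C : ConjClasses (Matrix.SpecialLinearGroup (Fin n) F) // cm z C = C} := by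
        exact (Finset.add_sum_erase univ (fun z : Subgroup.center (Matrix.SpecialLinearGroup (Fin n) F) => (Nat.card F - 1) * Nat.card {C : ConjClasses (Matrix.SpecialLinearGroup (Fin n) F) // cm z C = C}) (mem_univ 1)).symm
    _ ≤ WW F n + (Nat.gcd n (Nat.card F - 1) - 1) * B := by
        refine Nat.add_le_add h1 ((Finset.sum_le_card_nsmul _ _ _ h2).trans ?_)
        rw [Finset.card_erase_of_mem (mem_univ 1), Finset.card_univ, ← Nat.card_eq_fintype_card, hc, smul_eq_mul]

/-- the upper bound -/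
theorem upper [Finite F] (hn : 2 ≤ n) : Nat.gcd n (Nat.card F - 1) * Nat.card (ConjClasses (Matrix.ProjectiveSpecialLinearGroup (Fin n) F)) ≤
    Nat.card F ^ (n - 1) + 5 * Nat.card F ^ (n - 2) := by
  have hq : 1 < Nat.card F := Finite.one_lt_card
  have hpos : 0 < Nat.card F - 1 := by omega
  have hd1 : Nat.gcd n (Nat.card F - 1) ∣ n := Nat.gcd_dvd_left _ _
  have hd2 : Nat.gcd n (Nat.card F - 1) ∣ Nat.card F - 1 := Nat.gcd_dvd_right _ _
  have hd0 : 0 < Nat.gcd n (Nat.card F - 1) := Nat.gcd_pos_of_pos_right _ hpos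
  have hdle := Nat.le_of_dvd hpos hd2
  apply Nat.le_of_mul_le_mul_left _ hpos
  rcases (by omega : n = 2 ∨ 3 ≤ n) with rfl | h3
  · have h1 := total_le (F := F) (n := 2) (by norm_num) (Nat.card F - 1) (by
      intro m hm hm2
      have : m = 2 := by
        have := Nat.le_of_dvd (by norm_num) hm2
        omega
      rw [this]
      exact WW_one F)
    refine h1.trans ?_
    have h2 := WW_two F
    have h4 : (Nat.card F - 1) * (Nat.card F ^ (2 - 1) + 5 * Nat.card F ^ (2 - 2)) = (Nat.card F - 1) * (Nat.card F + 1) + 4 * (Nat.card F - 1) := by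
      simp only [Nat.reduceSub, pow_one, pow_zero]
      ring
    rw [h4]
    split_ifs at h2 with h5
    · have h6 : Nat.gcd 2 (Nat.card F - 1) = 2 := Nat.gcd_eq_left h5
      rw [h6]
      omega
    · have h6 : Nat.gcd 2 (Nat.card F - 1) = 1 := (Nat.Prime.coprime_iff_not_dvd Nat.prime_two).mpr h5
      rw [h6]
      omega
  · obtain ⟨B, hB1, hB2⟩ : ∃ B, 2 * B ≤ 5 * ((Nat.card F - 1) * Nat.card F ^ (n / 2 - 1)) ∧ ∀ m, 2 ≤ m → m ∣ n → WW F (n / m) ≤ B := by
      refine ⟨5 * ((Nat.card F - 1) * Nat.card F ^ (n / 2 - 1)) / 2, Nat.mul_div_le _ _, ?_⟩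
      intro m hm hmn
      rw [Nat.le_div_iff_mul_le (by norm_num), mul_comm]
      have h4 : n / m ≤ n / 2 := Nat.div_le_div_left hm (by norm_num)
      have h5 : 1 ≤ n / m := Nat.div_pos (Nat.le_of_dvd (by omega) hmn) (by omega)
      refine (WW_general F h5).trans (Nat.mul_le_mul_left _ (Nat.mul_le_mul_left _ (Nat.pow_le_pow_right (by omega) (by omega))))
    have h1 := total_le (F := F) (n := n) (by omega) B hB2
    have h2 := WW_ge_three F h3
    have key : 5 * ((Nat.gcd n (Nat.card F - 1) - 1) * Nat.card F ^ (n / 2 - 1)) ≤ 4 * Nat.card F ^ (n - 2) := by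
      rcases (by omega : n = 3 ∨ n = 4 ∨ 5 ≤ n) with rfl | rfl | h5
      · simp only [Nat.reduceSub, Nat.reduceDiv, pow_zero, pow_one, mul_one]
        have h6 : Nat.gcd 3 (Nat.card F - 1) ≤ 3 := Nat.le_of_dvd (by norm_num) hd1
        rcases (by omega : Nat.gcd 3 (Nat.card F - 1) = 3 ∨ Nat.gcd 3 (Nat.card F - 1) ≤ 2) with h7 | h7
        · omega
        · have h8 : Nat.gcd 3 (Nat.card F - 1) ≠ 2 := by
            intro h9; rw [h9] at hd1; omega
          omega
      · simp only [Nat.reduceSub, Nat.reduceDiv, pow_one]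
        have h6 : Nat.gcd 4 (Nat.card F - 1) ≤ 4 := Nat.le_of_dvd (by norm_num) hd1
        have h8 : Nat.gcd 4 (Nat.card F - 1) ≠ 3 := by
          intro h9; rw [h9] at hd1; omega
        have h10 : 5 * (Nat.gcd 4 (Nat.card F - 1) - 1) ≤ 4 * Nat.card F := by omega
        calc 5 * ((Nat.gcd 4 (Nat.card F - 1) - 1) * Nat.card F) = (5 * (Nat.gcd 4 (Nat.card F - 1) - 1)) * Nat.card F := by ring
          _ ≤ (4 * Nat.card F) * Nat.card F := Nat.mul_le_mul_right _ h10
          _ = _ := by ring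
      · have h6 : Nat.card F ^ (n / 2 - 1) ≤ Nat.card F ^ (n - 4) := Nat.pow_le_pow_right (by omega) (by omega)
        have h7 : 5 * (Nat.gcd n (Nat.card F - 1) - 1) ≤ 4 * Nat.card F ^ 2 := by
          have : 5 * (Nat.gcd n (Nat.card F - 1) - 1) ≤ 5 * (Nat.card F - 2) := by omega
          refine this.trans ?_
          obtain ⟨t, ht⟩ : ∃ t, Nat.card F = t + 2 := ⟨Nat.card F - 2, by omega⟩
          rw [ht, Nat.add_sub_cancel]
          nlinarith
        calc 5 * ((Nat.gcd n (Nat.card F - 1) - 1) * Nat.card F ^ (n / 2 - 1)) = (5 * (Nat.gcd n (Nat.card F - 1) - 1)) * Nat.card F ^ (n / 2 - 1) := by ring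
          _ ≤ (4 * Nat.card F ^ 2) * Nat.card F ^ (n - 4) := Nat.mul_le_mul h7 h6
          _ = 4 * Nat.card F ^ (n - 2) := by rw [mul_assoc, ← pow_add]; congr 2; omega
    have h9 : 2 * ((Nat.card F - 1) * (Nat.gcd n (Nat.card F - 1) * Nat.card (ConjClasses (Matrix.ProjectiveSpecialLinearGroup (Fin n) F)))) ≤
        2 * ((Nat.card F - 1) * (Nat.card F ^ (n - 1) + 5 * Nat.card F ^ (n - 2))) := by
      calc 2 * ((Nat.card F - 1) * (Nat.gcd n (Nat.card F - 1) * Nat.card (ConjClasses (Matrix.ProjectiveSpecialLinearGroup (Fin n) F))))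
          ≤ 2 * (WW F n + (Nat.gcd n (Nat.card F - 1) - 1) * B) := Nat.mul_le_mul_left _ h1
        _ = 2 * WW F n + (Nat.gcd n (Nat.card F - 1) - 1) * (2 * B) := by ring
        _ ≤ 2 * ((Nat.card F - 1) * (Nat.card F ^ (n - 1) + 3 * Nat.card F ^ (n - 2))) +
            (Nat.gcd n (Nat.card F - 1) - 1) * (5 * ((Nat.card F - 1) * Nat.card F ^ (n / 2 - 1))) :=
            Nat.add_le_add (Nat.mul_le_mul_left _ h2) (Nat.mul_le_mul_left _ hB1)
        _ = 2 * ((Nat.card F - 1) * (Nat.card F ^ (n - 1) + 3 * Nat.card F ^ (n - 2))) +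
            (Nat.card F - 1) * (5 * ((Nat.gcd n (Nat.card F - 1) - 1) * Nat.card F ^ (n / 2 - 1))) := by ring
        _ ≤ 2 * ((Nat.card F - 1) * (Nat.card F ^ (n - 1) + 3 * Nat.card F ^ (n - 2))) +
            (Nat.card F - 1) * (4 * Nat.card F ^ (n - 2)) := Nat.add_le_add_left (Nat.mul_le_mul_left _ key) _
        _ = _ := by ring
    omega

/-- The number of conjugacy classes of PSL(n,q): for F a finite field with q elements, n ≥ 2 and d = gcd(n, q − 1), the number k of conjugacy classes of PSL(n,F) satisfies q^(n−1) ≤ d·k ≤ q^(n−1) + 5q^(n−2). -/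
theorem result {F : Type*} [Field F] [Fintype F] (n : ℕ) (hn : 2 ≤ n) :
    Fintype.card F ^ (n - 1) ≤ Nat.gcd n (Fintype.card F - 1) * Nat.card (ConjClasses (Matrix.ProjectiveSpecialLinearGroup (Fin n) F)) ∧
      Nat.gcd n (Fintype.card F - 1) * Nat.card (ConjClasses (Matrix.ProjectiveSpecialLinearGroup (Fin n) F)) ≤ Fintype.card F ^ (n - 1) + 5 * Fintype.card F ^ (n - 2) := by
  have hne : Nonempty (Fin n) := ⟨⟨0, by omega⟩⟩
  have hc := H6.SLCard.card_center_sl (F := F) (ι := Fin n)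
  rw [Fintype.card_fin] at hc
  refine ⟨?_, ?_⟩
  · have h1 := card_le (G := Matrix.SpecialLinearGroup (Fin n) F)
    rw [hc] at h1
    have h2 := lt_card_SL (F := F) hn
    rw [Nat.card_eq_fintype_card] at h2
    exact h2.le.trans h1
  · have h1 := upper (F := F) hn
    rwa [Nat.card_eq_fintype_card] at h1

end Cfsg.Agent.S2480
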