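import Cfsg.Statements.S2481
import Cfsg.Agent.Lib.H46.ULower

set_option autoImplicit false
open Cfsg

namespace Cfsg.Agent.S2481

/-- The number of conjugacy classes of SU(n,q): for n ≥ 2, q a prime power and F the field with q² elements, the number k of conjugacy classes of SU(n,q) (the determinant-one isometries of the standard Hermitian form on F^n) satisfies q^(n−1) ≤ k ≤ 8.26·q^(n−1). -/
theorem result {F : Type*} [Field F] [Fintype F] (n q : ℕ) (hn : 2 ≤ n) (hF : Fintype.card F = q ^ 2) :
    q ^ (n - 1) ≤ Nat.card (ConjClasses (Cfsg.SU n F q)) ∧ 100 * Nat.card (ConjClasses (Cfsg.SU n F q)) ≤ 826 * q ^ (n - 1) := by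
  exact ⟨H46.ULower.le_card_SU hF (by omega), H46.UFinal.card_SU_le hF (by omega)⟩

end Cfsg.Agent.S2481
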