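import Cfsg.Statements.S2482
import Cfsg.Agent.Lib.H46.SpFinal

set_option autoImplicit false
open Cfsg

namespace Cfsg.Agent.S2482

/-- The number of conjugacy classes of Sp(2n,q), q odd: for F a finite field of odd order q and n ≥ 1, the number k of conjugacy classes of Sp(2n,F) satisfies q^n ≤ k ≤ 10.8·q^n. -/
theorem result {F : Type*} [Field F] [Fintype F] (hodd : Odd (Fintype.card F)) (n : ℕ) (hn : 1 ≤ n) :
    Fintype.card F ^ n ≤ Nat.card (ConjClasses (Matrix.symplecticGroup (Fin n) F)) ∧ 5 * Nat.card (ConjClasses (Matrix.symplecticGroup (Fin n) F)) ≤ 54 * Fintype.card F ^ n := by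
  have hq : Nat.card F = Fintype.card F := Nat.card_eq_fintype_card
  have h2 : (2 : F) ≠ 0 := by
    intro h
    have h3 : Even (Fintype.card F) := by
      have h4 : ringChar F = 2 := by
        have h5 : ringChar F ∣ 2 := (ringChar.spec F 2).mp (by exact_mod_cast h)
        rcases (Nat.dvd_prime Nat.prime_two).mp h5 with h6 | h6
        · exact absurd h6 (CharP.ringChar_ne_one)
        · exact h6
      exact Nat.even_iff.mpr (FiniteField.even_card_of_char_two h4)
    exact (Nat.not_even_iff_odd.mpr hodd) h3
  refine ⟨?_, ?_⟩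
  · rw [← hq]; exact H46.SpFinal.lower h2 hn
  · rw [← hq]
    exact H46.SpFinal.upper h2 (by rw [hq]; exact hodd) hn

end Cfsg.Agent.S2482
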