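import Cfsg.Statements.S2485
import Cfsg.Agent.Lib.H46.SylInt

set_option autoImplicit false
open scoped Pointwise
open Cfsg

namespace Cfsg.Agent.S2485

open scoped Pointwise Matrix

section

variable {q : ℕ} [Fact q.Prime]

abbrev M2 (q : ℕ) := Matrix (Fin 2) (Fin 2) (ZMod q)

/-- equality in the projective group -/
theorem mk_eq {M N : GL (Fin 2) (ZMod q)} {c : ZMod q} (h : (M : M2 q) = c • (N : M2 q)) :
    (QuotientGroup.mk M : GL (Fin 2) (ZMod q) ⧸ Subgroup.center (GL (Fin 2) (ZMod q))) = QuotientGroup.mk N := by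
  rw [QuotientGroup.eq, Matrix.GeneralLinearGroup.mem_center_iff_val_mem_range_scalar]
  have hc : c ≠ 0 := by
    rintro rfl
    rw [zero_smul] at h
    exact M.ne_zero h
  refine ⟨c⁻¹, ?_⟩
  have h1 : (M : M2 q) * (c⁻¹ • (1 : M2 q)) = N := by
    rw [Matrix.mul_smul, mul_one, h, smul_smul, inv_mul_cancel₀ hc, one_smul]
  have h2 : (M⁻¹ * N : GL (Fin 2) (ZMod q)).val = c⁻¹ • (1 : M2 q) := by
    rw [Units.val_mul, ← h1, ← mul_assoc, Units.inv_mul, one_mul]
  rw [h2, Matrix.smul_one_eq_diagonal]; rfl

/-- consequences of equality in the projective group -/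
theorem eq_of_mk {M N : GL (Fin 2) (ZMod q)}
    (h : (QuotientGroup.mk M : GL (Fin 2) (ZMod q) ⧸ Subgroup.center (GL (Fin 2) (ZMod q))) = QuotientGroup.mk N) :
    ∃ c : ZMod q, c ≠ 0 ∧ (M : M2 q) = c • (N : M2 q) := by
  rw [QuotientGroup.eq, Matrix.GeneralLinearGroup.mem_center_iff_val_mem_range_scalar] at h
  obtain ⟨c, hc⟩ := h
  have h1 : (N : M2 q) = c • (M : M2 q) := by
    have h2 : (M : M2 q) * (M⁻¹ * N : GL (Fin 2) (ZMod q)).val = N := by
      rw [Units.val_mul, ← mul_assoc, Units.mul_inv, one_mul]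
    rw [← h2, ← hc]
    show (M : M2 q) * Matrix.diagonal (fun _ => c) = _
    rw [← Matrix.smul_one_eq_diagonal, Matrix.mul_smul, mul_one]
  have hc0 : c ≠ 0 := by
    rintro rfl
    rw [zero_smul] at h1
    exact N.ne_zero h1
  exact ⟨c⁻¹, inv_ne_zero hc0, by rw [h1, smul_smul, inv_mul_cancel₀ hc0, one_smul]⟩

/-- elements commuting projectively with `!![0, -1; 1, 0]` -/
theorem comm_cases {M N : M2 q} (hN : N = !![0, -1; 1, 0]) (hdet : M.det ≠ 0) {c : ZMod q} (h : M * N = c • (N * M)) :
    (c = 1 ∧ ∃ a b : ZMod q, M = !![a, -b; b, a]) ∨ (c = -1 ∧ ∃ a b : ZMod q, M = !![a, b; b, -a]) := by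
  subst hN
  have hM := Matrix.eta_fin_two M
  set a := M 0 0
  set b := M 0 1
  set d := M 1 0
  set e := M 1 1
  rw [hM] at h hdet ⊢
  have h00 := congrFun (congrFun h 0) 0
  have h01 := congrFun (congrFun h 0) 1
  have h10 := congrFun (congrFun h 1) 0
  have h11 := congrFun (congrFun h 1) 1
  simp [Matrix.mul_apply, Fin.sum_univ_two] at h00 h01 h10 h11
  rw [Matrix.det_fin_two_of] at hdet
  -- b = -c d, -a = -c e, e = c a, -d = c b
  have hc : (c - 1) * (c + 1) = 0 := by
    by_contra hcon
    apply hdet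
    have h1 : ((c - 1) * (c + 1)) * a = 0 := by linear_combination (-c) * h10 - h01
    have h2 : ((c - 1) * (c + 1)) * b = 0 := by linear_combination (-c) * h11 - h00
    rw [(mul_eq_zero.mp h1).resolve_left hcon, (mul_eq_zero.mp h2).resolve_left hcon]
    ring
  rcases mul_eq_zero.mp hc with h1 | h1
  · left
    have hc1 : c = 1 := by linear_combination h1
    refine ⟨hc1, a, d, ?_⟩
    rw [hc1] at h00 h10
    ext i j
    fin_cases i <;> fin_cases j <;> simp
    · linear_combination h00
    · linear_combination h10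
  · right
    have hc1 : c = -1 := by linear_combination h1
    refine ⟨hc1, a, b, ?_⟩
    rw [hc1] at h00 h10
    ext i j
    fin_cases i <;> fin_cases j <;> simp
    · linear_combination -h00
    · linear_combination h10

end

/-- Let q = 2^k − 1 ≥ 7 be a prime and let G = PGL(2,q), the general linear group of degree 2 over the field with q elements modulo its centre. Then any two Sylow 2-subgroups of G have a non-trivial intersection: for a Sylow 2-subgroup H and every x ∈ G, H ∩ H^x ≠ 1. -/
theorem result {q k : ℕ} [Fact q.Prime] (hk : q + 1 = 2 ^ k) (hq : 7 ≤ q)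
    (H : Sylow 2 (GL (Fin 2) (ZMod q) ⧸ Subgroup.center (GL (Fin 2) (ZMod q))))
    (x : GL (Fin 2) (ZMod q) ⧸ Subgroup.center (GL (Fin 2) (ZMod q))) :
    (H : Subgroup (GL (Fin 2) (ZMod q) ⧸ Subgroup.center (GL (Fin 2) (ZMod q)))) ⊓ MulAut.conj x • (H : Subgroup _) ≠ ⊥ := by
  have hqo : q % 4 = 3 := by
    have hk4 : 3 ≤ k := by
      by_contra hcon
      have : 2 ^ k ≤ 2 ^ 2 := Nat.pow_le_pow_right (by norm_num) (by omega)
      omega
    obtain ⟨j, rfl⟩ : ∃ j, k = j + 2 := ⟨k - 2, by omega⟩
    rw [pow_add] at hk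
    omega
  haveI : Fact (2 < q) := ⟨by omega⟩
  have h2 : (2 : ZMod q) ≠ 0 := by
    intro h
    have h1 : ((2 : ℕ) : ZMod q) = 0 := by exact_mod_cast h
    rw [ZMod.natCast_eq_zero_iff] at h1
    have := Nat.le_of_dvd (by norm_num) h1
    omega
  -- `-1` is not a square
  have hsq : ∀ a b : ZMod q, a ^ 2 + b ^ 2 = 0 → a = 0 ∧ b = 0 := by
    have key : ∀ a b : ZMod q, a ^ 2 + b ^ 2 = 0 → b = 0 := by
      intro a b h
      by_contra hb
      have h1 : IsSquare (-1 : ZMod q) := ⟨a * b⁻¹, by
        field_simp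
        linear_combination -h⟩
      rw [ZMod.exists_sq_eq_neg_one_iff] at h1
      exact h1 hqo
    intro a b h
    exact ⟨key b a (by rw [add_comm]; exact h), key a b h⟩
  have h11 : (1 : ZMod q) ≠ -1 := by
    intro h
    apply h2
    linear_combination h
  let t : GL (Fin 2) (ZMod q) := Matrix.GeneralLinearGroup.mkOfDetNeZero !![0, -1; 1, 0] (by rw [Matrix.det_fin_two_of]; simp)
  have ht : (t : M2 q) = !![0, -1; 1, 0] := rfl
  let d : GL (Fin 2) (ZMod q) := Matrix.GeneralLinearGroup.mkOfDetNeZero !![1, 0; 0, -1] (by rw [Matrix.det_fin_two_of]; simp)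
  have hd : (d : M2 q) = !![1, 0; 0, -1] := rfl
  let s : GL (Fin 2) (ZMod q) := Matrix.GeneralLinearGroup.mkOfDetNeZero !![1, -1; 1, 1] (by
    rw [Matrix.det_fin_two_of]
    intro h
    apply h2
    linear_combination h)
  have hs : (s : M2 q) = !![1, -1; 1, 1] := rfl
  have hcomm : ∀ M N : GL (Fin 2) (ZMod q), (QuotientGroup.mk M : GL (Fin 2) (ZMod q) ⧸ Subgroup.center (GL (Fin 2) (ZMod q))) * QuotientGroup.mk N =
      QuotientGroup.mk N * QuotientGroup.mk M → ∃ c : ZMod q, c ≠ 0 ∧ (M : M2 q) * (N : M2 q) = c • ((N : M2 q) * (M : M2 q)) := by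
    intro M N h
    rw [← QuotientGroup.mk_mul, ← QuotientGroup.mk_mul] at h
    obtain ⟨c, hc0, hc⟩ := eq_of_mk h
    exact ⟨c, hc0, hc⟩
  have hcomm' : ∀ (M N : GL (Fin 2) (ZMod q)) (c : ZMod q), (M : M2 q) * (N : M2 q) = c • ((N : M2 q) * (M : M2 q)) → (QuotientGroup.mk M : GL (Fin 2) (ZMod q) ⧸ Subgroup.center (GL (Fin 2) (ZMod q))) * QuotientGroup.mk N =
      QuotientGroup.mk N * QuotientGroup.mk M := by
    intro M N c h
    rw [← QuotientGroup.mk_mul, ← QuotientGroup.mk_mul]
    exact mk_eq (c := c) h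
  have hdet : ∀ M : GL (Fin 2) (ZMod q), (M : M2 q).det ≠ 0 := fun M => ((Matrix.isUnit_iff_isUnit_det _).mp M.isUnit).ne_zero
  apply H46.SylInt.inf_ne_bot (QuotientGroup.mk t : GL (Fin 2) (ZMod q) ⧸ Subgroup.center (GL (Fin 2) (ZMod q)))
  · intro h
    rw [QuotientGroup.eq_one_iff, Matrix.GeneralLinearGroup.mem_center_iff_val_mem_range_scalar, ht] at h
    obtain ⟨c, hc⟩ := h
    have := congrFun (congrFun hc 1) 0
    simp at this
  · -- a 2-group
    rintro ⟨g, hg⟩
    obtain ⟨M, rfl⟩ := QuotientGroup.mk_surjective g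
    rw [Subgroup.mem_centralizer_singleton_iff] at hg
    obtain ⟨c, hc0, hc⟩ := hcomm M t hg
    rcases comm_cases ht (hdet M) hc with ⟨-, a, b, hab⟩ | ⟨-, a, b, hab⟩
    · refine ⟨k, Subtype.ext ?_⟩
      show (QuotientGroup.mk M : GL (Fin 2) (ZMod q) ⧸ Subgroup.center (GL (Fin 2) (ZMod q))) ^ 2 ^ k = 1
      rw [← QuotientGroup.mk_pow, ← QuotientGroup.mk_one, ← hk]
      apply mk_eq (c := a ^ 2 + b ^ 2)
      have h1 : (M : M2 q) = a • (1 : M2 q) + b • (t : M2 q) := by
        rw [hab, ht]
        ext i j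
        fin_cases i <;> fin_cases j <;> simp
      have htq : (t : M2 q) ^ 2 = -1 := by
        rw [ht, pow_two]
        ext i j
        fin_cases i <;> fin_cases j <;> simp [Matrix.mul_apply, Fin.sum_univ_two]
      have htq' : (t : M2 q) ^ q = - (t : M2 q) := by
        have h3 : q = 2 * (2 * (q / 4) + 1) + 1 := by omega
        have h3' : (t : M2 q) ^ q = (t : M2 q) ^ (2 * (2 * (q / 4) + 1) + 1) := congrArg (fun n => (t : M2 q) ^ n) h3
        rw [h3', pow_succ, pow_mul, htq, pow_succ, pow_mul, neg_one_sq, one_pow, one_mul, neg_one_mul]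
      haveI : CharP (M2 q) q := inferInstance
      have h4 : (M : M2 q) ^ q = a • (1 : M2 q) - b • (t : M2 q) := by
        rw [h1, add_pow_char_of_commute q (by
          apply Commute.smul_left
          exact Commute.one_left _), smul_pow, smul_pow, one_pow, ZMod.pow_card, ZMod.pow_card, htq', smul_neg, sub_eq_add_neg]
      rw [Units.val_pow_eq_pow_val, pow_succ, h4]
      rw [hab, ht]
      ext i j
      fin_cases i <;> fin_cases j <;> simp [Matrix.mul_apply, Fin.sum_univ_two] <;> ring
    · refine ⟨1, Subtype.ext ?_⟩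
      show (QuotientGroup.mk M : GL (Fin 2) (ZMod q) ⧸ Subgroup.center (GL (Fin 2) (ZMod q))) ^ 2 ^ 1 = 1
      rw [← QuotientGroup.mk_pow, ← QuotientGroup.mk_one]
      apply mk_eq (c := a ^ 2 + b ^ 2)
      rw [Units.val_pow_eq_pow_val, hab, pow_one, pow_two]
      ext i j
      fin_cases i <;> fin_cases j <;> simp [Matrix.mul_apply, Fin.sum_univ_two] <;> ring
  · -- maximality
    intro z hz1 hz2
    obtain ⟨N, rfl⟩ := QuotientGroup.mk_surjective z
    obtain ⟨c₁, hc₁, h1⟩ := hcomm N t (hz2 _ rfl)
    have hdt : (QuotientGroup.mk d : GL (Fin 2) (ZMod q) ⧸ Subgroup.center (GL (Fin 2) (ZMod q))) * QuotientGroup.mk t = QuotientGroup.mk t * QuotientGroup.mk d := by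
      apply hcomm' d t (-1)
      rw [hd, ht]
      ext i j
      fin_cases i <;> fin_cases j <;> simp [Matrix.mul_apply, Fin.sum_univ_two]
    have hst : (QuotientGroup.mk s : GL (Fin 2) (ZMod q) ⧸ Subgroup.center (GL (Fin 2) (ZMod q))) * QuotientGroup.mk t = QuotientGroup.mk t * QuotientGroup.mk s := by
      apply hcomm' s t 1
      rw [hs, ht]
      ext i j
      fin_cases i <;> fin_cases j <;> simp [Matrix.mul_apply, Fin.sum_univ_two]
    obtain ⟨c₂, hc₂, h3⟩ := hcomm N d (hz2 _ hdt)
    obtain ⟨c₃, hc₃, h4⟩ := hcomm N s (hz2 _ hst)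
    rcases comm_cases ht (hdet N) h1 with ⟨-, a, b, hab⟩ | ⟨-, a, b, hab⟩
    · rw [hab, hd] at h3
      have e00 := congrFun (congrFun h3 0) 0
      have e01 := congrFun (congrFun h3 0) 1
      simp [Matrix.mul_apply, Fin.sum_univ_two] at e00 e01
      by_cases hb : b = 0
      · exfalso
        apply hz1
        rw [← QuotientGroup.mk_one]
        apply mk_eq (c := a)
        rw [hab, hb]
        ext i j
        fin_cases i <;> fin_cases j <;> simp
      · have hc2 : c₂ = -1 := by
          have h5 : b * (c₂ + 1) = 0 := by linear_combination e01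
          have := (mul_eq_zero.mp h5).resolve_left hb
          linear_combination this
        have ha : a = 0 := by
          have h5 : 2 * a = 0 := by rw [hc2] at e00; linear_combination e00
          exact (mul_eq_zero.mp h5).resolve_left h2
        have hNt : (QuotientGroup.mk N : GL (Fin 2) (ZMod q) ⧸ Subgroup.center (GL (Fin 2) (ZMod q))) = QuotientGroup.mk t := by
          apply mk_eq (c := b)
          rw [hab, ha, ht]
          ext i j
          fin_cases i <;> fin_cases j <;> simp
        intro c hc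
        rw [← hNt]
        exact hc
    · exfalso
      rw [hab, hs] at h4
      have e00 := congrFun (congrFun h4 0) 0
      have e01 := congrFun (congrFun h4 0) 1
      have e10 := congrFun (congrFun h4 1) 0
      have e11 := congrFun (congrFun h4 1) 1
      simp [Matrix.mul_apply, Fin.sum_univ_two] at e00 e01 e10 e11
      -- a + b = c (a - b), b - a = c (a + b)
      have h5 : (a + b) ^ 2 + (a - b) ^ 2 = 0 := by
        have h6 : a + b = c₃ * (a - b) := by linear_combination e00
        have h7 : b - a = c₃ * (a + b) := by linear_combination e01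
        calc (a + b) ^ 2 + (a - b) ^ 2 = (a + b) * (a + b) - (b - a) * (a - b) := by ring
          _ = (a + b) * (c₃ * (a - b)) - (c₃ * (a + b)) * (a - b) := by rw [← h6, ← h7]
          _ = 0 := by ring
      obtain ⟨h6, h7⟩ := hsq _ _ h5
      have hdN := hdet N
      rw [hab, Matrix.det_fin_two_of] at hdN
      apply hdN
      have ha : a = 0 := by
        have h8 : 2 * a = 0 := by linear_combination h6 + h7
        exact (mul_eq_zero.mp h8).resolve_left h2
      have hb : b = 0 := by rw [ha] at h6; linear_combination h6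
      rw [ha, hb]; ring
  · -- common centralising elements
    intro x
    obtain ⟨X, rfl⟩ := QuotientGroup.mk_surjective x
    obtain ⟨B, hB⟩ : ∃ B : GL (Fin 2) (ZMod q), B = X * t * X⁻¹ := ⟨_, rfl⟩
    have hB' : (QuotientGroup.mk X : GL (Fin 2) (ZMod q) ⧸ Subgroup.center (GL (Fin 2) (ZMod q))) * QuotientGroup.mk t * (QuotientGroup.mk X)⁻¹ = QuotientGroup.mk B := by
      rw [hB]; rfl
    rw [hB']
    have htr : (B : M2 q).trace = 0 := by
      rw [hB, Units.val_mul, Units.val_mul, Matrix.trace_mul_cycle, Units.inv_mul, one_mul, ht, Matrix.trace_fin_two]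
      simp
    have hBM := Matrix.eta_fin_two (B : M2 q)
    rw [Matrix.trace_fin_two] at htr
    set a := (B : M2 q) 0 0
    set b := (B : M2 q) 0 1
    set c := (B : M2 q) 1 0
    have he : (B : M2 q) 1 1 = -a := by linear_combination htr
    rw [he] at hBM
    by_cases hN : (b + c) ^ 2 + (2 * a) ^ 2 = 0
    · obtain ⟨h5, h6⟩ := hsq _ _ hN
      have ha : a = 0 := (mul_eq_zero.mp h6).resolve_left h2
      refine ⟨QuotientGroup.mk t, ?_, rfl, ?_⟩
      · intro h
        rw [QuotientGroup.eq_one_iff, Matrix.GeneralLinearGroup.mem_center_iff_val_mem_range_scalar, ht] at h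
        obtain ⟨c, hc⟩ := h
        have := congrFun (congrFun hc 1) 0
        simp at this
      · apply hcomm' t B 1
        rw [hBM, ht, ha]
        have hb : b = -c := by linear_combination h5
        rw [hb]
        ext i j
        fin_cases i <;> fin_cases j <;> simp [Matrix.mul_apply, Fin.sum_univ_two]
    · let N : GL (Fin 2) (ZMod q) := Matrix.GeneralLinearGroup.mkOfDetNeZero !![-c - b, 2 * a; 2 * a, b + c] (by
        rw [Matrix.det_fin_two_of]
        intro h
        apply hN
        linear_combination -h)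
      have hNv : (N : M2 q) = !![-c - b, 2 * a; 2 * a, b + c] := rfl
      refine ⟨QuotientGroup.mk N, ?_, ?_, ?_⟩
      · intro h
        rw [QuotientGroup.eq_one_iff, Matrix.GeneralLinearGroup.mem_center_iff_val_mem_range_scalar, hNv] at h
        obtain ⟨e, he'⟩ := h
        have e00 := congrFun (congrFun he' 0) 0
        have e01 := congrFun (congrFun he' 0) 1
        have e11 := congrFun (congrFun he' 1) 1
        simp at e00 e01 e11
        apply hN
        have h5 : b + c = 0 := by
          have h8 : 2 * (b + c) = 0 := by linear_combination e00 - e11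
          exact (mul_eq_zero.mp h8).resolve_left h2
        have h6 : a = 0 := by
          rcases e01 with h | h
          · exact absurd h h2
          · exact h
        rw [h5, h6]; ring
      · apply hcomm' N t (-1)
        rw [hNv, ht]
        ext i j
        fin_cases i <;> fin_cases j <;> simp [Matrix.mul_apply, Fin.sum_univ_two] <;> ring
      · apply hcomm' N B (-1)
        rw [hNv, hBM]
        ext i j
        fin_cases i <;> fin_cases j <;> simp [Matrix.mul_apply, Fin.sum_univ_two] <;> ring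

end Cfsg.Agent.S2485
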