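import Cfsg.Statements.S2486
import Cfsg.Agent.Lib.H46.SylInt2
import Cfsg.Agent.Lib.H57.FusSL
import Cfsg.Agent.Lib.H45.Bruhat
import Cfsg.Agent.Lib.H50.AutPSL2

set_option autoImplicit false
open scoped Pointwise
open Cfsg

namespace Cfsg.Agent.S2486

open scoped Pointwise Matrix
open Matrix H57.FusSL H50.PSLBasic

/-- reduction to one Sylow subgroup -/
theorem inf_ne_bot_of_base {G : Type*} [Group G] [Finite G] {p : ℕ} [Fact p.Prime] (S : Sylow p G)
    (h : ∀ z : G, ∃ g : G, g ≠ 1 ∧ g ∈ (S : Subgroup G) ∧ z⁻¹ * g * z ∈ (S : Subgroup G))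
    (H : Sylow p G) (x : G) : (H : Subgroup G) ⊓ MulAut.conj x • (H : Subgroup G) ≠ ⊥ := by
  obtain ⟨y, rfl⟩ := MulAction.exists_smul_eq G S H
  obtain ⟨g, hg1, hg2, hg3⟩ := h (y⁻¹ * x * y)
  intro hbot
  have hmem : y * g * y⁻¹ ∈ ((y • S : Sylow p G) : Subgroup G) ⊓ MulAut.conj x • ((y • S : Sylow p G) : Subgroup G) := by
    rw [Sylow.coe_subgroup_smul]
    refine ⟨?_, ?_⟩
    · show y * g * y⁻¹ ∈ MulAut.conj y • (S : Subgroup G)
      rw [Subgroup.mem_pointwise_smul_iff_inv_smul_mem, ← MulAut.conj.map_inv, MulAut.smul_def, MulAut.conj_apply]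
      have h1 : y⁻¹ * (y * g * y⁻¹) * y⁻¹⁻¹ = g := by group
      rw [h1]; exact hg2
    · show y * g * y⁻¹ ∈ MulAut.conj x • (MulAut.conj y • (S : Subgroup G))
      rw [smul_smul, ← map_mul, Subgroup.mem_pointwise_smul_iff_inv_smul_mem, ← MulAut.conj.map_inv, MulAut.smul_def, MulAut.conj_apply]
      have h1 : (x * y)⁻¹ * (y * g * y⁻¹) * ((x * y)⁻¹)⁻¹ = (y⁻¹ * x * y)⁻¹ * g * (y⁻¹ * x * y) := by group
      rw [h1]; exact hg3
  rw [hbot, Subgroup.mem_bot] at hmem
  apply hg1
  have : g = y⁻¹ * (y * g * y⁻¹) * y := by group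
  rw [this, hmem]; group

variable {n : ℕ}

abbrev K2 := ZMod 2
abbrev SLn (n : ℕ) := SpecialLinearGroup (Fin n) (ZMod 2)

theorem one_add_one_k : (1 : ZMod 2) + 1 = 0 := by decide

theorem k_eq_one {a : ZMod 2} (h : a ≠ 0) : a = 1 := by
  revert a; decide

/-- `GL_n(2) = SL_n(2)` -/
def toSL (g : GL (Fin n) (ZMod 2)) : SLn n := ⟨(g : Matrix (Fin n) (Fin n) (ZMod 2)), k_eq_one ((Matrix.isUnit_iff_isUnit_det _).mp g.isUnit).ne_zero⟩

theorem toSL_mul (g h : GL (Fin n) (ZMod 2)) : toSL (g * h) = toSL g * toSL h := Subtype.ext rfl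

theorem toSL_inv (g : GL (Fin n) (ZMod 2)) : toSL g⁻¹ = (toSL g)⁻¹ := by
  apply eq_inv_of_mul_eq_one_left
  rw [← toSL_mul, inv_mul_cancel]; exact Subtype.ext rfl

theorem mem_S0_iff {s : SLn n} : s ∈ S0 n (ZMod 2) ↔ ∀ i j : Fin n, j ≤ i → s i j = if i = j then 1 else 0 := by
  rw [mem_S0]
  have hcol : ∀ j i : Fin n, ((s : Matrix (Fin n) (Fin n) (ZMod 2)) *ᵥ (e j : Fin n → ZMod 2)) i = s i j := by
    intro j i
    simp [e]
  constructor
  · intro h i j hji
    have h1 := h j i hji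
    rw [Pi.sub_apply, hcol, e_apply, sub_eq_zero] at h1
    exact h1
  · intro h j i hji
    rw [Pi.sub_apply, hcol, e_apply, h i j hji, sub_self]

theorem toSL_mem {b : GL (Fin n) (ZMod 2)} (hb : b ∈ Cfsg.upperTriangularGL n (ZMod 2)) : toSL b ∈ S0 n (ZMod 2) := by
  rw [mem_S0_iff]
  have hb' : (b : Matrix (Fin n) (Fin n) (ZMod 2)).BlockTriangular id := hb
  intro i j hji
  show (b : Matrix (Fin n) (Fin n) (ZMod 2)) i j = _
  rcases hji.eq_or_lt with h | h
  · rw [h, if_pos rfl]
    apply k_eq_one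
    intro h0
    have hdet := ((Matrix.isUnit_iff_isUnit_det _).mp b.isUnit).ne_zero
    rw [Matrix.det_of_upperTriangular hb'] at hdet
    exact hdet (Finset.prod_eq_zero (Finset.mem_univ i) h0)
  · rw [if_neg h.ne']
    exact hb' h

/-- the normaliser of the unitriangular group over the field with two elements -/
theorem normalizer_S0 {g : SLn n} (hg : g ∈ Subgroup.normalizer (S0 n (ZMod 2) : Set (SLn n))) : g ∈ S0 n (ZMod 2) := by
  have h := normalizer_stab hg
  have hb : (SpecialLinearGroup.toGL g : GL (Fin n) (ZMod 2)) ∈ Cfsg.upperTriangularGL n (ZMod 2) := by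
    intro i j hji
    have hji' : j < i := hji
    show (g : Matrix (Fin n) (Fin n) (ZMod 2)) i j = 0
    have h1 := h (j.1 + 1) (by omega) (e j) (e_mem_EE (by omega)) i (by rw [Fin.lt_def] at hji'; omega)
    simpa [e] using h1
  exact toSL_mem hb

/-- automorphisms of `SL_n(2)` -/
theorem aut_cases (hn : 2 ≤ n) (β : MulAut (SLn n)) : ∃ k : SLn n, β = MulAut.conj k ∨ β = MulAut.conj k * invTr := by
  have hinj : Function.Injective (QuotientGroup.mk : SLn n → ProjectiveSpecialLinearGroup (Fin n) (ZMod 2)) := by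
    intro s s' h
    rw [QuotientGroup.eq, Matrix.SpecialLinearGroup.mem_center_iff] at h
    obtain ⟨r, hr, hr2⟩ := h
    have hr1 : r = 1 := by
      apply k_eq_one
      rintro rfl
      rw [Fintype.card_fin, zero_pow (by omega)] at hr
      exact zero_ne_one hr
    rw [hr1, map_one] at hr2
    have : s⁻¹ * s' = 1 := Subtype.ext hr2.symm
    exact (inv_mul_eq_one.mp this)
  have hsemi : ∀ (g : GL (Fin n) (ZMod 2)) (σ : ZMod 2 ≃+* ZMod 2) (s : SLn n), semiSL g σ s = toSL g * s * (toSL g)⁻¹ := by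
    intro g σ s
    have hσ : ∀ x, σ x = x := fun x => by
      have : (σ : ZMod 2 →+* ZMod 2) = RingHom.id _ := Subsingleton.elim _ _
      exact RingHom.congr_fun this x
    rw [← toSL_inv]
    apply Subtype.ext
    rw [semiSL_coe]
    have hmap : (s : Matrix (Fin n) (Fin n) (ZMod 2)).map σ = s := by
      ext i j
      exact hσ _
    rw [hmap]; rfl
  obtain ⟨g, σ, h⟩ := H50.AutPSL2.aut_psl (p := 2) hn (quotAut _ β)
  refine ⟨toSL g, ?_⟩
  rcases h with h | ⟨-, h⟩
  · left
    ext1 s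
    apply hinj
    rw [← quotAut_mk, h, psi_mk, hsemi]; rfl
  · right
    ext1 s
    apply hinj
    rw [← quotAut_mk, h, MulAut.mul_apply, iota_mk, psi_mk, hsemi]; rfl

/-- an automorphism of a finite group mapping a subgroup into itself preserves it -/
theorem smul_eq_of_le {G : Type*} [Group G] [Finite G] (β : MulAut G) (X : Subgroup G) (h : ∀ s ∈ X, β s ∈ X) : β • X = X := by
  have h1 : β • X ≤ X := by
    rintro _ ⟨s, hs, rfl⟩
    exact h s hs
  apply SetLike.coe_injective
  apply Set.eq_of_subset_of_ncard_le h1 _ (Set.toFinite _)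
  have h2 : ((β • X : Subgroup G) : Set G) = β '' (X : Set G) := rfl
  rw [h2, Set.ncard_image_of_injective _ β.injective]

/-- the reversal permutation -/
theorem strictAnti_eq_rev (w : Equiv.Perm (Fin n)) (h : ∀ i j, i < j → w j < w i) : w = Fin.revPerm := by
  have h1 : StrictMono (fun i => Fin.rev (w i)) := by
    intro i j hij
    exact Fin.rev_lt_rev.mpr (h i j hij)
  have h2 : (fun i => Fin.rev (w i)) = id := by
    have h3 : Function.Bijective (fun i => Fin.rev (w i)) := (Fin.rev_bijective.comp w.bijective)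
    have h4 : (h1.orderIsoOfSurjective _ h3.surjective) = OrderIso.refl _ := Subsingleton.elim _ _
    funext i
    exact congrArg (fun f : Fin n ≃o Fin n => f i) h4
  ext i
  have := congrFun h2 i
  rw [Fin.revPerm_apply, ← Fin.rev_rev (w i)]
  exact congrArg (fun x => ((Fin.rev x : Fin n) : ℕ)) this

theorem pm_mul_pm_transpose (w : Equiv.Perm (Fin n)) :
    ((toSL (H45.Bruhat.pm (ZMod 2) n w) : SLn n) : Matrix (Fin n) (Fin n) (ZMod 2))ᵀ = ((toSL (H45.Bruhat.pm (ZMod 2) n w))⁻¹ : SLn n) := by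
  rw [← toSL_inv, ← map_inv]
  ext i j
  show (H45.Bruhat.pm (ZMod 2) n w : Matrix (Fin n) (Fin n) (ZMod 2)) j i = (H45.Bruhat.pm (ZMod 2) n w⁻¹ : Matrix (Fin n) (Fin n) (ZMod 2)) i j
  rw [H45.Bruhat.pm_apply, H45.Bruhat.pm_apply]
  congr 1
  rw [Equiv.Perm.eq_inv_iff_eq]
  exact propext eq_comm

/-- entries of conjugates by permutation matrices -/
theorem pm_conj_apply (w : Equiv.Perm (Fin n)) (s : SLn n) (i j : Fin n) :
    ((toSL (H45.Bruhat.pm (ZMod 2) n w))⁻¹ * s * toSL (H45.Bruhat.pm (ZMod 2) n w) : SLn n) i j = s (w i) (w j) := by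
  rw [← toSL_inv, ← map_inv]
  show (((H45.Bruhat.pm (ZMod 2) n w⁻¹ : Matrix (Fin n) (Fin n) (ZMod 2)) * (s : Matrix (Fin n) (Fin n) (ZMod 2))) * (H45.Bruhat.pm (ZMod 2) n w : Matrix (Fin n) (Fin n) (ZMod 2))) i j = _
  rw [H45.Bruhat.mul_pm_apply, Matrix.mul_apply, Finset.sum_eq_single (w i)]
  · rw [H45.Bruhat.pm_apply]
    simp
  · intro k _ hk
    rw [H45.Bruhat.pm_apply, if_neg, zero_mul]
    intro h
    apply hk
    rw [h]; simp
  · simp

/-- Let n ≥ 4 and let G be a finite group with a normal subgroup N of index 2 isomorphic to SL(n,2) and with trivial centralizer in G (so G is the extension of the simple group L_n(2) by its inverse-transpose automorphism, its full automorphism group). Then any two Sylow 2-subgroups of G have a non-trivial intersection: for a Sylow 2-subgroup H and every x ∈ G, H ∩ H^x ≠ 1. -/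
theorem result {G : Type*} [Group G] [Finite G] {n : ℕ} (hn : 4 ≤ n) (N : Subgroup G) [N.Normal]
    (e : N ≃* Matrix.SpecialLinearGroup (Fin n) (ZMod 2)) (hidx : N.index = 2)
    (hC : Subgroup.centralizer (N : Set G) = ⊥)
    (H : Sylow 2 G) (x : G) :
    (H : Subgroup G) ⊓ MulAut.conj x • (H : Subgroup G) ≠ ⊥ := by
  haveI : Fact (Nat.Prime 2) := ⟨Nat.prime_two⟩
  haveI : NeZero n := ⟨by omega⟩
  -- the action on `SL_n(2)`
  let α : G →* MulAut (SLn n) :=
    { toFun := fun g => (e.symm.trans (MulAut.conjNormal g)).trans e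
      map_one' := by ext1 s; simp
      map_mul' := by intro a b; ext1 s; simp }
  have hα : ∀ g s, α g s = e (MulAut.conjNormal g (e.symm s)) := fun g s => rfl
  have hαN : ∀ a : N, α a = MulAut.conj (e a) := by
    intro a
    ext1 s
    rw [hα, MulAut.conj_apply]
    have h1 : MulAut.conjNormal (a : G) (e.symm s) = a * e.symm s * a⁻¹ := by
      apply Subtype.ext
      rw [MulAut.conjNormal_apply]; rfl
    rw [h1, map_mul, map_mul, map_inv, e.apply_symm_apply]
  have hαinj : ∀ g, α g = 1 → g = 1 := by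
    intro g hg
    have h1 : g ∈ Subgroup.centralizer (N : Set G) := by
      rw [Subgroup.mem_centralizer_iff]
      intro a ha
      have h2 := hα g (e ⟨a, ha⟩)
      rw [hg, MulAut.one_apply, e.symm_apply_apply] at h2
      have h3 := e.injective h2
      have h4 : a = g * a * g⁻¹ := by
        have := congrArg Subtype.val h3
        rwa [MulAut.conjNormal_apply] at this
      calc a * g = g * a * g⁻¹ * g := by rw [← h4]
        _ = g * a := by group
    rw [hC, Subgroup.mem_bot] at h1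
    exact h1
  have hconj : ∀ k : SLn n, ∃ g : G, α g = MulAut.conj k := fun k => ⟨e.symm k, by rw [hαN, e.apply_symm_apply]⟩
  -- the duality
  obtain ⟨d, hd⟩ : ∃ d : G, α d = invTr := by
    obtain ⟨g₀, hg₀⟩ : ∃ g₀ : G, g₀ ∉ N := by
      by_contra hcon
      push Not at hcon
      have : N = ⊤ := (Subgroup.eq_top_iff' N).mpr hcon
      rw [this, Subgroup.index_top] at hidx
      omega
    obtain ⟨k, hk | hk⟩ := aut_cases (by omega) (α g₀)
    · exfalso
      have h1 : α (g₀ * ((e.symm k : N) : G)⁻¹) = 1 := by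
        rw [map_mul, map_inv, hαN, hk, e.apply_symm_apply, mul_inv_cancel]
      have h2 := hαinj _ h1
      rw [mul_inv_eq_one] at h2
      exact hg₀ (h2 ▸ (e.symm k).2)
    · refine ⟨((e.symm k : N) : G)⁻¹ * g₀, ?_⟩
      rw [map_mul, map_inv, hαN, hk, e.apply_symm_apply, inv_mul_cancel_left]
  obtain ⟨S₁, hS₁⟩ := exists_sylow (n := n) (K := ZMod 2) 2
  -- the base Sylow subgroup
  let H₀ : Subgroup G := (MulAction.stabilizer (MulAut (SLn n)) (S0 n (ZMod 2))).comap α
  have hH₀ : ∀ g, g ∈ H₀ ↔ α g • S0 n (ZMod 2) = S0 n (ZMod 2) := fun g => Iff.rfl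
  have hnorm : ∀ a : N, (a : G) ∈ H₀ → e a ∈ S0 n (ZMod 2) := by
    intro a ha
    rw [hH₀, hαN] at ha
    apply normalizer_S0
    rw [Subgroup.mem_normalizer_iff]
    intro s
    constructor
    · intro hs
      rw [← ha]
      exact ⟨s, hs, rfl⟩
    · intro hs
      rw [← ha] at hs
      obtain ⟨s', hs', h⟩ := hs
      have h2 : s' = s := (MulAut.conj (e a)).injective h
      rw [← h2]; exact hs'
  have hmemS : ∀ a : N, e a ∈ S0 n (ZMod 2) → (a : G) ∈ H₀ := by
    intro a ha
    rw [hH₀, hαN]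
    apply smul_eq_of_le
    intro s hs
    rw [MulAut.conj_apply]
    exact mul_mem (mul_mem ha hs) (inv_mem ha)
  have hpow2 : ∀ g : G, g ^ 2 ∈ N := by
    intro g
    have := Subgroup.pow_index_mem N g
    rwa [hidx] at this
  have hpH₀ : IsPGroup 2 H₀ := by
    rintro ⟨g, hg⟩
    have h1 : e ⟨g ^ 2, hpow2 g⟩ ∈ S0 n (ZMod 2) := hnorm _ (H₀.pow_mem hg 2)
    obtain ⟨k, hk⟩ := isPGroup_S0 (n := n) (K := ZMod 2) 2 ⟨_, h1⟩
    have hk' : e ⟨g ^ 2, hpow2 g⟩ ^ 2 ^ k = 1 := congrArg Subtype.val hk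
    rw [← map_pow, map_eq_one_iff e e.injective] at hk'
    have hk2 : (g ^ 2) ^ 2 ^ k = 1 := congrArg Subtype.val hk'
    refine ⟨k + 1, Subtype.ext ?_⟩
    show g ^ 2 ^ (k + 1) = 1
    rw [pow_succ', pow_mul]
    exact hk2
  obtain ⟨S, hSH⟩ : ∃ S : Sylow 2 G, (S : Subgroup G) = H₀ := by
    obtain ⟨S, hS⟩ := hpH₀.exists_le_sylow
    refine ⟨S, le_antisymm ?_ hS⟩
    -- the trace on `SL`
    let D : Subgroup (SLn n) := ((S : Subgroup G).comap N.subtype).comap e.symm.toMonoidHom
    have hDp : IsPGroup 2 D := by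
      have h1 : IsPGroup 2 ((S : Subgroup G).comap N.subtype) := S.isPGroup'.comap_of_injective _ N.subtype_injective
      exact h1.comap_of_injective _ e.symm.injective
    have hDle : (S₁ : Subgroup (SLn n)) ≤ D := by
      rw [hS₁]
      intro s hs
      show ((e.symm s : N) : G) ∈ (S : Subgroup G)
      exact hS (hmemS _ (by rw [e.apply_symm_apply]; exact hs))
    have hD : D = S0 n (ZMod 2) := by rw [← hS₁]; exact S₁.is_maximal' hDp hDle
    intro g hg
    rw [hH₀]
    apply smul_eq_of_le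
    intro s hs
    rw [← hD] at hs ⊢
    show ((e.symm (α g s) : N) : G) ∈ (S : Subgroup G)
    rw [hα, e.symm_apply_apply, MulAut.conjNormal_apply]
    exact mul_mem (mul_mem hg hs) (inv_mem hg)
  apply inf_ne_bot_of_base S
  rw [hSH]
  intro z
  -- the conjugate of S0
  obtain ⟨k', hk'⟩ : ∃ k' : SLn n, α z • S0 n (ZMod 2) = MulAut.conj k' • S0 n (ZMod 2) := by
    obtain ⟨y, hy⟩ := MulAction.exists_smul_eq (SLn n) S₁ (α z • S₁)
    refine ⟨y, ?_⟩
    have h1 := congrArg (fun T : Sylow 2 (SLn n) => (T : Subgroup (SLn n))) hy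
    simp only [Sylow.coe_subgroup_smul, Sylow.pointwise_smul_def] at h1
    rw [hS₁] at h1
    exact h1.symm
  have hred : ∀ g : G, α g • (α z • S0 n (ZMod 2)) = α z • S0 n (ZMod 2) → z⁻¹ * g * z ∈ H₀ := by
    intro g hg
    rw [hH₀, map_mul, map_mul, map_inv, mul_smul, mul_smul, hg, inv_smul_smul]
  obtain ⟨b, hb, b', hb', w, hw⟩ := H45.Bruhat.bruhat (SpecialLinearGroup.toGL k' : GL (Fin n) (ZMod 2))
  have hk'w : k' = toSL b * toSL (H45.Bruhat.pm (ZMod 2) n w) * toSL b' := by
    rw [← toSL_mul, ← toSL_mul, ← hw]; exact Subtype.ext rfl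
  obtain ⟨B, hB⟩ : ∃ B, B = toSL b := ⟨_, rfl⟩
  obtain ⟨W, hW⟩ : ∃ W, W = toSL (H45.Bruhat.pm (ZMod 2) n w) := ⟨_, rfl⟩
  have hBm : B ∈ S0 n (ZMod 2) := hB ▸ toSL_mem hb
  have hBs : MulAut.conj B • S0 n (ZMod 2) = S0 n (ZMod 2) := by
    apply smul_eq_of_le
    intro s hs
    rw [MulAut.conj_apply]
    exact mul_mem (mul_mem hBm hs) (inv_mem hBm)
  have hBs' : MulAut.conj B⁻¹ • S0 n (ZMod 2) = S0 n (ZMod 2) := by
    conv_lhs => rw [← hBs]
    rw [smul_smul, ← map_mul, inv_mul_cancel, map_one, one_smul]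
  have hb's : MulAut.conj (toSL b') • S0 n (ZMod 2) = S0 n (ZMod 2) := by
    apply smul_eq_of_le
    intro s hs
    rw [MulAut.conj_apply]
    exact mul_mem (mul_mem (toSL_mem hb') hs) (inv_mem (toSL_mem hb'))
  have hzS : α z • S0 n (ZMod 2) = MulAut.conj (B * W) • S0 n (ZMod 2) := by
    rw [hk', hk'w, map_mul, mul_smul, hb's, hB, hW]
  by_cases hcase : ∃ i j : Fin n, i < j ∧ w⁻¹ i < w⁻¹ j
  · obtain ⟨i, j, hij, hwij⟩ := hcase
    let t : SLn n := ⟨Matrix.transvection i j 1, Matrix.det_transvection_of_ne i j hij.ne 1⟩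
    have ht1 : t ≠ 1 := by
      intro h
      have := congrArg (fun s : SLn n => s i j) h
      simp [t, Matrix.transvection, hij.ne] at this
    have ht : t ∈ S0 n (ZMod 2) := by
      rw [mem_S0_iff]
      intro r c hcr
      show (1 + Matrix.single i j (1 : ZMod 2)) r c = _
      rw [Matrix.add_apply, Matrix.one_apply, Matrix.single_apply, if_neg (c := i = r ∧ j = c), add_zero]
      rintro ⟨rfl, rfl⟩
      exact absurd hij (not_lt.mpr hcr)
    have htw : W⁻¹ * t * W ∈ S0 n (ZMod 2) := by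
      rw [mem_S0_iff]
      intro r c hcr
      rw [hW, pm_conj_apply]
      show (1 + Matrix.single i j (1 : ZMod 2)) (w r) (w c) = _
      rw [Matrix.add_apply, Matrix.one_apply, Matrix.single_apply, if_neg (c := i = w r ∧ j = w c), add_zero]
      · congr 1
        exact propext w.injective.eq_iff
      · rintro ⟨h1, h2⟩
        rw [h1, h2] at hwij
        simp at hwij
        exact absurd hwij (not_lt.mpr hcr)
    refine ⟨e.symm (B * t * B⁻¹), ?_, ?_, ?_⟩
    · intro h
      have h1 : e.symm (B * t * B⁻¹) = 1 := Subtype.ext h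
      rw [map_eq_one_iff e.symm e.symm.injective] at h1
      apply ht1
      calc t = B⁻¹ * (B * t * B⁻¹) * B := by group
        _ = 1 := by rw [h1]; group
    · apply hmemS
      rw [e.apply_symm_apply]
      exact mul_mem (mul_mem hBm ht) (inv_mem hBm)
    · apply hred
      rw [hαN, e.apply_symm_apply, hzS, smul_smul, ← map_mul]
      have h1 : B * t * B⁻¹ * (B * W) = (B * W) * (W⁻¹ * t * W) := by group
      rw [h1, map_mul, mul_smul]
      congr 1
      apply smul_eq_of_le
      intro s hs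
      rw [MulAut.conj_apply]
      exact mul_mem (mul_mem htw hs) (inv_mem htw)
  · push Not at hcase
    have hwrev : w⁻¹ = Fin.revPerm := by
      apply strictAnti_eq_rev
      intro i j hij
      rcases (hcase i j hij).eq_or_lt with h | h
      · exact absurd (w⁻¹.injective h) hij.ne'
      · exact h
    have hwrev' : w = Fin.revPerm := by
      rw [← inv_inv w, hwrev]
      ext i
      simp
    have hWT : ((W : SLn n) : Matrix (Fin n) (Fin n) (ZMod 2))ᵀ = ((W⁻¹ : SLn n) : Matrix (Fin n) (Fin n) (ZMod 2)) := by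
      rw [hW]; exact pm_mul_pm_transpose w
    have hWW : W * W = 1 := by
      rw [hW, ← toSL_mul, ← map_mul]
      have : w * w = 1 := by
        rw [hwrev']; ext i; simp
      rw [this, map_one]; exact Subtype.ext rfl
    have hWinv : W⁻¹ = W := inv_eq_of_mul_eq_one_left hWW
    have hinvTrW : invTr W = W := by
      apply Subtype.ext
      rw [invTr_coe, ← hWT, Matrix.transpose_transpose]
    obtain ⟨ν, hνdef⟩ : ∃ ν : MulAut (SLn n), ν = MulAut.conj W * invTr := ⟨_, rfl⟩
    have hνa : ∀ s, ν s = W * invTr s * W⁻¹ := fun s => by rw [hνdef]; rfl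
    have hν : ∀ s ∈ S0 n (ZMod 2), ν s ∈ S0 n (ZMod 2) := by
      intro s hs
      have hs' := inv_mem hs
      rw [mem_S0_iff] at hs' ⊢
      intro i j hji
      have h1 : ν s = W⁻¹ * invTr s * W := by
        rw [hνa, hWinv]
      rw [h1, hW, pm_conj_apply]
      show (((s⁻¹ : SLn n) : Matrix (Fin n) (Fin n) (ZMod 2))ᵀ) (w i) (w j) = _
      rw [Matrix.transpose_apply, hwrev']
      have h2 := hs' (Fin.rev j) (Fin.rev i) (Fin.rev_le_rev.mpr hji)
      rw [Fin.revPerm_apply, Fin.revPerm_apply]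
      rw [show ((s⁻¹ : SLn n) : Matrix (Fin n) (Fin n) (ZMod 2)) (Fin.rev j) (Fin.rev i) = if Fin.rev j = Fin.rev i then 1 else 0 from h2]
      congr 1
      rw [Fin.rev_inj]
      exact propext eq_comm
    have hνS : ν • S0 n (ZMod 2) = S0 n (ZMod 2) := smul_eq_of_le _ _ hν
    have hνW : ν * MulAut.conj W = MulAut.conj W * ν := by
      have h1 : (invTr : MulAut (SLn n)) * MulAut.conj W = MulAut.conj W * invTr := by
        ext1 s
        show invTr (W * s * W⁻¹) = W * invTr s * W⁻¹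
        rw [map_mul, map_mul, map_inv, hinvTrW]
      rw [hνdef, mul_assoc, h1]
    obtain ⟨kB, hkB⟩ := hconj B
    obtain ⟨kW, hkW⟩ := hconj W
    have hg : α (kB * (kW * d) * kB⁻¹) = MulAut.conj B * ν * (MulAut.conj B)⁻¹ := by
      rw [map_mul, map_mul, map_mul, map_inv, hkB, hkW, hd, hνdef]
    refine ⟨kB * (kW * d) * kB⁻¹, ?_, ?_, ?_⟩
    · intro h
      rw [h, map_one] at hg
      have h1 : ν = 1 := by
        have : ν = (MulAut.conj B)⁻¹ * (MulAut.conj B * ν * (MulAut.conj B)⁻¹) * MulAut.conj B := by group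
        rw [this, ← hg]; group
      let i0 : Fin n := ⟨0, by omega⟩
      let i1 : Fin n := ⟨1, by omega⟩
      have hne : i0 ≠ i1 := by
        intro h
        have := congrArg Fin.val h
        simp [i0, i1] at this
      let t : SLn n := ⟨Matrix.transvection i0 i1 1, Matrix.det_transvection_of_ne i0 i1 hne 1⟩
      have htt : t * t = 1 := by
        apply Subtype.ext
        show Matrix.transvection i0 i1 (1 : ZMod 2) * Matrix.transvection i0 i1 1 = 1
        rw [Matrix.transvection_mul_transvection_same i0 i1 hne]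
        rw [one_add_one_k, Matrix.transvection_zero]
      have h2 : ν t = t := by rw [h1]; rfl
      have h3 : W⁻¹ * invTr t * W = t := by
        rw [hWinv]
        have : ν t = W * invTr t * W⁻¹ := hνa t
        rw [hWinv] at this
        rw [← this, h2]
      have h4 := congrArg (fun s : SLn n => s i0 i1) h3
      have h5 : (W⁻¹ * invTr t * W) i0 i1 = (1 + Matrix.single i0 i1 (1 : ZMod 2)) (Fin.rev i1) (Fin.rev i0) := by
        rw [hW, pm_conj_apply, hwrev', Fin.revPerm_apply, Fin.revPerm_apply]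
        show (((t⁻¹ : SLn n) : Matrix (Fin n) (Fin n) (ZMod 2))ᵀ) (Fin.rev i0) (Fin.rev i1) = _
        rw [inv_eq_of_mul_eq_one_left htt]; rfl
      have h6 : (1 + Matrix.single i0 i1 (1 : ZMod 2)) (Fin.rev i1) (Fin.rev i0) = 1 := by
        rw [← h5]
        have : t i0 i1 = 1 := by
          show (1 + Matrix.single i0 i1 (1 : ZMod 2)) i0 i1 = 1
          rw [Matrix.add_apply, Matrix.one_apply_ne hne, Matrix.single_apply_same, zero_add]
        exact h4.trans this
      rw [Matrix.add_apply, Matrix.one_apply_ne (by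
        intro h; exact hne (Fin.rev_injective h).symm), Matrix.single_apply, if_neg (by
        rintro ⟨h7, h8⟩
        have := congrArg Fin.val h7
        simp [i0, i1, Fin.val_rev] at this
        omega), zero_add] at h6
      exact zero_ne_one h6
    · rw [hH₀, hg, mul_smul, mul_smul, ← map_inv, hBs', hνS, hBs]
    · apply hred
      rw [hzS, hg, smul_smul]
      have h1 : MulAut.conj B * ν * (MulAut.conj B)⁻¹ * MulAut.conj (B * W) = MulAut.conj (B * W) * ν := by
        rw [map_mul]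
        calc MulAut.conj B * ν * (MulAut.conj B)⁻¹ * (MulAut.conj B * MulAut.conj W) = MulAut.conj B * (ν * MulAut.conj W) := by group
          _ = MulAut.conj B * MulAut.conj W * ν := by rw [hνW, mul_assoc]
      rw [h1, mul_smul, hνS]

end Cfsg.Agent.S2486
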