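import Cfsg.Statements.S2487
import Cfsg.Agent.Lib.H46.OPlusTwo

set_option autoImplicit false
open scoped Pointwise
open Cfsg

namespace Cfsg.Agent.S2487

open scoped Pointwise Matrix
open Module H48.QuadStd H46.OPlusTwo

/-- Let m ≥ 4 and let G be the full isometry group of the hyperbolic quadratic form x₁y₁ + ⋯ + x_m y_m on the 2m-dimensional space over the field with 2 elements (the orthogonal group O⁺(2m,2), which contains Ω⁺(2m,2) with index 2). Then any two Sylow 2-subgroups of G have a non-trivial intersection: for a Sylow 2-subgroup H and every x ∈ G, H ∩ H^x ≠ 1. -/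
theorem result {F : Type*} [Field F] [Fintype F] (hF : Fintype.card F = 2) {m : ℕ} (hm : 4 ≤ m)
    (H : Sylow 2 (Cfsg.isometryGroup F (Cfsg.quadFormPlus m F)))
    (x : Cfsg.isometryGroup F (Cfsg.quadFormPlus m F)) :
    (H : Subgroup (Cfsg.isometryGroup F (Cfsg.quadFormPlus m F))) ⊓ MulAut.conj x • (H : Subgroup _) ≠ ⊥ := by
  haveI : NeZero m := ⟨by omega⟩
  let ι : (Fin m → F) →ₗ[F] (Fin m ⊕ Fin m → F) :=
    { toFun := fun x => Sum.elim x 0
      map_add' := fun x y => by ext (i | i) <;> simp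
      map_smul' := fun c x => by ext (i | i) <;> simp }
  have hι : Function.Injective ι := by
    intro x y h
    ext i
    exact congrFun h (Sum.inl i)
  have hM : finrank F (LinearMap.range ι) = m := by
    rw [LinearMap.finrank_range_of_inj hι, Module.finrank_fin_fun]
  let ρ : Cfsg.isometryGroup F (Cfsg.quadFormPlus m F) →* ((Fin m ⊕ Fin m → F) ≃ₗ[F] (Fin m ⊕ Fin m → F)) :=
    ((LinearMap.GeneralLinearGroup.generalLinearEquiv F (Fin m ⊕ Fin m → F)).toMonoidHom.comp
      (Matrix.GeneralLinearGroup.toLin.toMonoidHom)).comp (Cfsg.isometryGroup F (Cfsg.quadFormPlus m F)).subtype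
  have hρ : ∀ g v, ρ g v = (g.1 : Matrix _ _ F) *ᵥ v := fun g v => rfl
  apply H46.OPlusTwo.main (F := F) (by rw [Nat.card_eq_fintype_card, hF]) (nd_qPlus m (F := F)) (LinearMap.range ι) _ _ _ ρ _ _ _ H x
  · rintro _ ⟨v, rfl⟩
    rw [qPlus_apply]
    apply Finset.sum_eq_zero
    intro i _
    show v i * 0 = 0
    rw [mul_zero]
  · rw [hM, Module.finrank_fintype_fun_eq_card, Fintype.card_sum, Fintype.card_fin]; omega
  · rw [hM]; omega
  · intro g h hgh
    apply Subtype.ext
    apply Units.ext
    apply Matrix.toLin'.injective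
    apply LinearMap.ext
    intro v
    have := LinearEquiv.congr_fun hgh v
    rw [hρ, hρ] at this
    simpa using this
  · intro g v
    rw [hρ, coe_qPlus]
    exact g.2 v v
  · intro φ hφ
    let g : Matrix.GeneralLinearGroup (Fin m ⊕ Fin m) F := Matrix.GeneralLinearGroup.toLin.symm ((LinearMap.GeneralLinearGroup.generalLinearEquiv F (Fin m ⊕ Fin m → F)).symm φ)
    have hg : (LinearMap.GeneralLinearGroup.generalLinearEquiv F (Fin m ⊕ Fin m → F)) (Matrix.GeneralLinearGroup.toLin g) = φ := by
      show (LinearMap.GeneralLinearGroup.generalLinearEquiv F (Fin m ⊕ Fin m → F)) (Matrix.GeneralLinearGroup.toLin (Matrix.GeneralLinearGroup.toLin.symm ((LinearMap.GeneralLinearGroup.generalLinearEquiv F (Fin m ⊕ Fin m → F)).symm φ))) = φ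
      rw [MulEquiv.apply_symm_apply, MulEquiv.apply_symm_apply]
    have hmul : ∀ v, (g : Matrix _ _ F) *ᵥ v = φ v := by
      intro v
      rw [← hg]; rfl
    refine ⟨⟨g, fun u v => ?_⟩, ?_⟩
    · show Cfsg.quadFormPlus m F ((g : Matrix _ _ F) *ᵥ u) = Cfsg.quadFormPlus m F u
      rw [hmul, ← coe_qPlus, hφ]
    · exact hg

end Cfsg.Agent.S2487
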