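import Cfsg.Statements.S2488
import Cfsg.Agent.Lib.H46.SylInt2
import Cfsg.Agent.Lib.H46.A6Facts

set_option autoImplicit false
open scoped Pointwise
open Cfsg

namespace Cfsg.Agent.S2488

open scoped Pointwise
open H46.SylInt

/-- an element of order `15`, `10`, `6` does not exist -/
theorem no_mul {G : Type*} [Group G] {x y : G} (hc : x * y = y * x) {a b : ℕ} (ha : a.Prime) (hb : b.Prime) (hab : a ≠ b)
    (hx : orderOf x = a) (hy : orderOf y = b) (h : (x * y) ^ 3 = 1 ∨ (x * y) ^ 4 = 1 ∨ (x * y) ^ 5 = 1) : False := by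
  have h1 : orderOf (x * y) = a * b := by
    rw [Commute.orderOf_mul_eq_mul_orderOf_of_coprime hc (by rw [hx, hy]; exact (Nat.coprime_primes ha hb).mpr hab), hx, hy]
  have key : ∀ m, (m = 3 ∨ m = 4 ∨ m = 5) → a * b ∣ m → False := by
    intro m hm hd
    have h2 : a ∣ m := (Dvd.intro _ rfl).trans hd
    have h3 : b ∣ m := (Dvd.intro_left _ rfl).trans hd
    have ha2 := ha.two_le
    have hb2 := hb.two_le
    have hle := Nat.le_of_dvd (by omega) hd
    have h4 : a * 2 ≤ a * b := Nat.mul_le_mul_left a hb2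
    have h5 : 2 * b ≤ a * b := Nat.mul_le_mul_right b ha2
    have ha3 : a = 2 := by omega
    have hb3 : b = 2 := by omega
    exact hab (ha3.trans hb3.symm)
  rcases h with h | h | h
  · exact key 3 (Or.inl rfl) (by rw [← h1]; exact orderOf_dvd_of_pow_eq_one h)
  · exact key 4 (Or.inr (Or.inl rfl)) (by rw [← h1]; exact orderOf_dvd_of_pow_eq_one h)
  · exact key 5 (Or.inr (Or.inr rfl)) (by rw [← h1]; exact orderOf_dvd_of_pow_eq_one h)

/-- Let G be a finite group with a normal subgroup N of index 4 isomorphic to the alternating group of degree 6 and with trivial centralizer in G (so G is the full automorphism group of A₆). Then any two Sylow 2-subgroups of G have a non-trivial intersection: for a Sylow 2-subgroup H and every x ∈ G, H ∩ H^x ≠ 1. -/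
theorem result {G : Type*} [Group G] [Finite G] (N : Subgroup G) [N.Normal]
    (e : N ≃* alternatingGroup (Fin 6)) (hidx : N.index = 4)
    (hC : Subgroup.centralizer (N : Set G) = ⊥)
    (H : Sylow 2 G) (x : G) :
    (H : Subgroup G) ⊓ MulAut.conj x • (H : Subgroup G) ≠ ⊥ := by
  haveI : Fact (Nat.Prime 2) := ⟨Nat.prime_two⟩
  have hN : Nat.card N = 360 := by rw [Nat.card_congr e.toEquiv, H46.A6Facts.natCard]
  have hG : Nat.card G = 1440 := by
    rw [← N.card_mul_index, hN, hidx]
  have hspec : ∀ g ∈ N, g ^ 3 = 1 ∨ g ^ 4 = 1 ∨ g ^ 5 = 1 := by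
    intro g hg
    have h := H46.A6Facts.spectrum (e ⟨g, hg⟩)
    have key : ∀ k, e ⟨g, hg⟩ ^ k = 1 → g ^ k = 1 := by
      intro k hk
      rw [← map_pow, ← map_one e] at hk
      exact congrArg Subtype.val (e.injective hk)
    rcases h with h | h | h
    · exact Or.inl (key _ h)
    · exact Or.inr (Or.inl (key _ h))
    · exact Or.inr (Or.inr (key _ h))
  have hcardk : ∀ k, Nat.card {g : G // g ∈ N ∧ g ^ k = 1} = Nat.card {g : alternatingGroup (Fin 6) // g ^ k = 1} := by
    intro k
    refine Nat.card_congr ⟨fun g => ⟨e ⟨g.1, g.2.1⟩, ?_⟩, fun g => ⟨(e.symm g.1 : G), (e.symm g.1).2, ?_⟩, fun g => ?_, fun g => ?_⟩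
    · rw [← map_pow, ← map_one e]
      congr 1
      exact Subtype.ext g.2.2
    · have h := g.2
      rw [← map_eq_one_iff e.symm e.symm.injective, map_pow] at h
      exact congrArg Subtype.val h
    · apply Subtype.ext
      show ((e.symm (e ⟨g.1, g.2.1⟩) : N) : G) = g.1
      rw [e.symm_apply_apply]
    · apply Subtype.ext
      show e ⟨((e.symm g.1 : N) : G), _⟩ = g.1
      exact e.apply_symm_apply g.1
  have hpow4 : ∀ g : G, g ^ 4 ∈ N := by
    intro g
    have := Subgroup.pow_index_mem N g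
    rwa [hidx] at this
  -- elements of odd prime order lie in N
  have hodd : ∀ (g : G) (r : ℕ), r.Prime → r ≠ 2 → orderOf g = r → g ∈ N := by
    intro g r hr hr2 hg
    have hcop : Nat.Coprime 4 r := by
      have : Nat.Coprime 2 r := (Nat.coprime_primes Nat.prime_two hr).mpr (Ne.symm hr2)
      exact Nat.Coprime.pow_left 2 this
    obtain ⟨m, hm⟩ := Nat.exists_mul_mod_eq_one_of_coprime hcop hr.one_lt
    have h1 : g = (g ^ 4) ^ m := by
      rw [← pow_mul, ← pow_mod_orderOf, hg, hm.2, pow_one]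
    rw [h1]
    exact N.pow_mem (hpow4 g) m
  -- prime divisors of centralisers
  have hcent : ∀ (x : G) (a b : ℕ), x ∈ N → a.Prime → b.Prime → a ≠ b → b ≠ 2 → orderOf x = a → ¬ b ∣ Nat.card (Subgroup.centralizer ({x} : Set G)) := by
    intro x a b hx ha hb hab hb2 hxa hdvd
    haveI := Fact.mk hb
    obtain ⟨c, hc⟩ := exists_prime_orderOf_dvd_card' b hdvd
    have hc1 : orderOf (c : G) = b := by rw [Subgroup.orderOf_coe, hc]
    have hcN := hodd c b hb hb2 hc1
    have hcx : (c : G) * x = x * c := Subgroup.mem_centralizer_singleton_iff.mp c.2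
    exact no_mul hcx.symm ha hb hab hxa hc1 (hspec _ (N.mul_mem hx hcN))
  have hindex : ∀ x : G, (Subgroup.centralizer ({x} : Set G)).index * Nat.card (Subgroup.centralizer ({x} : Set G)) = 1440 := by
    intro x
    rw [mul_comm, Subgroup.card_mul_index, hG]
  have hconjN : ∀ x ∈ N, ∀ g : G, g * x * g⁻¹ ∈ N := fun x hx g => Subgroup.Normal.conj_mem inferInstance x hx g
  -- centralisers of elements of order 3, 5 are even
  have heven : ∀ y ∈ N, (orderOf y = 3 ∨ orderOf y = 5) → 2 ∣ Nat.card (Subgroup.centralizer ({y} : Set G)) := by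
    intro y hy ho
    by_contra hcon
    have hi := hindex y
    set k := (Subgroup.centralizer ({y} : Set G)).index with hk
    set c := Nat.card (Subgroup.centralizer ({y} : Set G)) with hc
    have hc32 : Nat.Coprime 32 c := Nat.Coprime.pow_left 5 ((Nat.Prime.coprime_iff_not_dvd Nat.prime_two).mpr hcon)
    have h32 : 32 ∣ k := hc32.dvd_of_dvd_mul_right (by rw [hi]; norm_num)
    rcases ho with ho | ho
    · have h5 : ¬ 5 ∣ c := hcent y 3 5 hy Nat.prime_three (by norm_num) (by norm_num) (by norm_num) ho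
      have hc5 : Nat.Coprime 5 c := (Nat.Prime.coprime_iff_not_dvd (by norm_num)).mpr h5
      have h5k : 5 ∣ k := hc5.dvd_of_dvd_mul_right (by rw [hi]; norm_num)
      have h160 : 160 ∣ k := Nat.Coprime.mul_dvd_of_dvd_of_dvd (by norm_num : Nat.Coprime 32 5) h32 h5k
      have hle := index_centralizer_le y {g : G | g ∈ N ∧ g ^ 3 = 1} (fun g => ⟨hconjN y hy g, by
        rw [conj_pow, ← ho, pow_orderOf_eq_one]; simp⟩)
      have h81 : Nat.card ({g : G | g ∈ N ∧ g ^ 3 = 1} : Set G) = 81 := (hcardk 3).trans H46.A6Facts.natCard_three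
      rw [h81] at hle
      have hk0 : 0 < k := Nat.pos_of_ne_zero (by rintro h; rw [h] at hi; omega)
      have := Nat.le_of_dvd hk0 h160
      omega
    · have h3 : ¬ 3 ∣ c := hcent y 5 3 hy (by norm_num) Nat.prime_three (by norm_num) (by norm_num) ho
      have hc9 : Nat.Coprime 9 c := Nat.Coprime.pow_left 2 ((Nat.Prime.coprime_iff_not_dvd Nat.prime_three).mpr h3)
      have h9k : 9 ∣ k := hc9.dvd_of_dvd_mul_right (by rw [hi]; norm_num)
      have h288 : 288 ∣ k := Nat.Coprime.mul_dvd_of_dvd_of_dvd (by norm_num : Nat.Coprime 32 9) h32 h9k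
      have hle := index_centralizer_le y {g : G | g ∈ N ∧ g ^ 3 ≠ 1} (fun g => ⟨hconjN y hy g, by
        rw [conj_pow]
        intro h
        have h2 : y ^ 3 = 1 := by
          have := congrArg (fun z => g⁻¹ * z * g) h
          simpa [mul_assoc] using this
        have h4 := orderOf_dvd_of_pow_eq_one h2
        rw [ho] at h4
        omega⟩)
      have h279 : Nat.card ({g : G | g ∈ N ∧ g ^ 3 ≠ 1} : Set G) = 279 := by
        classical
        have h5 : Nat.card ({g : G | g ∈ N ∧ g ^ 3 = 1} : Set G) = 81 := (hcardk 3).trans H46.A6Facts.natCard_three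
        have h6 : Nat.card ({g : G | g ∈ N ∧ g ^ 3 ≠ 1} : Set G) + Nat.card ({g : G | g ∈ N ∧ g ^ 3 = 1} : Set G) = Nat.card N := by
          rw [← Nat.card_sum]
          apply Nat.card_congr
          refine ⟨fun g => Sum.elim (fun a => ⟨a.1, a.2.1⟩) (fun a => ⟨a.1, a.2.1⟩) g, fun g => if h : g.1 ^ 3 = 1 then Sum.inr ⟨g.1, g.2, h⟩ else Sum.inl ⟨g.1, g.2, h⟩, ?_, ?_⟩
          · rintro (⟨a, ha1, ha2⟩ | ⟨a, ha1, ha2⟩)
            · simp [ha2]
            · simp [ha2]
          · rintro ⟨a, ha⟩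
            by_cases h : a ^ 3 = 1
            · simp [h]
            · simp [h]
        omega
      rw [h279] at hle
      have hk0 : 0 < k := Nat.pos_of_ne_zero (by rintro h; rw [h] at hi; omega)
      have := Nat.le_of_dvd hk0 h288
      omega
  -- an involution of N
  obtain ⟨t₀, ht₀⟩ := exists_prime_orderOf_dvd_card' (G := N) 2 (by rw [hN]; norm_num)
  obtain ⟨t, ht⟩ : ∃ t : G, t = t₀ := ⟨_, rfl⟩
  have htN : t ∈ N := ht ▸ t₀.2
  have hto : orderOf t = 2 := by rw [ht, Subgroup.orderOf_coe, ht₀]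
  have htt : t * t = 1 := by rw [← pow_two, ← hto, pow_orderOf_eq_one]
  have ht1 : t ≠ 1 := by
    rintro h
    rw [h, orderOf_one] at hto
    omega
  have hCcard : Nat.card (Subgroup.centralizer ({t} : Set G)) = 2 ^ (Nat.card G).factorization 2 := by
    have hi := hindex t
    set k := (Subgroup.centralizer ({t} : Set G)).index with hk
    set c := Nat.card (Subgroup.centralizer ({t} : Set G)) with hc
    have h3 : ¬ 3 ∣ c := hcent t 2 3 htN Nat.prime_two Nat.prime_three (by norm_num) (by norm_num) hto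
    have h5 : ¬ 5 ∣ c := hcent t 2 5 htN Nat.prime_two (by norm_num) (by norm_num) (by norm_num) hto
    have hc9 : Nat.Coprime 9 c := Nat.Coprime.pow_left 2 ((Nat.Prime.coprime_iff_not_dvd Nat.prime_three).mpr h3)
    have hc5 : Nat.Coprime 5 c := (Nat.Prime.coprime_iff_not_dvd (by norm_num)).mpr h5
    have h45 : 45 ∣ k := Nat.Coprime.mul_dvd_of_dvd_of_dvd (by norm_num : Nat.Coprime 9 5) (hc9.dvd_of_dvd_mul_right (by rw [hi]; norm_num))
      (hc5.dvd_of_dvd_mul_right (by rw [hi]; norm_num))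
    have hle := index_centralizer_le t {g : G | g ∈ N ∧ g ^ 2 = 1} (fun g => ⟨hconjN t htN g, by
      rw [conj_pow, pow_two, htt]; simp⟩)
    have h46 : Nat.card ({g : G | g ∈ N ∧ g ^ 2 = 1} : Set G) = 46 := (hcardk 2).trans H46.A6Facts.natCard_two
    rw [h46] at hle
    have hk0 : 0 < k := Nat.pos_of_ne_zero (by rintro h; rw [h] at hi; omega)
    obtain ⟨j, hj⟩ := h45
    have hj1 : j = 1 := by omega
    rw [hj1, mul_one] at hj
    rw [hj] at hi
    have hc32 : c = 32 := by omega
    rw [hc32, hG]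
    have : (1440 : ℕ).factorization 2 = 5 := by
      have h : (1440 : ℕ) = 2 ^ 5 * 45 := by norm_num
      rw [h, Nat.factorization_mul (by norm_num) (by norm_num), Finsupp.add_apply, Nat.Prime.factorization_pow Nat.prime_two, Finsupp.single_eq_same,
        Nat.factorization_eq_zero_of_not_dvd (by norm_num)]
    rw [this]
    norm_num
  apply inf_ne_bot_of_sylow t (Sylow.ofCard _ hCcard) rfl
  intro x
  obtain ⟨t', ht'⟩ : ∃ t', t' = x * t * x⁻¹ := ⟨_, rfl⟩
  rw [← ht']
  have ht'N : t' ∈ N := ht' ▸ hconjN t htN x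
  have ht't' : t' * t' = 1 := by
    rw [ht']
    calc x * t * x⁻¹ * (x * t * x⁻¹) = x * (t * t) * x⁻¹ := by group
      _ = 1 := by rw [htt]; group
  have hinvt : t⁻¹ = t := inv_eq_of_mul_eq_one_left htt
  have hinvt' : t'⁻¹ = t' := inv_eq_of_mul_eq_one_left ht't'
  obtain ⟨y, hy⟩ : ∃ y, y = t * t' := ⟨_, rfl⟩
  have hyN : y ∈ N := hy ▸ N.mul_mem htN ht'N
  have hyinv : t * y * t⁻¹ = y⁻¹ := by
    rw [hy, mul_inv_rev, hinvt', hinvt]
    calc t * (t * t') * t = (t * t) * t' * t := by group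
      _ = t' * t := by rw [htt]; group
  have ht'y : t' = t * y := by
    rw [hy]
    calc t' = (t * t) * t' := by rw [htt]; group
      _ = t * (t * t') := by group
  -- it suffices to commute with `t` and `y`
  have hsuff : ∀ z : G, z ≠ 1 → z * t = t * z → z * y = y * z → ∃ z : G, z ≠ 1 ∧ z * t = t * z ∧ z * t' = t' * z := by
    intro z hz1 hzt hzy
    refine ⟨z, hz1, hzt, ?_⟩
    calc z * t' = (z * t) * y := by rw [ht'y, mul_assoc]
      _ = t * (z * y) := by rw [hzt, mul_assoc]
      _ = t * (y * z) := by rw [hzy]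
      _ = t' * z := by rw [ht'y, mul_assoc]
  have hty : t * y = y⁻¹ * t := by rw [← hyinv]; group
  by_cases hy1 : y = 1
  · exact hsuff t ht1 rfl (by rw [hy1]; group)
  by_cases hy2 : y ^ 2 = 1
  · refine hsuff y hy1 ?_ rfl
    rw [hty, inv_eq_of_mul_eq_one_left (by rw [← pow_two]; exact hy2)]
  by_cases hy4 : y ^ 4 = 1
  · refine hsuff (y ^ 2) hy2 ?_ (by group)
    have h1 : t * y ^ 2 * t⁻¹ = (t * y * t⁻¹) ^ 2 := conj_pow.symm
    rw [hyinv] at h1
    have h2 : (y⁻¹) ^ 2 = y ^ 2 := by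
      rw [inv_pow]
      exact inv_eq_of_mul_eq_one_left (by rw [← pow_add]; exact hy4)
    rw [h2, mul_inv_eq_iff_eq_mul] at h1
    exact h1.symm
  · have hord : orderOf y = 3 ∨ orderOf y = 5 := by
      rcases hspec y hyN with h | h | h
      · left; haveI : Fact (Nat.Prime 3) := ⟨Nat.prime_three⟩; exact orderOf_eq_prime h hy1
      · exact absurd h hy4
      · right; haveI : Fact (Nat.Prime 5) := ⟨by norm_num⟩; exact orderOf_eq_prime h hy1
    obtain ⟨z, hzC, hz1, hzt⟩ := exists_fixed (Subgroup.centralizer ({y} : Set G)) t htt (by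
      intro c hc
      rw [Subgroup.mem_centralizer_singleton_iff] at hc ⊢
      have h1 : t * c * t⁻¹ * y⁻¹ = y⁻¹ * (t * c * t⁻¹) := by
        calc t * c * t⁻¹ * y⁻¹ = t * c * t⁻¹ * (t * y * t⁻¹) := by rw [hyinv]
          _ = t * (c * y) * t⁻¹ := by group
          _ = t * (y * c) * t⁻¹ := by rw [hc]
          _ = (t * y * t⁻¹) * (t * c * t⁻¹) := by group
          _ = y⁻¹ * (t * c * t⁻¹) := by rw [hyinv]
      calc t * c * t⁻¹ * y = y * (y⁻¹ * (t * c * t⁻¹)) * y := by group
        _ = y * (t * c * t⁻¹ * y⁻¹) * y := by rw [h1]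
        _ = y * (t * c * t⁻¹) := by group) (heven y hyN hord)
    exact hsuff z hz1 hzt (Subgroup.mem_centralizer_singleton_iff.mp hzC)

end Cfsg.Agent.S2488
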