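import Cfsg.Statements.S2493
import Cfsg.Agent.Lib.H46.DcB
import Cfsg.Agent.Lib.H46.DcC

set_option autoImplicit false
open Cfsg

namespace Cfsg.Agent.S2493

/-- Let n ≥ 5 and let G be a finite perfect group whose centre has order 2 with G/Z(G) isomorphic to the alternating group of degree n (the double cover of the alternating group). Then every element of G is a commutator. -/
theorem result {G : Type*} [Group G] [Finite G] (hperf : commutator G = ⊤) {n : ℕ} (hn : 5 ≤ n)
    (hZ : Nat.card (Subgroup.center G) = 2) (e : G ⧸ Subgroup.center G ≃* alternatingGroup (Fin n))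
    (g : G) :
    ∃ a b : G, a * b * a⁻¹ * b⁻¹ = g := by
  obtain ⟨m, rfl⟩ : ∃ m, n = m + 2 := ⟨n - 2, by omega⟩
  let π : G →* alternatingGroup (Fin (m + 2)) := e.toMonoidHom.comp (QuotientGroup.mk' (Subgroup.center G))
  have hker : π.ker = Subgroup.center G := by
    ext x
    rw [MonoidHom.mem_ker]
    show e (QuotientGroup.mk' (Subgroup.center G) x) = 1 ↔ _
    rw [map_eq_one_iff e e.injective]
    exact QuotientGroup.eq_one_iff x
  have hπ : IsStemExtension π := by
    refine ⟨?_, hker.le, by rw [hperf]; exact le_top⟩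
    intro a
    obtain ⟨q, hq⟩ := e.surjective a
    obtain ⟨x, rfl⟩ := QuotientGroup.mk'_surjective _ q
    exact ⟨x, hq⟩
  obtain ⟨z, hc⟩ := H46.DcC.mkCov (by omega) π hπ (by rw [hker]; exact hZ)
  obtain ⟨A, C, hA, hg, hct, u, u', v, v', hD, h1, h2, h3, h4⟩ := H46.DcB.main (by simpa using hn) _ (hc.sg g)
  exact hc.final hA hg hct hD h1 h2 h3 h4

end Cfsg.Agent.S2493
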