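import Cfsg.Statements.S2495
import Mathlib
import Cfsg.Agent.Lib.H46.Irr
import Cfsg.Agent.Lib.H46.Orders

set_option autoImplicit false
open Cfsg

namespace Cfsg.Agent.S2495

open Module Polynomial H46.ProjOrder H46.ExtElt H46.Decomp H46.ProdUnit H46.Singer H46.Irr H46.Orders

/-- arithmetic of the criterion -/
theorem arith (q m : ℕ) (hq : 2 ≤ q) (hm : 0 < m) :
    q ^ m + 1 ∣ (q ^ (2 * m) - 1) / (q - 1) / Nat.gcd (2 * m) (q - 1) ↔ Nat.gcd (2 * m) (q - 1) ∣ m := by
  have hpos : 0 < q - 1 := by omega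
  obtain ⟨g, hg⟩ : (q - 1) ∣ q ^ m - 1 := by
    have := Nat.sub_dvd_pow_sub_pow q 1 m
    rwa [one_pow] at this
  have e1 : q ^ (2 * m) - 1 = (q ^ m + 1) * (q ^ m - 1) := by
    rw [mul_comm 2 m, pow_mul, ← Nat.sq_sub_sq, one_pow]
  have e2 : (q ^ (2 * m) - 1) / (q - 1) = (q ^ m + 1) * g := by
    apply Nat.div_eq_of_eq_mul_right hpos
    rw [e1, hg]; ring
  have e3 : g = (q ^ m - 1) / (q - 1) := by rw [hg, Nat.mul_div_cancel_left _ hpos]
  have e4 : Nat.gcd g (q - 1) = Nat.gcd m (q - 1) := by rw [e3]; exact gcd_geom q m hq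
  have hdvd : Nat.gcd (2 * m) (q - 1) ∣ (q ^ m + 1) * g := by
    rw [← e2, ← gcd_geom q (2 * m) hq]
    exact Nat.gcd_dvd_left _ _
  have hgpos : 0 < Nat.gcd (2 * m) (q - 1) := Nat.gcd_pos_of_pos_right _ hpos
  rw [e2]
  constructor
  · intro h
    obtain ⟨j, hj⟩ := h
    have h1 : (q ^ m + 1) * g = (q ^ m + 1) * (j * Nat.gcd (2 * m) (q - 1)) := by
      rw [← Nat.div_mul_cancel hdvd, hj]; ring
    have h2 : g = j * Nat.gcd (2 * m) (q - 1) := Nat.eq_of_mul_eq_mul_left (by positivity) h1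
    have h3 : Nat.gcd (2 * m) (q - 1) ∣ Nat.gcd g (q - 1) := Nat.dvd_gcd ⟨j, by rw [h2]; ring⟩ (Nat.gcd_dvd_right _ _)
    rw [e4] at h3
    exact h3.trans (Nat.gcd_dvd_left _ _)
  · intro h
    have h1 : Nat.gcd (2 * m) (q - 1) ∣ g := by
      have : Nat.gcd (2 * m) (q - 1) ∣ Nat.gcd g (q - 1) := by
        rw [e4]
        exact Nat.dvd_gcd h (Nat.gcd_dvd_right _ _)
      exact this.trans (Nat.gcd_dvd_left _ _)
    rw [Nat.mul_div_assoc _ h1]
    exact dvd_mul_right _ _

/-- gcd condition versus 2-adic valuations -/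
theorem val_iff (m c : ℕ) (hm : 0 < m) (hc : 0 < c) :
    Nat.gcd (2 * m) c ∣ m ↔ padicValNat 2 c < padicValNat 2 (2 * m) := by
  have h2 : Fact (Nat.Prime 2) := ⟨Nat.prime_two⟩
  have hv : padicValNat 2 (2 * m) = padicValNat 2 m + 1 := by
    rw [padicValNat.mul (by norm_num) hm.ne', padicValNat_self, add_comm]
  rw [hv]
  constructor
  · intro h
    by_contra hcon
    push Not at hcon
    have h3 : 2 ^ (padicValNat 2 m + 1) ∣ Nat.gcd (2 * m) c := by
      apply Nat.dvd_gcd
      · rw [padicValNat_dvd_iff_le (by positivity)]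
        rw [hv]
      · rw [padicValNat_dvd_iff_le hc.ne']
        omega
    have h4 := h3.trans h
    rw [padicValNat_dvd_iff_le hm.ne'] at h4
    omega
  · intro h
    have hg : Nat.gcd (2 * m) c ≠ 0 := (Nat.gcd_pos_of_pos_right _ hc).ne'
    rw [← Nat.factorization_le_iff_dvd hg hm.ne']
    intro l
    by_cases hl : l.Prime
    · rw [Nat.factorization_gcd (by positivity) hc.ne']
      by_cases hl2 : l = 2
      · subst hl2
        simp only [Finsupp.inf_apply]
        rw [Nat.factorization_def _ Nat.prime_two, Nat.factorization_def _ Nat.prime_two, Nat.factorization_def _ Nat.prime_two]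
        omega
      · simp only [Finsupp.inf_apply]
        rw [Nat.factorization_mul (by norm_num) hm.ne']
        simp only [Finsupp.add_apply]
        have : (Nat.factorization 2) l = 0 := by
          rw [Nat.Prime.factorization Nat.prime_two]
          exact Finsupp.single_eq_of_ne (fun h => hl2 h)
        rw [this]
        omega
    · rw [Nat.factorization_eq_zero_of_not_prime _ hl]
      exact Nat.zero_le _

/-- Let q be an odd prime power, n ≥ 4 even, and L = PSL(n,q). Then L has an element of order q^(n/2) + 1 if and only if the 2-part of n exceeds the 2-part of q − 1. -/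
theorem result {F : Type*} [Field F] [Fintype F] {q : ℕ} (hF : Fintype.card F = q) (hodd : Odd q)
    {n : ℕ} (hn : 4 ≤ n) (heven : Even n) :
    (∃ g : Matrix.ProjectiveSpecialLinearGroup (Fin n) F, orderOf g = q ^ (n / 2) + 1) ↔
      padicValNat 2 (q - 1) < padicValNat 2 n := by
  obtain ⟨m, hm⟩ := heven
  have hn2 : n = 2 * m := by omega
  have hn' : n / 2 = m := by omega
  have hcF : Nat.card F = q := by rw [Nat.card_eq_fintype_card, hF]
  have hq2 : 2 ≤ q := by rw [← hcF]; exact Finite.one_lt_card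
  have hq3 : 3 ≤ q := by
    obtain ⟨j, hj⟩ := hodd
    omega
  obtain ⟨K, _, _, _, hK, hKc⟩ := exists_field_ext F n (by omega)
  have hne : Nonempty (Fin n) := ⟨⟨0, by omega⟩⟩
  have hST := ST_eq (F := F) (K := K) (by omega) hK
  rw [hcF] at hST
  have hcrit : padicValNat 2 (q - 1) < padicValNat 2 n ↔ q ^ m + 1 ∈ ST F K := by
    rw [hST, Set.mem_setOf_eq, hn2, arith q m hq2 (by omega), val_iff m (q - 1) (by omega) (by omega)]
  rw [hn', hcrit]
  constructor
  · rintro ⟨g, hg⟩
    have hmem : q ^ m + 1 ∈ Set.range (orderOf : Matrix.ProjectiveSpecialLinearGroup (Fin n) F → ℕ) := ⟨g, hg⟩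
    rw [mem_orders_iff_end (F := F) (by omega) (Fin n → F) (by simp)] at hmem
    obtain ⟨u, hu, hux⟩ := hmem
    obtain ⟨c, hc⟩ := (projOrder_dvd_iff u (q ^ m + 1)).mp (by rw [hux])
    obtain ⟨p, hp⟩ := CharP.exists F
    have hpp : p.Prime := CharP.char_is_prime F p
    have hpq : p ∣ q := by
      obtain ⟨k, _, hk2⟩ := FiniteField.card F p
      rw [hF] at hk2
      rw [hk2]
      exact dvd_pow_self p k.ne_zero
    obtain ⟨r, hr, hr1, hr2⟩ := H53.Zsig.zsigmondy (a := q) (n := n) (by omega) (by omega) (by omega) (by omega)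
    have hrp : (r : F) ≠ 0 := by
      rw [Ne, CharP.cast_eq_zero_iff F p]
      intro h
      have h1 : p ∣ q ^ n - 1 := h.trans hr1
      have h2 : p ∣ q ^ n := hpq.trans (dvd_pow_self q (by omega))
      have h3 := Nat.dvd_sub h2 h1
      rw [Nat.sub_sub_self (Nat.one_le_pow _ _ (by omega))] at h3
      exact hpp.one_lt.ne' (Nat.dvd_one.mp h3)
    have hrN : r ∣ q ^ m + 1 := by
      have e1 : q ^ n - 1 = (q ^ m + 1) * (q ^ m - 1) := by
        rw [hn2, mul_comm 2 m, pow_mul, ← Nat.sq_sub_sq, one_pow]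
      rw [e1] at hr1
      rcases (Nat.Prime.dvd_mul hr).mp hr1 with h | h
      · exact h
      · exact absurd h (hr2 m (by omega) (by omega))
    have hNF : ((q ^ m + 1 : ℕ) : F) ≠ 0 := by
      rw [Ne, CharP.cast_eq_zero_iff F p]
      intro h
      have h2 : p ∣ q ^ m := hpq.trans (dvd_pow_self q (by omega))
      exact hpp.one_lt.ne' (Nat.dvd_one.mp ((Nat.dvd_add_right h2).mp h))
    have hirr := irreducible_of_zsig u (q ^ m + 1) hNF c hc r hr hrp
      (hrN.trans (by rw [← hux]; exact projOrder_dvd_orderOf u)) (by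
        intro d hd0 hd
        rw [hcF]
        exact hr2 d hd0 (by simpa using hd))
    rw [← hux]
    exact projOrder_mem_ST u hirr hu K (by rw [hK]; simp)
  · intro h
    exact ST_sub (F := F) (by omega) hK h

end Cfsg.Agent.S2495
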