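import Cfsg.Statements.S2496
import Mathlib
import Cfsg.Agent.Lib.H46.Irr
import Cfsg.Agent.Lib.H46.Orders
import Cfsg.Agent.Lib.H46.UTorus
import Cfsg.Agent.Lib.H46.UModels

set_option autoImplicit false
open Cfsg

namespace Cfsg.Agent.S2496

open Module Polynomial H46.SForm H46.SForm.SForm H46.ProjOrder H46.ProdUnit H46.OrthDec H46.OrdPSU H46.UNum H46.UTorus H46.UModels

/-- gcd condition versus 2-adic valuations -/
theorem val_iff (m c : ℕ) (hm : 0 < m) (hc : 0 < c) :
    Nat.gcd (2 * m) c ∣ m ↔ padicValNat 2 c < padicValNat 2 (2 * m) := by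
  have h2 : Fact (Nat.Prime 2) := ⟨Nat.prime_two⟩
  have hv : padicValNat 2 (2 * m) = padicValNat 2 m + 1 := by
    rw [padicValNat.mul (by norm_num) hm.ne', padicValNat_self, add_comm]
  rw [hv]
  constructor
  · intro h
    by_contra hcon
    push Not at hcon
    have h3 : 2 ^ (padicValNat 2 m + 1) ∣ Nat.gcd (2 * m) c := by
      apply Nat.dvd_gcd
      · rw [padicValNat_dvd_iff_le (by positivity)]
        rw [hv]
      · rw [padicValNat_dvd_iff_le hc.ne']
        omega
    have h4 := h3.trans h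
    rw [padicValNat_dvd_iff_le hm.ne'] at h4
    omega
  · intro h
    have hg : Nat.gcd (2 * m) c ≠ 0 := (Nat.gcd_pos_of_pos_right _ hc).ne'
    rw [← Nat.factorization_le_iff_dvd hg hm.ne']
    intro l
    by_cases hl : l.Prime
    · rw [Nat.factorization_gcd (by positivity) hc.ne']
      by_cases hl2 : l = 2
      · subst hl2
        simp only [Finsupp.inf_apply]
        rw [Nat.factorization_def _ Nat.prime_two, Nat.factorization_def _ Nat.prime_two, Nat.factorization_def _ Nat.prime_two]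
        omega
      · simp only [Finsupp.inf_apply]
        rw [Nat.factorization_mul (by norm_num) hm.ne']
        simp only [Finsupp.add_apply]
        have : (Nat.factorization 2) l = 0 := by
          rw [Nat.Prime.factorization Nat.prime_two]
          exact Finsupp.single_eq_of_ne (fun h => hl2 h)
        rw [this]
        omega
    · rw [Nat.factorization_eq_zero_of_not_prime _ hl]
      exact Nat.zero_le _

/-- arithmetic of the criterion -/
theorem arith (q m N : ℕ) (hq : 2 ≤ q) (hm : 0 < m) (hN : MM q (2 * m) = N * MM q m) (hN0 : 0 < N) :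
    N ∣ MM q (2 * m) / Nat.gcd (2 * m) (q + 1) ↔ Nat.gcd (2 * m) (q + 1) ∣ m := by
  have hdvd : Nat.gcd (2 * m) (q + 1) ∣ N * MM q m := by
    rw [← hN, ← gcd_MM q (2 * m) (by omega)]
    exact Nat.gcd_dvd_left _ _
  have e4 := gcd_MM q m (by omega : 0 < q)
  rw [hN]
  constructor
  · intro h
    obtain ⟨j, hj⟩ := h
    have h1 : N * MM q m = N * (j * Nat.gcd (2 * m) (q + 1)) := by
      rw [← Nat.div_mul_cancel hdvd, hj]; ring
    have h2 : MM q m = j * Nat.gcd (2 * m) (q + 1) := Nat.eq_of_mul_eq_mul_left hN0 h1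
    have h3 : Nat.gcd (2 * m) (q + 1) ∣ Nat.gcd (MM q m) (q + 1) := Nat.dvd_gcd ⟨j, by rw [h2]; ring⟩ (Nat.gcd_dvd_right _ _)
    rw [e4] at h3
    exact h3.trans (Nat.gcd_dvd_left _ _)
  · intro h
    have h1 : Nat.gcd (2 * m) (q + 1) ∣ MM q m := by
      have : Nat.gcd (2 * m) (q + 1) ∣ Nat.gcd (MM q m) (q + 1) := by
        rw [e4]
        exact Nat.dvd_gcd h (Nat.gcd_dvd_right _ _)
      exact this.trans (Nat.gcd_dvd_left _ _)
    rw [Nat.mul_div_assoc _ h1]
    exact dvd_mul_right _ _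

theorem dvd_of_zsig {r q k : ℕ} (hz : H53.Zsig.IsZsig r q k) (hk : 0 < k) (d : ℕ) (hd : r ∣ q ^ d - 1) : k ∣ d := by
  have h1 : r ∣ q ^ Nat.gcd k d - 1 := by
    rw [← Nat.pow_sub_one_gcd_pow_sub_one]
    exact Nat.dvd_gcd hz.2.1 hd
  have h2 : 0 < Nat.gcd k d := Nat.gcd_pos_of_pos_left _ hk
  have h3 : Nat.gcd k d ≤ k := Nat.le_of_dvd hk (Nat.gcd_dvd_left _ _)
  by_contra hcon
  have h4 : Nat.gcd k d ≠ k := fun h => hcon (h ▸ Nat.gcd_dvd_right k d)
  exact hz.2.2 _ h2 (by omega) h1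

/-- the number of the statement -/
def NN (q m : ℕ) : ℕ := if Even m then q ^ m + 1 else q ^ m - 1

theorem NN_mul (q m : ℕ) (hq : 2 ≤ q) (hm : 0 < m) : MM q (2 * m) = NN q m * MM q m := by
  have e1 : q ^ (2 * m) - 1 = (q ^ m + 1) * (q ^ m - 1) := by
    rw [mul_comm 2 m, pow_mul, ← Nat.sq_sub_sq, one_pow]
  have h1 := MM_mul_even q (2 * m) (by omega) (even_two_mul m)
  apply Nat.eq_of_mul_eq_mul_right (by omega : 0 < q + 1)
  rw [h1, mul_assoc]
  unfold NN
  split_ifs with h
  · rw [MM_mul_even q m (by omega) h, e1]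
  · rw [MM_mul_odd q m (by omega) (Nat.not_even_iff_odd.mp h), e1, mul_comm]

/-- the Zsigmondy prime -/
theorem exists_prime (q m : ℕ) (hq : 3 ≤ q) (hqo : Odd q) (hm : 2 ≤ m) :
    ∃ r : ℕ, r.Prime ∧ r ∣ NN q m ∧ (∀ d, 0 < d → r ∣ q ^ (2 * d) - 1 → m ∣ d) ∧ ¬ (Odd m ∧ r ∣ q ^ m + 1) := by
  have e1 : q ^ (2 * m) - 1 = (q ^ m + 1) * (q ^ m - 1) := by
    rw [mul_comm 2 m, pow_mul, ← Nat.sq_sub_sq, one_pow]
  rcases Nat.even_or_odd m with hm2 | hm2
  · obtain ⟨r, hr⟩ := H53.Zsig.zsigmondy (a := q) (n := 2 * m) (by omega) (by omega) (by omega) (by omega)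
    refine ⟨r, hr.1, ?_, ?_, ?_⟩
    · unfold NN
      rw [if_pos hm2]
      have h1 := hr.2.1
      rw [e1] at h1
      rcases (Nat.Prime.dvd_mul hr.1).mp h1 with h | h
      · exact h
      · exact absurd h (hr.2.2 m (by omega) (by omega))
    · intro d hd h
      have := dvd_of_zsig hr (by omega) _ h
      exact Nat.dvd_of_mul_dvd_mul_left (by norm_num) this
    · rintro ⟨h, -⟩
      exact absurd hm2 (Nat.not_even_iff_odd.mpr h)
  · obtain ⟨r, hr⟩ := H53.Zsig.zsigmondy (a := q) (n := m) (by omega) (by omega) (by omega) (by obtain ⟨j, hj⟩ := hm2; omega)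
    refine ⟨r, hr.1, ?_, ?_, ?_⟩
    · unfold NN
      rw [if_neg (Nat.not_even_iff_odd.mpr hm2)]
      exact hr.2.1
    · intro d hd h
      have := dvd_of_zsig hr (by omega) _ h
      exact Nat.Coprime.dvd_of_dvd_mul_left (Nat.Coprime.symm (Nat.coprime_two_left.mpr hm2)) this
    · rintro ⟨-, h⟩
      have h1 := hr.2.1
      have hpos : 1 ≤ q ^ m := Nat.one_le_pow _ _ (by omega)
      have h2 : r ∣ 2 := by
        have := Nat.dvd_sub h h1
        have h3 : q ^ m + 1 - (q ^ m - 1) = 2 := by omega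
        rwa [h3] at this
      have h3 : r = 2 := (Nat.prime_dvd_prime_iff_eq hr.1 Nat.prime_two).mp h2
      apply hr.2.2 1 (by norm_num) (by omega)
      rw [h3, pow_one]
      obtain ⟨j, hj⟩ := hqo
      exact ⟨j, by omega⟩

/-- Let q be an odd prime power, n ≥ 4 even, and U = PSU(n,q) (realised over the field with q² elements). Then U has an element of order q^(n/2) + (−1)^(n/2) — that is, q^(n/2) + 1 when n/2 is even and q^(n/2) − 1 when n/2 is odd — if and only if the 2-part of n exceeds the 2-part of q + 1. -/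
theorem result {F : Type*} [Field F] [Fintype F] {q : ℕ} (hF : Fintype.card F = q ^ 2) (hodd : Odd q)
    {n : ℕ} (hn : 4 ≤ n) (heven : Even n) :
    (∃ g : Cfsg.PSU n F q, orderOf g = if Even (n / 2) then q ^ (n / 2) + 1 else q ^ (n / 2) - 1) ↔
      padicValNat 2 (q + 1) < padicValNat 2 n := by
  obtain ⟨m, hm⟩ := heven
  have hn2 : n = 2 * m := by omega
  have hn' : n / 2 = m := by omega
  have hq2 : 2 ≤ q := H16.Herm.one_lt_q hF
  have hq3 : 3 ≤ q := by
    obtain ⟨j, hj⟩ := hodd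
    omega
  have hne : Nonempty (Fin n) := ⟨⟨0, by omega⟩⟩
  have hqm : 2 ^ m ≤ q ^ m := Nat.pow_le_pow_left hq2 m
  have h2m : 2 ^ 2 ≤ 2 ^ m := Nat.pow_le_pow_right (by norm_num) (by omega)
  have hN0 : 0 < NN q m := by
    unfold NN
    split_ifs <;> omega
  have hcrit : padicValNat 2 (q + 1) < padicValNat 2 n ↔ NN q m ∣ MM q n / Nat.gcd n (q + 1) := by
    rw [hn2, arith q m _ hq2 (by omega) (NN_mul q m hq2 (by omega)) hN0, val_iff m (q + 1) (by omega) (by omega)]
  rw [hn', hcrit]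
  show (∃ g : Cfsg.PSU n F q, orderOf g = NN q m) ↔ _
  constructor
  · rintro ⟨g, hg⟩
    obtain ⟨u, hu, hdet, hux⟩ := exists_isom hF (by omega) g
    rw [hg] at hux
    obtain ⟨c, hc⟩ := (projOrder_dvd_iff u (NN q m)).mp (by rw [hux])
    obtain ⟨p, hp⟩ := CharP.exists F
    have hpp : p.Prime := CharP.char_is_prime F p
    have hpq : p ∣ q := by
      obtain ⟨k, _, hk2⟩ := FiniteField.card F p
      rw [hF] at hk2
      exact hpp.dvd_of_dvd_pow (hk2 ▸ dvd_pow_self p k.ne_zero)
    obtain ⟨r, hr, hrN, hr1, hr2⟩ := exists_prime q m hq3 hodd (by omega)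
    have hNF : ((NN q m : ℕ) : F) ≠ 0 := by
      rw [Ne, CharP.cast_eq_zero_iff F p]
      intro h
      have h2 : p ∣ q ^ m := hpq.trans (dvd_pow_self q (by omega))
      unfold NN at h
      split_ifs at h
      · exact hpp.one_lt.ne' (Nat.dvd_one.mp ((Nat.dvd_add_right h2).mp h))
      · have h3 := Nat.dvd_sub h2 h
        rw [Nat.sub_sub_self (by omega)] at h3
        exact hpp.one_lt.ne' (Nat.dvd_one.mp h3)
    have hru : r ∣ orderOf u := (hrN.trans (by rw [← hux])).trans (projOrder_dvd_orderOf u)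
    have hnt : Nontrivial (Fin n → F) := inferInstance
    have hc0 : c ≠ 0 := by
      rintro rfl
      rw [map_zero, ← Units.val_pow_eq_pow_val] at hc
      exact (u ^ (NN q m)).ne_zero hc
    have hP : Squarefree (X ^ (NN q m) - C c : F[X]) := (separable_X_pow_sub_C c hNF hc0).squarefree
    have hsym := hForm_sym hF n
    have hnd := hForm_nd hF n
    have hind : Indec (hForm hF n) u := by
      rcases structure_isom (bar_bar hF) (ε := (1 : F)) ⟨map_one _, by ring⟩ hsym hnd u hu _ hP (by simp [hc]) with h | h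
      · exfalso
        obtain ⟨W₁, W₂, hW, hW₁, hW₂, horth, hinv⟩ := h
        obtain ⟨hi₁, hi₂⟩ := hinv _ (Commute.refl _)
        obtain ⟨u₁, u₂, hu₁, hu₂, hnd₁, hnd₂, -, hord, -, hv₁, hv₂⟩ := decomp_isom hsym hnd W₁ W₂ hW horth u hu hi₁ hi₂
        have hnt₁ : Nontrivial W₁ := Submodule.nontrivial_iff_ne_bot.mpr hW₁
        have hnt₂ : Nontrivial W₂ := Submodule.nontrivial_iff_ne_bot.mpr hW₂
        have hp1 : 0 < finrank F W₁ := finrank_pos
        have hp2 : 0 < finrank F W₂ := finrank_pos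
        have hsum := Submodule.finrank_add_eq_of_isCompl hW
        rw [Module.finrank_fin_fun] at hsum
        rw [H46.Irr.orderOf_prodUnit] at hord
        rw [hord] at hru
        have h4 : r ∣ orderOf u₁ * orderOf u₂ := hru.trans (Nat.lcm_dvd_mul _ _)
        have hcc : ∀ (W : Submodule F (Fin n → F)) (w : (Module.End F W)ˣ) (hw : ∀ x : W, (((w : Module.End F W) x : W) : Fin n → F) = (u : Module.End F (Fin n → F)) x),
            (w : Module.End F W) ^ (NN q m) = algebraMap F _ c := by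
          intro W w hw
          ext1 x
          apply Subtype.ext
          rw [res_pow hw, hc]; rfl
        rcases (Nat.Prime.dvd_mul hr).mp h4 with h5 | h5
        · have := two_mul_le hF r m hr hr1 hr2 (NN q m) (finrank F W₁) W₁ rfl ((hForm hF n).pull W₁.subtype) (fun v w => hsym _ _) hnd₁ u₁ hu₁ hNF ⟨c, hcc W₁ u₁ hv₁⟩ h5
          omega
        · have := two_mul_le hF r m hr hr1 hr2 (NN q m) (finrank F W₂) W₂ rfl ((hForm hF n).pull W₂.subtype) (fun v w => hsym _ _) hnd₂ u₂ hu₂ hNF ⟨c, hcc W₂ u₂ hv₂⟩ h5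
          omega
      · exact h
    rw [← hux]
    exact torus_dvd hF (hForm hF n) hsym hnd u hu hdet hind n (by simp)
  · intro h
    obtain ⟨g, hg⟩ := torus_mem hF (n := n) (by omega)
    have hfin : Finite (Cfsg.PSU n F q) := inferInstance
    have := H46.Orders.mem_of_dvd ⟨g, rfl⟩ (hg ▸ h : NN q m ∣ orderOf g)
    exact this

end Cfsg.Agent.S2496
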