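import Cfsg.Statements.S2503
import Cfsg.Agent.Lib.H46.PSL2Orders

set_option autoImplicit false
open Cfsg

namespace Cfsg.Agent.S2503

open Module H46.ProjOrder H46.ExtElt H46.Singer

theorem result {F : Type*} [Field F] [Fintype F]
    (h2 : 2 ∣ Fintype.card F) (h4 : 4 ≤ Fintype.card F) :
    ∃ A B : Subgroup (Matrix.ProjectiveSpecialLinearGroup (Fin 2) F),
      IsCyclic A ∧ Nat.card A = Fintype.card F + 1 ∧ IsMulCommutative B ∧ (∀ b ∈ B, b * b = 1) ∧
        Nat.card B = Fintype.card F ∧
        ∀ g : Matrix.ProjectiveSpecialLinearGroup (Fin 2) F, ∃ a ∈ A, ∃ b ∈ B, ∃ c ∈ A, g = a * b * c := by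
  classical
  -- characteristic two
  have hchar : CharP F 2 := by
    obtain ⟨p', hp'⟩ := CharP.exists F
    obtain ⟨k, hk1, hk2⟩ := FiniteField.card F p'
    rw [hk2] at h2
    have h3 := (Nat.prime_dvd_prime_iff_eq Nat.prime_two hk1).mp (Nat.prime_two.dvd_of_dvd_pow h2)
    rwa [← h3] at hp'
  have htwo : (2 : F) = 0 := by
    have := CharP.cast_eq_zero F 2
    exact_mod_cast this
  have hsqrt : ∀ a : F, ∃ b : F, b ^ 2 = a := by
    intro a
    obtain ⟨b, hb⟩ := FiniteField.isSquare_of_char_two (ringChar.eq F 2) a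
    exact ⟨b, by rw [hb]; ring⟩
  have hcent : ∀ M : Matrix.SpecialLinearGroup (Fin 2) F, (QuotientGroup.mk M : Matrix.ProjectiveSpecialLinearGroup (Fin 2) F) = 1 → M = 1 := by
    intro M hM
    rw [QuotientGroup.eq_one_iff, Matrix.SpecialLinearGroup.mem_center_iff] at hM
    obtain ⟨r, hr, hr'⟩ := hM
    have hr1 : r = 1 := by
      simp only [Fintype.card_fin] at hr
      have : (r - 1) ^ 2 = 0 := by linear_combination hr + (1 - r) * htwo
      exact sub_eq_zero.mp (pow_eq_zero_iff two_ne_zero |>.mp this)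
    apply Subtype.ext
    rw [← hr', hr1]
    simp
  obtain ⟨K, _, _, _, hK, hKc⟩ := exists_field_ext F 2 (by omega)
  rw [Nat.card_eq_fintype_card (α := F)] at hKc
  have hfin : Module.Finite F K := Module.finite_of_finrank_pos (by omega)
  -- basis 1, θ
  obtain ⟨θ, hθ⟩ : ∃ θ : K, ∀ c : F, θ ≠ algebraMap F K c := by
    by_contra hcon
    push Not at hcon
    have hs : Function.Surjective (algebraMap F K) := fun x => by
      obtain ⟨c, hc⟩ := hcon x
      exact ⟨c, hc.symm⟩
    have := Nat.card_le_card_of_surjective _ hs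
    rw [hKc, Nat.card_eq_fintype_card] at this
    nlinarith
  have hli : LinearIndependent F ![(1 : K), θ] := by
    rw [LinearIndependent.pair_iff' one_ne_zero]
    intro a ha
    exact hθ a (by rw [← ha, Algebra.smul_def, mul_one])
  let b : Basis (Fin 2) F K := basisOfLinearIndependentOfCardEqFinrank hli (by simp [hK])
  have hb0 : b 0 = 1 := by simp [b]
  have hb1 : b 1 = θ := by simp [b]
  have hexp : ∀ x : K, x = algebraMap F K (b.repr x 0) + algebraMap F K (b.repr x 1) * θ := by
    intro x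
    have := b.sum_repr x
    rw [Fin.sum_univ_two, hb0, hb1, Algebra.smul_def, mul_one, Algebra.smul_def] at this
    exact this.symm
  have hrepr : ∀ (x : K) (u v : F), x = algebraMap F K u + algebraMap F K v * θ → b.repr x 0 = u ∧ b.repr x 1 = v := by
    intro x u v hx
    have h : x = u • b 0 + v • b 1 := by
      rw [hb0, hb1, Algebra.smul_def, mul_one, Algebra.smul_def]; exact hx
    rw [h]
    simp [Finsupp.single_apply]
  set t := b.repr (θ * θ) 1 with ht
  set n := b.repr (θ * θ) 0 with hn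
  have hθθ : θ * θ = algebraMap F K n + algebraMap F K t * θ := hexp _
  -- matrix of multiplication
  let ψ := Algebra.leftMulMatrix b
  have hψ : ∀ x : K, ψ x = !![b.repr x 0, n * b.repr x 1; b.repr x 1, b.repr x 0 + t * b.repr x 1] := by
    intro x
    have h1 := hexp x
    set u := b.repr x 0
    set v := b.repr x 1
    have h2 : x * θ = algebraMap F K (n * v) + algebraMap F K (u + t * v) * θ := by
      rw [h1]
      simp only [map_add, map_mul]
      linear_combination (algebraMap F K v) * hθθ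
    have h3 := hrepr _ _ _ h2
    ext i j
    rw [Algebra.leftMulMatrix_eq_repr_mul]
    fin_cases i <;> fin_cases j
    · simp [hb0, u]
    · simp [hb1, h3.1]
    · simp [hb0, v]
    · simp [hb1, h3.2]
  have hnorm : ∀ x : K, Algebra.norm F x = (b.repr x 0) ^ 2 + t * (b.repr x 0) * (b.repr x 1) - n * (b.repr x 1) ^ 2 := by
    intro x
    rw [Algebra.norm_eq_matrix_det b]
    change (ψ x).det = _
    rw [hψ, Matrix.det_fin_two_of]
    ring
  -- the torus
  let T : Subgroup Kˣ := (Units.map (Algebra.norm F : K →* F)).ker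
  have hTmem : ∀ x : Kˣ, x ∈ T ↔ Algebra.norm F (x : K) = 1 := by
    intro x
    rw [MonoidHom.mem_ker, Units.ext_iff]
    rfl
  have hTcard : Nat.card T = Fintype.card F + 1 := by
    have h1 := Subgroup.card_mul_index T
    have h2 : T.index = Nat.card Fˣ := by
      rw [Subgroup.index_ker]
      have : (Units.map (Algebra.norm F : K →* F)).range = ⊤ :=
        MonoidHom.range_eq_top.mpr (FiniteField.unitsMap_norm_surjective F K)
      rw [this]
      exact Nat.card_congr Subgroup.topEquiv.toEquiv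
    rw [h2, Nat.card_units, Nat.card_units, hKc, Nat.card_eq_fintype_card (α := F)] at h1
    have h3 : Fintype.card F ^ 2 - 1 = (Fintype.card F + 1) * (Fintype.card F - 1) := by
      have := Nat.sq_sub_sq (Fintype.card F) 1
      simpa using this
    rw [h3] at h1
    exact Nat.eq_of_mul_eq_mul_right (by omega) h1
  let Ψ : T →* Matrix.SpecialLinearGroup (Fin 2) F :=
    { toFun := fun x => ⟨ψ ((x : Kˣ) : K), by
        rw [← Algebra.norm_eq_matrix_det b]
        exact (hTmem x).mp x.2⟩
      map_one' := by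
        apply Subtype.ext
        simp
      map_mul' := by
        intro x y
        apply Subtype.ext
        exact map_mul ψ _ _ }
  have hΨval : ∀ x : T, (Ψ x : Matrix (Fin 2) (Fin 2) F) = ψ ((x : Kˣ) : K) := fun x => rfl
  let π := QuotientGroup.mk' (Subgroup.center (Matrix.SpecialLinearGroup (Fin 2) F))
  let α : T →* Matrix.ProjectiveSpecialLinearGroup (Fin 2) F := π.comp Ψ
  have hαinj : Function.Injective α := by
    rw [injective_iff_map_eq_one]
    intro x hx
    have h1 := hcent (Ψ x) hx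
    apply Subtype.ext
    apply Units.ext
    apply Algebra.leftMulMatrix_injective b
    change (Ψ x : Matrix (Fin 2) (Fin 2) F) = _
    rw [h1]
    simp
  -- unipotents
  let U : Multiplicative F →* Matrix.SpecialLinearGroup (Fin 2) F :=
    { toFun := fun y => ⟨!![1, Multiplicative.toAdd y; 0, 1], by simp⟩
      map_one' := by
        apply Subtype.ext
        ext i j
        fin_cases i <;> fin_cases j <;> simp
      map_mul' := by
        intro x y
        apply Subtype.ext
        change _ = (!![1, Multiplicative.toAdd x; 0, 1] : Matrix (Fin 2) (Fin 2) F) * !![1, Multiplicative.toAdd y; 0, 1]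
        ext i j
        fin_cases i <;> fin_cases j <;> simp [Matrix.mul_apply, Fin.sum_univ_two, add_comm] }
  have hUval : ∀ y, (U y : Matrix (Fin 2) (Fin 2) F) = !![1, Multiplicative.toAdd y; 0, 1] := fun y => rfl
  let υ : Multiplicative F →* Matrix.ProjectiveSpecialLinearGroup (Fin 2) F := π.comp U
  have hυinj : Function.Injective υ := by
    rw [injective_iff_map_eq_one]
    intro x hx
    have h1 := hcent (U x) hx
    have h2 := congrArg (fun M : Matrix.SpecialLinearGroup (Fin 2) F => M.1 0 1) h1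
    simp only [hUval] at h2
    simpa using h2
  refine ⟨α.range, υ.range, ?_, ?_, ?_, ?_, ?_, ?_⟩
  · exact isCyclic_of_surjective α.rangeRestrict α.rangeRestrict_surjective
  · rw [← hTcard]
    exact (Nat.card_congr (MonoidHom.ofInjective hαinj).toEquiv).symm
  · constructor
    constructor
    rintro ⟨_, x, rfl⟩ ⟨_, y, rfl⟩
    apply Subtype.ext
    change υ x * υ y = υ y * υ x
    rw [← map_mul, ← map_mul, mul_comm]
  · rintro _ ⟨x, rfl⟩
    rw [← map_mul]
    have : x * x = 1 := by
      apply Multiplicative.toAdd.injective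
      change Multiplicative.toAdd x + Multiplicative.toAdd x = 0
      rw [← two_mul, htwo, zero_mul]
    rw [this, map_one]
  · rw [← Nat.card_eq_fintype_card]
    exact (Nat.card_congr (MonoidHom.ofInjective hυinj).toEquiv).symm
  · intro g
    obtain ⟨G, rfl⟩ := QuotientGroup.mk_surjective g
    have hdet := G.2
    rw [Matrix.det_fin_two] at hdet
    set g00 := (G : Matrix (Fin 2) (Fin 2) F) 0 0 with hg00
    set g01 := (G : Matrix (Fin 2) (Fin 2) F) 0 1 with hg01
    set g10 := (G : Matrix (Fin 2) (Fin 2) F) 1 0 with hg10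
    set g11 := (G : Matrix (Fin 2) (Fin 2) F) 1 1 with hg11
    -- a nonzero vector with N(gw) = N(w)
    obtain ⟨α', hα'⟩ := hsqrt (g00 ^ 2 + t * g00 * g10 - n * g10 ^ 2 - 1)
    obtain ⟨β', hβ'⟩ := hsqrt (g01 ^ 2 + t * g01 * g11 - n * g11 ^ 2 + n)
    have key : ∃ w0 w1 : F, (w0 ≠ 0 ∨ w1 ≠ 0) ∧
        (g00 * w0 + g01 * w1) ^ 2 + t * (g00 * w0 + g01 * w1) * (g10 * w0 + g11 * w1) - n * (g10 * w0 + g11 * w1) ^ 2 =
          w0 ^ 2 + t * w0 * w1 - n * w1 ^ 2 := by
      have hQ : ∀ w0 w1 : F, α' * w0 + β' * w1 = 0 →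
        (g00 * w0 + g01 * w1) ^ 2 + t * (g00 * w0 + g01 * w1) * (g10 * w0 + g11 * w1) - n * (g10 * w0 + g11 * w1) ^ 2 =
          w0 ^ 2 + t * w0 * w1 - n * w1 ^ 2 := by
        intro w0 w1 h
        have h3 : (α' * w0 + β' * w1) ^ 2 = 0 := by rw [h]; ring
        linear_combination h3 - w0 ^ 2 * hα' - w1 ^ 2 * hβ' + t * w0 * w1 * hdet + (g00 * g01 * w0 * w1 + t * g01 * g10 * w0 * w1
          - n * g10 * g11 * w0 * w1 - α' * β' * w0 * w1) * htwo
      by_cases hab : α' = 0 ∧ β' = 0
      · exact ⟨1, 0, Or.inl one_ne_zero, hQ 1 0 (by rw [hab.1, hab.2]; ring)⟩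
      · refine ⟨β', α', ?_, hQ _ _ (by linear_combination α' * β' * htwo)⟩
        by_contra hcon
        push Not at hcon
        exact hab ⟨hcon.2, hcon.1⟩
    obtain ⟨w0, w1, hw, hwN⟩ := key
    -- as an element of K
    let W : K := algebraMap F K w0 + algebraMap F K w1 * θ
    have hW := hrepr W w0 w1 rfl
    have hW0 : W ≠ 0 := by
      intro h0
      rw [h0] at hW
      simp only [map_zero, Finsupp.coe_zero, Pi.zero_apply] at hW
      rcases hw with h | h
      · exact h hW.1.symm
      · exact h hW.2.symm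
    have hNW : Algebra.norm F W ≠ 0 := by
      rw [Algebra.norm_ne_zero_iff]
      exact hW0
    obtain ⟨s, hs⟩ := hsqrt (Algebra.norm F W)
    have hs0 : s ≠ 0 := by
      rintro rfl
      apply hNW
      rw [← hs]; ring
    -- normalised
    have hv0 : b.repr (algebraMap F K s⁻¹ * W) 0 = s⁻¹ * w0 ∧ b.repr (algebraMap F K s⁻¹ * W) 1 = s⁻¹ * w1 := by
      apply hrepr
      simp only [W, map_mul]
      ring
    set v0 := s⁻¹ * w0 with hv0def
    set v1 := s⁻¹ * w1 with hv1def
    set Vv : K := algebraMap F K s⁻¹ * W with hVv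
    have hNV : v0 ^ 2 + t * v0 * v1 - n * v1 ^ 2 = 1 := by
      have h5 := hnorm W
      rw [hW.1, hW.2, ← hs] at h5
      rw [hv0def, hv1def]
      field_simp
      linear_combination -h5
    have hNgV : (g00 * v0 + g01 * v1) ^ 2 + t * (g00 * v0 + g01 * v1) * (g10 * v0 + g11 * v1) - n * (g10 * v0 + g11 * v1) ^ 2 = 1 := by
      rw [← hNV, hv0def, hv1def]
      linear_combination (s⁻¹) ^ 2 * hwN
    let Y : K := algebraMap F K (g00 * v0 + g01 * v1) + algebraMap F K (g10 * v0 + g11 * v1) * θ
    have hY := hrepr Y _ _ rfl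
    have hnV : Algebra.norm F Vv = 1 := by
      rw [hnorm, hv0.1, hv0.2]; exact hNV
    have hnY : Algebra.norm F Y = 1 := by
      rw [hnorm, hY.1, hY.2]; exact hNgV
    have hV0 : Vv ≠ 0 := by
      intro h0; rw [h0, Algebra.norm_zero] at hnV; exact zero_ne_one hnV
    have hY0 : Y ≠ 0 := by
      intro h0; rw [h0, Algebra.norm_zero] at hnY; exact zero_ne_one hnY
    let c : T := ⟨Units.mk0 Vv hV0, (hTmem _).mpr hnV⟩
    let a : T := ⟨Units.mk0 Y hY0, (hTmem _).mpr hnY⟩
    -- M = Ψ(a)⁻¹ G Ψ(c) fixes e₀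
    let M : Matrix.SpecialLinearGroup (Fin 2) F := (Ψ a)⁻¹ * G * Ψ c
    have hcol : (Ψ a : Matrix (Fin 2) (Fin 2) F) * (M : Matrix (Fin 2) (Fin 2) F) = (G : Matrix (Fin 2) (Fin 2) F) * (Ψ c : Matrix (Fin 2) (Fin 2) F) := by
      rw [← Matrix.SpecialLinearGroup.coe_mul, ← Matrix.SpecialLinearGroup.coe_mul]
      have hh : Ψ a * M = G * Ψ c := by simp only [M, mul_assoc, mul_inv_cancel_left]
      rw [hh]
    have hc' : (Ψ c : Matrix (Fin 2) (Fin 2) F) = ψ Vv := rfl
    have ha' : (Ψ a : Matrix (Fin 2) (Fin 2) F) = ψ Y := rfl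
    have hM0 : (M : Matrix (Fin 2) (Fin 2) F) 0 0 = 1 ∧ (M : Matrix (Fin 2) (Fin 2) F) 1 0 = 0 := by
      have h00 := congrFun (congrFun hcol 0) 0
      have h10 := congrFun (congrFun hcol 1) 0
      rw [hc', ha', hψ, hψ, Matrix.mul_apply, Matrix.mul_apply, Fin.sum_univ_two, Fin.sum_univ_two] at h00 h10
      simp only [Matrix.of_apply, Matrix.cons_val', Matrix.cons_val_zero, Matrix.cons_val_one, Matrix.cons_val_fin_one,
        hv0.1, hv0.2, hY.1, hY.2] at h00 h10
      rw [← hg00, ← hg01] at h00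
      rw [← hg10, ← hg11] at h10
      set m0 := (M : Matrix (Fin 2) (Fin 2) F) 0 0
      set m1 := (M : Matrix (Fin 2) (Fin 2) F) 1 0
      set y0 := g00 * v0 + g01 * v1
      set y1 := g10 * v0 + g11 * v1
      have hN : y0 ^ 2 + t * y0 * y1 - n * y1 ^ 2 = 1 := hNgV
      constructor
      · linear_combination (-m0 + 1) * hN + (y0 + t * y1) * h00 - n * y1 * h10
      · linear_combination (-m1) * hN - y1 * h00 + y0 * h10
    have hM11 : (M : Matrix (Fin 2) (Fin 2) F) 1 1 = 1 := by
      have := M.2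
      rw [Matrix.det_fin_two, hM0.1, hM0.2] at this
      linear_combination this
    have hMU : M = U (Multiplicative.ofAdd ((M : Matrix (Fin 2) (Fin 2) F) 0 1)) := by
      apply Subtype.ext
      rw [hUval]
      ext i j
      fin_cases i <;> fin_cases j
      · exact hM0.1
      · rfl
      · exact hM0.2
      · exact hM11
    refine ⟨α a, ⟨a, rfl⟩, υ (Multiplicative.ofAdd ((M : Matrix (Fin 2) (Fin 2) F) 0 1)), ⟨_, rfl⟩, (α c)⁻¹, inv_mem ⟨c, rfl⟩, ?_⟩
    change π G = π (Ψ a) * π (U _) * (π (Ψ c))⁻¹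
    rw [← hMU, ← map_inv, ← map_mul, ← map_mul]
    congr 1
    simp only [M]
    group

end Cfsg.Agent.S2503
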