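import Cfsg.Statements.S2508
import Cfsg.Agent.Lib.H85.PSLClass

set_option autoImplicit false
open Cfsg

namespace Cfsg.Agent.S2508

/-- Let F be a finite field with q elements, q odd and q ≥ 7. If q ≡ 1 (mod 4) the conjugacy class sizes of PSL(2,F) are exactly 1, (q² − 1)/2, q(q + 1)/2, q(q − 1) and q(q + 1); if q ≡ 3 (mod 4) they are exactly 1, (q² − 1)/2, q(q − 1)/2, q(q + 1) and q(q − 1). -/
theorem result {F : Type*} [Field F] [Fintype F]
    (hodd : ¬ 2 ∣ Fintype.card F) (h7 : 7 ≤ Fintype.card F) :
    (Fintype.card F % 4 = 1 →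
      Set.range (fun g : (Matrix.ProjectiveSpecialLinearGroup (Fin 2) F) => (Subgroup.centralizer ({g} : Set (Matrix.ProjectiveSpecialLinearGroup (Fin 2) F))).index) =
        {1, (Fintype.card F ^ 2 - 1) / 2, Fintype.card F * (Fintype.card F + 1) / 2,
          Fintype.card F * (Fintype.card F - 1), Fintype.card F * (Fintype.card F + 1)}) ∧
    (Fintype.card F % 4 = 3 →
      Set.range (fun g : (Matrix.ProjectiveSpecialLinearGroup (Fin 2) F) => (Subgroup.centralizer ({g} : Set (Matrix.ProjectiveSpecialLinearGroup (Fin 2) F))).index) =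
        {1, (Fintype.card F ^ 2 - 1) / 2, Fintype.card F * (Fintype.card F - 1) / 2,
          Fintype.card F * (Fintype.card F + 1), Fintype.card F * (Fintype.card F - 1)}) := by
  classical
  have h2 := H85.PSLClass.odd_char hodd
  obtain ⟨m, hm⟩ : ∃ m, Fintype.card F = 2 * m + 1 := by
    exact ⟨Fintype.card F / 2, by omega⟩
  have hg : Nat.gcd 2 (Fintype.card F - 1) = 2 := by
    rw [hm, Nat.add_sub_cancel]
    exact Nat.gcd_eq_left (Dvd.intro _ rfl)
  have hne : ∀ t : F, t ≠ 0 → t ≠ -t := by
    intro t ht h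
    have : 2 * t = 0 := by linear_combination h
    rcases mul_eq_zero.1 this with h | h
    · exact h2 h
    · exact ht h
  have key : ∀ A : H85.PSLClass.SL F, (H45.SL2.tr A)^2 ≠ 4 → H45.SL2.tr A ≠ 0 →
      (Subgroup.centralizer ({H85.PSLClass.pr A} : Set (H85.PSLClass.PSL F))).index =
        Fintype.card F * (Fintype.card F - 1) + Fintype.card F * H85.PSLClass.r (H45.SL2.tr A) := by
    intro A hA hA0
    have h1 := H85.PSLClass.center_mul_index hA
    rw [H85.PSLClass.card_center, hg, H85.PSLClass.card_or_of_ne (hne _ hA0),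
      H85.PSLClass.card_tr] at h1
    exact Nat.eq_of_mul_eq_mul_left (by norm_num) h1
  have h40 : (0:F)^2 ≠ 4 := by
    intro h
    have : (2:F) * 2 = 0 := by linear_combination -h
    rcases mul_eq_zero.1 this with h | h <;> exact h2 h
  have key0 : ∀ A : H85.PSLClass.SL F, H45.SL2.tr A = 0 →
      2 * (Subgroup.centralizer ({H85.PSLClass.pr A} : Set (H85.PSLClass.PSL F))).index =
        Fintype.card F * (Fintype.card F - 1) + Fintype.card F * H85.PSLClass.r (0 : F) := by
    intro A hA0
    have h1 := H85.PSLClass.center_mul_index (A := A) (by rw [hA0]; exact h40)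
    rw [H85.PSLClass.card_center, hg, hA0, H85.PSLClass.card_or_of_eq (by ring),
      H85.PSLClass.card_tr] at h1
    exact h1
  have one : (Subgroup.centralizer ({(1 : H85.PSLClass.PSL F)} : Set (H85.PSLClass.PSL F))).index = 1 := by
    rw [Subgroup.index_eq_one, Subgroup.centralizer_eq_top_iff_subset]
    simp
  have unip : ∀ A : H85.PSLClass.SL F, H85.PSLClass.pr A ≠ 1 → (H45.SL2.tr A)^2 = 4 →
      (Subgroup.centralizer ({H85.PSLClass.pr A} : Set (H85.PSLClass.PSL F))).index =
        (Fintype.card F ^ 2 - 1) / 2 := by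
    intro A hA ht
    have h1 := H85.PSLClass.index_unip hA ht
    rw [hg] at h1
    rw [← h1]; simp
  have tr0 : ∀ t : F, H45.SL2.tr (H45.SL2.mk2 0 (-1) 1 t (by ring)) = t := by
    intro t; rw [H45.SL2.tr_mk2]; ring
  have n1 : Fintype.card F * (Fintype.card F - 1) + Fintype.card F * 2 = Fintype.card F * (Fintype.card F + 1) := by
    rw [hm, Nat.add_sub_cancel]; ring
  have n0 : Fintype.card F * (Fintype.card F - 1) + Fintype.card F * 0 = Fintype.card F * (Fintype.card F - 1) := by
    ring
  have eun : H85.PSLClass.pr (H45.SL2.mk2 1 1 0 1 (by ring) : H85.PSLClass.SL F) ≠ 1 := by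
    intro h
    have h1 : H85.PSLClass.pr (H45.SL2.mk2 1 1 0 1 (by ring)) = H85.PSLClass.pr (1 : H85.PSLClass.SL F) := h
    rw [H85.PSLClass.pr_eq_iff] at h1
    rcases h1 with h1 | h1
    · have h2 : (0:F) = 1 := congrArg (fun X : H85.PSLClass.SL F => X.1 0 1) h1
      exact zero_ne_one h2
    · have h2 : (0:F) = -1 := congrArg (fun X : H85.PSLClass.SL F => X.1 0 1) h1
      exact zero_ne_one (α := F) (by linear_combination -h2)
  -- existence of the common classes
  have ex1 : ∃ g : H85.PSLClass.PSL F, (Subgroup.centralizer ({g} : Set (H85.PSLClass.PSL F))).index = 1 := ⟨1, one⟩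
  have ex2 : ∃ g : H85.PSLClass.PSL F, (Subgroup.centralizer ({g} : Set (H85.PSLClass.PSL F))).index =
      (Fintype.card F ^ 2 - 1) / 2 :=
    ⟨_, unip _ eun (by rw [H45.SL2.tr_mk2]; ring)⟩
  have ex3 : ∃ g : H85.PSLClass.PSL F, (Subgroup.centralizer ({g} : Set (H85.PSLClass.PSL F))).index =
      Fintype.card F * (Fintype.card F - 1) := by
    obtain ⟨t, ht0, hr⟩ := H85.PSLClass.exists_irred (F := F) (by omega)
    refine ⟨H85.PSLClass.pr (H45.SL2.mk2 0 (-1) 1 t (by ring)), ?_⟩
    refine (key _ ?_ ?_).trans ?_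
    · rw [tr0]; exact H85.PSLClass.sq_ne_of_r hr
    · rw [tr0]; exact ht0
    · rw [tr0, hr, n0]
  have ex4 : ∃ g : H85.PSLClass.PSL F, (Subgroup.centralizer ({g} : Set (H85.PSLClass.PSL F))).index =
      Fintype.card F * (Fintype.card F + 1) := by
    obtain ⟨t, ht0, ht4, hr⟩ := H85.PSLClass.exists_split (F := F) h7
    refine ⟨H85.PSLClass.pr (H45.SL2.mk2 0 (-1) 1 t (by ring)), ?_⟩
    refine (key _ ?_ ?_).trans ?_
    · rw [tr0]; exact ht4
    · rw [tr0]; exact ht0
    · rw [tr0, hr, n1]
  -- the dichotomy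
  have dich : ∀ g : H85.PSLClass.PSL F, (Subgroup.centralizer ({g} : Set (H85.PSLClass.PSL F))).index = 1 ∨
      (Subgroup.centralizer ({g} : Set (H85.PSLClass.PSL F))).index = (Fintype.card F ^ 2 - 1) / 2 ∨
      (Subgroup.centralizer ({g} : Set (H85.PSLClass.PSL F))).index = Fintype.card F * (Fintype.card F - 1) ∨
      (Subgroup.centralizer ({g} : Set (H85.PSLClass.PSL F))).index = Fintype.card F * (Fintype.card F + 1) ∨
      2 * (Subgroup.centralizer ({g} : Set (H85.PSLClass.PSL F))).index =
        Fintype.card F * (Fintype.card F - 1) + Fintype.card F * H85.PSLClass.r (0 : F) := by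
    intro g
    obtain ⟨A, rfl⟩ := QuotientGroup.mk_surjective g
    change (Subgroup.centralizer ({H85.PSLClass.pr A} : Set (H85.PSLClass.PSL F))).index = 1 ∨
      (Subgroup.centralizer ({H85.PSLClass.pr A} : Set (H85.PSLClass.PSL F))).index = _ ∨
      (Subgroup.centralizer ({H85.PSLClass.pr A} : Set (H85.PSLClass.PSL F))).index = _ ∨
      (Subgroup.centralizer ({H85.PSLClass.pr A} : Set (H85.PSLClass.PSL F))).index = _ ∨
      2 * (Subgroup.centralizer ({H85.PSLClass.pr A} : Set (H85.PSLClass.PSL F))).index = _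
    by_cases hA : H85.PSLClass.pr A = 1
    · left; rw [hA]; exact one
    by_cases ht : (H45.SL2.tr A)^2 = 4
    · right; left; exact unip A hA ht
    by_cases h0 : H45.SL2.tr A = 0
    · right; right; right; right; exact key0 A h0
    · rw [key A ht h0]
      rcases H85.PSLClass.r_cases ht with h | h <;> rw [h]
      · right; right; left; exact n0
      · right; right; right; left; exact n1
  have ex5 : ∃ g : H85.PSLClass.PSL F, 2 * (Subgroup.centralizer ({g} : Set (H85.PSLClass.PSL F))).index =
      Fintype.card F * (Fintype.card F - 1) + Fintype.card F * H85.PSLClass.r (0 : F) :=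
    ⟨H85.PSLClass.pr (H45.SL2.mk2 0 (-1) 1 0 (by ring)), key0 _ (tr0 0)⟩
  constructor
  · intro h1
    have hr : H85.PSLClass.r (0:F) = 2 := by
      have h3 : IsSquare (-1 : F) := FiniteField.isSquare_neg_one_iff.2 (by omega)
      obtain ⟨a, ha⟩ := h3
      exact H85.PSLClass.r_eq_two h40 (a := a) (by linear_combination -ha)
    rw [hr, n1] at ex5 dich
    have hdiv : ∀ x : ℕ, 2 * x = Fintype.card F * (Fintype.card F + 1) ↔
        x = Fintype.card F * (Fintype.card F + 1) / 2 := by
      intro x
      have : Fintype.card F * (Fintype.card F + 1) = 2 * ((2*m+1)*(m+1)) := by rw [hm]; ring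
      rw [this]; omega
    simp only [hdiv] at ex5 dich
    ext n
    simp only [Set.mem_range, Set.mem_insert_iff, Set.mem_singleton_iff]
    constructor
    · rintro ⟨g, rfl⟩
      have := dich g
      tauto
    · rintro (rfl | rfl | rfl | rfl | rfl)
      · exact ex1
      · exact ex2
      · exact ex5
      · exact ex3
      · exact ex4
  · intro h1
    have hr : H85.PSLClass.r (0:F) = 0 := by
      apply H85.PSLClass.r_eq_zero
      intro a ha
      have h3 : IsSquare (-1 : F) := ⟨a, by linear_combination -ha⟩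
      rw [FiniteField.isSquare_neg_one_iff] at h3
      exact h3 h1
    rw [hr, n0] at ex5 dich
    have hdiv : ∀ x : ℕ, 2 * x = Fintype.card F * (Fintype.card F - 1) ↔
        x = Fintype.card F * (Fintype.card F - 1) / 2 := by
      intro x
      have : Fintype.card F * (Fintype.card F - 1) = 2 * ((2*m+1)*m) := by
        rw [hm, Nat.add_sub_cancel]; ring
      rw [this]; omega
    simp only [hdiv] at ex5 dich
    ext n
    simp only [Set.mem_range, Set.mem_insert_iff, Set.mem_singleton_iff]
    constructor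
    · rintro ⟨g, rfl⟩
      have := dich g
      tauto
    · rintro (rfl | rfl | rfl | rfl | rfl)
      · exact ex1
      · exact ex2
      · exact ex5
      · exact ex4
      · exact ex3

end Cfsg.Agent.S2508
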