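import Cfsg.Statements.S2510
import Cfsg.Agent.Lib.H46.ProjOrder
import Cfsg.Agent.Lib.H46.ExtElt
import Cfsg.Agent.Lib.H46.Orders
import Cfsg.Agent.Lib.H46.Decomp
import Cfsg.Agent.Lib.H46.ProdUnit
import Cfsg.Agent.Lib.H46.Unip

set_option autoImplicit false
open Cfsg

namespace Cfsg.Agent.S2510

open Module Polynomial H46.ProjOrder H46.ExtElt H46.Orders H46.Decomp H46.ProdUnit H46.Unip

/-- projective orders of norm-one elements of an extension -/
def ST (F K : Type*) [Field F] [Field K] [Algebra F K] : Set ℕ :=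
  {t | ∃ β : Kˣ, Algebra.norm F (β : K) = 1 ∧ projOrder F β = t}

theorem ST_lcm {F K : Type*} [Field F] [Field K] [Finite K] [Algebra F K] {s t : ℕ} (hs : s ∈ ST F K) (ht : t ∈ ST F K) :
    Nat.lcm s t ∈ ST F K := by
  obtain ⟨x, hx, rfl⟩ := hs
  obtain ⟨y, hy, rfl⟩ := ht
  have h := Commute.orderOf_mul_pow_eq_lcm (x := (QuotientGroup.mk x : Kˣ ⧸ scalars F K)) (y := (QuotientGroup.mk y : Kˣ ⧸ scalars F K))
    ((Commute.all x y).map (QuotientGroup.mk' (scalars F K))) (orderOf_pos _).ne' (orderOf_pos _).ne'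
  rw [← QuotientGroup.mk_pow, ← QuotientGroup.mk_pow, ← QuotientGroup.mk_mul] at h
  refine ⟨_, ?_, h⟩
  rw [Units.val_mul, map_mul, Units.val_pow_eq_pow_val, Units.val_pow_eq_pow_val, map_pow, map_pow, hx, hy,
    one_pow, one_pow, one_mul]

theorem ST_sub {F K : Type*} [Field F] [Finite F] [Field K] [Algebra F K] {n : ℕ} (hn : 0 < n) (hK : finrank F K = n) :
    ST F K ⊆ Set.range (orderOf : Matrix.ProjectiveSpecialLinearGroup (Fin n) F → ℕ) := by
  rintro _ ⟨β, hβ, rfl⟩
  rw [mem_orders_iff_end (F := F) hn K hK]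
  refine ⟨Units.map (Algebra.lmul F K : K →* Module.End F K) β, ?_, ?_⟩
  · rw [← hβ, Algebra.norm_apply]
    rfl
  · exact projOrder_map (Algebra.lmul F K) Algebra.lmul_injective β

theorem dichotomy {F : Type*} [Field F] [Finite F] (p : ℕ) [Fact p.Prime] [CharP F p] {n : ℕ} (hn : 0 < n)
    (K : Type*) [Field K] [Finite K] [Algebra F K] (hK : finrank F K = n)
    (r : ℕ) (hr : r.Prime) (hrq : r ∣ Nat.card F - 1) (hrn : ¬ r ∣ n)
    (x : Matrix.ProjectiveSpecialLinearGroup (Fin n) F) (hx : ¬ r ∣ orderOf x) :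
    (r * orderOf x ∈ Set.range (orderOf : Matrix.ProjectiveSpecialLinearGroup (Fin n) F → ℕ)) ∨
      orderOf x / p ^ (orderOf x).factorization p ∈ ST F K := by
  have hp : p.Prime := Fact.out
  have hmem : orderOf x ∈ Set.range (orderOf : Matrix.ProjectiveSpecialLinearGroup (Fin n) F → ℕ) := ⟨x, rfl⟩
  rw [mem_orders_iff_end (F := F) hn (Fin n → F) (by simp)] at hmem
  obtain ⟨u, hu, hux⟩ := hmem
  have hnt : Nontrivial (Fin n → F) := Module.nontrivial_of_finrank_pos (R := F) (by simp; omega)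
  have hNpos : 0 < orderOf x := orderOf_pos x
  set N := orderOf x with hN
  set e := N.factorization p with he
  set t := N / p ^ e with ht
  set s := u ^ p ^ e with hs
  have hpe : p ^ e ∣ N := Nat.ordProj_dvd N p
  have hst : projOrder F s = t := by
    unfold projOrder
    rw [hs, QuotientGroup.mk_pow, orderOf_pow_of_dvd (pow_pos hp.pos e).ne']
    · change projOrder F u / p ^ e = t
      rw [hux]
    · change p ^ e ∣ projOrder F u
      rw [hux]
      exact hpe
  have htp : ¬ p ∣ t := Nat.not_dvd_ordCompl hp hNpos.ne'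
  have htF : (t : F) ≠ 0 := by
    rw [Ne, CharP.cast_eq_zero_iff F p]
    exact htp
  obtain ⟨c, hc⟩ := (projOrder_dvd_iff s t).mp (by rw [hst])
  have hc0 : c ≠ 0 := by
    rintro rfl
    rw [map_zero, ← Units.val_pow_eq_pow_val] at hc
    exact (s ^ t).ne_zero hc
  have hP : Squarefree (X ^ t - C c : F[X]) := (separable_X_pow_sub_C c htF hc0).squarefree
  rcases decomp_or_irreducible (s : Module.End F (Fin n → F)) (X ^ t - C c) hP (by simp [hc]) with h | h
  · left
    obtain ⟨W₁, W₂, hW, h₁, h₂, hinv⟩ := h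
    have hcomm : Commute (u : Module.End F (Fin n → F)) (s : Module.End F (Fin n → F)) := by
      rw [hs, Units.val_pow_eq_pow_val]
      exact Commute.self_pow _ _
    obtain ⟨hi₁, hi₂⟩ := hinv _ hcomm
    obtain ⟨u₁, u₂, hdet, hconj⟩ := exists_prodUnit u W₁ W₂ hW hi₁ hi₂
    have hpo := projOrder_eq_of_conj (Submodule.prodEquivOfIsCompl W₁ W₂ hW) u (prodUnit u₁ u₂) hconj
    have hnt₁ : Nontrivial W₁ := Submodule.nontrivial_iff_ne_bot.mpr h₁
    have hnt₂ : Nontrivial W₂ := Submodule.nontrivial_iff_ne_bot.mpr h₂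
    have := mul_prime_mem u₁ u₂ (by rw [← hdet, hu]) r hr hrq n
      (by rw [Submodule.finrank_add_eq_of_isCompl hW]; simp) hrn (by rw [← hpo, hux]; exact hx)
    rwa [← hpo, hux] at this
  · right
    obtain ⟨β, hβ₁, hβ₂⟩ := exists_ext_elt (s : Module.End F (Fin n → F)) h K (by rw [hK]; simp)
    have hdets : LinearMap.det (s : Module.End F (Fin n → F)) = 1 := by
      rw [hs, Units.val_pow_eq_pow_val, map_pow, hu, one_pow]
    have hβ0 : β ≠ 0 := by
      rintro rfl
      rw [hdets] at hβ₁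
      have hfin : Module.Finite F K := Module.finite_of_finrank_pos (by omega)
      rw [Algebra.norm_zero] at hβ₁
      exact zero_ne_one hβ₁
    refine ⟨Units.mk0 β hβ0, ?_, ?_⟩
    · simp only [Units.val_mk0]
      rw [hβ₁, hdets]
    · rw [eq_comm, ← hst, eq_projOrder_iff]
      intro k
      rw [projOrder_dvd_iff]
      have key : ∀ c : F, (β ^ k = algebraMap F K c ↔ (s : Module.End F (Fin n → F)) ^ k = algebraMap F _ c) := by
        intro c
        have h1 : β ^ k = algebraMap F K c ↔ aeval β (X ^ k - C c : F[X]) = 0 := by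
          simp [sub_eq_zero]
        have h2 : (s : Module.End F (Fin n → F)) ^ k = algebraMap F _ c ↔ aeval (s : Module.End F (Fin n → F)) (X ^ k - C c : F[X]) = 0 := by
          simp [sub_eq_zero]
        rw [h1, h2, ← minpoly.dvd_iff, ← minpoly.dvd_iff, hβ₂]
      constructor
      · rintro ⟨c, hc⟩
        exact ⟨c, (key c).mp hc⟩
      · rintro ⟨c, hc⟩
        exact ⟨c, (key c).mpr hc⟩

theorem pow_lt {F : Type*} [Field F] [Finite F] (p : ℕ) [Fact p.Prime] [CharP F p] {n : ℕ} (hn : 0 < n) (e : ℕ)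
    (h : p ^ (e + 1) ∈ Set.range (orderOf : Matrix.ProjectiveSpecialLinearGroup (Fin n) F → ℕ)) : p ^ e < n := by
  have hnt : Nontrivial (Fin n → F) := Module.nontrivial_of_finrank_pos (R := F) (by simp; omega)
  rw [mem_orders_iff_end (F := F) hn (Fin n → F) (by simp)] at h
  obtain ⟨u, hu, hux⟩ := h
  simpa using lt_finrank_of_projOrder p u e hux

/-- the projective order of a block sum with an identity block is the order -/
theorem projOrder_prod_one {F : Type*} [Field F] {V₁ V₂ : Type*} [AddCommGroup V₁] [Module F V₁] [AddCommGroup V₂]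
    [Module F V₂] [Nontrivial V₁] [Nontrivial V₂] (u : (Module.End F V₁)ˣ) :
    projOrder F (prodUnit u (1 : (Module.End F V₂)ˣ)) = orderOf u := by
  rw [eq_comm, eq_projOrder_iff]
  intro k
  rw [orderOf_dvd_iff_pow_eq_one, ← Units.val_pow_eq_pow_val, prodUnit_pow, one_pow]
  constructor
  · rintro ⟨c, hc⟩
    obtain ⟨v₂, hv₂⟩ := exists_ne (0 : V₂)
    have h1 : ∀ v₁ : V₁, ((u ^ k : (Module.End F V₁)ˣ) : Module.End F V₁) v₁ = c • v₁ ∧ v₂ = c • v₂ := by
      intro v₁
      have h1 := congrArg (fun f : Module.End F (V₁ × V₂) => f (v₁, v₂)) hc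
      simpa [prodUnit_apply] using h1
    have h2 : (1 : F) = c := by
      have h3 := (h1 0).2
      apply smul_left_injective F hv₂
      simpa using h3
    ext v
    rw [(h1 v).1, ← h2]
    simp
  · intro h
    refine ⟨1, ?_⟩
    rw [h, map_one, prodUnit_val]
    exact LinearMap.prodMap_one

theorem exists_mul_pow {F : Type*} [Field F] [Finite F] (p : ℕ) [Fact p.Prime] [CharP F p] {n : ℕ} (hn : 2 ≤ n)
    (r : ℕ) (hr : r.Prime) (hrq : r ∣ Nat.card F - 1) (hrp : r ≠ p) (hrn : ¬ r ∣ n) (e : ℕ) (he : e = 0 ∨ p ^ (e - 1) < n - 1) :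
    r * p ^ e ∈ Set.range (orderOf : Matrix.ProjectiveSpecialLinearGroup (Fin n) F → ℕ) := by
  have hp : p.Prime := Fact.out
  obtain ⟨A, _, _, u, E, hA, hdet, hord, heE⟩ := exists_unipotent (F := F) p (n - 1) e (by omega) he
  have hfin : Module.Finite F A := Module.finite_of_finrank_pos (by omega)
  have hnt : Nontrivial A := Module.nontrivial_of_finrank_pos (R := F) (by omega)
  have hpo : projOrder F (prodUnit u (1 : (Module.End F F)ˣ)) = p ^ E := by
    rw [projOrder_prod_one, hord]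
  have := mul_prime_mem u (1 : (Module.End F F)ˣ) (by rw [hdet]; simp) r hr hrq n
    (by rw [hA, finrank_self]; omega) hrn (by
      rw [hpo]
      intro h
      exact hrp ((Nat.prime_dvd_prime_iff_eq hr hp).mp (hr.dvd_of_dvd_pow h)))
  rw [hpo] at this
  exact mem_of_dvd this (mul_dvd_mul_left r (Nat.pow_dvd_pow p heE))

theorem orderOf_Z (r m : ℕ) (hr : r.Prime) (z : Multiplicative (Fin m → ZMod r)) : orderOf z = 1 ∨ orderOf z = r := by
  rw [← Nat.dvd_prime hr]
  apply orderOf_dvd_of_pow_eq_one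
  apply Multiplicative.toAdd.injective
  rw [toAdd_pow]
  funext i
  simp

theorem lcm_dvd_lcm' {a b c d : ℕ} (h1 : a ∣ c) (h2 : b ∣ d) : Nat.lcm a b ∣ Nat.lcm c d :=
  Nat.lcm_dvd (h1.trans (Nat.dvd_lcm_left _ _)) (h2.trans (Nat.dvd_lcm_right _ _))

theorem result {F : Type*} [Field F] [Fintype F] (p a n r m : ℕ) (hp : p.Prime) (ha : 1 ≤ a) (hF : Fintype.card F = p ^ a)
    (hn : 2 ≤ n) (hn2 : n = 2 → 4 ≤ Fintype.card F) (hr : r.Prime) (hrq : r ∣ Fintype.card F - 1) (hrn : ¬ r ∣ n) :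
    Set.range (orderOf : Matrix.ProjectiveSpecialLinearGroup (Fin n) F × Matrix.ProjectiveSpecialLinearGroup (Fin n) F × Matrix.ProjectiveSpecialLinearGroup (Fin n) F × Multiplicative (Fin m → ZMod r) → ℕ) =
      Set.range (orderOf : Matrix.ProjectiveSpecialLinearGroup (Fin n) F × Matrix.ProjectiveSpecialLinearGroup (Fin n) F × Matrix.ProjectiveSpecialLinearGroup (Fin n) F → ℕ) ∧
    ((¬ ∃ j : ℕ, n - 1 = p ^ j) →
      Set.range (orderOf : Matrix.ProjectiveSpecialLinearGroup (Fin n) F × Matrix.ProjectiveSpecialLinearGroup (Fin n) F × Multiplicative (Fin m → ZMod r) → ℕ) =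
        Set.range (orderOf : Matrix.ProjectiveSpecialLinearGroup (Fin n) F × Matrix.ProjectiveSpecialLinearGroup (Fin n) F → ℕ)) := by
  have hpf : Fact p.Prime := ⟨hp⟩
  have hchar : CharP F p := by
    obtain ⟨p', hp'⟩ := CharP.exists F
    obtain ⟨k, hk1, hk2⟩ := FiniteField.card F p'
    rw [hF] at hk2
    have : p' ∣ p ^ a := by rw [hk2]; exact dvd_pow_self p' k.ne_zero
    have h3 := (Nat.prime_dvd_prime_iff_eq hk1 hp).mp (hk1.dvd_of_dvd_pow this)
    rwa [h3] at hp'
  have hrp : r ≠ p := by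
    rintro rfl
    rw [hF] at hrq
    have h1 : r ∣ r ^ a := dvd_pow_self r (by omega)
    have h2 : 1 ≤ r ^ a := Nat.one_le_pow _ _ hr.pos
    have h3 : r ∣ 1 := by
      have := (Nat.dvd_sub h1 hrq)
      rwa [Nat.sub_sub_self h2] at this
    exact hr.one_lt.ne' (Nat.dvd_one.mp h3)
  rw [← Nat.card_eq_fintype_card] at hrq
  obtain ⟨K, _, _, _, hK, -⟩ := exists_field_ext F n (by omega)
  have hn0 : 0 < n := by omega
  set L := Matrix.ProjectiveSpecialLinearGroup (Fin n) F with hL
  have dich : ∀ x : L, ¬ r ∣ orderOf x → (∃ y : L, orderOf y = r * orderOf x) ∨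
      orderOf x / p ^ (orderOf x).factorization p ∈ ST F K :=
    fun x hx => dichotomy p hn0 K hK r hr hrq hrn x hx
  have ppart : ∀ x : L, ∃ y : L, orderOf y = p ^ (orderOf x).factorization p :=
    fun x => mem_of_dvd ⟨x, rfl⟩ (Nat.ordProj_dvd _ p)
  have hr1 : ∃ y : L, orderOf y = r := by
    obtain ⟨y, hy⟩ := exists_mul_pow (F := F) p hn r hr hrq hrp hrn 0 (Or.inl rfl)
    exact ⟨y, by rw [hy]; simp⟩
  have hSTL : ∀ t ∈ ST F K, ∃ y : L, orderOf y = t := fun t ht => ST_sub (F := F) hn0 hK ht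
  constructor
  · apply Set.Subset.antisymm
    · rintro _ ⟨⟨x₁, x₂, x₃, z⟩, rfl⟩
      simp only [Prod.orderOf]
      have easy : orderOf z ∣ Nat.lcm (orderOf x₁) (Nat.lcm (orderOf x₂) (orderOf x₃)) →
          (orderOf x₁).lcm ((orderOf x₂).lcm ((orderOf x₃).lcm (orderOf z))) ∈ Set.range (orderOf : L × L × L → ℕ) := by
        intro h
        refine ⟨(x₁, x₂, x₃), ?_⟩
        simp only [Prod.orderOf]
        apply Nat.dvd_antisymm
        · exact lcm_dvd_lcm' dvd_rfl (lcm_dvd_lcm' dvd_rfl (Nat.dvd_lcm_left _ _))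
        · refine Nat.lcm_dvd (Nat.dvd_lcm_left _ _) (Nat.lcm_dvd ?_ (Nat.lcm_dvd ?_ h))
          · exact (Nat.dvd_lcm_left _ _).trans (Nat.dvd_lcm_right _ _)
          · exact (Nat.dvd_lcm_right _ _).trans (Nat.dvd_lcm_right _ _)
      rcases orderOf_Z r m hr z with hz | hz
      · exact easy (by rw [hz]; exact one_dvd _)
      by_cases h₁ : r ∣ orderOf x₁
      · exact easy (by rw [hz]; exact h₁.trans (Nat.dvd_lcm_left _ _))
      by_cases h₂ : r ∣ orderOf x₂
      · exact easy (by rw [hz]; exact (h₂.trans (Nat.dvd_lcm_left _ _)).trans (Nat.dvd_lcm_right _ _))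
      by_cases h₃ : r ∣ orderOf x₃
      · exact easy (by rw [hz]; exact (h₃.trans (Nat.dvd_lcm_right _ _)).trans (Nat.dvd_lcm_right _ _))
      rw [hz]
      rcases dich x₁ h₁ with ⟨y, hy⟩ | t₁
      · refine ⟨(y, x₂, x₃), ?_⟩
        simp only [Prod.orderOf, hy]
        have hlcm : r * orderOf x₁ = Nat.lcm (orderOf x₁) r := by
          rw [Nat.Coprime.lcm_eq_mul, mul_comm]
          exact (Nat.coprime_comm.mp ((Nat.Prime.coprime_iff_not_dvd hr).mpr h₁))
        rw [hlcm, Nat.lcm_assoc, Nat.lcm_comm r, Nat.lcm_assoc]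
      rcases dich x₂ h₂ with ⟨y, hy⟩ | t₂
      · refine ⟨(x₁, y, x₃), ?_⟩
        simp only [Prod.orderOf, hy]
        have hlcm : r * orderOf x₂ = Nat.lcm (orderOf x₂) r := by
          rw [Nat.Coprime.lcm_eq_mul, mul_comm]
          exact (Nat.coprime_comm.mp ((Nat.Prime.coprime_iff_not_dvd hr).mpr h₂))
        rw [hlcm, Nat.lcm_assoc (orderOf x₂), Nat.lcm_comm r]
      rcases dich x₃ h₃ with ⟨y, hy⟩ | t₃
      · refine ⟨(x₁, x₂, y), ?_⟩
        simp only [Prod.orderOf, hy]
        have hlcm : r * orderOf x₃ = Nat.lcm (orderOf x₃) r := by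
          rw [Nat.Coprime.lcm_eq_mul, mul_comm]
          exact (Nat.coprime_comm.mp ((Nat.Prime.coprime_iff_not_dvd hr).mpr h₃))
        rw [hlcm]
      obtain ⟨y₁, hy₁⟩ := hSTL _ (ST_lcm t₁ (ST_lcm t₂ t₃))
      obtain ⟨y₃, hy₃⟩ := hr1
      -- the largest p-part
      have hy₂ : ∃ y₂ : L, (∀ x ∈ ({orderOf x₁, orderOf x₂, orderOf x₃} : Set ℕ), p ^ x.factorization p ∣ orderOf y₂) ∧
          orderOf y₂ ∣ Nat.lcm (orderOf x₁) (Nat.lcm (orderOf x₂) (orderOf x₃)) := by
        have hmax : ∃ x : L, (x = x₁ ∨ x = x₂ ∨ x = x₃) ∧ (orderOf x₁).factorization p ≤ (orderOf x).factorization p ∧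
            (orderOf x₂).factorization p ≤ (orderOf x).factorization p ∧
            (orderOf x₃).factorization p ≤ (orderOf x).factorization p := by
          rcases le_total ((orderOf x₁).factorization p) ((orderOf x₂).factorization p) with h | h <;>
          rcases le_total ((orderOf x₂).factorization p) ((orderOf x₃).factorization p) with h' | h' <;>
          rcases le_total ((orderOf x₁).factorization p) ((orderOf x₃).factorization p) with h'' | h''
          all_goals first
            | exact ⟨x₁, Or.inl rfl, by omega, by omega, by omega⟩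
            | exact ⟨x₂, Or.inr (Or.inl rfl), by omega, by omega, by omega⟩
            | exact ⟨x₃, Or.inr (Or.inr rfl), by omega, by omega, by omega⟩
        obtain ⟨x, hx, hx1, hx2, hx3⟩ := hmax
        obtain ⟨y, hy⟩ := ppart x
        refine ⟨y, ?_, ?_⟩
        · intro w hw
          rw [hy]
          simp only [Set.mem_insert_iff, Set.mem_singleton_iff] at hw
          rcases hw with rfl | rfl | rfl
          · exact Nat.pow_dvd_pow p hx1
          · exact Nat.pow_dvd_pow p hx2
          · exact Nat.pow_dvd_pow p hx3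
        · rw [hy]
          refine (Nat.ordProj_dvd _ p).trans ?_
          rcases hx with rfl | rfl | rfl
          · exact Nat.dvd_lcm_left _ _
          · exact (Nat.dvd_lcm_left _ _).trans (Nat.dvd_lcm_right _ _)
          · exact (Nat.dvd_lcm_right _ _).trans (Nat.dvd_lcm_right _ _)
      obtain ⟨y₂, hy₂a, hy₂b⟩ := hy₂
      refine ⟨(y₁, y₂, y₃), ?_⟩
      simp only [Prod.orderOf]
      have hdvd1 : orderOf y₁ ∣ Nat.lcm (orderOf x₁) (Nat.lcm (orderOf x₂) (orderOf x₃)) := by
        rw [hy₁]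
        exact lcm_dvd_lcm' (Nat.ordCompl_dvd _ p) (lcm_dvd_lcm' (Nat.ordCompl_dvd _ p) (Nat.ordCompl_dvd _ p))
      have hassoc : (orderOf x₁).lcm ((orderOf x₂).lcm ((orderOf x₃).lcm r)) =
          Nat.lcm (Nat.lcm (orderOf x₁) (Nat.lcm (orderOf x₂) (orderOf x₃))) r := by
        rw [Nat.lcm_assoc, Nat.lcm_assoc]
      rw [hassoc]
      have hxdvd : ∀ x : L, orderOf x ∈ ({orderOf x₁, orderOf x₂, orderOf x₃} : Set ℕ) →
          orderOf x ∣ (orderOf y₁).lcm ((orderOf y₂).lcm (orderOf y₃)) := by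
        intro x hx
        have h1 : orderOf x / p ^ (orderOf x).factorization p ∣ orderOf y₁ := by
          rw [hy₁]
          simp only [Set.mem_insert_iff, Set.mem_singleton_iff] at hx
          rcases hx with h | h | h <;> rw [h]
          · exact Nat.dvd_lcm_left _ _
          · exact (Nat.dvd_lcm_left _ _).trans (Nat.dvd_lcm_right _ _)
          · exact (Nat.dvd_lcm_right _ _).trans (Nat.dvd_lcm_right _ _)
        have h2 := hy₂a _ hx
        have h3 : orderOf x = p ^ (orderOf x).factorization p * (orderOf x / p ^ (orderOf x).factorization p) :=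
          (Nat.ordProj_mul_ordCompl_eq_self _ p).symm
        rw [h3]
        apply Nat.Coprime.mul_dvd_of_dvd_of_dvd
        · exact Nat.Coprime.pow_left _ (Nat.coprime_ordCompl hp (orderOf_pos x).ne')
        · exact (h2.trans (Nat.dvd_lcm_left _ _)).trans (Nat.dvd_lcm_right _ _)
        · exact h1.trans (Nat.dvd_lcm_left _ _)
      apply Nat.dvd_antisymm
      · refine Nat.lcm_dvd (hdvd1.trans (Nat.dvd_lcm_left _ _)) (Nat.lcm_dvd (hy₂b.trans (Nat.dvd_lcm_left _ _)) ?_)
        rw [hy₃]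
        exact Nat.dvd_lcm_right _ _
      · refine Nat.lcm_dvd (Nat.lcm_dvd (hxdvd x₁ (by simp)) (Nat.lcm_dvd (hxdvd x₂ (by simp)) (hxdvd x₃ (by simp)))) ?_
        rw [hy₃]
        exact (Nat.dvd_lcm_right _ _).trans (Nat.dvd_lcm_right _ _)
    · rintro _ ⟨⟨x₁, x₂, x₃⟩, rfl⟩
      refine ⟨(x₁, x₂, x₃, 1), ?_⟩
      simp only [Prod.orderOf, orderOf_one, Nat.lcm_one_right]
  · intro hj
    apply Set.Subset.antisymm
    · rintro _ ⟨⟨x₁, x₂, z⟩, rfl⟩
      simp only [Prod.orderOf]
      have easy : orderOf z ∣ Nat.lcm (orderOf x₁) (orderOf x₂) →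
          (orderOf x₁).lcm ((orderOf x₂).lcm (orderOf z)) ∈ Set.range (orderOf : L × L → ℕ) := by
        intro h
        refine ⟨(x₁, x₂), ?_⟩
        simp only [Prod.orderOf]
        apply Nat.dvd_antisymm
        · exact lcm_dvd_lcm' dvd_rfl (Nat.dvd_lcm_left _ _)
        · exact Nat.lcm_dvd (Nat.dvd_lcm_left _ _) (Nat.lcm_dvd (Nat.dvd_lcm_right _ _) h)
      rcases orderOf_Z r m hr z with hz | hz
      · exact easy (by rw [hz]; exact one_dvd _)
      by_cases h₁ : r ∣ orderOf x₁
      · exact easy (by rw [hz]; exact h₁.trans (Nat.dvd_lcm_left _ _))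
      by_cases h₂ : r ∣ orderOf x₂
      · exact easy (by rw [hz]; exact h₂.trans (Nat.dvd_lcm_right _ _))
      rw [hz]
      rcases dich x₁ h₁ with ⟨y, hy⟩ | t₁
      · refine ⟨(y, x₂), ?_⟩
        simp only [Prod.orderOf, hy]
        have hlcm : r * orderOf x₁ = Nat.lcm (orderOf x₁) r := by
          rw [Nat.Coprime.lcm_eq_mul, mul_comm]
          exact (Nat.coprime_comm.mp ((Nat.Prime.coprime_iff_not_dvd hr).mpr h₁))
        rw [hlcm, Nat.lcm_assoc, Nat.lcm_comm r]
      rcases dich x₂ h₂ with ⟨y, hy⟩ | t₂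
      · refine ⟨(x₁, y), ?_⟩
        simp only [Prod.orderOf, hy]
        have hlcm : r * orderOf x₂ = Nat.lcm (orderOf x₂) r := by
          rw [Nat.Coprime.lcm_eq_mul, mul_comm]
          exact (Nat.coprime_comm.mp ((Nat.Prime.coprime_iff_not_dvd hr).mpr h₂))
        rw [hlcm]
      obtain ⟨y₁, hy₁⟩ := hSTL _ (ST_lcm t₁ t₂)
      obtain ⟨x, hx, hx1, hx2⟩ : ∃ x : L, (x = x₁ ∨ x = x₂) ∧ (orderOf x₁).factorization p ≤ (orderOf x).factorization p ∧
            (orderOf x₂).factorization p ≤ (orderOf x).factorization p := by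
        rcases le_total ((orderOf x₁).factorization p) ((orderOf x₂).factorization p) with h | h
        · exact ⟨x₂, Or.inr rfl, h, le_rfl⟩
        · exact ⟨x₁, Or.inl rfl, le_rfl, h⟩
      set e := (orderOf x).factorization p with he
      have hcond : e = 0 ∨ p ^ (e - 1) < n - 1 := by
        rcases Nat.eq_zero_or_pos e with h0 | h0
        · exact Or.inl h0
        · right
          have h1 : p ^ (e - 1) < n := by
            apply pow_lt (F := F) p hn0 (e - 1)
            rw [Nat.sub_add_cancel h0]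
            exact ppart x
          have h2 : n - 1 ≠ p ^ (e - 1) := fun h => hj ⟨_, h⟩
          omega
      obtain ⟨y₂, hy₂⟩ := exists_mul_pow (F := F) p hn r hr hrq hrp hrn e hcond
      refine ⟨(y₁, y₂), ?_⟩
      simp only [Prod.orderOf]
      rw [← Nat.lcm_assoc]
      have hxle : ∀ w : L, w = x₁ ∨ w = x₂ → orderOf w ∣ Nat.lcm (orderOf x₁) (orderOf x₂) := by
        rintro w (rfl | rfl)
        · exact Nat.dvd_lcm_left _ _
        · exact Nat.dvd_lcm_right _ _
      have hxdvd : ∀ w : L, w = x₁ ∨ w = x₂ → orderOf w ∣ (orderOf y₁).lcm (orderOf y₂) := by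
        intro w hw
        have h1 : orderOf w / p ^ (orderOf w).factorization p ∣ orderOf y₁ := by
          rw [hy₁]
          rcases hw with rfl | rfl
          · exact Nat.dvd_lcm_left _ _
          · exact Nat.dvd_lcm_right _ _
        have h2 : p ^ (orderOf w).factorization p ∣ orderOf y₂ := by
          rw [hy₂]
          apply Dvd.dvd.mul_left
          rcases hw with rfl | rfl
          · exact Nat.pow_dvd_pow p hx1
          · exact Nat.pow_dvd_pow p hx2
        have h3 : orderOf w = p ^ (orderOf w).factorization p * (orderOf w / p ^ (orderOf w).factorization p) :=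
          (Nat.ordProj_mul_ordCompl_eq_self _ p).symm
        rw [h3]
        apply Nat.Coprime.mul_dvd_of_dvd_of_dvd
        · exact Nat.Coprime.pow_left _ (Nat.coprime_ordCompl hp (orderOf_pos w).ne')
        · exact h2.trans (Nat.dvd_lcm_right _ _)
        · exact h1.trans (Nat.dvd_lcm_left _ _)
      apply Nat.dvd_antisymm
      · apply Nat.lcm_dvd
        · rw [hy₁]
          exact (lcm_dvd_lcm' (Nat.ordCompl_dvd _ p) (Nat.ordCompl_dvd _ p)).trans (Nat.dvd_lcm_left _ _)
        · rw [hy₂]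
          apply Nat.Coprime.mul_dvd_of_dvd_of_dvd
          · exact Nat.Coprime.pow_right _ ((Nat.coprime_primes hr hp).mpr hrp)
          · exact Nat.dvd_lcm_right _ _
          · exact ((Nat.ordProj_dvd _ p).trans (hxle x hx)).trans (Nat.dvd_lcm_left _ _)
      · refine Nat.lcm_dvd (Nat.lcm_dvd (hxdvd x₁ (Or.inl rfl)) (hxdvd x₂ (Or.inr rfl))) ?_
        rw [hy₂]
        exact (Dvd.intro _ rfl : r ∣ r * p ^ e).trans (Nat.dvd_lcm_right _ _)
    · rintro _ ⟨⟨x₁, x₂⟩, rfl⟩
      refine ⟨(x₁, x₂, 1), ?_⟩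
      simp only [Prod.orderOf, orderOf_one, Nat.lcm_one_right]

end Cfsg.Agent.S2510
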