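import Cfsg.Statements.S2511
import Mathlib
import Cfsg.Agent.Lib.H46.UModels
import Cfsg.Agent.Lib.H46.Unip

set_option autoImplicit false
open Cfsg

namespace Cfsg.Agent.S2511

open Module Polynomial H46.ProjOrder H46.ExtElt H46.Orders H46.UNum H46.UDich H46.UModels H46.OrdPSU

theorem orderOf_Z (r m : ℕ) (hr : r.Prime) (z : Multiplicative (Fin m → ZMod r)) : orderOf z = 1 ∨ orderOf z = r := by
  rw [← Nat.dvd_prime hr]
  apply orderOf_dvd_of_pow_eq_one
  apply Multiplicative.toAdd.injective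
  rw [toAdd_pow]
  funext i
  simp

theorem lcm_dvd_lcm' {a b c d : ℕ} (h1 : a ∣ c) (h2 : b ∣ d) : Nat.lcm a b ∣ Nat.lcm c d :=
  Nat.lcm_dvd (h1.trans (Nat.dvd_lcm_left _ _)) (h2.trans (Nat.dvd_lcm_right _ _))

theorem pow_lt {K : Type*} [Field K] [Fintype K] {q : ℕ} (hF : Fintype.card K = q ^ 2) (p : ℕ) [Fact p.Prime] [CharP K p] {n : ℕ} (hn : 2 ≤ n) (e : ℕ)
    (h : p ^ (e + 1) ∈ Set.range (orderOf : Cfsg.PSU n K q → ℕ)) : p ^ e < n := by
  have hne : Nonempty (Fin n) := ⟨⟨0, by omega⟩⟩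
  obtain ⟨x, hx⟩ := h
  obtain ⟨u, hu, -, hux⟩ := exists_isom hF hn x
  simpa using H46.Unip.lt_finrank_of_projOrder p u e (by rw [hux, hx])

/-- Let F be a finite field with q² elements, q = p^a, n ≥ 3 with (n, q) ≠ (3, 2), L = PSU(n, q) realised over F, and let r be a prime dividing q + 1 and not dividing n. Then for every m the direct product L × L × L × (ℤ/r)^m has the same set of element orders as L × L × L; and if n − 1 is not a power of p, then already L × L × (ℤ/r)^m has the same set of element orders as L × L. -/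
theorem result {F : Type*} [Field F] [Fintype F] (p a n q r m : ℕ) (hp : p.Prime) (ha : 1 ≤ a) (hq : q = p ^ a) (hF : Fintype.card F = q ^ 2)
    (hn : 3 ≤ n) (hn3 : ¬ (n = 3 ∧ q = 2)) (hr : r.Prime) (hrq : r ∣ q + 1) (hrn : ¬ r ∣ n) :
    Set.range (orderOf : Cfsg.PSU n F q × Cfsg.PSU n F q × Cfsg.PSU n F q × Multiplicative (Fin m → ZMod r) → ℕ) = Set.range (orderOf : Cfsg.PSU n F q × Cfsg.PSU n F q × Cfsg.PSU n F q → ℕ) ∧
    ((¬ ∃ j : ℕ, n - 1 = p ^ j) →
      Set.range (orderOf : Cfsg.PSU n F q × Cfsg.PSU n F q × Multiplicative (Fin m → ZMod r) → ℕ) = Set.range (orderOf : Cfsg.PSU n F q × Cfsg.PSU n F q → ℕ)) := by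
  have hpf : Fact p.Prime := ⟨hp⟩
  have hchar : CharP F p := by
    obtain ⟨p', hp'⟩ := CharP.exists F
    obtain ⟨k, hk1, hk2⟩ := FiniteField.card F p'
    rw [hF, hq, ← pow_mul] at hk2
    have : p' ∣ p ^ (a * 2) := by rw [hk2]; exact dvd_pow_self p' k.ne_zero
    have h3 := (Nat.prime_dvd_prime_iff_eq hk1 hp).mp (hk1.dvd_of_dvd_pow this)
    rwa [h3] at hp'
  have hrp : r ≠ p := by
    rintro rfl
    have h1 : r ∣ q := by rw [hq]; exact dvd_pow_self r (by omega)
    have h3 := (Nat.dvd_add_right h1).mp hrq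
    exact hr.one_lt.ne' (Nat.dvd_one.mp h3)
  have hn0 : 2 ≤ n := by omega
  obtain ⟨s₀, hs₀⟩ : ∃ s₀, s₀ = MM q n / Nat.gcd n (q + 1) := ⟨_, rfl⟩
  have hs₀mem : s₀ ∈ Set.range (orderOf : Cfsg.PSU n F q → ℕ) := hs₀ ▸ torus_mem hF hn0
  set L := Cfsg.PSU n F q with hL
  have dich : ∀ x : L, ¬ r ∣ orderOf x → (∃ y : L, orderOf y = r * orderOf x) ∨
      orderOf x / p ^ (orderOf x).factorization p ∣ s₀ :=
    fun x hx => hs₀ ▸ dichotomy hF p hn0 r hr hrq hrn x hx
  have ppart : ∀ x : L, ∃ y : L, orderOf y = p ^ (orderOf x).factorization p :=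
    fun x => mem_of_dvd ⟨x, rfl⟩ (Nat.ordProj_dvd _ p)
  have hr1 : ∃ y : L, orderOf y = r := by
    obtain ⟨y, hy⟩ := exists_mul_pow (q := q) hF p hn0 r hr hrq hrp hrn 0 (Or.inl rfl)
    exact ⟨y, by rw [hy]; simp⟩
  have hSTL : ∀ t, t ∣ s₀ → ∃ y : L, orderOf y = t := fun t ht => mem_of_dvd hs₀mem ht
  constructor
  · apply Set.Subset.antisymm
    · rintro _ ⟨⟨x₁, x₂, x₃, z⟩, rfl⟩
      simp only [Prod.orderOf]
      have easy : orderOf z ∣ Nat.lcm (orderOf x₁) (Nat.lcm (orderOf x₂) (orderOf x₃)) →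
          (orderOf x₁).lcm ((orderOf x₂).lcm ((orderOf x₃).lcm (orderOf z))) ∈ Set.range (orderOf : L × L × L → ℕ) := by
        intro h
        refine ⟨(x₁, x₂, x₃), ?_⟩
        simp only [Prod.orderOf]
        apply Nat.dvd_antisymm
        · exact lcm_dvd_lcm' dvd_rfl (lcm_dvd_lcm' dvd_rfl (Nat.dvd_lcm_left _ _))
        · refine Nat.lcm_dvd (Nat.dvd_lcm_left _ _) (Nat.lcm_dvd ?_ (Nat.lcm_dvd ?_ h))
          · exact (Nat.dvd_lcm_left _ _).trans (Nat.dvd_lcm_right _ _)
          · exact (Nat.dvd_lcm_right _ _).trans (Nat.dvd_lcm_right _ _)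
      rcases orderOf_Z r m hr z with hz | hz
      · exact easy (by rw [hz]; exact one_dvd _)
      by_cases h₁ : r ∣ orderOf x₁
      · exact easy (by rw [hz]; exact h₁.trans (Nat.dvd_lcm_left _ _))
      by_cases h₂ : r ∣ orderOf x₂
      · exact easy (by rw [hz]; exact (h₂.trans (Nat.dvd_lcm_left _ _)).trans (Nat.dvd_lcm_right _ _))
      by_cases h₃ : r ∣ orderOf x₃
      · exact easy (by rw [hz]; exact (h₃.trans (Nat.dvd_lcm_right _ _)).trans (Nat.dvd_lcm_right _ _))
      rw [hz]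
      rcases dich x₁ h₁ with ⟨y, hy⟩ | t₁
      · refine ⟨(y, x₂, x₃), ?_⟩
        simp only [Prod.orderOf, hy]
        have hlcm : r * orderOf x₁ = Nat.lcm (orderOf x₁) r := by
          rw [Nat.Coprime.lcm_eq_mul, mul_comm]
          exact (Nat.coprime_comm.mp ((Nat.Prime.coprime_iff_not_dvd hr).mpr h₁))
        rw [hlcm, Nat.lcm_assoc, Nat.lcm_comm r, Nat.lcm_assoc]
      rcases dich x₂ h₂ with ⟨y, hy⟩ | t₂
      · refine ⟨(x₁, y, x₃), ?_⟩
        simp only [Prod.orderOf, hy]
        have hlcm : r * orderOf x₂ = Nat.lcm (orderOf x₂) r := by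
          rw [Nat.Coprime.lcm_eq_mul, mul_comm]
          exact (Nat.coprime_comm.mp ((Nat.Prime.coprime_iff_not_dvd hr).mpr h₂))
        rw [hlcm, Nat.lcm_assoc (orderOf x₂), Nat.lcm_comm r]
      rcases dich x₃ h₃ with ⟨y, hy⟩ | t₃
      · refine ⟨(x₁, x₂, y), ?_⟩
        simp only [Prod.orderOf, hy]
        have hlcm : r * orderOf x₃ = Nat.lcm (orderOf x₃) r := by
          rw [Nat.Coprime.lcm_eq_mul, mul_comm]
          exact (Nat.coprime_comm.mp ((Nat.Prime.coprime_iff_not_dvd hr).mpr h₃))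
        rw [hlcm]
      obtain ⟨y₁, hy₁⟩ := hSTL _ (Nat.lcm_dvd t₁ (Nat.lcm_dvd t₂ t₃))
      obtain ⟨y₃, hy₃⟩ := hr1
      -- the largest p-part
      have hy₂ : ∃ y₂ : L, (∀ x ∈ ({orderOf x₁, orderOf x₂, orderOf x₃} : Set ℕ), p ^ x.factorization p ∣ orderOf y₂) ∧
          orderOf y₂ ∣ Nat.lcm (orderOf x₁) (Nat.lcm (orderOf x₂) (orderOf x₃)) := by
        have hmax : ∃ x : L, (x = x₁ ∨ x = x₂ ∨ x = x₃) ∧ (orderOf x₁).factorization p ≤ (orderOf x).factorization p ∧
            (orderOf x₂).factorization p ≤ (orderOf x).factorization p ∧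
            (orderOf x₃).factorization p ≤ (orderOf x).factorization p := by
          rcases le_total ((orderOf x₁).factorization p) ((orderOf x₂).factorization p) with h | h <;>
          rcases le_total ((orderOf x₂).factorization p) ((orderOf x₃).factorization p) with h' | h' <;>
          rcases le_total ((orderOf x₁).factorization p) ((orderOf x₃).factorization p) with h'' | h''
          all_goals first
            | exact ⟨x₁, Or.inl rfl, by omega, by omega, by omega⟩
            | exact ⟨x₂, Or.inr (Or.inl rfl), by omega, by omega, by omega⟩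
            | exact ⟨x₃, Or.inr (Or.inr rfl), by omega, by omega, by omega⟩
        obtain ⟨x, hx, hx1, hx2, hx3⟩ := hmax
        obtain ⟨y, hy⟩ := ppart x
        refine ⟨y, ?_, ?_⟩
        · intro w hw
          rw [hy]
          simp only [Set.mem_insert_iff, Set.mem_singleton_iff] at hw
          rcases hw with rfl | rfl | rfl
          · exact Nat.pow_dvd_pow p hx1
          · exact Nat.pow_dvd_pow p hx2
          · exact Nat.pow_dvd_pow p hx3
        · rw [hy]
          refine (Nat.ordProj_dvd _ p).trans ?_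
          rcases hx with rfl | rfl | rfl
          · exact Nat.dvd_lcm_left _ _
          · exact (Nat.dvd_lcm_left _ _).trans (Nat.dvd_lcm_right _ _)
          · exact (Nat.dvd_lcm_right _ _).trans (Nat.dvd_lcm_right _ _)
      obtain ⟨y₂, hy₂a, hy₂b⟩ := hy₂
      refine ⟨(y₁, y₂, y₃), ?_⟩
      simp only [Prod.orderOf]
      have hdvd1 : orderOf y₁ ∣ Nat.lcm (orderOf x₁) (Nat.lcm (orderOf x₂) (orderOf x₃)) := by
        rw [hy₁]
        exact lcm_dvd_lcm' (Nat.ordCompl_dvd _ p) (lcm_dvd_lcm' (Nat.ordCompl_dvd _ p) (Nat.ordCompl_dvd _ p))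
      have hassoc : (orderOf x₁).lcm ((orderOf x₂).lcm ((orderOf x₃).lcm r)) =
          Nat.lcm (Nat.lcm (orderOf x₁) (Nat.lcm (orderOf x₂) (orderOf x₃))) r := by
        rw [Nat.lcm_assoc, Nat.lcm_assoc]
      rw [hassoc]
      have hxdvd : ∀ x : L, orderOf x ∈ ({orderOf x₁, orderOf x₂, orderOf x₃} : Set ℕ) →
          orderOf x ∣ (orderOf y₁).lcm ((orderOf y₂).lcm (orderOf y₃)) := by
        intro x hx
        have h1 : orderOf x / p ^ (orderOf x).factorization p ∣ orderOf y₁ := by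
          rw [hy₁]
          simp only [Set.mem_insert_iff, Set.mem_singleton_iff] at hx
          rcases hx with h | h | h <;> rw [h]
          · exact Nat.dvd_lcm_left _ _
          · exact (Nat.dvd_lcm_left _ _).trans (Nat.dvd_lcm_right _ _)
          · exact (Nat.dvd_lcm_right _ _).trans (Nat.dvd_lcm_right _ _)
        have h2 := hy₂a _ hx
        have h3 : orderOf x = p ^ (orderOf x).factorization p * (orderOf x / p ^ (orderOf x).factorization p) :=
          (Nat.ordProj_mul_ordCompl_eq_self _ p).symm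
        rw [h3]
        apply Nat.Coprime.mul_dvd_of_dvd_of_dvd
        · exact Nat.Coprime.pow_left _ (Nat.coprime_ordCompl hp (orderOf_pos x).ne')
        · exact (h2.trans (Nat.dvd_lcm_left _ _)).trans (Nat.dvd_lcm_right _ _)
        · exact h1.trans (Nat.dvd_lcm_left _ _)
      apply Nat.dvd_antisymm
      · refine Nat.lcm_dvd (hdvd1.trans (Nat.dvd_lcm_left _ _)) (Nat.lcm_dvd (hy₂b.trans (Nat.dvd_lcm_left _ _)) ?_)
        rw [hy₃]
        exact Nat.dvd_lcm_right _ _
      · refine Nat.lcm_dvd (Nat.lcm_dvd (hxdvd x₁ (by simp)) (Nat.lcm_dvd (hxdvd x₂ (by simp)) (hxdvd x₃ (by simp)))) ?_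
        rw [hy₃]
        exact (Nat.dvd_lcm_right _ _).trans (Nat.dvd_lcm_right _ _)
    · rintro _ ⟨⟨x₁, x₂, x₃⟩, rfl⟩
      refine ⟨(x₁, x₂, x₃, 1), ?_⟩
      simp only [Prod.orderOf, orderOf_one, Nat.lcm_one_right]
  · intro hj
    apply Set.Subset.antisymm
    · rintro _ ⟨⟨x₁, x₂, z⟩, rfl⟩
      simp only [Prod.orderOf]
      have easy : orderOf z ∣ Nat.lcm (orderOf x₁) (orderOf x₂) →
          (orderOf x₁).lcm ((orderOf x₂).lcm (orderOf z)) ∈ Set.range (orderOf : L × L → ℕ) := by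
        intro h
        refine ⟨(x₁, x₂), ?_⟩
        simp only [Prod.orderOf]
        apply Nat.dvd_antisymm
        · exact lcm_dvd_lcm' dvd_rfl (Nat.dvd_lcm_left _ _)
        · exact Nat.lcm_dvd (Nat.dvd_lcm_left _ _) (Nat.lcm_dvd (Nat.dvd_lcm_right _ _) h)
      rcases orderOf_Z r m hr z with hz | hz
      · exact easy (by rw [hz]; exact one_dvd _)
      by_cases h₁ : r ∣ orderOf x₁
      · exact easy (by rw [hz]; exact h₁.trans (Nat.dvd_lcm_left _ _))
      by_cases h₂ : r ∣ orderOf x₂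
      · exact easy (by rw [hz]; exact h₂.trans (Nat.dvd_lcm_right _ _))
      rw [hz]
      rcases dich x₁ h₁ with ⟨y, hy⟩ | t₁
      · refine ⟨(y, x₂), ?_⟩
        simp only [Prod.orderOf, hy]
        have hlcm : r * orderOf x₁ = Nat.lcm (orderOf x₁) r := by
          rw [Nat.Coprime.lcm_eq_mul, mul_comm]
          exact (Nat.coprime_comm.mp ((Nat.Prime.coprime_iff_not_dvd hr).mpr h₁))
        rw [hlcm, Nat.lcm_assoc, Nat.lcm_comm r]
      rcases dich x₂ h₂ with ⟨y, hy⟩ | t₂
      · refine ⟨(x₁, y), ?_⟩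
        simp only [Prod.orderOf, hy]
        have hlcm : r * orderOf x₂ = Nat.lcm (orderOf x₂) r := by
          rw [Nat.Coprime.lcm_eq_mul, mul_comm]
          exact (Nat.coprime_comm.mp ((Nat.Prime.coprime_iff_not_dvd hr).mpr h₂))
        rw [hlcm]
      obtain ⟨y₁, hy₁⟩ := hSTL _ (Nat.lcm_dvd t₁ t₂)
      obtain ⟨x, hx, hx1, hx2⟩ : ∃ x : L, (x = x₁ ∨ x = x₂) ∧ (orderOf x₁).factorization p ≤ (orderOf x).factorization p ∧
            (orderOf x₂).factorization p ≤ (orderOf x).factorization p := by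
        rcases le_total ((orderOf x₁).factorization p) ((orderOf x₂).factorization p) with h | h
        · exact ⟨x₂, Or.inr rfl, h, le_rfl⟩
        · exact ⟨x₁, Or.inl rfl, le_rfl, h⟩
      set e := (orderOf x).factorization p with he
      have hcond : e = 0 ∨ p ^ (e - 1) < n - 1 := by
        rcases Nat.eq_zero_or_pos e with h0 | h0
        · exact Or.inl h0
        · right
          have h1 : p ^ (e - 1) < n := by
            apply pow_lt hF p hn0 (e - 1)
            rw [Nat.sub_add_cancel h0]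
            exact ppart x
          have h2 : n - 1 ≠ p ^ (e - 1) := fun h => hj ⟨_, h⟩
          omega
      obtain ⟨y₂, hy₂⟩ := exists_mul_pow hF p hn0 r hr hrq hrp hrn e hcond
      refine ⟨(y₁, y₂), ?_⟩
      simp only [Prod.orderOf]
      rw [← Nat.lcm_assoc]
      have hxle : ∀ w : L, w = x₁ ∨ w = x₂ → orderOf w ∣ Nat.lcm (orderOf x₁) (orderOf x₂) := by
        rintro w (rfl | rfl)
        · exact Nat.dvd_lcm_left _ _
        · exact Nat.dvd_lcm_right _ _
      have hxdvd : ∀ w : L, w = x₁ ∨ w = x₂ → orderOf w ∣ (orderOf y₁).lcm (orderOf y₂) := by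
        intro w hw
        have h1 : orderOf w / p ^ (orderOf w).factorization p ∣ orderOf y₁ := by
          rw [hy₁]
          rcases hw with rfl | rfl
          · exact Nat.dvd_lcm_left _ _
          · exact Nat.dvd_lcm_right _ _
        have h2 : p ^ (orderOf w).factorization p ∣ orderOf y₂ := by
          rw [hy₂]
          apply Dvd.dvd.mul_left
          rcases hw with rfl | rfl
          · exact Nat.pow_dvd_pow p hx1
          · exact Nat.pow_dvd_pow p hx2
        have h3 : orderOf w = p ^ (orderOf w).factorization p * (orderOf w / p ^ (orderOf w).factorization p) :=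
          (Nat.ordProj_mul_ordCompl_eq_self _ p).symm
        rw [h3]
        apply Nat.Coprime.mul_dvd_of_dvd_of_dvd
        · exact Nat.Coprime.pow_left _ (Nat.coprime_ordCompl hp (orderOf_pos w).ne')
        · exact h2.trans (Nat.dvd_lcm_right _ _)
        · exact h1.trans (Nat.dvd_lcm_left _ _)
      apply Nat.dvd_antisymm
      · apply Nat.lcm_dvd
        · rw [hy₁]
          exact (lcm_dvd_lcm' (Nat.ordCompl_dvd _ p) (Nat.ordCompl_dvd _ p)).trans (Nat.dvd_lcm_left _ _)
        · rw [hy₂]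
          apply Nat.Coprime.mul_dvd_of_dvd_of_dvd
          · exact Nat.Coprime.pow_right _ ((Nat.coprime_primes hr hp).mpr hrp)
          · exact Nat.dvd_lcm_right _ _
          · exact ((Nat.ordProj_dvd _ p).trans (hxle x hx)).trans (Nat.dvd_lcm_left _ _)
      · refine Nat.lcm_dvd (Nat.lcm_dvd (hxdvd x₁ (Or.inl rfl)) (hxdvd x₂ (Or.inr rfl))) ?_
        rw [hy₂]
        exact (Dvd.intro _ rfl : r ∣ r * p ^ e).trans (Nat.dvd_lcm_right _ _)
    · rintro _ ⟨⟨x₁, x₂⟩, rfl⟩
      refine ⟨(x₁, x₂, 1), ?_⟩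
      simp only [Prod.orderOf, orderOf_one, Nat.lcm_one_right]

end Cfsg.Agent.S2511
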