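import Cfsg.Statements.S2512
import Mathlib
import Cfsg.Agent.Lib.H46.SpDich
import Cfsg.Agent.Lib.H46.UnipModel
import Cfsg.Agent.Lib.H46.Orders
import Cfsg.Agent.Lib.H46.Unip

set_option autoImplicit false
open Cfsg

namespace Cfsg.Agent.S2512

open Module Polynomial H46.SForm H46.SForm.SForm H46.ProjOrder H46.ProdUnit H46.OrthDec H46.SpModels H46.SpDich H46.Orders

theorem orderOf_prodUnit {K V₁ V₂ : Type*} [Field K] [AddCommGroup V₁] [Module K V₁] [AddCommGroup V₂] [Module K V₂]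
    (u₁ : (Module.End K V₁)ˣ) (u₂ : (Module.End K V₂)ˣ) :
    orderOf (prodUnit u₁ u₂) = Nat.lcm (orderOf u₁) (orderOf u₂) := by
  have h1 : orderOf (prodUnit u₁ u₂) = orderOf (MulEquiv.prodUnits.symm (u₁, u₂)) := by
    apply orderOf_injective
    apply Units.map_injective
    intro a b hab
    have h : LinearMap.prodMap a.1 a.2 = LinearMap.prodMap b.1 b.2 := hab
    apply Prod.ext
    · ext v
      have := congrArg (fun g : Module.End K (V₁ × V₂) => (g (v, 0)).1) h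
      simpa using this
    · ext v
      have := congrArg (fun g : Module.End K (V₁ × V₂) => (g (0, v)).2) h
      simpa using this
  rw [h1, MulEquiv.orderOf_eq, Prod.orderOf_mk]

theorem orderOf_dvd_two_mul {K V : Type*} [Field K] [AddCommGroup V] [Module K V] [Nontrivial V] {f : SForm K V (RingHom.id K)}
    (hnd : f.ND) (u : (Module.End K V)ˣ) (hu : f.Isom u) : orderOf u ∣ 2 * projOrder K u := by
  obtain ⟨c, hc⟩ := (projOrder_dvd_iff u (projOrder K u)).mp dvd_rfl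
  rw [orderOf_dvd_iff_pow_eq_one, mul_comm, pow_mul]
  rw [← Units.val_pow_eq_pow_val] at hc
  have h1 : c * c = 1 := norm_one_of_scalar hnd (hu.pow _) hc
  apply Units.ext
  rw [Units.val_pow_eq_pow_val, hc, ← map_pow, pow_two, h1, map_one]; rfl

section

variable {F : Type*} [Field F] [Finite F] (p : ℕ) [Fact p.Prime] [CharP F p]

/-- a torus element of odd order and a unipotent element give an element of even order -/
theorem mem_good (h2 : (2 : F) ≠ 0) {n : ℕ} (e m t i : ℕ) (he : 0 < e) (hm : 0 < m) (hn : n = e + m)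
    (hodd : Odd t) (ht : t ∣ Nat.card F ^ e + 1 ∨ t ∣ Nat.card F ^ e - 1) (hp2 : p ≠ 2) (hi : i = 0 ∨ p ^ (i - 1) < 2 * m) :
    2 * (p ^ i * t) ∈ Set.range (orderOf : Cfsg.PSp n F → ℕ) := by
  have hp : p.Prime := Fact.out
  obtain ⟨A₂, _, _, f₂, u₂, E, halt₂, hnd₂, hr₂, hu₂, hord₂, hle⟩ := H46.UnipModel.exists_unip_sp (K := F) p h2 m i hm hi
  have hppos : Odd p := hp.odd_of_ne_two hp2
  have hnt₂ : Nontrivial A₂ := Module.nontrivial_of_finrank_pos (R := F) (by omega)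
  have hcop : Nat.Coprime (p ^ i) t := by
    apply Nat.Coprime.pow_left
    rw [Nat.Prime.coprime_iff_not_dvd hp]
    intro hpt
    have hpF : p ∣ Nat.card F ^ e := by
      letI := Fintype.ofFinite F
      obtain ⟨a, _, ha⟩ := FiniteField.card F p
      rw [Nat.card_eq_fintype_card, ha]
      exact (dvd_pow_self p a.2.ne').trans (dvd_pow_self _ he.ne')
    have hpos : 1 ≤ Nat.card F ^ e := Nat.one_le_pow _ _ Nat.card_pos
    rcases ht with h | h
    · have := (Nat.dvd_add_right hpF).mp (hpt.trans h)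
      exact hp.one_lt.ne' (Nat.dvd_one.mp this)
    · have h3 := Nat.dvd_sub hpF (hpt.trans h)
      rw [Nat.sub_sub_self hpos] at h3
      exact hp.one_lt.ne' (Nat.dvd_one.mp h3)
  -- common argument
  have key : ∀ (A₁ : Type) [CommRing A₁] [Algebra F A₁] (f₁ : SForm F A₁ (RingHom.id F)), f₁.Alt → f₁.ND → finrank F A₁ = 2 * e →
      (∃ β : A₁ˣ, f₁.Isom (mulUnit F β) ∧ orderOf β = t) → 2 * (p ^ i * t) ∈ Set.range (orderOf : Cfsg.PSp n F → ℕ) := by
    intro A₁ _ _ f₁ halt₁ hnd₁ hr₁ hβ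
    obtain ⟨β, hβ, hβo⟩ := hβ
    have hnt₁ : Nontrivial A₁ := Module.nontrivial_of_finrank_pos (R := F) (by omega)
    haveI : Module.Finite F A₁ := Module.finite_of_finrank_pos (by omega)
    haveI : Module.Finite F A₂ := Module.finite_of_finrank_pos (by omega)
    have hord : orderOf (prodUnit (mulUnit F β) u₂) = Nat.lcm t (p ^ E) := by
      rw [orderOf_prodUnit, orderOf_mulUnit, hβo, hord₂]
    have hoddN : Odd (Nat.lcm t (p ^ E)) := by
      have h1 : Nat.lcm t (p ^ E) ∣ t * p ^ E := Nat.lcm_dvd_mul _ _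
      exact Odd.of_dvd_nat (hodd.mul (hppos.pow)) h1
    have h3 : 2 * Nat.lcm t (p ^ E) ∈ Set.range (orderOf : Cfsg.PSp n F → ℕ) := by
      rw [← projOrder_neg_block h2 hnd₁ (mulUnit F β) u₂ hβ _ hoddN hord]
      apply H46.OrdPSp.mem_orders (by omega) (f₁.prod f₂) (halt₁.prod halt₂) (hnd₁.prod hnd₂)
      · rw [finrank_prod, hr₁, hr₂, hn]; ring
      · exact Isom.prod (isom_neg hβ) hu₂
    apply mem_of_dvd h3
    apply Nat.mul_dvd_mul_left
    exact hcop.mul_dvd_of_dvd_of_dvd ((Nat.pow_dvd_pow p hle).trans (Nat.dvd_lcm_right _ _)) (Nat.dvd_lcm_left _ _)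
  rcases ht with ht | ht
  · obtain ⟨A₁, _, _, _, f₁, halt₁, hnd₁, hr₁, h⟩ := torus_plus F e he
    exact key A₁ f₁ halt₁ hnd₁ hr₁ (h t ht)
  · obtain ⟨A₁, _, _, _, f₁, halt₁, hnd₁, hr₁, h⟩ := torus_minus F e he
    exact key A₁ f₁ halt₁ hnd₁ hr₁ (h t ht)

theorem mem_torus {n : ℕ} (hn : 0 < n) (t : ℕ) (ht : 2 * t ∣ Nat.card F ^ n + 1 ∨ 2 * t ∣ Nat.card F ^ n - 1) :
    t ∈ Set.range (orderOf : Cfsg.PSp n F → ℕ) := by
  have key : ∀ (A₁ : Type) [CommRing A₁] [Algebra F A₁] (f₁ : SForm F A₁ (RingHom.id F)), f₁.Alt → f₁.ND → finrank F A₁ = 2 * n →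
      (∃ β : A₁ˣ, f₁.Isom (mulUnit F β) ∧ orderOf β = 2 * t) → t ∈ Set.range (orderOf : Cfsg.PSp n F → ℕ) := by
    intro A₁ _ _ f₁ halt₁ hnd₁ hr₁ hβ
    obtain ⟨β, hβ, hβo⟩ := hβ
    have hnt₁ : Nontrivial A₁ := Module.nontrivial_of_finrank_pos (R := F) (by omega)
    have h1 := H46.OrdPSp.mem_orders hn f₁ halt₁ hnd₁ hr₁ (mulUnit F β) hβ
    apply mem_of_dvd h1
    have h2 := orderOf_dvd_two_mul hnd₁ (mulUnit F β) hβ
    rw [orderOf_mulUnit, hβo] at h2
    exact Nat.dvd_of_mul_dvd_mul_left (by norm_num) h2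
  rcases ht with ht | ht
  · obtain ⟨A₁, _, _, _, f₁, halt₁, hnd₁, hr₁, h⟩ := torus_plus F n hn
    exact key A₁ f₁ halt₁ hnd₁ hr₁ (h _ ht)
  · obtain ⟨A₁, _, _, _, f₁, halt₁, hnd₁, hr₁, h⟩ := torus_minus F n hn
    exact key A₁ f₁ halt₁ hnd₁ hr₁ (h _ ht)

end

theorem orderOf_Z (m : ℕ) (z : Multiplicative (Fin m → ZMod 2)) : orderOf z = 1 ∨ orderOf z = 2 := by
  rw [← Nat.dvd_prime Nat.prime_two]
  apply orderOf_dvd_of_pow_eq_one
  apply Multiplicative.toAdd.injective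
  rw [toAdd_pow]
  funext i
  simp
  exact Or.inl rfl

theorem lcm_dvd_lcm' {a b c d : ℕ} (h1 : a ∣ c) (h2 : b ∣ d) : Nat.lcm a b ∣ Nat.lcm c d :=
  Nat.lcm_dvd (h1.trans (Nat.dvd_lcm_left _ _)) (h2.trans (Nat.dvd_lcm_right _ _))

/-- merging two slots of the same type -/
theorem merge {G : Type*} [Group G] [Finite G] (p s₀ : ℕ) (hs₀ : s₀ ∈ Set.range (orderOf : G → ℕ)) (x y : G)
    (h : (orderOf x ∣ s₀ ∧ orderOf y ∣ s₀) ∨ ((∃ i, orderOf x = p ^ i) ∧ (∃ i, orderOf y = p ^ i))) :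
    ∃ z : G, orderOf z = Nat.lcm (orderOf x) (orderOf y) := by
  rcases h with ⟨h1, h2⟩ | ⟨⟨i, hi⟩, ⟨j, hj⟩⟩
  · exact mem_of_dvd hs₀ (Nat.lcm_dvd h1 h2)
  · rcases le_total i j with h | h
    · refine ⟨y, ?_⟩
      rw [Nat.lcm_eq_right]
      rw [hi, hj]; exact pow_dvd_pow p h
    · refine ⟨x, ?_⟩
      rw [Nat.lcm_eq_left]
      rw [hi, hj]; exact pow_dvd_pow p h

/-- trichotomy for odd orders -/
theorem tri {F : Type*} [Field F] [Finite F] (p : ℕ) [Fact p.Prime] [CharP F p] (h2 : (2 : F) ≠ 0) (hp2 : p ≠ 2)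
    (hoddq : Odd (Nat.card F)) {n : ℕ} (hn : 2 ≤ n) :
    ∃ s₀ : ℕ, s₀ ∈ Set.range (orderOf : Cfsg.PSp n F → ℕ) ∧ ∀ x : Cfsg.PSp n F, Odd (orderOf x) →
      (2 * orderOf x ∈ Set.range (orderOf : Cfsg.PSp n F → ℕ)) ∨ orderOf x ∣ s₀ ∨ ∃ i, orderOf x = p ^ i := by
  have hqn : Odd (Nat.card F ^ n) := hoddq.pow
  have hq1 : 1 ≤ Nat.card F ^ n := hqn.pos
  -- the case k = 1 handled with torus
  have main : ∀ s₀ : ℕ, (∀ t, Odd t → (t ∣ Nat.card F ^ n + 1 ∨ t ∣ Nat.card F ^ n - 1) → t ∣ s₀ ∨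
      (2 * (2 * t) ∣ Nat.card F ^ n + 1 ∨ 2 * (2 * t) ∣ Nat.card F ^ n - 1)) →
      ∀ x : Cfsg.PSp n F, Odd (orderOf x) →
      (2 * orderOf x ∈ Set.range (orderOf : Cfsg.PSp n F → ℕ)) ∨ orderOf x ∣ s₀ ∨ ∃ i, orderOf x = p ^ i := by
    intro s₀ hs₀ x hx
    rcases sp_dichotomy p h2 (by omega) x hx with h | h | ⟨e, k, i, t, hek, hN, ht, hi⟩
    · exact Or.inl h
    · exact Or.inr (Or.inr h)
    · have htodd : Odd t := by
        rw [hN] at hx
        exact (Nat.odd_mul.mp hx).2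
      have he : 0 < e := by
        rcases Nat.eq_zero_or_pos e with h0 | h0
        · rw [h0, zero_mul] at hek; omega
        · exact h0
      have hk : 0 < k := by
        rcases Nat.eq_zero_or_pos k with h0 | h0
        · rw [h0, mul_zero] at hek; omega
        · exact h0
      rcases Nat.lt_or_ge 1 k with hk2 | hk1
      · left
        rw [hN]
        have hm : 0 < e * (k - 1) := Nat.mul_pos he (by omega)
        have hkm : k - 1 ≤ e * (k - 1) := Nat.le_mul_of_pos_left _ he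
        refine mem_good p h2 e (e * (k - 1)) t i he hm ?_ htodd ht hp2 ?_
        · rw [hek]
          obtain ⟨j, rfl⟩ : ∃ j, k = j + 1 := ⟨k - 1, by omega⟩
          rw [Nat.add_sub_cancel]; ring
        · rcases hi with h | h
          · exact Or.inl h
          · right; omega
      · have hk : k = 1 := by omega
        subst hk
        rw [mul_one] at hek
        subst hek
        have hi0 : i = 0 := by
          rcases hi with h | h
          · exact h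
          · have : 1 ≤ p ^ (i - 1) := Nat.one_le_pow _ _ (Fact.out : p.Prime).pos
            omega
        rw [hi0, pow_zero, one_mul] at hN
        rw [hN]
        rcases hs₀ t htodd ht with h | h
        · exact Or.inr (Or.inl h)
        · left
          exact mem_torus (by omega) (2 * t) h
  have hcop : ∀ t, Odd t → Nat.Coprime 4 t := fun t ht => by
    have : Nat.Coprime (2 ^ 2) t := Nat.Coprime.pow_left 2 (Nat.coprime_two_left.mpr ht)
    exact this
  have hcop2 : ∀ t, Odd t → Nat.Coprime 2 t := fun t ht => Nat.coprime_two_left.mpr ht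
  rcases Nat.odd_mod_four_iff.mp (Nat.odd_iff.mp hqn) with h4 | h4
  · -- q^n ≡ 1 mod 4
    refine ⟨(Nat.card F ^ n + 1) / 2, mem_torus (by omega) _ (Or.inl (by rw [Nat.mul_div_cancel' (by omega)])), main _ ?_⟩
    intro t ht h
    rcases h with h | h
    · left
      have h3 : 2 * t ∣ Nat.card F ^ n + 1 := (hcop2 t ht).mul_dvd_of_dvd_of_dvd (by omega) h
      exact (Nat.dvd_div_iff_mul_dvd (by omega)).mpr h3
    · right; right
      rw [← mul_assoc]
      exact (hcop t ht).mul_dvd_of_dvd_of_dvd (by omega) h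
  · refine ⟨(Nat.card F ^ n - 1) / 2, mem_torus (by omega) _ (Or.inr (by rw [Nat.mul_div_cancel' (by omega)])), main _ ?_⟩
    intro t ht h
    rcases h with h | h
    · right; left
      rw [← mul_assoc]
      exact (hcop t ht).mul_dvd_of_dvd_of_dvd (by omega) h
    · left
      have h3 : 2 * t ∣ Nat.card F ^ n - 1 := (hcop2 t ht).mul_dvd_of_dvd_of_dvd (by omega) h
      exact (Nat.dvd_div_iff_mul_dvd (by omega)).mpr h3

theorem three {G : Type*} [Group G] [Finite G] (p s₀ m : ℕ) (hs₀ : s₀ ∈ Set.range (orderOf : G → ℕ))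
    (h2 : 2 ∈ Set.range (orderOf : G → ℕ))
    (htri : ∀ x : G, Odd (orderOf x) →
      (2 * orderOf x ∈ Set.range (orderOf : G → ℕ)) ∨ orderOf x ∣ s₀ ∨ ∃ i, orderOf x = p ^ i) :
    Set.range (orderOf : G × G × G × Multiplicative (Fin m → ZMod 2) → ℕ) = Set.range (orderOf : G × G × G → ℕ) := by
  apply Set.Subset.antisymm
  · rintro _ ⟨⟨x₁, x₂, x₃, z⟩, rfl⟩
    simp only [Prod.orderOf]
    have easy : orderOf z ∣ Nat.lcm (orderOf x₁) (Nat.lcm (orderOf x₂) (orderOf x₃)) →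
        (orderOf x₁).lcm ((orderOf x₂).lcm ((orderOf x₃).lcm (orderOf z))) ∈ Set.range (orderOf : G × G × G → ℕ) := by
      intro h
      refine ⟨(x₁, x₂, x₃), ?_⟩
      simp only [Prod.orderOf]
      apply Nat.dvd_antisymm
      · exact lcm_dvd_lcm' dvd_rfl (lcm_dvd_lcm' dvd_rfl (Nat.dvd_lcm_left _ _))
      · refine Nat.lcm_dvd (Nat.dvd_lcm_left _ _) (Nat.lcm_dvd ?_ (Nat.lcm_dvd ?_ h))
        · exact (Nat.dvd_lcm_left _ _).trans (Nat.dvd_lcm_right _ _)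
        · exact (Nat.dvd_lcm_right _ _).trans (Nat.dvd_lcm_right _ _)
    rcases orderOf_Z m z with hz | hz
    · exact easy (by rw [hz]; exact one_dvd _)
    by_cases h₁ : 2 ∣ orderOf x₁
    · exact easy (by rw [hz]; exact h₁.trans (Nat.dvd_lcm_left _ _))
    by_cases h₂ : 2 ∣ orderOf x₂
    · exact easy (by rw [hz]; exact (h₂.trans (Nat.dvd_lcm_left _ _)).trans (Nat.dvd_lcm_right _ _))
    by_cases h₃ : 2 ∣ orderOf x₃
    · exact easy (by rw [hz]; exact (h₃.trans (Nat.dvd_lcm_right _ _)).trans (Nat.dvd_lcm_right _ _))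
    have hodd : ∀ {a : ℕ}, ¬ 2 ∣ a → Odd a := fun h => by
      rw [← Nat.not_even_iff_odd, even_iff_two_dvd]; exact h
    have hlcm : ∀ {a : ℕ}, ¬ 2 ∣ a → 2 * a = Nat.lcm a 2 := fun h => by
      rw [Nat.Coprime.lcm_eq_mul, mul_comm]
      exact (Nat.coprime_comm.mp ((Nat.Prime.coprime_iff_not_dvd Nat.prime_two).mpr h))
    rw [hz]
    obtain ⟨y₂, hy₂⟩ := h2
    rcases htri x₁ (hodd h₁) with ⟨y, hy⟩ | t₁
    · refine ⟨(y, x₂, x₃), ?_⟩
      simp only [Prod.orderOf, hy]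
      rw [hlcm h₁, Nat.lcm_assoc, Nat.lcm_comm 2, Nat.lcm_assoc]
    rcases htri x₂ (hodd h₂) with ⟨y, hy⟩ | t₂
    · refine ⟨(x₁, y, x₃), ?_⟩
      simp only [Prod.orderOf, hy]
      rw [hlcm h₂, Nat.lcm_assoc (orderOf x₂), Nat.lcm_comm 2]
    rcases htri x₃ (hodd h₃) with ⟨y, hy⟩ | t₃
    · refine ⟨(x₁, x₂, y), ?_⟩
      simp only [Prod.orderOf, hy]
      rw [hlcm h₃]
    have h12 : ((orderOf x₁ ∣ s₀ ∧ orderOf x₂ ∣ s₀) ∨ ((∃ i, orderOf x₁ = p ^ i) ∧ (∃ i, orderOf x₂ = p ^ i))) ∨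
        ((orderOf x₁ ∣ s₀ ∧ orderOf x₃ ∣ s₀) ∨ ((∃ i, orderOf x₁ = p ^ i) ∧ (∃ i, orderOf x₃ = p ^ i))) ∨
        ((orderOf x₂ ∣ s₀ ∧ orderOf x₃ ∣ s₀) ∨ ((∃ i, orderOf x₂ = p ^ i) ∧ (∃ i, orderOf x₃ = p ^ i))) := by
      rcases t₁ with a | a
      · rcases t₂ with b | b
        · exact Or.inl (Or.inl ⟨a, b⟩)
        · rcases t₃ with c | c
          · exact Or.inr (Or.inl (Or.inl ⟨a, c⟩))
          · exact Or.inr (Or.inr (Or.inr ⟨b, c⟩))
      · rcases t₂ with b | b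
        · rcases t₃ with c | c
          · exact Or.inr (Or.inr (Or.inl ⟨b, c⟩))
          · exact Or.inr (Or.inl (Or.inr ⟨a, c⟩))
        · exact Or.inl (Or.inr ⟨a, b⟩)
    rcases h12 with h | h | h
    · obtain ⟨z', hz'⟩ := merge p s₀ hs₀ _ _ h
      refine ⟨(z', x₃, y₂), ?_⟩
      simp only [Prod.orderOf, hz', hy₂]
      rw [Nat.lcm_assoc]
    · obtain ⟨z', hz'⟩ := merge p s₀ hs₀ _ _ h
      refine ⟨(z', x₂, y₂), ?_⟩
      simp only [Prod.orderOf, hz', hy₂]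
      rw [Nat.lcm_assoc, ← Nat.lcm_assoc (orderOf x₃), Nat.lcm_comm (orderOf x₃), Nat.lcm_assoc]
    · obtain ⟨z', hz'⟩ := merge p s₀ hs₀ _ _ h
      refine ⟨(x₁, z', y₂), ?_⟩
      simp only [Prod.orderOf, hz', hy₂]
      rw [Nat.lcm_assoc]
  · rintro _ ⟨⟨x₁, x₂, x₃⟩, rfl⟩
    refine ⟨(x₁, x₂, x₃, 1), ?_⟩
    simp only [Prod.orderOf, orderOf_one, Nat.lcm_one_right]

theorem two {G : Type*} [Group G] [Finite G] (p s₀ m : ℕ) (hs₀ : s₀ ∈ Set.range (orderOf : G → ℕ))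
    (h2 : 2 ∈ Set.range (orderOf : G → ℕ))
    (hp : ∀ x : G, (∃ i, orderOf x = p ^ i) → 2 * orderOf x ∈ Set.range (orderOf : G → ℕ))
    (htri : ∀ x : G, Odd (orderOf x) →
      (2 * orderOf x ∈ Set.range (orderOf : G → ℕ)) ∨ orderOf x ∣ s₀ ∨ ∃ i, orderOf x = p ^ i) :
    Set.range (orderOf : G × G × Multiplicative (Fin m → ZMod 2) → ℕ) = Set.range (orderOf : G × G → ℕ) := by
  apply Set.Subset.antisymm
  · rintro _ ⟨⟨x₁, x₂, z⟩, rfl⟩
    simp only [Prod.orderOf]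
    have easy : orderOf z ∣ Nat.lcm (orderOf x₁) (orderOf x₂) →
        (orderOf x₁).lcm ((orderOf x₂).lcm (orderOf z)) ∈ Set.range (orderOf : G × G → ℕ) := by
      intro h
      refine ⟨(x₁, x₂), ?_⟩
      simp only [Prod.orderOf]
      apply Nat.dvd_antisymm
      · exact lcm_dvd_lcm' dvd_rfl (Nat.dvd_lcm_left _ _)
      · exact Nat.lcm_dvd (Nat.dvd_lcm_left _ _) (Nat.lcm_dvd (Nat.dvd_lcm_right _ _) h)
    rcases orderOf_Z m z with hz | hz
    · exact easy (by rw [hz]; exact one_dvd _)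
    by_cases h₁ : 2 ∣ orderOf x₁
    · exact easy (by rw [hz]; exact h₁.trans (Nat.dvd_lcm_left _ _))
    by_cases h₂ : 2 ∣ orderOf x₂
    · exact easy (by rw [hz]; exact h₂.trans (Nat.dvd_lcm_right _ _))
    have hodd : ∀ {a : ℕ}, ¬ 2 ∣ a → Odd a := fun h => by
      rw [← Nat.not_even_iff_odd, even_iff_two_dvd]; exact h
    have hlcm : ∀ {a : ℕ}, ¬ 2 ∣ a → 2 * a = Nat.lcm a 2 := fun h => by
      rw [Nat.Coprime.lcm_eq_mul, mul_comm]
      exact (Nat.coprime_comm.mp ((Nat.Prime.coprime_iff_not_dvd Nat.prime_two).mpr h))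
    rw [hz]
    obtain ⟨y₂, hy₂⟩ := h2
    have t₁ : (2 * orderOf x₁ ∈ Set.range (orderOf : G → ℕ)) ∨ orderOf x₁ ∣ s₀ := by
      rcases htri x₁ (hodd h₁) with h | h | h
      · exact Or.inl h
      · exact Or.inr h
      · exact Or.inl (hp x₁ h)
    have t₂ : (2 * orderOf x₂ ∈ Set.range (orderOf : G → ℕ)) ∨ orderOf x₂ ∣ s₀ := by
      rcases htri x₂ (hodd h₂) with h | h | h
      · exact Or.inl h
      · exact Or.inr h
      · exact Or.inl (hp x₂ h)
    rcases t₁ with ⟨y, hy⟩ | t₁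
    · refine ⟨(y, x₂), ?_⟩
      simp only [Prod.orderOf, hy]
      rw [hlcm h₁, Nat.lcm_assoc, Nat.lcm_comm 2]
    rcases t₂ with ⟨y, hy⟩ | t₂
    · refine ⟨(x₁, y), ?_⟩
      simp only [Prod.orderOf, hy]
      rw [hlcm h₂]
    obtain ⟨z', hz'⟩ := merge p s₀ hs₀ _ _ (Or.inl ⟨t₁, t₂⟩)
    refine ⟨(z', y₂), ?_⟩
    simp only [Prod.orderOf, hz', hy₂]
    rw [Nat.lcm_assoc]
  · rintro _ ⟨⟨x₁, x₂⟩, rfl⟩
    refine ⟨(x₁, x₂, 1), ?_⟩
    simp only [Prod.orderOf, orderOf_one, Nat.lcm_one_right]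

/-- Let F be a finite field of odd order q = p^a, n ≥ 2 (with q ≥ 3 automatic), and L = PSp(2n, F). Then for every m the direct product L × L × L × (ℤ/2)^m has the same set of element orders as L × L × L; and if 2n − 1 is not a power of p, then already L × L × (ℤ/2)^m has the same set of element orders as L × L. -/
theorem result {F : Type*} [Field F] [Fintype F] (p a n m : ℕ) (hp : p.Prime) (ha : 1 ≤ a) (hF : Fintype.card F = p ^ a) (hodd : Odd (Fintype.card F))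
    (hn : 2 ≤ n) :
    Set.range (orderOf : Cfsg.PSp n F × Cfsg.PSp n F × Cfsg.PSp n F × Multiplicative (Fin m → ZMod 2) → ℕ) = Set.range (orderOf : Cfsg.PSp n F × Cfsg.PSp n F × Cfsg.PSp n F → ℕ) ∧
    ((¬ ∃ j : ℕ, 2 * n - 1 = p ^ j) →
      Set.range (orderOf : Cfsg.PSp n F × Cfsg.PSp n F × Multiplicative (Fin m → ZMod 2) → ℕ) = Set.range (orderOf : Cfsg.PSp n F × Cfsg.PSp n F → ℕ)) := by
  have hpf : Fact p.Prime := ⟨hp⟩
  have hchar : CharP F p := by
    obtain ⟨p', hp'⟩ := CharP.exists F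
    obtain ⟨k, hk1, hk2⟩ := FiniteField.card F p'
    rw [hF] at hk2
    have : p' ∣ p ^ a := by rw [hk2]; exact dvd_pow_self p' k.ne_zero
    have h3 := (Nat.prime_dvd_prime_iff_eq hk1 hp).mp (hk1.dvd_of_dvd_pow this)
    rwa [h3] at hp'
  have hp2 : p ≠ 2 := by
    rintro rfl
    rw [hF] at hodd
    exact (Nat.not_odd_iff_even.mpr ((Nat.even_pow.mpr ⟨even_two, by omega⟩))) hodd
  have h2F : (2 : F) ≠ 0 := by
    intro h
    have : ((2 : ℕ) : F) = 0 := by exact_mod_cast h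
    rw [CharP.cast_eq_zero_iff F p] at this
    exact hp2 ((Nat.prime_dvd_prime_iff_eq hp Nat.prime_two).mp this)
  have hoddq : Odd (Nat.card F) := by rwa [Nat.card_eq_fintype_card]
  obtain ⟨s₀, hs₀, htri⟩ := tri (F := F) p h2F hp2 hoddq hn
  have h2mem : 2 ∈ Set.range (orderOf : Cfsg.PSp n F → ℕ) := by
    have := mem_good (F := F) p h2F (n := n) 1 (n - 1) 1 0 one_pos (by omega) (by omega) odd_one (Or.inl (one_dvd _)) hp2 (Or.inl rfl)
    simpa using this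
  refine ⟨three p s₀ m hs₀ h2mem htri, fun hj => two p s₀ m hs₀ h2mem ?_ htri⟩
  rintro x ⟨i, hi⟩
  rw [hi]
  have := mem_good (F := F) p h2F (n := n) 1 (n - 1) 1 i one_pos (by omega) (by omega) odd_one (Or.inl (one_dvd _)) hp2 ?_
  · simpa using this
  · rcases Nat.eq_zero_or_pos i with h0 | h0
    · exact Or.inl h0
    · right
      obtain ⟨u, hu, hux⟩ := H46.OrdPSp.exists_isom (by omega) x
      have hne : Nonempty (Fin n ⊕ Fin n) := ⟨Sum.inl ⟨0, by omega⟩⟩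
      have h1 := H46.Unip.lt_finrank_of_projOrder p u (i - 1) (by rw [hux, hi, Nat.sub_add_cancel h0])
      have h3 : finrank F (Fin n ⊕ Fin n → F) = 2 * n := by simp; omega
      rw [h3] at h1
      have h4 : 2 * n - 1 ≠ p ^ (i - 1) := fun h => hj ⟨_, h⟩
      have h5 : Odd (p ^ (i - 1)) := (hp.odd_of_ne_two hp2).pow
      obtain ⟨c, hc⟩ := h5
      omega

end Cfsg.Agent.S2512
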