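import Cfsg.Statements.S2513
import Cfsg.Agent.Lib.H46.ProjOrder
import Cfsg.Agent.Lib.H46.ExtElt
import Cfsg.Agent.Lib.H46.Orders

set_option autoImplicit false
open Cfsg

namespace Cfsg.Agent.S2513

open Module H46.ProjOrder H46.ExtElt H46.Orders

section two

variable {F : Type*} [Field F] [Fintype F] (hF : Fintype.card F = 2)

include hF

theorem eq_one_of_ne_zero (c : F) (hc : c ≠ 0) : c = 1 := by
  have := FiniteField.pow_card_sub_one_eq_one c hc
  rwa [hF, show 2 - 1 = 1 from rfl, pow_one] at this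

theorem projOrder_eq_orderOf {A : Type*} [Ring A] [Algebra F A] [Nontrivial A] (u : Aˣ) :
    projOrder F u = orderOf u := by
  rw [eq_comm, eq_projOrder_iff]
  intro k
  rw [orderOf_dvd_iff_pow_eq_one]
  constructor
  · rintro ⟨c, hc⟩
    have hc0 : c ≠ 0 := by
      rintro rfl
      rw [map_zero, ← Units.val_pow_eq_pow_val] at hc
      exact (u ^ k).ne_zero hc
    rw [eq_one_of_ne_zero hF c hc0, map_one] at hc
    ext
    simpa using hc
  · intro h
    refine ⟨1, ?_⟩
    rw [← Units.val_pow_eq_pow_val, h]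
    simp

theorem dvd_mem (n d m : ℕ) (hd : 0 < d) (hdn : d ≤ n) (hm : m ∣ 2 ^ d - 1) :
    m ∈ Set.range (orderOf : Matrix.ProjectiveSpecialLinearGroup (Fin n) F → ℕ) := by
  obtain ⟨K, _, _, _, hK, hKc⟩ := exists_field_ext F d hd
  rw [Nat.card_eq_fintype_card (α := F), hF] at hKc
  obtain ⟨x, hx⟩ := exists_unit_orderOf K m (hKc ▸ hm)
  have hKfin : Module.Finite F K := Module.finite_of_finrank_pos (by omega)
  rw [mem_orders_iff_end (F := F) (n := n) (by omega) (K × (Fin (n - d) → F))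
    (by rw [finrank_prod, hK]; simp; omega)]
  let φ : K →* Module.End F (K × (Fin (n - d) → F)) :=
    { toFun := fun x => LinearMap.prodMap (Algebra.lmul F K x) LinearMap.id
      map_one' := by
        ext <;> simp
      map_mul' := by
        intro x y
        ext <;> simp [mul_assoc] }
  have hφ : Function.Injective φ := by
    intro x y h
    have h1 := congrArg (fun f : Module.End F (K × (Fin (n - d) → F)) => (f (1, 0)).1) h
    simpa [φ] using h1
  refine ⟨Units.map φ x, ?_, ?_⟩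
  · apply eq_one_of_ne_zero hF
    have : IsUnit (LinearMap.det ((Units.map φ x : (Module.End F (K × (Fin (n - d) → F)))ˣ) : Module.End F (K × (Fin (n - d) → F)))) :=
      (Units.isUnit _).map LinearMap.det
    exact this.ne_zero
  · rw [projOrder_eq_orderOf hF, ← hx]
    exact orderOf_injective (Units.map φ) (Units.map_injective hφ) x

theorem prime_pow_dvd (n : ℕ) (hn : 2 ≤ n) (x : Matrix.ProjectiveSpecialLinearGroup (Fin n) F)
    (l a : ℕ) (hl : l.Prime) (hl2 : l ≠ 2) (ha : 0 < a) (h : l ^ a ∣ orderOf x) :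
    ∃ d, n / 2 < d ∧ d ≤ n ∧ l ^ a ∣ 2 ^ d - 1 := by
  have hmem : orderOf x ∈ Set.range (orderOf : Matrix.ProjectiveSpecialLinearGroup (Fin n) F → ℕ) := ⟨x, rfl⟩
  rw [mem_orders_iff_end (F := F) (n := n) (by omega) (Fin n → F) (by simp)] at hmem
  obtain ⟨u, hu, hux⟩ := hmem
  have : Nontrivial (Fin n → F) := Module.nontrivial_of_finrank_pos (R := F) (by simp; omega)
  rw [projOrder_eq_orderOf hF, ← orderOf_units] at hux
  have hpos : 0 < orderOf x := orderOf_pos x
  have hlF : (l : F) ≠ 0 := by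
    intro h0
    have hchar : CharP F 2 := by
      obtain ⟨p, hp⟩ := CharP.exists F
      obtain ⟨m, hm1, hm2⟩ := FiniteField.card F p
      rw [hF] at hm2
      have : p = 2 := by
        have h1 : p ∣ 2 := by rw [hm2]; exact dvd_pow_self p m.ne_zero
        exact (Nat.prime_dvd_prime_iff_eq hm1 Nat.prime_two).mp h1
      rwa [this] at hp
    have h2 := (CharP.cast_eq_zero_iff F 2 l).mp h0
    exact hl2 ((Nat.prime_dvd_prime_iff_eq Nat.prime_two hl).mp h2).symm
  obtain ⟨d, hd0, hdn, hdvd⟩ := exists_dvd_pow_sub_one' (u : Module.End F (Fin n → F)) l a hl hlF ha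
    (by rw [hux]; exact hpos) (by rw [hux]; exact h)
  rw [Nat.card_eq_fintype_card, hF] at hdvd
  simp only [finrank_fintype_fun_eq_card, Fintype.card_fin] at hdn
  refine ⟨d * (n / d), ?_, Nat.mul_div_le n d, hdvd.trans (Nat.pow_sub_one_dvd_pow_sub_one 2 (Dvd.intro _ rfl))⟩
  have h1 := Nat.div_add_mod n d
  have h2 := Nat.mod_lt n hd0
  have h3 : 1 ≤ n / d := (Nat.one_le_div_iff hd0).mpr hdn
  have h4 : d ≤ d * (n / d) := Nat.le_mul_of_pos_right d h3
  omega

end two

theorem result {F : Type*} [Field F] [Fintype F] (hF : Fintype.card F = 2) (n k : ℕ) (hn : 2 ≤ n) (hk : (n + 3) / 2 ≤ k) :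
    Set.range (orderOf : (Fin k → Matrix.ProjectiveSpecialLinearGroup (Fin n) F) → ℕ) = Set.range (orderOf : (Fin ((n + 3) / 2) → Matrix.ProjectiveSpecialLinearGroup (Fin n) F) → ℕ) := by
  classical
  apply Set.Subset.antisymm
  · rintro _ ⟨x, rfl⟩
    set M := orderOf x with hM
    have hMpos : 0 < M := orderOf_pos x
    have hMl : M = Finset.univ.lcm fun i => orderOf (x i) := Pi.orderOf x
    -- the 2-part
    have h2part : 2 ^ M.factorization 2 ∈ Set.range (orderOf : Matrix.ProjectiveSpecialLinearGroup (Fin n) F → ℕ) := by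
      rcases Nat.eq_zero_or_pos (M.factorization 2) with h0 | h0
      · rw [h0]
        exact ⟨1, by simp⟩
      · obtain ⟨i, -, hi⟩ := prime_pow_dvd_lcm Finset.univ (fun i => orderOf (x i))
          (fun i _ => (orderOf_pos (x i)).ne') Nat.prime_two h0 (hMl ▸ Nat.ordProj_dvd M 2)
        exact mem_of_dvd ⟨x i, rfl⟩ hi
    obtain ⟨y0, hy0⟩ := h2part
    have hodd : ∀ d : ℕ, 0 < d → d ≤ n → ∃ y : Matrix.ProjectiveSpecialLinearGroup (Fin n) F, orderOf y = Nat.gcd M (2 ^ d - 1) :=
      fun d hd hdn => dvd_mem hF n d _ hd hdn (Nat.gcd_dvd_right _ _)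
    choose! Y hY using hodd
    obtain ⟨t, ht⟩ : ∃ t, (n + 3) / 2 = t + 1 := ⟨(n + 3) / 2 - 1, by omega⟩
    rw [ht]
    refine ⟨Fin.cons y0 (fun j : Fin t => Y (n / 2 + 1 + j)), ?_⟩
    rw [Pi.orderOf]
    have hbound : ∀ j : Fin t, 0 < n / 2 + 1 + (j : ℕ) ∧ n / 2 + 1 + (j : ℕ) ≤ n := by
      intro j
      have := j.2
      omega
    apply Nat.dvd_antisymm
    · apply Finset.lcm_dvd
      intro j _
      refine Fin.cases ?_ (fun j => ?_) j
      · simp only [Fin.cons_zero, hy0]
        exact Nat.ordProj_dvd M 2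
      · simp only [Fin.cons_succ]
        rw [hY _ (hbound j).1 (hbound j).2]
        exact Nat.gcd_dvd_left _ _
    · rw [Nat.dvd_iff_prime_pow_dvd_dvd]
      intro p a hp hpa
      rcases Nat.eq_zero_or_pos a with rfl | ha
      · simp
      by_cases hp2 : p = 2
      · subst hp2
        have h1 : 2 ^ a ∣ 2 ^ M.factorization 2 :=
          Nat.pow_dvd_pow 2 ((hp.pow_dvd_iff_le_factorization hMpos.ne').mp hpa)
        have h2 := Finset.dvd_lcm (f := fun j => orderOf ((Fin.cons y0 (fun j : Fin t => Y (n / 2 + 1 + j)) : Fin (t + 1) → Matrix.ProjectiveSpecialLinearGroup (Fin n) F) j)) (Finset.mem_univ 0)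
        simp only [Fin.cons_zero, hy0] at h2
        exact h1.trans h2
      · obtain ⟨i, -, hi⟩ := prime_pow_dvd_lcm Finset.univ (fun i => orderOf (x i))
          (fun i _ => (orderOf_pos (x i)).ne') hp ha (hMl ▸ hpa)
        obtain ⟨d, hd1, hd2, hd3⟩ := prime_pow_dvd hF n hn (x i) p a hp hp2 ha hi
        have hdt : d - (n / 2 + 1) < t := by omega
        have h2 := Finset.dvd_lcm (f := fun j => orderOf ((Fin.cons y0 (fun j : Fin t => Y (n / 2 + 1 + j)) : Fin (t + 1) → Matrix.ProjectiveSpecialLinearGroup (Fin n) F) j)) (Finset.mem_univ (Fin.succ ⟨d - (n / 2 + 1), hdt⟩))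
        simp only [Fin.cons_succ] at h2
        have h3 : n / 2 + 1 + (d - (n / 2 + 1)) = d := by omega
        rw [h3, hY d (by omega) hd2] at h2
        exact (Nat.dvd_gcd hpa hd3).trans h2
  · rintro _ ⟨x, rfl⟩
    refine ⟨fun i => if h : (i : ℕ) < (n + 3) / 2 then x ⟨i, h⟩ else 1, ?_⟩
    rw [Pi.orderOf, Pi.orderOf]
    apply Nat.dvd_antisymm
    · apply Finset.lcm_dvd
      intro i _
      split_ifs with h
      · exact Finset.dvd_lcm (f := fun i => orderOf (x i)) (Finset.mem_univ _)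
      · simp
    · apply Finset.lcm_dvd
      intro i _
      have h2 := Finset.dvd_lcm (f := fun i : Fin k => orderOf (if h : (i : ℕ) < (n + 3) / 2 then x ⟨i, h⟩ else 1)) (Finset.mem_univ (Fin.castLE hk i))
      simpa using h2

end Cfsg.Agent.S2513
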