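import Cfsg.Statements.S2514
import Mathlib

set_option autoImplicit false
open Cfsg

namespace Cfsg.Agent.S2514

/-- divisors of element orders are element orders -/
theorem mem_of_dvd {G : Type*} [Group G] [Finite G] {n d : ℕ}
    (hn : n ∈ Set.range (orderOf : G → ℕ)) (hd : d ∣ n) : d ∈ Set.range (orderOf : G → ℕ) := by
  obtain ⟨g, rfl⟩ := hn
  obtain ⟨e, he⟩ := hd
  refine ⟨g ^ e, ?_⟩
  have hpos : 0 < orderOf g := orderOf_pos g
  have he0 : e ≠ 0 := by
    rintro rfl
    rw [mul_zero] at he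
    omega
  rw [orderOf_pow' g he0, he, Nat.gcd_mul_left_left, Nat.mul_div_cancel _ (Nat.pos_of_ne_zero he0)]

/-- every element order divides a maximal one -/
theorem exists_max {G : Type*} [Group G] [Finite G] (a : ℕ)
    (ha : a ∈ Set.range (orderOf : G → ℕ)) :
    ∃ n ∈ {n : ℕ | n ∈ Set.range (orderOf : G → ℕ) ∧ ∀ m ∈ Set.range (orderOf : G → ℕ), n ∣ m → m = n},
      a ∣ n := by
  classical
  have hfin : (Set.range (orderOf : G → ℕ)).Finite := Set.finite_range _
  let S : Set ℕ := {m | m ∈ Set.range (orderOf : G → ℕ) ∧ a ∣ m}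
  have hS : S.Finite := hfin.subset (fun m hm => hm.1)
  have hne : S.Nonempty := ⟨a, ha, dvd_rfl⟩
  obtain ⟨n, hn, hmax⟩ := hS.exists_maximalFor id S hne
  refine ⟨n, ⟨hn.1, fun m hm hnm => ?_⟩, hn.2⟩
  have h1 : m ∈ S := ⟨hm, hn.2.trans hnm⟩
  have hmpos : 0 < m := by
    obtain ⟨g, rfl⟩ := hm
    exact orderOf_pos g
  have h2 : n ≤ m := Nat.le_of_dvd hmpos hnm
  exact le_antisymm (hmax h1 h2) h2

theorem result {G H : Type*} [Group G] [Finite G] [Group H] [Finite H] (k : ℕ) (hk : 1 ≤ k)
    (hsub : {n : ℕ | n ∈ Set.range (orderOf : H → ℕ) ∧ ∀ m ∈ Set.range (orderOf : H → ℕ), n ∣ m → m = n} ⊆ {n : ℕ | n ∈ Set.range (orderOf : G → ℕ) ∧ ∀ m ∈ Set.range (orderOf : G → ℕ), n ∣ m → m = n})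
    (hfew : ({n : ℕ | n ∈ Set.range (orderOf : G → ℕ) ∧ ∀ m ∈ Set.range (orderOf : G → ℕ), n ∣ m → m = n} \ {n : ℕ | n ∈ Set.range (orderOf : H → ℕ) ∧ ∀ m ∈ Set.range (orderOf : H → ℕ), n ∣ m → m = n}).ncard < k) :
    Set.range (orderOf : (Fin k → G) → ℕ) = Set.range (orderOf : (Fin (k - 1) → G) × H → ℕ) := by
  classical
  obtain ⟨k, rfl⟩ : ∃ k', k = k' + 1 := ⟨k - 1, by omega⟩
  change Set.range (orderOf : (Fin (k + 1) → G) → ℕ) = Set.range (orderOf : (Fin k → G) × H → ℕ)
  apply Set.Subset.antisymm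
  · rintro _ ⟨f, rfl⟩
    choose m hm hdvd using fun i => exists_max (G := G) (orderOf (f i)) ⟨f i, rfl⟩
    by_cases hcase : ∃ i, m i ∈ {n : ℕ | n ∈ Set.range (orderOf : H → ℕ) ∧ ∀ m ∈ Set.range (orderOf : H → ℕ), n ∣ m → m = n}
    · obtain ⟨i, hi⟩ := hcase
      obtain ⟨h, hh⟩ := mem_of_dvd hi.1 (hdvd i)
      refine ⟨(fun t => f (i.succAbove t), h), ?_⟩
      rw [Prod.orderOf, Pi.orderOf, Pi.orderOf]
      simp only [hh]
      apply Nat.dvd_antisymm
      · apply Nat.lcm_dvd
        · apply Finset.lcm_dvd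
          intro t _
          exact Finset.dvd_lcm (f := fun i => orderOf (f i)) (Finset.mem_univ (i.succAbove t))
        · exact Finset.dvd_lcm (f := fun i => orderOf (f i)) (Finset.mem_univ i)
      · apply Finset.lcm_dvd
        intro j _
        by_cases hj : j = i
        · subst hj
          exact Nat.dvd_lcm_right _ _
        · obtain ⟨t, rfl⟩ := Fin.exists_succAbove_eq hj
          exact (Finset.dvd_lcm (f := fun t => orderOf (f (i.succAbove t))) (Finset.mem_univ t)).trans
            (Nat.dvd_lcm_left _ _)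
    · push Not at hcase
      have hfinset : ({n : ℕ | n ∈ Set.range (orderOf : G → ℕ) ∧ ∀ m ∈ Set.range (orderOf : G → ℕ), n ∣ m → m = n} \ {n : ℕ | n ∈ Set.range (orderOf : H → ℕ) ∧ ∀ m ∈ Set.range (orderOf : H → ℕ), n ∣ m → m = n}).Finite :=
        (Set.finite_range (orderOf : G → ℕ)).subset (fun n hn => hn.1.1)
      have hpig : ∃ i ∈ (Finset.univ : Finset (Fin (k+1))), ∃ j ∈ (Finset.univ : Finset (Fin (k+1))), i ≠ j ∧ m i = m j := by
        apply Finset.exists_ne_map_eq_of_card_lt_of_maps_to (t := hfinset.toFinset)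
        · rw [← Set.ncard_eq_toFinset_card _ hfinset]
          simpa using hfew
        · intro i _
          simp only [Finset.mem_coe, Set.Finite.mem_toFinset]
          exact ⟨hm i, hcase i⟩
      obtain ⟨i, -, j, -, hij, hmij⟩ := hpig
      have hl : Nat.lcm (orderOf (f i)) (orderOf (f j)) ∣ m i :=
        Nat.lcm_dvd (hdvd i) (hmij ▸ hdvd j)
      obtain ⟨g, hg⟩ := mem_of_dvd (hm i).1 hl
      refine ⟨(fun t => if i.succAbove t = j then g else f (i.succAbove t), 1), ?_⟩
      rw [Prod.orderOf, Pi.orderOf, Pi.orderOf]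
      simp only [orderOf_one, Nat.lcm_one_right]
      apply Nat.dvd_antisymm
      · apply Finset.lcm_dvd
        intro t _
        split_ifs with h
        · rw [hg]
          exact Nat.lcm_dvd (Finset.dvd_lcm (f := fun i => orderOf (f i)) (Finset.mem_univ i))
            (Finset.dvd_lcm (f := fun i => orderOf (f i)) (Finset.mem_univ j))
        · exact Finset.dvd_lcm (f := fun i => orderOf (f i)) (Finset.mem_univ (i.succAbove t))
      · apply Finset.lcm_dvd
        intro l _
        obtain ⟨t, ht⟩ := Fin.exists_succAbove_eq hij.symm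
        have key : orderOf g ∣ Finset.univ.lcm (fun t => orderOf (if i.succAbove t = j then g else f (i.succAbove t))) := by
          have := Finset.dvd_lcm (f := fun t => orderOf (if i.succAbove t = j then g else f (i.succAbove t))) (Finset.mem_univ t)
          simpa [ht] using this
        by_cases hli : l = i
        · subst hli
          exact ((Nat.dvd_lcm_left _ _).trans (dvd_of_eq hg.symm)).trans key
        · by_cases hlj : l = j
          · subst hlj
            exact ((Nat.dvd_lcm_right _ _).trans (dvd_of_eq hg.symm)).trans key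
          · obtain ⟨s, rfl⟩ := Fin.exists_succAbove_eq hli
            have := Finset.dvd_lcm (f := fun t => orderOf (if i.succAbove t = j then g else f (i.succAbove t))) (Finset.mem_univ s)
            simpa [hlj] using this
  · rintro _ ⟨⟨f, h⟩, rfl⟩
    obtain ⟨n, hn, hd⟩ := exists_max (G := H) (orderOf h) ⟨h, rfl⟩
    obtain ⟨g, hg⟩ := mem_of_dvd (hsub hn).1 hd
    refine ⟨Fin.cons g f, ?_⟩
    rw [Prod.orderOf, Pi.orderOf, Pi.orderOf]
    simp only
    apply Nat.dvd_antisymm
    · apply Finset.lcm_dvd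
      intro j _
      refine Fin.cases ?_ (fun t => ?_) j
      · simp only [Fin.cons_zero, hg]
        exact Nat.dvd_lcm_right _ _
      · simp only [Fin.cons_succ]
        exact (Finset.dvd_lcm (f := fun t => orderOf (f t)) (Finset.mem_univ t)).trans (Nat.dvd_lcm_left _ _)
    · apply Nat.lcm_dvd
      · apply Finset.lcm_dvd
        intro t _
        have := Finset.dvd_lcm (f := fun j => orderOf ((Fin.cons g f : Fin (k+1) → G) j)) (Finset.mem_univ t.succ)
        simpa using this
      · have := Finset.dvd_lcm (f := fun j => orderOf ((Fin.cons g f : Fin (k+1) → G) j)) (Finset.mem_univ 0)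
        simpa [hg] using this

end Cfsg.Agent.S2514
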