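import Cfsg.Statements.S2516
import Mathlib

set_option autoImplicit false
open Cfsg

namespace Cfsg.Agent.S2516

section

variable {F : Type*} [Field F] {V : Type*} [AddCommGroup V] [Module F V]
    {G : Type*} [Group G] (ρ : Representation F G V)

/-- the action -/
abbrev act : G →* MulAut (Multiplicative V) :=
  (MulAutMultiplicative V).symm.toMonoidHom.comp
        ((DistribMulAction.toAddAut ((V →ₗ[F] V)ˣ) V).comp ρ.asGroupHom)

theorem act_apply (g : G) (v : V) : act ρ g (Multiplicative.ofAdd v) = Multiplicative.ofAdd (ρ g v) := rfl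

theorem pow_formula (v : V) (g : G) (k : ℕ) :
    (⟨Multiplicative.ofAdd v, g⟩ : Multiplicative V ⋊[act ρ] G) ^ k =
      ⟨Multiplicative.ofAdd ((∑ i ∈ Finset.range k, (ρ g) ^ i) v), g ^ k⟩ := by
  induction k with
  | zero => simp
  | succ k ih =>
    rw [pow_succ', ih]
    ext
    · rw [SemidirectProduct.mul_left, act_apply, ← ofAdd_add]
      congr 1
      rw [Finset.sum_range_succ']
      simp only [pow_zero, LinearMap.add_apply, Module.End.one_apply, LinearMap.sum_apply, map_sum]
      rw [add_comm v]
      have : ∀ i ∈ Finset.range k, (ρ g) (((ρ g) ^ i) v) = ((ρ g) ^ (i + 1)) v := by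
        intro i _
        rw [pow_succ']
        rfl
      rw [Finset.sum_congr rfl this]
    · rw [SemidirectProduct.mul_right, pow_succ']

end

theorem result {F : Type*} [Field F] (p : ℕ) [Fact p.Prime] [CharP F p] {V : Type*} [AddCommGroup V] [Module F V] [FiniteDimensional F V] [Nontrivial V]
    {G : Type*} [Group G] [Finite G] (ρ : Representation F G V) (g : G) :
    (∃ x : Multiplicative V ⋊[(MulAutMultiplicative V).symm.toMonoidHom.comp
        ((DistribMulAction.toAddAut ((V →ₗ[F] V)ˣ) V).comp ρ.asGroupHom)] G,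
        x.right = g ∧ orderOf x = p * orderOf g) ↔
      ¬ (minpoly F (ρ g) ∣ ∑ i ∈ Finset.range (orderOf g), (Polynomial.X : Polynomial F) ^ i) := by
  have hp : p.Prime := Fact.out
  have hk : 0 < orderOf g := orderOf_pos g
  have haeval : Polynomial.aeval (ρ g) (∑ i ∈ Finset.range (orderOf g), (Polynomial.X : Polynomial F) ^ i)
      = ∑ i ∈ Finset.range (orderOf g), (ρ g) ^ i := by
    simp
  have hdvd : (minpoly F (ρ g) ∣ ∑ i ∈ Finset.range (orderOf g), (Polynomial.X : Polynomial F) ^ i) ↔
      ∑ i ∈ Finset.range (orderOf g), (ρ g) ^ i = 0 := by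
    rw [← haeval]
    exact minpoly.dvd_iff
  rw [hdvd]
  constructor
  · rintro ⟨⟨v, g'⟩, hx, hord⟩ h0
    simp only at hx
    subst hx
    have h1 := pow_formula ρ (Multiplicative.toAdd v) g' (orderOf g')
    rw [h0, pow_orderOf_eq_one] at h1
    have h2 : (⟨v, g'⟩ : Multiplicative V ⋊[act ρ] G) ^ orderOf g' = 1 := h1
    have h3 := orderOf_dvd_of_pow_eq_one h2
    have h4 : p * orderOf g' ∣ orderOf g' := hord ▸ h3
    have h5 := Nat.le_of_dvd hk h4
    have h6 := hp.two_le
    nlinarith
  · intro h0
    obtain ⟨v, hv⟩ : ∃ v, (∑ i ∈ Finset.range (orderOf g), (ρ g) ^ i) v ≠ 0 := by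
      by_contra hcon
      push Not at hcon
      exact h0 (LinearMap.ext fun v => by simpa using hcon v)
    set x : Multiplicative V ⋊[act ρ] G := ⟨Multiplicative.ofAdd v, g⟩ with hxdef
    refine ⟨x, rfl, ?_⟩
    set w := (∑ i ∈ Finset.range (orderOf g), (ρ g) ^ i) v with hw
    have hxk : x ^ orderOf g = SemidirectProduct.inl (Multiplicative.ofAdd w) := by
      rw [hxdef, pow_formula ρ v g (orderOf g), pow_orderOf_eq_one, ← hw]
      rfl
    have hpw : (Multiplicative.ofAdd w) ^ p = 1 := by
      rw [← ofAdd_nsmul]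
      have : (p : ℕ) • w = 0 := by
        rw [← Nat.cast_smul_eq_nsmul F, CharP.cast_eq_zero, zero_smul]
      rw [this]; rfl
    have hordw : orderOf (Multiplicative.ofAdd w) = p := by
      apply orderOf_eq_prime hpw
      intro h
      exact hv (by simpa using h)
    have hordxk : orderOf (x ^ orderOf g) = p := by
      rw [hxk, orderOf_injective _ SemidirectProduct.inl_injective, hordw]
    have hdvdk : orderOf g ∣ orderOf x := by
      have := orderOf_map_dvd (SemidirectProduct.rightHom : Multiplicative V ⋊[act ρ] G →* G) x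
      simpa using this
    have h7 := orderOf_pow' x hk.ne'
    rw [hordxk, Nat.gcd_eq_right hdvdk] at h7
    show orderOf x = p * orderOf g
    rw [h7, Nat.div_mul_cancel hdvdk]

end Cfsg.Agent.S2516
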