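import Cfsg.Statements.S2517
import Cfsg.Agent.Lib.H46.SpecSemiMain

set_option autoImplicit false
open Cfsg

namespace Cfsg.Agent.S2517

/-- Let F be a finite field of odd order q, let Ω₉ be the simple orthogonal group PΩ(9, F), and let Ω₈⁻ be the commutator subgroup of the isometry group of a minus-type non-singular quadratic form on V = F⁸ (the simple group PΩ⁻(8, F), acting on its natural module V). Then Ω₉ and the semidirect product V ⋊ Ω₈⁻ have exactly the same set of element orders. -/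
theorem result {F : Type*} [Field F] [Fintype F] (hF : Odd (Fintype.card F)) (a b : F)
    (hab : ∀ z₁ z₂ : F, z₁ ^ 2 + a * z₁ * z₂ + b * z₂ ^ 2 = 0 → z₁ = 0 ∧ z₂ = 0) :
    Set.range (orderOf : Cfsg.POmega F (Cfsg.quadFormOdd 4 F) → ℕ) =
      Set.range (orderOf :
        (Multiplicative (((Fin 3 ⊕ Fin 3) ⊕ Fin 2) → F)) ⋊[
          (MulAutMultiplicative (((Fin 3 ⊕ Fin 3) ⊕ Fin 2) → F)).symm.toMonoidHom.comp
           ((DistribMulAction.toAddAut (LinearMap.GeneralLinearGroup F (((Fin 3 ⊕ Fin 3) ⊕ Fin 2) → F))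
              (((Fin 3 ⊕ Fin 3) ⊕ Fin 2) → F)).comp
            (Matrix.GeneralLinearGroup.toLin.toMonoidHom.comp
              ((Cfsg.isometryGroup F (Cfsg.quadFormMinus 3 F a b)).subtype.comp
                (Cfsg.Omega F (Cfsg.quadFormMinus 3 F a b)).subtype)))]
          ↥(Cfsg.Omega F (Cfsg.quadFormMinus 3 F a b)) → ℕ) := by
  have hq : Nat.card F = Fintype.card F := Nat.card_eq_fintype_card
  have h2 : (2 : F) ≠ 0 := by
    intro h
    have h3 : Even (Fintype.card F) := by
      have h4 : ringChar F = 2 := by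
        have h5 : ringChar F ∣ 2 := (ringChar.spec F 2).mp (by exact_mod_cast h)
        rcases (Nat.dvd_prime Nat.prime_two).mp h5 with h6 | h6
        · exact absurd h6 (CharP.ringChar_ne_one)
        · exact h6
      exact Nat.even_iff.mpr (FiniteField.even_card_of_char_two h4)
    exact (Nat.not_even_iff_odd.mpr hF) h3
  have hodd' : Odd (Nat.card F) := by rw [hq]; exact hF
  obtain ⟨p, hp⟩ := CharP.exists F
  haveI := hp
  haveI : Fact p.Prime := ⟨CharP.char_is_prime F p⟩
  have key : ∀ Q' : (((Fin 3 ⊕ Fin 3) ⊕ Fin 2) → F) → F, Q' = ⇑(H48.QuadStd.qMinus 3 F a b) →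
      Set.range (orderOf : (Multiplicative (((Fin 3 ⊕ Fin 3) ⊕ Fin 2) → F) ⋊[H46.SemiOrd.act (H46.SemiOrd.rep Q')] ↥(Cfsg.Omega F Q')) → ℕ) =
        H46.SemiOrd.OrS p (H46.SemiOrd.stdM 3 F a b) := by
    rintro _ rfl
    exact H46.SemiOrd.range_eq p (H46.SemiOrd.Qof_stdM 3 h2)
  exact (H46.SpecSemiMain.range_eq_OrS p h2 hodd' hab).trans (key _ (H48.QuadStd.coe_qMinus 3 a b).symm).symm

end Cfsg.Agent.S2517
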