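import Cfsg.Statements.S2518
import Cfsg.Agent.Lib.H17.GTwo4
import Cfsg.Agent.Lib.H46.PSL2Orders
import Cfsg.Agent.Lib.H6.SLCard
import Cfsg.Agent.S1059

set_option autoImplicit false
open Cfsg

namespace Cfsg.Agent.S2518

/-- Let F₃ be the field with 3 elements and F₁₃ the field with 13 elements. The Chevalley group G₂(F₃) and PSL(2, F₁₃) have the same prime graph: the same prime divisors of their orders, and for distinct primes r, s an element of order rs in one iff in the other. -/
theorem result {F : Type*} [Field F] [Fintype F] (hF : Fintype.card F = 3) {E : Type*} [Field E] [Fintype E] (hE : Fintype.card E = 13) :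
    ((∀ r : ℕ, r.Prime → (r ∣ Nat.card ↥(Cfsg.Lie.chevG2.group F) ↔ r ∣ Nat.card (Matrix.ProjectiveSpecialLinearGroup (Fin 2) E))) ∧
      (∀ r s : ℕ, r.Prime → s.Prime → r ≠ s → ((∃ x : ↥(Cfsg.Lie.chevG2.group F), orderOf x = r * s) ↔ (∃ y : (Matrix.ProjectiveSpecialLinearGroup (Fin 2) E), orderOf y = r * s)))) := by
  have hFc : Nat.card F = 3 := by rw [Nat.card_eq_fintype_card, hF]
  have hEc : Nat.card E = 13 := by rw [Nat.card_eq_fintype_card, hE]
  have i3 : Fact (Nat.Prime 3) := ⟨Nat.prime_three⟩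
  have i13 : Fact (Nat.Prime 13) := ⟨by norm_num⟩
  have hF3 : CharP F 3 := charP_of_card_eq_prime hF
  have hE13 : CharP E 13 := charP_of_card_eq_prime hE
  have c1 : Nat.card ↥(Cfsg.Lie.chevG2.group F) = 2 ^ 6 * 3 ^ 6 * 7 * 13 := by
    rw [Cfsg.Agent.S1059.result hF]
    norm_num
  have c2 : Nat.card (Matrix.ProjectiveSpecialLinearGroup (Fin 2) E) = 2 ^ 2 * 3 * 7 * 13 := by
    have h := H6.SLCard.card_psl (F := E) (n := 2) (by norm_num)
    rw [hE, Fin.prod_univ_two] at h
    norm_num at h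
    omega
  have p1 : ∀ r : ℕ, r.Prime → (r ∣ 2 ^ 6 * 3 ^ 6 * 7 * 13 ↔ r = 2 ∨ r = 3 ∨ r = 7 ∨ r = 13) := by
    intro r hr
    constructor
    · intro h
      rcases hr.dvd_mul.mp h with h | h
      · rcases hr.dvd_mul.mp h with h | h
        · rcases hr.dvd_mul.mp h with h | h
          · exact Or.inl ((Nat.prime_dvd_prime_iff_eq hr Nat.prime_two).mp (hr.dvd_of_dvd_pow h))
          · exact Or.inr (Or.inl ((Nat.prime_dvd_prime_iff_eq hr Nat.prime_three).mp (hr.dvd_of_dvd_pow h)))
        · exact Or.inr (Or.inr (Or.inl ((Nat.prime_dvd_prime_iff_eq hr (by norm_num)).mp h)))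
      · exact Or.inr (Or.inr (Or.inr ((Nat.prime_dvd_prime_iff_eq hr (by norm_num)).mp h)))
    · rintro (rfl | rfl | rfl | rfl) <;> norm_num
  have p2 : ∀ r : ℕ, r.Prime → (r ∣ 2 ^ 2 * 3 * 7 * 13 ↔ r = 2 ∨ r = 3 ∨ r = 7 ∨ r = 13) := by
    intro r hr
    constructor
    · intro h
      rcases hr.dvd_mul.mp h with h | h
      · rcases hr.dvd_mul.mp h with h | h
        · rcases hr.dvd_mul.mp h with h | h
          · exact Or.inl ((Nat.prime_dvd_prime_iff_eq hr Nat.prime_two).mp (hr.dvd_of_dvd_pow h))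
          · exact Or.inr (Or.inl ((Nat.prime_dvd_prime_iff_eq hr Nat.prime_three).mp h))
        · exact Or.inr (Or.inr (Or.inl ((Nat.prime_dvd_prime_iff_eq hr (by norm_num)).mp h)))
      · exact Or.inr (Or.inr (Or.inr ((Nat.prime_dvd_prime_iff_eq hr (by norm_num)).mp h)))
    · rintro (rfl | rfl | rfl | rfl) <;> norm_num
  refine ⟨fun r hr => by rw [c1, c2, p1 r hr, p2 r hr], fun r s hr hs hne => ⟨?_, ?_⟩⟩
  · rintro ⟨x, hx⟩
    have hxd : r * s ∣ 2 ^ 6 * 3 ^ 6 * 7 * 13 := by
      rw [← hx, ← c1]; exact orderOf_dvd_natCard x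
    have h6 := H17.GTwoFour.order_eq hFc ((p1 r hr).mp ((dvd_mul_right _ _).trans hxd))
      ((p1 s hs).mp ((dvd_mul_left _ _).trans hxd)) hne x hx
    rw [h6]
    have : (6 : ℕ) ∈ Set.range (orderOf : Matrix.ProjectiveSpecialLinearGroup (Fin 2) E → ℕ) := by
      rw [H46.PSL2Orders.spectrum 13, hEc]
      right; left
      norm_num
    exact this
  · rintro ⟨y, hy⟩
    have h1 := H46.PSL2Orders.order_trichotomy 13 y
    rw [hy, hEc] at h1
    have hr2 := hr.two_le
    have hs2 := hs.two_le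
    have h6 : r * s = 6 := by
      rcases h1 with h | h | h
      · exfalso
        have h3 : r = 13 := (Nat.prime_dvd_prime_iff_eq hr (by norm_num)).mp ((dvd_mul_right _ _).trans h)
        have h4 : s = 13 := (Nat.prime_dvd_prime_iff_eq hs (by norm_num)).mp ((dvd_mul_left _ _).trans h)
        exact hne (h3.trans h4.symm)
      · norm_num at h
        have h5 := Nat.le_of_dvd (by norm_num) h
        have h7 : r * s ≤ 6 := h5
        have h8 : r ≤ 3 := by nlinarith
        have h9 : s ≤ 3 := by nlinarith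
        interval_cases r <;> interval_cases s <;> first | rfl | exact absurd rfl hne
      · exfalso
        norm_num at h
        have h3 : r = 7 := (Nat.prime_dvd_prime_iff_eq hr (by norm_num)).mp ((dvd_mul_right _ _).trans h)
        have h4 : s = 7 := (Nat.prime_dvd_prime_iff_eq hs (by norm_num)).mp ((dvd_mul_left _ _).trans h)
        exact hne (h3.trans h4.symm)
    rw [h6]
    exact H17.GTwo.exists_six

end Cfsg.Agent.S2518
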