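import Cfsg.Statements.S2519
import Cfsg.Agent.Lib.H47.SpecG2c

set_option autoImplicit false
open Cfsg

namespace Cfsg.Agent.S2519

/-- Let F be a finite field of odd order q = p^a ≥ 5. The element orders of the Chevalley group G₂(F) that are maximal under divisibility are exactly p(q + 1), p(q − 1), q² − 1, q² + q + 1, q² − q + 1, together with p² when p is 3 or 5. -/
theorem result {F : Type*} [Field F] [Fintype F] (p a : ℕ) (hp : p.Prime) (hp2 : p ≠ 2) (ha : 1 ≤ a) (hF : Fintype.card F = p ^ a) (hq5 : 5 ≤ Fintype.card F) :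
    {n : ℕ | n ∈ Set.range (orderOf : ↥(Cfsg.Lie.chevG2.group F) → ℕ) ∧ ∀ m ∈ Set.range (orderOf : ↥(Cfsg.Lie.chevG2.group F) → ℕ), n ∣ m → m = n} =
      ({p * (p ^ a + 1), p * (p ^ a - 1), p ^ (2 * a) - 1, p ^ (2 * a) + p ^ a + 1, p ^ (2 * a) - p ^ a + 1} : Set ℕ) ∪
        (if p = 3 ∨ p = 5 then ({p ^ 2} : Set ℕ) else ∅) := by
  have hq : 5 ≤ p ^ a := by rw [← hF]; exact hq5
  have hex : ∀ N : ℕ, (N = p ^ (2 * a) - 1 ∨ N = p ^ (2 * a) + p ^ a + 1 ∨ N = p ^ (2 * a) - p ^ a + 1 ∨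
      N = p * (p ^ a - 1) ∨ N = p * (p ^ a + 1) ∨ ((p = 3 ∨ p = 5) ∧ N = p ^ 2)) →
      N ∈ Set.range (orderOf : ↥(Cfsg.Lie.chevG2.group F) → ℕ) := by
    rintro N (rfl | rfl | rfl | rfl | rfl | ⟨h, rfl⟩)
    · exact H47.SpecG2.exC hp hF ha
    · exact H47.SpecG2.exD hp hF ha
    · exact H47.SpecG2.exE hp hF ha
    · exact H47.SpecG2.exB hp hF ha (by omega)
    · exact H47.SpecG2.exA hp hF ha
    · rcases h with rfl | rfl
      · exact H47.SpecG2.ex9 hF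
      · exact H47.SpecG2.ex25 hF
  have hup : ∀ m ∈ Set.range (orderOf : ↥(Cfsg.Lie.chevG2.group F) → ℕ), ∃ N, m ∣ N ∧
      (N = p ^ (2 * a) - 1 ∨ N = p ^ (2 * a) + p ^ a + 1 ∨ N = p ^ (2 * a) - p ^ a + 1 ∨
      N = p * (p ^ a - 1) ∨ N = p * (p ^ a + 1) ∨ ((p = 3 ∨ p = 5) ∧ N = p ^ 2)) := by
    rintro m ⟨g, rfl⟩
    rcases H47.SpecG2.upperN hp hF g with h | h | h | h | h | h | h
    · exact ⟨_, h, Or.inl rfl⟩
    · exact ⟨_, h, Or.inr (Or.inl rfl)⟩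
    · exact ⟨_, h, Or.inr (Or.inr (Or.inl rfl))⟩
    · exact ⟨_, h, Or.inr (Or.inr (Or.inr (Or.inl rfl)))⟩
    · exact ⟨_, h, Or.inr (Or.inr (Or.inr (Or.inr (Or.inl rfl))))⟩
    · exact ⟨_, h.2, Or.inr (Or.inr (Or.inr (Or.inr (Or.inr ⟨h.1, rfl⟩))))⟩
    · exact absurd h.1 hp2
  have hw : ∀ N : ℕ, (N = p ^ (2 * a) - 1 ∨ N = p ^ (2 * a) + p ^ a + 1 ∨ N = p ^ (2 * a) - p ^ a + 1 ∨
      N = p * (p ^ a - 1) ∨ N = p * (p ^ a + 1) ∨ ((p = 3 ∨ p = 5) ∧ N = p ^ 2)) →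
      (N = p ^ (2 * a) - 1 ∨ N = p ^ (2 * a) + p ^ a + 1 ∨ N = p ^ (2 * a) - p ^ a + 1 ∨
      N = p * (p ^ a - 1) ∨ N = p * (p ^ a + 1) ∨ N = p ^ 2) := by
    intro N h; tauto
  ext N
  have hmem : N ∈ ({p * (p ^ a + 1), p * (p ^ a - 1), p ^ (2 * a) - 1, p ^ (2 * a) + p ^ a + 1,
      p ^ (2 * a) - p ^ a + 1} : Set ℕ) ∪ (if p = 3 ∨ p = 5 then ({p ^ 2} : Set ℕ) else ∅) ↔
      (N = p ^ (2 * a) - 1 ∨ N = p ^ (2 * a) + p ^ a + 1 ∨ N = p ^ (2 * a) - p ^ a + 1 ∨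
      N = p * (p ^ a - 1) ∨ N = p * (p ^ a + 1) ∨ ((p = 3 ∨ p = 5) ∧ N = p ^ 2)) := by
    rw [Set.mem_union]
    by_cases h : p = 3 ∨ p = 5
    · rw [if_pos h]
      simp only [Set.mem_insert_iff, Set.mem_singleton_iff]
      tauto
    · rw [if_neg h]
      simp only [Set.mem_insert_iff, Set.mem_singleton_iff, Set.mem_empty_iff_false]
      tauto
  rw [hmem]
  constructor
  · rintro ⟨h1, h2⟩
    obtain ⟨Y, h3, h4⟩ := hup N h1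
    rw [← h2 Y (hex Y h4) h3]
    exact h4
  · intro h
    refine ⟨hex N h, fun m hm hNm => ?_⟩
    obtain ⟨Y, h3, h4⟩ := hup m hm
    have h5 := H47.SpecG2.anti hp ha hq (hw N h) (hw Y h4) (hNm.trans h3)
    exact Nat.dvd_antisymm (h5 ▸ h3) hNm

end Cfsg.Agent.S2519
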