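import Cfsg.Statements.S2520
import Cfsg.Agent.Lib.H47.SpecG2c

set_option autoImplicit false
open Cfsg

namespace Cfsg.Agent.S2520

/-- Let F be a finite field with q = 2^a ≥ 4 elements and G₂(F) the Chevalley group of type G₂ over it. Every element order of G₂(F) maximal under divisibility lies in the set {8, 12, 2(q + 1), 2(q − 1), q² − 1, q² + q + 1, q² − q + 1}, and every member of that set is an element order of G₂(F). -/
theorem result {F : Type*} [Field F] [Fintype F] (a : ℕ) (ha : 2 ≤ a) (hF : Fintype.card F = 2 ^ a) :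
    {n : ℕ | n ∈ Set.range (orderOf : ↥(Cfsg.Lie.chevG2.group F) → ℕ) ∧ ∀ m ∈ Set.range (orderOf : ↥(Cfsg.Lie.chevG2.group F) → ℕ), n ∣ m → m = n} ⊆ ({8, 12, 2 * (2 ^ a + 1), 2 * (2 ^ a - 1), 2 ^ (2 * a) - 1, 2 ^ (2 * a) + 2 ^ a + 1, 2 ^ (2 * a) - 2 ^ a + 1} : Set ℕ) ∧
    ({8, 12, 2 * (2 ^ a + 1), 2 * (2 ^ a - 1), 2 ^ (2 * a) - 1, 2 ^ (2 * a) + 2 ^ a + 1, 2 ^ (2 * a) - 2 ^ a + 1} : Set ℕ) ⊆ Set.range (orderOf : ↥(Cfsg.Lie.chevG2.group F) → ℕ) := by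
  have hp := Nat.prime_two
  have ha1 : 1 ≤ a := by omega
  have hq : 1 < 2 ^ a := Nat.one_lt_two_pow (by omega)
  have hsub : ({8, 12, 2 * (2 ^ a + 1), 2 * (2 ^ a - 1), 2 ^ (2 * a) - 1, 2 ^ (2 * a) + 2 ^ a + 1,
      2 ^ (2 * a) - 2 ^ a + 1} : Set ℕ) ⊆ Set.range (orderOf : ↥(Cfsg.Lie.chevG2.group F) → ℕ) := by
    intro N hN
    simp only [Set.mem_insert_iff, Set.mem_singleton_iff] at hN
    rcases hN with rfl | rfl | rfl | rfl | rfl | rfl | rfl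
    · exact H47.SpecG2.ex8 hF
    · exact H47.SpecG2.ex12 hF
    · exact H47.SpecG2.exA hp hF ha1
    · exact H47.SpecG2.exB hp hF ha1 hq
    · exact H47.SpecG2.exC hp hF ha1
    · exact H47.SpecG2.exD hp hF ha1
    · exact H47.SpecG2.exE hp hF ha1
  refine ⟨?_, hsub⟩
  rintro N ⟨⟨g, rfl⟩, h2⟩
  have key : ∀ Y ∈ ({8, 12, 2 * (2 ^ a + 1), 2 * (2 ^ a - 1), 2 ^ (2 * a) - 1, 2 ^ (2 * a) + 2 ^ a + 1,
      2 ^ (2 * a) - 2 ^ a + 1} : Set ℕ), orderOf g ∣ Y →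
      orderOf g ∈ ({8, 12, 2 * (2 ^ a + 1), 2 * (2 ^ a - 1), 2 ^ (2 * a) - 1, 2 ^ (2 * a) + 2 ^ a + 1,
      2 ^ (2 * a) - 2 ^ a + 1} : Set ℕ) := by
    intro Y hY h
    rw [← h2 Y (hsub hY) h]
    exact hY
  rcases H47.SpecG2.upperN hp hF g with h | h | h | h | h | h | h
  · exact key _ (by simp) h
  · exact key _ (by simp) h
  · exact key _ (by simp) h
  · exact key _ (by simp) h
  · exact key _ (by simp) h
  · exact absurd h.1 (by decide)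
  · rcases h.2 with h | h
    · exact key _ (by simp) h
    · exact key _ (by simp) h

end Cfsg.Agent.S2520
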