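import Cfsg.Statements.S2522
import Mathlib
import Cfsg.Agent.Lib.H47.TwoUnipE
import Cfsg.Agent.Lib.H48.Jordan

set_option autoImplicit false
set_option linter.unusedVariables false
open Cfsg

namespace Cfsg.Agent.S2522

open Module H47.TwoUnipA H47.TwoUnipC H47.TwoUnipE

variable {K : Type*} [Field K]

/-- criterion for being conjugate to `J` -/
theorem isConj_J {n : ℕ} (hn : 1 ≤ n) (A J : Matrix (Fin n) (Fin n) K) (hA : IsNilpotent (A - 1))
    (hr : n - 1 ≤ (A - 1).rank)
    (hJ : J = (Cfsg.jordanBlock n K).transpose) : IsConj J A := by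
  have hcard : Fintype.card (Fin n) = n := Fintype.card_fin n
  have hJ1 : J - 1 = (H48.Jordan.J0 n K).transpose := by
    rw [hJ, ← H48.Jordan.jordanBlock_sub_one, Matrix.transpose_sub, Matrix.transpose_one]
  have hA0 : (A - 1) ^ n = 0 := by
    have h1 := Matrix.isNilpotent_charpoly_sub_pow_of_isNilpotent hA
    have h2 : (A - 1).charpoly = Polynomial.X ^ n := by
      have h3 := (isNilpotent_iff_eq_zero.1 h1)
      rw [sub_eq_zero, hcard] at h3
      exact h3
    have h4 := Matrix.aeval_self_charpoly (A - 1)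
    rw [h2, map_pow, Polynomial.aeval_X] at h4
    exact h4
  apply H48.Unip.isConj_regular hcard
  · rw [hJ1, ← Matrix.transpose_pow, H48.Jordan.J0_pow_self, Matrix.transpose_zero]
  · exact hA0
  · rw [hJ1, Matrix.rank_transpose]
    have := H48.Jordan.rank_J0_pow (F := K) n 1
    rwa [pow_one] at this
  · apply le_antisymm _ hr
    have h1 : (A - 1).rank ≤ n := by
      have := Matrix.rank_le_card_width (A - 1)
      rwa [hcard] at this
    by_contra hcon
    have h2 : (A - 1).rank = n := by omega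
    have h3 : ∀ k, n ≤ ((A - 1) ^ k).rank := by
      intro k
      induction k with
      | zero => rw [pow_zero, Matrix.rank_one, hcard]
      | succ k ih =>
        have := H48.Unip.rank_pow_succ_ge (A - 1) k
        rw [hcard] at this
        omega
    have h4 := h3 n
    rw [hA0, Matrix.rank_zero] at h4
    omega

theorem rank_eq {n : ℕ} (X : (Fin n → K) →ₗ[K] (Fin n → K)) :
    (LinearMap.toMatrix' X).rank = finrank K (LinearMap.range X) := by
  rw [Matrix.rank, ← Matrix.toLin'_apply', Matrix.toLin'_toMatrix']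

theorem nilp_of_RU {n : ℕ} {X : (Fin n → K) →ₗ[K] (Fin n → K)} (h : RU X) :
    IsNilpotent (LinearMap.toMatrix' X - 1) ∧ n - 1 ≤ (LinearMap.toMatrix' X - 1).rank := by
  obtain ⟨⟨k, hk⟩, hker⟩ := h
  have e : LinearMap.toMatrix' X - 1 = LinearMap.toMatrix' (X - 1) := by
    rw [map_sub, LinearMap.toMatrix'_one]
  rw [e]
  constructor
  · refine ⟨k, ?_⟩
    have : (X - 1) ^ k = 0 := LinearMap.ext hk
    have h2 := map_pow (LinearMap.toMatrixAlgEquiv' (R := K) (n := Fin n)) (X - 1) k
    rw [this, map_zero] at h2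
    exact h2.symm
  · rw [rank_eq]
    have h1 := LinearMap.finrank_range_add_finrank_ker (X - 1)
    rw [Module.finrank_fin_fun] at h1
    omega

/-- Let K be a field with at least four elements (finite or infinite), n ≥ 3, and J ∈ GL(n, K) the regular unipotent matrix (ones on the diagonal and the superdiagonal, zeros elsewhere). Then every non-scalar g ∈ GL(n, K) with det g = 1 is a product of two GL(n, K)-conjugates of J. -/
theorem result {K : Type*} [Field K] (hK : 4 ≤ Cardinal.mk K) (n : ℕ) (hn : 3 ≤ n) (J g : GL (Fin n) K)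
    (hJ : ∀ i j : Fin n, (J : Matrix (Fin n) (Fin n) K) i j = if i = j then 1 else if j.val = i.val + 1 then 1 else 0)
    (hg : ¬ ∃ c : K, (g : Matrix (Fin n) (Fin n) K) = c • (1 : Matrix (Fin n) (Fin n) K))
    (hdet : (g : Matrix (Fin n) (Fin n) K).det = 1) :
    ∃ x y : GL (Fin n) K, g = (x * J * x⁻¹) * (y * J * y⁻¹) := by
  have hn1 : 1 ≤ n := by omega
  have hcard : Fintype.card (Fin n) = n := Fintype.card_fin n
  have hJt : (J : Matrix (Fin n) (Fin n) K) = (Cfsg.jordanBlock n K).transpose := by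
    ext i j
    rw [hJ, Matrix.transpose_apply, Cfsg.jordanBlock, Matrix.of_apply]
    by_cases h : i = j
    · simp [h]
    · have h1 : ¬ (j : ℕ) = i := fun h' => h (Fin.ext h'.symm)
      rw [if_neg h, if_neg h1]
  -- reduction to matrices
  suffices H : ∃ X Y : Matrix (Fin n) (Fin n) K, (g : Matrix (Fin n) (Fin n) K) = X * Y ∧
      IsConj (J : Matrix (Fin n) (Fin n) K) X ∧ IsConj (J : Matrix (Fin n) (Fin n) K) Y by
    obtain ⟨X, Y, hXY, ⟨x, hx⟩, ⟨y, hy⟩⟩ := H
    refine ⟨x, y, ?_⟩
    have hx' : (x : Matrix (Fin n) (Fin n) K) * J = X * x := hx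
    have hy' : (y : Matrix (Fin n) (Fin n) K) * J = Y * y := hy
    apply Units.ext
    rw [hXY]
    have e1 : X = ((x * J * x⁻¹ : GL (Fin n) K) : Matrix (Fin n) (Fin n) K) := by
      rw [Units.val_mul, Units.val_mul, hx', mul_assoc, ← Units.val_mul, mul_inv_cancel, Units.val_one, mul_one]
    have e2 : Y = ((y * J * y⁻¹ : GL (Fin n) K) : Matrix (Fin n) (Fin n) K) := by
      rw [Units.val_mul, Units.val_mul, hy', mul_assoc, ← Units.val_mul, mul_inv_cancel, Units.val_one, mul_one]
    rw [e1, e2, ← Units.val_mul]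
  set A : Matrix (Fin n) (Fin n) K := (g : Matrix (Fin n) (Fin n) K) with hA
  have hdetL : LinearMap.det (Matrix.toLin' A) = 1 := by rw [LinearMap.det_toLin', hdet]
  have hrk : (A - 1).rank = finrank K (LinearMap.range (Matrix.toLin' A - 1)) := by
    rw [Matrix.rank, ← Matrix.toLin'_apply', map_sub, Matrix.toLin'_one]
    rfl
  rcases Nat.lt_or_ge (A - 1).rank 2 with h | h
  · -- transvections
    have hne : (A - 1) ≠ 0 := by
      intro h0
      apply hg
      exact ⟨1, by rw [one_smul]; exact sub_eq_zero.1 h0⟩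
    have hr1 : (A - 1).rank = 1 := by
      have h0 : (A - 1).rank ≠ 0 := fun h0 => hne (H48.Jordan.eq_zero_of_rank h0)
      omega
    have hsq : (A - 1) ^ 2 = 0 := by
      obtain ⟨-, h2⟩ := rank_one_sq (Matrix.toLin' A) (by rw [← hrk, hr1]) hdetL
      have h3 : Matrix.toLin' ((A - 1) ^ 2) = 0 := by
        apply LinearMap.ext
        intro w
        rw [pow_two, Matrix.toLin'_mul, map_sub, Matrix.toLin'_one]
        exact h2 w
      exact Matrix.toLin'.injective (h3.trans (map_zero _).symm)
    set M : Matrix (Fin n) (Fin n) K := (H48.Jordan.J0 n K) with hM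
    have hMn : M ^ n = 0 := H48.Jordan.J0_pow_self n
    set B : Matrix (Fin n) (Fin n) K := 1 + M ^ (n - 1) with hB
    have hB1 : B - 1 = M ^ (n - 1) := by rw [hB]; abel
    have hconj : IsConj B A := by
      apply H48.Unip.isConj_of_unipotent (m := 2)
      · rw [hB1, ← pow_mul]
        have : (n - 1) * 2 = n + (n - 2) := by omega
        rw [this, pow_add, hMn, zero_mul]
      · exact hsq
      · intro k
        rw [hB1]
        match k with
        | 0 => rw [pow_zero, pow_zero]
        | 1 =>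
          rw [pow_one, pow_one, hr1, hM, H48.Jordan.rank_J0_pow]
          omega
        | (k + 2) =>
          have e1 : (A - 1) ^ (k + 2) = 0 := by rw [pow_add, hsq, mul_zero]
          have e2 : (M ^ (n - 1)) ^ (k + 2) = 0 := by
            rw [← pow_mul]
            have : (n - 1) * (k + 2) = n + ((n - 1) * k + (n - 2)) := by
              have : (n - 1) * (k + 2) = (n - 1) * k + (n - 1) * 2 := by ring
              omega
            rw [this, pow_add, hMn, zero_mul]
          rw [e1, e2]
    -- `B = X Y`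
    have hMnil : IsNilpotent M := ⟨n, hMn⟩
    have hu1 : IsUnit (1 + M) := hMnil.isUnit_one_add
    have hpow : IsNilpotent (M ^ (n - 2)) := ⟨n, by
      rw [← pow_mul, mul_comm, pow_mul, hMn]
      exact zero_pow (by omega)⟩
    have hu2 : IsUnit (1 - M ^ (n - 2)) := hpow.isUnit_one_sub
    obtain ⟨u, hu⟩ := hu1
    have hcomm : Commute M ((u⁻¹ : (Matrix (Fin n) (Fin n) K)ˣ) : Matrix (Fin n) (Fin n) K) := by
      apply Commute.units_inv_right
      rw [hu]
      exact (Commute.one_right M).add_right (Commute.refl M)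
    set X : Matrix (Fin n) (Fin n) K := B * ((u⁻¹ : (Matrix (Fin n) (Fin n) K)ˣ) : Matrix (Fin n) (Fin n) K) with hX
    have hX1 : X - 1 = M * (-(1 - M ^ (n - 2)) * ((u⁻¹ : (Matrix (Fin n) (Fin n) K)ˣ) : Matrix (Fin n) (Fin n) K)) := by
      have e1 : (1 : Matrix (Fin n) (Fin n) K) = (1 + M) * ((u⁻¹ : (Matrix (Fin n) (Fin n) K)ˣ) : Matrix (Fin n) (Fin n) K) := by
        rw [← hu, Units.mul_inv]
      conv_lhs => rw [e1, hX, hB]
      rw [← sub_mul, ← mul_assoc]
      congr 1
      have : M ^ (n - 1) = M * M ^ (n - 2) := by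
        rw [← pow_succ']
        congr 1
        omega
      rw [this]
      noncomm_ring
    have hXu : IsUnit (-(1 - M ^ (n - 2)) * ((u⁻¹ : (Matrix (Fin n) (Fin n) K)ˣ) : Matrix (Fin n) (Fin n) K)) :=
      (hu2.neg).mul (Units.isUnit _)
    have hXc : Commute M (-(1 - M ^ (n - 2)) * ((u⁻¹ : (Matrix (Fin n) (Fin n) K)ˣ) : Matrix (Fin n) (Fin n) K)) := by
      apply Commute.mul_right _ hcomm
      apply Commute.neg_right
      exact (Commute.one_right M).sub_right ((Commute.refl M).pow_right _)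
    have hrM : M.rank = n - 1 := by
      have := H48.Jordan.rank_J0_pow (F := K) n 1
      rwa [pow_one] at this
    have hXJ : IsConj (J : Matrix (Fin n) (Fin n) K) X := by
      refine isConj_J hn1 X (J : Matrix (Fin n) (Fin n) K) ?_ ?_ hJt
      · rw [hX1]
        exact hXc.isNilpotent_mul_right hMnil
      · rw [hX1, Matrix.rank_mul_eq_left_of_isUnit_det, hrM]
        exact (Matrix.isUnit_iff_isUnit_det _).1 hXu
    have hYJ : IsConj (J : Matrix (Fin n) (Fin n) K) (1 + M) := by
      refine isConj_J hn1 (1 + M) (J : Matrix (Fin n) (Fin n) K) ?_ ?_ hJt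
      · rw [add_sub_cancel_left]; exact hMnil
      · rw [add_sub_cancel_left, hrM]
    have hBXY : B = X * (1 + M) := by
      rw [hX, mul_assoc, ← hu, Units.inv_mul, mul_one]
    obtain ⟨c, hc⟩ := hconj
    have hc' : (c : Matrix (Fin n) (Fin n) K) * B = A * c := hc
    have cc : ∀ Z : Matrix (Fin n) (Fin n) K, IsConj Z ((c : Matrix (Fin n) (Fin n) K) * Z * ((c⁻¹ : (Matrix (Fin n) (Fin n) K)ˣ) : Matrix (Fin n) (Fin n) K)) := by
      intro Z
      refine ⟨c, ?_⟩
      show (c : Matrix (Fin n) (Fin n) K) * Z = (c * Z * ((c⁻¹ : (Matrix (Fin n) (Fin n) K)ˣ) : Matrix (Fin n) (Fin n) K)) * c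
      rw [mul_assoc (_ * Z), Units.inv_mul, mul_one]
    refine ⟨_, _, ?_, hXJ.trans (cc X), hYJ.trans (cc (1 + M))⟩
    calc A = A * (c * ((c⁻¹ : (Matrix (Fin n) (Fin n) K)ˣ) : Matrix (Fin n) (Fin n) K)) := by rw [Units.mul_inv, mul_one]
      _ = (c * (X * (1 + M))) * ((c⁻¹ : (Matrix (Fin n) (Fin n) K)ˣ) : Matrix (Fin n) (Fin n) K) := by
        rw [← mul_assoc, ← hc', hBXY]
      _ = _ := by
        rw [mul_assoc (_ * X), mul_assoc (c : Matrix (Fin n) (Fin n) K) (1 + M), ← mul_assoc _ (c : Matrix (Fin n) (Fin n) K), Units.inv_mul, one_mul]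
        simp only [mul_assoc]
  · -- the general case
    obtain ⟨m, rfl⟩ : ∃ m, n = m + 2 := ⟨n - 2, by omega⟩
    have hgood := good_main hK m (Fin (m + 2) → K) (by simp) (Matrix.toLin' A) hdetL (by
        intro μ
        by_contra hcon
        push Not at hcon
        apply hg
        refine ⟨μ, ?_⟩
        apply Matrix.toLin'.injective
        apply LinearMap.ext
        intro x
        rw [hcon, map_smul, Matrix.toLin'_one]
        rfl) (by rw [← hrk]; exact h) (Pi.single 0 1) (Pi.single_ne_zero_iff.2 one_ne_zero)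
        (LinearMap.proj 0) (by
          intro h0
          have := LinearMap.congr_fun h0 (Pi.single 0 1)
          rw [LinearMap.proj_apply, Pi.single_eq_same] at this
          exact one_ne_zero this)
    obtain ⟨X, Y, hXY, hX, hY, -, -⟩ := hgood
    obtain ⟨hX1, hX2⟩ := nilp_of_RU hX
    obtain ⟨hY1, hY2⟩ := nilp_of_RU hY
    refine ⟨LinearMap.toMatrix' X, LinearMap.toMatrix' Y, ?_, isConj_J hn1 _ J hX1 hX2 hJt, isConj_J hn1 _ J hY1 hY2 hJt⟩
    rw [← LinearMap.toMatrix'_comp]
    have : X ∘ₗ Y = Matrix.toLin' A := LinearMap.ext hXY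
    rw [this, LinearMap.toMatrix'_toLin']

end Cfsg.Agent.S2522
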