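import Cfsg.Statements.S2524
import Cfsg.Agent.Lib.H44.SpG

set_option autoImplicit false
open Cfsg

namespace Cfsg.Agent.S2524

theorem ar2 (q N : ℤ) (hq : 3 ≤ q) (hN : q ^ 2 ≤ N) : (q + 1) * (N + 1) < (N - 1) * (N - q) := by
  have h1 : 0 ≤ (q - 3) * (q + 1) := mul_nonneg (by linarith) (by linarith)
  have h2 : 1 ≤ N - 2 * q - 2 := by nlinarith
  have h3 : 9 ≤ N := by nlinarith
  have h4 : N * 1 ≤ N * (N - 2 * q - 2) := mul_le_mul_of_nonneg_left h2 (by linarith)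
  have h5 : (N - 1) * (N - q) - (q + 1) * (N + 1) = N * (N - 2 * q - 2) - 1 := by ring
  linarith

/-- Let F be a finite field of odd order q and G = Sp(2n, F) with n ≥ 2. Then G has exactly four irreducible complex characters of degree (q^n + 1)/2 or (q^n − 1)/2 (two of each), and every other non-principal irreducible character has degree at least (q^n − 1)(q^n − q)/(2(q + 1)). -/
theorem result {F : Type*} [Field F] [Fintype F] (hodd : Odd (Fintype.card F)) (n : ℕ) (hn : 2 ≤ n) :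
    Nat.card {χ : Cfsg.IrrCharacter ↥(Matrix.symplecticGroup (Fin n) F) // (χ : ↥(Matrix.symplecticGroup (Fin n) F) → ℂ) 1 = (((Fintype.card F) ^ n + 1 : ℕ) : ℂ) / 2} = 2 ∧
    Nat.card {χ : Cfsg.IrrCharacter ↥(Matrix.symplecticGroup (Fin n) F) // (χ : ↥(Matrix.symplecticGroup (Fin n) F) → ℂ) 1 = (((Fintype.card F) ^ n - 1 : ℕ) : ℂ) / 2} = 2 ∧
    ∀ χ : Cfsg.IrrCharacter ↥(Matrix.symplecticGroup (Fin n) F),
      (χ : ↥(Matrix.symplecticGroup (Fin n) F) → ℂ) 1 ≠ 1 →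
      (χ : ↥(Matrix.symplecticGroup (Fin n) F) → ℂ) 1 ≠ (((Fintype.card F) ^ n + 1 : ℕ) : ℂ) / 2 →
      (χ : ↥(Matrix.symplecticGroup (Fin n) F) → ℂ) 1 ≠ (((Fintype.card F) ^ n - 1 : ℕ) : ℂ) / 2 →
      (((Fintype.card F) ^ n - 1 : ℕ) : ℝ) * (((Fintype.card F) ^ n - Fintype.card F : ℕ) : ℝ) / (2 * ((Fintype.card F : ℕ) + 1 : ℝ)) ≤ ‖(χ : ↥(Matrix.symplecticGroup (Fin n) F) → ℂ) 1‖ := by

  classical
  have h2' : ringChar F ≠ 2 := by
    intro h3
    have h4 : ringChar F ∣ Fintype.card F :=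
      (CharP.cast_eq_zero_iff F (ringChar F) (Fintype.card F)).mp (FiniteField.cast_card_eq_zero F)
    rw [h3] at h4
    obtain ⟨k, hk⟩ := hodd
    omega
  have h2 : (2 : F) ≠ 0 := by
    intro h0
    have h1 : ringChar F ∣ 2 := (CharP.cast_eq_zero_iff F (ringChar F) 2).mp (by exact_mod_cast h0)
    rcases (Nat.dvd_prime Nat.prime_two).mp h1 with h | h
    · exact absurd h (CharP.char_is_prime F (ringChar F)).ne_one
    · exact h2' h
  obtain ⟨ψ, hψ⟩ : ∃ ψ : AddChar F ℂ, ψ ≠ 1 := by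
    obtain ⟨ψ, hψ⟩ := AddChar.exists_apply_ne_zero.mpr (one_ne_zero (α := F))
    refine ⟨ψ, ?_⟩
    rintro rfl
    exact hψ (AddChar.one_apply _)
  obtain ⟨m, rfl⟩ : ∃ m, n = m + 1 := ⟨n - 1, by omega⟩
  have hm : 1 ≤ m := by omega
  obtain ⟨ν, hν⟩ := FiniteField.exists_nonsquare h2'
  have hν0 : ν ≠ 0 := by rintro rfl; exact hν ⟨0, by simp⟩
  have hψ' := H44.SpW.mulShift_ne ψ hψ ν hν0
  have hnl : Nontrivial (Fin (m + 1)) := Fintype.one_lt_card_iff_nontrivial.mp (by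
    rw [Fintype.card_fin]; omega)
  have hq3 : 3 ≤ Fintype.card F := by
    have h1 : 1 < Fintype.card F := Fintype.one_lt_card
    obtain ⟨k, hk⟩ := hodd
    omega
  have hqN : Fintype.card F ^ 2 ≤ Fintype.card F ^ (m + 1) :=
    Nat.pow_le_pow_right (by omega) (by omega)
  have hcard : Fintype.card (Fin (m + 1)) = m + 1 := Fintype.card_fin _
  have hfE := H44.Weil.finrank_even (F := F) (l := Fin (m + 1)) h2
  have hfO := H44.Weil.finrank_odd (F := F) (l := Fin (m + 1)) h2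
  rw [Fintype.card_fun, hcard] at hfE hfO
  have key : ∀ χ : Cfsg.IrrCharacter ↥(Matrix.symplecticGroup (Fin (m + 1)) F),
      (χ : ↥(Matrix.symplecticGroup (Fin (m + 1)) F) → ℂ) 1 ≠ 1 →
      (∃ k : ℕ, (χ : ↥(Matrix.symplecticGroup (Fin (m + 1)) F) → ℂ) 1 = (k : ℂ) ∧
        (Fintype.card F ^ (m + 1) - 1 : ℤ) * (Fintype.card F ^ (m + 1) - Fintype.card F) ≤
          2 * (Fintype.card F + 1) * k) ∨
      ((χ.1 = (H44.Weil.weilPart (l := Fin (m + 1)) ψ h2 hψ H44.Weil.one_sq).character ∨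
        χ.1 = (H44.Weil.weilPart (l := Fin (m + 1)) ψ h2 hψ H44.Weil.neg_one_sq').character) ∨
      (χ.1 = (H44.Weil.weilPart (l := Fin (m + 1)) (ψ.mulShift ν) h2 hψ'
          H44.Weil.one_sq).character ∨
        χ.1 = (H44.Weil.weilPart (l := Fin (m + 1)) (ψ.mulShift ν) h2 hψ'
          H44.Weil.neg_one_sq').character)) := by
    rintro ⟨χ, k, ρ, hρ, rfl⟩ h1
    have hk : ρ.character 1 = (k : ℂ) := by
      rw [Representation.char_one, Module.finrank_fintype_fun_eq_card, Fintype.card_fin]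
    have hk1 : k ≠ 1 := by
      rintro rfl
      apply h1
      change ρ.character 1 = 1
      rw [hk]; simp
    have hk0 : k ≠ 0 := by
      rintro rfl
      obtain ⟨⟨v, hv⟩, _⟩ := (H44.LSIrr.irr_iff ρ).mp hρ
      exact hv (Subsingleton.elim _ _)
    have hnt := H44.LSIrr.exists_ne_one ρ hρ
      (by rw [Module.finrank_fintype_fun_eq_card, Fintype.card_fin]; omega)
    rcases H44.SpW.main ψ hψ h2 h2' hodd hm ν hν hψ' ρ hρ hnt with h | h
    · left
      rw [Module.finrank_fintype_fun_eq_card, Fintype.card_fin] at h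
      exact ⟨k, hk, h⟩
    · exact Or.inr h
  -- the degrees
  have hN1 : 1 ≤ Fintype.card F ^ (m + 1) := Nat.one_le_pow _ _ (by omega)
  have dE : ∀ (φ : AddChar F ℂ) (hφ : φ ≠ 1),
      (H44.Weil.weilPart (l := Fin (m + 1)) φ h2 hφ H44.Weil.one_sq).character 1 =
        (((Fintype.card F) ^ (m + 1) + 1 : ℕ) : ℂ) / 2 := by
    intro φ hφ
    rw [Representation.char_one, ← hfE]
    push_cast
    ring
  have hfO' : Fintype.card F ^ (m + 1) - 1 =
      2 * Module.finrank ℂ (H44.Weil.Vs (Fin (m + 1) → F) (-1)) := by omega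
  have dO : ∀ (φ : AddChar F ℂ) (hφ : φ ≠ 1),
      (H44.Weil.weilPart (l := Fin (m + 1)) φ h2 hφ H44.Weil.neg_one_sq').character 1 =
        (((Fintype.card F) ^ (m + 1) - 1 : ℕ) : ℂ) / 2 := by
    intro φ hφ
    rw [Representation.char_one, hfO']
    push_cast
    ring
  have hN9 : 9 ≤ Fintype.card F ^ (m + 1) := by
    calc 9 = 3 ^ 2 := by norm_num
      _ ≤ Fintype.card F ^ 2 := Nat.pow_le_pow_left hq3 2
      _ ≤ Fintype.card F ^ (m + 1) := hqN
  have hEO : (((Fintype.card F) ^ (m + 1) + 1 : ℕ) : ℂ) / 2 ≠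
      (((Fintype.card F) ^ (m + 1) - 1 : ℕ) : ℂ) / 2 := by
    intro h
    have h3 : (((Fintype.card F) ^ (m + 1) + 1 : ℕ) : ℂ) =
      (((Fintype.card F) ^ (m + 1) - 1 : ℕ) : ℂ) := by
      field_simp at h
      exact h
    have h4 : (Fintype.card F) ^ (m + 1) + 1 = (Fintype.card F) ^ (m + 1) - 1 := by
      exact_mod_cast h3
    omega
  have hE1 : (((Fintype.card F) ^ (m + 1) + 1 : ℕ) : ℂ) / 2 ≠ 1 := by
    intro h
    have h3 : (((Fintype.card F) ^ (m + 1) + 1 : ℕ) : ℂ) = ((2 : ℕ) : ℂ) := by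
      rw [div_eq_iff (by norm_num)] at h
      rw [h]; norm_num
    have h4 : (Fintype.card F) ^ (m + 1) + 1 = 2 := by exact_mod_cast h3
    omega
  have hO1 : (((Fintype.card F) ^ (m + 1) - 1 : ℕ) : ℂ) / 2 ≠ 1 := by
    intro h
    have h3 : (((Fintype.card F) ^ (m + 1) - 1 : ℕ) : ℂ) = ((2 : ℕ) : ℂ) := by
      rw [div_eq_iff (by norm_num)] at h
      rw [h]; norm_num
    have h4 : (Fintype.card F) ^ (m + 1) - 1 = 2 := by exact_mod_cast h3
    omega
  have hq3z : (3 : ℤ) ≤ Fintype.card F := by exact_mod_cast hq3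
  have hqNz : ((Fintype.card F : ℕ) : ℤ) ^ 2 ≤ ((Fintype.card F : ℕ) : ℤ) ^ (m + 1) := by
    exact_mod_cast hqN
  have har := ar2 _ _ hq3z hqNz
  have hboundE : ∀ k : ℕ, (k : ℂ) = (((Fintype.card F) ^ (m + 1) + 1 : ℕ) : ℂ) / 2 →
      ¬ ((Fintype.card F ^ (m + 1) - 1 : ℤ) * (Fintype.card F ^ (m + 1) - Fintype.card F) ≤
          2 * (Fintype.card F + 1) * k) := by
    intro k hk h
    have h3 : ((2 * k : ℕ) : ℂ) = ((Fintype.card F ^ (m + 1) + 1 : ℕ) : ℂ) := by
      rw [eq_div_iff (by norm_num)] at hk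
      rw [← hk]; push_cast; ring
    have h4 : 2 * k = Fintype.card F ^ (m + 1) + 1 := by exact_mod_cast h3
    have h5 : (2 : ℤ) * k = (Fintype.card F : ℤ) ^ (m + 1) + 1 := by exact_mod_cast h4
    have h6 : 2 * ((Fintype.card F : ℤ) + 1) * k =
        ((Fintype.card F : ℤ) + 1) * ((Fintype.card F : ℤ) ^ (m + 1) + 1) := by
      rw [← h5]; ring
    rw [h6] at h
    linarith
  have hboundO : ∀ k : ℕ, (k : ℂ) = (((Fintype.card F) ^ (m + 1) - 1 : ℕ) : ℂ) / 2 →
      ¬ ((Fintype.card F ^ (m + 1) - 1 : ℤ) * (Fintype.card F ^ (m + 1) - Fintype.card F) ≤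
          2 * (Fintype.card F + 1) * k) := by
    intro k hk h
    have h3 : ((2 * k : ℕ) : ℂ) = ((Fintype.card F ^ (m + 1) - 1 : ℕ) : ℂ) := by
      rw [eq_div_iff (by norm_num)] at hk
      rw [← hk]; push_cast; ring
    have h4 : 2 * k = Fintype.card F ^ (m + 1) - 1 := by exact_mod_cast h3
    have h4' : 2 * k + 1 = Fintype.card F ^ (m + 1) := by omega
    have h5 : (2 : ℤ) * k = (Fintype.card F : ℤ) ^ (m + 1) - 1 := by
      have : (2 : ℤ) * k + 1 = (Fintype.card F : ℤ) ^ (m + 1) := by exact_mod_cast h4'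
      linarith
    have h6 : 2 * ((Fintype.card F : ℤ) + 1) * k =
        ((Fintype.card F : ℤ) + 1) * ((Fintype.card F : ℤ) ^ (m + 1) + 1) -
          2 * ((Fintype.card F : ℤ) + 1) := by
      have : 2 * ((Fintype.card F : ℤ) + 1) * k = ((Fintype.card F : ℤ) + 1) * (2 * k) := by ring
      rw [this, h5]; ring
    rw [h6] at h
    linarith
  have iE : ∀ (φ : AddChar F ℂ) (hφ : φ ≠ 1), Cfsg.IsIrrCharacter _
      (H44.Weil.weilPart (l := Fin (m + 1)) φ h2 hφ H44.Weil.one_sq).character := fun φ hφ =>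
    H44.SpW.isIrr_of_rep _ (H44.SpW.even_irreducible φ h2 hφ hodd hcard hm)
  have iO : ∀ (φ : AddChar F ℂ) (hφ : φ ≠ 1), Cfsg.IsIrrCharacter _
      (H44.Weil.weilPart (l := Fin (m + 1)) φ h2 hφ H44.Weil.neg_one_sq').character := fun φ hφ =>
    H44.SpW.isIrr_of_rep _ (H44.Weil.odd_irreducible φ h2 hφ hodd hcard hm)
  refine ⟨?_, ?_, ?_⟩
  · rw [Nat.card_eq_two_iff]
    refine ⟨⟨⟨_, iE ψ hψ⟩, dE ψ hψ⟩, ⟨⟨_, iE _ hψ'⟩, dE _ hψ'⟩, ?_, ?_⟩
    · intro h
      exact H44.SpW.weil_char_ne ψ hodd h2 hψ ν hν hψ' H44.Weil.one_sq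
        (congrArg (fun z => z.1.1) h)
    · rw [Set.eq_univ_iff_forall]
      rintro ⟨χ, hχ⟩
      rcases key χ (by rw [hχ]; exact hE1) with ⟨k, hk, hb⟩ | (h | h) | (h | h)
      · exact absurd hb (hboundE k (hk.symm.trans hχ))
      · left
        exact Subtype.ext (Subtype.ext h)
      · exfalso
        apply hEO
        rw [← hχ, ← dO ψ hψ, ← h]
      · right
        exact Subtype.ext (Subtype.ext h)
      · exfalso
        apply hEO
        rw [← hχ, ← dO _ hψ', ← h]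
  · rw [Nat.card_eq_two_iff]
    refine ⟨⟨⟨_, iO ψ hψ⟩, dO ψ hψ⟩, ⟨⟨_, iO _ hψ'⟩, dO _ hψ'⟩, ?_, ?_⟩
    · intro h
      exact H44.SpW.weil_char_ne ψ hodd h2 hψ ν hν hψ' H44.Weil.neg_one_sq'
        (congrArg (fun z => z.1.1) h)
    · rw [Set.eq_univ_iff_forall]
      rintro ⟨χ, hχ⟩
      rcases key χ (by rw [hχ]; exact hO1) with ⟨k, hk, hb⟩ | (h | h) | (h | h)
      · exact absurd hb (hboundO k (hk.symm.trans hχ))
      · exfalso
        apply hEO
        rw [← hχ, ← dE ψ hψ, ← h]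
      · left
        exact Subtype.ext (Subtype.ext h)
      · exfalso
        apply hEO
        rw [← hχ, ← dE _ hψ', ← h]
      · right
        exact Subtype.ext (Subtype.ext h)
  · intro χ h1 hE hO
    rcases key χ h1 with ⟨k, hk, hb⟩ | (h | h) | (h | h)
    · rw [hk, Complex.norm_natCast, div_le_iff₀ (by positivity)]
      have hqN' : Fintype.card F ≤ Fintype.card F ^ (m + 1) := by
        calc Fintype.card F = Fintype.card F ^ 1 := (pow_one _).symm
          _ ≤ Fintype.card F ^ (m + 1) := Nat.pow_le_pow_right (by omega) (by omega)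
      rw [Nat.cast_sub hN1, Nat.cast_sub hqN']
      have hbr : ((Fintype.card F : ℝ) ^ (m + 1) - 1) *
          ((Fintype.card F : ℝ) ^ (m + 1) - Fintype.card F) ≤
          2 * ((Fintype.card F : ℝ) + 1) * k := by exact_mod_cast hb
      push_cast
      linarith
    · exact absurd ((congrFun h 1).trans (dE ψ hψ)) hE
    · exact absurd ((congrFun h 1).trans (dO ψ hψ)) hO
    · exact absurd ((congrFun h 1).trans (dE _ hψ')) hE
    · exact absurd ((congrFun h 1).trans (dO _ hψ')) hO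

end Cfsg.Agent.S2524
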