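import Cfsg.Statements.S2525
import Cfsg.Agent.Lib.H47.SpecF4c

set_option autoImplicit false
open Cfsg

namespace Cfsg.Agent.S2525

/-- Let F be a finite field with q = 2^n elements and G = F₄(F). For an odd prime r let e(r, q) be the multiplicative order of q modulo r. Two distinct primes r, s dividing the order of G are non-adjacent in the prime graph of G (no element of order rs) if and only if, up to swapping r and s, either r = 2 and e(s, q) ∈ {8, 12}, or r, s are both odd with k = e(r, q) < l = e(s, q) and one of: l ∈ {8, 12}; l = 6 and k ∈ {3, 4}; l = 4 and k = 3. -/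
theorem result {F : Type*} [Field F] [Fintype F] (n : ℕ) (hn : 1 ≤ n) (hF : Fintype.card F = 2 ^ n)
    (r s : ℕ) (hr : r.Prime) (hs : s.Prime) (hrs : r ≠ s) (hrG : r ∣ Nat.card ↥(Cfsg.Lie.chevF4.group F)) (hsG : s ∣ Nat.card ↥(Cfsg.Lie.chevF4.group F)) :
    (¬ ∃ x : ↥(Cfsg.Lie.chevF4.group F), orderOf x = r * s) ↔
      ((r = 2 ∧ orderOf ((Fintype.card F : ℕ) : ZMod s) ∈ ({8, 12} : Finset ℕ)) ∨ (s = 2 ∧ orderOf ((Fintype.card F : ℕ) : ZMod r) ∈ ({8, 12} : Finset ℕ)) ∨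
       (r ≠ 2 ∧ s ≠ 2 ∧
         ((orderOf ((Fintype.card F : ℕ) : ZMod r) < orderOf ((Fintype.card F : ℕ) : ZMod s) ∧ (orderOf ((Fintype.card F : ℕ) : ZMod s) ∈ ({8, 12} : Finset ℕ) ∨ (orderOf ((Fintype.card F : ℕ) : ZMod s) = 6 ∧ orderOf ((Fintype.card F : ℕ) : ZMod r) ∈ ({3, 4} : Finset ℕ)) ∨ (orderOf ((Fintype.card F : ℕ) : ZMod s) = 4 ∧ orderOf ((Fintype.card F : ℕ) : ZMod r) = 3))) ∨
          (orderOf ((Fintype.card F : ℕ) : ZMod s) < orderOf ((Fintype.card F : ℕ) : ZMod r) ∧ (orderOf ((Fintype.card F : ℕ) : ZMod r) ∈ ({8, 12} : Finset ℕ) ∨ (orderOf ((Fintype.card F : ℕ) : ZMod r) = 6 ∧ orderOf ((Fintype.card F : ℕ) : ZMod s) ∈ ({3, 4} : Finset ℕ)) ∨ (orderOf ((Fintype.card F : ℕ) : ZMod r) = 4 ∧ orderOf ((Fintype.card F : ℕ) : ZMod s) = 3)))))) := by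
  have hsymm : ∀ {a b : ℕ}, (∃ x : ↥(Cfsg.Lie.chevF4.group F), orderOf x = a * b) →
      ∃ x : ↥(Cfsg.Lie.chevF4.group F), orderOf x = b * a := by
    rintro a b ⟨x, hx⟩
    exact ⟨x, by rw [hx, mul_comm]⟩
  have : Fact r.Prime := ⟨hr⟩
  have : Fact s.Prime := ⟨hs⟩
  simp only [hF, Finset.mem_insert, Finset.mem_singleton]
  constructor
  · intro hno
    by_cases hr2 : r = 2
    · left
      refine ⟨hr2, ?_⟩
      by_contra hc
      have hs2 : s ≠ 2 := fun h => hrs (hr2.trans h.symm)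
      obtain ⟨g, hg⟩ := H47.SpecF4.ex_two hF hs2 hsG hc
      exact hno ⟨g, by rw [hg, hr2, mul_comm]⟩
    · by_cases hs2 : s = 2
      · right; left
        refine ⟨hs2, ?_⟩
        by_contra hc
        obtain ⟨g, hg⟩ := H47.SpecF4.ex_two hF hr2 hrG hc
        exact hno ⟨g, by rw [hg, hs2]⟩
      · right; right
        refine ⟨hr2, hs2, ?_⟩
        by_contra hc
        rw [not_or] at hc
        rcases le_total (orderOf ((2 ^ n : ℕ) : ZMod r)) (orderOf ((2 ^ n : ℕ) : ZMod s)) with hle | hle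
        · exact hno (H47.SpecF4.ex_odd hF hrs hr2 hs2 hrG hsG hle hc.1)
        · exact hno (hsymm (H47.SpecF4.ex_odd hF hrs.symm hs2 hr2 hsG hrG hle hc.2))
  · rintro (⟨h1, h2⟩ | ⟨h1, h2⟩ | ⟨h1, h2, h3 | h3⟩) ⟨g, hg⟩
    · have hs2 : s ≠ 2 := fun h => hrs (h1.trans h.symm)
      exact H47.SpecF4.no_two hF hs2 h2 g (by rw [hg, h1, mul_comm])
    · have hr2 : r ≠ 2 := fun h => hrs (h.trans h1.symm)
      exact H47.SpecF4.no_two hF hr2 h2 g (by rw [hg, h1])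
    · exact H47.SpecF4.no_odd hF h1 h2 h3.1 h3.2 g hg
    · exact H47.SpecF4.no_odd hF h2 h1 h3.1 h3.2 g (by rw [hg, mul_comm])

end Cfsg.Agent.S2525
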