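import Cfsg.Statements.S2558
import Cfsg.Agent.Lib.H46.OrthFinal

set_option autoImplicit false
open Cfsg

namespace Cfsg.Agent.S2558

/-- The number of conjugacy classes of the full orthogonal groups O⁺(2n,q) and O⁻(2n,q), q odd, 2n ≥ 4: for F a finite field of odd order q and n ≥ 2, the number k of conjugacy classes of the isometry group of the hyperbolic quadratic form Σ xᵢyᵢ on F^{2n}, and likewise of the elliptic form Σ xᵢyᵢ + (z₁² + a z₁z₂ + b z₂²) with anisotropic binary part, satisfies q^n/2 ≤ k ≤ 9.5·q^n. -/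
theorem result {F : Type*} [Field F] [Fintype F] (hodd : Odd (Fintype.card F)) (n : ℕ) (hn : 2 ≤ n) (a b : F) (hab : ∀ z₁ z₂ : F, z₁ ^ 2 + a * z₁ * z₂ + b * z₂ ^ 2 = 0 → z₁ = 0 ∧ z₂ = 0) :
    (Fintype.card F ^ n ≤ 2 * Nat.card (ConjClasses ↥(Cfsg.isometryGroup F (Cfsg.quadFormPlus n F))) ∧
      2 * Nat.card (ConjClasses ↥(Cfsg.isometryGroup F (Cfsg.quadFormPlus n F))) ≤ 19 * Fintype.card F ^ n) ∧
    (Fintype.card F ^ n ≤ 2 * Nat.card (ConjClasses ↥(Cfsg.isometryGroup F (Cfsg.quadFormMinus (n - 1) F a b))) ∧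
      2 * Nat.card (ConjClasses ↥(Cfsg.isometryGroup F (Cfsg.quadFormMinus (n - 1) F a b))) ≤ 19 * Fintype.card F ^ n) := by
  have hq : Nat.card F = Fintype.card F := Nat.card_eq_fintype_card
  have h2 : (2 : F) ≠ 0 := by
    intro h
    have h3 : Even (Fintype.card F) := by
      have h4 : ringChar F = 2 := by
        have h5 : ringChar F ∣ 2 := (ringChar.spec F 2).mp (by exact_mod_cast h)
        rcases (Nat.dvd_prime Nat.prime_two).mp h5 with h6 | h6
        · exact absurd h6 (CharP.ringChar_ne_one)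
        · exact h6
      exact Nat.even_iff.mpr (FiniteField.even_card_of_char_two h4)
    exact (Nat.not_even_iff_odd.mpr hodd) h3
  have hodd' : Odd (Nat.card F) := by rw [hq]; exact hodd
  constructor
  · have h := H46.OrthFinal.bounds hodd' h2 (H48.QuadStd.qPlus n F) (H48.QuadStd.nd_qPlus n) hn (by
      rw [Fintype.card_sum, Fintype.card_fin]; omega)
    rw [H48.QuadStd.coe_qPlus, hq] at h
    exact h
  · have h := H46.OrthFinal.bounds hodd' h2 (H48.QuadStd.qMinus (n - 1) F a b) (H48.QuadStd.nd_qMinus (n - 1) (H48.QuadStd.disc_ne_zero hab)) hn (by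
      rw [Fintype.card_sum, Fintype.card_sum, Fintype.card_fin, Fintype.card_fin]; omega)
    rw [H48.QuadStd.coe_qMinus, hq] at h
    exact h

end Cfsg.Agent.S2558
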