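import Cfsg.Statements.S2560
import Cfsg.Agent.Lib.H46.OddFinal

set_option autoImplicit false
open Cfsg

namespace Cfsg.Agent.S2560

/-- The number of conjugacy classes of Ω(2n+1,q), q odd, n ≥ 2: for F a finite field of odd order q, the number k of conjugacy classes of the commutator subgroup of the isometry group of the quadratic form x₀² + Σ xᵢyᵢ on F^{2n+1} satisfies q^n/2 ≤ k ≤ 7.3·q^n. -/
theorem result {F : Type*} [Field F] [Fintype F] (hodd : Odd (Fintype.card F)) (n : ℕ) (hn : 2 ≤ n) :
    Fintype.card F ^ n ≤ 2 * Nat.card (ConjClasses ↥(Cfsg.Omega F (Cfsg.quadFormOdd n F))) ∧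
      10 * Nat.card (ConjClasses ↥(Cfsg.Omega F (Cfsg.quadFormOdd n F))) ≤ 73 * Fintype.card F ^ n := by
  have hq : Nat.card F = Fintype.card F := Nat.card_eq_fintype_card
  have h2 : (2 : F) ≠ 0 := by
    intro h
    have h3 : Even (Fintype.card F) := by
      have h4 : ringChar F = 2 := by
        have h5 : ringChar F ∣ 2 := (ringChar.spec F 2).mp (by exact_mod_cast h)
        rcases (Nat.dvd_prime Nat.prime_two).mp h5 with h6 | h6
        · exact absurd h6 (CharP.ringChar_ne_one)
        · exact h6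
      exact Nat.even_iff.mpr (FiniteField.even_card_of_char_two h4)
    exact (Nat.not_even_iff_odd.mpr hodd) h3
  have hodd' : Odd (Nat.card F) := by rw [hq]; exact hodd
  have h := H46.OddFinal.bounds hodd' h2 (H48.QuadStd.qOdd n F 1) (H48.QuadStd.nd_qOdd n h2 one_ne_zero) hn (by
    rw [Fintype.card_sum, Fintype.card_sum, Fintype.card_fin, Fintype.card_unit]; omega)
  have hE := H17.OrthTrans.equiv (H48.QuadStd.qOdd n F 1)
  have hk : Nat.card (ConjClasses (commutator ↥(H17.OrthAbs.O (H48.QuadStd.qOdd n F 1)))) =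
      Nat.card (ConjClasses ↥(Cfsg.Omega F ⇑(H48.QuadStd.qOdd n F 1))) :=
    (H46.OddFinal.card_conj_congr ((hE.subgroupMap (commutator _)).trans
      (MulEquiv.subgroupCongr (H17.OrthTrans2.commutator_map hE)))).symm
  rw [hk, H48.QuadStd.coe_qOdd, hq] at h
  exact h

end Cfsg.Agent.S2560
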