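import Cfsg.Statements.S2648
import Cfsg.Agent.Lib.H98.SpDLB

set_option autoImplicit false
open Cfsg

namespace Cfsg.Agent.S2648

open H98.SpDLA H98.SpDLB

theorem upper {F : Type*} [Field F] [Finite F] (h2 : (2 : F) ≠ 0) (n : ℕ)
    (R : Subgroup ↥(Matrix.symplecticGroup (Fin n) F)) (hR : IsPGroup 2 R) :
    DS (Nat.log 2 (2 * n) + 1) R = ⊥ := by
  let K := AlgebraicClosure F
  have h2K : (2 : K) ≠ 0 := by
    intro h
    apply h2
    apply (algebraMap F K).injective
    rw [map_zero, map_ofNat]
    exact h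
  have hsq : ∀ x : K, ∃ y, y * y = x := by
    intro x
    obtain ⟨y, hy⟩ := IsAlgClosed.exists_pow_nat_eq x (n := 2) (by norm_num)
    exact ⟨y, by rw [← hy, pow_two]⟩
  let f : Matrix (Fin n ⊕ Fin n) (Fin n ⊕ Fin n) F →* Module.End K (Fin n ⊕ Fin n → K) :=
    { toFun := fun M => Matrix.toLin' (M.map (algebraMap F K))
      map_one' := by
        rw [Matrix.map_one _ (map_zero _) (map_one _), Matrix.toLin'_one]
        rfl
      map_mul' := by
        intro x y
        rw [Matrix.map_mul, Matrix.toLin'_mul]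
        rfl }
  have hf : Function.Injective f := by
    intro x y hxy
    have h1 : x.map (algebraMap F K) = y.map (algebraMap F K) := Matrix.toLin'.injective hxy
    exact Matrix.map_injective (algebraMap F K).injective h1
  let ρ : ↥(Matrix.symplecticGroup (Fin n) F) →* Module.End K (Fin n ⊕ Fin n → K) :=
    f.comp (Matrix.symplecticGroup (Fin n) F).subtype
  rw [eq_bot_iff]
  intro g hg
  have hfin : Module.finrank K (⊤ : Submodule K (Fin n ⊕ Fin n → K)) = 2 * n := by
    rw [finrank_top, Module.finrank_fintype_fun_eq_card]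
    simp
    ring
  have hg' := up h2K hsq ρ (2 * n) (Nat.log 2 (2 * n)) ⊤ R inferInstance inferInstance hR
    (fun g _ w _ => Submodule.mem_top) hfin (Nat.lt_pow_succ_log_self (by norm_num) _) g hg
  rw [Subgroup.mem_bot]
  apply Subtype.ext
  apply hf
  apply LinearMap.ext
  intro w
  rw [OneMemClass.coe_one, map_one]
  exact hg' w Submodule.mem_top

/-- Let q be odd, F a field with q elements and n ≥ 1. A Sylow 2-subgroup R of the symplectic group Sp_{2n}(F) has derived length exactly k + 1, where 2^k ≤ 2n < 2^{k+1}: the (k+1)-st term of its derived series is trivial and the k-th is not. -/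
theorem result {F : Type*} [Field F] [Fintype F] [DecidableEq F] (q : ℕ) (hF : Fintype.card F = q) (hq : Odd q) (n : ℕ) (hn : 1 ≤ n) (R : Sylow 2 ↥(Matrix.symplecticGroup (Fin n) F)) : derivedSeries ↥(R : Subgroup ↥(Matrix.symplecticGroup (Fin n) F)) (Nat.log 2 (2 * n) + 1) = ⊥ ∧ derivedSeries ↥(R : Subgroup ↥(Matrix.symplecticGroup (Fin n) F)) (Nat.log 2 (2 * n)) ≠ ⊥ := by
  classical
  haveI : Fact (Nat.Prime 2) := ⟨Nat.prime_two⟩
  have h2 : (2 : F) ≠ 0 := by
    intro h
    have h1 : ringChar F ∣ 2 := (ringChar.spec F 2).mp (by exact_mod_cast h)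
    have h3 : ringChar F = 2 := by
      rcases (Nat.dvd_prime Nat.prime_two).mp h1 with h4 | h4
      · exact absurd h4 CharP.ringChar_ne_one
      · exact h4
    have h4 := FiniteField.even_card_of_char_two h3
    rw [hF] at h4
    rcases hq with ⟨k, hk⟩
    omega
  constructor
  · rw [derivedSeries_eq_bot_iff]
    exact upper h2 n R R.isPGroup'
  · obtain ⟨P, hP, hD⟩ := lower F h2 n hn
    obtain ⟨Q, hQ⟩ := hP.exists_le_sylow
    have h5 : derivedSeries ↥(Q : Subgroup ↥(Matrix.symplecticGroup (Fin n) F)) (Nat.log 2 (2 * n)) ≠ ⊥ := by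
      rw [ne_eq, derivedSeries_eq_bot_iff]
      intro h
      apply hD
      rw [eq_bot_iff, ← h]
      exact DS_mono _ hQ
    intro h
    apply h5
    have h6 := map_derivedSeries_le_derivedSeries (Sylow.equiv Q R).toMonoidHom (Nat.log 2 (2 * n))
    rw [h, le_bot_iff, Subgroup.map_eq_bot_iff_of_injective _ (Sylow.equiv Q R).injective] at h6
    exact h6

end Cfsg.Agent.S2648
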