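import Cfsg.Statements.S2896
import Cfsg.Agent.Lib.H53.CharPFit
import Cfsg.Agent.Lib.H53.Par

set_option autoImplicit false
open Cfsg

namespace Cfsg.Agent.S2896

open H53.CharP in
theorem centralizer_conj {G : Type*} [Group G] (z g : G) :
    (Subgroup.centralizer ({z} : Set G)).map (MulAut.conj g).toMonoidHom = Subgroup.centralizer ({g * z * g⁻¹} : Set G) := by
  ext y
  rw [Subgroup.mem_centralizer_singleton_iff]
  constructor
  · rintro ⟨x, hx, rfl⟩
    have hx' := Subgroup.mem_centralizer_singleton_iff.mp hx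
    show g * x * g⁻¹ * (g * z * g⁻¹) = g * z * g⁻¹ * (g * x * g⁻¹)
    calc g * x * g⁻¹ * (g * z * g⁻¹) = g * (x * z) * g⁻¹ := by group
      _ = g * (z * x) * g⁻¹ := by rw [hx']
      _ = _ := by group
  · intro hy
    refine ⟨g⁻¹ * y * g, ?_, by show g * (g⁻¹ * y * g) * g⁻¹ = y; group⟩
    apply Subgroup.mem_centralizer_singleton_iff.mpr
    calc g⁻¹ * y * g * z = g⁻¹ * (y * (g * z * g⁻¹)) * g := by group
      _ = g⁻¹ * (g * z * g⁻¹ * y) * g := by rw [hy]
      _ = _ := by group

theorem cp_centralizer_conj_iff {G : Type*} [Group G] {p : ℕ} (z g : G) :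
    H53.CharP.CP p (Subgroup.centralizer ({g * z * g⁻¹} : Set G)) → H53.CharP.CP p (Subgroup.centralizer ({z} : Set G)) := by
  intro h
  have h1 := h.conj g⁻¹
  rw [centralizer_conj] at h1
  have e : g⁻¹ * (g * z * g⁻¹) * g⁻¹⁻¹ = z := by group
  rwa [e] at h1

theorem omegaOne_mem {G : Type*} [Group G] {p : ℕ} {H : Subgroup G} (hH : ∀ x ∈ H, ∀ y ∈ H, x * y = y * x) {z : G}
    (hz : z ∈ Cfsg.omegaOne p H) : z ∈ H ∧ z ^ p = 1 := by
  unfold Cfsg.omegaOne at hz
  induction hz using Subgroup.closure_induction with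
  | mem x hx => exact hx
  | one => exact ⟨H.one_mem, one_pow _⟩
  | mul x y _ _ hx hy =>
    refine ⟨H.mul_mem hx.1 hy.1, ?_⟩
    have hc : Commute x y := hH x hx.1 y hy.1
    rw [hc.mul_pow, hx.2, hy.2, one_mul]
  | inv x _ hx => exact ⟨H.inv_mem hx.1, by rw [inv_pow, hx.2, inv_one]⟩

/-- Let p be a prime dividing the order of the finite group G, S a Sylow p-subgroup of G and X a subgroup of S. (i) If some nontrivial element z of the centre of X has F*(C_G(z)) = O_p(C_G(z)), then F*(N_G(X)) = O_p(N_G(X)). (ii) G has parabolic characteristic p if and only if F*(C_G(z)) = O_p(C_G(z)) for every nontrivial z ∈ Ω₁(Z(S)). (iii) If F*(C_G(z)) = O_p(C_G(z)) for every element z of S of order p, then G has local characteristic p. -/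
theorem result {G : Type*} [Group G] [Finite G] {p : ℕ} [Fact p.Prime] (hdiv : p ∣ Nat.card G) (S : Sylow p G) (X : Subgroup G) (hX : X ≤ (S : Subgroup G)) : (∀ z : G, z ≠ 1 → z ∈ X → (∀ x ∈ X, x * z = z * x) → Cfsg.generalizedFittingSubgroup ↥(Subgroup.centralizer ({z} : Set G)) = Cfsg.pCore p ↥(Subgroup.centralizer ({z} : Set G)) → Cfsg.generalizedFittingSubgroup ↥(Subgroup.normalizer (X : Set G)) = Cfsg.pCore p ↥(Subgroup.normalizer (X : Set G))) ∧ (Cfsg.IsOfParabolicCharacteristic p G ↔ ∀ z : G, z ≠ 1 → z ∈ Cfsg.omegaOne p ((S : Subgroup G) ⊓ Subgroup.centralizer ((S : Subgroup G) : Set G)) → Cfsg.generalizedFittingSubgroup ↥(Subgroup.centralizer ({z} : Set G)) = Cfsg.pCore p ↥(Subgroup.centralizer ({z} : Set G))) ∧ ((∀ z : G, z ∈ (S : Subgroup G) → orderOf z = p → Cfsg.generalizedFittingSubgroup ↥(Subgroup.centralizer ({z} : Set G)) = Cfsg.pCore p ↥(Subgroup.centralizer ({z} : Set G))) → Cfsg.IsOfLocalCharacteristic p G) := by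
  have hSc : ∀ x ∈ (S : Subgroup G) ⊓ Subgroup.centralizer ((S : Subgroup G) : Set G),
      ∀ y ∈ (S : Subgroup G) ⊓ Subgroup.centralizer ((S : Subgroup G) : Set G), x * y = y * x := by
    intro x hx y hy
    exact Subgroup.mem_centralizer_iff.mp hy.2 x hx.1
  have horder : ∀ z : G, z ≠ 1 → z ^ p = 1 → orderOf z = p := by
    intro z hz hzp
    exact orderOf_eq_prime hzp hz
  refine ⟨?_, ?_, ?_⟩
  · intro z hz1 hzX hzc hF
    rw [H53.CharPFit.gFitting_eq_pCore_iff, ← H53.CharP.cp_iff] at hF ⊢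
    exact H53.CharP.CP.normalizer_of_central (S.2.to_le hX) hzX hzc hF
  · rw [H53.Par.par_iff]
    constructor
    · intro h z hz1 hz
      rw [H53.CharPFit.gFitting_eq_pCore_iff, ← H53.CharP.cp_iff]
      obtain ⟨⟨hz2, hz3⟩, hz4⟩ := omegaOne_mem hSc hz
      exact h S z hz2 (horder z hz1 hz4) (fun s hs => Subgroup.mem_centralizer_iff.mp hz3 s hs)
    · intro h T z hzT hzo hzc
      obtain ⟨g, hg⟩ := MulAction.exists_smul_eq G T S
      apply cp_centralizer_conj_iff z g
      rw [H53.CharP.cp_iff, ← H53.CharPFit.gFitting_eq_pCore_iff]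
      have hz1 : z ≠ 1 := H53.SPE2.ne_one_of_orderOf hzo
      have hzS : g * z * g⁻¹ ∈ (S : Subgroup G) := by
        rw [← hg, Sylow.coe_subgroup_smul]
        exact Subgroup.smul_mem_pointwise_smul _ (MulAut.conj g) _ hzT
      apply h
      · intro h1
        apply hz1
        calc z = g⁻¹ * (g * z * g⁻¹) * g := by group
          _ = 1 := by rw [h1]; group
      · apply Subgroup.subset_closure
        refine ⟨⟨hzS, Subgroup.mem_centralizer_iff.mpr ?_⟩, ?_⟩
        · intro s hs
          rw [← hg, Sylow.coe_subgroup_smul, SetLike.mem_coe, Subgroup.mem_pointwise_smul_iff_inv_smul_mem] at hs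
          have hs' : g⁻¹ * s * g ∈ (T : Subgroup G) := by simpa [← map_inv] using hs
          have := hzc _ hs'
          calc s * (g * z * g⁻¹) = g * (g⁻¹ * s * g * z) * g⁻¹ := by group
            _ = g * (z * (g⁻¹ * s * g)) * g⁻¹ := by rw [this]
            _ = _ := by group
        · rw [conj_pow, ← hzo, pow_orderOf_eq_one]; group
  · intro h
    refine ⟨hdiv, ?_⟩
    intro T hTp hT1
    rw [← H53.CharP.cp_iff]
    obtain ⟨z, hzT, hzo, hzc⟩ := H53.SPE2.exists_central_orderOf_eq hTp hT1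
    apply H53.CharP.CP.normalizer_of_central hTp hzT (fun x hx => (hzc x hx).symm)
    obtain ⟨R, hR⟩ := hTp.exists_le_sylow
    obtain ⟨g, hg⟩ := MulAction.exists_smul_eq G R S
    apply cp_centralizer_conj_iff z g
    rw [H53.CharP.cp_iff, ← H53.CharPFit.gFitting_eq_pCore_iff]
    apply h
    · rw [← hg, Sylow.coe_subgroup_smul]
      exact Subgroup.smul_mem_pointwise_smul _ (MulAut.conj g) _ (hR hzT)
    · rw [← hzo]; exact (MulAut.conj g).orderOf_eq z

end Cfsg.Agent.S2896
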