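import Cfsg.Statements.S2897
import Cfsg.Agent.Lib.H53.Par

set_option autoImplicit false
open Cfsg

namespace Cfsg.Agent.S2897

/-- Let p be a prime dividing the order of the finite group G, suppose G has parabolic characteristic p, let S be a Sylow p-subgroup of G and G₁ a normal subgroup of G. If Ω₁(Z(S ∩ G₁)) is nontrivial and contained in Ω₁(Z(S)), then G₁ has parabolic characteristic p. -/
theorem result {G : Type*} [Group G] [Finite G] {p : ℕ} [Fact p.Prime] (hdiv : p ∣ Nat.card G) (hG : Cfsg.IsOfParabolicCharacteristic p G) (S : Sylow p G) (G₁ : Subgroup G) [G₁.Normal] (hne : Cfsg.omegaOne p (((S : Subgroup G) ⊓ G₁) ⊓ Subgroup.centralizer (((S : Subgroup G) ⊓ G₁ : Subgroup G) : Set G)) ≠ ⊥) (hle : Cfsg.omegaOne p (((S : Subgroup G) ⊓ G₁) ⊓ Subgroup.centralizer (((S : Subgroup G) ⊓ G₁ : Subgroup G) : Set G)) ≤ Cfsg.omegaOne p ((S : Subgroup G) ⊓ Subgroup.centralizer ((S : Subgroup G) : Set G))) : Cfsg.IsOfParabolicCharacteristic p ↥G₁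 := by
  have hGn : G₁.Normal := inferInstance
  have hpi := (H53.Par.par_iff (G := G) (p := p)).mp hG
  rw [H53.Par.par_iff]
  intro T z hzT hzo hzc
  rw [← H53.Par.cp_map_subtype]
  -- `T` corresponds to a `p`-subgroup of `G` inside a Sylow subgroup
  have hTp : IsPGroup p ↥((T : Subgroup ↥G₁).map G₁.subtype) := T.2.map _
  obtain ⟨R, hR⟩ := hTp.exists_le_sylow
  obtain ⟨g, hg⟩ := MulAction.exists_smul_eq G R S
  -- `R ⊓ G₁ = T`
  have hRT : (R : Subgroup G) ⊓ G₁ ≤ (T : Subgroup ↥G₁).map G₁.subtype := by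
    rintro x ⟨hx1, hx2⟩
    have h1 : IsPGroup p ↥((R : Subgroup G).subgroupOf G₁) :=
      R.2.comap_of_injective G₁.subtype G₁.subtype_injective
    have h2 : (T : Subgroup ↥G₁) ≤ (R : Subgroup G).subgroupOf G₁ := by
      intro y hy
      exact hR ⟨y, hy, rfl⟩
    have h3 := T.3 h1 h2
    refine ⟨⟨x, hx2⟩, ?_, rfl⟩
    have h4 : (⟨x, hx2⟩ : ↥G₁) ∈ (R : Subgroup G).subgroupOf G₁ := hx1
    rw [h3] at h4
    exact h4
  have hRS : ∀ s, s ∈ (S : Subgroup G) → g⁻¹ * s * g ∈ (R : Subgroup G) := by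
    intro s hs
    rw [← hg, Sylow.coe_subgroup_smul, Subgroup.mem_pointwise_smul_iff_inv_smul_mem] at hs
    simpa [← map_inv] using hs
  have hSR : ∀ s, s ∈ (R : Subgroup G) → g * s * g⁻¹ ∈ (S : Subgroup G) := by
    intro s hs
    rw [← hg, Sylow.coe_subgroup_smul]
    exact Subgroup.smul_mem_pointwise_smul _ (MulAut.conj g) _ hs
  have hzR : (z : G) ∈ (R : Subgroup G) := hR ⟨z, hzT, rfl⟩
  -- g z g⁻¹ is in Ω₁(Z(S ∩ G₁))
  have hmem : g * z * g⁻¹ ∈ Cfsg.omegaOne p (((S : Subgroup G) ⊓ G₁) ⊓ Subgroup.centralizer (((S : Subgroup G) ⊓ G₁ : Subgroup G) : Set G)) := by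
    apply Subgroup.subset_closure
    refine ⟨⟨⟨hSR _ hzR, hGn.conj_mem _ z.2 g⟩, Subgroup.mem_centralizer_iff.mpr ?_⟩, ?_⟩
    · rintro y ⟨hy1, hy2⟩
      have h1 : g⁻¹ * y * g ∈ (T : Subgroup ↥G₁).map G₁.subtype := by
        apply hRT
        refine ⟨hRS y hy1, ?_⟩
        have := hGn.conj_mem _ hy2 g⁻¹
        simpa using this
      obtain ⟨t, ht, hte⟩ := h1
      have h2 : (t : G) * z = z * t := congrArg Subtype.val (hzc t ht)
      rw [show (t : G) = g⁻¹ * y * g from hte] at h2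
      calc y * (g * z * g⁻¹) = g * (g⁻¹ * y * g * z) * g⁻¹ := by group
        _ = g * (z * (g⁻¹ * y * g)) * g⁻¹ := by rw [h2]
        _ = _ := by group
    · have h1 : z ^ p = 1 := by rw [← hzo]; exact pow_orderOf_eq_one z
      have h2 : (z : G) ^ p = 1 := congrArg Subtype.val h1
      rw [conj_pow, h2]; group
  have hmem2 := hle hmem
  -- hence central in S
  have hcent : g * z * g⁻¹ ∈ (S : Subgroup G) ⊓ Subgroup.centralizer ((S : Subgroup G) : Set G) := by
    have h1 : Cfsg.omegaOne p ((S : Subgroup G) ⊓ Subgroup.centralizer ((S : Subgroup G) : Set G)) ≤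
        (S : Subgroup G) ⊓ Subgroup.centralizer ((S : Subgroup G) : Set G) := by
      unfold Cfsg.omegaOne
      rw [Subgroup.closure_le]
      rintro x ⟨hx, -⟩
      exact hx
    exact h1 hmem2
  have hzo' : orderOf (z : G) = p := by rw [← hzo]; exact Subgroup.orderOf_coe z
  have hcp := hpi R z hzR hzo' (by
    intro s hs
    have h1 := Subgroup.mem_centralizer_iff.mp hcent.2 _ (hSR s hs)
    calc s * z = g⁻¹ * (g * s * g⁻¹ * (g * z * g⁻¹)) * g := by group
      _ = g⁻¹ * (g * z * g⁻¹ * (g * s * g⁻¹)) * g := by rw [h1]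
      _ = _ := by group)
  have heq : (Subgroup.centralizer ({z} : Set ↥G₁)).map G₁.subtype = G₁ ⊓ Subgroup.centralizer ({(z : G)} : Set G) := by
    ext x
    constructor
    · rintro ⟨y, hy, rfl⟩
      refine ⟨y.2, ?_⟩
      have := Subgroup.mem_centralizer_singleton_iff.mp hy
      exact Subgroup.mem_centralizer_singleton_iff.mpr (congrArg Subtype.val this)
    · rintro ⟨hx1, hx2⟩
      refine ⟨⟨x, hx1⟩, ?_, rfl⟩
      have := Subgroup.mem_centralizer_singleton_iff.mp hx2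
      exact Subgroup.mem_centralizer_singleton_iff.mpr (Subtype.ext this)
  rw [heq]
  apply hcp.of_normal inf_le_right
  intro c hc
  apply H53.SPE.mem_normalizer_of_finite
  rintro n ⟨hn1, hn2⟩
  exact ⟨hGn.conj_mem n hn1 c, (Subgroup.centralizer ({(z : G)} : Set G)).mul_mem
    ((Subgroup.centralizer ({(z : G)} : Set G)).mul_mem hc hn2) ((Subgroup.centralizer ({(z : G)} : Set G)).inv_mem hc)⟩

end Cfsg.Agent.S2897
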