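import Cfsg.Statements.S2898
import Cfsg.Agent.Lib.H53.Par

set_option autoImplicit false
open Cfsg

namespace Cfsg.Agent.S2898

/-- Let G be a finite group of even order with parabolic characteristic 2. If the centre of G ⧸ O(G) is trivial, then O(G) = 1. -/
theorem result {G : Type*} [Group G] [Finite G] (h2 : 2 ∣ Nat.card G) (hG : Cfsg.IsOfParabolicCharacteristic 2 G) [hN : (Cfsg.oddCore G).Normal] (hZ : Subgroup.center (G ⧸ Cfsg.oddCore G) = ⊥) : Cfsg.oddCore G = ⊥ := by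
  have hpi := (H53.Par.par_iff (G := G) (p := 2)).mp hG
  obtain ⟨S⟩ : Nonempty (Sylow 2 G) := inferInstance
  set O : Subgroup G := Cfsg.oddCore G with hO
  have hOcop : (Nat.card ↥O).Coprime 2 := H1.Cores.coprime_card_pPrimeCore 2
  by_contra hne
  have hOn : (⊤ : Subgroup G) ≤ Subgroup.normalizer (O : Set G) := by
    rw [Subgroup.normalizer_eq_top_iff.mpr hN]
  have hS1 : (S : Subgroup G) ≠ ⊥ := S.ne_bot_of_dvd_card h2
  -- central involutions of Sylow subgroups act without fixed points on `O`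
  have hfpf : ∀ (z : G), z ∈ (S : Subgroup G) → orderOf z = 2 → (∀ s ∈ (S : Subgroup G), s * z = z * s) →
      ∀ x ∈ O, z * x = x * z → x = 1 := by
    intro z hzS hzo hzc x hx hxz
    have hcp := hpi S z hzS hzo hzc
    -- O ⊓ C(z) is a normal odd subgroup of C(z), commuting with O_2
    set C := Subgroup.centralizer ({z} : Set G) with hC
    have h1 : O ⊓ C ≤ Subgroup.centralizer ((Cfsg.pCoreOf 2 C : Subgroup G) : Set G) := by
      rw [← Subgroup.commutator_eq_bot_iff_le_centralizer]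
      have hle : ⁅O ⊓ C, Cfsg.pCoreOf 2 C⁆ ≤ (O ⊓ C) ⊓ Cfsg.pCoreOf 2 C := by
        apply le_inf
        · rw [← Subgroup.le_normalizer_iff_commutator_le_left]
          refine (H53.Amb.pCoreOf_le 2 C).trans ?_
          intro c hc
          apply H53.SPE.mem_normalizer_of_finite
          rintro n ⟨hn1, hn2⟩
          exact ⟨hN.conj_mem n hn1 c, C.mul_mem (C.mul_mem hc hn2) (C.inv_mem hc)⟩
        · rw [← Subgroup.le_normalizer_iff_commutator_le_right]
          exact inf_le_right.trans (H53.Amb.le_normalizer_pCoreOf 2 C)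
      rw [← le_bot_iff]
      refine hle.trans ?_
      have := H1.Cores.disjoint_of_isPGroup (H53.Amb.isPGroup_pCoreOf 2 C) (Q := O ⊓ C)
        (Nat.Coprime.coprime_dvd_left (Subgroup.card_dvd_of_le inf_le_left) hOcop)
      rw [inf_comm, this]
    have hxC : x ∈ C := by
      rw [hC, Subgroup.mem_centralizer_singleton_iff]; exact hxz.symm
    have h2' := hcp ⟨hxC, h1 ⟨hx, hxC⟩⟩
    apply H53.CharP.eq_one_of_mem_pgroup (H53.Amb.isPGroup_pCoreOf 2 C) h2'
    have : orderOf x ∣ Nat.card ↥O := by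
      have := orderOf_dvd_natCard (⟨x, hx⟩ : ↥O)
      rwa [← Subgroup.orderOf_coe] at this
    exact Nat.Coprime.coprime_dvd_left this hOcop
  -- inversion
  have hinv : ∀ (z : G), z ∈ (S : Subgroup G) → orderOf z = 2 → (∀ s ∈ (S : Subgroup G), s * z = z * s) →
      ∀ x ∈ O, z * x * z⁻¹ = x⁻¹ := by
    intro z hzS hzo hzc
    -- the map x ↦ x⁻¹ * (z x z⁻¹) is injective on O, hence surjective
    have hzz : z * z = 1 := by
      have := pow_orderOf_eq_one z
      rwa [hzo, pow_two] at this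
    let f : ↥O → ↥O := fun x => x⁻¹ * ⟨z * x * z⁻¹, hN.conj_mem x x.2 z⟩
    have hf : Function.Injective f := by
      intro a b hab
      have h1 : (a : G)⁻¹ * (z * a * z⁻¹) = (b : G)⁻¹ * (z * b * z⁻¹) := congrArg Subtype.val hab
      have h3 : (b : G) * (a : G)⁻¹ = 1 := by
        apply hfpf z hzS hzo hzc _ (O.mul_mem b.2 (O.inv_mem a.2))
        have h4 : z * b * z⁻¹ = b * ((a : G)⁻¹ * (z * a * z⁻¹)) := by rw [h1]; group
        calc z * (b * (a : G)⁻¹) = (z * b * z⁻¹) * (z * a * z⁻¹)⁻¹ * z := by group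
          _ = b * ((a : G)⁻¹ * (z * a * z⁻¹)) * (z * a * z⁻¹)⁻¹ * z := by rw [h4]
          _ = _ := by group
      have h5 : (b : G) = a := by
        calc (b : G) = (b * (a : G)⁻¹) * a := by group
          _ = a := by rw [h3, one_mul]
      exact (Subtype.ext h5).symm
    have hsurj := Finite.surjective_of_injective hf
    intro x hx
    obtain ⟨y, hy⟩ := hsurj ⟨x, hx⟩
    have hy' : (y : G)⁻¹ * (z * y * z⁻¹) = x := congrArg Subtype.val hy
    rw [← hy']
    have hzi : z⁻¹ = z := by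
      calc z⁻¹ = z⁻¹ * (z * z) := by rw [hzz, mul_one]
        _ = z := by group
    rw [hzi]
    calc z * ((y : G)⁻¹ * (z * y * z)) * z = z * (y : G)⁻¹ * z * y * (z * z) := by group
      _ = z * (y : G)⁻¹ * z * y := by rw [hzz, mul_one]
      _ = z⁻¹ * (y : G)⁻¹ * z⁻¹ * y := by rw [hzi]
      _ = _ := by group
  obtain ⟨z, hzS, hzo, hzc'⟩ := H53.SPE2.exists_central_orderOf_eq S.2 hS1
  have hzc : ∀ s ∈ (S : Subgroup G), s * z = z * s := fun s hs => (hzc' s hs).symm
  have hzinv := hinv z hzS hzo hzc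
  have hzi : z⁻¹ = z := by
    have := pow_orderOf_eq_one z
    rw [hzo, pow_two] at this
    exact inv_eq_of_mul_eq_one_left this
  have hCn : (Subgroup.centralizer (O : Set G)).Normal := inferInstance
  -- C(O) has odd order
  have hCodd : (Nat.card ↥(Subgroup.centralizer (O : Set G))).Coprime 2 := by
    rw [Nat.coprime_comm, (Nat.prime_two).coprime_iff_not_dvd]
    intro hd
    obtain ⟨t, ht⟩ := exists_prime_orderOf_dvd_card' 2 hd
    have hto : orderOf (t : G) = 2 := by rw [← ht]; exact Subgroup.orderOf_coe t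
    obtain ⟨Q, hQ⟩ := (H53.SPE2.isPGroup_zpowers hto).exists_le_sylow
    obtain ⟨g, hg⟩ := MulAction.exists_smul_eq G Q S
    have hgt : g * t * g⁻¹ ∈ (S : Subgroup G) := by
      rw [← hg, Sylow.coe_subgroup_smul]
      exact Subgroup.smul_mem_pointwise_smul _ (MulAut.conj g) _ (hQ (Subgroup.mem_zpowers _))
    have hR1 : (S : Subgroup G) ⊓ Subgroup.centralizer (O : Set G) ≠ ⊥ := by
      intro hb
      have : g * t * g⁻¹ ∈ (S : Subgroup G) ⊓ Subgroup.centralizer (O : Set G) := ⟨hgt, hCn.conj_mem _ t.2 g⟩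
      rw [hb, Subgroup.mem_bot] at this
      have h3 : (t : G) = 1 := by
        calc (t : G) = g⁻¹ * (g * t * g⁻¹) * g := by group
          _ = 1 := by rw [this]; group
      rw [h3, orderOf_one] at hto
      norm_num at hto
    obtain ⟨z', hz', hz'o, hz'c⟩ := H53.Par.exists_central_mem S.2 inf_le_left hR1 (by
      intro s hs
      apply H53.SPE.mem_normalizer_of_finite
      rintro n ⟨hn1, hn2⟩
      exact ⟨(S : Subgroup G).mul_mem ((S : Subgroup G).mul_mem hs hn1) ((S : Subgroup G).inv_mem hs),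
        hCn.conj_mem n hn2 s⟩)
    apply hne
    rw [eq_bot_iff]
    intro x hx
    rw [Subgroup.mem_bot]
    exact hfpf z' hz'.1 hz'o hz'c x hx (Subgroup.mem_centralizer_iff.mp hz'.2 x hx).symm
  have hCO : Subgroup.centralizer (O : Set G) ≤ O := H1.Cores.le_pPrimeCore hCn hCodd
  have hcom : ∀ g : G, z * g * z⁻¹ * g⁻¹ ∈ O := by
    intro g
    apply hCO
    rw [Subgroup.mem_centralizer_iff]
    intro x hx
    have h1 : g⁻¹ * x * g ∈ O := by
      have := hN.conj_mem x hx g⁻¹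
      simpa using this
    have h2 := hzinv _ h1
    have h3 := hzinv _ hx
    -- (z g z⁻¹ g⁻¹) x (z g z⁻¹ g⁻¹)⁻¹ = x
    have h4 : (z * g * z⁻¹ * g⁻¹) * x * (z * g * z⁻¹ * g⁻¹)⁻¹ = x := by
      calc (z * g * z⁻¹ * g⁻¹) * x * (z * g * z⁻¹ * g⁻¹)⁻¹
          = z * (g * (z⁻¹ * (g⁻¹ * x * g) * z) * g⁻¹) * z⁻¹ := by group
        _ = z * (g * (z * (g⁻¹ * x * g) * z⁻¹) * g⁻¹) * z⁻¹ := by rw [hzi]
        _ = z * (g * (g⁻¹ * x * g)⁻¹ * g⁻¹) * z⁻¹ := by rw [h2]
        _ = (z * x * z⁻¹)⁻¹ := by group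
        _ = x := by rw [h3, inv_inv]
    calc x * (z * g * z⁻¹ * g⁻¹) = ((z * g * z⁻¹ * g⁻¹) * x * (z * g * z⁻¹ * g⁻¹)⁻¹) * (z * g * z⁻¹ * g⁻¹) := by rw [h4]
      _ = _ := by group
  have hzO : z ∈ O := by
    have h1 : (QuotientGroup.mk z : G ⧸ O) ∈ Subgroup.center (G ⧸ O) := by
      rw [Subgroup.mem_center_iff]
      intro q
      obtain ⟨g, rfl⟩ := QuotientGroup.mk_surjective q
      rw [← QuotientGroup.mk_mul, ← QuotientGroup.mk_mul, QuotientGroup.eq]
      have := hN.conj_mem _ (hcom g⁻¹) g⁻¹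
      have e : (g * z)⁻¹ * (z * g) = z⁻¹ * (g⁻¹ * z * g) := by group
      rw [e]
      have h5 := hN.conj_mem _ (hcom g⁻¹) z⁻¹
      have e2 : z⁻¹ * (z * g⁻¹ * z⁻¹ * (g⁻¹)⁻¹) * (z⁻¹)⁻¹ = g⁻¹ * z⁻¹ * g * z := by group
      rw [e2] at h5
      have h6 := O.inv_mem h5
      have e3 : (g⁻¹ * z⁻¹ * g * z)⁻¹ = z⁻¹ * (g⁻¹ * z * g) := by group
      rwa [e3] at h6
    rw [hZ, Subgroup.mem_bot, QuotientGroup.eq_one_iff] at h1
    exact h1
  have : orderOf z ∣ Nat.card ↥O := by
    have := orderOf_dvd_natCard (⟨z, hzO⟩ : ↥O)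
    rwa [← Subgroup.orderOf_coe] at this
  rw [hzo] at this
  exact (Nat.prime_two.coprime_iff_not_dvd.mp hOcop.symm) this

end Cfsg.Agent.S2898
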