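import Cfsg.Statements.S2907
import Mathlib

set_option autoImplicit false
open Cfsg

namespace Cfsg.Agent.S2907

/-- Let X be a finite semi-extraspecial p-group and x an element of X outside the centre. Then the index of C_X(x) in X equals the order of Z(X), and the commutators [x, y], y ∈ X, form exactly the centre Z(X). -/
theorem result {X : Type*} [Group X] [Finite X] {p : ℕ} [Fact p.Prime] (hX : Cfsg.IsSemiExtraspecial p X) (x : X) (hx : x ∉ Subgroup.center X) : (Subgroup.centralizer ({x} : Set X)).index = Nat.card ↥(Subgroup.center X) ∧ {z : X | ∃ y : X, z = x * y * x⁻¹ * y⁻¹} = (Subgroup.center X : Set X) := by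
  classical
  obtain ⟨⟨hpg, hfr, hcomm⟩, hmax⟩ := hX
  have hcen : ∀ y : X, x * y * x⁻¹ * y⁻¹ ∈ Subgroup.center X := by
    intro y
    rw [← hcomm]
    exact Subgroup.commutator_mem_commutator (Subgroup.mem_top x) (Subgroup.mem_top y)
  let f : X →* ↥(Subgroup.center X) :=
    { toFun := fun y => ⟨x * y * x⁻¹ * y⁻¹, hcen y⟩
      map_one' := by ext; simp
      map_mul' := by
        intro y z
        ext
        simp only [Subgroup.coe_mul]
        have h1 := Subgroup.mem_center_iff.mp (hcen z)
        have h2 : x * (y * z) * x⁻¹ * (y * z)⁻¹ =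
            x * y * x⁻¹ * ((x * z * x⁻¹ * z⁻¹) * y⁻¹) := by group
        rw [h2, ← h1 y⁻¹]
        group }
  have hker : f.ker = Subgroup.centralizer ({x} : Set X) := by
    ext y
    rw [MonoidHom.mem_ker, Subgroup.mem_centralizer_singleton_iff]
    constructor
    · intro h
      have h1 : x * y * x⁻¹ * y⁻¹ = 1 := congrArg Subtype.val h
      rw [mul_inv_eq_one, mul_inv_eq_iff_eq_mul] at h1
      exact h1.symm
    · intro h
      apply Subtype.ext
      change x * y * x⁻¹ * y⁻¹ = 1
      rw [mul_inv_eq_one, mul_inv_eq_iff_eq_mul, h]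
  have hsurj : f.range = ⊤ := by
    rcases eq_top_or_exists_le_coatom f.range with h | ⟨M, hM, hfM⟩
    · exact h
    exfalso
    let Y : Subgroup X := M.map (Subgroup.center X).subtype
    have hYle : Y ≤ Subgroup.center X := Subgroup.map_subtype_le M
    have hYs : Y.subgroupOf (Subgroup.center X) = M := by
      exact Subgroup.comap_map_eq_self_of_injective (Subgroup.subtype_injective _) M
    obtain ⟨hYn, ⟨hsp, hcard⟩⟩ := hmax Y hYle (by rw [hYs]; exact hM)
    -- the image of the centre
    let H : Subgroup (X ⧸ Y) := (Subgroup.center X).map (QuotientGroup.mk' Y)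
    have hHle : H ≤ Subgroup.center (X ⧸ Y) := by
      rintro _ ⟨z, hz, rfl⟩
      rw [Subgroup.mem_center_iff]
      intro g
      obtain ⟨g, rfl⟩ := QuotientGroup.mk'_surjective Y g
      rw [← map_mul, ← map_mul, Subgroup.mem_center_iff.mp hz g]
    have hHcen : H = Subgroup.center (X ⧸ Y) := by
      have hdvd : Nat.card ↥H ∣ p := by
        rw [← hcard]
        exact Subgroup.card_dvd_of_le hHle
      rcases (Nat.dvd_prime (Fact.out : p.Prime)).mp hdvd with h1 | h1
      · exfalso
        have hbot : H = ⊥ := Subgroup.eq_bot_of_card_eq H h1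
        apply hM.1
        rw [eq_top_iff, ← hYs]
        rintro ⟨z, hz⟩ -
        rw [Subgroup.mem_subgroupOf]
        have hz' : QuotientGroup.mk' Y z ∈ H := ⟨z, hz, rfl⟩
        rw [hbot, Subgroup.mem_bot] at hz'
        exact (QuotientGroup.eq_one_iff z).mp hz'
      · exact Subgroup.eq_of_le_of_card_ge hHle (by rw [hcard, h1])
    have hxc : QuotientGroup.mk' Y x ∈ Subgroup.center (X ⧸ Y) := by
      rw [Subgroup.mem_center_iff]
      intro g
      obtain ⟨y, rfl⟩ := QuotientGroup.mk'_surjective Y g
      have h1 : x * y * x⁻¹ * y⁻¹ ∈ Y := ⟨f y, hfM ⟨y, rfl⟩, rfl⟩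
      have h2 : QuotientGroup.mk' Y (x * y * x⁻¹ * y⁻¹) = 1 := (QuotientGroup.eq_one_iff _).mpr h1
      simp only [map_mul, map_inv] at h2
      rw [mul_inv_eq_one, mul_inv_eq_iff_eq_mul] at h2
      exact h2.symm
    rw [← hHcen] at hxc
    obtain ⟨z, hz, hzx⟩ := hxc
    apply hx
    have h3 : z⁻¹ * x ∈ Y := QuotientGroup.eq.mp hzx
    have h4 := (Subgroup.center X).mul_mem hz (hYle h3)
    simpa using h4
  constructor
  · rw [← hker, Subgroup.index_ker]
    rw [show Nat.card (↥f.range) = Nat.card ↥(⊤ : Subgroup ↥(Subgroup.center X)) by rw [hsurj]]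
    exact Subgroup.card_top
  · ext z
    constructor
    · rintro ⟨y, rfl⟩
      exact hcen y
    · intro hz
      have : (⟨z, hz⟩ : ↥(Subgroup.center X)) ∈ f.range := by rw [hsurj]; trivial
      obtain ⟨y, hy⟩ := this
      exact ⟨y, (congrArg Subtype.val hy).symm⟩

end Cfsg.Agent.S2907
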