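import Cfsg.Statements.S2909
import Cfsg.Agent.Lib.H54.CopComm
import Cfsg.Agent.Lib.H54.CharP2
import Cfsg.Agent.Lib.H13.ElemAb
import Cfsg.Agent.Lib.H27.GenSub
import Cfsg.Agent.Lib.H29.Elem

set_option autoImplicit false
open Cfsg

namespace Cfsg.Agent.S2909

open Subgroup
open scoped commutatorElement

section

variable {G : Type*} [Group G] [Finite G] {p : ℕ} [Fact p.Prime]

/-- the elements normalizing `E` and `F` and acting trivially on `E/F` -/
def actTriv (E F : Subgroup G) [E.Normal] : Subgroup G where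
  carrier := {g | g ∈ normalizer (F : Set G) ∧ ∀ e ∈ E, g * e * g⁻¹ * e⁻¹ ∈ F}
  one_mem' := ⟨one_mem _, fun e he => by simp [one_mem]⟩
  mul_mem' := by
    rintro a b ⟨ha, ha'⟩ ⟨hb, hb'⟩
    refine ⟨mul_mem ha hb, fun e he => ?_⟩
    have hbe : b * e * b⁻¹ ∈ E := Subgroup.Normal.conj_mem inferInstance e he b
    have h1 := ha' _ hbe
    have h2 := hb' _ he
    have : a * b * e * (a * b)⁻¹ * e⁻¹ = (a * (b * e * b⁻¹) * a⁻¹ * (b * e * b⁻¹)⁻¹) * (b * e * b⁻¹ * e⁻¹) := by
      group
    rw [this]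
    exact mul_mem h1 h2
  inv_mem' := by
    rintro a ⟨ha, ha'⟩
    refine ⟨inv_mem ha, fun e he => ?_⟩
    have hbe : a⁻¹ * e * a⁻¹⁻¹ ∈ E := Subgroup.Normal.conj_mem inferInstance e he a⁻¹
    have h1 := inv_mem (ha' _ hbe)
    have : a⁻¹ * e * a⁻¹⁻¹ * e⁻¹ = (a * (a⁻¹ * e * a⁻¹⁻¹) * a⁻¹ * (a⁻¹ * e * a⁻¹⁻¹)⁻¹)⁻¹ := by
      group
    rw [this]
    exact h1

omit [Finite G] in
theorem actTriv_conj {E F : Subgroup G} [E.Normal] {c g : G} (hc : c ∈ normalizer (F : Set G))
    (hg : g ∈ actTriv E F) : c * g * c⁻¹ ∈ actTriv E F := by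
  refine ⟨mul_mem (mul_mem hc hg.1) (inv_mem hc), fun e he => ?_⟩
  have hbe : c⁻¹ * e * c⁻¹⁻¹ ∈ E := Subgroup.Normal.conj_mem inferInstance e he c⁻¹
  have h1 := hg.2 _ hbe
  have h2 := H54.Basic.mul_inv_mem_of_mem_normalizer hc h1
  have : c * g * c⁻¹ * e * (c * g * c⁻¹)⁻¹ * e⁻¹ =
      c * (g * (c⁻¹ * e * c⁻¹⁻¹) * g⁻¹ * (c⁻¹ * e * c⁻¹⁻¹)⁻¹) * c⁻¹ := by group
  rw [this]
  exact h2

theorem key (E : Subgroup G) [E.Normal] (hE : IsPGroup p ↥E) (U : Subgroup G)
    (hU : Cfsg.IsElementaryAbelian p U)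
    (hcond : (∀ u ∈ U, u ≠ 1 → E ⊓ Subgroup.centralizer (U : Set G) =
      E ⊓ Subgroup.centralizer ({u} : Set G)) ∨
      (∀ u ∈ U, u ≠ 1 → ⁅E, U⁆ = ⁅E, Subgroup.zpowers u⁆))
    (R : Subgroup G) (hR : ¬ p ∣ Nat.card ↥R) (hRU : U ≤ Subgroup.normalizer (R : Set G))
    (u : G) (hu : u ∈ U) (hu1 : u ≠ 1) :
    ⁅R ⊓ centralizer ({u} : Set G), U⁆ ≤ centralizer (E : Set G) := by
  have hEn : ∀ X : Subgroup G, X ≤ normalizer (E : Set G) := by
    intro X; rw [normalizer_eq_top]; exact le_top
  set C : Subgroup G := R ⊓ centralizer ({u} : Set G) with hC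
  set D : Subgroup G := ⁅C, U⁆ with hD
  have hUc : ∀ a ∈ U, ∀ b ∈ U, a * b = b * a := fun a ha b hb => H13.ElemAb.comm hU ha hb
  have hCC : ∀ v ∈ U, v ∈ normalizer ((centralizer ({u} : Set G) : Subgroup G) : Set G) := by
    intro v hv
    apply H54.Basic.mem_normalizer_of_conj
    · intro x hx
      rw [mem_centralizer_singleton_iff] at hx ⊢
      have := hUc v hv u hu
      calc v * x * v⁻¹ * u = v * x * (v⁻¹ * (u * v) * v⁻¹) := by group
        _ = v * x * (v⁻¹ * (v * u) * v⁻¹) := by rw [this]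
        _ = v * (x * u) * v⁻¹ := by group
        _ = v * (u * x) * v⁻¹ := by rw [hx]
        _ = (v * u) * x * v⁻¹ := by group
        _ = (u * v) * x * v⁻¹ := by rw [this]
        _ = _ := by group
    · intro x hx
      rw [mem_centralizer_singleton_iff] at hx ⊢
      have := hUc v hv u hu
      calc v⁻¹ * x * v * u = v⁻¹ * x * (v * u) := by group
        _ = v⁻¹ * x * (u * v) := by rw [this]
        _ = v⁻¹ * (x * u) * v := by group
        _ = v⁻¹ * (u * x) * v := by rw [hx]
        _ = v⁻¹ * (u * v) * v⁻¹ * x * v := by group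
        _ = v⁻¹ * (v * u) * v⁻¹ * x * v := by rw [this]
        _ = _ := by group
  have hUC : U ≤ normalizer (C : Set G) :=
    H1.Coprime2.le_normalizer_inf hRU hCC
  have hDC : D ≤ C := H1.Coprime2.commutator_le_left hUC
  have hDp : ¬ p ∣ Nat.card D := by
    intro h
    exact hR (h.trans (card_dvd_of_le (hDC.trans inf_le_left)))
  have hDu : ⁅zpowers u, D⁆ = ⊥ := by
    rw [commutator_eq_bot_iff_le_centralizer, zpowers_le, mem_centralizer_iff]
    intro d hd
    exact (mem_centralizer_singleton_iff.mp (hDC hd).2)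
  have hup : IsPGroup p (zpowers u) := (H13.ElemAb.isPGroup hU).to_le (by rwa [zpowers_le])
  rcases hcond with h | h
  · -- case (1)
    have h1 := h u hu hu1
    have h2 : ⁅E ⊓ centralizer ({u} : Set G), U⁆ = ⊥ := by
      rw [← h1, commutator_eq_bot_iff_le_centralizer]
      exact inf_le_right
    have h3 : ⁅E ⊓ centralizer ({u} : Set G), D⁆ = ⊥ := by
      rw [hD]
      have hCE : ⁅E ⊓ centralizer ({u} : Set G), C⁆ ≤ E ⊓ centralizer ({u} : Set G) := by
        refine le_inf ?_ ?_
        · exact (commutator_mono inf_le_left le_rfl).trans (H1.Coprime2.commutator_le_left (hEn C))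
        · refine (commutator_mono inf_le_right inf_le_right).trans ?_
          exact commutator_le_self _
      rw [commutator_comm]
      apply commutator_commutator_eq_bot_of_rotate
      · rw [commutator_comm U]
        rw [h2]
        exact commutator_bot_left _
      · rw [eq_bot_iff, ← h2]
        exact commutator_mono hCE le_rfl
    have h4 := H1.Coprime2.pq_lemma p (zpowers u) D hup
      ((Nat.Prime.coprime_iff_not_dvd (Fact.out : p.Prime)).mpr hDp).symm
      (by rwa [commutator_eq_bot_iff_le_centralizer] at hDu) (Nat.card E) E rfl hE (hEn _) (hEn _)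
      (by
        refine le_trans ?_ (commutator_eq_bot_iff_le_centralizer.mp h3)
        exact inf_le_inf le_rfl (centralizer_le (by simp)))
    exact h4
  · -- case (2)
    have h1 := h u hu hu1
    have h2 : ⁅E, D⁆ = ⊥ := by
      apply H54.CopComm.commutator_eq_bot E (zpowers u) D hE hup hDp (hEn _) (hEn _) hDu
      have hCF : C ≤ normalizer ((⁅E, zpowers u⁆ : Subgroup G) : Set G) := by
        refine H1.Coprime2.le_normalizer_commutator (hEn C) ?_
        refine H54.CopComm.le_normalizer_of_commutator_eq_bot ?_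
        rw [commutator_comm, commutator_eq_bot_iff_le_centralizer, zpowers_le, mem_centralizer_iff]
        intro d hd
        exact (mem_centralizer_singleton_iff.mp hd.2)
      have hUF : U ≤ actTriv E ⁅E, zpowers u⁆ := by
        intro v hv
        refine ⟨?_, fun e he => ?_⟩
        · rw [← h1]
          exact H1.Coprime2.le_normalizer_commutator_right _ _ hv
        · rw [← h1]
          have := inv_mem (commutator_mem_commutator he hv)
          rw [commutatorElement_def] at this
          have e1 : v * e * v⁻¹ * e⁻¹ = (e * v * e⁻¹ * v⁻¹)⁻¹ := by group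
          rw [e1]; exact this
      have hDF : D ≤ actTriv E ⁅E, zpowers u⁆ := by
        rw [hD, commutator_le]
        intro c hc v hv
        rw [commutatorElement_def]
        exact mul_mem (actTriv_conj (hCF hc) (hUF hv)) (inv_mem (hUF hv))
      rw [commutator_le]
      intro e he d hd
      have := inv_mem ((hDF hd).2 e he)
      rw [commutatorElement_def]
      have e1 : e * d * e⁻¹ * d⁻¹ = (d * e * d⁻¹ * e⁻¹)⁻¹ := by group
      rw [e1]; exact this
    rw [commutator_comm, commutator_eq_bot_iff_le_centralizer] at h2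
    exact h2

end

/-- Let p be a prime, E a normal p-subgroup of the finite group G, and U a non-cyclic elementary abelian p-subgroup of G such that either C_E(U) = C_E(u) for every nontrivial u ∈ U, or [E, U] = [E, ⟨u⟩] for every nontrivial u ∈ U. If R is a subgroup of order prime to p normalized by U, then [R, U] centralizes E. -/
theorem result {G : Type*} [Group G] [Finite G] {p : ℕ} [Fact p.Prime] (E : Subgroup G) [E.Normal] (hE : IsPGroup p ↥E) (U : Subgroup G) (hU : Cfsg.IsElementaryAbelian p U) (hnc : ¬ IsCyclic ↥U) (hcond : (∀ u ∈ U, u ≠ 1 → E ⊓ Subgroup.centralizer (U : Set G) = E ⊓ Subgroup.centralizer ({u} : Set G)) ∨ (∀ u ∈ U, u ≠ 1 → ⁅E, U⁆ = ⁅E, Subgroup.zpowers u⁆)) (R : Subgroup G) (hR : ¬ p ∣ Nat.card ↥R) (hRU : U ≤ Subgroup.normalizer (R : Set G)) : ⁅R, U⁆ ≤ Subgroup.centralizer (E : Set G) := by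
  have hcard : p ^ 2 ≤ Nat.card U := H29.Elem.le_card_of_not_isCyclic hU hnc
  let Z : Subgroup G := centralizer (E : Set G)
  have hZn : Z.Normal := by
    have : normalizer (E : Set G) = ⊤ := normalizer_eq_top _
    have h1 := H54.CharP2.normalizer_le_normalizer_centralizer E
    rw [this, top_le_iff] at h1
    exact normalizer_eq_top_iff.mp h1
  let M : Subgroup G := (centralizer ((U.map (QuotientGroup.mk' Z) : Subgroup (G ⧸ Z)) : Set (G ⧸ Z))).comap
    (QuotientGroup.mk' Z)
  have hM : ∀ r ∈ M, ∀ v ∈ U, ⁅r, v⁆ ∈ Z := by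
    intro r hr v hv
    have h1 := mem_centralizer_iff.mp (mem_comap.mp hr) _ (mem_map_of_mem (QuotientGroup.mk' Z) hv)
    rw [← QuotientGroup.eq_one_iff, commutatorElement_def]
    have h2 : (QuotientGroup.mk' Z) (r * v * r⁻¹ * v⁻¹) = 1 := by
      simp only [map_mul, map_inv]
      rw [← h1]; group
    exact h2
  have hM' : ∀ r, (∀ v ∈ U, ⁅r, v⁆ ∈ Z) → r ∈ M := by
    intro r hr
    rw [mem_comap, mem_centralizer_iff]
    rintro _ ⟨v, hv, rfl⟩
    have h1 := hr v hv
    rw [← QuotientGroup.eq_one_iff, commutatorElement_def] at h1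
    have h2 : (QuotientGroup.mk' Z) (r * v * r⁻¹ * v⁻¹) = 1 := h1
    simp only [map_mul, map_inv] at h2
    rw [mul_inv_eq_one, mul_inv_eq_iff_eq_mul] at h2
    exact h2.symm
  have hRM : R ≤ M := by
    apply H27.GenSub.le_of_centralizers p U R M hU hcard hRU hR
    intro u hu hu1 r hr
    apply hM'
    intro v hv
    exact key E hE U hU hcond R hR hRU u hu hu1 (commutator_mem_commutator hr hv)
  rw [commutator_le]
  intro r hr v hv
  exact hM r (hRM hr) v hv

end Cfsg.Agent.S2909
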