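import Cfsg.Statements.S2910
import Cfsg.Agent.Lib.H3.Critical
import Cfsg.Agent.Lib.H2.Frobenius
import Cfsg.Agent.Lib.H39.PNilp

set_option autoImplicit false
open Cfsg

namespace Cfsg.Agent.S2910

/-- Let p be an odd prime dividing the order of the finite group G and P a Sylow p-subgroup of G. If Ω₁(P) (generated by the elements of order dividing p) is contained in the centre of G, then G has a normal p-complement. In particular, if G is quasisimple then Ω₁(P) is not central in G. -/
theorem result {G : Type*} [Group G] [Finite G] {p : ℕ} [Fact p.Prime] (hp : p ≠ 2) (hdiv : p ∣ Nat.card G) (P : Sylow p G) (hZ : Cfsg.omegaOne p (P : Subgroup G) ≤ Subgroup.center G) : Cfsg.HasNormalPComplement p G ∧ ¬ Cfsg.IsQuasisimple G := by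
  have key : Cfsg.HasNormalPComplement p G := by
    apply H2.Frobenius.hasNPC_of_local
    intro D hD g hg hgo
    let a : MulAut D := Subgroup.normalizerMonoidHom D ⟨g, hg⟩
    have haval : ∀ x : D, ((a x : D) : G) = g * x * g⁻¹ := fun x => rfl
    have ha : Nat.Coprime (orderOf a) p := by
      apply Nat.Coprime.coprime_dvd_left _ hgo
      have h1 : orderOf a ∣ orderOf (⟨g, hg⟩ : Subgroup.normalizer (D : Set G)) := orderOf_map_dvd _ _
      rwa [Subgroup.orderOf_mk] at h1
    have h1 := H3.Critical.eq_one_of_fix_omega hp hD a ha (by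
      intro x hx
      obtain ⟨Q, hQ⟩ := hD.exists_le_sylow
      obtain ⟨h, hh⟩ := MulAction.exists_smul_eq G Q P
      have hxQ : (x : G) ∈ Q := hQ x.2
      have h2 : h * x * h⁻¹ ∈ (P : Subgroup G) := by
        rw [← hh]
        exact ⟨x, hxQ, rfl⟩
      have hxp : (x : G) ^ p = 1 := by exact_mod_cast congrArg Subtype.val hx
      have h3 : h * x * h⁻¹ ∈ Subgroup.center G := by
        apply hZ
        apply Subgroup.subset_closure
        refine ⟨h2, ?_⟩
        rw [conj_pow, hxp]; group
      have h4 : (x : G) ∈ Subgroup.center G := by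
        have := (inferInstance : (Subgroup.center G).Normal).conj_mem _ h3 h⁻¹
        simpa [mul_assoc] using this
      apply Subtype.ext
      rw [haval, Subgroup.mem_center_iff.1 h4 g]
      group)
    rw [Subgroup.mem_centralizer_iff]
    intro d hd
    have h2 : a ⟨d, hd⟩ = ⟨d, hd⟩ := by rw [h1]; rfl
    have h3 := haval ⟨d, hd⟩
    rw [h2] at h3
    have h4 : d = g * d * g⁻¹ := h3
    calc d * g = (g * d * g⁻¹) * g := by rw [← h4]
      _ = g * d := by group
  refine ⟨key, ?_⟩
  rintro ⟨hperf, -⟩
  obtain ⟨N, hN, hco, k, hk⟩ := H39.PNilp.iff_exists.1 key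
  have hG : IsPGroup p (G ⧸ N) := by
    rw [IsPGroup.iff_card]; exact ⟨k, by rw [← hk]; rfl⟩
  haveI := hperf
  haveI := hG.isNilpotent
  have hsub : Subsingleton (G ⧸ N) := by
    by_contra hns
    rw [not_subsingleton_iff_nontrivial] at hns
    exact Group.IsPerfect.not_isNilpotent (G := G ⧸ N) inferInstance
  have h1 : N = ⊤ := by
    rw [← Subgroup.index_eq_one]
    exact Nat.card_unique
  rw [h1, Subgroup.card_top] at hco
  exact (Nat.Prime.coprime_iff_not_dvd (Fact.out : p.Prime)).1 hco.symm hdiv

end Cfsg.Agent.S2910
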