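import Cfsg.Statements.S2911
import Cfsg.Agent.Lib.H68.Z2D8

set_option autoImplicit false
open Cfsg

namespace Cfsg.Agent.S2911

/-- A finite group whose Sylow 2-subgroups are isomorphic to the direct product of a group of order 2 and a dihedral group of order 8 has a subgroup of index two. -/
theorem result {G : Type*} [Group G] [Finite G] (S : Sylow 2 G) (hS : Nonempty (↥(S : Subgroup G) ≃* Multiplicative (ZMod 2) × DihedralGroup 4)) : ∃ H : Subgroup G, H.index = 2 := by
  exact H68.Z2D8.main S hS

end Cfsg.Agent.S2911
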