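import Cfsg.Statements.S2912
import Cfsg.Agent.Lib.H86.ExtraDim

set_option autoImplicit false
open Cfsg

namespace Cfsg.Agent.S2912

/-- Let p and r be distinct primes, let E be an extraspecial subgroup of order p^(2w+1) of a finite group, and let A be an elementary abelian r-subgroup normalized by E on which E acts faithfully (C_E(A) = 1). If n ≥ 1 is least with p dividing rⁿ − 1 (the smallest dimension of a faithful representation of a group of order p over the field with r elements), then the order of A is at least r^(n·p^w). -/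
theorem result {G : Type*} [Group G] [Finite G] {p r : ℕ} [Fact p.Prime] [hr : Fact r.Prime] (hpr : p ≠ r) (E A : Subgroup G) (w : ℕ) (hE : Cfsg.IsExtraspecial p ↥E) (hEcard : Nat.card ↥E = p ^ (2 * w + 1)) (hA : Cfsg.IsElementaryAbelian r A) (hnorm : E ≤ Subgroup.normalizer (A : Set G)) (hfaith : E ⊓ Subgroup.centralizer (A : Set G) = ⊥) (n : ℕ) (hn : 1 ≤ n) (hdiv : p ∣ r ^ n - 1) (hmin : ∀ k : ℕ, 1 ≤ k → p ∣ r ^ k - 1 → n ≤ k) : r ^ (n * p ^ w) ≤ Nat.card ↥A := by
  classical
  have hAf : Finite A := inferInstance
  have hcomm : ∀ a b : A, a * b = b * a := hA.1.is_comm.comm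
  let iA : CommGroup A := { (Subgroup.toGroup A) with mul_comm := hcomm }
  let φ : E →* MulAut A := (A.normalizerMonoidHom).comp (Subgroup.inclusion hnorm)
  have hφ : ∀ (e : E) (a : A), ((φ e a : A) : G) = (e : G) * a * (e : G)⁻¹ := fun e a => rfl
  let ρ : E →* AddMonoid.End (Additive A) :=
    { toFun := fun e => MonoidHom.toAdditive (φ e).toMonoidHom
      map_one' := by
        apply AddMonoidHom.ext
        intro v
        show Additive.ofMul (φ 1 (Additive.toMul v)) = v
        rw [map_one]; rfl
      map_mul' := fun a b => by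
        apply AddMonoidHom.ext
        intro v
        show Additive.ofMul (φ (a * b) (Additive.toMul v)) = Additive.ofMul (φ a (φ b (Additive.toMul v)))
        rw [map_mul]; rfl }
  have hρ : ∀ (e : E) (a : A), ρ e (Additive.ofMul a) = Additive.ofMul (φ e a) := fun e a => rfl
  have hinj : Function.Injective ρ := by
    rw [injective_iff_map_eq_one]
    intro e he
    have h1 : (e : G) ∈ E ⊓ Subgroup.centralizer (A : Set G) := by
      refine Subgroup.mem_inf.mpr ⟨e.2, ?_⟩
      rw [Subgroup.mem_centralizer_iff]
      intro a ha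
      have h2 : ρ e (Additive.ofMul (⟨a, ha⟩ : A)) = Additive.ofMul (⟨a, ha⟩ : A) := by
        rw [he]; rfl
      have h3 : (φ e ⟨a, ha⟩ : A) = ⟨a, ha⟩ := h2
      have h4 := congrArg (Subtype.val) h3
      rw [hφ] at h4
      have h5 : (e : G) * a * (e : G)⁻¹ = a := h4
      calc a * (e : G) = (e : G) * a * (e : G)⁻¹ * e := by rw [h5]
        _ = e * a := by group
    rw [hfaith, Subgroup.mem_bot] at h1
    exact Subtype.ext h1
  have hV : ∀ v : Additive A, r • v = 0 := by
    intro v
    have h1 : (Additive.toMul v) ^ r = 1 := Subtype.ext (hA.2 _ (Additive.toMul v).2)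
    exact congrArg Additive.ofMul h1
  have := H86.ExtraDim.main hpr hE w hEcard ρ hinj hV n hn hmin
  exact this

end Cfsg.Agent.S2912
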