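import Cfsg.Statements.S2922
import Mathlib
import Cfsg.Agent.Lib.H54.CharP2

set_option autoImplicit false
open Cfsg

namespace Cfsg.Agent.S2922

/-- Let p be a prime, X a finite group, B a p-subgroup of X and C a normal subgroup of B. If N_X(C) has characteristic p (its generalized Fitting subgroup is O_p(N_X(C))), then N_X(B) and C_X(B) have characteristic p. -/
theorem result {X : Type*} [Group X] [Finite X] {p : ℕ} [Fact p.Prime] (B C : Subgroup X) (hB : IsPGroup p ↥B) (hCB : C ≤ B) (hCn : (C.subgroupOf B).Normal) (hC : Cfsg.generalizedFittingSubgroup ↥(Subgroup.normalizer (C : Set X)) = Cfsg.pCore p ↥(Subgroup.normalizer (C : Set X))) : Cfsg.generalizedFittingSubgroup ↥(Subgroup.normalizer (B : Set X)) = Cfsg.pCore p ↥(Subgroup.normalizer (B : Set X)) ∧ Cfsg.generalizedFittingSubgroup ↥(Subgroup.centralizer (B : Set X)) = Cfsg.pCore p ↥(Subgroup.centralizer (B : Set X)) := by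
  rw [H26.GenFitting.gFitting_eq_pCore_iff] at hC ⊢
  rw [H26.GenFitting.gFitting_eq_pCore_iff]
  have hBN : B ≤ Subgroup.normalizer (C : Set X) := by
    rwa [Subgroup.normal_subgroupOf_iff_le_normalizer hCB] at hCn
  have hCN : Subgroup.centralizer (B : Set X) ≤ Subgroup.normalizer (C : Set X) :=
    (Subgroup.centralizer_le hCB).trans (Subgroup.centralizer_le_normalizer _)
  have h1 := H54.CharP2.charP_centralizer hB hBN hCN hC
  exact ⟨H54.CharP2.charP_normalizer_of_centralizer hB h1, h1⟩

end Cfsg.Agent.S2922
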