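import Cfsg.Statements.S2924
import Mathlib
import Cfsg.Agent.Lib.H54.CharP
import Cfsg.Agent.Lib.H26.GenFitting
import Cfsg.Agent.Lib.H1.Cores
import Cfsg.Agent.Lib.H13.ElemAb

set_option autoImplicit false
open Cfsg

namespace Cfsg.Agent.S2924

section helpers

open Subgroup H26.PxQ H26.LocalFitting H54.CharP

section aux

variable {X : Type*} [Group X]

theorem ppc_conj_le [Finite X] (p : ℕ) (H : Subgroup X) (g : X) :
    (ppc p H).map (MulAut.conj g).toMonoidHom ≤ ppc p (H.map (MulAut.conj g).toMonoidHom) := by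
  apply le_ppc (Subgroup.map_mono (ppc_le p H))
  · rw [H54.Basic.normalizer_map_conj]
    exact Subgroup.map_mono (le_normalizer_ppc p H)
  · rw [H54.Basic.card_map_conj]
    exact card_ppc p H

theorem commutator_pc_eq_bot [Finite X] {x y : X} (hx : x ^ 2 = 1)
    (hxy : x * y = y * x) :
    ⁅pc 2 (centralizer ({y} : Set X)), ppc 2 (centralizer ({x} : Set X)) ⊓
      centralizer ({y} : Set X)⁆ = ⊥ := by
  set N := centralizer ({y} : Set X) with hN
  set D := ppc 2 (centralizer ({x} : Set X)) ⊓ N with hD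
  have hxN : x ∈ N := by
    rw [hN, mem_centralizer_singleton_iff]; exact hxy
  have hDodd : (Nat.card D).Coprime 2 :=
    Nat.Coprime.coprime_dvd_left (Subgroup.card_dvd_of_le inf_le_left) (card_ppc 2 _)
  have hDx : D ≤ centralizer ({x} : Set X) := inf_le_left.trans (ppc_le 2 _)
  have hDN : D ≤ N := inf_le_right
  have hP2 : IsPGroup 2 (zpowers x) := by
    apply IsPGroup.of_card_dvd_pow (n := 1)
    rw [Nat.card_zpowers, pow_one]
    exact orderOf_dvd_of_pow_eq_one hx
  apply commutator_eq_bot_pxq (P := zpowers x) hP2 _ (isPGroup_pc 2 N)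
  · rw [commutator_eq_bot_iff_le_centralizer, zpowers_le, mem_centralizer_iff]
    intro d hd
    exact mem_centralizer_singleton_iff.mp (hDx hd)
  · rw [zpowers_le]; exact le_normalizer_pc 2 N hxN
  · exact hDN.trans (le_normalizer_pc 2 N)
  · apply commutator_eq_bot_of_coprime (p := 2) ((isPGroup_pc 2 N).to_le inf_le_left) hDodd
    · -- C_U(x) normalizes D
      rintro u ⟨hu1, hu2⟩
      have hux : u ∈ centralizer ({x} : Set X) := by
        rw [mem_centralizer_singleton_iff]
        exact (mem_centralizer_iff.mp hu2 x (mem_zpowers x)).symm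
      have huN : u ∈ N := pc_le 2 N hu1
      apply H54.Basic.mem_normalizer_of_conj
      · intro d hd
        exact Subgroup.mem_inf.mpr ⟨H54.Basic.mul_inv_mem_of_mem_normalizer (le_normalizer_ppc 2 _ hux) hd.1,
          mul_mem (mul_mem huN hd.2) (inv_mem huN)⟩
      · intro d hd
        exact Subgroup.mem_inf.mpr ⟨H54.Basic.inv_mul_mem_of_mem_normalizer (le_normalizer_ppc 2 _ hux) hd.1,
          mul_mem (mul_mem (inv_mem huN) hd.2) huN⟩
    · intro d hd
      have hdx := hDx hd
      have hcz : d ∈ centralizer (zpowers x : Set X) := by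
        have h3 : zpowers x ≤ centralizer ({d} : Set X) := by
          rw [zpowers_le, mem_centralizer_singleton_iff]
          exact (mem_centralizer_singleton_iff.mp hdx).symm
        rw [mem_centralizer_iff]
        intro u hu
        exact mem_centralizer_singleton_iff.mp (h3 hu)
      have hdN := hDN hd
      apply H54.Basic.mem_normalizer_of_conj
      · intro u hu
        exact Subgroup.mem_inf.mpr ⟨H54.Basic.mul_inv_mem_of_mem_normalizer (le_normalizer_pc 2 N hdN) hu.1,
          mul_mem (mul_mem hcz hu.2) (inv_mem hcz)⟩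
      · intro u hu
        exact Subgroup.mem_inf.mpr ⟨H54.Basic.inv_mul_mem_of_mem_normalizer (le_normalizer_pc 2 N hdN) hu.1,
          mul_mem (mul_mem (inv_mem hcz) hu.2) hcz⟩
  · intro q hq
    exact Nat.Coprime.coprime_dvd_left (Subgroup.orderOf_dvd_natCard _ hq) hDodd

/-- odd order: `d ^ 2` commutes with `a` implies `d` commutes with `a` -/
theorem commute_of_sq {d a : X} (hd : (orderOf d).Coprime 2) (h : Commute (d ^ 2) a) :
    Commute d a := by
  obtain ⟨m, hm⟩ := exists_pow_eq_self_of_coprime (n := 2) (x := d) hd.symm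
  rw [← hm]
  exact h.pow_left m

theorem mem_of_sq_mem {H : Subgroup X} {d : X} (hd : (orderOf d).Coprime 2) (h : d ^ 2 ∈ H) :
    d ∈ H := by
  obtain ⟨m, hm⟩ := exists_pow_eq_self_of_coprime (n := 2) (x := d) hd.symm
  rw [← hm]
  exact H.pow_mem h m

theorem fitting_le [Finite X] : Cfsg.fittingSubgroup X ≤ Cfsg.pCore 2 X ⊔ Cfsg.pPrimeCore 2 X := by
  rw [H1.Cores.fittingSubgroup_eq_iSup_pCore]
  refine iSup_le fun q => ?_
  by_cases hq : (q : ℕ) = 2
  · rw [hq]; exact le_sup_left
  · refine le_trans ?_ le_sup_right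
    haveI : Fact (q : ℕ).Prime := ⟨q.2⟩
    apply H1.Cores.le_pPrimeCore inferInstance
    obtain ⟨n, hn⟩ := IsPGroup.iff_card.mp (H1.Cores.isPGroup_pCore (G := X) (q : ℕ))
    rw [hn]
    apply Nat.Coprime.pow_left
    exact (Nat.coprime_primes q.2 Nat.prime_two).mpr hq

/-- In a group with trivial layer, an odd order subgroup centralizing `O_2` and `O_{2'}` lies in
`O_{2'}`. -/
theorem mem_pPrimeCore_of_centralizes [Finite X] (hE : Cfsg.layer X = ⊥) {d : X}
    (hd : (orderOf d).Coprime 2) (h1 : d ∈ centralizer (Cfsg.pCore 2 X : Set X))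
    (h2 : d ∈ centralizer (Cfsg.pPrimeCore 2 X : Set X)) : d ∈ Cfsg.pPrimeCore 2 X := by
  have hgf : Cfsg.generalizedFittingSubgroup X = Cfsg.fittingSubgroup X := by
    rw [Cfsg.generalizedFittingSubgroup, hE, bot_sup_eq]
  have h3 : Cfsg.pCore 2 X ⊔ Cfsg.pPrimeCore 2 X ≤ centralizer ({d} : Set X) := by
    refine sup_le ?_ ?_
    · intro x hx
      rw [mem_centralizer_singleton_iff]
      exact mem_centralizer_iff.mp h1 x hx
    · intro x hx
      rw [mem_centralizer_singleton_iff]
      exact mem_centralizer_iff.mp h2 x hx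
  have h4 : d ∈ centralizer (Cfsg.generalizedFittingSubgroup X : Set X) := by
    rw [hgf, mem_centralizer_iff]
    intro x hx
    exact mem_centralizer_singleton_iff.mp (h3 (fitting_le hx))
  have h5 := H26.Components.centralizer_gFitting_le h4
  rw [hgf] at h5
  have h6 := fitting_le h5
  rw [sup_comm] at h6
  refine H54.Basic.mem_of_coprime_orderOf (p := 2) (A := Cfsg.pCore 2 X) ?_
    (H1.Cores.isPGroup_pCore 2) h6 hd
  rw [normalizer_eq_top]
  exact le_top

end aux

section main

variable {X : Type*} [Group X] [Finite X] (Y : Subgroup X) (hY : Cfsg.IsElementaryAbelian 2 Y)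
  (hE : ∀ x ∈ Y, x ≠ 1 → Cfsg.layer ↥(Subgroup.centralizer ({x} : Set X)) = ⊥)
  (z : X) (hzY : z ∈ Y) (hz1 : z ≠ 1)
  (hz : Cfsg.generalizedFittingSubgroup ↥(Subgroup.centralizer ({z} : Set X)) =
    Cfsg.pCore 2 ↥(Subgroup.centralizer ({z} : Set X)))

/-- `θ y = O(C_X(y))` -/
abbrev th (y : X) : Subgroup X := ppc 2 (centralizer ({y} : Set X))

omit [Finite X] in
theorem commY {Y : Subgroup X} (hY : Cfsg.IsElementaryAbelian 2 Y) {a b : X} (ha : a ∈ Y)
    (hb : b ∈ Y) : a * b = b * a := H13.ElemAb.comm hY ha hb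

include hY hz hzY in
theorem th_inf_z {y : X} (hy : y ∈ Y) : th y ⊓ centralizer ({z} : Set X) = ⊥ := by
  have h1 := commutator_pc_eq_bot (hY.2 y hy) (commY hY hy hzY)
  rw [H26.GenFitting.gFitting_eq_pCore_iff, charP_sub_iff] at hz
  rw [eq_bot_iff]
  intro d hd
  rw [mem_bot]
  apply hz d hd.2
  · exact coprime_orderOf_of_mem_ppc hd.1
  · rw [commutator_comm, commutator_eq_bot_iff_le_centralizer] at h1
    exact h1 hd

include hY hz hzY in
theorem inverts {y : X} (hy : y ∈ Y) {t : X} (ht : t ∈ th y) : z * t * z⁻¹ = t⁻¹ := by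
  have hzy : z ∈ centralizer ({y} : Set X) := by
    rw [mem_centralizer_singleton_iff]; exact commY hY hzY hy
  have hzn : z ∈ normalizer (th y : Set X) := le_normalizer_ppc 2 _ hzy
  let φ : ↥(th y) → ↥(th y) := fun t =>
    ⟨z * t * z⁻¹, H54.Basic.mul_inv_mem_of_mem_normalizer hzn t.2⟩
  let φh : ↥(th y) →* ↥(th y) :=
    { toFun := φ
      map_one' := by apply Subtype.ext; simp [φ]
      map_mul' := by intro a b; apply Subtype.ext; simp [φ, mul_assoc] }
  have hz2 : z * z = 1 := by have := hY.2 z hzY; rwa [pow_two] at this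
  have hinv : Function.Involutive φh := by
    intro t
    apply Subtype.ext
    change z * (z * t * z⁻¹) * z⁻¹ = t
    have : z⁻¹ = z := inv_eq_of_mul_eq_one_left hz2
    rw [this]
    calc z * (z * t * z) * z = (z * z) * t * (z * z) := by group
      _ = t := by rw [hz2]; simp
  have hfpf : MonoidHom.FixedPointFree φh := by
    intro t ht
    have h1 : z * t * z⁻¹ = t := congrArg Subtype.val ht
    have h2 : (t : X) ∈ th y ⊓ centralizer ({z} : Set X) := by
      refine ⟨t.2, ?_⟩
      refine mem_centralizer_singleton_iff.mpr ?_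
      rw [mul_inv_eq_iff_eq_mul] at h1
      exact h1.symm
    rw [th_inf_z Y hY z hzY hz hy, mem_bot] at h2
    exact Subtype.ext h2
  have h3 := hfpf.coe_eq_inv_of_involutive hinv
  have h4 := congrFun h3 ⟨t, ht⟩
  exact congrArg Subtype.val h4

include hY hz hzY in
theorem th_comm {y : X} (hy : y ∈ Y) {s t : X} (hs : s ∈ th y) (ht : t ∈ th y) :
    s * t = t * s := by
  have h1 := inverts Y hY z hzY hz hy (mul_mem hs ht)
  have h2 := inverts Y hY z hzY hz hy hs
  have h3 := inverts Y hY z hzY hz hy ht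
  have h4 : z * (s * t) * z⁻¹ = (z * s * z⁻¹) * (z * t * z⁻¹) := by group
  rw [h4, h2, h3, mul_inv_rev] at h1
  have h5 : (s⁻¹ * t⁻¹)⁻¹ = (t⁻¹ * s⁻¹)⁻¹ := by rw [h1]
  simp only [mul_inv_rev, inv_inv] at h5
  exact h5.symm

include hY hE hz hzY in
/-- balance -/
theorem balance {x y : X} (hx : x ∈ Y) (hy : y ∈ Y) (hy1 : y ≠ 1) :
    th x ⊓ centralizer ({y} : Set X) ≤ th y := by
  intro d hd
  have hdo : (orderOf d).Coprime 2 := coprime_orderOf_of_mem_ppc hd.1
  have h1 := commutator_pc_eq_bot (hY.2 x hx) (commY hY hx hy)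
  rw [commutator_comm, commutator_eq_bot_iff_le_centralizer] at h1
  have h2 := h1 hd
  -- d centralizes th y
  have h3 : ∀ a ∈ th y, Commute d a := by
    intro a ha
    apply commute_of_sq hdo
    have hdn : d ∈ normalizer (th y : Set X) := le_normalizer_ppc 2 _ hd.2
    have hda : d * a * d⁻¹ ∈ th y := H54.Basic.mul_inv_mem_of_mem_normalizer hdn ha
    have e1 := inverts Y hY z hzY hz hy hda
    have e2 := inverts Y hY z hzY hz hy ha
    have e3 := inverts Y hY z hzY hz hx hd.1
    have e4 : z * (d * a * d⁻¹) * z⁻¹ = (z * d * z⁻¹) * (z * a * z⁻¹) * (z * d * z⁻¹)⁻¹ := by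
      group
    rw [e4, e2, e3, inv_inv] at e1
    -- d⁻¹ a⁻¹ d = (d a d⁻¹)⁻¹
    have e5 : d⁻¹ * a * d = d * a * d⁻¹ := by
      have := congrArg (fun x => x⁻¹) e1
      simp only [mul_inv_rev, inv_inv] at this
      simpa [mul_assoc] using this
    show d ^ 2 * a = a * d ^ 2
    have e6 : d * (d⁻¹ * a * d) * d = d * (d * a * d⁻¹) * d := by rw [e5]
    have e7 : d * (d⁻¹ * a * d) * d = a * d ^ 2 := by rw [pow_two]; group
    have e8 : d * (d * a * d⁻¹) * d = d ^ 2 * a := by rw [pow_two]; group
    rw [← e7, ← e8, e6]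
  -- work inside C = C_X(y)
  have hE' := hE y hy hy1
  have h4 : (⟨d, hd.2⟩ : ↥(centralizer ({y} : Set X))) ∈
      Cfsg.pPrimeCore 2 ↥(centralizer ({y} : Set X)) := by
    apply mem_pPrimeCore_of_centralizes hE'
    · rwa [Subgroup.orderOf_mk]
    · rw [mem_centralizer_iff]
      intro u hu
      apply Subtype.ext
      exact mem_centralizer_iff.mp h2 u ⟨u, hu, rfl⟩
    · rw [mem_centralizer_iff]
      intro u hu
      apply Subtype.ext
      exact (h3 u ⟨u, hu, rfl⟩).symm
  exact ⟨_, h4, rfl⟩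

/-- `t` is homogeneous for `a`: centralized or inverted by `a` -/
def Hom (t a : X) : Prop := a * t * a⁻¹ = t ∨ a * t * a⁻¹ = t⁻¹

include hY hz hzY in
theorem th_homog {x : X} (hx : x ∈ Y) (S : Finset X) (hS : ∀ a ∈ S, a ∈ Y) :
    th x ≤ closure {t | t ∈ th x ∧ ∀ a ∈ S, Hom t a} := by
  classical
  induction S using Finset.induction_on with
  | empty =>
    intro t ht
    exact subset_closure ⟨ht, by simp⟩
  | insert b S hbS ih =>
    have ih' := ih (fun a ha => hS a (Finset.mem_insert_of_mem ha))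
    refine ih'.trans ?_
    rw [closure_le]
    rintro t ⟨ht, htS⟩
    have hb : b ∈ Y := hS b (Finset.mem_insert_self b S)
    have hbx : b ∈ centralizer ({x} : Set X) := by
      rw [mem_centralizer_singleton_iff]; exact commY hY hb hx
    have hbn : b ∈ normalizer (th x : Set X) := le_normalizer_ppc 2 _ hbx
    have htb : b * t * b⁻¹ ∈ th x := H54.Basic.mul_inv_mem_of_mem_normalizer hbn ht
    have hto : (orderOf t).Coprime 2 := coprime_orderOf_of_mem_ppc ht
    have hb2 : b * b = 1 := by have := hY.2 b hb; rwa [pow_two] at this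
    have hbi : b⁻¹ = b := inv_eq_of_mul_eq_one_left hb2
    have hcomm : ∀ {s t : X}, s ∈ th x → t ∈ th x → s * t = t * s :=
      fun hs ht => th_comm Y hY z hzY hz hx hs ht
    have hbb : b * (b * t * b⁻¹) * b⁻¹ = t := by
      rw [hbi]
      calc b * (b * t * b) * b = (b * b) * t * (b * b) := by group
        _ = t := by rw [hb2]; simp
    have key : ∀ a ∈ Y, ∀ ε : ℤ, (ε = 1 ∨ ε = -1) → a * t * a⁻¹ = t ^ ε →
        a * (b * t * b⁻¹) * a⁻¹ = (b * t * b⁻¹) ^ ε := by
      intro a ha ε _ hat
      have hab := commY hY ha hb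
      have e1 : a * (b * t * b⁻¹) * a⁻¹ = (a * b) * t * (a * b)⁻¹ := by group
      rw [e1, hab]
      have e2 : (b * a) * t * (b * a)⁻¹ = b * (a * t * a⁻¹) * b⁻¹ := by group
      rw [e2, hat]
      exact conj_zpow.symm
    apply mem_of_sq_mem (X := X) hto
    set u := t * (b * t * b⁻¹) with hu
    set v := t * (b * t * b⁻¹)⁻¹ with hv
    have huv : t ^ 2 = u * v := by
      have h9 := hcomm htb ht
      calc t ^ 2 = t * (t * (b * t * b⁻¹)) * (b * t * b⁻¹)⁻¹ := by
            rw [pow_two]; simp [mul_assoc]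
        _ = t * ((b * t * b⁻¹) * t) * (b * t * b⁻¹)⁻¹ := by rw [← h9]
        _ = u * v := by rw [hu, hv]; simp only [mul_assoc]
    have hu_mem : u ∈ th x := mul_mem ht htb
    have hv_mem : v ∈ th x := mul_mem ht (inv_mem htb)
    rw [huv]
    apply mul_mem
    · apply Subgroup.subset_closure
      refine ⟨hu_mem, fun a ha => ?_⟩
      rw [Finset.mem_insert] at ha
      rcases ha with rfl | ha
      · left
        rw [hu]
        have : a * (t * (a * t * a⁻¹)) * a⁻¹ = (a * t * a⁻¹) * (a * (a * t * a⁻¹) * a⁻¹) := by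
          group
        rw [this, hbb, hcomm htb ht]
      · have haY : a ∈ Y := hS a (Finset.mem_insert_of_mem ha)
        rcases htS a ha with h | h
        · left
          have h5 := key a haY 1 (Or.inl rfl) (by simpa using h)
          rw [zpow_one] at h5
          rw [hu]
          have : a * (t * (b * t * b⁻¹)) * a⁻¹ = (a * t * a⁻¹) * (a * (b * t * b⁻¹) * a⁻¹) := by
            group
          rw [this, h, h5]
        · right
          have h5 := key a haY (-1) (Or.inr rfl) (by simpa using h)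
          rw [zpow_neg_one] at h5
          rw [hu]
          have : a * (t * (b * t * b⁻¹)) * a⁻¹ = (a * t * a⁻¹) * (a * (b * t * b⁻¹) * a⁻¹) := by
            group
          rw [this, h, h5, ← mul_inv_rev, hcomm htb ht]
    · apply Subgroup.subset_closure
      refine ⟨hv_mem, fun a ha => ?_⟩
      rw [Finset.mem_insert] at ha
      rcases ha with rfl | ha
      · right
        rw [hv]
        have : a * (t * (a * t * a⁻¹)⁻¹) * a⁻¹ = (a * t * a⁻¹) * (a * (a * t * a⁻¹) * a⁻¹)⁻¹ := by
          group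
        rw [this, hbb, mul_inv_rev, inv_inv]
      · have haY : a ∈ Y := hS a (Finset.mem_insert_of_mem ha)
        rcases htS a ha with h | h
        · left
          have h5 := key a haY 1 (Or.inl rfl) (by simpa using h)
          rw [zpow_one] at h5
          rw [hv]
          have : a * (t * (b * t * b⁻¹)⁻¹) * a⁻¹ = (a * t * a⁻¹) * (a * (b * t * b⁻¹) * a⁻¹)⁻¹ := by
            group
          rw [this, h, h5]
        · right
          have h5 := key a haY (-1) (Or.inr rfl) (by simpa using h)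
          rw [zpow_neg_one] at h5
          rw [hv]
          have : a * (t * (b * t * b⁻¹)⁻¹) * a⁻¹ = (a * t * a⁻¹) * (a * (b * t * b⁻¹) * a⁻¹)⁻¹ := by
            group
          rw [this, h, h5, inv_inv, mul_inv_rev, inv_inv]
          exact hcomm (inv_mem ht) htb

include hY hE hz hzY in
theorem homog_commute (h8 : 8 ≤ Nat.card ↥Y) {x y t s : X} (hx : x ∈ Y) (hy : y ∈ Y)
    (ht : t ∈ th x) (hs : s ∈ th y) (hth : ∀ a ∈ Y, Hom t a) (hsh : ∀ a ∈ Y, Hom s a) :
    t * s = s * t := by
  classical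
  haveI : Fintype ↥Y := Fintype.ofFinite _
  let f : ↥Y → Bool × Bool := fun a =>
    (decide ((a : X) * t * (a : X)⁻¹ = t), decide ((a : X) * s * (a : X)⁻¹ = s))
  have hcard : Fintype.card (Bool × Bool) < Fintype.card ↥Y := by
    rw [← Nat.card_eq_fintype_card (α := ↥Y)]
    have : Fintype.card (Bool × Bool) = 4 := by simp
    omega
  obtain ⟨a, b, hab, hfab⟩ := Fintype.exists_ne_map_eq_of_card_lt f hcard
  simp only [f, Prod.mk.injEq, decide_eq_decide] at hfab
  set h : X := (a : X) * (b : X) with hh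
  have hb2 : (b : X) * b = 1 := by have := hY.2 b b.2; rwa [pow_two] at this
  have h1 : h ≠ 1 := by
    intro he
    apply hab
    apply Subtype.ext
    have : (a : X) = (b : X)⁻¹ := eq_inv_of_mul_eq_one_left he
    rw [this, inv_eq_of_mul_eq_one_left hb2]
  have hhY : h ∈ Y := mul_mem a.2 b.2
  have hcen : ∀ r : X, (∀ c ∈ Y, Hom r c) → ((a : X) * r * (a : X)⁻¹ = r ↔ (b : X) * r * (b : X)⁻¹ = r) →
      r ∈ centralizer ({h} : Set X) := by
    intro r hr hiff
    rw [mem_centralizer_singleton_iff]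
    have e1 : h * r * h⁻¹ = a * (b * r * (b : X)⁻¹) * (a : X)⁻¹ := by rw [hh]; group
    have e2 : h * r * h⁻¹ = r := by
      rw [e1]
      by_cases hc : (b : X) * r * (b : X)⁻¹ = r
      · rw [hc]; exact hiff.mpr hc
      · have hb' := (hr b b.2).resolve_left hc
        have ha' := (hr a a.2).resolve_left (fun h => hc (hiff.mp h))
        rw [hb']
        have : (a : X) * r⁻¹ * (a : X)⁻¹ = ((a : X) * r * (a : X)⁻¹)⁻¹ := by group
        rw [this, ha', inv_inv]
    rw [mul_inv_eq_iff_eq_mul] at e2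
    exact e2.symm
  have ht' : t ∈ th h := balance Y hY hE z hzY hz hx hhY h1 ⟨ht, hcen t hth hfab.1⟩
  have hs' : s ∈ th h := balance Y hY hE z hzY hz hy hhY h1 ⟨hs, hcen s hsh hfab.2⟩
  exact th_comm Y hY z hzY hz hhY ht' hs'

include hY hE hz hzY in
theorem th_commute (h8 : 8 ≤ Nat.card ↥Y) {x y : X} (hx : x ∈ Y) (hy : y ∈ Y)
    {t s : X} (ht : t ∈ th x) (hs : s ∈ th y) : t * s = s * t := by
  classical
  haveI : Fintype ↥Y := Fintype.ofFinite _
  have hS : ∃ S : Finset X, ∀ a, a ∈ S ↔ a ∈ Y :=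
    ⟨(Finset.univ : Finset ↥Y).image Subtype.val, by simp⟩
  obtain ⟨S, hS⟩ := hS
  have h1 := th_homog Y hY z hzY hz hx S (fun a ha => (hS a).mp ha) ht
  have h2 := th_homog Y hY z hzY hz hy S (fun a ha => (hS a).mp ha) hs
  have h3 : closure {t | t ∈ th x ∧ ∀ a ∈ S, Hom t a} ≤
      centralizer ((closure {s | s ∈ th y ∧ ∀ a ∈ S, Hom s a} : Subgroup X) : Set X) := by
    rw [closure_le, centralizer_closure]
    rintro t ⟨ht, hth⟩
    rw [SetLike.mem_coe, mem_centralizer_iff]
    rintro s ⟨hs, hsh⟩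
    exact (homog_commute Y hY hE z hzY hz h8 hx hy ht hs (fun a ha => hth a ((hS a).mpr ha))
      (fun a ha => hsh a ((hS a).mpr ha))).symm
  exact (mem_centralizer_iff.mp (h3 h1) s h2).symm

end main


end helpers

/-- Let X be a finite group and Y an elementary abelian 2-subgroup of X of order at least 8 such that C_X(x) has no components (E(C_X(x)) = 1) for every nontrivial x ∈ Y, and F*(C_X(z)) = O₂(C_X(z)) for some nontrivial z ∈ Y. Then the subgroup generated by the cores O(C_X(y)), y ∈ Y nontrivial, has odd order and is normalized by N_X(Y). -/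
theorem result {X : Type*} [Group X] [Finite X] (Y : Subgroup X) (hY : Cfsg.IsElementaryAbelian 2 Y) (h8 : 8 ≤ Nat.card ↥Y) (hE : ∀ x ∈ Y, x ≠ 1 → Cfsg.layer ↥(Subgroup.centralizer ({x} : Set X)) = ⊥) (hz : ∃ z ∈ Y, z ≠ 1 ∧ Cfsg.generalizedFittingSubgroup ↥(Subgroup.centralizer ({z} : Set X)) = Cfsg.pCore 2 ↥(Subgroup.centralizer ({z} : Set X))) : Odd (Nat.card ↥(⨆ y : {y : X // y ∈ Y ∧ y ≠ 1}, (Cfsg.oddCore ↥(Subgroup.centralizer ({(y : X)} : Set X))).map (Subgroup.centralizer ({(y : X)} : Set X)).subtype)) ∧ Subgroup.normalizer (Y : Set X) ≤ Subgroup.normalizer ((⨆ y : {y : X // y ∈ Y ∧ y ≠ 1}, (Cfsg.oddCore ↥(Subgroup.centralizer ({(y : X)} : Set X))).map (Subgroup.centralizer ({(y : X)} : Set X)).subtype : Subgroup X) : Set X) := by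
  classical
  obtain ⟨z, hzY, hz1, hz⟩ := hz
  let W : Subgroup X := ⨆ y : {y : X // y ∈ Y ∧ y ≠ 1}, th (y : X)
  change Odd (Nat.card ↥W) ∧ Subgroup.normalizer (Y : Set X) ≤ Subgroup.normalizer (W : Set X)
  constructor
  · -- W is generated by pairwise commuting elements of odd order
    let Sg : Set X := {t | ∃ y ∈ Y, t ∈ th y}
    have hWle : W ≤ Subgroup.closure Sg := by
      refine iSup_le fun y t ht => Subgroup.subset_closure ⟨y, y.2.1, ht⟩
    have hcomm : ∀ a ∈ Subgroup.closure Sg, ∀ b ∈ Subgroup.closure Sg, a * b = b * a := by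
      have h1 : Subgroup.closure Sg ≤ Subgroup.centralizer ((Subgroup.closure Sg : Subgroup X) : Set X) := by
        rw [Subgroup.closure_le, Subgroup.centralizer_closure]
        rintro t ⟨x, hx, ht⟩
        rw [SetLike.mem_coe, Subgroup.mem_centralizer_iff]
        rintro s ⟨y, hy, hs⟩
        exact (th_commute Y hY hE z hzY hz h8 hx hy ht hs).symm
      intro a ha b hb
      exact (Subgroup.mem_centralizer_iff.mp (h1 ha) b hb).symm
    have hodd : ∀ a ∈ Subgroup.closure Sg, (orderOf a).Coprime 2 := by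
      intro a ha
      induction ha using Subgroup.closure_induction with
      | mem t ht =>
        obtain ⟨y, hy, ht⟩ := ht
        exact H26.LocalFitting.coprime_orderOf_of_mem_ppc ht
      | one => simp
      | mul a b ha hb iha ihb =>
        have hc : Commute a b := hcomm a ha b hb
        exact Nat.Coprime.coprime_dvd_left hc.orderOf_mul_dvd_mul_orderOf (iha.mul_left ihb)
      | inv a ha iha => rwa [orderOf_inv]
    rw [← Nat.not_even_iff_odd, even_iff_two_dvd]
    intro hdvd
    haveI : Fact (Nat.Prime 2) := ⟨Nat.prime_two⟩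
    obtain ⟨w, hw⟩ := exists_prime_orderOf_dvd_card' 2 hdvd
    have h1 := hodd (w : X) (hWle w.2)
    rw [Subgroup.orderOf_coe, hw] at h1
    norm_num at h1
  · intro g hg
    have key : ∀ g ∈ Subgroup.normalizer (Y : Set X), ∀ w ∈ W, g * w * g⁻¹ ∈ W := by
      intro g hg
      have h1 : W.map (MulAut.conj g).toMonoidHom ≤ W := by
        rw [Subgroup.map_iSup]
        refine iSup_le fun y => ?_
        have h2 : (Subgroup.centralizer ({(y : X)} : Set X)).map (MulAut.conj g).toMonoidHom =
            Subgroup.centralizer ({g * y * g⁻¹} : Set X) := by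
          ext x
          rw [H54.Basic.mem_map_conj, Subgroup.mem_centralizer_singleton_iff,
            Subgroup.mem_centralizer_singleton_iff]
          constructor
          · intro h
            have e1 : x * (g * y * g⁻¹) = g * (g⁻¹ * x * g * y) * g⁻¹ := by group
            rw [e1, h]; group
          · intro h
            have e1 : g⁻¹ * x * g * y = g⁻¹ * (x * (g * y * g⁻¹)) * g := by group
            rw [e1, h]; group
        have h3 := ppc_conj_le 2 (Subgroup.centralizer ({(y : X)} : Set X)) g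
        rw [h2] at h3
        refine h3.trans ?_
        have hgy : g * y * g⁻¹ ∈ Y := (Subgroup.mem_normalizer_iff.mp hg y).mp y.2.1
        have hgy1 : g * y * g⁻¹ ≠ 1 := by
          intro h
          apply y.2.2
          rw [mul_inv_eq_one] at h
          exact mul_eq_left.mp h
        exact le_iSup (fun y : {y : X // y ∈ Y ∧ y ≠ 1} => th (y : X)) ⟨_, hgy, hgy1⟩
      intro w hw
      exact h1 ⟨w, hw, by simp⟩
    apply H54.Basic.mem_normalizer_of_conj (key g hg)
    intro w hw
    have := key g⁻¹ (inv_mem hg) w hw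
    rwa [inv_inv] at this

end Cfsg.Agent.S2924
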