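import Cfsg.Statements.S2925
import Cfsg.Agent.Lib.H52.Syl
import Cfsg.Agent.Lib.H26.Components
import Cfsg.Agent.Lib.H54.Basic

set_option autoImplicit false
open Cfsg

namespace Cfsg.Agent.S2925

open Subgroup

theorem commPair {X : Type*} [Group X] {K L : Subgroup X} (h : ⁅K, L⁆ = ⊥) {k l : X}
    (hk : k ∈ K) (hl : l ∈ L) : k * l = l * k := by
  rw [commutator_eq_bot_iff_le_centralizer] at h
  exact (mem_centralizer_iff.mp (h hk) l hl).symm

/-- Let K be a component of the finite group X and T a Sylow 2-subgroup of X. If some abelian normal subgroup Y of T does not normalize K, then K ⧸ Z(K) has abelian Sylow 2-subgroups. -/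
theorem result {X : Type*} [Group X] [Finite X] (K : Subgroup X) (hK : Cfsg.IsComponent K) (T : Sylow 2 X) (Y : Subgroup X) (hYT : Y ≤ (T : Subgroup X)) (hYn : (Y.subgroupOf (T : Subgroup X)).Normal) (hYab : IsMulCommutative ↥Y) (hnot : ¬ Y ≤ Subgroup.normalizer (K : Set X)) (P : Sylow 2 (↥K ⧸ Subgroup.center ↥K)) : IsMulCommutative ↥(P : Subgroup (↥K ⧸ Subgroup.center ↥K)) := by
  classical
  haveI : Fact (Nat.Prime 2) := ⟨Nat.prime_two⟩
  obtain ⟨y, hyY, hyK⟩ := Set.not_subset.mp hnot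
  have hconj : ∀ a ∈ Y, ∀ b ∈ Y, a * b = b * a := by
    intro a ha b hb
    have := (hYab.is_comm.comm (⟨a, ha⟩ : Y) ⟨b, hb⟩)
    exact congrArg Subtype.val this
  have hYT' : ∀ k ∈ (T : Subgroup X), ∀ b ∈ Y, k * b * k⁻¹ ∈ Y := by
    intro k hk b hb
    have := hYn.conj_mem ⟨b, hYT hb⟩ hb ⟨k, hk⟩
    exact this
  set K' : Subgroup X := K.map (MulAut.conj y).toMonoidHom with hK'
  have hcomp' : IsComponent K' := (H26.Components.map_conj_iff y).mpr hK
  have hne : K ≠ K' := by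
    intro h
    apply hyK
    exact (H52.Syl.mem_normalizer_of_cj_eq (g := y) (H := K) h.symm)
  have hcomm : ⁅K, K'⁆ = ⊥ := H26.Components.commutator_eq_bot_of_ne hK hcomp' hne
  -- commutators of elements of T ∩ K are central
  have key : ∀ k ∈ (T : Subgroup X) ⊓ K, ∀ l ∈ (T : Subgroup X) ⊓ K, ∀ m ∈ K,
      (l * k)⁻¹ * (k * l) * m = m * ((l * k)⁻¹ * (k * l)) := by
    intro k hk l hl m hm
    have hk' : y * k⁻¹ * y⁻¹ ∈ K' := ⟨k⁻¹, inv_mem hk.2, rfl⟩
    have hl' : y * l⁻¹ * y⁻¹ ∈ K' := ⟨l⁻¹, inv_mem hl.2, rfl⟩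
    have h1 : k * y * k⁻¹ * y⁻¹ ∈ Y := mul_mem (hYT' k hk.1 y hyY) (inv_mem hyY)
    have h2 : l * y * l⁻¹ * y⁻¹ ∈ Y := mul_mem (hYT' l hl.1 y hyY) (inv_mem hyY)
    have h3 := hconj _ h1 _ h2
    set k' := y * k⁻¹ * y⁻¹ with hk'def
    set l' := y * l⁻¹ * y⁻¹ with hl'def
    have e1 : k * y * k⁻¹ * y⁻¹ = k * k' := by rw [hk'def]; group
    have e2 : l * y * l⁻¹ * y⁻¹ = l * l' := by rw [hl'def]; group
    rw [e1, e2] at h3
    have c1 : l * k' = k' * l := commPair hcomm hl.2 hk'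
    have c2 : k * l' = l' * k := commPair hcomm hk.2 hl'
    have e3 : (k * k') * (l * l') = (k * l) * (k' * l') := by
      calc (k * k') * (l * l') = k * (k' * l) * l' := by group
        _ = k * (l * k') * l' := by rw [c1]
        _ = _ := by group
    have e4 : (l * l') * (k * k') = (l * k) * (l' * k') := by
      calc (l * l') * (k * k') = l * (l' * k) * k' := by group
        _ = l * (k * l') * k' := by rw [c2]
        _ = _ := by group
    rw [e3, e4] at h3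
    have e5 : (l * k)⁻¹ * (k * l) = (l' * k') * (k' * l')⁻¹ := by
      rw [inv_mul_eq_iff_eq_mul, ← mul_assoc, ← h3]
      group
    have h6 : (l * k)⁻¹ * (k * l) ∈ K' := by
      rw [e5]; exact mul_mem (mul_mem hl' hk') (inv_mem (mul_mem hk' hl'))
    exact (commPair hcomm hm h6).symm
  -- T ∩ K is a Sylow subgroup of K
  have hS : H52.Syl.SylIn 2 ((T : Subgroup X) ⊓ K) K :=
    (H52.Syl.sylIn_top T).inf_subnormal hK.1
  obtain ⟨S, hSeq⟩ := hS.subgroupOf
  -- image in the quotient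
  let q := QuotientGroup.mk' (Subgroup.center ↥K)
  have hq : Function.Surjective q := QuotientGroup.mk'_surjective _
  let P' : Sylow 2 (↥K ⧸ Subgroup.center ↥K) := S.mapSurjective hq
  have hP' : ∀ a ∈ (P' : Subgroup (↥K ⧸ Subgroup.center ↥K)),
      ∀ b ∈ (P' : Subgroup (↥K ⧸ Subgroup.center ↥K)), a * b = b * a := by
    intro a ha b hb
    obtain ⟨k, hk, rfl⟩ : ∃ k ∈ (S : Subgroup ↥K), q k = a := ha
    obtain ⟨l, hl, rfl⟩ : ∃ l ∈ (S : Subgroup ↥K), q l = b := hb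
    rw [hSeq, mem_subgroupOf] at hk hl
    rw [← map_mul, ← map_mul]
    symm
    rw [QuotientGroup.mk'_eq_mk']
    refine ⟨(l * k)⁻¹ * (k * l), ?_, by group⟩
    rw [mem_center_iff]
    intro m
    apply Subtype.ext
    exact (key _ hk _ hl m m.2).symm
  obtain ⟨g, hg⟩ := MulAction.exists_smul_eq (↥K ⧸ Subgroup.center ↥K) P' P
  refine ⟨⟨fun a b => ?_⟩⟩
  apply Subtype.ext
  have hmem : ∀ a ∈ (P : Subgroup (↥K ⧸ Subgroup.center ↥K)),
      g⁻¹ * a * g ∈ (P' : Subgroup (↥K ⧸ Subgroup.center ↥K)) := by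
    intro a ha
    rw [← hg] at ha
    have : a ∈ (g • P' : Sylow 2 _) := ha
    rw [H54.Basic.mem_sylow_smul] at this
    exact this
  have h1 := hP' _ (hmem a a.2) _ (hmem b b.2)
  have h2 : g⁻¹ * ((a : ↥K ⧸ Subgroup.center ↥K) * b) * g = g⁻¹ * ((b : ↥K ⧸ Subgroup.center ↥K) * a) * g := by
    calc _ = (g⁻¹ * (a : ↥K ⧸ Subgroup.center ↥K) * g) * (g⁻¹ * b * g) := by group
      _ = (g⁻¹ * (b : ↥K ⧸ Subgroup.center ↥K) * g) * (g⁻¹ * a * g) := h1
      _ = _ := by group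
  have h3 := mul_right_cancel h2
  exact mul_left_cancel h3

end Cfsg.Agent.S2925
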