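import Cfsg.Statements.S2928
import Cfsg.Agent.Lib.H54.TwoCyc3

set_option autoImplicit false
open Cfsg

namespace Cfsg.Agent.S2928

/-- Let n ≥ 8 and let H be a subgroup of the symmetric group of degree n whose generalized Fitting subgroup F*(H) is quasisimple. If H contains a Sylow 2-subgroup of the alternating group of degree n, then F*(H) is isomorphic to an alternating group of degree m for some m ∈ {n − 3, n − 2, n − 1, n}. -/
theorem result (n : ℕ) (hn : 8 ≤ n) (H : Subgroup (Equiv.Perm (Fin n))) (hF : Cfsg.IsQuasisimple ↥(Cfsg.generalizedFittingSubgroup ↥H)) (hS : ∃ P : Sylow 2 ↥(alternatingGroup (Fin n)), ((P : Subgroup ↥(alternatingGroup (Fin n))).map (alternatingGroup (Fin n)).subtype) ≤ H) : ∃ m : ℕ, (m = n - 3 ∨ m = n - 2 ∨ m = n - 1 ∨ m = n) ∧ Nonempty (↥(Cfsg.generalizedFittingSubgroup ↥H) ≃* ↥(alternatingGroup (Fin m))) := by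
  obtain ⟨S, hS⟩ := hS
  obtain ⟨P, hP⟩ := H42.SylowTwoPerm.exists_sylow_perm S
  apply H54.TwoCyc.main hn hF (P := P)
  intro g hg hga
  apply hS
  exact ⟨⟨g, hga⟩, (hP ⟨g, hga⟩).mpr hg, rfl⟩


end Cfsg.Agent.S2928
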