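import Cfsg.Statements.S2929
import Cfsg.Agent.Lib.H54.ThreeCyc2

set_option autoImplicit false
open Cfsg

namespace Cfsg.Agent.S2929

/-- Let n ≥ 5 and let H be a subgroup of the symmetric group of degree n whose generalized Fitting subgroup F*(H) is quasisimple. If H contains a Sylow 3-subgroup of the symmetric group, then F*(H) is isomorphic to an alternating group of degree m for some m ∈ {n − 2, n − 1, n}. -/
theorem result (n : ℕ) (hn : 5 ≤ n) (H : Subgroup (Equiv.Perm (Fin n))) (hF : Cfsg.IsQuasisimple ↥(Cfsg.generalizedFittingSubgroup ↥H)) (hS : ∃ P : Sylow 3 (Equiv.Perm (Fin n)), (P : Subgroup (Equiv.Perm (Fin n))) ≤ H) : ∃ m : ℕ, (m = n - 2 ∨ m = n - 1 ∨ m = n) ∧ Nonempty (↥(Cfsg.generalizedFittingSubgroup ↥H) ≃* ↥(alternatingGroup (Fin m))) := by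
  classical
  obtain ⟨P, hP⟩ := hS
  obtain ⟨D, hD, hDP⟩ := H54.ThreeCyc.exists_D P
  have hH : ∀ a ∉ D, ∃ c ∈ H, Equiv.Perm.IsThreeCycle c ∧ c a ≠ a := by
    intro a ha
    obtain ⟨c, hc, h⟩ := hDP a ha
    exact ⟨c, hP hc, h⟩
  obtain ⟨x, hx, h5⟩ := H54.ThreeCyc.exists_big hF hD hH
  refine ⟨(H54.ThreeCyc.cmp H x).ncard, ?_, H54.ThreeCyc.big_iso hF hx h5⟩
  have h1 : (H54.ThreeCyc.cmp H x).ncard ≤ n := by
    have := Set.ncard_le_ncard (Set.subset_univ (H54.ThreeCyc.cmp H x))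
    rwa [Set.ncard_univ, Nat.card_eq_fintype_card, Fintype.card_fin] at this
  have h2 : n ≤ (H54.ThreeCyc.cmp H x).ncard + 2 := by
    have h3 : (Set.univ : Set (Fin n)) ⊆ H54.ThreeCyc.cmp H x ∪ (D : Set (Fin n)) := by
      intro y _
      by_cases hy : y ∈ D
      · exact Or.inr hy
      · exact Or.inl (H54.ThreeCyc.big_all hF hx h5 (hH y hy))
    have h4 := Set.ncard_le_ncard h3
    have h6 := Set.ncard_union_le (H54.ThreeCyc.cmp H x) (D : Set (Fin n))
    rw [Set.ncard_univ, Nat.card_eq_fintype_card, Fintype.card_fin] at h4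
    rw [Set.ncard_coe_finset] at h6
    omega
  omega

end Cfsg.Agent.S2929
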