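import Cfsg.Statements.S2930
import Cfsg.Agent.Lib.H54.AltMin4

set_option autoImplicit false
open Cfsg

namespace Cfsg.Agent.S2930

/-- Let X be a finite 3-minimal group (a Sylow 3-subgroup is not normal and lies in a unique maximal subgroup) whose generalized Fitting subgroup is isomorphic to an alternating group of degree n ≥ 5. Then X = F*(X), and n = 6, n = 9, or n = 3ᵃ + 1 for some a ≥ 2. -/
theorem result {X : Type*} [Group X] [Finite X] (hX : Cfsg.IsPMinimal 3 X) (n : ℕ) (hn : 5 ≤ n) (hF : Nonempty (↥(Cfsg.generalizedFittingSubgroup X) ≃* ↥(alternatingGroup (Fin n)))) : Cfsg.generalizedFittingSubgroup X = ⊤ ∧ (n = 6 ∨ n = 9 ∨ ∃ a : ℕ, 2 ≤ a ∧ n = 3 ^ a + 1) := by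
  obtain ⟨e⟩ := hF
  have h1 := H54.AltMin.gF_top hX hn e
  refine ⟨h1, ?_⟩
  have e' : X ≃* ↥(Cfsg.generalizedFittingSubgroup X) :=
    (Subgroup.topEquiv.symm).trans (MulEquiv.subgroupCongr h1.symm)
  exact H54.AltMin.concl hX hn (e'.trans e)


end Cfsg.Agent.S2930
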