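import Cfsg.Statements.S2939
import Mathlib
import Cfsg.Agent.Lib.H54.SylFam

set_option autoImplicit false
open Cfsg

namespace Cfsg.Agent.S2939

variable {G : Type*} [Group G]

open H54.SylFam H28.Cj in
theorem aux_cj_set (g : G) (A : Set G) (X : Subgroup G) :
    Cfsg.conjRight g A ⊆ (X : Set G) ↔ A ⊆ (cj g X : Set G) := by
  unfold Cfsg.conjRight
  rw [Set.image_subset_iff]
  constructor
  · intro h a ha
    have := h ha
    simp only [Set.mem_preimage, SetLike.mem_coe] at this
    exact mem_cj.mpr this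
  · intro h a ha
    have := h ha
    simp only [Set.mem_preimage, SetLike.mem_coe]
    exact mem_cj.mp this

/-- Let p be a prime dividing the order of the finite group G and 𝓕 a family of subgroups of G closed under conjugation, with conjugates taken as X^g = g⁻¹Xg. Then 𝓕 controls Sylow p-intersections in G (any two distinct Sylow p-subgroups S and T with S ∩ T ≠ 1 are joined by a chain S = S₀, S₁, …, Sₙ = T of Sylow p-subgroups where, for each i, some member Xᵢ of 𝓕 meets both S_{i-1} and Sᵢ in Sylow p-subgroups of Xᵢ, satisfies S ∩ T ≤ Sᵢ ∩ Xᵢ, and contains an element xᵢ with Sᵢ^{xᵢ} = S_{i-1}) if and only if 𝓕 strongly controls p-fusion in G (whenever A is a subset of a Sylow p-subgroup S, A contains an element other than 1, and A^g ⊆ S, the element g factorises as g = y₁⋯yₙy with y ∈ N_G(S) and each yᵢ in a member Yᵢ of 𝓕 that meets S in a Sylow p-subgroup of Yᵢ, with A^{y₁⋯yᵢ} ⊆ S ∩ Yᵢ for each i). -/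
theorem result {G : Type*} [Group G] [Finite G] {p : ℕ} [Fact p.Prime] (hdiv : p ∣ Nat.card G) (𝓕 : Set (Subgroup G)) (h𝓕 : Cfsg.IsNormalSet 𝓕) : Cfsg.ControlsSylowIntersections p 𝓕 ↔ Cfsg.FamilyStronglyControlsFusion p 𝓕 := by
  classical
  have hsub : ∀ (g : G) (A : Set G) (X : Subgroup G),
      Cfsg.conjRight g A ⊆ (X : Set G) ↔ A ⊆ (H28.Cj.cj g X : Set G) := aux_cj_set
  constructor
  · intro hctl S A g hAS hA1 hAg
    by_cases hST : g ∈ Subgroup.normalizer ((S : Subgroup G) : Set G)
    · refine ⟨0, Fin.elim0, Fin.elim0, g, hST, fun i => i.elim0, by simp, fun i => i.elim0⟩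
    have hne : S ≠ g • S := by
      intro h
      apply hST
      rw [H28.Cj.mem_normalizer_iff_cj]
      have := H54.Basic.coe_sylow_smul g S
      rw [← h] at this
      exact this.symm
    have hgS : ((g • S : Sylow p G) : Subgroup G) = H28.Cj.cj g (S : Subgroup G) :=
      H54.Basic.coe_sylow_smul g S
    have hAT : A ⊆ ((g • S : Sylow p G) : Subgroup G) := by
      rw [hgS]; exact (hsub g A S).mp hAg
    have hint : (S : Subgroup G) ⊓ ((g • S : Sylow p G) : Subgroup G) ≠ ⊥ := by
      obtain ⟨a, ha, ha1⟩ := hA1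
      intro h
      apply ha1
      rw [← Subgroup.mem_bot, ← h]
      exact ⟨hAS ha, hAT ha⟩
    obtain ⟨n, c, X, x, h0, hn, hc⟩ := hctl S (g • S) hne hint
    -- w i
    let w : ℕ → G := fun m => Nat.rec (1 : G) (fun i r => (if h : i < n then x ⟨i, h⟩ else 1) * r) m
    have hw0 : w 0 = 1 := rfl
    have hws : ∀ i : Fin n, w (i.val + 1) = x i * w i.val := by
      intro i
      change (if h : i.val < n then x ⟨i.val, h⟩ else 1) * w i.val = _
      rw [dif_pos i.2]
    have hcw : ∀ i : Fin (n + 1), (c i : Subgroup G) = H28.Cj.cj (w i.val) (S : Subgroup G) := by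
      intro i
      induction i using Fin.induction with
      | zero => simp [h0, hw0]
      | succ i ih =>
        obtain ⟨-, -, -, h4, -⟩ := hc i
        have h5 : (c i.succ : Subgroup G) = H28.Cj.cj (x i) (c i.castSucc : Subgroup G) := by
          rw [← h4, H54.SylFam.conjRight_eq_cj, H28.Cj.cj_cj_inv]
        rw [h5, ih, H28.Cj.cj_cj]
        rw [Fin.val_succ, hws, Fin.val_castSucc]
    let y : Fin n → G := fun i => (w i.val)⁻¹ * x i * w i.val
    let Y : Fin n → Subgroup G := fun i => H28.Cj.cj (w i.val)⁻¹ (X i)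
    have hprod : ∀ m : ℕ, m ≤ n → ((List.ofFn y).take m).prod = w m := by
      intro m
      induction m with
      | zero => intro _; simp [hw0]
      | succ m ih =>
        intro hm
        rw [List.prod_take_succ _ _ (by rw [List.length_ofFn]; omega), ih (by omega),
          List.getElem_ofFn]
        have := hws ⟨m, by omega⟩
        simp only at this
        rw [this]
        simp only [y]
        group
    have hprodn : (List.ofFn y).prod = w n := by
      rw [← hprod n le_rfl, List.take_of_length_le (by rw [List.length_ofFn])]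
    have hw_mem : ∀ i : Fin n, H28.Cj.cj (w (i.val + 1))⁻¹ (X i) = Y i := by
      intro i
      obtain ⟨-, -, h3, -, -⟩ := hc i
      simp only [Y]
      rw [hws, mul_inv_rev, ← H28.Cj.cj_cj, H28.Cj.cj_eq_self_of_mem (inv_mem h3)]
    refine ⟨n, Y, y, (w n)⁻¹ * g, ?_, ?_, ?_, ?_⟩
    · rw [H28.Cj.mem_normalizer_iff_cj, ← H28.Cj.cj_cj, ← hgS, ← hn, hcw]
      simp only [Fin.val_last]
      rw [H28.Cj.cj_inv_cj]
    · intro i
      obtain ⟨h1, -, h3, -, -⟩ := hc i
      constructor
      · have := H54.SylFam.cj_mem_sylowMembers h𝓕 h1 (w i.val)⁻¹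
        rw [hcw, Fin.val_castSucc, H28.Cj.cj_inv_cj] at this
        exact this
      · simp only [y, Y]
        rw [H28.Cj.mem_cj]
        simpa [mul_assoc] using h3
    · rw [hprodn]; group
    · intro i
      obtain ⟨h1, -, h3, -, h5⟩ := hc i
      rw [hprod _ (by omega)]
      intro b hb
      have hA1 : A ⊆ (c i.succ : Subgroup G) := fun a ha => (h5 ⟨hAS ha, hAT ha⟩).1
      have hA2 : A ⊆ (X i : Set G) := fun a ha => (h5 ⟨hAS ha, hAT ha⟩).2
      constructor
      · rw [hcw, Fin.val_succ, ← hsub] at hA1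
        exact hA1 hb
      · have hXY : X i = H28.Cj.cj (w (i.val + 1)) (Y i) := by
          rw [← hw_mem, H28.Cj.cj_cj_inv]
        rw [hXY] at hA2
        exact (hsub _ _ _).mpr hA2 hb
  · intro hctl S T hne hint
    obtain ⟨g, hg⟩ := MulAction.exists_smul_eq G S T
    have hgS : (T : Subgroup G) = H28.Cj.cj g (S : Subgroup G) := by
      rw [← hg]; exact H54.Basic.coe_sylow_smul g S
    let A : Set G := ((S : Subgroup G) ⊓ (T : Subgroup G) : Subgroup G)
    obtain ⟨a, ha1⟩ := Subgroup.ne_bot_iff_exists_ne_one.mp hint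
    obtain ⟨n, Y, y, y₀, hy₀, hY, hgy, hA⟩ := hctl S A g (fun a ha => ha.1)
      ⟨a, a.2, by simpa using ha1⟩ ((hsub _ _ _).mpr (fun a ha => by rw [← hgS]; exact ha.2))
    let w : ℕ → G := fun m => ((List.ofFn y).take m).prod
    have hw0 : w 0 = 1 := by simp [w]
    have hws : ∀ i : Fin n, w (i.val + 1) = w i.val * y i := by
      intro i
      simp only [w]
      rw [List.prod_take_succ _ _ (by rw [List.length_ofFn]; exact i.2), List.getElem_ofFn]
    have hwn : w n = (List.ofFn y).prod := by
      simp only [w]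
      rw [List.take_of_length_le (by rw [List.length_ofFn])]
    let c : Fin (n + 1) → Sylow p G := fun i => w i.val • S
    have hc : ∀ i, (c i : Subgroup G) = H28.Cj.cj (w i.val) (S : Subgroup G) := fun i =>
      H54.Basic.coe_sylow_smul _ S
    refine ⟨n, c, fun i => H28.Cj.cj (w i.val) (Y i), fun i => w i.val * y i * (w i.val)⁻¹,
      ?_, ?_, ?_⟩
    · simp [c, hw0]
    · apply Sylow.ext
      rw [hc, Fin.val_last, hgS, hgy, ← hwn, ← H28.Cj.cj_cj,
        H28.Cj.mem_normalizer_iff_cj.mp hy₀]
    · intro i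
      have hYw : H28.Cj.cj (w (i.val + 1)) (Y i) = H28.Cj.cj (w i.val) (Y i) := by
        rw [hws, ← H28.Cj.cj_cj, H28.Cj.cj_eq_self_of_mem (hY i).2]
      refine ⟨?_, ?_, ?_, ?_, ?_⟩
      · rw [hc, Fin.val_castSucc]
        exact H54.SylFam.cj_mem_sylowMembers h𝓕 (hY i).1 _
      · rw [hc, Fin.val_succ]
        change H28.Cj.cj (w i.val) (Y i) ∈ _
        rw [← hYw]
        exact H54.SylFam.cj_mem_sylowMembers h𝓕 (hY i).1 _
      · rw [H28.Cj.mem_cj]
        simpa [mul_assoc] using (hY i).2
      · rw [H54.SylFam.conjRight_eq_cj, hc, hc, Fin.val_succ, Fin.val_castSucc, hws,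
          H28.Cj.cj_cj]
        congr 2
        group
      · have h1 := hA i
        refine le_inf ?_ ?_
        · rw [hc, Fin.val_succ]
          exact (hsub _ _ _).mp (fun b hb => (h1 hb).1)
        · change _ ≤ H28.Cj.cj (w i.val) (Y i)
          rw [← hYw]
          exact (hsub _ _ _).mp (fun b hb => (h1 hb).2)

end Cfsg.Agent.S2939
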