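import Cfsg.Statements.S2940
import Mathlib
import Cfsg.Agent.Lib.H54.Basic

set_option autoImplicit false
open Cfsg

namespace Cfsg.Agent.S2940

/-- Let S be a Sylow p-subgroup of the finite group G and G₁, G₂ subgroups containing S with G = G₁G₂. Then for every g ∈ G there is a Sylow p-subgroup U of G with S ∩ S^g ≤ U ≤ G₁ ∩ G₂^g (conjugates taken as X^g = g⁻¹Xg). -/
theorem result {G : Type*} [Group G] [Finite G] {p : ℕ} [Fact p.Prime] (S : Sylow p G) (G₁ G₂ : Subgroup G) (h1 : (S : Subgroup G) ≤ G₁) (h2 : (S : Subgroup G) ≤ G₂) (hfact : ∀ g : G, ∃ g₁ ∈ G₁, ∃ g₂ ∈ G₂, g = g₁ * g₂) (g : G) : ∃ U : Sylow p G, (S : Subgroup G) ⊓ Cfsg.subgroupConjRight g (S : Subgroup G) ≤ (U : Subgroup G) ∧ (U : Subgroup G) ≤ G₁ ⊓ Cfsg.subgroupConjRight g G₂ := by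
  classical
  -- write g = a * b with a in G₂, b in G₁
  obtain ⟨g₁, hg₁, g₂, hg₂, hg⟩ := hfact g⁻¹
  have hg' : g = g₂⁻¹ * g₁⁻¹ := by
    rw [← mul_inv_rev, ← hg, inv_inv]
  -- the intersection D
  set D : Subgroup G := (S : Subgroup G) ⊓ Cfsg.subgroupConjRight g (S : Subgroup G) with hD
  have hmemc : ∀ (h : G) (X : Subgroup G) (x : G), x ∈ Cfsg.subgroupConjRight h X ↔ h * x * h⁻¹ ∈ X := by
    intro h X x
    unfold Cfsg.subgroupConjRight
    constructor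
    · rintro ⟨y, hy, rfl⟩
      simpa [MulAut.conj_apply, mul_assoc] using hy
    · intro hx
      exact ⟨_, hx, by simp [MulAut.conj_apply, mul_assoc]⟩
  -- K = G₁ ⊓ G₂ ^ g
  set K : Subgroup G := G₁ ⊓ Cfsg.subgroupConjRight g G₂ with hK
  have hDK : D ≤ K := by
    intro x hx
    refine ⟨h1 hx.1, (hmemc _ _ _).mpr ?_⟩
    exact h2 ((hmemc _ _ _).mp hx.2)
  have hDp : IsPGroup p ↥D := S.isPGroup'.to_le inf_le_left
  -- a Sylow p-subgroup of G inside K : the conjugate S ^ (g₁⁻¹)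
  let U₀ : Sylow p G := g₁ • S
  have hU₀ : (U₀ : Subgroup G) ≤ K := by
    intro x hx
    have hx' : g₁⁻¹ * x * g₁ ∈ (S : Subgroup G) :=
      (H54.Basic.mem_sylow_smul g₁ S x).mp hx
    refine ⟨?_, (hmemc _ _ _).mpr ?_⟩
    · have := G₁.mul_mem (G₁.mul_mem hg₁ (h1 hx')) (G₁.inv_mem hg₁)
      simpa [mul_assoc] using this
    · rw [hg']
      have := G₂.mul_mem (G₂.mul_mem (G₂.inv_mem hg₂) (h2 hx')) hg₂
      simpa [mul_assoc] using this
  -- D, as a subgroup of K, lies in a Sylow subgroup of K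
  obtain ⟨V, hV⟩ := (IsPGroup.exists_le_sylow (p := p) (G := ↥K) (P := D.subgroupOf K)
    (hDp.comap_of_injective _ (Subgroup.subtype_injective _)))
  let U₁ : Sylow p ↥K := U₀.subtype hU₀
  obtain ⟨k, hk⟩ := MulAction.exists_smul_eq (↥K) U₁ V
  refine ⟨(k : G) • U₀, ?_, ?_⟩
  · intro x hx
    have hxK := hDK hx
    have hxV : (⟨x, hxK⟩ : ↥K) ∈ V := hV (by simpa [Subgroup.mem_subgroupOf] using hx)
    rw [← hk, H54.Basic.mem_sylow_smul] at hxV
    exact (H54.Basic.mem_sylow_smul _ _ _).mpr hxV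
  · intro x hx
    have h3 : (k : G)⁻¹ * x * (k : G) ∈ K :=
      hU₀ ((H54.Basic.mem_sylow_smul _ _ _).mp hx)
    have := K.mul_mem (K.mul_mem k.2 h3) (K.inv_mem k.2)
    simpa [mul_assoc] using this

end Cfsg.Agent.S2940
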