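import Cfsg.Statements.S2955
import Mathlib
import Cfsg.Agent.Lib.H54.SylFam

set_option autoImplicit false
open Cfsg

namespace Cfsg.Agent.S2955

/-- Let p be a prime dividing the order of the finite group G and 𝓕 a conjugation-closed family of subgroups that controls Sylow p-intersections in G. Suppose the Sylow p-subgroups of G are chain-connected: any two of them are joined by a chain of Sylow p-subgroups, consecutive ones distinct with nontrivial intersection, all containing the intersection of the two ends (equivalently, the graph on the Sylow p-subgroups whose edges are the distinct pairs meeting nontrivially is connected). Then for every Sylow p-subgroup S, G is generated by N_G(S) together with the members of 𝓕 that meet S in a Sylow p-subgroup of themselves. -/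
theorem result {G : Type*} [Group G] [Finite G] (p : ℕ) [Fact p.Prime] (hdiv : p ∣ Nat.card G)
    (𝓕 : Set (Subgroup G)) (h𝓕 : Cfsg.IsNormalSet 𝓕) (hc : Cfsg.ControlsSylowIntersections p 𝓕)
    (hconn : Cfsg.IsSylowChainConnected p G) (S : Sylow p G) :
    (⨆ X ∈ Cfsg.sylowMembers p 𝓕 (S : Subgroup G), X) ⊔ Subgroup.normalizer ((S : Subgroup G) : Set G) = ⊤ := by
  classical
  open H54.SylFam H28.Cj in
  change hull p 𝓕 (S : Subgroup G) = ⊤
  -- relation
  let R : Sylow p G → Sylow p G → Prop := fun A B =>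
    H54.SylFam.hull p 𝓕 (A : Subgroup G) = H54.SylFam.hull p 𝓕 (B : Subgroup G) ∧
      ∃ h ∈ H54.SylFam.hull p 𝓕 (A : Subgroup G), H28.Cj.cj h (A : Subgroup G) = (B : Subgroup G)
  have hrefl : ∀ A, R A A := fun A => ⟨rfl, 1, Subgroup.one_mem _, H28.Cj.cj_one _⟩
  have htrans : ∀ A B C, R A B → R B C → R A C := by
    rintro A B C ⟨h1, h, hh, hAB⟩ ⟨h2, k, hk, hBC⟩
    refine ⟨h1.trans h2, k * h, Subgroup.mul_mem _ (h1 ▸ hk) hh, ?_⟩
    rw [← H28.Cj.cj_cj, hAB, hBC]
  -- one step
  have hstep : ∀ (A B : Sylow p G) (X : Subgroup G) (x : G),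
      X ∈ Cfsg.sylowMembers p 𝓕 (A : Subgroup G) → x ∈ X →
      Cfsg.subgroupConjRight x (B : Subgroup G) = (A : Subgroup G) → R A B := by
    intro A B X x hX hx hBA
    have hxH : x ∈ H54.SylFam.hull p 𝓕 (A : Subgroup G) :=
      Subgroup.mem_sup_left (le_iSup₂_of_le (f := fun X (_ : X ∈ Cfsg.sylowMembers p 𝓕 (A : Subgroup G)) => X) X hX le_rfl hx)
    have hAB : H28.Cj.cj x (A : Subgroup G) = (B : Subgroup G) := by
      rw [← hBA, H54.SylFam.conjRight_eq_cj, H28.Cj.cj_cj_inv]
    refine ⟨?_, x, hxH, hAB⟩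
    rw [← hAB, ← H54.SylFam.cj_hull h𝓕, H28.Cj.cj_eq_self_of_mem hxH]
  -- Sylow subgroups meeting nontrivially
  have hmeet : ∀ A B : Sylow p G, A ≠ B → (A : Subgroup G) ⊓ (B : Subgroup G) ≠ ⊥ → R A B := by
    intro A B hne hAB
    obtain ⟨n, c, X, x, h0, hn, hc⟩ := hc A B hne hAB
    have : ∀ i : Fin (n + 1), R A (c i) := by
      intro i
      induction i using Fin.induction with
      | zero => rw [h0]; exact hrefl A
      | succ i ih =>
        obtain ⟨h1, -, h3, h4, -⟩ := hc i
        exact htrans _ _ _ ih (hstep _ _ _ _ h1 h3 h4)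
    rw [← hn]
    exact this _
  -- all Sylow subgroups
  have hall : ∀ A B : Sylow p G, R A B := by
    intro A B
    obtain ⟨n, c, h0, hn, -, hc⟩ := hconn A B
    have : ∀ i : Fin (n + 1), R A (c i) := by
      intro i
      induction i using Fin.induction with
      | zero => rw [h0]; exact hrefl A
      | succ i ih =>
        exact htrans _ _ _ ih (hmeet _ _ (hc i).1 (hc i).2)
    rw [← hn]
    exact this _
  rw [eq_top_iff]
  intro g _
  obtain ⟨-, h, hh, hhS⟩ := hall S (g • S)
  rw [H54.Basic.coe_sylow_smul] at hhS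
  have h1 : h⁻¹ * g ∈ Subgroup.normalizer ((S : Subgroup G) : Set G) := by
    rw [H28.Cj.mem_normalizer_iff_cj, ← H28.Cj.cj_cj]
    change H28.Cj.cj h⁻¹ (H28.Cj.cj g (S : Subgroup G)) = _
    have h2 : H28.Cj.cj h (S : Subgroup G) = H28.Cj.cj g (S : Subgroup G) := hhS
    rw [← h2, H28.Cj.cj_inv_cj]
  have h2 : h⁻¹ * g ∈ H54.SylFam.hull p 𝓕 (S : Subgroup G) := Subgroup.mem_sup_right h1
  have := Subgroup.mul_mem _ hh h2
  simpa using this

end Cfsg.Agent.S2955
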