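import Cfsg.Statements.S2956
import Mathlib
import Cfsg.Agent.Lib.H54.FunReg

set_option autoImplicit false
open Cfsg

namespace Cfsg.Agent.S2956

open H28.Cj H28.RelSyl H54.SylFam H54.SylChain H54.FunReg in
/-- the inductive core -/
theorem core {G : Type*} [Group G] [Finite G] (p : ℕ) [Fact p.Prime]
    (f : Subgroup G → Set (Subgroup G)) (hf : Cfsg.IsNormalizerFunctor p f)
    (hf1 : ∀ P : Subgroup G, IsPGroup p ↥P → P ≠ ⊥ → ∀ F ∈ f P, F ≠ ⊥)
    (𝓖 : Set (Subgroup G))
    (h𝓕 : Cfsg.functorFamily p f ⊤ ⊆ 𝓖)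
    (h𝓕' : ∀ M, Cfsg.IsMaximalPLocal p M → ¬ Cfsg.IsFunctorRegular p f M → M ∈ 𝓖)
    (D : Subgroup G) (hD1 : D ≠ ⊥) (hDp : IsPGroup p D)
    (ihD : ∀ E : Subgroup G, Nat.card D < Nat.card E → ∀ A B : Sylow p G,
      E ≤ (A : Subgroup G) → E ≤ (B : Subgroup G) → Linked p 𝓖 E A B) :
    ∀ A B : Sylow p G, D ≤ (A : Subgroup G) → D ≤ (B : Subgroup G) → Linked p 𝓖 D A B := by
  classical
  -- proper overgroups
  have hlt : ∀ R : Subgroup G, D < R → Nat.card D < Nat.card R := by
    intro R hR
    rcases lt_or_eq_of_le (Nat.le_of_dvd Nat.card_pos (Subgroup.card_dvd_of_le hR.le)) with h | h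
    · exact h
    · exact absurd (Subgroup.eq_of_le_of_card_ge hR.le h.ge) hR.ne
  have hltR : ∀ R : Subgroup G, D ≤ R → Nat.card D < Nat.card R → D < R := by
    intro R hR hc
    refine lt_of_le_of_ne hR ?_
    rintro rfl
    exact lt_irrefl _ hc
  have hrefl : ∀ R : Subgroup G, D < R → ∀ A B : Sylow p G, R ≤ (A : Subgroup G) →
      R ≤ (B : Subgroup G) → Linked p 𝓖 D A B := fun R hR A B hA hB =>
    (ihD R (hlt R hR) A B hA hB).mono le_rfl hR.le
  let Rel : Subgroup G → Subgroup G → Prop := fun R₁ R₂ =>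
    ∀ A B : Sylow p G, R₁ ≤ (A : Subgroup G) → R₂ ≤ (B : Subgroup G) → Linked p 𝓖 D A B
  have hrel_symm : ∀ R₁ R₂ : Subgroup G, Rel R₁ R₂ → Rel R₂ R₁ := fun R₁ R₂ h A B hA hB => (h B A hB hA).symm
  have hrel_trans : ∀ R₁ R₂ R₃ : Subgroup G, IsPGroup p R₂ → Rel R₁ R₂ → Rel R₂ R₃ → Rel R₁ R₃ := by
    intro R₁ R₂ R₃ h2 h12 h23 A B hA hB
    obtain ⟨C, hC⟩ := h2.exists_le_sylow
    exact (h12 A C hA hC).trans (h23 C B hC hB)
  have hrel_le : ∀ R₁ R₂ : Subgroup G, D < R₁ → R₁ ≤ R₂ → Rel R₁ R₂ := fun R₁ R₂ h1 h12 A B hA hB =>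
    hrefl R₁ h1 A B hA (h12.trans hB)
  -- main claim
  have claim : ∀ L : Subgroup G, Cfsg.IsPLocal p L → ∀ R₁ R₂ : Subgroup G, IsPGroup p R₁ →
      IsPGroup p R₂ → R₁ ≤ L → R₂ ≤ L → D < R₁ → D < R₂ → Rel R₁ R₂ := by
    intro L
    induction h : Nat.card G - p ^ (Nat.card L).factorization p using Nat.strong_induction_on
      generalizing L with
    | _ n ih =>
    intro hL R₁ R₂ hR₁ hR₂ hR₁L hR₂L hDR₁ hDR₂
    have hmeas : ∀ L' P P' : Subgroup G, IsSyl p P L → IsSyl p P' L' → Nat.card P < Nat.card P' →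
        Nat.card G - p ^ (Nat.card L').factorization p < n := by
      intro L' P P' hP hP' hlt
      rw [← h, ← hP.card_eq, ← hP'.card_eq]
      have : Nat.card P' ≤ Nat.card G := Nat.card_le_card_of_injective _ P'.subtype_injective
      omega
    -- a maximal p-local subgroup containing L
    obtain ⟨M, ⟨hM, hLM⟩, hMmax⟩ := (Set.toFinite {M : Subgroup G | Cfsg.IsPLocal p M ∧ L ≤ M}).exists_maximal
      ⟨L, hL, le_rfl⟩
    have hMmax' : Cfsg.IsMaximalPLocal p M :=
      ⟨hM, fun N hN hMN => le_antisymm (hMmax ⟨hN, hLM.trans hMN⟩ hMN) hMN⟩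
    obtain ⟨P₀, hP₀⟩ := exists_isSyl p L
    obtain ⟨P₁, hP₁⟩ := exists_isSyl p M
    by_cases hcase : Nat.card P₀ < Nat.card P₁
    · exact ih _ (hmeas M P₀ P₁ hP₀ hP₁ hcase) M rfl hM R₁ R₂ hR₁ hR₂ (hR₁L.trans hLM)
        (hR₂L.trans hLM) hDR₁ hDR₂
    push Not at hcase
    obtain ⟨R₁', hR₁', hRR₁⟩ := exists_isSyl_ge hR₁ (hR₁L.trans hLM)
    obtain ⟨R₂', hR₂', hRR₂⟩ := exists_isSyl_ge hR₂ (hR₂L.trans hLM)
    have hDR₁' : D < R₁' := lt_of_lt_of_le hDR₁ hRR₁
    have hDR₂' : D < R₂' := lt_of_lt_of_le hDR₂ hRR₂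
    suffices hgoal : Rel R₁' R₂' from
      hrel_trans _ _ _ hR₁'.isPGroup (hrel_le _ _ hDR₁ hRR₁)
        (hrel_trans _ _ _ hR₂'.isPGroup hgoal (hrel_symm _ _ (hrel_le _ _ hDR₂ hRR₂)))
    by_cases hreg : Cfsg.IsFunctorRegular p f M
    · -- regular case
      rw [regular_iff hf] at hreg
      by_cases hDint : R₁' ⊓ R₂' = D
      swap
      · have hDlt : D < R₁' ⊓ R₂' := lt_of_le_of_ne (le_inf hDR₁'.le hDR₂'.le) (Ne.symm hDint)
        exact hrel_trans _ _ _ (hR₁'.isPGroup.to_le inf_le_left)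
          (hrel_symm _ _ (hrel_le _ _ hDlt inf_le_left)) (hrel_le _ _ hDlt inf_le_right)
      have key := hreg R₁' R₂' hR₁' hR₂' (by rw [hDint]; exact hD1)
      rw [hDint] at key
      -- induct along the chain
      have hstep : ∀ C, RLinked p f M D R₁' C → IsSyl p C M ∧ D ≤ C ∧ Rel R₁' C := by
        intro C hC
        induction hC with
        | refl => exact ⟨hR₁', hDR₁'.le, hrel_le _ _ hDR₁' le_rfl⟩
        | @tail b c _ hbc ihb =>
          obtain ⟨hb, hDb, hrb⟩ := ihb
          obtain ⟨-, hc, -, hDc, P, F, hP, hF, hbF, hcF⟩ := hbc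
          refine ⟨hc, hDc, ?_⟩
          have hDb' : D < b := hltR b hDb (by
            rw [hb.card_eq_card hR₁']; exact hlt _ hDR₁')
          have hDc' : D < c := hltR c hDc (by
            rw [hc.card_eq_card hR₁']; exact hlt _ hDR₁')
          refine hrel_trans _ _ _ hb.isPGroup hrb ?_
          have hFP := (hf P hP.isPGroup).1 F hF
          have hP1 : P ≠ ⊥ := by
            rintro rfl
            have := hb.card_eq_card hP
            rw [Subgroup.card_bot] at this
            have h1 := hlt b hDb'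
            have h2 : 0 < Nat.card D := Nat.card_pos
            omega
          have hF1 : F ≠ ⊥ := hf1 P hP.isPGroup hP1 F hF
          have hloc : Cfsg.IsPLocal p (Subgroup.normalizer (F : Set G)) :=
            ⟨F, hP.isPGroup.to_le hFP.1, hF1, rfl⟩
          obtain ⟨Q, hQ⟩ := exists_isSyl p (Subgroup.normalizer (F : Set G))
          by_cases hcase2 : Nat.card P₁ < Nat.card Q
          · refine ih _ (hmeas _ P₀ Q hP₀ hQ ?_) _ rfl hloc b c hb.isPGroup hc.isPGroup hbF hcF
              hDb' hDc'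
            exact lt_of_le_of_lt (hP₀.card_eq_card (isSyl_of_card_le hP₀ hP₀.isPGroup hP₀.le le_rfl) ▸
              hP₁.le_card hP₀.isPGroup (hP₀.le.trans hLM)) hcase2
          · push Not at hcase2
            have hbN : IsSyl p b (Subgroup.normalizer (F : Set G)) :=
              isSyl_of_card_le hQ hb.isPGroup hbF (by rw [hb.card_eq_card hP₁]; exact hcase2)
            -- F ∈ f b
            have hbX : IsSyl p b (M ⊓ Subgroup.normalizer (F : Set G)) :=
              hb.of_le_of_le (le_inf hb.le hbF) inf_le_left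
            have hPX : IsSyl p P (M ⊓ Subgroup.normalizer (F : Set G)) :=
              hP.of_le_of_le (le_inf hP.le (Subgroup.le_normalizer.trans hFP.2)) inf_le_left
            obtain ⟨y, hy, hbP⟩ := hPX.exists_conj_eq hbX
            have hFb : F ∈ f b := by
              have := functor_cj hf hP.isPGroup hF y
              rwa [← hbP, mem_normalizer_iff_cj.mp hy.2] at this
            have hNb : Subgroup.normalizer (b : Set G) ≤ Subgroup.normalizer (F : Set G) :=
              ((hf b hb.isPGroup).1 F hFb).2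
            -- b is a Sylow subgroup of G
            have hbG : IsSyl p b ⊤ := by
              obtain ⟨B₀, hB₀, hbB₀⟩ := exists_isSyl_ge hb.isPGroup (le_top : b ≤ ⊤)
              by_cases hbeq : b = B₀
              · rwa [hbeq]
              have hlt2 := lt_inf_normalizer_of_isPGroup hB₀.isPGroup (lt_of_le_of_ne hbB₀ hbeq)
              have h3 := hbN.eq_of_le (Q := B₀ ⊓ Subgroup.normalizer (b : Set G))
                (hB₀.isPGroup.to_le inf_le_left) hlt2.le (inf_le_right.trans hNb)
              rw [h3] at hlt2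
              exact absurd hlt2 (lt_irrefl _)
            have hcG : IsSyl p c ⊤ := isSyl_of_card_le hbG hc.isPGroup le_top
              (by rw [hb.card_eq_card hc])
            have hPG : IsSyl p P ⊤ := isSyl_of_card_le hbG hP.isPGroup le_top
              (by rw [hb.card_eq_card hP])
            have hmem : (⊤ : Subgroup G) ⊓ Subgroup.normalizer (F : Set G) ∈ 𝓖 :=
              h𝓕 (mem_family_iff.mpr ⟨P, F, hPG, hF, rfl⟩)
            rw [top_inf_eq] at hmem
            intro A B hA hB
            have hAb : (A : Subgroup G) = b := hbG.eq_of_le A.2 hA le_top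
            have hBc : (B : Subgroup G) = c := hcG.eq_of_le B.2 hB le_top
            refine Relation.ReflTransGen.single ?_
            have hcN : IsSyl p c (Subgroup.normalizer (F : Set G)) :=
              hcG.of_le_of_le hcF le_top
            obtain ⟨x, hx, hbc⟩ := hbN.exists_conj_eq hcN
            refine ⟨hAb ▸ hDb, hBc ▸ hDc, _, ?_, ?_, hDb.trans hbF, x, hx, ?_⟩
            · rw [mem_sylowMembers_iff, hAb, inf_eq_left.mpr hbF]
              exact ⟨hmem, hbN⟩
            · rw [mem_sylowMembers_iff, hBc, inf_eq_left.mpr hcF]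
              exact ⟨hmem, hcN⟩
            · rw [hAb, hBc, hbc]
      exact (hstep _ key).2.2
    · -- singular case
      have hMG := h𝓕' M hMmax' hreg
      obtain ⟨x, hx, hxR⟩ := hR₁'.exists_conj_eq hR₂'
      intro A B hA hB
      have hxA : R₂' ≤ ((x • A : Sylow p G) : Subgroup G) := by
        rw [H54.Basic.coe_sylow_smul, hxR]
        exact cj_le_cj.mpr hA
      have h1 : Linked p 𝓖 D (x • A) B := hrefl R₂' hDR₂' _ _ hxA hB
      refine Relation.ReflTransGen.head ?_ h1
      have h2 : ∀ (C : Sylow p G) (R : Subgroup G), IsSyl p R M → R ≤ (C : Subgroup G) →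
          M ∈ Cfsg.sylowMembers p 𝓖 (C : Subgroup G) := by
        intro C R hR hRC
        rw [mem_sylowMembers_iff]
        refine ⟨hMG, ?_⟩
        rw [hR.eq_of_le (Q := (C : Subgroup G) ⊓ M) (C.2.to_le inf_le_left) (le_inf hRC hR.le)
          inf_le_right]
        exact hR
      exact ⟨hDR₁'.le.trans hA, hDR₂'.le.trans hxA, M, h2 A R₁' hR₁' hA, h2 _ R₂' hR₂' hxA,
        hDR₁'.le.trans hR₁'.le, x, hx, (H54.Basic.coe_sylow_smul x A).symm⟩
  -- conclusion
  intro A B hA hB
  by_cases hAB : A = B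
  · rw [hAB]; exact Linked.refl B
  have hcard : Nat.card A = Nat.card B := by
    have h1 := (isSyl_top A).card_eq_card (isSyl_top B)
    exact h1
  have hDA : D < (A : Subgroup G) := by
    refine lt_of_le_of_ne hA ?_
    rintro rfl
    apply hAB
    apply Sylow.ext
    exact Subgroup.eq_of_le_of_card_ge hB hcard.ge
  have hDB : D < (B : Subgroup G) := by
    refine lt_of_le_of_ne hB ?_
    rintro rfl
    apply hAB
    apply Sylow.ext
    exact (Subgroup.eq_of_le_of_card_ge hA hcard.le).symm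
  have h1 := lt_inf_normalizer_of_isPGroup A.2 hDA
  have h2 := lt_inf_normalizer_of_isPGroup B.2 hDB
  exact claim (Subgroup.normalizer (D : Set G)) ⟨D, hDp, hD1, rfl⟩ _ _
    (A.2.to_le inf_le_left) (B.2.to_le inf_le_left) inf_le_right inf_le_right h1 h2 A B
    inf_le_left inf_le_left

/-- Let p be a prime dividing the order of the finite group G, and f an assignment to every p-subgroup P of a set f(P) of subgroups of P, each normalized by N_G(P), compatible with conjugation, such that for P ≠ 1 the members of f(P) are nontrivial. Let 𝓕 be the family of the normalizers N_G(F) of the members F of f(S) over the Sylow p-subgroups S of G, and 𝓕' the family of the maximal p-local subgroups M of G that are singular for f (the corresponding family of normalizers inside M does not control Sylow p-intersections in M). Then 𝓕 ∪ 𝓕' controls Sylow p-intersections in G. -/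
theorem result {G : Type*} [Group G] [Finite G] (p : ℕ) [Fact p.Prime] (hdiv : p ∣ Nat.card G)
    (f : Subgroup G → Set (Subgroup G)) (hf : Cfsg.IsNormalizerFunctor p f)
    (hf1 : ∀ P : Subgroup G, IsPGroup p ↥P → P ≠ ⊥ → ∀ F ∈ f P, F ≠ ⊥)
    (𝓕 𝓕' : Set (Subgroup G)) (h𝓕 : 𝓕 = Cfsg.functorFamily p f ⊤)
    (h𝓕' : 𝓕' = {M | Cfsg.IsMaximalPLocal p M ∧ ¬ Cfsg.IsFunctorRegular p f M}) :
    Cfsg.ControlsSylowIntersections p (𝓕 ∪ 𝓕') := by
  classical
  rw [H54.SylChain.controls_iff]
  -- induction on the order of D, downwards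
  have key : ∀ D : Subgroup G, D ≠ ⊥ → ∀ A B : Sylow p G, D ≤ (A : Subgroup G) →
      D ≤ (B : Subgroup G) → H54.SylChain.Linked p (𝓕 ∪ 𝓕') D A B := by
    intro D
    induction h : Nat.card G - Nat.card D using Nat.strong_induction_on generalizing D with
    | _ n ih =>
    intro hD1 A B hA hB
    refine core p f hf hf1 (𝓕 ∪ 𝓕') ?_ ?_ D hD1 (A.2.to_le hA) ?_ A B hA hB
    · rw [h𝓕]; exact Set.subset_union_left
    · intro M hM hreg
      right
      rw [h𝓕']
      exact ⟨hM, hreg⟩
    · intro E hE A' B' hA' hB'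
      refine ih _ ?_ E rfl ?_ A' B' hA' hB'
      · have : Nat.card E ≤ Nat.card G := Nat.card_le_card_of_injective _ E.subtype_injective
        omega
      · rintro rfl
        rw [Subgroup.card_bot] at hE
        have : 0 < Nat.card D := Nat.card_pos
        omega
  intro S T _ hint
  exact key _ hint S T inf_le_left inf_le_right

end Cfsg.Agent.S2956
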