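import Cfsg.Statements.S2957
import Mathlib
import Cfsg.Agent.Lib.H54.FunReg
import Cfsg.Agent.S2940

set_option autoImplicit false
open Cfsg

namespace Cfsg.Agent.S2957

/-- Let p be a prime dividing the order of the finite group G, f an equivariant assignment of a set of subgroups f(P) of P to every p-subgroup P, each normalized by N_G(P), and S a Sylow p-subgroup. If G = G₁G₂ for subgroups G₁, G₂ both containing S and both regular for f (in each Gᵢ, the family of normalizers in Gᵢ of the members of f(P), P a Sylow p-subgroup of Gᵢ, controls Sylow p-intersections), then G itself is regular for f. -/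
theorem result {G : Type*} [Group G] [Finite G] (p : ℕ) [Fact p.Prime] (hdiv : p ∣ Nat.card G)
    (f : Subgroup G → Set (Subgroup G)) (hf : Cfsg.IsNormalizerFunctor p f) (S : Sylow p G)
    (G₁ G₂ : Subgroup G) (h₁ : (S : Subgroup G) ≤ G₁) (h₂ : (S : Subgroup G) ≤ G₂)
    (hprod : ∀ g : G, ∃ g₁ ∈ G₁, ∃ g₂ ∈ G₂, g = g₁ * g₂)
    (hr₁ : Cfsg.IsFunctorRegular p f G₁) (hr₂ : Cfsg.IsFunctorRegular p f G₂) :
    Cfsg.IsFunctorRegular p f ⊤ := by
  classical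
  rw [H54.FunReg.regular_iff hf] at hr₁ hr₂ ⊢
  have hcj : ∀ (M : Subgroup G) (g : G), H54.FunReg.RReg p f M →
      H54.FunReg.RReg p f (H28.Cj.cj g M) := by
    intro M g h A B hA hB hAB
    have hA' : H28.RelSyl.IsSyl p (H28.Cj.cj g⁻¹ A) M := by
      have := hA.cj g⁻¹
      rwa [H28.Cj.cj_inv_cj] at this
    have hB' : H28.RelSyl.IsSyl p (H28.Cj.cj g⁻¹ B) M := by
      have := hB.cj g⁻¹
      rwa [H28.Cj.cj_inv_cj] at this
    have key := h _ _ hA' hB' (by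
      rw [← H28.Cj.cj_inf, Ne, H28.Cj.cj_eq_bot]; exact hAB)
    have := key.cj hf g
    rwa [← H28.Cj.cj_inf, H28.Cj.cj_cj_inv, H28.Cj.cj_cj_inv, H28.Cj.cj_cj_inv] at this
  intro A B hA hB hAB
  have hS : H28.RelSyl.IsSyl p (S : Subgroup G) ⊤ := H28.RelSyl.isSyl_top S
  obtain ⟨a, -, rfl⟩ := hS.exists_conj_eq hA
  obtain ⟨b, -, rfl⟩ := hA.exists_conj_eq hB
  have hfact' : ∀ g : G, ∃ g₁ ∈ H28.Cj.cj a G₁, ∃ g₂ ∈ H28.Cj.cj a G₂, g = g₁ * g₂ := by
    intro g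
    obtain ⟨x, hx, y, hy, hxy⟩ := hprod (a⁻¹ * g * a)
    refine ⟨a * x * a⁻¹, H28.Cj.conj_mem_cj.mpr hx, a * y * a⁻¹, H28.Cj.conj_mem_cj.mpr hy, ?_⟩
    have : g = a * (a⁻¹ * g * a) * a⁻¹ := by group
    rw [this, hxy]
    group
  obtain ⟨A', hA'⟩ := H28.RelSyl.isSyl_top_iff_exists.mp hA
  obtain ⟨U, hU1, hU2⟩ := Cfsg.Agent.S2940.result A' (H28.Cj.cj a G₁) (H28.Cj.cj a G₂)
    (by rw [hA']; exact H28.Cj.cj_le_cj.mpr h₁) (by rw [hA']; exact H28.Cj.cj_le_cj.mpr h₂)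
    hfact' b⁻¹
  rw [hA', H54.SylFam.conjRight_eq_cj, inv_inv] at hU1
  rw [H54.SylFam.conjRight_eq_cj, inv_inv] at hU2
  have hU : H28.RelSyl.IsSyl p (U : Subgroup G) ⊤ := H28.RelSyl.isSyl_top U
  -- Sylow subgroups of an overgroup of a Sylow subgroup are Sylow
  have hup : ∀ (M P Q : Subgroup G), H28.RelSyl.IsSyl p Q ⊤ → Q ≤ M → H28.RelSyl.IsSyl p P M →
      H28.RelSyl.IsSyl p P ⊤ := by
    intro M P Q hQ hQM hP
    have hQ' := hQ.of_le_of_le hQM le_top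
    exact H28.RelSyl.isSyl_of_card_le hQ hP.isPGroup le_top (by rw [hQ'.card_eq_card hP])
  have hA1 : H28.Cj.cj a (S : Subgroup G) ≤ H28.Cj.cj a G₁ := H28.Cj.cj_le_cj.mpr h₁
  have hB2 : H28.Cj.cj b (H28.Cj.cj a (S : Subgroup G)) ≤ H28.Cj.cj b (H28.Cj.cj a G₂) :=
    H28.Cj.cj_le_cj.mpr (H28.Cj.cj_le_cj.mpr h₂)
  have h1 := hcj G₁ a hr₁ _ (U : Subgroup G) (hA.of_le_of_le hA1 le_top)
    (hU.of_le_of_le (hU2.trans inf_le_left) le_top)
    (fun h => hAB (le_bot_iff.mp (h ▸ le_inf inf_le_left hU1)))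
  have h2 := hcj _ b (hcj G₂ a hr₂) (U : Subgroup G) _
    (hU.of_le_of_le (hU2.trans inf_le_right) le_top) (hB.of_le_of_le hB2 le_top)
    (fun h => hAB (le_bot_iff.mp (h ▸ le_inf hU1 inf_le_right)))
  refine (h1.mono (fun P hP => hup _ _ _ hA hA1 hP) (le_inf inf_le_left hU1)).trans
    (h2.mono (fun P hP => hup _ _ _ hB hB2 hP) (le_inf hU1 inf_le_right))

end Cfsg.Agent.S2957
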