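import Cfsg.Statements.S2958
import Mathlib

set_option autoImplicit false
open Cfsg

namespace Cfsg.Agent.S2958

/-- Let X, A, B be subgroups of a group G such that G is generated by the conjugates of X and every conjugate of X is contained in A or in B. Then A = G or B = G. -/
theorem result {G : Type*} [Group G] (X A B : Subgroup G) (hgen : (⨆ g : G, X.map (MulAut.conj g).toMonoidHom) = ⊤) (hcover : ∀ g : G, X.map (MulAut.conj g).toMonoidHom ≤ A ∨ X.map (MulAut.conj g).toMonoidHom ≤ B) : A = ⊤ ∨ B = ⊤ := by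
  classical
  by_cases hA : ∀ g : G, X.map (MulAut.conj g).toMonoidHom ≤ A
  · left
    rw [eq_top_iff, ← hgen]
    exact iSup_le hA
  right
  push Not at hA
  obtain ⟨g₀, hg₀⟩ := hA
  -- E = the subgroup generated by the conjugates not inside A
  let E : Subgroup G := ⨆ g : {g : G // ¬ X.map (MulAut.conj g).toMonoidHom ≤ A},
    X.map (MulAut.conj (g : G)).toMonoidHom
  have hconj : ∀ a g : G, (X.map (MulAut.conj g).toMonoidHom).map (MulAut.conj a).toMonoidHom
      = X.map (MulAut.conj (a * g)).toMonoidHom := by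
    intro a g
    rw [Subgroup.map_map]
    congr 1
    ext x
    simp [MulAut.conj_apply, mul_assoc]
  have hEB : E ≤ B := by
    refine iSup_le fun g => ?_
    rcases hcover g with h | h
    · exact absurd h g.2
    · exact h
  -- elements of A permute the conjugates not inside A
  have hAperm : ∀ a ∈ A, ∀ g : G, ¬ X.map (MulAut.conj g).toMonoidHom ≤ A →
      ¬ X.map (MulAut.conj (a * g)).toMonoidHom ≤ A := by
    intro a ha g hg hle
    apply hg
    rintro x ⟨y, hy, rfl⟩
    have h1 : a * (g * y * g⁻¹) * a⁻¹ ∈ A := by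
      apply hle
      refine ⟨y, hy, ?_⟩
      simp [MulAut.conj_apply, mul_assoc]
    have h2 := A.mul_mem (A.mul_mem (A.inv_mem ha) h1) ha
    simpa [MulAut.conj_apply, mul_assoc] using h2
  have hmapA : ∀ a ∈ A, E.map (MulAut.conj a).toMonoidHom ≤ E := by
    intro a ha
    rw [Subgroup.map_iSup]
    refine iSup_le fun g => ?_
    rw [hconj]
    exact le_iSup (fun g : {g : G // ¬ X.map (MulAut.conj g).toMonoidHom ≤ A} =>
      X.map (MulAut.conj (g : G)).toMonoidHom) ⟨a * g, hAperm a ha g g.2⟩
  have hAN : A ≤ Subgroup.normalizer (E : Set G) := by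
    intro a ha
    rw [Subgroup.mem_normalizer_iff]
    intro x
    constructor
    · intro hx
      exact hmapA a ha ⟨x, hx, by simp [MulAut.conj_apply]⟩
    · intro hx
      have := hmapA a⁻¹ (A.inv_mem ha) ⟨_, hx, rfl⟩
      simpa [MulAut.conj_apply, mul_assoc] using this
  have hN : Subgroup.normalizer (E : Set G) = ⊤ := by
    rw [eq_top_iff, ← hgen]
    refine iSup_le fun g => ?_
    by_cases hg : X.map (MulAut.conj g).toMonoidHom ≤ A
    · exact hg.trans hAN
    · refine le_trans ?_ (Subgroup.le_normalizer)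
      exact le_iSup (fun g : {g : G // ¬ X.map (MulAut.conj g).toMonoidHom ≤ A} =>
        X.map (MulAut.conj (g : G)).toMonoidHom) ⟨g, hg⟩
  have hE : E = ⊤ := by
    rw [eq_top_iff, ← hgen]
    refine iSup_le fun g => ?_
    have h0 : X.map (MulAut.conj g₀).toMonoidHom ≤ E :=
      le_iSup (fun g : {g : G // ¬ X.map (MulAut.conj g).toMonoidHom ≤ A} =>
        X.map (MulAut.conj (g : G)).toMonoidHom) ⟨g₀, hg₀⟩
    rintro x ⟨y, hy, rfl⟩
    have h1 : g₀ * y * g₀⁻¹ ∈ E := h0 ⟨y, hy, by simp [MulAut.conj_apply]⟩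
    have h2 : (g * g₀⁻¹) ∈ Subgroup.normalizer (E : Set G) := by rw [hN]; trivial
    have h3 := (Subgroup.mem_normalizer_iff.mp h2 _).mp h1
    simpa [MulAut.conj_apply, mul_assoc] using h3
  rw [eq_top_iff, ← hE]
  exact hEB

end Cfsg.Agent.S2958
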