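import Cfsg.Statements.S2963
import Mathlib

set_option autoImplicit false
open Cfsg

namespace Cfsg.Agent.S2963

/-- Let n be odd. If the symmetric group of degree n is a minimal parabolic group for the prime 2, that is, a Sylow 2-subgroup is not normal and lies in exactly one maximal subgroup, then n = 2^m + 1 for some natural number m. -/
theorem result (n : ℕ) (hn : Odd n) (h : Cfsg.IsPMinimal 2 (Equiv.Perm (Fin n))) : ∃ m : ℕ, n = 2 ^ m + 1 := by
  classical
  have hn0 : 0 < n := hn.pos
  let S : Sylow 2 (Equiv.Perm (Fin n)) := default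
  obtain ⟨hSn, M, ⟨hMco, hSM⟩, hMuniq⟩ := h S
  have hS2 : IsPGroup 2 ↥(S : Subgroup (Equiv.Perm (Fin n))) := S.isPGroup'
  -- a fixed point
  obtain ⟨a, ha⟩ := hS2.nonempty_fixed_point_of_prime_not_dvd_card (Fin n)
    (by rw [Nat.card_eq_fintype_card, Fintype.card_fin]; exact hn.not_two_dvd_nat)
  have ha' : ∀ s ∈ (S : Subgroup (Equiv.Perm (Fin n))), s a = a := fun s hs => ha ⟨s, hs⟩
  -- nontriviality
  have hnt : Nontrivial (Fin n) := by
    by_contra hcon
    rw [not_nontrivial_iff_subsingleton] at hcon
    apply hSn
    have : Subsingleton (Equiv.Perm (Fin n)) := inferInstance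
    have h1 : (S : Subgroup (Equiv.Perm (Fin n))) = ⊤ := Subsingleton.elim _ _
    rw [h1]
    infer_instance
  -- the point stabilizer is the unique maximal subgroup over S
  have hstab : IsCoatom (MulAction.stabilizer (Equiv.Perm (Fin n)) a) :=
    MulAction.IsPreprimitive.isCoatom_stabilizer_of_isPreprimitive _ a
  have hMa : MulAction.stabilizer (Equiv.Perm (Fin n)) a = M :=
    hMuniq _ ⟨hstab, fun s hs => by
      rw [MulAction.mem_stabilizer_iff, Equiv.Perm.smul_def]; exact ha' s hs⟩
  -- another point
  obtain ⟨b, hb⟩ := exists_ne a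
  let O : Set (Fin n) := MulAction.orbit ↥(S : Subgroup (Equiv.Perm (Fin n))) b
  have hO : O = {x | x ≠ a} := by
    ext c
    simp only [Set.mem_ofPred_eq]
    constructor
    · rintro ⟨s, rfl⟩ hsb
      apply hb
      have h1 : (s : Equiv.Perm (Fin n)) b = a := hsb
      have h2 : (s : Equiv.Perm (Fin n)) a = a := ha' s s.2
      exact (s : Equiv.Perm (Fin n)).injective (h1.trans h2.symm)
    · intro hca
      by_contra hcO
      let St : Subgroup (Equiv.Perm (Fin n)) :=
        { carrier := {g | ∀ x, g x ∈ O ↔ x ∈ O}
          mul_mem' := by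
            intro g h hg hh x
            rw [Equiv.Perm.mul_apply, hg, hh]
          one_mem' := by intro x; simp
          inv_mem' := by
            intro g hg x
            have := hg (g⁻¹ x)
            rw [show g (g⁻¹ x) = x from g.apply_symm_apply x] at this
            exact this.symm }
      have hSSt : (S : Subgroup (Equiv.Perm (Fin n))) ≤ St := by
        intro s hs x
        constructor
        · rintro hx
          have := (MulAction.orbit_eq_iff (G := ↥(S : Subgroup (Equiv.Perm (Fin n))))).mpr hx
          have h3 : x ∈ MulAction.orbit ↥(S : Subgroup (Equiv.Perm (Fin n))) (s x) :=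
            ⟨(⟨s, hs⟩ : ↥(S : Subgroup (Equiv.Perm (Fin n))))⁻¹, by
              change (s⁻¹ : Equiv.Perm (Fin n)) (s x) = x
              simp⟩
          rw [this] at h3
          exact h3
        · rintro ⟨t, rfl⟩
          exact ⟨⟨s, hs⟩ * t, rfl⟩
      have hbO : b ∈ O := MulAction.mem_orbit_self b
      have haO : a ∉ O := by
        rintro ⟨s, hs⟩
        apply hb
        have h1 : (s : Equiv.Perm (Fin n)) b = a := hs
        have h2 : (s : Equiv.Perm (Fin n)) a = a := ha' s s.2
        exact (s : Equiv.Perm (Fin n)).injective (h1.trans h2.symm)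
      have hSt : St ≠ ⊤ := by
        intro htop
        have : Equiv.swap a b ∈ St := by rw [htop]; trivial
        have h1 := this b
        rw [Equiv.swap_apply_right] at h1
        exact haO (h1.mpr hbO)
      obtain ⟨M', hM', hle⟩ := (eq_top_or_exists_le_coatom St).resolve_left hSt
      have h1 : M' = M := hMuniq _ ⟨hM', hSSt.trans hle⟩
      have h2 : Equiv.swap a c ∈ St := by
        intro x
        rcases eq_or_ne x a with rfl | hxa
        · rw [Equiv.swap_apply_left]
          exact iff_of_false hcO haO
        rcases eq_or_ne x c with rfl | hxc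
        · rw [Equiv.swap_apply_right]
          exact iff_of_false haO hcO
        rw [Equiv.swap_apply_of_ne_of_ne hxa hxc]
      have h3 : Equiv.swap a c ∈ MulAction.stabilizer (Equiv.Perm (Fin n)) a := by
        rw [hMa, ← h1]
        exact hle h2
      rw [MulAction.mem_stabilizer_iff, Equiv.Perm.smul_def, Equiv.swap_apply_left] at h3
      exact hca h3
  obtain ⟨m, hm⟩ := hS2.card_orbit b
  refine ⟨m, ?_⟩
  have h1 : Nat.card ↥O = n - 1 := by
    rw [hO]
    have : ({x | x ≠ a} : Set (Fin n)) = {a}ᶜ := by ext; simp
    rw [this, Nat.card_coe_set_eq, Set.ncard_compl, Set.ncard_singleton]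
    simp
  have h2 : Nat.card ↥O = 2 ^ m := hm
  omega

end Cfsg.Agent.S2963
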