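import Cfsg.Statements.S2998
import Cfsg.Agent.Lib.H55.SylowBasic

set_option autoImplicit false
open Cfsg
namespace Cfsg.Agent.S2998

open H55.SylowBasic

theorem result {G : Type*} [Group G] [Finite G] {p : ℕ} [Fact p.Prime] (P : Sylow p G) (x : G) (hxP : x ∈ (P : Subgroup G)) (hlc : ∀ R : Subgroup G, R ≤ (P : Subgroup G) → R ≠ ⊥ → Subgroup.normalizer (R : Set G) ≤ Subgroup.centralizer ({x} : Set G)) : (P : Subgroup G) ≤ Subgroup.centralizer ({x} : Set G) ∧ (∀ g : G, g * x * g⁻¹ ∈ (P : Subgroup G) → g * x * g⁻¹ = x) ∧ ∀ (N : Subgroup G) [N.Normal], ∀ R : Subgroup (G ⧸ N), R ≤ (P : Subgroup G).map (QuotientGroup.mk' N) → R ≠ ⊥ → Subgroup.normalizer (R : Set (G ⧸ N)) ≤ Subgroup.centralizer ({(QuotientGroup.mk x : G ⧸ N)} : Set (G ⧸ N)) := by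
  have hPC : (P : Subgroup G) ≤ Subgroup.centralizer ({x} : Set G) := by
    by_cases hP : (P : Subgroup G) = ⊥
    · rw [hP]; exact bot_le
    · exact Subgroup.le_normalizer.trans (hlc P le_rfl hP)
  refine ⟨hPC, ?_, ?_⟩
  · intro g hg
    by_cases hx1 : x = 1
    · simp [hx1]
    have hy1 : g * x * g⁻¹ ≠ 1 := by
      intro h
      exact hx1 (conj_eq_one_iff.1 h)
    -- centralizer of y = g x g⁻¹ lies in the centralizer of x
    have h1 : Subgroup.centralizer ({g * x * g⁻¹} : Set G) ≤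
        Subgroup.centralizer ({x} : Set G) := by
      refine le_trans ?_ (hlc (Subgroup.zpowers (g * x * g⁻¹)) (by rwa [Subgroup.zpowers_le])
        (by rwa [Ne, Subgroup.zpowers_eq_bot]))
      intro c hc
      apply mem_normalizer_of_forall
      intro z hz
      have hcz : Commute c z := by
        obtain ⟨k, rfl⟩ := hz
        exact Commute.zpow_right (Subgroup.mem_centralizer_singleton_iff.1 hc) k
      have : c * z * c⁻¹ = z := by rw [hcz.eq]; group
      rw [this]; exact hz
    have hPg : ((g • P : Sylow p G) : Subgroup G) ≤ Subgroup.centralizer ({x} : Set G) := by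
      refine le_trans ?_ h1
      rintro _ ⟨z, hz, rfl⟩
      rw [Subgroup.mem_centralizer_singleton_iff]
      have hz1 : z * x = x * z := Subgroup.mem_centralizer_singleton_iff.1 (hPC hz)
      change g * z * g⁻¹ * (g * x * g⁻¹) = (g * x * g⁻¹) * (g * z * g⁻¹)
      calc g * z * g⁻¹ * (g * x * g⁻¹) = g * (z * x) * g⁻¹ := by group
        _ = g * (x * z) * g⁻¹ := by rw [hz1]
        _ = _ := by group
    obtain ⟨c, hc⟩ := MulAction.exists_smul_eq (Subgroup.centralizer ({x} : Set G))
      ((g • P).subtype hPg) (P.subtype hPC)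
    simp_rw [Sylow.smul_subtype, Subgroup.smul_def, smul_smul] at hc
    have h2 : (c : G) * g ∈ Subgroup.normalizer ((P : Subgroup G) : Set G) :=
      Sylow.smul_eq_iff_mem_normalizer.mp (Sylow.subtype_injective hc)
    have hP : (P : Subgroup G) ≠ ⊥ := by
      intro h
      rw [h, Subgroup.mem_bot] at hxP
      exact hx1 hxP
    have h3 := Subgroup.mem_centralizer_singleton_iff.1 (hlc P le_rfl hP h2)
    have h4 := Subgroup.mem_centralizer_singleton_iff.1 c.2
    have h5 : (c : G) * (g * x * g⁻¹) = c * x := by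
      calc (c : G) * (g * x * g⁻¹) = (c * g * x) * g⁻¹ := by group
        _ = x * (c * g) * g⁻¹ := by rw [h3]
        _ = x * c := by group
        _ = c * x := h4.symm
    exact mul_left_cancel h5
  · intro N hN R hRP hR1 gb hgb
    obtain ⟨g, rfl⟩ := QuotientGroup.mk_surjective gb
    set L : Subgroup G := R.comap (QuotientGroup.mk' N) with hL
    have hNL : N ≤ L := by
      intro n hn
      rw [hL, Subgroup.mem_comap]
      have : QuotientGroup.mk' N n = 1 := (QuotientGroup.eq_one_iff n).2 hn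
      rw [this]; exact one_mem R
    set R₀ : Subgroup G := (P : Subgroup G) ⊓ L with hR₀
    have hR₀1 : R₀ ≠ ⊥ := by
      intro h
      apply hR1
      rw [eq_bot_iff]
      intro r hr
      obtain ⟨z, hz, rfl⟩ := hRP hr
      have : z ∈ R₀ := ⟨hz, hr⟩
      rw [h, Subgroup.mem_bot] at this
      rw [this, map_one]; exact one_mem _
    -- L ≤ N ⊔ R₀
    have hLN : ∀ l ∈ L, ∃ n ∈ N, ∃ r ∈ R₀, l = n * r := by
      intro l hl
      obtain ⟨z, hz, hzl⟩ := hRP (show QuotientGroup.mk' N l ∈ R from hl)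
      have hzL : z ∈ L := by
        rw [hL, Subgroup.mem_comap, hzl]; exact hl
      refine ⟨l * z⁻¹, ?_, z, ⟨hz, hzL⟩, by group⟩
      rw [← QuotientGroup.eq_one_iff]
      have h1 : (QuotientGroup.mk (l * z⁻¹) : G ⧸ N) = QuotientGroup.mk' N l * (QuotientGroup.mk' N z)⁻¹ := rfl
      rw [h1, hzl, mul_inv_cancel]
    -- R₀ is Sylow in L: we produce a conjugating element via Sylow in L
    have hgL : ∀ l ∈ L, g * l * g⁻¹ ∈ L := by
      intro l hl
      exact (Subgroup.mem_normalizer_iff.1 hgb (QuotientGroup.mk' N l)).1 hl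
    have hR₀p : IsPGroup p R₀ := P.2.to_inf_left
    have hR₀L : R₀ ≤ L := inf_le_right
    have hgR₀ : IsPGroup p ((R₀.map (MulAut.conj g).toMonoidHom).subgroupOf L) :=
      (hR₀p.map _).comap_subtype
    obtain ⟨Q, hQ⟩ := (IsPGroup.comap_subtype (K := L) hR₀p).exists_le_sylow
    -- Q is R₀
    have hQR : (Q : Subgroup L).map L.subtype ≤ R₀ := by
      intro q hq
      have hqL : q ∈ L := by
        obtain ⟨z, hz, rfl⟩ := hq
        exact z.2
      obtain ⟨n, hn, r, hr, rfl⟩ := hLN q hqL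
      have hrQ : r ∈ (Q : Subgroup L).map L.subtype :=
        ⟨⟨r, hR₀L hr⟩, hQ (by simpa [Subgroup.mem_subgroupOf] using hr), rfl⟩
      have hnQ : n ∈ (Q : Subgroup L).map L.subtype := by
        have := mul_mem hq (inv_mem hrQ)
        simpa using this
      -- Q ∩ N = P ∩ N by cardinalities
      obtain ⟨h, hh⟩ := exists_conj_mem_sylow P _ (Q.2.map L.subtype)
      have hle1 : (((Q : Subgroup L).map L.subtype ⊓ N).map (MulAut.conj h).toMonoidHom) ≤
          (P : Subgroup G) ⊓ N := by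
        rintro _ ⟨z, ⟨hz1, hz2⟩, rfl⟩
        exact ⟨hh z hz1, hN.conj_mem z hz2 h⟩
      have hcard1 := Subgroup.card_le_of_le hle1
      rw [Subgroup.card_map_of_injective (MulAut.conj h).injective] at hcard1
      have hle2 : (P : Subgroup G) ⊓ N ≤ (Q : Subgroup L).map L.subtype ⊓ N := by
        rintro z ⟨hz1, hz2⟩
        refine ⟨?_, hz2⟩
        have hzR : z ∈ R₀ := ⟨hz1, hNL hz2⟩
        exact ⟨⟨z, hR₀L hzR⟩, hQ (by simpa [Subgroup.mem_subgroupOf] using hzR), rfl⟩
      have heq := Subgroup.eq_of_le_of_card_ge hle2 hcard1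
      have hnP : n ∈ (P : Subgroup G) ⊓ N := by
        rw [heq]; exact ⟨hnQ, hn⟩
      exact mul_mem ⟨hnP.1, hNL hnP.2⟩ hr
    obtain ⟨l, hl⟩ := exists_conj_mem_sylow Q _ hgR₀
    have hlg : (l : G) * g ∈ Subgroup.normalizer (R₀ : Set G) := by
      apply mem_normalizer_of_forall
      intro z hz
      have hzL : g * z * g⁻¹ ∈ L := hgL z (hR₀L hz)
      have h1 := hl ⟨g * z * g⁻¹, hzL⟩ (by
        rw [Subgroup.mem_subgroupOf]
        exact ⟨z, hz, rfl⟩)
      have h2 : (l : G) * g * z * ((l : G) * g)⁻¹ ∈ (Q : Subgroup L).map L.subtype :=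
        ⟨_, h1, by simp [mul_assoc]⟩
      exact hQR h2
    have h1 : (l : G) * g ∈ Subgroup.centralizer ({x} : Set G) :=
      hlc R₀ inf_le_left hR₀1 hlg
    obtain ⟨n, hn, r, hr, hnr⟩ := hLN l l.2
    have hr2 : r ∈ Subgroup.centralizer ({x} : Set G) := hPC hr.1
    have key : ∀ y : G, y ∈ Subgroup.centralizer ({x} : Set G) →
        QuotientGroup.mk' N y ∈ Subgroup.centralizer ({(QuotientGroup.mk x : G ⧸ N)} : Set (G ⧸ N)) := by
      intro y hy
      rw [Subgroup.mem_centralizer_singleton_iff] at hy ⊢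
      exact congrArg (QuotientGroup.mk' N) hy
    have h3 := mul_mem (inv_mem (key r hr2)) (key _ h1)
    have h4 : QuotientGroup.mk' N n = 1 := (QuotientGroup.eq_one_iff n).2 hn
    rw [hnr, ← map_inv, ← map_mul] at h3
    have h5 : r⁻¹ * (n * r * g) = r⁻¹ * n * r * g := by group
    rw [h5, map_mul, map_mul, map_mul, h4, mul_one, map_inv, inv_mul_cancel, one_mul] at h3
    exact h3

end Cfsg.Agent.S2998
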