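import Cfsg.Statements.S3003
import Cfsg.Agent.S0058
import Cfsg.Agent.Lib.H1.Coprime
import Mathlib.Data.Set.Finite.Lemmas

set_option autoImplicit false
open Cfsg

namespace Cfsg.Agent.S3003

open Subgroup

theorem part1 {G : Type*} [Group G] [Finite G] {p : ℕ} [Fact p.Prime] (Q : Subgroup G) (hQp : IsPGroup p ↥Q) (hlarge : Cfsg.IsLarge Q) (G₁ : Subgroup G) (hQG : Q ≤ G₁) (R : Subgroup G) (hR : (Nat.card ↥R).Coprime p) (hGR : G₁ ≤ Subgroup.normalizer (R : Set G)) (U : Subgroup G)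
    (h : ∃ x ∈ U, x ≠ 1 ∧ ∃ g ∈ G₁, g * x * g⁻¹ ∈ Q ⊓ Subgroup.centralizer (Q : Set G)) :
    R ⊓ Subgroup.centralizer (U : Set G) = ⊥ := by
  obtain ⟨x, hxU, hx1, g, hg, hy⟩ := h
  set y := g * x * g⁻¹ with hydef
  have hy1 : y ≠ 1 := by
    intro h
    apply hx1
    rw [hydef, mul_inv_eq_one] at h
    simpa using h
  have hQR : Q ⊓ R = ⊥ := by
    apply H1.Coprime.inf_eq_bot_of_coprime_card
    obtain ⟨n, hn⟩ := IsPGroup.iff_card.mp hQp
    rw [hn]
    exact (Nat.Coprime.pow_right n hR).symm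
  have hNQ : Subgroup.centralizer ({y} : Set G) ≤ Subgroup.normalizer (Q : Set G) := by
    have h1 := hlarge.2 (Subgroup.zpowers y) (by
      rw [Subgroup.zpowers_le]; exact hy.2) (by
      rwa [Ne, Subgroup.zpowers_eq_bot])
    refine le_trans ?_ h1
    intro c hc
    rw [Subgroup.mem_centralizer_singleton_iff] at hc
    rw [Subgroup.mem_normalizer_iff]
    intro z
    constructor
    · intro hz
      obtain ⟨k, rfl⟩ := Subgroup.mem_zpowers_iff.mp hz
      have : Commute c (y ^ k) := Commute.zpow_right hc k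
      rw [this.eq, mul_inv_cancel_right]
      exact Subgroup.zpow_mem _ (Subgroup.mem_zpowers y) k
    · intro hz
      obtain ⟨k, hk⟩ := Subgroup.mem_zpowers_iff.mp hz
      have : Commute c (y ^ k) := Commute.zpow_right hc k
      have h2 : z = c⁻¹ * y ^ k * c := by rw [hk]; group
      rw [h2, mul_assoc, ← this.eq, inv_mul_cancel_left]
      exact Subgroup.zpow_mem _ (Subgroup.mem_zpowers y) k
  rw [eq_bot_iff]
  rintro c ⟨hcR, hcU⟩
  have hc' : g * c * g⁻¹ ∈ R := ((Subgroup.mem_normalizer_iff.mp (hGR hg)) c).mp hcR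
  have hcy : g * c * g⁻¹ ∈ Subgroup.centralizer ({y} : Set G) := by
    rw [Subgroup.mem_centralizer_singleton_iff]
    have := Subgroup.mem_centralizer_iff.mp hcU x hxU
    rw [hydef]
    calc g * c * g⁻¹ * (g * x * g⁻¹) = g * (c * x) * g⁻¹ := by group
      _ = g * (x * c) * g⁻¹ := by rw [this]
      _ = g * x * g⁻¹ * (g * c * g⁻¹) := by group
  have h3 := H1.Coprime.mem_centralizer_of_mem_normalizer (hQG.trans hGR) hQR hc' (hNQ hcy)
  have h4 : g * c * g⁻¹ ∈ Q ⊓ R := ⟨hlarge.1 h3, hc'⟩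
  rw [hQR, Subgroup.mem_bot, mul_inv_eq_one] at h4
  rw [Subgroup.mem_bot]
  simpa using h4

theorem exists_coatom {G : Type*} [Group G] [Finite G] {p : ℕ} [hp : Fact p.Prime] (R U : Subgroup G)
    (hR : (Nat.card ↥R).Coprime p) (hUR : U ≤ Subgroup.normalizer (R : Set G))
    (hU : Cfsg.IsElementaryAbelian p U) (hU1 : U ≠ ⊥) (hR1 : R ≠ ⊥) :
    ∃ U₀ : Subgroup G, U₀ ≤ U ∧ IsCoatom (U₀.subgroupOf U) ∧
      R ⊓ Subgroup.centralizer (U₀ : Set G) ≠ ⊥ := by
  obtain ⟨hcomm, hexp⟩ := hU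
  have hcm : ∀ a ∈ U, ∀ b ∈ U, a * b = b * a := by
    intro a ha b hb
    have := hcomm.is_comm.comm (⟨a, ha⟩ : U) ⟨b, hb⟩
    simpa [Subtype.ext_iff] using this
  -- choose a maximal proper subgroup with nontrivial centralizer
  obtain ⟨U₀, ⟨hU₀, hne⟩, hmax⟩ := Set.exists_max_image
    {W : Subgroup G | W < U ∧ R ⊓ Subgroup.centralizer (W : Set G) ≠ ⊥} (fun W => Nat.card W)
    (Set.toFinite _) ⟨⊥, by
      refine ⟨bot_lt_iff_ne_bot.mpr hU1, ?_⟩
      have : Subgroup.centralizer ((⊥ : Subgroup G) : Set G) = ⊤ := by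
        rw [eq_top_iff]; intro x _; rw [Subgroup.mem_centralizer_iff]
        intro h hh; simp at hh; subst hh; simp
      rw [this, inf_top_eq]; exact hR1⟩
  refine ⟨U₀, hU₀.le, ?_, hne⟩
  constructor
  · intro h
    apply hU₀.ne
    apply le_antisymm hU₀.le
    rwa [Subgroup.subgroupOf_eq_top] at h
  intro M' hM'
  by_contra hM'top

  obtain ⟨m, hmM, hmU₀⟩ := SetLike.exists_of_lt hM'
  obtain ⟨u, -, huM⟩ := SetLike.exists_of_lt (lt_top_iff_ne_top.mpr hM'top)
  rw [Subgroup.mem_subgroupOf] at hmU₀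
  have hpr : ∀ (W : Subgroup G) (w : G), w ∈ U → w ∉ W → ∀ i : ℤ, w ^ i ∈ W → (p : ℤ) ∣ i := by
    intro W w hw hwW i hi
    by_contra hpi
    apply hwW
    have hcop : IsCoprime i (p : ℤ) := by
      rw [Int.isCoprime_iff_gcd_eq_one]
      have := (Nat.Prime.coprime_iff_not_dvd hp.out (n := i.natAbs)).mpr (by
        rwa [← Int.natCast_dvd])
      rw [Int.gcd_comm]; exact this
    obtain ⟨a, b, hab⟩ := hcop
    have : w = (w ^ i) ^ a * (w ^ (p : ℤ)) ^ b := by
      rw [← zpow_mul, ← zpow_mul, ← zpow_add]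
      rw [show i * a + ↑p * b = 1 by rw [← hab]; ring, zpow_one]
    rw [this, zpow_natCast, hexp w hw, one_zpow, mul_one]
    exact W.zpow_mem hi a
  set B : Subgroup G := Subgroup.closure {(m : G), (u : G)} with hB
  have hBU : B ≤ U := by
    rw [hB, Subgroup.closure_le]
    rintro x (rfl | rfl)
    · exact m.2
    · exact u.2
  have hBc : IsMulCommutative B := by
    refine ⟨⟨?_⟩⟩
    rintro ⟨a, ha⟩ ⟨b, hb⟩
    exact Subtype.ext (hcm a (hBU ha) b (hBU hb))
  have hBmem : ∀ b ∈ B, ∃ i j : ℤ, b = (m : G) ^ i * (u : G) ^ j := by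
    intro b hb
    rw [hB] at hb
    refine Subgroup.closure_induction ?_ ?_ ?_ ?_ hb
    · rintro x (rfl | rfl)
      · exact ⟨1, 0, by simp⟩
      · exact ⟨0, 1, by simp⟩
    · exact ⟨0, 0, by simp⟩
    · rintro x y _ _ ⟨i, j, rfl⟩ ⟨k, l, rfl⟩
      refine ⟨i + k, j + l, ?_⟩
      have h1 : (u : G) ^ j * (m : G) ^ k = (m : G) ^ k * (u : G) ^ j :=
        hcm _ (U.zpow_mem u.2 j) _ (U.zpow_mem m.2 k)
      rw [zpow_add, zpow_add, mul_assoc, ← mul_assoc ((u : G) ^ j), h1]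
      simp only [mul_assoc]
    · rintro x _ ⟨i, j, rfl⟩
      refine ⟨-i, -j, ?_⟩
      rw [mul_inv_rev, ← zpow_neg, ← zpow_neg]
      exact hcm _ (U.zpow_mem u.2 _) _ (U.zpow_mem m.2 _)
  have hBU₀ : ∀ b ∈ B, b ∈ U₀ → b = 1 := by
    intro b hb hbU
    obtain ⟨i, j, rfl⟩ := hBmem b hb
    have h1 : u ^ j ∈ M' := by
      have h2 : m ^ i * u ^ j ∈ M' := hM'.le (by
        rw [Subgroup.mem_subgroupOf]; simpa using hbU)
      have h3 : (m ^ i)⁻¹ * (m ^ i * u ^ j) ∈ M' := M'.mul_mem (M'.inv_mem (M'.zpow_mem hmM i)) h2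
      rwa [inv_mul_cancel_left] at h3
    have hj : (p : ℤ) ∣ j := by
      refine hpr (M'.map U.subtype) u u.2 ?_ j ?_
      · rintro ⟨x, hx, hxu⟩
        apply huM
        have : x = u := Subtype.ext hxu
        rwa [← this]
      · exact ⟨u ^ j, h1, by simp⟩
    have huj : (u : G) ^ j = 1 := by
      obtain ⟨k, rfl⟩ := hj
      rw [zpow_mul, zpow_natCast, hexp _ u.2, one_zpow]
    rw [huj, mul_one] at hbU ⊢
    obtain ⟨k, rfl⟩ := hpr U₀ m m.2 hmU₀ i hbU
    rw [zpow_mul, zpow_natCast, hexp _ m.2, one_zpow]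
  have hmB : (m : G) ∈ B := Subgroup.subset_closure (by simp)
  have huB : (u : G) ∈ B := Subgroup.subset_closure (by simp)
  have hm1 : (m : G) ≠ 1 := fun h => hmU₀ (h ▸ U₀.one_mem)
  -- any cyclic subgroup of B containing m and u gives a contradiction
  have hnc : ∀ b ∈ B, (m : G) ∈ Subgroup.zpowers b → (u : G) ∈ Subgroup.zpowers b → False := by
    intro b hb hmb hub
    obtain ⟨i, hi⟩ := Subgroup.mem_zpowers_iff.mp hmb
    obtain ⟨j, hj⟩ := Subgroup.mem_zpowers_iff.mp hub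
    have hbM : b ∉ M'.map U.subtype := by
      rintro ⟨x, hx, hxb⟩
      apply huM
      have : x ^ j = u := Subtype.ext (by
        rw [Subgroup.coe_zpow, ← hj, ← hxb]; rfl)
      rw [← this]; exact M'.zpow_mem hx j
    have h1 : (p : ℤ) ∣ i := by
      refine hpr _ b (hBU hb) hbM i ?_
      rw [hi]; exact ⟨m, hmM, rfl⟩
    apply hm1
    obtain ⟨k, rfl⟩ := h1
    rw [← hi, zpow_mul, zpow_natCast, hexp _ (hBU hb), one_zpow]
  have hBnc : ¬ IsCyclic B := by
    intro hcyc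
    obtain ⟨⟨b, hb⟩, hgen⟩ := hcyc.exists_generator
    refine hnc b hb ?_ ?_
    · obtain ⟨k, hk⟩ := Subgroup.mem_zpowers_iff.mp (hgen ⟨m, hmB⟩)
      exact Subgroup.mem_zpowers_iff.mpr ⟨k, by simpa [Subtype.ext_iff] using hk⟩
    · obtain ⟨k, hk⟩ := Subgroup.mem_zpowers_iff.mp (hgen ⟨u, huB⟩)
      exact Subgroup.mem_zpowers_iff.mpr ⟨k, by simpa [Subtype.ext_iff] using hk⟩
  -- the action of B on R₁
  set R₁ := R ⊓ Subgroup.centralizer (U₀ : Set G) with hR₁
  have hBR₁ : B ≤ Subgroup.normalizer (R₁ : Set G) := by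
    apply H1.Coprime.le_normalizer_of_conj_mem
    intro b hb r hr
    refine Subgroup.mem_inf.mpr ⟨H1.Coprime.conj_mem_of_le_normalizer hUR (hBU hb) hr.1, ?_⟩
    rw [Subgroup.mem_centralizer_iff]
    intro w hw
    have h1 : w * r = r * w := Subgroup.mem_centralizer_iff.mp hr.2 w hw
    have h2 : b * w = w * b := hcm _ (hBU hb) _ (hU₀.le hw)
    calc w * (b * r * b⁻¹) = (w * b) * r * b⁻¹ := by group
      _ = b * w * r * b⁻¹ := by rw [h2]
      _ = b * (w * r) * b⁻¹ := by group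
      _ = b * (r * w) * b⁻¹ := by rw [h1]
      _ = b * r * b⁻¹ * ((b * w) * b⁻¹) := by group
      _ = b * r * b⁻¹ * (w * b * b⁻¹) := by rw [h2]
      _ = b * r * b⁻¹ * w := by group
  have hcopB : (Nat.card B).Coprime (Nat.card R₁) := by
    have h1 : IsPGroup p B := by
      rintro ⟨b, hb⟩
      exact ⟨1, by rw [pow_one]; exact Subtype.ext (hexp b (hBU hb))⟩
    obtain ⟨n, hn⟩ := IsPGroup.iff_card.mp h1
    rw [hn]
    apply Nat.Coprime.pow_left
    exact (hR.coprime_dvd_left (Subgroup.card_dvd_of_le inf_le_left)).symm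
  have hgen := Cfsg.Agent.S0058.result B R₁ hBnc hBR₁ hcopB
  have : ∃ b ∈ B, b ≠ 1 ∧ R₁ ⊓ Subgroup.centralizer {b} ≠ ⊥ := by
    by_contra hcon
    push Not at hcon
    apply hne
    rw [← hgen, eq_bot_iff, iSup₂_le_iff]
    rintro a ⟨ha, ha1⟩
    exact (hcon a ha ha1).le
  obtain ⟨b, hb, hb1, hbne⟩ := this
  have hlt : U₀ < U₀ ⊔ Subgroup.zpowers b := by
    refine lt_of_le_of_ne le_sup_left ?_
    intro h
    apply hb1
    apply hBU₀ b hb
    rw [h]
    exact Subgroup.mem_sup_right (Subgroup.mem_zpowers b)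
  have hleU : U₀ ⊔ Subgroup.zpowers b ≤ U := sup_le hU₀.le (by
    rw [Subgroup.zpowers_le]; exact hBU hb)
  have hcard : Nat.card U₀ < Nat.card (U₀ ⊔ Subgroup.zpowers b : Subgroup G) := by
    have := Set.ncard_lt_ncard (SetLike.coe_ssubset_coe.mpr hlt) (Set.toFinite _)
    simpa [← Nat.card_coe_set_eq] using this
  rcases hleU.lt_or_eq with hlt2 | heq
  · have := hmax (U₀ ⊔ Subgroup.zpowers b) ⟨hlt2, ?_⟩
    · exact absurd hcard (not_lt.mpr this)
    · intro h
      apply hbne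
      rw [eq_bot_iff, ← h]
      refine le_inf (inf_le_left.trans inf_le_left) ?_
      rw [Subgroup.le_centralizer_iff, sup_le_iff]
      constructor
      · rw [← Subgroup.le_centralizer_iff]
        exact inf_le_left.trans inf_le_right
      · rw [Subgroup.zpowers_le, Subgroup.mem_centralizer_iff]
        intro r hr
        exact Subgroup.mem_centralizer_singleton_iff.mp hr.2
  · have hmem : ∀ x ∈ B, x ∈ Subgroup.zpowers b := by
      intro x hx
      have hxU : x ∈ U₀ ⊔ Subgroup.zpowers b := by rw [heq]; exact hBU hx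
      have h1 : U₀ ≤ Subgroup.normalizer (Subgroup.zpowers b : Set G) := by
        apply H1.Coprime.le_normalizer_of_conj_mem
        intro a ha k hk
        have hkU : k ∈ U := (Subgroup.zpowers_le.mpr (hBU hb)) hk
        rw [hcm a (hU₀.le ha) k hkU, mul_inv_cancel_right]
        exact hk
      rw [← SetLike.mem_coe, Subgroup.coe_mul_of_left_le_normalizer_right _ _ h1] at hxU
      obtain ⟨w, hw, z, hz, rfl⟩ := hxU
      have hzB : z ∈ B := (Subgroup.zpowers_le.mpr hb) hz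
      have : w = 1 := hBU₀ w (by
        have := B.mul_mem hx (B.inv_mem hzB)
        simpa using this) hw
      subst this
      simpa using hz
    exact (hnc b hb (hmem _ hmB) (hmem _ huB)).elim

/-- Let G be a finite group, p a prime and Q a large p-subgroup of G: C_G(Q) ≤ Q and N_G(U) ≤ N_G(Q) for every nontrivial subgroup U of C_G(Q). Let Q ≤ G₁ ≤ G, let R be a subgroup of order prime to p normalized by G₁, and let U ≤ G₁ be a p-subgroup. If U contains a nontrivial element which is G₁-conjugate to an element of Z(Q), then C_R(U) = 1. In particular, if U is elementary abelian of order at least p² and every maximal subgroup of U contains a nontrivial element G₁-conjugate into Z(Q), then R = 1. -/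
theorem result {G : Type*} [Group G] [Finite G] {p : ℕ} [Fact p.Prime] (Q : Subgroup G) (hQp : IsPGroup p ↥Q) (hlarge : Cfsg.IsLarge Q) (G₁ : Subgroup G) (hQG : Q ≤ G₁) (R : Subgroup G) (hR : (Nat.card ↥R).Coprime p) (hGR : G₁ ≤ Subgroup.normalizer (R : Set G)) (U : Subgroup G) (hUG : U ≤ G₁) (hUp : IsPGroup p ↥U) : ((∃ x ∈ U, x ≠ 1 ∧ ∃ g ∈ G₁, g * x * g⁻¹ ∈ Q ⊓ Subgroup.centralizer (Q : Set G)) → R ⊓ Subgroup.centralizer (U : Set G) = ⊥) ∧ (Cfsg.IsElementaryAbelian p U → p ^ 2 ≤ Nat.card ↥U → (∀ U₀ : Subgroup G, U₀ ≤ U → IsCoatom (U₀.subgroupOf U) → ∃ x ∈ U₀, x ≠ 1 ∧ ∃ g ∈ G₁, g * x * g⁻¹ ∈ Q ⊓ Subgroup.centralizer (Q : Set G)) → R = ⊥) := by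
  refine ⟨part1 Q hQp hlarge G₁ hQG R hR hGR U, ?_⟩
  intro hel hcard hall
  by_contra hR1
  have hU1 : U ≠ ⊥ := by
    rintro rfl
    have hp := (Fact.out : p.Prime).two_le
    rw [Subgroup.card_bot] at hcard
    nlinarith
  obtain ⟨U₀, hU₀, hco, hne⟩ := exists_coatom R U hR (hUG.trans hGR) hel hU1 hR1
  exact hne (part1 Q hQp hlarge G₁ hQG R hR hGR U₀ (hall U₀ hU₀ hco))

end Cfsg.Agent.S3003
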