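import Cfsg.Statements.S3005
import Cfsg.Agent.Lib.H55.CentrallyLarge

set_option autoImplicit false
open scoped Pointwise
open Cfsg
namespace Cfsg.Agent.S3005

open H55.CD H55.CL

theorem result {p : ℕ} [Fact p.Prime] (P : Type*) [Group P] [Finite P] (hP : IsPGroup p P) : (∀ Q : Subgroup P, Cfsg.IsCentrallyLarge Q → Cfsg.IsCentralizerLarge Q ∧ Subgroup.centralizer (Q : Set P) = Q ⊓ Subgroup.centralizer (Q : Set P)) ∧ (∀ Q : Subgroup P, Cfsg.IsCentralizerLarge Q → (Cfsg.IsCentrallyLarge Q ↔ Subgroup.centralizer (Q : Set P) ≤ Q)) ∧ (∀ Q R : Subgroup P, Cfsg.IsCentrallyLarge Q → Cfsg.IsCentrallyLarge R → ((Q ⊔ R : Subgroup P) : Set P) = (Q : Set P) * (R : Set P) ∧ Cfsg.IsCentrallyLarge (Q ⊔ R)) ∧ Cfsg.IsCentrallyLarge (Cfsg.centrallyLargeJoin P) ∧ Cfsg.IsCentrallyLarge (Cfsg.minimalCentrallyLargeJoin P) := by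
  refine ⟨?_, ?_, ?_, ?_, ?_⟩
  · intro Q hQ
    rw [isCentrallyLarge_iff] at hQ
    exact ⟨(isCentralizerLarge_iff Q).2 hQ.1, (inf_eq_right.2 hQ.2).symm⟩
  · intro Q hQ
    rw [isCentralizerLarge_iff] at hQ
    rw [isCentrallyLarge_iff]
    exact ⟨fun h => h.2, fun h => ⟨hQ, h⟩⟩
  · intro Q R hQ hR
    refine ⟨?_, H55.CL.sup hQ hR⟩
    rw [isCentrallyLarge_iff] at hQ hR
    exact hQ.1.coe_sup hR.1
  · obtain ⟨R, hR⟩ := exists_isCentrallyLarge P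
    exact sSup_isCentrallyLarge _ ⟨R, hR⟩ (fun R hR => hR)
  · obtain ⟨R, hR⟩ := exists_isCentrallyLarge P
    obtain ⟨Q, hQ, _⟩ := exists_minimal_le R hR
    exact sSup_isCentrallyLarge _ ⟨Q, hQ⟩ (fun R hR => hR.1)

end Cfsg.Agent.S3005
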