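import Cfsg.Statements.S3006
import Cfsg.Agent.Lib.H55.LargeAbelian

set_option autoImplicit false
open scoped Pointwise
open Cfsg
namespace Cfsg.Agent.S3006

open H55.CD H55.CL

theorem result {p : ℕ} [Fact p.Prime] (P : Type*) [Group P] [Finite P] (hP : IsPGroup p P) (Q A : Subgroup P) (hQ : Cfsg.IsCentrallyLarge Q) (hA : A ∈ Cfsg.maxAbelianSubgroups P) : ((Q ⊔ A : Subgroup P) : Set P) = (Q : Set P) * (A : Set P) ∧ Cfsg.IsCentrallyLarge (Q ⊔ A) ∧ (Q ⊔ A) ⊓ Subgroup.centralizer ((Q ⊓ A : Subgroup P) : Set P) = (Q ⊓ Subgroup.centralizer (Q : Set P)) ⊔ A ∧ (((Q ⊓ Subgroup.centralizer (Q : Set P)) ⊔ A : Subgroup P) : Set P) = ((Q ⊓ Subgroup.centralizer (Q : Set P)) : Set P) * (A : Set P) ∧ Subgroup.centralizer ((Cfsg.thompsonSubgroupA P ⊓ Subgroup.centralizer (Cfsg.thompsonSubgroupA P : Set P) : Subgroup P) : Set P) ≤ Cfsg.centrallyLargeJoin P := by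
  have hQ' := (isCentrallyLarge_iff Q).1 hQ
  have hZ : Q ⊓ Subgroup.centralizer (Q : Set P) = Subgroup.centralizer (Q : Set P) :=
    inf_eq_right.2 hQ'.2
  refine ⟨H55.LA.coe_sup hQ hA, H55.LA.sup_isCentrallyLarge hQ hA, ?_, ?_, ?_⟩
  · rw [hZ]; exact H55.LA.centralizer_inf_eq hQ hA
  · have hZ' : (Q : Set P) ∩ (Subgroup.centralizer (Q : Set P) : Set P) =
        (Subgroup.centralizer (Q : Set P) : Set P) := by
      rw [← Subgroup.coe_inf, hZ]
    rw [hZ]
    have := H55.LA.coe_center_sup hQ hA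
    rw [this]
    congr 1
    exact hZ'.symm
  · have h1 : Cfsg.IsCentrallyLarge (Cfsg.centrallyLargeJoin P) :=
      sSup_isCentrallyLarge _ ⟨Q, hQ⟩ (fun R hR => hR)
    apply H55.LA.centralizer_center_thompson_le h1
    have h2 := H55.LA.sup_thompson_isCentrallyLarge h1
    exact le_sup_right.trans (le_sSup h2)

end Cfsg.Agent.S3006
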