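import Cfsg.Statements.S3007
import Cfsg.Agent.Lib.H55.MinimalCL

set_option autoImplicit false
open Cfsg
namespace Cfsg.Agent.S3007

open H55.CD H55.CL

theorem result {p : ℕ} [Fact p.Prime] (P : Type*) [Group P] [Finite P] (hP : IsPGroup p P) (Q R : Subgroup P) (hQ : Cfsg.IsMinimalCentrallyLarge Q) (hR : Cfsg.IsMinimalCentrallyLarge R) : (Q ⊓ R) ⊔ (Q ⊓ Subgroup.centralizer (Q : Set P)) = Q ∧ ⁅Q, Q⁆ = ⁅R, R⁆ ∧ Nat.card ↥Q = Nat.card ↥R ∧ Nat.card ↥(Q ⊓ Subgroup.centralizer (Q : Set P)) = Nat.card ↥(R ⊓ Subgroup.centralizer (R : Set P)) ∧ (IsMulCommutative ↥Q → ∀ X : Subgroup P, Cfsg.IsMinimalCentrallyLarge X ↔ X ∈ Cfsg.maxAbelianSubgroups P) := by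
  have hQ' := (isCentrallyLarge_iff Q).1 hQ.1
  have hR' := (isCentrallyLarge_iff R).1 hR.1
  have hZQ : Q ⊓ Subgroup.centralizer (Q : Set P) = Subgroup.centralizer (Q : Set P) :=
    inf_eq_right.2 hQ'.2
  have hZR : R ⊓ Subgroup.centralizer (R : Set P) = Subgroup.centralizer (R : Set P) :=
    inf_eq_right.2 hR'.2
  rw [hZQ, hZR]
  exact ⟨H55.MCL.inf_sup_center hQ hR, H55.MCL.commutator_eq hQ hR, (H55.MCL.card_eq hQ hR).1,
    (H55.MCL.card_eq hQ hR).2, fun hab X => H55.MCL.iff_maxAbelian hQ hab X⟩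

end Cfsg.Agent.S3007
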