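import Cfsg.Statements.S3008
import Cfsg.Agent.Lib.H55.CLFixed

set_option autoImplicit false
open Cfsg
namespace Cfsg.Agent.S3008

open H55.CD H55.CL H55.SylowBasic Subgroup

variable {P : Type*} [Group P] [Finite P]

theorem thompson_le_normalizer (N : Subgroup P) (h : ∀ A ∈ Cfsg.maxAbelianSubgroups P, A ≤ normalizer (N : Set P)) :
    Cfsg.thompsonSubgroupA P ≤ normalizer (N : Set P) := sSup_le h

/-- every isotropic member lies in the Thompson subgroup -/
theorem iso_le_thompson {E : Subgroup P} (hE : H55.CLF.Iso E) : E ≤ Cfsg.thompsonSubgroupA P := by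
  obtain ⟨A, hA⟩ := H55.LA.exists_maxAbelian P
  have h1 := H55.LA.inf_sup_center_mem (H55.CLF.iso_cl hA hE) hA
  rw [hE.1.cc] at h1
  exact le_sup_right.trans (le_sSup h1)

theorem exists_fixed {p : ℕ} [Fact p.Prime] (hP : IsPGroup p P) :
    ∃ Q : Subgroup P, Cfsg.IsMinimalCentrallyLarge Q ∧
      Cfsg.thompsonSubgroupA P ≤ normalizer (Q : Set P) ∧
      Cfsg.minimalCentrallyLargeJoin P ≤ normalizer (Q : Set P) := by
  set J := Cfsg.thompsonSubgroupA P with hJ
  have hJgen : H55.CLF.Gen J := by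
    apply H55.CLF.gen_of_le
    apply sSup_le
    intro A hA
    exact le_sSup ⟨hA, le_sSup hA⟩
  -- a J-invariant isotropic member: the least member
  obtain ⟨M, hM⟩ := exists_mem P
  obtain ⟨X, hX1, -, hX3⟩ := H55.CLF.exists_least_mem (∅ : Set P) M hM (by simp)
  have hXiso : H55.CLF.Iso X := ⟨hX1, hX3 _ hX1.centralizer (by simp)⟩
  have hXJ : J ≤ normalizer (X : Set P) := by
    intro w _
    rw [Subgroup.mem_normalizer_iff_map_conj_eq]
    symm
    apply Subgroup.eq_of_le_of_card_ge (hX3 _ (H55.CLF.mem_map_conj hX1 w) (by simp))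
    rw [Subgroup.card_map_of_injective (MulAut.conj w).injective]
  obtain ⟨N, ⟨hN1, hN2⟩, hNmax⟩ := Set.exists_max_image
    {N : Subgroup P | H55.CLF.Iso N ∧ J ≤ normalizer (N : Set P)} (fun Q => Nat.card Q)
    (Set.toFinite _) ⟨X, hXiso, hXJ⟩
  have hNmaximal : ∀ E : Subgroup P, H55.CLF.Iso E → N ≤ E → E = N := by
    intro E hE hNE
    by_contra hne
    obtain ⟨N', h1, h2, h3⟩ := H55.CLF.step hP (Nat.card J) J le_rfl hJgen N hN1 hN2
      ⟨E, hE, lt_of_le_of_ne hNE (Ne.symm hne)⟩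
    have h4 := hNmax N' ⟨h1, h3⟩
    exact h2.ne (Subgroup.eq_of_le_of_card_ge h2.le h4)
  set R : Subgroup P := centralizer (N : Set P) with hR
  have hRcl : Cfsg.IsCentrallyLarge R := by
    rw [isCentrallyLarge_iff]
    exact ⟨hN1.1.centralizer, by rw [hN1.1.cc]; exact hN1.2⟩
  have hRmin : Cfsg.IsMinimalCentrallyLarge R := by
    refine ⟨hRcl, fun R' hR' hR'cl => ?_⟩
    obtain ⟨hm, hc⟩ := (isCentrallyLarge_iff R').1 hR'cl
    have h1 : N ≤ centralizer (R' : Set P) := by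
      rw [Subgroup.le_centralizer_iff]; exact hR'
    have h2 := hNmaximal _ ⟨hm.centralizer, by rw [hm.cc]; exact hc⟩ h1
    rw [hR, ← h2, hm.cc]
  have hJR : J ≤ normalizer (R : Set P) := by
    intro g hg
    have h1 := Subgroup.mem_normalizer_iff_map_conj_eq.1 (hN2 hg)
    rw [Subgroup.mem_normalizer_iff_map_conj_eq]
    have h2 := H55.CLF.centralizer_map_conj N g
    rw [hR]
    have h3 : N.map (MulAut.conj g).toMonoidHom = N := h1
    rw [h3] at h2
    exact h2.symm
  refine ⟨R, hRmin, hJR, ?_⟩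
  apply sSup_le
  intro Q hQ
  rw [← H55.MCL.inf_sup_center hQ hRmin]
  apply sup_le
  · exact inf_le_right.trans Subgroup.le_normalizer
  · obtain ⟨hm, hc⟩ := (isCentrallyLarge_iff Q).1 hQ.1
    exact (iso_le_thompson ⟨hm.centralizer, by rw [hm.cc]; exact hc⟩).trans hJR

theorem result {p : ℕ} [Fact p.Prime] (P : Type*) [Group P] [Finite P] (hP : IsPGroup p P) : (∀ Q : Subgroup P, Cfsg.IsCentrallyLarge Q → Subgroup.centralizer ((Cfsg.thompsonSubgroupA P ⊓ Subgroup.centralizer (Cfsg.thompsonSubgroupA P : Set P) : Subgroup P) : Set P) ≤ Q ⊔ Cfsg.thompsonSubgroupA P) ∧ (∃ Q : Subgroup P, Cfsg.IsMinimalCentrallyLarge Q ∧ Cfsg.thompsonSubgroupA P ≤ Subgroup.normalizer (Q : Set P) ∧ Cfsg.minimalCentrallyLargeJoin P ≤ Subgroup.normalizer (Q : Set P)) ∧ (Cfsg.thompsonSubgroupA P = ⊤ → (∀ A ∈ Cfsg.maxAbelianSubgroups P, Nat.card ↥A ^ 2 = Nat.card P * Nat.card ↥(Subgroup.center P)) → ∀ Q : Subgroup P, Cfsg.IsMinimalCentrallyLarge Q → IsMulCommutative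 ↥Q) ∧ ((∀ Q : Subgroup P, Cfsg.IsMinimalCentrallyLarge Q → IsMulCommutative ↥Q) → Subgroup.centralizer ((Cfsg.thompsonSubgroupA P ⊓ Subgroup.centralizer (Cfsg.thompsonSubgroupA P : Set P) : Subgroup P) : Set P) = Cfsg.thompsonSubgroupA P) := by
  refine ⟨?_, exists_fixed hP, ?_, ?_⟩
  · intro Q hQ
    exact H55.LA.centralizer_center_thompson_le (H55.LA.sup_thompson_isCentrallyLarge hQ)
      le_sup_right
  · intro hJ hcard Q hQ
    obtain ⟨A, hA⟩ := H55.LA.exists_maxAbelian P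
    have h1 := H55.LA.sup_thompson_isCentrallyLarge hQ.1
    rw [hJ, sup_top_eq] at h1
    obtain ⟨hm, hc⟩ := (isCentrallyLarge_iff _).1 h1
    have hAc := H55.LA.self_centralizing hA
    have hmA : Mem A := by
      apply mem_of_le hm
      unfold mu
      have h2 := hcard A hA
      rw [hAc, ← pow_two, h2]
      have h3 : centralizer ((⊤ : Subgroup P) : Set P) = center P := by
        rw [Subgroup.coe_top, Subgroup.centralizer_univ]
      rw [h3, Subgroup.card_top]
    have hAcl : Cfsg.IsCentrallyLarge A := (isCentrallyLarge_iff _).2 ⟨hmA, hAc.le⟩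
    obtain ⟨Q', hQ', hQ'A⟩ := exists_minimal_le A hAcl
    have h2 := H55.MCL.commutator_eq hQ hQ'
    have h3 : ⁅Q', Q'⁆ = ⊥ := by
      rw [Subgroup.commutator_eq_bot_iff_le_centralizer]
      exact hQ'A.trans ((H55.LA.comm_of_abelian hA.1).trans
        (Subgroup.centralizer_le (SetLike.coe_subset_coe.2 hQ'A)))
    rw [h3, Subgroup.commutator_eq_bot_iff_le_centralizer] at h2
    exact Subgroup.le_centralizer_iff_isMulCommutative.1 h2
  · intro hall
    have hJeq : Cfsg.thompsonSubgroupA P = Cfsg.minimalCentrallyLargeJoin P := by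
      obtain ⟨R, hR⟩ := exists_isCentrallyLarge P
      obtain ⟨Q, hQ, _⟩ := exists_minimal_le R hR
      have h1 := H55.MCL.iff_maxAbelian hQ (hall Q hQ)
      unfold Cfsg.thompsonSubgroupA Cfsg.minimalCentrallyLargeJoin
      congr 1
      ext X
      exact (h1 X).symm
    have hJcl : Cfsg.IsCentrallyLarge (Cfsg.thompsonSubgroupA P) := by
      rw [hJeq]
      obtain ⟨R, hR⟩ := exists_isCentrallyLarge P
      obtain ⟨Q, hQ, _⟩ := exists_minimal_le R hR
      exact sSup_isCentrallyLarge _ ⟨Q, hQ⟩ (fun R hR => hR.1)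
    obtain ⟨hm, hc⟩ := (isCentrallyLarge_iff _).1 hJcl
    rw [inf_eq_right.2 hc, hm.cc]

end Cfsg.Agent.S3008
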