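import Mathlib.Data.Set.Card
import Cfsg.Statements.S3011
import Cfsg.Agent.Lib.H55.BaerSuzuki

set_option autoImplicit false
open Cfsg
namespace Cfsg.Agent.S3011

theorem eq_one_of_sq {G : Type*} [Group G] {x : G} (hx : Odd (orderOf x)) (h : x * x = 1) :
    x = 1 := by
  have h1 : orderOf x ∣ 2 := orderOf_dvd_of_pow_eq_one (by rw [pow_two]; exact h)
  have h2 := (Nat.dvd_prime Nat.prime_two).1 h1
  rcases h2 with h2 | h2
  · exact orderOf_eq_one_iff.1 h2
  · rw [h2] at hx; exact absurd hx (by decide)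

/-- if `x` has odd order and `x ^ 2` commutes with `y` then so does `x` -/
theorem commute_of_sq {G : Type*} [Group G] {x y : G} (hx : Odd (orderOf x))
    (h : Commute (x ^ 2) y) : Commute x y := by
  obtain ⟨m, hm⟩ := hx
  have h1 : x = (x ^ 2) ^ (m + 1) := by
    rw [← pow_mul, show 2 * (m + 1) = (2 * m + 1) + 1 by ring, pow_succ, ← hm,
      pow_orderOf_eq_one, one_mul]
  rw [h1]; exact h.pow_left _

theorem core {G : Type*} [Group G] (V : Subgroup G) (hS : Cfsg.IsSidkiPair V) (a b x y : G)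
    (ha : a ∈ V) (hb : b ∈ V) (ha2 : a * a = 1) (hb2 : b * b = 1)
    (hall : ∀ w ∈ V, w = 1 ∨ w = a ∨ w = b ∨ w = a * b)
    (hx : Odd (orderOf x)) (hy : Odd (orderOf y)) (hx1 : x ≠ 1) (hy1 : y ≠ 1)
    (hax : a * x * a = x⁻¹) (hay : a * y * a = y⁻¹) (hbx : b * x * b = x)
    (hby : b * y * b = y⁻¹) : False := by
  have hainv : a⁻¹ = a := by rw [inv_eq_iff_mul_eq_one]; exact ha2
  have hbinv : b⁻¹ = b := by rw [inv_eq_iff_mul_eq_one]; exact hb2
  have conj_a : ∀ u v : G, a * (u * v) * a = (a * u * a) * (a * v * a) := by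
    intro u v
    calc a * (u * v) * a = a * u * 1 * v * a := by group
      _ = a * u * (a * a) * v * a := by rw [ha2]
      _ = _ := by group
  have conj_b : ∀ u v : G, b * (u * v) * b = (b * u * b) * (b * v * b) := by
    intro u v
    calc b * (u * v) * b = b * u * 1 * v * b := by group
      _ = b * u * (b * b) * v * b := by rw [hb2]
      _ = _ := by group
  have inv_a : ∀ u : G, a * u⁻¹ * a = (a * u * a)⁻¹ := by
    intro u
    rw [mul_inv_rev, mul_inv_rev, hainv]; group
  have inv_b : ∀ u : G, b * u⁻¹ * b = (b * u * b)⁻¹ := by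
    intro u
    rw [mul_inv_rev, mul_inv_rev, hbinv]; group
  -- x and y do not commute
  have hnc : ¬ Commute x y := by
    intro hxy
    have hodd : Odd (orderOf (x * y)) :=
      Odd.of_dvd_nat (hx.mul hy) hxy.orderOf_mul_dvd_mul_orderOf
    have h1 : a * (x * y) * a⁻¹ = (x * y)⁻¹ := by
      rw [hainv, conj_a, hax, hay, ← mul_inv_rev, hxy.eq]
    obtain ⟨w, hw, hw1, hwc⟩ := hS (x * y) a ha hodd h1
    rcases hall w hw with rfl | rfl | rfl | rfl
    · exact hw1 rfl
    · have h2 : x * y = (x * y)⁻¹ := by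
        rw [← h1, hwc]; group
      have h3 : x * y = 1 := eq_one_of_sq hodd (by nth_rewrite 2 [h2]; group)
      have h4 : y = x⁻¹ := by rw [eq_inv_iff_mul_eq_one, ← hxy.eq]; exact h3
      rw [h4, inv_b, hbx, inv_inv] at hby
      exact hx1 (eq_one_of_sq hx (by nth_rewrite 1 [← hby]; group))
    · have h2 : x * y = x * y⁻¹ := by
        calc x * y = (w * (x * y)) * w := by rw [hwc, mul_assoc, hb2, mul_one]
          _ = x * y⁻¹ := by rw [conj_b, hbx, hby]
      have h3 : y = y⁻¹ := mul_left_cancel h2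
      exact hy1 (eq_one_of_sq hy (by nth_rewrite 2 [h3]; group))
    · have h2 : x * y = x⁻¹ * y := by
        have hb' : b * (x * y) * b = x * y⁻¹ := by rw [conj_b, hbx, hby]
        have e1 : (a * b) * (x * y) * (b * a) = x⁻¹ * y := by
          calc (a * b) * (x * y) * (b * a) = a * (b * (x * y) * b) * a := by group
            _ = x⁻¹ * y := by rw [hb', conj_a, hax, inv_a, hay, inv_inv]
        rw [← e1, hwc]
        calc x * y = x * y * (a * (b * b) * a) := by rw [hb2, mul_one, ha2, mul_one]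
          _ = _ := by group
      have h3 : x = x⁻¹ := mul_right_cancel h2
      exact hx1 (eq_one_of_sq hx (by nth_rewrite 2 [h3]; group))
  -- y' = x y x⁻¹
  set y' : G := x * y * x⁻¹ with hy'
  have hodd' : Odd (orderOf y') := by
    have : orderOf y' = orderOf y := MulEquiv.orderOf_eq (MulAut.conj x) y
    rw [this]; exact hy
  have hy'1 : y' ≠ 1 := fun h => hy1 (conj_eq_one_iff.1 h)
  have hby' : b * y' * b⁻¹ = y'⁻¹ := by
    rw [hbinv, hy', conj_b, conj_b, hbx, hby, inv_b, hbx]; group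
  have hay' : a * y' * a = x⁻¹ * y⁻¹ * x := by
    rw [hy', conj_a, conj_a, hax, hay, inv_a, hax, inv_inv]
  obtain ⟨w, hw, hw1, hwc⟩ := hS y' b hb hodd' hby'
  rcases hall w hw with rfl | rfl | rfl | rfl
  · exact hw1 rfl
  · -- w = a commutes with y'
    have h1 : y' = x⁻¹ * y⁻¹ * x := by
      rw [← hay', hwc, mul_assoc, ha2, mul_one]
    -- x² y x⁻² = y⁻¹
    have h2 : x ^ 2 * y * (x ^ 2)⁻¹ = y⁻¹ := by
      calc x ^ 2 * y * (x ^ 2)⁻¹ = x * y' * x⁻¹ := by rw [hy', pow_two]; group
        _ = y⁻¹ := by rw [h1]; group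
    have h3 : Commute ((x ^ 2) ^ 2) y := by
      have h4 : (x ^ 2) ^ 2 * y * ((x ^ 2) ^ 2)⁻¹ = y := by
        calc (x ^ 2) ^ 2 * y * ((x ^ 2) ^ 2)⁻¹ = x ^ 2 * (x ^ 2 * y * (x ^ 2)⁻¹) * (x ^ 2)⁻¹ := by
              rw [pow_two (x ^ 2)]; group
          _ = x ^ 2 * y⁻¹ * (x ^ 2)⁻¹ := by rw [h2]
          _ = (x ^ 2 * y * (x ^ 2)⁻¹)⁻¹ := by group
          _ = y := by rw [h2, inv_inv]
      exact mul_inv_eq_iff_eq_mul.1 h4
    have hx2 : Odd (orderOf (x ^ 2)) := Odd.of_dvd_nat hx (orderOf_pow_dvd 2)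
    exact hnc (commute_of_sq hx (commute_of_sq hx2 h3))
  · have h2 : y' = y'⁻¹ := by
      rw [← hby', hwc]; group
    exact hy'1 (eq_one_of_sq hodd' (by nth_rewrite 2 [h2]; group))
  · have h1 : x⁻¹ * y * x = y' := by
      have e1 : a * (b * y' * b⁻¹) * a = x⁻¹ * y * x := by
        rw [hby', inv_a, hay']; group
      rw [← e1, hbinv]
      calc a * (b * y' * b) * a = (a * b * y') * (b * a) := by group
        _ = y' * (a * (b * b) * a) := by rw [hwc]; group
        _ = y' := by rw [hb2, mul_one, ha2, mul_one]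
    have h2 : x ^ 2 * y * (x ^ 2)⁻¹ = y := by
      calc x ^ 2 * y * (x ^ 2)⁻¹ = x * y' * x⁻¹ := by rw [hy', pow_two]; group
        _ = y := by rw [← h1]; group
    have h3 : Commute (x ^ 2) y := mul_inv_eq_iff_eq_mul.1 h2
    exact hnc (commute_of_sq hx h3)

theorem result {G : Type*} [Group G] [Finite G] (V : Subgroup G) (hV : Cfsg.IsElementaryAbelian 2 V) (hV1 : V ≠ ⊥) (hS : Cfsg.IsSidkiPair V) (h4 : Nat.card V ≤ 4) : V ⊓ Cfsg.pCore 2 G ≠ ⊥ := by
  intro hbot
  have hsq : ∀ v ∈ V, v * v = 1 := fun v hv => by rw [← pow_two]; exact hV.2 v hv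
  have hinv : ∀ v ∈ V, v⁻¹ = v := fun v hv => by
    rw [inv_eq_iff_mul_eq_one]; exact hsq v hv
  have hcomm : ∀ a ∈ V, ∀ b ∈ V, a * b = b * a := by
    intro a ha b hb
    have := hV.1.1.1 (⟨a, ha⟩ : V) ⟨b, hb⟩
    exact congrArg Subtype.val this
  -- every nontrivial v inverts a nontrivial element of odd order
  have hex : ∀ v ∈ V, v ≠ 1 → ∃ x : G, Odd (orderOf x) ∧ x ≠ 1 ∧ v * x * v = x⁻¹ ∧
      ∃ w ∈ V, w ≠ 1 ∧ w ≠ v ∧ w * x * w = x := by
    intro v hv hv1
    have h1 : ¬ ∀ x : G, Odd (orderOf x) → v * x * v⁻¹ = x⁻¹ → x = 1 := by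
      intro h2
      obtain ⟨N, hN1, hN2, hN3⟩ := H55.BaerSuzuki.exists_normal_of_involution v (hsq v hv) h2
      have h3 : v ∈ V ⊓ Cfsg.pCore 2 G :=
        ⟨hv, (le_sSup (show N ∈ {N : Subgroup G | N.Normal ∧ IsPGroup 2 N} from ⟨hN1, hN2⟩)) hN3⟩
      rw [hbot, Subgroup.mem_bot] at h3
      exact hv1 h3
    push Not at h1
    obtain ⟨x, hx, hxi, hx1⟩ := h1
    obtain ⟨w, hw, hw1, hwc⟩ := hS x v hv hx hxi
    rw [hinv v hv] at hxi
    refine ⟨x, hx, hx1, hxi, w, hw, hw1, ?_, ?_⟩
    · rintro rfl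
      apply hx1
      apply eq_one_of_sq hx
      have : x = x⁻¹ := by
        calc x = x * (w * w) := by rw [hsq w hw, mul_one]
          _ = w * x * w := by rw [hwc]; group
          _ = x⁻¹ := hxi
      nth_rewrite 2 [this]; group
    · rw [hwc, mul_assoc, hsq w hw, mul_one]
  obtain ⟨a, ha, ha1⟩ : ∃ a : G, a ∈ V ∧ a ≠ 1 := by
    by_contra hcon
    push Not at hcon
    exact hV1 (by rw [eq_bot_iff]; intro v hv; rw [Subgroup.mem_bot]; exact hcon v hv)
  obtain ⟨x, hx, hx1, hax, b, hb, hb1, hba, hbx⟩ := hex a ha ha1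
  have hab1 : a * b ≠ 1 := by
    intro h
    apply hba
    rw [← hinv b hb]
    exact (eq_inv_of_mul_eq_one_left h).symm
  have hall : ∀ w ∈ V, w = 1 ∨ w = a ∨ w = b ∨ w = a * b := by
    have hfin : (V : Set G).Finite := Set.toFinite _
    have hsub : ({1, a, b, a * b} : Set G) ⊆ (V : Set G) := by
      intro w hw
      simp only [Set.mem_insert_iff, Set.mem_singleton_iff] at hw
      rcases hw with rfl | rfl | rfl | rfl
      · exact one_mem V
      · exact ha
      · exact hb
      · exact mul_mem ha hb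
    have hcard4 : ({1, a, b, a * b} : Set G).ncard = 4 := by
      have n1 : (1 : G) ∉ ({a, b, a * b} : Set G) := by
        simp only [Set.mem_insert_iff, Set.mem_singleton_iff, not_or]
        exact ⟨ha1.symm, hb1.symm, hab1.symm⟩
      have n2 : a ∉ ({b, a * b} : Set G) := by
        simp only [Set.mem_insert_iff, Set.mem_singleton_iff, not_or]
        exact ⟨hba.symm, fun h => hb1 (by simpa using h)⟩
      have n3 : b ∉ ({a * b} : Set G) := by
        simp only [Set.mem_singleton_iff]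
        exact fun h => ha1 (by simpa using h)
      rw [Set.ncard_insert_of_notMem n1, Set.ncard_insert_of_notMem n2,
        Set.ncard_insert_of_notMem n3, Set.ncard_singleton]
    have heq := Set.eq_of_subset_of_ncard_le hsub (by
      rw [hcard4]
      have : Nat.card V = (V : Set G).ncard := rfl
      rw [← this]; exact h4) hfin
    intro w hw
    have : w ∈ ({1, a, b, a * b} : Set G) := by rw [heq]; exact hw
    simpa only [Set.mem_insert_iff, Set.mem_singleton_iff] using this
  obtain ⟨y, hy, hy1, hby, w, hw, hw1, hwb, hwy⟩ := hex b hb hb1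
  rcases hall w hw with rfl | rfl | rfl | rfl
  · exact hw1 rfl
  · -- y commutes with a : use c = a * b in place of a
    have hc : w * b ∈ V := mul_mem hw hb
    have hall' : ∀ v ∈ V, v = 1 ∨ v = w * b ∨ v = b ∨ v = (w * b) * b := by
      intro v hv
      have e1 : (w * b) * b = w := by rw [mul_assoc, hsq b hb, mul_one]
      rw [e1]
      rcases hall v hv with h | h | h | h
      · exact Or.inl h
      · exact Or.inr (Or.inr (Or.inr h))
      · exact Or.inr (Or.inr (Or.inl h))
      · exact Or.inr (Or.inl h)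
    refine core V hS (w * b) b x y hc hb (hsq _ hc) (hsq b hb) hall' hx hy hx1 hy1 ?_ ?_ hbx hby
    · calc w * b * x * (w * b) = w * b * x * (b * w) := by rw [hcomm w hw b hb]
        _ = w * (b * x * b) * w := by group
        _ = x⁻¹ := by rw [hbx, hax]
    · calc w * b * y * (w * b) = (b * w) * y * (w * b) := by rw [hcomm w hw b hb]
        _ = b * (w * y * w) * b := by group
        _ = y⁻¹ := by rw [hwy, hby]
  · exact hwb rfl
  · refine core V hS a b x y ha hb (hsq a ha) (hsq b hb) hall hx hy hx1 hy1 hax ?_ hbx hby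
    calc a * y * a = a * b * (b * y * b) * (b * a) := by
          calc a * y * a = a * 1 * y * 1 * a := by group
            _ = a * (b * b) * y * (b * b) * a := by rw [hsq b hb]
            _ = _ := by group
      _ = (a * b) * y⁻¹ * (a * b) := by rw [hby, hcomm b hb a ha]
      _ = ((a * b) * y * (a * b))⁻¹ := by
          rw [mul_inv_rev, mul_inv_rev (a * b) y, hinv _ (mul_mem ha hb)]; group
      _ = y⁻¹ := by rw [hwy]

end Cfsg.Agent.S3011
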