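import Cfsg.Statements.S3015
import Cfsg.Agent.Lib.H55.FrobWielandt

set_option autoImplicit false
open Cfsg

namespace Cfsg.Agent.S3015

open Subgroup H55.FW

theorem prime_relIndex {G : Type*} [Group G] {H M : Subgroup G}
    (hidx : (H.relIndex M).Prime) (J : Subgroup G) (hHJ : H ≤ J) (hJM : J ≤ M) :
    J = H ∨ J = M := by
  have h1 := Subgroup.relIndex_mul_relIndex H J M hHJ hJM
  rw [← h1, Nat.prime_mul_iff] at hidx
  rcases hidx with ⟨-, h⟩ | ⟨-, h⟩
  · right
    exact le_antisymm hJM (Subgroup.relIndex_eq_one.mp h)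
  · left
    exact le_antisymm (Subgroup.relIndex_eq_one.mp h) hHJ

theorem hcl {G : Type*} [Group G] [Finite G] [IsSimpleGroup G] (M H : Subgroup G) (hmaxM : IsCoatom M) (hHM : H ≤ M)
    (hHn : (H.subgroupOf M).Normal) (hidx : (H.relIndex M).Prime)
    (hMn : ¬ M.Normal)
    (hcon : ∀ g : G, H ⊔ H.map (MulAut.conj g).toMonoidHom ≠ ⊤) (g : G) :
    (H ⊔ H.map (MulAut.conj g).toMonoidHom) ⊓ M = H := by
  by_contra hne
  have hHMne : H ≠ M := by
    rintro rfl
    rw [Subgroup.relIndex_self] at hidx
    exact Nat.not_prime_one hidx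
  have hJ := (prime_relIndex hidx _ (le_inf le_sup_left hHM) inf_le_right).resolve_left hne
  have hMle : M ≤ H ⊔ H.map (MulAut.conj g).toMonoidHom := by
    rw [← hJ]; exact inf_le_left
  have hMeq : M = H ⊔ H.map (MulAut.conj g).toMonoidHom := by
    rcases hMle.lt_or_eq with h | h
    · exact absurd (hmaxM.2 _ h) (hcon g)
    · exact h
  set K := H.map (MulAut.conj g).toMonoidHom with hK
  have hKM : K ≤ M := by rw [hMeq]; exact le_sup_right
  have hHconj : ∀ m ∈ M, ∀ h ∈ H, m * h * m⁻¹ ∈ H := by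
    intro m hm h hh
    have := hHn.conj_mem ⟨h, hHM hh⟩ (by rwa [Subgroup.mem_subgroupOf]) ⟨m, hm⟩
    simpa [Subgroup.mem_subgroupOf] using this
  have hcardK : Nat.card K = Nat.card H :=
    Subgroup.card_map_of_injective (MulAut.conj g).injective
  have hgM : g ∉ M := by
    intro hg
    have : K ≤ H := by
      rw [hK, conj_le_iff]
      exact hHconj g hg
    rw [sup_eq_left.mpr this] at hMeq
    exact hHMne hMeq.symm
  set r := H.relIndex M with hr
  -- the elements of order prime to `r`
  set R : Subgroup G := Subgroup.closure {y : G | y ∈ M ∧ (orderOf y).Coprime r} with hR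
  have hmemH : ∀ y ∈ M, (orderOf y).Coprime r → y ∈ H := by
    intro y hy hyc
    have h1 : (⟨y, hy⟩ : M) ^ (H.subgroupOf M).index ∈ H.subgroupOf M :=
      Subgroup.pow_index_mem (H := H.subgroupOf M) _
    have h2 : y ^ r ∈ H := by
      rw [Subgroup.mem_subgroupOf] at h1
      simpa [hr, Subgroup.relIndex] using h1
    have h3 : IsCoprime (orderOf y : ℤ) (r : ℤ) := Nat.isCoprime_iff_coprime.mpr hyc
    obtain ⟨a, b, hab⟩ := h3
    have : y = (y ^ r) ^ b := by
      rw [← zpow_natCast, ← zpow_mul]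
      calc y = y ^ (a * (orderOf y : ℤ) + b * (r : ℤ)) := by rw [hab, zpow_one]
        _ = y ^ ((r : ℤ) * b) := by
          rw [zpow_add, mul_comm a, zpow_mul, zpow_natCast, pow_orderOf_eq_one, one_zpow, one_mul,
            mul_comm]
    rw [this]
    exact H.zpow_mem h2 b
  have hRM : R ≤ M := by
    rw [hR, Subgroup.closure_le]
    rintro y ⟨hy, -⟩
    exact hy
  have hord : ∀ a y : G, orderOf (a * y * a⁻¹) = orderOf y := by
    intro a y
    exact (MulAut.conj a).orderOf_eq y
  have hRn : ∀ a : G, (∀ y ∈ M, (orderOf y).Coprime r → a * y * a⁻¹ ∈ M) →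
      a ∈ normalizer (R : Set G) := by
    intro a ha
    apply H55.SylowBasic.mem_normalizer_of_forall
    rw [← conj_le_iff, hR, MonoidHom.map_closure, Subgroup.closure_le]
    rintro _ ⟨y, ⟨hy, hyc⟩, rfl⟩
    refine Subgroup.subset_closure ⟨ha y hy hyc, ?_⟩
    show (orderOf (a * y * a⁻¹)).Coprime r
    rw [hord]; exact hyc
  have hRnormal : R.Normal := by
    rw [← Subgroup.normalizer_eq_top_iff]
    apply hmaxM.2
    refine lt_of_le_of_ne ?_ ?_
    · intro m hm
      exact hRn m fun y hy _ => M.mul_mem (M.mul_mem hm hy) (M.inv_mem hm)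
    · intro h
      apply hgM
      rw [h]
      apply hRn g
      intro y hy hyc
      exact hKM ⟨y, hmemH y hy hyc, rfl⟩
  have hRbot : R = ⊥ := by
    rcases hRnormal.eq_bot_or_eq_top with h | h
    · exact h
    · exact absurd (top_le_iff.mp (h ▸ hRM)) hmaxM.1
  have hrp : Fact r.Prime := ⟨hidx⟩
  have hMp : IsPGroup r M := by
    rintro ⟨y, hy⟩
    obtain ⟨a, b, hb, hab⟩ := Nat.exists_eq_pow_mul_and_not_dvd (orderOf_pos y).ne' r hidx.ne_one
    have h1 : orderOf (y ^ r ^ a) = b := by
      rw [orderOf_pow, hab, Nat.gcd_eq_right (dvd_mul_right _ _),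
        Nat.mul_div_cancel_left _ (pow_pos hidx.pos _)]
    have h2 : y ^ r ^ a ∈ R := by
      refine Subgroup.subset_closure ⟨M.pow_mem hy _, ?_⟩
      rw [h1, Nat.coprime_comm]
      exact (Nat.Prime.coprime_iff_not_dvd hidx).mpr hb
    rw [hRbot, Subgroup.mem_bot] at h2
    exact ⟨a, Subtype.ext (by simpa using h2)⟩
  have hKr : K.relIndex M = r := by
    have h1 : Nat.card K * K.relIndex M = Nat.card M := by
      rw [← Subgroup.relIndex_bot_left, ← Subgroup.relIndex_bot_left,
        Subgroup.relIndex_mul_relIndex _ _ _ bot_le hKM]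
    have h2 : Nat.card H * r = Nat.card M := by
      rw [hr, ← Subgroup.relIndex_bot_left, ← Subgroup.relIndex_bot_left,
        Subgroup.relIndex_mul_relIndex _ _ _ bot_le hHM]
    rw [hcardK, ← h2] at h1
    exact Nat.eq_of_mul_eq_mul_left Nat.card_pos h1
  have hKltM : K < M := by
    refine lt_of_le_of_ne hKM ?_
    intro h
    rw [h, Subgroup.relIndex_self] at hKr
    exact hidx.ne_one hKr.symm
  obtain ⟨n, hnM, hnK, hnN⟩ := H55.SylowBasic.exists_mem_normalizer_notMem (p := r) K M hMp hKltM
  have hMK : M ≤ normalizer (K : Set G) := by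
    rcases prime_relIndex (hKr.symm ▸ hidx) (M ⊓ normalizer (K : Set G))
      (le_inf hKM Subgroup.le_normalizer) inf_le_left with h | h
    · exact absurd (h ▸ Subgroup.mem_inf.mpr ⟨hnM, hnN⟩) hnK
    · exact inf_eq_left.mp h
  have hMgK : M.map (MulAut.conj g).toMonoidHom ≤ normalizer (K : Set G) := by
    rw [conj_le_iff]
    intro m hm
    apply H55.SylowBasic.mem_normalizer_of_forall
    intro k hk
    rw [hK, mem_map_conj] at hk ⊢
    have := hHconj m hm _ hk
    have e : g⁻¹ * (g * m * g⁻¹ * k * (g * m * g⁻¹)⁻¹) * g = m * (g⁻¹ * k * g) * m⁻¹ := by group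
    rw [e]; exact this
  have hKn : K.Normal := by
    rw [← Subgroup.normalizer_eq_top_iff]
    by_contra hnt
    have h1 : M = normalizer (K : Set G) := by
      rcases hMK.lt_or_eq with h | h
      · exact absurd (hmaxM.2 _ h) hnt
      · exact h
    rw [← h1, conj_le_iff] at hMgK
    apply hMn
    rw [← Subgroup.normalizer_eq_top_iff]
    apply hmaxM.2
    refine lt_of_le_of_ne Subgroup.le_normalizer ?_
    intro h
    apply hgM
    rw [h]
    exact H55.SylowBasic.mem_normalizer_of_forall M g hMgK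
  rcases hKn.eq_bot_or_eq_top with h | h
  · have h1 : H = ⊥ := by
      rw [← Subgroup.card_eq_one, ← hcardK, h, Subgroup.card_bot]
    rw [h, h1, sup_idem] at hMeq
    exact hHMne (h1.trans hMeq.symm)
  · exact hmaxM.1 (top_le_iff.mp (h ▸ hKM))

/-- Let G be a finite non-abelian simple group, M a maximal subgroup of G and H a normal subgroup of M of prime index in M. Then G is generated by H together with one of its conjugates. -/
theorem result {G : Type*} [Group G] [Finite G] [IsSimpleGroup G] (hG : ¬ IsMulCommutative G) (M H : Subgroup G) (hmaxM : IsCoatom M) (hHM : H ≤ M) (hHn : (H.subgroupOf M).Normal) (hidx : (H.relIndex M).Prime) : ∃ g : G, H ⊔ H.map (MulAut.conj g).toMonoidHom = ⊤ := by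
  by_contra hcon
  push Not at hcon
  have hHMne : H ≠ M := by
    rintro rfl
    rw [Subgroup.relIndex_self] at hidx
    exact Nat.not_prime_one hidx
  have hMn : ¬ M.Normal := by
    intro h
    rcases h.eq_bot_or_eq_top with h | h
    · apply hHMne
      rw [h] at hHM ⊢
      exact le_bot_iff.mp hHM
    · exact hmaxM.1 h
  have hmaxH : IsCoatom (H.subgroupOf M) := by
    refine ⟨?_, ?_⟩
    · intro h
      rw [Subgroup.subgroupOf_eq_top] at h
      exact hHMne (le_antisymm hHM h)
    · intro J hJ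
      have h1 : H ≤ J.map M.subtype := by
        intro h hh
        exact ⟨⟨h, hHM hh⟩, hJ.le (by rwa [Subgroup.mem_subgroupOf]), rfl⟩
      have h2 : J.map M.subtype ≤ M := by
        rintro _ ⟨x, _, rfl⟩; exact x.2
      rcases prime_relIndex hidx _ h1 h2 with h | h
      · exfalso
        apply hJ.not_ge
        intro x hx
        rw [Subgroup.mem_subgroupOf, ← h]
        exact ⟨x, hx, rfl⟩
      · rw [eq_top_iff]
        rintro x -
        have : (x : G) ∈ J.map M.subtype := by rw [h]; exact x.2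
        obtain ⟨y, hy, hyx⟩ := this
        have : y = x := Subtype.ext hyx
        rwa [← this]
  rcases main H M hHM (hcl M H hmaxM hHM hHn hidx hMn hcon) hmaxH hmaxM with ⟨h, -⟩ | ⟨K, hK, -, h1, h2⟩
  · exact hMn h
  · rcases hK.eq_bot_or_eq_top with h | h
    · rw [h, bot_sup_eq] at h2
      exact hmaxM.1 h2
    · rw [h, top_inf_eq] at h1
      exact hHMne h1.symm

end Cfsg.Agent.S3015
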