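import Cfsg.Statements.S3017
import Cfsg.Agent.Lib.H37.ExtCl4

set_option autoImplicit false
set_option maxHeartbeats 1000000
open Cfsg

namespace Cfsg.Agent.S3017

/-- Let G be a finite group and H an abelian 2-subgroup of G that is extremely closed (for every g, the subgroup generated by H and g H g⁻¹ meets N_G(H) exactly in H). Then G = N_G(H) O(G), where O(G) is the largest normal subgroup of odd order. For H of order 2 this is Glauberman's Z*-statement. -/
theorem result {G : Type*} [Group G] [Finite G] (H : Subgroup G) (hH2 : IsPGroup 2 H) (hHab : IsMulCommutative H) (hcl : Cfsg.IsExtremelyClosed H) : Subgroup.normalizer (H : Set G) ⊔ Cfsg.oddCore G = ⊤ := by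
  have hcomm : ∀ a ∈ H, ∀ b ∈ H, a * b = b * a := fun a ha b hb =>
    congrArg Subtype.val (hHab.is_comm.comm (⟨a, ha⟩ : H) ⟨b, hb⟩)
  have h1 := H37.ExtCl.main (Nat.card G) G rfl H hH2 hcomm (H37.ExtCl.star_of_extremelyClosed hH2 hcomm hcl)
  rw [eq_top_iff]
  intro g _
  obtain ⟨x, hx, hn⟩ := h1 g
  have hN : x⁻¹ * g ∈ Subgroup.normalizer (H : Set G) := by
    rw [Subgroup.mem_normalizer_iff]
    intro w
    refine ⟨fun hw => hn w hw, fun hw => ?_⟩
    have := H37.ExtCl.norm_inv hn _ hw
    have e : (x⁻¹ * g)⁻¹ * (x⁻¹ * g * w * (x⁻¹ * g)⁻¹) * (x⁻¹ * g) = w := by group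
    rwa [e] at this
  have e : g = x * (x⁻¹ * g) := by group
  rw [e]
  exact Subgroup.mul_mem _ ((le_sup_right : Cfsg.oddCore G ≤ _) hx) ((le_sup_left : Subgroup.normalizer (H : Set G) ≤ _) hN)

end Cfsg.Agent.S3017
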