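import Mathlib.GroupTheory.Transfer
import Cfsg.Statements.S3020
import Cfsg.Agent.Lib.H55.SylowBasic

set_option autoImplicit false
open Cfsg
namespace Cfsg.Agent.S3020

open H55.SylowBasic

theorem result {G : Type*} [Group G] [Finite G] {p : ℕ} [Fact p.Prime] (H : Subgroup G) (hHp : IsPGroup p H) (hHab : IsMulCommutative H) (hcl : Cfsg.IsExtremelyClosed H) (g : G) (T : Subgroup G) (hT : T = H ⊔ H.map (MulAut.conj g).toMonoidHom) : H ⊔ (Cfsg.pPrimeCore p ↥T).map T.subtype = T ∧ H ⊓ (Cfsg.pPrimeCore p ↥T).map T.subtype = ⊥ := by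
  have hHT : H ≤ T := by rw [hT]; exact le_sup_left
  have hN : T ⊓ Subgroup.normalizer (H : Set G) = H := by rw [hT]; exact hcl g
  -- Sylow subgroup of T containing H
  have hHTp : IsPGroup p (H.subgroupOf T) := hHp.comap_subtype
  obtain ⟨P, hP⟩ := hHTp.exists_le_sylow
  have hPH : (P : Subgroup T).map T.subtype = H := by
    have hle : H ≤ (P : Subgroup T).map T.subtype := by
      intro x hx
      exact ⟨⟨x, hHT hx⟩, hP (by simpa [Subgroup.mem_subgroupOf] using hx), rfl⟩
    by_contra hne
    have hlt : H < (P : Subgroup T).map T.subtype := lt_of_le_of_ne hle (Ne.symm hne)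
    obtain ⟨n, hn1, hn2, hn3⟩ := exists_mem_normalizer_notMem H _ (P.2.map T.subtype) hlt
    apply hn2
    rw [← hN]
    exact ⟨by obtain ⟨z, hz, rfl⟩ := hn1; exact z.2, hn3⟩
  have hmem : ∀ y : T, y ∈ (P : Subgroup T) ↔ (y : G) ∈ H := by
    intro y
    rw [← hPH]
    constructor
    · intro hy; exact ⟨y, hy, rfl⟩
    · rintro ⟨z, hz, hzy⟩
      have : z = y := Subtype.ext hzy
      rwa [← this]
  have key : Subgroup.normalizer ((P : Subgroup T) : Set T) ≤
      Subgroup.centralizer ((P : Subgroup T) : Set T) := by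
    intro n hn
    have h1 : (n : G) ∈ Subgroup.normalizer (H : Set G) := by
      apply mem_normalizer_of_forall
      intro x hx
      have := (Subgroup.mem_normalizer_iff.1 hn ⟨x, hHT hx⟩).1 ((hmem _).2 hx)
      simpa using (hmem _).1 this
    have h2 : (n : G) ∈ H := by
      rw [← hN]; exact ⟨n.2, h1⟩
    rw [Subgroup.mem_centralizer_iff]
    intro y hy
    have hy' : (y : G) ∈ H := (hmem y).1 hy
    have h3 : (⟨y, hy'⟩ : H) * ⟨n, h2⟩ = ⟨n, h2⟩ * ⟨y, hy'⟩ := hHab.1.1 _ _
    have h4 : (y : G) * (n : G) = (n : G) * (y : G) := congrArg Subtype.val h3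
    exact Subtype.ext h4
  have hcompl := MonoidHom.ker_transferSylow_isComplement' P key
  set K := (MonoidHom.transferSylow P key).ker with hK
  have hKn : K.Normal := inferInstance
  have hKp : (Nat.card K).Coprime p := by
    rw [Nat.coprime_comm, Nat.Prime.coprime_iff_not_dvd Fact.out]
    exact MonoidHom.not_dvd_card_ker_transferSylow P key
  have hKle : K ≤ Cfsg.pPrimeCore p T := le_sSup ⟨hKn, hKp⟩
  -- any normal p'-subgroup is in K
  have hcore : Cfsg.pPrimeCore p T = K := by
    refine le_antisymm (sSup_le ?_) hKle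
    rintro M ⟨hMn, hMp⟩
    -- image in T/K, which is a p-group
    have h1 : (M.map (QuotientGroup.mk' K)) = ⊥ := by
      rw [← Subgroup.card_eq_one]
      have h2 : Nat.card (M.map (QuotientGroup.mk' K)) ∣ Nat.card M := Subgroup.card_map_dvd _ _
      have h3 : Nat.card (M.map (QuotientGroup.mk' K)) ∣ Nat.card P := by
        have h4 := Subgroup.card_subgroup_dvd_card (M.map (QuotientGroup.mk' K))
        have h5 : Nat.card (T ⧸ K) = Nat.card P := by
          have := hcompl.symm.index_eq_card
          exact this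
        rwa [h5] at h4
      obtain ⟨k, hk⟩ := IsPGroup.iff_card.1 P.2
      have h3' : Nat.card (M.map (QuotientGroup.mk' K)) ∣ p ^ k := by
        rw [← hk]; exact h3
      exact Nat.eq_one_of_dvd_coprimes (Nat.Coprime.pow_right k hMp) h2 h3'
    rw [Subgroup.map_eq_bot_iff, QuotientGroup.ker_mk'] at h1
    exact h1
  rw [hcore]
  constructor
  · apply le_antisymm (sup_le hHT (Subgroup.map_subtype_le _))
    rw [← hPH, ← Subgroup.map_sup]
    have h1 := hcompl.symm.sup_eq_top
    rw [h1, ← MonoidHom.range_eq_map, Subgroup.range_subtype]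
  · rw [← hPH, ← Subgroup.map_inf _ _ _ T.subtype_injective]
    have h1 := hcompl.symm.disjoint.eq_bot
    rw [h1, Subgroup.map_bot]

end Cfsg.Agent.S3020
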