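import Cfsg.Statements.S3021
import Cfsg.Agent.Lib.H55.SylowBasic

set_option autoImplicit false
open Cfsg
namespace Cfsg.Agent.S3021

open H55.SylowBasic

theorem normalizer_part {G : Type*} [Group G] [Finite G] {p : ℕ} [Fact p.Prime] (H : Subgroup G)
    (hcl : Cfsg.IsExtremelyClosed H) (Q : Subgroup G) (hQ : IsPGroup p Q) (hHQ : H ≤ Q) :
    Subgroup.normalizer (Q : Set G) ≤ Subgroup.normalizer (H : Set G) := by
  intro g hg
  have h1 : H.map (MulAut.conj g).toMonoidHom ≤ Q := by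
    rintro _ ⟨x, hx, rfl⟩
    exact (Subgroup.mem_normalizer_iff.1 hg x).1 (hHQ hx)
  have h2 : H ⊔ H.map (MulAut.conj g).toMonoidHom ≤ Q := sup_le hHQ h1
  have h3 : H ⊔ H.map (MulAut.conj g).toMonoidHom = H := by
    by_contra hne
    have hlt : H < H ⊔ H.map (MulAut.conj g).toMonoidHom :=
      lt_of_le_of_ne le_sup_left (Ne.symm hne)
    obtain ⟨n, hn1, hn2, hn3⟩ := exists_mem_normalizer_notMem H _ (hQ.to_le h2) hlt
    apply hn2
    rw [← hcl g]
    exact ⟨hn1, hn3⟩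
  have h4 : H.map (MulAut.conj g).toMonoidHom ≤ H :=
    le_trans le_sup_right h3.le
  apply mem_normalizer_of_forall
  intro x hx
  exact h4 ⟨x, hx, rfl⟩

theorem result {G : Type*} [Group G] [Finite G] {p : ℕ} [Fact p.Prime] (H : Subgroup G) (hHp : IsPGroup p H) (hcl : Cfsg.IsExtremelyClosed H) : (∀ Q : Subgroup G, IsPGroup p Q → H ≤ Q → Subgroup.normalizer (Q : Set G) ≤ Subgroup.normalizer (H : Set G)) ∧ ∀ P : Sylow p G, H ≤ (P : Subgroup G) → (P : Subgroup G) ≤ Subgroup.normalizer (H : Set G) ∧ Cfsg.IsStronglyClosed H (P : Subgroup G) := by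
  refine ⟨fun Q hQ hHQ => normalizer_part H hcl Q hQ hHQ, fun P hHP => ?_⟩
  have h1 : (P : Subgroup G) ≤ Subgroup.normalizer (H : Set G) :=
    Subgroup.le_normalizer.trans (normalizer_part H hcl P P.2 hHP)
  refine ⟨h1, hHP, fun x hx g hg => ?_⟩
  rw [← hcl g]
  exact ⟨Subgroup.mem_sup_right ⟨x, hx, rfl⟩, h1 hg⟩

end Cfsg.Agent.S3021
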