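import Cfsg.Statements.S3023
import Cfsg.Agent.Lib.H55.CharPSub
import Cfsg.Agent.S0542

set_option autoImplicit false
open scoped Pointwise
open Cfsg

namespace Cfsg.Agent.S3023

open Subgroup H53.CharP

theorem result {G : Type*} [Group G] [Finite G] {p : ℕ} [Fact p.Prime] (hG : Cfsg.IsOfParabolicCharacteristic p G) (S : Sylow p G) (G₁ : Subgroup G) (hsn : G₁.IsSubnormal) (hne : ((S : Subgroup G) ⊓ G₁) ⊓ Subgroup.centralizer (((S : Subgroup G) ⊓ G₁ : Subgroup G) : Set G) ≠ ⊥) (hle : ((S : Subgroup G) ⊓ G₁) ⊓ Subgroup.centralizer (((S : Subgroup G) ⊓ G₁ : Subgroup G) : Set G) ≤ (S : Subgroup G) ⊓ Subgroup.centralizer ((S : Subgroup G) : Set G)) : Cfsg.IsOfParabolicCharacteristic p ↥G₁ := by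
  intro R hR hR1 ⟨T, hT⟩
  rw [← cp_iff]
  apply H55.CharPSub.of_map G₁.subtype (Subgroup.subtype_injective _)
  set R' := R.map G₁.subtype with hR'
  set L := G₁ ⊓ normalizer (R' : Set G) with hL
  have hR'G : R' ≤ G₁ := by rintro _ ⟨y, _, rfl⟩; exact y.2
  have hRR' : R'.subgroupOf G₁ = R := Subgroup.comap_map_eq_self_of_injective (Subgroup.subtype_injective _) R
  have hmapL : (normalizer (R : Set G₁)).map G₁.subtype = L := by
    rw [← hRR', ← Subgroup.subgroupOf_normalizer_eq hR'G, Subgroup.subgroupOf_map_subtype, inf_comm]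
  rw [hmapL]
  -- the Sylow subgroup `T` in the ambient group
  obtain ⟨P, hP⟩ := Cfsg.Agent.S0542.result p G₁ hsn S
  obtain ⟨g, hg⟩ := MulAction.exists_smul_eq G₁ P T
  have hTmem : ∀ x : G₁, x ∈ (T : Subgroup G₁) ↔ (g : G)⁻¹ * x * g ∈ (S : Subgroup G) := by
    intro x
    rw [← hg, Sylow.smul_def, Sylow.pointwise_smul_def, Subgroup.mem_pointwise_smul_iff_inv_smul_mem,
      hP, Subgroup.mem_subgroupOf]
    simp [MulAut.smul_def]
  set T' := (T : Subgroup G₁).map G₁.subtype with hT'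
  have hT'p : IsPGroup p T' := T.2.map _
  have hT'G : T' ≤ G₁ := by rintro _ ⟨y, _, rfl⟩; exact y.2
  have hT'L : T' ≤ L := by
    rw [← hmapL]; exact Subgroup.map_mono hT
  set P₁ := pCoreOf p L with hP₁
  have hP₁L : P₁ ≤ L := H53.Amb.pCoreOf_le p L
  have hLP₁ : L ≤ normalizer (P₁ : Set G) := H53.Amb.le_normalizer_pCoreOf p L
  have hP₁p : IsPGroup p P₁ := H53.Amb.isPGroup_pCoreOf p L
  have hR'P₁ : R' ≤ P₁ := by
    apply H53.Amb.le_pCoreOf
    · exact le_inf hR'G Subgroup.le_normalizer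
    · exact inf_le_right
    · exact hR.map _
  have hP₁T' : P₁ ≤ T' := by
    have hP₁G : P₁ ≤ G₁ := hP₁L.trans inf_le_left
    have h1 : (T : Subgroup G₁) ≤ normalizer (P₁.subgroupOf G₁ : Set G₁) := by
      rw [← Subgroup.subgroupOf_normalizer_eq hP₁G, ← Subgroup.map_subtype_le_map_subtype,
        Subgroup.subgroupOf_map_subtype]
      exact le_inf (hT'L.trans hLP₁) hT'G
    have h2 : IsPGroup p (P₁.subgroupOf G₁) :=
      hP₁p.comap_of_injective _ (Subgroup.subtype_injective _)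
    have h3 := IsPGroup.to_sup_of_normal_right' T.2 h2 h1
    have h4 := T.3 h3 le_sup_left
    intro x hx
    refine ⟨⟨x, hP₁G hx⟩, ?_, rfl⟩
    rw [← h4]
    exact Subgroup.mem_sup_right (by rwa [Subgroup.mem_subgroupOf])
  have hP₁1 : P₁ ≠ ⊥ := by
    intro h
    apply hR1
    rw [h, le_bot_iff, hR', Subgroup.map_eq_bot_iff_of_injective _ (Subgroup.subtype_injective _)] at hR'P₁
    exact hR'P₁
  obtain ⟨z, hzP₁, hz1, hzc⟩ := H55.CharPSub.exists_central hT'p hP₁T' (hT'L.trans hLP₁) hP₁1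
  -- `N_G(⟨z⟩)` is parabolic
  set N := normalizer (zpowers z : Set G) with hN
  have hzT' : z ∈ T' := hP₁T' hzP₁
  have hzS : ∀ s ∈ (S : Subgroup G), (g : G) * s * (g : G)⁻¹ * z = z * ((g : G) * s * (g : G)⁻¹) := by
    have h1 : (g : G)⁻¹ * z * g ∈ ((S : Subgroup G) ⊓ G₁) ⊓
        Subgroup.centralizer (((S : Subgroup G) ⊓ G₁ : Subgroup G) : Set G) := by
      obtain ⟨y, hy, rfl⟩ := hzT'
      refine Subgroup.mem_inf.mpr ⟨Subgroup.mem_inf.mpr ⟨(hTmem y).mp hy, ?_⟩, ?_⟩
      · exact (g⁻¹ * y * g).2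
      · rw [Subgroup.mem_centralizer_iff]
        intro w hw
        have hwG : (g : G) * w * (g : G)⁻¹ ∈ G₁ := G₁.mul_mem (G₁.mul_mem g.2 hw.2) (G₁.inv_mem g.2)
        have h2 : (g : G) * w * (g : G)⁻¹ ∈ T' := by
          refine ⟨⟨_, hwG⟩, (hTmem _).mpr ?_, rfl⟩
          show (g : G)⁻¹ * ((g : G) * w * (g : G)⁻¹) * g ∈ _
          have : (g : G)⁻¹ * ((g : G) * w * (g : G)⁻¹) * g = w := by group
          rw [this]; exact hw.1
        have h3 := hzc _ h2
        calc w * ((g : G)⁻¹ * (G₁.subtype y) * g)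
            = (g : G)⁻¹ * (((g : G) * w * (g : G)⁻¹) * G₁.subtype y) * g := by group
          _ = (g : G)⁻¹ * (G₁.subtype y * ((g : G) * w * (g : G)⁻¹)) * g := by rw [h3]
          _ = (g : G)⁻¹ * (G₁.subtype y) * g * w := by group
    have h4 := (Subgroup.mem_inf.mp (hle h1)).2
    intro s hs
    have h5 := Subgroup.mem_centralizer_iff.mp h4 s hs
    calc (g : G) * s * (g : G)⁻¹ * z = g * (s * ((g : G)⁻¹ * z * g)) * (g : G)⁻¹ := by group
      _ = g * ((g : G)⁻¹ * z * g * s) * (g : G)⁻¹ := by rw [h5]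
      _ = z * ((g : G) * s * (g : G)⁻¹) := by group
  have hcz : ∀ x : G, x * z = z * x → x ∈ N := by
    intro x hx
    apply Subgroup.centralizer_le_normalizer
    rw [Subgroup.mem_centralizer_iff]
    intro y hy
    obtain ⟨k, rfl⟩ := Subgroup.mem_zpowers_iff.mp hy
    exact (Commute.zpow_right hx k).symm
  have hCPN : CP p N := by
    rw [cp_iff]
    apply hG (zpowers z)
    · exact hT'p.to_le (by rwa [Subgroup.zpowers_le])
    · rwa [Ne, Subgroup.zpowers_eq_bot]
    · refine ⟨(g : G) • S, ?_⟩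
      intro y hy
      apply hcz
      rw [Sylow.smul_def, Sylow.pointwise_smul_def, Subgroup.mem_pointwise_smul_iff_inv_smul_mem] at hy
      have := hzS _ hy
      simpa [MulAut.smul_def, mul_assoc] using this
  -- `D = G₁ ∩ N` has characteristic `p`
  have hD : CP p (G₁ ⊓ N) := by
    have := H55.CharPSub.of_subnormal hCPN (G₁.subgroupOf N) hsn.subgroupOf
    rwa [Subgroup.subgroupOf_map_subtype] at this
  have hR'D : R' ≤ G₁ ⊓ N := by
    refine le_inf hR'G fun x hx => hcz x ?_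
    exact hzc x (hP₁T' (hR'P₁ hx))
  have hND := hD.inf_normalizer (hR.map _ : IsPGroup p R') hR'D
  set C := L ⊓ centralizer (P₁ : Set G) with hC
  have hLC : L ≤ normalizer (C : Set G) := centralizer_inf_normalizer hLP₁
  have hNDL : G₁ ⊓ N ⊓ normalizer (R' : Set G) ≤ L := inf_le_inf_right _ inf_le_left
  have hCND : C ≤ G₁ ⊓ N ⊓ normalizer (R' : Set G) := by
    refine le_inf (le_inf (inf_le_left.trans inf_le_left) ?_) (inf_le_left.trans inf_le_right)
    intro x hx
    apply hcz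
    exact (Subgroup.mem_centralizer_iff.mp hx.2 z hzP₁).symm
  have hCPC : CP p C := hND.of_normal hCND (hNDL.trans hLC)
  have h1 : pCoreOf p C ≤ P₁ := by
    apply H53.Amb.le_pCoreOf ((H53.Amb.pCoreOf_le p C).trans inf_le_left)
    · exact hLC.trans (H53.Amb.normalizer_le_normalizer_pCoreOf p C)
    · exact H53.Amb.isPGroup_pCoreOf p C
  have h2 : C ≤ pCoreOf p C := by
    refine le_trans (le_inf le_rfl ?_) hCPC
    exact inf_le_right.trans (Subgroup.centralizer_le h1)
  exact h2.trans h1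

end Cfsg.Agent.S3023
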