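import Cfsg.Statements.S3025
import Cfsg.Agent.S0016
import Cfsg.Agent.Lib.H55.FrobWielandt

set_option autoImplicit false
open Cfsg

namespace Cfsg.Agent.S3025

open Subgroup H55.FW

theorem part_simple {F : Type*} [Group F] [Finite F] (H : Subgroup F) (hH : H ≠ ⊥)
    (hmin : ∀ R : Subgroup F, R ≠ ⊥ → H ≤ Subgroup.normalizer (R : Set F) → H ≤ R) :
    IsSimpleGroup ↥(normalClosure (H : Set F)) := by
  set N := normalClosure (H : Set F) with hN
  have hHN : H ≤ N := subset_normalClosure
  have hNn : N.Normal := normalClosure_normal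
  have hN1 : N ≠ ⊥ := fun h => hH (le_bot_iff.mp (h ▸ hHN))
  have : Nontrivial N := (Subgroup.nontrivial_iff_ne_bot N).mpr hN1
  refine ⟨fun A hA => ?_⟩
  by_cases hA1 : A = ⊥
  · exact Or.inl hA1
  right
  set A' := A.map N.subtype with hA'
  have hA'n : ∀ n ∈ N, ∀ a ∈ A', n * a * n⁻¹ ∈ A' := by
    rintro n hn _ ⟨a, ha, rfl⟩
    exact ⟨⟨n, hn⟩ * a * ⟨n, hn⟩⁻¹, hA.conj_mem a ha _, rfl⟩
  have hA'1 : A' ≠ ⊥ := by
    rw [hA', Ne, Subgroup.map_eq_bot_iff_of_injective _ (Subgroup.subtype_injective _)]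
    exact hA1
  have hconj : ∀ f : F, H ≤ A'.map (MulAut.conj f).toMonoidHom := by
    intro f
    apply hmin
    · rw [Ne, Subgroup.map_eq_bot_iff_of_injective _ (MulAut.conj f).injective]
      exact hA'1
    · intro h hh
      apply H55.SylowBasic.mem_normalizer_of_forall
      intro x hx
      rw [mem_map_conj] at hx ⊢
      have h1 : f⁻¹ * h * f ∈ N := by
        have := hNn.conj_mem h (hHN hh) f⁻¹
        simpa using this
      have e : f⁻¹ * (h * x * h⁻¹) * f = (f⁻¹ * h * f) * (f⁻¹ * x * f) * (f⁻¹ * h * f)⁻¹ := by group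
      rw [e]
      exact hA'n _ h1 _ hx
  have hNA : N ≤ A' := by
    rw [hN, Subgroup.normalClosure, Subgroup.closure_le]
    intro y hy
    obtain ⟨h, hh, hyh⟩ := Group.mem_conjugatesOfSet_iff.mp hy
    obtain ⟨c, hc⟩ := isConj_iff.mp hyh
    have := hconj c⁻¹ hh
    rw [mem_map_conj] at this
    rw [SetLike.mem_coe, ← hc]
    simpa using this
  rw [eq_top_iff]
  rintro x -
  obtain ⟨y, hy, hyx⟩ := hNA x.2
  have : y = x := Subtype.ext hyx
  rwa [← this]

theorem part_cyclic {F : Type*} [Group F] [Finite F] (N : Subgroup F) [N.Normal]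
    (hp : (Nat.card N).Prime) :
    (∃ g : F, Subgroup.centralizer (N : Set F) ⊔ Subgroup.zpowers g = ⊤) ∧
          (Subgroup.centralizer (N : Set F)).index ∣ Nat.card N - 1 := by
  have : Fact (Nat.card N).Prime := ⟨hp⟩
  have hcyc : IsCyclic N := isCyclic_of_prime_card rfl
  let e := IsCyclic.mulAutMulEquiv N
  have hcA : IsCyclic (MulAut N) := isCyclic_of_injective e.toMonoidHom e.injective
  let ϕ : F →* MulAut N := MulAut.conjNormal
  have hker : ϕ.ker = centralizer (N : Set F) := by
    ext x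
    rw [MonoidHom.mem_ker, mem_centralizer_iff]
    constructor
    · intro h n hn
      have h1 : ϕ x ⟨n, hn⟩ = ⟨n, hn⟩ := by rw [h]; rfl
      have h2 : x * n * x⁻¹ = n := by
        have := congrArg Subtype.val h1
        rwa [MulAut.conjNormal_apply] at this
      calc n * x = x * n * x⁻¹ * x := by rw [h2]
        _ = x * n := by group
    · intro h
      ext ⟨n, hn⟩
      rw [MulAut.conjNormal_apply]
      show x * n * x⁻¹ = n
      rw [← h n hn]; group
  constructor
  · have : IsCyclic ϕ.range := inferInstance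
    obtain ⟨⟨_, g, rfl⟩, hg⟩ := this.exists_generator
    refine ⟨g, ?_⟩
    rw [eq_top_iff]
    rintro f -
    obtain ⟨i, hi⟩ := Subgroup.mem_zpowers_iff.mp (hg ⟨ϕ f, f, rfl⟩)
    have hi' : ϕ g ^ i = ϕ f := by simpa [Subtype.ext_iff] using hi
    have : f = (f * (g ^ i)⁻¹) * g ^ i := by group
    rw [this]
    refine Subgroup.mul_mem _ (Subgroup.mem_sup_left ?_)
      (Subgroup.mem_sup_right (Subgroup.zpow_mem _ (Subgroup.mem_zpowers g) i))
    rw [← hker, MonoidHom.mem_ker, map_mul, map_inv, map_zpow, hi', mul_inv_cancel]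
  · rw [← hker, Subgroup.index_ker]
    have h1 : Nat.card (MulAut N) = Nat.card N - 1 := by
      rw [IsCyclic.card_mulAut, Nat.totient_prime hp]
    rw [← h1]
    exact Subgroup.card_subgroup_dvd_card _

/-- Let F be a finite group and H a nontrivial subgroup of F that is contained in every nontrivial subgroup of F which H normalizes. Then F has a nontrivial normal subgroup N contained in every nontrivial normal subgroup of F (a unique minimal normal subgroup), N is simple, and one of the following holds: C_F(N) = 1; or H = N has prime order p, C_F(N) is cyclic of order a power of p, and F/C_F(N) is cyclic of order dividing p − 1; or H = N has order 2, N is central in F, and F is a generalized quaternion group. -/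
theorem result {F : Type*} [Group F] [Finite F] (H : Subgroup F) (hH : H ≠ ⊥)
    (hmin : ∀ R : Subgroup F, R ≠ ⊥ → H ≤ Subgroup.normalizer (R : Set F) → H ≤ R) :
    ∃ N : Subgroup F, N.Normal ∧ N ≠ ⊥ ∧ (∀ M : Subgroup F, M.Normal → M ≠ ⊥ → N ≤ M) ∧ IsSimpleGroup ↥N ∧
      (Subgroup.centralizer (N : Set F) = ⊥ ∨
       (H = N ∧ (Nat.card N).Prime ∧ IsCyclic ↥(Subgroup.centralizer (N : Set F)) ∧
          (∃ k : ℕ, 1 ≤ k ∧ Nat.card ↥(Subgroup.centralizer (N : Set F)) = Nat.card N ^ k) ∧
          (∃ g : F, Subgroup.centralizer (N : Set F) ⊔ Subgroup.zpowers g = ⊤) ∧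
          (Subgroup.centralizer (N : Set F)).index ∣ Nat.card N - 1) ∨
       (H = N ∧ Nat.card N = 2 ∧ Subgroup.centralizer (N : Set F) = ⊤ ∧
          ∃ k : ℕ, 1 ≤ k ∧ Nonempty (F ≃* QuaternionGroup (2 ^ k)))) := by
  have hsimple := part_simple H hH hmin
  set N := normalClosure (H : Set F) with hN
  have hHN : H ≤ N := subset_normalClosure
  have hNn : N.Normal := normalClosure_normal
  have hN1 : N ≠ ⊥ := fun h => hH (le_bot_iff.mp (h ▸ hHN))
  have hleast : ∀ M : Subgroup F, M.Normal → M ≠ ⊥ → N ≤ M := by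
    intro M hM hM1
    apply normalClosure_le_normal
    apply hmin M hM1
    rw [Subgroup.normalizer_eq_top_iff.mpr hM]
    exact le_top
  refine ⟨N, hNn, hN1, hleast, hsimple, ?_⟩
  set C := centralizer (N : Set F) with hC
  by_cases hC1 : C = ⊥
  · exact Or.inl hC1
  right
  have hCn : C.Normal := Subgroup.normal_centralizer
  have hNC : N ≤ C := hleast C hCn hC1
  have hNcomm : IsMulCommutative N := by
    refine ⟨⟨?_⟩⟩
    rintro ⟨a, ha⟩ ⟨b, hb⟩
    have := Subgroup.mem_centralizer_iff.mp (hNC ha) b hb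
    exact Subtype.ext this.symm
  have hprime : (Nat.card N).Prime := by
    exact Group.is_simple_iff_prime_card.mp hsimple
  have hfp : Fact (Nat.card N).Prime := ⟨hprime⟩
  have hHeq : H = N := by
    have h1 : H.subgroupOf N = ⊥ ∨ H.subgroupOf N = ⊤ :=
      (H.subgroupOf N).eq_bot_or_eq_top_of_prime_card
    rcases h1 with h1 | h1
    · exfalso
      apply hH
      rw [Subgroup.subgroupOf_eq_bot, disjoint_iff, inf_eq_left.mpr hHN] at h1
      exact h1
    · rw [Subgroup.subgroupOf_eq_top] at h1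
      exact le_antisymm hHN h1
  obtain ⟨p, hp⟩ : ∃ p, p = Nat.card N := ⟨_, rfl⟩
  have hsub : ∀ R : Subgroup F, R ≤ C → R ≠ ⊥ → N ≤ R := by
    intro R hR hR1
    rw [← hHeq]
    apply hmin R hR1
    refine le_trans ?_ (Subgroup.centralizer_le_normalizer _)
    rw [hHeq, Subgroup.le_centralizer_iff]
    exact hR
  have hCp : IsPGroup (Nat.card N) C := by
    obtain ⟨n, hn⟩ := Nat.exists_eq_pow_mul_and_not_dvd (Nat.card_pos (α := C)).ne' _ hprime.ne_one
    obtain ⟨m, hm, hcard⟩ := hn
    by_cases hm1 : m = 1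
    · subst hm1
      exact IsPGroup.of_card (n := n) (by rw [hcard, mul_one])
    · exfalso
      obtain ⟨q, hq, hqm⟩ := Nat.exists_prime_and_dvd hm1
      have : Fact q.Prime := ⟨hq⟩
      obtain ⟨x, hx⟩ := exists_prime_orderOf_dvd_card' (G := C) q (hcard ▸ dvd_mul_of_dvd_right hqm _)
      have hxo : orderOf (x : F) = q := by rw [← hx]; exact Subgroup.orderOf_coe x
      have h1 := hsub (zpowers (x : F)) (by rw [Subgroup.zpowers_le]; exact x.2) (by
        rw [Ne, Subgroup.zpowers_eq_bot]
        intro h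
        rw [h, orderOf_one] at hxo
        exact hq.one_lt.ne hxo)
      have h2 := Subgroup.card_dvd_of_le h1
      rw [Nat.card_zpowers, hxo, Nat.prime_dvd_prime_iff_eq hprime hq] at h2
      exact hm (h2 ▸ hqm)
  have huniq : ∀ K₁ K₂ : Subgroup C, Nat.card K₁ = Nat.card N → Nat.card K₂ = Nat.card N → K₁ = K₂ := by
    have key : ∀ K : Subgroup C, Nat.card K = Nat.card N → K.map C.subtype = N := by
      intro K hK
      have h1 : Nat.card (K.map C.subtype) = Nat.card N := by
        rw [Subgroup.card_map_of_injective (Subgroup.subtype_injective _), hK]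
      symm
      apply Subgroup.eq_of_le_of_card_ge
      · apply hsub
        · rintro _ ⟨y, _, rfl⟩; exact y.2
        · intro h
          rw [h, Subgroup.card_bot] at h1
          exact hprime.one_lt.ne h1
      · exact h1.le
    intro K₁ K₂ h1 h2
    apply Subgroup.map_injective (Subgroup.subtype_injective C)
    rw [key K₁ h1, key K₂ h2]
  obtain ⟨hgen, hind⟩ := part_cyclic N hprime
  have hcardC : ∃ k : ℕ, 1 ≤ k ∧ Nat.card C = Nat.card N ^ k := by
    obtain ⟨k, hk⟩ := IsPGroup.iff_card.mp hCp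
    refine ⟨k, ?_, hk⟩
    rcases Nat.eq_zero_or_pos k with h | h
    · rw [h, pow_zero] at hk
      exact absurd (Subgroup.card_eq_one.mp hk) hC1
    · exact h
  rcases Cfsg.Agent.S0016.result (Nat.card N) hCp huniq with hcyc | ⟨h2, n, ⟨e⟩⟩
  · left
    exact ⟨hHeq, hprime, hcyc, hcardC, hgen, hind⟩
  · rcases Nat.eq_zero_or_pos n with h | h
    · left
      subst h
      have : IsCyclic (QuaternionGroup (2 ^ 0)) := by
        rw [pow_zero]; exact QuaternionGroup.quaternionGroup_one_isCyclic
      exact ⟨hHeq, hprime, isCyclic_of_injective e.toMonoidHom e.injective, hcardC, hgen, hind⟩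
    · right
      have hCtop : C = ⊤ := by
        rw [← Subgroup.index_eq_one]
        have : Nat.card N - 1 = 1 := by rw [h2]
        rw [this] at hind
        exact Nat.dvd_one.mp hind
      refine ⟨hHeq, h2, hCtop, n, h, ⟨?_⟩⟩
      exact (Subgroup.topEquiv.symm.trans (MulEquiv.subgroupCongr hCtop.symm)).trans e

end Cfsg.Agent.S3025
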