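import Mathlib.Data.Set.Finite.Lemmas
import Cfsg.Statements.S3027

set_option autoImplicit false
open Cfsg
namespace Cfsg.Agent.S3027

theorem comm_sup {G : Type*} [Group G] (D B C : Subgroup G) [D.Normal]
    (hperf : ⁅(⊤ : Subgroup G), (⊤ : Subgroup G)⁆ ⊔ D = ⊤) (hB : B ⊔ D = ⊤) (hC : C ⊔ D = ⊤) :
    ⁅B, C⁆ ⊔ D = ⊤ := by
  have key : ∀ X : Subgroup G, X ⊔ D = ⊤ → X.map (QuotientGroup.mk' D) = ⊤ := by
    intro X hX
    have h1 : (X ⊔ D).map (QuotientGroup.mk' D) = ⊤ := by
      rw [hX, ← MonoidHom.range_eq_map, MonoidHom.range_eq_top]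
      exact QuotientGroup.mk'_surjective D
    have h2 : D.map (QuotientGroup.mk' D) = ⊥ := by
      rw [Subgroup.map_eq_bot_iff, QuotientGroup.ker_mk']
    rw [Subgroup.map_sup, h2, sup_bot_eq] at h1
    exact h1
  have h3 : (⁅B, C⁆).map (QuotientGroup.mk' D) = ⊤ := by
    rw [Subgroup.map_commutator, key B hB, key C hC]
    have h4 := key _ hperf
    rw [Subgroup.map_commutator, ← MonoidHom.range_eq_map,
      MonoidHom.range_eq_top.2 (QuotientGroup.mk'_surjective D)] at h4
    exact h4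
  have h5 := Subgroup.comap_map_eq (QuotientGroup.mk' D) ⁅B, C⁆
  rw [h3, QuotientGroup.ker_mk', Subgroup.comap_top] at h5
  exact h5.symm

/-- a nonempty inf-closed set of subgroups of a finite group has a least element -/
theorem exists_least {G : Type*} [Group G] [Finite G] (S : Set (Subgroup G)) (hne : S.Nonempty)
    (hinf : ∀ A ∈ S, ∀ B ∈ S, A ⊓ B ∈ S) : ∃ M ∈ S, ∀ B ∈ S, M ≤ B := by
  obtain ⟨M, hM, hmin⟩ := Set.exists_min_image S (fun H => Nat.card H) (Set.toFinite S) hne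
  refine ⟨M, hM, fun B hB => ?_⟩
  have h1 := hmin (M ⊓ B) (hinf M hM B hB)
  have h2 : M ⊓ B = M := Subgroup.eq_of_le_of_card_ge inf_le_left h1
  exact inf_eq_left.1 h2

theorem normal_in_subnormal {G : Type*} [Group G] [Finite G] (D : Subgroup G) [D.Normal]
    (hperf : ⁅(⊤ : Subgroup G), (⊤ : Subgroup G)⁆ ⊔ D = ⊤) (B : Subgroup G) (hB : B.IsSubnormal) :
    B ⊔ D = ⊤ → ∃ N : Subgroup G, N.Normal ∧ N ≤ B ∧ N ⊔ D = ⊤ := by
  induction hB with
  | top => exact fun _ => ⟨⊤, inferInstance, le_rfl, by simp⟩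
  | step H K h_le hSubn hN ih =>
    intro hH
    have hK : K ⊔ D = ⊤ := by
      rw [eq_top_iff, ← hH]; exact sup_le_sup_right h_le D
    obtain ⟨N, hNn, hNK, hND⟩ := ih hK
    have hHN : K ≤ Subgroup.normalizer (H : Set G) :=
      (Subgroup.normal_subgroupOf_iff_le_normalizer h_le).1 hN
    let S : Set (Subgroup G) := {B | B ≤ N ∧ N ≤ Subgroup.normalizer (B : Set G) ∧ B ⊔ D = ⊤}
    have hinf : ∀ A ∈ S, ∀ B ∈ S, A ⊓ B ∈ S := by
      rintro A ⟨hA1, hA2, hA3⟩ B ⟨hB1, hB2, hB3⟩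
      refine ⟨inf_le_left.trans hA1, ?_, ?_⟩
      · intro x hx
        have h1 := hA2 hx
        have h2 := hB2 hx
        rw [Subgroup.mem_normalizer_iff] at h1 h2 ⊢
        intro y
        rw [Subgroup.mem_inf, Subgroup.mem_inf, h1 y, h2 y]
      · rw [eq_top_iff, ← comm_sup D A B hperf hA3 hB3]
        refine sup_le_sup_right ?_ D
        rw [le_inf_iff]
        refine ⟨?_, ?_⟩
        · rw [← Subgroup.le_normalizer_iff_commutator_le_left]
          exact hB1.trans hA2
        · rw [← Subgroup.le_normalizer_iff_commutator_le_right]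
          exact hA1.trans hB2
    have hconj : ∀ A ∈ S, ∀ g : G, A.map (MulAut.conj g).toMonoidHom ∈ S := by
      rintro A ⟨hA1, hA2, hA3⟩ g
      have hNg : N.map (MulAut.conj g).toMonoidHom = N := Subgroup.Normal.map_conj_eq N g
      refine ⟨?_, ?_, ?_⟩
      · exact (Subgroup.map_mono hA1).trans hNg.le
      · rw [← hNg]
        refine (Subgroup.map_mono hA2).trans ?_
        exact Subgroup.le_normalizer_map _
      · have h1 : D.map (MulAut.conj g).toMonoidHom = D := Subgroup.Normal.map_conj_eq D g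
        have h2 : (A ⊔ D).map (MulAut.conj g).toMonoidHom = ⊤ := by
          rw [hA3, ← MonoidHom.range_eq_map, MonoidHom.range_eq_top]
          exact (MulAut.conj g).surjective
        rw [Subgroup.map_sup, h1] at h2
        exact h2
    have hHNS : H ⊓ N ∈ S := by
      refine ⟨inf_le_right, ?_, ?_⟩
      · intro x hx
        have h1 := hHN (hNK hx)
        have h2 : x ∈ Subgroup.normalizer (N : Set G) := Subgroup.le_normalizer hx
        rw [Subgroup.mem_normalizer_iff] at h1 h2 ⊢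
        intro y
        rw [Subgroup.mem_inf, Subgroup.mem_inf, h1 y, h2 y]
      · rw [eq_top_iff, ← comm_sup D H N hperf hH hND]
        refine sup_le_sup_right ?_ D
        rw [le_inf_iff]
        refine ⟨?_, ?_⟩
        · rw [← Subgroup.le_normalizer_iff_commutator_le_left]
          exact hNK.trans hHN
        · exact Subgroup.commutator_le_right _ _
    obtain ⟨M, hM, hleast⟩ := exists_least S ⟨_, hHNS⟩ hinf
    refine ⟨M, ?_, (hleast _ hHNS).trans inf_le_left, hM.2.2⟩
    rw [Subgroup.normal_iff_map_conj_eq]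
    intro g
    have h1 : M ≤ M.map (MulAut.conj g).toMonoidHom := hleast _ (hconj M hM g)
    refine (Subgroup.eq_of_le_of_card_ge h1 ?_).symm
    rw [Subgroup.card_map_of_injective (MulAut.conj g).injective]

theorem result {G : Type*} [Group G] [Finite G] (D : Subgroup G) [D.Normal] (hperf : ⁅(⊤ : Subgroup G), (⊤ : Subgroup G)⁆ ⊔ D = ⊤) :
    ∃ B : Subgroup G, B.Normal ∧ B ⊔ D = ⊤ ∧ ∀ B' : Subgroup G, B'.IsSubnormal → B' ⊔ D = ⊤ → B ≤ B' := by
  obtain ⟨M, hM, hleast⟩ := exists_least {B : Subgroup G | B.Normal ∧ B ⊔ D = ⊤}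
    ⟨⊤, inferInstance, by simp⟩ (by
      rintro A ⟨hA1, hA2⟩ B ⟨hB1, hB2⟩
      refine ⟨inferInstance, ?_⟩
      rw [eq_top_iff, ← comm_sup D A B hperf hA2 hB2]
      exact sup_le_sup_right (Subgroup.commutator_le_inf A B) D)
  refine ⟨M, hM.1, hM.2, fun B' hB' hBD => ?_⟩
  obtain ⟨N, hN1, hN2, hN3⟩ := normal_in_subnormal D hperf B' hB' hBD
  exact (hleast N ⟨hN1, hN3⟩).trans hN2

end Cfsg.Agent.S3027
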