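import Cfsg.Statements.S3038
import Mathlib
import Cfsg.Agent.S3049
import Cfsg.Agent.Lib.H56.Rk2j

set_option autoImplicit false
open Cfsg

namespace Cfsg.Agent.S3038

/-- Let G be a finite group and p an odd prime with O_{p'}(G) = 1. Suppose that G has p-rank at most 2 and that some element x of order p is isolated in G and not central. Then F*(G) is a non-abelian simple group, and for every Sylow p-subgroup P of F*(G), either no conjugate of x lies in P and P is cyclic, or some conjugate of x lies in P and either P is extraspecial of order p³ and exponent p, or p = 3 and P has order 3^{2k+1} for some k ≥ 2 and is of maximal class (nilpotency class 2k). Since O_{p'}(G) = 1, such an x is not central modulo O_{p'}(G): the hypotheses describe a counterexample to the Z*_p statement in p-rank at most 2, and the conclusion records the structure it would have. -/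
theorem result {G : Type*} [Group G] [Finite G] {p : ℕ} [Fact p.Prime] (hp : p ≠ 2) (hcore : Cfsg.pPrimeCore p G = ⊥)
    (hrank : Cfsg.PRankLE p 2 G) (x : G) (hx : orderOf x = p) (hiso : Cfsg.IsIsolated x) (hnc : x ∉ Subgroup.center G) :
    IsSimpleGroup ↥(Cfsg.generalizedFittingSubgroup G) ∧ ¬ IsMulCommutative ↥(Cfsg.generalizedFittingSubgroup G) ∧
    ∀ P : Sylow p ↥(Cfsg.generalizedFittingSubgroup G),
      ((∀ g : G, g * x * g⁻¹ ∉ ((P : Subgroup ↥(Cfsg.generalizedFittingSubgroup G)).map (Cfsg.generalizedFittingSubgroup G).subtype)) ∧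
          IsCyclic ↥(P : Subgroup ↥(Cfsg.generalizedFittingSubgroup G))) ∨
      ((∃ g : G, g * x * g⁻¹ ∈ ((P : Subgroup ↥(Cfsg.generalizedFittingSubgroup G)).map (Cfsg.generalizedFittingSubgroup G).subtype)) ∧
        ((Cfsg.IsExtraspecial p ↥(P : Subgroup ↥(Cfsg.generalizedFittingSubgroup G)) ∧
            Nat.card (P : Subgroup ↥(Cfsg.generalizedFittingSubgroup G)) = p ^ 3 ∧
            ∀ y ∈ (P : Subgroup ↥(Cfsg.generalizedFittingSubgroup G)), y ^ p = 1) ∨
         (p = 3 ∧ ∃ k : ℕ, 2 ≤ k ∧ Nat.card (P : Subgroup ↥(Cfsg.generalizedFittingSubgroup G)) = 3 ^ (2 * k + 1) ∧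
            ∃ _ : Group.IsNilpotent ↥(P : Subgroup ↥(Cfsg.generalizedFittingSubgroup G)),
              Group.nilpotencyClass ↥(P : Subgroup ↥(Cfsg.generalizedFittingSubgroup G)) = 2 * k))) := by
  obtain ⟨h1, h2⟩ := Cfsg.Agent.S3049.result hp hcore hrank x hx hiso hnc
  exact ⟨h1, h2, fun P => H56.Rk2.isolated_main hp hrank x hx hiso _ h1 h2 P⟩

end Cfsg.Agent.S3038
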