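import Cfsg.Statements.S3044
import Mathlib
import Cfsg.Agent.Lib.H56.Iso4

set_option autoImplicit false
open Cfsg

namespace Cfsg.Agent.S3044

/-- Let G be a finite group, p a prime, S a Sylow p-subgroup of G and P a p-minimal subgroup of G containing S (S is not normal in P and lies in exactly one maximal subgroup of P). Let L be the subgroup generated by N_G(S) and all p-minimal subgroups of G containing S other than P, and suppose P is isolated: O_p(L) is not contained in O_p(P). Put Y for the normal closure of O^p(P) in G. Then G = YL; P is again isolated in the subgroup YS (the subgroup L₀ generated by N_{YS}(S) and the p-minimal subgroups of YS containing S other than P has O_p(L₀) not contained in O_p(P)); and either Y = O^p(P), or p divides |Y/O_p(Y)|, Y/O_p(Y) is generated by its components (a central product of quasisimple groups), and S permutes these components transitively by conjugation. -/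
theorem result {G : Type*} [Group G] [Finite G] {p : ℕ} [Fact p.Prime] (S : Sylow p G) (P : Subgroup G) (hSP : (S : Subgroup G) ≤ P) (hPmin : Cfsg.IsPMinimal p ↥P)
    (L Y : Subgroup G)
    (hL : L = Subgroup.normalizer ((S : Subgroup G) : Set G) ⊔ ⨆ P' : {P' : Subgroup G // (S : Subgroup G) ≤ P' ∧ Cfsg.IsPMinimal p ↥P' ∧ P' ≠ P}, (P' : Subgroup G))
    (hiso : ¬ (Cfsg.pCore p ↥L).map L.subtype ≤ (Cfsg.pCore p ↥P).map P.subtype)
    (hY : Y = Subgroup.normalClosure (((Cfsg.pResidual p ↥P).map P.subtype : Subgroup G) : Set G)) :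
    Y ⊔ L = ⊤ ∧
    ¬ (Cfsg.pCore p ↥((Subgroup.normalizer ((S : Subgroup G) : Set G) ⊓ (Y ⊔ (S : Subgroup G))) ⊔
          ⨆ P' : {P' : Subgroup G // (S : Subgroup G) ≤ P' ∧ P' ≤ Y ⊔ (S : Subgroup G) ∧ Cfsg.IsPMinimal p ↥P' ∧ P' ≠ P}, (P' : Subgroup G))).map
        (Subgroup.subtype _) ≤ (Cfsg.pCore p ↥P).map P.subtype ∧
    ((Cfsg.pResidual p ↥P).map P.subtype = Y ∨
     ∃ _ : (Cfsg.pCore p ↥Y).Normal,
       p ∣ Nat.card (↥Y ⧸ Cfsg.pCore p ↥Y) ∧ Cfsg.layer (↥Y ⧸ Cfsg.pCore p ↥Y) = ⊤ ∧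
       ∀ K₁ K₂ : Subgroup (↥Y ⧸ Cfsg.pCore p ↥Y), Cfsg.IsComponent K₁ → Cfsg.IsComponent K₂ →
         ∃ s ∈ (S : Subgroup G), ((K₂.comap (QuotientGroup.mk' (Cfsg.pCore p ↥Y))).map Y.subtype) = (((K₁.comap (QuotientGroup.mk' (Cfsg.pCore p ↥Y))).map Y.subtype)).map (MulAut.conj s).toMonoidHom) := by
  have h : H56.Iso.Setup S P L := ⟨hSP, hPmin, hL, hiso⟩
  have hYn := H56.Iso.Setup.Y_normal hY
  refine ⟨h.Y_sup_L hY, ?_, ?_⟩
  · set L₀ : Subgroup G := (Subgroup.normalizer ((S : Subgroup G) : Set G) ⊓ (Y ⊔ (S : Subgroup G))) ⊔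
          ⨆ P' : {P' : Subgroup G // (S : Subgroup G) ≤ P' ∧ P' ≤ Y ⊔ (S : Subgroup G) ∧ Cfsg.IsPMinimal p ↥P' ∧ P' ≠ P}, (P' : Subgroup G) with hL₀
    intro h1
    apply hiso
    refine le_trans ?_ h1
    have hL₀L : L₀ ≤ L := by
      refine sup_le (inf_le_left.trans h.norm_le) (iSup_le ?_)
      rintro ⟨P', a1, a2, a3, a4⟩
      exact h.pmin_le a1 a3 a4
    have hSL₀ : (S : Subgroup G) ≤ L₀ := (le_inf Subgroup.le_normalizer le_sup_right).trans le_sup_left
    exact H26.LocalFitting.le_pc (h.Q_le.trans hSL₀) (hL₀L.trans (H26.LocalFitting.le_normalizer_pc p L))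
      (H26.LocalFitting.isPGroup_pc p L)
  · by_cases hd : p ∣ (Cfsg.pCore p ↥Y).index
    · right
      refine ⟨inferInstance, hd, ?_, ?_⟩
      · rcases h.layer_or hY with h1 | h1
        · exact h1
        · exact absurd hd h1.2
      · intro K₁ K₂ hK₁ hK₂
        refine h.trans hY ?_ hK₁ hK₂
        rcases h.layer_or hY with h1 | h1
        · exact h1
        · exact absurd hd h1.2
    · left
      exact (h.pprime hY hd).1

end Cfsg.Agent.S3044
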