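import Cfsg.Statements.S3045
import Mathlib
import Cfsg.Agent.Lib.H56.Iso4

set_option autoImplicit false
open Cfsg

namespace Cfsg.Agent.S3045

/-- Let G be a finite group, p a prime, S a Sylow p-subgroup of G and P a p-minimal subgroup of G containing S. Let L be the subgroup generated by N_G(S) and all p-minimal subgroups of G containing S other than P, and suppose O_p(L) is not contained in O_p(P). Put Y for the normal closure of O^p(P) in G. Then O^p(P) is contained in the preimage in G of F*(G/O_p(G)); and if Y is solvable, then Y = O^p(P) and Y/O_p(Y) is a t-group of nilpotency class at most 2 for some prime t ≠ p. -/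
theorem result {G : Type*} [Group G] [Finite G] {p : ℕ} [Fact p.Prime] (S : Sylow p G) (P : Subgroup G) (hSP : (S : Subgroup G) ≤ P) (hPmin : Cfsg.IsPMinimal p ↥P)
    (L Y : Subgroup G)
    (hL : L = Subgroup.normalizer ((S : Subgroup G) : Set G) ⊔ ⨆ P' : {P' : Subgroup G // (S : Subgroup G) ≤ P' ∧ Cfsg.IsPMinimal p ↥P' ∧ P' ≠ P}, (P' : Subgroup G))
    (hiso : ¬ (Cfsg.pCore p ↥L).map L.subtype ≤ (Cfsg.pCore p ↥P).map P.subtype)
    (hY : Y = Subgroup.normalClosure (((Cfsg.pResidual p ↥P).map P.subtype : Subgroup G) : Set G)) [hn : (Cfsg.pCore p G).Normal] :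
    (Cfsg.pResidual p ↥P).map P.subtype ≤ (Cfsg.generalizedFittingSubgroup (G ⧸ Cfsg.pCore p G)).comap (QuotientGroup.mk' (Cfsg.pCore p G)) ∧
    (Group.IsSolvable ↥Y → (Cfsg.pResidual p ↥P).map P.subtype = Y ∧
       ∃ _ : (Cfsg.pCore p ↥Y).Normal, ∃ t : ℕ, t.Prime ∧ t ≠ p ∧ IsPGroup t (↥Y ⧸ Cfsg.pCore p ↥Y) ∧
         ∃ _ : Group.IsNilpotent (↥Y ⧸ Cfsg.pCore p ↥Y), Group.nilpotencyClass (↥Y ⧸ Cfsg.pCore p ↥Y) ≤ 2) := by
  have h : H56.Iso.Setup S P L := ⟨hSP, hPmin, hL, hiso⟩
  have hYn := H56.Iso.Setup.Y_normal hY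
  refine ⟨?_, ?_⟩
  · refine (H56.Iso.Setup.res_le_Y hY).trans ?_
    set π := QuotientGroup.mk' (Cfsg.pCore p G) with hπ
    have hN : ((Cfsg.generalizedFittingSubgroup (G ⧸ Cfsg.pCore p G)).comap π).Normal := Subgroup.Normal.comap inferInstance π
    rcases h.star hY ((Cfsg.generalizedFittingSubgroup (G ⧸ Cfsg.pCore p G)).comap π) with h1 | h1
    · exact h1
    · intro y hy
      apply H26.Components.centralizer_gFitting_le
      rw [Subgroup.mem_centralizer_iff]
      intro z hz
      obtain ⟨n, rfl⟩ := QuotientGroup.mk'_surjective _ z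
      have h2 := h1 n hz y hy
      have h3 : H26.LocalFitting.pc p ((Cfsg.generalizedFittingSubgroup (G ⧸ Cfsg.pCore p G)).comap π) ≤ Cfsg.pCore p G := by
        apply H1.Cores.le_pCore _ (H26.LocalFitting.isPGroup_pc p _)
        rw [← Subgroup.normalizer_eq_top_iff, eq_top_iff]
        refine le_trans ?_ (H26.LocalFitting.normalizer_le_normalizer_pc p _)
        rw [Subgroup.normalizer_eq_top_iff.2 hN]
      have h4 : π (n * y * n⁻¹ * y⁻¹) = 1 := (QuotientGroup.eq_one_iff _).2 (h3 h2)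
      rw [map_mul, map_mul, map_mul, map_inv, map_inv] at h4
      show π n * π y = π y * π n
      calc π n * π y = (π n * π y * (π n)⁻¹ * (π y)⁻¹) * (π y * π n) := by group
        _ = _ := by rw [h4, one_mul]
  · intro hs
    have hs' : Group.IsSolvable (↥Y ⧸ Cfsg.pCore p ↥Y) := inferInstance
    have hd : ¬ p ∣ (Cfsg.pCore p ↥Y).index := by
      rcases h.layer_or hY with h1 | h1
      · exfalso
        have h2 := H26.Components.layer_eq_bot_of_isSolvable hs'
        rw [h1] at h2
        exact h.quot_nontrivial hY h2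
      · exact h1.2
    obtain ⟨h1, t, ht, htp, htg, hcls⟩ := h.pprime hY hd
    have : Fact t.Prime := ⟨ht⟩
    have hnil : Group.IsNilpotent (↥Y ⧸ Cfsg.pCore p ↥Y) := htg.isNilpotent
    refine ⟨h1, inferInstance, t, ht, htp, htg, hnil, ?_⟩
    exact H56.Iso.class_le (Y := Y) (_hnil := hnil) hcls

end Cfsg.Agent.S3045
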