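import Cfsg.Statements.S3050
import Mathlib
import Cfsg.Agent.Lib.H56.Hig7

set_option autoImplicit false
open Cfsg

namespace Cfsg.Agent.S3050

/-- Let G be a finite group with a normal 2-subgroup Q such that G/Q is isomorphic to SL(2, 2ⁿ) with n ≥ 2, and suppose some element of G of order 3 fixes no nonidentity element of Q under conjugation. Then Q is elementary abelian and is the direct product of normal subgroups of G on each of which G acts as SL(2, 2ⁿ) acts on its natural two-dimensional module (a Galois twist of the natural action allowed). -/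
theorem result {G : Type*} [Group G] [Finite G]
    (Q : Subgroup G) [Q.Normal] (hQ : IsPGroup 2 ↥Q) (n : ℕ) (hn : 2 ≤ n)
    (K : Type*) [Field K] [Fintype K] (hK : Fintype.card K = 2 ^ n)
    (e : G ⧸ Q ≃* Matrix.SpecialLinearGroup (Fin 2) K)
    (x : G) (hx : orderOf x = 3) (hfpf : ∀ q ∈ Q, x * q * x⁻¹ = q → q = 1) :
    Cfsg.IsElementaryAbelian 2 Q ∧
      ∃ (k : ℕ) (V : Fin k → Subgroup G), (∀ i, V i ≤ Q ∧ (V i).Normal ∧
        Cfsg.ActsAsSL2OnSection K ⊤ ⊤ (V i) ⊥) ∧ iSupIndep V ∧ ⨆ i, V i = Q := by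
  obtain ⟨hcomm, hel, k, Ψ, hbij, hadd, hact⟩ := H56.Hig.higman_data Q hQ n hn K hK e x hx hfpf
  have hone : Ψ 1 = 0 := by
    have := hadd 1 1
    rw [mul_one] at this
    exact left_eq_add.1 this
  have hinv : ∀ a, Ψ a⁻¹ = -Ψ a := by
    intro a
    rw [eq_neg_iff_add_eq_zero, ← hadd, inv_mul_cancel, hone]
  have hΨ1 : ∀ a, Ψ a = 0 → a = 1 := fun a ha => hbij.1 (ha.trans hone.symm)
  refine ⟨⟨⟨⟨fun a b => Subtype.ext (hcomm a a.2 b b.2)⟩⟩, hel⟩, k, ?_⟩
  -- the components
  let V0 : Fin k → Subgroup Q := fun i =>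
    { carrier := {q | ∀ j, j ≠ i → Ψ q j = 0}
      one_mem' := fun j _ => by rw [hone]; rfl
      mul_mem' := fun {a b} ha hb j hj => by rw [hadd, Pi.add_apply, ha j hj, hb j hj, add_zero]
      inv_mem' := fun {a} ha j hj => by rw [hinv, Pi.neg_apply, ha j hj, neg_zero] }
  let V : Fin k → Subgroup G := fun i => (V0 i).map Q.subtype
  have hVmem : ∀ (i : Fin k) (g : G), g ∈ V i ↔ ∃ h : g ∈ Q, ∀ j, j ≠ i → Ψ ⟨g, h⟩ j = 0 := by
    intro i g
    constructor
    · rintro ⟨q, hq, rfl⟩
      exact ⟨q.2, hq⟩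
    · rintro ⟨h, hj⟩
      exact ⟨⟨g, h⟩, hj, rfl⟩
  refine ⟨V, ?_, ?_, ?_⟩
  · intro i
    have hn1 : (V i).Normal := by
      constructor
      intro y hy g
      obtain ⟨h, hj⟩ := (hVmem i y).1 hy
      refine (hVmem i _).2 ⟨Subgroup.Normal.conj_mem inferInstance y h g, ?_⟩
      intro j hji
      rw [hact g ⟨y, h⟩ j, hj j hji, Matrix.mulVec_zero]
    refine ⟨fun y hy => ((hVmem i y).1 hy).1, hn1, ?_⟩
    refine ⟨?_, bot_le, ?_⟩
    · intro g _
      rw [Subgroup.normalizer_eq_top_iff.2 hn1]
      trivial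
    · let ρ : (⊤ : Subgroup G) →* Matrix.SpecialLinearGroup (Fin 2) K :=
        (e.toMonoidHom.comp (QuotientGroup.mk' Q)).comp (⊤ : Subgroup G).subtype
      let ψ : V i →* Multiplicative (Fin 2 → K) :=
        { toFun := fun u => Multiplicative.ofAdd (Ψ ⟨u, ((hVmem i u).1 u.2).1⟩ i)
          map_one' := by
            show Multiplicative.ofAdd (Ψ 1 i) = 1
            rw [hone]; rfl
          map_mul' := fun a b => by
            have h1 := hadd ⟨a, ((hVmem i a).1 a.2).1⟩ ⟨b, ((hVmem i b).1 b.2).1⟩
            have h2 := congrFun h1 i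
            exact congrArg Multiplicative.ofAdd h2 }
      refine ⟨ρ, ψ, ?_, ?_, ?_, ?_⟩
      · rw [MonoidHom.range_eq_top]
        intro g
        obtain ⟨y, hy⟩ := (e.surjective.comp (QuotientGroup.mk'_surjective Q)) g
        exact ⟨⟨y, trivial⟩, hy⟩
      · intro f
        obtain ⟨q, hq⟩ := hbij.2 (Pi.single i (Multiplicative.toAdd f))
        have hqV : (q : G) ∈ V i := by
          refine (hVmem i q).2 ⟨q.2, ?_⟩
          intro j hj
          show Ψ q j = 0
          rw [hq, Pi.single_eq_of_ne hj]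
        refine ⟨⟨q, hqV⟩, ?_⟩
        show Multiplicative.ofAdd (Ψ q i) = f
        rw [hq, Pi.single_eq_same]
        rfl
      · intro u
        obtain ⟨h, hj⟩ := (hVmem i u).1 u.2
        rw [Subgroup.mem_bot]
        constructor
        · intro hu
          have h1 : Ψ ⟨u, h⟩ i = 0 := hu
          have h2 : Ψ ⟨u, h⟩ = 0 := by
            funext j
            by_cases hji : j = i
            · rw [hji, h1]; rfl
            · rw [hj j hji]; rfl
          exact congrArg Subtype.val (hΨ1 _ h2)
        · intro hu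
          have h1 : (⟨u, h⟩ : Q) = 1 := Subtype.ext hu
          show Multiplicative.ofAdd (Ψ ⟨u, h⟩ i) = 1
          rw [h1, hone]; rfl
      · intro g u
        refine ⟨⟨(g : G) * u * (g : G)⁻¹, hn1.conj_mem u u.2 g⟩, rfl, ?_⟩
        exact hact g ⟨u, ((hVmem i u).1 u.2).1⟩ i
  · -- independence
    intro i
    rw [disjoint_iff_inf_le]
    intro y hy
    obtain ⟨hy1, hy2⟩ := hy
    obtain ⟨h, hj⟩ := (hVmem i y).1 hy1
    let W0 : Subgroup Q :=
      { carrier := {q | Ψ q i = 0}
        one_mem' := by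
          show Ψ 1 i = 0
          rw [hone]; rfl
        mul_mem' := fun {a b} ha hb => by
          show Ψ (a * b) i = 0
          rw [hadd, Pi.add_apply, show Ψ a i = 0 from ha, show Ψ b i = 0 from hb, add_zero]
        inv_mem' := fun {a} ha => by
          show Ψ a⁻¹ i = 0
          rw [hinv, Pi.neg_apply, show Ψ a i = 0 from ha, neg_zero] }
    have hle : (⨆ (j : Fin k) (_ : j ≠ i), V j) ≤ W0.map Q.subtype := by
      refine iSup₂_le ?_
      intro j hji z hz
      obtain ⟨hz1, hz2⟩ := (hVmem j z).1 hz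
      exact ⟨⟨z, hz1⟩, hz2 i (Ne.symm hji), rfl⟩
    obtain ⟨w, hw, hwy⟩ := hle hy2
    have hwe : w = ⟨y, h⟩ := Subtype.ext hwy
    have h1 : Ψ ⟨y, h⟩ i = 0 := by rw [← hwe]; exact hw
    have h2 : Ψ ⟨y, h⟩ = 0 := by
      funext j
      by_cases hji : j = i
      · rw [hji, h1]; rfl
      · rw [hj j hji]; rfl
    rw [Subgroup.mem_bot]
    exact congrArg Subtype.val (hΨ1 _ h2)
  · apply le_antisymm
    · exact iSup_le fun i y hy => ((hVmem i y).1 hy).1
    · intro y hy
      -- decompose
      have key : ∀ s : Finset (Fin k), ∀ q : Q, (∀ j, j ∉ s → Ψ q j = 0) → (q : G) ∈ ⨆ i, V i := by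
        intro s
        induction s using Finset.induction_on with
        | empty =>
          intro q hq
          have : Ψ q = 0 := by
            funext j
            exact hq j (Finset.notMem_empty j)
          rw [hΨ1 q this]
          exact one_mem _
        | insert a s ha ih =>
          intro q hq
          obtain ⟨r, hr⟩ := hbij.2 (Pi.single a (Ψ q a))
          have h1 : (r : G) ∈ ⨆ i, V i := by
            apply Subgroup.mem_iSup_of_mem a
            refine (hVmem a r).2 ⟨r.2, ?_⟩
            intro j hj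
            show Ψ r j = 0
            rw [hr, Pi.single_eq_of_ne hj]
          have h2 : ((r⁻¹ * q : Q) : G) ∈ ⨆ i, V i := by
            apply ih
            intro j hj
            rw [hadd, hinv, Pi.add_apply, Pi.neg_apply, hr]
            by_cases hja : j = a
            · rw [hja, Pi.single_eq_same, neg_add_cancel]
            · rw [Pi.single_eq_of_ne hja, neg_zero, zero_add]
              exact hq j (by
                rw [Finset.mem_insert]
                push Not
                exact ⟨hja, hj⟩)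
          have h3 : (q : G) = (r : G) * ((r⁻¹ * q : Q) : G) := by
            rw [← Subgroup.coe_mul, mul_inv_cancel_left]
          rw [h3]
          exact mul_mem h1 h2
      exact key Finset.univ ⟨y, hy⟩ (fun j hj => absurd (Finset.mem_univ j) hj)

end Cfsg.Agent.S3050
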