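import Cfsg.Statements.S3053
import Mathlib
import Cfsg.Agent.Lib.H3.Extraspecial
import Cfsg.Agent.Lib.H28.RelSyl
import Cfsg.Agent.Lib.H56.Basic

set_option autoImplicit false
open Cfsg

namespace Cfsg.Agent.S3053

open scoped commutatorElement
open H28.Cj H28.RelSyl

section
variable {G : Type*} [Group G]

/-- the computation with two transvections: `(x x' x)^2` inverts `z` and `y`. -/
theorem inverts {x x' y z : G} (hyz : y * z = z * y) (h1 : x * z * x⁻¹ = z) (h2 : x * y * x⁻¹ = y * z)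
    (h3 : x' * y * x'⁻¹ = y) (h4 : x' * z * x'⁻¹ = z * y⁻¹) :
    (x * x' * x) * (x * x' * x) * z * ((x * x' * x) * (x * x' * x))⁻¹ = z⁻¹ ∧
      (x * x' * x) * (x * x' * x) * y * ((x * x' * x) * (x * x' * x))⁻¹ = y⁻¹ := by
  have e1 : (x * x' * x) * z * (x * x' * x)⁻¹ = y⁻¹ := by
    calc (x * x' * x) * z * (x * x' * x)⁻¹ = x * (x' * (x * z * x⁻¹) * x'⁻¹) * x⁻¹ := by group
      _ = x * (z * y⁻¹) * x⁻¹ := by rw [h1, h4]
      _ = (x * z * x⁻¹) * (x * y * x⁻¹)⁻¹ := by group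
      _ = z * (y * z)⁻¹ := by rw [h1, h2]
      _ = y⁻¹ := by rw [mul_inv_rev, mul_inv_cancel_left]
  have e2 : (x * x' * x) * y * (x * x' * x)⁻¹ = z := by
    calc (x * x' * x) * y * (x * x' * x)⁻¹ = x * (x' * (x * y * x⁻¹) * x'⁻¹) * x⁻¹ := by group
      _ = x * ((x' * y * x'⁻¹) * (x' * z * x'⁻¹)) * x⁻¹ := by rw [h2]; group
      _ = x * (y * (z * y⁻¹)) * x⁻¹ := by rw [h3, h4]
      _ = x * z * x⁻¹ := by rw [← mul_assoc y, hyz, mul_inv_cancel_right]
      _ = z := h1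
  constructor
  · calc (x * x' * x) * (x * x' * x) * z * ((x * x' * x) * (x * x' * x))⁻¹
        = (x * x' * x) * ((x * x' * x) * z * (x * x' * x)⁻¹) * (x * x' * x)⁻¹ := by group
      _ = ((x * x' * x) * y * (x * x' * x)⁻¹)⁻¹ := by rw [e1]; group
      _ = z⁻¹ := by rw [e2]
  · calc (x * x' * x) * (x * x' * x) * y * ((x * x' * x) * (x * x' * x))⁻¹
        = (x * x' * x) * ((x * x' * x) * y * (x * x' * x)⁻¹) * (x * x' * x)⁻¹ := by group
      _ = (x * x' * x) * z * (x * x' * x)⁻¹ := by rw [e2]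
      _ = y⁻¹ := by rw [e1]

end

theorem aux {G : Type*} [Group G] [Finite G]
    {p : ℕ} [Fact p.Prime] (hp : p ≠ 2) (P : Subgroup G) (hPsyl : IsSyl p P ⊤) (hE : Cfsg.IsExtraspecial p ↥P)
    (hcard : Nat.card P = p ^ 3) (hexp : Monoid.exponent ↥P = p ^ 2) :
    Cfsg.IsStronglyClosed ((Subgroup.center ↥P).map (P : Subgroup G).subtype) (P : Subgroup G) := by
  classical
  have hpp : p.Prime := Fact.out
  have hpodd : p % 2 = 1 := hpp.eq_two_or_odd.resolve_left hp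
  have hZ : commutator ↥P ≤ Subgroup.center ↥P := H3.Extraspecial.commutator_le hE.1
  have hc : Nat.card (Subgroup.center ↥P) = p := hE.2
  have hcp : ∀ a b : ↥P, ⁅b, a⁆ ^ p = 1 := fun a b => H3.Extraspecial.comm_pow_eq_one hZ hc b a
  -- the power map
  let f : ↥P →* ↥P :=
    { toFun := fun x => x ^ p
      map_one' := one_pow _
      map_mul' := fun a b => H3.ClassTwo.mul_pow_prime hZ hpp hp a b (hcp a b) }
  have hf : ∀ x, f x = x ^ p := fun _ => rfl
  have hfr : f.range ≤ Subgroup.center ↥P := by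
    rintro _ ⟨x, rfl⟩
    exact H3.Extraspecial.pow_mem_center hZ hc x
  have hfrne : f.range ≠ ⊥ := by
    intro h
    have h1 : ∀ x : ↥P, x ^ p = 1 := by
      intro x
      have : f x ∈ f.range := ⟨x, rfl⟩
      rw [h, Subgroup.mem_bot] at this
      exact this
    have h2 := Monoid.exponent_dvd_of_forall_pow_eq_one h1
    rw [hexp] at h2
    have h3 := Nat.le_of_dvd hpp.pos h2
    have h4 := hpp.one_lt
    nlinarith
  have hfrcard : Nat.card f.range = p := by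
    have h1 := Subgroup.card_dvd_of_le hfr
    rw [hc, Nat.dvd_prime hpp] at h1
    rcases h1 with h1 | h1
    · exact absurd (Subgroup.card_eq_one.1 h1) hfrne
    · exact h1
  have hker : Nat.card f.ker = p ^ 2 := by
    have h1 := Subgroup.card_mul_index f.ker
    rw [Subgroup.index_ker, hfrcard, hcard] at h1
    have : Nat.card f.ker * p = p ^ 2 * p := by rw [h1]; ring
    exact Nat.eq_of_mul_eq_mul_right hpp.pos this
  set A : Subgroup G := f.ker.map (P : Subgroup G).subtype with hA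
  set Z : Subgroup G := (Subgroup.center ↥P).map (P : Subgroup G).subtype with hZdef
  have hAP : A ≤ (P : Subgroup G) := Subgroup.map_subtype_le _
  have hZP : Z ≤ (P : Subgroup G) := Subgroup.map_subtype_le _
  have hAcard : Nat.card A = p ^ 2 := by rw [hA, card_map_subtype, hker]
  have hmemA : ∀ x : G, x ∈ A ↔ x ∈ (P : Subgroup G) ∧ x ^ p = 1 := by
    intro x
    constructor
    · rintro ⟨y, hy, rfl⟩
      refine ⟨y.2, ?_⟩
      have : y ^ p = 1 := hy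
      exact congrArg Subtype.val this
    · rintro ⟨h1, h2⟩
      refine ⟨⟨x, h1⟩, ?_, rfl⟩
      exact Subtype.ext h2
  have hmemZ : ∀ x : G, x ∈ Z ↔ x ∈ (P : Subgroup G) ∧ ∀ y ∈ (P : Subgroup G), y * x = x * y := by
    intro x
    constructor
    · rintro ⟨y, hy, rfl⟩
      refine ⟨y.2, fun w hw => ?_⟩
      exact congrArg Subtype.val (Subgroup.mem_center_iff.1 hy ⟨w, hw⟩)
    · rintro ⟨h1, h2⟩
      refine ⟨⟨x, h1⟩, ?_, rfl⟩
      rw [SetLike.mem_coe, Subgroup.mem_center_iff]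
      intro w
      exact Subtype.ext (h2 w w.2)
  have hZcard : Nat.card Z = p := by rw [hZdef, card_map_subtype, hc]
  have hZpow : ∀ x ∈ Z, x ^ p = 1 := by
    rintro _ ⟨x, hx, rfl⟩
    exact congrArg Subtype.val (H3.Extraspecial.center_pow hc hx)
  have hZA : Z ≤ A := fun x hx => (hmemA x).2 ⟨hZP hx, hZpow x hx⟩
  have hPpow : ∀ x ∈ (P : Subgroup G), x ^ p ∈ Z := by
    intro x hx
    exact ⟨(⟨x, hx⟩ : ↥P) ^ p, hfr ⟨⟨x, hx⟩, rfl⟩, rfl⟩
  have hAcomm : ∀ a ∈ A, ∀ b ∈ A, a * b = b * a := by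
    intro a ha b hb
    have := IsPGroup.commutative_of_card_eq_prime_sq hAcard ⟨a, ha⟩ ⟨b, hb⟩
    exact congrArg Subtype.val this
  refine ⟨hZP, ?_⟩
  intro z hz g hgP
  by_contra hyZ
  obtain ⟨y, hy⟩ : ∃ y, y = g * z * g⁻¹ := ⟨_, rfl⟩
  rw [← hy] at hgP hyZ
  have hz1 : z ≠ 1 := by
    rintro rfl
    apply hyZ
    rw [hy]; simp
  have hy1 : y ≠ 1 := by
    intro h
    apply hyZ
    rw [h]; exact Z.one_mem
  have hyp : y ^ p = 1 := by
    rw [hy, conj_pow, hZpow z hz]; simp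
  have hyA : y ∈ A := (hmemA y).2 ⟨hgP, hyp⟩
  -- find an element normalizing `A` and moving `z` to `y`
  have hsyl : IsSyl p (cj g (P : Subgroup G)) (Subgroup.centralizer {y}) := by
    have h1 : IsSyl p (cj g (P : Subgroup G)) ⊤ := by
      have := hPsyl.cj g
      rwa [cj_top] at this
    refine h1.of_le_of_le ?_ le_top
    rintro _ ⟨x, hx, rfl⟩
    rw [Subgroup.mem_centralizer_singleton_iff, eq_comm]
    have h2 := ((hmemZ z).1 hz).2 x hx
    simp only [MulEquiv.coe_toMonoidHom, MulAut.conj_apply]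
    calc y * (g * x * g⁻¹) = g * (z * x) * g⁻¹ := by rw [hy]; group
      _ = g * (x * z) * g⁻¹ := by rw [h2]
      _ = g * x * g⁻¹ * y := by rw [hy]; group
  have hAp : IsPGroup p A := hPsyl.isPGroup.to_le hAP
  have hAC : A ≤ Subgroup.centralizer {y} := by
    intro a ha
    rw [Subgroup.mem_centralizer_singleton_iff]
    exact hAcomm a ha y hyA
  obtain ⟨c, hcC, hcA⟩ := hsyl.exists_conj_le hAp hAC
  obtain ⟨n, hn⟩ : ∃ n, n = g⁻¹ * c := ⟨_, rfl⟩
  have hnA : cj n A ≤ A := by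
    intro x hx
    have hx' := hx
    rw [hmemA]
    constructor
    · rw [mem_cj] at hx
      have : c * (n⁻¹ * x * n) * c⁻¹ ∈ cj g (P : Subgroup G) := hcA (conj_mem_cj.2 hx)
      rw [mem_cj] at this
      have h2 : g⁻¹ * (c * (n⁻¹ * x * n) * c⁻¹) * g = x := by rw [hn]; group
      rwa [h2] at this
    · obtain ⟨a, ha, rfl⟩ := hx'
      simp only [MulEquiv.coe_toMonoidHom, MulAut.conj_apply]
      rw [conj_pow, ((hmemA a).1 ha).2]; simp
  have hnA' : cj n A = A := Subgroup.eq_of_le_of_card_ge hnA (by rw [card_cj])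
  have hny : n * y * n⁻¹ = z := by
    have h1 : c * y = y * c := ((Subgroup.mem_centralizer_iff.1 hcC) y rfl).symm
    calc n * y * n⁻¹ = g⁻¹ * (c * y) * c⁻¹ * g := by rw [hn]; group
      _ = z := by rw [h1, hy]; group
  -- P normalizes A
  have hPA : ∀ u ∈ (P : Subgroup G), ∀ a ∈ A, u * a * u⁻¹ ∈ A := by
    intro u hu a ha
    rw [hmemA]
    refine ⟨(P : Subgroup G).mul_mem ((P : Subgroup G).mul_mem hu (hAP ha)) ((P : Subgroup G).inv_mem hu), ?_⟩
    rw [conj_pow, ((hmemA a).1 ha).2]; simp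
  have hnAmem : ∀ a ∈ A, n * a * n⁻¹ ∈ A := fun a ha => by rw [← hnA']; exact conj_mem_cj.2 ha
  have hninvAmem : ∀ a ∈ A, n⁻¹ * a * n ∈ A := fun a ha => by
    rw [← hnA', mem_cj] at ha; exact ha
  -- C_P(y) = A
  have hCPy : ∀ u ∈ (P : Subgroup G), u * y = y * u → u ∈ A := by
    intro u hu huy
    by_contra huA
    apply hyZ
    -- centralizer of y in P is bigger than A hence everything
    set D : Subgroup G := (P : Subgroup G) ⊓ Subgroup.centralizer {y} with hD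
    have h1 : A ≤ D := le_inf hAP hAC
    have h2 : u ∈ D := ⟨hu, show u ∈ Subgroup.centralizer {y} by
      rw [Subgroup.mem_centralizer_singleton_iff]
      exact huy⟩
    have h3 : A < D := lt_of_le_of_ne h1 (fun h => huA (h ▸ h2))
    have h4 : D = (P : Subgroup G) := by
      have h5 := Subgroup.card_dvd_of_le (inf_le_left : D ≤ (P : Subgroup G))
      have hcard' : Nat.card (P : Subgroup G) = p ^ 3 := hcard
      rw [hcard', Nat.dvd_prime_pow hpp] at h5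
      obtain ⟨k, hk, hk'⟩ := h5
      have h6 : Nat.card A < Nat.card D := by
        by_contra hlt
        push Not at hlt
        exact h3.ne (Subgroup.eq_of_le_of_card_ge h1 hlt)
      rw [hAcard, hk'] at h6
      have h7 : 2 < k := (Nat.pow_lt_pow_iff_right hpp.one_lt).1 h6
      have h8 : k = 3 := by omega
      apply Subgroup.eq_of_le_of_card_ge inf_le_left
      rw [hcard', hk', h8]
    rw [hmemZ]
    refine ⟨hgP, ?_⟩
    intro v hv
    have : v ∈ D := by rw [h4]; exact hv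
    exact ((Subgroup.mem_centralizer_iff.1 this.2) y rfl).symm
  have hCPA : ∀ u ∈ (P : Subgroup G), (∀ a ∈ A, u * a = a * u) → u ∈ A :=
    fun u hu h => hCPy u hu (h y hyA)
  -- an element of P outside A
  obtain ⟨v, hvP, hvA⟩ : ∃ v ∈ (P : Subgroup G), v ∉ A := by
    by_contra hcon
    push Not at hcon
    have h1 : (P : Subgroup G) = A := le_antisymm hcon hAP
    have hcard' : Nat.card (P : Subgroup G) = p ^ 3 := hcard
    rw [h1, hAcard] at hcard'
    have := Nat.pow_right_injective hpp.two_le hcard'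
    omega
  -- [v,y] ∈ Z nontrivial
  have hcommZ : ∀ u ∈ (P : Subgroup G), ∀ w ∈ (P : Subgroup G), ⁅u, w⁆ ∈ Z := by
    intro u hu w hw
    refine ⟨⁅(⟨u, hu⟩ : ↥P), (⟨w, hw⟩ : ↥P)⁆, hZ (Subgroup.commutator_mem_commutator (Subgroup.mem_top _) (Subgroup.mem_top _)), ?_⟩
    simp [commutatorElement_def]
  have hzgen : ∀ w ∈ Z, ∀ w' ∈ Z, w ≠ 1 → ∃ k : ℕ, w ^ k = w' := by
    intro w hw w' hw' hw1
    have h1 := mem_powers_of_prime_card (p := p) (g := (⟨w, hw⟩ : Z)) (g' := ⟨w', hw'⟩) hZcard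
      (fun h => hw1 (congrArg Subtype.val h))
    obtain ⟨k, hk⟩ := h1
    exact ⟨k, congrArg Subtype.val hk⟩
  obtain ⟨x, hxP, hxy⟩ : ∃ x ∈ (P : Subgroup G), x * y * x⁻¹ = y * z := by
    have h1 : ⁅v, y⁆ ≠ 1 := by
      intro h
      rw [commutatorElement_eq_one_iff_mul_comm] at h
      exact hvA (hCPy v hvP h)
    obtain ⟨k, hk⟩ := hzgen _ (hcommZ v hvP y hgP) z hz h1
    refine ⟨v ^ k, (P : Subgroup G).pow_mem hvP k, ?_⟩
    have h2 : ⁅(⟨v, hvP⟩ : ↥P) ^ k, (⟨y, hgP⟩ : ↥P)⁆ = ⁅(⟨v, hvP⟩ : ↥P), (⟨y, hgP⟩ : ↥P)⁆ ^ k :=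
      H3.ClassTwo.pow_left hZ _ _ k
    have h3 : ⁅v ^ k, y⁆ = ⁅v, y⁆ ^ k := by
      have := congrArg Subtype.val h2
      simpa [commutatorElement_def] using this
    rw [hk] at h3
    have h4 : v ^ k * y * (v ^ k)⁻¹ = ⁅v ^ k, y⁆ * y := by simp [commutatorElement_def]
    rw [h4, h3]
    exact hAcomm z (hZA hz) y hyA
  have hxz : x * z * x⁻¹ = z := by
    have h1 := ((hmemZ z).1 hz).2 x hxP
    rw [h1]; group
  -- conjugate by n⁻¹ : x₁ centralizes y
  obtain ⟨x₁, hx₁⟩ : ∃ x₁, x₁ = n⁻¹ * x * n := ⟨_, rfl⟩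
  have hn' : n⁻¹ * z * n = y := by rw [← hny]; group
  have hx₁y : x₁ * y * x₁⁻¹ = y := by
    calc x₁ * y * x₁⁻¹ = n⁻¹ * (x * (n * y * n⁻¹) * x⁻¹) * n := by rw [hx₁]; group
      _ = y := by rw [hny, hxz, hn']
  obtain ⟨y₁, hy₁⟩ : ∃ y₁, y₁ = n⁻¹ * y * n := ⟨_, rfl⟩
  have hy₁A : y₁ ∈ A := hy₁ ▸ hninvAmem y hyA
  have hx₁y₁ : x₁ * y₁ * x₁⁻¹ = y₁ * y := by
    calc x₁ * y₁ * x₁⁻¹ = n⁻¹ * (x * y * x⁻¹) * n := by rw [hx₁, hy₁]; group
      _ = (n⁻¹ * y * n) * (n⁻¹ * z * n) := by rw [hxy]; group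
      _ = y₁ * y := by rw [hn', hy₁]
  -- every element of A is z^i y^j
  have hspan : ∀ a ∈ A, ∃ i j : ℕ, a = z ^ i * y ^ j := by
    have hle : Z ⊔ Subgroup.zpowers y = A := by
      have h1 : Z ⊔ Subgroup.zpowers y ≤ A := sup_le hZA (by rw [Subgroup.zpowers_le]; exact hyA)
      have h2 := Subgroup.card_dvd_of_le h1
      rw [hAcard, Nat.dvd_prime_pow hpp] at h2
      obtain ⟨k, hk, hk'⟩ := h2
      have h3 : Z < Z ⊔ Subgroup.zpowers y := by
        refine lt_of_le_of_ne le_sup_left ?_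
        intro h
        apply hyZ
        rw [h]
        exact le_sup_right (a := Z) (Subgroup.mem_zpowers y)
      have h6 : Nat.card Z < Nat.card (Z ⊔ Subgroup.zpowers y : Subgroup G) := by
        by_contra hlt
        push Not at hlt
        exact h3.ne (Subgroup.eq_of_le_of_card_ge h3.le hlt)
      rw [hZcard, hk'] at h6
      have h7 : p ^ 1 < p ^ k := by rw [pow_one]; exact h6
      have h8 : 1 < k := (Nat.pow_lt_pow_iff_right hpp.one_lt).1 h7
      have h9 : k = 2 := by omega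
      apply Subgroup.eq_of_le_of_card_ge h1
      rw [hAcard, hk', h9]
    intro a ha
    rw [← hle] at ha
    have hZy : Subgroup.zpowers y ≤ A := by rw [Subgroup.zpowers_le]; exact hyA
    have hnorm := (H56.Basic.mem_sup_of_commute (N := Z) (H := Subgroup.zpowers y) (x := a)
      (fun a ha b hb => hAcomm b (hZy hb) a (hZA ha))).1
    obtain ⟨w1, h1, w2, h2, rfl⟩ := hnorm ha
    obtain ⟨i, hi⟩ := hzgen z hz w1 h1 hz1
    have hyo : orderOf y = p := orderOf_eq_prime hyp hy1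
    have : w2 ∈ Submonoid.powers y := by
      have hfin : IsOfFinOrder y := isOfFinOrder_of_finite y
      exact (hfin.mem_powers_iff_mem_zpowers).2 h2
    obtain ⟨j, hj⟩ := this
    exact ⟨i, j, by rw [hi]; congr 1; exact hj.symm⟩
  obtain ⟨i, j, hij⟩ := hspan y₁ hy₁A
  have hyz : y * z = z * y := hAcomm y hyA z (hZA hz)
  -- x₁ sends z^i to z^i y
  have hx₁zi : x₁ * z ^ i * x₁⁻¹ = z ^ i * y := by
    have h1 : x₁ * y₁ * x₁⁻¹ = (x₁ * z ^ i * x₁⁻¹) * (x₁ * y * x₁⁻¹) ^ j := by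
      rw [hij, conj_pow]; group
    rw [hx₁y, hx₁y₁, hij] at h1
    have h2 : z ^ i * y ^ j * y = (z ^ i * y) * y ^ j := by
      rw [mul_assoc, mul_assoc, ← pow_succ, ← pow_succ']
    rw [h2] at h1
    exact (mul_right_cancel h1).symm
  have hiz : ¬ p ∣ i := by
    intro hdvd
    obtain ⟨k, hk⟩ := hdvd
    have h1 : z ^ i = 1 := by rw [hk, pow_mul, hZpow z hz, one_pow]
    rw [h1] at hx₁zi
    apply hy1
    have : (1 : G) = 1 * y := by rw [← hx₁zi]; group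
    rw [one_mul] at this
    exact this.symm
  -- the second transvection
  obtain ⟨x', hx'y, hx'z⟩ : ∃ x' : G, x' * y * x'⁻¹ = y ∧ x' * z * x'⁻¹ = z * y⁻¹ := by
    -- inverse of i mod p
    obtain ⟨m, hm⟩ : ∃ m : ℕ, m * i % p = 1 := by
      have hcop : Nat.Coprime i p := (Nat.Coprime.symm ((Nat.Prime.coprime_iff_not_dvd hpp).2 hiz))
      obtain ⟨m, hm⟩ := Nat.exists_mul_mod_eq_one_of_coprime hcop hpp.one_lt
      exact ⟨m, by rw [mul_comm]; exact hm.2⟩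
    have hzm : ∀ w : G, w ^ p = 1 → (w ^ i) ^ m = w := by
      intro w hw
      rw [← pow_mul, mul_comm, ← Nat.div_add_mod (m * i) p, hm, pow_add, pow_mul, hw, one_pow, one_mul, pow_one]
    have hx₁c : x₁ * y = y * x₁ := by
      calc x₁ * y = (x₁ * y * x₁⁻¹) * x₁ := by group
        _ = y * x₁ := by rw [hx₁y]
    -- x₁ z x₁⁻¹ = z y^m
    have hx₁z : x₁ * z * x₁⁻¹ = z * y ^ m := by
      calc x₁ * z * x₁⁻¹ = x₁ * (z ^ i) ^ m * x₁⁻¹ := by rw [hzm z (hZpow z hz)]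
        _ = (x₁ * z ^ i * x₁⁻¹) ^ m := by rw [conj_pow]
        _ = (z ^ i * y) ^ m := by rw [hx₁zi]
        _ = (z ^ i) ^ m * y ^ m := by
          have : Commute (z ^ i) y := (Commute.pow_left (show Commute z y from hyz.symm) i)
          rw [this.mul_pow]
        _ = z * y ^ m := by rw [hzm z (hZpow z hz)]
    -- powers
    have hpowk : ∀ k : ℕ, x₁ ^ k * z * (x₁ ^ k)⁻¹ = z * (y ^ m) ^ k := by
      intro k
      induction k with
      | zero => simp
      | succ k ih =>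
        have hc1 : x₁ ^ k * y = y * x₁ ^ k := (Commute.pow_left (show Commute x₁ y from hx₁c) k).eq
        have hc2 : x₁ * (y ^ m) ^ k = (y ^ m) ^ k * x₁ :=
          (((show Commute x₁ y from hx₁c).pow_right m).pow_right k).eq
        calc x₁ ^ (k + 1) * z * (x₁ ^ (k + 1))⁻¹ = x₁ * (x₁ ^ k * z * (x₁ ^ k)⁻¹) * x₁⁻¹ := by
              rw [pow_succ']; group
          _ = x₁ * z * ((y ^ m) ^ k) * x₁⁻¹ := by rw [ih]; group
          _ = x₁ * z * x₁⁻¹ * (x₁ * (y ^ m) ^ k) * x₁⁻¹ := by group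
          _ = z * y ^ m * ((y ^ m) ^ k * x₁) * x₁⁻¹ := by rw [hx₁z, hc2]
          _ = z * (y ^ m * (y ^ m) ^ k) := by group
          _ = z * (y ^ m) ^ (k + 1) := by rw [← pow_succ']
    -- choose k with m k ≡ -1, namely k = i * (p - 1)
    refine ⟨x₁ ^ (i * (p - 1)), ?_, ?_⟩
    · have : x₁ ^ (i * (p - 1)) * y = y * x₁ ^ (i * (p - 1)) :=
        (Commute.pow_left (show Commute x₁ y from hx₁c) _).eq
      rw [this]; group
    · rw [hpowk, ← pow_mul, ← mul_assoc, pow_mul]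
      congr 1
      have h1 : y ^ (m * i) = y := by
        rw [← Nat.div_add_mod (m * i) p, hm, pow_add, pow_mul, hyp, one_pow, one_mul, pow_one]
      rw [h1]
      have h2 : y ^ (p - 1) * y = 1 := by
        rw [← pow_succ, Nat.sub_add_cancel hpp.one_le, hyp]
      exact eq_inv_of_mul_eq_one_left h2
  obtain ⟨hz', hy'⟩ := inverts hyz hxz hxy hx'y hx'z
  set t := (x * x' * x) * (x * x' * x) with ht
  have htA : ∀ a ∈ A, t * a * t⁻¹ = a⁻¹ := by
    intro a ha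
    obtain ⟨i, j, rfl⟩ := hspan a ha
    have hc1 : Commute (z ^ i) (y ^ j) := (Commute.pow_pow (show Commute z y from hyz.symm) i j)
    calc t * (z ^ i * y ^ j) * t⁻¹ = (t * z ^ i * t⁻¹) * (t * y ^ j * t⁻¹) := by group
      _ = (z ^ i)⁻¹ * (y ^ j)⁻¹ := by rw [← conj_pow, ← conj_pow, hz', hy', inv_pow, inv_pow]
      _ = (z ^ i * y ^ j)⁻¹ := by rw [hc1.eq, mul_inv_rev]
  have htA' : ∀ a ∈ A, t⁻¹ * a * t = a⁻¹ := by
    intro a ha
    have h1 := htA a⁻¹ (A.inv_mem ha)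
    rw [inv_inv] at h1
    calc t⁻¹ * a * t = t⁻¹ * (t * a⁻¹ * t⁻¹) * t := by rw [h1]
      _ = a⁻¹ := by group
  -- Frattini: an element normalizing P and inverting A
  set C : Subgroup G := Subgroup.centralizer (A : Set G) with hC
  set N : Subgroup G := Subgroup.normalizer (A : Set G) with hN
  have hPN : (P : Subgroup G) ≤ N := by
    intro u hu
    rw [hN, Subgroup.mem_normalizer_iff]
    intro a
    refine ⟨fun ha => hPA u hu a ha, fun ha => ?_⟩
    have := hPA u⁻¹ ((P : Subgroup G).inv_mem hu) _ ha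
    have h2 : u⁻¹ * (u * a * u⁻¹) * u⁻¹⁻¹ = a := by group
    rwa [h2] at this
  set L : Subgroup G := C ⊔ (P : Subgroup G) with hL
  have hPCnorm : (P : Subgroup G) ≤ Subgroup.normalizer (C : Set G) := by
    refine hPN.trans ?_
    rw [hN, hC]
    intro u hu
    rw [Subgroup.mem_normalizer_iff] at hu ⊢
    intro w
    rw [Subgroup.mem_centralizer_iff, Subgroup.mem_centralizer_iff]
    constructor
    · intro h a ha
      have h1 : u⁻¹ * a * u ∈ A := by
        rw [hu (u⁻¹ * a * u)]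
        have : u * (u⁻¹ * a * u) * u⁻¹ = a := by group
        rw [this]; exact ha
      have h2 := h _ h1
      calc a * (u * w * u⁻¹) = u * ((u⁻¹ * a * u) * w) * u⁻¹ := by group
        _ = u * (w * (u⁻¹ * a * u)) * u⁻¹ := by rw [h2]
        _ = _ := by group
    · intro h a ha
      have h1 : u * a * u⁻¹ ∈ A := (hu a).1 ha
      have h2 := h _ h1
      calc a * w = u⁻¹ * ((u * a * u⁻¹) * (u * w * u⁻¹)) * u := by group
        _ = u⁻¹ * ((u * w * u⁻¹) * (u * a * u⁻¹)) * u := by rw [h2]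
        _ = _ := by group
  have htP : cj t (P : Subgroup G) ≤ L := by
    rintro _ ⟨u, hu, rfl⟩
    simp only [MulEquiv.coe_toMonoidHom, MulAut.conj_apply]
    have h1 : t * u * t⁻¹ * u⁻¹ ∈ C := by
      rw [hC, Subgroup.mem_centralizer_iff]
      intro a ha
      have hau : u⁻¹ * a * u ∈ A := by
        have := hPA u⁻¹ ((P : Subgroup G).inv_mem hu) a ha
        rwa [inv_inv] at this
      have h2 : (t * u * t⁻¹ * u⁻¹) * a * (t * u * t⁻¹ * u⁻¹)⁻¹ = a := by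
        calc (t * u * t⁻¹ * u⁻¹) * a * (t * u * t⁻¹ * u⁻¹)⁻¹
            = t * (u * (t⁻¹ * (u⁻¹ * a * u) * t) * u⁻¹) * t⁻¹ := by group
          _ = t * (u * (u⁻¹ * a * u)⁻¹ * u⁻¹) * t⁻¹ := by rw [htA' _ hau]
          _ = t * a⁻¹ * t⁻¹ := by group
          _ = a := by rw [htA a⁻¹ (A.inv_mem ha), inv_inv]
      calc a * (t * u * t⁻¹ * u⁻¹) = ((t * u * t⁻¹ * u⁻¹) * a * (t * u * t⁻¹ * u⁻¹)⁻¹) * (t * u * t⁻¹ * u⁻¹) := by rw [h2]
        _ = _ := by group
    have h2 : t * u * t⁻¹ = (t * u * t⁻¹ * u⁻¹) * u := by group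
    rw [h2]
    exact L.mul_mem (Subgroup.mem_sup_left h1) (Subgroup.mem_sup_right hu)
  have hPL : IsSyl p (P : Subgroup G) L := hPsyl.of_le_of_le le_sup_right le_top
  have htPL : IsSyl p (cj t (P : Subgroup G)) L := by
    have h1 := hPsyl.cj t
    rw [cj_top] at h1
    exact h1.of_le_of_le htP le_top
  obtain ⟨l, hl, hlP⟩ := hPL.exists_conj_eq htPL
  obtain ⟨c₀, hc₀, u₀, hu₀, rfl⟩ : ∃ c₀ ∈ C, ∃ u₀ ∈ (P : Subgroup G), c₀ * u₀ = l := by
    obtain ⟨c₀, hc₀, u₀, hu₀, h⟩ := (H56.Basic.mem_sup_of_le_normalizer hPCnorm).1 hl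
    exact ⟨c₀, hc₀, u₀, hu₀, h.symm⟩
  obtain ⟨n₂, hn₂⟩ : ∃ n₂, n₂ = c₀⁻¹ * t := ⟨_, rfl⟩
  have hn₂P : ∀ u ∈ (P : Subgroup G), n₂ * u * n₂⁻¹ ∈ (P : Subgroup G) := by
    intro u hu
    have h1 : t * u * t⁻¹ ∈ cj (c₀ * u₀) (P : Subgroup G) := by
      rw [← hlP]; exact conj_mem_cj.2 hu
    rw [← cj_cj, cj_eq_self_of_mem hu₀, mem_cj] at h1
    have : n₂ * u * n₂⁻¹ = c₀⁻¹ * (t * u * t⁻¹) * c₀ := by rw [hn₂]; group
    rw [this]; exact h1
  have hn₂A : ∀ a ∈ A, n₂ * a * n₂⁻¹ = a⁻¹ := by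
    intro a ha
    have h1 := (Subgroup.mem_centralizer_iff.1 hc₀) a⁻¹ (A.inv_mem ha)
    calc n₂ * a * n₂⁻¹ = c₀⁻¹ * (t * a * t⁻¹) * c₀ := by rw [hn₂]; group
      _ = c₀⁻¹ * (a⁻¹ * c₀) := by rw [htA a ha]; group
      _ = a⁻¹ := by rw [h1]; group
  have hn₂A' : ∀ a ∈ A, n₂⁻¹ * a * n₂ = a⁻¹ := by
    intro a ha
    have h1 := hn₂A a⁻¹ (A.inv_mem ha)
    rw [inv_inv] at h1
    calc n₂⁻¹ * a * n₂ = n₂⁻¹ * (n₂ * a⁻¹ * n₂⁻¹) * n₂ := by rw [h1]
      _ = a⁻¹ := by group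
  -- the commutator of n₂ and v is in A
  have hb : n₂ * v * n₂⁻¹ * v⁻¹ ∈ A := by
    apply hCPA
    · exact (P : Subgroup G).mul_mem (hn₂P v hvP) ((P : Subgroup G).inv_mem hvP)
    · intro a ha
      have hav : v⁻¹ * a * v ∈ A := by
        have := hPA v⁻¹ ((P : Subgroup G).inv_mem hvP) a ha
        rwa [inv_inv] at this
      have h2 : (n₂ * v * n₂⁻¹ * v⁻¹) * a * (n₂ * v * n₂⁻¹ * v⁻¹)⁻¹ = a := by
        calc (n₂ * v * n₂⁻¹ * v⁻¹) * a * (n₂ * v * n₂⁻¹ * v⁻¹)⁻¹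
            = n₂ * (v * (n₂⁻¹ * (v⁻¹ * a * v) * n₂) * v⁻¹) * n₂⁻¹ := by group
          _ = n₂ * (v * (v⁻¹ * a * v)⁻¹ * v⁻¹) * n₂⁻¹ := by rw [hn₂A' _ hav]
          _ = n₂ * a⁻¹ * n₂⁻¹ := by group
          _ = a := by rw [hn₂A a⁻¹ (A.inv_mem ha), inv_inv]
      calc (n₂ * v * n₂⁻¹ * v⁻¹) * a = ((n₂ * v * n₂⁻¹ * v⁻¹) * a * (n₂ * v * n₂⁻¹ * v⁻¹)⁻¹) * (n₂ * v * n₂⁻¹ * v⁻¹) := by group
        _ = _ := by rw [h2]
  obtain ⟨a, ha⟩ : ∃ a, a = n₂ * v * n₂⁻¹ * v⁻¹ := ⟨_, rfl⟩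
  rw [← ha] at hb
  obtain ⟨k, hk⟩ : ∃ k, p = 2 * k + 1 := ⟨p / 2, by omega⟩
  obtain ⟨b, hbdef⟩ : ∃ b, b = a ^ (k + 1) := ⟨_, rfl⟩
  have hbA : b ∈ A := hbdef ▸ A.pow_mem hb _
  have hbb : b * b = a := by
    have h1 := ((hmemA a).1 hb).2
    rw [hbdef, ← pow_add, show k + 1 + (k + 1) = p + 1 by omega, pow_succ, h1, one_mul]
  have hfix : n₂ * (b * v) * n₂⁻¹ = b * v := by
    calc n₂ * (b * v) * n₂⁻¹ = (n₂ * b * n₂⁻¹) * (n₂ * v * n₂⁻¹ * v⁻¹) * v := by group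
      _ = b⁻¹ * (b * b) * v := by rw [hn₂A b hbA, ← ha, hbb]
      _ = b * v := by group
  have hbvP : b * v ∈ (P : Subgroup G) := (P : Subgroup G).mul_mem (hAP hbA) hvP
  have hw : (b * v) ^ p ∈ A := hZA (hPpow _ hbvP)
  have hw1 : (b * v) ^ p = 1 := by
    have h1 := hn₂A _ hw
    rw [← conj_pow, hfix] at h1
    have h2 : (b * v) ^ p * (b * v) ^ p = 1 := by nth_rewrite 1 [h1]; group
    have h3 := ((hmemA _).1 hw).2
    generalize (b * v) ^ p = w at *
    rw [hk, pow_succ, pow_mul, pow_two, h2, one_pow, one_mul] at h3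
    exact h3
  apply hvA
  have : b * v ∈ A := (hmemA _).2 ⟨hbvP, hw1⟩
  have h5 := A.mul_mem (A.inv_mem hbA) this
  rwa [inv_mul_cancel_left] at h5

/-- Let p be an odd prime and G a finite group with a Sylow p-subgroup P that is extraspecial of order p³ and exponent p². Then the centre of P is strongly closed in P with respect to G: a G-conjugate of an element of Z(P) that lies in P already lies in Z(P). In particular a nontrivial central element of P is conjugate in G to no noncentral element of P. -/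
theorem result {G : Type*} [Group G] [Finite G]
    {p : ℕ} [Fact p.Prime] (hp : p ≠ 2) (P : Sylow p G) (hE : Cfsg.IsExtraspecial p ↥P)
    (hcard : Nat.card P = p ^ 3) (hexp : Monoid.exponent ↥P = p ^ 2) :
    Cfsg.IsStronglyClosed ((Subgroup.center ↥P).map (P : Subgroup G).subtype) (P : Subgroup G) :=
  aux hp (P : Subgroup G) (isSyl_top P) hE hcard hexp

end Cfsg.Agent.S3053
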