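import Cfsg.Statements.S3055
import Mathlib
import Cfsg.Agent.Lib.H76.RV9

set_option autoImplicit false
open Cfsg

namespace Cfsg.Agent.S3055

/-- Let p be an odd prime and G a finite group with a Sylow p-subgroup P that is extraspecial of order p³ and exponent p. If all nonidentity elements of P are conjugate in G, then p ≤ 7. -/
theorem result {G : Type*} [Group G] [Finite G]
    {p : ℕ} [Fact p.Prime] (hp : p ≠ 2) (P : Sylow p G) (hE : Cfsg.IsExtraspecial p ↥P)
    (hcard : Nat.card P = p ^ 3) (hexp : Monoid.exponent ↥P = p)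
    (hconj : ∀ x y : ↥P, x ≠ 1 → y ≠ 1 → ∃ g : G, g * (x : G) * g⁻¹ = (y : G)) :
    p ≤ 7 := by
  have D := H76.RV4.data_of P hE hcard hexp
  by_contra hcon
  have hconj' : ∀ x ∈ (P : Subgroup G), ∀ y ∈ (P : Subgroup G), x ≠ 1 → y ≠ 1 → ∃ g : G, g * x * g⁻¹ = y := by
    intro x hx y hy hx1 hy1
    exact hconj ⟨x, hx⟩ ⟨y, hy⟩ (fun h => hx1 (congrArg Subtype.val h)) (fun h => hy1 (congrArg Subtype.val h))
  have hp11 : 11 ≤ p := by
    have h1 : p ≠ 8 := fun h => absurd (h ▸ (Fact.out : p.Prime)) (by norm_num)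
    have h2 : p ≠ 9 := fun h => absurd (h ▸ (Fact.out : p.Prime)) (by norm_num)
    have h3 : p ≠ 10 := fun h => absurd (h ▸ (Fact.out : p.Prime)) (by norm_num)
    omega
  by_cases h13 : p = 13
  · obtain ⟨V, hV, hVc, hinj⟩ := H76.RV9.exists_planes D 13 (by omega)
    refine H76.RV8.no_thirteen_planes D V hV hVc hinj
      (fun i => H76.RV9.move_of_conj D (hV i) (hVc i) hconj') ?_
    intro k hk
    rw [h13] at hk
    obtain ⟨c, hc⟩ := hk
    omega
  · obtain ⟨V, hV, hVc, hinj⟩ := H76.RV9.exists_planes D 3 (by omega)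
    exact H76.RV8.no_three_planes D V hV hVc hinj
      (fun i => H76.RV9.move_of_conj D (hV i) (hVc i) hconj') (H76.RV8.arith hp11 h13)

end Cfsg.Agent.S3055
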