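import Cfsg.Statements.S3059
import Mathlib
import Cfsg.Agent.Lib.H56.SPE
import Cfsg.Agent.Lib.H52.PRes

set_option autoImplicit false
open Cfsg

namespace Cfsg.Agent.S3059

open Subgroup H28.Cj H28.RelSyl H56.SPE

/-- Let p be a prime and H a strongly p-embedded subgroup of the finite group G in the classical sense: H is proper, p divides the order of H, and H ∩ gHg⁻¹ has order prime to p for every g outside H. Then for every normal subgroup N of G of order divisible by p, G = H · O^p(N), where O^p(N) is the subgroup generated by the elements of N of order prime to p. -/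
theorem result {G : Type*} [Group G] [Finite G]
    (p : ℕ) [Fact p.Prime] (H : Subgroup G) (hH : H ≠ ⊤) (hpH : p ∣ Nat.card H)
    (hse : ∀ g : G, g ∉ H → ¬ p ∣ Nat.card ↥(H ⊓ H.map (MulAut.conj g).toMonoidHom))
    (N : Subgroup G) [N.Normal] (hN : p ∣ Nat.card N) :
    H ⊔ Subgroup.closure {g : G | g ∈ N ∧ (orderOf g).Coprime p} = ⊤ := by
  have hS : CSPE p H := ⟨hH, hpH, hse⟩
  obtain ⟨P, hP, hP1⟩ := hS.exists_sylow
  have hPN : IsSyl p ((P : Subgroup G) ⊓ N) N :=
    (isSyl_top P).inf_normal (by rw [normalizer_eq_top]) le_top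
  have hPN1 : (P : Subgroup G) ⊓ N ≠ ⊥ := by
    intro h
    apply hPN.not_dvd
    rw [h, relIndex_bot_left]
    exact hN
  have hle : normalizer (((P : Subgroup G) ⊓ N : Subgroup G) : Set G) ≤ H :=
    hS.normalizer_le hPN.isPGroup hPN1 (inf_le_left.trans hP)
  have h2 := H52.PRes.sup_resOf_eq hPN.toSylow
  rw [hPN.map_toSylow, H52.PRes.resOf_eq_closure] at h2
  rw [eq_top_iff, ← hPN.frattini_sup (H := ⊤) (by rw [normalizer_eq_top]) le_top]
  refine sup_le ?_ ?_
  · conv_lhs => rw [← h2]
    exact sup_le (le_sup_of_le_left (inf_le_left.trans hP)) le_sup_right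
  · exact le_sup_of_le_left (inf_le_right.trans hle)

end Cfsg.Agent.S3059
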