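import Cfsg.Statements.S3060
import Mathlib
import Cfsg.Agent.Lib.H56.DStar
import Cfsg.Agent.Lib.H56.PP
import Cfsg.Agent.Lib.H28.RelSyl

set_option autoImplicit false
open Cfsg

namespace Cfsg.Agent.S3060

open Subgroup H56.DStar H56.Replace H56.PP H28.Cj H28.RelSyl
open scoped commutatorElement

theorem D_char {G : Type*} [Group G] {T N : Subgroup G} (h : N ≤ normalizer (T : Set G)) :
    N ≤ normalizer (D T : Set G) := h.trans (normalizer_le_normalizer_D T)

/-- the main argument -/
theorem aux {G : Type*} [Group G] [Finite G] {p : ℕ} [Fact p.Prime]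
    (hc : Subgroup.centralizer (Cfsg.pCore p G : Set G) ≤ Cfsg.pCore p G)
    (hst : ∀ (P : Subgroup G) [P.Normal], IsPGroup p P → Cfsg.IsPStableOn p P)
    (S : Subgroup G) (hS : IsSyl p S ⊤) : (D S).Normal := by
  classical
  set Q := Cfsg.pCore p G with hQ
  have hQp : IsPGroup p Q := H1.Cores.isPGroup_pCore p
  haveI hQn : Q.Normal := inferInstance
  have hSp : IsPGroup p S := hS.isPGroup
  have hQS : Q ≤ S := by
    obtain ⟨g, -, hg⟩ := hS.exists_conj_ge hQp le_top
    have h1 : cj g⁻¹ Q ≤ S := by rw [cj_le_iff, inv_inv]; exact hg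
    rwa [mem_normalizer_iff_cj.mp (by rw [normalizer_eq_top]; exact mem_top g⁻¹)] at h1
  -- normal abelian subgroups of S lie in Q
  have inQ : ∀ E : Subgroup G, E ≤ S → IsMulCommutative E → S ≤ normalizer (E : Set G) → E ≤ Q := by
    intro E hES hEab hEn e he
    have h1 : ⁅⁅Q, zpowers e⁆, zpowers e⁆ = ⊥ := by
      rw [commutator_eq_bot_iff_le_centralizer]
      have h2 : ⁅Q, zpowers e⁆ ≤ E := by
        rw [commutator_le]
        intro q hq f hf
        have hfE : f ∈ E := (zpowers_le.mpr he) hf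
        rw [commutatorElement_def]
        exact E.mul_mem ((mem_normalizer_iff.mp (hEn (hQS hq)) f).mp hfE) (E.inv_mem hfE)
      intro x hx
      rw [mem_centralizer_iff]
      intro f hf
      exact comm_of hEab ((zpowers_le.mpr he) hf) (h2 hx)
    have h2 := hst Q hQp e h1
    have h3 : e ∈ pOver p (centralizer (Q : Set G)) := h2
    -- pOver is a p-group since C(Q) ≤ Q
    have h4 : IsPGroup p (pOver p (centralizer (Q : Set G))) := by
      rintro ⟨x, hx⟩
      obtain ⟨k, hk⟩ := exists_pow_mem hx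
      obtain ⟨l, hl⟩ := hQp ⟨_, hc hk⟩
      refine ⟨k + l, ?_⟩
      apply Subtype.ext
      have h5 : (x ^ p ^ k) ^ p ^ l = 1 := by simpa [Subtype.ext_iff] using hl
      change x ^ p ^ (k + l) = 1
      rw [pow_add, pow_mul]; exact h5
    exact (H1.Cores.le_pCore_iff.mpr h4) h3
  -- T(W)
  let L : Subgroup G → Subgroup G := fun W => if h : (centralizer (W : Set G)).Normal then
    @pOver G _ p (centralizer (W : Set G)) h else ⊤
  have hL : ∀ W : Subgroup G, W.Normal → ∀ [h : (centralizer (W : Set G)).Normal],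
      L W = pOver p (centralizer (W : Set G)) := by
    intro W hW h
    exact dif_pos h
  -- facts for normal p-subgroups W ≤ Q
  have factL : ∀ W : Subgroup G, W.Normal → W ≤ Q →
      (L W).Normal ∧ Q ≤ L W ∧ (∀ x ∈ L W, ∃ k : ℕ, x ^ p ^ k ∈ centralizer (W : Set G)) ∧
      centralizer (W : Set G) ≤ L W := by
    intro W hW hWQ
    haveI := hW
    haveI hcn : (centralizer (W : Set G)).Normal := inferInstance
    rw [hL W hW]
    refine ⟨inferInstance, ?_, fun x hx => exists_pow_mem hx, le_pOver _ _⟩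
    apply le_pOver_of
    intro x hx
    obtain ⟨k, hk⟩ := hQp ⟨x, hx⟩
    refine ⟨k, ?_⟩
    have : x ^ p ^ k = 1 := by simpa [Subtype.ext_iff] using hk
    rw [this]; exact one_mem _
  have Lmono : ∀ W W' : Subgroup G, W.Normal → W'.Normal → W ≤ W' → W' ≤ Q → L W' ≤ L W := by
    intro W W' hW hW' hle hW'Q
    haveI := hW
    haveI hcn : (centralizer (W : Set G)).Normal := inferInstance
    haveI := (factL W' hW' hW'Q).1
    rw [hL W hW]
    apply le_pOver_of
    intro x hx
    obtain ⟨k, hk⟩ := (factL W' hW' hW'Q).2.2.1 x hx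
    exact ⟨k, centralizer_le hle hk⟩
  -- the family Ψ
  let Ψ : Set (Subgroup G) := {W | W.Normal ∧ W ≤ Q ∧ D S ≤ W ∧ D (S ⊓ L W) ≤ W}
  have hDSn : S ≤ normalizer (D S : Set G) := D_char le_normalizer
  have hDSQ : D S ≤ Q := inQ _ (D_le S) (D_comm hSp) hDSn
  have hTS : ∀ W : Subgroup G, W.Normal → W ≤ Q → S ≤ normalizer ((S ⊓ L W : Subgroup G) : Set G) := by
    intro W hW hWQ
    haveI := (factL W hW hWQ).1
    intro s hs
    rw [mem_normalizer_iff_cj, cj_inf, cj_eq_self_of_mem hs]
    congr 1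
    exact mem_normalizer_iff_cj.mp (by rw [normalizer_eq_top]; exact mem_top s)
  have hDTQ : ∀ W : Subgroup G, W.Normal → W ≤ Q → D (S ⊓ L W) ≤ Q := by
    intro W hW hWQ
    exact inQ _ ((D_le _).trans inf_le_left) (D_comm (hSp.to_le inf_le_left)) (D_char (hTS W hW hWQ))
  have hΨ0 : D Q ∈ Ψ := by
    have hDQn : (D Q).Normal := by
      rw [← normalizer_eq_top_iff, eq_top_iff]
      refine le_trans ?_ (normalizer_le_normalizer_D Q)
      rw [normalizer_eq_top]
    refine ⟨hDQn, D_le Q, D_le_of_le hSp hQS hDSQ, ?_⟩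
    have hQT : Q ≤ S ⊓ L (D Q) := le_inf hQS (factL _ hDQn (D_le Q)).2.1
    exact D_le_of_le (hSp.to_le inf_le_left) hQT (hDTQ _ hDQn (D_le Q))
  obtain ⟨W, hW, hmin⟩ := Set.exists_min_image Ψ (fun W => Nat.card W) (Set.toFinite _) ⟨_, hΨ0⟩
  obtain ⟨hWn, hWQ, hDW, hDTW⟩ := hW
  haveI := hWn
  haveI hcn : (centralizer (W : Set G)).Normal := inferInstance
  have hLn : (L W).Normal := (factL W hWn hWQ).1
  set T := S ⊓ L W with hT
  have hTp : IsPGroup p T := hSp.to_le inf_le_left
  have hTsyl : IsSyl p T (L W) := hS.inf_normal (by rw [normalizer_eq_top]) le_top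
  have hQT : Q ≤ T := le_inf hQS (factL W hWn hWQ).2.1
  -- L W = C(W) T
  have hLW : L W ≤ T ⊔ centralizer (W : Set G) := by
    have : H52.Syl.SylIn p T (L W) := ⟨hTsyl.toSylow, hTsyl.map_toSylow⟩
    exact this.le_sup_of_pMod (fun x hx => (factL W hWn hWQ).2.2.1 x hx)
  have hDTn : (D T).Normal := by
    rw [← normalizer_eq_top_iff, eq_top_iff,
      ← hTsyl.frattini_sup (H := ⊤) (by rw [normalizer_eq_top]) le_top]
    have h1 : centralizer (W : Set G) ≤ normalizer (D T : Set G) :=
      (centralizer_le hDTW).trans (centralizer_le_normalizer _)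
    have h2 : normalizer (T : Set G) ≤ normalizer (D T : Set G) := normalizer_le_normalizer_D T
    refine sup_le (hLW.trans (sup_le (le_normalizer.trans h2) h1)) (inf_le_right.trans h2)
  have hDTQ' : D T ≤ Q := hDTQ W hWn hWQ
  have hDST : D S ≤ D T := D_le_of_le hSp inf_le_left (hDSQ.trans hQT)
  have hΨ : D T ∈ Ψ := by
    refine ⟨hDTn, hDTQ', hDST, ?_⟩
    have hle : T ≤ S ⊓ L (D T) := le_inf inf_le_left (inf_le_right.trans (Lmono _ _ hDTn hWn hDTW hWQ))
    exact D_le_of_le (hSp.to_le inf_le_left) hle ((hDTQ _ hDTn hDTQ').trans hQT)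
  have hWeq : D T = W := eq_of_le_of_card_ge hDTW (hmin _ hΨ)
  -- W is in the family of S
  have hfam : Fam S W := by
    refine ⟨hWQ.trans hQS, by rw [← hWeq]; exact D_comm hTp, ?_⟩
    intro x hx hcl
    have hxT : x ∈ T := by
      refine ⟨hx, ?_⟩
      rw [hL W hWn]
      apply hst W (hQp.to_le hWQ) x
      rw [eq_bot_iff, ← show ⁅⁅W ⊔ zpowers x, W ⊔ zpowers x⁆, W ⊔ zpowers x⁆ = ⊥ from hcl]
      exact commutator_mono (commutator_mono le_sup_left le_sup_right) le_sup_right
    have hf : Fam T W := by rw [← hWeq]; exact fam_D hTp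
    exact hf.2.2 x hxT hcl
  have : D S = W := le_antisymm hDW (le_D hfam)
  rw [this]; exact hWn

/-- The D*-Theorem. For a finite p-group S let D*(S) be the subgroup generated by the abelian subgroups A of S such that every x ∈ S with ⟨A, x⟩ of nilpotency class at most two centralizes A. Let p be an odd prime and H a finite p-stable group with Sylow p-subgroup S. Here H is p-stable in the following sense: the largest normal p-subgroup O_p(H) contains its centralizer in H, and for every normal p-subgroup P of H, every element acting quadratically on P has image in O_p(H/C_H(P)). Then D*(S) is a normal subgroup of H. -/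
theorem result {G : Type*} [Group G] [Finite G] {p : ℕ} [Fact p.Prime] (hp : p ≠ 2)
    (hc : Subgroup.centralizer (Cfsg.pCore p G : Set G) ≤ Cfsg.pCore p G)
    (hst : ∀ (P : Subgroup G) [P.Normal], IsPGroup p P → Cfsg.IsPStableOn p P) (S : Sylow p G) :
    (Cfsg.dStarOf (S : Subgroup G)).Normal := by
  rw [dStarOf_eq]
  exact aux hc hst _ (isSyl_top S)

end Cfsg.Agent.S3060
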