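import Cfsg.Statements.S3062
import Mathlib
import Cfsg.Agent.Lib.H56.DStar
import Cfsg.Agent.Lib.H56.Replace

set_option autoImplicit false
open Cfsg

namespace Cfsg.Agent.S3062

open Subgroup H56.DStar H56.Replace H28.Cj

theorem D_normal {S : Type*} [Group S] : (D (⊤ : Subgroup S)).Normal := by
  have h := normalizer_le_normalizer_D (⊤ : Subgroup S)
  rw [normalizer_eq_top, top_le_iff] at h
  exact normalizer_eq_top_iff.mp h

theorem D_le_max {S : Type*} [Group S] [Finite S] {p : ℕ} [Fact p.Prime] (hS : IsPGroup p S)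
    {A : Subgroup S} (hA : A ∈ Cfsg.maxAbelianSubgroups S) : D (⊤ : Subgroup S) ≤ A := by
  have hD : Fam ⊤ (D (⊤ : Subgroup S)) := fam_D (hS.to_subgroup ⊤)
  haveI hDn : (D (⊤ : Subgroup S)).Normal := D_normal
  by_contra hcon
  obtain ⟨B, ⟨hB, hBD⟩, hmax⟩ := Set.exists_max_image
    {B : Subgroup S | B ∈ Cfsg.maxAbelianSubgroups S ∧ ¬ D (⊤ : Subgroup S) ≤ B}
    (fun B => Nat.card (B ⊓ D ⊤ : Subgroup S)) (Set.toFinite _) ⟨A, hA, hcon⟩
  have hnot : ¬ D (⊤ : Subgroup S) ≤ normalizer (B : Set S) := by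
    intro hle
    have h1 := hD.le_centralizer (hS.to_subgroup ⊤) hB.1 le_top hle
    rw [H14.PBasic.centralizer_eq_of_maxAbelian hB] at h1
    exact hBD h1
  obtain ⟨M, hMD, hM, hlt, hnorm⟩ := replacement hS hB hD.2.1
    (by rw [normalizer_eq_top]; exact le_top) hnot
  have hD2 : D (⊤ : Subgroup S) ≤ M ⊔ (B ⊓ centralizer (M : Set S)) := by
    by_contra hno
    have h1 := hmax _ ⟨hM, hno⟩
    exact hlt.ne (eq_of_le_of_card_ge hlt.le h1)
  exact hnot (hD2.trans hnorm)

/-- Let S be a finite p-group, J(S) the subgroup generated by the abelian subgroups of S of largest order and Z(J(S)) its centre. Then Z(S) ≤ D*(S) ≤ Z(J(S)), and every maximal normal abelian subgroup of S contains D*(S). -/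
theorem result {S : Type*} [Group S] [Finite S] {p : ℕ} [Fact p.Prime]
    (hS : IsPGroup p S) :
    Subgroup.center S ≤ Cfsg.dStar S ∧
    Cfsg.dStar S ≤ Cfsg.thompsonSubgroupA S ⊓ Subgroup.centralizer (Cfsg.thompsonSubgroupA S : Set S) ∧
    ∀ A : Subgroup S, A.Normal → IsMulCommutative A →
      (∀ B : Subgroup S, B.Normal → IsMulCommutative B → A ≤ B → B = A) → Cfsg.dStar S ≤ A := by
  rw [dStar_eq]
  have hD : Fam ⊤ (D (⊤ : Subgroup S)) := fam_D (hS.to_subgroup ⊤)
  haveI hDn : (D (⊤ : Subgroup S)).Normal := D_normal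
  refine ⟨?_, ?_, ?_⟩
  · apply le_D
    refine ⟨le_top, inferInstance, ?_⟩
    intro x _ _ a ha
    exact (mem_center_iff.mp ha x).symm
  · obtain ⟨A0, hA0⟩ := H14.PBasic.maxAbelianSubgroups_nonempty S
    refine le_inf ((D_le_max hS hA0).trans (le_sSup hA0)) ?_
    rw [Subgroup.le_centralizer_iff]
    unfold Cfsg.thompsonSubgroupA
    apply sSup_le
    intro A hA a ha
    rw [mem_centralizer_iff]
    intro d hd
    exact comm_of hA.1 (D_le_max hS hA hd) ha
  · intro A hAn hA hmax
    have h1 := hD.le_centralizer (hS.to_subgroup ⊤) hA le_top (by rw [normalizer_eq_top]; exact le_top)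
    have h2 : IsMulCommutative (A ⊔ D (⊤ : Subgroup S) : Subgroup S) := by
      apply isMulCommutative_sup hA hD.2.1
      intro a ha d hd
      exact mem_centralizer_iff.mp (h1 hd) a ha
    have h3 := hmax (A ⊔ D (⊤ : Subgroup S)) inferInstance h2 le_sup_left
    rw [← h3]
    exact le_sup_right

end Cfsg.Agent.S3062
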