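import Cfsg.Statements.S3063
import Mathlib
import Cfsg.Agent.Lib.H56.Replace
import Cfsg.Agent.Lib.H28.Cj

set_option autoImplicit false
open Cfsg

namespace Cfsg.Agent.S3063

open Subgroup H56.Replace H56.ProdCard H56.Basic H28.Cj

theorem cj_max {S : Type*} [Group S] [Finite S] {A : Subgroup S} (hA : A ∈ Cfsg.maxAbelianSubgroups S)
    (g : S) : cj g A ∈ Cfsg.maxAbelianSubgroups S := by
  refine ⟨?_, fun B hB => by rw [card_cj]; exact hA.2 B hB⟩
  apply isMulCommutative_of
  rintro _ ⟨a, ha, rfl⟩ _ ⟨b, hb, rfl⟩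
  rw [← map_mul, ← map_mul, comm_of hA.1 ha hb]

/-- A weak replacement Theorem for metabelian p-groups: let S be a finite p-group whose derived subgroup is abelian and A an abelian subgroup of S of largest possible order. Then the normal closure of A in S contains an abelian subgroup B of the same order as A that is normal in S. -/
theorem result {S : Type*} [Group S] [Finite S] {p : ℕ} [Fact p.Prime]
    (hS : IsPGroup p S) (hmeta : IsMulCommutative ↥(commutator S))
    (A : Subgroup S) (hA : A ∈ Cfsg.maxAbelianSubgroups S) :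
    ∃ B ∈ Cfsg.maxAbelianSubgroups S, B.Normal ∧ B ≤ Subgroup.normalClosure (A : Set S) := by
  set N := Subgroup.normalClosure (A : Set S) with hN
  set K : Subgroup S := commutator S ⊓ N with hK
  have hKab : IsMulCommutative K := isMulCommutative_le hmeta inf_le_left
  haveI hNn : N.Normal := normalClosure_normal
  haveI hKn : K.Normal := inferInstance
  obtain ⟨B, ⟨hB, hBN⟩, hmax⟩ := Set.exists_max_image
    {B : Subgroup S | B ∈ Cfsg.maxAbelianSubgroups S ∧ B ≤ N}
    (fun B => Nat.card (B ⊓ K : Subgroup S)) (Set.toFinite _) ⟨A, hA, subset_normalClosure⟩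
  have hKB : K ≤ normalizer (B : Set S) := by
    by_contra hnot
    obtain ⟨M, hMK, hM, hlt, hnorm⟩ := replacement hS hB hKab
      (by rw [normalizer_eq_top]; exact le_top) hnot
    have h1 := hmax _ ⟨hM, sup_le (hMK.trans inf_le_right) (inf_le_left.trans hBN)⟩
    exact hlt.ne (eq_of_le_of_card_ge hlt.le h1)
  refine ⟨B, hB, ?_, hBN⟩
  rw [← normalizer_eq_top_iff, eq_top_iff]
  intro g _
  rw [mem_normalizer_iff_cj]
  set C := cj g B with hC
  have hCmax : C ∈ Cfsg.maxAbelianSubgroups S := cj_max hB g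
  have hCN : C ≤ N := by
    rintro _ ⟨b, hb, rfl⟩
    exact hNn.conj_mem b (hBN hb) g
  have hCBK : C ≤ B ⊔ K := by
    rintro _ ⟨b, hb, rfl⟩
    have h1 : g * b * g⁻¹ * b⁻¹ ∈ K := by
      refine ⟨commutator_mem_commutator (mem_top g) (mem_top b), ?_⟩
      exact N.mul_mem (hNn.conj_mem b (hBN hb) g) (N.inv_mem (hBN hb))
    have h2 : (MulAut.conj g).toMonoidHom b = (g * b * g⁻¹ * b⁻¹) * b := by
      change g * b * g⁻¹ = _
      group
    rw [h2]
    exact mul_mem (mem_sup_right h1) (mem_sup_left hb)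
  have hCK : C ⊓ K = cj g (B ⊓ K) := by
    rw [cj_inf]
    congr 1
    exact (mem_normalizer_iff_cj.mp (by rw [normalizer_eq_top]; exact mem_top g)).symm
  have hcardCK : Nat.card (C ⊓ K : Subgroup S) = Nat.card (B ⊓ K : Subgroup S) := by
    rw [hCK, card_cj]
  -- orders of BK and CK
  have cardsup : ∀ X : Subgroup S, Nat.card (X ⊔ K : Subgroup S) * Nat.card (X ⊓ K : Subgroup S) =
      Nat.card X * Nat.card K := by
    intro X
    have h1 : K.relIndex (X ⊔ K) = K.relIndex X := relIndex_sup_right ..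
    have h2 := card_mul_relIndex (H := K) (K := X ⊔ K) le_sup_right
    have h3 := card_inf_mul_relIndex K X
    rw [h1] at h2
    rw [← h2, ← h3, inf_comm X K]
    ring
  have hsupeq : C ⊔ K = B ⊔ K := by
    apply eq_of_le_of_card_ge (sup_le hCBK le_sup_right)
    have h1 := cardsup B
    have h2 := cardsup C
    rw [hcardCK, card_cj, ← h1] at h2
    exact (Nat.eq_of_mul_eq_mul_right Nat.card_pos h2).ge
  have hBCK : B ≤ C ⊔ K := by rw [hsupeq]; exact le_sup_left
  -- C ∩ K is centralized by C and K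
  have hcen : C ⊓ K ≤ centralizer (B : Set S) := by
    rw [Subgroup.le_centralizer_iff]
    refine hBCK.trans (sup_le ?_ ?_)
    · intro c hc
      rw [mem_centralizer_iff]
      intro y hy
      exact comm_of hCmax.1 hy.1 hc
    · intro c hc
      rw [mem_centralizer_iff]
      intro y hy
      exact comm_of hKab hy.2 hc
  rw [H14.PBasic.centralizer_eq_of_maxAbelian hB] at hcen
  have hV : C ⊓ K = B ⊓ K :=
    eq_of_le_of_card_ge (le_inf hcen inf_le_right) hcardCK.ge
  -- Y
  set Y : Subgroup S := (B ⊔ C) ⊓ K with hY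
  have hCnB : C ≤ normalizer (B : Set S) := hCBK.trans (sup_le le_normalizer hKB)
  -- the new abelian subgroup
  have hcomm : ∀ y ∈ Y, ∀ d ∈ B ⊓ C, y * d = d * y := by
    intro y hy d hd
    have h1 : B ⊔ C ≤ centralizer ({d} : Set S) := by
      refine sup_le ?_ ?_
      · intro b hb; rw [mem_centralizer_singleton_iff]; exact comm_of hB.1 hb hd.1
      · intro c hc; rw [mem_centralizer_singleton_iff]; exact comm_of hCmax.1 hc hd.2
    exact mem_centralizer_singleton_iff.mp (h1 hy.1)
  have hYab : IsMulCommutative Y := isMulCommutative_le hKab inf_le_right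
  have hab : IsMulCommutative (Y ⊔ (B ⊓ C) : Subgroup S) :=
    isMulCommutative_sup hYab (isMulCommutative_le hB.1 inf_le_left) hcomm
  have hBY : B ⊔ Y = B ⊔ C := by
    apply le_antisymm (sup_le le_sup_left inf_le_left)
    refine sup_le le_sup_left ?_
    intro c hc
    have h1 := hCBK hc
    rw [sup_comm, mem_sup_of_le_normalizer (by rw [normalizer_eq_top]; exact le_top)] at h1
    obtain ⟨k, hk, b, hb, rfl⟩ := h1
    refine mul_mem (mem_sup_right ⟨?_, hk⟩) (mem_sup_left hb)
    have : k = (k * b) * b⁻¹ := by group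
    rw [this]
    exact mul_mem (mem_sup_right hc) (mem_sup_left (B.inv_mem hb))
  have hYB : Y ⊓ (B ⊓ C) = B ⊓ K := by
    apply le_antisymm
    · exact le_inf (inf_le_right.trans inf_le_left) (inf_le_left.trans inf_le_right)
    · refine le_inf (le_inf (inf_le_left.trans le_sup_left) inf_le_right) (le_inf inf_le_left ?_)
      rw [← hV]; exact inf_le_left
  have hBYi : B ⊓ Y = B ⊓ K := by
    apply le_antisymm
    · exact le_inf inf_le_left (inf_le_right.trans inf_le_right)
    · exact le_inf inf_le_left (le_inf (inf_le_left.trans le_sup_left) inf_le_right)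
  -- |B ⊔ C| |B ⊓ C| = |B| |C|
  have e1 : Nat.card (B ⊔ C : Subgroup S) * Nat.card (B ⊓ C : Subgroup S) = Nat.card B * Nat.card C := by
    have h1 := card_mul_relIndex (H := B) (K := B ⊔ C) le_sup_left
    have h2 := card_inf_mul_relIndex B C
    have h3 : B.relIndex (B ⊔ C) = B.relIndex C := by
      have h4 : B.relIndex (B ⊔ C) * Nat.card B = Nat.card (B ⊔ C : Subgroup S) := by rw [mul_comm]; exact h1
      apply le_antisymm
      · -- index bound via product set
        have h5 : Nat.card (B ⊔ C : Subgroup S) * Nat.card (B ⊓ C : Subgroup S) ≤ Nat.card B * Nat.card C := by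
          have hle : Nat.card (B ⊔ C : Subgroup S) ≤ Nat.card B * B.relIndex C := by
            have hsurj : Function.Surjective (fun x : B × (C ⧸ B.subgroupOf C) =>
                (⟨x.1 * ((x.2.out : C) : S), mul_mem (mem_sup_left x.1.2) (mem_sup_right x.2.out.2)⟩ :
                  (B ⊔ C : Subgroup S))) := by
              rintro ⟨z, hz⟩
              rw [mem_sup_of_le_normalizer hCnB] at hz
              obtain ⟨b, hb, c, hc, rfl⟩ := hz
              set q : C ⧸ B.subgroupOf C := QuotientGroup.mk ⟨c, hc⟩ with hq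
              have h6 : (q.out : C)⁻¹ * ⟨c, hc⟩ ∈ B.subgroupOf C := by
                rw [← QuotientGroup.eq]; exact Quotient.out_eq q
              have h7 : ((q.out : C) : S)⁻¹ * c ∈ B := h6
              have h8 : c * ((q.out : C) : S)⁻¹ ∈ B := by
                have h9 := (mem_normalizer_iff.mp (hCnB q.out.2) _).mp h7
                have h10 : ((q.out : C) : S) * (((q.out : C) : S)⁻¹ * c) * ((q.out : C) : S)⁻¹ =
                  c * ((q.out : C) : S)⁻¹ := by group
                rwa [h10] at h9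
              refine ⟨(⟨b * (c * ((q.out : C) : S)⁻¹), B.mul_mem hb h8⟩, q), ?_⟩
              apply Subtype.ext
              change b * (c * ((q.out : C) : S)⁻¹) * ((q.out : C) : S) = b * c
              group
            have := Nat.card_le_card_of_surjective _ hsurj
            rwa [Nat.card_prod] at this
          calc _ ≤ Nat.card B * B.relIndex C * Nat.card (B ⊓ C : Subgroup S) := Nat.mul_le_mul_right _ hle
            _ = Nat.card B * (Nat.card (B ⊓ C : Subgroup S) * B.relIndex C) := by ring
            _ = _ := by rw [h2]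
        rw [← h4, ← h2] at h5
        have h6 : (Nat.card B * Nat.card (B ⊓ C : Subgroup S)) * B.relIndex (B ⊔ C) ≤
            (Nat.card B * Nat.card (B ⊓ C : Subgroup S)) * B.relIndex C := by
          calc _ = B.relIndex (B ⊔ C) * Nat.card B * Nat.card (B ⊓ C : Subgroup S) := by ring
            _ ≤ _ := h5
            _ = _ := by ring
        exact Nat.le_of_mul_le_mul_left h6 (Nat.mul_pos Nat.card_pos Nat.card_pos)
      · exact relIndex_le_of_le_right le_sup_right (index_ne_zero_of_finite)
    rw [← h1, h3, ← h2]; ring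
  have e2 : Nat.card B * Nat.card Y ≤ Nat.card (B ⊔ C : Subgroup S) * Nat.card (B ⊓ K : Subgroup S) := by
    have := card_mul_card_le B Y
    rwa [hBY, hBYi] at this
  have e2' : Nat.card (B ⊔ C : Subgroup S) * Nat.card (B ⊓ K : Subgroup S) = Nat.card B * Nat.card Y := by
    -- Y normalizes B
    have hYn : Y ≤ normalizer (B : Set S) := inf_le_right.trans hKB
    apply le_antisymm _ e2
    have hle : Nat.card (B ⊔ Y : Subgroup S) ≤ Nat.card B * B.relIndex Y := by
      have hsurj : Function.Surjective (fun x : B × (Y ⧸ B.subgroupOf Y) =>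
          (⟨x.1 * ((x.2.out : Y) : S), mul_mem (mem_sup_left x.1.2) (mem_sup_right x.2.out.2)⟩ :
            (B ⊔ Y : Subgroup S))) := by
        rintro ⟨z, hz⟩
        rw [mem_sup_of_le_normalizer hYn] at hz
        obtain ⟨b, hb, c, hc, rfl⟩ := hz
        set q : Y ⧸ B.subgroupOf Y := QuotientGroup.mk ⟨c, hc⟩ with hq
        have h6 : (q.out : Y)⁻¹ * ⟨c, hc⟩ ∈ B.subgroupOf Y := by
          rw [← QuotientGroup.eq]; exact Quotient.out_eq q
        have h7 : ((q.out : Y) : S)⁻¹ * c ∈ B := h6
        have h8 : c * ((q.out : Y) : S)⁻¹ ∈ B := by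
          have h9 := (mem_normalizer_iff.mp (hYn q.out.2) _).mp h7
          have h10 : ((q.out : Y) : S) * (((q.out : Y) : S)⁻¹ * c) * ((q.out : Y) : S)⁻¹ =
            c * ((q.out : Y) : S)⁻¹ := by group
          rwa [h10] at h9
        refine ⟨(⟨b * (c * ((q.out : Y) : S)⁻¹), B.mul_mem hb h8⟩, q), ?_⟩
        apply Subtype.ext
        change b * (c * ((q.out : Y) : S)⁻¹) * ((q.out : Y) : S) = b * c
        group
      have := Nat.card_le_card_of_surjective _ hsurj
      rwa [Nat.card_prod] at this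
    have h2 := card_inf_mul_relIndex B Y
    rw [← hBY, ← hBYi]
    calc _ ≤ Nat.card B * B.relIndex Y * Nat.card (B ⊓ Y : Subgroup S) := Nat.mul_le_mul_right _ hle
      _ = Nat.card B * (Nat.card (B ⊓ Y : Subgroup S) * B.relIndex Y) := by ring
      _ = _ := by rw [h2]
  have e3 := card_mul_card_le Y (B ⊓ C)
  rw [hYB] at e3
  have hCB : Nat.card C = Nat.card B := card_cj g B
  -- |B| ≤ |Y ⊔ (B ⊓ C)|
  have hpos : 0 < Nat.card (B ⊓ K : Subgroup S) := Nat.card_pos
  have hposB : 0 < Nat.card B := Nat.card_pos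
  have e4 : Nat.card B ≤ Nat.card (Y ⊔ (B ⊓ C) : Subgroup S) := by
    have h1 : Nat.card B * (Nat.card B * Nat.card (B ⊓ K : Subgroup S)) ≤
        Nat.card B * (Nat.card (Y ⊔ (B ⊓ C) : Subgroup S) * Nat.card (B ⊓ K : Subgroup S)) := by
      calc Nat.card B * (Nat.card B * Nat.card (B ⊓ K : Subgroup S))
          = (Nat.card B * Nat.card C) * Nat.card (B ⊓ K : Subgroup S) := by rw [hCB]; ring
        _ = Nat.card (B ⊔ C : Subgroup S) * Nat.card (B ⊓ C : Subgroup S) * Nat.card (B ⊓ K : Subgroup S) := by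
            rw [e1]
        _ = (Nat.card (B ⊔ C : Subgroup S) * Nat.card (B ⊓ K : Subgroup S)) * Nat.card (B ⊓ C : Subgroup S) := by
            ring
        _ = Nat.card B * (Nat.card Y * Nat.card (B ⊓ C : Subgroup S)) := by rw [e2']; ring
        _ ≤ _ := Nat.mul_le_mul_left _ e3
    have h2 := Nat.le_of_mul_le_mul_left h1 hposB
    exact Nat.le_of_mul_le_mul_right h2 hpos
  have hnew : (Y ⊔ (B ⊓ C) : Subgroup S) ∈ Cfsg.maxAbelianSubgroups S :=
    ⟨hab, fun X hX => (hB.2 X hX).trans e4⟩
  have hnewN : Y ⊔ (B ⊓ C) ≤ N := sup_le (inf_le_right.trans inf_le_right) (inf_le_left.trans hBN)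
  have h5 := hmax _ ⟨hnew, hnewN⟩
  have h6 : Nat.card Y ≤ Nat.card ((Y ⊔ (B ⊓ C)) ⊓ K : Subgroup S) :=
    Subgroup.card_le_of_le (le_inf le_sup_left inf_le_right)
  have h7 : Nat.card Y ≤ Nat.card (B ⊓ K : Subgroup S) := h6.trans h5
  have h8 : Nat.card (B ⊔ C : Subgroup S) ≤ Nat.card B := by
    have h9 : Nat.card (B ⊔ C : Subgroup S) * Nat.card (B ⊓ K : Subgroup S) ≤
        Nat.card B * Nat.card (B ⊓ K : Subgroup S) := by
      rw [e2']; exact Nat.mul_le_mul_left _ h7
    exact Nat.le_of_mul_le_mul_right h9 hpos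
  have h9 : B = B ⊔ C := eq_of_le_of_card_ge le_sup_left h8
  have h10 : C ≤ B := by rw [h9]; exact le_sup_right
  exact eq_of_le_of_card_ge h10 hCB.ge

end Cfsg.Agent.S3063
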