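import Cfsg.Statements.S3064
import Mathlib
import Cfsg.Agent.Lib.H56.Isolated

set_option autoImplicit false
open Cfsg

namespace Cfsg.Agent.S3064

open Subgroup H56.Isolated

/-- Let S be a Sylow p-subgroup of the finite group G and x an element of S such that (i) x is the only G-conjugate of x lying in S, and (ii) x centralizes every subgroup of order prime to p that it normalizes. Then x lies in the centre of G. -/
theorem result {G : Type*} [Group G] [Finite G] {p : ℕ} [Fact p.Prime]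
    (S : Sylow p G) (x : G) (hx : x ∈ S)
    (hU : ∀ g : G, g⁻¹ * x * g ∈ S → g⁻¹ * x * g = x)
    (hb : ∀ H : Subgroup G, (Nat.card H).Coprime p → (∀ h ∈ H, x * h * x⁻¹ ∈ H) → ∀ h ∈ H, x * h = h * x) :
    x ∈ Subgroup.center G := by
  rw [mem_center_iff]
  intro g
  symm
  apply main p _ G rfl x _ _ hb
  · obtain ⟨k, hk⟩ := (IsPGroup.iff_orderOf.mp S.2) ⟨x, hx⟩
    exact ⟨k, by rw [← hk, ← Subgroup.orderOf_coe]⟩
  · intro g T hT hxT hgT
    have hS := H28.RelSyl.isSyl_top S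
    obtain ⟨u, -, hu⟩ := hS.exists_conj_ge hT le_top
    have h1 : u⁻¹ * x * u ∈ (S : Subgroup G) := H28.Cj.mem_cj.mp (hu hxT)
    have h2 : u⁻¹ * (g * x * g⁻¹) * u ∈ (S : Subgroup G) := H28.Cj.mem_cj.mp (hu hgT)
    have h3 := hU u h1
    have e : (g⁻¹ * u)⁻¹ * x * (g⁻¹ * u) = u⁻¹ * (g * x * g⁻¹) * u := by group
    have h4 := hU (g⁻¹ * u) (by rw [e]; exact h2)
    rw [e] at h4
    calc g * x * g⁻¹ = u * (u⁻¹ * (g * x * g⁻¹) * u) * u⁻¹ := by group
      _ = u * (u⁻¹ * x * u) * u⁻¹ := by rw [h4, h3]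
      _ = x := by group

end Cfsg.Agent.S3064
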