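import Cfsg.Statements.S3067
import Mathlib
import Cfsg.Agent.Lib.H73.InvCent3

set_option autoImplicit false
open Cfsg

namespace Cfsg.Agent.S3067

/-- Let G be a finite non-abelian simple group, τ an involution of G, and α a nontrivial automorphism of G whose order is coprime to the order of G. Then α moves some element of the centralizer of τ: α does not fix C_G(τ) elementwise. -/
theorem result {G : Type*} [Group G] [Finite G] [IsSimpleGroup G]
    (hG : ¬ IsMulCommutative G) (τ : G) (hτ : orderOf τ = 2) (α : MulAut G) (hα : α ≠ 1)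
    (hcop : (orderOf α).Coprime (Nat.card G)) :
    ∃ c ∈ Subgroup.centralizer ({τ} : Set G), α c ≠ c := by
  by_contra hne
  push_neg at hne
  haveI : Finite (MulAut G) := Finite.of_injective (fun e : MulAut G => (e : G → G)) (by
    intro a b h; exact MulEquiv.ext (fun x => congrFun h x))
  have hcen : Subgroup.center G = ⊥ := by
    rcases (inferInstance : (Subgroup.center G).Normal).eq_bot_or_eq_top with h | h
    · exact h
    · exfalso
      apply hG
      refine ⟨⟨fun a b => ?_⟩⟩
      have : a ∈ Subgroup.center G := by rw [h]; exact Subgroup.mem_top a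
      exact (Subgroup.mem_center_iff.1 this b).symm
  have hinj : Function.Injective (MulAut.conj : G →* MulAut G) := by
    rw [injective_iff_map_eq_one]
    intro g hg
    have : g ∈ Subgroup.center G := by
      rw [Subgroup.mem_center_iff]
      intro x
      have h1 : MulAut.conj g x = x := by rw [hg]; rfl
      rw [MulAut.conj_apply, mul_inv_eq_iff_eq_mul] at h1
      exact h1.symm
    rw [hcen, Subgroup.mem_bot] at this
    exact this
  have hconj : ∀ (a : MulAut G) (g : G), a * MulAut.conj g * a⁻¹ = MulAut.conj (a g) := by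
    intro a g
    ext x
    simp [MulAut.mul_apply, MulAut.conj_apply]
  set K : Subgroup (MulAut G) := (MulAut.conj : G →* MulAut G).range with hK
  set A : Subgroup (MulAut G) := Subgroup.zpowers α with hA
  have hfix : ∀ g : G, g * τ = τ * g → ∀ a ∈ A, a g = g := by
    intro g hg a ha
    have h1 : α g = g := hne g (Subgroup.mem_centralizer_singleton_iff.2 hg)
    obtain ⟨j, rfl⟩ := ha
    have h2 : α ∈ MulAction.stabilizer (MulAut G) g := h1
    exact (MulAction.stabilizer (MulAut G) g).zpow_mem h2 j
  have hyp : H73.InvCent.Hyp A K (MulAut.conj τ) := by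
    refine ⟨?_, ?_, ?_, ⟨τ, rfl⟩, ?_, ?_⟩
    · apply H1.Coprime.le_normalizer_of_conj_mem
      rintro a ha _ ⟨g, rfl⟩
      exact ⟨a g, (hconj a g).symm⟩
    · rw [hA, Nat.card_zpowers]
      have : Nat.card K = Nat.card G := (Nat.card_congr (MonoidHom.ofInjective hinj).toEquiv).symm
      rw [this]; exact hcop
    · infer_instance
    · rw [orderOf_injective _ hinj, hτ]
    · rintro _ ⟨g, rfl⟩ hg a ha
      have h1 : g * τ = τ * g := by
        apply hinj
        rw [map_mul, map_mul]; exact hg
      have h2 := hconj a g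
      rw [hfix g h1 a ha, mul_inv_eq_iff_eq_mul] at h2
      exact h2
  have hodd := H73.InvCent.main hyp
  have hle : (⁅K, A⁆ : Subgroup (MulAut G)) ≤ K := H1.Coprime2.commutator_le_left hyp.norm
  have hKn := H1.Coprime2.le_normalizer_commutator_left K A
  have hNn : ((⁅K, A⁆ : Subgroup (MulAut G)).comap MulAut.conj).Normal := by
    constructor
    intro n hn g
    rw [Subgroup.mem_comap] at hn ⊢
    rw [map_mul, map_mul, map_inv]
    exact (Subgroup.mem_normalizer_iff.1 (hKn ⟨g, rfl⟩) _).1 hn
  rcases hNn.eq_bot_or_eq_top with h | h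
  · have hbot : (⁅K, A⁆ : Subgroup (MulAut G)) = ⊥ := by
      rw [eq_bot_iff]
      intro x hx
      obtain ⟨g, rfl⟩ := hle hx
      have : g ∈ (⁅K, A⁆ : Subgroup (MulAut G)).comap MulAut.conj := hx
      rw [h, Subgroup.mem_bot] at this
      rw [this, map_one]; exact Subgroup.one_mem _
    rw [Subgroup.commutator_eq_bot_iff_le_centralizer] at hbot
    apply hα
    ext g
    apply hinj
    have h1 := Subgroup.mem_centralizer_iff.1 (hbot (show MulAut.conj g ∈ K from ⟨g, rfl⟩)) α
      (Subgroup.mem_zpowers α)
    have h2 := hconj α g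
    rw [h1, mul_inv_cancel_right] at h2
    rw [← h2]; rfl
  · have hKle : K ≤ (⁅K, A⁆ : Subgroup (MulAut G)) := by
      rintro _ ⟨g, rfl⟩
      have : g ∈ (⁅K, A⁆ : Subgroup (MulAut G)).comap MulAut.conj := by
        rw [h]; exact Subgroup.mem_top g
      exact this
    have h2 : 2 ∣ Nat.card (⁅K, A⁆ : Subgroup (MulAut G)) := by
      have hm : MulAut.conj τ ∈ (⁅K, A⁆ : Subgroup (MulAut G)) := hKle ⟨τ, rfl⟩
      have : orderOf (⟨MulAut.conj τ, hm⟩ : (⁅K, A⁆ : Subgroup (MulAut G))) = 2 := by
        rw [Subgroup.orderOf_mk, orderOf_injective _ hinj, hτ]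
      rw [← this]; exact orderOf_dvd_natCard _
    obtain ⟨j, hj⟩ := hodd
    omega

end Cfsg.Agent.S3067
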