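import Cfsg.Statements.S3075
import Mathlib
import Cfsg.Agent.Lib.H56.ProdCard

set_option autoImplicit false
open Cfsg

namespace Cfsg.Agent.S3075

/-- two elements of `N` act in the same way (up to order) on a cyclic normal subgroup -/
theorem conj_comm_of_cyclic {N : Type*} [Group N] (H : Subgroup N) [H.Normal] (hH : IsCyclic H)
    (x y h : N) (hh : h ∈ H) : (x * y) * h * (x * y)⁻¹ = (y * x) * h * (y * x)⁻¹ := by
  have h1 : (MulAut.conjNormal x * MulAut.conjNormal y : MulAut H) = MulAut.conjNormal y * MulAut.conjNormal x := by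
    apply (IsCyclic.mulAutMulEquiv H).injective
    rw [map_mul, map_mul, mul_comm]
  rw [← map_mul, ← map_mul] at h1
  have h2 := congrArg (fun f : MulAut H => ((f ⟨h, hh⟩ : H) : N)) h1
  simpa only [MulAut.conjNormal_apply] using h2

/-- Let p be an odd prime and N a finite group with a normal elementary abelian subgroup A of order p² that is its own centralizer in N, such that N/A is isomorphic to SL₂(p) (over any field F with p elements). Then N splits over A: some subgroup U of N satisfies A ∩ U = 1 and AU = N. -/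
theorem result {N : Type*} [Group N] [Finite N] {p : ℕ} [Fact p.Prime] (hp : p ≠ 2)
    (A : Subgroup N) [A.Normal] (hAcomm : IsMulCommutative A) (hAcard : Nat.card A = p ^ 2) (hAexp : Monoid.exponent ↥A = p)
    (hAself : Subgroup.centralizer (A : Set N) = A)
    {F : Type*} [Field F] [Fintype F] (hF : Fintype.card F = p) (e : N ⧸ A ≃* Matrix.SpecialLinearGroup (Fin 2) F) :
    ∃ U : Subgroup N, A ⊓ U = ⊥ ∧ A ⊔ U = ⊤ := by
  classical
  have hpp : p.Prime := Fact.out
  have hpodd : p % 2 = 1 := hpp.eq_two_or_odd.resolve_left hp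
  have hcomm : ∀ a ∈ A, ∀ b ∈ A, a * b = b * a := by
    intro a ha b hb
    have := hAcomm.is_comm.comm ⟨a, ha⟩ ⟨b, hb⟩
    exact congrArg Subtype.val this
  have hpow : ∀ a ∈ A, a ^ p = 1 := by
    intro a ha
    have h1 : (⟨a, ha⟩ : A) ^ p = 1 := by rw [← hAexp]; exact Monoid.pow_exponent_eq_one _
    exact congrArg Subtype.val h1
  have hsq1 : ∀ a ∈ A, a * a = 1 → a = 1 := by
    intro a ha h
    have h1 := hpow a ha
    obtain ⟨k, hk⟩ : ∃ k, p = 2 * k + 1 := ⟨p / 2, by omega⟩
    rw [hk, pow_succ, pow_mul, pow_two, h, one_pow, one_mul] at h1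
    exact h1
  have hchar : (2 : F) ≠ 0 := by
    intro h2
    have h3 : CharP F 2 := by
      apply CharTwo.of_one_ne_zero_of_two_eq_zero one_ne_zero h2
    obtain ⟨n, hn, hc⟩ := FiniteField.card F 2
    rw [hF] at hc
    have : 2 ∣ p := by rw [hc]; exact dvd_pow_self 2 (by positivity)
    omega
  -- the central involution
  set s : N ⧸ A := e.symm (-1) with hs
  have hss : s * s = 1 := by
    rw [hs, ← map_mul]; simp
  have hsne : s ≠ 1 := by
    intro h
    have h1 : e s = 1 := by rw [h, map_one]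
    rw [hs, MulEquiv.apply_symm_apply] at h1
    have h2 := congrArg (fun M : Matrix.SpecialLinearGroup (Fin 2) F => (M : Matrix (Fin 2) (Fin 2) F) 0 0) h1
    simp only [Matrix.SpecialLinearGroup.coe_neg, Matrix.SpecialLinearGroup.coe_one, Matrix.neg_apply, Matrix.one_apply_eq] at h2
    apply hchar
    have h3 : (1 : F) + 1 = 0 := by nth_rewrite 1 [← h2]; simp
    rw [← h3]; norm_num
  have hscen : ∀ x : N ⧸ A, x * s = s * x := by
    intro x
    apply e.injective
    rw [map_mul, map_mul, hs, MulEquiv.apply_symm_apply]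
    simp
  obtain ⟨t₀, ht₀⟩ := QuotientGroup.mk_surjective s
  set t := t₀ ^ p with ht
  have hmt : ((t : N) : N ⧸ A) = s := by
    rw [ht, QuotientGroup.mk_pow, ht₀]
    obtain ⟨k, hk⟩ : ∃ k, p = 2 * k + 1 := ⟨p / 2, by omega⟩
    rw [hk, pow_succ, pow_mul, pow_two, hss, one_pow, one_mul]
  have htt : t * t = 1 := by
    have h1 : t₀ * t₀ ∈ A := by
      rw [← QuotientGroup.eq_one_iff, QuotientGroup.mk_mul, ht₀, hss]
    have h2 := hpow _ h1
    rw [ht, ← (Commute.refl t₀).mul_pow, h2]
  have htinv : t⁻¹ = t := inv_eq_of_mul_eq_one_left htt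
  have htA : t ∉ A := by
    intro h
    rw [← QuotientGroup.eq_one_iff, hmt] at h
    exact hsne h
  -- conjugates of `t`
  have htconj : ∀ n : N, ∃ b ∈ A, n * t * n⁻¹ = b * t := by
    intro n
    refine ⟨n * t * n⁻¹ * t⁻¹, ?_, by group⟩
    rw [← QuotientGroup.eq_one_iff]
    simp only [QuotientGroup.mk_mul, QuotientGroup.mk_inv, hmt]
    rw [hscen]; group
  have hact : ∀ n : N, ∀ a ∈ A, (n * t * n⁻¹) * a * (n * t * n⁻¹)⁻¹ = t * a * t⁻¹ := by
    intro n a ha
    obtain ⟨b, hb, hbt⟩ := htconj n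
    rw [hbt]
    have h1 : t * a * t⁻¹ ∈ A := Subgroup.Normal.conj_mem inferInstance a ha t
    calc b * t * a * (b * t)⁻¹ = b * (t * a * t⁻¹) * b⁻¹ := by group
      _ = (t * a * t⁻¹) * b * b⁻¹ := by rw [hcomm b hb _ h1]
      _ = _ := by group
  have hact' : ∀ n : N, ∀ a ∈ A, t * (n * a * n⁻¹) * t⁻¹ = n * (t * a * t⁻¹) * n⁻¹ := by
    intro n a ha
    have h1 := hact n⁻¹ a ha
    rw [← h1]; group
  -- no fixed points
  have hnofix : ∀ a ∈ A, t * a * t⁻¹ = a → a = 1 := by
    by_contra hcon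
    push Not at hcon
    obtain ⟨a₀, ha₀, ha₀t, ha₀1⟩ := hcon
    obtain ⟨a₁, ha₁, ha₁t⟩ : ∃ a₁ ∈ A, t * a₁ * t⁻¹ ≠ a₁ := by
      by_contra hcon
      push Not at hcon
      apply htA
      rw [← hAself, Subgroup.mem_centralizer_iff]
      intro a ha
      have := hcon a ha
      calc a * t = (t * a * t⁻¹) * t := by rw [this]
        _ = t * a := by group
    let B : Subgroup N :=
      { carrier := {a | a ∈ A ∧ t * a * t⁻¹ = a}
        one_mem' := ⟨A.one_mem, by group⟩
        mul_mem' := by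
          rintro a b ⟨ha, ha'⟩ ⟨hb, hb'⟩
          refine ⟨A.mul_mem ha hb, ?_⟩
          calc t * (a * b) * t⁻¹ = (t * a * t⁻¹) * (t * b * t⁻¹) := by group
            _ = a * b := by rw [ha', hb']
        inv_mem' := by
          rintro a ⟨ha, ha'⟩
          refine ⟨A.inv_mem ha, ?_⟩
          calc t * a⁻¹ * t⁻¹ = (t * a * t⁻¹)⁻¹ := by group
            _ = a⁻¹ := by rw [ha'] }
    let C : Subgroup N :=
      { carrier := {a | a ∈ A ∧ t * a * t⁻¹ = a⁻¹}
        one_mem' := ⟨A.one_mem, by group⟩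
        mul_mem' := by
          rintro a b ⟨ha, ha'⟩ ⟨hb, hb'⟩
          refine ⟨A.mul_mem ha hb, ?_⟩
          calc t * (a * b) * t⁻¹ = (t * a * t⁻¹) * (t * b * t⁻¹) := by group
            _ = (b * a)⁻¹ := by rw [ha', hb']; group
            _ = (a * b)⁻¹ := by rw [hcomm a ha b hb]
        inv_mem' := by
          rintro a ⟨ha, ha'⟩
          refine ⟨A.inv_mem ha, ?_⟩
          calc t * a⁻¹ * t⁻¹ = (t * a * t⁻¹)⁻¹ := by group
            _ = a⁻¹⁻¹ := by rw [ha'] }
    have hBA : B ≤ A := fun x hx => hx.1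
    have hCA : C ≤ A := fun x hx => hx.1
    have hBn : B.Normal := by
      constructor
      rintro a ⟨ha, ha'⟩ n
      refine ⟨Subgroup.Normal.conj_mem inferInstance a ha n, ?_⟩
      rw [hact' n a ha, ha']
    have hCn : C.Normal := by
      constructor
      rintro a ⟨ha, ha'⟩ n
      refine ⟨Subgroup.Normal.conj_mem inferInstance a ha n, ?_⟩
      rw [hact' n a ha, ha']; group
    have hBC : B ⊓ C = ⊥ := by
      rw [eq_bot_iff]
      rintro a ⟨⟨ha, h1⟩, ⟨-, h2⟩⟩
      rw [h1] at h2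
      rw [Subgroup.mem_bot]
      apply hsq1 a ha
      nth_rewrite 1 [h2]; group
    have ha₀B : a₀ ∈ B := ⟨ha₀, ha₀t⟩
    have ha₂C : a₁⁻¹ * (t * a₁ * t⁻¹) ∈ C := by
      have h1 : t * a₁ * t⁻¹ ∈ A := Subgroup.Normal.conj_mem inferInstance a₁ ha₁ t
      refine ⟨A.mul_mem (A.inv_mem ha₁) h1, ?_⟩
      calc t * (a₁⁻¹ * (t * a₁ * t⁻¹)) * t⁻¹ = (t * a₁⁻¹ * t⁻¹) * ((t * t) * a₁ * (t * t)⁻¹) := by group
        _ = (a₁⁻¹ * (t * a₁ * t⁻¹))⁻¹ := by rw [htt]; group
    have hdvd : ∀ D : Subgroup N, D ≤ A → D ≠ ⊥ → D ≠ A → Nat.card D = p := by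
      intro D h1 h2 h3
      have h4 := Subgroup.card_dvd_of_le h1
      rw [hAcard, Nat.dvd_prime_pow hpp] at h4
      obtain ⟨k, hk, hk'⟩ := h4
      interval_cases k
      · exfalso; apply h2
        rw [pow_zero] at hk'
        exact Subgroup.card_eq_one.1 hk'
      · rw [hk', pow_one]
      · exfalso; apply h3
        apply Subgroup.eq_of_le_of_card_ge h1
        rw [hAcard, hk']
    have hBcard : Nat.card B = p := by
      apply hdvd B hBA
      · intro h
        rw [h, Subgroup.mem_bot] at ha₀B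
        exact ha₀1 ha₀B
      · intro h
        have : a₁ ∈ B := by rw [h]; exact ha₁
        exact ha₁t this.2
    have hCcard : Nat.card C = p := by
      apply hdvd C hCA
      · intro h
        rw [h, Subgroup.mem_bot] at ha₂C
        apply ha₁t
        calc t * a₁ * t⁻¹ = a₁ * (a₁⁻¹ * (t * a₁ * t⁻¹)) := by group
          _ = a₁ := by rw [ha₂C, mul_one]
      · intro h
        have : a₀ ∈ C := by rw [h]; exact ha₀
        have h2 := this.2
        rw [ha₀t] at h2
        apply ha₀1
        apply hsq1 a₀ ha₀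
        nth_rewrite 1 [h2]; group
    have hBCA : B ⊔ C = A := by
      apply Subgroup.eq_of_le_of_card_ge (sup_le hBA hCA)
      have := H56.ProdCard.card_mul_card_le B C
      rw [hBC, Subgroup.card_bot, mul_one, hBcard, hCcard] at this
      rw [hAcard, pow_two]; exact this
    have hBcyc : IsCyclic B := isCyclic_of_prime_card hBcard
    have hCcyc : IsCyclic C := isCyclic_of_prime_card hCcard
    have hNab : ∀ x y : N, (y * x)⁻¹ * (x * y) ∈ A := by
      intro x y
      rw [← hAself, ← hBCA]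
      have hxc : ∀ h, h ∈ B ∨ h ∈ C → h * ((y * x)⁻¹ * (x * y)) = (y * x)⁻¹ * (x * y) * h := by
        intro h hh
        have h1 : (x * y) * h * (x * y)⁻¹ = (y * x) * h * (y * x)⁻¹ := by
          rcases hh with hh | hh
          · exact conj_comm_of_cyclic B hBcyc x y h hh
          · exact conj_comm_of_cyclic C hCcyc x y h hh
        calc h * ((y * x)⁻¹ * (x * y)) = (y * x)⁻¹ * ((y * x) * h * (y * x)⁻¹) * (x * y) := by group
          _ = (y * x)⁻¹ * ((x * y) * h * (x * y)⁻¹) * (x * y) := by rw [h1]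
          _ = _ := by group
      have h2 : B ⊔ C ≤ Subgroup.centralizer ({(y * x)⁻¹ * (x * y)} : Set N) := by
        refine sup_le ?_ ?_
        · intro h hh
          rw [Subgroup.mem_centralizer_iff]
          rintro _ rfl
          exact (hxc h (Or.inl hh)).symm
        · intro h hh
          rw [Subgroup.mem_centralizer_iff]
          rintro _ rfl
          exact (hxc h (Or.inr hh)).symm
      rw [Subgroup.mem_centralizer_iff]
      intro h hh
      exact ((Subgroup.mem_centralizer_iff.1 (h2 hh)) _ rfl).symm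
    -- so `SL₂(F)` is abelian
    have hSL : ∀ x y : Matrix.SpecialLinearGroup (Fin 2) F, x * y = y * x := by
      intro x y
      apply e.symm.injective
      rw [map_mul, map_mul]
      obtain ⟨x', hx'⟩ := QuotientGroup.mk_surjective (e.symm x)
      obtain ⟨y', hy'⟩ := QuotientGroup.mk_surjective (e.symm y)
      rw [← hx', ← hy', ← QuotientGroup.mk_mul, ← QuotientGroup.mk_mul, eq_comm, QuotientGroup.eq]
      exact hNab x' y'
    let u : Matrix.SpecialLinearGroup (Fin 2) F := ⟨!![1, 1; 0, 1], by simp [Matrix.det_fin_two]⟩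
    let v : Matrix.SpecialLinearGroup (Fin 2) F := ⟨!![1, 0; 1, 1], by simp [Matrix.det_fin_two]⟩
    have h1 := congrArg (fun M : Matrix.SpecialLinearGroup (Fin 2) F => (M : Matrix (Fin 2) (Fin 2) F) 0 0) (hSL u v)
    simp only [Matrix.SpecialLinearGroup.coe_mul] at h1
    simp [u, v, Matrix.mul_apply, Fin.sum_univ_two] at h1
  have hinvert : ∀ a ∈ A, t * a * t⁻¹ = a⁻¹ := by
    intro a ha
    have h1 : t * a * t⁻¹ ∈ A := Subgroup.Normal.conj_mem inferInstance a ha t
    have h2 : a * (t * a * t⁻¹) = 1 := by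
      apply hnofix _ (A.mul_mem ha h1)
      calc t * (a * (t * a * t⁻¹)) * t⁻¹ = (t * a * t⁻¹) * ((t * t) * a * (t * t)⁻¹) := by group
        _ = (t * a * t⁻¹) * a := by rw [htt]; group
        _ = a * (t * a * t⁻¹) := (hcomm a ha _ h1).symm
    exact eq_inv_of_mul_eq_one_right h2
  refine ⟨Subgroup.centralizer {t}, ?_, ?_⟩
  · rw [eq_bot_iff]
    rintro a ⟨ha, ha'⟩
    rw [Subgroup.mem_bot]
    apply hnofix a ha
    have h1 : t * a = a * t := (Subgroup.mem_centralizer_iff.1 ha') t rfl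
    rw [h1]; group
  · rw [eq_top_iff]
    intro n _
    obtain ⟨b, hb, hbt⟩ := htconj n
    obtain ⟨k, hk⟩ : ∃ k, p = 2 * k + 1 := ⟨p / 2, by omega⟩
    set c := b ^ (k + 1) with hc
    have hcA : c ∈ A := A.pow_mem hb _
    have hcc : c * c = b := by
      have h1 := hpow b hb
      rw [hc, ← pow_add, show k + 1 + (k + 1) = p + 1 by omega, pow_succ, h1, one_mul]
    have h3 : c * t * c⁻¹ = n * t * n⁻¹ := by
      have h1 := hinvert c⁻¹ (A.inv_mem hcA)
      calc c * t * c⁻¹ = c * (t * c⁻¹ * t⁻¹) * t := by group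
        _ = c * c * t := by rw [h1, inv_inv]
        _ = n * t * n⁻¹ := by rw [hcc, hbt]
    have h4 : c⁻¹ * n ∈ Subgroup.centralizer ({t} : Set N) := by
      rw [Subgroup.mem_centralizer_iff]
      rintro _ rfl
      calc t * (c⁻¹ * n) = c⁻¹ * (c * t * c⁻¹) * n := by group
        _ = c⁻¹ * (n * t * n⁻¹) * n := by rw [h3]
        _ = c⁻¹ * n * t := by group
    have h5 : n = c * (c⁻¹ * n) := by group
    rw [h5]
    exact Subgroup.mul_mem_sup hcA h4

end Cfsg.Agent.S3075
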