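import Cfsg.Statements.S3076
import Mathlib
import Cfsg.Agent.Lib.H56.PP

set_option autoImplicit false
open Cfsg

namespace Cfsg.Agent.S3076

open H28.RelSyl in
theorem aux {G : Type*} [Group G] [Finite G] {p : ℕ} [Fact p.Prime]
    (P : Subgroup G) (hP : IsSyl p P ⊤) (H : Subgroup G) (hHP : H ≤ P)
    (M : Subgroup G) (hM : M = Subgroup.normalizer (H : Set G))
    (hSyl : ¬ p ∣ (P ⊓ M).relIndex M)
    [hC : ((Subgroup.centralizer (H : Set G)).subgroupOf M).Normal] :
    (H ≤ (H56.PP.pOver p ((Subgroup.centralizer (H : Set G)).subgroupOf M)).map M.subtype ∧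
      ¬ p ∣ H.relIndex ((H56.PP.pOver p ((Subgroup.centralizer (H : Set G)).subgroupOf M)).map M.subtype)) ↔
    (P ⊓ Subgroup.centralizer (H : Set G) ≤ H ∧
      (Cfsg.pPrimePCore p M).map M.subtype = H ⊔ Subgroup.centralizer (H : Set G)) := by
  have hHM : H ≤ M := by rw [hM]; exact Subgroup.le_normalizer
  have hCM : Subgroup.centralizer (H : Set G) ≤ M := by rw [hM]; exact Subgroup.centralizer_le_normalizer _
  have h1 : IsSyl p (P.subgroupOf M) ⊤ := by
    refine ⟨le_top, ?_, ?_⟩
    · exact hP.isPGroup.comap_of_injective _ (Subgroup.subtype_injective _)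
    · rw [Subgroup.relIndex_top_right]
      rw [Subgroup.inf_relIndex_right] at hSyl
      exact hSyl
  have h2 : (H.subgroupOf M).Normal := by
    rw [Subgroup.normal_subgroupOf_iff_le_normalizer hHM, hM]
  have h3 : (Subgroup.centralizer (H : Set G)).subgroupOf M =
      Subgroup.centralizer ((H.subgroupOf M : Subgroup M) : Set M) := by
    ext x
    rw [Subgroup.mem_subgroupOf, Subgroup.mem_centralizer_iff, Subgroup.mem_centralizer_iff]
    constructor
    · intro h y hy
      exact Subtype.ext (h y hy)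
    · intro h y hy
      exact congrArg Subtype.val (h ⟨y, hHM hy⟩ hy)
  have key := H56.PP.abstract (P.subgroupOf M) h1 (H.subgroupOf M)
    (fun x hx => hHP hx) h2 _ hC h3
  have eH : (H.subgroupOf M).map M.subtype = H := by
    rw [Subgroup.subgroupOf_map_subtype, inf_eq_left.mpr hHM]
  have eC : ((Subgroup.centralizer (H : Set G)).subgroupOf M).map M.subtype = Subgroup.centralizer (H : Set G) := by
    rw [Subgroup.subgroupOf_map_subtype, inf_eq_left.mpr hCM]
  have b1 : ∀ X : Subgroup M, H ≤ X.map M.subtype ↔ H.subgroupOf M ≤ X := by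
    intro X
    conv_lhs => rw [← eH]
    exact Subgroup.map_le_map_iff_of_injective (Subgroup.subtype_injective _)
  have b2 : ∀ X : Subgroup M, H.relIndex (X.map M.subtype) = (H.subgroupOf M).relIndex X := by
    intro X
    conv_lhs => rw [← eH]
    exact Subgroup.relIndex_map_map_of_injective _ _ (Subgroup.subtype_injective _)
  have a3 : P ⊓ Subgroup.centralizer (H : Set G) ≤ H ↔
      P.subgroupOf M ⊓ (Subgroup.centralizer (H : Set G)).subgroupOf M ≤ H.subgroupOf M := by
    constructor
    · intro h x hx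
      exact h ⟨hx.1, hx.2⟩
    · intro h x hx
      exact h (show (⟨x, hCM hx.2⟩ : M) ∈ _ from ⟨hx.1, hx.2⟩)
  have b4 : ∀ X Y Z : Subgroup M, X.map M.subtype = Y.map M.subtype ⊔ Z.map M.subtype ↔ X = Y ⊔ Z := by
    intro X Y Z
    rw [← Subgroup.map_sup]
    exact ⟨fun h => Subgroup.map_injective (Subgroup.subtype_injective _) h, fun h => by rw [h]⟩
  have a4 := b4 (Cfsg.pPrimePCore p M) (H.subgroupOf M) ((Subgroup.centralizer (H : Set G)).subgroupOf M)
  rw [eH, eC] at a4
  rw [b1, b2, a3, a4]
  exact key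

/-- Let P be a Sylow p-subgroup of the finite group G and H ≤ P a subgroup with N_P(H) a Sylow p-subgroup of N_G(H). Let N be the preimage in N_G(H) of O_p(N_G(H)/C_G(H)). Then H is a Sylow p-subgroup of N if and only if C_P(H) ≤ H and O_{p',p}(N_G(H)) = H·C_G(H). -/
theorem result {G : Type*} [Group G] [Finite G] {p : ℕ} [Fact p.Prime]
    (P : Sylow p G) (H : Subgroup G) (hHP : H ≤ (P : Subgroup G))
    (hSyl : ¬ p ∣ ((P : Subgroup G) ⊓ Subgroup.normalizer (H : Set G)).relIndex (Subgroup.normalizer (H : Set G)))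
    [hC : ((Subgroup.centralizer (H : Set G)).subgroupOf (Subgroup.normalizer (H : Set G))).Normal] :
    (H ≤ ((Cfsg.pCore p (↥(Subgroup.normalizer (H : Set G)) ⧸
              (Subgroup.centralizer (H : Set G)).subgroupOf (Subgroup.normalizer (H : Set G)))).comap
            (QuotientGroup.mk' _)).map (Subgroup.normalizer (H : Set G)).subtype ∧
      ¬ p ∣ H.relIndex (((Cfsg.pCore p (↥(Subgroup.normalizer (H : Set G)) ⧸
              (Subgroup.centralizer (H : Set G)).subgroupOf (Subgroup.normalizer (H : Set G)))).comap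
            (QuotientGroup.mk' _)).map (Subgroup.normalizer (H : Set G)).subtype)) ↔
    ((P : Subgroup G) ⊓ Subgroup.centralizer (H : Set G) ≤ H ∧
      (Cfsg.pPrimePCore p ↥(Subgroup.normalizer (H : Set G))).map (Subgroup.normalizer (H : Set G)).subtype =
        H ⊔ Subgroup.centralizer (H : Set G)) :=
  aux (P : Subgroup G) (H28.RelSyl.isSyl_top P) H hHP _ rfl hSyl

end Cfsg.Agent.S3076
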