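import Cfsg.Statements.S3078
import Mathlib
import Cfsg.Agent.Lib.H56.Repl78

set_option autoImplicit false
open Cfsg

namespace Cfsg.Agent.S3078

/-- A replacement Theorem for abelian subgroups of p-groups, p odd. Let G be a finite p-group with p odd, A an abelian subgroup of G, and B a subgroup of nilpotency class at most 2 with [B, B] ≤ A, such that A normalizes B but B does not normalize A. Then there is an abelian subgroup A* of G of the same order as A with A ∩ B strictly contained in A* ∩ B, A* contained in N_G(A) and in the normal closure of A, the exponent of A* dividing the exponent of A, and with the subgroup generated by the elements of order dividing p in A of order at most that of the corresponding subgroup of A* (the rank of A is at most the rank of A*). -/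
theorem result {G : Type*} [Group G] [Finite G] {p : ℕ} [Fact p.Prime] (hp : p ≠ 2) (hG : IsPGroup p G) (A B : Subgroup G) (hA : IsMulCommutative A) (hB2 : ⁅⁅B, B⁆, B⁆ = ⊥) (hBA : ⁅B, B⁆ ≤ A) (hAB : A ≤ Subgroup.normalizer (B : Set G)) (hBnA : ¬ B ≤ Subgroup.normalizer (A : Set G)) : ∃ Astar : Subgroup G, IsMulCommutative Astar ∧ Nat.card Astar = Nat.card A ∧ A ⊓ B < Astar ⊓ B ∧ Astar ≤ Subgroup.normalizer (A : Set G) ∧ Astar ≤ Subgroup.normalClosure (A : Set G) ∧ Monoid.exponent Astar ∣ Monoid.exponent A ∧ Nat.card (Cfsg.omegaOne p A) ≤ Nat.card (Cfsg.omegaOne p Astar) :=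
  H56.Repl78.main hp hG A B hA hBA hAB hBnA

end Cfsg.Agent.S3078
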