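import Cfsg.Statements.S3086
import Cfsg.Agent.Lib.H13.PGV12
import Cfsg.Agent.Lib.H13.Sn

set_option autoImplicit false
open Cfsg H13.PGV

namespace Cfsg.Agent.S3086

/-- The P(G,V)-theorem. Let p be a prime, G a finite group acting faithfully and linearly on a finite vector space V over the field with p elements, and A a nontrivial elementary abelian p-subgroup of G such that |A|·|C_V(A)| ≥ |B|·|C_V(B)| for every subgroup B of A. Then A normalizes every component (subnormal quasisimple subgroup) of G. -/
theorem result {G V : Type*} [Group G] [Finite G] [AddCommGroup V] [Finite V] (p : ℕ) [Fact p.Prime] [Module (ZMod p) V]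
    (ρ : Representation (ZMod p) G V) (hρ : Function.Injective ρ)
    (A : Subgroup G) (hA : A ≠ ⊥) (hAel : Cfsg.IsElementaryAbelian p A)
    (hP : ∀ B : Subgroup G, B ≤ A →
      Nat.card ↥B * Nat.card {v : V // ∀ b ∈ B, ρ b v = v} ≤ Nat.card ↥A * Nat.card {v : V // ∀ a ∈ A, ρ a v = v}) :
    ∀ K : Subgroup G, Cfsg.IsComponent K → A ≤ Subgroup.normalizer (K : Set G) := by
  intro K hK
  by_contra hn
  have hpre : Pre (p := p) ρ A K := by
    refine ⟨?_, ?_, QS.of_isQuasisimple hK.2, ?_, ?_, hn, ?_⟩
    · intro a ha b hb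
      have h3 := hAel.1.is_comm.comm (⟨a, ha⟩ : A) ⟨b, hb⟩
      exact congrArg Subtype.val h3
    · exact hAel.2
    · intro a _ han k hk l hl
      have h1 : K ≠ K.map (MulAut.conj a).toMonoidHom := by
        intro h2
        exact han (H13.Sn.mem_normalizer_of_cj h2.symm)
      have h2 := H26.Components.commutator_eq_bot_of_ne hK ((H26.Components.map_conj_iff a).2 hK) h1
      rw [Subgroup.commutator_eq_bot_iff_le_centralizer] at h2
      exact (Subgroup.mem_centralizer_iff.1 (h2 hk) (a * l * a⁻¹) ⟨l, hl, rfl⟩).symm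
    · obtain ⟨y, hy, k, hk, hne⟩ := (QS.of_isQuasisimple hK.2).ne
      refine ⟨y, hy, fun h1 => hne ?_⟩
      have h2 : y = 1 := hρ (by rw [h1, map_one])
      rw [h2, one_mul, mul_one]
    · exact hP
  exact not_pre _ G V ρ A K rfl hpre

end Cfsg.Agent.S3086
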