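import Cfsg.Statements.S3087
import Mathlib

set_option autoImplicit false
open Cfsg

namespace Cfsg.Agent.S3087

/-- fixed submodule of a subgroup -/
def fixSub {G V : Type*} [Group G] [AddCommGroup V] {k : Type*} [CommRing k] [Module k V]
    (ρ : Representation k G V) (A : Subgroup G) : Submodule k V where
  carrier := {v | ∀ a ∈ A, ρ a v = v}
  add_mem' := by
    intro x y hx hy a ha
    simp only [Set.mem_setOf_eq] at hx hy
    rw [map_add, hx a ha, hy a ha]
  zero_mem' := by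
    intro a _
    exact map_zero _
  smul_mem' := by
    intro c x hx a ha
    simp only [Set.mem_setOf_eq] at hx
    rw [map_smul, hx a ha]

/-- Let p be a prime, G a finite group acting linearly on a finite vector space V over the field with p elements, W a G-invariant subspace, and A a subgroup of G with |A|·|C_V(A)| ≥ |B|·|C_V(B)| for every subgroup B of A. Then |A|·|C_W(A)| ≥ |B|·|C_W(B)| for every subgroup B of A that contains C_A(W); that is, the image of A in the group induced on W satisfies the same maximality condition. -/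
theorem result {G V : Type*} [Group G] [Finite G] [AddCommGroup V] [Finite V] (p : ℕ) [Fact p.Prime] [Module (ZMod p) V]
    (ρ : Representation (ZMod p) G V) (W : Submodule (ZMod p) V) (hW : ∀ g : G, ∀ w ∈ W, ρ g w ∈ W)
    (A : Subgroup G)
    (hP : ∀ B : Subgroup G, B ≤ A →
      Nat.card ↥B * Nat.card {v : V // ∀ b ∈ B, ρ b v = v} ≤ Nat.card ↥A * Nat.card {v : V // ∀ a ∈ A, ρ a v = v})
    (B : Subgroup G) (hBA : B ≤ A) (hCB : ∀ a ∈ A, (∀ w ∈ W, ρ a w = w) → a ∈ B) :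
    Nat.card ↥B * Nat.card {w : W // ∀ b ∈ B, ρ b w = w} ≤ Nat.card ↥A * Nat.card {w : W // ∀ a ∈ A, ρ a w = w} := by
  classical
  -- work with fixed submodules
  set CA := fixSub ρ A with hCA
  set CB := fixSub ρ B with hCB'
  have hCAB : CA ≤ CB := fun v hv b hb => hv b (hBA hb)
  have e1 : Nat.card {v : V // ∀ a ∈ A, ρ a v = v} = Nat.card CA := rfl
  have e2 : Nat.card {v : V // ∀ b ∈ B, ρ b v = v} = Nat.card CB := rfl
  have e3 : Nat.card {w : W // ∀ a ∈ A, ρ a w = w} = Nat.card ↥(CA ⊓ W : Submodule (ZMod p) V) := by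
    refine Nat.card_congr ⟨fun w => ⟨w.1.1, w.2, w.1.2⟩, fun v => ⟨⟨v.1, v.2.2⟩, v.2.1⟩, fun _ => rfl, fun _ => rfl⟩
  have e4 : Nat.card {w : W // ∀ b ∈ B, ρ b w = w} = Nat.card ↥(CB ⊓ W : Submodule (ZMod p) V) := by
    refine Nat.card_congr ⟨fun w => ⟨w.1.1, w.2, w.1.2⟩, fun v => ⟨⟨v.1, v.2.2⟩, v.2.1⟩, fun _ => rfl, fun _ => rfl⟩
  rw [e3, e4]
  have h := hP B hBA
  rw [e1, e2] at h
  -- |CA| * |CB ⊓ W| ≤ |CB| * |CA ⊓ W|
  have key : Nat.card CA * Nat.card ↥(CB ⊓ W : Submodule (ZMod p) V) ≤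
      Nat.card CB * Nat.card ↥(CA ⊓ W : Submodule (ZMod p) V) := by
    let f : CA × ↥(CB ⊓ W : Submodule (ZMod p) V) → CB := fun x => ⟨x.1.1 + x.2.1, CB.add_mem (hCAB x.1.2) x.2.2.1⟩
    rw [← Nat.card_prod, ← Nat.card_prod]
    let s : CA × ↥(CB ⊓ W : Submodule (ZMod p) V) → CB := f
    -- choose for each element of range a preimage
    have hsurj : ∀ c : Set.range f, ∃ x, f x = c := fun c => c.2
    choose g hg using hsurj
    let F : CA × ↥(CB ⊓ W : Submodule (ZMod p) V) → CB × ↥(CA ⊓ W : Submodule (ZMod p) V) := fun x =>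
      (f x, ⟨x.1.1 - (g ⟨f x, x, rfl⟩).1.1, by
        refine ⟨CA.sub_mem x.1.2 (g ⟨f x, x, rfl⟩).1.2, ?_⟩
        have h1 : (f (g ⟨f x, x, rfl⟩)) = f x := hg ⟨f x, x, rfl⟩
        have h2 : (g ⟨f x, x, rfl⟩).1.1 + (g ⟨f x, x, rfl⟩).2.1 = x.1.1 + x.2.1 := congrArg Subtype.val h1
        have h3 : x.1.1 - (g ⟨f x, x, rfl⟩).1.1 = (g ⟨f x, x, rfl⟩).2.1 - x.2.1 := by
          rw [sub_eq_sub_iff_add_eq_add, ← h2]; abel
        rw [h3]
        exact W.sub_mem (g ⟨f x, x, rfl⟩).2.2.2 x.2.2.2⟩)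
    have hF : Function.Injective F := by
      intro x y hxy
      have h1 : f x = f y := congrArg Prod.fst hxy
      have h2 : x.1.1 - (g ⟨f x, x, rfl⟩).1.1 = y.1.1 - (g ⟨f y, y, rfl⟩).1.1 :=
        congrArg (fun z => (z.2 : V)) hxy
      have h3 : (⟨f x, x, rfl⟩ : Set.range f) = ⟨f y, y, rfl⟩ := Subtype.ext h1
      rw [h3] at h2
      have h4 : x.1.1 = y.1.1 := sub_left_injective h2
      have h5 : x.1.1 + x.2.1 = y.1.1 + y.2.1 := congrArg Subtype.val h1
      rw [h4] at h5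
      have h6 := add_left_cancel h5
      exact Prod.ext (Subtype.ext h4) (Subtype.ext h6)
    exact Nat.card_le_card_of_injective F hF
  have hposCA : 0 < Nat.card CA := Nat.card_pos
  refine Nat.le_of_mul_le_mul_left ?_ hposCA
  calc Nat.card CA * (Nat.card ↥B * Nat.card ↥(CB ⊓ W : Submodule (ZMod p) V))
      = Nat.card ↥B * (Nat.card CA * Nat.card ↥(CB ⊓ W : Submodule (ZMod p) V)) := by ring
    _ ≤ Nat.card ↥B * (Nat.card CB * Nat.card ↥(CA ⊓ W : Submodule (ZMod p) V)) := Nat.mul_le_mul_left _ key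
    _ = (Nat.card ↥B * Nat.card CB) * Nat.card ↥(CA ⊓ W : Submodule (ZMod p) V) := by ring
    _ ≤ (Nat.card ↥A * Nat.card CA) * Nat.card ↥(CA ⊓ W : Submodule (ZMod p) V) := Nat.mul_le_mul_right _ h
    _ = Nat.card CA * (Nat.card ↥A * Nat.card ↥(CA ⊓ W : Submodule (ZMod p) V)) := by ring

end Cfsg.Agent.S3087
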