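import Cfsg.Statements.S3104
import Cfsg.Agent.Lib.H57.Td1
import Cfsg.Agent.Lib.H57.Td4
import Cfsg.Agent.Lib.H57.Td5
import Cfsg.Agent.Lib.H91.Holomorph
import Cfsg.Agent.Lib.H6.SmallIsoD

set_option autoImplicit false
open Cfsg

namespace Cfsg.Agent.S3104

/-- Let X be a finite nonsolvable 2-constrained group with no nontrivial normal subgroup of odd order such that O₂(X) has sectional 2-rank at most 4, and write Q for X/O₂(X). Then Q is isomorphic to the projective special linear group of dimension 3 over the field with 2 elements, to an alternating group of degree n with 5 ≤ n ≤ 8, to a symmetric group of degree n with 5 ≤ n ≤ 7, or else O₃(Q) has order 3 and Q/O₃(Q) is isomorphic to the alternating or the symmetric group of degree 5 (so Q is the direct product of a group of order 3 with the alternating group of degree 5, or an extension of that direct product by a group of order 2). If moreover X itself has sectional 2-rank at most 4, then Q is not isomorphic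 to the symmetric group of degree 6 or 7 nor to the alternating group of degree 8. -/
theorem result {X : Type*} [Group X] [Finite X] (hns : ¬ Group.IsSolvable X) (hc : Cfsg.IsPConstrained 2 X) (hO : Cfsg.oddCore X = ⊥)
    (h4 : Cfsg.SectionalPRankLE 2 4 ↥(Cfsg.pCore 2 X)) :
    ((∃ (F : Type) (_ : Field F) (_ : Fintype F), Fintype.card F = 2 ∧
          Nonempty (X ⧸ Cfsg.pCore 2 X ≃* Matrix.ProjectiveSpecialLinearGroup (Fin 3) F)) ∨
        (∃ n : ℕ, 5 ≤ n ∧ n ≤ 8 ∧ Nonempty (X ⧸ Cfsg.pCore 2 X ≃* ↥(alternatingGroup (Fin n)))) ∨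
        (∃ n : ℕ, 5 ≤ n ∧ n ≤ 7 ∧ Nonempty (X ⧸ Cfsg.pCore 2 X ≃* Equiv.Perm (Fin n))) ∨
        (Nat.card ↥(Cfsg.pCore 3 (X ⧸ Cfsg.pCore 2 X)) = 3 ∧
          (Nonempty ((X ⧸ Cfsg.pCore 2 X) ⧸ Cfsg.pCore 3 (X ⧸ Cfsg.pCore 2 X) ≃* ↥(alternatingGroup (Fin 5))) ∨
            Nonempty ((X ⧸ Cfsg.pCore 2 X) ⧸ Cfsg.pCore 3 (X ⧸ Cfsg.pCore 2 X) ≃* Equiv.Perm (Fin 5))))) ∧
      (Cfsg.SectionalPRankLE 2 4 X →
        ¬ (Nonempty (X ⧸ Cfsg.pCore 2 X ≃* Equiv.Perm (Fin 6)) ∨ Nonempty (X ⧸ Cfsg.pCore 2 X ≃* Equiv.Perm (Fin 7)) ∨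
            Nonempty (X ⧸ Cfsg.pCore 2 X ≃* ↥(alternatingGroup (Fin 8))))) := by
  haveI : Fact (Nat.Prime 2) := ⟨Nat.prime_two⟩
  constructor
  · obtain ⟨f, hf⟩ := H61.A8Emb.quotient_embed hc hO h4
    have hPs : Group.IsSolvable (pCore 2 X) := by
      have := (H1.Cores.isPGroup_pCore (G := X) 2).isNilpotent
      infer_instance
    have hQns : ¬ Group.IsSolvable (X ⧸ pCore 2 X) :=
      fun h => hns (H57.Td.solvable_of_quot _ hPs h)
    by_cases hrf : H61.A8Sub.RF (X ⧸ pCore 2 X)
    · obtain ⟨e⟩ := H47.A8GL4.exists_equiv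
      let g : X ⧸ pCore 2 X →* GL (Fin 4) (ZMod 2) := e.toMonoidHom.comp f
      have hg : Function.Injective g := e.injective.comp hf
      let e0 : X ⧸ pCore 2 X ≃* g.range := MonoidHom.ofInjective hg
      have hne : g.range ≠ ⊥ := by
        intro h
        apply hQns
        have h1 : Subsingleton (X ⧸ pCore 2 X) := by
          constructor
          intro a b
          apply hg
          have ha : g a ∈ g.range := ⟨a, rfl⟩
          have hb : g b ∈ g.range := ⟨b, rfl⟩
          rw [h, Subgroup.mem_bot] at ha hb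
          rw [ha, hb]
        infer_instance
      rcases H61.A8Five.main g.range hne (hrf.congr e0) with ⟨n, h5, h8, ⟨e1⟩⟩ | ⟨⟨e1⟩⟩ | ⟨⟨e1⟩⟩ | ⟨⟨e1⟩⟩
      · right; left
        exact ⟨n, h5, h8, ⟨e0.trans e1⟩⟩
      · right; right; left
        exact ⟨5, le_refl _, by norm_num, ⟨e0.trans e1⟩⟩
      · right; right; left
        exact ⟨6, by norm_num, by norm_num, ⟨e0.trans e1⟩⟩
      · left
        obtain ⟨e2⟩ := H91.Holomorph.GL_eq_SL 3
        have f3 : Matrix.ProjectiveSpecialLinearGroup (Fin 3) (ZMod 2) ≃*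
            Matrix.SpecialLinearGroup (Fin 3) (ZMod 2) :=
          (QuotientGroup.quotientMulEquivOfEq H6.SmallIsoD.center_trivial).trans
            QuotientGroup.quotientBot
        exact ⟨ZMod 2, inferInstance, inferInstance, ZMod.card 2,
          ⟨((e0.trans e1).trans e2.symm).trans f3.symm⟩⟩
    · right; right; right
      refine H57.Td.three_core ((alternatingGroup (Fin 8)).subtype.comp f)
        ((Subgroup.subtype_injective _).comp hf) ?_ hQns hrf (H1.Cores.pCore_quotient_pCore 2)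
      rintro _ ⟨x, rfl⟩
      exact (f x).2
  · rintro h4X (⟨⟨e⟩⟩ | ⟨⟨e⟩⟩ | ⟨⟨e⟩⟩)
    · exact H57.Td.no_s6 hc hO h4X e.symm.toMonoidHom e.symm.injective
    · obtain ⟨f, hf⟩ := H57.Td.exists_six_seven
      exact H57.Td.no_s6 hc hO h4X (e.symm.toMonoidHom.comp f) (e.symm.injective.comp hf)
    · obtain ⟨f, hf⟩ := H57.Td.exists_six_eight
      exact H57.Td.no_s6 hc hO h4X (e.symm.toMonoidHom.comp f) (e.symm.injective.comp hf)

end Cfsg.Agent.S3104
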