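import Cfsg.Statements.S3153
import Mathlib
import Cfsg.Agent.Lib.H57.Std
import Cfsg.Agent.Lib.H57.Invol
import Cfsg.Agent.Lib.H26.GenFitting
import Cfsg.Agent.Lib.H26.PComponents
import Cfsg.Agent.Lib.H91.FourGroup

set_option autoImplicit false
open Cfsg

namespace Cfsg.Agent.S3153

/-- in a 2-subgroup of a group of 2-rank at most one all involutions are equal -/
theorem eq_of_two_group {G : Type*} [Group G] [Finite G] {C H : Subgroup G} (hr : Cfsg.PRankLE 2 1 C)
    (hH : IsPGroup 2 H) (hHC : H ≤ C) {s t : G} (hs : s ∈ H) (ht : t ∈ H) (hs1 : s ≠ 1) (ht1 : t ≠ 1)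
    (hss : s * s = 1) (htt : t * t = 1) : s = t := by
  haveI : Nontrivial H := ⟨⟨⟨s, hs⟩, 1, fun h => hs1 (congrArg Subtype.val h)⟩⟩
  haveI := hH.center_nontrivial
  have h1 : IsPGroup 2 (Subgroup.center H) := hH.to_subgroup _
  obtain ⟨n, hn, hcard⟩ := h1.nontrivial_iff_card.mp inferInstance
  obtain ⟨z, hz⟩ : ∃ z : Subgroup.center H, orderOf z = 2 := by
    apply exists_prime_orderOf_dvd_card' 2
    rw [hcard]
    exact dvd_pow_self 2 (by omega)
  have hz1 : ((z : H) : G) ≠ 1 := by
    intro h
    have : z = 1 := Subtype.ext (Subtype.ext h)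
    rw [this] at hz
    simp at hz
  have hz2 : ((z : H) : G) * z = 1 := by
    have h2 := pow_orderOf_eq_one z
    rw [hz, pow_two] at h2
    exact congrArg (fun w : Subgroup.center H => ((w : H) : G)) h2
  have hcomm : ∀ x ∈ H, x * ((z : H) : G) = ((z : H) : G) * x := by
    intro x hx
    exact congrArg Subtype.val (Subgroup.mem_center_iff.mp z.2 ⟨x, hx⟩)
  have e1 := H57.Std.eq_of_rank_le_one hr (hHC hs) (hHC z.1.2) hs1 hz1 hss hz2 (hcomm s hs)
  have e2 := H57.Std.eq_of_rank_le_one hr (hHC ht) (hHC z.1.2) ht1 hz1 htt hz2 (hcomm t ht)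
  rw [e1, e2]

theorem mem_sylow_of_normalizes {X : Type*} [Group X] [Finite X] {N : Subgroup X} (S : Sylow 2 N) {g : X}
    (hgN : ∀ s ∈ (S : Subgroup N).map N.subtype, g * s * g⁻¹ ∈ (S : Subgroup N).map N.subtype)
    (hg2 : g ^ 2 ∈ (S : Subgroup N).map N.subtype) (hg : g ∈ N) : g ∈ (S : Subgroup N).map N.subtype := by
  let g' : N := ⟨g, hg⟩
  have h1 : IsPGroup 2 (Subgroup.zpowers g') := by
    have h3 : ∃ k : ℕ, g' ^ 2 ^ k = 1 := by
      obtain ⟨x, hx, hxg⟩ := hg2
      obtain ⟨k, hk⟩ := S.isPGroup' ⟨x, hx⟩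
      have hk' : x ^ 2 ^ k = 1 := congrArg Subtype.val hk
      have hxg' : x = g' ^ 2 := Subtype.ext hxg
      refine ⟨k + 1, ?_⟩
      rw [pow_succ', pow_mul, ← hxg', hk']
    obtain ⟨k, hk⟩ := h3
    apply IsPGroup.of_card_dvd_pow (n := k)
    rw [Nat.card_zpowers]
    exact orderOf_dvd_of_pow_eq_one hk
  have h2 := h1.inf_normalizer_sylow S
  have h3 : g' ∈ Subgroup.normalizer ((S : Subgroup N) : Set N) := by
    apply Subgroup.mem_normalizer_fintype
    intro x hx
    obtain ⟨y, hy, hyx⟩ := hgN (x : X) ⟨x, hx, rfl⟩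
    have : y = g' * x * g'⁻¹ := Subtype.ext hyx
    rw [← this]
    exact hy
  have h4 : g' ∈ (S : Subgroup N) := by
    have : g' ∈ Subgroup.zpowers g' ⊓ Subgroup.normalizer ((S : Subgroup N) : Set N) :=
      ⟨Subgroup.mem_zpowers g', h3⟩
    change g' ∈ Subgroup.zpowers g' ⊓ Subgroup.normalizer (S : Set N) at this
    rw [h2] at this
    exact this.2
  exact ⟨g', h4, rfl⟩

/-- Let X be a finite group and P a standard subgroup of X whose centralizer has 2-rank at most 1 and whose centre has odd order. Let S be a Sylow 2-subgroup of N_X(P) and t an involution of S centralizing P. Suppose some element g of X normalizes S, does not lie in S, has its square in S, and conjugates t into P·C_X(P). Then P commutes elementwise with the largest normal odd-order subgroup O(X) of X; consequently every t-invariant 2-component of X containing P is quasisimple. -/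
theorem result {X : Type*} [Group X] [Finite X] (P : Subgroup X) (hP : Cfsg.IsStandardSubgroup P)
    (hr : Cfsg.PRankLE 2 1 ↥(Subgroup.centralizer (P : Set X))) (hZ : Odd (Nat.card ↥(Subgroup.center ↥P)))
    (S : Sylow 2 ↥(Subgroup.normalizer (P : Set X))) (t : X) (ht : orderOf t = 2) (htS : t ∈ (S : Subgroup ↥(Subgroup.normalizer (P : Set X))).map (Subgroup.normalizer (P : Set X)).subtype)
    (htP : t ∈ Subgroup.centralizer (P : Set X))
    (g : X) (hgN : ∀ s ∈ (S : Subgroup ↥(Subgroup.normalizer (P : Set X))).map (Subgroup.normalizer (P : Set X)).subtype, g * s * g⁻¹ ∈ (S : Subgroup ↥(Subgroup.normalizer (P : Set X))).map (Subgroup.normalizer (P : Set X)).subtype)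
    (hgS : g ∉ (S : Subgroup ↥(Subgroup.normalizer (P : Set X))).map (Subgroup.normalizer (P : Set X)).subtype) (hg2 : g ^ 2 ∈ (S : Subgroup ↥(Subgroup.normalizer (P : Set X))).map (Subgroup.normalizer (P : Set X)).subtype)
    (hgt : g * t * g⁻¹ ∈ P ⊔ Subgroup.centralizer (P : Set X)) :
    ⁅P, Cfsg.oddCore X⁆ = ⊥ ∧
      ∀ L : Subgroup X, Cfsg.IsPComponent 2 L → P ≤ L → (∀ l ∈ L, t * l * t⁻¹ ∈ L) → Cfsg.IsQuasisimple ↥L := by
  classical
  have hq : Cfsg.IsQuasisimple P := hP.1
  have hperf : ⁅P, P⁆ = P := H57.Std.isPerfect_of_quasisimple hq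
  have hct := H57.Std.centralizer_le_normalizer hP ht htP
  have htt : t * t = 1 := by
    have := pow_orderOf_eq_one t
    rwa [ht, pow_two] at this
  have ht1 : t ≠ 1 := by
    rintro rfl
    simp at ht
  have htcomm : ∀ a ∈ P, a * t = t * a := fun a ha => (Subgroup.mem_centralizer_iff.mp htP a ha)
  have hgN' : g ∉ Subgroup.normalizer (P : Set X) := fun hg => hgS (mem_sylow_of_normalizes S hgN hg2 hg)
  have hS'N : (S : Subgroup (Subgroup.normalizer (P : Set X))).map (Subgroup.normalizer (P : Set X)).subtype ≤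
      Subgroup.normalizer (P : Set X) := by
    rintro _ ⟨x, _, rfl⟩
    exact x.2
  have hS'p : IsPGroup 2 ((S : Subgroup (Subgroup.normalizer (P : Set X))).map (Subgroup.normalizer (P : Set X)).subtype) :=
    S.isPGroup'.map _
  generalize (S : Subgroup (Subgroup.normalizer (P : Set X))).map (Subgroup.normalizer (P : Set X)).subtype = S' at *
  -- t is central in S'
  have hNC : ∀ s ∈ Subgroup.normalizer (P : Set X), ∀ c ∈ Subgroup.centralizer (P : Set X),
      s * c * s⁻¹ ∈ Subgroup.centralizer (P : Set X) := by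
    intro s hs c hc
    rw [hP.2.2.2] at hs
    exact (Subgroup.mem_normalizer_iff.mp hs c).mp hc
  have htS' : ∀ s ∈ S', s * t = t * s := by
    intro s hs
    have h1 : s * t * s⁻¹ ∈ S' ⊓ Subgroup.centralizer (P : Set X) :=
      ⟨S'.mul_mem (S'.mul_mem hs htS) (S'.inv_mem hs), hNC s (hS'N hs) t htP⟩
    have h2 : s * t * s⁻¹ = t := by
      refine eq_of_two_group (H := S' ⊓ Subgroup.centralizer (P : Set X)) hr (hS'p.to_le inf_le_left) inf_le_right
        h1 ⟨htS, htP⟩ ?_ ht1 ?_ htt
      · intro h
        rw [mul_inv_eq_one] at h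
        exact ht1 (mul_eq_left.mp h)
      · calc s * t * s⁻¹ * (s * t * s⁻¹) = s * (t * t) * s⁻¹ := by group
          _ = 1 := by rw [htt]; group
    rwa [mul_inv_eq_iff_eq_mul] at h2
  set t' := g * t * g⁻¹ with ht'
  have ht'S : t' ∈ S' := hgN t htS
  have ht't : t' * t = t * t' := htS' t' ht'S
  have ht't' : t' * t' = 1 := by
    calc g * t * g⁻¹ * (g * t * g⁻¹) = g * (t * t) * g⁻¹ := by group
      _ = 1 := by rw [htt]; group
  have ht'1 : t' ≠ 1 := by
    intro h
    rw [ht', mul_inv_eq_one] at h
    exact ht1 (mul_eq_left.mp h)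
  have ht'ne : t' ≠ t := by
    intro h
    apply hgN'
    apply hct
    rw [Subgroup.mem_centralizer_singleton_iff]
    rwa [ht', mul_inv_eq_iff_eq_mul] at h
  have ht'P : t' ∉ Subgroup.centralizer (P : Set X) := by
    intro h
    exact ht'ne (H57.Std.eq_of_rank_le_one hr h htP ht'1 ht1 ht't' htt ht't)
  have hgt' : g * t' * g⁻¹ = t := by
    have h1 := htS' _ hg2
    rw [pow_two] at h1
    calc g * (g * t * g⁻¹) * g⁻¹ = (g * g * t) * (g * g)⁻¹ := by group
      _ = (t * (g * g)) * (g * g)⁻¹ := by rw [h1]
      _ = t := by group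
  -- the decomposition t' = a * c
  obtain ⟨a, haP, ha1, haa, hat⟩ : ∃ a ∈ P, a ≠ 1 ∧ a * a = 1 ∧ (t' = a ∨ t' = a * t) := by
    obtain ⟨a, ha, c, hc, hac⟩ := (H26.Basic.mem_sup_of_commutator_eq_bot (by
      rw [Subgroup.commutator_comm, Subgroup.commutator_eq_bot_iff_le_centralizer])).mp hgt
    have hcomm : a * c = c * a := Subgroup.mem_centralizer_iff.mp hc a ha
    obtain ⟨k, hk⟩ := hZ
    set m := Nat.card (Subgroup.center P) with hm
    have haacc : (a * a) * (c * c) = 1 := by
      calc (a * a) * (c * c) = a * (a * c) * c := by group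
        _ = a * (c * a) * c := by rw [hcomm]
        _ = (a * c) * (a * c) := by group
        _ = 1 := by rw [hac]; exact ht't'
    have h1 : a * a = (c * c)⁻¹ := eq_inv_of_mul_eq_one_left haacc
    have h2 : a * a ∈ Subgroup.centralizer (P : Set X) := by
      rw [h1]
      exact Subgroup.inv_mem _ (Subgroup.mul_mem _ hc hc)
    have h3 : (⟨a * a, P.mul_mem ha ha⟩ : P) ∈ Subgroup.center P := by
      rw [Subgroup.mem_center_iff]
      intro x
      exact Subtype.ext (Subgroup.mem_centralizer_iff.mp h2 x x.2)
    have h4 : (a * a) ^ m = 1 := by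
      have h5 : (⟨⟨a * a, P.mul_mem ha ha⟩, h3⟩ : Subgroup.center P) ^ m = 1 := pow_card_eq_one'
      exact congrArg (fun w : Subgroup.center P => ((w : P) : X)) h5
    have h5 : (c * c) ^ m = 1 := by
      have : c * c = (a * a)⁻¹ := eq_inv_of_mul_eq_one_right haacc
      rw [this, inv_pow, h4, inv_one]
    have hcom : Commute a c := hcomm
    have h6 : a ^ m * c ^ m = t' := by
      rw [← hcom.mul_pow, hac, hk, pow_succ, pow_mul, pow_two, ht't', one_pow, one_mul]
    have haP' : a ^ m ∈ P := P.pow_mem ha m
    have hcC' : c ^ m ∈ Subgroup.centralizer (P : Set X) := Subgroup.pow_mem _ hc m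
    have h7 : a ^ m * a ^ m = 1 := by rw [← pow_add, ← two_mul, pow_mul, pow_two, h4]
    have h8 : c ^ m * c ^ m = 1 := by rw [← pow_add, ← two_mul, pow_mul, pow_two, h5]
    have h9 : c ^ m * t = t * c ^ m := by
      have e1 : a ^ m * t = t * a ^ m := htcomm _ haP'
      have e2 : a ^ m * (c ^ m * t) = a ^ m * (t * c ^ m) := by
        calc a ^ m * (c ^ m * t) = (a ^ m * c ^ m) * t := by group
          _ = t * (a ^ m * c ^ m) := by rw [h6]; exact ht't
          _ = (t * a ^ m) * c ^ m := by group
          _ = a ^ m * (t * c ^ m) := by rw [← e1, mul_assoc]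
      exact mul_left_cancel e2
    refine ⟨a ^ m, haP', ?_, h7, ?_⟩
    · intro h
      rw [h, one_mul] at h6
      exact ht'P (h6 ▸ hcC')
    · by_cases hc1 : c ^ m = 1
      · left; rw [← h6, hc1, mul_one]
      · right
        have : c ^ m = t := H57.Std.eq_of_rank_le_one hr hcC' htP hc1 ht1 h8 htt h9
        rw [← h6, this]
  have haC : a ∉ Subgroup.centralizer (P : Set X) := by
    intro h
    have h1 : (⟨a, haP⟩ : P) ∈ Subgroup.center P := by
      rw [Subgroup.mem_center_iff]
      intro x
      exact Subtype.ext (Subgroup.mem_centralizer_iff.mp h x x.2)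
    have h2 : orderOf (⟨⟨a, haP⟩, h1⟩ : Subgroup.center P) = 2 := by
      rw [Subgroup.orderOf_mk, Subgroup.orderOf_mk]
      exact orderOf_eq_prime (by rw [pow_two, haa]) ha1
    have h3 := orderOf_dvd_natCard (⟨⟨a, haP⟩, h1⟩ : Subgroup.center P)
    rw [h2] at h3
    exact (Nat.not_even_iff_odd.mpr hZ) (even_iff_two_dvd.mpr h3)
  have hmain : ∀ N : Subgroup X, N.Normal → a ∈ N → P ≤ N := by
    intro N hN haN
    by_contra hPN
    have h1 := H57.Std.commutator_inf_eq_bot (N := N) hq (by rw [Subgroup.normalizer_eq_top]; exact le_top) hPN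
    rw [Subgroup.commutator_eq_bot_iff_le_centralizer] at h1
    exact haC (h1 ⟨haN, haP⟩)
  have hoddcard : Odd (Nat.card (Cfsg.oddCore X)) := by
    have := H1.Cores.coprime_card_pPrimeCore (G := X) 2
    exact (Nat.coprime_two_right).mp this
  have hodd_no : ∀ N : Subgroup X, Odd (Nat.card N) → a ∉ N := by
    intro N hN h
    have h1 : orderOf (⟨a, h⟩ : N) = 2 := by
      rw [Subgroup.orderOf_mk]
      exact orderOf_eq_prime (by rw [pow_two, haa]) ha1
    have h2 := orderOf_dvd_natCard (⟨a, h⟩ : N)
    rw [h1] at h2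
    exact (Nat.not_even_iff_odd.mpr hN) (even_iff_two_dvd.mpr h2)
  have hPO : ¬ P ≤ Cfsg.oddCore X := fun h => hodd_no _ hoddcard (h haP)
  have hfixO := H57.Std.commutator_fixed_eq_bot (N := Cfsg.oddCore X) hq hPO hct
  have hfixO' : ∀ p ∈ P, ∀ k ∈ Cfsg.oddCore X, t * k = k * t → p * k = k * p := by
    intro p hp k hk htk
    exact H26.Basic.commute_of_commutator_eq_bot hfixO hp ⟨hk, Subgroup.mem_centralizer_singleton_iff.mpr htk.symm⟩
  have hOn : (Cfsg.oddCore X).Normal := inferInstance
  -- conjugated version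
  have hfixO'' : ∀ p ∈ P, ∀ k ∈ Cfsg.oddCore X, t' * k = k * t' → (g * p * g⁻¹) * k = k * (g * p * g⁻¹) := by
    intro p hp k hk htk
    have hk' : g⁻¹ * k * g ∈ Cfsg.oddCore X := by
      have := hOn.conj_mem k hk g⁻¹
      simpa using this
    have h3 : t * (g⁻¹ * k * g) = (g⁻¹ * k * g) * t := by
      have h4 : g⁻¹ * (t' * k) * g = g⁻¹ * (k * t') * g := by rw [htk]
      calc t * (g⁻¹ * k * g) = g⁻¹ * (g * t * g⁻¹ * k) * g := by group
        _ = g⁻¹ * (k * (g * t * g⁻¹)) * g := h4
        _ = (g⁻¹ * k * g) * t := by group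
    have h5 := hfixO' p hp _ hk' h3
    calc (g * p * g⁻¹) * k = g * (p * (g⁻¹ * k * g)) * g⁻¹ := by group
      _ = g * ((g⁻¹ * k * g) * p) * g⁻¹ := by rw [h5]
      _ = k * (g * p * g⁻¹) := by group
  have hat' : a * t = t * a := htcomm a haP
  have hPcO : P ≤ Subgroup.centralizer (Cfsg.oddCore X : Set X) := by
    rcases hat with hat | hat
    · -- t' = a
      have hga : g * a * g⁻¹ = t := by rw [← hat]; exact hgt'
      have e1 : ∀ k ∈ Cfsg.oddCore X, t * k = k * t → a * k = k * a := fun k hk h => hfixO' a haP k hk h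
      have e2 : ∀ k ∈ Cfsg.oddCore X, a * k = k * a → t * k = k * t := by
        intro k hk h
        have := hfixO'' a haP k hk (by rw [hat]; exact h)
        rwa [hga] at this
      have hle : Cfsg.oddCore X ≤ Subgroup.centralizer ({t * a} : Set X) := by
        have e3 : ∀ k : X, t * k = k * t → a * k = k * a → k ∈ Subgroup.centralizer ({t * a} : Set X) := by
          intro k h1 h2
          rw [Subgroup.mem_centralizer_singleton_iff]
          calc k * (t * a) = (k * t) * a := by group
            _ = t * (k * a) := by rw [← h1, mul_assoc]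
            _ = t * a * k := by rw [← h2, mul_assoc]
        refine H91.FourGroup.le_of_centralizers hoddcard (a := t) (b := a) htt haa hat'.symm ?_ ?_ ?_ ?_ ?_
        · rw [Subgroup.normalizer_eq_top]; trivial
        · rw [Subgroup.normalizer_eq_top]; trivial
        · intro k hk h; exact e3 k h (e1 k hk h)
        · intro k hk h; exact e3 k (e2 k hk h) h
        · intro k hk h
          rw [Subgroup.mem_centralizer_singleton_iff]
          exact h.symm
      -- so t * a centralizes the odd core
      set D := Subgroup.centralizer (Cfsg.oddCore X : Set X) with hD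
      have hDn : D.Normal := inferInstance
      have htaD : t * a ∈ D := by
        rw [hD, Subgroup.mem_centralizer_iff]
        intro k hk
        exact Subgroup.mem_centralizer_singleton_iff.mp (hle hk)
      by_contra hPD
      have h1 := H57.Std.commutator_inf_eq_bot (N := D) hq (by rw [Subgroup.normalizer_eq_top]; exact le_top) hPD
      have h2 : ⁅P, Subgroup.zpowers a⁆ ≤ D ⊓ P := by
        apply le_inf
        · rw [Subgroup.commutator_le]
          intro x hx y hy
          obtain ⟨k, rfl⟩ := Subgroup.mem_zpowers_iff.mp hy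
          let q := QuotientGroup.mk' D
          have h3 : Commute (q x) (q a) := by
            have h4 : q (t * a) = 1 := (QuotientGroup.eq_one_iff _).mpr htaD
            rw [map_mul] at h4
            have h5 : q a = (q t)⁻¹ := eq_inv_of_mul_eq_one_right h4
            rw [h5]
            apply Commute.inv_right
            show q x * q t = q t * q x
            rw [← map_mul, ← map_mul, htcomm x hx]
          have h6 := (h3.zpow_right k)
          rw [commutatorElement_def, ← QuotientGroup.eq_one_iff]
          show q (x * a ^ k * x⁻¹ * (a ^ k)⁻¹) = 1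
          rw [map_mul, map_mul, map_mul, map_inv, map_inv, mul_inv_eq_one, mul_inv_eq_iff_eq_mul, map_zpow]
          exact h6.eq
        · calc ⁅P, Subgroup.zpowers a⁆ ≤ ⁅P, P⁆ := Subgroup.commutator_mono le_rfl (by
                rw [Subgroup.zpowers_le]; exact haP)
            _ ≤ P := Subgroup.commutator_le_self P
      have h3 : ⁅P, Subgroup.zpowers a⁆ = ⊥ := by
        apply H26.Basic.commutator_eq_bot_of_perfect' hperf
        exact le_bot_iff.mp (h1 ▸ Subgroup.commutator_mono h2 le_rfl)
      apply haC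
      rw [Subgroup.mem_centralizer_iff]
      intro p hp
      exact H26.Basic.commute_of_commutator_eq_bot h3 hp (Subgroup.mem_zpowers a)
    · -- t' = a * t
      have hga : g * a * g⁻¹ = a := by
        have h1 : a = t' * t := by rw [hat, mul_assoc, htt, mul_one]
        have h2 : g * a * g⁻¹ = (g * t' * g⁻¹) * (g * t * g⁻¹) := by rw [h1]; group
        rw [h2, hgt', ← ht', ← ht't]
        exact h1.symm
      have hle : Cfsg.oddCore X ≤ Subgroup.centralizer ({a} : Set X) := by
        refine H91.FourGroup.le_of_centralizers hoddcard (a := t) (b := t') htt ht't' ht't.symm ?_ ?_ ?_ ?_ ?_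
        · rw [Subgroup.normalizer_eq_top]; trivial
        · rw [Subgroup.normalizer_eq_top]; trivial
        · intro k hk h
          rw [Subgroup.mem_centralizer_singleton_iff]
          exact (hfixO' a haP k hk h).symm
        · intro k hk h
          rw [Subgroup.mem_centralizer_singleton_iff]
          have := hfixO'' a haP k hk h
          rw [hga] at this
          exact this.symm
        · intro k hk h
          rw [Subgroup.mem_centralizer_singleton_iff]
          have h3 : t * t' = a := by rw [hat, hat', ← mul_assoc, htt, one_mul]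
          rw [h3] at h
          exact h.symm
      apply hmain _ inferInstance
      rw [Subgroup.mem_centralizer_iff]
      intro k hk
      exact Subgroup.mem_centralizer_singleton_iff.mp (hle hk)
  refine ⟨?_, ?_⟩
  · rw [Subgroup.commutator_eq_bot_iff_le_centralizer]
    exact hPcO
  · intro L hL hPL _
    rw [H26.PComponents.isQuasisimple_iff hL, H26.PComponents.map_pPrimeCore_eq hL.1]
    set D := Subgroup.centralizer (Cfsg.oddCore X : Set X) with hD
    suffices hLD : L ≤ D by
      rw [Subgroup.commutator_comm, Subgroup.commutator_eq_bot_iff_le_centralizer]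
      refine inf_le_right.trans ?_
      intro k hk
      rw [Subgroup.mem_centralizer_iff]
      intro l hl
      exact (Subgroup.mem_centralizer_iff.mp (hLD hl) k hk).symm
    have hNn : (D.subgroupOf L).Normal := inferInstance
    have hQ := H26.PComponents.isQuasisimple_quotient hL
    set q := QuotientGroup.mk' (Cfsg.pPrimeCore 2 L) with hq'
    have hqs : Function.Surjective q := QuotientGroup.mk'_surjective _
    haveI hNqn : ((D.subgroupOf L).map q).Normal := hNn.map q hqs
    rcases H26.Quasisimple.normal_eq_top_or_le_center hQ ((D.subgroupOf L).map q) with h | h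
    · have h1 : D.subgroupOf L ⊔ Cfsg.pPrimeCore 2 L = ⊤ := by
        have h2 := congrArg (Subgroup.comap q) h
        rw [Subgroup.comap_map_eq, QuotientGroup.ker_mk', Subgroup.comap_top] at h2
        exact h2
      have h2 : (D.subgroupOf L).index.Coprime 2 := by
        have h3 : (D.subgroupOf L).relIndex (Cfsg.pPrimeCore 2 L) = (D.subgroupOf L).index := by
          rw [← Subgroup.relIndex_sup_right, sup_comm, h1, Subgroup.relIndex_top_right]
        rw [← h3]
        exact Nat.Coprime.coprime_dvd_left (Subgroup.relIndex_dvd_card _ _) (H1.Cores.coprime_card_pPrimeCore 2)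
      have h3 := H26.PComponents.eq_top_of_coprime_index hL (D.subgroupOf L) hNn.isSubnormal h2
      rwa [Subgroup.subgroupOf_eq_top] at h3
    · exfalso
      -- P maps into the centre, but it is perfect
      have h1 : (P.subgroupOf L).map q ≤ Subgroup.center _ := by
        refine le_trans (Subgroup.map_mono ?_) h
        intro x hx
        exact hPcO hx
      have h2 : ⁅(P.subgroupOf L).map q, (P.subgroupOf L).map q⁆ = ⊥ := by
        rw [Subgroup.commutator_eq_bot_iff_le_centralizer]
        exact h1.trans (Subgroup.center_le_centralizer _)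
      have h3 : ⁅P.subgroupOf L, P.subgroupOf L⁆ = P.subgroupOf L := by
        apply Subgroup.map_injective L.subtype_injective
        rw [Subgroup.map_commutator, Subgroup.map_subgroupOf_eq_of_le hPL, hperf]
      rw [← Subgroup.map_commutator, h3, Subgroup.map_eq_bot_iff, QuotientGroup.ker_mk'] at h2
      have h4 : (⟨a, hPL haP⟩ : L) ∈ Cfsg.pPrimeCore 2 L := h2 haP
      have h5 : a ∈ (Cfsg.pPrimeCore 2 L).map L.subtype := ⟨_, h4, rfl⟩
      rw [H26.PComponents.map_pPrimeCore_eq hL.1] at h5
      exact hodd_no _ hoddcard h5.2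

end Cfsg.Agent.S3153
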