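import Cfsg.Statements.S3154
import Cfsg.Agent.Lib.H98.Cov4c

set_option autoImplicit false
open Cfsg

namespace Cfsg.Agent.S3154

/-- Let X be a finite quasisimple group whose centre is an elementary abelian 2-group and whose central quotient is isomorphic to the projective special linear group of dimension 3 over the field with 4 elements. Let T be a Sylow 2-subgroup of X and H ≠ K subgroups of T containing the centre Z(X) whose images in X/Z(X) are elementary abelian of order 16 (the two such subgroups of a Sylow 2-subgroup of the quotient). Then H and K are elementary abelian, H ∩ K is the centre of the subgroup they generate, and each of N_X(H), N_X(K) is a split extension of H, respectively K, by the projective special linear group of dimension 2 over the field with 4 elements (there is a complement isomorphic to that group). -/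
theorem result {X : Type*} [Group X] [Finite X] (hq : Cfsg.IsQuasisimple X) (hZ : Cfsg.IsElementaryAbelian 2 (Subgroup.center X))
    {F : Type*} [Field F] [Fintype F] (hF : Fintype.card F = 4) (hXL : Nonempty ((X ⧸ Subgroup.center X) ≃* Matrix.ProjectiveSpecialLinearGroup (Fin 3) F))
    (T : Sylow 2 X) (H K : Subgroup X) (hHK : H ≠ K) (hHT : H ≤ T) (hKT : K ≤ T) (hZH : Subgroup.center X ≤ H) (hZK : Subgroup.center X ≤ K)
    (hH : Cfsg.IsElementaryAbelian 2 (H.map (QuotientGroup.mk' (Subgroup.center X))) ∧ Nat.card ↥(H.map (QuotientGroup.mk' (Subgroup.center X))) = 16)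
    (hK : Cfsg.IsElementaryAbelian 2 (K.map (QuotientGroup.mk' (Subgroup.center X))) ∧ Nat.card ↥(K.map (QuotientGroup.mk' (Subgroup.center X))) = 16) :
    Cfsg.IsElementaryAbelian 2 H ∧ Cfsg.IsElementaryAbelian 2 K ∧
      H ⊓ K = (Subgroup.center ↥(H ⊔ K)).map (H ⊔ K).subtype ∧
      (∃ C : Subgroup X, C ≤ Subgroup.normalizer (H : Set X) ∧ C ⊓ H = ⊥ ∧ H ⊔ C = Subgroup.normalizer (H : Set X) ∧
        Nonempty (↥C ≃* Matrix.ProjectiveSpecialLinearGroup (Fin 2) F)) ∧
      (∃ C : Subgroup X, C ≤ Subgroup.normalizer (K : Set X) ∧ C ⊓ K = ⊥ ∧ K ⊔ C = Subgroup.normalizer (K : Set X) ∧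
        Nonempty (↥C ≃* Matrix.ProjectiveSpecialLinearGroup (Fin 2) F)) := by
  obtain ⟨e⟩ := hXL
  obtain ⟨φ, hφdef⟩ : ∃ φ : X →* Matrix.ProjectiveSpecialLinearGroup (Fin 3) F,
    φ = e.toMonoidHom.comp (QuotientGroup.mk' (Subgroup.center X)) := ⟨_, rfl⟩
  have hφ : Function.Surjective φ := by
    rw [hφdef]
    exact e.surjective.comp (QuotientGroup.mk'_surjective _)
  have hker : φ.ker = Subgroup.center X := by
    ext x
    rw [MonoidHom.mem_ker, hφdef]
    show e (QuotientGroup.mk' _ x) = 1 ↔ _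
    rw [map_eq_one_iff e e.injective]
    exact QuotientGroup.eq_one_iff x
  have hmap : ∀ S : Subgroup X, S.map φ = (S.map (QuotientGroup.mk' (Subgroup.center X))).map e.toMonoidHom := by
    intro S
    rw [hφdef, Subgroup.map_map]
  have hel : ∀ S : Subgroup X, Cfsg.IsElementaryAbelian 2 (S.map (QuotientGroup.mk' (Subgroup.center X))) →
      Cfsg.IsElementaryAbelian 2 (S.map φ) := by
    intro S hS
    rw [hmap]
    exact H98.Cov4b.elem_map _ hS
  have hcd : ∀ S : Subgroup X, Nat.card (S.map (QuotientGroup.mk' (Subgroup.center X))) = 16 → Nat.card (S.map φ) = 16 := by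
    intro S hS
    rw [hmap, ← hS]
    exact Nat.card_congr (Subgroup.equivMapOfInjective _ _ e.injective).symm.toEquiv
  have hne : H.map φ ≠ K.map φ := by
    intro h
    apply hHK
    ext x
    constructor
    · intro hx
      apply H98.Cov4c.mem_of_map φ hker hZK
      rw [← h]
      exact ⟨x, hx, rfl⟩
    · intro hx
      apply H98.Cov4c.mem_of_map φ hker hZH
      rw [h]
      exact ⟨x, hx, rfl⟩
  have h2 : Fact (Nat.Prime 2) := ⟨Nat.prime_two⟩
  obtain ⟨f1, f2, f3⟩ := H98.Cov4b.fact_syl hF (T.mapSurjective hφ) (H.map φ) (K.map φ)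
    (Subgroup.map_mono hHT) (Subgroup.map_mono hKT) (hel H hH.1) (hcd H hH.2) (hel K hK.1) (hcd K hK.2) hne
  obtain ⟨g1, g2, g3⟩ := H98.Cov4b.fact_syl hF (T.mapSurjective hφ) (K.map φ) (H.map φ)
    (Subgroup.map_mono hKT) (Subgroup.map_mono hHT) (hel K hK.1) (hcd K hK.2) (hel H hH.1) (hcd H hH.2) hne.symm
  have eH := H98.Cov4c.elem φ hφ hker hZ H f1 (hel H hH.1) (hcd H hH.2)
  have eK := H98.Cov4c.elem φ hφ hker hZ K g1 (hel K hK.1) (hcd K hK.2)
  exact ⟨eH, eK, H98.Cov4c.inter φ hker H K f1 g1 hZH hZK eH eK,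
    H98.Cov4c.compl φ hφ hker T H K f1 hZH hZK hHT hKT f2 f3 eH eK,
    H98.Cov4c.compl φ hφ hker T K H g1 hZK hZH hKT hHT g2 g3 eK eH⟩

end Cfsg.Agent.S3154
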