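import Cfsg.Statements.S3155
import Mathlib

set_option autoImplicit false
open Cfsg

namespace Cfsg.Agent.S3155

/-- Let B be the direct product of three cyclic groups of order 4. Then the automorphism of B inverting every element is not the square of any automorphism of B. -/
theorem result {B : Type*} [CommGroup B] [Finite B] (hB : Nonempty (B ≃* Multiplicative (ZMod 4 × ZMod 4 × ZMod 4)))
    (τ : B ≃* B) : τ.trans τ ≠ MulEquiv.inv B := by
  intro hτ
  obtain ⟨e⟩ := hB
  haveI : Fact (1 < 4) := ⟨by norm_num⟩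
  -- additive endomorphism
  let σ : (ZMod 4 × ZMod 4 × ZMod 4) →+ (ZMod 4 × ZMod 4 × ZMod 4) :=
    { toFun := fun v => (e (τ (e.symm (Multiplicative.ofAdd v)))).toAdd
      map_zero' := by simp
      map_add' := by
        intro x y
        rw [ofAdd_add, map_mul, map_mul, map_mul, toAdd_mul] }
  let f : (ZMod 4 × ZMod 4 × ZMod 4) →ₗ[ZMod 4] (ZMod 4 × ZMod 4 × ZMod 4) := σ.toZModLinearMap 4
  have hf : f * f = (-1 : ZMod 4) • (1 : Module.End (ZMod 4) (ZMod 4 × ZMod 4 × ZMod 4)) := by
    apply LinearMap.ext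
    intro v
    show f (f v) = (-1 : ZMod 4) • v
    have h1 : τ (τ (e.symm (Multiplicative.ofAdd v))) = (e.symm (Multiplicative.ofAdd v))⁻¹ := by
      have := DFunLike.congr_fun hτ (e.symm (Multiplicative.ofAdd v))
      simpa using this
    have h2 : f (f v) = (e (τ (e.symm (Multiplicative.ofAdd ((e (τ (e.symm (Multiplicative.ofAdd v)))).toAdd))))).toAdd := rfl
    rw [h2, ofAdd_toAdd, MulEquiv.symm_apply_apply, h1, map_inv, MulEquiv.apply_symm_apply, toAdd_inv, toAdd_ofAdd]
    simp
  have hd := congrArg LinearMap.det hf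
  rw [map_mul, LinearMap.det_smul, map_one, mul_one] at hd
  have hr : Module.finrank (ZMod 4) (ZMod 4 × ZMod 4 × ZMod 4) = 3 := by
    rw [Module.finrank_prod, Module.finrank_prod, Module.finrank_self]
  rw [hr] at hd
  generalize LinearMap.det f = d at hd
  revert hd
  revert d
  decide

end Cfsg.Agent.S3155
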