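import Cfsg.Statements.S3156
import Cfsg.Agent.Lib.H86.U3AutC

set_option autoImplicit false
open Cfsg

namespace Cfsg.Agent.S3156

/-- If a finite group T is isomorphic to a Sylow 2-subgroup of the projective special unitary group of dimension 3 with parameter 4 (realised over the field with 16 elements), then no subgroup of the automorphism group of T is isomorphic to the symmetric group of degree 3. -/
theorem result {T : Type*} [Group T] [Finite T] (hT : (∃ (F : Type) (_ : Field F) (_ : Fintype F), Fintype.card F = 16 ∧ ∃ S : Sylow 2 (Cfsg.PSU 3 F 4), Nonempty (T ≃* ↥(S : Subgroup (Cfsg.PSU 3 F 4))))) (H : Subgroup (MulAut T)) : ¬ Nonempty (↥H ≃* Equiv.Perm (Fin 3)) := by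
  rintro ⟨e⟩
  obtain ⟨F, _, _, hF, S, ⟨f⟩⟩ := hT
  have hK : Fintype.card F = 4 ^ 2 := by rw [hF]; norm_num
  have two : (2 : F) = 0 := by
    have : Fact (Nat.Prime 2) := ⟨Nat.prime_two⟩
    have hch : CharP F 2 := charP_of_card_eq_prime_pow (f := 4) (by rw [hF]; norm_num)
    exact_mod_cast CharP.cast_eq_zero F 2
  obtain ⟨f'⟩ := H24.U3Syl.main two hK (n := 2) le_rfl (by norm_num) S
  let E : MulAut T ≃* MulAut (H24.U3Syl.U two hK) := MulAut.congr (f.trans f')
  let ψ : Equiv.Perm (Fin 3) →* MulAut (H24.U3Syl.U two hK) :=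
    E.toMonoidHom.comp (H.subtype.comp e.symm.toMonoidHom)
  have hψ : Function.Injective ψ :=
    E.injective.comp (H.subtype_injective.comp e.symm.injective)
  have h1 := H86.U3AutC.no_S3 two hK rfl (ψ c[0, 1, 2]) (ψ c[0, 1])
    (by rw [← map_mul, ← map_mul, ← map_one ψ]; congr 1; decide)
    (by rw [← map_mul, ← map_one ψ]; congr 1; decide)
    (by rw [← map_inv, ← map_inv, ← map_mul, ← map_mul]; congr 1; decide)
  have h2 : (c[0, 1, 2] : Equiv.Perm (Fin 3)) = 1 := hψ (h1.trans (map_one ψ).symm)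
  revert h2
  decide

end Cfsg.Agent.S3156
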