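import Cfsg.Statements.S3157
import Cfsg.Agent.Lib.H86.S64

set_option autoImplicit false
open Cfsg

namespace Cfsg.Agent.S3157

/-- Let T be a non-abelian group of order 64 admitting automorphisms ρ of order 3 and x of order 2 with x ρ x⁻¹ = ρ⁻¹ (so they generate a symmetric group of degree 3), where ρ fixes only the identity. Then T is isomorphic to a Sylow 2-subgroup of the projective special linear group of dimension 3 over the field with 4 elements, and the subgroup of fixed points of x is dihedral of order 8 or quaternion of order 8. -/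
theorem result {T : Type*} [Group T] [Finite T] (hT : Nat.card T = 64) (hna : ¬ IsMulCommutative T) (ρ x : MulAut T) (hρ : orderOf ρ = 3) (hx : orderOf x = 2)
    (hxr : x * ρ * x⁻¹ = ρ⁻¹) (hfp : ∀ y : T, ρ y = y → y = 1) (C : Subgroup T) (hC : ∀ y : T, y ∈ C ↔ x y = y) :
    (∃ (F : Type) (_ : Field F) (_ : Fintype F), Fintype.card F = 4 ∧
        ∃ S : Sylow 2 (Matrix.ProjectiveSpecialLinearGroup (Fin 3) F), Nonempty (T ≃* ↥(S : Subgroup (Matrix.ProjectiveSpecialLinearGroup (Fin 3) F)))) ∧
      (Nonempty (↥C ≃* DihedralGroup 4) ∨ Nonempty (↥C ≃* QuaternionGroup 2)) := by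
  have hρ3 : ρ ^ 3 = 1 := by rw [← hρ]; exact pow_orderOf_eq_one ρ
  have hf := H26.FpfThree.Fpf3.of_pow hρ3 hfp
  have hx2 : x * x = 1 := by rw [← pow_two, ← hx]; exact pow_orderOf_eq_one x
  have h : H86.S64.S3Hyp ρ x :=
    { fpf := hf
      sq := fun t => by
        have : (x * x) t = t := by rw [hx2]; rfl
        exact this
      inv := fun t => by
        have h1 : x * ρ = ρ⁻¹ * x := by rw [← hxr]; group
        have h2 : ρ⁻¹ = ρ * ρ := by
          rw [inv_eq_iff_mul_eq_one, ← pow_three]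
          exact hρ3
        rw [h2] at h1
        exact congrArg (fun f : MulAut T => f t) h1 }
  have hna' : ¬ ∀ a b : T, a * b = b * a := fun hab => hna ⟨⟨hab⟩⟩
  obtain ⟨⟨u1, u2, v1, v2, e1, e2, hg⟩, hor⟩ := H86.S64.main h hT hna' C hC
  refine ⟨?_, hor⟩
  have h2 : Fact (Nat.Prime 2) := ⟨Nat.prime_two⟩
  let F := GaloisField 2 2
  have hfin : Fintype F := Fintype.ofFinite F
  have hF : Fintype.card F = 4 := by
    rw [← Nat.card_eq_fintype_card, GaloisField.card 2 2 (by norm_num)]; norm_num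
  obtain ⟨P⟩ : Nonempty (Sylow 2 (Matrix.ProjectiveSpecialLinearGroup (Fin 3) F)) := inferInstance
  obtain ⟨a1, a2, b1, b2, c1, c2, hg'⟩ := H54.L34.gen_psl hF P
  exact ⟨F, inferInstance, hfin, hF, P, H54.L34.iso hg hg'⟩

end Cfsg.Agent.S3157
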