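import Cfsg.Statements.S3162
import Cfsg.Agent.Lib.H86.U3AutD

set_option autoImplicit false
open Cfsg

namespace Cfsg.Agent.S3162

/-- Let S be a Sylow 2-subgroup of the special unitary group of dimension 3 with parameter q = 2^n (n ≥ 2; realised over the field with q² elements). Then the largest normal 2-subgroup of the automorphism group of S is elementary abelian of order 2^(2n²), and the automorphism group has order 2^(2n²) · 2n(q² − 1). -/
theorem result {S : Type*} [Group S] [Finite S] (n : ℕ) (hn : 2 ≤ n) {F : Type*} [Field F] [Fintype F] (hF : Fintype.card F = 4 ^ n)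
    (P : Sylow 2 ↥(Cfsg.SU 3 F (2 ^ n))) (hS : Nonempty (S ≃* ↥(P : Subgroup ↥(Cfsg.SU 3 F (2 ^ n))))) :
    Cfsg.IsElementaryAbelian 2 (Cfsg.pCore 2 (MulAut S)) ∧ Nat.card ↥(Cfsg.pCore 2 (MulAut S)) = 2 ^ (2 * n ^ 2) ∧
      Nat.card (MulAut S) = 2 ^ (2 * n ^ 2) * (2 * n * ((2 ^ n) ^ 2 - 1)) := by
  have hK : Fintype.card F = (2 ^ n) ^ 2 := by rw [hF, ← pow_mul, show (4 : ℕ) = 2 ^ 2 by norm_num, ← pow_mul, mul_comm]
  have two : (2 : F) = 0 := by
    have : Fact (Nat.Prime 2) := ⟨Nat.prime_two⟩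
    have hch : CharP F 2 := charP_of_card_eq_prime_pow (f := n * 2) (by rw [hK, ← pow_mul])
    exact_mod_cast CharP.cast_eq_zero F 2
  obtain ⟨e⟩ := hS
  obtain ⟨e'⟩ := H86.U3AutB.mainSU two hK hn rfl P
  exact H86.U3AutD.final two hK rfl (e.trans e')

end Cfsg.Agent.S3162
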