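import Cfsg.Statements.S3171
import Cfsg.Agent.Lib.H17.UT5
import Cfsg.Agent.Lib.H91.M24Cent
import Cfsg.Agent.Lib.H8.M24Chain

set_option autoImplicit false
open Cfsg

namespace Cfsg.Agent.S3171

open H17.UT5 H91.TransvCent H91.Holomorph H91.M24Cent Matrix

/-- the middle block -/
def mid (x : X10) : SL 3 := ⟨!![1, x.e, x.f; 0, 1, x.h; 0, 0, 1], by rw [Matrix.det_fin_three]; simp⟩

theorem mid_mul (x y : X10) : mid (x * y) = mid x * mid y := by
  apply Subtype.ext
  show !![1, (x * y).e, (x * y).f; 0, 1, (x * y).h; 0, 0, 1] = !![1, x.e, x.f; 0, 1, x.h; 0, 0, 1] * !![1, y.e, y.f; 0, 1, y.h; 0, 0, 1]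
  rw [mul10]
  ext i j
  fin_cases i <;> fin_cases j <;> simp [Matrix.mul_apply, Fin.sum_univ_three] <;> ring

theorem mid_one : mid 1 = 1 := by
  apply Subtype.ext
  show !![(1 : F), 0, 0; 0, 1, 0; 0, 0, 1] = 1
  ext i j
  fin_cases i <;> fin_cases j <;> rfl

/-- the embedding in the centralizer of the transvection -/
def emb : X10 →* Subgroup.centralizer ({z1} : Set (SL (2 + 1 + 2))) where
  toFun x := ⟨el x.d ![x.a, x.b, x.c] ![x.g, x.i, x.j] (mid x), el_mem hz1 hC1 _ _ _ _⟩
  map_one' := by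
    apply Subtype.ext
    show el 0 ![0, 0, 0] ![0, 0, 0] (mid 1) = 1
    rw [mid_one]
    apply Subtype.ext
    have e : ![(0 : F), 0, 0] = 0 := by ext i; fin_cases i <;> rfl
    show blk 0 ![(0:F), 0, 0] ![(0:F), 0, 0] ((1 : SL 3) : Mt 3) = 1
    rw [e]
    exact blk_one
  map_mul' x y := by
    apply Subtype.ext
    show el (x * y).d ![(x * y).a, (x * y).b, (x * y).c] ![(x * y).g, (x * y).i, (x * y).j] (mid (x * y)) =
      el x.d ![x.a, x.b, x.c] ![x.g, x.i, x.j] (mid x) * el y.d ![y.a, y.b, y.c] ![y.g, y.i, y.j] (mid y)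
    rw [el_mul, mid_mul]
    rw [mul10]
    congr 1
    · simp [dotProduct, Fin.sum_univ_three]; ring
    · ext i
      fin_cases i <;> simp [mid] <;> ring
    · ext i
      fin_cases i <;> simp [mid] <;> ring

theorem emb_inj : Function.Injective emb := by
  intro x y h
  have h1 : blk x.d ![x.a, x.b, x.c] ![x.g, x.i, x.j] (mid x : Mt 3) = blk y.d ![y.a, y.b, y.c] ![y.g, y.i, y.j] (mid y : Mt 3) :=
    congrArg (fun z : Subgroup.centralizer ({z1} : Set (SL (2 + 1 + 2))) => ((z : SL (2 + 1 + 2)) : Mt (2 + 1 + 2))) h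
  have e (i j : Fin 5) := congrFun (congrFun h1 i) j
  have hd : x.d = y.d := e 0 1
  have ha : x.a = y.a := e 0 2
  have hb : x.b = y.b := e 0 3
  have hc : x.c = y.c := e 0 4
  have hg : x.g = y.g := e 2 1
  have hi : x.i = y.i := e 3 1
  have hj : x.j = y.j := e 4 1
  have he : x.e = y.e := e 2 3
  have hf : x.f = y.f := e 2 4
  have hh : x.h = y.h := e 3 4
  exact X10.ext ha hb hc hd he hf hg hh hi hj

/-- the embedding in `M24` -/
theorem exists_emb : ∃ φ : X10 →* Cfsg.M24, Function.Injective φ := by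
  obtain ⟨v, hv, hv1⟩ : ∃ v ∈ U0, v ≠ 1 := by
    have h1 : U0 ≠ ⊥ := by
      intro h
      have := card_U0
      rw [h, Subgroup.card_bot] at this
      omega
    obtain ⟨v, hv1⟩ := Subgroup.ne_bot_iff_exists_ne_one.mp h1
    exact ⟨v, v.2, fun h => hv1 (Subtype.ext h)⟩
  obtain ⟨Φ, -⟩ := exists_Phi hv hv1
  refine ⟨G0.subtype.comp ((Subgroup.centralizer ({v} : Set G0)).subtype.comp (Φ.symm.toMonoidHom.comp emb)), ?_⟩
  exact G0.subtype_injective.comp ((Subgroup.subtype_injective _).comp (Φ.symm.injective.comp emb_inj))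

/-- Let P be a Sylow 2-subgroup of the Mathieu group of degree 24 and S the quotient of P by its centre. Then the centre of every maximal subgroup of S has order at most 8; S has an elementary abelian subgroup of order 64; and S has only one abelian subgroup of order 64. -/
theorem result (P : Sylow 2 ↥Cfsg.M24) :
    (∀ M : Subgroup (↥(P : Subgroup ↥Cfsg.M24) ⧸ Subgroup.center ↥(P : Subgroup ↥Cfsg.M24)), IsCoatom M →
        Nat.card ↥(Subgroup.center ↥M) ≤ 8) ∧
      (∃ A : Subgroup (↥(P : Subgroup ↥Cfsg.M24) ⧸ Subgroup.center ↥(P : Subgroup ↥Cfsg.M24)),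
        Cfsg.IsElementaryAbelian 2 A ∧ Nat.card ↥A = 64) ∧
      ∀ A B : Subgroup (↥(P : Subgroup ↥Cfsg.M24) ⧸ Subgroup.center ↥(P : Subgroup ↥Cfsg.M24)),
        IsMulCommutative ↥A → Nat.card ↥A = 64 → IsMulCommutative ↥B → Nat.card ↥B = 64 → A = B := by
  classical
  have h2 : Fact (Nat.Prime 2) := ⟨Nat.prime_two⟩
  obtain ⟨φ, hφ⟩ := exists_emb
  have hM : Nat.card Cfsg.M24 = 244823040 := H8.M24Chain.card_M24
  have hcr : Nat.card φ.range = 2 ^ (Nat.card Cfsg.M24).factorization 2 := by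
    have h1 : Nat.card φ.range = 1024 := by
      rw [← card_X10]
      exact (Nat.card_congr (MonoidHom.ofInjective hφ).toEquiv).symm
    have h3 : (244823040 : ℕ).factorization 2 = 10 := by
      have e : (244823040 : ℕ) = 2 ^ 10 * 239085 := by norm_num
      rw [e, Nat.factorization_mul (by norm_num) (by norm_num), Nat.factorization_pow]
      have e2 : (239085 : ℕ).factorization 2 = 0 := Nat.factorization_eq_zero_of_not_dvd (by norm_num)
      simp [e2, Nat.prime_two.factorization_self]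
    rw [h1, hM, h3]
    norm_num
  let T : Sylow 2 Cfsg.M24 := Sylow.ofCard φ.range hcr
  have e1 : ↥(P : Subgroup ↥Cfsg.M24) ≃* X10 := (P.equiv T).trans (MonoidHom.ofInjective hφ).symm
  have e2 : ↥(P : Subgroup ↥Cfsg.M24) ⧸ Subgroup.center ↥(P : Subgroup ↥Cfsg.M24) ≃* X10 ⧸ Subgroup.center X10 :=
    QuotientGroup.congr _ _ e1 (by
      ext x
      constructor
      · rintro ⟨y, hy, rfl⟩
        rw [Subgroup.mem_center_iff]
        intro g
        obtain ⟨g, rfl⟩ := e1.surjective g
        have := Subgroup.mem_center_iff.mp hy g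
        show e1 g * e1 y = e1 y * e1 g
        rw [← map_mul, ← map_mul, this]
      · intro hx
        refine ⟨e1.symm x, ?_, e1.apply_symm_apply x⟩
        rw [SetLike.mem_coe, Subgroup.mem_center_iff]
        intro g
        apply e1.injective
        rw [map_mul, map_mul, MulEquiv.apply_symm_apply]
        exact Subgroup.mem_center_iff.mp hx (e1 g))
  have hgood := good_congr (e2.trans quo) good
  refine ⟨fun M hM => hgood.center_le hM, ⟨_, hgood.elem, hgood.card_A⟩, ?_⟩
  intro A B hA hcA hB hcB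
  rw [hgood.eq_of_comm hA hcA, hgood.eq_of_comm hB hcB]

end Cfsg.Agent.S3171
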