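import Cfsg.Statements.S3174
import Cfsg.Agent.Lib.H58.RuH
-- import your own Cfsg.Agent.* helpers here

set_option autoImplicit false
open Cfsg

namespace Cfsg.Agent.S3174

/-- Let T be a finite 2-group of order at least 2^14 in which the fourth term of the upper central series has order 16. Let W be the centralizer in T of the third term Z₃(T), and suppose the Frattini subgroup of W has order at most 8 and lies in every subgroup of W of index at most 16. Then T has order exactly 2^14; the derived subgroup of W and the Frattini subgroup of W both equal Z₃(T), which is elementary abelian of order 8; the centre of W has order 8; W is normal in T with quotient dihedral of order 8; and W modulo its derived subgroup is elementary abelian of order 2^8. -/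
theorem result {T : Type*} [Group T] [Finite T]
    (hT : IsPGroup 2 T) (ha : 2 ^ 14 ≤ Nat.card T) (hb : Nat.card ↥(Subgroup.upperCentralSeries T 4) = 16)
    (W : Subgroup T) (hW : W = Subgroup.centralizer ((Subgroup.upperCentralSeries T 3 : Subgroup T) : Set T))
    (hc : Nat.card ↥(frattini ↥W) ≤ 8) (hd : ∀ U : Subgroup ↥W, U.index ≤ 16 → frattini ↥W ≤ U) :
    Nat.card T = 2 ^ 14 ∧
      (commutator ↥W).map W.subtype = Subgroup.upperCentralSeries T 3 ∧
      (frattini ↥W).map W.subtype = Subgroup.upperCentralSeries T 3 ∧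
      Nat.card ↥(Subgroup.center ↥W) = 8 ∧
      Nat.card ↥(Subgroup.upperCentralSeries T 3) = 8 ∧ (∀ z ∈ Subgroup.upperCentralSeries T 3, z ^ 2 = 1) ∧
      (∃ (_ : W.Normal), Nonempty (T ⧸ W ≃* DihedralGroup 4)) ∧
      Nat.card (↥W ⧸ commutator ↥W) = 2 ^ 8 ∧ (∀ x : ↥W ⧸ commutator ↥W, x ^ 2 = 1) := by
  haveI : Fact (Nat.Prime 2) := ⟨Nat.prime_two⟩
  have ha' : 16 < Nat.card T := lt_of_lt_of_le (by norm_num) ha
  obtain ⟨z1, z2, z3, C⟩ := H58.RuC.exists_chain hT ha' hb W hW
  haveI hWn : W.Normal := C.W_normal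
  obtain ⟨hT14, h8, hW11, hfr⟩ := H58.RuD.orders hT ha C hc
  have hWp : IsPGroup 2 W := hT.to_subgroup W
  have hcf := H58.RuD.frattini_eq_commutator hWp hc hd
  have hsq := H58.RuD.sq_eq_one C hWp hfr hcf
  obtain ⟨r, s, D⟩ := H58.RuE.exists_dih C h8 hsq
  have hcen := H58.RuH.center_le hT ha' C D h8 hW11 hsq hfr hd
  obtain ⟨E, -, -⟩ := D.iso
  have hZW : Subgroup.upperCentralSeries T 3 ≤ W := by
    rw [← hfr]; rintro _ ⟨x, -, rfl⟩; exact x.2
  have hcard : Nat.card (W ⧸ commutator W) * 8 = 2 ^ 11 := by
    have h1 : Nat.card (commutator W) = 8 := by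
      rw [hcf, ← C.k3, ← hfr, Subgroup.card_map_of_injective W.subtype_injective]
    have h2 := Subgroup.card_eq_card_quotient_mul_card_subgroup (commutator W)
    rw [h1, hW11] at h2
    exact h2.symm
  refine ⟨hT14, by rw [hcf]; exact hfr, hfr, ?_, C.k3, ?_, ⟨hWn, ⟨E.symm⟩⟩, by omega, ?_⟩
  · have h1 : (Subgroup.center W).map W.subtype = Subgroup.upperCentralSeries T 3 := by
      apply le_antisymm hcen
      intro z hz
      refine ⟨⟨z, hZW hz⟩, ?_, rfl⟩
      rw [SetLike.mem_coe, Subgroup.mem_center_iff]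
      intro g
      apply Subtype.ext
      have h3 : W ≤ Subgroup.centralizer ((Subgroup.upperCentralSeries T 3 : Subgroup T) : Set T) := hW.le
      exact ((Subgroup.mem_centralizer_iff.1 (h3 g.2)) z hz).symm
    rw [← C.k3, ← h1, Subgroup.card_map_of_injective W.subtype_injective]
  · intro z hz
    rw [pow_two]; exact hsq z hz
  · intro x
    obtain ⟨a, rfl⟩ := QuotientGroup.mk_surjective x
    rw [← QuotientGroup.mk_pow, QuotientGroup.eq_one_iff, hcf]
    exact H1.Frat.pow_mem_frattini hWp a


end Cfsg.Agent.S3174
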