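import Cfsg.Statements.S3175
import Cfsg.Agent.Lib.H58.RuI
import Cfsg.Agent.Lib.H2.Frobenius
-- import your own Cfsg.Agent.* helpers here

set_option autoImplicit false
open Cfsg

namespace Cfsg.Agent.S3175

/-- Let G be a finite group whose Sylow 2-subgroup T has order at least 2^14 and whose upper central series has fourth term of order 16; let W be the centralizer in T of the third term, and suppose the Frattini subgroup of W has order at most 8 and lies in every subgroup of W of index at most 16. Then the normalizer of T in G has a normal 2-complement, and W is weakly closed in T with respect to G. -/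
theorem result {G : Type*} [Group G] [Finite G]
    (T : Sylow 2 G) (ha : 2 ^ 14 ≤ Nat.card ↥(T : Subgroup G))
    (hb : Nat.card ↥(Subgroup.upperCentralSeries ↥(T : Subgroup G) 4) = 16)
    (W : Subgroup ↥(T : Subgroup G))
    (hW : W = Subgroup.centralizer ((Subgroup.upperCentralSeries ↥(T : Subgroup G) 3 : Subgroup ↥(T : Subgroup G)) : Set ↥(T : Subgroup G)))
    (hc : Nat.card ↥(frattini ↥W) ≤ 8)
    (hd : ∀ U : Subgroup ↥W, U.index ≤ 16 → frattini ↥W ≤ U) :
    Cfsg.HasNormalPComplement 2 ↥(Subgroup.normalizer ((T : Subgroup G) : Set G)) ∧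
      Cfsg.IsWeaklyClosed (W.map (T : Subgroup G).subtype) (T : Subgroup G) := by
  classical
  have : Fact (Nat.Prime 2) := ⟨Nat.prime_two⟩
  have hT : IsPGroup 2 (T : Subgroup G) := T.isPGroup'
  have ha' : 16 < Nat.card (T : Subgroup G) := lt_of_lt_of_le (by norm_num) ha
  obtain ⟨z1, z2, z3, C⟩ := H58.RuC.exists_chain hT ha' hb W hW
  have hWn : W.Normal := C.W_normal
  obtain ⟨hT14, h8, hW11, hfr⟩ := H58.RuD.orders hT ha C hc
  have hWp : IsPGroup 2 W := hT.to_subgroup W
  have hfrs : ∀ x : ↥W, x ∈ frattini ↥W ↔ (x : ↥(T : Subgroup G)) ∈ Subgroup.upperCentralSeries ↥(T : Subgroup G) 3 := by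
    intro x
    rw [← hfr]
    constructor
    · intro h; exact ⟨x, h, rfl⟩
    · rintro ⟨y, hy, hyx⟩
      have : y = x := Subtype.ext hyx
      rw [← this]; exact hy
  have hZW : Subgroup.upperCentralSeries ↥(T : Subgroup G) 3 ≤ W := by
    rw [← hfr]; rintro _ ⟨x, -, rfl⟩; exact x.2
  constructor
  · apply H2.Frobenius.hasNPC_of_local
    intro D hD g hg ho
    -- `g` centralizes `T`
    obtain ⟨n, hn⟩ : ∃ n, n = orderOf g := ⟨_, rfl⟩
    have hodd : Odd n := by
      rw [← Nat.coprime_two_right, hn]; exact ho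
    have h1 := H58.RuI.aut_trivial hT ha' C h8 hW11 hfr (α := (T : Subgroup G).normalizerMonoidHom g) (n := n) hodd
      (by rw [← map_pow, hn, pow_orderOf_eq_one, map_one])
    have h2 : ∀ x ∈ (T : Subgroup G), (g : G) * x * (g : G)⁻¹ = x := by
      intro x hx
      exact congrArg Subtype.val (h1 ⟨x, hx⟩)
    rw [Subgroup.mem_centralizer_iff]
    intro d hd
    apply Subtype.ext
    have h3 : (d : G) ∈ (T : Subgroup G) := by
      have h4 : D ≤ ((T : Subgroup G).subgroupOf (Subgroup.normalizer ((T : Subgroup G) : Set G))) := by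
        have hle : (T : Subgroup G) ≤ Subgroup.normalizer ((T : Subgroup G) : Set G) := Subgroup.le_normalizer
        obtain ⟨TN, hTN⟩ : ∃ TN : Sylow 2 (Subgroup.normalizer ((T : Subgroup G) : Set G)), TN = T.subtype hle := ⟨_, rfl⟩
        have h5 : (TN : Subgroup ↥(Subgroup.normalizer ((T : Subgroup G) : Set G))) =
          (T : Subgroup G).subgroupOf (Subgroup.normalizer ((T : Subgroup G) : Set G)) := by rw [hTN]; rfl
        have h6 : (TN : Subgroup ↥(Subgroup.normalizer ((T : Subgroup G) : Set G))).Normal := by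
          rw [h5]; exact Subgroup.normal_in_normalizer
        obtain ⟨Q, hQ⟩ := hD.exists_le_sylow
        have : Subsingleton (Sylow 2 (Subgroup.normalizer ((T : Subgroup G) : Set G))) := by
          have := Sylow.unique_of_normal TN h6
          infer_instance
        rw [← h5, Subsingleton.elim TN Q]
        exact hQ
      exact h4 hd
    have h7 := h2 _ h3
    rw [mul_inv_eq_iff_eq_mul] at h7
    exact h7.symm
  · refine ⟨?_, ?_⟩
    · rintro _ ⟨x, -, rfl⟩; exact x.2
    · intro g hg
      refine H58.RuI.weakly_closed (T := (T : Subgroup G)) (W := W.map (T : Subgroup G).subtype)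
        (P := (Subgroup.upperCentralSeries ↥(T : Subgroup G) 3).map (T : Subgroup G).subtype) ?_ hT14 ?_ ?_ ?_ ?_ ?_ ?_ g hg
      · rintro _ ⟨x, -, rfl⟩; exact x.2
      · rw [Subgroup.card_map_of_injective (T : Subgroup G).subtype_injective, hW11]
      · intro x hx h
        refine ⟨⟨x, hx⟩, ?_, rfl⟩
        rw [SetLike.mem_coe, hW, Subgroup.mem_centralizer_iff]
        intro z hz
        exact Subtype.ext (h z ⟨z, hz, rfl⟩)
      · rintro _ ⟨x, hx, rfl⟩ _ ⟨z, hz, rfl⟩
        rw [SetLike.mem_coe, hW, Subgroup.mem_centralizer_iff] at hx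
        exact congrArg Subtype.val (hx z hz)
      · rintro _ ⟨x, hx, rfl⟩ _ ⟨y, hy, rfl⟩
        rw [← map_commutatorElement]
        refine ⟨_, ?_, rfl⟩
        have : Group.IsNilpotent W := hWp.isNilpotent
        have h1 := (hfrs _).1 (H1.Frat.commutator_le_frattini (Subgroup.commutator_mem_commutator
          (Subgroup.mem_top (⟨x, hx⟩ : W)) (Subgroup.mem_top (⟨y, hy⟩ : W))))
        exact h1
      · rintro _ ⟨x, hx, rfl⟩
        rw [← map_mul]
        refine ⟨_, ?_, rfl⟩
        have h1 := (hfrs ((⟨x, hx⟩ : W) ^ 2)).1 (H1.Frat.pow_mem_frattini hWp _)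
        rw [pow_two] at h1
        exact h1
      · intro U hU hi z hz
        obtain ⟨z, hz, rfl⟩ := hz
        have h1 : ((U.subgroupOf (T : Subgroup G)).subgroupOf W).index ≤ 16 := by
          have h2 : ((U.subgroupOf (T : Subgroup G)).subgroupOf W).index = U.relIndex (W.map (T : Subgroup G).subtype) := by
            have h3 : ((U.subgroupOf (T : Subgroup G)).subgroupOf W).index = (U.subgroupOf (T : Subgroup G)).relIndex W := rfl
            rw [h3, ← Subgroup.relIndex_comap]
            rfl
          rw [h2]; exact hi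
        have h4 := hd _ h1
        have h5 : (⟨z, hZW hz⟩ : ↥W) ∈ frattini ↥W := (hfrs _).2 hz
        exact h4 h5


end Cfsg.Agent.S3175
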