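import Cfsg.Statements.S3178
import Cfsg.Agent.Lib.H58.TransferTwo
import Cfsg.Agent.Lib.H58.OddAut
import Cfsg.Agent.Lib.H58.EA

set_option autoImplicit false
open Cfsg

namespace Cfsg.Agent.S3178

/-- Groups with a modular Sylow 2-subgroup have a normal 2-complement. Let S, of order 2^(n+1) with n ≥ 3, be a Sylow 2-subgroup of a finite group G, and suppose S contains an element a of order 2^n and an involution b with b a b⁻¹ = a^(2^(n-1) + 1); so S is the non-abelian 2-group with a cyclic subgroup of index 2 that is neither dihedral, semidihedral nor generalized quaternion. Then G has a normal 2-complement. -/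
theorem result {G : Type*} [Group G] [Finite G]
    (S : Sylow 2 G) (n : ℕ) (hn : 3 ≤ n) (hS : Nat.card ↥(S : Subgroup G) = 2 ^ (n + 1))
    (a b : G) (ha : a ∈ (S : Subgroup G)) (hb : b ∈ (S : Subgroup G))
    (hao : orderOf a = 2 ^ n) (hbo : orderOf b = 2) (hrel : b * a * b⁻¹ = a ^ (2 ^ (n - 1) + 1)) :
    Cfsg.HasNormalPComplement 2 G := by
  classical
  have : Fact (Nat.Prime 2) := ⟨Nat.prime_two⟩
  obtain ⟨k, rfl⟩ : ∃ k, n = k + 3 := ⟨n - 3, by omega⟩
  have e1 : k + 3 - 1 = k + 2 := by omega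
  rw [e1] at hrel
  have hbb : b * b = 1 := by rw [← pow_two, ← hbo, pow_orderOf_eq_one]
  have hbi : b⁻¹ = b := inv_eq_of_mul_eq_one_left hbb
  -- when is a power of `a` trivial
  have hpow : ∀ i : ℤ, a ^ i = 1 ↔ (2 : ℤ) ^ (k + 3) ∣ i := by
    intro i
    rw [← orderOf_dvd_iff_zpow_eq_one, hao]
    push_cast; rfl
  have hconj : ∀ i : ℤ, b * a ^ i * b⁻¹ = a ^ (i * (2 ^ (k + 2) + 1)) := by
    intro i
    rw [← conj_zpow, hrel, ← zpow_natCast, ← zpow_mul, mul_comm]
    push_cast; rfl
  set z : G := a ^ ((2 : ℤ) ^ (k + 2)) with hz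
  have hz1 : z ≠ 1 := by
    rw [hz, Ne, hpow]
    intro h
    have := Int.le_of_dvd (by positivity) h
    rw [pow_succ] at this
    have : (0 : ℤ) < 2 ^ (k + 2) := by positivity
    omega
  have hzz : z * z = 1 := by
    rw [hz, ← zpow_add, hpow, pow_succ 2 (k + 2)]
    exact ⟨1, by ring⟩
  have hzS : z ∈ (S : Subgroup G) := Subgroup.zpow_mem _ ha _
  -- b is not a power of a
  have hbA : b ∉ Subgroup.zpowers a := by
    intro h
    obtain ⟨i, hi⟩ := Subgroup.mem_zpowers_iff.1 h
    have h1 := hconj 1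
    rw [← hi, zpow_one, one_mul] at h1
    have h2 : a ^ i * a * (a ^ i)⁻¹ = a := by
      rw [(Commute.zpow_self a i).eq, mul_inv_cancel_right]
    rw [h2, zpow_add, zpow_one] at h1
    exact hz1 (mul_eq_right.1 h1.symm)
  -- description of the elements of `S`
  have hSel : ∀ s ∈ (S : Subgroup G), (∃ i : ℤ, s = a ^ i) ∨ ∃ i : ℤ, s = a ^ i * b := by
    intro s hs
    have hAi : ((Subgroup.zpowers a).subgroupOf (S : Subgroup G)).index = 2 := by
      have h1 := ((Subgroup.zpowers a).subgroupOf (S : Subgroup G)).card_mul_index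
      have h2 : Nat.card ((Subgroup.zpowers a).subgroupOf (S : Subgroup G)) = 2 ^ (k + 3) := by
        rw [← hao, ← Nat.card_zpowers]
        exact Nat.card_congr (Subgroup.subgroupOfEquivOfLe ((Subgroup.zpowers_le).2 ha)).toEquiv
      rw [h2, hS, pow_succ 2 (k + 3)] at h1
      exact Nat.eq_of_mul_eq_mul_left (by positivity) h1
    by_cases h : s ∈ Subgroup.zpowers a
    · left
      obtain ⟨i, hi⟩ := Subgroup.mem_zpowers_iff.1 h
      exact ⟨i, hi.symm⟩
    · right
      have h1 := Subgroup.mul_mem_iff_of_index_two hAi (a := ⟨s, hs⟩) (b := ⟨b, hb⟩)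
      rw [Subgroup.mem_subgroupOf, Subgroup.mem_subgroupOf, Subgroup.mem_subgroupOf] at h1
      have h2 : s * b ∈ Subgroup.zpowers a := h1.2 (by constructor <;> intro h' <;> contradiction)
      obtain ⟨i, hi⟩ := Subgroup.mem_zpowers_iff.1 h2
      refine ⟨i, ?_⟩
      rw [hi, mul_assoc, hbb, mul_one]
  -- squares
  have hsq : ∀ i : ℤ, (a ^ i * b) * (a ^ i * b) = a ^ (2 * (i * (2 ^ (k + 1) + 1))) := by
    intro i
    have h1 : (a ^ i * b) * (a ^ i * b) = a ^ i * (b * a ^ i * b⁻¹) := by rw [hbi]; group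
    rw [h1, hconj, ← zpow_add]
    congr 1
    ring
  -- a² is central in S
  have hcen : ∀ s ∈ (S : Subgroup G), Commute (a ^ (2 : ℤ)) s := by
    intro s hs
    have hab : Commute (a ^ (2 : ℤ)) b := by
      have h1 := hconj 2
      have h2 : a ^ ((2 : ℤ) * (2 ^ (k + 2) + 1)) = a ^ (2 : ℤ) := by
        have : (2 : ℤ) * (2 ^ (k + 2) + 1) = 2 ^ (k + 3) + 2 := by ring
        rw [this, zpow_add, (hpow (2 ^ (k + 3))).2 dvd_rfl, one_mul]
      rw [h2, mul_inv_eq_iff_eq_mul] at h1
      exact h1.symm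
    have haa : ∀ i : ℤ, Commute (a ^ (2 : ℤ)) (a ^ i) := fun i => Commute.zpow_zpow_self a 2 i
    rcases hSel s hs with ⟨i, rfl⟩ | ⟨i, rfl⟩
    · exact haa i
    · exact (haa i).mul_right hab
  -- squares lie in ⟨a²⟩
  have hsqS : ∀ s ∈ (S : Subgroup G), ∃ i : ℤ, s * s = a ^ (2 * i) := by
    intro s hs
    rcases hSel s hs with ⟨i, rfl⟩ | ⟨i, rfl⟩
    · exact ⟨i, by rw [← zpow_add]; congr 1; ring⟩
    · exact ⟨_, hsq i⟩
  have hodd1 : IsCoprime ((2 : ℤ) ^ (k + 3)) (2 ^ (k + 1) + 1) := by
    apply IsCoprime.pow_left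
    exact ⟨-(2 ^ k), 1, by ring⟩
  -- powers of a that are involutions
  have hinvA : ∀ i : ℤ, a ^ i * a ^ i = 1 → a ^ i = 1 ∨ a ^ i = z := by
    intro i hi
    rw [← zpow_add, hpow] at hi
    obtain ⟨j, hj⟩ := hi
    have h1 : i = 2 ^ (k + 2) * j := by
      have : (2 : ℤ) * i = 2 * (2 ^ (k + 2) * j) := by rw [two_mul, hj]; ring
      omega
    rcases Int.even_or_odd' j with ⟨c, hc | hc⟩
    · left
      rw [h1, hc, hpow]
      exact ⟨c, by ring⟩
    · right
      rw [h1, hc, show (2 : ℤ) ^ (k + 2) * (2 * c + 1) = 2 ^ (k + 3) * c + 2 ^ (k + 2) by ring, zpow_add,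
        (hpow _).2 (Dvd.intro _ rfl), one_mul]
  -- involutions of S
  have hinv : ∀ s ∈ (S : Subgroup G), s * s = 1 → s = 1 ∨ s = z ∨ s = b ∨ s = z * b := by
    intro s hs hss
    rcases hSel s hs with ⟨i, rfl⟩ | ⟨i, rfl⟩
    · rcases hinvA i hss with h | h
      · exact Or.inl h
      · exact Or.inr (Or.inl h)
    · rw [hsq, hpow] at hss
      have h1 : (2 : ℤ) ^ (k + 3) ∣ 2 * i := by
        have : (2 : ℤ) * (i * (2 ^ (k + 1) + 1)) = (2 * i) * (2 ^ (k + 1) + 1) := by ring
        rw [this] at hss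
        exact hodd1.dvd_of_dvd_mul_right hss
      have h2 : a ^ i * a ^ i = 1 := by
        rw [← zpow_add, hpow, ← two_mul]; exact h1
      rcases hinvA i h2 with h | h
      · right; right; left; rw [h, one_mul]
      · right; right; right; rw [h]
  -- the only involution which is a square in S is z
  have hsqinv : ∀ w ∈ (S : Subgroup G), (w * w) * (w * w) = 1 → w * w = 1 ∨ w * w = z := by
    intro w hw h
    obtain ⟨i, hi⟩ := hsqS w hw
    rw [hi] at h ⊢
    exact hinvA _ h
  -- the maximal subgroup M = ⟨a², b⟩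
  set M : Subgroup G := Subgroup.closure {a ^ (2 : ℤ), b} with hMdef
  have hMS : M ≤ (S : Subgroup G) := by
    rw [hMdef, Subgroup.closure_le]
    rintro x (rfl | rfl)
    · exact Subgroup.zpow_mem _ ha _
    · exact hb
  have hMexp : ∀ x ∈ M, x ^ (2 ^ (k + 2)) = 1 := by
    have hcomm : ∀ x ∈ ({a ^ (2 : ℤ), b} : Set G), ∀ y ∈ ({a ^ (2 : ℤ), b} : Set G), x * y = y * x := by
      rintro x (rfl | rfl) y (rfl | rfl)
      · rfl
      · exact (hcen _ hb).eq
      · exact (hcen _ hb).eq.symm
      · rfl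
    intro x hx
    induction hx using Subgroup.closure_induction with
    | mem x hx =>
      rcases hx with rfl | rfl
      · rw [← zpow_natCast, ← zpow_mul, hpow]
        push_cast
        exact ⟨1, by ring⟩
      · rw [pow_succ', pow_mul, pow_two, hbb, one_pow]
    | one => simp
    | mul x y hx hy ihx ihy =>
      have hc : Commute x y := H58.EA.comm_closure hcomm x hx y hy
      rw [hc.mul_pow, ihx, ihy, one_mul]
    | inv x hx ih => rw [inv_pow, ih, inv_one]
  have hMmem : ∀ y ∈ (S : Subgroup G), y ^ (2 ^ (k + 2)) = 1 → y ∈ M := by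
    have haM : a ^ (2 : ℤ) ∈ M := Subgroup.subset_closure (Or.inl rfl)
    have hbM : b ∈ M := Subgroup.subset_closure (Or.inr rfl)
    intro y hy hyy
    rcases hSel y hy with ⟨i, rfl⟩ | ⟨i, rfl⟩
    · rw [← zpow_natCast, ← zpow_mul, hpow] at hyy
      push_cast at hyy
      obtain ⟨c, hc⟩ := hyy
      have h1 : i = 2 * c := by
        have h2 : (2 : ℤ) ^ (k + 2) * i = 2 ^ (k + 2) * (2 * c) := by rw [mul_comm, hc]; ring
        exact mul_left_cancel₀ (by positivity) h2
      rw [h1, zpow_mul]; exact Subgroup.zpow_mem _ haM _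
    · have h0 : (a ^ i * b) ^ (2 ^ (k + 2)) = a ^ ((2 : ℤ) ^ (k + 2) * (i * (2 ^ (k + 1) + 1))) := by
        rw [pow_succ' 2 (k + 1), pow_mul, pow_two, hsq, ← zpow_natCast, ← zpow_mul]
        congr 1
        push_cast
        ring
      rw [h0, hpow] at hyy
      obtain ⟨c, hc⟩ := hyy
      have h1 : i * (2 ^ (k + 1) + 1) = 2 * c := by
        have h2 : (2 : ℤ) ^ (k + 2) * (i * (2 ^ (k + 1) + 1)) = 2 ^ (k + 2) * (2 * c) := by rw [hc]; ring
        exact mul_left_cancel₀ (by positivity) h2
      have h3 : i = 2 * (c - i * 2 ^ k) := by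
        have : i * (2 ^ (k + 1) + 1) = 2 * (i * 2 ^ k) + i := by ring
        rw [this] at h1
        omega
      rw [h3, zpow_mul]
      exact Subgroup.mul_mem _ (Subgroup.zpow_mem _ haM _) hbM
  have haM : a ∉ M := by
    intro h
    have h1 := hMexp a h
    have h2 := orderOf_dvd_of_pow_eq_one h1
    rw [hao] at h2
    have := Nat.le_of_dvd (by positivity) h2
    rw [pow_succ 2 (k + 2)] at this
    have : 0 < 2 ^ (k + 2) := by positivity
    omega
  have hMi : M.relIndex (S : Subgroup G) = 2 := by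
    rw [Subgroup.relIndex_eq_two_iff_exists_notMem_and]
    have haM' : a ^ (2 : ℤ) ∈ M := Subgroup.subset_closure (Or.inl rfl)
    have hbM : b ∈ M := Subgroup.subset_closure (Or.inr rfl)
    have hcomm2 : ∀ i : ℤ, a ^ (2 * i) ∈ M := fun i => by rw [zpow_mul]; exact Subgroup.zpow_mem _ haM' _
    refine ⟨a, ha, haM, fun y hy => ?_⟩
    rcases hSel y hy with ⟨i, rfl⟩ | ⟨i, rfl⟩
    · rcases Int.even_or_odd' i with ⟨c, hc | hc⟩
      · right; rw [hc]; exact hcomm2 c
      · left
        have : a ^ i * a = a ^ (2 * (c + 1)) := by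
          rw [hc, ← zpow_add_one]; congr 1; ring
        rw [this]; exact hcomm2 _
    · rcases Int.even_or_odd' i with ⟨c, hc | hc⟩
      · right; rw [hc]; exact M.mul_mem (hcomm2 c) hbM
      · left
        have h1 : a ^ i * b * a = a ^ (2 * (c + 1 + 2 ^ (k + 1))) * b := by
          have h2 : b * a = a ^ (1 * ((2 : ℤ) ^ (k + 2) + 1)) * b := by
            have := hconj 1
            rw [zpow_one, mul_inv_eq_iff_eq_mul] at this
            exact this
          rw [mul_assoc, h2, ← mul_assoc, ← zpow_add, hc]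
          congr 2
          ring
        rw [h1]; exact M.mul_mem (hcomm2 _) hbM
  -- transfer gives a normal subgroup of index two
  obtain ⟨H, hHn, hHi⟩ := H58.TransferTwo.exists_index_two S M hMi a ha (by
    intro r hr g hg
    apply hMmem _ hg
    have h3 : (g⁻¹ * a ^ r * g) ^ (2 ^ (k + 2)) = g⁻¹ * (a ^ r) ^ (2 ^ (k + 2)) * g := by
      have := conj_pow (i := 2 ^ (k + 2)) (a := g⁻¹) (b := a ^ r)
      simpa using this
    obtain ⟨c, rfl⟩ := hr
    have h4 : (a ^ (2 * c)) ^ (2 ^ (k + 2)) = 1 := by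
      rw [← pow_mul, show 2 * c * 2 ^ (k + 2) = 2 ^ (k + 3) * c by ring, pow_mul, ← hao, pow_orderOf_eq_one, one_pow]
    rw [h3, h4]; group) (by
    intro g hg
    have h1 := hMexp _ hg
    rw [conj_pow] at h1
    have h2 : a ^ (2 ^ (k + 2)) = 1 := by simpa using h1
    apply hz1
    rw [hz, ← h2, ← zpow_natCast]
    push_cast; rfl)
  -- T = S ∩ H
  have hHS : H.relIndex (S : Subgroup G) = 2 := by
    have h1 : H.relIndex (S : Subgroup G) ∣ 2 :=
      (Subgroup.relIndex_dvd_index_of_normal H (S : Subgroup G)).trans (dvd_of_eq hHi)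
    rcases (Nat.dvd_prime Nat.prime_two).1 h1 with h | h
    · exfalso
      rw [Subgroup.relIndex_eq_one] at h
      have h2 := Subgroup.index_dvd_of_le h
      rw [hHi] at h2
      exact S.not_dvd_index h2
    · exact h
  have hTs : ∀ s ∈ (S : Subgroup G), s * s ∈ H := by
    intro s hs
    have h1 := Subgroup.mul_self_mem_of_index_two hHi s
    exact h1
  -- a² ∈ H
  have ha2H : a ^ (2 : ℤ) ∈ H := by
    have := hTs a ha
    rw [zpow_two]; exact this
  -- T is abelian
  have hTab : ∀ s ∈ (S : Subgroup G), s ∈ H → ∀ t ∈ (S : Subgroup G), t ∈ H → s * t = t * s := by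
    -- all elements of T are a^{2i} s₀ with a fixed s₀, or a^{2i}
    have hpar : ∀ s ∈ (S : Subgroup G), s ∈ H → ∀ t ∈ (S : Subgroup G), t ∈ H →
        (∃ i : ℤ, s = a ^ (2 * i)) ∨ (∃ i : ℤ, t = a ^ (2 * i)) ∨ ∃ i : ℤ, t = a ^ (2 * i) * s := by
      intro s hs hsH t ht htH
      by_contra hcon
      push Not at hcon
      obtain ⟨h1, h2, h3⟩ := hcon
      -- then H ⊇ S
      have haH : a ∈ H ∧ b ∈ H := by
        have heven : ∀ i : ℤ, a ^ (2 * i) ∈ H := fun i => by rw [zpow_mul]; exact Subgroup.zpow_mem _ ha2H _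
        have hred : ∀ s ∈ (S : Subgroup G), s ∈ H → (∀ i : ℤ, s ≠ a ^ (2 * i)) →
            ((∃ i : ℤ, s = a ^ (2 * i) * a) ∨ (∃ i : ℤ, s = a ^ (2 * i) * b) ∨ (∃ i : ℤ, s = a ^ (2 * i) * (a * b))) := by
          intro s hs hsH hne
          rcases hSel s hs with ⟨i, rfl⟩ | ⟨i, rfl⟩
          · rcases Int.even_or_odd' i with ⟨c, hc | hc⟩
            · exact absurd (by rw [hc]) (hne c)
            · left; exact ⟨c, by rw [hc, zpow_add_one]⟩
          · rcases Int.even_or_odd' i with ⟨c, hc | hc⟩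
            · right; left; exact ⟨c, by rw [hc]⟩
            · right; right; exact ⟨c, by rw [hc, zpow_add_one, mul_assoc]⟩
        have hcancel : ∀ (i : ℤ) (x : G), a ^ (2 * i) * x ∈ H → x ∈ H := fun i x hx =>
          (Subgroup.mul_mem_cancel_left H (heven i)).1 hx
        have hdiff : ∀ (i j : ℤ) (x : G), a ^ (2 * j) * x = a ^ (2 * (j - i)) * (a ^ (2 * i) * x) := by
          intro i j x
          rw [← mul_assoc, ← zpow_add]; congr 2; ring
        have hba : b * a = a ^ (2 * (2 : ℤ) ^ (k + 1)) * (a * b) := by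
          have := hconj 1
          rw [zpow_one, mul_inv_eq_iff_eq_mul] at this
          rw [this, ← mul_assoc, ← zpow_add_one]
          congr 2
          ring
        rcases hred s hs hsH h1 with ⟨i, hi⟩ | ⟨i, hi⟩ | ⟨i, hi⟩ <;>
          rcases hred t ht htH h2 with ⟨j, hj⟩ | ⟨j, hj⟩ | ⟨j, hj⟩
        · exact absurd (by rw [hj, hi]; exact hdiff i j a) (h3 (j - i))
        · exact ⟨hcancel i a (hi ▸ hsH), hcancel j b (hj ▸ htH)⟩
        · have h4 := hcancel i a (hi ▸ hsH)
          exact ⟨h4, (Subgroup.mul_mem_cancel_left H h4).1 (hcancel j _ (hj ▸ htH))⟩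
        · exact ⟨hcancel j a (hj ▸ htH), hcancel i b (hi ▸ hsH)⟩
        · exact absurd (by rw [hj, hi]; exact hdiff i j b) (h3 (j - i))
        · have h4 := hcancel i b (hi ▸ hsH)
          exact ⟨(Subgroup.mul_mem_cancel_right H h4).1 (hcancel j _ (hj ▸ htH)), h4⟩
        · have h4 := hcancel j a (hj ▸ htH)
          exact ⟨h4, (Subgroup.mul_mem_cancel_left H h4).1 (hcancel i _ (hi ▸ hsH))⟩
        · have h4 := hcancel j b (hj ▸ htH)
          exact ⟨(Subgroup.mul_mem_cancel_right H h4).1 (hcancel i _ (hi ▸ hsH)), h4⟩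
        · exact absurd (by rw [hj, hi]; exact hdiff i j (a * b)) (h3 (j - i))
      have h4 : (S : Subgroup G) ≤ H := by
        intro s hs
        rcases hSel s hs with ⟨i, rfl⟩ | ⟨i, rfl⟩
        · exact H.zpow_mem haH.1 i
        · exact H.mul_mem (H.zpow_mem haH.1 i) haH.2
      rw [← Subgroup.relIndex_eq_one] at h4
      omega
    intro s hs hsH t ht htH
    have hcc : ∀ (i : ℤ), ∀ s ∈ (S : Subgroup G), Commute (a ^ (2 * i)) s := fun i s hs => by
      rw [zpow_mul]; exact (hcen s hs).zpow_left i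
    rcases hpar s hs hsH t ht htH with ⟨i, hi⟩ | ⟨i, hi⟩ | ⟨i, hi⟩
    · rw [hi]; exact (hcc i t ht).eq
    · rw [hi]; exact (hcc i s hs).eq.symm
    · rw [hi]
      calc s * (a ^ (2 * i) * s) = (s * a ^ (2 * i)) * s := by group
        _ = a ^ (2 * i) * s * s := by rw [(hcc i s hs).eq]
  -- the Sylow subgroup of H
  have hTp : IsPGroup 2 ((S : Subgroup G).subgroupOf H) := S.isPGroup'.comap_subtype
  have hTi : ¬ 2 ∣ ((S : Subgroup G).subgroupOf H).index := by
    intro h
    have h1 : Nat.card H * 2 = Nat.card G := by rw [← hHi]; exact H.card_mul_index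
    have h2 := (S : Subgroup G).card_mul_index
    have h3 := ((S : Subgroup G).subgroupOf H).card_mul_index
    have h4 := (H.subgroupOf (S : Subgroup G)).card_mul_index
    have h5 : (H.subgroupOf (S : Subgroup G)).index = 2 := hHS
    have h6 : Nat.card ((S : Subgroup G).subgroupOf H) = Nat.card (H.subgroupOf (S : Subgroup G)) := by
      rw [← Subgroup.inf_subgroupOf_right (S : Subgroup G) H, ← Subgroup.inf_subgroupOf_right H (S : Subgroup G),
        inf_comm H]
      rw [Nat.card_congr (Subgroup.subgroupOfEquivOfLe (inf_le_right : (S : Subgroup G) ⊓ H ≤ H)).toEquiv,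
        Nat.card_congr (Subgroup.subgroupOfEquivOfLe (inf_le_left : (S : Subgroup G) ⊓ H ≤ (S : Subgroup G))).toEquiv]
    rw [h5] at h4
    have h7 : Nat.card (S : Subgroup G) * ((S : Subgroup G).subgroupOf H).index = Nat.card (S : Subgroup G) * (S : Subgroup G).index := by
      rw [h2, ← h1, ← h3, h6, ← h4]; ring
    have h8 := Nat.eq_of_mul_eq_mul_left Nat.card_pos h7
    rw [h8] at h
    exact S.not_dvd_index h
  let P : Sylow 2 H := hTp.toSylow hTi
  have hPmem : ∀ x : H, x ∈ (P : Subgroup H) ↔ (x : G) ∈ (S : Subgroup G) := fun x => Iff.rfl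
  have hPN : Subgroup.normalizer ((P : Subgroup H) : Set H) ≤ Subgroup.centralizer ((P : Subgroup H) : Set H) := by
    apply H58.OddAut.normalizer_le_centralizer
    · intro s hs t ht
      exact Subtype.ext (hTab s hs s.2 t ht t.2)
    · intro x hx hxo
      apply H58.OddAut.commute_of_omega P.isPGroup' (fun s hs t ht => Subtype.ext (hTab s hs s.2 t ht t.2)) hxo
      · intro t ht
        exact (Subgroup.mem_normalizer_iff.1 hx t).1 ht
      · -- involutions
        have hxN : ∀ t : H, (t : G) ∈ (S : Subgroup G) → ((x * t * x⁻¹ : H) : G) ∈ (S : Subgroup G) := fun t ht =>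
          (Subgroup.mem_normalizer_iff.1 hx t).1 ht
        -- z is fixed
        have hzH : z ∈ H := by
          rw [hz, show (2 : ℤ) ^ (k + 2) = 2 * 2 ^ (k + 1) by ring, zpow_mul]
          exact H.zpow_mem ha2H _
        obtain ⟨w, hwH, hwS, hww⟩ : ∃ w ∈ H, w ∈ (S : Subgroup G) ∧ w * w = z := by
          refine ⟨a ^ ((2 : ℤ) ^ (k + 1)), ?_, Subgroup.zpow_mem _ ha _, ?_⟩
          · rw [show (2 : ℤ) ^ (k + 1) = 2 * 2 ^ k by ring, zpow_mul]
            exact H.zpow_mem ha2H _
          · rw [← zpow_add, hz]; congr 1; ring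
        have hzfix : (x : G) * z * (x : G)⁻¹ = z := by
          have h1 := hxN ⟨w, hwH⟩ hwS
          have h2 : ((x * ⟨w, hwH⟩ * x⁻¹ : H) : G) * ((x * ⟨w, hwH⟩ * x⁻¹ : H) : G) = (x : G) * z * (x : G)⁻¹ := by
            rw [← hww]; push_cast; group
          have h3 : ((x : G) * z * (x : G)⁻¹) * ((x : G) * z * (x : G)⁻¹) = 1 := by
            calc ((x : G) * z * (x : G)⁻¹) * ((x : G) * z * (x : G)⁻¹) = (x : G) * (z * z) * (x : G)⁻¹ := by group
              _ = 1 := by rw [hzz]; group
          rw [← h2] at h3 ⊢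
          rcases hsqinv _ h1 h3 with h | h
          · exfalso
            rw [h2] at h
            apply hz1
            simpa using h
          · exact h
        intro u hu huu
        have huS : (u : G) ∈ (S : Subgroup G) := hu
        have huu' : (u : G) * u = 1 := congrArg Subtype.val huu
        apply H58.OddAut.commute_of_sq hxo
        -- x u x⁻¹ ∈ {u, z u}
        have hxu : (x : G) * u * (x : G)⁻¹ = u ∨ (x : G) * u * (x : G)⁻¹ = z * u := by
          have h1 := hxN u hu
          have h1' : (x : G) * u * (x : G)⁻¹ ∈ (S : Subgroup G) := h1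
          have h3 : ((x : G) * u * (x : G)⁻¹) * ((x : G) * u * (x : G)⁻¹) = 1 := by
            calc ((x : G) * u * (x : G)⁻¹) * ((x : G) * u * (x : G)⁻¹) = (x : G) * (u * u) * (x : G)⁻¹ := by group
              _ = 1 := by rw [huu']; group
          have h4 := hinv _ h1' h3
          have h5 := hinv _ huS huu'
          have hone : (x : G) * u * (x : G)⁻¹ = 1 → (u : G) = 1 := fun h => by simpa using h
          have hzed : (x : G) * u * (x : G)⁻¹ = z → (u : G) = z := by
            intro h
            have h6 : (x : G) * u * (x : G)⁻¹ = (x : G) * z * (x : G)⁻¹ := by rw [h, hzfix]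
            simpa using h6
          rcases h5 with h5 | h5 | h5 | h5
          · left; rw [h5]; group
          · left; rw [h5]; exact hzfix
          · rcases h4 with h4 | h4 | h4 | h4
            · have := hone h4; rw [this] at h4 ⊢; left; exact h4
            · have := hzed h4; left; rw [this]; exact hzfix
            · left; rw [h4, h5]
            · right; rw [h4, h5]
          · rcases h4 with h4 | h4 | h4 | h4
            · have := hone h4; rw [this] at h4 ⊢; left; exact h4
            · have := hzed h4; left; rw [this]; exact hzfix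
            · right; rw [h4, h5, ← mul_assoc, hzz, one_mul]
            · left; rw [h4, h5]
        apply Subtype.ext
        push_cast
        have hgoal : (x : G) ^ 2 * u * ((x : G) ^ 2)⁻¹ = u := by
          have h1 : (x : G) ^ 2 * u * ((x : G) ^ 2)⁻¹ = (x : G) * ((x : G) * u * (x : G)⁻¹) * (x : G)⁻¹ := by
            rw [pow_two]; group
          rcases hxu with h | h
          · rw [h1, h, h]
          · rw [h1, h]
            calc (x : G) * (z * u) * (x : G)⁻¹ = ((x : G) * z * (x : G)⁻¹) * ((x : G) * u * (x : G)⁻¹) := by group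
              _ = z * (z * u) := by rw [hzfix, h]
              _ = u := by rw [← mul_assoc, hzz, one_mul]
        rw [mul_inv_eq_iff_eq_mul] at hgoal
        exact hgoal
  -- Burnside
  have hK := MonoidHom.ker_transferSylow_isComplement' P hPN
  obtain ⟨e, he⟩ := P.isPGroup'.exists_card_eq
  have hKi : (MonoidHom.transferSylow P hPN).ker.index = 2 ^ e := by
    rw [← he]; exact hK.symm.index_eq_card
  have hKo : Odd (Nat.card (MonoidHom.transferSylow P hPN).ker) := by
    rw [← Nat.not_even_iff_odd, even_iff_two_dvd]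
    exact MonoidHom.not_dvd_card_ker_transferSylow P hPN
  obtain ⟨h1, h2⟩ := H58.OddAut.complement_of_subgroup S H (m := 1) (by rw [hHi, pow_one])
    (MonoidHom.transferSylow P hPN).ker hKi hKo
  exact ⟨S, _, h1, h2⟩

end Cfsg.Agent.S3178
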