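import Cfsg.Statements.S3180
import Cfsg.Agent.Lib.H58.Rel

set_option autoImplicit false
open Cfsg

namespace Cfsg.Agent.S3180

/-- Let P be a Sylow p-subgroup of a finite group J and P₁ a subgroup of P that is weakly closed in P with respect to J. If J acts on a set and two points, each fixed by every element of P₁, lie in one J-orbit, then they lie in one orbit of the normalizer of P₁ in J. -/
theorem result {J : Type*} [Group J] [Finite J]
    {p : ℕ} [Fact p.Prime] (P : Sylow p J) (P₁ : Subgroup J) (hW : Cfsg.IsWeaklyClosed P₁ (P : Subgroup J))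
    {Ω : Type*} [MulAction J Ω] (x y : Ω) (hx : ∀ g ∈ P₁, g • x = x) (hy : ∀ g ∈ P₁, g • y = y)
    (hc : ∃ g : J, g • x = y) :
    ∃ g ∈ Subgroup.normalizer (P₁ : Set J), g • x = y := by
  classical
  obtain ⟨g, hg⟩ := hc
  have hP₁ : IsPGroup p P₁ := P.isPGroup'.to_le hW.1
  -- weakly closed in every p-subgroup containing it
  have key : ∀ (Q : Subgroup J), IsPGroup p Q → P₁ ≤ Q → ∀ a : J, (∀ z ∈ P₁, a * z * a⁻¹ ∈ Q) →
      P₁.map (MulAut.conj a).toMonoidHom = P₁ := by
    intro Q hQ hle a ha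
    obtain ⟨R, hR⟩ := hQ.exists_le_sylow
    obtain ⟨b, hb⟩ := MulAction.exists_smul_eq J R P
    have hb' : ∀ z ∈ Q, b * z * b⁻¹ ∈ P := by
      intro z hz
      rw [← hb, Sylow.smul_def]
      exact ⟨z, hR hz, rfl⟩
    have h1 : P₁.map (MulAut.conj b).toMonoidHom = P₁ :=
      hW.2 b (H58.Rel.map_conj_le_iff.2 fun z hz => hb' z (hle hz))
    have h2 : P₁.map (MulAut.conj (b * a)).toMonoidHom = P₁ :=
      hW.2 (b * a) (H58.Rel.map_conj_le_iff.2 fun z hz => by
        have := hb' _ (ha z hz)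
        have h0 : b * a * z * (b * a)⁻¹ ∈ P := by simpa [mul_assoc] using this
        exact h0)
    ext z
    rw [H58.Rel.mem_map_conj_iff]
    have h3 : b * z * b⁻¹ ∈ P₁.map (MulAut.conj (b * a)).toMonoidHom ↔ a⁻¹ * z * a ∈ P₁ := by
      rw [H58.Rel.mem_map_conj_iff]
      simp [mul_assoc]
    have h4 : b * z * b⁻¹ ∈ P₁.map (MulAut.conj b).toMonoidHom ↔ z ∈ P₁ := by
      rw [H58.Rel.mem_map_conj_iff]
      simp [mul_assoc]
    rw [← h3, ← h4, h1, h2]
  obtain ⟨Q, hPQ, hQH, hQp, hQi⟩ := H58.Rel.exists_le_sylowOf (H := MulAction.stabilizer J y) (P := P₁)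
    (fun z hz => hy z hz) hP₁
  obtain ⟨h, hh, hh'⟩ := H58.Rel.exists_conj_mem_sylowOf (H := MulAction.stabilizer J y)
    (P := P₁.map (MulAut.conj g).toMonoidHom) (Q := Q) (by
      rw [H58.Rel.map_conj_le_iff]
      intro z hz
      rw [MulAction.mem_stabilizer_iff, mul_smul, mul_smul, ← hg, inv_smul_smul, hx z hz])
    (H58.Rel.isPGroup_map_conj hP₁ g) hQp hQi
  refine ⟨h * g, ?_, ?_⟩
  · rw [Subgroup.mem_normalizer_iff_map_conj_eq]
    apply key Q hQp hPQ
    intro z hz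
    have := hh' (g * z * g⁻¹) ⟨z, hz, rfl⟩
    simpa [mul_assoc] using this
  · rw [mul_smul, hg]
    exact hh

end Cfsg.Agent.S3180
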