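import Cfsg.Statements.S3189
import Cfsg.Agent.Lib.H54.E8k
import Cfsg.Agent.Lib.H58.AbSyl

set_option autoImplicit false
open Cfsg

namespace Cfsg.Agent.S3189

/-- Let G be a non-abelian finite simple group whose Sylow 2-subgroup S is elementary abelian of order 8, and suppose the centralizer of every involution of G is solvable. Then the normalizer of S modulo the centralizer of S has order 7. -/
theorem result {G : Type*} [Group G] [Finite G]
    [IsSimpleGroup G] (hG : ¬ IsMulCommutative G) (S : Sylow 2 G)
    (hS : Cfsg.IsElementaryAbelian 2 (S : Subgroup G)) (hS8 : Nat.card ↥(S : Subgroup G) = 8)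
    (hC : ∀ t : G, orderOf t = 2 → Group.IsSolvable ↥(Subgroup.centralizer ({t} : Set G))) :
    (Subgroup.centralizer ((S : Subgroup G) : Set G)).relIndex (Subgroup.normalizer ((S : Subgroup G) : Set G)) = 7 := by
  have hperf : _root_.commutator G = ⊤ := H58.AbSyl.commutator_eq_top hG
  have hS2 : ∀ s ∈ S, s * s = 1 := fun s hs => by rw [← pow_two]; exact hS.2 s hs
  have F : H54.E8.FD S := { h8 := hS8, h2 := hS2, fx := fun r hr hfix =>
    H58.AbSyl.eq_one_of_fixed hperf S hS.1 hr hfix }
  obtain ⟨t, ht, ht1⟩ : ∃ t ∈ (S : Subgroup G), t ≠ 1 := by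
    by_contra hcon
    push Not at hcon
    have h1 : (S : Subgroup G) = ⊥ := (Subgroup.eq_bot_iff_forall _).mpr hcon
    rw [h1, Subgroup.card_bot] at hS8
    omega
  exact F.seven hperf ht ht1 (hC t (orderOf_eq_prime (by rw [pow_two]; exact hS2 t ht) ht1))


end Cfsg.Agent.S3189
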