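import Cfsg.Statements.S3190
import Cfsg.Agent.Lib.H58.PFix

set_option autoImplicit false
open Cfsg

namespace Cfsg.Agent.S3190

/-- Let p be an odd prime and, inside a finite group, let P be a p-subgroup normalized by a Klein four-group T. Let R be a subgroup of P, normal in P and normalized by T, such that P is the product of R with the centralizer of T in P. If T centralizes the centre of P, then T centralizes the centre of R. -/
theorem result {X : Type*} [Group X] [Finite X]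
    {p : ℕ} (hp : p.Prime) (hodd : Odd p) (P T R : Subgroup X) (hP : IsPGroup p ↥P) (hT : IsKleinFour ↥T)
    (hTP : T ≤ Subgroup.normalizer (P : Set X)) (hRP : R ≤ P) (hRn : (R.subgroupOf P).Normal)
    (hTR : T ≤ Subgroup.normalizer (R : Set X)) (hfac : R ⊔ (P ⊓ Subgroup.centralizer (T : Set X)) = P)
    (hZ : T ≤ Subgroup.centralizer (((Subgroup.center ↥P).map P.subtype : Subgroup X) : Set X)) :
    T ≤ Subgroup.centralizer (((Subgroup.center ↥R).map R.subtype : Subgroup X) : Set X) := by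
  have : Fact p.Prime := ⟨hp⟩
  intro t ht
  have htt : t * t = 1 := by
    have h1 := hT.exponent_two
    have h2 : (⟨t, ht⟩ : T) ^ 2 = 1 := by rw [← h1]; exact Monoid.pow_exponent_eq_one _
    have h3 := congrArg Subtype.val h2
    simpa [pow_two] using h3
  have htinv : t⁻¹ = t := inv_eq_of_mul_eq_one_left htt
  -- the centre of `R`
  set Z : Subgroup X := (Subgroup.center ↥R).map R.subtype with hZdef
  have hZmem : ∀ x, x ∈ Z ↔ x ∈ R ∧ ∀ s ∈ R, s * x = x * s := by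
    intro x
    constructor
    · rintro ⟨z, hz, rfl⟩
      refine ⟨z.2, fun s hs => ?_⟩
      exact congrArg Subtype.val (Subgroup.mem_center_iff.1 hz ⟨s, hs⟩)
    · rintro ⟨hx, h⟩
      exact ⟨⟨x, hx⟩, Subgroup.mem_center_iff.2 fun s => Subtype.ext (h s s.2), rfl⟩
  have hRnorm : ∀ g ∈ P, ∀ r, r ∈ R ↔ g * r * g⁻¹ ∈ R := by
    intro g hg r
    constructor
    · intro hr
      have := hRn.conj_mem ⟨r, hRP hr⟩ hr ⟨g, hg⟩
      exact this
    · intro hr
      have := hRn.conj_mem ⟨g * r * g⁻¹, hRP hr⟩ hr ⟨g⁻¹, P.inv_mem hg⟩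
      have h0 : g⁻¹ * (g * r * g⁻¹) * (g⁻¹)⁻¹ ∈ R := this
      simpa [mul_assoc] using h0
  -- anything normalizing `R` normalizes `Z`
  have hZnorm : ∀ g : X, (∀ r, r ∈ R ↔ g * r * g⁻¹ ∈ R) → ∀ z ∈ Z, g * z * g⁻¹ ∈ Z := by
    intro g hg z hz
    rw [hZmem] at hz ⊢
    refine ⟨(hg z).1 hz.1, fun s hs => ?_⟩
    have h1 : g⁻¹ * s * g ∈ R := by
      rw [hg]; simpa [mul_assoc] using hs
    have h2 := hz.2 _ h1
    have h3 : g * (g⁻¹ * s * g * z) * g⁻¹ = g * (z * (g⁻¹ * s * g)) * g⁻¹ := by rw [h2]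
    simpa [mul_assoc] using h3
  have hZcomm : ∀ x ∈ Z, ∀ y ∈ Z, x * y = y * x := fun x hx y hy =>
    ((hZmem y).1 hy).2 x ((hZmem x).1 hx).1
  have htZ : ∀ z ∈ Z, t * z * t⁻¹ ∈ Z := hZnorm t fun r => by
    exact Subgroup.mem_normalizer_iff.1 (hTR ht) r
  -- elements of `Z` inverted by `t`
  let K : Subgroup X :=
    { carrier := {z | z ∈ Z ∧ t * z * t⁻¹ = z⁻¹}
      mul_mem' := by
        rintro a b ⟨ha, ha'⟩ ⟨hb, hb'⟩
        refine ⟨Z.mul_mem ha hb, ?_⟩
        have : t * (a * b) * t⁻¹ = (t * a * t⁻¹) * (t * b * t⁻¹) := by group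
        rw [this, ha', hb', hZcomm a ha b hb]
        simp
      one_mem' := ⟨Z.one_mem, by simp⟩
      inv_mem' := by
        rintro a ⟨ha, ha'⟩
        refine ⟨Z.inv_mem ha, ?_⟩
        have : t * a⁻¹ * t⁻¹ = (t * a * t⁻¹)⁻¹ := by group
        rw [this, ha'] }
  have hKmem : ∀ z, z ∈ K ↔ z ∈ Z ∧ t * z * t⁻¹ = z⁻¹ := fun z => Iff.rfl
  have hKnorm : ∀ g ∈ P, ∀ k ∈ K, g * k * g⁻¹ ∈ K := by
    rw [← hfac]
    apply H58.PFix.normalizes_sup
    · intro r hr k hk
      have : r * k * r⁻¹ = k := by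
        rw [((hZmem k).1 ((hKmem k).1 hk).1).2 r hr, mul_inv_cancel_right]
      rw [this]; exact hk
    · intro c hc k hk
      obtain ⟨hcP, hcT⟩ := Subgroup.mem_inf.1 hc
      have hct : t * c = c * t := by
        rw [Subgroup.mem_centralizer_iff] at hcT
        exact hcT t ht
      refine ⟨hZnorm c (hRnorm c hcP) k ((hKmem k).1 hk).1, ?_⟩
      have h2 : t * (c * k * c⁻¹) * t⁻¹ = c * (t * k * t⁻¹) * c⁻¹ := by
        have h3 : c⁻¹ * t⁻¹ = t⁻¹ * c⁻¹ := by rw [← mul_inv_rev, ← mul_inv_rev, hct]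
        calc t * (c * k * c⁻¹) * t⁻¹ = (t * c) * k * (c⁻¹ * t⁻¹) := by group
          _ = (c * t) * k * (t⁻¹ * c⁻¹) := by rw [hct, h3]
          _ = _ := by group
      rw [h2, ((hKmem k).1 hk).2]
      group
  have hKR : K ≤ P := fun k hk => hRP ((hZmem k).1 ((hKmem k).1 hk).1).1
  have hKbot : K = ⊥ := by
    by_contra hne
    obtain ⟨k, hk, hk1, hkc⟩ := H58.PFix.exists_centralized hP (hP.to_le hKR) hne hKnorm
    have h1 : k ∈ (Subgroup.center ↥P).map P.subtype :=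
      ⟨⟨k, hKR hk⟩, Subgroup.mem_center_iff.2 fun s => Subtype.ext (hkc s s.2), rfl⟩
    have h2 : k * t = t * k := (Subgroup.mem_centralizer_iff.1 (hZ ht)) k h1
    have h3 : t * k * t⁻¹ = k := by rw [← h2, mul_inv_cancel_right]
    have h4 : k = k⁻¹ := h3.symm.trans ((hKmem k).1 hk).2
    have h5 : k ^ 2 = 1 := by rw [pow_two]; exact mul_eq_one_iff_eq_inv.2 h4
    have h6 : orderOf k ∣ 2 := orderOf_dvd_of_pow_eq_one h5
    obtain ⟨n, hn⟩ := hP ⟨k, hKR hk⟩
    have h7 : k ^ p ^ n = 1 := by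
      have := congrArg Subtype.val hn
      simpa using this
    have h8 : orderOf k ∣ p ^ n := orderOf_dvd_of_pow_eq_one h7
    have h9 : Nat.Coprime 2 (p ^ n) := by
      apply Nat.Coprime.pow_right
      rw [Nat.coprime_two_left]; exact hodd
    have h10 : orderOf k = 1 := Nat.eq_one_of_dvd_coprimes h9 h6 h8
    exact hk1 (orderOf_eq_one_iff.1 h10)
  rw [Subgroup.mem_centralizer_iff]
  intro z hz
  have hz' : z ∈ Z := hz
  have hw : z⁻¹ * (t * z * t⁻¹) ∈ K := by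
    refine ⟨Z.mul_mem (Z.inv_mem hz') (htZ z hz'), ?_⟩
    have h1 : t * (z⁻¹ * (t * z * t⁻¹)) * t⁻¹ = (t * z * t⁻¹)⁻¹ * ((t * t) * z * (t * t)⁻¹) := by group
    rw [h1, htt]
    group
  rw [hKbot, Subgroup.mem_bot] at hw
  have h1 : t * z * t⁻¹ = z := by
    rw [inv_mul_eq_one] at hw; exact hw.symm
  rw [mul_inv_eq_iff_eq_mul] at h1
  exact h1.symm

end Cfsg.Agent.S3190
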