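import Cfsg.Statements.S3195
import Cfsg.Agent.Lib.H55.BaerSuzuki
import Cfsg.Agent.Lib.H58.OddAut

set_option autoImplicit false
open Cfsg

namespace Cfsg.Agent.S3195

variable {G : Type*} [Group G]

theorem eq_one_of_sq {x : G} (hx : Odd (orderOf x)) (h : x * x = 1) : x = 1 := by
  rw [← orderOf_eq_one_iff]
  have h1 : orderOf x ∣ 2 := orderOf_dvd_of_pow_eq_one (by rw [pow_two]; exact h)
  rcases (Nat.dvd_prime Nat.prime_two).1 h1 with h2 | h2
  · exact h2
  · rw [h2] at hx; exact absurd hx (by decide)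

/-- inverted and centralized of odd order -/
theorem eq_one_of_inv {x a : G} (hx : Odd (orderOf x)) (h : a * x * a⁻¹ = x⁻¹) (hc : Commute a x) : x = 1 := by
  apply eq_one_of_sq hx
  have h1 : a * x * a⁻¹ = x := by rw [hc.eq, mul_inv_cancel_right]
  rw [h1] at h
  nth_rewrite 1 [h]
  exact inv_mul_cancel x

theorem commute_of_sq' {x u : G} (hx : Odd (orderOf x)) (h : Commute u (x * x)) : Commute u x :=
  (H58.OddAut.commute_of_sq hx (by rw [pow_two]; exact h.symm)).symm

theorem orderOf_conj' (x g : G) : orderOf (g * x * g⁻¹) = orderOf x := by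
  have := orderOf_injective (MulAut.conj g).toMonoidHom (MulAut.conj g).injective x
  simpa using this

/-- the final contradiction -/
theorem contra [Finite G] {a b c : G} (haa : a * a = 1) (hbb : b * b = 1) (hab : Commute a b)
    (hc : c = b * a)
    (hmeet : ∀ x, (x = a ∨ x = b ∨ x = c) → ∀ g : G, ∃ u, (u = a ∨ u = b ∨ u = c) ∧ Commute u (g * x * g⁻¹))
    {d e : G} (hd : Odd (orderOf d)) (hd1 : d ≠ 1) (he : Odd (orderOf e)) (he1 : e ≠ 1)
    (hbd : Commute b d) (had : a * d * a⁻¹ = d⁻¹) (hce : Commute c e) (hbe : b * e * b⁻¹ = e⁻¹) : False := by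
  have hbi : b⁻¹ = b := inv_eq_of_mul_eq_one_left hbb
  have hai : a⁻¹ = a := inv_eq_of_mul_eq_one_left haa
  have hbc : Commute b c := by rw [hc]; exact (Commute.refl b).mul_right hab.symm
  have hac : Commute a c := by rw [hc]; exact hab.mul_right (Commute.refl a)
  -- c inverts d
  have hcd : c * d * c⁻¹ = d⁻¹ := by
    rw [hc]
    calc b * a * d * (b * a)⁻¹ = b * (a * d * a⁻¹) * b⁻¹ := by group
      _ = b * d⁻¹ * b⁻¹ := by rw [had]
      _ = d⁻¹ := by rw [hbd.inv_right.eq, mul_inv_cancel_right]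
  -- a inverts e
  have hae : a * e * a⁻¹ = e⁻¹ := by
    have h1 : a = b * c := by rw [hc, ← mul_assoc, hbb, one_mul]
    rw [h1]
    calc b * c * e * (b * c)⁻¹ = b * (c * e * c⁻¹) * b⁻¹ := by group
      _ = b * e * b⁻¹ := by rw [hce.eq, mul_inv_cancel_right]
      _ = e⁻¹ := hbe
  -- d and e commute
  have hde : Commute d e := by
    obtain ⟨f, hf⟩ : ∃ f, f = d⁻¹ * e * d := ⟨_, rfl⟩
    have hfo : Odd (orderOf f) := by
      rw [hf]
      have := orderOf_conj' e d⁻¹
      rw [inv_inv] at this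
      rw [this]; exact he
    have hf1 : f ≠ 1 := by
      intro h
      rw [hf] at h
      apply he1
      calc e = d * (d⁻¹ * e * d) * d⁻¹ := by group
        _ = 1 := by rw [h]; group
    have hbf : b * f * b⁻¹ = f⁻¹ := by
      have h1 : b * d⁻¹ = d⁻¹ * b := hbd.inv_right.eq
      have h2 : d * b⁻¹ = b⁻¹ * d := hbd.symm.inv_right.eq
      rw [hf]
      calc b * (d⁻¹ * e * d) * b⁻¹ = (b * d⁻¹) * e * (d * b⁻¹) := by group
        _ = (d⁻¹ * b) * e * (b⁻¹ * d) := by rw [h1, h2]
        _ = d⁻¹ * (b * e * b⁻¹) * d := by group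
        _ = d⁻¹ * e⁻¹ * d := by rw [hbe]
        _ = (d⁻¹ * e * d)⁻¹ := by group
    obtain ⟨u, hu, huc⟩ := hmeet b (Or.inr (Or.inl rfl)) (d⁻¹ * e⁻¹)
    -- (d⁻¹ e⁻¹) b (e d) = b f²
    have hy : d⁻¹ * e⁻¹ * b * (d⁻¹ * e⁻¹)⁻¹ = b * (f * f) := by
      have h1 : e⁻¹ * b = b * e := by
        rw [← hbe]; group
      have h2 : d⁻¹ * b = b * d⁻¹ := hbd.inv_right.eq.symm
      calc d⁻¹ * e⁻¹ * b * (d⁻¹ * e⁻¹)⁻¹ = d⁻¹ * (e⁻¹ * b) * e * d := by group
        _ = d⁻¹ * (b * e) * e * d := by rw [h1]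
        _ = (d⁻¹ * b) * e * e * d := by group
        _ = (b * d⁻¹) * e * e * d := by rw [h2]
        _ = b * ((d⁻¹ * e * d) * (d⁻¹ * e * d)) := by group
        _ = _ := by rw [← hf]
    rw [hy] at huc
    have hub : Commute u b := by
      rcases hu with rfl | rfl | rfl
      · exact hab
      · exact Commute.refl _
      · exact hbc.symm
    have huf : Commute u f := by
      apply commute_of_sq' hfo
      have h1 : f * f = b⁻¹ * (b * (f * f)) := by group
      rw [h1]
      exact hub.inv_right.mul_right huc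
    rcases hu with rfl | rfl | rfl
    · -- u = a
      exfalso
      have h1 : u * f * u⁻¹ = f := by rw [huf.eq, mul_inv_cancel_right]
      have h2 : u * f * u⁻¹ = d * e⁻¹ * d⁻¹ := by
        rw [hf]
        calc u * (d⁻¹ * e * d) * u⁻¹ = (u * d * u⁻¹)⁻¹ * (u * e * u⁻¹) * (u * d * u⁻¹) := by group
          _ = _ := by rw [had, hae, inv_inv]
      rw [h1, hf] at h2
      -- d⁻¹ e d = d e⁻¹ d⁻¹
      have h3 : (d * d) * e⁻¹ * (d * d)⁻¹ = e := by
        calc (d * d) * e⁻¹ * (d * d)⁻¹ = d * (d * e⁻¹ * d⁻¹) * d⁻¹ := by group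
          _ = d * (d⁻¹ * e * d) * d⁻¹ := by rw [← h2]
          _ = e := by group
      have h4 : Commute (d * d * (d * d)) e := by
        change (d * d * (d * d)) * e = e * (d * d * (d * d))
        have h5 : (d * d) * e * (d * d)⁻¹ = e⁻¹ := by
          calc (d * d) * e * (d * d)⁻¹ = ((d * d) * e⁻¹ * (d * d)⁻¹)⁻¹ := by simp [mul_assoc]
            _ = e⁻¹ := by rw [h3]
        calc (d * d * (d * d)) * e = (d * d) * ((d * d) * e * (d * d)⁻¹) * (d * d) := by simp [mul_assoc]
          _ = (d * d) * e⁻¹ * (d * d) := by rw [h5]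
          _ = ((d * d) * e⁻¹ * (d * d)⁻¹) * (d * d * (d * d)) := by simp [mul_assoc]
          _ = e * (d * d * (d * d)) := by rw [h3]
      have hdd : Odd (orderOf (d * d)) := by
        rw [← pow_two, orderOf_pow]
        exact Odd.of_dvd_nat hd (Nat.div_dvd_of_dvd (Nat.gcd_dvd_left _ _))
      have h6 : Commute d e := (commute_of_sq' hd (commute_of_sq' hdd h4.symm)).symm
      apply he1
      apply eq_one_of_sq he
      have h7 : (d * d) * e⁻¹ * (d * d)⁻¹ = e⁻¹ := by
        have : Commute (d * d) e⁻¹ := (h6.mul_left h6).inv_right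
        rw [this.eq, mul_inv_cancel_right]
      rw [h7] at h3
      nth_rewrite 1 [← h3]
      exact inv_mul_cancel e
    · exact absurd (eq_one_of_inv hfo hbf huf) hf1
    · -- u = c
      have h1 : u * f * u⁻¹ = f := by rw [huf.eq, mul_inv_cancel_right]
      have h2 : u * f * u⁻¹ = d * e * d⁻¹ := by
        have h0 : u * e * u⁻¹ = e := by rw [hce.eq, mul_inv_cancel_right]
        rw [hf]
        calc u * (d⁻¹ * e * d) * u⁻¹ = (u * d * u⁻¹)⁻¹ * (u * e * u⁻¹) * (u * d * u⁻¹) := by group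
          _ = _ := by rw [hcd, h0, inv_inv]
      rw [h1, hf] at h2
      have h3 : Commute (d * d) e := by
        change d * d * e = e * (d * d)
        calc d * d * e = d * (d * e * d⁻¹) * d := by group
          _ = d * (d⁻¹ * e * d) * d := by rw [← h2]
          _ = e * (d * d) := by group
      exact (commute_of_sq' hd h3.symm).symm
  -- now use a conjugated by d e
  have hdeo : Odd (orderOf (d * e)) := by
    have h1 := hde.orderOf_mul_dvd_mul_orderOf
    exact Odd.of_dvd_nat (hd.mul he) h1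
  have hade : a * (d * e) * a⁻¹ = (d * e)⁻¹ := by
    calc a * (d * e) * a⁻¹ = (a * d * a⁻¹) * (a * e * a⁻¹) := by group
      _ = d⁻¹ * e⁻¹ := by rw [had, hae]
      _ = (d * e)⁻¹ := by rw [mul_inv_rev, (hde.inv_left.inv_right).eq]
  obtain ⟨u, hu, huc⟩ := hmeet a (Or.inl rfl) (d * e)⁻¹
  have hy : (d * e)⁻¹ * a * ((d * e)⁻¹)⁻¹ = a * ((d * e) * (d * e)) := by
    have h1 : a * ((d * e) * (d * e)) = (a * (d * e) * a⁻¹) * a * (d * e) := by simp [mul_assoc]
    rw [h1, hade, inv_inv]
  rw [hy] at huc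
  have hua : Commute u a := by
    rcases hu with rfl | rfl | rfl
    · exact Commute.refl _
    · exact hab.symm
    · exact hac.symm
  have hude : Commute u (d * e) := by
    apply commute_of_sq' hdeo
    have h1 : (d * e) * (d * e) = a⁻¹ * (a * ((d * e) * (d * e))) := by group
    rw [h1]
    exact hua.inv_right.mul_right huc
  rcases hu with rfl | rfl | rfl
  · have h1 := eq_one_of_inv hdeo hade hude
    have h2 : d = e⁻¹ := mul_eq_one_iff_eq_inv.1 h1
    have h3 : Commute b e := by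
      have h4 : e = d⁻¹ := by rw [h2, inv_inv]
      rw [h4]; exact hbd.inv_right
    exact he1 (eq_one_of_inv he hbe h3)
  · have h3 : Commute u e := by
      have h4 : e = d⁻¹ * (d * e) := by group
      rw [h4]; exact hbd.inv_right.mul_right hude
    exact he1 (eq_one_of_inv he hbe h3)
  · have h3 : Commute u d := by
      have h4 : d = (d * e) * e⁻¹ := by group
      rw [h4]; exact hude.mul_right hce.inv_right
    exact hd1 (eq_one_of_inv hd hcd h3)

/-- Let A be a Klein four-subgroup of a finite group G. If every G-conjugate of every involution of A commutes with some involution of A (its centralizer meets A nontrivially), then A meets the largest normal 2-subgroup O₂(G) nontrivially. -/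
theorem result {G : Type*} [Group G] [Finite G]
    (A : Subgroup G) (hA : IsKleinFour ↥A)
    (h : ∀ a ∈ A, a ≠ 1 → ∀ g : G, A ⊓ Subgroup.centralizer ({g * a * g⁻¹} : Set G) ≠ ⊥) :
    A ⊓ Cfsg.pCore 2 G ≠ ⊥ := by
  intro hbot
  -- basic facts on the four-group
  have hsq : ∀ x ∈ A, x * x = 1 := by
    intro x hx
    have h2 : (⟨x, hx⟩ : A) ^ 2 = 1 := by
      have h1 := hA.exponent_two
      rw [← h1]; exact Monoid.pow_exponent_eq_one _
    have h3 := congrArg Subtype.val h2
    simpa [pow_two] using h3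
  have hcm : ∀ x ∈ A, ∀ y ∈ A, Commute x y := by
    intro x hx y hy
    have h1 := hsq _ (A.mul_mem hx hy)
    have hxi : x⁻¹ = x := inv_eq_of_mul_eq_one_left (hsq x hx)
    have hyi : y⁻¹ = y := inv_eq_of_mul_eq_one_left (hsq y hy)
    have h2 : (x * y)⁻¹ = x * y := inv_eq_of_mul_eq_one_left h1
    rw [mul_inv_rev, hxi, hyi] at h2
    exact h2.symm
  have hthird : ∀ x ∈ A, ∀ y ∈ A, ∀ u ∈ A, x ≠ 1 → y ≠ 1 → x ≠ y → u ≠ 1 → (u = x ∨ u = y ∨ u = y * x) := by
    intro x hx y hy u hu hx1 hy1 hxy hu1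
    by_cases h1 : u = x
    · exact Or.inl h1
    by_cases h2 : u = y
    · exact Or.inr (Or.inl h2)
    right; right
    have := IsKleinFour.eq_mul_of_ne_all (G := A) (x := ⟨y, hy⟩) (y := ⟨x, hx⟩) (z := ⟨u, hu⟩)
      (fun h => hy1 (congrArg Subtype.val h)) (fun h => hx1 (congrArg Subtype.val h))
      (fun h => hxy (congrArg Subtype.val h).symm) (fun h => hu1 (congrArg Subtype.val h))
      (fun h => h2 (congrArg Subtype.val h)) (fun h => h1 (congrArg Subtype.val h))
    exact congrArg Subtype.val this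
  -- each involution of A inverts a nontrivial element of odd order
  have hinv : ∀ a ∈ A, a ≠ 1 → ∃ d : G, Odd (orderOf d) ∧ d ≠ 1 ∧ a * d * a⁻¹ = d⁻¹ := by
    intro a ha ha1
    by_contra hcon
    push Not at hcon
    obtain ⟨N, hN, hN2, haN⟩ := H55.BaerSuzuki.exists_normal_of_involution a (hsq a ha)
      (fun x hx hx' => by
        by_contra hx1
        exact hcon x hx hx1 hx')
    have h1 : a ∈ A ⊓ Cfsg.pCore 2 G := Subgroup.mem_inf.2 ⟨ha, (le_sSup ⟨hN, hN2⟩ : N ≤ Cfsg.pCore 2 G) haN⟩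
    rw [hbot, Subgroup.mem_bot] at h1
    exact ha1 h1
  -- and some other involution of A centralizes it
  have hP : ∀ a ∈ A, a ≠ 1 → ∃ b ∈ A, b ≠ 1 ∧ b ≠ a ∧ ∃ d : G, Odd (orderOf d) ∧ d ≠ 1 ∧ a * d * a⁻¹ = d⁻¹ ∧
      Commute b d := by
    intro a ha ha1
    obtain ⟨d, hd, hd1, had⟩ := hinv a ha ha1
    obtain ⟨b, hb, hb1⟩ := (Subgroup.bot_or_exists_ne_one _).resolve_left (h a ha ha1 d)
    obtain ⟨hbA, hbc⟩ := Subgroup.mem_inf.1 hb
    rw [Subgroup.mem_centralizer_singleton_iff] at hbc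
    have hbc' : Commute b (d * a * d⁻¹) := hbc
    have h1 : d * a * d⁻¹ = (d * d) * a := by
      have h2 : a * d⁻¹ * a⁻¹ = d := by
        calc a * d⁻¹ * a⁻¹ = (a * d * a⁻¹)⁻¹ := by group
          _ = d := by rw [had, inv_inv]
      calc d * a * d⁻¹ = d * (a * d⁻¹ * a⁻¹) * a := by group
        _ = d * d * a := by rw [h2]
    rw [h1] at hbc'
    have h2 : Commute b (d * d) := by
      have h3 : d * d = (d * d * a) * a⁻¹ := by group
      rw [h3]; exact hbc'.mul_right (hcm b hbA a ha).inv_right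
    have h3 : Commute b d := commute_of_sq' hd h2
    refine ⟨b, hbA, hb1, ?_, d, hd, hd1, had, h3⟩
    rintro rfl
    exact hd1 (eq_one_of_inv hd had h3)
  -- A is nontrivial
  obtain ⟨a, haA, ha1⟩ : ∃ a ∈ A, a ≠ 1 := by
    by_contra hcon
    push Not at hcon
    have h1 : A = ⊥ := (Subgroup.eq_bot_iff_forall A).2 hcon
    have h2 := hA.card_four
    rw [h1, Subgroup.card_bot] at h2
    exact absurd h2 (by decide)
  obtain ⟨b, hbA, hb1, hba, d, hd, hd1, had, hbd⟩ := hP a haA ha1
  obtain ⟨c, hcA, hc1, hcb, e, he, he1, hbe, hce⟩ := hP b hbA hb1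
  -- general form of the meeting hypothesis
  have hmeet : ∀ x y : G, x ∈ A → y ∈ A → x ≠ 1 → y ≠ 1 → x ≠ y →
      ∀ t, (t = x ∨ t = y ∨ t = y * x) → ∀ g : G, ∃ u, (u = x ∨ u = y ∨ u = y * x) ∧ Commute u (g * t * g⁻¹) := by
    intro x y hx hy hx1 hy1 hxy t ht g
    have htA : t ∈ A := by
      rcases ht with rfl | rfl | rfl
      · exact hx
      · exact hy
      · exact A.mul_mem hy hx
    have ht1 : t ≠ 1 := by
      rcases ht with rfl | rfl | rfl
      · exact hx1
      · exact hy1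
      · intro h0
        apply hxy
        rw [mul_eq_one_iff_eq_inv, inv_eq_of_mul_eq_one_left (hsq x hx)] at h0
        exact h0.symm
    obtain ⟨u, hu, hu1⟩ := (Subgroup.bot_or_exists_ne_one _).resolve_left (h t htA ht1 g)
    obtain ⟨huA, huc⟩ := Subgroup.mem_inf.1 hu
    rw [Subgroup.mem_centralizer_singleton_iff] at huc
    exact ⟨u, hthird x hx y hy u huA hx1 hy1 hxy hu1, huc⟩
  -- c = a or c = b a
  rcases hthird a haA b hbA c hcA ha1 hb1 hba.symm hc1 with hca | hcb' | hcba
  · -- c = a : use a' = b a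
    subst hca
    have ha'A : b * c ∈ A := A.mul_mem hbA hcA
    have ha'1 : b * c ≠ 1 := by
      intro h0
      apply hba
      rw [mul_eq_one_iff_eq_inv, inv_eq_of_mul_eq_one_left (hsq c hcA)] at h0
      exact h0
    have ha'b : b * c ≠ b := fun h0 => hc1 (mul_eq_left.1 h0)
    refine contra (a := b * c) (b := b) (c := c) (hsq _ ha'A) (hsq b hbA) (hcm _ ha'A b hbA) ?_ ?_ hd hd1 he he1
      hbd ?_ hce hbe
    · rw [← mul_assoc, hsq b hbA, one_mul]
    · have h1 := hmeet (b * c) b ha'A hbA ha'1 hb1 ha'b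
      have h2 : b * (b * c) = c := by rw [← mul_assoc, hsq b hbA, one_mul]
      rw [h2] at h1
      exact h1
    · calc b * c * d * (b * c)⁻¹ = b * (c * d * c⁻¹) * b⁻¹ := by group
        _ = b * d⁻¹ * b⁻¹ := by rw [had]
        _ = d⁻¹ := by rw [hbd.inv_right.eq, mul_inv_cancel_right]
  · exact hcb hcb'
  · exact contra (a := a) (b := b) (c := c) (hsq a haA) (hsq b hbA) (hcm a haA b hbA) hcba
      (by rw [hcba]; exact hmeet a b haA hbA ha1 hb1 hba.symm) hd hd1 he he1 hbd had hce hbe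

end Cfsg.Agent.S3195
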