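import Cfsg.Statements.S3196
import Cfsg.Agent.Lib.H58.PolarClass
import Cfsg.Agent.Lib.H58.Rel
import Cfsg.Agent.Lib.H58.EA

set_option autoImplicit false
open Cfsg

namespace Cfsg.Agent.S3196

/-- elements of the join of two commuting cyclic groups -/
theorem mem_sup_zpowers {G : Type*} [Group G] {x y s : G} (h : Commute x y)
    (hs : s ∈ Subgroup.zpowers x ⊔ Subgroup.zpowers y) : ∃ i j : ℤ, s = x ^ i * y ^ j := by
  let L : Subgroup G :=
    { carrier := {s | ∃ i j : ℤ, s = x ^ i * y ^ j}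
      mul_mem' := by
        rintro _ _ ⟨i, j, rfl⟩ ⟨k, l, rfl⟩
        refine ⟨i + k, j + l, ?_⟩
        rw [zpow_add, zpow_add]
        have h1 : y ^ j * x ^ k = x ^ k * y ^ j := ((h.zpow_left k).zpow_right j).eq.symm
        calc x ^ i * y ^ j * (x ^ k * y ^ l) = x ^ i * (y ^ j * x ^ k) * y ^ l := by group
          _ = x ^ i * (x ^ k * y ^ j) * y ^ l := by rw [h1]
          _ = _ := by group
      one_mem' := ⟨0, 0, by simp⟩
      inv_mem' := by
        rintro _ ⟨i, j, rfl⟩
        refine ⟨-i, -j, ?_⟩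
        rw [mul_inv_rev, zpow_neg, zpow_neg]
        exact (((h.zpow_left i).zpow_right j).symm.inv_inv).eq }
  have hle : Subgroup.zpowers x ⊔ Subgroup.zpowers y ≤ L := by
    refine sup_le (Subgroup.zpowers_le.2 ⟨1, 0, by simp⟩) (Subgroup.zpowers_le.2 ⟨0, 1, by simp⟩)
  exact hle hs

/-- Let p be a prime and K a set of subgroups of order p of a finite group G, closed under conjugation, such that at least two distinct members of K commute elementwise, and whenever two distinct members X, Y of K commute: every subgroup of order p of the group XY they generate belongs to K, and every member W of K has centralizer meeting XY nontrivially. Then some member V of K commutes elementwise with every member of K and lies in O_p(G); in particular G is not simple. -/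
theorem result {G : Type*} [Group G] [Finite G]
    {p : ℕ} (hp : p.Prime) (K : Set (Subgroup G)) (hK : ∀ X ∈ K, Nat.card ↥X = p)
    (hKc : ∀ X ∈ K, ∀ g : G, X.map (MulAut.conj g).toMonoidHom ∈ K)
    (hex : ∃ X ∈ K, ∃ Y ∈ K, X ≠ Y ∧ ∀ x ∈ X, ∀ y ∈ Y, x * y = y * x)
    (ha : ∀ X ∈ K, ∀ Y ∈ K, X ≠ Y → (∀ x ∈ X, ∀ y ∈ Y, x * y = y * x) →
      ∀ Z : Subgroup G, Z ≤ X ⊔ Y → Nat.card ↥Z = p → Z ∈ K)
    (hb : ∀ X ∈ K, ∀ Y ∈ K, X ≠ Y → (∀ x ∈ X, ∀ y ∈ Y, x * y = y * x) →
      ∀ W ∈ K, (X ⊔ Y) ⊓ Subgroup.centralizer (W : Set G) ≠ ⊥) :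
    (∃ V ∈ K, (∀ W ∈ K, ∀ v ∈ V, ∀ w ∈ W, v * w = w * v) ∧ V ≤ Cfsg.pCore p G) ∧ ¬ IsSimpleGroup G := by
  classical
  have hpf : Fact p.Prime := ⟨hp⟩
  -- the generators of members of K
  set E : Set G := {x | x ≠ 1 ∧ Subgroup.zpowers x ∈ K} with hE
  have hgen : ∀ X ∈ K, ∀ x ∈ X, x ≠ 1 → Subgroup.zpowers x = X := by
    intro X hX x hx hx1
    have : Nat.card X = p := hK X hX
    have hxX : Subgroup.zpowers x ≤ X := Subgroup.zpowers_le.2 hx
    apply Subgroup.eq_of_le_of_card_ge hxX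
    have h1 : Nat.card (Subgroup.zpowers x) ∣ p := by rw [← this]; exact Subgroup.card_dvd_of_le hxX
    rcases (Nat.dvd_prime hp).1 h1 with h | h
    · exfalso
      rw [Subgroup.card_eq_one, Subgroup.zpowers_eq_bot] at h
      exact hx1 h
    · rw [h, this]
  have hmemE : ∀ X ∈ K, ∀ x ∈ X, x ≠ 1 → x ∈ E := fun X hX x hx hx1 =>
    ⟨hx1, by rw [hgen X hX x hx hx1]; exact hX⟩
  have hexE : ∀ X ∈ K, ∃ x ∈ X, x ≠ 1 := by
    intro X hX
    have h1 : X ≠ ⊥ := by
      rintro rfl
      have := hK _ hX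
      rw [Subgroup.card_bot] at this
      exact hp.one_lt.ne this
    obtain ⟨x, hx, hx1⟩ := (Subgroup.bot_or_exists_ne_one X).resolve_left h1
    exact ⟨x, hx, hx1⟩
  have hord : ∀ x ∈ E, orderOf x = p := by
    intro x hx
    rw [← Nat.card_zpowers]; exact hK _ hx.2
  have hpow : ∀ x ∈ E, x ^ p = 1 := fun x hx => by rw [← hord x hx, pow_orderOf_eq_one]
  have hcomm : ∀ x y : G, Commute x y → ∀ a ∈ Subgroup.zpowers x, ∀ b ∈ Subgroup.zpowers y, a * b = b * a := by
    intro x y h a ha b hb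
    obtain ⟨i, rfl⟩ := Subgroup.mem_zpowers_iff.1 ha
    obtain ⟨j, rfl⟩ := Subgroup.mem_zpowers_iff.1 hb
    exact ((h.zpow_left i).zpow_right j).eq
  have hconj : ∀ x ∈ E, ∀ g : G, g * x * g⁻¹ ∈ E := by
    intro x hx g
    refine ⟨fun h => hx.1 (by simpa using h), ?_⟩
    have := hKc _ hx.2 g
    rw [MonoidHom.map_zpowers] at this
    exact this
  have hH : H58.PolarClass.Hyp p E := by
    refine ⟨hp, fun x hx => hx.1, hpow, hconj, ?_, ?_, ?_⟩
    · intro x hx y hy hxy i j hij
      refine ⟨hij, ?_⟩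
      have hs : x ^ i * y ^ j ∈ Subgroup.zpowers x ⊔ Subgroup.zpowers y :=
        Subgroup.mul_mem_sup (Subgroup.zpow_mem _ (Subgroup.mem_zpowers x) i) (Subgroup.zpow_mem _ (Subgroup.mem_zpowers y) j)
      by_cases hXY : Subgroup.zpowers x = Subgroup.zpowers y
      · rw [← hXY, sup_idem] at hs
        rw [hgen _ hx.2 _ hs hij]; exact hx.2
      · apply ha _ hx.2 _ hy.2 hXY (hcomm x y hxy)
        · exact Subgroup.zpowers_le.2 hs
        · rw [Nat.card_zpowers]
          apply orderOf_eq_prime _ hij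
          have hc : Commute (x ^ i) (y ^ j) := (hxy.zpow_left i).zpow_right j
          rw [hc.mul_pow, ← zpow_natCast, ← zpow_natCast, ← zpow_mul, ← zpow_mul, mul_comm i, mul_comm j, zpow_mul,
            zpow_mul, zpow_natCast, zpow_natCast, hpow x hx, hpow y hy, one_zpow, one_zpow, one_mul]
    · intro x hx y hy hxy hyx w hw
      have hXY : Subgroup.zpowers x ≠ Subgroup.zpowers y := fun h => hyx (by rw [h]; exact Subgroup.mem_zpowers y)
      have h1 := hb _ hx.2 _ hy.2 hXY (hcomm x y hxy) _ hw.2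
      obtain ⟨s, hs, hs1⟩ := (Subgroup.bot_or_exists_ne_one _).resolve_left h1
      obtain ⟨hs2, hs3⟩ := Subgroup.mem_inf.1 hs
      obtain ⟨i, j, rfl⟩ := mem_sup_zpowers hxy hs2
      refine ⟨i, j, hs1, ?_⟩
      exact (Subgroup.mem_centralizer_iff.1 hs3) w (Subgroup.mem_zpowers w)
    · obtain ⟨X, hX, Y, hY, hXY, hc⟩ := hex
      obtain ⟨x, hx, hx1⟩ := hexE X hX
      obtain ⟨y, hy, hy1⟩ := hexE Y hY
      refine ⟨x, hmemE X hX x hx hx1, y, hmemE Y hY y hy hy1, hc x hx y hy, ?_⟩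
      intro h
      rw [hgen X hX x hx hx1] at h
      apply hXY
      rw [← hgen X hX y h hy1, hgen Y hY y hy hy1]
  obtain ⟨v, hv, hvc⟩ := H58.PolarClass.exists_central hH
  -- the normal abelian subgroup generated by central points
  set Z : Set G := {x | x ∈ E ∧ ∀ u ∈ E, Commute x u} with hZ
  have hZcomm : ∀ x ∈ Z, ∀ y ∈ Z, x * y = y * x := fun x hx y hy => hx.2 y hy.1
  have hZconj : ∀ x ∈ Z, ∀ g : G, g * x * g⁻¹ ∈ Z := by
    intro x hx g
    refine ⟨hconj x hx.1 g, fun u hu => ?_⟩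
    have h1 : g⁻¹ * u * g ∈ E := by simpa using hconj u hu g⁻¹
    have h2 := (hx.2 _ h1).eq
    change g * x * g⁻¹ * u = u * (g * x * g⁻¹)
    calc g * x * g⁻¹ * u = g * (x * (g⁻¹ * u * g)) * g⁻¹ := by group
      _ = g * (g⁻¹ * u * g * x) * g⁻¹ := by rw [h2]
      _ = u * (g * x * g⁻¹) := by group
  set N : Subgroup G := Subgroup.closure Z with hN
  have hNcomm : ∀ x ∈ N, ∀ y ∈ N, x * y = y * x := H58.EA.comm_closure hZcomm
  have hNn : N.Normal := by
    constructor
    intro n hn g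
    induction hn using Subgroup.closure_induction with
    | mem x hx => exact Subgroup.subset_closure (hZconj x hx g)
    | one => simp [N.one_mem]
    | mul x y hx hy ihx ihy =>
      have : g * (x * y) * g⁻¹ = (g * x * g⁻¹) * (g * y * g⁻¹) := by group
      rw [this]; exact N.mul_mem ihx ihy
    | inv x hx ih =>
      have : g * x⁻¹ * g⁻¹ = (g * x * g⁻¹)⁻¹ := by group
      rw [this]; exact N.inv_mem ih
  have hNp : IsPGroup p N := by
    intro y
    refine ⟨1, Subtype.ext ?_⟩
    rw [pow_one]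
    obtain ⟨y, hy⟩ := y
    change y ^ p = 1
    induction hy using Subgroup.closure_induction with
    | mem x hx => exact hpow x hx.1
    | one => simp
    | mul x y hx hy ihx ihy =>
      have hc : Commute x y := hNcomm x hx y hy
      rw [hc.mul_pow, ihx, ihy, one_mul]
    | inv x hx ih => rw [inv_pow, ih, inv_one]
  have hvN : v ∈ N := Subgroup.subset_closure ⟨hv, hvc⟩
  refine ⟨⟨Subgroup.zpowers v, hv.2, ?_, ?_⟩, ?_⟩
  · intro W hW a haV w hw
    by_cases hw1 : w = 1
    · rw [hw1]; simp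
    obtain ⟨i, rfl⟩ := Subgroup.mem_zpowers_iff.1 haV
    exact ((hvc w (hmemE W hW w hw hw1)).zpow_left i).eq
  · refine (Subgroup.zpowers_le.2 hvN).trans ?_
    exact le_sSup ⟨hNn, hNp⟩
  · intro hs
    rcases hNn.eq_bot_or_eq_top with h | h
    · rw [h, Subgroup.mem_bot] at hvN
      exact hv.1 hvN
    · -- G is abelian
      have hG : ∀ x y : G, x * y = y * x := fun x y => hNcomm x (by rw [h]; trivial) y (by rw [h]; trivial)
      obtain ⟨X, hX, Y, hY, hXY, -⟩ := hex
      have htop : ∀ X ∈ K, X = ⊤ := by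
        intro X hX
        have hXn : X.Normal := ⟨fun n hn g => by rw [hG g n, mul_inv_cancel_right]; exact hn⟩
        rcases hXn.eq_bot_or_eq_top with h' | h'
        · exfalso
          obtain ⟨x, hx, hx1⟩ := hexE X hX
          rw [h', Subgroup.mem_bot] at hx
          exact hx1 hx
        · exact h'
      exact hXY ((htop X hX).trans (htop Y hY).symm)

end Cfsg.Agent.S3196
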