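import Cfsg.Statements.S3201
import Cfsg.Agent.Lib.H58.UniqInv
-- import your own Cfsg.Agent.* helpers here

set_option autoImplicit false
open Cfsg

namespace Cfsg.Agent.S3201

open Subgroup

theorem center_cases {Q : Type*} [Group Q] [Finite Q] (h2 : IsPGroup 2 Q)
    (hna : ¬ IsMulCommutative Q) {u : Q} (hu : orderOf u = 2) (huu : ∀ x : Q, orderOf x = 2 → x = u)
    {z : Q} (hz : z ∈ center Q) : z = 1 ∨ z = u := by
  have hu' : ∃! x : Q, orderOf x = 2 := ⟨u, hu, huu⟩
  obtain ⟨a, ha⟩ := H58.UniqInv.exists_index_two h2 hu' hna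
  obtain ⟨n, hn2, hn, hst⟩ := H58.UniqInv.structure_of_index_two h2 hu' hna ha
  have hex : ∃ y, y ∉ zpowers a := by
    by_contra hcon
    push Not at hcon
    have : zpowers a = ⊤ := (eq_top_iff' _).2 hcon
    rw [this, index_top] at ha
    omega
  obtain ⟨y, hy⟩ := hex
  have hsq : z ^ 2 = 1 := by
    by_cases hza : z ∈ zpowers a
    · obtain ⟨i, rfl⟩ := hza
      have h1 := (hst y hy).1
      have h3 := Subgroup.mem_center_iff.1 hz y
      have h4 : y * a ^ i * y⁻¹ = a⁻¹ ^ i := by rw [← conj_zpow, h1]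
      have h5 : (fun x : ℤ => a ^ x) i = a ^ i := rfl
      rw [h5] at h3 ⊢
      rw [h3, mul_inv_cancel_right, inv_zpow] at h4
      rw [pow_two]
      nth_rewrite 1 [h4]
      rw [inv_mul_cancel]
    · exfalso
      have h1 := (hst z hza).1
      have h3 := Subgroup.mem_center_iff.1 hz a
      rw [← h3, mul_inv_cancel_right] at h1
      have h4 : a ^ 2 = 1 := by
        rw [pow_two]; nth_rewrite 1 [h1]; rw [inv_mul_cancel]
      have h5 := orderOf_dvd_of_pow_eq_one h4
      rw [hn] at h5
      have h6 := Nat.le_of_dvd (by norm_num) h5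
      have h7 : 2 ^ 2 ≤ 2 ^ n := Nat.pow_le_pow_right (by norm_num) hn2
      omega
  by_cases h1 : z = 1
  · exact Or.inl h1
  · right
    exact huu z (orderOf_eq_prime hsq h1)


/-- Let S be a finite 2-group whose centre Z(S) has n ≥ 2 distinct maximal subgroups C₁, …, Cₙ with trivial intersection such that each quotient S/Cᵢ is a non-abelian group with exactly one involution (a generalized quaternion group). Then S is the internal direct product of an elementary abelian subgroup and a non-abelian subgroup with exactly one involution. -/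
theorem result {S : Type*} [Group S] [Finite S]
    (hS : IsPGroup 2 S) (n : ℕ) (hn : 2 ≤ n) (C : Fin n → Subgroup ↥(Subgroup.center S))
    (hCmax : ∀ i, IsCoatom (C i)) (hCinj : Function.Injective C) (hCint : ⨅ i, C i = ⊥)
    (hCq : ∀ i, ∃ (_ : ((C i).map (Subgroup.center S).subtype).Normal),
      ¬ IsMulCommutative (S ⧸ (C i).map (Subgroup.center S).subtype) ∧
      ∃! x : S ⧸ (C i).map (Subgroup.center S).subtype, orderOf x = 2) :
    ∃ E Q : Subgroup S, Cfsg.IsInternalDirectProduct E Q ⊤ ∧ Cfsg.IsElementaryAbelian 2 E ∧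
      ¬ IsMulCommutative ↥Q ∧ ∃! x : ↥Q, orderOf x = 2 := by
  choose hN hna hu using hCq
  choose u hu2 huu using hu
  simp only [] at hu2 huu
  set N : Fin n → Subgroup S := fun i => (C i).map (Subgroup.center S).subtype with hNdef
  have hQ : ∀ i, IsPGroup 2 (S ⧸ N i) := fun i => hS.to_quotient (N i)
  have hNZ : ∀ i, N i ≤ Subgroup.center S := by
    rintro i _ ⟨z, -, rfl⟩
    exact z.2
  let i0 : Fin n := ⟨0, by omega⟩
  -- membership in all `N i`
  have hall : ∀ s : S, (∀ i, s ∈ N i) → s = 1 := by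
    intro s hs
    have hsZ : s ∈ Subgroup.center S := hNZ i0 (hs i0)
    have h1 : (⟨s, hsZ⟩ : Subgroup.center S) ∈ ⨅ i, C i := by
      rw [Subgroup.mem_iInf]
      intro i
      obtain ⟨z, hz, hzs⟩ := hs i
      have : z = ⟨s, hsZ⟩ := Subtype.ext hzs
      rw [← this]; exact hz
    rw [hCint, Subgroup.mem_bot] at h1
    exact congrArg Subtype.val h1
  let π : ∀ i, S →* S ⧸ N i := fun i => QuotientGroup.mk' (N i)
  have hπ : ∀ i, Function.Surjective (π i) := fun i => QuotientGroup.mk'_surjective (N i)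
  have hker : ∀ i (s : S), π i s = 1 ↔ s ∈ N i := fun i s => QuotientGroup.eq_one_iff s
  have hcen : ∀ i, ∀ z ∈ Subgroup.center S, π i z = 1 ∨ π i z = u i := by
    intro i z hz
    apply center_cases (hQ i) (hna i) (hu2 i) (huu i)
    rw [Subgroup.mem_center_iff]
    intro q
    obtain ⟨s, rfl⟩ := hπ i q
    rw [← map_mul, ← map_mul, Subgroup.mem_center_iff.1 hz s]
  have huu2 : ∀ i, u i * u i = 1 := by
    intro i
    have := pow_orderOf_eq_one (u i)
    rwa [hu2 i, pow_two] at this
  have hZsq : ∀ z ∈ Subgroup.center S, z * z = 1 := by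
    intro z hz
    apply hall
    intro i
    rw [← hker, map_mul]
    rcases hcen i z hz with h | h <;> rw [h]
    · exact one_mul 1
    · exact huu2 i
  have hexz : ∀ i, ∃ z ∈ Subgroup.center S, π i z = u i := by
    intro i
    have h1 : C i ≠ ⊤ := (hCmax i).1
    have h2 : ∃ z, z ∉ C i := by
      by_contra hcon
      push Not at hcon
      exact h1 ((Subgroup.eq_top_iff' _).2 hcon)
    obtain ⟨z, hz⟩ := h2
    refine ⟨z, z.2, ?_⟩
    rcases hcen i z z.2 with h | h
    · exfalso
      rw [hker] at h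
      obtain ⟨w, hw, hwz⟩ := h
      apply hz
      have : w = z := Subtype.ext hwz
      rw [← this]; exact hw
    · exact h
  -- an element mapping into `{1, u i}` is central
  have hback : ∀ i (s : S), (π i s = 1 ∨ π i s = u i) → s ∈ Subgroup.center S := by
    rintro i s (h | h)
    · exact hNZ i ((hker i s).1 h)
    · obtain ⟨z, hz, hzu⟩ := hexz i
      have h1 : π i (s * z⁻¹) = 1 := by rw [map_mul, map_inv, h, hzu, mul_inv_cancel]
      have h2 := hNZ i ((hker i _).1 h1)
      have h3 : s = (s * z⁻¹) * z := by group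
      rw [h3]; exact mul_mem h2 hz
  have hinv : ∀ s : S, s * s = 1 → s ∈ Subgroup.center S := by
    intro s hs
    apply hback i0
    by_cases h : π i0 s = 1
    · exact Or.inl h
    · right
      apply huu
      apply orderOf_eq_prime _ h
      rw [pow_two, ← map_mul, hs, map_one]
  -- cyclic subgroup of index two
  obtain ⟨a, ha⟩ := H58.UniqInv.exists_index_two (hQ i0) ⟨u i0, hu2 i0, huu i0⟩ (hna i0)
  obtain ⟨m, hm2, hm, hst⟩ := H58.UniqInv.structure_of_index_two (hQ i0) ⟨u i0, hu2 i0, huu i0⟩ (hna i0) ha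
  obtain ⟨g, hg⟩ := hπ i0 a
  set X := (Subgroup.zpowers a).comap (π i0) with hX
  have hXi : X.index = 2 := by rw [hX, Subgroup.index_comap_of_surjective _ (hπ i0)]; exact ha
  have hgX : g ∈ X := by rw [hX, Subgroup.mem_comap, hg]; exact Subgroup.mem_zpowers a
  have hgen : ∀ x ∈ X, ∃ i : ℤ, ∃ d ∈ N i0, x = g ^ i * d := by
    intro x hx
    obtain ⟨i, hi⟩ := Subgroup.mem_zpowers_iff.1 (Subgroup.mem_comap.1 hx)
    refine ⟨i, g ^ (-i) * x, ?_, by group⟩
    rw [← hker, map_mul, map_zpow, hg, ← hi]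
    group
  have hZX : Subgroup.center S ≤ X := by
    intro z hz
    rw [hX, Subgroup.mem_comap]
    rcases hcen i0 z hz with h | h
    · rw [h]; exact one_mem _
    · rw [h]
      have h1 : orderOf (a ^ (2 ^ (m - 1))) = 2 := by
        rw [orderOf_pow' _ (by positivity), hm]
        have : 2 ^ m = 2 ^ (m - 1) * 2 := by rw [← pow_succ]; congr 1; omega
        rw [this, Nat.gcd_mul_right_left, Nat.mul_div_cancel_left _ (by positivity)]
      rw [← huu i0 _ h1]
      exact pow_mem (Subgroup.mem_zpowers a) _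
  obtain ⟨t, ht⟩ : ∃ t, t ∉ X := by
    by_contra hcon
    push Not at hcon
    have : X = ⊤ := (Subgroup.eq_top_iff' _).2 hcon
    rw [this, Subgroup.index_top] at hXi
    omega
  have hgZ : g ∉ Subgroup.center S := by
    intro h
    have h1 : a * a = 1 := by rw [← hg, ← map_mul, hZsq g h, map_one]
    have h2 := orderOf_dvd_of_pow_eq_one (show a ^ 2 = 1 by rw [pow_two, h1])
    rw [hm] at h2
    have h3 := Nat.le_of_dvd (by norm_num) h2
    have h4 : 2 ^ 2 ≤ 2 ^ m := Nat.pow_le_pow_right (by norm_num) hm2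
    omega
  -- the image of `X` in every quotient is generated by the image of `g`
  have himg : ∀ i, X.map (π i) = Subgroup.zpowers (π i g) := by
    intro i
    apply le_antisymm
    · rintro _ ⟨x, hx, rfl⟩
      obtain ⟨k, d, hd, rfl⟩ := hgen x hx
      rw [map_mul, map_zpow]
      apply mul_mem (zpow_mem (Subgroup.mem_zpowers _) k)
      rcases hcen i d (hNZ i0 hd) with h | h
      · rw [h]; exact one_mem _
      · rw [h]
        -- `u i` is a power of `π i g ≠ 1`
        have h1 : π i g ≠ 1 := by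
          intro h1
          exact hgZ (hNZ i ((hker i g).1 h1))
        have h2 : 2 ∣ orderOf (π i g) := by
          obtain ⟨k, hk⟩ := IsPGroup.iff_orderOf.mp (hQ i) (π i g)
          rw [hk]
          have hk0 : k ≠ 0 := by
            rintro rfl
            rw [pow_zero, orderOf_eq_one_iff] at hk
            exact h1 hk
          exact dvd_pow_self 2 hk0
        have h3 : orderOf (π i g ^ (orderOf (π i g) / 2)) = 2 := orderOf_pow_orderOf_div
          (orderOf_pos _).ne' h2
        rw [← huu i _ h3]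
        exact pow_mem (Subgroup.mem_zpowers _) _
    · rw [Subgroup.zpowers_le]
      exact ⟨g, hgX, rfl⟩
  have hindi : ∀ i, (Subgroup.zpowers (π i g)).index = 2 := by
    intro i
    rw [← himg, Subgroup.index_map_eq _ (hπ i) (by
      rw [QuotientGroup.ker_mk']; exact (hNZ i).trans hZX)]
    exact hXi
  have hti : ∀ i, π i t ∉ Subgroup.zpowers (π i g) := by
    intro i h
    rw [← himg] at h
    obtain ⟨x, hx, hxt⟩ := h
    apply ht
    have h1 : x⁻¹ * t ∈ N i := by
      rw [← hker, map_mul, map_inv, hxt, inv_mul_cancel]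
    have h2 : t = x * (x⁻¹ * t) := by group
    rw [h2]; exact mul_mem hx (hZX (hNZ i h1))
  have hsti : ∀ i, ∃ k, 2 ≤ k ∧ orderOf (π i g) = 2 ^ k ∧ π i t * π i g * (π i t)⁻¹ = (π i g)⁻¹ ∧
      π i t ^ 2 = π i g ^ (2 ^ (k - 1)) := by
    intro i
    obtain ⟨k, hk2, hk, hsk⟩ := H58.UniqInv.structure_of_index_two (hQ i) ⟨u i, hu2 i, huu i⟩ (hna i) (hindi i)
    exact ⟨k, hk2, hk, hsk _ (hti i)⟩
  have htg : t * g * t⁻¹ = g⁻¹ := by
    rw [← mul_inv_eq_one, inv_inv]
    apply hall
    intro i
    obtain ⟨k, hk2, hk, h1, h2⟩ := hsti i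
    rw [← hker, map_mul, map_mul, map_mul, map_inv, h1, inv_mul_cancel]
  set y := g ^ (2 ^ (m - 1)) with hy
  have hyord : ∀ i k, 1 ≤ k → orderOf (π i g) = 2 ^ k → π i (g ^ (2 ^ (k - 1))) = u i := by
    intro i k hk1 hk
    apply huu
    rw [map_pow, orderOf_pow' _ (by positivity), hk]
    have : 2 ^ k = 2 ^ (k - 1) * 2 := by rw [← pow_succ]; congr 1; omega
    rw [this, Nat.gcd_mul_right_left, Nat.mul_div_cancel_left _ (by positivity)]
  have hyZ : y ∈ Subgroup.center S := hback i0 y (Or.inr (hyord i0 m (by omega) (by rw [hg, hm])))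
  have hyy : y * y = 1 := hZsq y hyZ
  have hyN : ∀ i, π i y = u i := by
    intro i
    rcases hcen i y hyZ with h | h
    · exfalso
      obtain ⟨k, hk2, hk, h1, h2⟩ := hsti i
      have h3 : k ≤ m - 1 := by
        have h4 : orderOf (π i g) ∣ 2 ^ (m - 1) := by
          apply orderOf_dvd_of_pow_eq_one
          rw [← map_pow]; exact h
        rw [hk] at h4
        exact (Nat.pow_dvd_pow_iff_le_right (by norm_num)).1 h4
      have h4 : g ^ (2 ^ (k - 1)) ∈ Subgroup.center S := hback i _ (Or.inr (hyord i k (by omega) hk))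
      have h5 := hZsq _ h4
      have h6 : a ^ (2 ^ k) = 1 := by
        rw [← hg, ← map_pow]
        have h7 : g ^ (2 ^ k) = g ^ (2 ^ (k - 1)) * g ^ (2 ^ (k - 1)) := by
          rw [← pow_add]; congr 1
          rw [← mul_two, ← pow_succ]; congr 1; omega
        rw [h7, h5, map_one]
      have h7 := orderOf_dvd_of_pow_eq_one h6
      rw [hm] at h7
      have h8 := (Nat.pow_dvd_pow_iff_le_right (x := 2) (by norm_num)).1 h7
      omega
    · exact h
  have htt : t * t = y := by
    rw [← mul_inv_eq_one]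
    apply hall
    intro i
    obtain ⟨k, hk2, hk, h1, h2⟩ := hsti i
    rw [← hker, map_mul, map_mul, map_inv, hyN i, ← pow_two, h2, ← map_pow, hyord i k (by omega) hk,
      mul_inv_cancel]
  -- order of `g`
  have hgm : g ^ (2 ^ m) = 1 := by
    have h7 : g ^ (2 ^ m) = y * y := by
      rw [hy, ← pow_add]; congr 1
      rw [← mul_two, ← pow_succ]; congr 1; omega
    rw [h7, hyy]
  have hg1 : ∀ i : ℤ, π i0 (g ^ i) = 1 → g ^ i = 1 := by
    intro i hi
    rw [map_zpow, hg] at hi
    have h1 : ((2 ^ m : ℕ) : ℤ) ∣ i := by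
      rw [← hm]; exact orderOf_dvd_iff_zpow_eq_one.2 hi
    obtain ⟨k, rfl⟩ := h1
    rw [zpow_mul, zpow_natCast, hgm, one_zpow]
  have htgi : ∀ i : ℤ, t * g ^ i = g ^ (-i) * t := by
    intro i
    have h1 : t * g ^ i * t⁻¹ = g⁻¹ ^ i := by rw [← conj_zpow, htg]
    rw [mul_inv_eq_iff_eq_mul] at h1
    rw [h1, inv_zpow, zpow_neg]
  have hyz : y = g ^ ((2 ^ (m - 1) : ℕ) : ℤ) := by rw [zpow_natCast]
  have hg2 : g * g ≠ 1 := by
    intro h
    exact hgZ (hinv g h)
  let K : Subgroup S :=
    { carrier := {s | ∃ i : ℤ, s = g ^ i ∨ s = g ^ i * t}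
      mul_mem' := by
        rintro _ _ ⟨i, rfl | rfl⟩ ⟨j, rfl | rfl⟩
        · exact ⟨i + j, Or.inl (zpow_add g i j).symm⟩
        · exact ⟨i + j, Or.inr (by rw [zpow_add, mul_assoc])⟩
        · refine ⟨i + -j, Or.inr ?_⟩
          rw [mul_assoc, htgi, ← mul_assoc, zpow_add]
        · refine ⟨i + -j + ((2 ^ (m - 1) : ℕ) : ℤ), Or.inl ?_⟩
          calc g ^ i * t * (g ^ j * t) = g ^ i * (t * g ^ j) * t := by group
            _ = g ^ i * (g ^ (-j) * t) * t := by rw [htgi]
            _ = g ^ (i + -j) * (t * t) := by rw [zpow_add]; group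
            _ = _ := by rw [htt, hyz, ← zpow_add]
      one_mem' := ⟨0, Or.inl (zpow_zero g).symm⟩
      inv_mem' := by
        rintro _ ⟨i, rfl | rfl⟩
        · exact ⟨-i, Or.inl (zpow_neg g i).symm⟩
        · refine ⟨i + -((2 ^ (m - 1) : ℕ) : ℤ), Or.inr ?_⟩
          have h1 : t⁻¹ = y⁻¹ * t := by rw [← htt]; group
          have h2 : t * g ^ i = g ^ (-i) * t := htgi i
          have h3 : g ^ i * (g ^ (-i) * t) = t := by rw [← mul_assoc, ← zpow_add, add_neg_cancel, zpow_zero, one_mul]
          rw [zpow_add, zpow_neg, ← hyz]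
          have h4 := Subgroup.mem_center_iff.1 (inv_mem hyZ)
          rw [inv_eq_iff_mul_eq_one]
          calc g ^ i * t * (g ^ i * y⁻¹ * t) = g ^ i * (t * g ^ i) * y⁻¹ * t := by group
            _ = g ^ i * (g ^ (-i) * t) * y⁻¹ * t := by rw [h2]
            _ = t * y⁻¹ * t := by rw [h3]
            _ = y⁻¹ * (t * t) := by rw [h4 t]; group
            _ = 1 := by rw [htt, inv_mul_cancel] }
  have hK : ∀ s, s ∈ K ↔ ∃ i : ℤ, s = g ^ i ∨ s = g ^ i * t := fun s => Iff.rfl
  have hgK : g ∈ K := (hK g).2 ⟨1, Or.inl (zpow_one g).symm⟩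
  have htK : t ∈ K := (hK t).2 ⟨0, Or.inr (by rw [zpow_zero, one_mul])⟩
  have hyK : y ∈ K := (hK y).2 ⟨_, Or.inl hyz⟩
  refine ⟨N i0, K, ⟨le_top, le_top, ?_, ?_, ?_⟩, ⟨?_, ?_⟩, ?_, ?_⟩
  · intro x hx k hk
    exact (Subgroup.mem_center_iff.1 (hNZ i0 hx) k).symm
  · rw [Subgroup.eq_bot_iff_forall]
    rintro s ⟨hsN, hsK⟩
    rcases (hK s).1 hsK with ⟨i, rfl | rfl⟩
    · exact hg1 i ((hker i0 _).2 hsN)
    · exfalso
      have h1 : g ^ i * t ∈ X := hZX (hNZ i0 hsN)
      have h2 : t = (g ^ i)⁻¹ * (g ^ i * t) := by group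
      apply ht
      rw [h2]
      exact mul_mem (inv_mem (zpow_mem hgX i)) h1
  · rw [eq_top_iff]
    intro s _
    have hXK : X ≤ N i0 ⊔ K := by
      intro x hx
      obtain ⟨i, d, hd, rfl⟩ := hgen x hx
      exact mul_mem (Subgroup.mem_sup_right (zpow_mem hgK i)) (Subgroup.mem_sup_left hd)
    by_cases hs : s ∈ X
    · exact hXK hs
    · have h1 : s * t⁻¹ ∈ X := by
        rw [Subgroup.mul_mem_iff_of_index_two hXi]
        constructor
        · intro h; exact absurd h hs
        · intro h; exact absurd (inv_mem_iff.1 h) ht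
      have h2 : s = (s * t⁻¹) * t := by group
      rw [h2]
      exact mul_mem (hXK h1) (Subgroup.mem_sup_right htK)
  · refine ⟨⟨fun x z => Subtype.ext ?_⟩⟩
    exact Subgroup.mem_center_iff.1 (hNZ i0 z.2) x
  · intro x hx
    rw [pow_two]; exact hZsq x (hNZ i0 hx)
  · intro h
    have h1 : (⟨t, htK⟩ : K) * ⟨g, hgK⟩ = ⟨g, hgK⟩ * ⟨t, htK⟩ := mul_comm' _ _
    have h2 : t * g = g * t := congrArg Subtype.val h1
    have h3 : t * g * t⁻¹ = g := by rw [h2, mul_inv_cancel_right]
    rw [htg] at h3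
    apply hg2
    nth_rewrite 1 [← h3]
    exact inv_mul_cancel g
  · refine ⟨⟨y, hyK⟩, ?_, ?_⟩
    · show orderOf (⟨y, hyK⟩ : K) = 2
      rw [← Subgroup.orderOf_coe]
      show orderOf y = 2
      apply orderOf_eq_prime (by rw [pow_two, hyy])
      intro h
      have h1 := hyN i0
      rw [h, map_one] at h1
      have h2 := hu2 i0
      rw [← h1, orderOf_one] at h2
      omega
    · rintro ⟨s, hs⟩ hso
      have hso' : orderOf s = 2 := by
        have : orderOf (⟨s, hs⟩ : K) = 2 := hso
        rwa [← Subgroup.orderOf_coe] at this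
      have hss : s * s = 1 := by rw [← pow_two, ← hso', pow_orderOf_eq_one]
      have hsZ := hinv s hss
      apply Subtype.ext
      show s = y
      rcases (hK s).1 hs with ⟨i, rfl | rfl⟩
      · rcases hcen i0 _ hsZ with h | h
        · exfalso
          rw [hg1 i h, orderOf_one] at hso'
          omega
        · have h1 : π i0 (g ^ (i - ((2 ^ (m - 1) : ℕ) : ℤ))) = 1 := by
            rw [zpow_sub, map_mul, map_inv, h, ← hyz, hyN i0, mul_inv_cancel]
          have h2 := hg1 _ h1
          rw [zpow_sub, ← hyz, mul_inv_eq_one] at h2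
          exact h2
      · exfalso
        have h1 := Subgroup.mem_center_iff.1 hsZ g
        have h2 : g ^ i * t * g = g ^ i * (g⁻¹ * t) := by
          have := htgi 1
          rw [zpow_one, zpow_neg_one] at this
          rw [mul_assoc, this]
        rw [h2] at h1
        have h3 : g * (g ^ i * t) = g ^ i * (g * t) := by
          rw [← mul_assoc, ← mul_assoc, ← zpow_one_add, ← zpow_add_one, add_comm]
        rw [h3] at h1
        have h4 := mul_right_cancel (mul_left_cancel h1)
        apply hg2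
        nth_rewrite 1 [h4]
        exact inv_mul_cancel g


end Cfsg.Agent.S3201
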