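import Cfsg.Statements.S3202
import Cfsg.Agent.Lib.H58.UniqInv
-- import your own Cfsg.Agent.* helpers here

set_option autoImplicit false
open Cfsg

namespace Cfsg.Agent.S3202

/-- Let S be a finite 2-group of 2-rank exactly 2 and D a maximal subgroup of the centre of S such that S/D is a non-abelian group with exactly one involution (a generalized quaternion group). Then S has a nontrivial cyclic characteristic subgroup. -/
theorem result {S : Type*} [Group S]
    [Finite S] (hS : IsPGroup 2 S) (hr2 : Cfsg.PRankLE 2 2 S) (hr1 : ¬ Cfsg.PRankLE 2 1 S)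
    (D : Subgroup ↥(Subgroup.center S)) (hD : IsCoatom D)
    (hq : ∃ (_ : (D.map (Subgroup.center S).subtype).Normal),
      ¬ IsMulCommutative (S ⧸ D.map (Subgroup.center S).subtype) ∧
      ∃! x : S ⧸ D.map (Subgroup.center S).subtype, orderOf x = 2) :
    ∃ C : Subgroup S, C ≠ ⊥ ∧ IsCyclic ↥C ∧ C.Characteristic := by
  obtain ⟨hN, hna, hu⟩ := hq
  set N := D.map (Subgroup.center S).subtype with hNdef
  have hNZ : N ≤ Subgroup.center S := by
    rintro _ ⟨z, -, rfl⟩
    exact z.2
  have hQ : IsPGroup 2 (S ⧸ N) := hS.to_quotient N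
  obtain ⟨a, ha⟩ := H58.UniqInv.exists_index_two hQ hu hna
  let π := QuotientGroup.mk' N
  have hπ : Function.Surjective π := QuotientGroup.mk'_surjective N
  obtain ⟨g, hg⟩ := hπ a
  obtain ⟨c, hc⟩ := H58.UniqInv.derived_cyclic N hNZ ((Subgroup.zpowers a).comap π)
    (by rw [Subgroup.index_comap_of_surjective _ hπ]; exact ha) (g := g)
    (by rw [Subgroup.mem_comap, hg]; exact Subgroup.mem_zpowers a) (by
      intro x hx
      obtain ⟨i, hi⟩ := Subgroup.mem_zpowers_iff.1 (Subgroup.mem_comap.1 hx)
      refine ⟨i, g ^ (-i) * x, ?_, by group⟩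
      rw [← QuotientGroup.eq_one_iff]
      show π (g ^ (-i) * x) = 1
      rw [map_mul, map_zpow, hg, ← hi]
      group)
  refine ⟨commutator S, ?_, ?_, inferInstance⟩
  · intro h
    apply hna
    have h1 := (commutator_eq_bot_iff_center_eq_top S).1 h
    refine ⟨⟨fun x y => ?_⟩⟩
    obtain ⟨x, rfl⟩ := hπ x
    obtain ⟨y, rfl⟩ := hπ y
    rw [← map_mul, ← map_mul]
    congr 1
    have : y ∈ Subgroup.center S := by rw [h1]; trivial
    exact Subgroup.mem_center_iff.1 this x
  · rw [hc]
    infer_instance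


end Cfsg.Agent.S3202
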