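import Cfsg.Statements.S3206
import Cfsg.Agent.Lib.H58.PSLCent
import Cfsg.Agent.S0215
-- import your own Cfsg.Agent.* helpers here

set_option autoImplicit false
open Cfsg

namespace Cfsg.Agent.S3206

/-- Let G be a non-abelian finite simple group with abelian Sylow 2-subgroups, and let t be an involution of G whose centralizer is a maximal subgroup of G and is the direct product of the subgroup generated by t with a subgroup E having a normal subgroup isomorphic to PSL(2, q), q odd and greater than 3, with trivial centralizer in E. Then every finite perfect group having a central 2-subgroup with quotient isomorphic to G has that central subgroup trivial (G has no nontrivial perfect central extension by a 2-group), and every automorphism of G of 2-power order that fixes every element of some Sylow 2-subgroup of G is inner. -/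
theorem result {G : Type*} [Group G] [Finite G] [IsSimpleGroup G]
    (hG : ¬ IsMulCommutative G) (hab : ∀ S : Sylow 2 G, IsMulCommutative ↥(S : Subgroup G))
    (t : G) (ht : orderOf t = 2) (hmax : IsCoatom (Subgroup.centralizer ({t} : Set G)))
    (E : Subgroup G) (hE : Cfsg.IsInternalDirectProduct (Subgroup.zpowers t) E (Subgroup.centralizer ({t} : Set G)))
    {F : Type*} [Field F] [Fintype F] (hFo : Odd (Fintype.card F)) (hF3 : 3 < Fintype.card F)
    (N : Subgroup ↥E) [N.Normal] (hN : Nonempty (↥N ≃* Matrix.ProjectiveSpecialLinearGroup (Fin 2) F))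
    (hNc : Subgroup.centralizer (N : Set ↥E) = ⊥) :
    (∀ (L : Type) (_ : Group L) (_ : Finite L) (Z : Subgroup L) (_ : Z.Normal), commutator L = ⊤ → Z ≤ Subgroup.center L →
        IsPGroup 2 ↥Z → Nonempty (L ⧸ Z ≃* G) → Z = ⊥) ∧
    (∀ (φ : G ≃* G) (k : ℕ), φ ^ (2 ^ k) = 1 → (∃ S : Sylow 2 G, ∀ s ∈ (S : Subgroup G), φ s = s) →
        ∃ g : G, ∀ x : G, φ x = g * x * g⁻¹) := by
  obtain ⟨f⟩ := hN
  have hp : Fact (Nat.Prime 2) := ⟨Nat.prime_two⟩
  have h8 := H58.PSLCent.card_sylow hab t ht E hE hFo hF3 N f hNc
    (fun K P u hu huP hiso => Cfsg.Agent.S0215.result P u hu huP hiso)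
  have heven : 2 ∣ Nat.card G := by rw [← ht]; exact orderOf_dvd_natCard t
  refine ⟨?_, ?_⟩
  · rintro L _ _ Z _ hL hZc hZ2 ⟨e⟩
    exact H58.DCover.ker_eq_bot Z hL hZc hZ2 e (fun S => ⟨hab S, h8 S⟩)
  · rintro φ k hφ ⟨S, hS⟩
    obtain ⟨g, hg⟩ := H58.AbSyl.inner_of_fix
      (fun K P u hu huP hiso => Cfsg.Agent.S0215.result P u hu huP hiso) hG heven S (hab S) k φ hφ hS
    refine ⟨g, fun x => ?_⟩
    rw [← hg]
    rfl


end Cfsg.Agent.S3206
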