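import Cfsg.Statements.S3208
import Cfsg.Agent.Lib.H58.Rel

set_option autoImplicit false
open Cfsg

namespace Cfsg.Agent.S3208

/-- Let j be an involution of a finite group G, H a subgroup of G, and T a Sylow 2-subgroup of H ∩ C_G(j) containing j such that ⟨j⟩ is a characteristic subgroup of T. Then T is a Sylow 2-subgroup of H. -/
theorem result {G : Type*} [Group G] [Finite G]
    (j : G) (hj : orderOf j = 2) (H T : Subgroup G) (hT : T ≤ H ⊓ Subgroup.centralizer ({j} : Set G)) (h2 : IsPGroup 2 ↥T)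
    (hSyl : ¬ 2 ∣ T.relIndex (H ⊓ Subgroup.centralizer ({j} : Set G))) (hjT : j ∈ T)
    (hchar : ((Subgroup.zpowers j).subgroupOf T).Characteristic) :
    ¬ 2 ∣ T.relIndex H := by
  classical
  have : Fact (Nat.Prime 2) := ⟨Nat.prime_two⟩
  -- the normalizer of T centralizes j
  have hzp : ∀ x ∈ Subgroup.zpowers j, x = 1 ∨ x = j := by
    intro x hx
    obtain ⟨k, rfl⟩ := Subgroup.mem_zpowers_iff.1 hx
    rw [← zpow_mod_orderOf, hj]
    rcases Int.emod_two_eq_zero_or_one k with h | h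
    · left; simp [h]
    · right; simp [h]
  have hj1 : j ≠ 1 := by rintro rfl; simp at hj
  have hN : ∀ g ∈ Subgroup.normalizer (T : Set G), g * j * g⁻¹ = j := by
    intro g hg
    have h1 : ((Subgroup.zpowers j).subgroupOf T).map ((Subgroup.normalizerMonoidHom T) ⟨g, hg⟩).toMonoidHom
        = (Subgroup.zpowers j).subgroupOf T := by
      rw [Subgroup.characteristic_iff_map_eq] at hchar
      exact hchar _
    have h2 : (⟨j, hjT⟩ : T) ∈ (Subgroup.zpowers j).subgroupOf T := by
      rw [Subgroup.mem_subgroupOf]; exact Subgroup.mem_zpowers j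
    have h3 : ((Subgroup.normalizerMonoidHom T) ⟨g, hg⟩) (⟨j, hjT⟩ : T) ∈ (Subgroup.zpowers j).subgroupOf T := by
      rw [← h1]; exact ⟨_, h2, rfl⟩
    rw [Subgroup.mem_subgroupOf] at h3
    have h4 : ((((Subgroup.normalizerMonoidHom T) ⟨g, hg⟩) (⟨j, hjT⟩ : T) : T) : G) = g * j * g⁻¹ := rfl
    rw [h4] at h3
    rcases hzp _ h3 with h5 | h5
    · exfalso; apply hj1
      have : j = g⁻¹ * (g * j * g⁻¹) * g := by group
      rw [this, h5]; group
    · exact h5
  -- embed T in a Sylow subgroup of H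
  obtain ⟨Q, hTQ, hQH, hQp, hQi⟩ := H58.Rel.exists_le_sylowOf (p := 2) (H := H) (P := T) (hT.trans inf_le_left) h2
  suffices hTQ' : T = Q by rw [hTQ']; exact hQi
  by_contra hne
  have hlt : T < Q := lt_of_le_of_ne hTQ hne
  -- normalizer condition in Q
  have hnil : Group.IsNilpotent Q := hQp.isNilpotent
  have hnc := Group.normalizerCondition_of_isNilpotent (G := Q)
  have hlt' : T.subgroupOf Q < ⊤ := by
    rw [lt_top_iff_ne_top, Ne, Subgroup.subgroupOf_eq_top]
    exact fun h => hne (le_antisymm hTQ h)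
  have h5 := hnc _ hlt'
  obtain ⟨x, hx, hx'⟩ := SetLike.exists_of_lt h5
  have hxN : (x : G) ∈ Subgroup.normalizer (T : Set G) := by
    rw [Subgroup.mem_normalizer_iff] at hx ⊢
    intro t
    constructor
    · intro ht
      have := (hx ⟨t, hTQ ht⟩).1 ht
      exact this
    · intro ht
      have htQ : t ∈ Q := by
        have := Q.mul_mem (Q.mul_mem (Q.inv_mem x.2) (hTQ ht)) x.2
        simpa [mul_assoc] using this
      exact (hx ⟨t, htQ⟩).2 ht
  have hxC : (x : G) ∈ H ⊓ Subgroup.centralizer ({j} : Set G) := by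
    refine Subgroup.mem_inf.2 ⟨hQH x.2, ?_⟩
    rw [Subgroup.mem_centralizer_singleton_iff]
    have := hN _ hxN
    rw [mul_inv_eq_iff_eq_mul] at this
    exact this
  -- T⟨x⟩ is a 2-group in H ⊓ C(j)
  have hsup : IsPGroup 2 ↥(T ⊔ Subgroup.zpowers (x : G)) :=
    hQp.to_le (sup_le hTQ ((Subgroup.zpowers_le).2 x.2))
  obtain ⟨h, hh, hh'⟩ := H58.Rel.exists_conj_mem_sylowOf (p := 2)
    (H := H ⊓ Subgroup.centralizer ({j} : Set G)) (P := T ⊔ Subgroup.zpowers (x : G)) (Q := T)
    (sup_le hT ((Subgroup.zpowers_le).2 hxC)) hsup h2 hSyl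
  have hcard : Nat.card ↥(T ⊔ Subgroup.zpowers (x : G)) ≤ Nat.card T := by
    rw [← H58.Rel.card_map_conj h]
    exact Subgroup.card_le_of_le (H58.Rel.map_conj_le_iff.2 hh')
  have heq : T = T ⊔ Subgroup.zpowers (x : G) := Subgroup.eq_of_le_of_card_ge le_sup_left hcard
  apply hx'
  rw [Subgroup.mem_subgroupOf, heq]
  exact (le_sup_right : _ ≤ T ⊔ Subgroup.zpowers (x : G)) (Subgroup.mem_zpowers _)

end Cfsg.Agent.S3208
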