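import Cfsg.Statements.S3209
import Cfsg.Agent.Lib.H58.SL2Prod
-- import your own Cfsg.Agent.* helpers here

set_option autoImplicit false
open Cfsg

namespace Cfsg.Agent.S3209

/-- Let L₁ ≅ SL₂(q₁) and L₂ ≅ SL₂(q₂), q₁ and q₂ odd, be elementwise-commuting subgroups of a finite group meeting in ⟨j⟩ for an involution j. Then L₁L₂ has exactly two conjugacy classes of involutions: the central involution j, and one further class (there is an involution x ≠ j in L₁L₂, and every involution of L₁L₂ other than j is conjugate to x by an element of L₁L₂). -/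
theorem result {G : Type*} [Group G] [Finite G]
    {F₁ : Type*} [Field F₁] [Fintype F₁] {F₂ : Type*} [Field F₂] [Fintype F₂]
    (hF₁ : Odd (Fintype.card F₁)) (hF₂ : Odd (Fintype.card F₂)) (L₁ L₂ : Subgroup G)
    (e₁ : ↥L₁ ≃* Matrix.SpecialLinearGroup (Fin 2) F₁) (e₂ : ↥L₂ ≃* Matrix.SpecialLinearGroup (Fin 2) F₂)
    (hc : ∀ x ∈ L₁, ∀ y ∈ L₂, x * y = y * x) (j : G) (hj : orderOf j = 2) (hm : L₁ ⊓ L₂ = Subgroup.zpowers j) :
    ∃ x ∈ L₁ ⊔ L₂, orderOf x = 2 ∧ x ≠ j ∧
      ∀ y ∈ L₁ ⊔ L₂, orderOf y = 2 → y = j ∨ ∃ g ∈ L₁ ⊔ L₂, g * x * g⁻¹ = y := by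
  have hj1 : j ∈ L₁ := (inf_le_left : L₁ ⊓ L₂ ≤ L₁) (hm ▸ Subgroup.mem_zpowers j)
  have hj2 : j ∈ L₂ := (inf_le_right : L₁ ⊓ L₂ ≤ L₂) (hm ▸ Subgroup.mem_zpowers j)
  have hjj : j * j = 1 := by rw [← pow_two, ← hj, pow_orderOf_eq_one]
  have hjne : j ≠ 1 := by rintro rfl; rw [orderOf_one] at hj; omega
  obtain ⟨a, ha, haa⟩ := H58.SL2Prod.exists_sq_eq e₁ hF₁ hj hj1
  obtain ⟨b, hb, hbb⟩ := H58.SL2Prod.exists_sq_eq e₂ hF₂ hj hj2
  have hab := hc a ha b hb
  have hna : a ∉ L₂ := by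
    intro h
    have h1 : a ∈ Subgroup.zpowers j := hm ▸ (⟨ha, h⟩ : a ∈ L₁ ⊓ L₂)
    rcases (H58.SL2Prod.mem_zpowers_two hj).1 h1 with h2 | h2
    · apply hjne; rw [← haa, h2, one_mul]
    · apply hjne; rw [← haa, h2, hjj]
  have hxx : (a * b) * (a * b) = 1 := by
    calc (a * b) * (a * b) = a * (b * a) * b := by group
      _ = (a * a) * (b * b) := by rw [← hab]; group
      _ = 1 := by rw [haa, hbb, hjj]
  have hx1 : a * b ≠ 1 := by
    intro h
    apply hna
    rw [eq_inv_of_mul_eq_one_left h]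
    exact inv_mem hb
  refine ⟨a * b, mul_mem (Subgroup.mem_sup_left ha) (Subgroup.mem_sup_right hb), ?_, ?_, ?_⟩
  · exact orderOf_eq_prime (by rw [pow_two, hxx]) hx1
  · intro h
    apply hna
    rw [eq_mul_inv_of_mul_eq h]
    exact mul_mem hj2 (inv_mem hb)
  · intro y hy hy2
    obtain ⟨u, hu, v, hv, rfl⟩ := (H58.SL2Prod.mem_sup_iff hc).1 hy
    have huv := hc u hu v hv
    have h1 : (u * u) * (v * v) = 1 := by
      have h2 : (u * v) * (u * v) = 1 := by rw [← pow_two, ← hy2, pow_orderOf_eq_one]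
      calc (u * u) * (v * v) = u * (u * v) * v := by group
        _ = u * (v * u) * v := by rw [huv]
        _ = (u * v) * (u * v) := by group
        _ = 1 := h2
    have h2 : u * u ∈ Subgroup.zpowers j := by
      rw [← hm]
      refine ⟨mul_mem hu hu, ?_⟩
      show u * u ∈ L₂
      rw [eq_inv_of_mul_eq_one_left h1]
      exact inv_mem (mul_mem hv hv)
    rcases (H58.SL2Prod.mem_zpowers_two hj).1 h2 with h3 | h3
    · left
      rw [h3, one_mul] at h1
      have hne : u * v ≠ 1 := by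
        intro h; rw [h, orderOf_one] at hy2; omega
      rcases H58.SL2Prod.sq_one e₁ hF₁ hj hj1 hu h3 with rfl | rfl <;>
      rcases H58.SL2Prod.sq_one e₂ hF₂ hj hj2 hv h1 with rfl | rfl
      · exact absurd (one_mul _) hne
      · exact one_mul _
      · exact mul_one _
      · exact absurd hjj hne
    · right
      have h4 : v * v = j := by
        rw [h3] at h1
        rw [← mul_left_cancel_iff (a := j), h1, hjj]
      obtain ⟨g, hg, hga⟩ := H58.SL2Prod.conj_of_sq_eq e₁ hF₁ hj hj1 ha hu haa h3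
      obtain ⟨k, hk, hkb⟩ := H58.SL2Prod.conj_of_sq_eq e₂ hF₂ hj hj2 hb hv hbb h4
      refine ⟨g * k, mul_mem (Subgroup.mem_sup_left hg) (Subgroup.mem_sup_right hk), ?_⟩
      have hak := hc a ha k hk
      have hgv : g * v = v * g := hc g hg v hv
      calc g * k * (a * b) * (g * k)⁻¹ = g * (k * a) * b * k⁻¹ * g⁻¹ := by group
        _ = g * (a * k) * b * k⁻¹ * g⁻¹ := by rw [hak]
        _ = g * a * (k * b * k⁻¹) * g⁻¹ := by group
        _ = g * a * g⁻¹ * (g * v) * g⁻¹ := by rw [hkb]; group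
        _ = g * a * g⁻¹ * v := by rw [hgv]; group
        _ = u * v := by rw [hga]


end Cfsg.Agent.S3209
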