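import Cfsg.Statements.S3210
import Cfsg.Agent.Lib.H58.SL2KS
import Cfsg.Agent.Lib.H25.SL2Card
-- import your own Cfsg.Agent.* helpers here

set_option autoImplicit false
open Cfsg

namespace Cfsg.Agent.S3210

/-- Let G be a finite group with subgroups L₁ ≅ SL₂(q₁) and L₂ ≅ SL₂(q₂), q₁ and q₂ odd prime powers, which commute elementwise and meet in ⟨j⟩ for an involution j, and suppose L₁L₂ has index 2 in C_G(j). Then every element n of C_G(j) outside L₁L₂ either normalizes both L₁ and L₂, or conjugates L₁ onto L₂; in the second case q₁ = q₂ and there is an element n′ of C_G(j) outside L₁L₂ conjugating L₁ onto L₂ with n′² ∈ ⟨j⟩. -/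
theorem result {G : Type*} [Group G] [Finite G]
    {F₁ : Type*} [Field F₁] [Fintype F₁] {F₂ : Type*} [Field F₂] [Fintype F₂]
    (hF₁ : Odd (Fintype.card F₁)) (hF₂ : Odd (Fintype.card F₂)) (L₁ L₂ : Subgroup G)
    (e₁ : ↥L₁ ≃* Matrix.SpecialLinearGroup (Fin 2) F₁) (e₂ : ↥L₂ ≃* Matrix.SpecialLinearGroup (Fin 2) F₂)
    (hc : ∀ x ∈ L₁, ∀ y ∈ L₂, x * y = y * x) (j : G) (hj : orderOf j = 2) (hm : L₁ ⊓ L₂ = Subgroup.zpowers j)
    (hle : L₁ ⊔ L₂ ≤ Subgroup.centralizer ({j} : Set G)) (hi : (L₁ ⊔ L₂).relIndex (Subgroup.centralizer ({j} : Set G)) = 2) (n : G) (hn : n ∈ Subgroup.centralizer ({j} : Set G)) (hn' : n ∉ L₁ ⊔ L₂) :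
    (L₁.map (MulAut.conj n).toMonoidHom = L₁ ∧ L₂.map (MulAut.conj n).toMonoidHom = L₂) ∨
      (L₁.map (MulAut.conj n).toMonoidHom = L₂ ∧ Fintype.card F₁ = Fintype.card F₂ ∧
        ∃ n' ∈ Subgroup.centralizer ({j} : Set G), n' ∉ L₁ ⊔ L₂ ∧ L₁.map (MulAut.conj n').toMonoidHom = L₂ ∧ n' ^ 2 ∈ Subgroup.zpowers j) := by
  have hj1 : j ∈ L₁ := (inf_le_left : L₁ ⊓ L₂ ≤ L₁) (hm ▸ Subgroup.mem_zpowers j)
  have hj2 : j ∈ L₂ := (inf_le_right : L₁ ⊓ L₂ ≤ L₂) (hm ▸ Subgroup.mem_zpowers j)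
  have hjj : j * j = 1 := by rw [← pow_two, ← hj, pow_orderOf_eq_one]
  have hjne : j ≠ 1 := by rintro rfl; rw [orderOf_one] at hj; omega
  have hnj : n * j * n⁻¹ = j := by
    have := Subgroup.mem_centralizer_singleton_iff.1 hn
    rw [this, mul_inv_cancel_right]
  set C := Subgroup.centralizer ({j} : Set G) with hC
  -- the product is normalized by `C`
  have hYC : ∀ g ∈ C, ∀ x ∈ L₁ ⊔ L₂, g * x * g⁻¹ ∈ L₁ ⊔ L₂ := by
    intro g hg x hx
    have h1 : ((L₁ ⊔ L₂).subgroupOf C).Normal := by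
      apply Subgroup.normal_of_index_eq_two
      exact hi
    exact h1.conj_mem ⟨x, hle hx⟩ hx ⟨g, hg⟩
  set M := L₁.map (MulAut.conj n).toMonoidHom with hM
  set N := L₂.map (MulAut.conj n).toMonoidHom with hN
  have hinj : Function.Injective (MulAut.conj n).toMonoidHom := (MulAut.conj n).injective
  have hmemM : ∀ x ∈ L₁, n * x * n⁻¹ ∈ M := fun x hx => ⟨x, hx, rfl⟩
  have hmemN : ∀ x ∈ L₂, n * x * n⁻¹ ∈ N := fun x hx => ⟨x, hx, rfl⟩
  have hMN : ∀ x ∈ M, ∀ y ∈ N, x * y = y * x := by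
    rintro _ ⟨x, hx, rfl⟩ _ ⟨y, hy, rfl⟩
    rw [← map_mul, ← map_mul, hc x hx y hy]
  have hmn : M ⊓ N = Subgroup.zpowers j := by
    rw [hM, hN, ← Subgroup.map_inf _ _ _ hinj, hm, MonoidHom.map_zpowers]
    congr 1
  have hsup : L₁ ⊔ L₂ = M ⊔ N := by
    rw [hM, hN, ← Subgroup.map_sup]
    symm
    apply Subgroup.eq_of_le_of_card_ge
    · rintro _ ⟨x, hx, rfl⟩
      exact hYC n hn x hx
    · rw [Subgroup.card_map_of_injective hinj]
  have hsup' : L₂ ⊔ L₁ = M ⊔ N := by rw [sup_comm, hsup]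
  have hc' : ∀ x ∈ L₂, ∀ y ∈ L₁, x * y = y * x := fun x hx y hy => (hc y hy x hx).symm
  have hm' : L₂ ⊓ L₁ = Subgroup.zpowers j := by rw [inf_comm, hm]
  have hcM : Nat.card M = Nat.card L₁ := Subgroup.card_map_of_injective hinj
  have hcN : Nat.card N = Nat.card L₂ := Subgroup.card_map_of_injective hinj
  have h1 := H58.SL2KS.le_or_le hF₁ hF₂ e₁ e₂ hc hj hm hMN hmn hsup
  have h2 := H58.SL2KS.le_or_le hF₂ hF₁ e₂ e₁ hc' hj hm' hMN hmn hsup'
  -- `L₂` and `L₁` are not `⟨j⟩`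
  have hback : ∀ {L : Subgroup G}, L.map (MulAut.conj n).toMonoidHom ≤ Subgroup.zpowers j →
      L ≤ Subgroup.zpowers j := by
    intro L h x hx
    have h3 : n * x * n⁻¹ ∈ Subgroup.zpowers j := h ⟨x, hx, rfl⟩
    rcases (H58.SL2Prod.mem_zpowers_two hj).1 h3 with h4 | h4
    · have : x = 1 := by rwa [mul_inv_eq_one, mul_eq_left] at h4
      rw [this]; exact one_mem _
    · have : x = j := by
        have h5 : n * x * n⁻¹ = n * j * n⁻¹ := by rw [h4, hnj]
        exact mul_left_cancel (mul_right_cancel h5)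
      rw [this]; exact Subgroup.mem_zpowers j
  rcases h1 with h1 | h1 <;> rcases h2 with h2 | h2
  · exfalso
    have h3 : M ⊔ N ≤ M := by rw [← hsup]; exact sup_le h1 h2
    have h4 : N ≤ Subgroup.zpowers j := by
      rw [← hmn]; exact le_inf (le_sup_right.trans h3) le_rfl
    exact H58.SL2KS.not_le_zpowers e₂ hF₂ hj hj2 (hback h4)
  · left
    exact ⟨(Subgroup.eq_of_le_of_card_ge h1 (le_of_eq hcM)).symm,
      (Subgroup.eq_of_le_of_card_ge h2 (le_of_eq hcN)).symm⟩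
  · right
    have h3 : Nat.card L₁ ≤ Nat.card L₂ := by
      rw [← hcN]; exact Subgroup.card_le_of_le h1
    have h4 : Nat.card L₂ ≤ Nat.card L₁ := by
      rw [← hcM]; exact Subgroup.card_le_of_le h2
    have h5 : L₂ = M := Subgroup.eq_of_le_of_card_ge h2 (by rw [hcM]; exact h3)
    have h6 : L₁ = N := Subgroup.eq_of_le_of_card_ge h1 (by rw [hcN]; exact h4)
    have hq : Fintype.card F₁ = Fintype.card F₂ := by
      have h7 : Nat.card (Matrix.SpecialLinearGroup (Fin 2) F₁) =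
          Nat.card (Matrix.SpecialLinearGroup (Fin 2) F₂) := by
        rw [← Nat.card_congr e₁.toEquiv, ← Nat.card_congr e₂.toEquiv]
        exact le_antisymm h3 h4
      rw [H25.SL2Card.card_SL2, H25.SL2Card.card_SL2] at h7
      have hmono : ∀ a b : ℕ, 1 < a → a < b → a * (a ^ 2 - 1) < b * (b ^ 2 - 1) := by
        intro a b ha hab
        apply Nat.mul_lt_mul'' hab
        have : a ^ 2 < b ^ 2 := Nat.pow_lt_pow_left hab (by norm_num)
        have h8 : 0 < a ^ 2 := by positivity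
        omega
      have ha : 1 < Fintype.card F₁ := Fintype.one_lt_card
      have hb : 1 < Fintype.card F₂ := Fintype.one_lt_card
      rcases lt_trichotomy (Fintype.card F₁) (Fintype.card F₂) with h8 | h8 | h8
      · exact absurd h7 (ne_of_lt (hmono _ _ ha h8))
      · exact h8
      · exact absurd h7 (ne_of_gt (hmono _ _ hb h8))
    refine ⟨h5.symm, hq, ?_⟩
    have hnn : n * n ∈ L₁ ⊔ L₂ := by
      have h7 : (⟨n, hn⟩ : C) * ⟨n, hn⟩ ∈ (L₁ ⊔ L₂).subgroupOf C := Subgroup.mul_self_mem_of_index_two hi _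
      exact h7
    obtain ⟨a, ha, b, hb, hab⟩ := (H58.SL2Prod.mem_sup_iff hc).1 hnn
    have hna : n * a * n⁻¹ ∈ L₂ := by rw [h5]; exact hmemM a ha
    have hnb : n * b * n⁻¹ ∈ L₁ := by rw [h6]; exact hmemN b hb
    have h7 : (n * b * n⁻¹) * (n * a * n⁻¹) = a * b := by
      rw [hc _ hnb _ hna]
      calc n * a * n⁻¹ * (n * b * n⁻¹) = n * (a * b) * n⁻¹ := by group
        _ = n * (n * n) * n⁻¹ := by rw [hab]
        _ = n * n := by group
        _ = a * b := hab.symm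
    have h8 : a⁻¹ * (n * b * n⁻¹) = b * (n * a * n⁻¹)⁻¹ := by
      rw [eq_mul_inv_iff_mul_eq, mul_assoc, h7, inv_mul_cancel_left]
    have h9 : a⁻¹ * (n * b * n⁻¹) ∈ Subgroup.zpowers j := by
      rw [← hm]
      refine Subgroup.mem_inf.2 ⟨mul_mem (inv_mem ha) hnb, ?_⟩
      rw [h8]
      exact mul_mem hb (inv_mem hna)
    refine ⟨n * b⁻¹, mul_mem hn (inv_mem (hle (Subgroup.mem_sup_right hb))), ?_, ?_, ?_⟩
    · intro h10
      apply hn'
      have := mul_mem h10 (Subgroup.mem_sup_right hb : b ∈ L₁ ⊔ L₂)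
      rwa [inv_mul_cancel_right] at this
    · apply le_antisymm
      · rintro _ ⟨x, hx, rfl⟩
        show n * b⁻¹ * x * (n * b⁻¹)⁻¹ ∈ L₂
        have h10 : n * b⁻¹ * x * (n * b⁻¹)⁻¹ = n * x * n⁻¹ := by
          have := hc x hx b hb
          calc n * b⁻¹ * x * (n * b⁻¹)⁻¹ = n * b⁻¹ * (x * b) * n⁻¹ := by group
            _ = n * b⁻¹ * (b * x) * n⁻¹ := by rw [this]
            _ = n * x * n⁻¹ := by group
        rw [h10, h5]
        exact hmemM x hx
      · intro y hy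
        rw [h5] at hy
        obtain ⟨x, hx, rfl⟩ := hy
        refine ⟨x, hx, ?_⟩
        show n * b⁻¹ * x * (n * b⁻¹)⁻¹ = n * x * n⁻¹
        have := hc x hx b hb
        calc n * b⁻¹ * x * (n * b⁻¹)⁻¹ = n * b⁻¹ * (x * b) * n⁻¹ := by group
            _ = n * b⁻¹ * (b * x) * n⁻¹ := by rw [this]
            _ = n * x * n⁻¹ := by group
    · have h10 : (n * b⁻¹) ^ 2 = (a⁻¹ * (n * b * n⁻¹))⁻¹ := by
        rw [pow_two]
        calc n * b⁻¹ * (n * b⁻¹) = (n * b * n⁻¹)⁻¹ * (n * n) * b⁻¹ := by group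
          _ = (n * b * n⁻¹)⁻¹ * (a * b) * b⁻¹ := by rw [hab]
          _ = (a⁻¹ * (n * b * n⁻¹))⁻¹ := by group
      rw [h10]
      exact inv_mem h9
  · exfalso
    have h3 : M ⊔ N ≤ N := by rw [← hsup]; exact sup_le h1 h2
    have h4 : M ≤ Subgroup.zpowers j := by
      rw [← hmn]; exact le_inf le_rfl (le_sup_left.trans h3)
    exact H58.SL2KS.not_le_zpowers e₁ hF₁ hj hj1 (hback h4)


end Cfsg.Agent.S3210
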