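import Cfsg.Statements.S3213
import Cfsg.Agent.Lib.H58.SL25
-- import your own Cfsg.Agent.* helpers here

set_option autoImplicit false
open Cfsg

namespace Cfsg.Agent.S3213

/-- Let F be the field with 3 elements and K the field with 5 elements. For every injective homomorphism φ from SL₂(K) into the symplectic group Sp₄(F) (4 × 4 matrices g with g J gᵀ = J for the standard alternating matrix J) and every element x of order 3 of SL₂(K), the vectors of F⁴ fixed by φ(x) form a 2-dimensional subspace that is totally isotropic for the alternating form defined by J. -/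
theorem result {F : Type*} [Field F] [Fintype F] (hF : Fintype.card F = 3)
    {K : Type*} [Field K] [Fintype K] (hK : Fintype.card K = 5)
    (φ : Matrix.SpecialLinearGroup (Fin 2) K →* ↥(Matrix.symplecticGroup (Fin 2) F)) (hφ : Function.Injective φ)
    (x : Matrix.SpecialLinearGroup (Fin 2) K) (hx : orderOf x = 3) :
    Module.finrank F ↥(LinearMap.ker (Matrix.toLin' ((φ x : Matrix (Fin 2 ⊕ Fin 2) (Fin 2 ⊕ Fin 2) F)) - LinearMap.id)) = 2 ∧
      ∀ v w : Fin 2 ⊕ Fin 2 → F, (φ x : Matrix (Fin 2 ⊕ Fin 2) (Fin 2 ⊕ Fin 2) F).mulVec v = v →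
        (φ x : Matrix (Fin 2 ⊕ Fin 2) (Fin 2 ⊕ Fin 2) F).mulVec w = w →
          dotProduct v ((Matrix.J (Fin 2) F).mulVec w) = 0 := by
  let ρ : Matrix.SpecialLinearGroup (Fin 2) K →* Module.End F (Fin 2 ⊕ Fin 2 → F) :=
    ((Matrix.toLinAlgEquiv' (R := F) (n := Fin 2 ⊕ Fin 2)).toAlgHom : _ →* _).comp
      ((Matrix.symplecticGroup (Fin 2) F).subtype.comp φ)
  have hρa : ∀ g, ρ g = Matrix.toLin' (φ g : Matrix (Fin 2 ⊕ Fin 2) (Fin 2 ⊕ Fin 2) F) := fun g => rfl
  have hρ : Function.Injective ρ := by
    intro a b hab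
    rw [hρa, hρa] at hab
    exact hφ (Subtype.ext (Matrix.toLin'.injective hab))
  have hV : Module.finrank F (Fin 2 ⊕ Fin 2 → F) = 4 := by
    rw [Module.finrank_fintype_fun_eq_card]; rfl
  have h2 := H58.SL25.finrank_fixed hF hK hV ρ hρ hx
  refine ⟨h2, ?_⟩
  set A : Matrix (Fin 2 ⊕ Fin 2) (Fin 2 ⊕ Fin 2) F := (φ x : Matrix (Fin 2 ⊕ Fin 2) (Fin 2 ⊕ Fin 2) F) with hA
  set J := Matrix.J (Fin 2) F with hJ
  have hsp : A.transpose * J * A = J := (SymplecticGroup.mem_iff').1 (φ x).2
  have h3 := H58.SL25.three_eq_zero hF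
  have hpow : A * A * A = 1 := by
    have h4 : φ x * φ x * φ x = 1 := by
      rw [← map_mul, ← map_mul, ← pow_three', ← hx, pow_orderOf_eq_one, map_one]
    exact congrArg Subtype.val h4
  have hA1 : A ≠ 1 := by
    intro h
    have h4 : φ x = φ 1 := by rw [map_one]; exact Subtype.ext h
    have h5 := hφ h4
    rw [h5, orderOf_one] at hx
    omega
  -- the form
  let B : (Fin 2 ⊕ Fin 2 → F) → (Fin 2 ⊕ Fin 2 → F) → F := fun v w => dotProduct v (J.mulVec w)
  have hBinv : ∀ v w, B (A.mulVec v) (A.mulVec w) = B v w := by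
    intro v w
    show dotProduct (A.mulVec v) (J.mulVec (A.mulVec w)) = dotProduct v (J.mulVec w)
    rw [Matrix.mulVec_mulVec, ← Matrix.vecMul_transpose, ← Matrix.dotProduct_mulVec,
      Matrix.mulVec_mulVec, ← mul_assoc, hsp]
  have hBaddl : ∀ u v w, B (u + v) w = B u w + B v w := fun u v w => add_dotProduct u v _
  have hBaddr : ∀ u v w, B u (v + w) = B u v + B u w := by
    intro u v w
    show dotProduct u (J.mulVec (v + w)) = _
    rw [Matrix.mulVec_add, dotProduct_add]
  have hBsmull : ∀ (c : F) u v, B (c • u) v = c * B u v := fun c u v => smul_dotProduct c u _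
  have hBsmulr : ∀ (c : F) u v, B u (c • v) = c * B u v := by
    intro c u v
    show dotProduct u (J.mulVec (c • v)) = _
    rw [Matrix.mulVec_smul, dotProduct_smul]; rfl
  have hBsubl : ∀ u v w, B (u - v) w = B u w - B v w := fun u v w => sub_dotProduct u v _
  have hskew : ∀ u v, B u v = - B v u := by
    intro u v
    show dotProduct u (J.mulVec v) = - dotProduct v (J.mulVec u)
    have h4 : J.transpose = -J := Matrix.J_transpose (Fin 2) F
    rw [Matrix.dotProduct_mulVec, ← Matrix.mulVec_transpose, h4, Matrix.neg_mulVec, neg_dotProduct,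
      dotProduct_comm]
  have h2ne : (2 : F) ≠ 0 := by
    intro h
    have : (1 : F) = 0 := by linear_combination h3 - h
    exact one_ne_zero this
  have halt : ∀ u, B u u = 0 := by
    intro u
    have h4 := hskew u u
    have h5 : 2 * B u u = 0 := by linear_combination h4
    exact (mul_eq_zero.1 h5).resolve_left h2ne
  -- `(A - 1) V` is orthogonal to the fixed vectors
  have horth : ∀ v w, A.mulVec w = w → B (A.mulVec v - v) w = 0 := by
    intro v w hw
    rw [hBsubl]
    nth_rewrite 1 [← hw]
    rw [hBinv, sub_self]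
  -- a nonzero vector in kernel and image of `A - 1`
  obtain ⟨u, hu0, hufix, r, hr⟩ : ∃ u : Fin 2 ⊕ Fin 2 → F, u ≠ 0 ∧ A.mulVec u = u ∧
      ∃ r, u = A.mulVec r - r := by
    have h4 : ∃ v, A.mulVec v ≠ v := by
      by_contra hcon
      push Not at hcon
      apply hA1
      apply Matrix.toLin'.injective
      apply LinearMap.ext
      intro v
      rw [Matrix.toLin'_apply, Matrix.toLin'_one, hcon v]; rfl
    obtain ⟨v, hv⟩ := h4
    by_cases h5 : A.mulVec (A.mulVec v - v) = A.mulVec v - v
    · exact ⟨A.mulVec v - v, sub_ne_zero.2 hv, h5, v, rfl⟩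
    · refine ⟨A.mulVec (A.mulVec v - v) - (A.mulVec v - v), sub_ne_zero.2 h5, ?_, _, rfl⟩
      have h6 : A.mulVec (A.mulVec (A.mulVec v)) = v := by
        rw [Matrix.mulVec_mulVec, Matrix.mulVec_mulVec, hpow, Matrix.one_mulVec]
      simp only [Matrix.mulVec_sub]
      rw [h6]
      have h7 : ∀ w : Fin 2 ⊕ Fin 2 → F, w + w + w = 0 := by
        intro w
        ext i
        simp only [Pi.add_apply, Pi.zero_apply]
        linear_combination (w i) * h3
      have h8 := h7 (A.mulVec v)
      have h9 := h7 (A.mulVec (A.mulVec v))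
      have h10 : ∀ a b c : Fin 2 ⊕ Fin 2 → F, a + a + a = 0 → b + b + b = 0 →
          c - b - (b - a) - (b - a - (a - c)) = a + a + a - (b + b + b) := by
        intro a b c _ _; abel
      have h11 := h10 (A.mulVec v) (A.mulVec (A.mulVec v)) v h8 h9
      rw [h8, h9, sub_zero] at h11
      rw [← sub_eq_zero]
      exact h11
  have hurad : ∀ w, A.mulVec w = w → B u w = 0 := by
    intro w hw; rw [hr]; exact horth r w hw
  set W := LinearMap.ker (ρ x - 1) with hW
  have hmemW : ∀ v, A.mulVec v = v → v ∈ W := by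
    intro v hv
    rw [hW, LinearMap.mem_ker, LinearMap.sub_apply, Module.End.one_apply, hρa, Matrix.toLin'_apply]
    exact sub_eq_zero.2 hv
  have hmemW' : ∀ v, v ∈ W → A.mulVec v = v := by
    intro v hv
    rw [hW, LinearMap.mem_ker, LinearMap.sub_apply, Module.End.one_apply, hρa, Matrix.toLin'_apply] at hv
    exact sub_eq_zero.1 hv
  intro v w hv hw
  -- `v, u` independent or proportional
  show B v w = 0
  by_cases hvu : v ∈ Submodule.span F {u}
  · obtain ⟨c, rfl⟩ := Submodule.mem_span_singleton.1 hvu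
    rw [hBsmull, hurad w hw, mul_zero]
  · have hspan : Submodule.span F {u, v} = W := by
      apply Submodule.eq_of_le_of_finrank_le
      · rw [Submodule.span_le]
        rintro z (rfl | rfl)
        · exact hmemW _ hufix
        · exact hmemW _ hv
      · rw [h2]
        have hli : LinearIndependent F ![u, v] := by
          rw [LinearIndependent.pair_iff]
          intro s t hst
          have ht : t = 0 := by
            by_contra ht
            apply hvu
            rw [Submodule.mem_span_singleton]
            refine ⟨-(t⁻¹ * s), ?_⟩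
            have h5 : t • v = -(s • u) := by
              rw [eq_neg_iff_add_eq_zero, add_comm]; exact hst
            rw [neg_smul, mul_smul, ← smul_neg, ← h5, smul_smul, inv_mul_cancel₀ ht, one_smul]
          refine ⟨?_, ht⟩
          rw [ht, zero_smul, add_zero] at hst
          exact (smul_eq_zero.1 hst).resolve_right hu0
        have h6 := finrank_span_eq_card hli
        rw [Matrix.range_cons, Matrix.range_cons, Matrix.range_empty, Set.union_empty] at h6
        have h7 : ({u} ∪ {v} : Set (Fin 2 ⊕ Fin 2 → F)) = {u, v} := rfl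
        rw [h7] at h6
        rw [h6]; rfl
    have hwW : w ∈ Submodule.span F {u, v} := by rw [hspan]; exact hmemW _ hw
    obtain ⟨a, b, rfl⟩ := Submodule.mem_span_pair.1 hwW
    rw [hBaddr, hBsmulr, hBsmulr, halt, hskew v u, hurad v hv]
    ring


end Cfsg.Agent.S3213
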