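import Cfsg.Statements.S3246
import Cfsg.Agent.Lib.H59.OddInv3
import Mathlib
-- import your own Cfsg.Agent.* helpers here

set_option autoImplicit false
open Cfsg

namespace Cfsg.Agent.S3246

attribute [local instance] H59.OddInv.fact2

open H59.CharP H59.PCons H59.PCons2 H59.OddInv in
theorem exists_maximal {G : Type*} [Group G] [Finite G] (N : Subgroup G) (hN : Cfsg.IsTwoLocal N) :
    ∃ M : Subgroup G, Cfsg.IsMaximalTwoLocal M ∧ N ≤ M := by
  obtain ⟨M, hNM, hM⟩ := (Set.toFinite {M : Subgroup G | Cfsg.IsTwoLocal M}).exists_le_maximal hN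
  refine ⟨M, ⟨hM.1, ?_⟩, hNM⟩
  intro K hK hMK
  exact le_antisymm (hM.2 hK hMK) hMK

open H59.CharP H59.PCons H59.PCons2 H59.OddInv in
theorem CT_normalizer {G : Type*} [Group G] [Finite G]
    (h : (∀ M : Subgroup G, Cfsg.IsMaximalTwoLocal M → Cfsg.IsPConstrained 2 ↥M ∧ Cfsg.oddCore ↥M = ⊥) ∨
      (∀ t : G, orderOf t = 2 → Cfsg.IsPConstrained 2 ↥(Subgroup.centralizer ({t} : Set G)) ∧
        Cfsg.oddCore ↥(Subgroup.centralizer ({t} : Set G)) = ⊥))
    (T : Subgroup G) (hT : IsPGroup 2 ↥T) (hT1 : T ≠ ⊥) :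
    CT 2 ↥(Subgroup.normalizer (T : Set G)) := by
  rcases h with h | h
  · obtain ⟨M, hM, hNM⟩ := exists_maximal (Subgroup.normalizer (T : Set G)) ⟨T, hT, hT1, rfl⟩
    have hCT : CT 2 ↥M := CT_of_isPConstrained (h M hM).1 (h M hM).2
    exact CT_normalizer_of_le hCT (Subgroup.le_normalizer.trans hNM) hT hNM
  · obtain ⟨t, htT, ht2, htc⟩ := exists_central_orderOf_eq hT hT1
    have hCT : CT 2 ↥(Subgroup.centralizer ({t} : Set G)) :=
      CT_of_isPConstrained (h t ht2).1 (h t ht2).2
    have h1 : T ≤ Subgroup.centralizer ({t} : Set G) := by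
      intro s hs
      rw [Subgroup.mem_centralizer_singleton_iff]
      exact htc s hs
    have h2 : Subgroup.centralizer (T : Set G) ≤ Subgroup.centralizer ({t} : Set G) :=
      Subgroup.centralizer_le (by simpa using htT)
    exact CT_normalizer_of_CT_centralizer hT (CT_centralizer_of_le hCT h1 hT h2)

open H59.CharP H59.PCons H59.PCons2 H59.OddInv in
theorem CT_centralizer {G : Type*} [Group G] [Finite G]
    (h : (∀ M : Subgroup G, Cfsg.IsMaximalTwoLocal M → Cfsg.IsPConstrained 2 ↥M ∧ Cfsg.oddCore ↥M = ⊥) ∨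
      (∀ t : G, orderOf t = 2 → Cfsg.IsPConstrained 2 ↥(Subgroup.centralizer ({t} : Set G)) ∧
        Cfsg.oddCore ↥(Subgroup.centralizer ({t} : Set G)) = ⊥))
    (t : G) (ht : orderOf t = 2) :
    CT 2 ↥(Subgroup.centralizer ({t} : Set G)) := by
  have hZ : IsPGroup 2 ↥(Subgroup.zpowers t) := by
    apply IsPGroup.of_card (n := 1)
    rw [Nat.card_zpowers, ht]; rfl
  have hZ1 : Subgroup.zpowers t ≠ ⊥ := by
    rw [Ne, Subgroup.zpowers_eq_bot]
    rintro rfl
    simp at ht
  have h1 := CT_normalizer h (Subgroup.zpowers t) hZ hZ1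
  have h2 := CT_centralizer_of_le h1 Subgroup.le_normalizer hZ
    (Subgroup.centralizer_le_normalizer _)
  rwa [Subgroup.zpowers_eq_closure, Subgroup.centralizer_closure] at h2

/-- Let G be a finite group whose Sylow 2-subgroup S has a self-centralizing normal subgroup of rank at least 3. Suppose that either every maximal 2-local subgroup of G is 2-constrained with no nontrivial normal subgroup of odd order, or the centralizer of every involution of G is 2-constrained with no nontrivial normal subgroup of odd order. Then S normalizes no nontrivial subgroup of G of odd order and every 2-local subgroup of G is 2-constrained. -/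
theorem result {G : Type*} [Group G] [Finite G]
    (S : Sylow 2 G) (A : Subgroup G) (hA : Cfsg.IsSCN (S : Subgroup G) A) (hA3 : ¬ Cfsg.PRankLE 2 2 ↥A)
    (h : (∀ M : Subgroup G, Cfsg.IsMaximalTwoLocal M → Cfsg.IsPConstrained 2 ↥M ∧ Cfsg.oddCore ↥M = ⊥) ∨
      (∀ t : G, orderOf t = 2 → Cfsg.IsPConstrained 2 ↥(Subgroup.centralizer ({t} : Set G)) ∧
        Cfsg.oddCore ↥(Subgroup.centralizer ({t} : Set G)) = ⊥)) :
    (∀ X : Subgroup G, Odd (Nat.card ↥X) → (S : Subgroup G) ≤ Subgroup.normalizer (X : Set G) → X = ⊥) ∧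
      (∀ T : Subgroup G, IsPGroup 2 ↥T → T ≠ ⊥ → Cfsg.IsPConstrained 2 ↥(Subgroup.normalizer (T : Set G))) := by
  have := H59.OddInv.fact2
  refine ⟨?_, ?_⟩
  · intro X hX hSX
    obtain ⟨hAS, hSA, hSC⟩ := hA
    have hAc : ∀ a ∈ A, ∀ b ∈ A, a * b = b * a := by
      intro a ha b hb
      have h1 : b ∈ (S : Subgroup G) ⊓ Subgroup.centralizer (A : Set G) := by rw [hSC]; exact hb
      exact Subgroup.mem_centralizer_iff.1 (Subgroup.mem_inf.1 h1).2 a ha
    -- W
    let W : Subgroup ↥(S : Subgroup G) :=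
      { carrier := {s | (s : G) ∈ A ∧ s ^ 2 = 1}
        one_mem' := ⟨A.one_mem, one_pow 2⟩
        mul_mem' := by
          rintro a b ⟨ha, ha2⟩ ⟨hb, hb2⟩
          refine ⟨A.mul_mem ha hb, ?_⟩
          have : a * b = b * a := Subtype.ext (hAc a ha b hb)
          rw [Commute.mul_pow this, ha2, hb2, one_mul]
        inv_mem' := by
          rintro a ⟨ha, ha2⟩
          refine ⟨A.inv_mem ha, ?_⟩
          rw [inv_pow, ha2, inv_one] }
    have hWn : W.Normal := by
      constructor
      rintro w ⟨hw, hw2⟩ g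
      refine ⟨(Subgroup.mem_normalizer_iff.1 (hSA g.2) w).1 hw, ?_⟩
      rw [conj_pow, hw2]; group
    have hcard : 2 < Nat.card W := by
      rw [Cfsg.PRankLE] at hA3
      push Not at hA3
      obtain ⟨B, hBc, hB2, hB⟩ := hA3
      have hmap : B.map (Subgroup.inclusion hAS) ≤ W := by
        rintro x ⟨b, hb, rfl⟩
        refine ⟨b.2, ?_⟩
        rw [← map_pow, hB2 b hb, map_one]
      have h1 := Subgroup.card_le_of_le hmap
      rw [Subgroup.card_map_of_injective (Subgroup.inclusion_injective hAS)] at h1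
      omega
    exact H59.OddInv.eq_bot_of_odd S (CT_centralizer h) W (fun w hw => hw.2) hcard X hX hSX
  · intro T hT hT1
    exact H59.PCons.isPConstrained_of_CT (CT_normalizer h T hT hT1)

end Cfsg.Agent.S3246
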