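import Cfsg.Statements.S3247
import Cfsg.Agent.Lib.H59.PCons2
-- import your own Cfsg.Agent.* helpers here

set_option autoImplicit false
open Cfsg

namespace Cfsg.Agent.S3247

/-- Let G be a finite group and p a prime; here a p-local subgroup means the normalizer of a nontrivial p-subgroup, other than G itself. If every p-local subgroup of G that is maximal among p-local subgroups is p-constrained, or if the centralizer of every element of order p of G is p-constrained, then every p-local subgroup of G is p-constrained. -/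
theorem result {G : Type*} [Group G] [Finite G] (p : ℕ) [hp : Fact p.Prime]
    (h : (∀ M : Subgroup G, (∃ T : Subgroup G, IsPGroup p ↥T ∧ T ≠ ⊥ ∧ M = Subgroup.normalizer (T : Set G)) → M ≠ ⊤ →
        (∀ M' : Subgroup G, (∃ T' : Subgroup G, IsPGroup p ↥T' ∧ T' ≠ ⊥ ∧ M' = Subgroup.normalizer (T' : Set G)) → M' ≠ ⊤ → M ≤ M' → M = M') →
        Cfsg.IsPConstrained p ↥M) ∨
      (∀ x : G, orderOf x = p → Cfsg.IsPConstrained p ↥(Subgroup.centralizer ({x} : Set G))))
    (T : Subgroup G) (hT : IsPGroup p ↥T) (hT1 : T ≠ ⊥) (hTG : Subgroup.normalizer (T : Set G) ≠ ⊤) :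
    Cfsg.IsPConstrained p ↥(Subgroup.normalizer (T : Set G)) := by
  classical
  rcases h with h | h
  · -- maximal proper `p`-locals
    let S : Set (Subgroup G) := {M | (∃ T : Subgroup G, IsPGroup p ↥T ∧ T ≠ ⊥ ∧
      M = Subgroup.normalizer (T : Set G)) ∧ M ≠ ⊤}
    have hfin : S.Finite := Set.toFinite S
    have hmem : Subgroup.normalizer (T : Set G) ∈ S := ⟨⟨T, hT, hT1, rfl⟩, hTG⟩
    obtain ⟨M, hle, hMmax⟩ := hfin.exists_le_maximal hmem
    have hMS := hMmax.1
    have hcon := h M hMS.1 hMS.2 (by
      intro M' hM'1 hM'2 hMM'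
      exact le_antisymm hMM' (hMmax.2 ⟨hM'1, hM'2⟩ hMM'))
    exact H59.PCons2.isPConstrained_normalizer_of_le hcon (Subgroup.le_normalizer.trans hle) hT hle
  · obtain ⟨t, htT, hto, htc⟩ := H59.PCons2.exists_central_orderOf_eq hT hT1
    have hcon := h t hto
    have hTC : T ≤ Subgroup.centralizer ({t} : Set G) := by
      intro s hs
      rw [Subgroup.mem_centralizer_iff]
      intro x hx
      rw [Set.mem_singleton_iff] at hx
      subst hx
      exact (htc s hs).symm
    have hCC : Subgroup.centralizer (T : Set G) ≤ Subgroup.centralizer ({t} : Set G) :=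
      Subgroup.centralizer_le (by
        intro x hx
        rw [Set.mem_singleton_iff] at hx
        subst hx
        exact htT)
    exact H59.PCons2.isPConstrained_normalizer_of_centralizer hT
      (H59.PCons2.isPConstrained_centralizer_of_le hcon hTC hT hCC)

end Cfsg.Agent.S3247
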