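import Cfsg.Statements.S3262
import Cfsg.Agent.Lib.H39.DAMain
import Cfsg.Agent.Lib.H94.M11Iso
import Cfsg.Agent.Lib.H61.M11Deg

set_option autoImplicit false
open Cfsg

namespace Cfsg.Agent.S3262

/-- Let G be a finite doubly transitive permutation group on a set Ω with no regular normal subgroup, in which the stabilizer of two points is isomorphic to the alternating group A₅. Then either Ω has 7 points and G ≅ A₇, or Ω has 12 points and G is isomorphic to the Mathieu group M₁₁. -/
theorem result {G : Type*} [Group G] [Finite G] {Ω : Type*} [Fintype Ω] [MulAction G Ω] [FaithfulSMul G Ω]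
    (h2 : MulAction.IsMultiplyPretransitive G Ω 2) (a b : Ω) (hab : a ≠ b)
    (hnr : ∀ N : Subgroup G, N.Normal → MulAction.IsPretransitive ↥N Ω → (∀ x : Ω, MulAction.stabilizer ↥N x = ⊥) → False)
    (e : ↥(MulAction.stabilizer G a ⊓ MulAction.stabilizer G b) ≃* ↥(alternatingGroup (Fin 5))) :
    (Fintype.card Ω = 7 ∧ Nonempty (G ≃* ↥(alternatingGroup (Fin 7)))) ∨ (Fintype.card Ω = 12 ∧ Cfsg.Spor.IsoM11 G) := by
  classical
  have htr : ∀ a b c d : Ω, a ≠ b → c ≠ d → ∃ g : G, g • a = c ∧ g • b = d := by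
    intro a b c d hab hcd
    exact (MulAction.is_two_pretransitive_iff (G := G) (α := Ω)).1 h2 hab hcd
  have hfa : ∀ g : G, (∀ x : Ω, g • x = x) → g = 1 := by
    intro g hg
    apply FaithfulSMul.eq_of_smul_eq_smul (α := Ω)
    intro x
    rw [hg x, one_smul]
  have hb : H39.DA.Base G Ω := by
    refine ⟨⟨htr, hfa, ⟨a, b, hab⟩⟩, ?_⟩
    intro c d hcd
    obtain ⟨g, hga, hgb⟩ := htr a b c d hab hcd
    refine ⟨MulEquiv.trans (MulEquiv.symm ?_) e⟩
    have hmap : (MulAction.stabilizer G a ⊓ MulAction.stabilizer G b).map (MulAut.conj g).toMonoidHom = H39.DA.St G c d := by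
      ext x
      constructor
      · rintro ⟨y, ⟨hy1, hy2⟩, rfl⟩
        refine ⟨?_, ?_⟩
        · rw [← hga]
          show (g * y * g⁻¹) • (g • a) = g • a
          rw [mul_smul, inv_smul_smul, mul_smul, show y • a = a from hy1]
        · rw [← hgb]
          show (g * y * g⁻¹) • (g • b) = g • b
          rw [mul_smul, inv_smul_smul, mul_smul, show y • b = b from hy2]
      · rintro ⟨hx1, hx2⟩
        refine ⟨g⁻¹ * x * g, ⟨?_, ?_⟩, ?_⟩
        · show (g⁻¹ * x * g) • a = a
          rw [mul_smul, mul_smul, hga, show x • c = c from hx1, ← hga, inv_smul_smul]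
        · show (g⁻¹ * x * g) • b = b
          rw [mul_smul, mul_smul, hgb, show x • d = d from hx2, ← hgb, inv_smul_smul]
        · show g * (g⁻¹ * x * g) * g⁻¹ = x
          group
    exact (Subgroup.equivMapOfInjective _ _ (MulAut.conj g).injective).trans (MulEquiv.subgroupCongr hmap)
  have hn : H39.DA.NoReg G Ω := by
    rintro E ⟨hE1, hE2, hE3⟩
    refine hnr E hE1 ⟨fun x y => ?_⟩ (fun x => ?_)
    · obtain ⟨g, hg, hgx⟩ := hE2 x y
      exact ⟨⟨g, hg⟩, hgx⟩
    · rw [eq_bot_iff]
      intro g hg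
      rw [Subgroup.mem_bot]
      exact Subtype.ext (hE3 g g.2 x hg)
  rcases H39.DA.main hb hn with ⟨h7, hA⟩ | ⟨h12, hs, hG⟩
  · left
    exact ⟨by rw [← Nat.card_eq_fintype_card, h7], hA⟩
  · right
    refine ⟨by rw [← Nat.card_eq_fintype_card, h12], ?_⟩
    have e' := MonoidHom.ofInjective H61.M11Deg.ρ_injective
    have hs' := H61.M11Deg.isDeg11.simple
    have hsM : IsSimpleGroup ↥Cfsg.Spor.M11 := e'.isSimpleGroup
    have hM := H61.M11Deg.card_M11
    have hfin : Finite ↥Cfsg.Spor.M11 := Nat.finite_of_card_ne_zero (by rw [hM]; norm_num)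
    exact H94.M11.unique_7920 hG hM

end Cfsg.Agent.S3262
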