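import Cfsg.Statements.S3265
import Cfsg.Agent.Lib.H86.OddSymF

set_option autoImplicit false
open Cfsg

namespace Cfsg.Agent.S3265

/-- Let n ≥ 5 and let X be a conjugacy class of involutions of the symmetric group of degree n. The graph on X joining two distinct involutions whose product has odd order is connected and has diameter exactly 2. -/
theorem result (n : ℕ) (hn : 5 ≤ n) (t : Equiv.Perm (Fin n)) (ht : orderOf t = 2) :
    (SimpleGraph.fromRel fun x y : {x : Equiv.Perm (Fin n) // IsConj t x} =>
        Odd (orderOf (x.1 * y.1))).Connected ∧
      (SimpleGraph.fromRel fun x y : {x : Equiv.Perm (Fin n) // IsConj t x} =>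
        Odd (orderOf (x.1 * y.1))).diam = 2 := by
  exact H86.OddSymF.main n hn t ht

end Cfsg.Agent.S3265
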