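import Cfsg.Statements.S3276
import Cfsg.Agent.Lib.H59.Invol
import Mathlib.GroupTheory.Index
import Mathlib.GroupTheory.QuotientGroup.Basic
import Mathlib.Tactic
-- import your own Cfsg.Agent.* helpers here

set_option autoImplicit false
open Cfsg

namespace Cfsg.Agent.S3276

/-- Let x and y be commuting, non-conjugate involutions of a finite group G, and suppose that for every involution u commuting with x, each conjugate of y that commutes with u also commutes with y. Then the normal closure of y is a proper, normal, elementary abelian 2-subgroup of G; and if y is the only involution of that normal closure commuting with x, it has order at most 4. -/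
theorem result {G : Type*} [Group G] [Finite G] (x y : G) (hx : orderOf x = 2) (hy : orderOf y = 2)
    (hxy : Commute x y) (hnc : ¬ IsConj x y)
    (hstar : ∀ u : G, orderOf u = 2 → Commute u x → ∀ g : G, Commute (g * y * g⁻¹) u → Commute (g * y * g⁻¹) y) :
    Subgroup.normalClosure ({y} : Set G) ≠ ⊤ ∧ Cfsg.IsElementaryAbelian 2 (Subgroup.normalClosure ({y} : Set G)) ∧
      ((∀ u ∈ Subgroup.normalClosure ({y} : Set G), orderOf u = 2 → Commute u x → u = y) →
        Nat.card ↥(Subgroup.normalClosure ({y} : Set G)) ≤ 4) := by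
  have hx2 : x ^ 2 = 1 := by rw [← hx]; exact pow_orderOf_eq_one x
  have hy2 : y ^ 2 = 1 := by rw [← hy]; exact pow_orderOf_eq_one y
  have hord : ∀ g : G, orderOf (g * y * g⁻¹) = 2 := by
    intro g
    rw [← hy]
    have := orderOf_injective (MulAut.conj g).toMonoidHom (MulAut.conj g).injective y
    simpa using this
  -- every conjugate of `y` commutes with `y`
  have hcomm1 : ∀ g : G, Commute (g * y * g⁻¹) y := by
    intro g
    have hnc' : ¬ IsConj x (g * y * g⁻¹) := by
      intro h
      exact hnc (h.trans (isConj_iff.2 ⟨g, rfl⟩).symm)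
    obtain ⟨u, hu, hux, hug⟩ := H59.Invol.exists_comm_invol_of_not_isConj hx (hord g) hnc'
    exact hstar u hu hux g hug.symm
  have hcomm2 : ∀ g h : G, Commute (g * y * g⁻¹) (h * y * h⁻¹) := by
    intro g h
    have h1 := hcomm1 (h⁻¹ * g)
    have h2 : Commute ((MulAut.conj h) ((h⁻¹ * g) * y * (h⁻¹ * g)⁻¹)) ((MulAut.conj h) y) := by
      exact h1.map (MulAut.conj h)
    have e1 : (MulAut.conj h) ((h⁻¹ * g) * y * (h⁻¹ * g)⁻¹) = g * y * g⁻¹ := by
      simp only [MulAut.conj_apply]; group
    have e2 : (MulAut.conj h) y = h * y * h⁻¹ := by simp only [MulAut.conj_apply]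
    rw [e1, e2] at h2
    exact h2
  have hcl : ∀ a ∈ Group.conjugatesOfSet ({y} : Set G), ∀ b ∈ Group.conjugatesOfSet ({y} : Set G), a * b = b * a := by
    intro a ha b hb
    rw [Group.mem_conjugatesOfSet_iff] at ha hb
    obtain ⟨a', ha', ha⟩ := ha
    obtain ⟨b', hb', hb⟩ := hb
    rw [Set.mem_singleton_iff] at ha' hb'
    subst ha'
    subst hb'
    obtain ⟨g, rfl⟩ := isConj_iff.1 ha
    obtain ⟨h, rfl⟩ := isConj_iff.1 hb
    exact hcomm2 g h
  have hab : IsMulCommutative ↥(Subgroup.normalClosure ({y} : Set G)) := by
    rw [Subgroup.normalClosure]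
    exact Subgroup.isMulCommutative_closure hcl
  have habe : ∀ a ∈ Subgroup.normalClosure ({y} : Set G), ∀ b ∈ Subgroup.normalClosure ({y} : Set G), a * b = b * a := by
    intro a ha b hb
    have := hab.is_comm.comm (⟨a, ha⟩ : ↥(Subgroup.normalClosure ({y} : Set G))) ⟨b, hb⟩
    exact congrArg Subtype.val this
  have hsq : ∀ a ∈ Subgroup.normalClosure ({y} : Set G), a ^ 2 = 1 := by
    intro a ha
    rw [Subgroup.normalClosure] at ha
    induction ha using Subgroup.closure_induction with
    | mem a ha =>
      rw [Group.mem_conjugatesOfSet_iff] at ha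
      obtain ⟨a', ha', ha⟩ := ha
      rw [Set.mem_singleton_iff] at ha'
      subst ha'
      obtain ⟨g, rfl⟩ := isConj_iff.1 ha
      rw [conj_pow, hy2]; group
    | one => simp
    | mul a b ha hb h1 h2 =>
      have hc : a * b = b * a := habe a ha b hb
      have : Commute a b := hc
      rw [this.mul_pow, h1, h2, one_mul]
    | inv a ha h1 => rw [inv_pow, h1, inv_one]
  have hyN : y ∈ Subgroup.normalClosure ({y} : Set G) :=
    Subgroup.subset_normalClosure (Set.mem_singleton y)
  refine ⟨?_, ⟨hab, hsq⟩, ?_⟩
  · intro htop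
    have hGab : ∀ a b : G, a * b = b * a := fun a b =>
      habe a (htop ▸ Subgroup.mem_top a) b (htop ▸ Subgroup.mem_top b)
    have hle : Subgroup.normalClosure ({y} : Set G) ≤ Subgroup.zpowers y := by
      have : (Subgroup.zpowers y).Normal := ⟨fun n hn g => by rw [hGab g n]; simpa using hn⟩
      apply Subgroup.normalClosure_le_normal
      simp
    have hxm : x ∈ Subgroup.zpowers y := hle (htop ▸ Subgroup.mem_top x)
    rw [Subgroup.mem_zpowers_iff] at hxm
    obtain ⟨k, hk⟩ := hxm
    apply hnc
    rcases Int.even_or_odd k with ⟨j, hj⟩ | ⟨j, hj⟩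
    · exfalso
      have : x = 1 := by
        rw [← hk, hj, ← two_mul, zpow_mul]
        have : y ^ (2 : ℤ) = 1 := by exact_mod_cast hy2
        rw [this, one_zpow]
      rw [this, orderOf_one] at hx
      omega
    · have : x = y := by
        rw [← hk, hj, zpow_add, zpow_mul]
        have : y ^ (2 : ℤ) = 1 := by exact_mod_cast hy2
        rw [this, one_zpow, one_mul, zpow_one]
      rw [this]
  · intro huniq
    set N := Subgroup.normalClosure ({y} : Set G) with hN
    have hNn : N.Normal := Subgroup.normalClosure_normal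
    -- the homomorphism n ↦ [n, x]
    have hconj : ∀ n ∈ N, x * n * x⁻¹ ∈ N := fun n hn => hNn.conj_mem n hn x
    let f : N →* N :=
      { toFun := fun n => n * ⟨x * n * x⁻¹, hconj n n.2⟩
        map_one' := by ext; simp
        map_mul' := by
          intro a b
          ext
          have h1 := habe (b : G) b.2 (x * a * x⁻¹) (hconj a a.2)
          simp only [Subgroup.coe_mul]
          calc (a : G) * b * (x * (a * b) * x⁻¹) = a * (b * (x * a * x⁻¹)) * (x * b * x⁻¹) := by group
            _ = a * (x * a * x⁻¹ * b) * (x * b * x⁻¹) := by rw [h1]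
            _ = a * (x * a * x⁻¹) * (b * (x * b * x⁻¹)) := by group }
    have hcx : ∀ n : N, x * (n : G) * x⁻¹ = n → (n : G) = 1 ∨ (n : G) = y := by
      intro n hn
      by_cases h1 : (n : G) = 1
      · exact Or.inl h1
      · right
        apply huniq n n.2
        · have := hsq n n.2
          exact orderOf_eq_prime this h1
        · have : x * (n : G) = n * x := mul_inv_eq_iff_eq_mul.1 hn
          exact this.symm
    have hfinN : Finite N := inferInstance
    have hker : ∀ n : N, n ∈ f.ker → (n : G) = 1 ∨ (n : G) = y := by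
      intro n hn
      apply hcx
      have h1 : (n : G) * (x * n * x⁻¹) = 1 := by
        have := congrArg Subtype.val (MonoidHom.mem_ker.1 hn)
        simpa [f] using this
      have h2 : (n : G)⁻¹ = n := by
        rw [inv_eq_iff_mul_eq_one, ← sq, hsq n n.2]
      rw [← h2, eq_comm, inv_eq_iff_mul_eq_one, h2]
      exact h1
    have hrange : ∀ n : N, n ∈ f.range → (n : G) = 1 ∨ (n : G) = y := by
      rintro _ ⟨n, rfl⟩
      apply hcx
      have h1 := habe (n : G) n.2 (x * n * x⁻¹) (hconj n n.2)
      have hx' : x⁻¹ = x := by rw [inv_eq_iff_mul_eq_one, ← sq, hx2]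
      have e : ((f n : N) : G) = n * (x * n * x⁻¹) := rfl
      rw [e]
      calc x * ((n : G) * (x * n * x⁻¹)) * x⁻¹ = (x * n * x⁻¹) * (x * x) * n * (x⁻¹ * x⁻¹) := by group
        _ = (x * n * x⁻¹) * n := by rw [hx', ← sq, hx2]; group
        _ = n * (x * n * x⁻¹) := h1.symm
    have key : ∀ H : Subgroup N, (∀ n ∈ H, (n : G) = 1 ∨ (n : G) = y) → Nat.card H ≤ 2 := by
      intro H hH
      classical
      have hinj : Function.Injective (fun n : H => decide (((n : N) : G) = 1)) := by
        intro a b hab'
        rcases hH a a.2 with h | h <;> rcases hH b b.2 with h' | h'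
        · ext; rw [h, h']
        · exfalso
          have hb1 : ((b : N) : G) ≠ 1 := by
            rw [h']; intro hh; rw [hh, orderOf_one] at hy; omega
          simp [h, hb1] at hab'
        · exfalso
          have ha1 : ((a : N) : G) ≠ 1 := by
            rw [h]; intro hh; rw [hh, orderOf_one] at hy; omega
          simp [ha1, h'] at hab'
        · ext; rw [h, h']
      have := Nat.card_le_card_of_injective _ hinj
      simpa using this
    have h1 : Nat.card N = Nat.card f.ker * Nat.card f.range := by
      rw [mul_comm, ← Subgroup.index_ker, Subgroup.index_mul_card]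
    have hk2 : Nat.card f.ker ≤ 2 := key _ hker
    have hr2 : Nat.card f.range ≤ 2 := key _ hrange
    rw [h1]
    calc Nat.card f.ker * Nat.card f.range ≤ 2 * 2 := Nat.mul_le_mul hk2 hr2
      _ = 4 := rfl

end Cfsg.Agent.S3276
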