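import Cfsg.Statements.S3279
import Cfsg.Agent.Lib.H98.FewInvol

set_option autoImplicit false
open Cfsg

namespace Cfsg.Agent.S3279

/-- Let G be a finite simple group and x an involution of G whose centralizer contains at most three involutions. Then C_G(x) contains a Sylow 2-subgroup of G, and all involutions of G are conjugate. -/
theorem result {G : Type*} [Group G] [Finite G] [IsSimpleGroup G] (x : G) (hx : orderOf x = 2)
    (h3 : Nat.card {u : ↥(Subgroup.centralizer ({x} : Set G)) // orderOf u = 2} ≤ 3) :
    (∃ S : Sylow 2 G, (S : Subgroup G) ≤ Subgroup.centralizer ({x} : Set G)) ∧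
      ∀ u v : G, orderOf u = 2 → orderOf v = 2 → IsConj u v := by
  classical
  by_cases hab : ∀ a b : G, a * b = b * a
  · have hZ : ∀ u : G, u ∈ Subgroup.zpowers x := by
      have hn : (Subgroup.zpowers x).Normal := ⟨fun a ha g => by
        have : g * a * g⁻¹ = a := by rw [hab g a, mul_inv_cancel_right]
        rw [this]; exact ha⟩
      rcases hn.eq_bot_or_eq_top with h | h
      · rw [Subgroup.zpowers_eq_bot] at h
        exact absurd h (H5.Dihedral.ne_one hx)
      · intro u; rw [h]; exact Subgroup.mem_top u
    have hall : ∀ u : G, u = 1 ∨ u = x := by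
      intro u
      have hxx := H5.Dihedral.mul_self hx
      obtain ⟨k, rfl⟩ := hZ u
      rcases Int.even_or_odd k with ⟨m, rfl⟩ | ⟨m, rfl⟩
      · left
        show x ^ (m + m) = 1
        rw [← two_mul, zpow_mul, zpow_two, hxx, one_zpow]
      · right
        show x ^ (2 * m + 1) = x
        rw [zpow_add, zpow_mul, zpow_two, hxx, one_zpow, one_mul, zpow_one]
    refine ⟨⟨default, ?_⟩, ?_⟩
    · intro g _
      rw [Subgroup.mem_centralizer_iff]
      rintro _ rfl
      exact hab _ _
    · intro u v hu hv
      have h1 := (hall u).resolve_left (H5.Dihedral.ne_one hu)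
      have h2 := (hall v).resolve_left (H5.Dihedral.ne_one hv)
      rw [h1, h2]
  · refine H98.FewInvol.main hab x hx ?_
    rw [← Nat.card_coe_set_eq]
    refine le_trans (le_of_eq (Nat.card_congr ?_)) h3
    refine Equiv.mk (fun u => ⟨⟨u.1, ?_⟩, ?_⟩) (fun u => ⟨(u.1 : G), ?_, ?_⟩) ?_ ?_
    · rw [Subgroup.mem_centralizer_iff]
      rintro _ rfl
      exact u.2.2.symm
    · rw [← Subgroup.orderOf_coe]
      exact u.2.1
    · rw [Subgroup.orderOf_coe]
      exact u.2
    · exact (Subgroup.mem_centralizer_iff.mp u.1.2 x rfl).symm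
    · intro u; rfl
    · intro u; rfl

end Cfsg.Agent.S3279
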