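import Cfsg.Statements.S3299
import Mathlib
import Cfsg.Agent.Lib.H68.ExtraTransfer2

set_option autoImplicit false
open Cfsg

namespace Cfsg.Agent.S3299

/-- Let G be a finite group with no nontrivial 2-group quotient (O^2(G) = G), z an involution of G with H = C_G(z), and suppose E = O_2(H) is extraspecial with C_G(E) ≤ E and of order 2^(2n+1) with n ≥ 2. Then E is contained in every normal subgroup of H of index 2. -/
theorem result {G : Type*} [Group G] [Finite G] (hres : Cfsg.pResidual 2 G = ⊤) (z : G) (hz : orderOf z = 2)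
    (E : Subgroup G) (hE : E = (Cfsg.pCore 2 ↥(Subgroup.centralizer ({z} : Set G))).map (Subgroup.centralizer ({z} : Set G)).subtype)
    (hext : Cfsg.IsExtraspecial 2 ↥E) (hcent : Subgroup.centralizer (E : Set G) ≤ E) (n : ℕ) (hn : 2 ≤ n) (hcard : Nat.card ↥E = 2 ^ (2 * n + 1))
    (K : Subgroup G) (hKH : K ≤ Subgroup.centralizer ({z} : Set G))
    (hKn : ∀ h ∈ Subgroup.centralizer ({z} : Set G), K.map (MulAut.conj h).toMonoidHom = K)
    (hKi : K.relIndex (Subgroup.centralizer ({z} : Set G)) = 2) : E ≤ K := by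
  have : Fact (Nat.Prime 2) := ⟨Nat.prime_two⟩
  set H := Subgroup.centralizer ({z} : Set G) with hH
  have hEH : E ≤ H := by rw [hE]; exact Subgroup.map_subtype_le _
  set K' : Subgroup H := K.subgroupOf H with hK'
  have hKn' : K'.Normal := by
    refine ⟨fun x hx g => ?_⟩
    have h1 := hKn g g.2
    show (g : G) * x * (g : G)⁻¹ ∈ K
    rw [← h1]
    exact ⟨x, hx, rfl⟩
  have hi : Nat.card (H ⧸ K') = 2 := hKi
  have hcyc : IsCyclic (H ⧸ K') := isCyclic_of_prime_card hi
  letI : CommGroup (H ⧸ K') := IsCyclic.commGroup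
  intro e he
  have h1 := H68.ExtraTransfer.main hres z hz hH E hEH hext hcent n hn hcard (A := H ⧸ K')
    (IsPGroup.of_card (n := 1) (by rw [hi, pow_one])) (QuotientGroup.mk' K') e he
  have h2 : (⟨e, hEH he⟩ : H) ∈ K' := (QuotientGroup.eq_one_iff (⟨e, hEH he⟩ : H)).1 h1
  exact h2

end Cfsg.Agent.S3299
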