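import Cfsg.Statements.S3303
import Cfsg.Agent.Lib.H1.Solv

set_option autoImplicit false
open Cfsg

namespace Cfsg.Agent.S3303

/-- Let G be a finite solvable group in which the intersection of any two distinct Sylow 2-subgroups is cyclic. Then G/O(G) has a normal Sylow 2-subgroup, where O(G) is the largest normal subgroup of odd order. -/
theorem result {G : Type*} [Group G] [Finite G] (hs : Group.IsSolvable G)
    (hC : ∀ S T : Sylow 2 G, S ≠ T → IsCyclic ↥((S : Subgroup G) ⊓ (T : Subgroup G))) :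
    ∃ P : Sylow 2 (G ⧸ Cfsg.oddCore G), (P : Subgroup (G ⧸ Cfsg.oddCore G)).Normal := by
  have : Fact (Nat.Prime 2) := ⟨Nat.prime_two⟩
  set N := Cfsg.oddCore G with hN
  have hsQ : Group.IsSolvable (G ⧸ N) := inferInstance
  have hcore : Cfsg.pPrimeCore 2 (G ⧸ N) = ⊥ := H1.Cores.pPrimeCore_quotient_pPrimeCore 2
  have hc := H1.Solv.centralizer_pCore_le hsQ 2 hcore
  set P := Cfsg.pCore 2 (G ⧸ N) with hP
  have hPn : P.Normal := inferInstance
  have hP2 : IsPGroup 2 P := H1.Cores.isPGroup_pCore 2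
  let π := QuotientGroup.mk' N
  have hπ : Function.Surjective π := QuotientGroup.mk'_surjective N
  have hPle : ∀ S : Sylow 2 (G ⧸ N), P ≤ (S : Subgroup (G ⧸ N)) := by
    intro T'
    obtain ⟨S, hS⟩ := hP2.exists_le_sylow
    obtain ⟨g, hg⟩ := MulAction.exists_smul_eq (G ⧸ N) S T'
    rw [← hg]
    intro x hx
    rw [Sylow.coe_subgroup_smul, Subgroup.mem_pointwise_smul_iff_inv_smul_mem]
    exact hS (by
      have := hPn.conj_mem x hx g⁻¹
      rw [inv_inv] at this
      rw [← map_inv, MulAut.smul_def, MulAut.conj_apply, inv_inv]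
      exact this)
  by_contra hcon
  push Not at hcon
  let L : Subgroup G := P.comap π
  have hLn : L.Normal := hPn.comap π
  obtain ⟨Q0⟩ := (Sylow.nonempty : Nonempty (Sylow 2 L))
  set Q : Subgroup G := (Q0 : Subgroup L).map L.subtype with hQ
  have hfr : Subgroup.normalizer (Q : Set G) ⊔ L = ⊤ := Sylow.normalizer_sup_eq_top Q0
  have hQ2 : IsPGroup 2 Q := Q0.isPGroup'.map L.subtype
  obtain ⟨S, hQS⟩ := hQ2.exists_le_sylow
  let S' : Sylow 2 (G ⧸ N) := S.mapSurjective hπ
  have hS'c : ((S' : Subgroup (G ⧸ N))) = (S : Subgroup G).map π := rfl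
  -- an element of the normalizer of `Q` moving `S'`
  obtain ⟨n, hn, hnS⟩ : ∃ n ∈ Subgroup.normalizer (Q : Set G), n • S ≠ S := by
    by_contra h
    push Not at h
    apply hcon S'
    refine ⟨fun x hx g => ?_⟩
    obtain ⟨g, rfl⟩ := hπ g
    have hg : g ∈ Subgroup.normalizer (Q : Set G) ⊔ L := by rw [hfr]; exact Subgroup.mem_top _
    rw [Subgroup.mem_sup_of_normal_right] at hg
    obtain ⟨n, hn, l, hl, rfl⟩ := hg
    obtain ⟨s, hs, rfl⟩ := hx
    have h1 : π l ∈ (S' : Subgroup (G ⧸ N)) := hPle S' hl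
    obtain ⟨s', hs', hs'l⟩ := h1
    have h2 : n * (s' * s * s'⁻¹) * n⁻¹ ∈ S := by
      have h3 := Sylow.smul_eq_iff_mem_normalizer.1 (h n hn)
      exact (Subgroup.mem_normalizer_iff.1 h3 _).1
        ((S : Subgroup G).mul_mem ((S : Subgroup G).mul_mem hs' hs) ((S : Subgroup G).inv_mem hs'))
    refine ⟨_, h2, ?_⟩
    simp only [map_mul, map_inv, hs'l, mul_inv_rev, mul_assoc]
  have hQn : Q ≤ ((n • S : Sylow 2 G) : Subgroup G) := by
    intro x hx
    rw [Sylow.coe_subgroup_smul, Subgroup.mem_pointwise_smul_iff_inv_smul_mem]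
    apply hQS
    rw [← map_inv, MulAut.smul_def, MulAut.conj_apply, inv_inv]
    have h1 := (Subgroup.mem_normalizer_iff.1 ((Subgroup.normalizer (Q : Set G)).inv_mem hn) x).1 hx
    rwa [inv_inv] at h1
  have hcyc : IsCyclic Q := by
    have h1 := hC S (n • S) (Ne.symm hnS)
    exact isCyclic_of_injective (Subgroup.inclusion (le_inf hQS hQn)) (Subgroup.inclusion_injective _)
  have hcyc0 : IsCyclic Q0 := isCyclic_of_injective
    ((Q0 : Subgroup L).equivMapOfInjective L.subtype L.subtype_injective : _ →* Q)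
    ((Q0 : Subgroup L).equivMapOfInjective L.subtype L.subtype_injective).injective
  -- `P` is cyclic
  have hPcyc : IsCyclic P := by
    let f : L →* P := π.subgroupComap P
    have hf : Function.Surjective f := π.subgroupComap_surjective_of_surjective P hπ
    have h1 : ((Q0.mapSurjective hf : Sylow 2 P) : Subgroup P) = ⊤ := by
      have h2 : (⊤ : Subgroup P) = (Q0.mapSurjective hf : Sylow 2 P) :=
        (Q0.mapSurjective hf).is_maximal' (hP2.to_subgroup ⊤) le_top
      exact h2.symm
    have h3 : (Q0 : Subgroup L).map f = ⊤ := h1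
    have h4 : Function.Surjective (f.comp (Q0 : Subgroup L).subtype) := by
      rw [← MonoidHom.range_eq_top, MonoidHom.range_comp, Subgroup.range_subtype]
      exact h3
    exact isCyclic_of_surjective _ h4
  -- odd order elements centralize `P`
  have key : ∀ g : G ⧸ N, (orderOf g).Coprime 2 → g ∈ Subgroup.centralizer (P : Set (G ⧸ N)) := by
    intro g hg
    let α : MulAut P := MulAut.conjNormal g
    have hα : α = 1 := by
      rw [← orderOf_eq_one_iff]
      obtain ⟨k, hk⟩ := IsPGroup.iff_card.1 hP2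
      have h1 : orderOf α ∣ 2 ^ (k - 1) := by
        have h2 := orderOf_dvd_natCard α
        rw [IsCyclic.card_mulAut, hk] at h2
        rcases Nat.eq_zero_or_pos k with h0 | h0
        · rw [h0] at h2 ⊢; simpa using h2
        · rwa [Nat.totient_prime_pow Nat.prime_two h0, show 2 - 1 = 1 from rfl, mul_one] at h2
      have h3 : (orderOf α).Coprime (2 ^ (k - 1)) := by
        apply Nat.Coprime.pow_right
        exact Nat.Coprime.coprime_dvd_left (orderOf_map_dvd MulAut.conjNormal g) hg
      exact Nat.Coprime.eq_one_of_dvd h3 h1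
    rw [Subgroup.mem_centralizer_iff]
    intro x hx
    have h1 : ((α ⟨x, hx⟩ : P) : G ⧸ N) = x := by rw [hα]; rfl
    have h2 : g * x * g⁻¹ = x := (MulAut.conjNormal_apply g ⟨x, hx⟩).symm.trans h1
    rw [mul_inv_eq_iff_eq_mul] at h2
    exact h2.symm
  -- hence the quotient is a 2-group
  have h2g : IsPGroup 2 (G ⧸ N) := by
    intro g
    obtain ⟨a, m, hm, he⟩ := Nat.exists_eq_two_pow_mul_odd (n := orderOf g) (orderOf_pos g).ne'
    refine ⟨a, ?_⟩
    have h1 : orderOf (g ^ 2 ^ a) = m := by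
      rw [orderOf_pow_of_dvd (by positivity) (by rw [he]; exact Dvd.intro _ rfl), he,
        Nat.mul_div_cancel_left _ (by positivity)]
    have h2 : (orderOf (g ^ 2 ^ a)).Coprime 2 := by
      rw [h1, Nat.coprime_two_right]; exact hm
    have h3 := hc (key _ h2)
    obtain ⟨k, hk⟩ := (IsPGroup.iff_orderOf.1 hP2) ⟨_, h3⟩
    rw [← Subgroup.orderOf_coe] at hk
    have h4 : orderOf (g ^ 2 ^ a) = 1 := by
      have h5 : Nat.Coprime (orderOf (g ^ 2 ^ a)) (2 ^ k) := Nat.Coprime.pow_right _ h2
      rw [show orderOf (g ^ 2 ^ a) = 2 ^ k from hk] at h5 ⊢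
      exact (Nat.coprime_self _).1 h5
    exact orderOf_eq_one_iff.1 h4
  apply hcon S'
  have h1 : (⊤ : Subgroup (G ⧸ N)) = S' := S'.is_maximal' (h2g.to_subgroup ⊤) le_top
  rw [← h1]
  infer_instance

end Cfsg.Agent.S3303
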