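import Cfsg.Statements.S3305
import Cfsg.Agent.Lib.H59.SylowQ
-- import your own Cfsg.Agent.* helpers here

set_option autoImplicit false
open Cfsg

namespace Cfsg.Agent.S3305

/-- If any two distinct Sylow 2-subgroups of the finite group G intersect in a cyclic group, then the same holds in every quotient group G/H, H a normal subgroup of G. -/
theorem result {G : Type*} [Group G] [Finite G]
    (hC : ∀ S T : Sylow 2 G, S ≠ T → IsCyclic ↥((S : Subgroup G) ⊓ (T : Subgroup G))) (H : Subgroup G) [H.Normal] :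
    ∀ S T : Sylow 2 (G ⧸ H), S ≠ T → IsCyclic ↥((S : Subgroup (G ⧸ H)) ⊓ (T : Subgroup (G ⧸ H))) := by
  intro S' T' hST
  haveI : Fact (Nat.Prime 2) := ⟨Nat.prime_two⟩
  set f := QuotientGroup.mk' H with hf
  have hfs : Function.Surjective f := QuotientGroup.mk'_surjective H
  -- `D` the preimage of the intersection
  set D : Subgroup G := ((S' : Subgroup (G ⧸ H)) ⊓ (T' : Subgroup (G ⧸ H))).comap f with hD
  obtain ⟨X⟩ : Nonempty (Sylow 2 D) := inferInstance
  set Y : Subgroup G := (X : Subgroup D).map D.subtype with hY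
  have hYp : IsPGroup 2 ↥Y := X.2.map _
  -- image of Y is the intersection
  have himg : Y.map f = (S' : Subgroup (G ⧸ H)) ⊓ (T' : Subgroup (G ⧸ H)) := by
    let g : D →* ↥((S' : Subgroup (G ⧸ H)) ⊓ (T' : Subgroup (G ⧸ H))) :=
      (f.comp D.subtype).codRestrict _ (fun x => x.2)
    have hgs : Function.Surjective g := by
      rintro ⟨y, hy⟩
      obtain ⟨x, rfl⟩ := hfs y
      exact ⟨⟨x, hy⟩, rfl⟩
    have hp : IsPGroup 2 ↥((S' : Subgroup (G ⧸ H)) ⊓ (T' : Subgroup (G ⧸ H))) :=
      S'.2.to_inf_left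
    have h1 := H59.SylowQ.map_eq_top_of_isPGroup g hgs X hp
    have h2 : Y.map f = ((X : Subgroup D).map g).map
        ((S' : Subgroup (G ⧸ H)) ⊓ (T' : Subgroup (G ⧸ H))).subtype := by
      rw [hY, Subgroup.map_map, Subgroup.map_map]
      rfl
    rw [h2, h1, ← MonoidHom.range_eq_map, Subgroup.range_subtype]
  obtain ⟨S, hYS, hS⟩ := H59.SylowQ.exists_sylow_map_eq f hfs S' Y hYp (himg.trans_le inf_le_left)
  obtain ⟨T, hYT, hT⟩ := H59.SylowQ.exists_sylow_map_eq f hfs T' Y hYp (himg.trans_le inf_le_right)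
  have hne : S ≠ T := by
    intro h
    apply hST
    apply Sylow.ext
    rw [← hS, ← hT, h]
  have hcyc := hC S T hne
  have hYcyc : IsCyclic ↥Y := by
    have hle : Y ≤ (S : Subgroup G) ⊓ (T : Subgroup G) := le_inf hYS hYT
    exact isCyclic_of_injective (Subgroup.inclusion hle) (Subgroup.inclusion_injective hle)
  rw [← himg]
  let φ : Y →* ↥(Y.map f) := f.subgroupMap Y
  have hφ : Function.Surjective φ := f.subgroupMap_surjective Y
  exact isCyclic_of_surjective φ hφ

end Cfsg.Agent.S3305
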