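import Cfsg.Statements.S3309
import Cfsg.Agent.Lib.H68.Z2D8

set_option autoImplicit false
open Cfsg

namespace Cfsg.Agent.S3309

/-- A finite group whose Sylow 2-subgroups are isomorphic to the direct product of a group of order 2 and the dihedral group of order 8 is not a non-abelian simple group. -/
theorem result {G : Type*} [Group G] [Finite G] (S : Sylow 2 G) (hS : Nonempty (↥(S : Subgroup G) ≃* Multiplicative (ZMod 2) × DihedralGroup 4))
    [IsSimpleGroup G] (hG : ¬ IsMulCommutative G) : False := by
  obtain ⟨H, hH⟩ := H68.Z2D8.main S hS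
  have hn : H.Normal := Subgroup.normal_of_index_eq_two hH
  rcases hn.eq_bot_or_eq_top with h | h
  · rw [h, Subgroup.index_bot] at hH
    apply hG
    have : Fact (Nat.Prime 2) := ⟨Nat.prime_two⟩
    have hc : IsCyclic G := isCyclic_of_prime_card hH
    exact ⟨⟨fun a b => by
      let _ := IsCyclic.commGroup (α := G)
      exact mul_comm a b⟩⟩
  · rw [h, Subgroup.index_top] at hH
    omega

end Cfsg.Agent.S3309
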