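import Cfsg.Statements.S3313
import Cfsg.Agent.Lib.H64.J2N
import Cfsg.Agent.Lib.H3.ExtraspecialUnique

set_option autoImplicit false
open Cfsg

namespace Cfsg.Agent.S3313

/-- The order of a simple group with the involution pattern of the Hall–Janko group. Let G be a non-abelian finite simple group with exactly two conjugacy classes of involutions, represented by z and t, such that: F*(C_G(z)) is an extraspecial 2-group; Q = O₂(C_G(z)) has order 32 and C_G(z) is the semidirect product of Q by a subgroup isomorphic to A₅; every involution of Q is conjugate to z and every other involution of C_G(z) is conjugate to t; C_G(t) is an internal direct product V × B with V a four-group containing t and B ≅ A₅; every involution of B is conjugate to z and every other involution of C_G(t) is conjugate to t. Then |G| = 604800. -/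
theorem result {G : Type*} [Group G] [Finite G]
    [IsSimpleGroup G] (hna : ¬ IsMulCommutative G) (z t : G) (hz : orderOf z = 2) (ht : orderOf t = 2)
    (hzt : ¬ IsConj z t) (hcl : ∀ x : G, orderOf x = 2 → IsConj x z ∨ IsConj x t)
    (hex : Cfsg.IsExtraspecial 2 ↥(Cfsg.generalizedFittingSubgroup ↥(Subgroup.centralizer ({z} : Set G))))
    (hQ : Nat.card ↥(Cfsg.pCore 2 ↥(Subgroup.centralizer ({z} : Set G))) = 32)
    (K : Subgroup G) (hK : Nonempty (↥K ≃* alternatingGroup (Fin 5)))
    (hKC : K ⊔ (Cfsg.pCore 2 ↥(Subgroup.centralizer ({z} : Set G))).map (Subgroup.centralizer ({z} : Set G)).subtype = Subgroup.centralizer ({z} : Set G))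
    (hKQ : K ⊓ (Cfsg.pCore 2 ↥(Subgroup.centralizer ({z} : Set G))).map (Subgroup.centralizer ({z} : Set G)).subtype = ⊥)
    (hQz : ∀ x ∈ (Cfsg.pCore 2 ↥(Subgroup.centralizer ({z} : Set G))).map (Subgroup.centralizer ({z} : Set G)).subtype, orderOf x = 2 → IsConj x z)
    (hCz : ∀ x ∈ Subgroup.centralizer ({z} : Set G), orderOf x = 2 →
      x ∉ (Cfsg.pCore 2 ↥(Subgroup.centralizer ({z} : Set G))).map (Subgroup.centralizer ({z} : Set G)).subtype → IsConj x t)
    (V B : Subgroup G) (hVB : Cfsg.IsInternalDirectProduct V B (Subgroup.centralizer ({t} : Set G)))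
    (hV : Nat.card ↥V = 4) (hV2 : ∀ v ∈ V, v ^ 2 = 1) (htV : t ∈ V) (hB : Nonempty (↥B ≃* alternatingGroup (Fin 5)))
    (hBz : ∀ x ∈ B, orderOf x = 2 → IsConj x z)
    (hCt : ∀ x ∈ Subgroup.centralizer ({t} : Set G), orderOf x = 2 → x ∉ B → IsConj x t) :
    Nat.card G = 604800 := by
  have hp : Fact (Nat.Prime 2) := ⟨Nat.prime_two⟩
  let C := Subgroup.centralizer ({z} : Set G)
  let Q : Subgroup C := Cfsg.pCore 2 C
  have zz : z * z = 1 := by rw [← pow_two, ← hz, pow_orderOf_eq_one]
  -- `F*(C) = Q`
  have hF : Cfsg.generalizedFittingSubgroup C = Q := by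
    apply le_antisymm
    · exact H1.Cores.le_pCore inferInstance hex.1.1
    · exact (H1.Cores.pCore_le_fittingSubgroup 2).trans H26.Components.fitting_le_gFitting
  have hQe : Cfsg.IsExtraspecial 2 Q := by rw [← hF]; exact hex
  have hmapmem : ∀ x : C, (x : G) ∈ Q.map C.subtype ↔ x ∈ Q := by
    intro x
    constructor
    · rintro ⟨y, hy, hyx⟩
      have : y = x := Subtype.ext hyx
      rwa [← this]
    · intro hx
      exact ⟨x, hx, rfl⟩
  -- the index
  have hKC2 : K ⊔ Q.map C.subtype = C := hKC
  have hKC' : K ≤ C := by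
    have h := le_sup_left (a := K) (b := Q.map C.subtype)
    rwa [hKC2] at h
  have hidx : Q.index = 60 := by
    have h1 : K.subgroupOf C ⊔ Q = ⊤ := by
      rw [eq_top_iff]
      intro x _
      have hx : (x : G) ∈ K ⊔ Q.map C.subtype := by rw [hKC2]; exact x.2
      have h2 : K ⊔ Q.map C.subtype = (K.subgroupOf C ⊔ Q).map C.subtype := by
        rw [Subgroup.map_sup, Subgroup.map_subgroupOf_eq_of_le hKC']
      rw [h2] at hx
      obtain ⟨y, hy, hyx⟩ := hx
      have : y = x := Subtype.ext hyx
      rwa [← this]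
    have h3 : Q.index = Q.relIndex (K.subgroupOf C) := by
      rw [← Subgroup.relIndex_top_right Q, ← h1, Subgroup.relIndex_sup_right]
    have h4 : Q ⊓ K.subgroupOf C = ⊥ := by
      rw [eq_bot_iff]
      rintro x ⟨hx1, hx2⟩
      have h5 : (x : G) ∈ K ⊓ Q.map C.subtype := ⟨hx2, (hmapmem x).2 hx1⟩
      have hKQ2 : K ⊓ Q.map C.subtype = ⊥ := hKQ
      rw [hKQ2, Subgroup.mem_bot] at h5
      rw [Subgroup.mem_bot]
      exact Subtype.ext h5
    have h6 := Subgroup.card_mul_index (Q.subgroupOf (K.subgroupOf C))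
    have h7 : Nat.card (Q.subgroupOf (K.subgroupOf C)) = 1 := by
      have h8 : Q.subgroupOf (K.subgroupOf C) = ⊥ := by
        rw [Subgroup.subgroupOf_eq_bot, disjoint_iff]
        exact h4
      rw [h8, Subgroup.card_bot]
    rw [h7, one_mul] at h6
    rw [h3]
    refine h6.trans ?_
    obtain ⟨e⟩ := hK
    rw [Nat.card_congr (Subgroup.subgroupOfEquivOfLe hKC').toEquiv, Nat.card_congr e.toEquiv, Nat.card_eq_fintype_card]
    have := two_mul_card_alternatingGroup (α := Fin 5)
    rw [Fintype.card_perm, Fintype.card_fin] at this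
    have h5 : Nat.factorial 5 = 120 := rfl
    omega
  -- a noncentral involution of `Q`
  have hnwc : ∃ g : G, (∃ hq : g * z * g⁻¹ ∈ C, (⟨g * z * g⁻¹, hq⟩ : C) ∈ Q) ∧ g * z * g⁻¹ ≠ z := by
    have hZ := H3.Extraspecial.commutator_le hQe.1
    have hc := hQe.2
    have hQ' : Nat.card Q = 32 := hQ
    obtain ⟨a, b, hab⟩ := H3.ExtraspecialUnique.exists_noncomm_of_card hc (by rw [hQ']; norm_num)
    obtain ⟨x, y, hxy, hx2, hy2⟩ := H3.ExtraspecialUnique.exists_pair_D hZ hc hab (by
      have k := H3.Extraspecial.card_centralizer_pair hZ hc hab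
      rw [hQ'] at k
      omega)
    have hx1 : ((x : C) : G) ≠ 1 := by
      intro h
      apply hxy
      have h1 : x = 1 := Subtype.ext (Subtype.ext h)
      rw [h1, commutatorElement_def]; group
    have hox : orderOf ((x : C) : G) = 2 := by
      apply orderOf_eq_prime _ hx1
      exact congrArg (fun q : Q => ((q : C) : G)) hx2
    have hconj := hQz ((x : C) : G) ((hmapmem x).2 x.2) hox
    obtain ⟨g, hg⟩ := isConj_iff.1 hconj.symm
    refine ⟨g, ⟨by rw [hg]; exact (x : C).2, ?_⟩, ?_⟩
    · have e : (⟨g * z * g⁻¹, by rw [hg]; exact (x : C).2⟩ : C) = x := Subtype.ext hg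
      rw [e]
      exact x.2
    · intro h
      apply hxy
      rw [hg] at h
      have h1 : ∀ q : Q, x * q = q * x := by
        intro q
        apply Subtype.ext
        apply Subtype.ext
        change ((x : C) : G) * q = q * x
        rw [h]
        exact (Subgroup.mem_centralizer_singleton_iff.1 (q : C).2).symm
      rw [commutatorElement_def, h1 y]; group
  refine (H64.J2.HJ.of_hyp hz inferInstance hF hQe hQ hidx hnwc).order ⟨z, t, hz, ht, hzt⟩

end Cfsg.Agent.S3313
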