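import Cfsg.Statements.S3315
import Cfsg.Agent.Lib.H86.U3AutC

set_option autoImplicit false
open Cfsg

namespace Cfsg.Agent.S3315

/-- Let S be a Sylow 2-subgroup of SU₃(2ⁿ), n ≥ 2 (realised over the field with 4ⁿ elements). If a finite 2-group R contains a subgroup S' of index 2 isomorphic to S, then the centre of S' is contained in the centre of R. -/
theorem result {R : Type*} [Group R] [Finite R]
    (hR : IsPGroup 2 R) (n : ℕ) (hn : 2 ≤ n) {F : Type*} [Field F] [Fintype F] (hF : Fintype.card F = 4 ^ n)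
    (P : Sylow 2 ↥(Cfsg.SU 3 F (2 ^ n))) (S' : Subgroup R) (hS : Nonempty (↥S' ≃* ↥(P : Subgroup ↥(Cfsg.SU 3 F (2 ^ n)))))
    (hidx : S'.index = 2) :
    (Subgroup.center ↥S').map S'.subtype ≤ Subgroup.center R := by
  have hK : Fintype.card F = (2 ^ n) ^ 2 := by rw [hF, ← pow_mul, show (4 : ℕ) = 2 ^ 2 by norm_num, ← pow_mul, mul_comm]
  have two : (2 : F) = 0 := by
    have : Fact (Nat.Prime 2) := ⟨Nat.prime_two⟩
    have hch : CharP F 2 := charP_of_card_eq_prime_pow (f := n * 2) (by rw [hK, ← pow_mul])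
    exact_mod_cast CharP.cast_eq_zero F 2
  obtain ⟨e⟩ := hS
  obtain ⟨e'⟩ := H86.U3AutB.mainSU two hK hn rfl P
  exact H86.U3AutC.overgroup two hK rfl S' (e.trans e') hidx

end Cfsg.Agent.S3315
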