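import Cfsg.Statements.S3333
import Cfsg.Agent.Lib.H31.N9W

set_option autoImplicit false
open Cfsg

namespace Cfsg.Agent.S3333

/-- Let G be a finite group with a Sylow 3-subgroup S of order 9 that is its own centralizer, with N_G(S)/S dihedral of order 8, and such that C_G(x) ≤ N_G(S) for every non-identity x in S. Then S is normal in G or G is isomorphic to the symmetric group of degree 6. -/
theorem result {G : Type*} [Group G] [Finite G]
    (P : Sylow 3 G) (S : Subgroup G) (hSP : S = P) (hcard : Nat.card S = 9)
    (hC : Subgroup.centralizer (S : Set G) = S)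
    (eN : Subgroup.normalizer (S : Set G) ⧸ S.subgroupOf (Subgroup.normalizer (S : Set G)) ≃* DihedralGroup 4)
    (hcent : ∀ x ∈ S, x ≠ 1 → Subgroup.centralizer ({x} : Set G) ≤ Subgroup.normalizer (S : Set G)) :
    S.Normal ∨ Nonempty (G ≃* Equiv.Perm (Fin 6)) := by
  exact H31.N9.main_sym P hSP hcard hC eN hcent

end Cfsg.Agent.S3333
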