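import Cfsg.Statements.S3335
import Cfsg.Agent.Lib.H60.AltPres

set_option autoImplicit false
open Cfsg

namespace Cfsg.Agent.S3335

open Equiv

/-- adjacent transpositions of `Fin n` -/
def sw (n j : ℕ) : Perm (Fin n) := if h : j + 1 < n then swap ⟨j, by omega⟩ ⟨j + 1, h⟩ else 1

theorem sw_eq {n j : ℕ} (h : j + 1 < n) : sw n j = swap ⟨j, by omega⟩ ⟨j + 1, h⟩ := dif_pos h

theorem sw_mul_self (n j : ℕ) : sw n j * sw n j = 1 := by
  unfold sw; split_ifs <;> simp

theorem sw_sign {n j : ℕ} (h : j + 1 < n) : Perm.sign (sw n j) = -1 := by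
  rw [sw_eq h, Perm.sign_swap]
  intro he
  have := congrArg Fin.val he
  simp at this

theorem sw_comm {n i j : ℕ} (h : i + 1 < j) : sw n i * sw n j = sw n j * sw n i := by
  unfold sw
  split_ifs with h1 h2
  · apply Perm.Disjoint.commute
    intro x
    by_cases hx1 : x = ⟨i, by omega⟩
    · right
      apply swap_apply_of_ne_of_ne <;> rw [hx1] <;> intro he <;> have := congrArg Fin.val he <;> simp at this <;> omega
    · by_cases hx2 : x = ⟨i + 1, h1⟩
      · right
        apply swap_apply_of_ne_of_ne <;> rw [hx2] <;> intro he <;> have := congrArg Fin.val he <;> simp at this <;> omega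
      · left
        exact swap_apply_of_ne_of_ne hx1 hx2
  · simp
  · simp
  · simp

theorem sw_braid {n j : ℕ} (h : j + 2 < n) :
    sw n j * sw n (j + 1) * (sw n j * sw n (j + 1)) * (sw n j * sw n (j + 1)) = 1 := by
  rw [sw_eq (show j + 1 < n by omega), sw_eq (show j + 1 + 1 < n by omega)]
  have h3 : (swap (⟨j + 1, by omega⟩ : Fin n) ⟨j, by omega⟩ * swap (⟨j + 1, by omega⟩ : Fin n) ⟨j + 2, h⟩).IsThreeCycle := by
    apply Perm.isThreeCycle_swap_mul_swap_same <;> intro he <;> have := congrArg Fin.val he <;> simp at this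
  have h4 := pow_orderOf_eq_one (swap (⟨j + 1, by omega⟩ : Fin n) ⟨j, by omega⟩ * swap (⟨j + 1, by omega⟩ : Fin n) ⟨j + 2, h⟩)
  rw [h3.orderOf, pow_succ, pow_two, swap_comm (⟨j + 1, by omega⟩ : Fin n) ⟨j, by omega⟩] at h4
  exact h4

/-- A presentation of the alternating group of degree n ≥ 3 on generators x_1, …, x_{n−2} (indexed here by 0, …, n−3): the first generator cubes to 1, every other generator squares to 1, the product of two consecutive generators has order dividing 3, and the product of two generators at distance at least 2 has order dividing 2. The group so presented is isomorphic to the alternating group of degree n. -/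
theorem result (n : ℕ) (hn : 3 ≤ n) :
    Nonempty (PresentedGroup
      ({g : FreeGroup (Fin (n - 2)) | ∃ i : Fin (n - 2), i.val = 0 ∧ g = FreeGroup.of i ^ 3} ∪
       {g | ∃ i : Fin (n - 2), 1 ≤ i.val ∧ g = FreeGroup.of i ^ 2} ∪
       {g | ∃ i j : Fin (n - 2), j.val = i.val + 1 ∧ g = (FreeGroup.of i * FreeGroup.of j) ^ 3} ∪
       {g | ∃ i j : Fin (n - 2), i.val + 1 < j.val ∧ g = (FreeGroup.of i * FreeGroup.of j) ^ 2})
      ≃* alternatingGroup (Fin n)) := by
  -- images in the alternating group
  have hX : ∀ i : Fin (n - 2), sw n 0 * sw n (i.val + 1) ∈ alternatingGroup (Fin n) := by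
    intro i
    have := i.2
    rw [Perm.mem_alternatingGroup, map_mul, sw_sign (by omega), sw_sign (by omega)]
    simp
  have hss : ∀ (i j : ℕ), 0 + 1 < j → sw n 0 * sw n i * (sw n 0 * sw n j) = sw n 0 * (sw n i * sw n j) * sw n 0 := by
    intro i j hj
    have := sw_comm (n := n) hj
    calc sw n 0 * sw n i * (sw n 0 * sw n j) = sw n 0 * sw n i * (sw n j * sw n 0) := by rw [this]
      _ = _ := by group
  set rels := ({g : FreeGroup (Fin (n - 2)) | ∃ i : Fin (n - 2), i.val = 0 ∧ g = FreeGroup.of i ^ 3} ∪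
       {g | ∃ i : Fin (n - 2), 1 ≤ i.val ∧ g = FreeGroup.of i ^ 2} ∪
       {g | ∃ i j : Fin (n - 2), j.val = i.val + 1 ∧ g = (FreeGroup.of i * FreeGroup.of j) ^ 3} ∪
       {g | ∃ i j : Fin (n - 2), i.val + 1 < j.val ∧ g = (FreeGroup.of i * FreeGroup.of j) ^ 2}) with hrels
  have hker : ∀ r ∈ rels, FreeGroup.lift (fun i : Fin (n - 2) => (⟨sw n 0 * sw n (i.val + 1), hX i⟩ : alternatingGroup (Fin n))) r = 1 := by
    rintro r (((⟨i, hi, rfl⟩ | ⟨i, hi, rfl⟩) | ⟨i, j, hij, rfl⟩) | ⟨i, j, hij, rfl⟩)
    · simp only [map_pow, FreeGroup.lift_apply_of]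
      apply Subtype.ext
      rw [Subgroup.coe_pow]
      change (sw n 0 * sw n (i.val + 1)) ^ 3 = 1
      rw [hi, pow_succ, pow_two]
      exact sw_braid (by omega)
    · simp only [map_pow, FreeGroup.lift_apply_of]
      apply Subtype.ext
      rw [Subgroup.coe_pow, pow_two]
      change sw n 0 * sw n (i.val + 1) * (sw n 0 * sw n (i.val + 1)) = 1
      rw [hss _ _ (by omega), sw_mul_self, mul_one, sw_mul_self]
    · simp only [map_pow, map_mul, FreeGroup.lift_apply_of]
      apply Subtype.ext
      rw [Subgroup.coe_pow]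
      change (sw n 0 * sw n (i.val + 1) * (sw n 0 * sw n (j.val + 1))) ^ 3 = 1
      have := j.2
      rw [hss _ _ (by omega)]
      have h1 : sw n 0 * (sw n (i.val + 1) * sw n (j.val + 1)) * sw n 0 = sw n 0 * (sw n (i.val + 1) * sw n (j.val + 1)) * (sw n 0)⁻¹ := by
        rw [inv_eq_of_mul_eq_one_left (sw_mul_self n 0)]
      rw [h1, conj_pow, hij, pow_succ, pow_two, sw_braid (by omega)]
      simp
    · simp only [map_pow, map_mul, FreeGroup.lift_apply_of]
      apply Subtype.ext
      rw [Subgroup.coe_pow]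
      change (sw n 0 * sw n (i.val + 1) * (sw n 0 * sw n (j.val + 1))) ^ 2 = 1
      have := j.2
      rw [hss _ _ (by omega)]
      have h1 : sw n 0 * (sw n (i.val + 1) * sw n (j.val + 1)) * sw n 0 = sw n 0 * (sw n (i.val + 1) * sw n (j.val + 1)) * (sw n 0)⁻¹ := by
        rw [inv_eq_of_mul_eq_one_left (sw_mul_self n 0)]
      rw [h1, conj_pow, pow_two]
      have h2 : sw n (i.val + 1) * sw n (j.val + 1) * (sw n (i.val + 1) * sw n (j.val + 1)) = 1 := by
        have h3 := sw_comm (n := n) (i := i.val + 1) (j := j.val + 1) (by omega)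
        calc _ = sw n (i.val + 1) * (sw n (j.val + 1) * sw n (i.val + 1)) * sw n (j.val + 1) := by group
          _ = sw n (i.val + 1) * (sw n (i.val + 1) * sw n (j.val + 1)) * sw n (j.val + 1) := by rw [h3]
          _ = (sw n (i.val + 1) * sw n (i.val + 1)) * (sw n (j.val + 1) * sw n (j.val + 1)) := by group
          _ = 1 := by rw [sw_mul_self, sw_mul_self, mul_one]
      rw [h2]
      simp
  let φ : PresentedGroup rels →* alternatingGroup (Fin n) := PresentedGroup.toGroup hker
  have hφ : ∀ i, ((φ (PresentedGroup.of i) : alternatingGroup (Fin n)) : Perm (Fin n)) = sw n 0 * sw n (i.val + 1) := by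
    intro i
    simp only [φ, PresentedGroup.toGroup.of]
  -- surjectivity
  have hsurj : Function.Surjective φ := by
    let Q : Subgroup (Perm (Fin n)) := ((alternatingGroup (Fin n)).subtype.comp φ).range
    have hQ : ∀ i : ℕ, i + 1 < n → sw n 0 * sw n i ∈ Q := by
      intro i hi
      rcases Nat.eq_zero_or_pos i with rfl | hi0
      · rw [sw_mul_self]; exact Q.one_mem
      · refine ⟨PresentedGroup.of ⟨i - 1, by omega⟩, ?_⟩
        change ((φ (PresentedGroup.of _) : alternatingGroup (Fin n)) : Perm (Fin n)) = _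
        rw [hφ]
        simp only
        congr 2
        omega
    have key : ∀ σ : Perm (Fin n), (Perm.sign σ = 1 → σ ∈ Q) ∧ (Perm.sign σ = -1 → sw n 0 * σ ∈ Q) := by
      obtain ⟨m, rfl⟩ : ∃ m, n = m + 1 := ⟨n - 1, by omega⟩
      intro σ
      induction σ using Submonoid.induction_of_closure_eq_top_left (Perm.mclosure_swap_castSucc_succ m) with
      | one => exact ⟨fun _ => Q.one_mem, fun h => absurd h (by simp)⟩
      | mul_left x hx y ih =>
        obtain ⟨i, rfl⟩ := hx
        have hi : (swap i.castSucc i.succ : Perm (Fin (m + 1))) = sw (m + 1) i.val := by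
          rw [sw_eq (by omega)]; rfl
        simp only [hi]
        have hs : Perm.sign (sw (m + 1) i.val) = -1 := sw_sign (by omega)
        have hq := hQ i.val (by omega)
        rw [map_mul, hs]
        rcases Int.units_eq_one_or (Perm.sign y) with h1 | h1
        · rw [h1]
          refine ⟨fun h => absurd h (by decide), fun _ => ?_⟩
          rw [← mul_assoc]
          exact Q.mul_mem hq (ih.1 h1)
        · rw [h1]
          refine ⟨fun _ => ?_, fun h => absurd h (by decide)⟩
          have h2 : sw (m + 1) i.val * y = (sw (m + 1) 0 * sw (m + 1) i.val)⁻¹ * (sw (m + 1) 0 * y) := by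
            have e1 : (sw (m + 1) i.val)⁻¹ = sw (m + 1) i.val := inv_eq_of_mul_eq_one_left (sw_mul_self _ _)
            rw [mul_inv_rev, e1]; group
          rw [h2]
          exact Q.mul_mem (Q.inv_mem hq) (ih.2 h1)
    rintro ⟨σ, hσ⟩
    obtain ⟨g, hg⟩ := (key σ).1 (Perm.mem_alternatingGroup.mp hσ)
    exact ⟨g, Subtype.ext hg⟩
  -- bound
  let x : ℕ → PresentedGroup rels := fun i => if h : i < n - 2 then PresentedGroup.of ⟨i, h⟩ else 1
  have hx : ∀ i (h : i < n - 2), x i = PresentedGroup.mk rels (FreeGroup.of ⟨i, h⟩) := by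
    intro i h
    simp only [x, dif_pos h]; rfl
  have hrel : H60.AltPres.Rel x (n - 2) := by
    refine ⟨?_, ?_, ?_, ?_⟩
    · intro h
      rw [hx 0 h, ← map_pow]
      apply PresentedGroup.one_of_mem
      left; left; left
      exact ⟨⟨0, h⟩, rfl, rfl⟩
    · intro i h1 h
      rw [hx i h, ← map_mul, ← pow_two]
      apply PresentedGroup.one_of_mem
      left; left; right
      exact ⟨⟨i, h⟩, h1, rfl⟩
    · intro i h
      rw [hx i (by omega), hx (i + 1) h, ← map_mul, ← map_mul, ← map_mul, ← pow_two, ← pow_succ]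
      apply PresentedGroup.one_of_mem
      left; right
      exact ⟨⟨i, by omega⟩, ⟨i + 1, h⟩, rfl, rfl⟩
    · intro i j hij h
      rw [hx i (by omega), hx j h, ← map_mul, ← map_mul, ← pow_two]
      apply PresentedGroup.one_of_mem
      right
      exact ⟨⟨i, by omega⟩, ⟨j, h⟩, hij, rfl⟩
  obtain ⟨hfin, hcard⟩ := H60.AltPres.bound x (n - 2) hrel
  have htop : Subgroup.closure (x '' {i | i < n - 2}) = ⊤ := by
    rw [← PresentedGroup.closure_range_of]
    congr 1
    ext y
    constructor
    · rintro ⟨i, hi, rfl⟩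
      refine ⟨⟨i, hi⟩, ?_⟩
      simp only [x, dif_pos (show i < n - 2 from hi)]
    · rintro ⟨⟨i, hi⟩, rfl⟩
      refine ⟨i, hi, ?_⟩
      simp only [x, dif_pos hi]
  rw [htop] at hfin hcard
  have hfin' : Finite (PresentedGroup rels) := Finite.of_equiv _ (Subgroup.topEquiv (G := PresentedGroup rels)).toEquiv
  rw [Nat.card_congr (Subgroup.topEquiv (G := PresentedGroup rels)).toEquiv] at hcard
  have hbij : Function.Bijective φ := by
    apply hsurj.bijective_of_nat_card_le
    have : Nontrivial (Fin n) := Fin.nontrivial_iff_two_le.mpr (by omega)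
    have h1 := two_mul_nat_card_alternatingGroup (α := Fin n)
    rw [Nat.card_perm, Nat.card_eq_fintype_card (α := Fin n), Fintype.card_fin] at h1
    have h2 : n - 2 + 2 = n := by omega
    rw [h2] at hcard
    omega
  exact ⟨MulEquiv.ofBijective φ hbij⟩

end Cfsg.Agent.S3335
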