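import Cfsg.Statements.S3341
import Cfsg.Agent.Lib.H59.A6T4
-- import your own Cfsg.Agent.* helpers here

set_option autoImplicit false
open Cfsg

namespace Cfsg.Agent.S3341

/-- Let G be a finite simple group whose Sylow 3-subgroup S is elementary abelian of order 9, such that G has more than one conjugacy class of elements of order 3 and C_G(s) = S for every non-identity s in S. Then G is isomorphic to the alternating group of degree 6. -/
theorem result {G : Type*} [Group G] [Finite G] [IsSimpleGroup G]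
    (P : Sylow 3 G) (S : Subgroup G) (hSP : S = P) (hcomm : IsMulCommutative S) (hexp : ∀ a ∈ S, a ^ 3 = 1)
    (hcard : Nat.card S = 9)
    (hclasses : ∃ a b : G, orderOf a = 3 ∧ orderOf b = 3 ∧ ∀ g : G, g * a * g⁻¹ ≠ b)
    (hcent : ∀ s ∈ S, s ≠ 1 → Subgroup.centralizer ({s} : Set G) = S) :
    Nonempty (G ≃* alternatingGroup (Fin 6)) := by
  apply H59.A6T.main (S := S)
  · refine ⟨hcard, ?_, hexp, hcent, ⟨P, hSP.symm⟩⟩
    intro a ha b hb
    exact congrArg Subtype.val (hcomm.is_comm.comm ⟨a, ha⟩ ⟨b, hb⟩)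
  · obtain ⟨a, b, ha, hb, hab⟩ := hclasses
    exact ⟨a, b, ha, hb, fun h => by obtain ⟨g, hg⟩ := isConj_iff.1 h; exact hab g hg⟩

end Cfsg.Agent.S3341
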