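import Cfsg.Statements.S3349

set_option autoImplicit false
open Cfsg

namespace Cfsg.Agent.S3349

/-- Let Q be a finite extraspecial p-group and α an automorphism of Q fixing every element of some maximal abelian subgroup of Q. Then the order of α is a power of p. -/
theorem result {Q : Type*} [Group Q] [Finite Q]
    (p : ℕ) [Fact p.Prime] (hQ : Cfsg.IsExtraspecial p Q) (α : MulAut Q)
    (A : Subgroup Q) (hA : IsMulCommutative A) (hmax : ∀ B : Subgroup Q, A ≤ B → IsMulCommutative B → B = A)
    (hfix : ∀ a ∈ A, α a = a) :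
    ∃ k : ℕ, orderOf α = p ^ k := by
  obtain ⟨⟨hp, -, hcomm⟩, -⟩ := hQ
  -- A is self centralizing
  have hself : ∀ x : Q, (∀ a ∈ A, a * x = x * a) → x ∈ A := by
    intro x hx
    have hB : IsMulCommutative (Subgroup.closure ((A : Set Q) ∪ {x})) := by
      apply Subgroup.isMulCommutative_closure
      have hAA : ∀ a ∈ A, ∀ b ∈ A, a * b = b * a := fun a ha b hb => setLike_mul_comm ha hb
      rintro u (hu | hu) v (hv | hv)
      · exact hAA u hu v hv
      · rw [Set.mem_singleton_iff.mp hv]; exact hx u hu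
      · rw [Set.mem_singleton_iff.mp hu]; exact (hx v hv).symm
      · rw [Set.mem_singleton_iff.mp hu, Set.mem_singleton_iff.mp hv]
    have hle : A ≤ Subgroup.closure ((A : Set Q) ∪ {x}) := fun a ha => Subgroup.subset_closure (Or.inl ha)
    have := hmax _ hle hB
    rw [← this]
    exact Subgroup.subset_closure (Or.inr rfl)
  have hcen : Subgroup.center Q ≤ A := by
    intro z hz
    apply hself
    intro a _
    exact Subgroup.mem_center_iff.mp hz a
  have hcom : ∀ a b : Q, a * b * a⁻¹ * b⁻¹ ∈ Subgroup.center Q := by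
    intro a b
    rw [← hcomm, commutator_def]
    exact Subgroup.commutator_mem_commutator (Subgroup.mem_top a) (Subgroup.mem_top b)
  -- x⁻¹ α x ∈ A
  have hkey : ∀ x : Q, x⁻¹ * α x ∈ A := by
    intro x
    apply hself
    intro a ha
    have h1 : α (x * a * x⁻¹ * a⁻¹) = x * a * x⁻¹ * a⁻¹ := hfix _ (hcen (hcom x a))
    simp only [map_mul, map_inv, hfix a ha] at h1
    have h2 : α x * a * (α x)⁻¹ = x * a * x⁻¹ := mul_right_cancel h1
    have h3 : α x * a = x * a * x⁻¹ * α x := by rw [← h2]; group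
    calc a * (x⁻¹ * α x) = x⁻¹ * (x * a * x⁻¹ * α x) := by group
      _ = x⁻¹ * (α x * a) := by rw [h3]
      _ = x⁻¹ * α x * a := by group
  have hpow : ∀ (k : ℕ) (x : Q), (α ^ k) x = x * (x⁻¹ * α x) ^ k := by
    intro k x
    induction k with
    | zero => simp
    | succ k ih =>
      rw [pow_succ', MulAut.mul_apply, ih, map_mul, hfix _ (Subgroup.pow_mem _ (hkey x) k)]
      rw [pow_succ', ← mul_assoc, mul_inv_cancel_left]
  obtain ⟨n, hn⟩ := IsPGroup.iff_card.mp hp
  have hcard : α ^ (p ^ n) = 1 := by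
    ext x
    rw [hpow, ← hn, pow_card_eq_one']
    simp
  obtain ⟨k, -, hk⟩ := (Nat.dvd_prime_pow Fact.out).mp (orderOf_dvd_of_pow_eq_one hcard)
  exact ⟨k, hk⟩

end Cfsg.Agent.S3349
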