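import Cfsg.Statements.S3376
import Mathlib
import Cfsg.Agent.Lib.H30.Nil
import Cfsg.Agent.Lib.H13.Thompson
import Cfsg.Agent.Lib.H24.Basic
import Cfsg.Agent.Lib.H21.SylowTools

set_option autoImplicit false
open Cfsg

namespace Cfsg.Agent.S3376

open Subgroup

abbrev c9 : Equiv.Perm (Fin 9) :=
  Equiv.swap (0 : Fin 9) 1 * Equiv.swap 1 2 * Equiv.swap 3 4 * Equiv.swap 4 5 * Equiv.swap 6 7 * Equiv.swap 7 8

theorem cycleType_of (σ : Equiv.Perm (Fin 9)) (h3 : σ ^ 3 = 1) (hf : ∀ i, σ i ≠ i) :
    σ.cycleType = Multiset.replicate 3 3 := by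
  have h1 : σ ≠ 1 := fun h => hf 0 (by rw [h]; rfl)
  have : Fact (Nat.Prime 3) := ⟨by norm_num⟩
  have ho : orderOf σ = 3 := orderOf_eq_prime h3 h1
  obtain ⟨n, hn⟩ := Equiv.Perm.cycleType_prime_order (σ := σ) (by rw [ho]; norm_num)
  have hs := σ.sum_cycleType
  have hsup : σ.support = Finset.univ := by
    ext i; simpa using hf i
  rw [hsup, hn, ho, Multiset.sum_replicate, Finset.card_univ, Fintype.card_fin] at hs
  have hn2 : n = 2 := by
    simp only [smul_eq_mul] at hs; omega
  rw [hn, ho, hn2]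

theorem card_cent (σ : Equiv.Perm (Fin 9)) (h : σ.cycleType = Multiset.replicate 3 3) :
    Nat.card (Subgroup.centralizer {σ}) = 162 := by
  rw [Equiv.Perm.nat_card_centralizer, h]
  decide

theorem result {G : Type*} [Group G] [Finite G] (hG : Nat.card G = 162)
    (S : Sylow 3 G) (T : Sylow 2 G) (J : Subgroup G) [hJn : J.Normal] (hJcomm : IsMulCommutative J)
    (hJexp : ∀ a ∈ J, a ^ 3 = 1) (hJcard : Nat.card J = 27)
    (Z : Subgroup G) (hZ : Z = (S : Subgroup G) ⊓ Subgroup.centralizer ((S : Subgroup G) : Set G)) (hZcard : Nat.card Z = 3)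
    (hZT : Z ≤ Subgroup.centralizer ((T : Subgroup G) : Set G))
    (hST : (S : Subgroup G) ⊓ Subgroup.centralizer ((T : Subgroup G) : Set G) ≠ S) :
    Nonempty (G ≃* Subgroup.centralizer ({Equiv.swap (0 : Fin 9) 1 * Equiv.swap 1 2 * Equiv.swap 3 4 * Equiv.swap 4 5 * Equiv.swap 6 7 * Equiv.swap 7 8} : Set (Equiv.Perm (Fin 9)))) := by
  have : Fact (Nat.Prime 3) := ⟨by norm_num⟩
  have : Fact (Nat.Prime 2) := ⟨by norm_num⟩
  have hcS : Nat.card (S : Subgroup G) = 81 := by
    have := H21.SylowTools.card_sylow_eq_pow (p := 3) (a := 4) (m := 2) (by rw [hG]; norm_num) (by norm_num) S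
    simpa using this
  have hcT : Nat.card (T : Subgroup G) = 2 := by
    have := H21.SylowTools.card_sylow_eq_pow (p := 2) (a := 1) (m := 81) (by rw [hG]; norm_num) (by norm_num) T
    simpa using this
  have hSi : (S : Subgroup G).index = 2 := by
    have := (S : Subgroup G).card_mul_index
    rw [hG, hcS] at this; omega
  have hSn : (S : Subgroup G).Normal := Subgroup.normal_of_index_eq_two hSi
  -- the involution
  obtain ⟨t, htT, hto⟩ : ∃ t : G, t ∈ (T : Subgroup G) ∧ orderOf t = 2 := by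
    obtain ⟨t, ht⟩ := exists_prime_orderOf_dvd_card' (G := (T : Subgroup G)) 2 (by rw [hcT])
    exact ⟨t, t.2, by rw [Subgroup.orderOf_coe]; exact ht⟩
  have ht1 : t ≠ 1 := by intro h; rw [h, orderOf_one] at hto; omega
  have ht2 : t * t = 1 := by
    have := pow_orderOf_eq_one t
    rwa [hto, pow_two] at this
  have htinv : t⁻¹ = t := inv_eq_of_mul_eq_one_left ht2
  have hTz : (T : Subgroup G) = Subgroup.zpowers t := by
    symm
    apply Subgroup.eq_of_le_of_card_ge
    · rw [Subgroup.zpowers_le]; exact htT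
    · rw [hcT, Nat.card_zpowers, hto]
  have htS : t ∉ (S : Subgroup G) := by
    intro h
    have := Subgroup.orderOf_dvd_natCard _ h
    rw [hto, hcS] at this
    omega
  -- J ≤ S
  have hJS : J ≤ S := by
    intro a ha
    have h1 : a = (a * a)⁻¹ := by
      rw [eq_inv_iff_mul_eq_one, ← mul_assoc, ← pow_two, ← pow_succ]; exact hJexp a ha
    rw [h1]
    exact (S : Subgroup G).inv_mem (Subgroup.mul_self_mem_of_index_two hSi a)
  -- normal subgroups of G inside S meet Z
  have hnil : Group.IsNilpotent (S : Subgroup G) := S.2.isNilpotent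
  have hmeet : ∀ N : Subgroup G, N.Normal → N ≤ S → N ≠ ⊥ → ∃ u ∈ N, u ∈ Z ∧ u ≠ 1 := by
    intro N hN hNS hNb
    have hN' : (N.subgroupOf (S : Subgroup G)).Normal := Subgroup.normal_subgroupOf
    have h1 : N.subgroupOf (S : Subgroup G) ≠ ⊥ := by
      intro h
      apply hNb
      rw [Subgroup.subgroupOf_eq_bot, disjoint_iff, inf_eq_left.mpr hNS] at h
      exact h
    have h2 := H30.Nil.inf_center_ne_bot _ h1
    obtain ⟨⟨u, hu⟩, hu1⟩ := Subgroup.ne_bot_iff_exists_ne_one.mp h2
    obtain ⟨huN, huC⟩ := Subgroup.mem_inf.mp hu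
    refine ⟨u, Subgroup.mem_subgroupOf.mp huN, ?_, fun h => hu1 (Subtype.ext (Subtype.ext h))⟩
    rw [hZ]
    refine Subgroup.mem_inf.mpr ⟨u.2, ?_⟩
    rw [Subgroup.mem_centralizer_iff]
    intro s hs
    have := (Subgroup.mem_center_iff.mp huC) ⟨s, hs⟩
    exact congrArg Subtype.val this
  have hJb : J ≠ ⊥ := by
    intro h; rw [h, Subgroup.card_bot] at hJcard; omega
  obtain ⟨z, hzJ, hzZ, hz1⟩ := hmeet J hJn hJS hJb
  have hz3 : z ^ 3 = 1 := hJexp z hzJ
  have hzo : orderOf z = 3 := orderOf_eq_prime hz3 hz1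
  have hZz : ∀ u ∈ Z, u ≠ 1 → z ∈ Subgroup.zpowers u := by
    intro u hu hu1
    have h1 : Subgroup.zpowers u = Z := by
      have hd : Nat.card (Subgroup.zpowers u) ∣ 3 := by
        rw [← hZcard]; exact Subgroup.card_dvd_of_le (by rw [Subgroup.zpowers_le]; exact hu)
      rcases (Nat.dvd_prime (by norm_num)).mp hd with h | h
      · exact absurd (Subgroup.zpowers_eq_bot.mp (Subgroup.eq_bot_of_card_eq _ h)) hu1
      · exact Subgroup.eq_of_le_of_card_ge (by rw [Subgroup.zpowers_le]; exact hu) (by rw [h, hZcard])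
    rw [h1]; exact hzZ
  -- z central
  have hzS : ∀ s ∈ (S : Subgroup G), s * z = z * s := by
    have h1 : z ∈ Subgroup.centralizer ((S : Subgroup G) : Set G) := by
      have := hzZ; rw [hZ] at this; exact (Subgroup.mem_inf.mp this).2
    intro s hs
    exact Subgroup.mem_centralizer_iff.mp h1 s hs
  have hzt : t * z = z * t := Subgroup.mem_centralizer_iff.mp (hZT hzZ) t htT
  have hdec : ∀ g : G, g ∈ (S : Subgroup G) ∨ g * t ∈ (S : Subgroup G) := by
    intro g
    by_cases hg : g ∈ (S : Subgroup G)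
    · left; exact hg
    · right
      rw [Subgroup.mul_mem_iff_of_index_two hSi]
      exact ⟨fun h => absurd h hg, fun h => absurd h htS⟩
  have hzc : ∀ g : G, g * z = z * g := by
    intro g
    rcases hdec g with h | h
    · exact hzS g h
    · have h1 := hzS _ h
      have h2 : g * z = g * t * z * t := by
        rw [mul_assoc g t z, hzt, mul_assoc g, mul_assoc z, ht2, mul_one]
      rw [h2, h1, mul_assoc z, mul_assoc g, ht2, mul_one]
  -- the functional
  obtain ⟨F, hF⟩ : ∃ F : J →* Multiplicative (ZMod 3), F ⟨z, hzJ⟩ ≠ 1 := by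
    let _ : CommGroup J := { mul_comm := fun a b => hJcomm.is_comm.comm a b }
    have hm : ∀ x : Additive J, 3 • x = 0 := by
      intro x
      have : (x.toMul) ^ 3 = 1 := Subtype.ext (hJexp _ x.toMul.2)
      exact this
    let _ : Module (ZMod 3) (Additive J) := AddCommGroup.zmodModule hm
    have hz0 : (Additive.ofMul (⟨z, hzJ⟩ : J)) ≠ 0 := by
      intro h
      exact hz1 (congrArg Subtype.val (show (⟨z, hzJ⟩ : J) = 1 from h))
    have h1 : ¬ ∀ φ : Module.Dual (ZMod 3) (Additive J), φ (Additive.ofMul (⟨z, hzJ⟩ : J)) = 0 := by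
      rw [Module.forall_dual_apply_eq_zero_iff]; exact hz0
    push Not at h1
    obtain ⟨φ, hφ⟩ := h1
    exact ⟨AddMonoidHom.toMultiplicativeRight φ.toAddMonoidHom, fun h => hφ h⟩
  -- the t-invariant functional
  have htJ : ∀ a ∈ J, t * a * t⁻¹ ∈ J := fun a ha => hJn.conj_mem a ha t
  let ct : J →* J := (MulAut.conjNormal t : MulAut J).toMonoidHom
  have hct : ∀ a : J, ((ct a : J) : G) = t * a * t⁻¹ := fun a => rfl
  let F' : J →* Multiplicative (ZMod 3) := F * F.comp ct
  have hF' : ∀ a : J, F' a = F a * F (ct a) := fun a => rfl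
  have hctt : ∀ a : J, ct (ct a) = a := by
    intro a
    apply Subtype.ext
    rw [hct, hct, htinv]
    calc t * (t * (a : G) * t) * t = (t * t) * a * (t * t) := by group
      _ = a := by rw [ht2]; simp
  have hF't : ∀ a : J, F' (ct a) = F' a := by
    intro a
    rw [hF', hF', hctt, mul_comm]
  have hctz : ct ⟨z, hzJ⟩ = ⟨z, hzJ⟩ := by
    apply Subtype.ext
    rw [hct]
    simp only
    rw [hzt, mul_assoc, mul_inv_cancel, mul_one]
  have hF'z : F' ⟨z, hzJ⟩ ≠ 1 := by
    rw [hF', hctz]
    intro h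
    apply hF
    have h3 : F ⟨z, hzJ⟩ ^ 3 = 1 := by
      rw [← map_pow]
      have : (⟨z, hzJ⟩ : J) ^ 3 = 1 := Subtype.ext hz3
      rw [this, map_one]
    rw [pow_succ, pow_two, h, one_mul] at h3
    exact h3
  have hrange : F'.range = ⊤ := by
    have hc3 : Nat.card (Multiplicative (ZMod 3)) = 3 := by
      rw [Nat.card_eq_fintype_card]; rfl
    have hd := Subgroup.card_subgroup_dvd_card F'.range
    rw [hc3] at hd
    rcases (Nat.dvd_prime (by norm_num)).mp hd with h | h
    · exfalso
      have h1 := Subgroup.eq_bot_of_card_eq _ h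
      have h2 : F' ⟨z, hzJ⟩ ∈ F'.range := ⟨_, rfl⟩
      rw [h1, Subgroup.mem_bot] at h2
      exact hF'z h2
    · apply Subgroup.eq_top_of_card_eq
      rw [h, hc3]
  have hkc : Nat.card F'.ker = 9 := by
    have h1 := F'.ker.card_mul_index
    rw [Subgroup.index_ker, hrange, hJcard] at h1
    have h2 : Nat.card (⊤ : Subgroup (Multiplicative (ZMod 3))) = 3 := by
      rw [Subgroup.card_top, Nat.card_eq_fintype_card]; rfl
    rw [h2] at h1
    omega
  let W : Subgroup G := F'.ker.map J.subtype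
  have hWc : Nat.card W = 9 := by
    rw [← hkc]
    exact (Nat.card_congr (Subgroup.equivMapOfInjective F'.ker J.subtype J.subtype_injective).toEquiv).symm
  have hWm : ∀ a : G, a ∈ W ↔ ∃ h : a ∈ J, F' ⟨a, h⟩ = 1 := by
    intro a
    constructor
    · rintro ⟨b, hb, rfl⟩
      exact ⟨b.2, hb⟩
    · rintro ⟨h, hb⟩
      exact ⟨⟨a, h⟩, hb, rfl⟩
  have hWJ : W ≤ J := fun a ha => ((hWm a).mp ha).1
  have hWt : ∀ a ∈ W, t * a * t⁻¹ ∈ W := by
    intro a ha
    obtain ⟨h, hb⟩ := (hWm a).mp ha
    rw [hWm]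
    refine ⟨htJ a h, ?_⟩
    have : (⟨t * a * t⁻¹, htJ a h⟩ : J) = ct ⟨a, h⟩ := rfl
    rw [this, hF't]; exact hb
  have hzW : z ∉ W := by
    intro h
    obtain ⟨h', hb⟩ := (hWm z).mp h
    exact hF'z hb
  have htJ' : t ∉ J := fun h => htS (hJS h)
  have hzp : ∀ b ∈ Subgroup.zpowers t, b = 1 ∨ b = t := by
    intro b hb
    rw [Subgroup.mem_zpowers_iff] at hb
    obtain ⟨k, rfl⟩ := hb
    rcases Int.even_or_odd k with ⟨m, hm⟩ | ⟨m, hm⟩
    · left; rw [hm, ← two_mul, zpow_mul]
      have : t ^ (2 : ℤ) = 1 := by exact_mod_cast (by rw [pow_two]; exact ht2 : t ^ 2 = 1)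
      rw [this, one_zpow]
    · right; rw [hm, zpow_add, zpow_mul, zpow_one]
      have : t ^ (2 : ℤ) = 1 := by exact_mod_cast (by rw [pow_two]; exact ht2 : t ^ 2 = 1)
      rw [this, one_zpow, one_mul]
  let H : Subgroup G := Subgroup.zpowers t ⊔ W
  have hnormW : Subgroup.zpowers t ≤ Subgroup.normalizer (W : Set G) := by
    rw [Subgroup.zpowers_le]
    rw [Subgroup.mem_normalizer_iff]
    intro a
    refine ⟨hWt a, fun h => ?_⟩
    have h1 := hWt _ h
    have h2 : t * (t * a * t⁻¹) * t⁻¹ = a := by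
      rw [htinv]
      calc t * (t * (a : G) * t) * t = (t * t) * a * (t * t) := by group
        _ = a := by rw [ht2]; simp
    rwa [h2] at h1
  have hHc : Nat.card H = 18 := by
    have h1 := H13.Thompson.card_sup_mul_card_inf hnormW
    have h2 : Subgroup.zpowers t ⊓ W = ⊥ := by
      rw [eq_bot_iff]
      intro b hb
      obtain ⟨hb1, hb2⟩ := Subgroup.mem_inf.mp hb
      rcases hzp b hb1 with rfl | rfl
      · exact Subgroup.one_mem _
      · exact absurd (hWJ hb2) htJ'
    rw [h2, Subgroup.card_bot, mul_one, Nat.card_zpowers, hto, hWc] at h1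
    exact h1
  have hHi : H.index = 9 := by
    have := H.card_mul_index
    rw [hHc, hG] at this; omega
  have hHd : ∀ h ∈ H, h ∈ W ∨ ∃ w ∈ W, h = w * t := by
    intro h hh
    have h1 : h ∈ W ⊔ Subgroup.zpowers t := by rw [sup_comm]; exact hh
    obtain ⟨w, hw, b, hb, rfl⟩ := H24.Basic.exists_mul_of_mem_sup (A := W) (B := Subgroup.zpowers t) (by
      intro b hb x hx
      exact (Subgroup.mem_normalizer_iff.mp (hnormW hb) x).mp hx) h1
    rcases hzp b hb with rfl | rfl
    · left; rw [mul_one]; exact hw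
    · right; exact ⟨w, hw, rfl⟩
  have hHJ : ∀ h ∈ H, h ∈ J → h ∈ W := by
    intro h hh hJ
    rcases hHd h hh with h1 | ⟨w, hw, rfl⟩
    · exact h1
    · exfalso; apply htJ'
      have := J.mul_mem (J.inv_mem (hWJ hw)) hJ
      rwa [inv_mul_cancel_left] at this
  have hzH : z ∉ H := fun h => hzW (hHJ z h hzJ)
  -- the core of H
  have hcore : H.normalCore = ⊥ := by
    have hNH := H.normalCore_le
    have hNn : H.normalCore.Normal := H.normalCore_normal
    set N := H.normalCore with hN
    have hNJ : ∀ n ∈ N, n ∈ J → n = 1 := by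
      intro n hn hnJ
      by_contra hn1
      have hNJn : (N ⊓ J).Normal := inferInstance
      have hb : N ⊓ J ≠ ⊥ := by
        intro h
        have : n ∈ N ⊓ J := Subgroup.mem_inf.mpr ⟨hn, hnJ⟩
        rw [h, Subgroup.mem_bot] at this
        exact hn1 this
      obtain ⟨u, hu, huZ, hu1⟩ := hmeet (N ⊓ J) hNJn (inf_le_right.trans hJS) hb
      have hz' := hZz u huZ hu1
      have : Subgroup.zpowers u ≤ N := by rw [Subgroup.zpowers_le]; exact (Subgroup.mem_inf.mp hu).1
      exact hzH (hNH (this hz'))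
    by_contra hNb
    obtain ⟨⟨n, hn⟩, hn1⟩ := Subgroup.ne_bot_iff_exists_ne_one.mp hNb
    have hn1' : n ≠ 1 := fun h => hn1 (Subtype.ext h)
    have hform : ∀ m ∈ N, m ≠ 1 → ∃ w ∈ W, m = w * t := by
      intro m hm hm1
      rcases hHd m (hNH hm) with h1 | h1
      · exact absurd (hNJ m hm (hWJ h1)) hm1
      · exact h1
    have huniq : ∀ m ∈ N, m ≠ 1 → m = n := by
      intro m hm hm1
      obtain ⟨w, hw, hmw⟩ := hform m hm hm1
      obtain ⟨w', hw', hnw⟩ := hform n hn hn1'
      have h1 : m * n⁻¹ ∈ J := by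
        rw [hmw, hnw]
        have : w * t * (w' * t)⁻¹ = w * w'⁻¹ := by group
        rw [this]
        exact J.mul_mem (hWJ hw) (J.inv_mem (hWJ hw'))
      have h2 := hNJ _ (N.mul_mem hm (N.inv_mem hn)) h1
      exact mul_inv_eq_one.mp h2
    have hncomm : ∀ g : G, g * n * g⁻¹ = n := by
      intro g
      apply huniq _ (hNn.conj_mem n hn g)
      intro h
      apply hn1'
      have : n = g⁻¹ * (g * n * g⁻¹) * g := by group
      rw [this, h]; group
    have hnn : n * n = 1 := by
      by_contra h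
      have h1 := huniq _ (N.mul_mem hn hn) h
      exact hn1' (by simpa using h1)
    have hno : orderOf n = 2 := orderOf_eq_prime (by rw [pow_two]; exact hnn) hn1'
    have hp : IsPGroup 2 (Subgroup.zpowers n) := IsPGroup.of_card (n := 1) (by rw [Nat.card_zpowers, hno, pow_one])
    obtain ⟨P, hP⟩ := hp.exists_le_sylow
    obtain ⟨g, hg⟩ := MulAction.exists_smul_eq G P T
    have hnT : n ∈ (T : Subgroup G) := by
      rw [← hg, Sylow.coe_subgroup_smul, Subgroup.mem_pointwise_smul_iff_inv_smul_mem]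
      have : (MulAut.conj g)⁻¹ • n = n := by
        rw [← map_inv, MulAut.smul_def, MulAut.conj_apply]
        exact hncomm g⁻¹
      rw [this]
      exact hP (Subgroup.mem_zpowers n)
    rw [hTz] at hnT
    rcases hzp n hnT with h | h
    · exact hn1' h
    · apply hST
      rw [inf_eq_left]
      intro s _
      rw [Subgroup.mem_centralizer_iff]
      intro b hb
      rw [hTz] at hb
      rcases hzp b hb with rfl | rfl
      · simp
      · rw [← h]
        have := hncomm s
        exact (mul_inv_eq_iff_eq_mul.mp this).symm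
  -- the action
  have hcX : Nat.card (G ⧸ H) = 9 := hHi
  let e : (G ⧸ H) ≃ Fin 9 := Finite.equivFinOfCardEq hcX
  let ρ : G →* Equiv.Perm (Fin 9) := (Equiv.permCongrHom e).toMonoidHom.comp (MulAction.toPermHom G (G ⧸ H))
  have hρi : Function.Injective ρ := by
    apply (Equiv.permCongrHom e).injective.comp
    rw [← MonoidHom.ker_eq_bot_iff, ← Subgroup.normalCore_eq_ker]
    exact hcore
  have hρ : ∀ g i, ρ g i = e (g • e.symm i) := fun g i => rfl
  have hρz : ∀ i, ρ z i ≠ i := by
    intro i h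
    rw [hρ] at h
    have h1 : z • e.symm i = e.symm i := by
      rw [Equiv.eq_symm_apply]; exact h
    generalize e.symm i = x at h1
    induction x using QuotientGroup.induction_on with
    | H g =>
      rw [MulAction.Quotient.smul_coe, smul_eq_mul, QuotientGroup.eq] at h1
      have h2 : (z * g)⁻¹ * g = z⁻¹ := by rw [← hzc]; group
      rw [h2] at h1
      exact hzH ((H.inv_mem_iff).mp h1)
  have hρz3 : ρ z ^ 3 = 1 := by rw [← map_pow, hz3, map_one]
  have hct1 := cycleType_of (ρ z) hρz3 hρz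
  have hct2 := cycleType_of c9 (by decide) (by decide)
  obtain ⟨τ, hτ⟩ := isConj_iff.mp ((Equiv.Perm.isConj_iff_cycleType_eq).mpr (hct1.trans hct2.symm))
  let f : G →* Equiv.Perm (Fin 9) := (MulAut.conj τ).toMonoidHom.comp ρ
  have hfz : f z = c9 := hτ
  have hfi : Function.Injective f := (MulAut.conj τ).injective.comp hρi
  have hfc : ∀ g, f g ∈ Subgroup.centralizer {c9} := by
    intro g
    rw [Subgroup.mem_centralizer_singleton_iff, ← hfz, ← map_mul, ← map_mul, hzc]
  let f' : G →* Subgroup.centralizer {c9} := f.codRestrict _ hfc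
  have hf'i : Function.Injective f' := fun a b hab => hfi (congrArg Subtype.val hab)
  have hbij : Function.Bijective f' := by
    apply hf'i.bijective_of_nat_card_le
    rw [card_cent c9 hct2, hG]
  exact ⟨MulEquiv.ofBijective f' hbij⟩

end Cfsg.Agent.S3376
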