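import Cfsg.Statements.S3385
import Cfsg.Agent.Lib.H60.SimsC

set_option autoImplicit false
open Cfsg

namespace Cfsg.Agent.S3385

open H28.Cj in
/-- Sims' Theorem on primitive groups with a suborbit of length 3. Let G be a finite group acting faithfully and primitively on a set Ω, and suppose the stabilizer of a point a has an orbit of length 3 on Ω. Then the stabilizer of a has order 2^k · 3 for some k ≤ 4. -/
theorem result {G : Type*} [Group G] [Finite G] {Ω : Type*} [MulAction G Ω] [FaithfulSMul G Ω]
    (hprim : MulAction.IsPreprimitive G Ω) (a b : Ω)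
    (h3 : Nat.card (MulAction.orbit (MulAction.stabilizer G a) b) = 3) :
    ∃ k : ℕ, k ≤ 4 ∧ Nat.card ↥(MulAction.stabilizer G a) = 2 ^ k * 3 := by
  classical
  haveI := hprim
  haveI : Nontrivial Ω := by
    by_contra hcon
    rw [not_nontrivial_iff_subsingleton] at hcon
    have : Nat.card (MulAction.orbit (MulAction.stabilizer G a) b) ≤ 1 :=
      Finite.card_le_one_iff_subsingleton.mpr inferInstance
    omega
  have hP : IsCoatom (MulAction.stabilizer G a) := MulAction.IsPreprimitive.isCoatom_stabilizer_of_isPreprimitive (G := G) a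
  obtain ⟨g0, hg0⟩ := MulAction.exists_smul_eq G a b
  have hst : cj g0 (MulAction.stabilizer G a) = MulAction.stabilizer G b := by
    rw [← hg0, MulAction.stabilizer_smul_eq_stabilizer_map_conj]
  have hidx : (MulAction.stabilizer G a ⊓ cj g0 (MulAction.stabilizer G a)).relIndex
      (MulAction.stabilizer G a) = 3 := by
    rw [hst, ← h3, Nat.card_coe_set_eq, ← MulAction.index_stabilizer, Subgroup.relIndex]
    congr 1
    ext x
    rw [Subgroup.mem_subgroupOf, Subgroup.mem_inf, MulAction.mem_stabilizer_iff,
      MulAction.mem_stabilizer_iff, MulAction.mem_stabilizer_iff]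
    constructor
    · rintro ⟨-, h⟩
      exact h
    · intro h
      exact ⟨MulAction.mem_stabilizer_iff.mp x.2, h⟩
  refine H60.SimsC.main (h0 := g0) hP ?_ ?_ hidx
  · rw [eq_bot_iff]
    intro x hx
    rw [Subgroup.mem_bot]
    apply FaithfulSMul.eq_of_smul_eq_smul (α := Ω)
    intro c
    obtain ⟨g, rfl⟩ := MulAction.exists_smul_eq G a c
    have h1 := (Subgroup.normalCore_normal (MulAction.stabilizer G a)).conj_mem x hx g⁻¹
    have h2 := (Subgroup.normalCore_le _) h1
    rw [MulAction.mem_stabilizer_iff] at h2
    rw [inv_inv] at h2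
    rw [one_smul, smul_smul]
    rw [mul_assoc, mul_smul, inv_smul_eq_iff] at h2
    exact h2
  · intro he
    rw [he, inf_idem, Subgroup.relIndex_self] at hidx
    omega

end Cfsg.Agent.S3385
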