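import Cfsg.Statements.S3389

set_option autoImplicit false
open Cfsg

namespace Cfsg.Agent.S3389

/-- a `p`-subgroup leaving invariant a small set fixes it pointwise -/
theorem fix_small {G : Type*} [Group G] [Finite G] {Ω : Type*} [Finite Ω] [MulAction G Ω]
    (p : ℕ) [Fact p.Prime] (P : Subgroup G) (hP : IsPGroup p P) (S : Set Ω) (hS : Nat.card S < p)
    (hinv : ∀ g ∈ P, ∀ s ∈ S, g • s ∈ S) (s : Ω) (hs : s ∈ S) (g : G) (hg : g ∈ P) : g • s = s := by
  obtain ⟨n, hn⟩ := hP.card_orbit s
  have hle : Nat.card (MulAction.orbit P s) ≤ Nat.card S := by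
    apply Nat.card_mono (Set.toFinite _)
    rintro _ ⟨h, rfl⟩
    exact hinv h h.2 s hs
  have hn0 : n = 0 := by
    by_contra h
    have : p ^ 1 ≤ p ^ n := Nat.pow_le_pow_right (Fact.out (p := p.Prime)).pos (Nat.one_le_iff_ne_zero.mpr h)
    rw [pow_one] at this
    omega
  rw [hn0, pow_zero, Nat.card_eq_one_iff_unique] at hn
  have h1 : (⟨g, hg⟩ : P) • s ∈ MulAction.orbit P s := MulAction.mem_orbit _ _
  have h2 : s ∈ MulAction.orbit P s := MulAction.mem_orbit_self s
  have := hn.1.elim ⟨_, h1⟩ ⟨_, h2⟩
  exact congrArg Subtype.val this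

open scoped Pointwise in
/-- Let G be a finite group acting faithfully and transitively on a finite set Ω with fixity k ≥ 1: every non-identity element fixes at most k points and some non-identity element fixes exactly k points. Then |Z(G)| divides k; if k = 2 then |G| is even; and for every prime p > k dividing |G| and every point α, either p does not divide |G_α| or G_α contains a Sylow p-subgroup of G. -/
theorem result {G : Type*} [Group G] [Finite G] {Ω : Type*} [Fintype Ω] [MulAction G Ω] [FaithfulSMul G Ω]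
    (htr : MulAction.IsPretransitive G Ω) (k : ℕ) (hk : 1 ≤ k)
    (hfix : ∀ g : G, g ≠ 1 → Nat.card (MulAction.fixedBy Ω g) ≤ k) (hex : ∃ g : G, g ≠ 1 ∧ Nat.card (MulAction.fixedBy Ω g) = k) :
    Nat.card (Subgroup.center G) ∣ k ∧ (k = 2 → 2 ∣ Nat.card G) ∧
      ∀ (p : ℕ), p.Prime → k < p → p ∣ Nat.card G → ∀ α : Ω,
        ¬ p ∣ Nat.card (MulAction.stabilizer G α) ∨ ¬ p ∣ (MulAction.stabilizer G α).index := by
  have hfree : ∀ z ∈ Subgroup.center G, ∀ ω : Ω, z • ω = ω → z = 1 := by
    intro z hz ω hω
    apply FaithfulSMul.eq_of_smul_eq_smul (α := Ω)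
    intro ω'
    obtain ⟨x, rfl⟩ := htr.exists_smul_eq ω ω'
    rw [← mul_smul, ← (Subgroup.mem_center_iff.mp hz x), mul_smul, hω, one_smul]
  -- key: p-elements commuting
  have hcommfix : ∀ (p : ℕ) (_ : Fact p.Prime) (P : Sylow p G) (u : G) (_ : u ∈ P) (_ : u ≠ 1)
      (_ : k < p) (α : Ω) (_ : u • α = α), ∀ g ∈ P, g • α = α := by
    intro p _ P u hu hu1 hkp α hα g hg
    have hPnt : Nontrivial (P : Subgroup G) := ⟨⟨⟨u, hu⟩, 1, fun h => hu1 (congrArg Subtype.val h)⟩⟩
    have hcnt := P.2.center_nontrivial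
    obtain ⟨⟨⟨z, hzP⟩, hzc⟩, hz1⟩ := exists_ne (1 : Subgroup.center (P : Subgroup G))
    have hz1' : z ≠ 1 := fun h => hz1 (Subtype.ext (Subtype.ext h))
    have hzcomm : ∀ g ∈ P, g * z = z * g := by
      intro g hg
      exact congrArg Subtype.val (Subgroup.mem_center_iff.mp hzc ⟨g, hg⟩)
    have h1 : z • α = α := by
      apply fix_small p (Subgroup.zpowers z) (P.2.to_le (Subgroup.zpowers_le.mpr hzP)) (MulAction.fixedBy Ω u)
        (lt_of_le_of_lt (hfix u hu1) hkp) _ α hα z (Subgroup.mem_zpowers z)
      rintro _ ⟨j, rfl⟩ s hs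
      simp only [MulAction.mem_fixedBy] at hs ⊢
      have hc : u * z ^ j = z ^ j * u := (show Commute u z from hzcomm u hu).zpow_right j
      rw [← mul_smul, hc, mul_smul, hs]
    apply fix_small p (P : Subgroup G) P.2 (MulAction.fixedBy Ω z)
      (lt_of_le_of_lt (hfix z hz1') hkp) _ α h1 g hg
    intro g hg s hs
    simp only [MulAction.mem_fixedBy] at hs ⊢
    rw [← mul_smul, ← hzcomm g hg, mul_smul, hs]
  refine ⟨?_, ?_, ?_⟩
  · -- center
    obtain ⟨g, hg1, hg⟩ := hex
    rw [← hg]
    -- center acts freely on fixedBy g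
    let A : MulAction (Subgroup.center G) (MulAction.fixedBy Ω g) :=
      { smul := fun z ω => ⟨(z : G) • (ω : Ω), by
          have := ω.2
          simp only [MulAction.mem_fixedBy] at this ⊢
          rw [← mul_smul, (Subgroup.mem_center_iff.mp z.2 g), mul_smul, this]⟩
        one_smul := fun ω => Subtype.ext (one_smul G (ω : Ω))
        mul_smul := fun a b ω => Subtype.ext (mul_smul (a : G) (b : G) (ω : Ω)) }
    have hsm : ∀ (z : Subgroup.center G) (ω : MulAction.fixedBy Ω g), ((z • ω : MulAction.fixedBy Ω g) : Ω) = (z : G) • (ω : Ω) := fun _ _ => rfl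
    have hst : ∀ ω : MulAction.fixedBy Ω g, MulAction.stabilizer (Subgroup.center G) ω = ⊥ := by
      intro ω
      rw [eq_bot_iff]
      intro z hz
      rw [MulAction.mem_stabilizer_iff] at hz
      have := congrArg Subtype.val hz
      rw [hsm] at this
      rw [Subgroup.mem_bot]
      exact Subtype.ext (hfree z z.2 ω this)
    have e := MulAction.selfEquivSigmaOrbitsQuotientStabilizer (Subgroup.center G) (MulAction.fixedBy Ω g)
    have : Fintype (Quotient (MulAction.orbitRel ↥(Subgroup.center G) ↑(MulAction.fixedBy Ω g))) := Fintype.ofFinite _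
    rw [Nat.card_congr e, Nat.card_sigma]
    apply Finset.dvd_sum
    intro q _
    rw [← Subgroup.index_eq_card, hst, Subgroup.index_bot]
  · -- k = 2
    intro hk2
    subst hk2
    by_contra hodd
    obtain ⟨g, hg1, hg⟩ := hex
    -- prime p dividing order of g
    have hog : orderOf g ≠ 1 := by rwa [Ne, orderOf_eq_one_iff]
    obtain ⟨p, hp, hpg⟩ := Nat.exists_prime_and_dvd hog
    have := Fact.mk hp
    have hp2 : 2 < p := by
      have h2 : p ≠ 2 := by
        rintro rfl
        exact hodd (hpg.trans (orderOf_dvd_natCard g))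
      have := hp.two_le
      omega
    obtain ⟨m, hm⟩ := hpg
    have hm0 : m ≠ 0 := by
      rintro rfl
      have := orderOf_pos g
      omega
    have hu : orderOf (g ^ m) = p := by
      rw [orderOf_pow_of_dvd hm0 ⟨p, by rw [hm, mul_comm]⟩, hm]
      exact Nat.mul_div_cancel _ (Nat.pos_of_ne_zero hm0)
    have hu1 : g ^ m ≠ 1 := by
      intro h; rw [h, orderOf_one] at hu; exact hp.one_lt.ne hu
    have hsub : MulAction.fixedBy Ω g ⊆ MulAction.fixedBy Ω (g ^ m) := by
      intro ω hω
      exact MulAction.fixedBy_subset_fixedBy_zpow Ω g m |>.trans (by simp) hω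
    have hS : MulAction.fixedBy Ω g = MulAction.fixedBy Ω (g ^ m) := by
      apply Set.eq_of_subset_of_ncard_le hsub
      · change Nat.card _ ≤ Nat.card _
        rw [hg]; exact hfix _ hu1
    obtain ⟨P, hP⟩ := (IsPGroup.of_card (p := p) (G := Subgroup.zpowers (g ^ m)) (n := 1) (by rw [Nat.card_zpowers, hu, pow_one])).exists_le_sylow
    have huP : g ^ m ∈ P := hP (Subgroup.mem_zpowers _)
    -- two points
    have hcard2 : (MulAction.fixedBy Ω g).ncard = 2 := hg
    obtain ⟨α, β, hαβ, hset⟩ := Set.ncard_eq_two.mp hcard2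
    have hα : (g ^ m) • α = α := by
      have : α ∈ MulAction.fixedBy Ω (g ^ m) := by rw [← hS, hset]; simp
      exact this
    have hβ : (g ^ m) • β = β := by
      have : β ∈ MulAction.fixedBy Ω (g ^ m) := by rw [← hS, hset]; simp
      exact this
    have hPα := hcommfix p this P (g ^ m) huP hu1 hp2 α hα
    have hPβ := hcommfix p this P (g ^ m) huP hu1 hp2 β hβ
    obtain ⟨x, hx⟩ := htr.exists_smul_eq α β
    -- P and x P x⁻¹ both in stabilizer of β
    have hPle : (P : Subgroup G) ≤ MulAction.stabilizer G β := fun a ha => hPβ a ha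
    have hPxle : ((x • P : Sylow p G) : Subgroup G) ≤ MulAction.stabilizer G β := by
      intro a ha
      rw [MulAction.mem_stabilizer_iff, ← hx]
      have h1 : x⁻¹ * a * x ∈ P := by
        have : a ∈ (MulAut.conj x • (P : Subgroup G)) := ha
        rw [Subgroup.mem_pointwise_smul_iff_inv_smul_mem] at this
        simp only [MulAut.smul_def, ← map_inv, MulAut.conj_apply, inv_inv] at this
        exact this
      have h2 := hPα _ h1
      calc a • x • α = x • ((x⁻¹ * a * x) • α) := by
            rw [← mul_smul, ← mul_smul]; congr 1; group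
        _ = x • α := by rw [h2]
    obtain ⟨y, hy⟩ := MulAction.exists_smul_eq (MulAction.stabilizer G β) ((x • P).subtype hPxle) (P.subtype hPle)
    have hw : ∀ a ∈ P, (y * x : G) * a * (y * x : G)⁻¹ ∈ P := by
      intro a ha
      have h1 : x * a * x⁻¹ ∈ (x • P : Sylow p G) := by
        change x * a * x⁻¹ ∈ (MulAut.conj x • (P : Subgroup G))
        rw [Subgroup.mem_pointwise_smul_iff_inv_smul_mem]
        simp only [MulAut.smul_def, ← map_inv, MulAut.conj_apply, inv_inv]
        have h5 : x⁻¹ * (x * a * x⁻¹) * x = a := by group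
        rw [h5]; exact ha
      have h2 : (⟨x * a * x⁻¹, hPxle h1⟩ : MulAction.stabilizer G β) ∈ ((x • P).subtype hPxle) := h1
      have h3 : (y * ⟨x * a * x⁻¹, hPxle h1⟩ * y⁻¹ : MulAction.stabilizer G β) ∈ (y • ((x • P).subtype hPxle)) := by
        change _ ∈ (MulAut.conj y • (((x • P).subtype hPxle) : Subgroup (MulAction.stabilizer G β)))
        rw [Subgroup.mem_pointwise_smul_iff_inv_smul_mem]
        simp only [MulAut.smul_def, ← map_inv, MulAut.conj_apply, inv_inv]
        have h5 : y⁻¹ * (y * ⟨x * a * x⁻¹, hPxle h1⟩ * y⁻¹) * y = (⟨x * a * x⁻¹, hPxle h1⟩ : MulAction.stabilizer G β) := by group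
        rw [h5]; exact h2
      rw [hy] at h3
      have h4 : (y : G) * (x * a * x⁻¹) * (y : G)⁻¹ ∈ P := h3
      convert h4 using 1
      group
    set w : G := y * x with hwdef
    have hwα : w • α = β := by
      rw [hwdef, mul_smul, hx]
      exact y.2
    have hwβ : w • β = α := by
      -- w • β fixed by P
      have h1 : w • β ∈ MulAction.fixedBy Ω (g ^ m) := by
        -- conj by w is a bijection P → P
        have hinj : Function.Injective (fun a : P => (⟨w * a * w⁻¹, hw a a.2⟩ : P)) := by
          intro a b hab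
          have : w * a * w⁻¹ = w * b * w⁻¹ := congrArg Subtype.val hab
          exact Subtype.ext (mul_left_cancel (mul_right_cancel this))
        obtain ⟨⟨a, ha⟩, haeq⟩ := Finite.surjective_of_injective hinj ⟨g ^ m, huP⟩
        have haeq' : w * a * w⁻¹ = g ^ m := congrArg Subtype.val haeq
        simp only [MulAction.mem_fixedBy]
        rw [← haeq', ← mul_smul]
        have : w * a * w⁻¹ * w = w * a := by group
        rw [this, mul_smul, hPβ a ha]
      rw [← hS, hset] at h1
      rcases h1 with h1 | h1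
      · exact h1
      · exfalso
        have h1 : w • β = w • α := by rw [hwα]; exact h1
        exact hαβ (MulAction.injective w h1).symm
    have hw2 : (w ^ 2) • α = α := by rw [pow_two, mul_smul, hwα, hwβ]
    have hwo : Odd (orderOf w) := by
      rw [← Nat.not_even_iff_odd, even_iff_two_dvd]
      intro h
      exact hodd (h.trans (orderOf_dvd_natCard w))
    obtain ⟨j, hj⟩ := hwo
    have h1 : w = (w ^ 2) ^ (j + 1) := by
      rw [← pow_mul]
      have : 2 * (j + 1) = orderOf w + 1 := by omega
      rw [this, pow_succ, pow_orderOf_eq_one, one_mul]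
    have h2 : ∀ i : ℕ, ((w ^ 2) ^ i) • α = α := by
      intro i
      induction i with
      | zero => simp
      | succ i ih => rw [pow_succ, mul_smul, hw2, ih]
    have h3 : w • α = α := by
      rw [h1]; exact h2 _
    exact hαβ (h3.symm.trans hwα)
  · intro p hp hkp hpG α
    have := Fact.mk hp
    by_contra hcon
    push Not at hcon
    obtain ⟨h1, h2⟩ := hcon
    obtain ⟨⟨u, huα⟩, huo⟩ := exists_prime_orderOf_dvd_card' p h1
    have huo' : orderOf u = p := by
      rw [← huo]; exact (Subgroup.orderOf_mk u huα).symm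
    have hu1 : u ≠ 1 := by
      intro h; rw [h, orderOf_one] at huo'; exact hp.one_lt.ne huo'
    obtain ⟨P, hP⟩ := (IsPGroup.of_card (p := p) (G := Subgroup.zpowers u) (n := 1) (by rw [Nat.card_zpowers, huo', pow_one])).exists_le_sylow
    have huP : u ∈ P := hP (Subgroup.mem_zpowers _)
    have hPα := hcommfix p this P u huP hu1 hkp α huα
    have hle : (P : Subgroup G) ≤ MulAction.stabilizer G α := fun a ha => hPα a ha
    have h3 : (MulAction.stabilizer G α).index ∣ (P : Subgroup G).index := Subgroup.index_dvd_of_le hle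
    exact P.not_dvd_index (h2.trans h3)

end Cfsg.Agent.S3389
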