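import Cfsg.Statements.S3390
import Mathlib
import Cfsg.Agent.Lib.H60.Semireg
import Cfsg.Agent.Lib.H60.MaxClassTwo
import Cfsg.Agent.Lib.H30.Nil
import Cfsg.Agent.Lib.H26.TransferPow

set_option autoImplicit false
open Cfsg

namespace Cfsg.Agent.S3390

open Subgroup MulAction

section TwoGroup

variable {P Ω : Type*} [Group P] [Finite P] [MulAction P Ω]

/-- stabilizers with two fixed points -/
theorem second_point (hP : IsPGroup 2 P)
    (h3 : ∀ g : P, g ≠ 1 → ∀ a b c : Ω, g • a = a → g • b = b → g • c = c → a = b ∨ a = c ∨ b = c)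
    (α : Ω) (hV1 : stabilizer P α ≠ ⊥) (hV2 : stabilizer P α ≠ ⊤) :
    ∃ β, β ≠ α ∧ (∃ n ∈ normalizer (stabilizer P α : Set P), n • α = β) ∧ (∀ v ∈ stabilizer P α, v • β = β) ∧
      (∀ x ∈ normalizer (stabilizer P α : Set P), x ∉ stabilizer P α → x • α = β) ∧
      (∀ v ∈ stabilizer P α, v ≠ 1 → ∀ x : Ω, v • x = x → x = α ∨ x = β) := by
  have : Fact (Nat.Prime 2) := ⟨Nat.prime_two⟩
  have hnil : Group.IsNilpotent P := hP.isNilpotent
  have hlt : stabilizer P α < normalizer (stabilizer P α : Set P) :=
    Group.normalizerCondition_of_isNilpotent _ (lt_top_iff_ne_top.mpr hV2)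
  obtain ⟨n, hn, hn'⟩ := SetLike.exists_of_lt hlt
  have hfix : ∀ x ∈ normalizer (stabilizer P α : Set P), ∀ v ∈ stabilizer P α, v • x • α = x • α := by
    intro x hx v hv
    have h1 : x⁻¹ * v * x ∈ stabilizer P α := by
      have := (mem_normalizer_iff.mp ((normalizer _).inv_mem hx) v).mp hv
      rwa [inv_inv] at this
    have h2 : (x⁻¹ * v * x) • α = α := h1
    rw [mul_smul, mul_smul, inv_smul_eq_iff] at h2
    exact h2
  have hne : n • α ≠ α := hn'
  obtain ⟨⟨v, hv⟩, hv1⟩ := Subgroup.ne_bot_iff_exists_ne_one.mp hV1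
  have hv1' : v ≠ 1 := fun h => hv1 (Subtype.ext h)
  refine ⟨n • α, hne, ⟨n, hn, rfl⟩, fun w hw => hfix n hn w hw, ?_, ?_⟩
  · intro x hx hx'
    rcases h3 v hv1' α (n • α) (x • α) hv (hfix n hn v hv) (hfix x hx v hv) with h | h | h
    · exact absurd h.symm hne
    · exact absurd h.symm hx'
    · exact h.symm
  · intro w hw hw1 x hx
    rcases h3 w hw1 α (n • α) x hw (hfix n hn w hw) hx with h | h | h
    · exact absurd h.symm hne
    · left; exact h.symm
    · right; exact h.symm

/-- a group of order two as stabilizer: centralizer of order four -/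
theorem card_centralizer (hP : IsPGroup 2 P)
    (h3 : ∀ g : P, g ≠ 1 → ∀ a b c : Ω, g • a = a → g • b = b → g • c = c → a = b ∨ a = c ∨ b = c)
    (α : Ω) (t : P) (ht : t ≠ 1) (htα : t • α = α) (ht2 : ∀ v ∈ stabilizer P α, v = 1 ∨ v = t) (hV2 : stabilizer P α ≠ ⊤) :
    Nat.card (centralizer ({t} : Set P)) = 4 := by
  have hV1 : stabilizer P α ≠ ⊥ := by
    intro h
    have : t ∈ stabilizer P α := htα
    rw [h, mem_bot] at this
    exact ht this
  obtain ⟨β, hβ, ⟨n, hn, hnα⟩, hβf, hx, _⟩ := second_point hP h3 α hV1 hV2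
  have hN : normalizer (stabilizer P α : Set P) = centralizer ({t} : Set P) := by
    ext x
    rw [mem_normalizer_iff, mem_centralizer_singleton_iff]
    constructor
    · intro h
      rcases ht2 _ ((h t).mp htα) with h1 | h1
      · exfalso; apply ht
        have : t = x⁻¹ * (x * t * x⁻¹) * x := by group
        rw [this, h1]; group
      · exact mul_inv_eq_iff_eq_mul.mp h1
    · intro h v
      have h1 : x * t * x⁻¹ = t := by rw [h, mul_inv_cancel_right]
      constructor
      · intro hv
        rcases ht2 v hv with rfl | rfl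
        · simp
        · rw [h1]; exact htα
      · intro hv
        rcases ht2 _ hv with h2 | h2
        · have : v = 1 := by
            have : v = x⁻¹ * (x * v * x⁻¹) * x := by group
            rw [this, h2]; group
          rw [this]; exact one_mem _
        · have : v = t := by
            have h3 : x * v * x⁻¹ = x * t * x⁻¹ := by rw [h2, h1]
            exact mul_left_cancel (mul_right_cancel h3)
          rw [this]; exact htα
  rw [← hN]
  have htt : t * t = 1 := by
    rcases ht2 (t * t) ((stabilizer P α).mul_mem htα htα) with h | h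
    · exact h
    · exact absurd (by simpa using h) ht
  -- the four elements 1, t, n, n t
  have hnV : n ∉ stabilizer P α := by
    intro h
    have : n • α = α := h
    rw [hnα] at this
    exact hβ this
  have hVcard : Nat.card (stabilizer P α) = 2 := by
    rw [Nat.card_eq_two_iff]
    refine ⟨1, ⟨t, htα⟩, fun h => ht (congrArg Subtype.val h).symm, ?_⟩
    ext ⟨v, hv⟩
    simp only [Set.mem_insert_iff, Set.mem_singleton_iff, Set.mem_univ, iff_true]
    rcases ht2 v hv with rfl | rfl
    · left; rfl
    · right; rfl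
  have hidx : ((stabilizer P α).subgroupOf (normalizer (stabilizer P α : Set P))).index = 2 := by
    rw [Subgroup.index_eq_two_iff]
    refine ⟨⟨n, hn⟩, ?_⟩
    rintro ⟨b, hb⟩
    by_cases hbV : b ∈ stabilizer P α
    · right
      refine ⟨mem_subgroupOf.mpr hbV, ?_⟩
      intro h
      have h1 : b * n ∈ stabilizer P α := mem_subgroupOf.mp h
      exact hnV ((mul_mem_cancel_left hbV).mp h1)
    · left
      refine ⟨mem_subgroupOf.mpr ?_, fun h => hbV (mem_subgroupOf.mp h)⟩
      change (b * n) • α = α
      have h1 : b⁻¹ • α = β := hx _ ((normalizer _).inv_mem hb) (fun h => hbV (by simpa using (stabilizer P α).inv_mem h))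
      rw [mul_smul, hnα, ← h1, smul_inv_smul]
  have h1 := ((stabilizer P α).subgroupOf (normalizer (stabilizer P α : Set P))).card_mul_index
  rw [hidx, Nat.card_congr (Subgroup.subgroupOfEquivOfLe (le_normalizer)).toEquiv, hVcard] at h1
  exact h1.symm

/-- the structure of a 2-group with fixity two and a nontrivial nonglobal stabilizer -/
theorem structure_two (hP : IsPGroup 2 P)
    (h3 : ∀ g : P, g ≠ 1 → ∀ a b c : Ω, g • a = a → g • b = b → g • c = c → a = b ∨ a = c ∨ b = c)
    (α : Ω) (hV1 : stabilizer P α ≠ ⊥) (hV2 : stabilizer P α ≠ ⊤) :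
    (((∃ n : ℕ, Nonempty (P ≃* DihedralGroup n)) ∨ Cfsg.IsQuasiDihedral P) ∧
      (Nat.card (stabilizer P α) = 2 ∨ (stabilizer P α).index = 2)) ∨
    ((stabilizer P α).index = 2 ∧ ∃ β, β ≠ α ∧ (∀ v ∈ stabilizer P α, v • β = β) ∧ (∀ x : P, x ∉ stabilizer P α → x • α = β) ∧
      ∀ ω : Ω, ω ≠ α → ω ≠ β → stabilizer P ω = ⊥) := by
  have : Fact (Nat.Prime 2) := ⟨Nat.prime_two⟩
  have hnil : Group.IsNilpotent P := hP.isNilpotent
  obtain ⟨β, hβ, ⟨n, hn, hnα⟩, hβf, hx, hfix⟩ := second_point hP h3 α hV1 hV2
  have hVα : ∀ v ∈ stabilizer P α, v • α = α := fun v hv => hv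
  by_cases hnorm : (stabilizer P α).Normal
  · have hNtop : normalizer (stabilizer P α : Set P) = ⊤ := Subgroup.normalizer_eq_top_iff.mpr hnorm
    have hidx : (stabilizer P α).index = 2 := by
      rw [Subgroup.index_eq_two_iff]
      refine ⟨n, fun b => ?_⟩
      have hnV : n ∉ stabilizer P α := by
        intro h
        have : n • α = α := h
        rw [hnα] at this
        exact hβ this
      by_cases hbV : b ∈ stabilizer P α
      · right
        refine ⟨hbV, ?_⟩
        intro h
        exact hnV ((mul_mem_cancel_left hbV).mp h)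
      · left
        refine ⟨?_, hbV⟩
        change (b * n) • α = α
        have h1 : b⁻¹ • α = β := hx _ (by rw [hNtop]; trivial) (fun h => hbV (by simpa using (stabilizer P α).inv_mem h))
        rw [mul_smul, hnα, ← h1, smul_inv_smul]
    by_cases hreg : ∀ ω : Ω, ω ≠ α → ω ≠ β → stabilizer P ω = ⊥
    · right
      exact ⟨hidx, β, hβ, hβf, fun x hx' => hx x (by rw [hNtop]; trivial) hx', hreg⟩
    · left
      push Not at hreg
      obtain ⟨ω, hωα, hωβ, hω⟩ := hreg
      refine ⟨?_, Or.inr hidx⟩
      have hTV : ∀ u ∈ stabilizer P ω, u ∈ stabilizer P α → u = 1 := by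
        intro u hu huV
        by_contra hu1
        rcases hfix u huV hu1 ω hu with h | h
        · exact hωα h
        · exact hωβ h
      obtain ⟨⟨t, htω⟩, ht1⟩ := Subgroup.ne_bot_iff_exists_ne_one.mp hω
      have ht1' : t ≠ 1 := fun h => ht1 (Subtype.ext h)
      have htV : t ∉ stabilizer P α := fun h => ht1' (hTV t htω h)
      have htt : t * t = 1 := hTV _ ((stabilizer P ω).mul_mem htω htω) (Subgroup.mul_self_mem_of_index_two hidx t)
      have hT : ∀ u ∈ stabilizer P ω, u = 1 ∨ u = t := by
        intro u hu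
        by_cases hu1 : u = 1
        · left; exact hu1
        · right
          have huV : u ∉ stabilizer P α := fun h => hu1 (hTV u hu h)
          have h1 : u * t ∈ stabilizer P α := by
            rw [Subgroup.mul_mem_iff_of_index_two hidx]
            exact ⟨fun h => absurd h huV, fun h => absurd h htV⟩
          have h2 := hTV _ ((stabilizer P ω).mul_mem hu htω) h1
          have h3 : t⁻¹ = t := inv_eq_of_mul_eq_one_left htt
          rw [← h3]
          exact eq_inv_of_mul_eq_one_left h2
      have hTtop : stabilizer P ω ≠ ⊤ := by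
        intro h
        obtain ⟨⟨v, hv⟩, hv1⟩ := Subgroup.ne_bot_iff_exists_ne_one.mp hV1
        have hv' : v ∈ stabilizer P ω := by rw [h]; trivial
        exact hv1 (Subtype.ext (hTV v hv' hv))
      have hc4 := card_centralizer hP h3 ω t ht1' htω hT hTtop
      -- central involution in V
      have hmeet := H30.Nil.inf_center_ne_bot _ hV1
      obtain ⟨⟨w, hw⟩, hw1⟩ := Subgroup.ne_bot_iff_exists_ne_one.mp hmeet
      have hc2 : 2 ∣ Nat.card (stabilizer P α ⊓ center P : Subgroup P) := by
        obtain ⟨k, hk⟩ := (hP.to_subgroup (stabilizer P α ⊓ center P)).exists_card_eq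
        rcases Nat.eq_zero_or_pos k with h0 | h0
        · exfalso
          rw [h0, pow_zero] at hk
          exact hmeet (Subgroup.eq_bot_of_card_eq _ hk)
        · rw [hk]; exact dvd_pow_self 2 (by omega)
      obtain ⟨⟨z, hz⟩, hzo⟩ := exists_prime_orderOf_dvd_card' 2 hc2
      have hzo' : orderOf z = 2 := by rw [← hzo]; exact (Subgroup.orderOf_mk z hz).symm
      obtain ⟨hzV, hzC⟩ := Subgroup.mem_inf.mp hz
      have hz1 : z ≠ 1 := by rintro rfl; rw [orderOf_one] at hzo'; omega
      have hz2 : z * z = 1 := by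
        have := pow_orderOf_eq_one z
        rwa [hzo', pow_two] at this
      exact H60.MaxClassTwo.dihedral_or_quasi hP t z ht1' htt hz1 hz2 (fun h => htV (h ▸ hzV))
        (Subgroup.mem_center_iff.mp hzC t) hc4
  · left
    -- the centre meets V trivially
    have hZV : ∀ z ∈ center P, z ∈ stabilizer P α → z = 1 := by
      intro z hz hzV
      by_contra hz1
      apply hnorm
      have horb : ∀ g : P, g • α = α ∨ g • α = β := by
        intro g
        apply hfix z hzV hz1
        rw [← mul_smul, ← Subgroup.mem_center_iff.mp hz g, mul_smul]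
        congr 1
      constructor
      intro v hv g
      change (g * v * g⁻¹) • α = α
      have h1 : v • g⁻¹ • α = g⁻¹ • α := by
        rcases horb g⁻¹ with h | h <;> rw [h]
        · exact hv
        · exact hβf v hv
      rw [mul_smul, mul_smul, h1, smul_inv_smul]
    have hPnt : Nontrivial P := by
      obtain ⟨⟨v, hv⟩, hv1⟩ := Subgroup.ne_bot_iff_exists_ne_one.mp hV1
      exact ⟨⟨v, 1, fun h => hv1 (Subtype.ext h)⟩⟩
    have hc2 : 2 ∣ Nat.card (center P) := by
      obtain ⟨k, hk⟩ := (hP.to_subgroup (center P)).exists_card_eq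
      have hcn : Nontrivial (center P) := hP.center_nontrivial
      rcases Nat.eq_zero_or_pos k with h0 | h0
      · exfalso
        rw [h0, pow_zero] at hk
        have := Finite.one_lt_card (α := center P)
        omega
      · rw [hk]; exact dvd_pow_self 2 (by omega)
    obtain ⟨⟨z, hzC⟩, hzo⟩ := exists_prime_orderOf_dvd_card' 2 hc2
    have hzo' : orderOf z = 2 := by rw [← hzo]; exact (Subgroup.orderOf_mk z hzC).symm
    have hz1 : z ≠ 1 := by rintro rfl; rw [orderOf_one] at hzo'; omega
    have hz2 : z * z = 1 := by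
      have := pow_orderOf_eq_one z
      rwa [hzo', pow_two] at this
    have hzV : z ∉ stabilizer P α := fun h => hz1 (hZV z hzC h)
    have hzN : z ∈ normalizer (stabilizer P α : Set P) := by
      rw [mem_normalizer_iff]
      intro v
      have : z * v * z⁻¹ = v := by
        rw [← Subgroup.mem_center_iff.mp hzC v, mul_inv_cancel_right]
      rw [this]
    -- products of two elements of N outside V
    have hprod : ∀ x ∈ normalizer (stabilizer P α : Set P), x ∉ stabilizer P α →
        ∀ y ∈ normalizer (stabilizer P α : Set P), y ∉ stabilizer P α → x⁻¹ * y ∈ stabilizer P α := by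
      intro x hx1 hx2 y hy1 hy2
      change (x⁻¹ * y) • α = α
      rw [mul_smul, hx y hy1 hy2, ← hx x hx1 hx2, inv_smul_smul]
    have hNtop : normalizer (stabilizer P α : Set P) < ⊤ := by
      rw [lt_top_iff_ne_top]
      intro h
      exact hnorm (Subgroup.normalizer_eq_top_iff.mp h)
    obtain ⟨s, hs, hsN⟩ := SetLike.exists_of_lt (Group.normalizerCondition_of_isNilpotent _ hNtop)
    have hsN' : ∀ x, x ∈ normalizer (stabilizer P α : Set P) → s * x * s⁻¹ ∈ normalizer (stabilizer P α : Set P) :=
      fun x hx => (mem_normalizer_iff.mp hs x).mp hx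
    have hTI : ∀ v ∈ stabilizer P α, s * v * s⁻¹ ∈ stabilizer P α → v = 1 := by
      intro v hv hsv
      by_contra hv1
      apply hsN
      have hsv1 : s * v * s⁻¹ ≠ 1 := by
        intro h; apply hv1
        have : v = s⁻¹ * (s * v * s⁻¹) * s := by group
        rw [this, h]; group
      have e1 : s • α = α ∨ s • α = β := by
        apply hfix _ hsv hsv1
        rw [mul_smul, mul_smul, inv_smul_smul]
        congr 1
      have e2 : s • β = α ∨ s • β = β := by
        apply hfix _ hsv hsv1
        rw [mul_smul, mul_smul, inv_smul_smul, hβf v hv]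
      -- s⁻¹ α ∈ {α, β}
      have e3 : s⁻¹ • α = α ∨ s⁻¹ • α = β := by
        rcases e1 with h | h
        · left; rw [inv_smul_eq_iff, h]
        · rcases e2 with h' | h'
          · right; rw [inv_smul_eq_iff, h']
          · exfalso
            apply hβ
            exact (MulAction.injective s (h.trans h'.symm)).symm
      have e4 : s • α = α ∨ s • α = β := e1
      rw [mem_normalizer_iff]
      intro w
      constructor
      · intro hw
        change (s * w * s⁻¹) • α = α
        rw [mul_smul, mul_smul]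
        have : w • s⁻¹ • α = s⁻¹ • α := by
          rcases e3 with h | h <;> rw [h]
          · exact hw
          · exact hβf w hw
        rw [this, smul_inv_smul]
      · intro hw
        change w • α = α
        have h5 : (s * w * s⁻¹) • s • α = s • α := by
          rcases e4 with h | h <;> rw [h]
          · exact hw
          · exact hβf _ hw
        rw [mul_smul, mul_smul, inv_smul_smul] at h5
        exact MulAction.injective s h5
    obtain ⟨⟨v, hv⟩, hv1⟩ := Subgroup.ne_bot_iff_exists_ne_one.mp hV1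
    have hv1' : v ≠ 1 := fun h => hv1 (Subtype.ext h)
    have hV : ∀ w ∈ stabilizer P α, w = 1 ∨ w = v := by
      intro w hw
      by_cases hw1 : w = 1
      · left; exact hw1
      · right
        have h1 : s * v * s⁻¹ ∉ stabilizer P α := fun h => hv1' (hTI v hv h)
        have h2 : s * w * s⁻¹ ∉ stabilizer P α := fun h => hw1 (hTI w hw h)
        have h4 := hprod _ (hsN' v (le_normalizer hv)) h1 _ (hsN' w (le_normalizer hw)) h2
        have h5 : (s * v * s⁻¹)⁻¹ * (s * w * s⁻¹) = s * (v⁻¹ * w) * s⁻¹ := by group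
        rw [h5] at h4
        have h6 := hTI _ ((stabilizer P α).mul_mem ((stabilizer P α).inv_mem hv) hw) h4
        exact (inv_mul_eq_one.mp h6).symm
    have hc4 := card_centralizer hP h3 α v hv1' hv hV hV2
    have hvv : v * v = 1 := by
      rcases hV (v * v) ((stabilizer P α).mul_mem hv hv) with h | h
      · exact h
      · exact absurd (by simpa using h) hv1'
    refine ⟨H60.MaxClassTwo.dihedral_or_quasi hP v z hv1' hvv hz1 hz2 (fun h => hzV (h ▸ hv))
      (Subgroup.mem_center_iff.mp hzC v) hc4, Or.inl ?_⟩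
    rw [Nat.card_eq_two_iff]
    refine ⟨1, ⟨v, hv⟩, fun h => hv1' (congrArg Subtype.val h).symm, ?_⟩
    ext ⟨w, hw⟩
    simp only [Set.mem_insert_iff, Set.mem_singleton_iff, Set.mem_univ, iff_true]
    rcases hV w hw with rfl | rfl
    · left; rfl
    · right; rfl

end TwoGroup

theorem mem_stab_iff {G Ω : Type*} [Group G] [MulAction G Ω] (S : Subgroup G) (α : Ω) (x : S) :
    x ∈ stabilizer S α ↔ (x : G) • α = α := Iff.rfl

theorem three_fixed {G Ω : Type*} [Group G] [Finite Ω] [MulAction G Ω]
    (hfix : ∀ g : G, g ≠ 1 → Nat.card (MulAction.fixedBy Ω g) ≤ 2) :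
    ∀ g : G, g ≠ 1 → ∀ a b c : Ω, g • a = a → g • b = b → g • c = c → a = b ∨ a = c ∨ b = c := by
  intro g hg a b c ha hb hc
  by_contra hcon
  push Not at hcon
  obtain ⟨hab, hac, hbc⟩ := hcon
  have h1 := hfix g hg
  let f : Fin 3 → MulAction.fixedBy Ω g := ![⟨a, ha⟩, ⟨b, hb⟩, ⟨c, hc⟩]
  have hf : Function.Injective f := by
    intro i j hij
    have := congrArg Subtype.val hij
    fin_cases i <;> fin_cases j <;> simp [f] at this <;>
      first | rfl | (exfalso; first | exact hab this | exact hab this.symm | exact hac this | exact hac this.symm | exact hbc this | exact hbc this.symm)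
  have := Nat.card_le_card_of_injective f hf
  rw [Nat.card_eq_fintype_card, Fintype.card_fin] at this
  omega

/-- the normal subgroup of index two and the Frobenius complement -/
theorem frob_part {G : Type*} [Group G] [Finite G] {Ω : Type*} [Finite Ω] [MulAction G Ω] [FaithfulSMul G Ω]
    (htr : MulAction.IsPretransitive G Ω)
    (h3 : ∀ g : G, g ≠ 1 → ∀ a b c : Ω, g • a = a → g • b = b → g • c = c → a = b ∨ a = c ∨ b = c)
    (α : Ω) (S : Sylow 2 G) (hV1 : stabilizer (S : Subgroup G) α ≠ ⊥)
    (hidx : (stabilizer (S : Subgroup G) α).index = 2) (β : Ω) (hβ : β ≠ α)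
    (hβf : ∀ v ∈ stabilizer (S : Subgroup G) α, v • β = β)
    (hreg : ∀ ω : Ω, ω ≠ α → ω ≠ β → stabilizer (S : Subgroup G) ω = ⊥) :
    ∃ N : Subgroup G, N.Normal ∧ N.index = 2 ∧ (∃ H : Subgroup ↥N, Cfsg.IsFrobeniusComplement H) := by
  classical
  have : Fact (Nat.Prime 2) := ⟨Nat.prime_two⟩
  -- an element of S with a fixed point lies in V
  have hfixV : ∀ x : (S : Subgroup G), (∃ ω : Ω, x • ω = ω) → x ∈ stabilizer (S : Subgroup G) α := by
    rintro x ⟨ω, hω⟩
    by_cases h1 : ω = α
    · rw [h1] at hω; exact hω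
    by_cases h2 : ω = β
    · by_contra hx
      obtain ⟨⟨v, hv⟩, hv1⟩ := Subgroup.ne_bot_iff_exists_ne_one.mp hV1
      have hv1' : v ≠ 1 := fun h => hv1 (Subtype.ext h)
      -- x fixes β, consider x α
      rw [h2] at hω
      have hVn : (stabilizer (S : Subgroup G) α).Normal := Subgroup.normal_of_index_eq_two hidx
      have h5 : v • x • α = x • α := by
        have h6 : x⁻¹ * v * x ∈ stabilizer (S : Subgroup G) α := by
          have := hVn.conj_mem v hv x⁻¹
          rwa [inv_inv] at this
        have h7 : (x⁻¹ * v * x) • α = α := h6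
        rw [mul_smul, mul_smul, inv_smul_eq_iff] at h7
        exact h7
      have hv1G : (v : G) ≠ 1 := fun h => hv1' (Subtype.ext h)
      rcases h3 v hv1G α β (x • α) hv (hβf v hv) h5 with h | h | h
      · exact hβ h.symm
      · exact hx h.symm
      · apply hβ
        have h8 : x • β = x • α := hω.trans h
        exact MulAction.injective x h8
    · have := hreg ω h1 h2
      have hx : x ∈ stabilizer (S : Subgroup G) ω := hω
      rw [this, mem_bot] at hx
      rw [hx]; exact one_mem _
  -- sign homomorphism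
  let φ : (S : Subgroup G) →* ℤˣ :=
    { toFun := fun x => if x ∈ stabilizer (S : Subgroup G) α then 1 else -1
      map_one' := by simp [one_mem]
      map_mul' := by
        intro x y
        have h := Subgroup.mul_mem_iff_of_index_two hidx (a := x) (b := y)
        by_cases hx : x ∈ stabilizer (S : Subgroup G) α <;> by_cases hy : y ∈ stabilizer (S : Subgroup G) α
        · rw [if_pos (h.mpr ⟨fun _ => hy, fun _ => hx⟩), if_pos hx, if_pos hy, mul_one]
        · rw [if_neg (fun h' => hy ((h.mp h').mp hx)), if_pos hx, if_neg hy, one_mul]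
        · rw [if_neg (fun h' => hx ((h.mp h').mpr hy)), if_neg hx, if_pos hy, mul_one]
        · rw [if_pos (h.mpr ⟨fun h' => absurd h' hx, fun h' => absurd h' hy⟩), if_neg hx, if_neg hy]; norm_num }
  have hφ1 : ∀ x, x ∈ stabilizer (S : Subgroup G) α → φ x = 1 := fun x hx => if_pos hx
  have hφ2 : ∀ x, x ∉ stabilizer (S : Subgroup G) α → φ x = -1 := fun x hx => if_neg hx
  have hSodd : Odd (S : Subgroup G).index := by
    rw [← Nat.not_even_iff_odd, even_iff_two_dvd]
    exact S.not_dvd_index
  have htransfer : ∀ (x : G) (hx : x ∈ (S : Subgroup G)), MonoidHom.transfer φ x = φ ⟨x, hx⟩ := by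
    intro x hx
    rw [H26.TransferPow.transfer_eq_pow φ x hx]
    · obtain ⟨k, hk⟩ := hSodd
      rw [hk, pow_succ, pow_mul]
      have : φ ⟨x, hx⟩ ^ 2 = 1 := by
        rcases Int.units_eq_one_or (φ ⟨x, hx⟩) with h | h <;> rw [h] <;> norm_num
      rw [this, one_pow, one_mul]
    · intro k g h
      rw [← map_pow]
      have e1 : (⟨x, hx⟩ : (S : Subgroup G)) ^ k = ⟨x ^ k, (S : Subgroup G).pow_mem hx k⟩ := rfl
      rw [e1]
      by_cases hk : (⟨x ^ k, (S : Subgroup G).pow_mem hx k⟩ : (S : Subgroup G)) ∈ stabilizer (S : Subgroup G) α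
      · rw [hφ1 _ hk]
        apply hφ1
        apply hfixV
        refine ⟨g⁻¹ • α, ?_⟩
        change (g⁻¹ * x ^ k * g) • g⁻¹ • α = g⁻¹ • α
        have : x ^ k • α = α := hk
        rw [mul_smul, smul_inv_smul, mul_smul, this]
      · rw [hφ2 _ hk]
        apply hφ2
        intro h'
        apply hk
        apply hfixV
        refine ⟨g • α, ?_⟩
        change (x ^ k) • g • α = g • α
        have : (g⁻¹ * x ^ k * g) • α = α := h'
        rw [mul_smul, mul_smul, inv_smul_eq_iff] at this
        exact this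
  obtain ⟨s, hs⟩ : ∃ s : (S : Subgroup G), s ∉ stabilizer (S : Subgroup G) α := by
    by_contra hcon
    push Not at hcon
    have : stabilizer (S : Subgroup G) α = ⊤ := by
      rw [eq_top_iff]; intro x _; exact hcon x
    rw [this, Subgroup.index_top] at hidx
    omega
  set f := MonoidHom.transfer φ with hf
  have hfs : f s = -1 := by rw [htransfer s s.2]; exact hφ2 _ hs
  set N := f.ker with hN
  have hNn : N.Normal := MonoidHom.normal_ker f
  have hNmem : ∀ g, g ∈ N ↔ f g = 1 := fun g => MonoidHom.mem_ker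
  have hNidx : N.index = 2 := by
    rw [hN, Subgroup.index_ker]
    have : f.range = ⊤ := by
      rw [eq_top_iff]
      intro u _
      rcases Int.units_eq_one_or u with h | h
      · rw [h]; exact one_mem _
      · rw [h]; exact ⟨s, hfs⟩
    rw [this, Subgroup.card_top, Nat.card_eq_fintype_card]; rfl
  -- the point stabilizers lie in N
  have hstabN : ∀ g : G, g • α = α → g ∈ N := by
    intro g hg
    rw [hNmem]
    obtain ⟨u, v, huv, ⟨k, hk⟩, hv⟩ := H26.TransferPow.exists_pPart 2 g
    have hZ2 : IsPGroup 2 ℤˣ := by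
      intro x
      refine ⟨1, ?_⟩
      rcases Int.units_eq_one_or x with h | h <;> rw [h] <;> norm_num
    have h1 : f (g ^ v) = 1 := H26.TransferPow.map_eq_one_of_coprime hZ2 f hv
    have hp : IsPGroup 2 (zpowers (g ^ u)) := IsPGroup.of_card (n := k) (by rw [Nat.card_zpowers, hk])
    obtain ⟨Q, hQ⟩ := hp.exists_le_sylow
    obtain ⟨c, hc⟩ := MulAction.exists_smul_eq G Q S
    have hcS : c * g ^ u * c⁻¹ ∈ (S : Subgroup G) := by
      rw [← hc, Sylow.coe_subgroup_smul]
      exact ⟨g ^ u, hQ (mem_zpowers _), rfl⟩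
    have hgu : g ^ u • α = α := by
      have : g ^ u ∈ stabilizer G α := (stabilizer G α).pow_mem hg u
      exact this
    have h2 : f (c * g ^ u * c⁻¹) = 1 := by
      rw [htransfer _ hcS]
      apply hφ1
      apply hfixV
      refine ⟨c • α, ?_⟩
      change (c * g ^ u * c⁻¹) • c • α = c • α
      rw [mul_smul, inv_smul_smul, mul_smul, hgu]
    have h4 : f (g ^ u) = 1 := by
      rw [map_mul, map_mul, map_inv, mul_comm (f c), mul_assoc, mul_inv_cancel, mul_one] at h2
      exact h2
    rw [huv, map_mul, h1, h4, mul_one]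
  have hsN : (s : G) ∉ N := by
    rw [hNmem, hfs]; decide
  refine ⟨N, hNn, hNidx, (stabilizer G α).subgroupOf N, ?_, ?_, ?_⟩
  · -- nontrivial
    obtain ⟨⟨v, hv⟩, hv1⟩ := Subgroup.ne_bot_iff_exists_ne_one.mp hV1
    intro h
    apply hv1
    have h1 : (⟨(v : G), hstabN v hv⟩ : N) ∈ (stabilizer G α).subgroupOf N := mem_subgroupOf.mpr hv
    rw [h, mem_bot] at h1
    have h2 : (v : G) = 1 := congrArg Subtype.val h1
    exact Subtype.ext (Subtype.ext h2)
  · -- proper
    intro h
    obtain ⟨⟨v, hv⟩, hv1⟩ := Subgroup.ne_bot_iff_exists_ne_one.mp hV1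
    have hall : ∀ n ∈ N, n • α = α := by
      intro n hn
      have h1 : (⟨n, hn⟩ : N) ∈ (stabilizer G α).subgroupOf N := by rw [h]; trivial
      exact mem_subgroupOf.mp h1
    have hall2 : ∀ n ∈ N, n = 1 := by
      intro n hn
      apply FaithfulSMul.eq_of_smul_eq_smul (α := Ω)
      intro ω
      obtain ⟨g, rfl⟩ := MulAction.exists_smul_eq G α ω
      rw [one_smul]
      have h2 := hall (g⁻¹ * n * g) (by
        have := hNn.conj_mem n hn g⁻¹
        rwa [inv_inv] at this)
      rw [mul_smul, mul_smul, inv_smul_eq_iff] at h2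
      exact h2
    apply hv1
    exact Subtype.ext (Subtype.ext (hall2 v (hstabN v hv)))
  · -- trivial intersections
    rintro ⟨g, hgN⟩ hg
    have hgα : g • α ≠ α := fun h => hg (mem_subgroupOf.mpr h)
    rw [eq_bot_iff]
    rintro ⟨x, hxN⟩ hx
    obtain ⟨hx1, hx2⟩ := Subgroup.mem_inf.mp hx
    have hxα : x • α = α := mem_subgroupOf.mp hx1
    have hxγ : x • g • α = g • α := by
      rw [Subgroup.mem_pointwise_smul_iff_inv_smul_mem] at hx2
      have h1 : g⁻¹ * x * g ∈ stabilizer G α := by
        have := mem_subgroupOf.mp hx2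
        simpa [MulAut.smul_def, MulAut.conj_apply, ← map_inv] using this
      have h2 : (g⁻¹ * x * g) • α = α := h1
      rw [mul_smul, mul_smul, inv_smul_eq_iff] at h2
      exact h2
    rw [mem_bot]
    by_contra hx0
    have hx0' : x ≠ 1 := fun h => hx0 (Subtype.ext h)
    -- the two orbits
    let Ω₁ : Set Ω := {ω | ∃ n ∈ N, n • α = ω}
    have hΩ₁ : ∀ n ∈ N, ∀ ω ∈ Ω₁, n • ω ∈ Ω₁ := by
      rintro n hn _ ⟨m, hm, rfl⟩
      exact ⟨n * m, N.mul_mem hn hm, mul_smul _ _ _⟩
    have hsΩ : ∀ ω, ω ∈ Ω₁ → (s : G) • ω ∉ Ω₁ := by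
      rintro _ ⟨n, hn, rfl⟩ ⟨m, hm, hmn⟩
      apply hsN
      have h1 : m⁻¹ * (s * n) ∈ N := hstabN _ (by rw [mul_smul, mul_smul, ← hmn, inv_smul_smul])
      have h2 : (s : G) = m * (m⁻¹ * (s * n)) * n⁻¹ := by group
      rw [h2]
      exact N.mul_mem (N.mul_mem hm h1) (N.inv_mem hn)
    have hsΩ' : ∀ ω, ω ∉ Ω₁ → ∃ ω' ∈ Ω₁, (s : G) • ω' = ω := by
      intro ω hω
      obtain ⟨c, rfl⟩ := MulAction.exists_smul_eq G α ω
      have hcN : c ∉ N := fun h => hω ⟨c, h, rfl⟩
      have h1 : (s : G)⁻¹ * c ∈ N := by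
        rw [Subgroup.mul_mem_iff_of_index_two hNidx]
        exact ⟨fun h => absurd (by simpa using h) hsN, fun h => absurd h hcN⟩
      exact ⟨((s : G)⁻¹ * c) • α, ⟨_, h1, rfl⟩, by rw [mul_smul, smul_inv_smul]⟩
    have hcompl : Ω₁ᶜ = (fun ω => (s : G) • ω) '' Ω₁ := by
      ext ω
      constructor
      · intro h
        obtain ⟨ω', h1, h2⟩ := hsΩ' ω h
        exact ⟨ω', h1, h2⟩
      · rintro ⟨ω', h1, rfl⟩
        exact hsΩ ω' h1
    have hcard : (Ω₁ᶜ).ncard = Ω₁.ncard := by
      rw [hcompl]
      exact Set.ncard_image_of_injective _ (MulAction.injective (s : G))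
    -- the two point stabilizer
    let T : Subgroup G := N ⊓ stabilizer G α ⊓ stabilizer G (g • α)
    have hT : ∀ t ∈ T, t ∈ N ∧ t • α = α ∧ t • g • α = g • α := by
      intro t ht
      exact ⟨(Subgroup.mem_inf.mp (Subgroup.mem_inf.mp ht).1).1, (Subgroup.mem_inf.mp (Subgroup.mem_inf.mp ht).1).2,
        (Subgroup.mem_inf.mp ht).2⟩
    have hxT : x ∈ T := Subgroup.mem_inf.mpr ⟨Subgroup.mem_inf.mpr ⟨hxN, hxα⟩, hxγ⟩
    have hαΩ : α ∈ Ω₁ := ⟨1, N.one_mem, one_smul _ _⟩
    have hγΩ : g • α ∈ Ω₁ := ⟨g, hgN, rfl⟩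
    have hd1 : Nat.card T ∣ (Ω₁ᶜ).ncard := by
      apply H60.Semireg.dvd_ncard (Ω₁ᶜ) (Set.toFinite _)
      · intro t y hy h
        apply hy
        have h1 := hΩ₁ _ (N.inv_mem (hT t t.2).1) _ h
        have h2 : ((t : G)⁻¹) • (t • y) = y := by
          change ((t : G)⁻¹) • ((t : G) • y) = y
          rw [inv_smul_smul]
        rwa [h2] at h1
      · intro y hy t hty
        by_contra ht1
        have ht1' : (t : G) ≠ 1 := fun h => ht1 (Subtype.ext h)
        obtain ⟨_, h1, h2⟩ := hT t t.2
        rcases h3 t ht1' α (g • α) y h1 h2 hty with h | h | h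
        · exact hgα h.symm
        · exact hy (h ▸ hαΩ)
        · exact hy (h ▸ hγΩ)
    have hd2 : Nat.card T ∣ (Ω₁ \ {α, g • α}).ncard := by
      apply H60.Semireg.dvd_ncard _ (Set.toFinite _)
      · rintro t y ⟨hy, hy'⟩
        obtain ⟨h0, h1, h2⟩ := hT t t.2
        refine ⟨hΩ₁ _ h0 y hy, ?_⟩
        rintro (h | h)
        · apply hy'; left
          exact MulAction.injective (t : G) (h.trans h1.symm)
        · apply hy'; right
          exact MulAction.injective (t : G) ((Set.mem_singleton_iff.mp h).trans h2.symm)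
      · rintro y ⟨hy, hy'⟩ t hty
        by_contra ht1
        have ht1' : (t : G) ≠ 1 := fun h => ht1 (Subtype.ext h)
        obtain ⟨_, h1, h2⟩ := hT t t.2
        rcases h3 t ht1' α (g • α) y h1 h2 hty with h | h | h
        · exact hgα h.symm
        · exact hy' (Or.inl h.symm)
        · exact hy' (Or.inr h.symm)
    have hsub : ({α, g • α} : Set Ω) ⊆ Ω₁ := by
      rintro ω (rfl | h)
      · exact hαΩ
      · rw [Set.mem_singleton_iff.mp h]; exact hγΩ
    have hpair : ({α, g • α} : Set Ω).ncard = 2 := Set.ncard_pair hgα.symm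
    have hsum := Set.ncard_sdiff_add_ncard_of_subset hsub (Set.toFinite _)
    rw [hpair] at hsum
    rw [hcard] at hd1
    -- oddness
    have hodd : Odd Ω₁.ncard := by
      have hΩcard : Nat.card Ω = 2 * Ω₁.ncard := by
        have := Set.ncard_add_ncard_compl Ω₁
        rw [hcard] at this
        omega
      have hi1 := MulAction.index_stabilizer_of_transitive G α
      have hle : (stabilizer (S : Subgroup G) α).map (S : Subgroup G).subtype ≤ stabilizer G α := by
        rintro _ ⟨y, hy, rfl⟩
        exact hy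
      have hdv := Subgroup.index_dvd_of_le hle
      have hix : ((stabilizer (S : Subgroup G) α).map (S : Subgroup G).subtype).index = 2 * (S : Subgroup G).index := by
        have := Subgroup.index_map_subtype (stabilizer (S : Subgroup G) α)
        rw [this, hidx]
      rw [hi1, hix, hΩcard] at hdv
      have h5 := Nat.dvd_of_mul_dvd_mul_left (by norm_num) hdv
      obtain ⟨k, hk⟩ := h5
      rw [hk] at hSodd
      exact (Nat.odd_mul.mp hSodd).1
    have hT1 : Nat.card T ∣ 2 := by
      have := (Nat.dvd_add_right hd2).mp (by rw [hsum]; exact hd1)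
      exact this
    have hT2 : ¬ 2 ∣ Nat.card T := fun h => by
      have := h.trans hd1
      rw [← even_iff_two_dvd] at this
      exact (Nat.not_even_iff_odd.mpr hodd) this
    have hT3 : Nat.card T = 1 := by
      rcases (Nat.dvd_prime Nat.prime_two).mp hT1 with h | h
      · exact h
      · exact absurd (by rw [h]) hT2
    have hT4 := Subgroup.eq_bot_of_card_eq T hT3
    rw [hT4, mem_bot] at hxT
    exact hx0' hxT

/-- Let G be a finite group acting faithfully and transitively on a finite set Ω with fixity 2 (every non-identity element fixes at most two points, and some fixes exactly two). Let α ∈ Ω and S a Sylow 2-subgroup of G. Then one of the following holds: the stabilizer S_α of α in S is trivial; S is dihedral or semidihedral and either |S_α| = 2 or |S : S_α| = 2; |S| ≥ 4, S has exactly one orbit of size 2 on Ω, every other S-orbit is regular, and G has a normal subgroup of index 2 or of index |S| which is a Frobenius group; or S ≤ G_α. -/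
theorem result {G : Type*} [Group G] [Finite G] {Ω : Type*} [Fintype Ω] [MulAction G Ω] [FaithfulSMul G Ω] (htr : MulAction.IsPretransitive G Ω)
    (hfix : ∀ g : G, g ≠ 1 → Nat.card (MulAction.fixedBy Ω g) ≤ 2) (hex : ∃ g : G, g ≠ 1 ∧ Nat.card (MulAction.fixedBy Ω g) = 2) (α : Ω) (S : Sylow 2 G) :
    (S : Subgroup G) ⊓ MulAction.stabilizer G α = ⊥ ∨
    (((∃ n : ℕ, Nonempty (↥(S : Subgroup G) ≃* DihedralGroup n)) ∨ Cfsg.IsQuasiDihedral ↥(S : Subgroup G)) ∧
       (Nat.card ↥((S : Subgroup G) ⊓ MulAction.stabilizer G α) = 2 ∨ ((S : Subgroup G) ⊓ MulAction.stabilizer G α).relIndex (S : Subgroup G) = 2)) ∨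
    (4 ≤ Nat.card (S : Subgroup G) ∧
       (∃ ω : Ω, Nat.card (MulAction.orbit ↥(S : Subgroup G) ω) = 2 ∧
          ∀ ω' : Ω, ω' ∉ MulAction.orbit ↥(S : Subgroup G) ω → Nat.card (MulAction.orbit ↥(S : Subgroup G) ω') = Nat.card (S : Subgroup G)) ∧
       ∃ N : Subgroup G, N.Normal ∧ (N.index = 2 ∨ N.index = Nat.card (S : Subgroup G)) ∧ (∃ H : Subgroup ↥N, Cfsg.IsFrobeniusComplement H)) ∨
    (S : Subgroup G) ≤ MulAction.stabilizer G α := by
  classical
  have h3 := three_fixed hfix
  have h3' : ∀ g : (S : Subgroup G), g ≠ 1 → ∀ a b c : Ω, g • a = a → g • b = b → g • c = c → a = b ∨ a = c ∨ b = c :=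
    fun g hg a b c ha hb hc => h3 g (fun h => hg (Subtype.ext h)) a b c ha hb hc
  by_cases hb : (S : Subgroup G) ⊓ MulAction.stabilizer G α = ⊥
  · left; exact hb
  by_cases ht : (S : Subgroup G) ≤ MulAction.stabilizer G α
  · right; right; right; exact ht
  right
  have hmap : (stabilizer (S : Subgroup G) α).map (S : Subgroup G).subtype = (S : Subgroup G) ⊓ MulAction.stabilizer G α := by
    ext x
    constructor
    · rintro ⟨y, hy, rfl⟩
      exact Subgroup.mem_inf.mpr ⟨y.2, hy⟩
    · intro hx
      obtain ⟨h1, h2⟩ := Subgroup.mem_inf.mp hx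
      exact ⟨⟨x, h1⟩, h2, rfl⟩
  have hV1 : stabilizer (S : Subgroup G) α ≠ ⊥ := by
    intro h; apply hb; rw [← hmap, h, Subgroup.map_bot]
  have hV2 : stabilizer (S : Subgroup G) α ≠ ⊤ := by
    intro h; apply ht
    intro x hx
    have : (⟨x, hx⟩ : (S : Subgroup G)) ∈ stabilizer (S : Subgroup G) α := by rw [h]; trivial
    exact this
  have hcard : Nat.card ↥((S : Subgroup G) ⊓ MulAction.stabilizer G α) = Nat.card (stabilizer (S : Subgroup G) α) := by
    rw [← hmap]
    exact (Nat.card_congr (Subgroup.equivMapOfInjective _ (S : Subgroup G).subtype (S : Subgroup G).subtype_injective).toEquiv).symm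
  have hrel : ((S : Subgroup G) ⊓ MulAction.stabilizer G α).relIndex (S : Subgroup G) = (stabilizer (S : Subgroup G) α).index := by
    have : ((S : Subgroup G) ⊓ MulAction.stabilizer G α).subgroupOf (S : Subgroup G) = stabilizer (S : Subgroup G) α := by
      ext x
      rw [mem_subgroupOf, Subgroup.mem_inf]
      exact ⟨fun h => h.2, fun h => ⟨x.2, h⟩⟩
    rw [Subgroup.relIndex, this]
  rcases structure_two S.2 h3' α hV1 hV2 with ⟨h1, h2⟩ | ⟨hidx, β, hβ, hβf, hsw, hreg⟩
  · left
    refine ⟨h1, ?_⟩
    rw [hcard, hrel]; exact h2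
  · right; left
    have hmul := (stabilizer (S : Subgroup G) α).card_mul_index
    rw [hidx] at hmul
    have hc2 : 2 ≤ Nat.card (stabilizer (S : Subgroup G) α) := by
      have : Nontrivial (stabilizer (S : Subgroup G) α) := (Subgroup.nontrivial_iff_ne_bot _).mpr hV1
      exact Finite.one_lt_card
    refine ⟨by omega, ⟨α, ?_, ?_⟩, ?_⟩
    · rw [Nat.card_coe_set_eq, ← MulAction.index_stabilizer, hidx]
    · intro ω hω
      have hωα : ω ≠ α := by rintro rfl; exact hω (MulAction.mem_orbit_self _)
      have hωβ : ω ≠ β := by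
        rintro rfl
        apply hω
        obtain ⟨s, hs⟩ : ∃ s : (S : Subgroup G), s ∉ stabilizer (S : Subgroup G) α := by
          by_contra hcon
          push Not at hcon
          exact hV2 (by rw [eq_top_iff]; intro x _; exact hcon x)
        exact ⟨s, hsw s hs⟩
      rw [Nat.card_coe_set_eq, ← MulAction.index_stabilizer, hreg ω hωα hωβ, Subgroup.index_bot]
    · obtain ⟨N, hN1, hN2, hN3⟩ := frob_part htr h3 α S hV1 hidx β hβ hβf hreg
      exact ⟨N, hN1, Or.inl hN2, hN3⟩

end Cfsg.Agent.S3390
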