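import Cfsg.Statements.S3391
import Cfsg.Agent.Lib.H53.SzFix
import Mathlib

set_option autoImplicit false
open Cfsg

namespace Cfsg.Agent.S3391

theorem aux {F : Type} [Field F] [Fintype F] {m : ℕ} (hm : 1 ≤ m) (hF : Fintype.card F = 2 ^ (2 * m + 1))
    {Ω : Type*} [Fintype Ω] [MulAction (Cfsg.Sz F m) Ω] (htr : MulAction.IsPretransitive (Cfsg.Sz F m) Ω)
    (hfix : ∀ g : Cfsg.Sz F m, g ≠ 1 → Nat.card (MulAction.fixedBy Ω g) ≤ 2)
    (hex : ∃ g : Cfsg.Sz F m, g ≠ 1 ∧ Nat.card (MulAction.fixedBy Ω g) = 2) :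
    (Fintype.card Ω = Fintype.card F ^ 2 + 1 ∧ MulAction.IsMultiplyPretransitive (Cfsg.Sz F m) Ω 2) ∨
    (Fintype.card Ω = Fintype.card F ^ 2 * (Fintype.card F ^ 2 + 1) ∧
      ∀ α : Ω, Nat.card (MulAction.stabilizer (Cfsg.Sz F m) α) = Fintype.card F - 1) := by
  have hne : Nonempty Ω := by
    obtain ⟨g, _, hg⟩ := hex
    by_contra h
    rw [not_nonempty_iff] at h
    rw [Nat.card_of_isEmpty] at hg
    omega
  obtain ⟨α⟩ := hne
  have hcards : ∀ β : Ω, Nat.card (MulAction.stabilizer (Cfsg.Sz F m) β) = Nat.card (MulAction.stabilizer (Cfsg.Sz F m) α) := by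
    intro β
    obtain ⟨y, rfl⟩ := MulAction.exists_smul_eq (Cfsg.Sz F m) α β
    exact (Nat.card_congr (MulAction.stabilizerEquivStabilizer (g := y) (a := α) (b := y • α) rfl).toEquiv).symm
  by_cases h2 : 2 ∣ Nat.card (MulAction.stabilizer (Cfsg.Sz F m) α)
  · left
    obtain ⟨h3, h4⟩ := H53.SzFix.even_case hm hF hfix hex h2
    exact ⟨by rw [← Nat.card_eq_fintype_card, h3, hF], h4⟩
  · right
    have h3 := H53.SzFix.odd_case hm hF hfix hex h2
    refine ⟨?_, fun β => by rw [hcards β, h3, hF]⟩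
    have h4 := Subgroup.card_mul_index (MulAction.stabilizer (Cfsg.Sz F m) α)
    rw [MulAction.index_stabilizer_of_transitive, h3, H8.SuzGroup.card_Sz hm hF] at h4
    rw [← Nat.card_eq_fintype_card, hF]
    have hq : 2 ≤ 2 ^ (2 * m + 1) := by
      calc 2 = 2 ^ 1 := rfl
        _ ≤ 2 ^ (2 * m + 1) := Nat.pow_le_pow_right (by norm_num) (by omega)
    have hpos : 0 < 2 ^ (2 * m + 1) - 1 := by omega
    apply Nat.eq_of_mul_eq_mul_left hpos
    rw [h4]; ring

/-- Let q = 2^{2m+1} ≥ 8 and let G be isomorphic to the Suzuki group Sz(q). If G acts faithfully and transitively on a finite set Ω with fixity 2 (every non-identity element fixes at most two points, and some fixes exactly two), then either |Ω| = q² + 1 and the action is 2-transitive, or |Ω| = q²(q² + 1) and the point stabilizers have order q − 1. -/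
theorem result {G : Type*} [Group G] [Finite G] (F : Type) [Field F] [Fintype F] (m : ℕ) (hm : 1 ≤ m) (hF : Fintype.card F = 2 ^ (2 * m + 1))
    (e : G ≃* ↥(Cfsg.Lie.Sz F (2 ^ (m + 1)))) {Ω : Type*} [Fintype Ω] [MulAction G Ω] [FaithfulSMul G Ω] (htr : MulAction.IsPretransitive G Ω)
    (hfix : ∀ g : G, g ≠ 1 → Nat.card (MulAction.fixedBy Ω g) ≤ 2) (hex : ∃ g : G, g ≠ 1 ∧ Nat.card (MulAction.fixedBy Ω g) = 2) :
    (Fintype.card Ω = Fintype.card F ^ 2 + 1 ∧ MulAction.IsMultiplyPretransitive G Ω 2) ∨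
    (Fintype.card Ω = Fintype.card F ^ 2 * (Fintype.card F ^ 2 + 1) ∧ ∀ α : Ω, Nat.card (MulAction.stabilizer G α) = Fintype.card F - 1) := by
  classical
  let φ : Cfsg.Sz F m ≃* G := (H24.SzIso.equiv hF hm).trans e.symm
  letI : MulAction (Cfsg.Sz F m) Ω := MulAction.compHom Ω φ.toMonoidHom
  have hsm : ∀ (g : Cfsg.Sz F m) (ω : Ω), g • ω = φ g • ω := fun _ _ => rfl
  have hfb : ∀ g : Cfsg.Sz F m, MulAction.fixedBy Ω g = MulAction.fixedBy Ω (φ g) := fun g => rfl
  have htr' : MulAction.IsPretransitive (Cfsg.Sz F m) Ω := by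
    constructor
    intro a b
    obtain ⟨g, hg⟩ := htr.exists_smul_eq a b
    exact ⟨φ.symm g, by rw [hsm, MulEquiv.apply_symm_apply]; exact hg⟩
  have key := aux (m := m) hm hF (Ω := Ω) htr' (fun g hg => by
    rw [hfb]
    exact hfix _ (fun h => hg ((MulEquiv.map_eq_one_iff φ).1 h))) (by
    obtain ⟨g, hg1, hg⟩ := hex
    refine ⟨φ.symm g, fun h => hg1 ((MulEquiv.map_eq_one_iff φ.symm).1 h), ?_⟩
    rw [hfb, MulEquiv.apply_symm_apply]
    exact hg)
  rcases key with ⟨h1, h2⟩ | ⟨h1, h2⟩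
  · left
    refine ⟨h1, ?_⟩
    rw [MulAction.is_two_pretransitive_iff] at h2 ⊢
    intro a b c d hab hcd
    obtain ⟨g, h3, h4⟩ := h2 hab hcd
    exact ⟨φ g, h3, h4⟩
  · right
    refine ⟨h1, fun α => ?_⟩
    rw [← h2 α]
    have h3 : MulAction.stabilizer G α = (MulAction.stabilizer (Cfsg.Sz F m) α).map φ.toMonoidHom := by
      ext g
      rw [Subgroup.mem_map]
      constructor
      · intro hg
        refine ⟨φ.symm g, ?_, φ.apply_symm_apply g⟩
        show φ (φ.symm g) • α = α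
        rw [MulEquiv.apply_symm_apply]
        exact hg
      · rintro ⟨x, hx, rfl⟩
        exact hx
    rw [h3]
    exact Nat.card_congr ((MulAction.stabilizer (Cfsg.Sz F m) α).equivMapOfInjective φ.toMonoidHom φ.injective).symm.toEquiv

end Cfsg.Agent.S3391
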