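import Cfsg.Statements.S3412
import Cfsg.Agent.Lib.H61.CG33e

set_option autoImplicit false
open Cfsg

namespace Cfsg.Agent.S3412

/-- Let H be a finite group whose commuting graph (vertices the non-identity elements, two joined when they commute) is isomorphic to that of PSL_3(3): there is a bijection between the non-identity elements of H and of PSL_3(3) under which two elements commute exactly when their images do. Then H ≅ PSL_3(3). -/
theorem result {H : Type*} [Group H] [Finite H]
    (f : {h : H // h ≠ 1} ≃ {g : Matrix.ProjectiveSpecialLinearGroup (Fin 3) (ZMod 3) // g ≠ 1})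
    (hf : ∀ x y : {h : H // h ≠ 1}, (x : H) * y = y * x ↔ ((f x) : Matrix.ProjectiveSpecialLinearGroup (Fin 3) (ZMod 3)) * (f y) = (f y) * (f x)) :
    Nonempty (H ≃* Matrix.ProjectiveSpecialLinearGroup (Fin 3) (ZMod 3)) := by
  obtain ⟨F0, hF01, hF0⟩ := H61.CommGraph.exists_ext f hf
  let F : H ≃ H61.CG33.S := F0.trans H61.CG33.e0.toEquiv
  have hF1 : F 1 = 1 := by
    change H61.CG33.e0 (F0 1) = 1
    rw [hF01, map_one]
  have hF : ∀ x y, Commute x y ↔ Commute (F x) (F y) := by
    intro x y
    rw [hF0]
    change _ ↔ Commute (H61.CG33.e0 (F0 x)) (H61.CG33.e0 (F0 y))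
    constructor
    · intro h; exact h.map H61.CG33.e0
    · intro h
      have := h.map H61.CG33.e0.symm
      simpa using this
  obtain ⟨e⟩ := H61.CG33.good_T.nonempty_mulEquiv hF1 hF
  exact ⟨e.trans H61.CG33.e0.symm⟩

end Cfsg.Agent.S3412
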