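import Cfsg.Statements.S3488
import Cfsg.Agent.Lib.H62.SL2F4

set_option autoImplicit false
open Cfsg

namespace Cfsg.Agent.S3488

open H62.SDOrder H62.SL2F4

variable {F : Type*} [Field F] [Fintype F]

/-- block matrices -/
def T (A : Matrix (Fin 2) (Fin 2) F) (X : Matrix (Fin 2) (Fin 1) F) : Matrix (Fin 3) (Fin 3) F :=
  !![A 0 0, A 0 1, X 0 0; A 1 0, A 1 1, X 1 0; 0, 0, 1]

omit [Fintype F] in
theorem det_T (A : Matrix (Fin 2) (Fin 2) F) (X : Matrix (Fin 2) (Fin 1) F) : (T A X).det = A.det := by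
  rw [T, Matrix.det_fin_three, Matrix.det_fin_two]
  simp

omit [Fintype F] in
theorem T_mul (A B : Matrix (Fin 2) (Fin 2) F) (X Y : Matrix (Fin 2) (Fin 1) F) :
    T A X * T B Y = T (A * B) (X + A * Y) := by
  ext i j
  fin_cases i <;> fin_cases j <;> simp [T, Matrix.mul_apply, Fin.sum_univ_three, Fin.sum_univ_two] <;> ring

omit [Fintype F] in
theorem T_one : T (1 : Matrix (Fin 2) (Fin 2) F) 0 = 1 := by
  ext i j
  fin_cases i <;> fin_cases j <;> simp [T]

/-- the embedding -/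
def Phi : SD (Matrix.SpecialLinearGroup (Fin 2) F) (W F 1) →* Matrix.SpecialLinearGroup (Fin 3) F where
  toFun g := ⟨T (g.right : Matrix (Fin 2) (Fin 2) F) (toM (Multiplicative.toAdd g.left)), by rw [det_T]; exact g.right.2⟩
  map_one' := Subtype.ext T_one
  map_mul' := fun g h => Subtype.ext (T_mul _ _ _ _).symm

theorem Phi_inj : Function.Injective (Phi (F := F)) := by
  intro g h hgh
  have h1 : T (g.right : Matrix (Fin 2) (Fin 2) F) (toM (Multiplicative.toAdd g.left)) =
      T (h.right : Matrix (Fin 2) (Fin 2) F) (toM (Multiplicative.toAdd h.left)) := congrArg Subtype.val hgh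
  apply SemidirectProduct.ext
  · apply Multiplicative.toAdd.injective
    show toM (Multiplicative.toAdd g.left) = toM (Multiplicative.toAdd h.left)
    ext i j
    fin_cases j
    fin_cases i
    · exact congrFun (congrFun h1 0) 2
    · exact congrFun (congrFun h1 1) 2
  · apply sl_ext
    ext i j
    fin_cases i <;> fin_cases j
    · exact congrFun (congrFun h1 0) 0
    · exact congrFun (congrFun h1 0) 1
    · exact congrFun (congrFun h1 1) 0
    · exact congrFun (congrFun h1 1) 1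

theorem closure_eq : Subgroup.closure {M : Matrix.SpecialLinearGroup (Fin 3) F |
        (M : Matrix (Fin 3) (Fin 3) F) 2 0 = 0 ∧ (M : Matrix (Fin 3) (Fin 3) F) 2 1 = 0 ∧ (M : Matrix (Fin 3) (Fin 3) F) 2 2 = 1} =
    (Phi (F := F)).range := by
  apply le_antisymm
  · rw [Subgroup.closure_le]
    rintro M ⟨h1, h2, h3⟩
    have hdet : (!![(M : Matrix (Fin 3) (Fin 3) F) 0 0, (M : Matrix (Fin 3) (Fin 3) F) 0 1;
        (M : Matrix (Fin 3) (Fin 3) F) 1 0, (M : Matrix (Fin 3) (Fin 3) F) 1 1] : Matrix (Fin 2) (Fin 2) F).det = 1 := by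
      have h4 := M.2
      rw [Matrix.det_fin_three, h1, h2, h3] at h4
      rw [Matrix.det_fin_two]
      simp only [Matrix.of_apply, Matrix.cons_val', Matrix.cons_val_zero, Matrix.cons_val_one, Matrix.cons_val_fin_one]
      linear_combination h4
    refine ⟨⟨Multiplicative.ofAdd (ofM (fun i _ => if i = 0 then (M : Matrix (Fin 3) (Fin 3) F) 0 2 else
      (M : Matrix (Fin 3) (Fin 3) F) 1 2)), ⟨_, hdet⟩⟩, ?_⟩
    apply Subtype.ext
    show T _ _ = _
    ext i j
    fin_cases i <;> fin_cases j <;> simp [T, toM, ofM, h1, h2, h3]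
    · rfl
    · rfl
  · rintro _ ⟨g, rfl⟩
    apply Subgroup.subset_closure
    refine ⟨?_, ?_, ?_⟩
    · show T _ _ 2 0 = 0; simp [T]
    · show T _ _ 2 1 = 0; simp [T]
    · show T _ _ 2 2 = 1; simp [T]

theorem result {F : Type*} [Field F] [Fintype F] (hF : Fintype.card F = 4) :
    Set.range (orderOf : Subgroup.closure {M : Matrix.SpecialLinearGroup (Fin 3) F |
        (M : Matrix (Fin 3) (Fin 3) F) 2 0 = 0 ∧ (M : Matrix (Fin 3) (Fin 3) F) 2 1 = 0 ∧ (M : Matrix (Fin 3) (Fin 3) F) 2 2 = 1} → ℕ) =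
      Set.range (orderOf : alternatingGroup (Fin 6) → ℕ) := by
  rw [H62.AltOrders.alt6, ← spectrum hF 1 one_pos, closure_eq]
  let e := MonoidHom.ofInjective (Phi_inj (F := F))
  ext k
  constructor
  · rintro ⟨x, rfl⟩
    exact ⟨e.symm x, MulEquiv.orderOf_eq e.symm x⟩
  · rintro ⟨x, rfl⟩
    exact ⟨e x, MulEquiv.orderOf_eq e x⟩

end Cfsg.Agent.S3488
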