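import Cfsg.Statements.S3495
import Cfsg.Agent.Lib.H62.ExtPrim
import Cfsg.Agent.Lib.H62.PrimGroup

set_option autoImplicit false
open Cfsg

namespace Cfsg.Agent.S3495

open MulAction in
theorem orbit_eq {G : Type*} [Group G] [Finite G] {Ω : Type*} [Finite Ω] [MulAction G Ω] [FaithfulSMul G Ω] (hprim : MulAction.IsPreprimitive G Ω) (hH : ∀ α : Ω, MulAction.stabilizer G α ≠ ⊥) (hep : ∀ (α : Ω) (ω : Ω), MulAction.IsPreprimitive (MulAction.stabilizer G α) (MulAction.orbit (MulAction.stabilizer G α) ω))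
    (α : Ω) (M : Subgroup G) (hM : M ≠ ⊥) (hMle : M ≤ MulAction.stabilizer G α)
    (hMn : MulAction.stabilizer G α ≤ Subgroup.normalizer (M : Set G)) (ω : Ω) :
    MulAction.orbit M ω = MulAction.orbit (MulAction.stabilizer G α) ω := by
  apply Set.Subset.antisymm
  · rintro _ ⟨m, rfl⟩
    exact ⟨⟨m, hMle m.2⟩, rfl⟩
  · rintro _ ⟨h, rfl⟩
    by_cases hω : ω = α
    · subst hω
      have h1 : h • ω = ω := h.2
      simp only [h1]
      exact mem_orbit_self ω
    · have hmv : ∃ m ∈ M, m • ω ≠ ω := by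
        by_contra hcon
        push Not at hcon
        apply hM
        rw [eq_bot_iff, ← H62.ExtPrim.manning hH hep α ω hω]
        intro m hm
        refine ⟨hMle hm, fun x hx => ?_⟩
        have h1 : x⁻¹ * m * x ∈ M := by
          have := (Subgroup.le_normalizer_iff.mp hMn) x⁻¹ ((stabilizer G α).inv_mem hx) m hm
          rwa [inv_inv] at this
        have h2 := hcon _ h1
        rw [mul_smul, mul_smul, inv_smul_eq_iff] at h2
        exact h2
      obtain ⟨k, hk, hkω⟩ := H62.ExtPrim.normal_transitive (hep α ω) M hMle hMn hmv h.1 h.2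
      exact ⟨⟨k, hk⟩, hkω⟩

theorem result {G : Type*} [Group G] [Finite G] {Ω : Type*} [Fintype Ω] [MulAction G Ω] [FaithfulSMul G Ω] (hprim : MulAction.IsPreprimitive G Ω) (hH : ∀ α : Ω, MulAction.stabilizer G α ≠ ⊥) (hep : ∀ (α : Ω) (ω : Ω), MulAction.IsPreprimitive (MulAction.stabilizer G α) (MulAction.orbit (MulAction.stabilizer G α) ω))
    (N : Subgroup G) [N.Normal] (hNc : IsMulCommutative N) (p : ℕ) (hp : p.Prime) (hNp : ∀ n ∈ N, n ^ p = 1)
    (hNtr : MulAction.IsPretransitive N Ω) (hNreg : ∀ ω : Ω, MulAction.stabilizer N ω = ⊥) (α : Ω) (M : Subgroup G) (hM : M ≠ ⊥) (hMle : M ≤ MulAction.stabilizer G α)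
    (hMn : MulAction.stabilizer G α ≤ Subgroup.normalizer (M : Set G)) :
    (∀ ω : Ω, MulAction.orbit M ω = MulAction.orbit (MulAction.stabilizer G α) ω) ∧
    (∀ L : Subgroup G, L ≤ N → M ≤ Subgroup.normalizer (L : Set G) → L = ⊥ ∨ L = N) := by
  have horb := orbit_eq hprim hH hep α M hM hMle hMn
  refine ⟨horb, ?_⟩
  intro L hL hML
  by_cases hLbot : L = ⊥
  · left; exact hLbot
  right
  have hcomm : ∀ a ∈ N, ∀ b ∈ N, a * b = b * a := fun a ha b hb =>
    congrArg Subtype.val (hNc.is_comm.comm ⟨a, ha⟩ ⟨b, hb⟩)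
  have hreg : ∀ n ∈ N, ∀ n' ∈ N, n • α = n' • α → n = n' := by
    intro n hn n' hn' h
    have h1 : (⟨n'⁻¹ * n, N.mul_mem (N.inv_mem hn') hn⟩ : N) ∈ MulAction.stabilizer N α := by
      rw [MulAction.mem_stabilizer_iff]
      change (n'⁻¹ * n) • α = α
      rw [mul_smul, h, inv_smul_smul]
    rw [hNreg, Subgroup.mem_bot] at h1
    have h2 : n'⁻¹ * n = 1 := congrArg Subtype.val h1
    exact (inv_mul_eq_one.mp h2).symm
  -- the stabilizer normalizes L
  have hHL : MulAction.stabilizer G α ≤ Subgroup.normalizer (L : Set G) := by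
    rw [Subgroup.le_normalizer_iff]
    intro h hh l hl
    have h1 : h • l • α ∈ MulAction.orbit M (l • α) := by
      rw [horb]
      exact ⟨⟨h, hh⟩, rfl⟩
    obtain ⟨m, hm⟩ := h1
    have hm' : (m : G) • l • α = h • l • α := hm
    have h2 : h * l * h⁻¹ = (m : G) * l * (m : G)⁻¹ := by
      apply hreg
      · exact ‹N.Normal›.conj_mem l (hL hl) h
      · exact ‹N.Normal›.conj_mem l (hL hl) m
      · have hhα : h⁻¹ • α = α := by
          rw [inv_smul_eq_iff]; exact (MulAction.mem_stabilizer_iff.mp hh).symm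
        have hmα : (m : G)⁻¹ • α = α := by
          rw [inv_smul_eq_iff]; exact (MulAction.mem_stabilizer_iff.mp (hMle m.2)).symm
        rw [mul_smul, mul_smul, mul_smul, mul_smul, hhα, hmα, hm']
    rw [h2]
    exact (Subgroup.le_normalizer_iff.mp hML) m m.2 l hl
  have hNL : N ≤ Subgroup.normalizer (L : Set G) := by
    rw [Subgroup.le_normalizer_iff]
    intro n hn l hl
    rw [hcomm n hn l (hL hl), mul_inv_cancel_right]
    exact hl
  have hLn : L.Normal := by
    rw [← Subgroup.normalizer_eq_top_iff, eq_top_iff]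
    intro g _
    obtain ⟨n, hn⟩ := MulAction.exists_smul_eq N α (g • α)
    have hn' : (n : G) • α = g • α := hn
    have h1 : (n : G)⁻¹ * g ∈ MulAction.stabilizer G α := by
      rw [MulAction.mem_stabilizer_iff, mul_smul, ← hn', inv_smul_smul]
    have h2 : g = (n : G) * ((n : G)⁻¹ * g) := by group
    rw [h2]
    exact Subgroup.mul_mem _ (hNL n.2) (hHL h1)
  have htr := H62.PrimGroup.normal_transitive (Δ := Ω) L hLbot
  apply le_antisymm hL
  intro n hn
  obtain ⟨l, hl⟩ := MulAction.exists_smul_eq L α (n • α)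
  have hl' : (l : G) • α = n • α := hl
  rw [← hreg l (hL l.2) n hn hl']
  exact l.2

end Cfsg.Agent.S3495
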