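import Cfsg.Statements.S3498
import Mathlib

set_option autoImplicit false
open Cfsg

namespace Cfsg.Agent.S3498

open scoped Pointwise in
theorem conj_mem_of_smul_eq {G : Type*} [Group G] {p : ℕ} {P Q : Sylow p G} {g x : G}
    (hg : g • Q = P) (hx : x ∈ (Q : Subgroup G)) : g * x * g⁻¹ ∈ (P : Subgroup G) := by
  have h2 : g * x * g⁻¹ ∈ (MulAut.conj g • (Q : Subgroup G)) := by
    rw [Subgroup.mem_pointwise_smul_iff_inv_smul_mem]
    simpa [MulAut.smul_def, MulAut.conj_inv_apply, mul_assoc] using hx
  have h3 : ((g • Q : Sylow p G) : Subgroup G) = MulAut.conj g • (Q : Subgroup G) := Sylow.coe_subgroup_smul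
  rw [← h3, hg] at h2
  exact h2

theorem result {G : Type*} [Group G] [Finite G] (T : Subgroup G) [T.Normal] (hT : IsSimpleGroup T) (hTc : ¬ IsMulCommutative T)
    (hC : Subgroup.centralizer (T : Set G) = ⊥) (H : Subgroup G) (hmax : IsCoatom H) : ¬ (Nat.card H).Prime := by
  classical
  intro hp
  set p := Nat.card H with hpdef
  have hfact := Fact.mk hp
  -- subgroups normal in G meet T trivially or contain it
  have hTmin : ∀ N : Subgroup G, N.Normal → T ⊓ N = ⊥ ∨ T ≤ N := by
    intro N hN
    have h1 : (N.subgroupOf T).Normal := inferInstance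
    rcases hT.eq_bot_or_eq_top_of_normal _ h1 with h | h
    · left
      rw [Subgroup.subgroupOf_eq_bot, disjoint_iff, inf_comm] at h
      exact h
    · right
      rwa [Subgroup.subgroupOf_eq_top] at h
  have hHcomm : ∀ a ∈ H, ∀ b ∈ H, a * b = b * a := by
    intro a ha b hb
    have hcyc : IsCyclic H := isCyclic_of_prime_card (p := p) hpdef.symm
    have h1 := IsCyclic.isMulCommutative (α := H)
    have := h1.is_comm.comm ⟨a, ha⟩ ⟨b, hb⟩
    exact congrArg Subtype.val this
  have hHbot : H ≠ ⊥ := by
    intro h
    rw [h, Subgroup.card_bot] at hpdef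
    exact hp.one_lt.ne' hpdef
  by_cases hHn : H.Normal
  · rcases hTmin H hHn with h | h
    · -- H centralizes T
      have : H ≤ Subgroup.centralizer (T : Set G) := by
        rw [Subgroup.le_centralizer_iff]
        have h2 := Subgroup.commute_of_normal_of_disjoint T H ‹_› hHn (disjoint_iff.mpr h)
        intro t ht
        rw [Subgroup.mem_centralizer_iff]
        intro h' hh'
        exact ((h2 t h' ht hh').eq).symm
      rw [hC, le_bot_iff] at this
      exact hHbot this
    · apply hTc
      refine ⟨⟨fun a b => Subtype.ext ?_⟩⟩
      exact hHcomm a (h a.2) b (h b.2)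
  · -- H is a Sylow subgroup
    have hHp : IsPGroup p H := IsPGroup.of_card (n := 1) (by rw [pow_one])
    obtain ⟨P, hHP⟩ := hHp.exists_le_sylow
    have hPH : (P : Subgroup G) = H := by
      by_contra hne
      have hlt : H < P := lt_of_le_of_ne hHP (Ne.symm hne)
      have htop : (P : Subgroup G) = ⊤ := hmax.2 _ hlt
      have hG : IsPGroup p G := by
        have := P.2
        rw [htop] at this
        exact this.of_equiv Subgroup.topEquiv
      have := hG.isNilpotent
      exact hHn (Subgroup.NormalizerCondition.normal_of_coatom H Group.normalizerCondition_of_isNilpotent hmax)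
    have hnorm : Subgroup.normalizer (H : Set G) = H := by
      by_contra hne
      have hlt : H < Subgroup.normalizer (H : Set G) := lt_of_le_of_ne Subgroup.le_normalizer (Ne.symm hne)
      have htop := hmax.2 _ hlt
      exact hHn (Subgroup.normalizer_eq_top_iff.mp htop)
    have hP : Subgroup.normalizer ((P : Subgroup G) : Set G) ≤ Subgroup.centralizer ((P : Subgroup G) : Set G) := by
      rw [hPH, hnorm]
      intro a ha
      rw [Subgroup.mem_centralizer_iff]
      intro b hb
      exact hHcomm b hb a ha
    have hcompl := MonoidHom.ker_transferSylow_isComplement' P hP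
    set φ := MonoidHom.transferSylow P hP with hφ
    set K := φ.ker with hK
    have hKn : K.Normal := MonoidHom.normal_ker φ
    have hKP : K ⊓ H = ⊥ := by
      have := hcompl.isCompl.inf_eq_bot
      rwa [hPH] at this
    have hTK : T ≤ K := by
      rcases hTmin K hKn with h | h
      · exfalso
        apply hTc
        refine ⟨⟨fun a b => ?_⟩⟩
        have h1 : (a : G) * b * (a : G)⁻¹ * (b : G)⁻¹ ∈ T ⊓ K := by
          refine ⟨T.mul_mem (T.mul_mem (T.mul_mem a.2 b.2) (T.inv_mem a.2)) (T.inv_mem b.2), ?_⟩
          rw [hK]
          change φ _ = 1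
          rw [map_mul, map_mul, map_mul, map_inv, map_inv]
          have : φ a * φ b = φ b * φ a := by
            apply Subtype.ext
            have h1 : ((φ a : (P : Subgroup G)) : G) ∈ H := hPH.le (φ a).2
            have h2 : ((φ b : (P : Subgroup G)) : G) ∈ H := hPH.le (φ b).2
            exact hHcomm _ h1 _ h2
          rw [this]; group
        rw [h, Subgroup.mem_bot] at h1
        apply Subtype.ext
        change (a : G) * b = b * a
        rw [mul_inv_eq_one, mul_inv_eq_iff_eq_mul] at h1
        exact h1
      · exact h
    -- H-invariant nontrivial subgroups of K are K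
    have hinv : ∀ L : Subgroup G, L ≤ K → H ≤ Subgroup.normalizer (L : Set G) → L ≠ ⊥ → L = K := by
      intro L hLK hHL hL
      have hlt : H < H ⊔ L := by
        refine lt_of_le_of_ne le_sup_left ?_
        intro heq
        apply hL
        rw [eq_bot_iff, ← hKP]
        refine le_inf hLK ?_
        rw [heq]
        exact le_sup_right
      have htop := hmax.2 _ hlt
      apply le_antisymm hLK
      intro k hk
      have hk' : k ∈ (H ⊔ L : Subgroup G) := by rw [htop]; trivial
      rw [← SetLike.mem_coe, Subgroup.coe_mul_of_left_le_normalizer_right H L hHL] at hk'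
      obtain ⟨h, hh, l, hl, rfl⟩ := hk'
      have h1 : h ∈ K ⊓ H := by
        refine ⟨?_, hh⟩
        exact (K.mul_mem_cancel_right (hLK hl)).mp hk
      rw [hKP, Subgroup.mem_bot] at h1
      change h * l ∈ L
      rw [h1, one_mul]
      exact hl
    have hTbot : T ≠ ⊥ := by
      intro h
      have := hT.toNontrivial
      rw [h] at this
      exact not_subsingleton _ (inferInstance : Subsingleton (⊥ : Subgroup G))
    have hTeq : T = K := hinv T hTK (Subgroup.le_normalizer_of_normal) hTbot
    have hpK : ¬ p ∣ Nat.card K := MonoidHom.not_dvd_card_ker_transferSylow P hP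
    -- choose a prime r dividing |K|
    have hKcard : Nat.card K ≠ 1 := by
      intro h
      rw [Subgroup.card_eq_one] at h
      exact hTbot (hTeq.trans h)
    obtain ⟨r, hr, hrd⟩ := Nat.exists_prime_and_dvd hKcard
    have hrfact := Fact.mk hr
    let R : Sylow r K := default
    have hF := Sylow.normalizer_sup_eq_top (N := K) R
    set R' := (R : Subgroup K).map K.subtype with hR'
    have hR'K : R' ≤ K := by
      rw [hR']
      exact (Subgroup.map_le_range _ _).trans (by rw [Subgroup.range_subtype])
    have hR'bot : R' ≠ ⊥ := by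
      intro h
      rw [hR', Subgroup.map_eq_bot_iff_of_injective _ K.subtype_injective] at h
      have h1 := R.card_eq_multiplicity
      rw [h, Subgroup.card_bot] at h1
      have h2 : 0 < (Nat.card K).factorization r :=
        hr.factorization_pos_of_dvd Nat.card_pos.ne' hrd
      have h3 : 1 < r ^ (Nat.card K).factorization r := Nat.one_lt_pow h2.ne' hr.one_lt
      omega
    -- p divides |N(R')|
    have hpN : p ∣ Nat.card (Subgroup.normalizer (R' : Set G)) := by
      have h1 : p ∣ Nat.card G := Subgroup.card_subgroup_dvd_card H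
      have h2 : Nat.card G ∣ Nat.card (Subgroup.normalizer (R' : Set G)) * Nat.card K := by
        have h3 : K.relIndex (Subgroup.normalizer (R' : Set G)) = K.index := by
          rw [← Subgroup.relIndex_sup_right, hF, Subgroup.relIndex_top_right]
        have h4 : K.index ∣ Nat.card (Subgroup.normalizer (R' : Set G)) := by
          rw [← h3]
          exact Subgroup.index_dvd_card _
        rw [← Subgroup.card_mul_index K, mul_comm]
        exact Nat.mul_dvd_mul_right h4 _
      rcases (hp.dvd_mul.mp (h1.trans h2)) with h | h
      · exact h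
      · exact absurd h hpK
    obtain ⟨x, hx⟩ := exists_prime_orderOf_dvd_card' (G := Subgroup.normalizer (R' : Set G)) p hpN
    -- zpowers x is conjugate to H
    have hxP : IsPGroup p (Subgroup.zpowers (x : G)) := by
      apply IsPGroup.of_card (n := 1)
      rw [Nat.card_zpowers, Subgroup.orderOf_coe, hx, pow_one]
    obtain ⟨Q, hQ⟩ := hxP.exists_le_sylow
    obtain ⟨g, hg⟩ := MulAction.exists_smul_eq G Q P
    have hgx : g * (x : G) * g⁻¹ ∈ H := by
      rw [← hPH]
      exact conj_mem_of_smul_eq hg (hQ (Subgroup.mem_zpowers _))
    have hHz : H = Subgroup.zpowers (g * (x : G) * g⁻¹) := by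
      symm
      apply Subgroup.eq_of_le_of_card_ge
      · rwa [Subgroup.zpowers_le]
      · rw [Nat.card_zpowers]
        have h1 : orderOf (g * (x : G) * g⁻¹) = orderOf (x : G) := by
          have := (MulAut.conj g).orderOf_eq (x : G)
          simpa using this
        rw [h1, Subgroup.orderOf_coe, hx]
    set L := R'.map (MulAut.conj g).toMonoidHom with hL
    have hLK : L ≤ K := by
      rintro _ ⟨y, hy, rfl⟩
      exact hKn.conj_mem y (hR'K hy) g
    have hLbot : L ≠ ⊥ := by
      intro h
      rw [hL, Subgroup.map_eq_bot_iff_of_injective _ (MulAut.conj g).injective] at h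
      exact hR'bot h
    have hHL : H ≤ Subgroup.normalizer (L : Set G) := by
      rw [hHz, Subgroup.zpowers_le, Subgroup.mem_normalizer_iff]
      have hxn := x.2
      rw [Subgroup.mem_normalizer_iff] at hxn
      have hmem : ∀ z, z ∈ L ↔ g⁻¹ * z * g ∈ R' := by
        intro z
        constructor
        · rintro ⟨y, hy, rfl⟩
          have : g⁻¹ * ((MulAut.conj g).toMonoidHom y) * g = y := by
            simp [mul_assoc]
          rw [this]; exact hy
        · intro hz
          exact ⟨_, hz, by simp [mul_assoc]⟩
      intro z
      rw [hmem, hmem, hxn]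
      have : (x : G) * (g⁻¹ * z * g) * (x : G)⁻¹ = g⁻¹ * (g * (x : G) * g⁻¹ * z * (g * (x : G) * g⁻¹)⁻¹) * g := by
        group
      rw [this]
    have hLeq := hinv L hLK hHL hLbot
    -- K is an r-group
    have hKr : IsPGroup r K := by
      rw [← hLeq, hL]
      exact (R.2.map K.subtype).map _
    have hKnt : Nontrivial K := by
      rw [← hTeq]; exact hT.toNontrivial
    have hcen := hKr.center_nontrivial
    have hTs : IsSimpleGroup K := by rw [← hTeq]; exact hT
    rcases hTs.eq_bot_or_eq_top_of_normal (Subgroup.center K) inferInstance with h | h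
    · rw [h] at hcen
      exact not_subsingleton _ (inferInstance : Subsingleton (⊥ : Subgroup K))
    · apply hTc
      rw [hTeq]
      refine ⟨⟨fun a b => ?_⟩⟩
      have : b ∈ Subgroup.center K := by rw [h]; trivial
      exact Subgroup.mem_center_iff.mp this a

end Cfsg.Agent.S3498
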