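import Cfsg.Statements.S3504
import Mathlib

set_option autoImplicit false
open Cfsg

namespace Cfsg.Agent.S3504

/-- fixed-point-free permutations of prime order: cycle type -/
theorem cycleType_of {n : ℕ} {g : Equiv.Perm (Fin n)} (hp : (orderOf g).Prime) (hf : ∀ i, g i ≠ i) :
    orderOf g ∣ n ∧ g.cycleType = Multiset.replicate (n / orderOf g) (orderOf g) := by
  obtain ⟨k, hk⟩ := Equiv.Perm.cycleType_prime_order hp
  have hs := Equiv.Perm.sum_cycleType g
  have hsup : g.support = Finset.univ := by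
    rw [Finset.eq_univ_iff_forall]
    intro i
    rw [Equiv.Perm.mem_support]
    exact hf i
  rw [hsup, hk, Multiset.sum_replicate, smul_eq_mul, Finset.card_univ, Fintype.card_fin] at hs
  refine ⟨Dvd.intro_left _ hs, ?_⟩
  have h2 : n / orderOf g = k + 1 := by
    apply Nat.div_eq_of_eq_mul_left hp.pos
    exact hs.symm
  rw [h2, hk]

theorem exists_perm {n p : ℕ} (hn : 0 < n) (hp : p.Prime) (hd : p ∣ n) :
    ∃ g : Equiv.Perm (Fin n), orderOf g = p ∧ ∀ i, g i ≠ i := by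
  obtain ⟨k, hk⟩ := hd
  have hkpos : 0 < k := by
    rcases Nat.eq_zero_or_pos k with h | h
    · rw [h, mul_zero] at hk; omega
    · exact h
  obtain ⟨g, hg⟩ := (Equiv.Perm.exists_with_cycleType_iff (Fin n) (m := Multiset.replicate k p)).mpr (by
    refine ⟨?_, ?_⟩
    · rw [Multiset.sum_replicate, smul_eq_mul, Fintype.card_fin, hk, mul_comm]
    · intro a ha
      rw [Multiset.eq_of_mem_replicate ha]
      exact hp.two_le)
  refine ⟨g, ?_, ?_⟩
  · rw [← Equiv.Perm.lcm_cycleType, hg]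
    obtain ⟨j, rfl⟩ := Nat.exists_eq_succ_of_ne_zero hkpos.ne'
    rw [Multiset.replicate_succ, Multiset.lcm_cons]
    have h1 : (Multiset.replicate j p).lcm ∣ p := by
      rw [Multiset.lcm_dvd]
      intro b hb
      rw [Multiset.eq_of_mem_replicate hb]
    exact Nat.dvd_antisymm (Nat.lcm_dvd dvd_rfl h1) (Nat.dvd_lcm_left _ _)
  · have hs := Equiv.Perm.sum_cycleType g
    rw [hg, Multiset.sum_replicate, smul_eq_mul] at hs
    have h1 : g.support = Finset.univ := by
      apply Finset.eq_univ_of_card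
      rw [← hs, Fintype.card_fin, hk, mul_comm]
    intro i
    rw [← Equiv.Perm.mem_support, h1]
    exact Finset.mem_univ i

theorem result (n : ℕ) (hn : 5 ≤ n) :
    Nat.card {c : ConjClasses (Equiv.Perm (Fin n)) // ∃ g : Equiv.Perm (Fin n), ConjClasses.mk g = c ∧ (orderOf g).Prime ∧ ∀ i : Fin n, g i ≠ i} = 1 ↔ IsPrimePow n := by
  rw [isPrimePow_iff_unique_prime_dvd, Nat.card_eq_one_iff_unique]
  constructor
  · rintro ⟨hss, ⟨_⟩⟩
    obtain ⟨p, hp, hpd⟩ := Nat.exists_prime_and_dvd (show n ≠ 1 by omega)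
    refine ⟨p, ⟨hp, hpd⟩, ?_⟩
    rintro q ⟨hq, hqd⟩
    obtain ⟨g, hg, hgf⟩ := exists_perm (by omega) hp hpd
    obtain ⟨g', hg', hgf'⟩ := exists_perm (by omega) hq hqd
    have h1 := hss.elim ⟨ConjClasses.mk g, g, rfl, by rw [hg]; exact hp, hgf⟩
      ⟨ConjClasses.mk g', g', rfl, by rw [hg']; exact hq, hgf'⟩
    have h2 := congrArg Subtype.val h1
    simp only at h2
    rw [ConjClasses.mk_eq_mk_iff_isConj, isConj_iff] at h2
    obtain ⟨c, hc⟩ := h2
    have h3 := (MulAut.conj c).orderOf_eq g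
    rw [MulAut.conj_apply, hc, hg', hg] at h3
    exact h3
  · rintro ⟨p, ⟨hp, hpd⟩, huniq⟩
    constructor
    · constructor
      rintro ⟨_, g, rfl, hg, hgf⟩ ⟨_, g', rfl, hg', hgf'⟩
      apply Subtype.ext
      simp only
      rw [ConjClasses.mk_eq_mk_iff_isConj, Equiv.Perm.isConj_iff_cycleType_eq]
      obtain ⟨h1, h2⟩ := cycleType_of hg hgf
      obtain ⟨h3, h4⟩ := cycleType_of hg' hgf'
      have h5 := huniq _ ⟨hg, h1⟩
      have h6 := huniq _ ⟨hg', h3⟩
      rw [h2, h4, h5, h6]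
    · obtain ⟨g, hg, hgf⟩ := exists_perm (by omega) hp hpd
      exact ⟨⟨ConjClasses.mk g, g, rfl, by rw [hg]; exact hp, hgf⟩⟩

end Cfsg.Agent.S3504
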