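import Cfsg.Statements.S3508
import Mathlib

set_option autoImplicit false
open Cfsg

namespace Cfsg.Agent.S3508

theorem geom_eq (p s : ℕ) [Fact p.Prime] :
    (∑ i ∈ Finset.range (p ^ s), (Polynomial.X : Polynomial (ZMod p)) ^ i) = (Polynomial.X - 1) ^ (p ^ s - 1) := by
  have hpos : 0 < p ^ s := pow_pos (Fact.out : p.Prime).pos s
  have hne : (Polynomial.X - 1 : Polynomial (ZMod p)) ≠ 0 := by
    have := Polynomial.X_sub_C_ne_zero (1 : ZMod p)
    simpa using this
  apply mul_right_cancel₀ hne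
  rw [geom_sum_mul, ← pow_succ, Nat.sub_add_cancel hpos, sub_pow_char_pow, one_pow]

theorem lin (p r m : ℕ) [Fact p.Prime] {V : Type*} [AddCommGroup V] [Module (ZMod p) V] [Finite V]
    (hV : Nat.card V = p ^ m) (φ : Module.End (ZMod p) V) (hφ : φ ^ (p ^ r) = 1)
    (hq : m < p ^ (r - 1)) :
    (∑ i ∈ Finset.range (p ^ (r - 1)), φ ^ i = 0) ∧ φ ^ (p ^ (r - 1)) = 1 := by
  have hp : p.Prime := Fact.out
  have hfd : Module.Finite (ZMod p) V := Module.Finite.of_finite
  have hfr : Module.finrank (ZMod p) V = m := by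
    have h1 := Module.natCard_eq_pow_finrank (K := ZMod p) (V := V)
    rw [Nat.card_zmod, hV] at h1
    exact (Nat.pow_right_injective hp.two_le h1).symm
  have hnil : (φ - 1) ^ (p ^ r) = 0 := by
    rcases subsingleton_or_nontrivial V with h | h
    · apply LinearMap.ext
      intro n
      exact Subsingleton.elim _ _
    · have : CharP (Module.End (ZMod p) V) p :=
        charP_of_injective_algebraMap (algebraMap (ZMod p) (Module.End (ZMod p) V)).injective p
      rw [sub_pow_char_pow_of_commute p r (Commute.one_right φ), one_pow, hφ, sub_self]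
  have hnil2 : (φ - 1) ^ m = 0 := by
    have h1 := Module.End.ker_pow_le_ker_pow_finrank (φ - 1) (p ^ r)
    rw [hnil, hfr] at h1
    apply LinearMap.ext
    intro n
    exact h1 (by simp)
  have hgeom : ∑ i ∈ Finset.range (p ^ (r - 1)), φ ^ i = 0 := by
    have h1 := congrArg (Polynomial.aeval φ) (geom_eq p (r - 1))
    rw [map_sum] at h1
    simp only [map_pow, Polynomial.aeval_X, map_sub, map_one] at h1
    rw [h1]
    obtain ⟨j, hj⟩ := Nat.exists_eq_add_of_le (show m ≤ p ^ (r - 1) - 1 by omega)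
    rw [hj, pow_add, hnil2, zero_mul]
  refine ⟨hgeom, ?_⟩
  have h1 : (φ ^ (p ^ (r - 1)) - 1) = (∑ i ∈ Finset.range (p ^ (r - 1)), φ ^ i) * (φ - 1) := by
    rw [geom_sum_mul]
  rw [hgeom, zero_mul, sub_eq_zero] at h1
  exact h1

theorem addgrp (p r m : ℕ) [Fact p.Prime] {V : Type*} [AddCommGroup V] [Finite V]
    (hV : ∀ v : V, p • v = 0) (hcard : Nat.card V = p ^ m) (f : V →+ V)
    (hf : ∀ v, f^[p ^ r] v = v) (hq : m < p ^ (r - 1)) :
    (∀ v, ∑ i ∈ Finset.range (p ^ (r - 1)), f^[i] v = 0) ∧ ∀ v, f^[p ^ (r - 1)] v = v := by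
  have hmod : Module (ZMod p) V := AddCommGroup.zmodModule hV
  let φ : Module.End (ZMod p) V := AddMonoidHom.toZModLinearMap p f
  have hφk : ∀ (k : ℕ) (v : V), (φ ^ k) v = f^[k] v := by
    intro k v
    rw [Module.End.pow_apply]
    rfl
  obtain ⟨h1, h2⟩ := lin p r m (V := V) hcard φ (by
    apply LinearMap.ext
    intro v
    rw [hφk, hf]
    rfl) hq
  constructor
  · intro v
    have h3 := congrArg (fun ψ : Module.End (ZMod p) V => ψ v) h1
    simp only [LinearMap.sum_apply, hφk] at h3
    exact h3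
  · intro v
    rw [← hφk, h2]
    rfl

theorem grp (p r m : ℕ) [Fact p.Prime] {A : Type*} [CommGroup A] [Finite A]
    (hA : ∀ a : A, a ^ p = 1) (hcard : Nat.card A = p ^ m) (f : A →* A)
    (hf : ∀ a, f^[p ^ r] a = a)
    (hq : m < p ^ (r - 1)) :
    (∀ a, ∏ i ∈ Finset.range (p ^ (r - 1)), f^[i] a = 1) ∧
      ∀ a, f^[p ^ (r - 1)] a = a := by
  have hfin : Finite (Additive A) := inferInstanceAs (Finite A)
  exact addgrp p r m (V := Additive A) (fun v => hA v.toMul) hcard (MonoidHom.toAdditive f) hf hq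

theorem result {G : Type*} [Group G] [Finite G] {Ω : Type*} [Fintype Ω] [MulAction G Ω] [FaithfulSMul G Ω] (p m : ℕ) (hp : p.Prime) (hcard : Fintype.card Ω = p ^ m)
    (N : Subgroup G) [N.Normal] (hNc : IsMulCommutative N) (hNp : ∀ n ∈ N, n ^ p = 1)
    (hNtr : MulAction.IsPretransitive N Ω) (hNreg : ∀ ω : Ω, MulAction.stabilizer N ω = ⊥)
    (g : G) (r : ℕ) (hr : 1 ≤ r) (hg : orderOf g = p ^ r) :
    p ^ (r - 1) ≤ m ∧ (r = m → m ≤ 2 ∧ (2 < p → m ≤ 1)) := by
  classical
  have hfact := Fact.mk hp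
  have hNe : Nonempty Ω := by
    apply Fintype.card_pos_iff.mp
    rw [hcard]; exact pow_pos hp.pos m
  obtain ⟨ω⟩ := hNe
  -- |N| = p ^ m
  have hNcard : Nat.card N = p ^ m := by
    have h2 := MulAction.index_stabilizer N ω
    rw [MulAction.orbit_eq_univ, Set.ncard_univ, hNreg, Subgroup.index_bot] at h2
    rw [h2, Nat.card_eq_fintype_card, hcard]
  have hcomm : ∀ a b : N, a * b = b * a := fun a b => hNc.is_comm.comm a b
  let hcg : CommGroup N := { (inferInstance : Group N) with mul_comm := hcomm }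
  -- conjugation
  let f : N →* N := ((MulAut.conjNormal g : MulAut N) : N →* N)
  have hf : ∀ n : N, ((f n : N) : G) = g * (n : G) * g⁻¹ := fun n => rfl
  have hfk : ∀ (k : ℕ) (n : N), ((f^[k] n : N) : G) = g ^ k * (n : G) * (g ^ k)⁻¹ := by
    intro k
    induction k with
    | zero => intro n; simp
    | succ k ih =>
      intro n
      rw [Function.iterate_succ_apply', hf, ih, pow_succ']
      group
  have key : p ^ (r - 1) ≤ m := by
    by_contra hcon
    push Not at hcon
    obtain ⟨hgeom, hfq⟩ := grp p r m (A := N) (fun a => Subtype.ext (hNp a a.2)) hNcard f (by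
      intro a
      apply Subtype.ext
      rw [hfk, ← hg, pow_orderOf_eq_one]
      simp) hcon
    set q := p ^ (r - 1) with hq
    -- decompose g
    obtain ⟨n₀, hn₀⟩ := MulAction.exists_smul_eq N ω (g • ω)
    set x := (n₀ : G)⁻¹ * g with hx
    have hgx : g = n₀ * x := by rw [hx]; group
    have hxω : x • ω = ω := by
      rw [hx, mul_smul, ← hn₀]
      exact inv_smul_smul (n₀ : G) ω
    have hconj : ∀ n : N, x * n * x⁻¹ = g * n * g⁻¹ := by
      intro n
      have h1 : g * n * g⁻¹ ∈ N := ‹N.Normal›.conj_mem _ n.2 _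
      have h2 : (n₀ : G) * (g * n * g⁻¹) = (g * n * g⁻¹) * n₀ := congrArg Subtype.val (hcomm n₀ ⟨_, h1⟩)
      have : x * n * x⁻¹ = (n₀ : G)⁻¹ * ((g * n * g⁻¹) * n₀) := by rw [hx]; group
      rw [this, ← h2]
      group
    have hconjk : ∀ (k : ℕ) (n : N), x ^ k * n * (x ^ k)⁻¹ = g ^ k * n * (g ^ k)⁻¹ := by
      intro k
      induction k with
      | zero => intro n; simp
      | succ k ih =>
        intro n
        have h1 : g ^ k * n * (g ^ k)⁻¹ ∈ N := ‹N.Normal›.conj_mem _ n.2 _
        have h2 := hconj ⟨_, h1⟩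
        have h3 : x ^ (k + 1) * n * (x ^ (k + 1))⁻¹ = x * (x ^ k * n * (x ^ k)⁻¹) * x⁻¹ := by
          rw [pow_succ']; group
        rw [h3, ih]
        simp only at h2
        rw [h2, pow_succ']
        group
    have hprod : ∀ k : ℕ, g ^ k = ((∏ i ∈ Finset.range k, f^[i] n₀ : N) : G) * x ^ k := by
      intro k
      induction k with
      | zero => simp
      | succ k ih =>
        rw [Finset.prod_range_succ, Subgroup.coe_mul, hfk]
        have h1 := hconjk k n₀
        rw [← h1, pow_succ, ih]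
        conv_lhs => rw [hgx]
        rw [pow_succ]
        group
    have hxq : x ^ q = 1 := by
      apply FaithfulSMul.eq_of_smul_eq_smul (α := Ω)
      intro ω'
      obtain ⟨n, rfl⟩ := MulAction.exists_smul_eq N ω ω'
      have h1 := hconjk q n
      have h2 := hfk q n
      rw [hfq] at h2
      rw [← h2, mul_inv_eq_iff_eq_mul] at h1
      have h3 : x ^ q • ω = ω := by
        have : x ∈ MulAction.stabilizer G ω := hxω
        exact (MulAction.stabilizer G ω).pow_mem this q
      have h4 : n • ω = (n : G) • ω := rfl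
      rw [one_smul, h4, ← mul_smul, h1, mul_smul, h3]
    have hgq : g ^ q = 1 := by
      rw [hprod q, hgeom, hxq]
      simp
    have h1 : orderOf g ∣ q := orderOf_dvd_of_pow_eq_one hgq
    rw [hg, hq] at h1
    have h2 := Nat.le_of_dvd (pow_pos hp.pos _) h1
    have h3 : p ^ (r - 1) < p ^ r := Nat.pow_lt_pow_right hp.one_lt (by omega)
    omega
  refine ⟨key, ?_⟩
  rintro rfl
  have h2p : 2 ≤ p := hp.two_le
  have hlt : ∀ k : ℕ, 2 ≤ k → k + 1 < 2 ^ k := by
    intro k hk
    induction k, hk using Nat.le_induction with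
    | base => norm_num
    | succ k hk ih => rw [pow_succ]; omega
  constructor
  · by_contra hcon
    push Not at hcon
    have h1 := hlt (r - 1) (by omega)
    have h2 : 2 ^ (r - 1) ≤ p ^ (r - 1) := Nat.pow_le_pow_left h2p _
    omega
  · intro h3
    by_contra hcon
    push Not at hcon
    have h4 : ∀ k : ℕ, 1 ≤ k → k + 1 < 3 ^ k := by
      intro k hk
      induction k, hk using Nat.le_induction with
      | base => norm_num
      | succ k hk ih => rw [pow_succ]; omega
    have h1 := h4 (r - 1) (by omega)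
    have h2 : 3 ^ (r - 1) ≤ p ^ (r - 1) := Nat.pow_le_pow_left h3 _
    omega

end Cfsg.Agent.S3508
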