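import Cfsg.Statements.S3511
import Mathlib.RingTheory.Radical.NatInt

set_option autoImplicit false
open Cfsg

namespace Cfsg.Agent.S3511

theorem result {G : Type*} [Group G] [Finite G] {Ω : Type*} [MulAction G Ω] [FaithfulSMul G Ω]
    (h : ∀ g : G, Squarefree (orderOf g) → ∃ ω : Ω, MulAction.stabilizer (Subgroup.zpowers g) ω = ⊥) (g : G) :
    ∃ ω : Ω, MulAction.stabilizer (Subgroup.zpowers g) ω = ⊥ := by
  classical
  set n := orderOf g with hn
  have hnpos : 0 < n := orderOf_pos g
  -- r = radical of n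
  set r := UniqueFactorizationMonoid.radical n with hr
  have hrn : r ∣ n := UniqueFactorizationMonoid.radical_dvd_self
  have hrpos : 0 < r := Nat.pos_of_dvd_of_pos hrn hnpos
  obtain ⟨m, hm⟩ := hrn
  have hmpos : 0 < m := by
    rcases Nat.eq_zero_or_pos m with h0 | h0
    · rw [h0] at hm; omega
    · exact h0
  have hord : orderOf (g ^ m) = r := by
    rw [orderOf_pow_of_dvd hmpos.ne' (by rw [← hn, hm]; exact Dvd.intro_left r rfl), ← hn, hm]
    exact Nat.mul_div_cancel _ hmpos
  have hsq : Squarefree r := by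
    rw [hr]
    exact UniqueFactorizationMonoid.squarefree_radical
  obtain ⟨ω, hω⟩ := h (g ^ m) (by rw [hord]; exact hsq)
  refine ⟨ω, ?_⟩
  by_contra hne
  -- stabilizer nontrivial: has an element of prime order
  have hcard : Nat.card (MulAction.stabilizer (Subgroup.zpowers g) ω) ≠ 1 := by
    intro h1
    exact hne (Subgroup.card_eq_one.mp h1)
  set p := (Nat.card (MulAction.stabilizer (Subgroup.zpowers g) ω)).minFac with hp
  have hpp : p.Prime := Nat.minFac_prime hcard
  have := Fact.mk hpp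
  obtain ⟨x, hx⟩ := exists_prime_orderOf_dvd_card' (G := MulAction.stabilizer (Subgroup.zpowers g) ω) p (Nat.minFac_dvd _)
  have hxG : orderOf ((x : Subgroup.zpowers g) : G) = p := by
    rw [Subgroup.orderOf_coe, Subgroup.orderOf_coe, hx]
  obtain ⟨k, hk⟩ := Subgroup.mem_zpowers_iff.mp (x : Subgroup.zpowers g).2
  have hpn : p ∣ n := by
    have h1 : orderOf (x : Subgroup.zpowers g) ∣ Nat.card (Subgroup.zpowers g) := orderOf_dvd_natCard _
    rw [Subgroup.orderOf_coe, hx, Nat.card_zpowers] at h1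
    exact h1
  have hpr : p ∣ r := by
    rw [hr]
    exact (UniqueFactorizationMonoid.dvd_radical_iff_of_irreducible hpp hnpos.ne').mpr hpn
  obtain ⟨r', hr'⟩ := hpr
  have hkp : (n : ℤ) ∣ k * p := by
    rw [hn, orderOf_dvd_iff_zpow_eq_one, zpow_mul, hk, zpow_natCast, ← hxG]
    exact pow_orderOf_eq_one _
  have hmk : (m : ℤ) ∣ k := by
    have h1 : ((r' * m : ℕ) : ℤ) * p ∣ k * p := by
      have : ((r' * m : ℕ) : ℤ) * p = n := by
        rw [hm, hr']; push_cast; ring
      rw [this]; exact hkp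
    have h2 : ((r' * m : ℕ) : ℤ) ∣ k := by
      apply Int.dvd_of_mul_dvd_mul_right _ h1
      exact_mod_cast hpp.ne_zero
    refine dvd_trans ?_ h2
    push_cast
    exact dvd_mul_left _ _
  obtain ⟨j, hj⟩ := hmk
  have hxmem : ((x : Subgroup.zpowers g) : G) ∈ Subgroup.zpowers (g ^ m) := by
    refine Subgroup.mem_zpowers_iff.mpr ⟨j, ?_⟩
    rw [← hk, hj, zpow_mul, zpow_natCast]
  have hst : (⟨_, hxmem⟩ : Subgroup.zpowers (g ^ m)) ∈ MulAction.stabilizer (Subgroup.zpowers (g ^ m)) ω := by
    have := x.2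
    rw [MulAction.mem_stabilizer_iff] at this ⊢
    exact this
  rw [hω, Subgroup.mem_bot] at hst
  have h1 : ((x : Subgroup.zpowers g) : G) = 1 := congrArg Subtype.val hst
  rw [h1, orderOf_one] at hxG
  exact hpp.one_lt.ne hxG

end Cfsg.Agent.S3511
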