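import Cfsg.Statements.S3514

set_option autoImplicit false
open Cfsg

namespace Cfsg.Agent.S3514

theorem relIndex_sup_normal {G : Type*} [Group G] [Finite G] (N S : Subgroup G) [N.Normal] :
    S.relIndex (N ⊔ S) = S.relIndex N := by
  have h1 : Nat.card S * S.relIndex (N ⊔ S) = Nat.card (N ⊔ S : Subgroup G) := by
    have := Subgroup.relIndex_mul_relIndex ⊥ S (N ⊔ S) bot_le le_sup_right
    rwa [Subgroup.relIndex_bot_left, Subgroup.relIndex_bot_left] at this
  have h2 : Nat.card N * N.relIndex (N ⊔ S) = Nat.card (N ⊔ S : Subgroup G) := by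
    have := Subgroup.relIndex_mul_relIndex ⊥ N (N ⊔ S) bot_le le_sup_left
    rwa [Subgroup.relIndex_bot_left, Subgroup.relIndex_bot_left] at this
  rw [Subgroup.relIndex_sup_left] at h2
  have h3 : Nat.card (N ⊓ S : Subgroup G) * N.relIndex S = Nat.card S := by
    have := Subgroup.relIndex_mul_relIndex ⊥ (N ⊓ S) S bot_le inf_le_right
    rwa [Subgroup.relIndex_bot_left, Subgroup.relIndex_bot_left, Subgroup.inf_relIndex_right] at this
  have h4 : Nat.card (N ⊓ S : Subgroup G) * S.relIndex N = Nat.card N := by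
    have := Subgroup.relIndex_mul_relIndex ⊥ (N ⊓ S) N bot_le inf_le_left
    rwa [Subgroup.relIndex_bot_left, Subgroup.relIndex_bot_left, Subgroup.inf_relIndex_left] at this
  have hpos : 0 < Nat.card S := Nat.card_pos
  apply Nat.eq_of_mul_eq_mul_left hpos
  rw [h1, ← h2, ← h4, ← h3]
  ring

theorem relIndex_sup_of_le_normalizer {G : Type*} [Group G] [Finite G] (N S : Subgroup G)
    (h : S ≤ Subgroup.normalizer (N : Set G)) :
    S.relIndex (N ⊔ S) = S.relIndex N := by
  have hn : (N.subgroupOf (N ⊔ S)).Normal := by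
    rw [Subgroup.normal_subgroupOf_iff_le_normalizer le_sup_left]
    exact sup_le Subgroup.le_normalizer h
  have := relIndex_sup_normal (N.subgroupOf (N ⊔ S)) (S.subgroupOf (N ⊔ S))
  rw [Subgroup.relIndex_subgroupOf le_sup_left] at this
  rw [← this, ← Subgroup.subgroupOf_sup le_sup_left le_sup_right, Subgroup.subgroupOf_self,
    Subgroup.relIndex_top_right]
  rfl

theorem card_orbit {p : ℕ} {V : Type*} [AddCommGroup V] [Module (ZMod p) V]
    (K : Subgroup (V ≃ₗ[ZMod p] V)) (v : V) :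
    Nat.card {u : V | ∃ k ∈ K, k v = u} =
      (MulAction.stabilizer (V ≃ₗ[ZMod p] V) v).relIndex K := by
  have h1 : {u : V | ∃ k ∈ K, k v = u} = MulAction.orbit K v := by
    ext u
    constructor
    · rintro ⟨k, hk, rfl⟩
      exact ⟨⟨k, hk⟩, rfl⟩
    · rintro ⟨⟨k, hk⟩, rfl⟩
      exact ⟨k, hk, rfl⟩
  rw [h1]
  have h2 : (MulAction.stabilizer (V ≃ₗ[ZMod p] V) v).subgroupOf K = MulAction.stabilizer K v := by
    ext x
    rfl
  rw [Subgroup.relIndex, h2, MulAction.index_stabilizer]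
  rfl

theorem result (p : ℕ) [Fact p.Prime] {V : Type*} [AddCommGroup V] [Module (ZMod p) V] [Finite V]
    (H : Subgroup (V ≃ₗ[ZMod p] V)) (hH : ∀ v : V, ¬ p ∣ Nat.card {u : V | ∃ h ∈ H, h v = u}) :
    (∀ K : Subgroup (V ≃ₗ[ZMod p] V), K ≤ H → H ≤ Subgroup.normalizer (K : Set (V ≃ₗ[ZMod p] V)) →
        ∀ v : V, ¬ p ∣ Nat.card {u : V | ∃ k ∈ K, k v = u}) ∧
    (∀ N : Subgroup (V ≃ₗ[ZMod p] V), ¬ p ∣ Nat.card N → H ≤ Subgroup.normalizer (N : Set (V ≃ₗ[ZMod p] V)) →
        ∀ v : V, ¬ p ∣ Nat.card {u : V | ∃ x ∈ N ⊔ H, x v = u}) := by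
  have hfin : Finite (V ≃ₗ[ZMod p] V) := 
    Finite.of_injective (fun f : V ≃ₗ[ZMod p] V => (f : V → V)) DFunLike.coe_injective
  have hp : p.Prime := Fact.out
  constructor
  · intro K hKH hn v hdvd
    apply hH v
    rw [card_orbit] at hdvd ⊢
    set S := MulAction.stabilizer (V ≃ₗ[ZMod p] V) v
    have h1 : S.relIndex K = (S ⊓ H).relIndex K := by
      rw [← Subgroup.inf_relIndex_right S K, ← Subgroup.inf_relIndex_right (S ⊓ H) K, inf_assoc,
        inf_eq_right.mpr hKH]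
    have h2 : (S ⊓ H).relIndex K = (S ⊓ H).relIndex (K ⊔ (S ⊓ H)) := by
      rw [relIndex_sup_of_le_normalizer]
      exact inf_le_right.trans hn
    have h3 : (S ⊓ H).relIndex (K ⊔ (S ⊓ H)) * (K ⊔ (S ⊓ H)).relIndex H = (S ⊓ H).relIndex H :=
      Subgroup.relIndex_mul_relIndex _ _ _ le_sup_right (sup_le hKH inf_le_right)
    rw [← Subgroup.inf_relIndex_right, ← h3, ← h2, ← h1]
    exact Dvd.dvd.mul_right hdvd _
  · intro N hN hn v hdvd
    rw [card_orbit] at hdvd
    set S := MulAction.stabilizer (V ≃ₗ[ZMod p] V) v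
    have h0 : ¬ p ∣ S.relIndex H := by
      rw [← card_orbit]; exact hH v
    have h1 : (S ⊓ H).relIndex H * H.relIndex (N ⊔ H) = (S ⊓ H).relIndex (N ⊔ H) :=
      Subgroup.relIndex_mul_relIndex _ _ _ inf_le_right le_sup_right
    rw [relIndex_sup_of_le_normalizer _ _ hn, Subgroup.inf_relIndex_right] at h1
    have h2 : H.relIndex N ∣ Nat.card N := by
      rw [← Subgroup.relIndex_bot_left]
      exact Subgroup.relIndex_dvd_of_le_left _ bot_le
    have h3 : S.relIndex (N ⊔ H) ∣ (S ⊓ H).relIndex (N ⊔ H) :=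
      Subgroup.relIndex_dvd_of_le_left _ inf_le_left
    have h4 : p ∣ S.relIndex H * H.relIndex N := by
      rw [h1]; exact hdvd.trans h3
    rcases hp.dvd_mul.mp h4 with h5 | h5
    · exact h0 h5
    · exact hN (h5.trans h2)

end Cfsg.Agent.S3514
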