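import Cfsg.Statements.S3516

set_option autoImplicit false
open Cfsg

namespace Cfsg.Agent.S3516

/-- A permutation of a vector space over `ZMod p`, `p` odd, agreeing on every triple with some
affine map is affine. -/
theorem affine_of_triples (p : ℕ) [Fact p.Prime] (hp : p ≠ 2) (d : ℕ)
    (σ : Equiv.Perm (Fin d → ZMod p))
    (h : ∀ t : Fin 3 → (Fin d → ZMod p), ∃ (A : (Fin d → ZMod p) ≃ₗ[ZMod p] (Fin d → ZMod p)) (b : Fin d → ZMod p),
      ∀ i, σ (t i) = A (t i) + b) :
    ∃ (A : (Fin d → ZMod p) ≃ₗ[ZMod p] (Fin d → ZMod p)) (b : Fin d → ZMod p), ∀ x, σ x = A x + b := by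
  have h2 : (2 : ZMod p) ≠ 0 := by
    have : ((2 : ℕ) : ZMod p) ≠ 0 := by
      rw [Ne, ZMod.natCast_eq_zero_iff]
      intro hd
      exact hp ((Nat.prime_dvd_prime_iff_eq Fact.out Nat.prime_two).mp hd)
    exact_mod_cast this
  -- affine combinations are preserved
  have key : ∀ (x y : Fin d → ZMod p) (s : ZMod p),
      σ (x + s • (y - x)) = σ x + s • (σ y - σ x) := by
    intro x y s
    obtain ⟨A, b, hA⟩ := h ![x, y, x + s • (y - x)]
    have h0 := hA 0
    have h1 := hA 1
    have h2 := hA 2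
    simp at h0 h1 h2
    rw [h0, h1, h2]
    simp only [smul_sub, smul_add]
    (module)
  let L : (Fin d → ZMod p) → (Fin d → ZMod p) := fun x => σ x - σ 0
  have hLs : ∀ (s : ZMod p) x, L (s • x) = s • L x := by
    intro s x
    have := key 0 x s
    simp only [L]
    simp at this
    rw [this]
    (module)
  have hLa : ∀ x y, L (x + y) = L x + L y := by
    intro x y
    have h1 := key x y (2⁻¹)
    have h3 : x + (2⁻¹ : ZMod p) • (y - x) = (2⁻¹ : ZMod p) • (x + y) := by
      have : x = (2⁻¹ : ZMod p) • x + (2⁻¹ : ZMod p) • x := by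
        rw [← add_smul]
        have : (2⁻¹ : ZMod p) + 2⁻¹ = 1 := by
          rw [← two_mul, mul_inv_cancel₀ h2]
        rw [this, one_smul]
      nth_rw 1 [this]
      (module)
    rw [h3] at h1
    have h4 : L ((2⁻¹ : ZMod p) • (x + y)) = (2⁻¹ : ZMod p) • (L x + L y) := by
      simp only [L]
      rw [h1]
      have : σ x = (2⁻¹ : ZMod p) • σ x + (2⁻¹ : ZMod p) • σ x := by
        rw [← add_smul]
        have : (2⁻¹ : ZMod p) + 2⁻¹ = 1 := by
          rw [← two_mul, mul_inv_cancel₀ h2]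
        rw [this, one_smul]
      nth_rw 1 [this]
      have : σ 0 = (2⁻¹ : ZMod p) • σ 0 + (2⁻¹ : ZMod p) • σ 0 := by
        rw [← add_smul]
        have : (2⁻¹ : ZMod p) + 2⁻¹ = 1 := by
          rw [← two_mul, mul_inv_cancel₀ h2]
        rw [this, one_smul]
      nth_rw 1 [this]
      (module)
    rw [hLs] at h4
    have h5 := congrArg (fun z => (2 : ZMod p) • z) h4
    simp only [smul_smul, mul_inv_cancel₀ h2, one_smul] at h5
    exact h5
  let Ll : (Fin d → ZMod p) →ₗ[ZMod p] (Fin d → ZMod p) :=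
    { toFun := L, map_add' := hLa, map_smul' := fun s x => hLs s x }
  have hinj : Function.Injective Ll := by
    intro x y hxy
    have : σ x - σ 0 = σ y - σ 0 := hxy
    exact σ.injective (sub_left_injective this)
  refine ⟨LinearEquiv.ofInjectiveEndo Ll hinj, σ 0, ?_⟩
  intro x
  change σ x = (σ x - σ 0) + σ 0
  abel

theorem result (p : ℕ) [Fact p.Prime] (hp : p ≠ 2) (d : ℕ) (hd : 3 ≤ d) (G : Subgroup (Equiv.Perm (Fin d → ZMod p)))
    (haff : (G : Set (Equiv.Perm (Fin d → ZMod p))) ⊆ {τ : Equiv.Perm (Fin d → ZMod p) | ∃ (A : (Fin d → ZMod p) ≃ₗ[ZMod p] (Fin d → ZMod p)) (b : Fin d → ZMod p), ∀ x, τ x = A x + b})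
    (htrans : ∀ b : Fin d → ZMod p, ∃ g ∈ G, ∀ x, g x = x + b)
    (hsl : ∀ A : (Fin d → ZMod p) ≃ₗ[ZMod p] (Fin d → ZMod p), LinearMap.det (A : (Fin d → ZMod p) →ₗ[ZMod p] (Fin d → ZMod p)) = 1 → ∃ g ∈ G, ∀ x, g x = A x)
    (σ : Equiv.Perm (Fin d → ZMod p)) :
    (∀ t : Fin 3 → (Fin d → ZMod p), ∃ g ∈ G, ∀ i, σ (t i) = g (t i)) ↔ σ ∈ {τ : Equiv.Perm (Fin d → ZMod p) | ∃ (A : (Fin d → ZMod p) ≃ₗ[ZMod p] (Fin d → ZMod p)) (b : Fin d → ZMod p), ∀ x, τ x = A x + b} := by
  constructor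
  · intro h
    apply affine_of_triples p hp d σ
    intro t
    obtain ⟨g, hg, hgt⟩ := h t
    obtain ⟨A, b, hA⟩ := haff hg
    exact ⟨A, b, fun i => by rw [hgt i, hA]⟩
  · rintro ⟨A, b, hA⟩ t
    -- a functional vanishing on the differences
    set W : Submodule (ZMod p) (Fin d → ZMod p) := Submodule.span (ZMod p) {t 1 - t 0, t 2 - t 0} with hW
    have hWlt : W < ⊤ := by
      apply Submodule.lt_top_of_finrank_lt_finrank
      have h1 : Module.finrank (ZMod p) W ≤ 2 := by
        have := finrank_span_finset_le_card (R := ZMod p) ({t 1 - t 0, t 2 - t 0} : Finset (Fin d → ZMod p))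
        have h2 : ({t 1 - t 0, t 2 - t 0} : Finset (Fin d → ZMod p)).card ≤ 2 := Finset.card_le_two
        rw [Finset.coe_pair] at this
        exact this.trans h2
      have h2 : Module.finrank (ZMod p) (Fin d → ZMod p) = d := by simp
      omega
    obtain ⟨f, hf0, hfW⟩ := Submodule.exists_le_ker_of_lt_top W hWlt
    obtain ⟨v, hv⟩ : ∃ v, f v ≠ 0 := by
      by_contra hcon
      push Not at hcon
      exact hf0 (LinearMap.ext hcon)
    set a : ZMod p := LinearMap.det (A : (Fin d → ZMod p) →ₗ[ZMod p] (Fin d → ZMod p)) with ha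
    have ha0 : a ≠ 0 := by
      rw [ha]
      exact A.isUnit_det'.ne_zero
    set w : Fin d → ZMod p := ((a⁻¹ - 1) * (f v)⁻¹) • v with hw
    have hfw : f w = a⁻¹ - 1 := by
      rw [hw, map_smul, smul_eq_mul, mul_assoc, inv_mul_cancel₀ hv, mul_one]
    have hdet : LinearMap.det (LinearMap.transvection f w) = a⁻¹ := by
      rw [LinearMap.transvection.det, hfw]
      ring
    have hunit : IsUnit (1 + f w) := by
      have : (1 : ZMod p) + f w = a⁻¹ := by rw [hfw]; ring
      rw [this]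
      exact (inv_ne_zero ha0).isUnit
    set B : (Fin d → ZMod p) ≃ₗ[ZMod p] (Fin d → ZMod p) := LinearEquiv.dilatransvection hunit with hB
    have hBdet : LinearMap.det ((B.trans A : (Fin d → ZMod p) ≃ₗ[ZMod p] (Fin d → ZMod p)) : (Fin d → ZMod p) →ₗ[ZMod p] (Fin d → ZMod p)) = 1 := by
      rw [LinearEquiv.coe_trans, LinearMap.det_comp, hB, LinearEquiv.dilatransvection.coe_toLinearMap, hdet, ← ha,
        mul_inv_cancel₀ ha0]
    have hBfix : ∀ x ∈ W, B x = x := by
      intro x hx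
      have : f x = 0 := hfW hx
      rw [hB, LinearEquiv.dilatransvection.apply, this, zero_smul, add_zero]
    obtain ⟨g, hg, hgx⟩ := hsl _ hBdet
    obtain ⟨g', hg', hgx'⟩ := htrans (A (t 0) + b - A (B (t 0)))
    refine ⟨g' * g, G.mul_mem hg' hg, ?_⟩
    intro i
    rw [Equiv.Perm.mul_apply, hgx', hgx, hA]
    have hmem : t i - t 0 ∈ W := by
      fin_cases i
      · simp
      · exact Submodule.subset_span (by simp)
      · exact Submodule.subset_span (by simp)
    have h1 := hBfix _ hmem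
    have h2 := congrArg A h1
    rw [map_sub, map_sub, map_sub] at h2
    have h3 : (B.trans A) (t i) = A (B (t i)) := rfl
    rw [h3]
    have h4 : A (B (t i)) = A (t i) - A (t 0) + A (B (t 0)) := by
      rw [← h2]; abel
    rw [h4]
    abel

end Cfsg.Agent.S3516
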