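import Cfsg.Statements.S3515
import Cfsg.Agent.S3516

set_option autoImplicit false
open Cfsg

namespace Cfsg.Agent.S3515

theorem aux_all : ∀ x : Fin 2 → ZMod 2, x = 0 ∨ x = Pi.single 0 1 ∨ x = Pi.single 1 1 ∨ x = 1 := by
  decide

theorem aux1 : (1 : Fin 2 → ZMod 2) ≠ 0 := by decide

theorem aux2 : (1 : Fin 2 → ZMod 2) ≠ Pi.single 0 1 := by decide

theorem aux3 : (1 : Fin 2 → ZMod 2) ≠ Pi.single 1 1 := by decide

theorem result (p : ℕ) [Fact p.Prime] (G : Subgroup (Equiv.Perm (Fin 2 → ZMod p)))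
    (haff : (G : Set (Equiv.Perm (Fin 2 → ZMod p))) ⊆ {τ : Equiv.Perm (Fin 2 → ZMod p) | ∃ (A : (Fin 2 → ZMod p) ≃ₗ[ZMod p] (Fin 2 → ZMod p)) (b : Fin 2 → ZMod p), ∀ x, τ x = A x + b})
    (htrans : ∀ b : Fin 2 → ZMod p, ∃ g ∈ G, ∀ x, g x = x + b) (hprim : MulAction.IsPreprimitive G (Fin 2 → ZMod p))
    (σ : Equiv.Perm (Fin 2 → ZMod p)) (hσ : (∀ t : Fin 3 → (Fin 2 → ZMod p), ∃ g ∈ G, ∀ i, σ (t i) = g (t i))) : σ ∈ G := by
  obtain ⟨g, hg, hgt⟩ := hσ ![0, Pi.single 0 1, Pi.single 1 1]
  have hg0 : σ 0 = g 0 := by simpa using hgt 0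
  have hg1 : σ (Pi.single 0 1) = g (Pi.single 0 1) := by simpa using hgt 1
  have hg2 : σ (Pi.single 1 1) = g (Pi.single 1 1) := by simpa using hgt 2
  suffices σ = g by rw [this]; exact hg
  by_cases hp : p = 2
  · subst hp
    -- four points
    have hall := aux_all
    have h1 : σ 1 = g 1 := by
      have hfix : ∀ x, x ≠ 1 → (g⁻¹ * σ) x = x := by
        intro x hx
        rcases hall x with h | h | h | h
        · rw [h, Equiv.Perm.mul_apply, hg0]; simp
        · rw [h, Equiv.Perm.mul_apply, hg1]; simp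
        · rw [h, Equiv.Perm.mul_apply, hg2]; simp
        · exact absurd h hx
      have : (g⁻¹ * σ) 1 = 1 := by
        by_contra hcon
        have h2 := hfix _ hcon
        exact hcon ((g⁻¹ * σ).injective h2)
      rw [Equiv.Perm.mul_apply, Equiv.Perm.inv_eq_iff_eq] at this
      exact this
    ext1 x
    rcases hall x with h | h | h | h
    · rw [h]; exact hg0
    · rw [h]; exact hg1
    · rw [h]; exact hg2
    · rw [h]; exact h1
  · obtain ⟨A, b, hA⟩ := S3516.affine_of_triples p hp 2 σ (by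
      intro t
      obtain ⟨g, hg, hgt⟩ := hσ t
      obtain ⟨A, b, hA⟩ := haff hg
      exact ⟨A, b, fun i => by rw [hgt i, hA]⟩)
    obtain ⟨C, c, hC⟩ := haff hg
    have hbc : b = c := by
      have := hg0
      rw [hA, hC, map_zero, map_zero, zero_add, zero_add] at this
      exact this
    have hAC : ∀ x, A x = C x := by
      have h1 : A (Pi.single 0 1) = C (Pi.single 0 1) := by
        have := hg1
        rw [hA, hC, hbc] at this
        exact add_right_cancel this
      have h2 : A (Pi.single 1 1) = C (Pi.single 1 1) := by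
        have := hg2
        rw [hA, hC, hbc] at this
        exact add_right_cancel this
      intro x
      have hx : x = x 0 • Pi.single 0 1 + x 1 • Pi.single 1 1 := by
        ext i
        fin_cases i <;> simp
      rw [hx, map_add, map_add, map_smul, map_smul, map_smul, map_smul, h1, h2]
    ext1 x
    rw [hA, hC, hAC, hbc]

end Cfsg.Agent.S3515
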