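import Cfsg.Statements.S3517

set_option autoImplicit false
open Cfsg

namespace Cfsg.Agent.S3517

theorem exists_equiv_of_linearIndependent {K V ι : Type*} [Field K] [AddCommGroup V] [Module K V]
    [Finite ι] (v w : ι → V) (hv : LinearIndependent K v) (hw : LinearIndependent K w) :
    ∃ A : V ≃ₗ[K] V, ∀ i, A (v i) = w i := by
  classical
  let f := hv.linearCombinationEquiv.symm ≪≫ₗ hw.linearCombinationEquiv
  have : FiniteDimensional K (Submodule.span K (Set.range v)) :=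
    FiniteDimensional.span_of_finite K (Set.finite_range _)
  obtain ⟨g, hg⟩ := Submodule.exists_linearEquiv_restrict_eq f
  refine ⟨g, fun i => ?_⟩
  have q1 : (hv.linearCombinationEquiv (Finsupp.single i 1) : V) = v i := by simp
  have q2 : (hw.linearCombinationEquiv (Finsupp.single i 1) : V) = w i := by simp
  rw [← q1, ← hg, ← q2]
  simp [f]

/-- pairs -/
theorem exists_equiv_pair (d : ℕ) (u₁ u₂ w₁ w₂ : Fin d → ZMod 2)
    (h1 : u₁ = 0 ↔ w₁ = 0) (h2 : u₂ = 0 ↔ w₂ = 0) (h3 : u₁ = u₂ ↔ w₁ = w₂) :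
    ∃ A : (Fin d → ZMod 2) ≃ₗ[ZMod 2] (Fin d → ZMod 2), A u₁ = w₁ ∧ A u₂ = w₂ := by
  have hz : ∀ a : ZMod 2, a = 0 ∨ a = 1 := by decide
  have hli : ∀ x y : Fin d → ZMod 2, x ≠ 0 → y ≠ 0 → x ≠ y → LinearIndependent (ZMod 2) ![x, y] := by
    intro x y hx hy hxy
    rw [LinearIndependent.pair_iff]
    intro s t hst
    rcases hz s with rfl | rfl <;> rcases hz t with rfl | rfl
    · exact ⟨rfl, rfl⟩
    · simp at hst; exact absurd hst hy
    · simp at hst; exact absurd hst hx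
    · exfalso
      apply hxy
      rw [one_smul, one_smul] at hst
      have : x = -y := eq_neg_of_add_eq_zero_left hst
      rw [this]
      ext i
      simp
  have hli1 : ∀ x : Fin d → ZMod 2, x ≠ 0 → LinearIndependent (ZMod 2) ![x] := by
    intro x hx
    rw [linearIndependent_unique_iff]
    simpa using hx
  by_cases h10 : u₁ = 0
  · have hw10 := h1.mp h10
    by_cases h20 : u₂ = 0
    · have hw20 := h2.mp h20
      exact ⟨LinearEquiv.refl _ _, by simp [h10, hw10], by simp [h20, hw20]⟩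
    · have hw20 : w₂ ≠ 0 := fun h => h20 (h2.mpr h)
      obtain ⟨A, hA⟩ := exists_equiv_of_linearIndependent ![u₂] ![w₂] (hli1 _ h20) (hli1 _ hw20)
      exact ⟨A, by rw [h10, hw10, map_zero], by simpa using hA 0⟩
  · have hw10 : w₁ ≠ 0 := fun h => h10 (h1.mpr h)
    by_cases h20 : u₂ = 0
    · have hw20 := h2.mp h20
      obtain ⟨A, hA⟩ := exists_equiv_of_linearIndependent ![u₁] ![w₁] (hli1 _ h10) (hli1 _ hw10)
      exact ⟨A, by simpa using hA 0, by rw [h20, hw20, map_zero]⟩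
    · have hw20 : w₂ ≠ 0 := fun h => h20 (h2.mpr h)
      by_cases h12 : u₁ = u₂
      · have hw12 := h3.mp h12
        obtain ⟨A, hA⟩ := exists_equiv_of_linearIndependent ![u₁] ![w₁] (hli1 _ h10) (hli1 _ hw10)
        exact ⟨A, by simpa using hA 0, by rw [← h12, ← hw12]; simpa using hA 0⟩
      · have hw12 : w₁ ≠ w₂ := fun h => h12 (h3.mpr h)
        obtain ⟨A, hA⟩ := exists_equiv_of_linearIndependent ![u₁, u₂] ![w₁, w₂]
          (hli _ _ h10 h20 h12) (hli _ _ hw10 hw20 hw12)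
        exact ⟨A, by simpa using hA 0, by simpa using hA 1⟩

theorem result (d : ℕ) (hd : 3 ≤ d) (σ : Equiv.Perm (Fin d → ZMod 2)) (t : Fin 3 → (Fin d → ZMod 2)) :
    ∃ (A : (Fin d → ZMod 2) ≃ₗ[ZMod 2] (Fin d → ZMod 2)) (b : Fin d → ZMod 2), ∀ i, σ (t i) = A (t i) + b := by
  obtain ⟨A, hA1, hA2⟩ := exists_equiv_pair d (t 1 - t 0) (t 2 - t 0) (σ (t 1) - σ (t 0)) (σ (t 2) - σ (t 0))
    (by rw [sub_eq_zero, sub_eq_zero, σ.injective.eq_iff]) (by rw [sub_eq_zero, sub_eq_zero, σ.injective.eq_iff])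
    (by rw [sub_left_inj, sub_left_inj, σ.injective.eq_iff])
  refine ⟨A, σ (t 0) - A (t 0), ?_⟩
  intro i
  rw [map_sub] at hA1 hA2
  fin_cases i
  · simp
  · change σ (t 1) = A (t 1) + (σ (t 0) - A (t 0))
    have : A (t 1) = σ (t 1) - σ (t 0) + A (t 0) := by rw [← hA1]; abel
    rw [this]; abel
  · change σ (t 2) = A (t 2) + (σ (t 0) - A (t 0))
    have : A (t 2) = σ (t 2) - σ (t 0) + A (t 0) := by rw [← hA2]; abel
    rw [this]; abel

end Cfsg.Agent.S3517
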