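import Cfsg.Statements.S3518
import Cfsg.Agent.S0675
import Cfsg.Agent.S0547
import Mathlib.GroupTheory.GroupAction.Primitive
import Mathlib.GroupTheory.Sylow
import Mathlib.Tactic

set_option autoImplicit false

namespace Cfsg.Agent.S3518

open Cfsg

variable {p : ℕ} [Fact p.Prime]

/-- the 2-closure -/
def cl (G : Subgroup (Equiv.Perm (ZMod p))) : Subgroup (Equiv.Perm (ZMod p)) where
  carrier := {σ | ∀ x y, ∃ g ∈ G, σ x = g x ∧ σ y = g y}
  one_mem' := fun x y => ⟨1, one_mem _, rfl, rfl⟩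
  mul_mem' := by
    intro σ τ hσ hτ x y
    obtain ⟨g, hg, h1, h2⟩ := hτ x y
    obtain ⟨h, hh, h3, h4⟩ := hσ (τ x) (τ y)
    refine ⟨h * g, mul_mem hh hg, ?_, ?_⟩
    · rw [Equiv.Perm.mul_apply, Equiv.Perm.mul_apply, h3, h1]
    · rw [Equiv.Perm.mul_apply, Equiv.Perm.mul_apply, h4, h2]
  inv_mem' := by
    intro σ hσ x y
    obtain ⟨g, hg, h1, h2⟩ := hσ (σ⁻¹ x) (σ⁻¹ y)
    refine ⟨g⁻¹, inv_mem hg, ?_, ?_⟩
    · rw [Equiv.Perm.eq_inv_iff_eq, ← h1]; simp
    · rw [Equiv.Perm.eq_inv_iff_eq, ← h2]; simp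

theorem aff_unique {g h : Equiv.Perm (ZMod p)} (hg : g ∈ affineGroup (ZMod p)) (hh : h ∈ affineGroup (ZMod p))
    (h0 : g 0 = h 0) (h1 : g 1 = h 1) : g = h := by
  obtain ⟨a, b, hg⟩ := hg
  obtain ⟨c, d, hh⟩ := hh
  rw [hg, hh] at h0 h1
  have e1 : b = d := by simpa using h0
  have e2 : (a : ZMod p) = c := by rw [e1] at h1; simpa using h1
  ext x
  rw [hg, hh, e1, e2]

theorem not_sq_dvd_factorial : ¬ p ^ 2 ∣ p.factorial := by
  have hp := (Fact.out : p.Prime)
  intro h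
  obtain ⟨m, hm⟩ : ∃ m, p = m + 1 := ⟨p - 1, (Nat.succ_pred_prime hp).symm⟩
  have h1 : p.factorial = p * m.factorial := by
    conv_lhs => rw [hm, Nat.factorial_succ, ← hm]
  rw [h1, pow_two] at h
  have h2 := Nat.dvd_of_mul_dvd_mul_left hp.pos h
  have h3 := (hp.dvd_factorial).mp h2
  omega

theorem normal_solvable (K : Subgroup (Equiv.Perm (ZMod p))) [MulAction.IsPretransitive K (ZMod p)]
    (hK : Group.IsSolvable K) (t : Equiv.Perm (ZMod p)) (htK : t ∈ K) (ht : ∀ x, t x = x + 1)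
    (σ : Equiv.Perm (ZMod p)) (hσ : σ ∈ K) : ∃ k : ℤ, σ * t * σ⁻¹ = t ^ k := by
  have hp := (Fact.out : p.Prime)
  have hcard : Nat.card (ZMod p) = p := Nat.card_zmod p
  have hprim : MulAction.IsPreprimitive K (ZMod p) :=
    MulAction.IsPreprimitive.of_prime_card (by rw [hcard]; exact hp)
  have htne : t ≠ 1 := by
    intro h
    have := ht 0
    rw [h] at this
    simp at this
  have hnt : Nontrivial K := ⟨⟨⟨t, htK⟩, 1, fun h => htne (Subtype.ext_iff.mp h)⟩⟩
  -- minimal normal subgroup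
  obtain ⟨M, hMmin⟩ : ∃ M : Subgroup K, (M.Normal ∧ M ≠ ⊥) ∧ ∀ N : Subgroup K, (N.Normal ∧ N ≠ ⊥) → N ≤ M → N = M := by
    have hfin : {N : Subgroup K | N.Normal ∧ N ≠ ⊥}.Finite := Set.toFinite _
    obtain ⟨M, hM⟩ := hfin.exists_minimal ⟨⊤, inferInstance, top_ne_bot⟩
    exact ⟨M, hM.1, fun N hN hle => le_antisymm hle (hM.2 hN hle)⟩
  obtain ⟨⟨hMn, hM0⟩, hmin⟩ := hMmin
  obtain ⟨-, -, r, d, hr, hd, hrc, hMc⟩ := Cfsg.Agent.S0547.result (G := K) (Ω := ZMod p) hprim M hM0 (by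
    intro N hN hle
    by_cases h : N = ⊥
    · exact Or.inl h
    · exact Or.inr (hmin N ⟨hN, h⟩ hle))
  rw [hcard] at hrc
  rw [← hrc] at hMc
  let t' : K := ⟨t, htK⟩
  have htpow : t ^ p = 1 := by
    have h1 : ∀ (n : ℕ) (x : ZMod p), (t ^ n) x = x + n := by
      intro n
      induction n with
      | zero => intro x; simp
      | succ n ih =>
        intro x
        rw [pow_succ', Equiv.Perm.mul_apply, ih, ht]
        push_cast; ring
    ext x
    rw [h1]; simp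
  have ht'ord : orderOf t' = p := by
    apply orderOf_eq_prime
    · exact Subtype.ext htpow
    · intro h; exact htne (Subtype.ext_iff.mp h)
  have hMp : IsPGroup p M := IsPGroup.of_card (n := 1) (by rw [hMc, pow_one])
  have hTp : IsPGroup p (Subgroup.zpowers t') := IsPGroup.of_card (n := 1) (by
    rw [Nat.card_zpowers, ht'ord, pow_one])
  have hsup : IsPGroup p (M ⊔ Subgroup.zpowers t' : Subgroup K) := hMp.to_sup_of_normal_left hTp
  have hcs : Nat.card (M ⊔ Subgroup.zpowers t' : Subgroup K) = p := by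
    obtain ⟨n, hn⟩ := IsPGroup.iff_card.mp hsup
    have h1 : p ∣ Nat.card (M ⊔ Subgroup.zpowers t' : Subgroup K) := by
      conv_lhs => rw [← hMc]
      exact Subgroup.card_dvd_of_le le_sup_left
    have h2 : Nat.card (M ⊔ Subgroup.zpowers t' : Subgroup K) ∣ p.factorial := by
      have h3 : Nat.card (Equiv.Perm (ZMod p)) = p.factorial := by
        rw [Nat.card_perm, hcard]
      rw [← h3]
      exact (Subgroup.card_subgroup_dvd_card _).trans (Subgroup.card_subgroup_dvd_card _)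
    rw [hn] at h1 h2 ⊢
    have h4 : n ≤ 1 := by
      by_contra hlt
      exact not_sq_dvd_factorial ((pow_dvd_pow p (by omega : 2 ≤ n)).trans h2)
    have h5 : n ≠ 0 := by
      rintro rfl
      rw [pow_zero] at h1
      exact hp.one_lt.ne' (Nat.dvd_one.mp h1)
    have h6 : n = 1 := by omega
    rw [h6, pow_one]
  have hMeq : M = M ⊔ Subgroup.zpowers t' :=
    Subgroup.eq_of_le_of_card_ge le_sup_left (by rw [hcs, hMc])
  have hTeq : Subgroup.zpowers t' = M ⊔ Subgroup.zpowers t' :=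
    Subgroup.eq_of_le_of_card_ge le_sup_right (by rw [hcs, Nat.card_zpowers, ht'ord])
  have hMT : M = Subgroup.zpowers t' := hMeq.trans hTeq.symm
  have h1 : (⟨σ, hσ⟩ : K) * t' * (⟨σ, hσ⟩ : K)⁻¹ ∈ Subgroup.zpowers t' := by
    rw [← hMT]
    exact hMn.conj_mem _ (by rw [hMT]; exact Subgroup.mem_zpowers _) _
  obtain ⟨k, hk⟩ := Subgroup.mem_zpowers_iff.mp h1
  exact ⟨k, (congrArg Subtype.val hk).symm⟩

theorem part1 (G : Subgroup (Equiv.Perm (ZMod p))) (hG : G ≤ affineGroup (ZMod p))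
    (htrans : ∀ b : ZMod p, ∃ g ∈ G, ∀ x, g x = x + b) (hne : G ≠ affineGroup (ZMod p))
    (σ : Equiv.Perm (ZMod p)) (hσ : σ ∈ cl G) : σ ∈ G := by
  have hGcl : G ≤ cl G := fun g hg x y => ⟨g, hg, rfl, rfl⟩
  have hpt : MulAction.IsPretransitive (cl G) (ZMod p) := by
    constructor
    intro x y
    obtain ⟨g, hg, hgx⟩ := htrans (y - x)
    refine ⟨⟨g, hGcl hg⟩, ?_⟩
    show g x = y
    rw [hgx]; ring
  rcases Cfsg.Agent.S0675.result (α := ZMod p) (by rw [ZMod.card]; exact Fact.out) (cl G) with hsol | h2t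
  · obtain ⟨t, htG, ht⟩ := htrans 1
    obtain ⟨k, hk⟩ := normal_solvable (cl G) hsol t (hGcl htG) ht σ hσ
    have hpow : ∀ (n : ℕ) (x : ZMod p), (t ^ n) x = x + n := by
      intro n
      induction n with
      | zero => intro x; simp
      | succ n ih =>
        intro x
        rw [pow_succ', Equiv.Perm.mul_apply, ih, ht]
        push_cast; ring
    have hzpow : ∀ (n : ℤ) (x : ZMod p), (t ^ n) x = x + n := by
      intro n x
      obtain ⟨m, rfl | rfl⟩ := n.eq_nat_or_neg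
      · rw [zpow_natCast, hpow]; simp
      · rw [zpow_neg, zpow_natCast, Equiv.Perm.inv_eq_iff_eq, hpow]; push_cast; ring
    have hstep : ∀ x, σ (x + 1) = σ x + k := by
      intro x
      have h1 : (σ * t * σ⁻¹) (σ x) = (t ^ k) (σ x) := by rw [hk]
      have h2 : σ⁻¹ (σ x) = x := by simp
      rw [hzpow, Equiv.Perm.mul_apply, Equiv.Perm.mul_apply, h2, ht] at h1
      exact h1
    have hlin : ∀ (n : ℕ), σ (n : ZMod p) = k * n + σ 0 := by
      intro n
      induction n with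
      | zero => simp
      | succ n ih => push_cast; rw [hstep, ih]; ring
    obtain ⟨g, hg, h0, h1⟩ := hσ 0 1
    have hgaff := hG hg
    obtain ⟨a, b, hab⟩ := hgaff
    have : σ = g := by
      ext x
      obtain ⟨n, rfl⟩ : ∃ n : ℕ, (n : ZMod p) = x := ⟨x.val, ZMod.natCast_zmod_val x⟩
      have e1 : σ 1 = k + σ 0 := by simpa using hlin 1
      rw [h0, h1, hab, hab] at e1
      have e2 : (a : ZMod p) = k := by simpa using e1
      rw [hlin, h0, hab, hab, e2]; ring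
    rw [this]; exact hg
  · exfalso
    apply hne
    apply le_antisymm hG
    rintro h ⟨a, b, hab⟩
    rw [MulAction.is_two_pretransitive_iff] at h2t
    have h01 : (0 : ZMod p) ≠ 1 := zero_ne_one
    have hne' : h 0 ≠ h 1 := fun e => h01 (h.injective e)
    obtain ⟨⟨τ, hτ⟩, e0, e1⟩ := h2t h01 hne'
    obtain ⟨g, hg, f0, f1⟩ := hτ 0 1
    have e0' : τ 0 = h 0 := e0
    have e1' : τ 1 = h 1 := e1
    have : h = g := aff_unique ⟨a, b, hab⟩ (hG hg) (by rw [← f0, e0']) (by rw [← f1, e1'])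
    rw [this]; exact hg

theorem result (p : ℕ) [Fact p.Prime] (G : Subgroup (Equiv.Perm (ZMod p))) (hG : G ≤ Cfsg.affineGroup (ZMod p))
    (htrans : ∀ b : ZMod p, ∃ g ∈ G, ∀ x, g x = x + b) :
    (G ≠ Cfsg.affineGroup (ZMod p) → ∀ σ : Equiv.Perm (ZMod p), (∀ t : Fin 2 → ZMod p, ∃ g ∈ G, ∀ i, σ (t i) = g (t i)) → σ ∈ G) ∧
    (∀ σ : Equiv.Perm (ZMod p), (∀ t : Fin 2 → ZMod p, ∃ g ∈ Cfsg.affineGroup (ZMod p), ∀ i, σ (t i) = g (t i))) ∧
    (∀ σ : Equiv.Perm (ZMod p), (∀ t : Fin 3 → ZMod p, ∃ g ∈ Cfsg.affineGroup (ZMod p), ∀ i, σ (t i) = g (t i)) → σ ∈ Cfsg.affineGroup (ZMod p)) := by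
  refine ⟨?_, ?_, ?_⟩
  · intro hne σ hσ
    apply part1 G hG htrans hne
    intro x y
    obtain ⟨g, hg, h⟩ := hσ ![x, y]
    exact ⟨g, hg, by simpa using h 0, by simpa using h 1⟩
  · intro σ t
    by_cases h : t 0 = t 1
    · refine ⟨Equiv.addRight (σ (t 0) - t 0), ⟨1, σ (t 0) - t 0, fun x => by simp⟩, ?_⟩
      intro i
      fin_cases i
      · simp
      · simp [← h]
    · have h1 : t 1 - t 0 ≠ 0 := sub_ne_zero.mpr (Ne.symm h)
      have h2 : σ (t 1) - σ (t 0) ≠ 0 := sub_ne_zero.mpr (fun e => h (σ.injective e).symm)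
      set a := (σ (t 1) - σ (t 0)) / (t 1 - t 0) with ha
      have ha0 : a ≠ 0 := div_ne_zero h2 h1
      refine ⟨(Equiv.mulLeft₀ a ha0).trans (Equiv.addRight (σ (t 0) - a * t 0)),
        ⟨Units.mk0 a ha0, σ (t 0) - a * t 0, fun x => by simp⟩, ?_⟩
      intro i
      have h3 : a * (t 1 - t 0) = σ (t 1) - σ (t 0) := by rw [ha]; field_simp
      fin_cases i
      · simp
      · show σ (t 1) = a * t 1 + (σ (t 0) - a * t 0)
        linear_combination -h3
  · intro σ hσ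
    have key : ∀ x, σ x = (σ 1 - σ 0) * x + σ 0 := by
      intro x
      obtain ⟨g, ⟨a, b, hab⟩, h⟩ := hσ ![x, 0, 1]
      have e0 : σ x = g x := by simpa using h 0
      have e1 : σ 0 = g 0 := by simpa using h 1
      have e2 : σ 1 = g 1 := by simpa using h 2
      rw [e0, e1, e2, hab, hab, hab]; ring
    have hne : σ 1 - σ 0 ≠ 0 := sub_ne_zero.mpr (fun e => one_ne_zero (σ.injective e))
    exact ⟨Units.mk0 _ hne, σ 0, fun x => key x⟩

end Cfsg.Agent.S3518
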