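import Cfsg.Statements.S3524

set_option autoImplicit false
open Cfsg

namespace Cfsg.Agent.S3524

theorem result {Ω : Type*} (G : Subgroup (Equiv.Perm Ω)) (k : ℕ) (α : Fin k → Ω)
    (hbase : ∀ g ∈ G, (∀ i, g (α i) = α i) → g = 1) (σ : Equiv.Perm Ω)
    (hσ : ∀ t : Fin (k + 1) → Ω, ∃ g ∈ G, ∀ i, σ (t i) = g (t i)) : σ ∈ G := by
  by_cases hne : Nonempty Ω
  · obtain ⟨ω⟩ := hne
    obtain ⟨g, hg, hgi⟩ := hσ (Fin.snoc α ω)
    have h0 : ∀ i, σ (α i) = g (α i) := by
      intro i
      have := hgi (Fin.castSucc i)
      simpa using this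
    have : σ = g := by
      ext x
      obtain ⟨g', hg', hgi'⟩ := hσ (Fin.snoc α x)
      have h0' : ∀ i, σ (α i) = g' (α i) := by
        intro i
        have := hgi' (Fin.castSucc i)
        simpa using this
      have hx : σ x = g' x := by
        have := hgi' (Fin.last k)
        simpa using this
      have : g⁻¹ * g' = 1 := by
        apply hbase _ (G.mul_mem (G.inv_mem hg) hg')
        intro i
        rw [Equiv.Perm.mul_apply, ← h0' i, h0 i]
        simp
      have : g' = g := by
        rw [inv_mul_eq_one] at this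
        exact this.symm
      rw [hx, this]
    rw [this]
    exact hg
  · have : σ = 1 := by
      ext x
      exact absurd ⟨x⟩ hne
    rw [this]
    exact G.one_mem

end Cfsg.Agent.S3524
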