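import Cfsg.Statements.S3532
import Cfsg.Agent.Lib.H62.SDOrder
import Cfsg.Agent.Lib.H46.PSL2Orders
import Mathlib.FieldTheory.Finite.GaloisField

set_option autoImplicit false
open Cfsg

namespace Cfsg.Agent.S3532

open H62.SDOrder

theorem frob_spectrum (E : Type) [Field E] [Finite E] (p : ℕ) [hp : Fact p.Prime] [CharP E p] (m : ℕ)
    (hm : m ∣ Nat.card E - 1) :
    ∃ C : Subgroup Eˣ, Set.range (orderOf : SD C E → ℕ) = {k | k ∣ p ∨ k ∣ m} := by
  have hE : 1 < Nat.card E := Finite.one_lt_card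
  have hm0 : m ≠ 0 := by
    rintro rfl
    have := Nat.eq_zero_of_zero_dvd hm
    omega
  obtain ⟨g, hg⟩ := IsCyclic.exists_generator (α := Eˣ)
  have hgo : orderOf g = Nat.card E - 1 := by
    rw [orderOf_eq_card_of_forall_mem_zpowers hg, Nat.card_units]
  obtain ⟨r, hr⟩ := hm
  have hr0 : r ≠ 0 := by
    rintro rfl
    rw [mul_zero] at hr
    omega
  have hco : orderOf (g ^ r) = m := by
    rw [orderOf_pow_of_dvd hr0 (by rw [hgo, hr]; exact Dvd.intro_left m rfl), hgo, hr, Nat.mul_div_cancel _ (Nat.pos_of_ne_zero hr0)]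
  refine ⟨Subgroup.zpowers (g ^ r), ?_⟩
  have hcard : Nat.card (Subgroup.zpowers (g ^ r)) = m := by rw [Nat.card_zpowers, hco]
  ext k
  constructor
  · rintro ⟨x, rfl⟩
    by_cases hx : x.right = 1
    · left
      apply orderOf_dvd_of_pow_eq_one
      rw [pow_of_right_one x hx, nsmul_eq_mul, CharP.cast_eq_zero, zero_mul]
    · right
      rw [orderOf_of_fpf x, ← hcard]
      · exact orderOf_dvd_natCard _
      · intro v hv
        have h1 : ((x.right : Eˣ) : E) * v = v := hv
        have h2 : (((x.right : Eˣ) : E) - 1) * v = 0 := by rw [sub_mul, one_mul, h1, sub_self]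
        rcases mul_eq_zero.mp h2 with h3 | h3
        · exfalso
          apply hx
          apply Subtype.ext
          apply Units.ext
          exact sub_eq_zero.mp h3
        · exact h3
  · rintro (hk | hk)
    · rcases (Nat.dvd_prime hp.out).mp hk with rfl | rfl
      · exact ⟨1, orderOf_one⟩
      · refine ⟨SemidirectProduct.inl (Multiplicative.ofAdd (1 : E)), ?_⟩
        apply orderOf_eq_prime
        · rw [pow_of_right_one _ rfl]
          show k • (1 : E) = 0
          rw [nsmul_eq_mul, CharP.cast_eq_zero, zero_mul]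
        · intro h
          have h2 : (Multiplicative.ofAdd (1 : E)) = 1 :=
            SemidirectProduct.inl_injective (h.trans (map_one _).symm)
          exact one_ne_zero (Multiplicative.ofAdd.injective h2)
    · obtain ⟨s, hs⟩ := hk
      have hs0 : s ≠ 0 := by rintro rfl; exact hm0 (by rw [hs, mul_zero])
      let c : Subgroup.zpowers (g ^ r) := ⟨(g ^ r) ^ s, Subgroup.npow_mem_zpowers _ _⟩
      refine ⟨SemidirectProduct.inr c, ?_⟩
      rw [orderOf_injective _ SemidirectProduct.inr_injective, ← Subgroup.orderOf_coe]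
      show orderOf ((g ^ r) ^ s) = k
      rw [orderOf_pow_of_dvd hs0 (by rw [hco, hs]; exact Dvd.intro_left k rfl), hco, hs,
        Nat.mul_div_cancel _ (Nat.pos_of_ne_zero hs0)]

theorem range_prod (A B : Type*) [Group A] [Group B] :
    Set.range (orderOf : A × B → ℕ) = Set.image2 Nat.lcm (Set.range (orderOf : A → ℕ)) (Set.range (orderOf : B → ℕ)) := by
  ext k
  constructor
  · rintro ⟨⟨a, b⟩, rfl⟩
    exact ⟨orderOf a, ⟨a, rfl⟩, orderOf b, ⟨b, rfl⟩, (Prod.orderOf_mk).symm⟩
  · rintro ⟨_, ⟨a, rfl⟩, _, ⟨b, rfl⟩, rfl⟩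
    exact ⟨(a, b), Prod.orderOf_mk⟩

theorem result {F : Type*} [Field F] [Fintype F] (hF : 4 ≤ Fintype.card F) :
    ∃ (H : Type) (_ : Group H) (_ : Finite H), Group.IsSolvable H ∧
      Set.range (orderOf : H → ℕ) = Set.range (orderOf : Matrix.ProjectiveSpecialLinearGroup (Fin 2) F × Matrix.ProjectiveSpecialLinearGroup (Fin 2) F → ℕ) := by
  obtain ⟨p, hpp, n, hp, hcard⟩ := FiniteField.card' F
  have hpf : Fact (Nat.Prime p) := ⟨hp⟩
  have hqc : Nat.card F = p ^ (n : ℕ) := by rw [Nat.card_eq_fintype_card, hcard]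
  have hsp := H46.PSL2Orders.spectrum (F := F) p
  set q := Nat.card F with hq
  set d := Nat.gcd 2 (q - 1) with hd
  have hd1 : d ∣ q - 1 := Nat.gcd_dvd_right _ _
  have hq1 : 1 < q := Finite.one_lt_card
  have hd2 : d ∣ q + 1 := by
    have h1 : d ∣ 2 := Nat.gcd_dvd_left _ _
    have h2 : q + 1 = (q - 1) + 2 := by omega
    rw [h2]
    exact dvd_add hd1 h1
  have hE1 : Nat.card (GaloisField p (n : ℕ)) = q := by
    rw [GaloisField.card p _ n.ne_zero, hqc]
  have hE2 : Nat.card (GaloisField p (2 * (n : ℕ))) = q ^ 2 := by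
    rw [GaloisField.card p _ (by have := n.pos; omega), hqc, mul_comm, pow_mul]
  have hfin1 : Finite (GaloisField p (n : ℕ)) := Nat.finite_of_card_ne_zero (by rw [hE1]; omega)
  have hfin2 : Finite (GaloisField p (2 * (n : ℕ))) := Nat.finite_of_card_ne_zero (by rw [hE2]; positivity)
  obtain ⟨C₁, hC₁⟩ := frob_spectrum (GaloisField p (n : ℕ)) p ((q - 1) / d)
    (by rw [hE1]; exact Nat.div_dvd_of_dvd hd1)
  obtain ⟨C₂, hC₂⟩ := frob_spectrum (GaloisField p (2 * (n : ℕ))) p ((q + 1) / d) (by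
    rw [hE2]
    refine (Nat.div_dvd_of_dvd hd2).trans ?_
    have : q ^ 2 - 1 = (q + 1) * (q - 1) := by
      have := Nat.sq_sub_sq q 1
      simpa using this
    rw [this]; exact dvd_mul_right _ _)
  refine ⟨SD C₁ (GaloisField p (n : ℕ)) × SD C₂ (GaloisField p (2 * (n : ℕ))), inferInstance, inferInstance, ?_, ?_⟩
  · have h1 : Group.IsSolvable (SD C₁ (GaloisField p (n : ℕ))) := solvable inferInstance
    have h2 : Group.IsSolvable (SD C₂ (GaloisField p (2 * (n : ℕ)))) := solvable inferInstance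
    infer_instance
  · rw [range_prod, range_prod, hC₁, hC₂, hsp]
    apply Set.Subset.antisymm
    · rintro _ ⟨a, ha, b, hb, rfl⟩
      refine ⟨a, ?_, b, ?_, rfl⟩
      · rcases ha with h | h
        · exact Or.inl h
        · exact Or.inr (Or.inl h)
      · rcases hb with h | h
        · exact Or.inl h
        · exact Or.inr (Or.inr h)
    · rintro _ ⟨a, ha, b, hb, rfl⟩
      rcases ha with ha | ha | ha <;> rcases hb with hb | hb | hb
      · exact ⟨Nat.lcm a b, Or.inl (Nat.lcm_dvd ha hb), 1, Or.inl (one_dvd _), Nat.lcm_one_right _⟩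
      · exact ⟨b, Or.inr hb, a, Or.inl ha, Nat.lcm_comm _ _⟩
      · exact ⟨a, Or.inl ha, b, Or.inr hb, rfl⟩
      · exact ⟨a, Or.inr ha, b, Or.inl hb, rfl⟩
      · exact ⟨Nat.lcm a b, Or.inr (Nat.lcm_dvd ha hb), 1, Or.inl (one_dvd _), Nat.lcm_one_right _⟩
      · exact ⟨a, Or.inr ha, b, Or.inr hb, rfl⟩
      · exact ⟨b, Or.inl hb, a, Or.inr ha, Nat.lcm_comm _ _⟩
      · exact ⟨b, Or.inr hb, a, Or.inr ha, Nat.lcm_comm _ _⟩
      · exact ⟨1, Or.inl (one_dvd _), Nat.lcm a b, Or.inr (Nat.lcm_dvd ha hb), Nat.lcm_one_left _⟩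

end Cfsg.Agent.S3532
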