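import Cfsg.Statements.S3546
import Cfsg.Agent.Lib.H62.Derangement

set_option autoImplicit false
open Cfsg

namespace Cfsg.Agent.S3546

theorem result {G Ω : Type*} [Group G] [Finite G] [MulAction G Ω] [FaithfulSMul G Ω] [Finite Ω]
    (htrans : MulAction.IsPretransitive G Ω) :
    MulAction.IsPretransitive ↥(Subgroup.closure {g : G | ∀ ω : Ω, g • ω ≠ ω}) Ω ∧
    ∀ g : G, Nat.card (MulAction.fixedBy Ω g) ≠ 1 → g ∈ Subgroup.closure {g : G | ∀ ω : Ω, g • ω ≠ ω} := by
  refine ⟨H62.Derangement.isPretransitive_closure_derangements, ?_⟩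
  intro g hg
  by_contra hcon
  rcases isEmpty_or_nonempty Ω with he | hne
  · apply hcon
    apply Subgroup.subset_closure
    intro ω
    exact he.elim ω
  · apply hg
    exact H62.Derangement.card_fixedBy_eq_one (Subgroup.closure (H62.Derangement.derangements G Ω))
      (fun _ hg => Subgroup.subset_closure hg) hcon

end Cfsg.Agent.S3546
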