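import Cfsg.Statements.S3547
import Cfsg.Agent.Lib.H62.Derangement

set_option autoImplicit false
open Cfsg

namespace Cfsg.Agent.S3547

open MulAction in
theorem burnside_pairs {H Ω : Type*} [Group H] [Finite H] [MulAction H Ω] [Finite Ω] [Fintype H] :
    ∑ h : H, (Nat.card (fixedBy Ω h)) ^ 2 = Nat.card (orbitRel.Quotient H (Ω × Ω)) * Nat.card H := by
  classical
  have : Fintype Ω := Fintype.ofFinite Ω
  have h1 := sum_card_fixedBy_eq_card_orbits_mul_card_group H (Ω × Ω)
  rw [Nat.card_eq_fintype_card, Nat.card_eq_fintype_card, ← h1]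
  apply Finset.sum_congr rfl
  intro h _
  rw [sq, ← Nat.card_prod, ← Nat.card_eq_fintype_card]
  apply Nat.card_congr
  exact
    { toFun := fun x => ⟨(x.1.1, x.2.1), by
        have h1 := x.1.2
        have h2 := x.2.2
        rw [mem_fixedBy] at h1 h2 ⊢
        rw [Prod.smul_mk, h1, h2]⟩
      invFun := fun x => (⟨x.1.1, by
        have := x.2
        rw [mem_fixedBy] at this ⊢
        exact congrArg Prod.fst this⟩, ⟨x.1.2, by
        have := x.2
        rw [mem_fixedBy] at this ⊢
        exact congrArg Prod.snd this⟩)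
      left_inv := fun x => by simp
      right_inv := fun x => by simp }

theorem result {G Ω : Type*} [Group G] [Finite G] [MulAction G Ω] [FaithfulSMul G Ω] [Finite Ω]
    (htrans : MulAction.IsPretransitive G Ω) :
    Nat.card (MulAction.orbitRel.Quotient ↥(Subgroup.closure {g : G | ∀ ω : Ω, g • ω ≠ ω}) (Ω × Ω)) - 1 =
      (Nat.card (MulAction.orbitRel.Quotient G (Ω × Ω)) - 1) * (Subgroup.closure {g : G | ∀ ω : Ω, g • ω ≠ ω}).index := by
  classical
  rcases isEmpty_or_nonempty Ω with he | hne
  · have h1 : IsEmpty (MulAction.orbitRel.Quotient ↥(Subgroup.closure {g : G | ∀ ω : Ω, g • ω ≠ ω}) (Ω × Ω)) :=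
      ⟨fun q => Quotient.inductionOn q (fun x => he.elim x.1)⟩
    have h2 : IsEmpty (MulAction.orbitRel.Quotient G (Ω × Ω)) :=
      ⟨fun q => Quotient.inductionOn q (fun x => he.elim x.1)⟩
    rw [Nat.card_of_isEmpty, Nat.card_of_isEmpty]
    simp
  · set D := Subgroup.closure {g : G | ∀ ω : Ω, g • ω ≠ ω} with hD
    have hDn : D.Normal := H62.Derangement.normal_closure_derangements
    have : Fintype G := Fintype.ofFinite G
    have hG := burnside_pairs (H := G) (Ω := Ω)
    have hDs := burnside_pairs (H := D) (Ω := Ω)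
    have hout : ∀ g : G, g ∉ D → Nat.card (MulAction.fixedBy Ω g) = 1 := fun g hg =>
      H62.Derangement.card_fixedBy_eq_one D (fun _ hg => Subgroup.subset_closure hg) hg
    have hsplit : ∑ g : G, (Nat.card (MulAction.fixedBy Ω g)) ^ 2 =
        (∑ g : D, (Nat.card (MulAction.fixedBy Ω g)) ^ 2) + (Nat.card G - Nat.card D) := by
      rw [← Finset.sum_filter_add_sum_filter_not Finset.univ (fun g : G => g ∈ D)]
      congr 1
      · rw [← Finset.sum_subtype_eq_sum_filter]
        apply Finset.sum_bij (fun (x : {x // x ∈ D}) _ => x) (by simp) (by simp) (by simp)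
        intro a _
        rfl
      · have : ∀ g ∈ Finset.univ.filter (fun g : G => g ∉ D), Nat.card (MulAction.fixedBy Ω g) ^ 2 = 1 := by
          intro g hg
          rw [hout g (Finset.mem_filter.mp hg).2]
          norm_num
        rw [Finset.sum_congr rfl this, Finset.sum_const, smul_eq_mul, mul_one]
        rw [Finset.filter_not, Finset.card_sdiff_of_subset (Finset.filter_subset _ _)]
        rw [Finset.card_univ, Nat.card_eq_fintype_card, Nat.card_eq_fintype_card, Fintype.card_subtype]
    rw [hG, hDs] at hsplit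
    have hcard : Nat.card D * D.index = Nat.card G := Subgroup.card_mul_index D
    have hDpos : 0 < Nat.card D := Nat.card_pos
    have hDle : Nat.card D ≤ Nat.card G := Subgroup.card_le_card_group D
    have hrG : 1 ≤ Nat.card (MulAction.orbitRel.Quotient G (Ω × Ω)) := by
      apply Nat.card_pos_iff.mpr
      refine ⟨?_, inferInstance⟩
      obtain ⟨ω⟩ := hne
      exact ⟨Quotient.mk _ (ω, ω)⟩
    have hrD : 1 ≤ Nat.card (MulAction.orbitRel.Quotient D (Ω × Ω)) := by
      apply Nat.card_pos_iff.mpr
      refine ⟨?_, inferInstance⟩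
      obtain ⟨ω⟩ := hne
      exact ⟨Quotient.mk _ (ω, ω)⟩
    set rG := Nat.card (MulAction.orbitRel.Quotient G (Ω × Ω))
    set rD := Nat.card (MulAction.orbitRel.Quotient D (Ω × Ω))
    apply Nat.eq_of_mul_eq_mul_right hDpos
    obtain ⟨a, ha⟩ := Nat.exists_eq_add_of_le hrG
    obtain ⟨b, hb⟩ := Nat.exists_eq_add_of_le hrD
    have : (rG - 1) * D.index * Nat.card D = (rG - 1) * Nat.card G := by
      rw [mul_assoc, mul_comm D.index, hcard]
    rw [this]
    rw [ha, hb] at hsplit ⊢
    simp only [Nat.add_sub_cancel_left]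
    obtain ⟨c, hc⟩ := Nat.exists_eq_add_of_le hDle
    rw [hc] at hsplit ⊢
    simp only [Nat.add_sub_cancel_left] at hsplit
    nlinarith

end Cfsg.Agent.S3547
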