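import Cfsg.Statements.S3548
import Cfsg.Agent.Lib.H62.DerIndex

set_option autoImplicit false
open Cfsg

namespace Cfsg.Agent.S3548

theorem result {G Ω : Type*} [Group G] [Finite G] [MulAction G Ω] [FaithfulSMul G Ω] [Finite Ω]
    (htrans : MulAction.IsPretransitive G Ω) (hΩ : 2 ≤ Nat.card Ω) :
    (Subgroup.closure {g : G | ∀ ω : Ω, g • ω ≠ ω}).index ∣ Nat.card Ω - 1 ∧
    ((Subgroup.closure {g : G | ∀ ω : Ω, g • ω ≠ ω}).index = Nat.card Ω - 1 → IsPrimePow (Nat.card Ω)) := by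
  have hne : Nonempty Ω := (Nat.card_pos_iff.mp (by omega)).1
  have hn : (Subgroup.closure {g : G | ∀ ω : Ω, g • ω ≠ ω}).Normal :=
    H62.Derangement.normal_closure_derangements
  refine ⟨?_, ?_⟩
  · exact H62.DerIndex.index_dvd (Subgroup.closure {g : G | ∀ ω : Ω, g • ω ≠ ω})
      (fun _ hg => Subgroup.subset_closure hg)
  · intro h
    exact H62.DerIndex.isPrimePow_of_index_eq hΩ (Subgroup.closure {g : G | ∀ ω : Ω, g • ω ≠ ω})
      (fun _ hg => Subgroup.subset_closure hg) h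

end Cfsg.Agent.S3548
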