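import Cfsg.Statements.S3549
import Cfsg.Agent.Lib.H62.DerIndex

set_option autoImplicit false
open Cfsg

namespace Cfsg.Agent.S3549

theorem result {G Ω : Type*} [Group G] [Finite G] [MulAction G Ω] [FaithfulSMul G Ω] [Finite Ω]
    (htrans : MulAction.IsPretransitive G Ω) (himp : ¬ MulAction.IsPreprimitive G Ω) :
    ((Subgroup.closure {g : G | ∀ ω : Ω, g • ω ≠ ω}).index : ℝ) ≤ Real.sqrt (Nat.card Ω) - 1 := by
  have hn : (Subgroup.closure {g : G | ∀ ω : Ω, g • ω ≠ ω}).Normal :=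
    H62.Derangement.normal_closure_derangements
  have hB : ∃ B : Set Ω, MulAction.IsBlock G B ∧ ¬ MulAction.IsTrivialBlock B := by
    by_contra hcon
    push Not at hcon
    exact himp ⟨fun {B} hB => hcon B hB⟩
  obtain ⟨B, hB, hBt⟩ := hB
  rw [MulAction.IsTrivialBlock, not_or, Set.not_subsingleton_iff] at hBt
  have h := H62.DerIndex.sq_le_of_block (Subgroup.closure {g : G | ∀ ω : Ω, g • ω ≠ ω})
    (fun _ hg => Subgroup.subset_closure hg) B hB hBt.1 hBt.2
  have h2 : ((Subgroup.closure {g : G | ∀ ω : Ω, g • ω ≠ ω}).index : ℝ) + 1 ≤ Real.sqrt (Nat.card Ω) := by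
    apply Real.le_sqrt_of_sq_le
    exact_mod_cast h
  linarith

end Cfsg.Agent.S3549
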