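import Cfsg.Statements.S3560

set_option autoImplicit false
open Cfsg

namespace Cfsg.Agent.S3560

open MulAction Function Pointwise

section hamming

variable {ι : Type*} [Fintype ι] [DecidableEq ι] {m n : ℕ} (E : Fin n ≃ (ι → Fin m))

/-- permutations preserving the Hamming distance (through the coordinates `E`). -/
def HG : Subgroup (Equiv.Perm (Fin n)) where
  carrier := {σ | ∀ a b, hammingDist (E (σ a)) (E (σ b)) = hammingDist (E a) (E b)}
  mul_mem' := by
    intro σ τ hσ hτ a b
    rw [Equiv.Perm.mul_apply, Equiv.Perm.mul_apply, hσ, hτ]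
  one_mem' := by
    intro a b
    rfl
  inv_mem' := by
    intro σ hσ a b
    have := hσ (σ⁻¹ a) (σ⁻¹ b)
    rw [← this]
    simp

theorem mem_HG {σ : Equiv.Perm (Fin n)} :
    σ ∈ HG E ↔ ∀ a b, hammingDist (E (σ a)) (E (σ b)) = hammingDist (E a) (E b) := Iff.rfl

/-- The wreath product element. -/
def wr (π : Equiv.Perm ι) (τ : ι → Equiv.Perm (Fin m)) : Equiv.Perm (ι → Fin m) where
  toFun f := fun k => τ k (f (π k))
  invFun f := fun k => (τ (π.symm k)).symm (f (π.symm k))
  left_inv f := by
    funext k
    simp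
  right_inv f := by
    funext k
    simp

theorem wr_apply (π : Equiv.Perm ι) (τ : ι → Equiv.Perm (Fin m)) (f : ι → Fin m) (k : ι) :
    wr π τ f k = τ k (f (π k)) := rfl

theorem hammingDist_wr (π : Equiv.Perm ι) (τ : ι → Equiv.Perm (Fin m)) (f g : ι → Fin m) :
    hammingDist (wr π τ f) (wr π τ g) = hammingDist f g := by
  unfold hammingDist
  apply Finset.card_bij (fun k _ => π k)
  · intro k hk
    have hk' := (Finset.mem_filter.mp hk).2
    refine Finset.mem_filter.mpr ⟨Finset.mem_univ _, ?_⟩
    intro h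
    apply hk'
    rw [wr_apply, wr_apply, h]
  · intro k _ l _ h
    exact π.injective h
  · intro k hk
    have hk' := (Finset.mem_filter.mp hk).2
    refine ⟨π.symm k, Finset.mem_filter.mpr ⟨Finset.mem_univ _, ?_⟩, by simp⟩
    intro h
    rw [wr_apply, wr_apply] at h
    exact hk' (by simpa using (τ _).injective h)

/-- The corresponding permutation of `Fin n`. -/
def wrn (π : Equiv.Perm ι) (τ : ι → Equiv.Perm (Fin m)) : Equiv.Perm (Fin n) :=
  (E.trans (wr π τ)).trans E.symm

theorem E_wrn (π : Equiv.Perm ι) (τ : ι → Equiv.Perm (Fin m)) (a : Fin n) :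
    E (wrn E π τ a) = wr π τ (E a) := by
  simp [wrn]

theorem wrn_mem (π : Equiv.Perm ι) (τ : ι → Equiv.Perm (Fin m)) : wrn E π τ ∈ HG E := by
  intro a b
  rw [E_wrn, E_wrn, hammingDist_wr]

theorem exists_perm (x y x' y' : Fin m) (h : x ≠ y) (h' : x' ≠ y') :
    ∃ τ : Equiv.Perm (Fin m), τ x = x' ∧ τ y = y' := by
  refine ⟨Equiv.swap (Equiv.swap x x' y) y' * Equiv.swap x x', ?_, ?_⟩
  · rw [Equiv.Perm.mul_apply, Equiv.swap_apply_left]
    apply Equiv.swap_apply_of_ne_of_ne
    · intro h1
      have : Equiv.swap x x' x = Equiv.swap x x' y := by rw [Equiv.swap_apply_left, ← h1]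
      exact h ((Equiv.swap x x').injective this)
    · exact h'
  · rw [Equiv.Perm.mul_apply, Equiv.swap_apply_left]

/-- arc-transitivity -/
theorem exists_arc (a a' b b' : Fin n) (i j : ι)
    (ha : E a i ≠ E a' i) (ha' : ∀ k, k ≠ i → E a k = E a' k)
    (hb : E b j ≠ E b' j) (hb' : ∀ k, k ≠ j → E b k = E b' k) :
    ∃ σ ∈ HG E, σ a = b ∧ σ a' = b' := by
  obtain ⟨τ0, h0, h0'⟩ := exists_perm _ _ _ _ ha hb
  let π : Equiv.Perm ι := Equiv.swap i j
  let τ : ι → Equiv.Perm (Fin m) := fun k => if k = j then τ0 else Equiv.swap (E a (π k)) (E b k)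
  refine ⟨wrn E π τ, wrn_mem E π τ, ?_, ?_⟩
  · apply E.injective
    rw [E_wrn]
    funext k
    rw [wr_apply]
    by_cases hk : k = j
    · subst hk
      simp only [τ, π, if_true, Equiv.swap_apply_right]
      exact h0
    · simp only [τ, if_neg hk]
      rw [Equiv.swap_apply_left]
  · apply E.injective
    rw [E_wrn]
    funext k
    rw [wr_apply]
    by_cases hk : k = j
    · subst hk
      simp only [τ, π, if_true, Equiv.swap_apply_right]
      exact h0'
    · simp only [τ, if_neg hk]
      have hπ : π k ≠ i := by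
        intro h
        apply hk
        have : π k = π j := by rw [h]; simp [π]
        exact π.injective this
      rw [← ha' _ hπ, Equiv.swap_apply_left, hb' k hk]

theorem preprimitive (hι : Nonempty ι) (hm : 3 ≤ m) : IsPreprimitive ↥(HG E) (Fin n) := by
  -- transitivity
  have htr : IsPretransitive ↥(HG E) (Fin n) := by
    constructor
    intro a b
    let τ : ι → Equiv.Perm (Fin m) := fun k => Equiv.swap (E a k) (E b k)
    refine ⟨⟨wrn E 1 τ, wrn_mem E 1 τ⟩, ?_⟩
    show wrn E 1 τ a = b
    apply E.injective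
    rw [E_wrn]
    funext k
    rw [wr_apply]
    simp [τ]
  refine { isTrivialBlock_of_isBlock := ?_ }
  intro B hB
  by_contra hnt
  have hnt' : ¬ B.Subsingleton ∧ B ≠ Set.univ := not_or.mp hnt
  apply hnt'.2
  rw [Set.not_subsingleton_iff] at hnt'
  obtain ⟨⟨a, ha, b, hb, hab⟩, -⟩ := hnt'
  have hstab : ∀ σ ∈ HG E, ∀ x ∈ B, σ x ∈ B → ∀ y ∈ B, σ y ∈ B := by
    intro σ hσ x hx hσx y hy
    have h1 := (isBlock_iff_smul_eq_of_mem.mp hB) (g := (⟨σ, hσ⟩ : HG E)) hx hσx
    have h2 : (⟨σ, hσ⟩ : HG E) • y ∈ (⟨σ, hσ⟩ : HG E) • B := Set.smul_mem_smul_set hy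
    rw [h1] at h2
    exact h2
  -- two elements of B differing in exactly one coordinate
  obtain ⟨i, hi⟩ : ∃ i, E a i ≠ E b i := by
    by_contra hcon
    push Not at hcon
    exact hab (E.injective (funext hcon))
  obtain ⟨c, hc, hci, hck⟩ : ∃ c ∈ B, E b i ≠ E c i ∧ ∀ k, k ≠ i → E b k = E c k := by
    -- a value different from E a i and E b i
    obtain ⟨x, hxa, hxb⟩ : ∃ x : Fin m, x ≠ E a i ∧ x ≠ E b i := by
      have h1 : (({E a i, E b i} : Finset (Fin m))).card < (Finset.univ : Finset (Fin m)).card := by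
        rw [Finset.card_univ, Fintype.card_fin]
        exact lt_of_le_of_lt Finset.card_le_two (by omega)
      obtain ⟨x, -, hx⟩ := Finset.exists_mem_notMem_of_card_lt_card h1
      simp only [Finset.mem_insert, Finset.mem_singleton, not_or] at hx
      exact ⟨x, hx.1, hx.2⟩
    let τ : ι → Equiv.Perm (Fin m) := fun k => if k = i then Equiv.swap (E b i) x else 1
    have hfix : wrn E 1 τ a = a := by
      apply E.injective
      rw [E_wrn]
      funext k
      rw [wr_apply]
      by_cases hk : k = i
      · subst hk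
        simp only [τ, if_true, Equiv.Perm.one_apply]
        exact Equiv.swap_apply_of_ne_of_ne hi hxa.symm
      · simp [τ, hk]
    refine ⟨wrn E 1 τ b, hstab _ (wrn_mem E 1 τ) a ha (by rw [hfix]; exact ha) b hb, ?_, ?_⟩
    · rw [E_wrn, wr_apply]
      simp only [τ, if_true, Equiv.Perm.one_apply, Equiv.swap_apply_left]
      exact hxb.symm
    · intro k hk
      rw [E_wrn, wr_apply]
      simp [τ, hk]
  -- B is closed under changing one coordinate
  have hclosed : ∀ x ∈ B, ∀ y : Fin n, ∀ j, E x j ≠ E y j → (∀ k, k ≠ j → E x k = E y k) → y ∈ B := by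
    intro x hx y j hj hk
    obtain ⟨σ, hσ, h1, h2⟩ := exists_arc E b c x y i j hci hck hj hk
    rw [← h2]
    exact hstab σ hσ b hb (by rw [h1]; exact hx) c hc
  -- hence everything is in B, by induction on the Hamming distance
  rw [Set.eq_univ_iff_forall]
  have hall : ∀ d : ℕ, ∀ y : Fin n, hammingDist (E a) (E y) = d → y ∈ B := by
    intro d
    induction d with
    | zero =>
      intro y hy
      have : E a = E y := hammingDist_eq_zero.mp hy
      rw [← E.injective this]; exact ha
    | succ d ih =>
      intro y hy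
      obtain ⟨j, hj⟩ : ∃ j, E a j ≠ E y j := by
        by_contra hcon
        push Not at hcon
        have : E a = E y := funext hcon
        rw [this, hammingDist_self] at hy
        omega
      let z : Fin n := E.symm (Function.update (E y) j (E a j))
      have hEz : E z = Function.update (E y) j (E a j) := E.apply_symm_apply _
      have hz : hammingDist (E a) (E z) = d := by
        have h1 : (Finset.univ.filter (fun k => E a k ≠ E y k)) =
            insert j (Finset.univ.filter (fun k => E a k ≠ E z k)) := by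
          ext k
          simp only [Finset.mem_filter, Finset.mem_univ, true_and, Finset.mem_insert, hEz]
          by_cases hk : k = j
          · subst hk; simp [hj]
          · simp [hk]
        have h2 : j ∉ (Finset.univ.filter (fun k => E a k ≠ E z k)) := by
          simp [hEz]
        have h3 : hammingDist (E a) (E y) = (Finset.univ.filter (fun k => E a k ≠ E y k)).card := rfl
        have h4 : hammingDist (E a) (E z) = (Finset.univ.filter (fun k => E a k ≠ E z k)).card := rfl
        rw [h3, h1, Finset.card_insert_of_notMem h2] at hy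
        rw [h4]
        omega
      apply hclosed z (ih z hz) y j
      · rw [hEz]; simpa using hj
      · intro k hk
        rw [hEz]; simp [hk]
  intro y
  exact hall _ y rfl

theorem not_two (hι : 2 ≤ Fintype.card ι) (hm : 3 ≤ m) :
    ¬ IsMultiplyPretransitive ↥(HG E) (Fin n) 2 := by
  intro h
  rw [is_two_pretransitive_iff] at h
  obtain ⟨i, j, hij⟩ := Fintype.one_lt_card_iff.mp (show 1 < Fintype.card ι by omega)
  let x0 : Fin m := ⟨0, by omega⟩
  let x1 : Fin m := ⟨1, by omega⟩
  have hx : x0 ≠ x1 := by simp [x0, x1]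
  let a : Fin n := E.symm (fun _ => x0)
  let b : Fin n := E.symm (Function.update (fun _ => x0) i x1)
  let c : Fin n := E.symm (Function.update (Function.update (fun _ => x0) i x1) j x1)
  have hEa : E a = fun _ => x0 := E.apply_symm_apply _
  have hEb : E b = Function.update (fun _ => x0) i x1 := E.apply_symm_apply _
  have hEc : E c = Function.update (Function.update (fun _ => x0) i x1) j x1 := E.apply_symm_apply _
  have hab : a ≠ b := by
    intro h
    have := congrFun (congrArg E h) i
    rw [hEa, hEb] at this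
    simp [hx] at this
  have hac : a ≠ c := by
    intro h
    have := congrFun (congrArg E h) j
    rw [hEa, hEc] at this
    simp [hx] at this
  have h1 : hammingDist (E a) (E b) = 1 := by
    unfold hammingDist
    have : (Finset.univ.filter (fun k => E a k ≠ E b k)) = {i} := by
      ext k
      simp only [Finset.mem_filter, Finset.mem_univ, true_and, Finset.mem_singleton, hEa, hEb]
      by_cases hk : k = i
      · subst hk; simp [hx]
      · simp [hk]
    rw [this, Finset.card_singleton]
  have h2 : hammingDist (E a) (E c) = 2 := by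
    unfold hammingDist
    have : (Finset.univ.filter (fun k => E a k ≠ E c k)) = {i, j} := by
      ext k
      simp only [Finset.mem_filter, Finset.mem_univ, true_and, Finset.mem_insert, Finset.mem_singleton, hEa, hEc]
      by_cases hkj : k = j
      · subst hkj; simp [hx]
      · by_cases hk : k = i
        · subst hk; simp [hx, hkj]
        · simp [hk, hkj]
    rw [this, Finset.card_pair hij]
  obtain ⟨⟨σ, hσ⟩, h3, h4⟩ := h hab hac
  have h5 : σ a = a := h3
  have h6 : σ b = c := h4
  have h7 := hσ a b
  rw [h5, h6, h1, h2] at h7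
  omega

end hamming

/-- Let K be a finite group isomorphic to a direct product of r ≥ 2 groups all of the same order m ≥ 3. Then K is not a B-group: there is a primitive but not doubly transitive permutation group (on some finite set) containing a regular subgroup isomorphic to K. -/
theorem result {K : Type*} [Group K] [Finite K] {ι : Type*} [Fintype ι] (F : ι → Type*) [∀ i, Group (F i)]
    (hr : 2 ≤ Fintype.card ι) (m : ℕ) (hm : 3 ≤ m) (hcard : ∀ i, Nat.card (F i) = m) (e : K ≃* (∀ i, F i)) :
    ∃ (n : ℕ) (G R : Subgroup (Equiv.Perm (Fin n))), R ≤ G ∧ Nonempty (↥R ≃* K) ∧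
      MulAction.IsPretransitive ↥R (Fin n) ∧ (∀ a : Fin n, MulAction.stabilizer ↥R a = ⊥) ∧
      MulAction.IsPreprimitive ↥G (Fin n) ∧ ¬ MulAction.IsMultiplyPretransitive ↥G (Fin n) 2 := by
  classical
  have hfin : ∀ i, Finite (F i) := fun i => Nat.finite_of_card_ne_zero (by rw [hcard]; omega)
  let φ : ∀ i, F i ≃ Fin m := fun i => Finite.equivFinOfCardEq (hcard i)
  let Φ : (∀ i, F i) ≃ (ι → Fin m) := Equiv.piCongrRight φ
  let E : Fin (Fintype.card (ι → Fin m)) ≃ (ι → Fin m) := (Fintype.equivFin _).symm
  let Ψ : K ≃ Fin (Fintype.card (ι → Fin m)) := e.toEquiv.trans (Φ.trans E.symm)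
  have hEΨ : ∀ k i, E (Ψ k) i = φ i (e k i) := by
    intro k i
    simp [Ψ, Φ]
  let ρ : K →* Equiv.Perm (Fin (Fintype.card (ι → Fin m))) :=
    (Ψ.permCongrHom.toMonoidHom).comp (MulAction.toPermHom K K)
  have hρ : ∀ k x, ρ k (Ψ x) = Ψ (k * x) := by
    intro k x
    show Ψ ((MulAction.toPermHom K K k) (Ψ.symm (Ψ x))) = _
    rw [Equiv.symm_apply_apply]
    rfl
  have hinj : Function.Injective ρ := by
    intro k l hkl
    have h1 := hρ k 1
    have h2 := hρ l 1
    rw [hkl, h2] at h1
    have := Ψ.injective h1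
    simpa using this.symm
  refine ⟨Fintype.card (ι → Fin m), HG E, ρ.range, ?_, ⟨(MonoidHom.ofInjective hinj).symm⟩, ?_, ?_,
    preprimitive E (Fintype.card_pos_iff.mp (by omega)) hm, not_two E hr hm⟩
  · rintro _ ⟨k, rfl⟩ a b
    obtain ⟨x, rfl⟩ := Ψ.surjective a
    obtain ⟨y, rfl⟩ := Ψ.surjective b
    rw [hρ, hρ]
    unfold hammingDist
    congr 1
    ext i
    simp only [Finset.mem_filter, Finset.mem_univ, true_and, hEΨ]
    rw [map_mul, map_mul, Pi.mul_apply, Pi.mul_apply]
    constructor
    · intro h h'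
      exact h (by rw [(φ i).injective h'])
    · intro h h'
      exact h (by rw [mul_left_cancel ((φ i).injective h')])
  · constructor
    intro a b
    obtain ⟨x, rfl⟩ := Ψ.surjective a
    obtain ⟨y, rfl⟩ := Ψ.surjective b
    refine ⟨⟨ρ (y * x⁻¹), _, rfl⟩, ?_⟩
    show ρ (y * x⁻¹) (Ψ x) = Ψ y
    rw [hρ, inv_mul_cancel_right]
  · intro a
    obtain ⟨x, rfl⟩ := Ψ.surjective a
    rw [eq_bot_iff]
    rintro ⟨_, k, rfl⟩ hk
    rw [mem_stabilizer_iff] at hk
    have h1 : ρ k (Ψ x) = Ψ x := hk
    rw [hρ] at h1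
    have h2 : k = 1 := by simpa using Ψ.injective h1
    rw [Subgroup.mem_bot]
    apply Subtype.ext
    show ρ k = 1
    rw [h2, map_one]

end Cfsg.Agent.S3560
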