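import Cfsg.Statements.S3572
import Cfsg.Agent.Lib.H26.Dih6

set_option autoImplicit false
open Cfsg

namespace Cfsg.Agent.S3572

/-- A finite primitive permutation group containing a dihedral subgroup that acts regularly (transitively with trivial point stabilizers) is doubly transitive. -/
theorem result {G Ω : Type*} [Group G] [Finite G] [MulAction G Ω] [FaithfulSMul G Ω] [Finite Ω]
    (hprim : MulAction.IsPreprimitive G Ω) (D : Subgroup G) (m : ℕ) (hD : Nonempty (↥D ≃* DihedralGroup m))
    (hDreg : MulAction.IsPretransitive ↥D Ω ∧ ∀ a : Ω, MulAction.stabilizer ↥D a = ⊥) :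
    MulAction.IsMultiplyPretransitive G Ω 2 := by
  classical
  rcases isEmpty_or_nonempty Ω with hΩ | ⟨⟨ω₀⟩⟩
  · rw [MulAction.is_two_pretransitive_iff]
    intro a
    exact (hΩ.false a).elim
  obtain ⟨e⟩ := hD
  obtain ⟨hC1, hC2⟩ := hDreg
  have : Fintype D := Fintype.ofFinite D
  have hm0 : m ≠ 0 := by
    rintro rfl
    have : Finite (DihedralGroup 0) := Finite.of_equiv _ e.toEquiv
    exact not_finite (DihedralGroup 0)
  have : NeZero m := ⟨hm0⟩
  have hinj : ∀ x y : D, (x : G) • ω₀ = (y : G) • ω₀ → x = y := by
    intro x y hxy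
    have : x⁻¹ * y ∈ MulAction.stabilizer D ω₀ := by
      rw [MulAction.mem_stabilizer_iff, Subgroup.smul_def, Subgroup.coe_mul, mul_smul, ← hxy,
        Subgroup.coe_inv, inv_smul_smul]
    rw [hC2 ω₀, Subgroup.mem_bot, inv_mul_eq_one] at this
    exact this
  have hsurj : ∀ ω : Ω, ∃ x : D, (x : G) • ω₀ = ω := fun ω => MulAction.exists_smul_eq D ω₀ ω
  have hcard : Nat.card D = 2 * m := by
    rw [Nat.card_congr e.toEquiv, DihedralGroup.nat_card]
  have hcardΩ : Nat.card D = Nat.card Ω := Nat.card_congr
    (Equiv.ofBijective (fun x : D => (x : G) • ω₀) ⟨fun x y => hinj x y, hsurj⟩)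
  have hnt : Nontrivial Ω := Finite.one_lt_card_iff_nontrivial.mp (by
    rw [← hcardΩ, hcard]
    omega)
  have hS := H63.SR.isSRing_rel hinj hsurj
  have hP : H63.SR.Prim (H63.SR.rel D ω₀) := H63.SR.prim_rel hinj hsurj
  apply H63.SR.two_transitive_of_rel hsurj
  intro x y hx hy
  by_cases hm1 : m = 1
  · have h2 : Nat.card D = 2 := by rw [hcard, hm1]
    have hxy : x = y := by
      by_contra hne
      have h3 : ({1, x, y} : Finset D).card ≤ Fintype.card D := Finset.card_le_univ _
      rw [Finset.card_insert_of_notMem (by simp [hx.symm, hy.symm]),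
        Finset.card_pair hne, ← Nat.card_eq_fintype_card, h2] at h3
      omega
    rw [hxy]
    exact hS.refl y
  · have : Fact (1 < m) := ⟨by omega⟩
    let d : H26.Dih.Data (Multiplicative (ZMod m)) D :=
      { ρ := fun k => e.symm (DihedralGroup.r (Multiplicative.toAdd k))
        σ := fun k => e.symm (DihedralGroup.sr (Multiplicative.toAdd k))
        ρρ := fun a b => by
          rw [← map_mul, DihedralGroup.r_mul_r]; rfl
        ρσ := fun a b => by
          rw [← map_mul, DihedralGroup.r_mul_sr, sub_eq_neg_add]; rfl
        σρ := fun a b => by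
          rw [← map_mul, DihedralGroup.sr_mul_r]; rfl
        σσ := fun a b => by
          rw [← map_mul, DihedralGroup.sr_mul_sr, sub_eq_neg_add]; rfl
        cases := by
          intro x
          rcases hx : e x with i | i
          · exact Or.inl ⟨Multiplicative.ofAdd i, by rw [toAdd_ofAdd, ← hx, e.symm_apply_apply]⟩
          · exact Or.inr ⟨Multiplicative.ofAdd i, by rw [toAdd_ofAdd, ← hx, e.symm_apply_apply]⟩
        ρinj := by
          intro a b hab
          have h1 := e.symm.injective hab
          injection h1
        σinj := by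
          intro a b hab
          have h1 := e.symm.injective hab
          injection h1
        ne := by
          intro a b hab
          have h1 := e.symm.injective hab
          injection h1 }
    exact H26.Dih.trivial_of_prim d hS hP hx hy


end Cfsg.Agent.S3572
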