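import Cfsg.Statements.S3573
import Cfsg.Agent.Lib.H63.PrimePermSubset

set_option autoImplicit false
open Cfsg

namespace Cfsg.Agent.S3573

theorem le_of_mod_le {n k r : ℕ} (hr : r.Prime) (hrd : r ∣ Nat.choose n k) (h : k % r ≤ n % r) : r ≤ k := by
  by_contra hcon
  have hkr : k < r := not_le.mp hcon
  have : Fact r.Prime := ⟨hr⟩
  have h1 := Choose.choose_modEq_choose_mod_mul_choose_div_nat (n := n) (k := k) (p := r)
  rw [Nat.div_eq_of_lt hkr, Nat.choose_zero_right, mul_one, Nat.mod_eq_of_lt hkr] at h1
  have h2 : r ∣ Nat.choose (n % r) k := (Nat.modEq_zero_iff_dvd.mp (h1.symm.trans (Nat.modEq_zero_iff_dvd.mpr hrd)))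
  rw [Nat.mod_eq_of_lt hkr] at h
  have h3 : r ∣ (n % r).factorial := by
    rw [← Nat.choose_mul_factorial_mul_factorial h, mul_assoc]
    exact Dvd.dvd.mul_right h2 _
  have h4 := (Nat.Prime.dvd_factorial hr).mp h3
  have h5 := Nat.mod_lt n hr.pos
  omega

/-- Let 1 ≤ k with 2k < n and consider the symmetric group of degree n acting on the k-subsets of an n-set. Let r be a prime dividing the number C(n,k) of k-subsets. If r is odd, then every permutation of order r fixes some k-subset if and only if r ≤ k and the remainder of k modulo r is at most the remainder of n modulo r. If r = 2, then every involution fixes some k-subset if and only if k is even or n is odd. -/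
theorem result (n k : ℕ) (hk : 1 ≤ k) (hkn : 2 * k < n) (r : ℕ) (hr : r.Prime) (hrd : r ∣ Nat.choose n k) :
    (r ≠ 2 → ((∀ σ : Equiv.Perm (Fin n), orderOf σ = r → ∃ s : Finset (Fin n), s.card = k ∧ s.image σ = s) ↔
      (r ≤ k ∧ k % r ≤ n % r))) ∧
    (r = 2 → ((∀ σ : Equiv.Perm (Fin n), orderOf σ = 2 → ∃ s : Finset (Fin n), s.card = k ∧ s.image σ = s) ↔
      (Even k ∨ Odd n))) := by
  have hkn' : k ≤ n := by omega
  have hrn : r ≤ n := by
    have h3 : r ∣ n.factorial := by
      rw [← Nat.choose_mul_factorial_mul_factorial hkn', mul_assoc]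
      exact Dvd.dvd.mul_right hrd _
    exact (Nat.Prime.dvd_factorial hr).mp h3
  have key := H63.PrimePermSubset.forall_fixes_iff hr hrn hkn'
  constructor
  · intro _
    rw [key]
    exact ⟨fun h => ⟨le_of_mod_le hr hrd h, h⟩, fun h => h.2⟩
  · rintro rfl
    rw [key]
    rw [Nat.even_iff, Nat.odd_iff]
    omega

end Cfsg.Agent.S3573
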