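import Cfsg.Statements.S3575
import Cfsg.Agent.Lib.H63.PrimePermPartition

set_option autoImplicit false
open Cfsg

namespace Cfsg.Agent.S3575

open H63.PrimePerm H63.PrimePermPartition in
/-- Let a, b ≥ 2 and consider the symmetric group of degree a·b acting on the partitions of an (a·b)-set into b parts of size a (encoded as maps onto a b-element set all of whose fibres have a elements; a permutation fixes such a partition when it permutes the fibres). Let r be a prime dividing the number (ab)!/((a!)^b·b!) of such partitions, and let ℓ and k be the remainders of a and b modulo r. Then every permutation of order r fixes some such partition if and only if r ≤ a and one of the following holds: ℓ = 0; or k = 0 and ℓ = 1; or ℓ and k are non-zero, k·ℓ < r, and either b < r or (k + r)·ℓ ≤ k·a + r. -/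
theorem result (a b : ℕ) (ha : 2 ≤ a) (hb : 2 ≤ b) (r : ℕ) (hr : r.Prime)
    (hrd : r ∣ (a * b).factorial / (a.factorial ^ b * b.factorial)) :
    (∀ σ : Equiv.Perm (Fin (a * b)), orderOf σ = r →
        ∃ f : Fin (a * b) → Fin b, (∀ j : Fin b, Nat.card {x : Fin (a * b) // f x = j} = a) ∧
          ∃ π : Equiv.Perm (Fin b), ∀ x : Fin (a * b), f (σ x) = π (f x)) ↔
      (r ≤ a ∧ (a % r = 0 ∨ (b % r = 0 ∧ a % r = 1) ∨
        (a % r ≠ 0 ∧ b % r ≠ 0 ∧ (b % r) * (a % r) < r ∧ (b < r ∨ (b % r + r) * (a % r) ≤ (b % r) * a + r)))) := by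
  have hdvd : (a.factorial ^ b * b.factorial) ∣ (a * b).factorial := by
    rw [mul_comm a b]
    have h1 := Nat.uniformBell_mul_eq b (n := a) (by omega)
    exact ⟨Nat.uniformBell b a, by rw [← h1]; ring⟩
  have hrab : r ≤ a * b := by
    have h2 : (a * b).factorial / (a.factorial ^ b * b.factorial) ∣ (a * b).factorial :=
      Nat.div_dvd_of_dvd hdvd
    exact (Nat.Prime.dvd_factorial hr).mp (hrd.trans h2)
  rw [← arith ha hb hr hrab]
  constructor
  · intro h c hc hcr
    obtain ⟨σ, hσ, hσc⟩ := exists_orderOf hr hc hcr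
    obtain ⟨f, hf, π, hπ⟩ := h σ hσ
    obtain ⟨t, h1, h2, h3, h4⟩ := Fixes.exists_count hr (by omega) (by rw [← hσ]; exact pow_orderOf_eq_one σ)
      (show Fixes a b σ from ⟨f, hf, π, hπ⟩)
    rw [hσc] at h3 h4
    exact ⟨t, h1, h2, h3, h4⟩
  · intro h σ hσ
    obtain ⟨c, hc, hcc⟩ := exists_card_fixc hr σ hσ
    obtain ⟨t, h1, h2, h3, h4⟩ := h c hc (by omega)
    have hF : (fixc σ).card = a * b - c * r := by omega
    rw [← hF] at h3 h4
    exact fixes_of hr (by rw [← hσ]; exact pow_orderOf_eq_one σ) hcc h1 h2 h3 h4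

end Cfsg.Agent.S3575
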