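import Cfsg.Statements.S3580
import Cfsg.Agent.Lib.H29.SylFix

set_option autoImplicit false
open Cfsg

namespace Cfsg.Agent.S3580

/-- Let G act faithfully and transitively on a finite set Ω, let p be an odd prime dividing the order of G and P a Sylow p-subgroup of G. Then the number of orbits of P on Ω is at most (p/(2p − 1))·(number of points). -/
theorem result {G Ω : Type*} [Group G] [Finite G] [MulAction G Ω] [FaithfulSMul G Ω] [Finite Ω]
    (htrans : MulAction.IsPretransitive G Ω) (p : ℕ) [Fact p.Prime] (hp2 : p ≠ 2) (hpG : p ∣ Nat.card G)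
    (P : Sylow p G) :
    (2 * p - 1) * Nat.card (MulAction.orbitRel.Quotient ↥(P : Subgroup G) Ω) ≤ p * Nat.card Ω := by
  have hpp : p.Prime := Fact.out
  have h1 := H29.SylNum.fix_le p htrans hpG P
  have h2 := H29.SylNum.orbits_le p (Ω := Ω) (P : Subgroup G) P.isPGroup'
  have h3 : ((2 * p - 1 : ℕ) : ℤ) = 2 * (p : ℤ) - 1 := by
    rw [Nat.cast_sub (by have := hpp.pos; omega)]; simp
  have h4 : ((p - 1 : ℕ) : ℤ) = (p : ℤ) - 1 := by
    rw [Nat.cast_sub hpp.pos]; simp
  have h5 : (p : ℤ) * (Nat.card (MulAction.orbitRel.Quotient ↥(P : Subgroup G) Ω) : ℤ) ≤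
      (Nat.card Ω : ℤ) + ((p : ℤ) - 1) * (Nat.card (MulAction.fixedPoints (P : Subgroup G) Ω) : ℤ) := by
    rw [← h4]; exact_mod_cast h2
  have hp : (2 : ℤ) ≤ p := by exact_mod_cast hpp.two_le
  zify
  rw [h3]
  generalize (Nat.card (MulAction.orbitRel.Quotient ↥(P : Subgroup G) Ω) : ℤ) = o at *
  generalize (Nat.card (MulAction.fixedPoints (P : Subgroup G) Ω) : ℤ) = f at *
  generalize (Nat.card Ω : ℤ) = n at *
  have h6 : (p : ℤ) * ((2 * (p : ℤ) - 1) * o) ≤ (p : ℤ) * (p * n) := by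
    nlinarith [mul_le_mul_of_nonneg_left h5 (by linarith : (0 : ℤ) ≤ 2 * (p : ℤ) - 1),
      mul_le_mul_of_nonneg_left h1 (by linarith : (0 : ℤ) ≤ (p : ℤ) - 1)]
  exact le_of_mul_le_mul_left h6 (by linarith)

end Cfsg.Agent.S3580
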