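import Cfsg.Statements.S3589
import Cfsg.Agent.Lib.H48.Sc11

set_option autoImplicit false
open Cfsg

namespace Cfsg.Agent.S3589


theorem result {F : Type*} [Field F] [Fintype F]
    [CharP F 2] (a b : F) (han : ∀ z₁ z₂ : F, z₁ ^ 2 + a * z₁ * z₂ + b * z₂ ^ 2 = 0 → z₁ = 0 ∧ z₂ = 0) :
    Set.range (orderOf : Cfsg.PSp 4 F → ℕ) = Set.range (orderOf : ↥(Cfsg.isometryGroup F (Cfsg.quadFormMinus 3 F a b)) → ℕ) := by
  rw [H48.Sc.psp_range, ← H48.QuadStd.coe_qMinus]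
  exact (H48.Sc.orth_range han).symm

end Cfsg.Agent.S3589
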