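import Cfsg.Statements.S3590
import Cfsg.Agent.Lib.H48.Sc12
import Mathlib.FieldTheory.Finite.GaloisField

set_option autoImplicit false
open Cfsg

namespace Cfsg.Agent.S3590


theorem result {F : Type*} [Field F] [Fintype F]
    [CharP F 2] (M : ℕ) :
    ∃ (H : Type) (_ : Group H) (_ : Fintype H), M < Fintype.card H ∧ Set.range (orderOf : H → ℕ) = Set.range (orderOf : Cfsg.PSp 4 F → ℕ) := by
  classical
  rw [H48.Sc.psp_range]
  obtain ⟨n, hp, hn⟩ := FiniteField.card F 2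
  haveI : Fact (Nat.Prime 2) := ⟨Nat.prime_two⟩
  have hn0 : (n : ℕ) ≠ 0 := n.2.ne'
  have hc : Nat.card (GaloisField 2 n) = Nat.card F := by
    rw [GaloisField.card 2 n hn0, Nat.card_eq_fintype_card, hn]
  haveI : Fintype (GaloisField 2 n) := Fintype.ofFinite _
  obtain ⟨z0, hz0⟩ := H48.FinFieldSq.exists_irred (F := GaloisField 2 n)
  have hab : ∀ z₁ z₂ : GaloisField 2 n, z₁ ^ 2 + 1 * z₁ * z₂ + z0 * z₂ ^ 2 = 0 → z₁ = 0 ∧ z₂ = 0 := by
    intro z₁ z₂ h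
    have := H48.Sc.aniso_qBin hz0 (z₁, z₂) (by rw [H48.QuadStd.qBin_apply]; exact h)
    exact ⟨congrArg Prod.fst this, congrArg Prod.snd this⟩
  haveI : Fintype (H48.Sc.AG (H48.Sc.actk (H48.QuadStd.qMinus 3 (GaloisField 2 n) 1 z0) (M + 1))) := Fintype.ofFinite _
  refine ⟨H48.Sc.AG (H48.Sc.actk (H48.QuadStd.qMinus 3 (GaloisField 2 n) 1 z0) (M + 1)), inferInstance, inferInstance, ?_, ?_⟩
  · rw [← Nat.card_eq_fintype_card]
    exact lt_trans (Nat.lt_succ_self M) (H48.Sc.ag_card (M + 1))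
  · rw [H48.Sc.ag_range hab (M + 1) (Nat.succ_pos M), hc]

end Cfsg.Agent.S3590
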