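import Cfsg.Statements.S3592
import Cfsg.Agent.Lib.H39.NseM11
import Cfsg.Agent.Lib.H61.M11Deg

set_option autoImplicit false
open Cfsg

namespace Cfsg.Agent.S3592

/-- Let M be the Mathieu group M₁₁ (order 7920). If a finite group G has the same order as M and the same set of values of the function 'number of elements of order n' (taken over the element orders n that occur), then G is isomorphic to M. -/
theorem result {G : Type*} [Group G] [Finite G]
    (hcard : Nat.card G = Nat.card ↥Cfsg.Spor.M11)
    (hnse : {c : ℕ | 0 < c ∧ ∃ n : ℕ, c = Nat.card {g : G // orderOf g = n}} =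
      {c : ℕ | 0 < c ∧ ∃ n : ℕ, c = Nat.card {g : ↥Cfsg.Spor.M11 // orderOf g = n}}) :
    Nonempty (G ≃* ↥Cfsg.Spor.M11) := by
  classical
  have e := MonoidHom.ofInjective H61.M11Deg.ρ_injective
  have hs := H61.M11Deg.isDeg11.simple
  have hsM : IsSimpleGroup ↥Cfsg.Spor.M11 := e.isSimpleGroup
  have hM := H61.M11Deg.card_M11
  have hG : Nat.card G = 7920 := hcard.trans hM
  have hfin : Finite ↥Cfsg.Spor.M11 := Nat.finite_of_card_ne_zero (by rw [hM]; norm_num)
  have hsG : IsSimpleGroup G := H39.NseM11.simple hG
    (fun x hx => (H39.NseM11.cent11 hM hG hnse hx).1) (fun x hx => (H39.NseM11.cent11 hM hG hnse hx).2)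
  exact H94.M11.unique_7920 hG hM

end Cfsg.Agent.S3592
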