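import Cfsg.Statements.S3598
import Cfsg.Agent.Lib.H17.PD3
import Cfsg.Agent.Lib.H64.Order60
import Cfsg.Agent.S0252

set_option autoImplicit false
open Cfsg

namespace Cfsg.Agent.S3598

/-- Let p be a prime and F a field with p² elements. If a finite group G has, for every d, the same number of irreducible complex characters of degree d as PSL(2,F) (the same first column of the character table, with multiplicities), then G is isomorphic to PSL(2,F). -/
theorem result {F : Type*} [Field F] [Fintype F] (p : ℕ) (hp : p.Prime)
    (hF : Fintype.card F = p ^ 2) {G : Type*} [Group G] [Finite G]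
    (h : ∀ d : ℕ, Nat.card {χ : Cfsg.IrrCharacter G // (χ : G → ℂ) 1 = (d : ℂ)} =
      Nat.card {χ : Cfsg.IrrCharacter (Matrix.ProjectiveSpecialLinearGroup (Fin 2) F) // (χ : Matrix.ProjectiveSpecialLinearGroup (Fin 2) F → ℂ) 1 = (d : ℂ)}) :
    Nonempty (G ≃* Matrix.ProjectiveSpecialLinearGroup (Fin 2) F) := by
  rcases Nat.lt_or_ge p 3 with h3 | h3
  · have hp2 : p = 2 := le_antisymm (by omega) hp.two_le
    subst hp2
    obtain ⟨e⟩ := Cfsg.Agent.S0252.result (F := F) (by rw [hF]; norm_num)
    have hS : H17.PD.SameDeg G (Matrix.ProjectiveSpecialLinearGroup (Fin 2) F) := h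
    have hcard : Nat.card G = 60 := by
      rw [hS.card, Nat.card_congr e.toEquiv]
      have h1 := two_mul_nat_card_alternatingGroup (α := Fin 5)
      rw [Nat.card_perm, Nat.card_eq_fintype_card (α := Fin 5), Fintype.card_fin] at h1
      have : Nat.factorial 5 = 120 := rfl
      omega
    have hd : Cfsg.degreePrimes G = Cfsg.degreePrimes (alternatingGroup (Fin 5)) := by
      have h1 : Cfsg.charDegrees G = Cfsg.charDegrees (alternatingGroup (Fin 5)) := by
        rw [hS.charDegrees, H82.SL2Even.charDegrees_congr e]
      unfold Cfsg.degreePrimes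
      rw [h1]
    obtain ⟨f⟩ := H64.Order60.main hcard hd
    exact ⟨f.trans e.symm⟩
  · exact H17.PD.main_odd hp (by omega) hF h

end Cfsg.Agent.S3598
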