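import Cfsg.Statements.S3599
import Mathlib

set_option autoImplicit false
open Cfsg

namespace Cfsg.Agent.S3599

/-- `x` is a `q`-element. -/
def IsQ {X : Type*} [Group X] (q : ℕ) (x : X) : Prop := ∃ k : ℕ, x ^ q ^ k = 1

/-- The `q`-elements are closed under products. -/
def Nrm (q : ℕ) (X : Type*) [Group X] : Prop := ∀ x y : X, IsQ q x → IsQ q y → IsQ q (x * y)

theorem IsQ.map {X Y : Type*} [Group X] [Group Y] (f : X →* Y) {q : ℕ} {x : X} (h : IsQ q x) : IsQ q (f x) := by
  obtain ⟨k, hk⟩ := h
  exact ⟨k, by rw [← map_pow, hk, map_one]⟩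

theorem IsQ.of_injective {X Y : Type*} [Group X] [Group Y] (f : X →* Y) (hf : Function.Injective f) {q : ℕ} {x : X}
    (h : IsQ q (f x)) : IsQ q x := by
  obtain ⟨k, hk⟩ := h
  exact ⟨k, hf (by rw [map_pow, hk, map_one])⟩

theorem IsQ.inv {X : Type*} [Group X] {q : ℕ} {x : X} (h : IsQ q x) : IsQ q x⁻¹ := by
  obtain ⟨k, hk⟩ := h
  exact ⟨k, by rw [inv_pow, hk, inv_one]⟩

theorem IsQ.conj {X : Type*} [Group X] {q : ℕ} {x : X} (h : IsQ q x) (y : X) : IsQ q (y * x * y⁻¹) := by
  obtain ⟨k, hk⟩ := h
  exact ⟨k, by rw [conj_pow, hk, mul_one, mul_inv_cancel]⟩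

theorem Nrm.subgroup {X : Type*} [Group X] {q : ℕ} (h : Nrm q X) (H : Subgroup X) : Nrm q H := by
  intro x y hx hy
  exact IsQ.of_injective H.subtype H.subtype_injective (by
    rw [map_mul]
    exact h _ _ (hx.map H.subtype) (hy.map H.subtype))

/-- `q`-elements lift along surjections of finite groups. -/
theorem exists_lift {X Y : Type*} [Group X] [Finite X] [Group Y] (f : X →* Y) (hf : Function.Surjective f)
    {q : ℕ} (hq : q.Prime) {y : Y} (hy : IsQ q y) : ∃ x : X, f x = y ∧ IsQ q x := by
  obtain ⟨x, rfl⟩ := hf y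
  obtain ⟨k, hk⟩ := hy
  have hx0 : orderOf x ≠ 0 := (orderOf_pos x).ne'
  obtain ⟨a, m, hm, ham⟩ := Nat.exists_eq_pow_mul_and_not_dvd hx0 q hq.ne_one
  have hcop : Nat.Coprime (q ^ (a + k)) m := Nat.Coprime.pow_left _ ((Nat.Prime.coprime_iff_not_dvd hq).mpr hm)
  obtain ⟨u, hu1, hu2⟩ := Nat.chineseRemainder hcop 1 0
  refine ⟨x ^ u, ?_, a, ?_⟩
  · rw [map_pow]
    have h1 : orderOf (f x) ∣ q ^ (a + k) :=
      (orderOf_dvd_of_pow_eq_one hk).trans (pow_dvd_pow q (Nat.le_add_left k a))
    have h2 : u ≡ 1 [MOD orderOf (f x)] := hu1.of_dvd h1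
    calc f x ^ u = f x ^ 1 := pow_eq_pow_iff_modEq.mpr h2
      _ = f x := pow_one _
  · rw [← pow_mul]
    apply orderOf_dvd_iff_pow_eq_one.mp
    rw [ham, mul_comm]
    exact Nat.mul_dvd_mul ((Nat.modEq_zero_iff_dvd).mp hu2) dvd_rfl

theorem Nrm.of_surjective {X Y : Type*} [Group X] [Finite X] [Group Y] {q : ℕ} (hq : q.Prime) (h : Nrm q X)
    (f : X →* Y) (hf : Function.Surjective f) : Nrm q Y := by
  intro x y hx hy
  obtain ⟨x', rfl, hx'⟩ := exists_lift f hf hq hx
  obtain ⟨y', rfl, hy'⟩ := exists_lift f hf hq hy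
  rw [← map_mul]
  exact (h _ _ hx' hy').map f

/-- two primes with closed sets of elements: the elements commute -/
theorem commute_of_nrm {X : Type*} [Group X] {q r : ℕ} (hq : q.Prime) (hr : r.Prime) (hqr : q ≠ r)
    (h1 : Nrm q X) (h2 : Nrm r X) {x y : X} (hx : IsQ q x) (hy : IsQ r y) : x * y = y * x := by
  have e1 : IsQ q (x * y * x⁻¹ * y⁻¹) := by
    have := h1 x (y * x⁻¹ * y⁻¹) hx (hx.inv.conj y)
    simpa [mul_assoc] using this
  have e2 : IsQ r (x * y * x⁻¹ * y⁻¹) := h2 _ _ (hy.conj x) hy.inv
  obtain ⟨k, hk⟩ := e1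
  obtain ⟨l, hl⟩ := e2
  have h3 : orderOf (x * y * x⁻¹ * y⁻¹) = 1 := by
    exact Nat.eq_one_of_dvd_coprimes (Nat.Coprime.pow k l ((Nat.coprime_primes hq hr).mpr hqr))
      (orderOf_dvd_of_pow_eq_one hk) (orderOf_dvd_of_pow_eq_one hl)
  have h4 := orderOf_eq_one_iff.mp h3
  rw [mul_inv_eq_one, mul_inv_eq_iff_eq_mul] at h4
  exact h4

theorem conj_formula {N G : Type*} [Group N] [Group G] (φ : G →* MulAut N) (n : N) (g : G) :
    (SemidirectProduct.inl n * SemidirectProduct.inr g * (SemidirectProduct.inl n)⁻¹ : N ⋊[φ] G) =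
      ⟨n * φ g n⁻¹, g⟩ := by
  ext <;> simp

/-- The Frobenius group `K ⋊ μ_r`. -/
theorem exists_frob (q r : ℕ) (hq : q.Prime) (hr : r.Prime) (hqr : q ≠ r) :
    ∃ (F : Type) (_ : Group F) (_ : Fintype F), Nrm q F ∧
      (∀ x : F, orderOf x = 1 ∨ orderOf x = q ∨ orderOf x = r) ∧ (∃ x : F, orderOf x = q) ∧
      (∃ x : F, orderOf x = r) := by
  classical
  have : Fact q.Prime := ⟨hq⟩
  have : Fact r.Prime := ⟨hr⟩
  let K := GaloisField q (r - 1)
  have hr1 : r - 1 ≠ 0 := by have := hr.two_le; omega
  have : Finite K := inferInstance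
  let _ : Fintype K := Fintype.ofFinite K
  have hcard : Nat.card K = q ^ (r - 1) := GaloisField.card q (r - 1) hr1
  have hunits : Nat.card Kˣ = q ^ (r - 1) - 1 := by
    rw [Nat.card_units, hcard]
  have hdvd : r ∣ Nat.card Kˣ := by
    rw [hunits]
    have h1 : q ^ (r - 1) ≡ 1 [MOD r] := by
      have := Nat.ModEq.pow_totient (show Nat.Coprime q r from (Nat.coprime_primes hq hr).mpr hqr)
      rwa [Nat.totient_prime hr] at this
    exact (Nat.modEq_iff_dvd' (Nat.one_le_pow _ _ hq.pos)).mp h1.symm
  obtain ⟨ζ, hζ⟩ := exists_prime_orderOf_dvd_card' r hdvd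
  let U : Subgroup Kˣ := Subgroup.zpowers ζ
  have hU : ∀ u : U, orderOf u = 1 ∨ orderOf u = r := by
    intro u
    have h1 : orderOf u ∣ r := by
      have h2 : Nat.card U = r := by rw [Nat.card_zpowers, hζ]
      exact (orderOf_dvd_natCard u).trans (dvd_of_eq h2)
    exact (Nat.dvd_prime hr).mp h1
  let act : U →* MulAut (Multiplicative K) :=
    { toFun := fun u =>
        { toFun := fun v => Multiplicative.ofAdd (((u : Kˣ) : K) * Multiplicative.toAdd v)
          invFun := fun v => Multiplicative.ofAdd ((((u : Kˣ)⁻¹ : Kˣ) : K) * Multiplicative.toAdd v)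
          left_inv := fun v => by
            show Multiplicative.ofAdd ((((u : Kˣ)⁻¹ : Kˣ) : K) * (((u : Kˣ) : K) * Multiplicative.toAdd v)) = v
            rw [Units.inv_mul_cancel_left]; rfl
          right_inv := fun v => by
            show Multiplicative.ofAdd (((u : Kˣ) : K) * ((((u : Kˣ)⁻¹ : Kˣ) : K) * Multiplicative.toAdd v)) = v
            rw [Units.mul_inv_cancel_left]; rfl
          map_mul' := fun v w => by
            rw [toAdd_mul, mul_add, ofAdd_add] }
      map_one' := by
        ext v
        show Multiplicative.ofAdd ((1 : K) * Multiplicative.toAdd v) = v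
        rw [one_mul]; rfl
      map_mul' := fun u u' => by
        ext v
        show Multiplicative.ofAdd ((((u : Kˣ) : K) * ((u' : Kˣ) : K)) * Multiplicative.toAdd v) =
          Multiplicative.ofAdd (((u : Kˣ) : K) * (((u' : Kˣ) : K) * Multiplicative.toAdd v))
        rw [mul_assoc] }
  have hact : ∀ (u : U) (v : K), act u (Multiplicative.ofAdd v) = Multiplicative.ofAdd (((u : Kˣ) : K) * v) := by
    intro u v
    rfl
  let F := SemidirectProduct (Multiplicative K) U act
  have hFfin : Finite F := Finite.of_equiv _ (SemidirectProduct.equivProd (φ := act)).symm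
  let _ : Fintype F := Fintype.ofFinite F
  -- elements with right part 1
  have hleft : ∀ v : K, v ≠ 0 → orderOf (SemidirectProduct.inl (Multiplicative.ofAdd v) : F) = q := by
    intro v hv
    rw [orderOf_injective _ SemidirectProduct.inl_injective]
    apply orderOf_eq_prime
    · show Multiplicative.ofAdd (q • v) = Multiplicative.ofAdd 0
      congr 1
      rw [nsmul_eq_mul, CharP.cast_eq_zero, zero_mul]
    · intro h
      exact hv (Multiplicative.ofAdd.injective h)
  have hright : ∀ u : U, orderOf (SemidirectProduct.inr u : F) = orderOf u := fun u =>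
    orderOf_injective _ SemidirectProduct.inr_injective u
  have hgen : ∀ x : F, x.right ≠ 1 → orderOf x = orderOf x.right := by
    intro x hx
    have hne : (1 : K) - ((x.right : Kˣ) : K) ≠ 0 := by
      intro h
      apply hx
      apply Subtype.ext
      apply Units.ext
      exact (sub_eq_zero.mp h).symm
    let w : K := (Multiplicative.toAdd x.left) / (1 - ((x.right : Kˣ) : K))
    have hw : w - ((x.right : Kˣ) : K) * w = Multiplicative.toAdd x.left := by
      have : w * (1 - ((x.right : Kˣ) : K)) = Multiplicative.toAdd x.left := div_mul_cancel₀ _ hne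
      rw [← this]; ring
    have hconj : x = (SemidirectProduct.inl (Multiplicative.ofAdd w) : F) * SemidirectProduct.inr x.right *
        (SemidirectProduct.inl (Multiplicative.ofAdd w))⁻¹ := by
      refine Eq.trans ?_ (conj_formula act (Multiplicative.ofAdd w) x.right).symm
      have h5 : x.left = Multiplicative.ofAdd w * act x.right (Multiplicative.ofAdd w)⁻¹ := by
        rw [← ofAdd_neg, hact, ← ofAdd_add]
        apply Multiplicative.toAdd.injective
        rw [toAdd_ofAdd, ← hw]
        ring
      rw [← h5]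
    have h2 : orderOf ((SemidirectProduct.inl (Multiplicative.ofAdd w) : F) * SemidirectProduct.inr x.right *
        (SemidirectProduct.inl (Multiplicative.ofAdd w))⁻¹) = orderOf (SemidirectProduct.inr x.right : F) := by
      exact MulEquiv.orderOf_eq (MulAut.conj (SemidirectProduct.inl (Multiplicative.ofAdd w) : F)) _
    conv_lhs => rw [hconj]
    rw [h2, hright]
  have hone : ∀ x : F, x.right = 1 → x = SemidirectProduct.inl x.left := by
    intro x hx
    apply SemidirectProduct.ext
    · simp
    · simpa using hx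
  refine ⟨F, inferInstance, inferInstance, ?_, ?_, ?_, ?_⟩
  · -- Nrm q
    have key : ∀ x : F, IsQ q x ↔ x.right = 1 := by
      intro x
      constructor
      · rintro ⟨k, hk⟩
        have h1 : x.right ^ q ^ k = 1 := by
          have := congrArg SemidirectProduct.rightHom hk
          rw [map_pow, map_one] at this
          exact this
        rcases hU x.right with h2 | h2
        · exact orderOf_eq_one_iff.mp h2
        · exfalso
          have h3 : r ∣ q ^ k := by rw [← h2]; exact orderOf_dvd_of_pow_eq_one h1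
          exact hqr ((Nat.prime_dvd_prime_iff_eq hr hq).mp (hr.dvd_of_dvd_pow h3)).symm
      · intro hx
        by_cases hv : Multiplicative.toAdd x.left = 0
        · refine ⟨0, ?_⟩
          rw [hone x hx]
          have : x.left = 1 := hv
          rw [this, map_one, one_pow]
        · refine ⟨1, ?_⟩
          rw [pow_one, hone x hx]
          have := hleft (Multiplicative.toAdd x.left) hv
          exact orderOf_dvd_iff_pow_eq_one.mp (dvd_of_eq this)
    intro x y hx hy
    rw [key] at hx hy ⊢
    rw [SemidirectProduct.mul_right, hx, hy, one_mul]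
  · intro x
    by_cases hx : x.right = 1
    · by_cases hv : Multiplicative.toAdd x.left = 0
      · left
        rw [hone x hx]
        have : x.left = 1 := hv
        rw [this, map_one, orderOf_one]
      · right; left
        rw [hone x hx]
        exact hleft _ hv
    · right; right
      rw [hgen x hx]
      exact (hU x.right).resolve_left (fun h => hx (orderOf_eq_one_iff.mp h))
  · exact ⟨_, hleft 1 one_ne_zero⟩
  · refine ⟨SemidirectProduct.inr ⟨ζ, Subgroup.mem_zpowers ζ⟩, ?_⟩
    rw [hright, Subgroup.orderOf_mk, hζ]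

/-- Passing to a minimal section. -/
theorem exists_critical (S : Set ℕ) (Q : Set ℕ) (hQ : ∀ q ∈ Q, q.Prime) :
    ∀ (n : ℕ) (X : Type) [Group X] [Finite X], Nat.card X = n → (∀ q ∈ Q, Nrm q X) →
      Set.range (orderOf : X → ℕ) = S →
      ∃ (Y : Type) (_ : Group Y) (_ : Fintype Y), (∀ q ∈ Q, Nrm q Y) ∧ Set.range (orderOf : Y → ℕ) = S ∧
        ∀ (H : Subgroup Y) (N : Subgroup ↥H) [N.Normal], (H ≠ ⊤ ∨ N ≠ ⊥) →
          Set.range (orderOf : (↥H ⧸ N) → ℕ) ≠ S := by
  intro n
  induction n using Nat.strong_induction_on with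
  | _ n ih =>
    intro X _ _ hX hnrm hS
    by_cases hcrit : ∀ (H : Subgroup X) (N : Subgroup ↥H) [N.Normal], (H ≠ ⊤ ∨ N ≠ ⊥) →
          Set.range (orderOf : (↥H ⧸ N) → ℕ) ≠ S
    · exact ⟨X, inferInstance, Fintype.ofFinite X, hnrm, hS, hcrit⟩
    · push Not at hcrit
      obtain ⟨H, N, hN, hne, hS'⟩ := hcrit
      have hlt : Nat.card (↥H ⧸ N) < n := by
        rw [← hX]
        have h1 : Nat.card (↥H ⧸ N) * Nat.card N = Nat.card H := by
          rw [mul_comm]; exact Subgroup.card_mul_index N
        have h2 : Nat.card H * H.index = Nat.card X := Subgroup.card_mul_index H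
        have hNpos : 0 < Nat.card N := Nat.card_pos
        have hQpos : 0 < Nat.card (↥H ⧸ N) := Nat.card_pos
        have hIpos : H.index ≠ 0 := Subgroup.index_ne_zero_of_finite
        rcases hne with h | h
        · have h3 : H.index ≠ 1 := fun h' => h (Subgroup.index_eq_one.mp h')
          have h4 : 2 ≤ H.index := by omega
          calc Nat.card (↥H ⧸ N) ≤ Nat.card H := by rw [← h1]; exact Nat.le_mul_of_pos_right _ hNpos
            _ < Nat.card H * H.index := by
              have : 0 < Nat.card H := Nat.card_pos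
              nlinarith
            _ = Nat.card X := h2
        · have h3 : Nat.card N ≠ 1 := fun h' => h (Subgroup.card_eq_one.mp h')
          have h4 : 2 ≤ Nat.card N := by omega
          calc Nat.card (↥H ⧸ N) < Nat.card H := by rw [← h1]; nlinarith
            _ ≤ Nat.card H * H.index := Nat.le_mul_of_pos_right _ (by omega)
            _ = Nat.card X := h2
      exact ih _ hlt (↥H ⧸ N) rfl (fun q hq => ((hnrm q hq).subgroup H).of_surjective (hQ q hq)
        (QuotientGroup.mk' N) (QuotientGroup.mk'_surjective N)) hS'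

/-- A finite group is critical with respect to a set Ω of natural numbers when its set of element orders is Ω while no proper section H/N (H a subgroup, N normal in H, (H, N) ≠ (whole group, 1)) has Ω as its set of element orders. Let s ≥ 1 and let p(j,0), p(j,1) (j < s) be 2s pairwise distinct primes, and let Ω be the set of all products c(0)·…·c(s−1) with each c(j) ∈ {1, p(j,0), p(j,1)}. Then there are 2^s pairwise non-isomorphic finite groups critical with respect to Ω. -/
theorem result (s : ℕ) (hs : 1 ≤ s) (p : Fin s → Fin 2 → ℕ)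
    (hp : ∀ j i, (p j i).Prime) (hinj : ∀ j i j' i', p j i = p j' i' → j = j' ∧ i = i') :
    ∃ (G : Fin (2 ^ s) → Type) (_ : ∀ a, Group (G a)) (_ : ∀ a, Fintype (G a)),
      (∀ a b, a ≠ b → ¬ Nonempty (G a ≃* G b)) ∧
      ∀ a, Set.range (orderOf : (G a) → ℕ) = {m : ℕ | ∃ c : Fin s → ℕ, (∀ j, c j = 1 ∨ c j = p j 0 ∨ c j = p j 1) ∧ m = ∏ j, c j} ∧
      ∀ (H : Subgroup (G a)) (N : Subgroup ↥H) [N.Normal], (H ≠ ⊤ ∨ N ≠ ⊥) → Set.range (orderOf : (↥H ⧸ N) → ℕ) ≠ {m : ℕ | ∃ c : Fin s → ℕ, (∀ j, c j = 1 ∨ c j = p j 0 ∨ c j = p j 1) ∧ m = ∏ j, c j} := by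
  classical
  set S : Set ℕ := {m : ℕ | ∃ c : Fin s → ℕ, (∀ j, c j = 1 ∨ c j = p j 0 ∨ c j = p j 1) ∧ m = ∏ j, c j} with hSdef
  let e : Fin (2 ^ s) ≃ (Fin s → Fin 2) := Fintype.equivOfCardEq (by simp)
  -- the i-th prime / other prime
  have key : ∀ ε : Fin s → Fin 2, ∃ (Y : Type) (_ : Group Y) (_ : Fintype Y),
      (∀ q ∈ Set.range (fun j => p j (ε j)), Nrm q Y) ∧ Set.range (orderOf : Y → ℕ) = S ∧
        ∀ (H : Subgroup Y) (N : Subgroup ↥H) [N.Normal], (H ≠ ⊤ ∨ N ≠ ⊥) →
          Set.range (orderOf : (↥H ⧸ N) → ℕ) ≠ S := by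
    intro ε
    have hne : ∀ j, p j (ε j) ≠ p j (1 - ε j) := by
      intro j h
      have := (hinj _ _ _ _ h).2
      revert this
      generalize ε j = i
      fin_cases i <;> decide
    have hcase : ∀ j i, i = ε j ∨ i = 1 - ε j := by
      intro j i
      generalize ε j = l
      fin_cases i <;> fin_cases l <;> decide
    choose F hFg hFf hFn hFo hFq hFr using fun j =>
      exists_frob (p j (ε j)) (p j (1 - ε j)) (hp _ _) (hp _ _) (hne j)
    have hFo' : ∀ j (x : F j), orderOf x = 1 ∨ orderOf x = p j 0 ∨ orderOf x = p j 1 := by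
      intro j x
      rcases hFo j x with h | h | h
      · exact Or.inl h
      · rcases hcase j 0 with h0 | h0
        · right; left; rw [h, ← h0]
        · rcases hcase j 1 with h1 | h1
          · right; right; rw [h, ← h1]
          · exact absurd (h0.trans h1.symm) (by decide)
      · rcases hcase j 0 with h0 | h0
        · rcases hcase j 1 with h1 | h1
          · exact absurd (h0.trans h1.symm) (by decide)
          · right; right; rw [h, ← h1]
        · right; left; rw [h, ← h0]
    have hFex : ∀ j (c : ℕ), (c = 1 ∨ c = p j 0 ∨ c = p j 1) → ∃ x : F j, orderOf x = c := by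
      intro j c hc
      have hall : ∀ i, ∃ x : F j, orderOf x = p j i := by
        intro i
        rcases hcase j i with h | h
        · obtain ⟨x, hx⟩ := hFq j
          exact ⟨x, by rw [h, hx]⟩
        · obtain ⟨x, hx⟩ := hFr j
          exact ⟨x, by rw [h, hx]⟩
      rcases hc with h | h | h
      · exact ⟨1, by rw [orderOf_one, h]⟩
      · obtain ⟨x, hx⟩ := hall 0
        exact ⟨x, by rw [h, hx]⟩
      · obtain ⟨x, hx⟩ := hall 1
        exact ⟨x, by rw [h, hx]⟩
    have hcop : ∀ (c : Fin s → ℕ), (∀ j, c j = 1 ∨ c j = p j 0 ∨ c j = p j 1) →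
        ∀ i j, i ≠ j → Nat.Coprime (c i) (c j) := by
      intro c hc i j hij
      have hpp : ∀ a b, Nat.Coprime (p i a) (p j b) := fun a b =>
        (Nat.coprime_primes (hp _ _) (hp _ _)).mpr (fun h => hij (hinj _ _ _ _ h).1)
      rcases hc i with h1 | h1 | h1 <;> rcases hc j with h2 | h2 | h2 <;> rw [h1, h2] <;>
        first
          | exact Nat.coprime_one_left _
          | exact Nat.coprime_one_right _
          | exact hpp _ _
    have hord : ∀ x : (j : Fin s) → F j, orderOf x = ∏ j, orderOf (x j) := by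
      intro x
      apply Nat.dvd_antisymm
      · apply orderOf_dvd_of_pow_eq_one
        funext j
        rw [Pi.pow_apply, Pi.one_apply]
        apply orderOf_dvd_iff_pow_eq_one.mp
        exact Finset.dvd_prod_of_mem _ (Finset.mem_univ j)
      · apply Fintype.prod_dvd_of_isRelPrime
        · intro i j hij
          exact Nat.coprime_iff_isRelPrime.mp
            (hcop (fun j => orderOf (x j)) (fun j => hFo' j (x j)) i j hij)
        · intro j
          apply orderOf_dvd_of_pow_eq_one
          have := congrFun (pow_orderOf_eq_one x) j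
          simpa using this
    apply exists_critical S (Set.range (fun j => p j (ε j))) (by rintro _ ⟨j, rfl⟩; exact hp _ _)
      (Nat.card ((j : Fin s) → F j)) ((j : Fin s) → F j) rfl
    · rintro _ ⟨j0, rfl⟩ x y hx hy
      -- coordinates
      have hco : ∀ i, ∃ k : ℕ, (x i * y i) ^ (p j0 (ε j0)) ^ k = 1 := by
        intro i
        have hxi : IsQ (p j0 (ε j0)) (x i) := hx.map (Pi.evalMonoidHom F i)
        have hyi : IsQ (p j0 (ε j0)) (y i) := hy.map (Pi.evalMonoidHom F i)
        by_cases hi : i = j0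
        · subst hi
          exact hFn i _ _ hxi hyi
        · have htriv : ∀ z : F i, IsQ (p j0 (ε j0)) z → z = 1 := by
            rintro z ⟨k, hk⟩
            have h1 : orderOf z ∣ (p j0 (ε j0)) ^ k := orderOf_dvd_of_pow_eq_one hk
            rcases hFo' i z with h | h | h
            · exact orderOf_eq_one_iff.mp h
            · exfalso
              rw [h] at h1
              have := (Nat.prime_dvd_prime_iff_eq (hp _ _) (hp _ _)).mp ((hp i 0).dvd_of_dvd_pow h1)
              exact hi (hinj _ _ _ _ this).1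
            · exfalso
              rw [h] at h1
              have := (Nat.prime_dvd_prime_iff_eq (hp _ _) (hp _ _)).mp ((hp i 1).dvd_of_dvd_pow h1)
              exact hi (hinj _ _ _ _ this).1
          refine ⟨0, ?_⟩
          rw [htriv _ hxi, htriv _ hyi]
          simp
      choose k hk using hco
      refine ⟨∑ i, k i, ?_⟩
      funext i
      rw [Pi.pow_apply, Pi.mul_apply, Pi.one_apply]
      have hle : k i ≤ ∑ i, k i := Finset.single_le_sum (fun _ _ => Nat.zero_le _) (Finset.mem_univ i)
      apply orderOf_dvd_iff_pow_eq_one.mp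
      exact (orderOf_dvd_of_pow_eq_one (hk i)).trans (pow_dvd_pow _ hle)
    · ext m
      constructor
      · rintro ⟨x, rfl⟩
        exact ⟨fun j => orderOf (x j), fun j => hFo' j (x j), hord x⟩
      · rintro ⟨c, hc, rfl⟩
        choose x hx using fun j => hFex j (c j) (hc j)
        refine ⟨x, ?_⟩
        rw [hord]
        exact Finset.prod_congr rfl (fun j _ => hx j)
  choose Y hYg hYf hYn hYs hYc using key
  refine ⟨fun a => Y (e a), fun a => hYg (e a), fun a => hYf (e a), ?_, ?_⟩
  · rintro a b hab ⟨f⟩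
    have hne : e a ≠ e b := fun h => hab (e.injective h)
    obtain ⟨j, hj⟩ := Function.ne_iff.mp hne
    -- both primes are normal in Y (e b)
    have h1 : Nrm (p j (e b j)) (Y (e b)) := hYn (e b) _ ⟨j, rfl⟩
    have h2 : Nrm (p j (e a j)) (Y (e b)) := by
      have h3 : Nrm (p j (e a j)) (Y (e a)) := hYn (e a) _ ⟨j, rfl⟩
      have : Finite (Y (e a)) := @Finite.of_fintype _ (hYf (e a))
      exact Nrm.of_surjective (hp _ _) h3 f.toMonoidHom f.surjective
    have hmem : ∀ i, p j i ∈ S := by
      intro i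
      refine ⟨fun j' => if j' = j then p j i else 1, ?_, ?_⟩
      · intro j'
        by_cases h : j' = j
        · subst h
          simp only [if_true]
          fin_cases i
          · right; left; rfl
          · right; right; rfl
        · simp [h]
      · simp
    have hne' : p j (e b j) ≠ p j (e a j) := fun h => hj (hinj _ _ _ _ h).2.symm
    have hm1 := hmem (e b j)
    have hm2 := hmem (e a j)
    rw [← hYs (e b)] at hm1 hm2
    obtain ⟨x, hx⟩ := hm1
    obtain ⟨y, hy⟩ := hm2
    have hxy : x * y = y * x := commute_of_nrm (hp _ _) (hp _ _) hne' h1 h2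
      ⟨1, by rw [pow_one]; exact orderOf_dvd_iff_pow_eq_one.mp (dvd_of_eq hx)⟩
      ⟨1, by rw [pow_one]; exact orderOf_dvd_iff_pow_eq_one.mp (dvd_of_eq hy)⟩
    have hcop : Nat.Coprime (orderOf x) (orderOf y) := by
      rw [hx, hy]
      exact (Nat.coprime_primes (hp _ _) (hp _ _)).mpr hne'
    have hord : orderOf (x * y) = p j (e b j) * p j (e a j) := by
      rw [(show Commute x y from hxy).orderOf_mul_eq_mul_orderOf_of_coprime hcop, hx, hy]
    have hin : p j (e b j) * p j (e a j) ∈ S := by
      rw [← hYs (e b)]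
      exact ⟨x * y, hord⟩
    obtain ⟨c, hc, hceq⟩ := hin
    -- c j is divisible by both primes
    have hdiv : ∀ i, p j i ∣ ∏ j', c j' → p j i ∣ c j := by
      intro i hi
      obtain ⟨j', -, hj'⟩ := (Prime.dvd_finsetProd_iff (Nat.prime_iff.mp (hp j i)) c).mp hi
      have : j = j' := by
        rcases hc j' with h | h | h
        · rw [h] at hj'
          exact absurd (Nat.dvd_one.mp hj') (hp j i).one_lt.ne'
        · rw [h] at hj'
          exact (hinj _ _ _ _ ((Nat.prime_dvd_prime_iff_eq (hp _ _) (hp _ _)).mp hj')).1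
        · rw [h] at hj'
          exact (hinj _ _ _ _ ((Nat.prime_dvd_prime_iff_eq (hp _ _) (hp _ _)).mp hj')).1
      rw [this] at hj' ⊢
      exact hj'
    have hd1 := hdiv (e b j) (by rw [← hceq]; exact Dvd.intro _ rfl)
    have hd2 := hdiv (e a j) (by rw [← hceq]; exact Dvd.intro_left _ rfl)
    rcases hc j with h | h | h
    · rw [h] at hd1
      exact absurd (Nat.dvd_one.mp hd1) (hp j _).one_lt.ne'
    · rw [h] at hd1 hd2
      have e1 := (hinj _ _ _ _ ((Nat.prime_dvd_prime_iff_eq (hp _ _) (hp _ _)).mp hd1)).2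
      have e2 := (hinj _ _ _ _ ((Nat.prime_dvd_prime_iff_eq (hp _ _) (hp _ _)).mp hd2)).2
      exact hj (e2.trans e1.symm)
    · rw [h] at hd1 hd2
      have e1 := (hinj _ _ _ _ ((Nat.prime_dvd_prime_iff_eq (hp _ _) (hp _ _)).mp hd1)).2
      have e2 := (hinj _ _ _ _ ((Nat.prime_dvd_prime_iff_eq (hp _ _) (hp _ _)).mp hd2)).2
      exact hj (e2.trans e1.symm)
  · intro a
    exact ⟨hYs (e a), hYc (e a)⟩

end Cfsg.Agent.S3599
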