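import Cfsg.Statements.S3620
import Cfsg.Agent.Lib.H63.MarggrafQP

set_option autoImplicit false
open Cfsg

namespace Cfsg.Agent.S3620

open MulAction H63.Marggraf in
/-- Let G act faithfully on a finite set in such a way that every non-trivial normal subgroup of G is transitive (G is quasiprimitive). Let Γ be a subset with more than one point and fewer than half of the points, such that the pointwise stabilizer of the complement of Γ acts transitively on Γ. Then G induces every even permutation of the set (G is the alternating or the symmetric group). -/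
theorem result {G Ω : Type*} [Group G] [Finite G] [MulAction G Ω] [FaithfulSMul G Ω] [Fintype Ω] [DecidableEq Ω]
    (hqp : ∀ N : Subgroup G, N.Normal → N ≠ ⊥ → MulAction.IsPretransitive ↥N Ω)
    (Γ : Set Ω) (hΓ1 : 1 < Γ.ncard) (hΓ2 : 2 * Γ.ncard < Fintype.card Ω)
    (hJ : MulAction.IsPretransitive ↥(fixingSubgroup G Γᶜ) ↥(SubMulAction.ofFixingSubgroup G Γᶜ)) :
    ∀ σ : Equiv.Perm Ω, Equiv.Perm.sign σ = 1 → ∃ x : G, (MulAction.toPerm x : Equiv.Perm Ω) = σ := by
  classical
  have hcard : Γ.toFinset.card = Γ.ncard := (Set.ncard_eq_toFinset_card' Γ).symm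
  have hJ' : IsJ G Γ.toFinset := by
    intro x hx y hy
    have hx' : x ∈ SubMulAction.ofFixingSubgroup G Γᶜ := by
      rw [SubMulAction.mem_ofFixingSubgroup_iff]; simpa using hx
    have hy' : y ∈ SubMulAction.ofFixingSubgroup G Γᶜ := by
      rw [SubMulAction.mem_ofFixingSubgroup_iff]; simpa using hy
    obtain ⟨⟨g, hg⟩, hgx⟩ := hJ.exists_smul_eq ⟨x, hx'⟩ ⟨y, hy'⟩
    refine ⟨g, ?_, congrArg Subtype.val hgx⟩
    intro z hz
    exact (mem_fixingSubgroup_iff G).mp hg z (by simpa using hz)
  have h1 : 1 < Γ.toFinset.card := by rw [hcard]; exact hΓ1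
  have h2 : 2 * Γ.toFinset.card < Fintype.card Ω := by rw [hcard]; exact hΓ2
  obtain ⟨h0, _, h0ne⟩ := H63.JordanSet.exists_ne_one hΓ1 hJ
  haveI : Nontrivial G := ⟨⟨h0, 1, h0ne⟩⟩
  haveI htr := H63.JordanSet.isPretransitive_of_qp hqp
  obtain ⟨ω, _, _⟩ := Finset.one_lt_card.mp h1
  haveI : Nontrivial Ω := by
    rw [← Fintype.one_lt_card_iff_nontrivial]; omega
  have hprim : IsPreprimitive G Ω := by
    by_contra hnp
    -- maximal subgroup over the stabilizer
    rcases eq_top_or_exists_le_coatom (stabilizer G ω) with h | ⟨M, hM, hLM⟩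
    · obtain ⟨ω', hω'⟩ := exists_ne ω
      obtain ⟨g, hg⟩ := htr.exists_smul_eq ω ω'
      have : g ∈ stabilizer G ω := by rw [h]; trivial
      rw [mem_stabilizer_iff] at this
      exact hω' (hg.symm.trans this)
    · have hne : stabilizer G ω ≠ M := by
        intro h
        apply hnp
        rw [← isCoatom_stabilizer_iff_preprimitive G ω, h]
        exact hM
      obtain ⟨u, huM, huL⟩ := SetLike.exists_of_lt (lt_of_le_of_ne hLM hne)
      have hch : ∀ w : Ω, ∃ g : G, g • ω = w := fun w => htr.exists_smul_eq ω w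
      choose γ hγ using hch
      let π : Ω → G ⧸ M := fun w => (γ w : G ⧸ M)
      have hπ : ∀ (g : G) (w : Ω), π (g • w) = g • π w := by
        intro g w
        show ((γ (g • w) : G) : G ⧸ M) = g • ((γ w : G) : G ⧸ M)
        rw [MulAction.Quotient.smul_coe, smul_eq_mul, eq_comm, QuotientGroup.eq]
        apply hLM
        rw [mem_stabilizer_iff, mul_smul, hγ, mul_inv_rev, mul_smul, inv_smul_smul, inv_smul_eq_iff, hγ]
      have hsurj : Function.Surjective π := by
        intro x
        induction x using QuotientGroup.induction_on with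
        | H g =>
          refine ⟨g • ω, ?_⟩
          show ((γ (g • ω) : G) : G ⧸ M) = (g : G ⧸ M)
          rw [QuotientGroup.eq]
          apply hLM
          rw [mem_stabilizer_iff, mul_smul, inv_smul_eq_iff, hγ]
      haveI : Nontrivial (G ⧸ M) := by
        rw [← not_subsingleton_iff_nontrivial, QuotientGroup.subsingleton_iff]
        exact hM.1
      have hX : IsPreprimitive G (G ⧸ M) := by
        rw [← isCoatom_stabilizer_iff_preprimitive G ((1 : G) : G ⧸ M), stabilizer_quotient]
        exact hM
      haveI : Fintype (G ⧸ M) := Fintype.ofFinite _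
      have hπω : π ω = ((1 : G) : G ⧸ M) := by
        show ((γ ω : G) : G ⧸ M) = _
        rw [QuotientGroup.eq, mul_one]
        apply hLM
        rw [mem_stabilizer_iff, inv_smul_eq_iff, hγ]
      apply no_cover π hπ hsurj hqp ?_ hX hJ' h1 h2 (u := u) (ω := ω)
      · intro h; exact huL (mem_stabilizer_iff.mpr h)
      · rw [hπω, MulAction.Quotient.smul_coe, smul_eq_mul, mul_one, QuotientGroup.eq, mul_one]
        exact M.inv_mem huM
      · -- faithfulness
        intro g hg
        by_contra hg1
        have hK : M.normalCore ≠ ⊥ := by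
          intro h
          apply hg1
          have : g ∈ M.normalCore := by
            rw [Subgroup.normalCore_eq_ker, MonoidHom.mem_ker]
            ext x
            exact hg x
          rw [h] at this
          exact Subgroup.mem_bot.mp this
        have htrK := hqp _ (Subgroup.normalCore_normal M) hK
        obtain ⟨x, hx⟩ := exists_ne (((1 : G) : G ⧸ M))
        obtain ⟨w, rfl⟩ := hsurj x
        obtain ⟨⟨n, hn⟩, hnw⟩ := htrK.exists_smul_eq ω w
        apply hx
        rw [Subgroup.normalCore_eq_ker, MonoidHom.mem_ker] at hn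
        have h3 : n • π ω = π ω := congrArg (fun σ : Equiv.Perm (G ⧸ M) => σ (π ω)) hn
        have hnw' : n • ω = w := hnw
        rw [← hπω, ← hnw', hπ, h3]
  have hfin := marggraf hprim hJ' h1 h2
  intro σ hσ
  obtain ⟨x, hx⟩ := hfin (Equiv.Perm.mem_alternatingGroup.mpr hσ)
  exact ⟨x, hx⟩

end Cfsg.Agent.S3620
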