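import Cfsg.Statements.S3633
import Cfsg.Agent.Lib.H63.SolvablePrimes

set_option autoImplicit false
open Cfsg

namespace Cfsg.Agent.S3633

/-- three distinct primes of a coclique in a subgroup-like solvable group: contradiction -/
theorem aux {G : Type*} [Group G] [Finite G] (hG : Group.IsSolvable G) {p q r : ℕ} (hp : p.Prime)
    (hq : q.Prime) (hr : r.Prime) (hpq : p ≠ q) (hpr : p ≠ r) (hqr : q ≠ r)
    (hpG : p ∣ Nat.card G) (hqG : q ∣ Nat.card G) (hrG : r ∣ Nat.card G)
    (h1 : ¬ ∃ x : G, orderOf x = p * q) (h2 : ¬ ∃ x : G, orderOf x = p * r)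
    (h3 : ¬ ∃ x : G, orderOf x = q * r) : False := by
  rcases H63.SolvablePrimes.lucido hG hp hq hr hpq hpr hqr hpG hqG hrG with h | h | h
  · exact h1 h
  · exact h2 h
  · exact h3 h

/-- Let G be a finite group and ρ a set of at least three prime divisors of the order of G that are pairwise non-adjacent in the prime graph (no element of order rs for distinct r, s ∈ ρ). Then at most one prime of ρ divides the order of any given solvable normal subgroup of G; in particular G is not solvable. -/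
theorem result {G : Type*} [Group G] [Finite G] (ρ : Finset ℕ) (hρ : 3 ≤ ρ.card) (hc : ((∀ r ∈ ρ, r.Prime ∧ r ∣ Nat.card G) ∧ (∀ r ∈ ρ, ∀ s ∈ ρ, r ≠ s → ¬ ∃ x : G, orderOf x = r * s)))
    (K : Subgroup G) [K.Normal] (hK : Group.IsSolvable ↥K) :
    (∀ r ∈ ρ, ∀ s ∈ ρ, r ∣ Nat.card ↥K → s ∣ Nat.card ↥K → r = s) ∧ ¬ Group.IsSolvable G := by
  obtain ⟨hc1, hc2⟩ := hc
  constructor
  · intro r hr s hs hrK hsK
    by_contra hrs
    -- a third prime
    obtain ⟨t, ht, htr, hts⟩ : ∃ t ∈ ρ, t ≠ r ∧ t ≠ s := by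
      have h1 : (({r, s} : Finset ℕ)).card < ρ.card :=
        lt_of_le_of_lt Finset.card_le_two (by omega)
      obtain ⟨t, ht, ht'⟩ := Finset.exists_mem_notMem_of_card_lt_card h1
      simp only [Finset.mem_insert, Finset.mem_singleton, not_or] at ht'
      exact ⟨t, ht, ht'.1, ht'.2⟩
    have : Fact t.Prime := ⟨(hc1 t ht).1⟩
    obtain ⟨x, hx⟩ := exists_prime_orderOf_dvd_card' t (hc1 t ht).2
    let H : Subgroup G := Subgroup.zpowers x ⊔ K
    have hKH : K ≤ H := le_sup_right
    have hxH : x ∈ H := le_sup_left (a := Subgroup.zpowers x) (Subgroup.mem_zpowers x)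
    have hH : Group.IsSolvable H := by
      let f : K →* H := Subgroup.inclusion hKH
      let g : H →* G ⧸ K := (QuotientGroup.mk' K).comp H.subtype
      have hrange : ∀ y : g.range, (y : G ⧸ K) ∈ Subgroup.zpowers (QuotientGroup.mk' K x) := by
        rintro ⟨_, h, rfl⟩
        obtain ⟨a, ha, k, hk, hak⟩ := Subgroup.mem_sup_of_normal_right.mp h.2
        show QuotientGroup.mk' K (h : G) ∈ _
        rw [← hak, map_mul]
        have : QuotientGroup.mk' K k = 1 := (QuotientGroup.eq_one_iff k).mpr hk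
        rw [this, mul_one]
        obtain ⟨n, rfl⟩ := ha
        exact ⟨n, by simp⟩
      have hcomm : IsMulCommutative g.range := by
        refine ⟨⟨fun a b => Subtype.ext ?_⟩⟩
        obtain ⟨m, hm⟩ := hrange a
        obtain ⟨n, hn⟩ := hrange b
        rw [Subgroup.coe_mul, Subgroup.coe_mul, ← hm, ← hn]
        exact (((Commute.refl _).zpow_left m).zpow_right n).eq
      have hs1 : Group.IsSolvable g.range := by
        let _ : CommGroup g.range := { (inferInstance : Group g.range) with
          mul_comm := fun a b => hcomm.is_comm.comm a b }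
        infer_instance
      have hs2 : Group.IsSolvable K := hK
      refine Group.isSolvable_of_ker_le_range f g.rangeRestrict ?_
      intro y hy
      rw [MonoidHom.mem_ker] at hy
      have hy1 : QuotientGroup.mk' K (y : G) = 1 := congrArg Subtype.val hy
      have hy2 : (y : G) ∈ K := (QuotientGroup.eq_one_iff (y : G)).mp hy1
      exact ⟨⟨y, hy2⟩, rfl⟩
    have hcard : Nat.card K ∣ Nat.card H := Subgroup.card_dvd_of_le hKH
    have htH : t ∣ Nat.card H := by
      rw [← hx, ← Subgroup.orderOf_mk x hxH]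
      exact orderOf_dvd_natCard _
    have hno : ∀ a ∈ ρ, ∀ b ∈ ρ, a ≠ b → ¬ ∃ y : H, orderOf y = a * b := by
      rintro a ha b hb hab ⟨y, hy⟩
      exact hc2 a ha b hb hab ⟨y, by rw [Subgroup.orderOf_coe, hy]⟩
    exact aux hH (hc1 r hr).1 (hc1 s hs).1 (hc1 t ht).1 hrs htr.symm hts.symm (hrK.trans hcard)
      (hsK.trans hcard) htH (hno r hr s hs hrs) (hno r hr t ht htr.symm) (hno s hs t ht hts.symm)
  · intro hG
    obtain ⟨p, hp, q, hq, r, hr, hpq, hpr, hqr⟩ := Finset.two_lt_card.mp (show 2 < ρ.card by omega)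
    exact aux hG (hc1 p hp).1 (hc1 q hq).1 (hc1 r hr).1 hpq hpr hqr (hc1 p hp).2 (hc1 q hq).2 (hc1 r hr).2
      (hc2 p hp q hq hpq) (hc2 p hp r hr hpr) (hc2 q hq r hr hqr)

end Cfsg.Agent.S3633
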