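import Cfsg.Statements.S3682
import Cfsg.Agent.Lib.H15.TWPrim

set_option autoImplicit false
open Cfsg

namespace Cfsg.Agent.S3682

/-- Wielandt's bound toward the Sims conjecture. Let a finite group G act faithfully and primitively on a set Ω, let a and b be points, and suppose the orbit of b under the stabilizer of a has length d ≥ 2. Then there are a prime p and a normal p-subgroup P of the stabilizer of a, all of whose elements fix b, such that the index of P in the stabilizer of a divides d! · ((d - 1)!)^d. -/
theorem result {G Ω : Type*} [Group G] [Finite G] [MulAction G Ω] [FaithfulSMul G Ω] [Finite Ω]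
    (hprim : MulAction.IsPreprimitive G Ω) (a b : Ω) (d : ℕ) (hd : Nat.card (MulAction.orbit (MulAction.stabilizer G a) b) = d) (h2 : 2 ≤ d) :
    ∃ p : ℕ, p.Prime ∧ ∃ P : Subgroup (MulAction.stabilizer G a), P.Normal ∧ IsPGroup p P ∧ (∀ g : P, ((g : MulAction.stabilizer G a) : G) • b = b) ∧
      P.index ∣ Nat.factorial d * (Nat.factorial (d - 1)) ^ d := by
  have hΔ : Nat.card (H15.TW.Δ G a b) = d := by rw [← H15.TW.orbit_eq]; exact hd
  rcases H15.TW.card_dvd_or hprim (a := a) (b := b) (by rw [hΔ]; exact h2) with h | ⟨p, hp, -, h1, -⟩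
  · refine ⟨2, Nat.prime_two, ⊥, inferInstance, IsPGroup.of_bot, ?_, ?_⟩
    · rintro ⟨g, hg⟩
      rw [Subgroup.mem_bot] at hg
      subst hg
      exact one_smul G b
    · rw [Subgroup.index_bot, ← hΔ]
      exact h
  · have hpt : MulAction.IsPretransitive G Ω := hprim.toIsPretransitive
    refine ⟨p, hp, (H15.TW.second G a b).subgroupOf (MulAction.stabilizer G a), ?_, h1.comap_subtype, ?_, ?_⟩
    · exact Subgroup.normal_subgroupOf_of_le_normalizer (H15.TW.coreIn_norm _ _)
    · rintro ⟨g, hg⟩
      have h3 := H15.TW.second_le_first a b (Subgroup.mem_subgroupOf.1 hg)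
      exact (H15.TW.mem_first.1 h3).2 b ⟨1, one_smul _ _, one_smul _ _⟩
    · rw [← hΔ]
      exact H15.TW.index_dvd a b

end Cfsg.Agent.S3682
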