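import Cfsg.Statements.S3684
import Cfsg.Agent.Lib.H64.Prim

set_option autoImplicit false
open Cfsg

namespace Cfsg.Agent.S3684

open MulAction in
theorem aux {G Ω : Type*} [Group G] [Finite G] [MulAction G Ω] [FaithfulSMul G Ω]
    (hprim : MulAction.IsPreprimitive G Ω) (a b : Ω)
    (h2 : (stabilizer G b).relIndex (stabilizer G a) = 2) :
    stabilizer G a ⊓ stabilizer G b = ⊥ ∧ IsCoatom (stabilizer G a) ∧
      stabilizer G a ⊔ stabilizer G b = ⊤ ∧
      Nat.card (stabilizer G a) = 2 ∧ Nat.card (stabilizer G b) = 2 := by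
  have : IsPretransitive G Ω := hprim.toIsPretransitive
  have hab : a ≠ b := by
    rintro rfl
    rw [Subgroup.relIndex_self] at h2
    omega
  have hco := H64.Prim.isCoatom_stabilizer hprim hab a
  have h2' : (stabilizer G a).relIndex (stabilizer G b) = 2 := by
    rw [← H64.Prim.relIndex_comm, h2]
  have hnle : ¬ stabilizer G b ≤ stabilizer G a := by
    intro h
    rw [← Subgroup.relIndex_eq_one] at h
    omega
  set L := stabilizer G a ⊓ stabilizer G b with hL
  have hn1 : stabilizer G a ≤ Subgroup.normalizer (L : Set G) := by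
    rw [← Subgroup.normal_subgroupOf_iff_le_normalizer inf_le_left]
    apply Subgroup.normal_of_index_eq_two
    change L.relIndex _ = 2
    rw [hL, Subgroup.inf_relIndex_left, h2]
  have hn2 : stabilizer G b ≤ Subgroup.normalizer (L : Set G) := by
    rw [← Subgroup.normal_subgroupOf_iff_le_normalizer inf_le_right]
    apply Subgroup.normal_of_index_eq_two
    change L.relIndex _ = 2
    rw [hL, Subgroup.inf_relIndex_right, h2']
  have hLn : L.Normal := H64.Prim.normal_of_coatom _ L hco hn1 _ hnle hn2
  have hLb : L = ⊥ := H64.Prim.normal_le_stabilizer_eq_bot a L inf_le_left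
  have hc1 : Nat.card (stabilizer G a) = 2 := by
    have := Subgroup.inf_relIndex_left (H := stabilizer G a) (K := stabilizer G b)
    rw [← hL, hLb, Subgroup.relIndex_bot_left, h2] at this
    exact this
  have hc2 : Nat.card (stabilizer G b) = 2 := by
    have := Subgroup.inf_relIndex_right (H := stabilizer G a) (K := stabilizer G b)
    rw [← hL, hLb, Subgroup.relIndex_bot_left, h2'] at this
    exact this
  refine ⟨hLb, hco, ?_, hc1, hc2⟩
  rcases hco.le_iff.mp (le_sup_left : stabilizer G a ≤ stabilizer G a ⊔ stabilizer G b) with h | h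
  · exact h
  · exact absurd (le_sup_right.trans h.le) hnle

/-- Two subgroups of order two generating, one of them maximal: dihedral of order `2p`. -/
theorem aux2 {G : Type*} [Group G] [Finite G] (H K : Subgroup G) (hHK : H ⊓ K = ⊥)
    (hco : IsCoatom H) (htop : H ⊔ K = ⊤) (hH : Nat.card H = 2) (hK : Nat.card K = 2) :
    ∃ p : ℕ, p.Prime ∧ Nonempty (G ≃* DihedralGroup p) := by
  obtain ⟨s, hsne, hs⟩ := (Nat.card_eq_two_iff' (1 : H)).mp hH
  obtain ⟨t, htne, ht⟩ := (Nat.card_eq_two_iff' (1 : K)).mp hK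
  have hs2 : (s : G) * s = 1 := by
    have := pow_card_eq_one' (x := s)
    rw [hH, pow_two] at this
    exact congrArg Subtype.val this
  have ht2 : (t : G) * t = 1 := by
    have := pow_card_eq_one' (x := t)
    rw [hK, pow_two] at this
    exact congrArg Subtype.val this
  have hsne' : (s : G) ≠ 1 := fun h => hsne (Subtype.ext h)
  have htne' : (t : G) ≠ 1 := fun h => htne (Subtype.ext h)
  have hHz : H = Subgroup.zpowers (s : G) := by
    apply le_antisymm
    · intro x hx
      by_cases h1 : x = 1
      · rw [h1]; exact one_mem _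
      · have : (⟨x, hx⟩ : H) = s := hs ⟨x, hx⟩ (fun h => h1 (congrArg Subtype.val h))
        rw [← congrArg Subtype.val this]
        exact Subgroup.mem_zpowers _
    · rw [Subgroup.zpowers_le]; exact s.2
  have hKz : K = Subgroup.zpowers (t : G) := by
    apply le_antisymm
    · intro x hx
      by_cases h1 : x = 1
      · rw [h1]; exact one_mem _
      · have : (⟨x, hx⟩ : K) = t := ht ⟨x, hx⟩ (fun h => h1 (congrArg Subtype.val h))
        rw [← congrArg Subtype.val this]
        exact Subgroup.mem_zpowers _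
    · rw [Subgroup.zpowers_le]; exact t.2
  set r : G := s * t with hr
  have hsinv : (s : G)⁻¹ = s := by rw [inv_eq_iff_mul_eq_one]; exact hs2
  have htinv : (t : G)⁻¹ = t := by rw [inv_eq_iff_mul_eq_one]; exact ht2
  have hrinv : r⁻¹ = t * s := by rw [hr, mul_inv_rev, hsinv, htinv]
  have hsrs : (s : G) * r * s = r⁻¹ := by
    rw [hrinv, hr, ← mul_assoc, hs2, one_mul]
  -- s is not a power of r
  have hns : (s : G) ∉ Subgroup.zpowers r := by
    intro h
    obtain ⟨k, hk⟩ := Subgroup.mem_zpowers_iff.mp h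
    have hcomm : (s : G) * r = r * s := by
      rw [← hk, ← zpow_one_add, ← zpow_add_one, add_comm]
    have h1 : r = r⁻¹ := by
      rw [← hsrs, hcomm, mul_assoc, hs2, mul_one]
    have h2 : r ^ 2 = 1 := by
      rw [pow_two]; nth_rewrite 2 [h1]; exact mul_inv_cancel r
    have h3 : (s : G) = 1 ∨ (s : G) = r := by
      rw [← hk]
      rcases Int.even_or_odd' k with ⟨m, hm | hm⟩
      · left; rw [hm, zpow_mul, zpow_ofNat, h2, one_zpow]
      · right; rw [hm, zpow_add, zpow_mul, zpow_ofNat, h2, one_zpow, one_mul, zpow_one]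
    rcases h3 with h3 | h3
    · exact hsne' h3
    · apply htne'
      rw [hr] at h3
      exact (mul_eq_left.mp h3.symm)
  -- zpowers of powers of r are normal
  have hnormal : ∀ k : ℕ, (Subgroup.zpowers (r ^ k)).Normal := by
    intro k
    have hnm : ∀ u : G, u * r * u⁻¹ = r⁻¹ → u ∈ Subgroup.normalizer (Subgroup.zpowers (r ^ k) : Set G) := by
      intro u hu
      have hu' : ∀ m : ℤ, u * (r ^ k) ^ m * u⁻¹ = ((r ^ k) ^ m)⁻¹ := by
        intro m
        rw [← conj_zpow, ← conj_pow, hu, inv_pow, inv_zpow]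
      rw [Subgroup.mem_normalizer_iff]
      intro h
      constructor
      · intro hh
        obtain ⟨m, rfl⟩ := Subgroup.mem_zpowers_iff.mp hh
        rw [hu']
        exact inv_mem (Subgroup.zpow_mem_zpowers _ _)
      · intro hh
        obtain ⟨m, hm⟩ := Subgroup.mem_zpowers_iff.mp hh
        have : h = ((r ^ k) ^ m)⁻¹ := by
          have h5 : u⁻¹ * (r ^ k) ^ m * u = ((r ^ k) ^ m)⁻¹ := by
            have h6 := hu' (-m)
            rw [zpow_neg, inv_inv] at h6
            calc u⁻¹ * (r ^ k) ^ m * u = u⁻¹ * (u * ((r ^ k) ^ m)⁻¹ * u⁻¹) * u := by rw [h6]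
              _ = ((r ^ k) ^ m)⁻¹ := by group
          rw [← h5, hm]
          group
        rw [this]
        exact inv_mem (Subgroup.zpow_mem_zpowers _ _)
    rw [← Subgroup.normalizer_eq_top_iff, eq_top_iff, ← htop, sup_le_iff]
    constructor
    · rw [hHz, Subgroup.zpowers_le]
      apply hnm
      rw [hsinv, hsrs]
    · rw [hKz, Subgroup.zpowers_le]
      apply hnm
      rw [htinv, hrinv, hr]
      rw [mul_assoc, mul_assoc, ht2, mul_one]
  have hrtop : ∀ k : ℕ, r ^ k ≠ 1 → Subgroup.zpowers (r ^ k) ⊔ H = ⊤ := by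
    intro k hk
    rcases hco.le_iff.mp (le_sup_right : H ≤ Subgroup.zpowers (r ^ k) ⊔ H) with h | h
    · exact h
    · exfalso
      have h1 : r ^ k ∈ H := by
        rw [← h]; exact Subgroup.mem_sup_left (Subgroup.mem_zpowers _)
      have h2 : (⟨r ^ k, h1⟩ : H) = s := hs _ (fun h' => hk (congrArg Subtype.val h'))
      apply hns
      rw [← congrArg Subtype.val h2]
      exact Subgroup.npow_mem_zpowers r k
  have hcardk : ∀ k : ℕ, r ^ k ≠ 1 → Nat.card G = orderOf (r ^ k) * 2 := by
    intro k hk
    have := hnormal k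
    have hdisj : Disjoint (Subgroup.zpowers (r ^ k)) H := by
      rw [Subgroup.disjoint_def]
      intro x hx1 hx2
      by_contra hx
      have h2 : (⟨x, hx2⟩ : H) = s := hs _ (fun h' => hx (congrArg Subtype.val h'))
      apply hns
      rw [← congrArg Subtype.val h2]
      exact (Subgroup.zpowers_le.mpr (Subgroup.npow_mem_zpowers r k)) hx1
    have hcompl : (Subgroup.zpowers (r ^ k)).IsComplement' H := by
      apply Subgroup.isComplement'_of_disjoint_and_mul_eq_univ hdisj
      rw [← Subgroup.normal_mul, hrtop k hk]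
      rfl
    rw [← hcompl.card_mul_card, Nat.card_zpowers, hH]
  have hr1 : r ≠ 1 := by
    intro h
    have h1 : (s : G) = t := by
      rw [← htinv]; exact eq_inv_of_mul_eq_one_left h
    have h2 : (s : G) ∈ H ⊓ K := ⟨s.2, by rw [h1]; exact t.2⟩
    rw [hHK, Subgroup.mem_bot] at h2
    exact hsne' h2
  have hn1 : orderOf r ≠ 1 := fun h => hr1 (orderOf_eq_one_iff.mp h)
  obtain ⟨p, hp, hpd⟩ := Nat.exists_prime_and_dvd hn1
  have hpos : 0 < orderOf r := orderOf_pos r
  have hord : orderOf (r ^ (orderOf r / p)) = p := by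
    rw [orderOf_pow_of_dvd (Nat.div_pos (Nat.le_of_dvd hpos hpd) hp.pos).ne' (Nat.div_dvd_of_dvd hpd),
      Nat.div_div_self hpd hpos.ne']
  have hk1 : r ^ (orderOf r / p) ≠ 1 := by
    intro h
    rw [h, orderOf_one] at hord
    exact hp.one_lt.ne hord
  have hc := hcardk _ hk1
  rw [hord] at hc
  have hc1 := hcardk 1 (by rw [pow_one]; exact hr1)
  rw [pow_one] at hc1
  have hrp : orderOf r = p := by omega
  have : NeZero p := ⟨hp.ne_zero⟩
  exact ⟨p, hp, H64.Prim.Dihedral.equiv_of p r s hrp hs2 hsrs hns (by rw [hc, mul_comm])⟩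

/-- Let a finite group G act faithfully and primitively on a set Ω, and suppose the stabilizer of a point a has an orbit of length 2. Then the stabilizer of a has order 2 and G is isomorphic to the dihedral group of order 2p for some prime p. -/
theorem result {G Ω : Type*} [Group G] [Finite G] [MulAction G Ω] [FaithfulSMul G Ω] [Finite Ω]
    (hprim : MulAction.IsPreprimitive G Ω) (a b : Ω) (h2 : Nat.card (MulAction.orbit (MulAction.stabilizer G a) b) = 2) :
    Nat.card (MulAction.stabilizer G a) = 2 ∧ ∃ p : ℕ, p.Prime ∧ Nonempty (G ≃* DihedralGroup p) := by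
  have h2' : (MulAction.stabilizer G b).relIndex (MulAction.stabilizer G a) = 2 := by
    rw [H64.Prim.relIndex_eq_card_orbit, h2]
  obtain ⟨h3, h4, h5, h6, h7⟩ := aux hprim a b h2'
  exact ⟨h6, aux2 _ _ h3 h4 h5 h6 h7⟩

end Cfsg.Agent.S3684
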