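import Cfsg.Statements.S3685
import Cfsg.Agent.Lib.H65.Tri2

set_option autoImplicit false
open Cfsg

namespace Cfsg.Agent.S3685

/-- Let a finite group G act faithfully and primitively on a set Ω, and suppose the stabilizer of a point a has an orbit of length 3. Then the stabilizer of a is isomorphic to one of: the cyclic group of order 3, the symmetric group of degree 3, the dihedral group of order 12, the symmetric group of degree 4, or the direct product of the symmetric group of degree 4 with a group of order 2. -/
theorem result {G Ω : Type*} [Group G] [Finite G] [MulAction G Ω] [FaithfulSMul G Ω] [Finite Ω]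
    (hprim : MulAction.IsPreprimitive G Ω) (a b : Ω) (h3 : Nat.card (MulAction.orbit (MulAction.stabilizer G a) b) = 3) :
    Nonempty (MulAction.stabilizer G a ≃* Multiplicative (ZMod 3)) ∨ Nonempty (MulAction.stabilizer G a ≃* Equiv.Perm (Fin 3)) ∨
      Nonempty (MulAction.stabilizer G a ≃* DihedralGroup 6) ∨ Nonempty (MulAction.stabilizer G a ≃* Equiv.Perm (Fin 4)) ∨
      Nonempty (MulAction.stabilizer G a ≃* Equiv.Perm (Fin 4) × Multiplicative (ZMod 2)) := by
  classical
  set P := MulAction.stabilizer G a with hP
  have htr : MulAction.IsPretransitive G Ω := hprim.toIsPretransitive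
  obtain ⟨g, hg⟩ := MulAction.exists_smul_eq G a b
  have hstab : MulAction.stabilizer G b = P.map (MulAut.conj g).toMonoidHom := by
    rw [← hg, MulAction.stabilizer_smul_eq_stabilizer_map_conj]
  have hrel : (P ⊓ MulAction.stabilizer G b).relIndex P = 3 := by
    rw [Subgroup.inf_relIndex_left]
    have h1 : (MulAction.stabilizer G b).subgroupOf P = MulAction.stabilizer P b := by
      ext x
      rw [Subgroup.mem_subgroupOf, MulAction.mem_stabilizer_iff, MulAction.mem_stabilizer_iff]
      rfl
    show ((MulAction.stabilizer G b).subgroupOf P).index = 3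
    rw [h1, MulAction.index_stabilizer]
    exact h3
  have hab : a ≠ b := by
    rintro rfl
    rw [inf_idem, Subgroup.relIndex_self] at hrel
    omega
  have hnt : Nontrivial Ω := ⟨a, b, hab⟩
  have hmax : IsCoatom P := MulAction.IsPreprimitive.isCoatom_stabilizer_of_isPreprimitive G a
  rw [hstab] at hrel
  refine H65.Tri.pair hrel ?_
  intro N hNP h1 h2
  have hsup : P ⊔ P.map (MulAut.conj g).toMonoidHom = ⊤ := by
    rcases hmax.le_iff.mp (le_sup_left : P ≤ P ⊔ P.map (MulAut.conj g).toMonoidHom) with h | h
    · exact h
    · exfalso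
      have h4 : P.map (MulAut.conj g).toMonoidHom ≤ P := by
        have := (le_sup_right : P.map (MulAut.conj g).toMonoidHom ≤ P ⊔ P.map (MulAut.conj g).toMonoidHom)
        rwa [h] at this
      have h5 := Subgroup.eq_of_le_of_card_ge h4 (H28.Cj.card_cj g P).ge
      rw [h5, inf_idem, Subgroup.relIndex_self] at hrel
      omega
  have hN : N.Normal := by
    rw [← Subgroup.normalizer_eq_top_iff, eq_top_iff, ← hsup]
    exact sup_le h1 h2
  rw [eq_bot_iff]
  intro x hx
  rw [Subgroup.mem_bot]
  apply FaithfulSMul.eq_of_smul_eq_smul (α := Ω)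
  intro ω
  obtain ⟨k, rfl⟩ := MulAction.exists_smul_eq G a ω
  rw [one_smul]
  have h6 : k⁻¹ * x * k ∈ P := hNP (by
    have := hN.conj_mem x hx k⁻¹
    rwa [inv_inv] at this)
  rw [hP, MulAction.mem_stabilizer_iff, mul_smul, mul_smul, inv_smul_eq_iff] at h6
  exact h6

end Cfsg.Agent.S3685
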