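import Cfsg.Statements.S3693
import Cfsg.Agent.Lib.H15.TWPrim

set_option autoImplicit false
open Cfsg

namespace Cfsg.Agent.S3693

open MulAction H26.Basic H26.LocalFitting in
theorem pc_le_first {G Ω : Type*} [Group G] [Finite G] [MulAction G Ω] [Finite Ω] (a b : Ω) (p : ℕ) [Fact p.Prime]
    (hF : Cfsg.fittingSubgroup ↥(((stabilizer G b).subgroupOf (stabilizer G a)).map (toPermHom (stabilizer G a) (orbit (stabilizer G a) b))) = ⊥) :
    pc p (stabilizer G a ⊓ stabilizer G b) ≤ H15.TW.coreIn (stabilizer G a) (stabilizer G a ⊓ stabilizer G b) := by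
  set D := stabilizer G a ⊓ stabilizer G b with hD
  set φ := toPermHom (stabilizer G a) (orbit (stabilizer G a) b) with hφ
  set I := ((stabilizer G b).subgroupOf (stabilizer G a)).map φ with hI
  have hO : Cfsg.pCore p I = ⊥ := by
    rw [eq_bot_iff, ← hF]
    exact H1.Cores.pCore_le_fittingSubgroup p
  have hOD : pc p D ≤ D := pc_le p D
  have h1 : ((pc p D).subgroupOf (stabilizer G a)).map φ ≤ I := by
    apply Subgroup.map_mono
    exact Subgroup.comap_mono (hOD.trans inf_le_right)
  have h2 : ((((pc p D).subgroupOf (stabilizer G a)).map φ).subgroupOf I).Normal := by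
    apply Subgroup.normal_subgroupOf_of_le_normalizer
    have h3 : (stabilizer G b).subgroupOf (stabilizer G a) ≤
        Subgroup.normalizer (((pc p D).subgroupOf (stabilizer G a) : Subgroup (stabilizer G a)) : Set (stabilizer G a)) := by
      intro x hx
      have hxD : (x : G) ∈ D := ⟨x.2, Subgroup.mem_subgroupOf.1 hx⟩
      have h4 := Subgroup.mem_normalizer_iff.1 (le_normalizer_pc p D hxD)
      rw [Subgroup.mem_normalizer_iff]
      intro y
      rw [Subgroup.mem_subgroupOf, Subgroup.mem_subgroupOf]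
      exact h4 y
    refine le_trans (Subgroup.map_mono h3) ?_
    exact Subgroup.le_normalizer_map φ
  have h3 : IsPGroup p ((((pc p D).subgroupOf (stabilizer G a)).map φ).subgroupOf I) :=
    (((isPGroup_pc p D).comap_subtype (K := stabilizer G a)).map φ).comap_subtype
  have h4 := H1.Cores.le_pCore h2 h3
  rw [hO, le_bot_iff, Subgroup.subgroupOf_eq_bot] at h4
  have h5 : ((pc p D).subgroupOf (stabilizer G a)).map φ = ⊥ := by
    rw [eq_bot_iff, ← disjoint_iff.1 h4]
    exact le_inf le_rfl h1
  intro u hu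
  have hua : u • a = a := (hOD hu).1
  rw [hD, H15.TW.mem_first]
  refine ⟨hua, fun c hc => ?_⟩
  have h6 : φ ⟨u, hua⟩ ∈ ((pc p D).subgroupOf (stabilizer G a)).map φ := ⟨⟨u, hua⟩, Subgroup.mem_subgroupOf.2 hu, rfl⟩
  rw [h5, Subgroup.mem_bot] at h6
  rw [← H15.TW.orbit_eq] at hc
  have h7 := congrArg (fun σ : Equiv.Perm (orbit (stabilizer G a) b) => σ ⟨c, hc⟩) h6
  exact congrArg Subtype.val h7

open MulAction H26.Basic H26.LocalFitting in
theorem fit_bot {G Ω : Type*} [Group G] [Finite G] [MulAction G Ω] [FaithfulSMul G Ω] [Finite Ω]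
    (hprim : MulAction.IsPreprimitive G Ω) (a b : Ω) (h2 : 2 ≤ Nat.card (H15.TW.Δ G a b))
    (hF : Cfsg.fittingSubgroup ↥(((stabilizer G b).subgroupOf (stabilizer G a)).map (toPermHom (stabilizer G a) (orbit (stabilizer G a) b))) = ⊥) :
    Cfsg.fittingSubgroup ↥(stabilizer G a ⊓ stabilizer G b) = ⊥ := by
  by_contra hcon
  obtain ⟨hab, hne⟩ := H15.TW.stab_ne hprim h2
  have hX := H15.TW.prim_stab hprim hab
  have hY := H15.TW.prim_stab hprim (Ne.symm hab)
  obtain ⟨p, hp⟩ : ∃ p : Nat.Primes, Cfsg.pCore (p : ℕ) ↥(stabilizer G a ⊓ stabilizer G b) ≠ ⊥ := by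
    by_contra hc
    push Not at hc
    apply hcon
    rw [H1.Cores.fittingSubgroup_eq_iSup_pCore, eq_bot_iff]
    exact iSup_le fun q => (hc q).le
  have hpf : Fact (p : ℕ).Prime := ⟨p.2⟩
  obtain ⟨q, hq⟩ : ∃ q : ℕ, q = p := ⟨_, rfl⟩
  rw [← hq] at hp hpf
  set D := stabilizer G a ⊓ stabilizer G b with hD
  have hK := pc_le_first a b q hF
  rw [← hD] at hK
  set K := H15.TW.coreIn (stabilizer G a) D with hKdef
  have hKn : stabilizer G a ≤ Subgroup.normalizer (K : Set G) := H15.TW.coreIn_norm _ _
  have hKD : K ≤ D := H15.TW.coreIn_le _ _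
  have hOne : pc q D ≠ ⊥ := by
    rw [Ne, pc, Subgroup.map_eq_bot_iff_of_injective _ D.subtype_injective]
    exact hp
  have hOK : pc q D = pc q K := by
    apply le_antisymm
    · exact le_pc hK (hKD.trans (le_normalizer_pc q D)) (isPGroup_pc q D)
    · exact le_pc ((pc_le q K).trans hKD) ((inf_le_left.trans hKn).trans (normalizer_le_normalizer_pc q K)) (isPGroup_pc q K)
  have hXO : stabilizer G a ≤ Subgroup.normalizer ((pc q D : Subgroup G) : Set G) := by
    rw [hOK]
    exact hKn.trans (normalizer_le_normalizer_pc q K)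
  have hOX : pc q D ≤ stabilizer G a := (pc_le q D).trans inf_le_left
  have hOY : pc q D ≤ stabilizer G b := (pc_le q D).trans inf_le_right
  have hNO := hX _ hOX hOne hXO
  have h4 : pc q (stabilizer G b) ≤ pc q D := by
    by_contra hc
    have hOn : pc q D ≤ Subgroup.normalizer ((pc q (stabilizer G b) : Subgroup G) : Set G) :=
      hOY.trans (le_normalizer_pc q (stabilizer G b))
    have hRp : IsPGroup q (pc q (stabilizer G b) ⊔ pc q D : Subgroup G) := by
      rw [sup_comm]
      exact IsPGroup.to_sup_of_normal_right' (isPGroup_pc q D) (isPGroup_pc q (stabilizer G b)) hOn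
    have hlt : pc q D < pc q (stabilizer G b) ⊔ pc q D :=
      lt_of_le_of_ne le_sup_right (fun h => hc (by rw [h]; exact le_sup_left))
    have h5 := H71.PChains.lt_normalizer_inf hRp hlt
    obtain ⟨x, hx1, hx2⟩ := SetLike.exists_of_lt h5
    obtain ⟨hx3, hx4⟩ := Subgroup.mem_inf.1 hx1
    obtain ⟨r, hr, s, hs, rfl⟩ := (mem_sup_of_le_normalizer' hOn).1 hx4
    have h6 : r ∈ stabilizer G a := by
      apply hNO
      have h7 : r = (r * s) * s⁻¹ := by group
      rw [h7]
      exact Subgroup.mul_mem _ hx3 (Subgroup.inv_mem _ (Subgroup.le_normalizer hs))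
    have h7 : stabilizer G a ⊓ pc q (stabilizer G b) ≤ pc q D := by
      apply le_pc (inf_le_inf_left _ (pc_le q _)) ?_ ((isPGroup_pc q (stabilizer G b)).to_le inf_le_right)
      intro g hg
      rw [Subgroup.mem_normalizer_iff]
      intro x
      rw [Subgroup.mem_inf, Subgroup.mem_inf, ← Subgroup.mem_normalizer_iff.1 (le_normalizer_pc q (stabilizer G b) hg.2) x,
        ← Subgroup.mem_normalizer_iff.1 (Subgroup.le_normalizer hg.1) x]
    exact hx2 (Subgroup.mul_mem _ (h7 (Subgroup.mem_inf.2 ⟨h6, hr⟩)) hs)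
  have h5 : pc q D ≤ pc q (stabilizer G a) := le_pc hOX hXO (isPGroup_pc q D)
  obtain ⟨g, hg⟩ := MulAction.exists_smul_eq G a b
  have e : stabilizer G a ≃* stabilizer G b := by
    rw [← hg, stabilizer_smul_eq_stabilizer_map_conj]
    exact (stabilizer G a).equivMapOfInjective _ (MulAut.conj g).injective
  have h6 : pc q (stabilizer G b) = pc q (stabilizer G a) :=
    Subgroup.eq_of_le_of_card_ge (h4.trans h5) (H15.TW.card_pc e q).le
  have hbX : pc q (stabilizer G a) ≠ ⊥ := fun h => hOne (le_bot_iff.1 (h ▸ h5))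
  have hbY : pc q (stabilizer G b) ≠ ⊥ := h6 ▸ hbX
  apply hne
  apply le_antisymm
  · refine le_trans ?_ (hY _ (pc_le q _) hbY (le_normalizer_pc q _))
    rw [h6]
    exact le_normalizer_pc q _
  · refine le_trans ?_ (hX _ (pc_le q _) hbX (le_normalizer_pc q _))
    rw [← h6]
    exact le_normalizer_pc q _

/-- Let a finite group G act faithfully and primitively on a set Ω, let a and b be points such that the orbit Δ of b under the stabilizer H of a has length d ≥ 2, and consider the permutation group induced on Δ by the elements of H fixing b. If that induced group has trivial Fitting subgroup (no non-trivial nilpotent normal subgroup), then the two-point stabilizer of a and b has trivial Fitting subgroup and the order of H divides d! · ((d - 1)!)^d. -/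
theorem result {G Ω : Type*} [Group G] [Finite G] [MulAction G Ω] [FaithfulSMul G Ω] [Finite Ω]
    (hprim : MulAction.IsPreprimitive G Ω) (a b : Ω) (d : ℕ) (hd : Nat.card (MulAction.orbit (MulAction.stabilizer G a) b) = d) (h2 : 2 ≤ d)
    (hF : Cfsg.fittingSubgroup ↥(((MulAction.stabilizer G b).subgroupOf (MulAction.stabilizer G a)).map (MulAction.toPermHom (MulAction.stabilizer G a) (MulAction.orbit (MulAction.stabilizer G a) b))) = ⊥) :
    Cfsg.fittingSubgroup ↥(MulAction.stabilizer G a ⊓ MulAction.stabilizer G b) = ⊥ ∧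
      Nat.card (MulAction.stabilizer G a) ∣ Nat.factorial d * (Nat.factorial (d - 1)) ^ d := by
  have hΔ : Nat.card (H15.TW.Δ G a b) = d := by rw [← H15.TW.orbit_eq]; exact hd
  have hfit := fit_bot hprim a b (by rw [hΔ]; exact h2) hF
  refine ⟨hfit, ?_⟩
  rcases H15.TW.card_dvd_or hprim (a := a) (b := b) (by rw [hΔ]; exact h2) with h | ⟨p, hp, hne, h1, -⟩
  · rw [← hΔ]
    exact h
  · exfalso
    have hpf : Fact p.Prime := ⟨hp⟩
    have h3 : H15.TW.second G a b ≤ MulAction.stabilizer G a ⊓ MulAction.stabilizer G b :=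
      (H15.TW.second_le_first a b).trans (H15.TW.coreIn_le _ _)
    have h4 : H15.TW.second G a b ≤ H26.LocalFitting.pc p (MulAction.stabilizer G a ⊓ MulAction.stabilizer G b) :=
      H26.LocalFitting.le_pc h3 (inf_le_left.trans (H15.TW.coreIn_norm _ _)) h1
    have h5 : Cfsg.pCore p ↥(MulAction.stabilizer G a ⊓ MulAction.stabilizer G b) = ⊥ := by
      rw [eq_bot_iff, ← hfit]
      exact H1.Cores.pCore_le_fittingSubgroup p
    rw [H26.LocalFitting.pc, h5, Subgroup.map_bot] at h4
    exact hne (le_bot_iff.1 h4)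

end Cfsg.Agent.S3693
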