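import Cfsg.Statements.S3687
import Cfsg.Agent.Lib.H1.AltA
import Cfsg.Agent.S3693

set_option autoImplicit false
open Cfsg

namespace Cfsg.Agent.S3687

open H1.AltSub

open MulAction H15.TW in
theorem main {G Ω : Type*} [Group G] [Finite G] [MulAction G Ω] [FaithfulSMul G Ω] [Finite Ω]
    (hprim : MulAction.IsPreprimitive G Ω) (a b : Ω) (d : ℕ) (hd : Nat.card (MulAction.orbit (MulAction.stabilizer G a) b) = d) (h6 : 6 ≤ d)
    (halt : (MulAction.toPermHom (MulAction.stabilizer G a) (MulAction.orbit (MulAction.stabilizer G a) b)).range.index ≤ 2)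
    (hunf : ¬ Function.Injective (MulAction.toPermHom (MulAction.stabilizer G a) (MulAction.orbit (MulAction.stabilizer G a) b)))
    (m : ℕ) (hdm : d = m + 1) :
    ((MulAction.toPermHom (MulAction.stabilizer G a) (MulAction.orbit (MulAction.stabilizer G a) b)).range.index = 2 ∧
      Nonempty (MulAction.stabilizer G a ≃* alternatingGroup (Fin d) × alternatingGroup (Fin m))) ∨
    ((MulAction.toPermHom (MulAction.stabilizer G a) (MulAction.orbit (MulAction.stabilizer G a) b)).range = ⊤ ∧
      (Nonempty (MulAction.stabilizer G a ≃* Equiv.Perm (Fin d) × Equiv.Perm (Fin m)) ∨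
       Nonempty (MulAction.stabilizer G a ≃* Equiv.Perm (Fin d) × alternatingGroup (Fin m)) ∨
       Nonempty (MulAction.stabilizer G a ≃* ((Equiv.Perm.sign.comp (MonoidHom.fst (Equiv.Perm (Fin d)) (Equiv.Perm (Fin m)))) *
         (Equiv.Perm.sign.comp (MonoidHom.snd (Equiv.Perm (Fin d)) (Equiv.Perm (Fin m))))).ker))) := by
  have hm : 5 ≤ m := by omega
  have hΔ : Nat.card (H15.TW.Δ G a b) = d := by rw [← H15.TW.orbit_eq]; exact hd
  have h2 : 2 ≤ Nat.card (H15.TW.Δ G a b) := by rw [hΔ]; omega
  obtain ⟨hab, hne⟩ := H15.TW.stab_ne hprim h2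
  have hΔ' : Nat.card (H15.TW.Δ G b a) = d := by rw [H15.TW.card_Δ_symm, hΔ]
  have hd' : Nat.card (orbit (stabilizer G b) a) = d := by rw [H15.TW.orbit_eq]; exact hΔ'
  have h2' : 2 ≤ Nat.card (H15.TW.Δ G b a) := by rw [hΔ']; omega
  obtain ⟨φ, p, hφK, hφp, hφidx, hφfit⟩ := hom_data a b hd
  obtain ⟨ψ, q, hψL, hψq, hψidx, -⟩ := hom_data b a hd'
  have hfit := Cfsg.Agent.S3693.fit_bot hprim a b h2 (hφfit m hm hdm halt)
  have hφ : alternatingGroup (Fin d) ≤ φ.range := by
    apply Equiv.Perm.alternatingGroup_le_of_index_le_two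
    rw [hφidx]
    exact halt
  have hPA := H15.TW.prim_stab hprim hab
  have hPB := H15.TW.prim_stab hprim (Ne.symm hab)
  have hAX : Nat.card (Δ G a b) * Nat.card (stabilizer G a ⊓ stabilizer G b : Subgroup G) = Nat.card (stabilizer G a) :=
    H15.TW.card_Δ a b
  have hAB : Nat.card (stabilizer G a) = Nat.card (stabilizer G b) := H15.TW.card_stab a b
  have : Nontrivial Ω := ⟨a, b, hab⟩
  have hcoat : IsCoatom (stabilizer G a) := (isCoatom_stabilizer_iff_preprimitive G a).2 hprim
  have hncore : (stabilizer G a).normalCore = ⊥ := by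
    rw [eq_bot_iff]
    intro g hg
    rw [Subgroup.mem_bot]
    apply FaithfulSMul.eq_of_smul_eq_smul (α := Ω)
    intro x
    obtain ⟨k, rfl⟩ := exists_smul_eq G a x
    have h1 := (Subgroup.normalCore_normal (stabilizer G a)).conj_mem g hg k⁻¹
    have h2 := Subgroup.normalCore_le _ h1
    rw [mem_stabilizer_iff, inv_inv, mul_smul, mul_smul, inv_smul_eq_iff] at h2
    rw [h2, one_smul]
  obtain ⟨h, hh⟩ := MulAction.exists_smul_eq G a b
  have hconj : ∀ x, x ∈ stabilizer G a ↔ h * x * h⁻¹ ∈ stabilizer G b := by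
    intro x
    rw [mem_stabilizer_iff, mem_stabilizer_iff, ← hh, mul_smul, mul_smul, inv_smul_smul]
    constructor
    · intro hx
      rw [hx]
    · intro hx
      exact smul_left_cancel h hx
  -- names
  set K := coreIn (stabilizer G a) ((stabilizer G a) ⊓ (stabilizer G b)) with hK
  set L := coreIn (stabilizer G b) ((stabilizer G b) ⊓ (stabilizer G a)) with hL
  have hKX : K ≤ (stabilizer G a) ⊓ (stabilizer G b) := coreIn_le _ _
  have hLX : L ≤ (stabilizer G a) ⊓ (stabilizer G b) := by
    rw [inf_comm]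
    exact coreIn_le _ _
  have hAK : (stabilizer G a) ≤ Subgroup.normalizer (K : Set G) := coreIn_norm _ _
  have hBL : (stabilizer G b) ≤ Subgroup.normalizer (L : Set G) := coreIn_norm _ _
  have hcoreA : ∀ N : Subgroup G, N ≤ (stabilizer G a) ⊓ (stabilizer G b) → (stabilizer G a) ≤ Subgroup.normalizer (N : Set G) → N ≤ K := fun N h1 h2 =>
    le_coreIn (h1.trans inf_le_left) h1 h2
  have hcoreB : ∀ N : Subgroup G, N ≤ (stabilizer G b) ⊓ (stabilizer G a) → (stabilizer G b) ≤ Subgroup.normalizer (N : Set G) → N ≤ L := fun N h1 h2 =>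
    le_coreIn (h1.trans inf_le_left) h1 h2
  have cA : 2 * Nat.card (alternatingGroup (Fin d)) = d.factorial := by
    have : Nontrivial (Fin d) := Fin.nontrivial_iff_two_le.2 (by omega)
    rw [two_mul_nat_card_alternatingGroup, Nat.card_perm, Nat.card_eq_fintype_card, Fintype.card_fin]
  have cA' : 2 * Nat.card (alternatingGroup (Fin m)) = m.factorial := by
    have : Nontrivial (Fin m) := Fin.nontrivial_iff_two_le.2 (by omega)
    rw [two_mul_nat_card_alternatingGroup, Nat.card_perm, Nat.card_eq_fintype_card, Fintype.card_fin]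
  have cP : Nat.card (Equiv.Perm (Fin m)) = m.factorial := by
    rw [Nat.card_perm, Nat.card_eq_fintype_card, Fintype.card_fin]
  have cPd : Nat.card (Equiv.Perm (Fin d)) = d.factorial := by
    rw [Nat.card_perm, Nat.card_eq_fintype_card, Fintype.card_fin]
  have cdm : d.factorial = d * m.factorial := by rw [hdm, Nat.factorial_succ]
  have hmpos : 0 < m.factorial := Nat.factorial_pos m
  have hmn : Nat.card (alternatingGroup (Fin m)) < Nat.card (alternatingGroup (Fin d)) := by
    have h1 : 6 * m.factorial ≤ d * m.factorial := Nat.mul_le_mul_right _ h6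
    omega
  -- Lemma R
  have hψ : alternatingGroup (Fin d) ≤ ψ.range := by
    have hR := lemR (A := (stabilizer G a)) (L' := L.comap (MulAut.conj h).toMonoidHom) (h := h) hcoat hncore
      (by
        intro hc
        apply hab
        have h1 : h • a = a := hc
        rw [← hh, h1])
      (by
        apply le_norm
        intro x hx y hy
        change h * (x * y * x⁻¹) * h⁻¹ ∈ L
        have h1 : h * (x * y * x⁻¹) * h⁻¹ = (h * x * h⁻¹) * (h * y * h⁻¹) * (h * x * h⁻¹)⁻¹ := by group
        rw [h1]
        exact norm_conj hBL ((hconj x).1 hx) hy)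
      (by
        intro x hx
        rw [hconj]
        exact (hLX hx).2)
      (fun x hx => (hLX hx).1) (by omega : 5 ≤ d) φ hφ
    have hL' : Nat.card (L.comap (MulAut.conj h).toMonoidHom : Subgroup G) = Nat.card L := by
      exact Nat.card_congr (Equiv.subtypeEquiv (MulAut.conj h).toEquiv (fun x => Iff.rfl))
    rw [hL'] at hR
    have c1 := card_im_mul (f := ψ) (le_refl (stabilizer G b)) hψL
    rw [im_self, inf_eq_right.2 (hLX.trans inf_le_right)] at c1
    rw [hAB, ← c1] at hR
    have h3 : Nat.card (alternatingGroup (Fin d)) ≤ Nat.card ψ.range := Nat.le_of_mul_le_mul_right hR Nat.card_pos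
    have h4 := Subgroup.card_mul_index ψ.range
    rw [cPd, ← cA] at h4
    apply Equiv.Perm.alternatingGroup_le_of_index_le_two
    have h5 : Nat.card ψ.range * ψ.range.index ≤ Nat.card ψ.range * 2 := by
      rw [h4]
      omega
    exact Nat.le_of_mul_le_mul_left h5 Nat.card_pos
  -- restriction
  obtain ⟨φ', hφ'K, hφ'⟩ := restrict (X := (stabilizer G a) ⊓ (stabilizer G b)) inf_le_left hdm φ hφK hφ p hφp
  obtain ⟨ψ', hψ'L, hψ'⟩ := restrict (X := (stabilizer G a) ⊓ (stabilizer G b)) inf_le_right hdm ψ hψL hψ q (by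
    intro x hx
    rw [inf_comm]
    exact hψq x hx)
  have hmaxA : ∀ Y : Subgroup G, (stabilizer G a) ⊓ (stabilizer G b) ≤ Y → Y ≤ (stabilizer G a) → Y = (stabilizer G a) ⊓ (stabilizer G b) ∨ Y = (stabilizer G a) := fun Y h1 h2 =>
    max_of_alt inf_le_left (by omega) φ hφ p hφp Y h1 h2
  have hmaxB : ∀ Y : Subgroup G, (stabilizer G b) ⊓ (stabilizer G a) ≤ Y → Y ≤ (stabilizer G b) → Y = (stabilizer G b) ⊓ (stabilizer G a) ∨ Y = (stabilizer G b) := fun Y h1 h2 =>
    max_of_alt inf_le_left (by omega) ψ hψ q hψq Y h1 h2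
  have hZ : ∀ N : Subgroup G, N ≤ (stabilizer G a) ⊓ (stabilizer G b) → (stabilizer G a) ⊓ (stabilizer G b) ≤ Subgroup.normalizer (N : Set G) →
      (∀ x ∈ N, ∀ y ∈ N, x * y = y * x) → N = ⊥ := by
    intro N hN hXN hcomm
    have h1 : (N.subgroupOf ((stabilizer G a) ⊓ (stabilizer G b))).Normal := Subgroup.normal_subgroupOf_of_le_normalizer hXN
    have h3 : Group.IsNilpotent (N.subgroupOf ((stabilizer G a) ⊓ (stabilizer G b))) := by
      let _ : CommGroup (N.subgroupOf ((stabilizer G a) ⊓ (stabilizer G b))) :=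
        { (inferInstance : Group (N.subgroupOf ((stabilizer G a) ⊓ (stabilizer G b)))) with
          mul_comm := by
            intro x y
            apply Subtype.ext
            apply Subtype.ext
            exact hcomm _ x.2 _ y.2 }
      infer_instance
    have h4 := H1.Cores.le_fittingSubgroup h1 h3
    rw [hfit, le_bot_iff, Subgroup.subgroupOf_eq_bot] at h4
    rw [eq_bot_iff, ← disjoint_iff.1 h4]
    exact le_inf le_rfl hN
  -- K is nontrivial
  have hKne : K ≠ ⊥ := by
    intro hc
    apply hunf
    rw [injective_iff_map_eq_one]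
    rintro ⟨x, hx⟩ hx1
    have h1 : x ∈ K := by
      rw [hK, mem_first]
      refine ⟨hx, fun c hc => ?_⟩
      rw [← orbit_eq] at hc
      have h1 := congrArg (fun s : Equiv.Perm (orbit (stabilizer G a) b) => s ⟨c, hc⟩) hx1
      exact congrArg Subtype.val h1
    rw [hc, Subgroup.mem_bot] at h1
    exact Subtype.ext h1
  have hKLne : K ≠ L := by
    intro hc
    have h1 := hPA K (hKX.trans inf_le_left) hKne hAK
    have h3 : (stabilizer G b) ≤ (stabilizer G a) := by
      refine le_trans ?_ h1
      rw [hc]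
      exact hBL
    exact hne (Subgroup.eq_of_le_of_card_ge h3 hAB.le).symm
  have hXK : (stabilizer G a) ⊓ (stabilizer G b) ≤ Subgroup.normalizer (K : Set G) := inf_le_left.trans hAK
  have hXL : (stabilizer G a) ⊓ (stabilizer G b) ≤ Subgroup.normalizer (L : Set G) := inf_le_right.trans hBL
  have cX1 := card_im_mul (f := φ') (le_refl ((stabilizer G a) ⊓ (stabilizer G b))) hφ'K
  have cX2 := card_im_mul (f := ψ') (le_refl ((stabilizer G a) ⊓ (stabilizer G b))) hψ'L
  rw [im_self, inf_eq_right.2 hKX] at cX1
  rw [im_self, inf_eq_right.2 hLX] at cX2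
  have hr1 : Nat.card φ'.range ≤ m.factorial := by
    rw [← cP]
    exact Nat.card_le_card_of_injective _ Subtype.val_injective
  have hr2 : Nat.card ψ'.range ≤ m.factorial := by
    rw [← cP]
    exact Nat.card_le_card_of_injective _ Subtype.val_injective
  have hs1 : Nat.card (alternatingGroup (Fin m)) ≤ Nat.card φ'.range :=
    Nat.le_of_dvd Nat.card_pos (Subgroup.card_dvd_of_le hφ')
  have hs2 : Nat.card (alternatingGroup (Fin m)) ≤ Nat.card ψ'.range :=
    Nat.le_of_dvd Nat.card_pos (Subgroup.card_dvd_of_le hψ')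
  have hm120 : 60 ≤ Nat.card (alternatingGroup (Fin m)) := by
    have h1 : Nat.factorial 5 ≤ m.factorial := Nat.factorial_le hm
    have h2 : Nat.factorial 5 = 120 := by decide
    omega
  have aux : ∀ P Q : Subgroup G, ∀ u v : ℕ, u * Nat.card P = v * Nat.card Q → u ≤ m.factorial →
      Nat.card (alternatingGroup (Fin m)) ≤ v → ∀ w, Nat.card (alternatingGroup (Fin m)) ≤ w → w * Nat.card P ≤ Nat.card Q → False := by
    intro P Q u v h1 hu hv w hw h3
    have hP : 0 < Nat.card P := Nat.card_pos
    have h4 : v * (w * Nat.card P) ≤ v * Nat.card Q := Nat.mul_le_mul_left _ h3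
    rw [← h1, ← mul_assoc] at h4
    have h5 : v * w ≤ u := Nat.le_of_mul_le_mul_right h4 hP
    have h6 : Nat.card (alternatingGroup (Fin m)) * 60 ≤ v * w := Nat.mul_le_mul hv (hm120.trans hw)
    omega
  have hKL : ¬ K ≤ L := by
    intro hc
    rcases im_cases hm hφ'K (by rw [im_self]; exact hφ') hLX hXL with h1 | h1
    · exact hKLne (le_antisymm hc h1)
    · have h3 := card_im_mul (f := φ') hLX hφ'K
      rw [inf_eq_right.2 hc] at h3
      exact aux K L _ _ (cX1.trans cX2.symm) hr1 hs2 _
        (Nat.le_of_dvd Nat.card_pos (Subgroup.card_dvd_of_le h1)) h3.le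
  have hLK : ¬ L ≤ K := by
    intro hc
    rcases im_cases hm hψ'L (by rw [im_self]; exact hψ') hKX hXK with h1 | h1
    · exact hKLne (le_antisymm h1 hc)
    · have h3 := card_im_mul (f := ψ') hKX hψ'L
      rw [inf_eq_right.2 hc] at h3
      exact aux L K _ _ (cX2.trans cX1.symm) hr2 hs1 _
        (Nat.le_of_dvd Nat.card_pos (Subgroup.card_dvd_of_le h1)) h3.le
  -- Thompson-Wielandt
  have hTW : second G a b = ⊥ ∨ second G b a = ⊥ := by
    by_contra hc
    push Not at hc
    obtain ⟨r, hr, hrp, -⟩ := H15.TW.tw hprim h2 hc.1 hc.2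
    have hpf : Fact r.Prime := ⟨hr⟩
    have h3 : second G a b ≤ (stabilizer G a) ⊓ (stabilizer G b) := (second_le_first a b).trans (coreIn_le _ _)
    have h4 : second G a b ≤ H26.LocalFitting.pc r ((stabilizer G a) ⊓ (stabilizer G b)) :=
      H26.LocalFitting.le_pc h3 (inf_le_left.trans (coreIn_norm _ _)) hrp
    have h5 : Cfsg.pCore r ↥((stabilizer G a) ⊓ (stabilizer G b)) = ⊥ := by
      rw [eq_bot_iff, ← hfit]
      exact H1.Cores.pCore_le_fittingSubgroup r
    rw [H26.LocalFitting.pc, h5, Subgroup.map_bot] at h4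
    exact hc.1 (le_bot_iff.1 h4)
  have hM : K ⊓ L = ⊥ := by
    rcases hTW with h3 | h3
    · apply inf_eq_bot hconj hKX hLX hAK hBL hmaxA hcoreA hm (by omega) hmn hψL hψ hψ'L hψ' hKL hZ
      intro N hN hAN
      rw [eq_bot_iff, ← h3]
      exact le_coreIn (hN.trans (inf_le_left.trans (hKX.trans inf_le_left))) hN hAN
    · have hcomm : ((stabilizer G b) ⊓ (stabilizer G a) : Subgroup G) = (stabilizer G a) ⊓ (stabilizer G b) := inf_comm _ _
      obtain ⟨φ'', hφ''K, hφ''⟩ := restrict (X := (stabilizer G b) ⊓ (stabilizer G a)) inf_le_right hdm φ hφK hφ p (by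
        intro x hx
        rw [hcomm]
        exact hφp x hx)
      have h4 : L ⊓ K = ⊥ := by
        apply inf_eq_bot (A := (stabilizer G b)) (B := (stabilizer G a)) (h := h⁻¹) _ (by rw [hcomm]; exact hLX) (by rw [hcomm]; exact hKX) hBL hAK hmaxB hcoreB hm
          (by omega) hmn hφK hφ hφ''K hφ'' hLK
        · intro N hN hXN
          rw [hcomm] at hN hXN
          exact hZ N hN hXN
        · intro N hN hBN
          rw [eq_bot_iff, ← h3]
          exact le_coreIn (hN.trans (inf_le_left.trans (hLX.trans inf_le_right))) hN hBN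
        · intro x
          rw [hconj]
          have h5 : h * (h⁻¹ * x * h⁻¹⁻¹) * h⁻¹ = x := by group
          rw [h5]
      rwa [inf_comm] at h4
  have key := ident hconj hKX hLX hAK hBL hmaxA hcoreA hm hdm hφK hφ hψL hψ hψ'L hψ' hKL hM (by
    rw [← hAX, hΔ])
  have hnt : Nontrivial (Fin d) := Fin.nontrivial_iff_two_le.2 (by omega)
  rcases key with ⟨h3, h4⟩ | ⟨h3, h4⟩
  · left
    refine ⟨?_, h4⟩
    rw [← hφidx, h3]
    exact alternatingGroup.index_eq_two
  · right
    refine ⟨?_, h4⟩
    rw [← Subgroup.index_eq_one, ← hφidx, h3]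
    exact Subgroup.index_top

/-- Let a finite group G act faithfully and primitively on a set Ω, let a and b be points such that the orbit Δ of b under the stabilizer H of a has d ≥ 6 elements, and suppose that the permutation group induced by H on Δ contains the alternating group of Δ (the image of H in the symmetric group of Δ has index at most 2) while H does not act faithfully on Δ. Then either H induces exactly the alternating group of Δ and H is isomorphic to the direct product of the alternating groups of degrees d and d - 1; or H induces the full symmetric group of Δ and H is isomorphic to one of: the direct product of the symmetric groups of degrees d and d - 1, the direct product of the symmetric group of degree d with the alternating group of degree d - 1, or the subgroup of the direct product of the symmetric groups of degrees d and d - 1 consisting of the pairs of permutations with equal signs. -/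
theorem result {G Ω : Type*} [Group G] [Finite G] [MulAction G Ω] [FaithfulSMul G Ω] [Finite Ω]
    (hprim : MulAction.IsPreprimitive G Ω) (a b : Ω) (d : ℕ) (hd : Nat.card (MulAction.orbit (MulAction.stabilizer G a) b) = d) (h6 : 6 ≤ d)
    (halt : (MulAction.toPermHom (MulAction.stabilizer G a) (MulAction.orbit (MulAction.stabilizer G a) b)).range.index ≤ 2)
    (hunf : ¬ Function.Injective (MulAction.toPermHom (MulAction.stabilizer G a) (MulAction.orbit (MulAction.stabilizer G a) b))) :
    ((MulAction.toPermHom (MulAction.stabilizer G a) (MulAction.orbit (MulAction.stabilizer G a) b)).range.index = 2 ∧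
      Nonempty (MulAction.stabilizer G a ≃* alternatingGroup (Fin d) × alternatingGroup (Fin (d - 1)))) ∨
    ((MulAction.toPermHom (MulAction.stabilizer G a) (MulAction.orbit (MulAction.stabilizer G a) b)).range = ⊤ ∧
      (Nonempty (MulAction.stabilizer G a ≃* Equiv.Perm (Fin d) × Equiv.Perm (Fin (d - 1))) ∨
       Nonempty (MulAction.stabilizer G a ≃* Equiv.Perm (Fin d) × alternatingGroup (Fin (d - 1))) ∨
       Nonempty (MulAction.stabilizer G a ≃* ((Equiv.Perm.sign.comp (MonoidHom.fst (Equiv.Perm (Fin d)) (Equiv.Perm (Fin (d - 1))))) *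
         (Equiv.Perm.sign.comp (MonoidHom.snd (Equiv.Perm (Fin d)) (Equiv.Perm (Fin (d - 1)))))).ker))) := by
  exact main hprim a b d hd h6 halt hunf (d - 1) (by omega)

end Cfsg.Agent.S3687
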