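import Cfsg.Statements.S3688
import Cfsg.Agent.Lib.H15.TWPrim

set_option autoImplicit false
open Cfsg

namespace Cfsg.Agent.S3688

/-- Let a finite group G act faithfully and primitively on a set Ω, let a and b be points such that the orbit of b under the stabilizer H of a has length d ≥ 2, and suppose that H is not strongly constrained: for no prime p does the generalized Fitting subgroup of H coincide with the largest normal p-subgroup of H. Then the order of H divides d! · ((d - 1)!)^d. -/
theorem result {G Ω : Type*} [Group G] [Finite G] [MulAction G Ω] [FaithfulSMul G Ω] [Finite Ω]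
    (hprim : MulAction.IsPreprimitive G Ω) (a b : Ω) (d : ℕ) (hd : Nat.card (MulAction.orbit (MulAction.stabilizer G a) b) = d) (h2 : 2 ≤ d)
    (hnc : ∀ p : ℕ, p.Prime → Cfsg.generalizedFittingSubgroup (MulAction.stabilizer G a) ≠ Cfsg.pCore p (MulAction.stabilizer G a)) :
    Nat.card (MulAction.stabilizer G a) ∣ Nat.factorial d * (Nat.factorial (d - 1)) ^ d := by
  have hΔ : Nat.card (H15.TW.Δ G a b) = d := by rw [← H15.TW.orbit_eq]; exact hd
  rcases H15.TW.card_dvd_or hprim (a := a) (b := b) (by rw [hΔ]; exact h2) with h | ⟨p, hp, -, -, h1⟩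
  · rw [← hΔ]
    exact h
  · exact absurd h1 (hnc p hp)

end Cfsg.Agent.S3688
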