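import Cfsg.Statements.S3696
import Cfsg.Agent.Lib.H64.AbelianBound

set_option autoImplicit false
open Cfsg

namespace Cfsg.Agent.S3696

/-- Let p be a prime, Ω a finite set with n ≥ p elements, and A an abelian p-subgroup of the symmetric group on Ω whose elements of order dividing p number p^k (so k is the rank of A). Then |A| · k^k ≤ n^k, that is, |A| ≤ (n/k)^k. -/
theorem result {Ω : Type*} [Fintype Ω] [DecidableEq Ω]
    (p : ℕ) (hp : p.Prime) (hn : p ≤ Fintype.card Ω) (A : Subgroup (Equiv.Perm Ω)) (hA : IsPGroup p A) (hab : IsMulCommutative A)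
    (k : ℕ) (hk : Nat.card {x : A // x ^ p = 1} = p ^ k) :
    Nat.card A * k ^ k ≤ Fintype.card Ω ^ k := by
  have hB : ∀ x ∈ A, ∀ y ∈ A, x * y = y * x := fun x hx y hy => by
    have := hab.is_comm.comm ⟨x, hx⟩ ⟨y, hy⟩
    exact congrArg Subtype.val this
  have h := H64.AbelianBound.main p hp (Fintype.card Ω) A Finset.univ Finset.card_univ hB hA
    (fun _ _ _ _ => Finset.mem_univ _) (fun b _ h => Equiv.ext (fun x => h x (Finset.mem_univ x)))
    k (by
      rw [← hk]
      refine Nat.card_congr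
        ⟨fun z => ⟨⟨z.1, z.2.1⟩, Subtype.ext z.2.2⟩, fun z => ⟨z.1.1, z.1.2, congrArg Subtype.val z.2⟩,
          fun z => rfl, fun z => rfl⟩)
  rwa [Finset.card_univ] at h

end Cfsg.Agent.S3696
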