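import Cfsg.Statements.S3708
import Cfsg.Agent.Lib.H60.PhM

set_option autoImplicit false
open Cfsg

namespace Cfsg.Agent.S3708

open Cfsg H60.Ph

/-- Phan's recognition of unitary groups. Let F be a finite field with q² elements, q > 4, and n ≥ 2. Let G be a group generated by subgroups U_0, …, U_{n−1}, each isomorphic to the special unitary group SU(2, q²) (determinant-one isometries of the standard Hermitian form in two variables over F), and let D_i ≤ U_i be cyclic subgroups of order q + 1. Suppose that U_i and U_j commute elementwise whenever the indices differ by at least 2, that the subgroup generated by U_i and U_{i+1} is isomorphic to SU(3, q²) for each i, and that D_i and D_j commute elementwise for all i, j. Then G is a homomorphic image of SU(n+1, q²). (Generation of G by the U_i is part of the hypothesis; G is not assumed finite.) -/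
theorem result {G : Type*} [Group G] (n : ℕ) (hn : 2 ≤ n)
    (F : Type*) [Field F] [Fintype F] (q : ℕ) (hq : 4 < q) (hF : Fintype.card F = q ^ 2)
    (U : Fin n → Subgroup G) (e : ∀ i, ↥(Cfsg.SU 2 F q) ≃* ↥(U i)) (hgen : ⨆ i, U i = ⊤)
    (D : Fin n → Subgroup G) (hD : ∀ i, D i ≤ U i ∧ IsCyclic ↥(D i) ∧ Nat.card ↥(D i) = q + 1)
    (h1 : ∀ i j : Fin n, (i : ℕ) + 2 ≤ j → ∀ x ∈ U i, ∀ y ∈ U j, x * y = y * x)
    (h2 : ∀ i j : Fin n, (i : ℕ) + 1 = j → Nonempty (↥(U i ⊔ U j) ≃* ↥(Cfsg.SU 3 F q)))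
    (h3 : ∀ i j : Fin n, i ≠ j → ∀ x ∈ D i, ∀ y ∈ D j, x * y = y * x) :
    ∃ f : ↥(Cfsg.SU (n + 1) F q) →* G, Function.Surjective f := by
  classical
  obtain ⟨k, rfl⟩ : ∃ k, n = k + 2 := ⟨n - 2, by omega⟩
  have hq2 : 1 < q := by omega
  have hex : ∀ i : Fin (k + 1), ∃ φ : SU 3 F q →* G, Function.Injective φ ∧ φ.range = U i.castSucc ⊔ U i.succ ∧
      (φ.comp (emb hF (hd (by omega : 2 ≤ 3)))).range = U i.castSucc ∧ (φ.comp (emb hF (tl 2))).range = U i.succ ∧
      (∀ x ∈ D i.castSucc, ∃ c hc, x = φ (emb hF (hd (by omega : 2 ≤ 3)) (tor hF c hc))) ∧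
      (∀ c hc, φ (emb hF (hd (by omega : 2 ≤ 3)) (tor hF c hc)) ∈ D i.castSucc) ∧
      (∀ x ∈ D i.succ, ∃ c hc, x = φ (emb hF (tl 2) (tor hF c hc))) ∧ (∀ c hc, φ (emb hF (tl 2) (tor hF c hc)) ∈ D i.succ) := by
    intro i
    obtain ⟨ψ⟩ := h2 i.castSucc i.succ (by simp)
    refine exists_std hF (by omega) ((U i.castSucc ⊔ U i.succ).subtype.comp ψ.symm.toMonoidHom) ?_ _ _ ?_
      (e i.castSucc) (e i.succ) _ _ (hD i.castSucc).1 (hD i.castSucc).2.1 (hD i.castSucc).2.2
      (hD i.succ).1 (hD i.succ).2.1 (hD i.succ).2.2 ?_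
    · exact (Subgroup.subtype_injective _).comp ψ.symm.injective
    · ext x
      constructor
      · rintro ⟨y, rfl⟩
        exact (ψ.symm y).2
      · intro hx
        refine ⟨ψ ⟨x, hx⟩, ?_⟩
        show ((ψ.symm (ψ ⟨x, hx⟩) : ↥(U i.castSucc ⊔ U i.succ)) : G) = x
        rw [MulEquiv.symm_apply_apply]
    · refine h3 _ _ ?_
      intro h
      have := congrArg Fin.val h
      simp at this
  choose φ hφi hφr hφ1 hφ2 hφ3 hφ4 hφ5 hφ6 using hex
  have H : PhanData hF k U φ :=
    { h1 := fun i b => by rw [← hφ1 i]; exact ⟨b, rfl⟩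
      h1' := fun i u hu => by rw [← hφ1 i] at hu; exact hu
      h2 := fun i b => by rw [← hφ2 i]; exact ⟨b, rfl⟩
      h2' := fun i u hu => by rw [← hφ2 i] at hu; exact hu
      i1 := fun i b hb => by
        have := (injective_iff_map_eq_one (φ i)).1 (hφi i) _ hb
        exact (injective_iff_map_eq_one (emb hF (hd (by omega : 2 ≤ 3)))).1 (emb_injective hF (hd (by omega : 2 ≤ 3))) _ this
      i2 := fun i b hb => by
        have := (injective_iff_map_eq_one (φ i)).1 (hφi i) _ hb
        exact (injective_iff_map_eq_one (emb hF (tl 2))).1 (emb_injective hF (tl 2)) _ this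
      hc := fun i j hij => h1 i j hij
      ht := fun i j hij c hcc => by
        have hij' : j.castSucc = i.succ := by
          apply Fin.ext
          simp [← hij]
        have h0 := hφ4 j c hcc
        rw [hij'] at h0
        obtain ⟨c', hc', h'⟩ := hφ5 i _ h0
        exact ⟨c', hc', h'⟩ }
  obtain ⟨f, f1, f2, -⟩ := exists_glued hF (by omega) k U φ H
  refine ⟨f, ?_⟩
  rw [← MonoidHom.range_eq_top, eq_top_iff, ← hgen]
  exact iSup_le f2

end Cfsg.Agent.S3708
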