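import Cfsg.Statements.S3709
import Cfsg.Agent.Lib.H60.PhI

set_option autoImplicit false
open Cfsg

namespace Cfsg.Agent.S3709

open Cfsg H60.Ph

/-- Recognition of unitary groups from a weak Phan system. Let F be a finite field with q² elements, q > 3, and n ≥ 3. Let G be a group with subgroups U_0, …, U_{n−1}, each isomorphic to SU(2, q²), and, for each pair of consecutive indices, a subgroup V_{i,i+1} in which U_i and U_{i+1} form a standard pair (some isomorphism from SU(3, q²), or from its central quotient PSU(3, q²), onto V_{i,i+1} carries the two block-diagonal SU(2, q²) subgroups, or their images, onto U_i and U_{i+1}). Suppose that U_i and U_j commute elementwise whenever the indices differ by at least 2, and that G is generated by the U_i together with the V_{i,i+1}. Then G is a homomorphic image of SU(n+1, q²). (G is not assumed finite.) -/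
theorem result {G : Type*} [Group G] (n : ℕ) (hn : 3 ≤ n)
    (F : Type*) [Field F] [Fintype F] (q : ℕ) (hq : 3 < q) (hF : Fintype.card F = q ^ 2)
    (U : Fin n → Subgroup G) (e : ∀ i, ↥(Cfsg.SU 2 F q) ≃* ↥(U i))
    (V : Fin n → Fin n → Subgroup G)
    (h1 : ∀ i j : Fin n, (i : ℕ) + 2 ≤ j → ∀ x ∈ U i, ∀ y ∈ U j, x * y = y * x)
    (h2 : ∀ i j : Fin n, (i : ℕ) + 1 = j → Cfsg.IsStandardUnitaryPair (V i j) (U i) (U j) F q)
    (hgen : (⨆ i, U i) ⊔ (⨆ (i : Fin n) (j : Fin n) (_ : (i : ℕ) + 1 = j), V i j) = ⊤) :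
    ∃ f : ↥(Cfsg.SU (n + 1) F q) →* G, Function.Surjective f := by
  classical
  obtain ⟨k, rfl⟩ : ∃ k, n = k + 2 := ⟨n - 2, by omega⟩
  have hq2 : 1 < q := by omega
  have hex : ∀ i : Fin (k + 1), ∃ φ : SU 3 F q →* G, φ.range = V i.castSucc i.succ ∧ φ.ker ≤ Subgroup.center (SU 3 F q) ∧
      (φ.comp (emb hF (hd (by omega : 2 ≤ 3)))).range = U i.castSucc ∧ (φ.comp (emb hF (tl 2))).range = U i.succ :=
    fun i => exists_map_of_pair hF (h2 i.castSucc i.succ (by simp))
  choose φ hφr hφk hφ1 hφ2 using hex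
  have H : PhanData hF k U φ :=
    { h1 := fun i b => by rw [← hφ1 i]; exact ⟨b, rfl⟩
      h1' := fun i u hu => by rw [← hφ1 i] at hu; exact hu
      h2 := fun i b => by rw [← hφ2 i]; exact ⟨b, rfl⟩
      h2' := fun i u hu => by rw [← hφ2 i] at hu; exact hu
      i1 := fun i b hb => inj_hd hF (φ i) (hφk i) b hb
      i2 := fun i b hb => inj_tl hF (φ i) (hφk i) b hb
      hc := fun i j hij => h1 i j hij
      ht := fun i j hij c hcc => by
        have hij' : j.castSucc = i.succ := by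
          apply Fin.ext
          simp [← hij]
        refine torus_compat hF (by omega) (φ i) (φ j) (hφk i) (hφk j) ?_ ?_ ?_ c hcc
        · intro b
          have : φ j (emb hF (hd (by omega : 2 ≤ 3)) b) ∈ U i.succ := by
            rw [← hij', ← hφ1 j]; exact ⟨b, rfl⟩
          rw [← hφ2 i] at this
          obtain ⟨b', hb'⟩ := this
          exact ⟨b', hb'.symm⟩
        · intro b
          have : φ i (emb hF (tl 2) b) ∈ U j.castSucc := by
            rw [hij', ← hφ2 i]; exact ⟨b, rfl⟩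
          rw [← hφ1 j] at this
          obtain ⟨b', hb'⟩ := this
          exact ⟨b', hb'.symm⟩
        · intro b b'
          have e1 : φ i (emb hF (hd (by omega : 2 ≤ 3)) b) ∈ U i.castSucc := by rw [← hφ1 i]; exact ⟨b, rfl⟩
          have e2 : φ j (emb hF (tl 2) b') ∈ U j.succ := by rw [← hφ2 j]; exact ⟨b', rfl⟩
          exact h1 i.castSucc j.succ (by simp; omega) _ e1 _ e2 }
  obtain ⟨f, f1, f2, -⟩ := exists_glued hF (by omega) k U φ H
  refine ⟨f, ?_⟩
  rw [← MonoidHom.range_eq_top, eq_top_iff, ← hgen, sup_le_iff]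
  refine ⟨iSup_le f2, iSup_le fun i => iSup_le fun j => iSup_le fun hij => ?_⟩
  -- the spans
  have hi : (i : ℕ) < k + 1 := by have := j.2; omega
  have e1 : i = (⟨i, hi⟩ : Fin (k + 1)).castSucc := rfl
  have e2 : j = (⟨i, hi⟩ : Fin (k + 1)).succ := by
    apply Fin.ext
    simp [← hij]
  rw [e1, e2, ← hφr ⟨i, hi⟩]
  rintro _ ⟨y, rfl⟩
  obtain ⟨a, a', a'', b, b', _, _, rfl⟩ := exists_fac_all hF (by omega) (n := 1) (by omega) y
  have g0 : ∀ b, φ ⟨i, hi⟩ (emb hF (hd (by omega : 2 ≤ 3)) b) ∈ f.range := fun b => f2 _ (H.h1 ⟨i, hi⟩ b)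
  have g1 : ∀ b, φ ⟨i, hi⟩ (emb hF (tl 2) b) ∈ f.range := fun b => f2 _ (H.h2 ⟨i, hi⟩ b)
  simp only [map_mul]
  exact mul_mem (mul_mem (mul_mem (mul_mem (g1 a) (g0 b)) (g1 a')) (g0 b')) (g1 a'')

end Cfsg.Agent.S3709
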