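import Cfsg.Statements.S3710
import Cfsg.Agent.Lib.H60.PhY

set_option autoImplicit false
open Cfsg

namespace Cfsg.Agent.S3710

open Cfsg H60.Ph

/-- Recognition of unitary groups over the field with 9 elements from a weak Phan system. Let F be a field with 9 elements and n ≥ 4. Let G be a group with subgroups U_0, …, U_{n−1}, each isomorphic to SU(2, 9), and, for consecutive indices, subgroups V_{i,i+1} in which U_i and U_{i+1} form a standard pair (via an isomorphism from SU(3, 9) or PSU(3, 9) carrying the block-diagonal subgroups, or their images, onto U_i and U_{i+1}); suppose U_i and U_j commute elementwise whenever the indices differ by at least 2, that G is generated by the U_i and the V_{i,i+1}, and moreover that for each i the subgroup generated by V_{i,i+1} and V_{i+1,i+2} is a homomorphic image of SU(4, 9). Then G is a homomorphic image of SU(n+1, 9). (G is not assumed finite.) -/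
theorem result {G : Type*} [Group G] (n : ℕ) (hn : 4 ≤ n)
    (F : Type*) [Field F] [Fintype F] (hF : Fintype.card F = 9)
    (U : Fin n → Subgroup G) (e : ∀ i, ↥(Cfsg.SU 2 F 3) ≃* ↥(U i))
    (V : Fin n → Fin n → Subgroup G)
    (h1 : ∀ i j : Fin n, (i : ℕ) + 2 ≤ j → ∀ x ∈ U i, ∀ y ∈ U j, x * y = y * x)
    (h2 : ∀ i j : Fin n, (i : ℕ) + 1 = j → Cfsg.IsStandardUnitaryPair (V i j) (U i) (U j) F 3)
    (hgen : (⨆ i, U i) ⊔ (⨆ (i : Fin n) (j : Fin n) (_ : (i : ℕ) + 1 = j), V i j) = ⊤)
    (h4 : ∀ i j k : Fin n, (i : ℕ) + 1 = j → (j : ℕ) + 1 = k →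
      ∃ g : ↥(Cfsg.SU 4 F 3) →* ↥(V i j ⊔ V j k), Function.Surjective g) :
    ∃ f : ↥(Cfsg.SU (n + 1) F 3) →* G, Function.Surjective f := by
  classical
  have hF' : Fintype.card F = 3 ^ 2 := by rw [hF]; norm_num
  obtain ⟨k, rfl⟩ : ∃ k, n = k + 3 := ⟨n - 3, by omega⟩
  have hex : ∀ i : Fin (k + 1), ∃ γ : SU 4 F 3 →* G,
      (γ.comp (emb hF' (hd (by omega : 2 ≤ 4)))).range = U i.castSucc.castSucc ∧
      (γ.comp (emb hF' md)).range = U i.succ.castSucc ∧ (γ.comp (emb hF' tt)).range = U i.succ.succ ∧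
      Function.Injective (γ.comp (emb hF' (hd (by omega : 3 ≤ 4)))) ∧ Function.Injective (γ.comp (emb hF' (tl 3))) := by
    intro i
    obtain ⟨g, hg⟩ := h4 i.castSucc.castSucc i.succ.castSucc i.succ.succ (by simp) (by simp)
    exact exists_standard hF' (h2 i.castSucc.castSucc i.succ.castSucc (by simp)) (h2 i.succ.castSucc i.succ.succ (by simp))
      (h1 i.castSucc.castSucc i.succ.succ (by simp)) g hg
  choose γ γ1 γ2 γ3 γ4 γ5 using hex
  have H : PhanData4 hF' k U γ :=
    { b0 := γ1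
      b1 := γ2
      b2 := γ3
      j1 := γ4
      j2 := γ5
      hc := h1 }
  obtain ⟨f, -, f2, -⟩ := exists_glued4 hF' k U γ H
  refine ⟨f, ?_⟩
  rw [← MonoidHom.range_eq_top, eq_top_iff, ← hgen, sup_le_iff]
  refine ⟨iSup_le f2, iSup_le fun i => iSup_le fun j => iSup_le fun hij => ?_⟩
  obtain ⟨φ, hφV, -, hφA, hφB⟩ := exists_map_of_pair hF' (h2 i j hij)
  rw [← hφV]
  rintro _ ⟨y, rfl⟩
  refine mem_of_blocks3 hF' f.range φ ?_ ?_ y
  · intro b
    apply f2 i
    rw [← hφA]
    exact ⟨b, rfl⟩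
  · intro b
    apply f2 j
    rw [← hφB]
    exact ⟨b, rfl⟩

end Cfsg.Agent.S3710
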