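import Cfsg.Statements.S3756
import Cfsg.Agent.Lib.H65.Red

set_option autoImplicit false
open Cfsg

namespace Cfsg.Agent.S3756

/-- Let G be a finite group of even order with O₂(G) = 1 such that every 2-local subgroup of G is solvable, of characteristic 2, and has no section isomorphic to the symmetric group of degree 4. Then every maximal 2-local subgroup of G is strongly embedded in G. -/
theorem result {G : Type*} [Group G] [Finite G] (heven : Even (Nat.card G)) (hO : Cfsg.pCore 2 G = ⊥) (hloc : ∀ M : Subgroup G, Cfsg.IsTwoLocal M → Group.IsSolvable M ∧ Cfsg.IsOfCharacteristicTwo ↥M ∧ ¬ Cfsg.Involves (Equiv.Perm (Fin 4)) ↥M) (M : Subgroup G) (hM : Cfsg.IsMaximalTwoLocal M) : Cfsg.IsStronglyEmbedded M := by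
  have hM' : H65.MaxLocal.IsMaxLoc 2 M := hM
  obtain ⟨⟨T, hT, hT1, hMT⟩, -⟩ := hM
  refine ⟨?_, ?_, ?_⟩
  · intro htop
    apply hT1
    rw [eq_bot_iff, ← hO]
    refine le_sSup ⟨?_, hT⟩
    rw [← Subgroup.normalizer_eq_top_iff, ← hMT, htop]
  · have h1 : T ≤ M := by rw [hMT]; exact Subgroup.le_normalizer
    have h2 : 2 ∣ Nat.card T := by
      obtain ⟨n, hn⟩ := IsPGroup.iff_card.mp hT
      cases n with
      | zero =>
        rw [pow_zero] at hn
        exact absurd (Subgroup.card_eq_one.mp hn) hT1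
      | succ n => rw [hn, pow_succ]; exact Dvd.intro_left _ rfl
    exact even_iff_two_dvd.mpr (h2.trans (Subgroup.card_dvd_of_le h1))
  · intro g hg
    by_contra hodd
    rw [Nat.not_odd_iff_even, even_iff_two_dvd] at hodd
    refine H65.Red.main hloc hM' (H65.MaxLocal.isMaxLoc_conj hM' g) ?_ hodd
    intro heq
    apply hg
    rw [← H65.MaxLocal.normalizer_self hM', H28.Cj.mem_normalizer_iff_cj]
    exact heq.symm

end Cfsg.Agent.S3756
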