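import Cfsg.Statements.S3802
import Cfsg.Agent.Lib.H66.MinimalNormal

set_option autoImplicit false
open Cfsg

namespace Cfsg.Agent.S3802

theorem result {G : Type*} [Group G] [Finite G] (M N : Subgroup G) (hM : IsCoatom M) (hN : N.IsSubnormal) (hNM : N ≤ M) :
    N ≤ Subgroup.normalCore M := by
  classical
  set C := Subgroup.normalCore M with hC
  have hCM : C ≤ M := Subgroup.normalCore_le M
  have hCn : C.Normal := Subgroup.normalCore_normal M
  have hCt : C ≠ ⊤ := by
    intro h
    apply hM.1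
    rw [eq_top_iff, ← h]; exact hCM
  haveI : Nontrivial (G ⧸ C) := by
    rw [QuotientGroup.nontrivial_iff]
    exact hCt
  obtain ⟨A, hA⟩ := H66.MinimalNormal.exists_isMinimalNormal (G := G ⧸ C)
  have hN' : (N.map (QuotientGroup.mk' C)).IsSubnormal := hN.quotient
  have hnorm := hA.le_normalizer hN'
  haveI := hA.1
  -- A pulled back is not contained in M
  set B := A.comap (QuotientGroup.mk' C) with hB
  have hBn : B.Normal := inferInstance
  have hCB : C ≤ B := by
    intro x hx
    rw [hB, Subgroup.mem_comap]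
    have : (QuotientGroup.mk' C) x = 1 := by
      rw [QuotientGroup.mk'_apply, QuotientGroup.eq_one_iff]; exact hx
    rw [this]; exact one_mem _
  have hBM : ¬ B ≤ M := by
    intro h
    have h1 : B ≤ C := Subgroup.normal_le_normalCore.2 h
    apply hA.2.1
    rw [eq_bot_iff]
    intro x hx
    obtain ⟨y, rfl⟩ := QuotientGroup.mk'_surjective C x
    have hy : y ∈ B := hx
    have := h1 hy
    rw [Subgroup.mem_bot, QuotientGroup.mk'_apply, QuotientGroup.eq_one_iff]
    exact this
  have htop : B ⊔ M = ⊤ := by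
    apply hM.2
    refine lt_of_le_of_ne le_sup_right ?_
    intro h
    exact hBM (by rw [h]; exact le_sup_left)
  rw [hC]
  intro n hn g
  -- need g * n * g⁻¹ ∈ M
  have hg : g ∈ M ⊔ B := by rw [sup_comm, htop]; trivial
  rw [Subgroup.mem_sup_of_normal_right] at hg
  obtain ⟨m, hm, b, hb, rfl⟩ := hg
  have h1 : (QuotientGroup.mk' C) b ∈ A := hb
  have h2 := (Subgroup.mem_normalizer_iff.1 (hnorm h1) ((QuotientGroup.mk' C) n)).1 ⟨n, hn, rfl⟩
  rw [← map_mul, ← map_inv, ← map_mul] at h2
  obtain ⟨n', hn', he⟩ := h2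
  have h3 : b * n * b⁻¹ ∈ M := by
    have h4 : n'⁻¹ * (b * n * b⁻¹) ∈ C := by
      rw [QuotientGroup.mk'_apply, QuotientGroup.mk'_apply, QuotientGroup.eq] at he
      exact he
    have := mul_mem (hNM hn') (hCM h4)
    simpa [mul_assoc] using this
  have h5 : m * b * n * (m * b)⁻¹ = m * (b * n * b⁻¹) * m⁻¹ := by group
  rw [h5]
  exact mul_mem (mul_mem hm h3) (inv_mem hm)

end Cfsg.Agent.S3802
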