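import Cfsg.Statements.S3815

set_option autoImplicit false
open Cfsg

namespace Cfsg.Agent.S3815

/-- Let G be a finite group, p a prime and d ∈ G an element of order prime to p. If dg has order prime to p for every element g ∈ G of order prime to p, then d ∈ O_{p'}(G). -/
theorem result {G : Type*} [Group G] [Finite G] {p : ℕ} [Fact p.Prime]
    (d : G) (hd : (orderOf d).Coprime p)
    (h : ∀ g : G, (orderOf g).Coprime p → (orderOf (d * g)).Coprime p) :
    d ∈ Cfsg.pPrimeCore p G := by
  classical
  -- the set of all such d
  have hone : ∀ g : G, (orderOf g).Coprime p → (orderOf ((1 : G) * g)).Coprime p := by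
    intro g hg; simpa using hg
  have hmul : ∀ a b : G, (∀ g : G, (orderOf g).Coprime p → (orderOf (a * g)).Coprime p) →
      (∀ g : G, (orderOf g).Coprime p → (orderOf (b * g)).Coprime p) →
      (∀ g : G, (orderOf g).Coprime p → (orderOf (a * b * g)).Coprime p) := by
    intro a b ha hb g hg
    rw [mul_assoc]
    exact ha _ (hb _ hg)
  have hpow : ∀ a : G, (∀ g : G, (orderOf g).Coprime p → (orderOf (a * g)).Coprime p) → ∀ n : ℕ,
      (∀ g : G, (orderOf g).Coprime p → (orderOf (a ^ n * g)).Coprime p) := by
    intro a ha n
    induction n with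
    | zero => simpa using hone
    | succ n ih =>
      rw [pow_succ]
      exact hmul _ _ ih ha
  let D : Subgroup G :=
    { carrier := {a | ∀ g : G, (orderOf g).Coprime p → (orderOf (a * g)).Coprime p}
      mul_mem' := by
        intro a b ha hb
        exact hmul a b ha hb
      one_mem' := hone
      inv_mem' := by
        intro a ha
        have hfin : IsOfFinOrder a := isOfFinOrder_of_finite a
        have : a⁻¹ = a ^ (orderOf a - 1) := by
          rw [inv_eq_iff_mul_eq_one]
          rw [← pow_succ', Nat.sub_add_cancel (orderOf_pos a), pow_orderOf_eq_one]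
        change ∀ g : G, (orderOf g).Coprime p → (orderOf (a⁻¹ * g)).Coprime p
        rw [this]
        exact hpow a ha _ }
  have hDn : D.Normal := by
    constructor
    intro a ha c g hg
    have h1 : c * a * c⁻¹ * g = c * (a * (c⁻¹ * g * c)) * c⁻¹ := by group
    rw [h1]
    have h2 : orderOf (c * (a * (c⁻¹ * g * c)) * c⁻¹) = orderOf (a * (c⁻¹ * g * c)) := by
      have := orderOf_injective (MulAut.conj c).toMonoidHom (MulAut.conj c).injective (a * (c⁻¹ * g * c))
      simpa using this
    rw [h2]
    apply ha
    have h3 : orderOf (c⁻¹ * g * c) = orderOf g := by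
      have := orderOf_injective (MulAut.conj c⁻¹).toMonoidHom (MulAut.conj c⁻¹).injective g
      simpa using this
    rw [h3]; exact hg
  have hDel : ∀ a ∈ D, (orderOf a).Coprime p := by
    intro a ha
    have := ha 1 (by simp)
    simpa using this
  have hDcop : (Nat.card D).Coprime p := by
    by_contra hc
    have hp : p.Prime := Fact.out
    have hdvd : p ∣ Nat.card D := by
      rw [Nat.coprime_comm] at hc
      exact (Nat.Prime.dvd_iff_not_coprime hp).mpr hc
    obtain ⟨x, hx⟩ := exists_prime_orderOf_dvd_card' p hdvd
    have h1 := hDel x.1 x.2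
    rw [Subgroup.orderOf_coe, hx] at h1
    exact hp.one_lt.ne' (by simpa using h1)
  have hle : D ≤ Cfsg.pPrimeCore p G := le_sSup ⟨hDn, hDcop⟩
  exact hle h

end Cfsg.Agent.S3815
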