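import Cfsg.Statements.S3816
import Cfsg.Agent.Lib.H12.CopGen7

set_option autoImplicit false
open Cfsg

namespace Cfsg.Agent.S3816

/-- Let p be an odd prime, H a finite solvable group of order prime to p, and x an automorphism of H of order p (so P = ⟨x⟩ has prime order p > 2 and acts coprimely on H). For h ∈ H let [h, P] be the subgroup generated by the commutators h⁻¹·xⁱ(h), and let [H, P] be the subgroup generated by all of these. Then the fixed points of x in [H, P] are generated by the fixed points of x in the subgroups [h, P], h ∈ H. -/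
theorem result {H : Type*} [Group H] [Finite H]
    [Group.IsSolvable H] {p : ℕ} [Fact p.Prime] (hp : p ≠ 2) (hcop : (Nat.card H).Coprime p)
    (x : MulAut H) (hx : orderOf x = p) :
    Subgroup.closure {c : H | ∃ h : H, ∃ i : ℕ, c = h⁻¹ * (x ^ i) h} ⊓ (x : H →* H).eqLocus (MonoidHom.id H) =
      ⨆ h : H, Subgroup.closure {c : H | ∃ i : ℕ, c = h⁻¹ * (x ^ i) h} ⊓ (x : H →* H).eqLocus (MonoidHom.id H) := by
  have hit : ∀ (i : ℕ) (h : H), (x ^ i) h = (x : H →* H)^[i] h := by
    intro i
    induction i with
    | zero => intro h; rfl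
    | succ i ih =>
      intro h
      rw [pow_succ', Function.iterate_succ_apply', ← ih]
      rfl
  have per : ∀ h : H, (x : H →* H)^[p] h = h := by
    intro h
    rw [← hit, ← hx, pow_orderOf_eq_one]
    rfl
  have h1 := H12.CopGen.frame (Fact.out : p.Prime) hp
    (fun H _ _ x b => H12.CopGen.bad_false x b) _ H (x : H →* H) rfl hcop per
  apply le_antisymm
  · intro c hc
    have h2 : c ∈ H12.CopGen.Cx (x : H →* H) := by
      apply h1
      refine ⟨?_, hc.2⟩
      have h3 : Subgroup.closure {c : H | ∃ h : H, ∃ i : ℕ, c = h⁻¹ * (x ^ i) h} ≤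
          H12.CopGen.KY (x : H →* H) ⊤ := by
        rw [Subgroup.closure_le]
        rintro _ ⟨h, i, rfl⟩
        rw [hit]
        exact H12.CopGen.y_mem_KY (Subgroup.mem_top h) i
      exact h3 hc.1
    have h4 : H12.CopGen.Cx (x : H →* H) ≤
        ⨆ h : H, Subgroup.closure {c : H | ∃ i : ℕ, c = h⁻¹ * (x ^ i) h} ⊓
          (x : H →* H).eqLocus (MonoidHom.id H) := by
      apply iSup_mono
      intro h
      apply inf_le_inf_right
      rw [H12.CopGen.Lx, Subgroup.closure_le]
      rintro _ ⟨i, rfl⟩
      rw [← hit]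
      exact Subgroup.subset_closure ⟨i, rfl⟩
    exact h4 h2
  · apply iSup_le
    intro h
    apply inf_le_inf_right
    apply Subgroup.closure_mono
    rintro _ ⟨i, rfl⟩
    exact ⟨h, i, rfl⟩

end Cfsg.Agent.S3816
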