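import Cfsg.Statements.S3820

set_option autoImplicit false
open Cfsg

namespace Cfsg.Agent.S3820

theorem result {G : Type*} [Group G] [Finite G] (S H : Subgroup G) (hSH : S ≤ H)
    (hS : Cfsg.IsPronormal S) :
    Cfsg.IsPronormal H ↔
      ∀ g ∈ Subgroup.normalizer (S : Set G), ∃ w ∈ H ⊔ H.map (MulAut.conj g).toMonoidHom,
        H.map (MulAut.conj g).toMonoidHom = H.map (MulAut.conj w).toMonoidHom := by
  have hmapmul : ∀ (K : Subgroup G) (a b : G), K.map (MulAut.conj (a * b)).toMonoidHom =
      (K.map (MulAut.conj b).toMonoidHom).map (MulAut.conj a).toMonoidHom := by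
    intro K a b
    rw [Subgroup.map_map]
    congr 1
    ext x
    simp
  constructor
  · intro h g _
    exact h g
  · intro h g
    obtain ⟨x, hx, hxe⟩ := hS g
    -- g' = x⁻¹ g normalizes S
    have hnorm : ∀ k : G, S.map (MulAut.conj k).toMonoidHom = S → k ∈ Subgroup.normalizer (S : Set G) := by
      intro k h1
      rw [Subgroup.mem_normalizer_iff]
      intro y
      constructor
      · intro hy
        rw [← SetLike.mem_coe, ← h1]
        exact ⟨y, hy, by simp⟩
      · intro hy
        have hy' : k * y * k⁻¹ ∈ S.map (MulAut.conj k).toMonoidHom := by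
          rw [h1]; exact hy
        obtain ⟨z, hz, hze⟩ := hy'
        have : z = y := (MulAut.conj k).injective (by simpa using hze)
        rw [← this]; exact hz
    have hg' : x⁻¹ * g ∈ Subgroup.normalizer (S : Set G) := by
      apply hnorm
      rw [hmapmul, hxe, ← hmapmul]
      simp only [inv_mul_cancel, map_one]
      ext y
      simp
    obtain ⟨w, hw, hwe⟩ := h _ hg'
    have hxle : x ∈ H ⊔ H.map (MulAut.conj g).toMonoidHom :=
      (sup_le_sup hSH (Subgroup.map_mono hSH)) hx
    refine ⟨x * w, ?_, ?_⟩
    · refine mul_mem hxle ?_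
      have hle : H ⊔ H.map (MulAut.conj (x⁻¹ * g)).toMonoidHom ≤ H ⊔ H.map (MulAut.conj g).toMonoidHom := by
        refine sup_le le_sup_left ?_
        rw [hmapmul]
        rintro y ⟨z, hz, rfl⟩
        have hz' : z ∈ H ⊔ H.map (MulAut.conj g).toMonoidHom := (le_sup_right : _ ≤ H ⊔ _) hz
        have : (MulAut.conj x⁻¹).toMonoidHom z = x⁻¹ * z * x := by simp
        rw [this]
        exact mul_mem (mul_mem (inv_mem hxle) hz') hxle
      exact hle hw
    · rw [hmapmul, ← hwe, ← hmapmul]
      congr 2
      group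

end Cfsg.Agent.S3820
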