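import Cfsg.Statements.S3821

set_option autoImplicit false
open Cfsg

namespace Cfsg.Agent.S3821

theorem result {G : Type*} [Group G] [Finite G] (A H : Subgroup G) [A.Normal] (hHA : H ≤ A) :
    Cfsg.IsPronormal H ↔ (Cfsg.IsPronormal (H.subgroupOf A) ∧ A ⊔ Subgroup.normalizer (H : Set G) = ⊤) := by
  have hmapmul : ∀ (K : Subgroup G) (a b : G), K.map (MulAut.conj (a * b)).toMonoidHom =
      (K.map (MulAut.conj b).toMonoidHom).map (MulAut.conj a).toMonoidHom := by
    intro K a b
    rw [Subgroup.map_map]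
    congr 1
    ext x
    simp
  have hnorm : ∀ g : G, H.map (MulAut.conj g).toMonoidHom = H ↔ g ∈ Subgroup.normalizer (H : Set G) := by
    intro g
    rw [Subgroup.mem_normalizer_iff]
    constructor
    · intro h1 y
      constructor
      · intro hy
        rw [← SetLike.mem_coe, ← h1]
        exact ⟨y, hy, by simp⟩
      · intro hy
        have hy' : g * y * g⁻¹ ∈ H.map (MulAut.conj g).toMonoidHom := by
          rw [h1]; exact hy
        obtain ⟨z, hz, hze⟩ := hy'
        have : z = y := (MulAut.conj g).injective (by simpa using hze)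
        rw [← this]; exact hz
    · intro h
      ext y
      constructor
      · rintro ⟨z, hz, rfl⟩
        exact (h z).1 hz
      · intro hy
        refine ⟨g⁻¹ * y * g, ?_, by simp [mul_assoc]⟩
        rw [SetLike.mem_coe, h]
        simpa [mul_assoc] using hy
  have hconjA : ∀ g : G, H.map (MulAut.conj g).toMonoidHom ≤ A := by
    rintro g y ⟨z, hz, rfl⟩
    have := ‹A.Normal›.conj_mem z (hHA hz) g
    simpa using this
  have hsub : ∀ a : A, (H.subgroupOf A).map (MulAut.conj a).toMonoidHom =
      (H.map (MulAut.conj (a : G)).toMonoidHom).subgroupOf A := by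
    intro a
    ext y
    constructor
    · rintro ⟨z, hz, rfl⟩
      exact ⟨z, hz, by simp⟩
    · rintro ⟨z, hz, hze⟩
      refine ⟨⟨z, hHA hz⟩, hz, ?_⟩
      ext
      simpa using hze
  constructor
  · intro h
    refine ⟨?_, ?_⟩
    · intro a
      obtain ⟨x, hx, hxe⟩ := h a
      have hxA : x ∈ A := (sup_le hHA (hconjA a)) hx
      refine ⟨⟨x, hxA⟩, ?_, ?_⟩
      · rw [hsub, ← Subgroup.subgroupOf_sup hHA (hconjA a)]
        exact hx
      · rw [hsub, hsub, hxe]
    · rw [eq_top_iff]
      intro g _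
      obtain ⟨x, hx, hxe⟩ := h g
      have hxA : x ∈ A := (sup_le hHA (hconjA g)) hx
      have : x⁻¹ * g ∈ Subgroup.normalizer (H : Set G) := by
        rw [← hnorm, hmapmul, hxe, ← hmapmul]
        simp only [inv_mul_cancel, map_one]
        ext y
        simp
      have h2 : g = x * (x⁻¹ * g) := by group
      rw [h2]
      exact mul_mem ((le_sup_left : A ≤ _) hxA) ((le_sup_right : _ ≤ A ⊔ _) this)
  · rintro ⟨h1, h2⟩ g
    have hg : g ∈ A ⊔ Subgroup.normalizer (H : Set G) := by rw [h2]; trivial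
    rw [Subgroup.mem_sup_of_normal_left] at hg
    obtain ⟨a, ha, n, hn, rfl⟩ := hg
    have hn' := (hnorm n).2 hn
    rw [hmapmul, hn']
    obtain ⟨x, hx, hxe⟩ := h1 ⟨a, ha⟩
    rw [hsub, ← Subgroup.subgroupOf_sup hHA (hconjA a)] at hx
    refine ⟨x, hx, ?_⟩
    rw [hsub, hsub] at hxe
    have h3 := congrArg (Subgroup.map A.subtype) hxe
    rw [Subgroup.map_subgroupOf_eq_of_le (hconjA _), Subgroup.map_subgroupOf_eq_of_le (hconjA _)] at h3
    exact h3

end Cfsg.Agent.S3821
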