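import Cfsg.Statements.S3825
import Mathlib.GroupTheory.FixedPointFree

set_option autoImplicit false
open Cfsg

namespace Cfsg.Agent.S3825

theorem result {H : Type*} [Group H] [Finite H] (U : Subgroup H) (w : H) (hw : orderOf w = 2)
    (hwU : w ∈ Subgroup.normalizer (U : Set H)) (y : H) (hy : y ≠ 1) (hyU : y ∈ U)
    (hfix : ∀ u ∈ U, w * u * w⁻¹ = u ↔ (u = 1 ∨ u = y))
    (V : Subgroup H) (hVU : V ≤ U) (hVn : (V.subgroupOf U).Normal) (hVw : ∀ v ∈ V, w * v * w⁻¹ ∈ V)
    (hVe : Cfsg.IsElementaryAbelian 2 V) (hVc : ¬ IsCyclic ↥V) (hyV : y ∈ V) :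
    ¬ 2 ∣ V.relIndex U ∧ Nat.card ↥V = 4 ∧ ⁅U, U⁆ ≤ V := by
  classical
  obtain ⟨hcomm, hexp⟩ := hVe
  have hw2 : w * w = 1 := by
    have := pow_orderOf_eq_one w
    rwa [hw, sq] at this
  have hwinv : w⁻¹ = w := inv_eq_of_mul_eq_one_right hw2
  have hc : ∀ a ∈ V, ∀ b ∈ V, a * b = b * a := by
    intro a ha b hb
    have := hcomm.is_comm.comm (⟨a, ha⟩ : V) ⟨b, hb⟩
    exact congrArg Subtype.val this
  have hsq : ∀ a ∈ V, a * a = 1 := by
    intro a ha
    have := hexp a ha
    rwa [sq] at this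
  have hwU' : ∀ u ∈ U, w * u * w⁻¹ ∈ U := fun u hu => (Subgroup.mem_normalizer_iff.1 hwU u).1 hu
  have hcc : ∀ u : H, w * (w * u * w⁻¹) * w⁻¹ = u := by
    intro u
    rw [hwinv]
    calc w * (w * u * w) * w = (w * w) * u * (w * w) := by group
      _ = u := by rw [hw2]; group
  -- the map φ
  let φ : V →* V :=
    { toFun := fun v => ⟨v * (w * v * w⁻¹), mul_mem v.2 (hVw v v.2)⟩
      map_one' := by ext; simp
      map_mul' := by
        intro a b
        ext
        simp only [Subgroup.coe_mul]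
        have h1 : w * ((a : H) * b) * w⁻¹ = (w * a * w⁻¹) * (w * b * w⁻¹) := by group
        rw [h1]
        have h2 := hc b b.2 (w * a * w⁻¹) (hVw a a.2)
        calc (a : H) * b * (w * a * w⁻¹ * (w * b * w⁻¹))
            = (a : H) * (b * (w * a * w⁻¹)) * (w * b * w⁻¹) := by group
          _ = (a : H) * ((w * a * w⁻¹) * b) * (w * b * w⁻¹) := by rw [h2]
          _ = _ := by group }
  have hφ : ∀ v : V, ((φ v : V) : H) = v * (w * v * w⁻¹) := fun v => rfl
  have hker : ∀ v : V, v ∈ φ.ker ↔ ((v : H) = 1 ∨ (v : H) = y) := by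
    intro v
    rw [MonoidHom.mem_ker, ← hfix v (hVU v.2)]
    rw [← Subtype.coe_injective.eq_iff, hφ]
    constructor
    · intro h
      have h1 : w * (v : H) * w⁻¹ = (v : H)⁻¹ := (inv_eq_of_mul_eq_one_right h).symm
      rw [h1]
      exact inv_eq_of_mul_eq_one_right (hsq v v.2)
    · intro h
      rw [h]; exact hsq v v.2
  have hrange : ∀ v : V, v ∈ φ.range → ((v : H) = 1 ∨ (v : H) = y) := by
    rintro v ⟨u, rfl⟩
    rw [← hfix _ (hVU (φ u).2), hφ]
    have h1 : w * ((u : H) * (w * u * w⁻¹)) * w⁻¹ = (w * u * w⁻¹) * (w * (w * u * w⁻¹) * w⁻¹) := by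
      group
    rw [h1, hcc]
    exact hc _ (hVw u u.2) _ u.2
  have hcard2 : ∀ K : Subgroup V, (∀ v : V, v ∈ K → ((v : H) = 1 ∨ (v : H) = y)) → Nat.card K ≤ 2 := by
    intro K hK
    have : Function.Injective (fun k : K => (decide (((k : V) : H) = 1) : Bool)) := by
      intro a b hab
      have ha := hK a a.2
      have hb := hK b b.2
      simp only [decide_eq_decide] at hab
      ext
      rcases ha with ha | ha <;> rcases hb with hb | hb
      · rw [ha, hb]
      · exact absurd (hb.symm.trans (hab.1 ha)) hy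
      · exact absurd (ha.symm.trans (hab.2 hb)) hy
      · rw [ha, hb]
    have h2 := Nat.card_le_card_of_injective _ this
    simpa using h2
  have hkc : Nat.card φ.ker ≤ 2 := hcard2 _ (fun v hv => (hker v).1 hv)
  have hrc : Nat.card φ.range ≤ 2 := hcard2 _ hrange
  have hprod : Nat.card φ.ker * Nat.card φ.range = Nat.card V := by
    rw [← Subgroup.index_ker, Subgroup.card_mul_index]
  have hle4 : Nat.card V ≤ 4 := by
    rw [← hprod]
    calc _ ≤ 2 * 2 := Nat.mul_le_mul hkc hrc
      _ = 4 := rfl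
  have hVp : IsPGroup 2 V := by
    intro v
    refine ⟨1, ?_⟩
    ext
    simpa using hexp v v.2
  have hge4 : Nat.card V = 4 := by
    obtain ⟨n, hn⟩ := IsPGroup.iff_card.1 hVp
    rcases n with _ | _ | _ | n
    · exfalso
      apply hVc
      have h1 : Nat.card V = 1 := by simpa using hn
      have : Subsingleton V := (Nat.card_eq_one_iff_unique.1 h1).1
      infer_instance
    · exfalso
      apply hVc
      haveI : Fact (Nat.Prime 2) := ⟨Nat.prime_two⟩
      exact isCyclic_of_prime_card (p := 2) (by simpa using hn)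
    · simpa using hn
    · exfalso
      rw [hn] at hle4
      have : 2 ^ 3 ≤ 2 ^ (n + 1 + 1 + 1) := Nat.pow_le_pow_right (by norm_num) (by omega)
      omega
  -- y is in the range
  have hyr : ∃ v' ∈ V, v' * (w * v' * w⁻¹) = y := by
    by_contra hne
    push Not at hne
    have h1 : φ.range = ⊥ := by
      rw [eq_bot_iff]
      intro v hv
      rcases hrange v hv with h | h
      · rw [Subgroup.mem_bot]; ext; exact h
      · obtain ⟨u, rfl⟩ := hv
        exact absurd h (hne u u.2)
    have h2 : Nat.card φ.range = 1 := by rw [h1]; simp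
    rw [h2, hge4] at hprod
    omega
  -- fixed cosets
  have hcoset : ∀ u ∈ U, u⁻¹ * (w * u * w⁻¹) ∈ V → u ∈ V := by
    intro u hu hv
    set v := u⁻¹ * (w * u * w⁻¹) with hvdef
    have h1 : w * u * w⁻¹ = u * v := by rw [hvdef]; group
    have h2 : u = u * v * (w * v * w⁻¹) := by
      have h3 := hcc u
      rw [h1] at h3
      have h4 : w * (u * v) * w⁻¹ = (w * u * w⁻¹) * (w * v * w⁻¹) := by group
      rw [h4, h1] at h3
      exact h3.symm
    have h5 : v * (w * v * w⁻¹) = 1 := by
      have h6 : u * (v * (w * v * w⁻¹)) = u * 1 := by rw [mul_one, ← mul_assoc]; exact h2.symm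
      exact mul_left_cancel h6
    have h7 : (⟨v, hv⟩ : V) ∈ φ.ker := by
      rw [MonoidHom.mem_ker]; ext; exact h5
    rcases (hker _).1 h7 with h8 | h8
    · have h8' : v = 1 := h8
      rw [h8', mul_one] at h1
      rcases (hfix u hu).1 h1 with h9 | h9
      · rw [h9]; exact one_mem _
      · rw [h9]; exact hyV
    · have h8' : v = y := h8
      obtain ⟨v', hv', he⟩ := hyr
      have h10 : w * (u * v') * w⁻¹ = u * v' := by
        have h11 : w * (u * v') * w⁻¹ = (w * u * w⁻¹) * (w * v' * w⁻¹) := by group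
        have h12 : w * v' * w⁻¹ = v' * y := by
          rw [← he, ← mul_assoc, hsq v' hv', one_mul]
        rw [h11, h1, h8', h12]
        have h13 := hc v' hv' y hyV
        calc u * y * (v' * y) = u * y * (y * v') := by rw [h13]
          _ = u * (y * y) * v' := by group
          _ = u * v' := by rw [hsq y hyV, mul_one]
      rcases (hfix (u * v') (mul_mem hu (hVU hv'))).1 h10 with h9 | h9
      · have : u = v'⁻¹ := eq_inv_of_mul_eq_one_left h9
        rw [this]; exact inv_mem hv'
      · have : u = y * v'⁻¹ := eq_mul_inv_of_mul_eq h9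
        rw [this]; exact mul_mem hyV (inv_mem hv')
  -- the induced automorphism of U/V
  have hVn' := hVn
  let f : U →* U :=
    { toFun := fun u => ⟨w * u * w⁻¹, hwU' u u.2⟩
      map_one' := by ext; simp
      map_mul' := by intro a b; ext; simp }
  have hf : ∀ u : U, ((f u : U) : H) = w * u * w⁻¹ := fun u => rfl
  have hle : V.subgroupOf U ≤ (V.subgroupOf U).comap f := by
    intro u hu
    exact hVw u hu
  let σ : (U ⧸ V.subgroupOf U) →* (U ⧸ V.subgroupOf U) := QuotientGroup.map _ _ f hle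
  have hσ : MonoidHom.FixedPointFree σ := by
    intro q hq
    obtain ⟨u, rfl⟩ := QuotientGroup.mk_surjective q
    have h1 : σ (u : U ⧸ V.subgroupOf U) = ((f u : U) : U ⧸ V.subgroupOf U) := rfl
    rw [h1] at hq
    have h2 := QuotientGroup.eq.1 hq.symm
    rw [QuotientGroup.eq_one_iff]
    exact hcoset u u.2 h2
  have hinv : Function.Involutive σ := by
    intro q
    obtain ⟨u, rfl⟩ := QuotientGroup.mk_surjective q
    have h1 : σ (σ (u : U ⧸ V.subgroupOf U)) = ((f (f u) : U) : U ⧸ V.subgroupOf U) := rfl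
    rw [h1]
    congr 1
    ext
    rw [hf, hf]
    exact hcc u
  refine ⟨?_, hge4, ?_⟩
  · intro h
    have h1 := hσ.odd_card_of_involutive hinv
    have h2 : V.relIndex U = Nat.card (U ⧸ V.subgroupOf U) := rfl
    rw [← h2] at h1
    exact (Nat.not_even_iff_odd.2 h1) (even_iff_two_dvd.2 h)
  · rw [Subgroup.commutator_le]
    intro a ha b hb
    have h1 := hσ.commute_all_of_involutive hinv ((⟨a, ha⟩ : U) : U ⧸ V.subgroupOf U)
      ((⟨b, hb⟩ : U) : U ⧸ V.subgroupOf U)
    have h2 : (((⟨a, ha⟩ : U) * ⟨b, hb⟩ * (⟨a, ha⟩ : U)⁻¹ * (⟨b, hb⟩ : U)⁻¹ : U) :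
        U ⧸ V.subgroupOf U) = 1 := by
      rw [QuotientGroup.mk_mul, QuotientGroup.mk_mul, QuotientGroup.mk_mul, h1.eq]
      simp
    rw [QuotientGroup.eq_one_iff] at h2
    exact h2

end Cfsg.Agent.S3825
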