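import Cfsg.Statements.S3836
import Mathlib

set_option autoImplicit false
open Cfsg

namespace Cfsg.Agent.S3836

/-- Let G be a finite group that is p-stable in the normalizer form: for every p-subgroup Q and every x ∈ N_G(Q) with [Q, x, x] = 1, the image of x in N_G(Q)/C_G(Q) lies in O_p(N_G(Q)/C_G(Q)). Then every subgroup of G is p-stable in the same sense. -/
theorem result {G : Type*} [Group G] [Finite G] {p : ℕ} [Fact p.Prime] (hst : Cfsg.IsNormalizerPStable p G) (H : Subgroup G) : Cfsg.IsNormalizerPStable p ↥H := by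
  classical
  intro P hP g hg hquad
  set P' : Subgroup G := P.map H.subtype with hP'def
  have hP' : IsPGroup p P' := hP.map _
  have hmem : ∀ x : H, (x : G) ∈ P' ↔ x ∈ P := by
    intro x
    rw [hP'def, Subgroup.mem_map]
    constructor
    · rintro ⟨y, hy, hyx⟩
      have : y = x := Subtype.ext hyx
      exact this ▸ hy
    · intro hx; exact ⟨x, hx, rfl⟩
  have hN : ∀ x : H, x ∈ Subgroup.normalizer (P : Set H) → (x : G) ∈ Subgroup.normalizer (P' : Set G) := by
    intro x hx
    have key : ∀ x : H, x ∈ Subgroup.normalizer (P : Set H) → ∀ y ∈ P', (x : G) * y * (x : G)⁻¹ ∈ P' := by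
      rintro x hx _ ⟨y, hy, rfl⟩
      have := (Subgroup.mem_normalizer_iff.1 hx y).1 hy
      exact ⟨_, this, by simp⟩
    rw [Subgroup.mem_normalizer_iff]
    intro y
    refine ⟨key x hx y, fun h => ?_⟩
    have := key x⁻¹ (Subgroup.inv_mem _ hx) _ h
    simpa [mul_assoc] using this
  have hcomm : ⁅⁅P', Subgroup.zpowers (g : G)⁆, Subgroup.zpowers (g : G)⁆ = ⊥ := by
    have e1 : Subgroup.zpowers (g : G) = (Subgroup.zpowers g).map H.subtype := by
      rw [MonoidHom.map_zpowers]; rfl
    rw [e1, hP'def, ← Subgroup.map_commutator, ← Subgroup.map_commutator, hquad, Subgroup.map_bot]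
  have h1 := hst P' hP' (g : G) (hN g hg) hcomm
  -- the homomorphism
  let NH := Subgroup.normalizer (P : Set H)
  let NG := Subgroup.normalizer (P' : Set G)
  let CH := (Subgroup.centralizer (P : Set H)).subgroupOf NH
  let CG := (Subgroup.centralizer (P' : Set G)).subgroupOf NG
  let f : NH →* NG :=
    { toFun := fun x => ⟨((x : H) : G), hN x x.2⟩
      map_one' := rfl
      map_mul' := fun _ _ => rfl }
  have hf : ∀ x : NH, f x ∈ CG ↔ x ∈ CH := by
    intro x
    change ((x : H) : G) ∈ Subgroup.centralizer (P' : Set G) ↔ (x : H) ∈ Subgroup.centralizer (P : Set H)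
    rw [Subgroup.mem_centralizer_iff, Subgroup.mem_centralizer_iff]
    constructor
    · intro h y hy
      have := h (y : G) ((hmem y).2 hy)
      exact Subtype.ext this
    · rintro h _ ⟨y, hy, rfl⟩
      have := h y hy
      exact congrArg Subtype.val this
  haveI : CH.Normal := inferInstance
  haveI : CG.Normal := inferInstance
  let ψ : NH ⧸ CH →* NG ⧸ CG := QuotientGroup.map CH CG f (fun x hx => (hf x).2 hx)
  have hψ : Function.Injective ψ := by
    rw [injective_iff_map_eq_one]
    intro a ha
    obtain ⟨x, rfl⟩ := QuotientGroup.mk_surjective a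
    have : ψ (QuotientGroup.mk x) = QuotientGroup.mk (f x) := rfl
    rw [this, QuotientGroup.eq_one_iff] at ha
    rw [QuotientGroup.eq_one_iff]
    exact (hf x).1 ha
  have hpc : IsPGroup p (Cfsg.pCore p (NG ⧸ CG)) := by
    unfold Cfsg.pCore
    exact Sylow.sSup_of_normal _ (fun K hK => hK.2) (fun K hK => hK.1)
  have hpn : (Cfsg.pCore p (NG ⧸ CG)).Normal := Subgroup.sSup_normal _ (fun _ h => h.1)
  have hle : (Cfsg.pCore p (NG ⧸ CG)).comap ψ ≤ Cfsg.pCore p (NH ⧸ CH) := by
    apply le_sSup
    exact ⟨hpn.comap ψ, hpc.comap_of_injective ψ hψ⟩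
  apply hle
  exact h1

end Cfsg.Agent.S3836
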