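import Cfsg.Statements.S3838
import Mathlib
import Cfsg.Agent.Lib.H67.NilpFrat
import Cfsg.Agent.Lib.H72.TpCount
import Cfsg.Agent.Lib.H1.Coprime

set_option autoImplicit false
open Cfsg

namespace Cfsg.Agent.S3838

open Subgroup
open scoped Pointwise commutatorElement

/-- Let G be a finite group with Sylow p-subgroup P such that N_G(P) has a normal p-complement. Then N_G(Q) has a normal p-complement for every subgroup Q with [P, P] ≤ Q ≤ Φ(P). -/
theorem result {G : Type*} [Group G] [Finite G] {p : ℕ} [Fact p.Prime] (P : Sylow p G) (hN : Cfsg.HasNormalPComplement p ↥(Subgroup.normalizer ((P : Subgroup G) : Set G))) (Q : Subgroup G) (h1 : (commutator ↥(P : Subgroup G)).map (P : Subgroup G).subtype ≤ Q) (h2 : Q ≤ (frattini ↥(P : Subgroup G)).map (P : Subgroup G).subtype) : Cfsg.HasNormalPComplement p ↥(Subgroup.normalizer (Q : Set G)) := by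
  have hp : Fact p.Prime := inferInstance
  have hQP : Q ≤ P := by
    refine h2.trans ?_
    rintro _ ⟨y, -, rfl⟩
    exact y.2
  have hcomm : ∀ x ∈ (P : Subgroup G), ∀ y ∈ (P : Subgroup G), x * y * x⁻¹ * y⁻¹ ∈ Q := by
    intro x hx y hy
    apply h1
    refine ⟨⁅(⟨x, hx⟩ : (P : Subgroup G)), ⟨y, hy⟩⁆, commutator_mem_commutator (mem_top _) (mem_top _), ?_⟩
    rfl
  have hPN : (P : Subgroup G) ≤ normalizer (Q : Set G) := by
    have h3 : ∀ x ∈ (P : Subgroup G), ∀ y ∈ Q, x * y * x⁻¹ ∈ Q := by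
      intro x hx y hy
      have := Q.mul_mem (hcomm x hx y (hQP hy)) hy
      simpa using this
    exact H1.Coprime.le_normalizer_of_conj_mem h3
  -- the key congruence
  have key : ∀ x ∈ normalizer ((P : Subgroup G) : Set G), ∀ z ∈ (P : Subgroup G), x * z * x⁻¹ * z⁻¹ ∈ Q := by
    intro x hx z hz
    set M := normalizer ((P : Subgroup G) : Set G) with hM
    obtain ⟨C, hC, hCc, k, hk⟩ := H39.PNilp.iff_exists.1 hN
    have hPM : (P : Subgroup G) ≤ M := le_normalizer
    have hPn : ((P : Subgroup G).subgroupOf M).Normal := by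
      rw [normal_subgroupOf_iff_le_normalizer hPM]
    have hdis : Disjoint C ((P : Subgroup G).subgroupOf M) := by
      rw [disjoint_iff]
      apply H1.Coprime.inf_eq_bot_of_coprime_card
      obtain ⟨n, hn⟩ := IsPGroup.iff_card.1 (P.2.comap_subtype (K := M))
      change Nat.card ((P : Subgroup G).subgroupOf M) = p ^ n at hn
      rw [hn]
      exact Nat.Coprime.pow_right n hCc
    have htop : C ⊔ (P : Subgroup G).subgroupOf M = ⊤ := by
      rw [← index_eq_one]
      have h3 : (C ⊔ (P : Subgroup G).subgroupOf M).index ∣ p ^ k := hk ▸ index_dvd_of_le le_sup_left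
      obtain ⟨j, -, hj⟩ := (Nat.dvd_prime_pow hp.out).1 h3
      have h4 : (C ⊔ (P : Subgroup G).subgroupOf M).index ∣ ((P.subtype hPM : Sylow p M) : Subgroup M).index :=
        index_dvd_of_le le_sup_right
      rcases Nat.eq_zero_or_pos j with h0 | h0
      · rw [hj, h0, pow_zero]
      · exfalso
        apply (P.subtype hPM : Sylow p M).not_dvd_index
        exact (dvd_pow_self p h0.ne').trans (hj ▸ h4)
    have hxt : (⟨x, hx⟩ : M) ∈ C ⊔ (P : Subgroup G).subgroupOf M := by rw [htop]; trivial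
    rw [mem_sup_of_normal_left] at hxt
    obtain ⟨c, hc, y, hy, hxy⟩ := hxt
    have hxy' : x = (c : G) * (y : G) := (congrArg Subtype.val hxy).symm
    have hcz : ∀ w ∈ (P : Subgroup G), (c : G) * w = w * c := by
      intro w hw
      have := commute_of_normal_of_disjoint C _ hC hPn hdis c ⟨w, hPM hw⟩ hc hw
      exact congrArg Subtype.val this
    have hyP : (y : G) ∈ (P : Subgroup G) := hy
    have h5 : (y : G) * z * (y : G)⁻¹ ∈ (P : Subgroup G) :=
      (P : Subgroup G).mul_mem ((P : Subgroup G).mul_mem hyP hz) ((P : Subgroup G).inv_mem hyP)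
    have h6 : x * z * x⁻¹ * z⁻¹ = (y : G) * z * (y : G)⁻¹ * z⁻¹ := by
      rw [hxy']
      have h7 : (c : G) * y * z * ((c : G) * y)⁻¹ = (c : G) * ((y : G) * z * (y : G)⁻¹) * (c : G)⁻¹ := by group
      rw [h7, hcz _ h5, mul_inv_cancel_right]
    rw [h6]
    exact hcomm y hyP z hz
  set N := normalizer (Q : Set G) with hNdef
  have hQN : Q ≤ N := le_normalizer
  have hQn : (Q.subgroupOf N).Normal := by
    rw [normal_subgroupOf_iff_le_normalizer hQN]
  have h3 : Q.subgroupOf N ≤ (frattini ((P.subtype hPN : Sylow p N) : Subgroup N)).map ((P.subtype hPN : Sylow p N) : Subgroup N).subtype := by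
    rintro ⟨y, hyN⟩ hy
    obtain ⟨a, ha, hay⟩ := h2 hy
    have h4 := frattini_le_comap_frattini_of_surjective
      (φ := (subgroupOfEquivOfLe hPN).symm.toMonoidHom) (subgroupOfEquivOfLe hPN).symm.surjective ha
    refine ⟨_, h4, ?_⟩
    apply Subtype.ext
    exact hay
  apply H67.NilpFrat.hasNPC_of_le_frattini (P.subtype hPN) (Q.subgroupOf N) h3
  apply H72.TpCount.hasNormalPComplement_of_normalizer_le ((P.subtype hPN).mapSurjective (QuotientGroup.mk'_surjective (Q.subgroupOf N)))
  rw [Sylow.coe_mapSurjective, Sylow.coe_subtype]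
  intro x' hx'
  obtain ⟨x, rfl⟩ := QuotientGroup.mk'_surjective _ x'
  -- x normalizes P
  have h5 : ∀ z : N, (z : G) ∈ (P : Subgroup G) ↔ QuotientGroup.mk' (Q.subgroupOf N) z ∈ ((P : Subgroup G).subgroupOf N).map (QuotientGroup.mk' (Q.subgroupOf N)) := by
    intro z
    constructor
    · intro hz
      exact ⟨z, hz, rfl⟩
    · rintro ⟨w, hw, hwz⟩
      rw [QuotientGroup.mk'_eq_mk'] at hwz
      obtain ⟨t, ht, htz⟩ := hwz
      rw [← htz]
      exact (P : Subgroup G).mul_mem hw (hQP ht)
  have h6 : (x : G) ∈ normalizer ((P : Subgroup G) : Set G) := by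
    rw [mem_normalizer_iff]
    intro z
    by_cases hzN : z ∈ N
    · have h7 := (mem_normalizer_iff.1 hx') (QuotientGroup.mk' (Q.subgroupOf N) ⟨z, hzN⟩)
      rw [← map_mul, ← map_inv, ← map_mul, ← h5, ← h5] at h7
      exact h7
    · constructor
      · intro h8
        exact absurd (hPN h8) hzN
      · intro h8
        exfalso
        apply hzN
        have := N.mul_mem (N.mul_mem (N.inv_mem x.2) (hPN h8)) x.2
        simpa [mul_assoc] using this
  rw [mem_centralizer_iff]
  rintro _ ⟨z, hz, rfl⟩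
  have h7 := key x h6 z hz
  rw [← map_mul, ← map_mul, eq_comm, ← mul_inv_eq_one, ← map_inv, ← map_mul]
  rw [QuotientGroup.mk'_apply, QuotientGroup.eq_one_iff]
  change (x : G) * z * ((z : G) * x)⁻¹ ∈ Q
  rw [mul_inv_rev, ← mul_assoc]
  exact h7

end Cfsg.Agent.S3838
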