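import Cfsg.Statements.S3839
import Mathlib
import Cfsg.Agent.Lib.H2.Frobenius
import Cfsg.Agent.Lib.H1.Coprime2

set_option autoImplicit false
open Cfsg

namespace Cfsg.Agent.S3839

open Subgroup
open scoped Pointwise commutatorElement

variable {G : Type*} [Group G] [Finite G] {p : ℕ}

/-- `E` is a `p`-subgroup and a `p'`-element normalizes but does not centralize it. -/
def Bad (p : ℕ) (E : Subgroup G) : Prop :=
  IsPGroup p E ∧ ∃ g ∈ normalizer (E : Set G), Nat.Coprime (orderOf g) p ∧ g ∉ centralizer (E : Set G)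

omit [Finite G] in
theorem bad_conj {E : Subgroup G} (h : Bad p E) (x : G) : Bad p (MulAut.conj x • E) := by
  obtain ⟨h1, g, hg, hgo, hgc⟩ := h
  refine ⟨h1.of_equiv (equivSMul (MulAut.conj x) E), x * g * x⁻¹, ?_, ?_, ?_⟩
  · apply H1.SZ.mem_normalizer_of_conj_smul_eq
    have h2 : x * g * x⁻¹ * x = x * g := by group
    rw [← H1.SZ.conj_mul_smul, h2, H1.SZ.conj_mul_smul, H1.SZ.conj_smul_eq_of_mem_normalizer hg]
  · have h2 : orderOf (x * g * x⁻¹) = orderOf g := by
      have := orderOf_injective (MulAut.conj x).toMonoidHom (MulAut.conj x).injective g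
      simpa using this
    rwa [h2]
  · intro h3
    apply hgc
    rw [mem_centralizer_iff] at h3 ⊢
    intro e he
    have h4 : x * e * x⁻¹ ∈ MulAut.conj x • E := by
      rw [H1.SZ.mem_conj_smul]
      have h5 : x⁻¹ * (x * e * x⁻¹) * x = e := by group
      rw [h5]
      exact he
    have h6 := h3 _ h4
    have h7 : x * e * x⁻¹ * (x * g * x⁻¹) = x * (e * g) * x⁻¹ := by group
    have h8 : x * g * x⁻¹ * (x * e * x⁻¹) = x * (g * e) * x⁻¹ := by group
    rw [h7, h8] at h6
    exact mul_left_cancel (mul_right_cancel h6)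

omit [Finite G] in
theorem exists_normalizer {W E : Subgroup G} [Group.IsNilpotent W] (hEW : E ≤ W) (hne : E ≠ W) :
    ∃ w ∈ W, w ∉ E ∧ w ∈ normalizer (E : Set G) := by
  have h1 : E.subgroupOf W < ⊤ := by
    rw [lt_top_iff_ne_top]
    intro h
    rw [subgroupOf_eq_top] at h
    exact hne (le_antisymm hEW h)
  have h2 := Group.normalizerCondition_of_isNilpotent (G := W) _ h1
  obtain ⟨w, hw, hwE⟩ := SetLike.exists_of_lt h2
  refine ⟨w, w.2, hwE, ?_⟩
  rw [← subgroupOf_normalizer_eq hEW] at hw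
  exact hw

omit [Finite G] in
theorem exists_mul {N H : Subgroup G} (h : H ≤ normalizer (N : Set G)) {x : G} (hx : x ∈ N ⊔ H) :
    ∃ n ∈ N, ∃ y ∈ H, x = n * y := by
  have h1 : x ∈ ((N ⊔ H : Subgroup G) : Set G) := hx
  rw [coe_mul_of_right_le_normalizer_left N H h] at h1
  obtain ⟨n, hn, y, hy, h2⟩ := h1
  exact ⟨n, hn, y, hy, h2.symm⟩

omit [Finite G] in
/-- powers of `b n` modulo a subgroup normalized by `n`. -/
theorem mul_pow_mem {B : Subgroup G} {b n : G} (hb : b ∈ B) (hn : n ∈ normalizer (B : Set G)) (j : ℕ) :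
    (b * n) ^ j * (n ^ j)⁻¹ ∈ B := by
  induction j with
  | zero => simp
  | succ j ih =>
    have h1 : (b * n) ^ (j + 1) * (n ^ (j + 1))⁻¹ = ((b * n) ^ j * (n ^ j)⁻¹) * (n ^ j * b * (n ^ j)⁻¹) := by
      rw [pow_succ, pow_succ]
      group
    rw [h1]
    exact B.mul_mem ih ((mem_normalizer_iff.1 (Subgroup.pow_mem _ hn j) b).1 hb)

omit [Finite G] in
/-- a `p'`-element is in the subgroup generated by its `p ^ k`-th power. -/
theorem mem_of_pow_mem {B : Subgroup G} {g : G} (hgo : Nat.Coprime (orderOf g) p) (k : ℕ) (h : g ^ p ^ k ∈ B) : g ∈ B := by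
  have h1 : Nat.Coprime (orderOf g) (p ^ k) := Nat.Coprime.pow_right k hgo
  obtain ⟨m, hm⟩ := exists_pow_eq_self_of_coprime h1.symm
  rw [← hm]
  exact B.pow_mem h m

/-- A Frobenius normal p-complement criterion relative to a strongly closed subgroup. Let G be a finite group, S a Sylow p-subgroup and D a subgroup of S strongly closed in S with respect to G. Then G has a normal p-complement if and only if N_G(U) has a normal p-complement for every subgroup U of D with C_D(U) ≤ U. -/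
theorem result {G : Type*} [Group G] [Finite G] {p : ℕ} [Fact p.Prime] (S : Sylow p G) (D : Subgroup G) (hD : Cfsg.IsStronglyClosed D (S : Subgroup G)) : Cfsg.HasNormalPComplement p G ↔ ∀ U : Subgroup G, U ≤ D → D ⊓ Subgroup.centralizer (U : Set G) ≤ U → Cfsg.HasNormalPComplement p ↥(Subgroup.normalizer (U : Set G)) := by
  have hp : Fact p.Prime := inferInstance
  constructor
  · intro h U _ _
    exact H2.NPC.subgroup h _
  intro hloc
  by_contra hnpc
  -- a bad subgroup of maximal order inside `S`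
  obtain ⟨E₀, hE₀⟩ : ∃ E : Subgroup G, Bad p E := by
    by_contra hcon
    push Not at hcon
    apply hnpc
    apply H2.Frobenius.hasNPC_of_local
    intro E hE g hg hgo
    by_contra hgc
    exact hcon E ⟨hE, g, hg, hgo, hgc⟩
  obtain ⟨E₁, hE₁, hE₁max⟩ : ∃ E : Subgroup G, Bad p E ∧ ∀ F : Subgroup G, Bad p F → Nat.card F ≤ Nat.card E := by
    obtain ⟨E, hE, hmax⟩ := Set.exists_max_image {E : Subgroup G | Bad p E} (fun E => Nat.card E)
      (Set.toFinite _) ⟨E₀, hE₀⟩
    exact ⟨E, hE, hmax⟩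
  obtain ⟨Q₁, hQ₁⟩ := hE₁.1.exists_le_sylow
  obtain ⟨x, hx⟩ := MulAction.exists_smul_eq G Q₁ S
  obtain ⟨E, hEdef⟩ : ∃ E : Subgroup G, E = MulAut.conj x • E₁ := ⟨_, rfl⟩
  have hE : Bad p E := hEdef ▸ bad_conj hE₁ x
  have hEmax : ∀ F : Subgroup G, Bad p F → Nat.card F ≤ Nat.card E := by
    intro F hF
    rw [hEdef, H1.SZ.card_conj_smul]
    exact hE₁max F hF
  have hES : E ≤ S := by
    rw [hEdef, ← hx, Sylow.coe_subgroup_smul]
    exact pointwise_smul_le_pointwise_smul_iff.mpr hQ₁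
  obtain ⟨hEp, g, hg, hgo, hgc⟩ := hE
  -- S normalizes D
  have hSD : ∀ s ∈ (S : Subgroup G), ∀ d ∈ D, s * d * s⁻¹ ∈ D := by
    intro s hs d hd
    exact hD.2 d hd s ((S : Subgroup G).mul_mem ((S : Subgroup G).mul_mem hs (hD.1 hd)) ((S : Subgroup G).inv_mem hs))
  obtain ⟨U, hU⟩ : ∃ U, U = E ⊓ D := ⟨_, rfl⟩
  have hUE : U ≤ E := hU ▸ inf_le_left
  have hUD : U ≤ D := hU ▸ inf_le_right
  have hnU : ∀ h ∈ normalizer (E : Set G), ∀ u ∈ U, h * u * h⁻¹ ∈ U := by
    intro h hh u hu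
    have h1 : h * u * h⁻¹ ∈ E := (mem_normalizer_iff.1 hh u).1 (hUE hu)
    rw [hU]
    exact ⟨h1, hD.2 u (hUD hu) h (hES h1)⟩
  have hNEU : normalizer (E : Set G) ≤ normalizer (U : Set G) := H1.Coprime.le_normalizer_of_conj_mem hnU
  obtain ⟨H, hH⟩ : ∃ H, H = normalizer (E : Set G) := ⟨_, rfl⟩
  rw [← hH] at hg hNEU hnU
  have hEH : E ≤ H := hH ▸ le_normalizer
  have hHE : ∀ h ∈ H, ∀ e ∈ E, h * e * h⁻¹ ∈ E := by
    intro h hh e he
    rw [hH] at hh
    exact (mem_normalizer_iff.1 hh e).1 he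
  -- the stability group
  let A : Subgroup G :=
    { carrier := {h | h ∈ H ∧ (∀ e ∈ E, h * e * h⁻¹ * e⁻¹ ∈ U) ∧ ∀ u ∈ U, h * u = u * h}
      mul_mem' := by
        rintro a b ⟨ha, ha1, ha2⟩ ⟨hb, hb1, hb2⟩
        refine ⟨H.mul_mem ha hb, ?_, ?_⟩
        · intro e he
          have h1 : a * b * e * (a * b)⁻¹ * e⁻¹ = (a * (b * e * b⁻¹) * a⁻¹ * (b * e * b⁻¹)⁻¹) * (b * e * b⁻¹ * e⁻¹) := by group
          rw [h1]
          exact U.mul_mem (ha1 _ (hHE b hb e he)) (hb1 e he)
        · intro u hu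
          rw [mul_assoc, hb2 u hu, ← mul_assoc, ha2 u hu, mul_assoc]
      one_mem' := ⟨H.one_mem, fun e he => by simp, fun u hu => by simp⟩
      inv_mem' := by
        rintro a ⟨ha, ha1, ha2⟩
        refine ⟨H.inv_mem ha, ?_, ?_⟩
        · intro e he
          have h1 := ha1 _ (hHE a⁻¹ (H.inv_mem ha) e he)
          have h2 : a * (a⁻¹ * e * a⁻¹⁻¹) * a⁻¹ * (a⁻¹ * e * a⁻¹⁻¹)⁻¹ = (a⁻¹ * e * a⁻¹⁻¹ * e⁻¹)⁻¹ := by group
          rw [h2] at h1
          simpa using U.inv_mem h1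
        · intro u hu
          rw [inv_mul_eq_iff_eq_mul, ← mul_assoc, ha2 u hu, mul_assoc, mul_inv_cancel, mul_one] }
  have hAmem : ∀ h : G, h ∈ A ↔ h ∈ H ∧ (∀ e ∈ E, h * e * h⁻¹ * e⁻¹ ∈ U) ∧ ∀ u ∈ U, h * u = u * h := fun h => Iff.rfl
  have hAH : A ≤ H := fun h hh => hh.1
  have hHA : ∀ h ∈ H, ∀ a ∈ A, h * a * h⁻¹ ∈ A := by
    rintro h hh a ⟨ha, ha1, ha2⟩
    refine ⟨H.mul_mem (H.mul_mem hh ha) (H.inv_mem hh), ?_, ?_⟩
    · intro e he
      have h1 := hnU h hh _ (ha1 _ (hHE h⁻¹ (H.inv_mem hh) e he))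
      have h2 : h * (a * (h⁻¹ * e * h⁻¹⁻¹) * a⁻¹ * (h⁻¹ * e * h⁻¹⁻¹)⁻¹) * h⁻¹ = h * a * h⁻¹ * e * (h * a * h⁻¹)⁻¹ * e⁻¹ := by group
      rwa [h2] at h1
    · intro u hu
      have h1 := ha2 _ (hnU h⁻¹ (H.inv_mem hh) u hu)
      have h2 : h * a * h⁻¹ * u = h * (a * (h⁻¹ * u * h⁻¹⁻¹)) * h⁻¹ := by group
      have h3 : u * (h * a * h⁻¹) = h * ((h⁻¹ * u * h⁻¹⁻¹) * a) * h⁻¹ := by group
      rw [h2, h3, h1]
  have hEA : E ≤ normalizer (A : Set G) := H1.Coprime.le_normalizer_of_conj_mem (fun e he a ha => hHA e (hEH he) a ha)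
  have hHnA : H ≤ normalizer (A : Set G) := H1.Coprime.le_normalizer_of_conj_mem hHA
  obtain ⟨B, hB⟩ : ∃ B, B = A ⊔ E := ⟨_, rfl⟩
  have hBH : B ≤ H := hB ▸ sup_le hAH hEH
  have hHnE : H ≤ normalizer (E : Set G) := hH.le
  have hHnB : H ≤ normalizer (B : Set G) := by
    rw [hB]
    exact H1.Coprime2.le_normalizer_sup hHnA hHnE
  obtain ⟨m₀, hm₀⟩ := IsPGroup.iff_card.1 hEp
  have hEpow : ∀ e ∈ E, e ^ p ^ m₀ = 1 := by
    intro e he
    have := pow_card_eq_one' (G := E) (x := ⟨e, he⟩)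
    rw [hm₀] at this
    exact congrArg Subtype.val this
  -- elements of `C_G(E)` lie in `A`
  have hCA : ∀ c ∈ centralizer (E : Set G), c ∈ A := by
    intro c hc
    rw [mem_centralizer_iff] at hc
    refine ⟨?_, ?_, ?_⟩
    · rw [hH]
      exact centralizer_le_normalizer _ (mem_centralizer_iff.2 hc)
    · intro e he
      have h1 : c * e * c⁻¹ * e⁻¹ = 1 := by
        rw [← hc e he]; group
      rw [h1]
      exact U.one_mem
    · intro u hu
      exact (hc u (hUE hu)).symm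
  -- claim 1
  have claim1 : ∀ T : Subgroup G, H1.Coprime2.IsSylIn p B T → E ≤ T → Bad p T := by
    intro T hT hET
    by_contra hbad
    have hTp : IsPGroup p T := hT.isPGroup
    have hgood : ∀ n ∈ normalizer (T : Set G), Nat.Coprime (orderOf n) p → n ∈ centralizer (T : Set G) := by
      intro n hn hno
      by_contra hnc
      exact hbad ⟨hTp, n, hn, hno, hnc⟩
    obtain ⟨b, hb, hbg⟩ := hT.conj (hT.smul (hHnB hg))
    obtain ⟨n, hn⟩ : ∃ n, n = b⁻¹ * g := ⟨_, rfl⟩
    have hgn : g = b * n := by rw [hn]; group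
    have hnT : n ∈ normalizer (T : Set G) := by
      apply H1.SZ.mem_normalizer_of_conj_smul_eq
      rw [hn, H1.SZ.conj_mul_smul, H1.SZ.conj_inv_smul_eq_iff, hbg]
    have hnH : n ∈ H := by rw [hn]; exact H.mul_mem (H.inv_mem (hBH hb)) hg
    -- the p'-part of n
    obtain ⟨k, m, hm, hkm⟩ := Nat.exists_eq_pow_mul_and_not_dvd (orderOf_pos n).ne' p hp.out.ne_one
    have hn1 : n ^ p ^ k ∈ B := by
      have h1 : orderOf (n ^ p ^ k) = m := by
        rw [orderOf_pow, hkm, Nat.gcd_eq_right (dvd_mul_right _ _)]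
        exact Nat.mul_div_cancel_left _ (pow_pos hp.out.pos k)
      have h2 : n ^ p ^ k ∈ centralizer (T : Set G) := by
        apply hgood _ (Subgroup.pow_mem _ hnT _)
        rw [h1]
        exact ((Nat.Prime.coprime_iff_not_dvd hp.out).2 hm).symm
      rw [hB]
      exact mem_sup_left (hCA _ (centralizer_le hET h2))
    have hgB : g ∈ B := by
      apply mem_of_pow_mem hgo k
      have h1 := mul_pow_mem hb (hHnB hnH) (p ^ k)
      rw [← hgn] at h1
      have h2 := B.mul_mem h1 hn1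
      simpa using h2
    have hgA : g ∈ A := by
      apply mem_of_pow_mem hgo m₀
      rw [hB] at hgB
      obtain ⟨a, ha, e, he, hgae⟩ := exists_mul hEA hgB
      have h1 := mul_pow_mem ha (hEA he) (p ^ m₀)
      rw [← hgae, hEpow e he, inv_one, mul_one] at h1
      exact h1
    apply hgc
    rw [mem_centralizer_iff]
    intro e he
    obtain ⟨u, hu⟩ : ∃ u, u = g * e * g⁻¹ * e⁻¹ := ⟨_, rfl⟩
    have huU : u ∈ U := hu ▸ hgA.2.1 e he
    have hgu : Commute g u := hgA.2.2 u huU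
    have h1 : ∀ j : ℕ, g ^ j * e * (g ^ j)⁻¹ = u ^ j * e := by
      intro j
      induction j with
      | zero => simp
      | succ j ih =>
        have h2 : g ^ (j + 1) * e * (g ^ (j + 1))⁻¹ = g * (g ^ j * e * (g ^ j)⁻¹) * g⁻¹ := by
          rw [pow_succ']; group
        rw [h2, ih]
        have h3 : g * (u ^ j * e) * g⁻¹ = (g * u ^ j) * e * g⁻¹ := by group
        have h4 : g * u ^ j = u ^ j * g := (hgu.pow_right j)
        rw [h3, h4]
        have h5 : g * e * g⁻¹ = u * e := by rw [hu]; group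
        have h6 : u ^ j * g * e * g⁻¹ = u ^ j * (g * e * g⁻¹) := by group
        rw [h6, h5, pow_succ, mul_assoc]
    have h2 := h1 (orderOf g)
    rw [pow_orderOf_eq_one, inv_one, mul_one, one_mul] at h2
    have h3 : u ^ orderOf g = 1 := by
      have := mul_right_cancel ((one_mul e).trans h2)
      exact this.symm
    have h4 : u = 1 := by
      have h5 := orderOf_dvd_of_pow_eq_one h3
      have h6 := orderOf_dvd_of_pow_eq_one (hEpow u (hUE huU))
      have h7 : orderOf u ∣ Nat.gcd (orderOf g) (p ^ m₀) := Nat.dvd_gcd h5 h6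
      rw [Nat.Coprime.gcd_eq_one (Nat.Coprime.pow_right m₀ hgo)] at h7
      exact orderOf_eq_one_iff.1 (Nat.dvd_one.1 h7)
    rw [h4] at hu
    rw [eq_comm, mul_inv_eq_one, mul_inv_eq_iff_eq_mul] at hu
    exact hu.symm
  -- claim 2
  have claim2 : ∀ v ∈ D, v ∈ centralizer (U : Set G) → v ∈ H → v ∈ E := by
    intro v hvD hvU hvH
    have hvA : v ∈ A := by
      refine ⟨hvH, ?_, ?_⟩
      · intro e he
        rw [hU]
        refine ⟨E.mul_mem (hHE v hvH e he) (E.inv_mem he), ?_⟩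
        have h1 := hSD e (hES he) v⁻¹ (D.inv_mem hvD)
        have h2 : v * e * v⁻¹ * e⁻¹ = v * (e * v⁻¹ * e⁻¹) := by group
        rw [h2]
        exact D.mul_mem hvD h1
      · intro u hu
        exact (mem_centralizer_iff.1 hvU u hu).symm
    have hXp : IsPGroup p (zpowers v) := S.2.to_le (zpowers_le.2 (hD.1 hvD))
    have hXE : IsPGroup p ((zpowers v) ⊔ E : Subgroup G) :=
      IsPGroup.to_sup_of_normal_right' hXp hEp (zpowers_le.2 (hHnE hvH))
    have hXB : (zpowers v) ⊔ E ≤ B := by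
      rw [hB]
      exact sup_le (zpowers_le.2 (mem_sup_left hvA)) le_sup_right
    obtain ⟨P, hP⟩ := (hXE.comap_subtype (K := B)).exists_le_sylow
    have hT := H1.Coprime2.isSylIn_map P
    have hle : (zpowers v) ⊔ E ≤ (P : Subgroup B).map B.subtype := by
      intro y hy
      exact ⟨⟨y, hXB hy⟩, hP hy, rfl⟩
    have hET : E ≤ (P : Subgroup B).map B.subtype := le_sup_right.trans hle
    have h1 := hEmax _ (claim1 _ hT hET)
    have h2 : E = (P : Subgroup B).map B.subtype := eq_of_le_of_card_ge hET h1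
    rw [h2]
    exact hle (mem_sup_left (mem_zpowers v))
  -- claim 3
  have claim3 : D ⊓ centralizer (U : Set G) ≤ U := by
    obtain ⟨V, hV⟩ : ∃ V, V = D ⊓ centralizer (U : Set G) := ⟨_, rfl⟩
    have hVE : V ≤ E := by
      by_contra hcon
      have hEV : E ≤ normalizer (V : Set G) := by
        apply H1.Coprime.le_normalizer_of_conj_mem
        intro e he v hv
        rw [hV] at hv ⊢
        refine ⟨hSD e (hES he) v hv.1, ?_⟩
        have h1 : v ∈ centralizer (U : Set G) := hv.2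
        change e * v * e⁻¹ ∈ centralizer (U : Set G)
        rw [mem_centralizer_iff] at h1 ⊢
        intro u hu
        have h2 := h1 _ (hnU e⁻¹ (H.inv_mem (hEH he)) u hu)
        have h3 : u * (e * v * e⁻¹) = e * ((e⁻¹ * u * e⁻¹⁻¹) * v) * e⁻¹ := by group
        have h4 : e * v * e⁻¹ * u = e * (v * (e⁻¹ * u * e⁻¹⁻¹)) * e⁻¹ := by group
        rw [h3, h4, h2]
      have hVS : V ≤ S := by rw [hV]; exact inf_le_left.trans hD.1
      have hWp : IsPGroup p ((V ⊔ E : Subgroup G)) := S.2.to_le (sup_le hVS hES)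
      have := hWp.isNilpotent
      obtain ⟨w, hw, hwE, hwn⟩ := exists_normalizer (W := V ⊔ E) (E := E) le_sup_right (by
        intro h
        exact hcon (h ▸ le_sup_left))
      obtain ⟨v, hv, e, he, hve⟩ := exists_mul hEV hw
      have hvH : v ∈ H := by
        have h1 : v = w * e⁻¹ := by rw [hve]; group
        rw [h1, hH]
        exact mul_mem hwn (inv_mem (le_normalizer he))
      have hv' := hv
      rw [hV] at hv'
      apply hwE
      rw [hve]
      exact E.mul_mem (claim2 v hv'.1 hv'.2 hvH) he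
    rw [← hV, hU]
    exact le_inf hVE (hV ▸ inf_le_left)
  -- conclusion
  have hnpcU := hloc U hUD claim3
  have hgU : g ∈ normalizer (U : Set G) := hNEU hg
  apply hgc
  have h1 := H2.Frobenius.local_of_hasNPC hnpcU (E.subgroupOf (normalizer (U : Set G))) (hEp.comap_subtype) ⟨g, hgU⟩ ?_ ?_
  · rw [mem_centralizer_iff] at h1 ⊢
    intro e he
    have h2 := h1 ⟨e, hNEU (hEH he)⟩ he
    exact congrArg Subtype.val h2
  · rw [mem_normalizer_iff]
    intro y
    exact mem_normalizer_iff.1 (hHnE hg) y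
  · have h2 : orderOf (⟨g, hgU⟩ : normalizer (U : Set G)) = orderOf g := orderOf_mk g hgU
    rw [h2]
    exact hgo

end Cfsg.Agent.S3839
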