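import Cfsg.Statements.S3857
import Mathlib
import Cfsg.Agent.Lib.H28.RelHall
import Cfsg.Agent.Lib.H82.Frob
import Cfsg.Agent.Lib.H2.FrobComp
import Cfsg.Agent.Lib.H1.Cyc
import Cfsg.Agent.Lib.H1.Solv
import Cfsg.Agent.Lib.H1.Coprime2
import Cfsg.Agent.Lib.H73.SolvSmall
import Cfsg.Agent.Lib.H2.NPC

set_option autoImplicit false
open Cfsg

namespace Cfsg.Agent.S3857

open Subgroup H28.Cj H28.RelHall

section prelim
variable {G : Type*} [Group G] [Finite G]

/-- an element whose order involves only primes of `A`. -/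
def PiEl (A : Set ℕ) (x : G) : Prop := ∀ p : ℕ, p.Prime → p ∣ orderOf x → p ∈ A

theorem piEl_of_mem {A : Set ℕ} {X : Subgroup G} (hX : PiG A X) {x : G} (hx : x ∈ X) : PiEl A x := by
  intro p hp hd
  apply hX p hp
  have h1 : orderOf (⟨x, hx⟩ : X) ∣ Nat.card X := orderOf_dvd_natCard _
  rw [orderOf_mk] at h1
  exact hd.trans h1

theorem piG_of_forall {A : Set ℕ} {X : Subgroup G} (hX : ∀ x ∈ X, PiEl A x) : PiG A X := by
  intro p hp hd
  have := Fact.mk hp
  obtain ⟨x, hx⟩ := exists_prime_orderOf_dvd_card' (G := X) p hd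
  exact hX x x.2 p hp (by rw [orderOf_coe, hx])

/-- a nonidentity element which is not an `A`-element has a nontrivial power which is an `Aᶜ`-element. -/
theorem exists_pow {A : Set ℕ} {g : G} (hg : ¬ PiEl A g) : ∃ k : ℕ, g ^ k ≠ 1 ∧ PiEl Aᶜ (g ^ k) := by
  unfold PiEl at hg
  push Not at hg
  obtain ⟨r, hr, hrd, hrA⟩ := hg
  obtain ⟨m, hm⟩ := hrd
  have hm0 : m ≠ 0 := by
    rintro rfl
    rw [mul_zero] at hm
    exact (orderOf_pos g).ne' hm
  have ho : orderOf (g ^ m) = r := by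
    rw [orderOf_pow, hm, Nat.gcd_eq_right (dvd_mul_left _ _)]
    exact Nat.mul_div_cancel _ (Nat.pos_of_ne_zero hm0)
  refine ⟨m, ?_, ?_⟩
  · intro h
    rw [h, orderOf_one] at ho
    exact hr.one_lt.ne ho
  · intro p hp hd
    rw [ho] at hd
    rw [(Nat.prime_dvd_prime_iff_eq hp hr).1 hd]
    exact hrA

/-- elements commute only inside the class. -/
def Sep (A : Set ℕ) (G : Type*) [Group G] : Prop :=
  ∀ x y : G, x ≠ 1 → y ≠ 1 → PiEl A x → PiEl Aᶜ y → ¬ Commute x y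

theorem Sep.symm {A : Set ℕ} (h : Sep A G) : Sep Aᶜ G := by
  intro x y hx hy hxA hyA hc
  rw [compl_compl] at hyA
  exact h y x hy hx hyA hxA hc.symm

theorem Sep.left {A : Set ℕ} (h : Sep A G) {x g : G} (hx : x ≠ 1) (hxA : PiEl A x) (hc : Commute x g) : PiEl A g := by
  by_contra hg
  obtain ⟨k, hk1, hk2⟩ := exists_pow hg
  exact h x (g ^ k) hx hk1 hxA hk2 (hc.pow_right k)

theorem Sep.right {A : Set ℕ} (h : Sep A G) {x g : G} (hx : x ≠ 1) (hxA : PiEl Aᶜ x) (hc : Commute x g) : PiEl Aᶜ g :=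
  h.symm.left hx hxA hc

/-- an `A`-element in `M`, with `M/N` an `Aᶜ`-group, lies in `N`. -/
theorem mem_of_piEl {A : Set ℕ} {N M : Subgroup G} (hN : N.Normal) {g : G} (hg : PiEl A g) (hgM : g ∈ M)
    (hNM : ∀ p : ℕ, p.Prime → p ∣ N.relIndex M → p ∉ A) : g ∈ N := by
  have hn : (N.subgroupOf M).Normal := inferInstance
  have h1 := pow_index_mem (N.subgroupOf M) (⟨g, hgM⟩ : M)
  have h2 : g ^ N.relIndex M ∈ N := h1
  have hcop : (orderOf g).Coprime (N.relIndex M) := by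
    apply Nat.coprime_of_dvd
    intro k hk hk1 hk2
    exact hNM k hk hk2 (hg k hk hk1)
  obtain ⟨m, hm⟩ := exists_pow_eq_self_of_coprime hcop.symm
  rw [← hm]
  exact N.pow_mem h2 m

theorem relIndex_sup_dvd {A : Set ℕ} {N M L : Subgroup G} (hN : N.Normal) (hM : M.Normal) (hNM : N ≤ M)
    (h1 : ∀ p : ℕ, p.Prime → p ∣ N.relIndex M → p ∉ A) (h2 : PiG Aᶜ L) :
    ∀ p : ℕ, p.Prime → p ∣ N.relIndex (L ⊔ M) → p ∉ A := by
  intro p hp hd
  rw [← relIndex_mul_relIndex N M (L ⊔ M) hNM le_sup_right] at hd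
  rcases (hp.dvd_mul).1 hd with h | h
  · exact h1 p hp h
  · rw [relIndex_sup_right] at h
    have h3 : M.relIndex L ∣ Nat.card L := by
      have := (M.subgroupOf L).index_dvd_card
      exact this
    exact h2 p hp (h.trans h3)


/-- The conclusion. -/
def Goal (G : Type*) [Group G] : Prop :=
    (∃ C : Subgroup G, Cfsg.IsFrobeniusComplement C) ∨
    (∃ (H K : Subgroup G) (_ : H.Normal), K.Normal ∧ H < K ∧
      (∃ C : Subgroup ↥K, Cfsg.IsFrobeniusComplement C ∧ Cfsg.frobeniusKernel C = (H.subgroupOf K : Set ↥K)) ∧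
      (∃ C : Subgroup (G ⧸ H), Cfsg.IsFrobeniusComplement C ∧ Cfsg.frobeniusKernel C = (K.map (QuotientGroup.mk' H) : Set (G ⧸ H))))

theorem main (hsol : Group.IsSolvable G) (A : Set ℕ) (hC : Sep A G) {b : ℕ} (hb : b.Prime) (hbA : b ∉ A)
    (hbG : b ∣ Nat.card G) (R : Subgroup G) (hR : R.Normal) (hRb : R ≠ ⊥) (hRA : PiG A R) : Goal G := by
  have hsolv : ∀ L : Subgroup G, Group.IsSolvable L := fun L =>
    Group.isSolvable_of_isSolvable_injective (f := L.subtype) L.subtype_injective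
  -- N
  obtain ⟨N, hRN, hNmax⟩ := (Set.toFinite {N : Subgroup G | N.Normal ∧ PiG A N}).exists_le_maximal ⟨hR, hRA⟩
  obtain ⟨hN, hNA⟩ := hNmax.prop
  have hNb : N ≠ ⊥ := fun h => hRb (le_bot_iff.1 (h ▸ hRN))
  have hNt : N ≠ ⊤ := by
    rintro rfl
    exact hbA (hNA b hb (by rwa [card_top]))
  -- a normal subgroup above N
  obtain ⟨R', hR'n, hNR', hR'ne, hR'A⟩ : ∃ R' : Subgroup G, R'.Normal ∧ N ≤ R' ∧ R' ≠ N ∧
      ∀ p : ℕ, p.Prime → p ∣ N.relIndex R' → p ∉ A := by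
    have hsq : Group.IsSolvable (G ⧸ N) := Group.isSolvable_of_surjective (QuotientGroup.mk'_surjective N)
    have htb : (⊤ : Subgroup (G ⧸ N)) ≠ ⊥ := by
      intro h
      apply hNt
      have h1 : Nat.card (⊤ : Subgroup (G ⧸ N)) = 1 := by rw [h, card_bot]
      rw [card_top] at h1
      exact index_eq_one.1 h1
    obtain ⟨R₁, -, hR₁n, hR₁b, hR₁min⟩ := H73.SolvSmall.exists_minimal_normal (inferInstance : (⊤ : Subgroup (G ⧸ N)).Normal) htb
    obtain ⟨-, r, hr, hR₁r⟩ := H1.Solv.minimal_normal_elementary hsq R₁ hR₁b hR₁min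
    have hrF := Fact.mk hr
    have hp : IsPGroup r R₁ := by
      intro x
      refine ⟨1, ?_⟩
      rw [pow_one]
      exact Subtype.ext (hR₁r x x.2)
    obtain ⟨k, hk⟩ := IsPGroup.iff_card.1 hp
    have hk0 : k ≠ 0 := by
      rintro rfl
      rw [pow_zero, card_eq_one] at hk
      exact hR₁b hk
    set R' := R₁.comap (QuotientGroup.mk' N) with hR'
    have hNR' : N ≤ R' := QuotientGroup.le_comap_mk' N R₁
    have hrel : N.relIndex R' = r ^ k := by
      have h1 : Nat.card R' = Nat.card N * Nat.card R₁ := H2.NPC.card_comap_mk N R₁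
      have h2 := H28.RelSyl.relIndex_mul_card hNR'
      rw [h1, mul_comm] at h2
      rw [← hk]
      exact Nat.eq_of_mul_eq_mul_left Nat.card_pos h2
    have hne : R' ≠ N := by
      intro h
      rw [h, relIndex_self] at hrel
      exact (Nat.one_lt_pow hk0 hr.one_lt).ne hrel
    refine ⟨R', inferInstance, hNR', hne, ?_⟩
    have hrA : r ∉ A := by
      intro hrA
      apply hne
      apply le_antisymm _ hNR'
      apply hNmax.2 _ hNR'
      refine ⟨inferInstance, ?_⟩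
      intro p hp hd
      rw [← H28.RelSyl.relIndex_mul_card hNR', hrel] at hd
      rcases (hp.dvd_mul).1 hd with h | h
      · rw [(Nat.prime_dvd_prime_iff_eq hp hr).1 (hp.dvd_of_dvd_pow h)]; exact hrA
      · exact hNA p hp h
    intro p hp hd
    rw [hrel] at hd
    rw [(Nat.prime_dvd_prime_iff_eq hp hr).1 (hp.dvd_of_dvd_pow hd)]
    exact hrA
  -- M
  obtain ⟨M, hR'M, hMmax⟩ := (Set.toFinite {M : Subgroup G | M.Normal ∧ N ≤ M ∧
    ∀ p : ℕ, p.Prime → p ∣ N.relIndex M → p ∉ A}).exists_le_maximal ⟨hR'n, hNR', hR'A⟩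
  obtain ⟨hM, hNM, hMA⟩ := hMmax.prop
  have hNMne : N ≠ M := by
    rintro rfl
    exact hR'ne (le_antisymm hR'M hNR')
  -- H₀
  obtain ⟨H₀, hH₀⟩ := exists_isPiHallOf Aᶜ (H := M) (hsolv M)
  have hH₀M : H₀ ≤ M := hH₀.1
  have hH₀A : PiG Aᶜ H₀ := piG_hall hH₀
  have hinf : N ⊓ H₀ = ⊥ := by
    rw [eq_bot_iff]
    rintro x ⟨hx1, hx2⟩
    rw [mem_bot]
    by_contra hx
    exact hC x x hx hx (piEl_of_mem hNA hx1) (piEl_of_mem hH₀A hx2) (Commute.refl x)
  have hsup : N ⊔ H₀ = M := by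
    apply le_antisymm (sup_le hNM hH₀M)
    rw [← relIndex_eq_one]
    by_contra h
    obtain ⟨r, hr, hrd⟩ := Nat.exists_prime_and_dvd h
    have h1 : r ∣ N.relIndex M := hrd.trans (relIndex_dvd_of_le_left M le_sup_left)
    have h2 : r ∣ H₀.relIndex M := hrd.trans (relIndex_dvd_of_le_left M le_sup_right)
    exact hH₀.2.2 r hr (hMA r hr h1) h2
  have hH₀b : H₀ ≠ ⊥ := by
    rintro rfl
    rw [sup_bot_eq] at hsup
    exact hNMne hsup
  obtain ⟨⟨h₀, hh₀⟩, hh₀1⟩ := ne_bot_iff_exists_ne_one.1 hH₀b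
  have hh₀1' : h₀ ≠ 1 := fun h => hh₀1 (Subtype.ext h)
  -- K
  obtain ⟨K, hK⟩ : ∃ K, K = normalizer (H₀ : Set G) := ⟨_, rfl⟩
  have hH₀K : H₀ ≤ K := hK ▸ le_normalizer
  have htop : N ⊔ K = ⊤ := by
    rw [eq_top_iff]
    intro g _
    have h1 : IsPiHallOf Aᶜ (cj g H₀) M := by
      have := isPiHallOf_cj_iff (g := g).mpr hH₀
      have h2 : cj g M = M := by
        apply mem_normalizer_iff_cj.1
        rw [normalizer_eq_top]; trivial
      rwa [h2] at this
    obtain ⟨m, hm, hmg⟩ := exists_conj_eq (hsolv M) hH₀ h1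
    have h3 : m⁻¹ * g ∈ K := by
      rw [hK, mem_normalizer_iff_cj, ← cj_cj, hmg, cj_cj, inv_mul_cancel, cj_one]
    have h4 : M ≤ N ⊔ K := hsup ▸ sup_le_sup_left hH₀K N
    have h5 : g = m * (m⁻¹ * g) := by group
    rw [h5]
    exact mul_mem (h4 hm) (mem_sup_right h3)
  have hNK : N ⊓ K = ⊥ := by
    rw [eq_bot_iff]
    rintro x ⟨hx1, hx2⟩
    rw [mem_bot]
    by_contra hx
    apply hC x h₀ hx hh₀1' (piEl_of_mem hNA hx1) (piEl_of_mem hH₀A hh₀)
    have h1 : x * h₀ * x⁻¹ * h₀⁻¹ ∈ N ⊓ H₀ := by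
      refine ⟨?_, ?_⟩
      · have h2 : x * h₀ * x⁻¹ * h₀⁻¹ = x * (h₀ * x⁻¹ * h₀⁻¹) := by group
        rw [h2]
        exact N.mul_mem hx1 (hN.conj_mem _ (N.inv_mem hx1) h₀)
      · rw [hK] at hx2
        exact H₀.mul_mem ((mem_normalizer_iff.1 hx2 h₀).1 hh₀) (H₀.inv_mem hh₀)
    rw [hinf, mem_bot, mul_inv_eq_one, mul_inv_eq_iff_eq_mul] at h1
    exact h1
  have hMK : ∀ x ∈ M, x ∈ K → x ∈ H₀ := by
    intro x hx hxK
    rw [← hsup, mem_sup_of_normal_left] at hx
    obtain ⟨n, hn, h, hh, rfl⟩ := hx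
    have h1 : n ∈ N ⊓ K := ⟨hn, by
      have := K.mul_mem hxK (K.inv_mem (hH₀K hh))
      simpa using this⟩
    rw [hNK, mem_bot] at h1
    rw [h1, one_mul]; exact hh
  -- maximality
  have hKH₀ : ∀ B₁ : Subgroup G, B₁ ≤ K → PiG Aᶜ B₁ → K ≤ normalizer (B₁ : Set G) → B₁ ≤ H₀ := by
    intro B₁ hB₁K hB₁A hKB₁
    have h1 : (B₁ ⊔ M).Normal := by
      rw [← normalizer_eq_top_iff, eq_top_iff, ← htop]
      apply sup_le
      · exact (hNM.trans le_sup_right).trans le_normalizer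
      · apply H1.Coprime2.le_normalizer_sup hKB₁
        rw [normalizer_eq_top]; exact le_top
    have h2 := hMmax.2 ⟨h1, hNM.trans le_sup_right, relIndex_sup_dvd hN hM hNM hMA hB₁A⟩ le_sup_right
    intro x hx
    exact hMK x (h2 (mem_sup_left hx)) (hB₁K hx)
  -- F₀ 
  have hfpf : ∀ a ∈ H₀, a ≠ 1 → N ⊓ Subgroup.centralizer {a} = ⊥ := by
    intro a ha ha1
    rw [eq_bot_iff]
    rintro x ⟨hx1, hx2⟩
    rw [mem_bot]
    by_contra hx
    exact hC x a hx ha1 (piEl_of_mem hNA hx1) (piEl_of_mem hH₀A ha) (mem_centralizer_singleton_iff.1 hx2)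
  obtain ⟨F₀, hF₀H₀, hF₀b, hF₀comm, hKF₀⟩ : ∃ F₀ : Subgroup G, F₀ ≤ H₀ ∧ F₀ ≠ ⊥ ∧ IsMulCommutative F₀ ∧
      K ≤ normalizer (F₀ : Set G) := by
    have hn : (H₀.subgroupOf K).Normal := by
      rw [normal_subgroupOf_iff_le_normalizer hH₀K, hK]
    have hne : H₀.subgroupOf K ≠ ⊥ := by
      intro h
      rw [subgroupOf_eq_bot] at h
      apply hH₀b
      rw [disjoint_iff, inf_eq_left.2 hH₀K] at h
      exact h
    obtain ⟨F₁, hF₁, hF₁n, hF₁b, hF₁min⟩ := H73.SolvSmall.exists_minimal_normal hn hne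
    obtain ⟨hF₁c, -⟩ := H1.Solv.minimal_normal_elementary (hsolv K) F₁ hF₁b hF₁min
    refine ⟨F₁.map K.subtype, ?_, ?_, ?_, ?_⟩
    · rintro _ ⟨y, hy, rfl⟩
      exact hF₁ hy
    · rwa [Ne, map_eq_bot_iff_of_injective _ K.subtype_injective]
    · infer_instance
    · apply H1.Coprime.le_normalizer_of_conj_mem
      rintro k hk _ ⟨y, hy, rfl⟩
      exact ⟨⟨k, hk⟩ * y * ⟨k, hk⟩⁻¹, hF₁n.conj_mem y hy ⟨k, hk⟩, rfl⟩
  have hF₀N : F₀ ≤ normalizer (N : Set G) := by rw [normalizer_eq_top]; exact le_top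
  obtain ⟨V, hVN, hVb, hVc, hFV, hVfpf⟩ := H2.FrobComp.exists_abelian_fpf F₀ N hNb hF₀N
    (fun a ha ha1 => hfpf a (hF₀H₀ ha) ha1) (hsolv F₀)
  have hcyc := H1.Cyc.isCyclic_of_fpf_subgroup F₀ V hVb hFV hVfpf (Or.inl hF₀comm)
  obtain ⟨⟨f, hf⟩, hf1⟩ := ne_bot_iff_exists_ne_one.1 hF₀b
  have hf1' : f ≠ 1 := fun h => hf1 (Subtype.ext h)
  have hfA : PiEl Aᶜ f := piEl_of_mem hH₀A (hF₀H₀ hf)
  obtain ⟨C, hCdef⟩ : ∃ C, C = K ⊓ centralizer (F₀ : Set G) := ⟨_, rfl⟩
  have hCA : PiG Aᶜ C := by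
    apply piG_of_forall
    intro x hx
    rw [hCdef] at hx
    have hx2 : x ∈ centralizer (F₀ : Set G) := hx.2
    exact hC.right hf1' hfA (mem_centralizer_iff.1 hx2 f hf)
  have hKC : K ≤ normalizer (C : Set G) := by
    rw [hCdef]
    exact H1.Coprime2.le_normalizer_inf le_normalizer (H1.Coprime2.le_normalizer_centralizer hKF₀)
  have hCH₀ : C ≤ H₀ := hKH₀ C (hCdef ▸ inf_le_left) hCA hKC
  -- commutators of K centralize F₀
  have hcommC : ∀ k ∈ K, ∀ l ∈ K, k * l * k⁻¹ * l⁻¹ ∈ C := by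
    intro k hk l hl
    rw [hCdef]
    refine ⟨K.mul_mem (K.mul_mem (K.mul_mem hk hl) (K.inv_mem hk)) (K.inv_mem hl), ?_⟩
    obtain ⟨⟨c, hc⟩, hgen⟩ := hcyc.exists_generator
    have hact : ∀ k ∈ K, ∃ i : ℤ, ∀ x ∈ F₀, k * x * k⁻¹ = x ^ i := by
      intro k hk
      have h1 : k * c * k⁻¹ ∈ F₀ := (mem_normalizer_iff.1 (hKF₀ hk) c).1 hc
      obtain ⟨i, hi⟩ := hgen ⟨_, h1⟩
      have hi' : c ^ i = k * c * k⁻¹ := congrArg Subtype.val hi
      refine ⟨i, ?_⟩
      intro x hx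
      obtain ⟨j, hj⟩ := hgen ⟨x, hx⟩
      have hj' : c ^ j = x := congrArg Subtype.val hj
      rw [← hj', ← conj_zpow, ← hi', ← zpow_mul, ← zpow_mul, mul_comm]
    obtain ⟨i, hi⟩ := hact k hk
    obtain ⟨j, hj⟩ := hact l hl
    change k * l * k⁻¹ * l⁻¹ ∈ centralizer (F₀ : Set G)
    rw [mem_centralizer_iff]
    have e : ∀ x ∈ F₀, (k * l) * x * (k * l)⁻¹ = (l * k) * x * (l * k)⁻¹ := by
      intro x hx
      have e1 : (k * l) * x * (k * l)⁻¹ = x ^ (i * j) := by
        have : (k * l) * x * (k * l)⁻¹ = k * (l * x * l⁻¹) * k⁻¹ := by group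
        rw [this, hj x hx, hi _ (F₀.zpow_mem hx j), ← zpow_mul, mul_comm]
      have e2 : (l * k) * x * (l * k)⁻¹ = x ^ (i * j) := by
        have : (l * k) * x * (l * k)⁻¹ = l * (k * x * k⁻¹) * l⁻¹ := by group
        rw [this, hi x hx, hj _ (F₀.zpow_mem hx i), ← zpow_mul]
      rw [e1, e2]
    intro x hx
    have hlk : l * k ∈ K := K.mul_mem hl hk
    have hy : (l * k)⁻¹ * x * ((l * k)⁻¹)⁻¹ ∈ F₀ := (mem_normalizer_iff.1 (hKF₀ (K.inv_mem hlk)) x).1 hx
    have h1 := e _ hy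
    have h2 : (l * k) * ((l * k)⁻¹ * x * ((l * k)⁻¹)⁻¹) * (l * k)⁻¹ = x := by group
    have h3 : (k * l) * ((l * k)⁻¹ * x * ((l * k)⁻¹)⁻¹) * (k * l)⁻¹ = (k * l * k⁻¹ * l⁻¹) * x * (k * l * k⁻¹ * l⁻¹)⁻¹ := by group
    rw [h2, h3, mul_inv_eq_iff_eq_mul] at h1
    exact h1.symm
  obtain ⟨B₁, hB₁, hH₀B₁⟩ := exists_isPiHallOf_ge (hsolv K) hH₀A hH₀K
  have hB₁H₀ : B₁ ≤ H₀ := by
    apply hKH₀ B₁ hB₁.1 (piG_hall hB₁)
    apply H1.Coprime.le_normalizer_of_conj_mem
    intro k hk x hx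
    have h1 := B₁.mul_mem (hH₀B₁ (hCH₀ (hcommC k hk x (hB₁.1 hx)))) hx
    simpa using h1
  have hB₁eq : B₁ = H₀ := le_antisymm hB₁H₀ hH₀B₁
  rw [hB₁eq] at hB₁
  by_cases hKH : K = H₀
  · left
    refine ⟨K, (H82.Frob.isFrobenius N K hNK htop hNb hNt ?_).1⟩
    intro x hx hx1 g hgx
    have hMtop : M = ⊤ := by rw [← hsup, ← hKH, htop]
    exact mem_of_piEl hN (hC.left hx1 (piEl_of_mem hNA hx) hgx.symm) (by rw [hMtop]; trivial) hMA
  · right
    refine ⟨N, M, hN, hM, lt_of_le_of_ne hNM hNMne, ⟨H₀.subgroupOf M, ?_⟩, ?_⟩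
    · have hn : (N.subgroupOf M).Normal := inferInstance
      apply H82.Frob.isFrobenius (N.subgroupOf M) (H₀.subgroupOf M)
      · change (N ⊓ H₀).subgroupOf M = ⊥
        rw [hinf, bot_subgroupOf]
      · rw [← subgroupOf_sup hNM hH₀M, hsup, subgroupOf_self]
      · intro h
        rw [subgroupOf_eq_bot, disjoint_iff, inf_eq_left.2 hNM] at h
        exact hNb h
      · intro h
        rw [subgroupOf_eq_top] at h
        exact hNMne (le_antisymm hNM h)
      · intro x hx hx1 g hgx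
        have h1 : (x : G) ∈ N := hx
        have h2 : (x : G) ≠ 1 := fun h => hx1 (Subtype.ext h)
        have h3 : (g : G) * x = x * g := congrArg Subtype.val hgx
        exact mem_of_piEl hN (hC.left h2 (piEl_of_mem hNA h1) h3.symm) g.2 hMA
    · obtain ⟨A₁, hA₁⟩ := exists_isPiHallOf A (H := K) (hsolv K)
      refine ⟨A₁.map (QuotientGroup.mk' N), ?_⟩
      have hMn : (M.map (QuotientGroup.mk' N)).Normal := hM.map _ (QuotientGroup.mk'_surjective N)
      have hA₁A : PiG A A₁ := piG_hall hA₁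
      have hmk : ∀ x y : G, QuotientGroup.mk' N x = QuotientGroup.mk' N y → x ∈ M → y ∈ M := by
        intro x y hxy hx
        rw [QuotientGroup.mk'_eq_mk'] at hxy
        obtain ⟨n, hn, hnn⟩ := hxy
        rw [← hnn]
        exact M.mul_mem hx (hNM hn)
      have hMAtop : M ⊔ A₁ = ⊤ := by
        rw [eq_top_iff, ← htop]
        refine sup_le (hNM.trans le_sup_left) ?_
        have h1 : K ≤ H₀ ⊔ A₁ := by
          rw [← relIndex_eq_one]
          by_contra h
          obtain ⟨r, hr, hrd⟩ := Nat.exists_prime_and_dvd h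
          have h1 : r ∣ H₀.relIndex K := hrd.trans (relIndex_dvd_of_le_left K le_sup_left)
          have h2 : r ∣ A₁.relIndex K := hrd.trans (relIndex_dvd_of_le_left K le_sup_right)
          by_cases hrA : r ∈ A
          · exact hA₁.2.2 r hr hrA h2
          · exact hB₁.2.2 r hr hrA h1
        exact h1.trans (sup_le_sup_right hH₀M A₁)
      apply H82.Frob.isFrobenius (M.map (QuotientGroup.mk' N)) (A₁.map (QuotientGroup.mk' N))
      · rw [eq_bot_iff]
        rintro _ ⟨⟨m, hm, rfl⟩, ⟨a, ha, hma⟩⟩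
        have haM : a ∈ M := hmk m a hma.symm hm
        have haK : a ∈ K := hA₁.1 ha
        have haH := hMK a haM haK
        have ha1 : a = 1 := by
          by_contra ha1
          exact hC a a ha1 ha1 (piEl_of_mem hA₁A ha) (piEl_of_mem hH₀A haH) (Commute.refl a)
        rw [mem_bot, ← hma, ha1, map_one]
      · rw [← Subgroup.map_sup, hMAtop, ← MonoidHom.range_eq_map, MonoidHom.range_eq_top]
        exact QuotientGroup.mk'_surjective N
      · intro h
        apply hNMne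
        apply le_antisymm hNM
        intro x hx
        have h1 : QuotientGroup.mk' N x ∈ M.map (QuotientGroup.mk' N) := ⟨x, hx, rfl⟩
        rw [h, mem_bot, QuotientGroup.mk'_apply, QuotientGroup.eq_one_iff] at h1
        exact h1
      · intro h
        apply hKH
        apply le_antisymm _ hH₀K
        intro x hx
        have h1 : QuotientGroup.mk' N x ∈ M.map (QuotientGroup.mk' N) := by rw [h]; trivial
        obtain ⟨m, hm, hmx⟩ := h1
        exact hMK x (hmk m x hmx hm) hx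
      · rintro _ ⟨m, hm, rfl⟩ hx1' g' hgx'
        obtain ⟨g, rfl⟩ := QuotientGroup.mk'_surjective N g'
        -- replace m by an element of H₀ and g by an element of K
        have hm' := hm
        rw [SetLike.mem_coe, ← hsup, mem_sup_of_normal_left] at hm'
        obtain ⟨n, hn, h, hh, rfl⟩ := hm'
        have hgt : g ∈ N ⊔ K := by rw [htop]; trivial
        rw [mem_sup_of_normal_left] at hgt
        obtain ⟨n', hn', k, hk, rfl⟩ := hgt
        have hn1 : QuotientGroup.mk' N n = 1 := (QuotientGroup.eq_one_iff n).2 hn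
        have hn1' : QuotientGroup.mk' N n' = 1 := (QuotientGroup.eq_one_iff n').2 hn'
        rw [map_mul, map_mul, hn1, hn1', one_mul, one_mul] at hgx'
        rw [map_mul, hn1, one_mul] at hx1'
        rw [map_mul, hn1', one_mul]
        have hh1 : h ≠ 1 := by
          rintro rfl
          exact hx1' (map_one _)
        have h1 : k * h * k⁻¹ * h⁻¹ ∈ N ⊓ K := by
          refine ⟨?_, K.mul_mem (K.mul_mem (K.mul_mem hk (hH₀K hh)) (K.inv_mem hk)) (K.inv_mem (hH₀K hh))⟩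
          have h2 : QuotientGroup.mk' N (k * h * k⁻¹ * h⁻¹) = 1 := by
            rw [map_mul, map_mul, map_mul, hgx', map_inv, map_inv, mul_inv_cancel_right, mul_inv_cancel]
          exact (QuotientGroup.eq_one_iff _).1 h2
        rw [hNK, mem_bot, mul_inv_eq_one, mul_inv_eq_iff_eq_mul] at h1
        have hkA : PiEl Aᶜ k := hC.right hh1 (piEl_of_mem hH₀A hh) h1.symm
        -- K/H₀ is an A-group
        have hkH₀ : k ∈ H₀ := by
          have hH₀n : (H₀.subgroupOf K).Normal := by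
            rw [normal_subgroupOf_iff_le_normalizer hH₀K, hK]
          have h3 := pow_index_mem (H₀.subgroupOf K) (⟨k, hk⟩ : K)
          have h4 : k ^ H₀.relIndex K ∈ H₀ := h3
          have hcop : (orderOf k).Coprime (H₀.relIndex K) := by
            apply Nat.coprime_of_dvd
            intro r hr hr1 hr2
            exact hB₁.2.2 r hr (hkA r hr hr1) hr2
          obtain ⟨m, hm⟩ := exists_pow_eq_self_of_coprime hcop.symm
          rw [← hm]
          exact H₀.pow_mem h4 m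
        exact ⟨k, hH₀M hkH₀, rfl⟩

end prelim

/-- A finite solvable group whose prime graph (prime divisors of the order, two distinct primes joined when there is an element of order their product) is disconnected is a Frobenius group or a 2-Frobenius group (it has normal subgroups H < K with K a Frobenius group with kernel H and G/H a Frobenius group with kernel K/H). -/
theorem result {G : Type*} [Group G] [Finite G] (hsol : Group.IsSolvable G)
    (hdisc : (∃ A : Set ℕ, (∃ a ∈ A, a.Prime ∧ a ∣ Nat.card G) ∧ (∃ b ∉ A, b.Prime ∧ b ∣ Nat.card G) ∧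
      ∀ a ∈ A, ∀ b ∉ A, a.Prime → b.Prime → a ∣ Nat.card G → b ∣ Nat.card G → ¬ ∃ g : G, orderOf g = a * b)) :
    (∃ C : Subgroup G, Cfsg.IsFrobeniusComplement C) ∨
    (∃ (H K : Subgroup G) (_ : H.Normal), K.Normal ∧ H < K ∧
      (∃ C : Subgroup ↥K, Cfsg.IsFrobeniusComplement C ∧ Cfsg.frobeniusKernel C = (H.subgroupOf K : Set ↥K)) ∧
      (∃ C : Subgroup (G ⧸ H), Cfsg.IsFrobeniusComplement C ∧ Cfsg.frobeniusKernel C = (K.map (QuotientGroup.mk' H) : Set (G ⧸ H)))) := by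
  obtain ⟨A, ⟨a, haA, ha, haG⟩, ⟨b, hbA, hb, hbG⟩, hdis⟩ := hdisc
  have hsep : Sep A G := by
    intro x y hx hy hxA hyA hc
    obtain ⟨r, hr, hrx⟩ := Nat.exists_prime_and_dvd (mt orderOf_eq_one_iff.1 hx)
    obtain ⟨s, hs, hsy⟩ := Nat.exists_prime_and_dvd (mt orderOf_eq_one_iff.1 hy)
    have hrA := hxA r hr hrx
    have hsA := hyA s hs hsy
    apply hdis r hrA s hsA hr hs (hrx.trans (orderOf_dvd_natCard x)) (hsy.trans (orderOf_dvd_natCard y))
    have hrs : r ≠ s := by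
      rintro rfl
      exact hsA hrA
    refine ⟨x ^ (orderOf x / r) * y ^ (orderOf y / s), ?_⟩
    have h1 : orderOf (x ^ (orderOf x / r)) = r := orderOf_pow_orderOf_div (orderOf_pos x).ne' hrx
    have h2 : orderOf (y ^ (orderOf y / s)) = s := orderOf_pow_orderOf_div (orderOf_pos y).ne' hsy
    rw [(hc.pow_pow _ _).orderOf_mul_eq_mul_orderOf_of_coprime, h1, h2]
    rw [h1, h2]
    exact (Nat.coprime_primes hr hs).2 hrs
  have hGb : (⊤ : Subgroup G) ≠ ⊥ := by
    intro h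
    have h1 : Nat.card (⊤ : Subgroup G) = 1 := by rw [h, card_bot]
    rw [card_top] at h1
    rw [h1] at haG
    exact ha.one_lt.ne' (Nat.dvd_one.1 haG)
  obtain ⟨R, -, hR, hRb, hRmin⟩ := H73.SolvSmall.exists_minimal_normal (inferInstance : (⊤ : Subgroup G).Normal) hGb
  obtain ⟨-, r, hr, hRr⟩ := H1.Solv.minimal_normal_elementary hsol R hRb hRmin
  have hRp : ∀ x ∈ R, ∀ q : ℕ, q.Prime → q ∣ orderOf x → q = r := by
    intro x hx q hq hqd
    have h1 := orderOf_dvd_of_pow_eq_one (hRr x hx)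
    exact (Nat.prime_dvd_prime_iff_eq hq hr).1 (hqd.trans h1)
  by_cases hrA : r ∈ A
  · apply main hsol A hsep hb hbA hbG R hR hRb
    apply piG_of_forall
    intro x hx q hq hqd
    rw [hRp x hx q hq hqd]; exact hrA
  · apply main hsol Aᶜ hsep.symm ha (fun h => h haA) haG R hR hRb
    apply piG_of_forall
    intro x hx q hq hqd
    rw [hRp x hx q hq hqd]; exact hrA

end Cfsg.Agent.S3857
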