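import Cfsg.Statements.S3858
import Mathlib

set_option autoImplicit false
open Cfsg

namespace Cfsg.Agent.S3858

/-- Let G be a finite group with a normal non-abelian simple subgroup T whose centralizer is trivial (G almost simple with socle T), r a prime and R a Sylow r-subgroup of G meeting T nontrivially. Then R lies in exactly one maximal subgroup of G if and only if G has exactly one conjugacy class of maximal subgroups whose index is prime to r. -/
theorem result {G : Type*} [Group G] [Finite G] (T : Subgroup G) [T.Normal] (hT : IsSimpleGroup T) (hna : ¬ IsMulCommutative T)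
    (hC : Subgroup.centralizer (T : Set G) = ⊥) {r : ℕ} [Fact r.Prime] (R : Sylow r G) (hR0 : (R : Subgroup G) ⊓ T ≠ ⊥) :
    (∃! M : Subgroup G, IsCoatom M ∧ (R : Subgroup G) ≤ M) ↔
      ((∃ M : Subgroup G, IsCoatom M ∧ ¬ r ∣ M.index) ∧
        ∀ M₁ M₂ : Subgroup G, IsCoatom M₁ → ¬ r ∣ M₁.index → IsCoatom M₂ → ¬ r ∣ M₂.index → ∃ g : G, M₂ = M₁.map (MulAut.conj g).toMonoidHom) := by
  classical
  have hr := (Fact.out : r.Prime)
  -- R is not normal
  have hRn : ¬ (R : Subgroup G).Normal := by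
    intro hn
    -- R ⊓ T is normal in T, hence T ≤ R
    have h1 : ((R : Subgroup G) ⊓ T).subgroupOf T = ⊤ := by
      have hn1 : (((R : Subgroup G) ⊓ T).subgroupOf T).Normal := by
        have : ((R : Subgroup G) ⊓ T).Normal := by infer_instance
        infer_instance
      rcases hn1.eq_bot_or_eq_top with h | h
      · exfalso
        rw [Subgroup.subgroupOf_eq_bot, disjoint_iff] at h
        apply hR0
        rw [inf_assoc, inf_idem] at h
        exact h
      · exact h
    rw [Subgroup.subgroupOf_eq_top] at h1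
    have hTR : T ≤ (R : Subgroup G) := h1.trans inf_le_left
    have hTp : IsPGroup r T := R.isPGroup'.to_le hTR
    have hTn : Group.IsNilpotent T := hTp.isNilpotent
    have hTs : Group.IsSolvable T := inferInstance
    exact hna ⟨⟨IsSimpleGroup.comm_iff_isSolvable.2 hTs⟩⟩
  have hN : Subgroup.normalizer ((R : Subgroup G) : Set G) ≠ ⊤ := fun h =>
    hRn (Subgroup.normalizer_eq_top_iff.1 h)
  -- maximal subgroups have index prime to r iff they contain a conjugate of R
  have hidx : ∀ M : Subgroup G, (R : Subgroup G) ≤ M → ¬ r ∣ M.index := by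
    intro M hM hdvd
    exact R.not_dvd_index (hdvd.trans (Subgroup.index_dvd_of_le hM))
  have hcont : ∀ M : Subgroup G, ¬ r ∣ M.index → ∃ g : G, (R : Subgroup G) ≤ M.map (MulAut.conj g).toMonoidHom := by
    intro M hM
    obtain ⟨S⟩ := (Sylow.nonempty : Nonempty (Sylow r M))
    have hSp : IsPGroup r ((S : Subgroup M).map M.subtype) := S.isPGroup'.map _
    have hSi : ¬ r ∣ ((S : Subgroup M).map M.subtype).index := by
      rw [Subgroup.index_map_subtype]
      intro h
      rcases hr.dvd_mul.1 h with h | h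
      · exact S.not_dvd_index h
      · exact hM h
    let S' : Sylow r G := hSp.toSylow hSi
    obtain ⟨g, hg⟩ := MulAction.exists_smul_eq G S' R
    refine ⟨g, ?_⟩
    rw [← hg, Sylow.coe_subgroup_smul]
    have : (S' : Subgroup G) ≤ M := Subgroup.map_subtype_le _
    exact Subgroup.map_mono this
  have hconjcoatom : ∀ (M : Subgroup G) (g : G), IsCoatom M → IsCoatom (M.map (MulAut.conj g).toMonoidHom) := by
    intro M g hM
    have := (OrderIso.isCoatom_iff ((MulAut.conj g).mapSubgroup) M).2 hM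
    simpa using this
  have hcc : ∀ (M : Subgroup G) (g h : G), (M.map (MulAut.conj g).toMonoidHom).map (MulAut.conj h).toMonoidHom
      = M.map (MulAut.conj (h * g)).toMonoidHom := by
    intro M g h
    rw [Subgroup.map_map]; congr 1; ext x; simp [mul_assoc]
  have hc1 : ∀ (M : Subgroup G), M.map (MulAut.conj 1).toMonoidHom = M := by
    intro M; ext x; simp
  constructor
  · rintro ⟨M, ⟨hM, hRM⟩, huniq⟩
    refine ⟨⟨M, hM, hidx M hRM⟩, ?_⟩
    intro M₁ M₂ hM₁ hi₁ hM₂ hi₂
    obtain ⟨g₁, hg₁⟩ := hcont M₁ hi₁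
    obtain ⟨g₂, hg₂⟩ := hcont M₂ hi₂
    have e1 := huniq _ ⟨hconjcoatom M₁ g₁ hM₁, hg₁⟩
    have e2 := huniq _ ⟨hconjcoatom M₂ g₂ hM₂, hg₂⟩
    refine ⟨g₂⁻¹ * g₁, ?_⟩
    rw [← hcc, e1, ← e2, hcc, inv_mul_cancel, hc1]
  · rintro ⟨⟨M₀, hM₀, hi₀⟩, hconj⟩
    -- a maximal subgroup over the normalizer
    obtain ⟨M, hM, hNM⟩ := (eq_top_or_exists_le_coatom (Subgroup.normalizer ((R : Subgroup G) : Set G))).resolve_left hN
    have hRM : (R : Subgroup G) ≤ M := Subgroup.le_normalizer.trans hNM
    refine ⟨M, ⟨hM, hRM⟩, ?_⟩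
    rintro M' ⟨hM', hRM'⟩
    obtain ⟨g, hg⟩ := hconj M M' hM (hidx M hRM) hM' (hidx M' hRM')
    -- R and gRg⁻¹ are Sylow in M'
    have hgR : ((g • R : Sylow r G) : Subgroup G) ≤ M' := by
      rw [hg, Sylow.coe_subgroup_smul]
      exact Subgroup.map_mono hRM
    obtain ⟨m, hm⟩ := MulAction.exists_smul_eq M' (R.subtype hRM') ((g • R).subtype hgR)
    rw [Sylow.smul_subtype] at hm
    have h3 : (m : M') • R = g • R := Sylow.subtype_injective hm
    have h4 : ((m : G)⁻¹ * g) • R = R := by
      rw [mul_smul, ← h3]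
      exact inv_smul_smul (m : G) R
    rw [Sylow.smul_eq_iff_mem_normalizer] at h4
    have h5 : (m : G)⁻¹ * g ∈ M := hNM h4
    have h6 : M.map (MulAut.conj ((m : G)⁻¹ * g)).toMonoidHom = M := by
      ext x
      rw [Subgroup.mem_map]
      constructor
      · rintro ⟨y, hy, rfl⟩
        simpa [mul_assoc] using mul_mem (mul_mem h5 hy) (inv_mem h5)
      · intro hx
        refine ⟨((m : G)⁻¹ * g)⁻¹ * x * ((m : G)⁻¹ * g), mul_mem (mul_mem (inv_mem h5) hx) h5, ?_⟩
        simp [mul_assoc]
    have h7 : M'.map (MulAut.conj (m : G)⁻¹).toMonoidHom = M' := by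
      have hm' : (m : G)⁻¹ ∈ M' := inv_mem m.2
      ext x
      rw [Subgroup.mem_map]
      constructor
      · rintro ⟨y, hy, rfl⟩
        simpa using mul_mem (mul_mem hm' hy) (inv_mem hm')
      · intro hx
        refine ⟨((m : G)⁻¹)⁻¹ * x * ((m : G)⁻¹), mul_mem (mul_mem (inv_mem hm') hx) hm', ?_⟩
        simp [mul_assoc]
    rw [← hcc, ← hg, h7] at h6
    exact h6

end Cfsg.Agent.S3858
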