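import Cfsg.Statements.S3859
import Mathlib

set_option autoImplicit false
open Cfsg

namespace Cfsg.Agent.S3859

/-- Let G be a finite group with a normal non-abelian simple subgroup T whose centralizer is trivial (G almost simple with socle T), r a prime and R a Sylow r-subgroup of G meeting T nontrivially. If R lies in exactly one maximal subgroup of G, then G/T is an r-group. -/
theorem result {G : Type*} [Group G] [Finite G] (T : Subgroup G) [T.Normal] (hT : IsSimpleGroup T) (hna : ¬ IsMulCommutative T)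
    (hC : Subgroup.centralizer (T : Set G) = ⊥) {r : ℕ} [Fact r.Prime] (R : Sylow r G) (hR0 : (R : Subgroup G) ⊓ T ≠ ⊥)
    (huniq : ∃! M : Subgroup G, IsCoatom M ∧ (R : Subgroup G) ≤ M) : IsPGroup r (G ⧸ T) := by
  classical
  obtain ⟨M, ⟨hM, hRM⟩, huniq⟩ := huniq
  -- Sylow subgroup of T
  have hPT : IsPGroup r ((R : Subgroup G).subgroupOf T) := R.isPGroup'.comap_of_injective T.subtype T.subtype_injective
  have hdvd : ¬ r ∣ ((R : Subgroup G).subgroupOf T).index := by
    intro h
    apply R.not_dvd_index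
    have h1 : ((R : Subgroup G).subgroupOf T).index = (R : Subgroup G).relIndex T := rfl
    rw [h1] at h
    exact h.trans (by
      have h2 : (R : Subgroup G).relIndex T = (R : Subgroup G).relIndex ((R : Subgroup G) ⊔ T) := by
        have e0 : ∀ {H K : Subgroup G}, H ≤ K → Nat.card H * H.relIndex K = Nat.card K := by
          intro H K h
          rw [← Subgroup.relIndex_bot_left, ← Subgroup.relIndex_bot_left]
          exact Subgroup.relIndex_mul_relIndex _ _ _ bot_le h
        have e1 := e0 (le_sup_left : (R : Subgroup G) ≤ (R : Subgroup G) ⊔ T)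
        have e2 := e0 (le_sup_right : T ≤ (R : Subgroup G) ⊔ T)
        have e3 : T.relIndex ((R : Subgroup G) ⊔ T) = T.relIndex R := Subgroup.relIndex_sup_right _ _
        have e4 := e0 (inf_le_right : T ⊓ (R : Subgroup G) ≤ R)
        rw [Subgroup.inf_relIndex_right] at e4
        have e5 := e0 (inf_le_right : (R : Subgroup G) ⊓ T ≤ T)
        rw [Subgroup.inf_relIndex_right, inf_comm] at e5
        have hpos : 0 < T.relIndex (R : Subgroup G) := Nat.pos_of_ne_zero (by
          intro h; rw [h, mul_zero] at e4; exact Nat.card_pos.ne e4)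
        have hpos2 : 0 < Nat.card (T ⊓ (R : Subgroup G) : Subgroup G) := Nat.card_pos
        rw [e3, ← e5, ← e1, ← e4] at e2
        have : (Nat.card (T ⊓ (R : Subgroup G) : Subgroup G) * T.relIndex (R : Subgroup G)) * (R : Subgroup G).relIndex T =
            (Nat.card (T ⊓ (R : Subgroup G) : Subgroup G) * T.relIndex (R : Subgroup G)) * (R : Subgroup G).relIndex ((R : Subgroup G) ⊔ T) := by
          linarith
        exact Nat.eq_of_mul_eq_mul_left (Nat.mul_pos hpos2 hpos) this
      rw [h2]
      exact Subgroup.relIndex_dvd_index_of_le le_sup_left)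
  let P : Sylow r T := hPT.toSylow hdvd
  have hPcoe : (P : Subgroup T).map T.subtype = (R : Subgroup G) ⊓ T := by
    change ((R : Subgroup G).subgroupOf T).map T.subtype = _
    rw [Subgroup.subgroupOf_map_subtype]
  have hfrat := Sylow.normalizer_sup_eq_top P
  rw [hPcoe] at hfrat
  -- normalizer of R ⊓ T is proper and contains R
  have hRN : (R : Subgroup G) ≤ Subgroup.normalizer (((R : Subgroup G) ⊓ T : Subgroup G) : Set G) := by
    have key : ∀ g ∈ (R : Subgroup G), ∀ x ∈ ((R : Subgroup G) ⊓ T), g * x * g⁻¹ ∈ ((R : Subgroup G) ⊓ T) := by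
      intro g hg x hx
      rw [Subgroup.mem_inf] at hx ⊢
      exact ⟨mul_mem (mul_mem hg hx.1) (inv_mem hg), Subgroup.Normal.conj_mem ‹_› x hx.2 g⟩
    intro g hg
    rw [Subgroup.mem_normalizer_iff]
    intro x
    refine ⟨key g hg x, fun h => ?_⟩
    have := key g⁻¹ (Subgroup.inv_mem _ hg) _ h
    simpa [mul_assoc] using this
  have hNtop : Subgroup.normalizer (((R : Subgroup G) ⊓ T : Subgroup G) : Set G) ≠ ⊤ := by
    intro h
    have hn : ((R : Subgroup G) ⊓ T).Normal := Subgroup.normalizer_eq_top_iff.1 h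
    have hn1 : (((R : Subgroup G) ⊓ T).subgroupOf T).Normal := inferInstance
    rcases hn1.eq_bot_or_eq_top with h | h
    · rw [Subgroup.subgroupOf_eq_bot, disjoint_iff] at h
      apply hR0
      rw [inf_assoc, inf_idem] at h
      exact h
    · rw [Subgroup.subgroupOf_eq_top] at h
      have hTR : T ≤ (R : Subgroup G) := h.trans inf_le_left
      have hTp : IsPGroup r T := R.isPGroup'.to_le hTR
      have hTn : Group.IsNilpotent T := hTp.isNilpotent
      have hTs : Group.IsSolvable T := inferInstance
      exact hna ⟨⟨IsSimpleGroup.comm_iff_isSolvable.2 hTs⟩⟩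
  have hNM : Subgroup.normalizer (((R : Subgroup G) ⊓ T : Subgroup G) : Set G) ≤ M := by
    obtain ⟨M', hM', hle⟩ := (eq_top_or_exists_le_coatom _).resolve_left hNtop
    rw [← huniq M' ⟨hM', hRN.trans hle⟩]
    exact hle
  -- R ⊔ T = ⊤
  have hRT : (R : Subgroup G) ⊔ T = ⊤ := by
    by_contra hne
    obtain ⟨M', hM', hle⟩ := (eq_top_or_exists_le_coatom _).resolve_left hne
    have hMM := huniq M' ⟨hM', le_sup_left.trans hle⟩
    have hTM : T ≤ M := by rw [← hMM]; exact le_sup_right.trans hle
    apply hM.1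
    rw [eq_top_iff, ← hfrat]
    exact sup_le hNM hTM
  -- conclude
  have hmap : (R : Subgroup G).map (QuotientGroup.mk' T) = ⊤ := by
    have h1 : ((R : Subgroup G) ⊔ T).map (QuotientGroup.mk' T) = ⊤ := by
      rw [hRT]; exact Subgroup.map_top_of_surjective _ (QuotientGroup.mk'_surjective T)
    rw [Subgroup.map_sup, QuotientGroup.map_mk'_self, sup_bot_eq] at h1
    exact h1
  intro g
  have hg : g ∈ (R : Subgroup G).map (QuotientGroup.mk' T) := by rw [hmap]; trivial
  obtain ⟨x, hx, rfl⟩ := hg
  obtain ⟨k, hk⟩ := R.isPGroup' ⟨x, hx⟩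
  refine ⟨k, ?_⟩
  rw [← map_pow]
  have : x ^ r ^ k = 1 := by simpa [Subtype.ext_iff] using hk
  rw [this, map_one]

end Cfsg.Agent.S3859
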