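import Cfsg.Statements.S3861
import Mathlib
import Cfsg.Agent.Lib.H55.BaerSuzuki
import Cfsg.Agent.Lib.H31.CoprimeCoset

set_option autoImplicit false
open Cfsg

namespace Cfsg.Agent.S3861

open Subgroup

universe u

/-- no real elements of odd order. -/
def NoReal (G : Type*) [Group G] : Prop := ∀ x : G, x ≠ 1 → Odd (orderOf x) → ¬ IsConj x x⁻¹

theorem noReal_quotient {G : Type*} [Group G] [Finite G] (h : NoReal G) (N : Subgroup G) [hN : N.Normal]
    (hN2 : IsPGroup 2 N) : NoReal (G ⧸ N) := by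
  have hp2 : Fact (Nat.Prime 2) := ⟨Nat.prime_two⟩
  intro x' hx1 hxo hxc
  obtain ⟨x₀, rfl⟩ := QuotientGroup.mk'_surjective N x'
  -- choose a lift of odd order
  obtain ⟨k, m, hm, hkm⟩ := Nat.exists_eq_pow_mul_and_not_dvd (orderOf_pos x₀).ne' 2 (by norm_num)
  have hmo : Odd m := Nat.odd_iff.2 (by omega)
  have hcop : Nat.Coprime m (2 ^ k) := Nat.Coprime.pow_right k (Nat.coprime_two_right.2 hmo)
  obtain ⟨j, hj1, hj2⟩ := H31.CoprimeCoset.exists_exponent m (2 ^ k) hcop
  have hdvd : orderOf (QuotientGroup.mk' N x₀) ∣ m := by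
    have h1 : orderOf (QuotientGroup.mk' N x₀) ∣ 2 ^ k * m := hkm ▸ orderOf_map_dvd (QuotientGroup.mk' N) x₀
    exact Nat.Coprime.dvd_of_dvd_mul_left (Nat.Coprime.pow_right k (Nat.coprime_two_right.2 hxo)) h1
  obtain ⟨x, hx⟩ : ∃ x, x = x₀ ^ j := ⟨_, rfl⟩
  have hxm : QuotientGroup.mk' N x = QuotientGroup.mk' N x₀ := by
    rw [hx, map_pow]
    conv_rhs => rw [← pow_one (QuotientGroup.mk' N x₀)]
    rw [pow_eq_pow_iff_modEq]
    exact hj1.of_dvd hdvd
  have hxm1 : x ^ m = 1 := by
    obtain ⟨l, hl⟩ := (Nat.modEq_zero_iff_dvd.1 hj2)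
    rw [hx, ← pow_mul, hl, mul_right_comm, ← hkm, pow_mul, pow_orderOf_eq_one, one_pow]
  have hxo' : Odd (orderOf x) := Odd.of_dvd_nat hmo (orderOf_dvd_of_pow_eq_one hxm1)
  rw [← hxm] at hx1 hxc
  have hx1' : x ≠ 1 := by
    rintro h1
    rw [h1, map_one] at hx1
    exact hx1 rfl
  apply h x hx1' hxo'
  obtain ⟨g', hg'⟩ := isConj_iff.1 hxc
  obtain ⟨g, rfl⟩ := QuotientGroup.mk'_surjective N g'
  rw [← map_inv, ← map_inv, ← map_mul, ← map_mul, QuotientGroup.mk'_eq_mk'] at hg'
  obtain ⟨n, hn, hgn⟩ := hg'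
  -- `g x g⁻¹ n = x⁻¹`
  obtain ⟨b, hb⟩ := IsPGroup.iff_card.1 hN2
  have hcopN : Nat.Coprime (orderOf (g * x * g⁻¹)) (Nat.card N) := by
    have h1 : orderOf (g * x * g⁻¹) = orderOf x := by
      have := orderOf_injective (MulAut.conj g).toMonoidHom (MulAut.conj g).injective x
      simpa using this
    rw [h1, hb]
    exact Nat.Coprime.pow_right b (Nat.coprime_two_right.2 hxo')
  set y := g * x * g⁻¹ with hy
  have hyn : y * n * y⁻¹ ∈ N := hN.conj_mem n hn y
  obtain ⟨u, hu, c, hc, hcy, hucy⟩ := H31.CoprimeCoset.exists_conj N y (by rw [normalizer_eq_top]; trivial) hcopN _ hyn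
  have h1 : y * n * y⁻¹ * y = x⁻¹ := by rw [← hgn]; group
  rw [h1] at hucy
  -- `c = 1`
  have hcomm : Commute c y := hcy
  have hyx : orderOf y = orderOf x := by
    have := orderOf_injective (MulAut.conj g).toMonoidHom (MulAut.conj g).injective x
    simpa [hy] using this
  have h2 : (c * y) ^ orderOf x = 1 := by
    rw [← hucy, conj_pow, inv_pow, pow_orderOf_eq_one, inv_one, mul_one, mul_inv_cancel]
  have h3 : c ^ orderOf x = 1 := by
    rw [hcomm.mul_pow, ← hyx, pow_orderOf_eq_one, mul_one, hyx] at h2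
    exact h2
  have h4 : c = 1 := by
    have h5 : c ^ Nat.card N = 1 := by
      have := pow_card_eq_one' (G := N) (x := ⟨c, hc⟩)
      exact congrArg Subtype.val this
    rw [hb] at h5
    have h6 : orderOf c ∣ Nat.gcd (orderOf x) (2 ^ b) :=
      Nat.dvd_gcd (orderOf_dvd_of_pow_eq_one h3) (orderOf_dvd_of_pow_eq_one h5)
    rw [Nat.Coprime.gcd_eq_one (Nat.Coprime.pow_right b (Nat.coprime_two_right.2 hxo'))] at h6
    exact orderOf_eq_one_iff.1 (Nat.dvd_one.1 h6)
  rw [h4, one_mul] at hucy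
  rw [isConj_iff]
  refine ⟨u⁻¹ * g, ?_⟩
  have h7 : u⁻¹ * g * x * (u⁻¹ * g)⁻¹ = u⁻¹ * (g * x * g⁻¹) * u := by group
  rw [h7, ← hy, ← hucy]
  group

theorem normal_of_noReal (n : ℕ) : ∀ (G : Type u) [Group G] [Finite G], Nat.card G = n → NoReal G →
    ∀ P : Sylow 2 G, (P : Subgroup G).Normal := by
  have hp2 : Fact (Nat.Prime 2) := ⟨Nat.prime_two⟩
  induction n using Nat.strong_induction_on with
  | _ n ih =>
  intro G _ _ hn h P
  by_cases heven : 2 ∣ Nat.card G
  · obtain ⟨t, ht⟩ := exists_prime_orderOf_dvd_card' (G := G) 2 heven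
    have ht2 : t * t = 1 := by
      have := pow_orderOf_eq_one t
      rw [ht, pow_two] at this
      exact this
    have ht1 : t ≠ 1 := by
      rintro rfl
      rw [orderOf_one] at ht
      omega
    obtain ⟨N, hN, hN2, htN⟩ := H55.BaerSuzuki.exists_normal_of_involution t ht2 (by
      intro x hx hxt
      by_contra hx1
      exact h x hx1 hx (isConj_iff.2 ⟨t, hxt⟩))
    have hNb : N ≠ ⊥ := by
      rintro rfl
      exact ht1 (mem_bot.1 htN)
    have hlt : Nat.card (G ⧸ N) < n := by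
      rw [← hn, card_eq_card_quotient_mul_card_subgroup N]
      have h1 : 1 < Nat.card N := by
        have := Nat.card_pos (α := N)
        have : Nat.card N ≠ 1 := fun h => hNb (card_eq_one.1 h)
        omega
      exact lt_mul_of_one_lt_right Nat.card_pos h1
    have h1 := ih _ hlt (G ⧸ N) rfl (noReal_quotient h N hN2) (P.mapSurjective (QuotientGroup.mk'_surjective N))
    rw [Sylow.coe_mapSurjective] at h1
    have h2 := h1.comap (QuotientGroup.mk' N)
    rw [comap_map_eq, QuotientGroup.ker_mk'] at h2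
    have h3 : N ≤ P := by
      obtain ⟨Q, hQ⟩ := hN2.exists_le_sylow
      obtain ⟨g, hg⟩ := MulAction.exists_smul_eq G Q P
      rw [← hg, Sylow.coe_subgroup_smul]
      intro x hx
      rw [mem_pointwise_smul_iff_inv_smul_mem]
      apply hQ
      have := hN.conj_mem x hx g⁻¹
      simpa using this
    rw [sup_eq_left.2 h3] at h2
    exact h2
  · have h1 : Nat.card (P : Subgroup G) = 1 := by
      rw [P.card_eq_multiplicity, Nat.factorization_eq_zero_of_not_dvd heven, pow_zero]
    rw [card_eq_one] at h1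
    rw [h1]
    infer_instance

/-- A finite group G has no non-identity element of odd order that is conjugate to its inverse if and only if the Sylow 2-subgroups of G are normal. -/
theorem result {G : Type*} [Group G] [Finite G] (P : Sylow 2 G) : (∀ x : G, x ≠ 1 → Odd (orderOf x) → ¬ IsConj x x⁻¹) ↔ (P : Subgroup G).Normal := by
  have hp2 : Fact (Nat.Prime 2) := ⟨Nat.prime_two⟩
  constructor
  · intro h
    exact normal_of_noReal _ G rfl h P
  · intro hP x hx1 hxo hxc
    obtain ⟨g, hg⟩ := isConj_iff.1 hxc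
    have hodd : Odd (Nat.card (G ⧸ (P : Subgroup G))) := by
      rw [← Nat.not_even_iff_odd, even_iff_two_dvd]
      exact P.not_dvd_index
    -- in the quotient
    have h1 : ∀ y a : G ⧸ (P : Subgroup G), a * y * a⁻¹ = y⁻¹ → y = 1 := by
      intro y a hay
      have hay2 : Commute (a ^ 2) y := by
        have h2 : a ^ 2 * y * (a ^ 2)⁻¹ = y := by
          have h3 : a ^ 2 * y * (a ^ 2)⁻¹ = a * (a * y * a⁻¹) * a⁻¹ := by rw [pow_two]; group
          rw [h3, hay]
          have h4 : a * y⁻¹ * a⁻¹ = (a * y * a⁻¹)⁻¹ := by group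
          rw [h4, hay, inv_inv]
        rw [mul_inv_eq_iff_eq_mul] at h2
        exact h2
      have hao : Odd (orderOf a) := Odd.of_dvd_nat hodd (orderOf_dvd_natCard a)
      obtain ⟨m, hm⟩ := exists_pow_eq_self_of_coprime (n := 2) (x := a) (Nat.coprime_two_left.2 hao)
      have hac : Commute a y := by
        rw [← hm]
        exact hay2.pow_left m
      rw [hac.eq, mul_inv_cancel_right] at hay
      have h5 : y ^ 2 = 1 := by
        rw [pow_two]
        nth_rewrite 1 [hay]
        exact inv_mul_cancel y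
      have hyo : Odd (orderOf y) := Odd.of_dvd_nat hodd (orderOf_dvd_natCard y)
      have h6 := orderOf_dvd_of_pow_eq_one h5
      have h7 : orderOf y ∣ Nat.gcd (orderOf y) 2 := Nat.dvd_gcd dvd_rfl h6
      rw [Nat.Coprime.gcd_eq_one (Nat.coprime_two_right.2 hyo)] at h7
      exact orderOf_eq_one_iff.1 (Nat.dvd_one.1 h7)
    have h2 := h1 (QuotientGroup.mk' (P : Subgroup G) x) (QuotientGroup.mk' (P : Subgroup G) g) (by
      rw [← map_mul, ← map_inv, ← map_mul, hg, map_inv])
    rw [QuotientGroup.mk'_apply, QuotientGroup.eq_one_iff] at h2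
    obtain ⟨j, hj⟩ := IsPGroup.iff_orderOf.1 P.2 ⟨x, h2⟩
    rw [orderOf_mk] at hj
    apply hx1
    rcases Nat.eq_zero_or_pos j with h0 | h0
    · rw [h0, pow_zero] at hj
      exact orderOf_eq_one_iff.1 hj
    · exfalso
      rw [hj] at hxo
      exact (Nat.not_even_iff_odd.2 hxo) (Nat.even_pow.2 ⟨even_two, h0.ne'⟩)

end Cfsg.Agent.S3861
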