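import Cfsg.Statements.S3862
import Mathlib
import Cfsg.Agent.Lib.H2.Frobenius
import Cfsg.Agent.Lib.H1.Frat
import Cfsg.Agent.Lib.H1.Coprime

set_option autoImplicit false
open Cfsg

namespace Cfsg.Agent.S3862

open Subgroup

/-- If every 2-element of the finite group G that is conjugate to its inverse lies in the centre of G, then G has a normal 2-complement. -/
theorem result {G : Type*} [Group G] [Finite G] (h : ∀ x : G, (∃ j : ℕ, orderOf x = 2 ^ j) → IsConj x x⁻¹ → x ∈ Subgroup.center G) : Cfsg.HasNormalPComplement 2 G := by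
  have hp2 : Fact (Nat.Prime 2) := ⟨Nat.prime_two⟩
  apply H2.Frobenius.hasNPC_of_local
  -- induction on the order of the 2-subgroup
  intro E
  induction hn : Nat.card E using Nat.strong_induction_on generalizing E with
  | _ n ih =>
  intro hE g hg hgo
  by_cases hEb : E = ⊥
  · rw [hEb, mem_centralizer_iff]
    intro y hy
    have hy1 : y = 1 := by simpa using hy
    rw [hy1, mul_one, one_mul]
  -- the subgroup generated by the squares
  have hnt : Nontrivial E := (nontrivial_iff_ne_bot E).2 hEb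
  obtain ⟨K, hK⟩ : ∃ K : Subgroup G, K = closure {y | ∃ x ∈ E, y = x ^ 2} := ⟨_, rfl⟩
  have hKE : K ≤ (frattini E).map E.subtype := by
    rw [hK, closure_le]
    rintro y ⟨x, hx, rfl⟩
    exact ⟨⟨x, hx⟩ ^ 2, H1.Frat.pow_mem_frattini hE _, rfl⟩
  have hfr : frattini E ≠ ⊤ := by
    intro h
    obtain ⟨M, hM, -⟩ := (eq_top_or_exists_le_coatom (⊥ : Subgroup E)).resolve_left bot_ne_top
    exact hM.1 (top_le_iff.1 (h ▸ frattini_le_coatom hM))
  have hKE' : K ≤ E := hKE.trans (map_subtype_le _)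
  have hKlt : Nat.card K < n := by
    rw [← hn]
    apply lt_of_le_of_ne (card_le_of_le hKE')
    intro h
    have h1 : K = E := eq_of_le_of_card_ge hKE' h.ge
    apply hfr
    rw [eq_top_iff]
    rintro ⟨x, hx⟩ -
    rw [← h1] at hx
    obtain ⟨y, hy, hyx⟩ := hKE hx
    have h2 : y = ⟨x, hKE' hx⟩ := Subtype.ext hyx
    rwa [h2] at hy
  have hgE : ∀ x ∈ E, g * x * g⁻¹ ∈ E := fun x hx => (mem_normalizer_iff.1 hg x).1 hx
  have hgK : g ∈ normalizer (K : Set G) := by
    have h1 : ∀ y ∈ zpowers g, ∀ x ∈ K, y * x * y⁻¹ ∈ K := by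
      intro y hy x hx
      have hyE : y ∈ normalizer (E : Set G) := zpowers_le.2 hg hy
      rw [hK] at hx ⊢
      induction hx using closure_induction with
      | mem x hx =>
        obtain ⟨z, hz, rfl⟩ := hx
        apply Subgroup.subset_closure
        refine ⟨y * z * y⁻¹, (mem_normalizer_iff.1 hyE z).1 hz, ?_⟩
        rw [conj_pow]
      | one => simp
      | mul a b _ _ ha hb =>
        have h2 : y * (a * b) * y⁻¹ = (y * a * y⁻¹) * (y * b * y⁻¹) := by group
        rw [h2]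
        exact mul_mem ha hb
      | inv a _ ha =>
        have h2 : y * a⁻¹ * y⁻¹ = (y * a * y⁻¹)⁻¹ := by group
        rw [h2]
        exact inv_mem ha
    exact H1.Coprime.le_normalizer_of_conj_mem h1 (mem_zpowers g)
  have hgKc := ih _ hKlt K rfl (hE.to_le hKE') g hgK hgo
  rw [mem_centralizer_iff] at hgKc ⊢
  intro x hx
  obtain ⟨c, hc⟩ : ∃ c, c = x⁻¹ * (g * x * g⁻¹) := ⟨_, rfl⟩
  have hcE : c ∈ E := by
    rw [hc]
    exact E.mul_mem (E.inv_mem hx) (hgE x hx)
  have hgx : g * x * g⁻¹ = x * c := by rw [hc]; group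
  -- `c` is inverted by `x`
  have hsq : g * (x ^ 2) * g⁻¹ = x ^ 2 := by
    have h1 : x ^ 2 ∈ (K : Set G) := by
      rw [hK]
      exact Subgroup.subset_closure ⟨x, hx, rfl⟩
    rw [← hgKc _ h1, mul_inv_cancel_right]
  have hinv : x * c * x⁻¹ = c⁻¹ := by
    have h1 : (x * c) * (x * c) = x * x := by
      rw [← hgx]
      have h2 : g * x * g⁻¹ * (g * x * g⁻¹) = g * (x ^ 2) * g⁻¹ := by rw [pow_two]; group
      rw [h2, hsq, pow_two]
    have h3 : c * (x * c) = x := by
      have : x * (c * (x * c)) = x * x := by rw [← h1]; group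
      exact mul_left_cancel this
    have h4 : x * c * x⁻¹ = c⁻¹ * (c * (x * c)) * x⁻¹ := by group
    rw [h4, h3]
    group
  obtain ⟨j, hj⟩ := IsPGroup.iff_orderOf.1 hE ⟨c, hcE⟩
  rw [orderOf_mk] at hj
  have hcc : c ∈ center G := h c ⟨j, hj⟩ (isConj_iff.2 ⟨x, hinv⟩)
  have hcomm : ∀ y : G, y * c = c * y := fun y => mem_center_iff.1 hcc y
  have hpow : ∀ k : ℕ, g ^ k * x * (g ^ k)⁻¹ = x * c ^ k := by
    intro k
    induction k with
    | zero => simp
    | succ k ihk =>
      have h1 : g ^ (k + 1) * x * (g ^ (k + 1))⁻¹ = g * (g ^ k * x * (g ^ k)⁻¹) * g⁻¹ := by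
        rw [pow_succ']; group
      have h2 : Commute g (c ^ k) := (Commute.pow_right (hcomm g) k)
      rw [h1, ihk]
      have h3 : g * (x * c ^ k) * g⁻¹ = (g * x * g⁻¹) * (g * c ^ k * g⁻¹) := by group
      rw [h3, h2.eq, mul_inv_cancel_right, hgx, pow_succ', mul_assoc]
  have hc1 : c ^ orderOf g = 1 := by
    have := hpow (orderOf g)
    rw [pow_orderOf_eq_one, one_mul, inv_one, mul_one] at this
    exact (mul_left_cancel (this.symm.trans (mul_one x).symm))
  have hc2 : c = 1 := by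
    have h5 := orderOf_dvd_of_pow_eq_one hc1
    have h7 : orderOf c ∣ Nat.gcd (orderOf g) (2 ^ j) := Nat.dvd_gcd h5 (hj ▸ dvd_rfl)
    rw [Nat.Coprime.gcd_eq_one (Nat.Coprime.pow_right j hgo)] at h7
    exact orderOf_eq_one_iff.1 (Nat.dvd_one.1 h7)
  rw [hc2, mul_one, mul_inv_eq_iff_eq_mul] at hgx
  exact hgx.symm

end Cfsg.Agent.S3862
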