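import Cfsg.Statements.S3863
import Mathlib

set_option autoImplicit false
open Cfsg

namespace Cfsg.Agent.S3863

/-- A real element is inverted by a 2-element. -/
theorem exists_two_element {G : Type*} [Group G] [Finite G] (x : G) (hx : IsConj x x⁻¹) :
    ∃ t : G, (∃ j : ℕ, orderOf t = 2 ^ j) ∧ t * x * t⁻¹ = x⁻¹ := by
  obtain ⟨g, hg⟩ := isConj_iff.1 hx
  -- write orderOf g = 2^j * m with m odd; t = g^m
  have hpos : orderOf g ≠ 0 := (orderOf_pos g).ne'
  obtain ⟨j, m, hm, hgm⟩ := Nat.exists_eq_two_pow_mul_odd hpos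
  refine ⟨g ^ m, ⟨j, ?_⟩, ?_⟩
  · rw [orderOf_pow_of_dvd hm.pos.ne' (by rw [hgm]; exact Dvd.intro_left _ rfl), hgm,
      Nat.mul_div_cancel _ hm.pos]
  · have key : ∀ k : ℕ, g ^ (2 * k) * x * (g ^ (2 * k))⁻¹ = x := by
      intro k
      induction k with
      | zero => simp
      | succ k ih =>
        have h1 : g ^ (2 * (k + 1)) = g ^ (2 * k) * (g * g) := by
          rw [mul_add, pow_add]; simp [pow_two]
        have h2 : (g * g) * x * (g * g)⁻¹ = x := by
          have : (g * g) * x * (g * g)⁻¹ = g * (g * x * g⁻¹) * g⁻¹ := by group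
          rw [this, hg]
          have : g * x⁻¹ * g⁻¹ = (g * x * g⁻¹)⁻¹ := by group
          rw [this, hg, inv_inv]
        rw [h1]
        have : g ^ (2 * k) * (g * g) * x * (g ^ (2 * k) * (g * g))⁻¹ =
          g ^ (2 * k) * ((g * g) * x * (g * g)⁻¹) * (g ^ (2 * k))⁻¹ := by group
        rw [this, h2, ih]
    obtain ⟨k, rfl⟩ := hm
    have h1 : g ^ (2 * k + 1) * x * (g ^ (2 * k + 1))⁻¹ = g * (g ^ (2 * k) * x * (g ^ (2 * k))⁻¹) * g⁻¹ := by
      rw [pow_succ']; group
    rw [h1, key, hg]

/-- Let x be an element of the finite group G that is conjugate to its inverse. Then some 2-element conjugates x to its inverse; if the conjugacy class of x has odd size then x ^ 2 = 1; and x lies in, and is conjugate to its inverse inside, every normal subgroup of odd index. -/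
theorem result {G : Type*} [Group G] [Finite G] (x : G) (hx : IsConj x x⁻¹) : (∃ t : G, (∃ j : ℕ, orderOf t = 2 ^ j) ∧ t * x * t⁻¹ = x⁻¹) ∧ (Odd (Subgroup.centralizer ({x} : Set G)).index → x ^ 2 = 1) ∧ ∀ (N : Subgroup G) [N.Normal], Odd N.index → ∃ hxN : x ∈ N, IsConj (⟨x, hxN⟩ : N) (⟨x, hxN⟩ : N)⁻¹ := by
  refine ⟨exists_two_element x hx, ?_, ?_⟩
  · intro hodd
    -- C_G(x) contains a Sylow 2-subgroup S of G; a 2-element inverting x normalizes...
    obtain ⟨t, ⟨j, hj⟩, ht⟩ := exists_two_element x hx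
    -- the centralizer C and extended centralizer C* = C ∪ Ct
    set C := Subgroup.centralizer ({x} : Set G) with hC
    have hmemC : ∀ g : G, g ∈ C ↔ g * x * g⁻¹ = x := by
      intro g
      rw [hC, Subgroup.mem_centralizer_iff]
      constructor
      · intro h
        have := h x rfl
        rw [← this]; group
      · intro h y hy
        rw [Set.mem_singleton_iff] at hy
        rw [hy]
        nth_rewrite 1 [← h]
        group
    by_cases htC : t ∈ C
    · have h1 := (hmemC t).1 htC
      rw [ht] at h1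
      rw [pow_two]
      nth_rewrite 1 [← h1]
      group
    · exfalso
      -- E = C ⊔ zpowers t has C as index 2 subgroup
      let E : Subgroup G :=
        { carrier := {g | g * x * g⁻¹ = x ∨ g * x * g⁻¹ = x⁻¹}
          mul_mem' := by
            rintro a b (ha | ha) (hb | hb)
            · left; have : a * b * x * (a * b)⁻¹ = a * (b * x * b⁻¹) * a⁻¹ := by group
              rw [this, hb, ha]
            · right; have : a * b * x * (a * b)⁻¹ = a * (b * x * b⁻¹) * a⁻¹ := by group
              rw [this, hb]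
              have : a * x⁻¹ * a⁻¹ = (a * x * a⁻¹)⁻¹ := by group
              rw [this, ha]
            · right; have : a * b * x * (a * b)⁻¹ = a * (b * x * b⁻¹) * a⁻¹ := by group
              rw [this, hb, ha]
            · left; have : a * b * x * (a * b)⁻¹ = a * (b * x * b⁻¹) * a⁻¹ := by group
              rw [this, hb]
              have : a * x⁻¹ * a⁻¹ = (a * x * a⁻¹)⁻¹ := by group
              rw [this, ha, inv_inv]
          one_mem' := by left; simp
          inv_mem' := by
            rintro a (ha | ha)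
            · left
              nth_rewrite 1 [← ha]; group
            · right
              have : x⁻¹ = a⁻¹ * (a * x⁻¹ * a⁻¹) * a := by group
              have h2 : a * x⁻¹ * a⁻¹ = (a * x * a⁻¹)⁻¹ := by group
              rw [this, h2, ha]; group }
      have hCE : C ≤ E := fun g hg => Or.inl ((hmemC g).1 hg)
      have hidx : C.relIndex E = 2 := by
        rw [Subgroup.relIndex, Subgroup.index_eq_two_iff]
        refine ⟨⟨t, Or.inr ht⟩, fun b => ?_⟩
        have hb : (b : G) * x * (b : G)⁻¹ = x ∨ (b : G) * x * (b : G)⁻¹ = x⁻¹ := b.2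
        have hne : ¬ x = x⁻¹ := by
          intro h
          apply htC
          rw [hmemC, ht, ← h]
        have e1 : b ∈ C.subgroupOf E ↔ (b : G) * x * (b : G)⁻¹ = x := by
          rw [Subgroup.mem_subgroupOf, hmemC]
        have e2 : b * ⟨t, Or.inr ht⟩ ∈ C.subgroupOf E ↔ (b : G) * x * (b : G)⁻¹ = x⁻¹ := by
          rw [Subgroup.mem_subgroupOf, hmemC]
          change (b : G) * t * x * ((b : G) * t)⁻¹ = x ↔ _
          have h3 : (b : G) * t * x * ((b : G) * t)⁻¹ = (b : G) * (t * x * t⁻¹) * (b : G)⁻¹ := by group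
          have h4 : (b : G) * x⁻¹ * (b : G)⁻¹ = ((b : G) * x * (b : G)⁻¹)⁻¹ := by group
          rw [h3, ht, h4, inv_eq_iff_eq_inv]
        rw [xor_def, e1, e2]
        rcases hb with hb | hb
        · right; exact ⟨hb, by rw [hb]; exact hne⟩
        · left; exact ⟨hb, by rw [hb]; exact fun h => hne h.symm⟩
      have h5 : C.relIndex E * E.index = C.index := Subgroup.relIndex_mul_index hCE
      rw [hidx] at h5
      rw [← h5] at hodd
      exact (Nat.not_odd_iff_even.2 (even_two_mul _)) hodd
  · intro N hN hodd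
    -- image of x in G/N is real in an odd order group, hence trivial
    have hcard : Nat.card (G ⧸ N) = N.index := rfl
    have two : ∀ t : G, (∃ j : ℕ, orderOf t = 2 ^ j) → t ∈ N := by
      rintro t ⟨j, hj⟩
      rw [← QuotientGroup.eq_one_iff, ← orderOf_eq_one_iff]
      have h1 : orderOf (t : G ⧸ N) ∣ 2 ^ j := by
        rw [← hj]; exact orderOf_map_dvd (QuotientGroup.mk' N) t
      have h2 : orderOf (t : G ⧸ N) ∣ Nat.card (G ⧸ N) := orderOf_dvd_natCard _
      rw [hcard] at h2
      have h3 : Nat.Coprime (2 ^ j) N.index := by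
        apply Nat.Coprime.pow_left
        rw [Nat.coprime_two_left]; exact hodd
      exact Nat.eq_one_of_dvd_coprimes h3 h1 h2
    obtain ⟨t, ht2, ht⟩ := exists_two_element x hx
    have htN := two t ht2
    -- x ≡ x⁻¹ mod N
    have h1 : (x : G ⧸ N) = (x : G ⧸ N)⁻¹ := by
      have h2 : ((t * x * t⁻¹ : G) : G ⧸ N) = ((x⁻¹ : G) : G ⧸ N) := by rw [ht]
      have h3 : (t : G ⧸ N) = 1 := (QuotientGroup.eq_one_iff t).2 htN
      rw [QuotientGroup.mk_mul, QuotientGroup.mk_mul, QuotientGroup.mk_inv, h3] at h2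
      simpa using h2
    have h4 : (x : G ⧸ N) ^ 2 = 1 := by
      rw [pow_two]; nth_rewrite 1 [h1]; simp
    have hxN : x ∈ N := by
      rw [← QuotientGroup.eq_one_iff, ← orderOf_eq_one_iff]
      have h5 : orderOf (x : G ⧸ N) ∣ 2 := orderOf_dvd_of_pow_eq_one h4
      have h2 : orderOf (x : G ⧸ N) ∣ Nat.card (G ⧸ N) := orderOf_dvd_natCard _
      rw [hcard] at h2
      exact Nat.eq_one_of_dvd_coprimes (Nat.coprime_two_left.2 hodd) h5 h2
    refine ⟨hxN, ?_⟩
    rw [isConj_iff]
    exact ⟨⟨t, htN⟩, Subtype.ext ht⟩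

end Cfsg.Agent.S3863
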