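import Cfsg.Statements.S3864
import Mathlib
import Cfsg.Agent.Lib.H2.Residual
import Cfsg.Agent.Lib.H2.Fusion
import Cfsg.Agent.Lib.H39.PNilp
import Cfsg.Agent.S0111

set_option autoImplicit false
open Cfsg

namespace Cfsg.Agent.S3864

open Subgroup

/-- dihedral data for the subgroup `P`. -/
structure Dat {G : Type*} [Group G] (P : Subgroup G) (m : ℕ) (a t : G) : Prop where
  haP : a ∈ P
  htP : t ∈ P
  ho : orderOf a = 2 ^ m
  ht2 : t * t = 1
  hta : t * a * t⁻¹ = a⁻¹
  htn : t ∉ zpowers a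
  hP : ∀ x ∈ P, x ∈ zpowers a ∨ t * x ∈ zpowers a

section dat

variable {G : Type*} [Group G] {P : Subgroup G} {m : ℕ} {a t : G}

theorem Dat.tinv (D : Dat P m a t) : t⁻¹ = t := inv_eq_of_mul_eq_one_left D.ht2

theorem Dat.tpow (D : Dat P m a t) (k : ℤ) : t * a ^ k = a ^ (-k) * t := by
  have h : t * a ^ k * t⁻¹ = a ^ (-k) := by
    rw [← conj_zpow, D.hta, inv_zpow, zpow_neg]
  rw [← h, inv_mul_cancel_right]

theorem Dat.powt (D : Dat P m a t) (k : ℤ) : a ^ k * t = t * a ^ (-k) := by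
  rw [D.tpow, neg_neg]

theorem Dat.swap (D : Dat P m a t) : Dat P m a (t * a) where
  haP := D.haP
  htP := P.mul_mem D.htP D.haP
  ho := D.ho
  ht2 := by
    have h := D.tpow 1
    rw [zpow_one] at h
    have h2 : t * a * (t * a) = (t * a) * t * a := by group
    rw [h2, h]
    have h3 : a ^ (-1 : ℤ) * t * t * a = a ^ (-1 : ℤ) * (t * t) * a := by group
    rw [h3, D.ht2]; group
  hta := by
    have h : t * a * a * (t * a)⁻¹ = t * a * t⁻¹ := by group
    rw [h, D.hta]
  htn := by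
    intro h
    exact D.htn ((mul_mem_cancel_right (mem_zpowers a)).1 h)
  hP := by
    intro x hx
    rcases D.hP x hx with h | ⟨k, hk⟩
    · exact Or.inl h
    · right
      have h1 : x = t * a ^ k := by
        have : t⁻¹ * a ^ k = x := by
          change a ^ k = t * x at hk
          rw [hk]; group
        rw [← this, D.tinv]
      refine ⟨-1 + k, ?_⟩
      change a ^ (-1 + k) = t * a * x
      have h2 : t * a * x = (t * a ^ (1 : ℤ)) * t * a ^ k := by rw [h1, zpow_one]; group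
      rw [h2, D.tpow]
      have h3 : a ^ (-(1 : ℤ)) * t * t * a ^ k = a ^ (-(1 : ℤ)) * (t * t) * a ^ k := by group
      rw [h3, D.ht2, mul_one, zpow_add]

theorem Dat.eq_of (D : Dat P m a t) {x : G} (hx : x ∈ P) : (∃ k : ℤ, x = a ^ k) ∨ ∃ k : ℤ, x = t * a ^ k := by
  rcases D.hP x hx with ⟨k, hk⟩ | ⟨k, hk⟩
  · exact Or.inl ⟨k, hk.symm⟩
  · right
    refine ⟨k, ?_⟩
    change a ^ k = t * x at hk
    rw [hk, ← mul_assoc, D.ht2, one_mul]

theorem Dat.zpow_eq_one (D : Dat P m a t) (k : ℤ) : a ^ k = 1 ↔ ((2 ^ m : ℕ) : ℤ) ∣ k := by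
  rw [← D.ho]
  exact orderOf_dvd_iff_zpow_eq_one.symm

/-- the involution in `⟨a⟩`. -/
theorem Dat.invol (D : Dat P m a t) (hm : 1 ≤ m) {x : G} (hx : x ∈ zpowers a) (hxo : orderOf x = 2) :
    x = a ^ 2 ^ (m - 1) := by
  obtain ⟨k, rfl⟩ := hx
  change orderOf (a ^ k) = 2 at hxo
  have h1 : a ^ (2 * k) = 1 := by
    have := pow_orderOf_eq_one (a ^ k)
    rw [hxo, pow_two, ← zpow_add] at this
    rw [two_mul]; exact this
  rw [D.zpow_eq_one] at h1
  obtain ⟨l, hl⟩ := h1
  have h2 : k = 2 ^ (m - 1) * l := by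
    have h3 : ((2 ^ m : ℕ) : ℤ) = 2 * 2 ^ (m - 1) := by
      push_cast
      rw [← pow_succ']
      congr 1
      omega
    rw [h3, mul_assoc] at hl
    exact mul_left_cancel₀ two_ne_zero hl
  rcases Int.even_or_odd l with ⟨j, hj⟩ | ⟨j, hj⟩
  · exfalso
    have h4 : a ^ k = 1 := by
      rw [D.zpow_eq_one]
      refine ⟨j, ?_⟩
      rw [h2, hj]
      push_cast
      rw [← two_mul, ← mul_assoc, ← pow_succ]
      congr 2
      omega
    rw [h4, orderOf_one] at hxo
    omega
  · change a ^ k = a ^ 2 ^ (m - 1)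
    have h5 : k = ((2 ^ m : ℕ) : ℤ) * j + ((2 ^ (m - 1) : ℕ) : ℤ) := by
      rw [h2, hj]
      push_cast
      have : (2 : ℤ) ^ m = 2 ^ (m - 1) * 2 := by
        rw [← pow_succ]; congr 1; omega
      rw [this]; ring
    rw [h5, zpow_add, zpow_natCast, (D.zpow_eq_one _).2 (dvd_mul_right _ _), one_mul]

theorem Dat.orderZ (D : Dat P m a t) (hm : 1 ≤ m) : orderOf (a ^ 2 ^ (m - 1)) = 2 := by
  rw [orderOf_pow' a (by positivity), D.ho]
  have h : Nat.gcd (2 ^ m) (2 ^ (m - 1)) = 2 ^ (m - 1) := Nat.gcd_eq_right (pow_dvd_pow _ (by omega))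
  rw [h, Nat.pow_div (by omega) (by norm_num)]
  have : m - (m - 1) = 1 := by omega
  rw [this, pow_one]

theorem Dat.ordert (D : Dat P m a t) : orderOf t = 2 := by
  apply orderOf_eq_prime (by rw [pow_two]; exact D.ht2)
  intro h
  apply D.htn
  rw [h]
  exact one_mem _

/-- every involution of `P` is conjugate in `P` to one of three. -/
theorem Dat.conj_of_invol (D : Dat P m a t) (hm : 1 ≤ m) {x : G} (hx : x ∈ P) (hxo : orderOf x = 2) :
    IsConj x (a ^ 2 ^ (m - 1)) ∨ IsConj x t ∨ IsConj x (t * a) := by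
  rcases D.eq_of hx with ⟨k, hk⟩ | ⟨k, hk⟩
  · left
    rw [D.invol hm ⟨k, hk.symm⟩ hxo]
  · right
    have key : ∀ j l : ℤ, a ^ j * (t * a ^ l) * (a ^ j)⁻¹ = t * a ^ (l - 2 * j) := by
      intro j l
      rw [← mul_assoc, D.powt, ← zpow_neg, mul_assoc, mul_assoc, ← zpow_add, ← zpow_add]
      congr 2; ring
    rcases Int.even_or_odd k with ⟨j, hj⟩ | ⟨j, hj⟩
    · left
      rw [isConj_iff]
      refine ⟨a ^ j, ?_⟩
      rw [hk, key, hj]
      have : j + j - 2 * j = 0 := by ring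
      rw [this, zpow_zero, mul_one]
    · right
      rw [isConj_iff]
      refine ⟨a ^ j, ?_⟩
      rw [hk, key, hj]
      have : 2 * j + 1 - 2 * j = 1 := by ring
      rw [this, zpow_one]

/-- the three involutions are pairwise not conjugate in `P`. -/
theorem Dat.not_conj (D : Dat P m a t) (hm : 2 ≤ m) {h : G} (hh : h ∈ P) : h * t * h⁻¹ ≠ t * a := by
  intro he
  have key : ∀ j l : ℤ, a ^ j * (t * a ^ l) * (a ^ j)⁻¹ = t * a ^ (l - 2 * j) := by
    intro j l
    rw [← mul_assoc, D.powt, ← zpow_neg, mul_assoc, mul_assoc, ← zpow_add, ← zpow_add]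
    congr 2; ring
  have hodd : ∀ k : ℤ, a ^ (2 * k + 1) ≠ 1 := by
    intro k hk
    rw [D.zpow_eq_one] at hk
    have h2 : (2 : ℤ) ∣ ((2 ^ m : ℕ) : ℤ) := by
      push_cast
      exact dvd_pow_self 2 (by omega)
    have := h2.trans hk
    omega
  rcases D.eq_of hh with ⟨k, hk⟩ | ⟨k, hk⟩
  · have h1 := key k 0
    rw [zpow_zero, mul_one, ← hk, he] at h1
    have h2 : a = a ^ (0 - 2 * k) := mul_left_cancel h1
    apply hodd (-k - 1)
    have h3 : a ^ (0 - 2 * k) * a⁻¹ = 1 := by rw [← h2, mul_inv_cancel]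
    rw [← zpow_neg_one, ← zpow_add] at h3
    rw [← h3]
    congr 1; ring
  · have h1 : h * t * h⁻¹ = t * (a ^ k * (t * a ^ (0 : ℤ)) * (a ^ k)⁻¹) * t⁻¹ := by
      rw [hk, zpow_zero, mul_one]; group
    rw [h1, key, D.tinv] at he
    have h3 : t * (t * a ^ (0 - 2 * k)) * t = (t * t) * (a ^ (0 - 2 * k) * t) := by group
    rw [h3, D.ht2, one_mul, D.powt] at he
    have h2 : a ^ (-(0 - 2 * k)) = a := mul_left_cancel he
    apply hodd (k - 1)
    have h4 : a ^ (-(0 - 2 * k)) * a⁻¹ = 1 := by rw [h2, mul_inv_cancel]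
    rw [← zpow_neg_one, ← zpow_add] at h4
    rw [← h4]
    congr 1; ring

theorem Dat.central (D : Dat P m a t) (hm : 1 ≤ m) {h : G} (hh : h ∈ P) :
    h * a ^ 2 ^ (m - 1) * h⁻¹ = a ^ 2 ^ (m - 1) := by
  have hz : ∃ z : G, z = a ^ 2 ^ (m - 1) := ⟨_, rfl⟩
  obtain ⟨z, hz⟩ := hz
  have hzo : orderOf z = 2 := hz ▸ D.orderZ hm
  have hzi : z⁻¹ = z := by
    apply inv_eq_of_mul_eq_one_left
    have := pow_orderOf_eq_one z
    rwa [hzo, pow_two] at this
  have hat : Commute a z := by rw [hz]; exact (Commute.refl a).pow_right _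
  have htz : t * z * t⁻¹ = z := by
    have h1 : t * z * t⁻¹ = z⁻¹ := by
      rw [hz, ← conj_pow, D.hta, inv_pow]
    rw [h1, hzi]
  rw [← hz]
  rcases D.eq_of hh with ⟨k, hk⟩ | ⟨k, hk⟩
  · rw [hk, (hat.zpow_left k).eq, mul_inv_cancel_right]
  · have h1 : h * z * h⁻¹ = t * (a ^ k * z * (a ^ k)⁻¹) * t⁻¹ := by rw [hk]; group
    rw [h1, (hat.zpow_left k).eq, mul_inv_cancel_right, htz]

end dat

section main

variable {G : Type*} [Group G] [Finite G] {m : ℕ} {a t : G}

theorem card_P {P : Subgroup G} (D : Dat P m a t) : Nat.card P = 2 ^ (m + 1) := by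
  have h1 : (zpowers a).relIndex P = 2 := by
    have h2 : zpowers a ≤ P := zpowers_le.2 D.haP
    change ((zpowers a).subgroupOf P).index = 2
    rw [index_eq_two_iff]
    refine ⟨⟨t, D.htP⟩, ?_⟩
    rintro ⟨x, hx⟩
    rw [xor_iff_iff_not]
    change x * t ∈ zpowers a ↔ ¬ x ∈ zpowers a
    rcases D.eq_of hx with ⟨k, hk⟩ | ⟨k, hk⟩
    · have h3 : x ∈ zpowers a := ⟨k, hk.symm⟩
      constructor
      · intro h4
        exact absurd ((mul_mem_cancel_left h3).1 h4) D.htn
      · intro h4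
        exact absurd h3 h4
    · have h3 : ¬ x ∈ zpowers a := by
        rw [hk]
        intro h4
        exact D.htn ((mul_mem_cancel_right (zpow_mem (mem_zpowers a) k)).1 h4)
      refine ⟨fun _ => h3, fun _ => ?_⟩
      rw [hk, mul_assoc, D.powt, ← mul_assoc, D.ht2, one_mul]
      exact zpow_mem (mem_zpowers a) _
  have h2 := relIndex_mul_relIndex ⊥ (zpowers a) P bot_le (zpowers_le.2 D.haP)
  rw [relIndex_bot_left, relIndex_bot_left, h1, Nat.card_zpowers, D.ho] at h2
  rw [← h2, pow_succ]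

/-- transfer: if `O^2(R) = R` and `Q` is a Sylow 2-subgroup of `R` with cyclic subgroup `⟨b⟩` of index 2. -/
theorem conj_of_transfer {R : Type*} [Group R] [Finite R] (hR : Cfsg.pResidual 2 R = ⊤) (Q : Sylow 2 R) (b u : R)
    (hb : b ∈ (Q : Subgroup R)) (hidx : (zpowers b).relIndex (Q : Subgroup R) = 2) (hu : u ∈ (Q : Subgroup R))
    (huo : orderOf u = 2) (hub : u ∉ zpowers b) : ∃ g : R, g * u * g⁻¹ ∈ zpowers b := by
  have hp2 : Fact (Nat.Prime 2) := ⟨Nat.prime_two⟩
  rcases Cfsg.Agent.S0111.result Q (zpowers b) (zpowers_le.2 hb) hidx u huo hu hub with ⟨M, hM, hMi, -⟩ | h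
  · exfalso
    have h1 : IsPGroup 2 (R ⧸ M) := IsPGroup.of_card (n := 1) (by rw [pow_one]; exact hMi)
    have h2 := H2.Residual.residual_le_of_isPGroup_quotient M h1
    rw [hR, top_le_iff] at h2
    rw [h2, index_top] at hMi
    omega
  · exact h


theorem relIndex_of_card {Q : Subgroup G} {b : G} {k : ℕ} (hb : b ∈ Q) (h1 : Nat.card Q = 2 ^ (k + 1)) (h2 : orderOf b = 2 ^ k) :
    (zpowers b).relIndex Q = 2 := by
  have h3 := relIndex_mul_relIndex ⊥ (zpowers b) Q bot_le (zpowers_le.2 hb)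
  rw [relIndex_bot_left, relIndex_bot_left, Nat.card_zpowers, h1, h2, pow_succ] at h3
  exact Nat.eq_of_mul_eq_mul_left (by positivity) h3

/-- The set of conjugacy classes of involutions. -/
theorem set_eq {P : Sylow 2 G} (D : Dat (P : Subgroup G) m a t) (hm : 1 ≤ m) :
    {C : ConjClasses G | ∃ g : G, ConjClasses.mk g = C ∧ orderOf g = 2} =
      {ConjClasses.mk (a ^ 2 ^ (m - 1)), ConjClasses.mk t, ConjClasses.mk (t * a)} := by
  have hp2 : Fact (Nat.Prime 2) := ⟨Nat.prime_two⟩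
  ext C
  simp only [Set.mem_ofPred_eq, Set.mem_insert_iff, Set.mem_singleton_iff]
  constructor
  · rintro ⟨g, rfl, hg⟩
    have h1 : IsPGroup 2 (zpowers g) := by
      apply IsPGroup.of_card (n := 1)
      rw [Nat.card_zpowers, hg, pow_one]
    obtain ⟨Q, hQ⟩ := h1.exists_le_sylow
    obtain ⟨x, hx⟩ := MulAction.exists_smul_eq G Q P
    have h2 : x * g * x⁻¹ ∈ (P : Subgroup G) := by
      rw [← hx, Sylow.coe_subgroup_smul]
      exact Subgroup.smul_mem_pointwise_smul g (MulAut.conj x) _ (hQ (mem_zpowers g))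
    have h3 : orderOf (x * g * x⁻¹) = 2 := by
      have := orderOf_injective (MulAut.conj x).toMonoidHom (MulAut.conj x).injective g
      rw [← hg]
      simpa using this
    have h4 : ConjClasses.mk g = ConjClasses.mk (x * g * x⁻¹) := by
      rw [ConjClasses.mk_eq_mk_iff_isConj, isConj_iff]
      exact ⟨x, rfl⟩
    rw [h4]
    simp only [ConjClasses.mk_eq_mk_iff_isConj]
    exact D.conj_of_invol hm h2 h3
  · rintro (rfl | rfl | rfl)
    · exact ⟨_, rfl, D.orderZ hm⟩
    · exact ⟨_, rfl, D.ordert⟩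
    · exact ⟨_, rfl, D.swap.ordert⟩

theorem le_of_index {N : Subgroup G} (hN : N.Normal) {k : ℕ} (h : N.index = 2 ^ k) : Cfsg.pResidual 2 G ≤ N := by
  have hp2 : Fact (Nat.Prime 2) := ⟨Nat.prime_two⟩
  exact H2.Residual.residual_le_of_isPGroup_quotient N (IsPGroup.of_card (n := k) h)

/-- case (a). -/
theorem case_a {P : Sylow 2 G} (D : Dat (P : Subgroup G) m a t) (hm : 2 ≤ m) (hR : Cfsg.pResidual 2 G = ⊤) :
    Nat.card {C : ConjClasses G // ∃ g : G, ConjClasses.mk g = C ∧ orderOf g = 2} = 1 ∧ ∀ N : Subgroup G, N.Normal → N.index ≠ 2 := by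
  have key : ∀ t' : G, Dat (P : Subgroup G) m a t' → ConjClasses.mk t' = ConjClasses.mk (a ^ 2 ^ (m - 1)) := by
    intro t' D'
    obtain ⟨g, hg⟩ := conj_of_transfer hR P a t' D'.haP (relIndex_of_card D'.haP (card_P D') D'.ho) D'.htP D'.ordert D'.htn
    have h3 : orderOf (g * t' * g⁻¹) = 2 := by
      have := orderOf_injective (MulAut.conj g).toMonoidHom (MulAut.conj g).injective t'
      rw [← D'.ordert]
      simpa using this
    rw [ConjClasses.mk_eq_mk_iff_isConj, isConj_iff]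
    exact ⟨g, D'.invol (by omega) hg h3⟩
  constructor
  · change Nat.card ({C : ConjClasses G | ∃ g : G, ConjClasses.mk g = C ∧ orderOf g = 2} : Set (ConjClasses G)) = 1
    rw [set_eq D (by omega), key t D, key (t * a) D.swap]
    simp
  · intro N hN hi
    have h1 := le_of_index hN (k := 1) (by rw [hi, pow_one])
    rw [hR, top_le_iff] at h1
    rw [h1, index_top] at hi
    omega

/-- case (b). -/
theorem case_b {P : Sylow 2 G} (D : Dat (P : Subgroup G) m a t) (hm : 2 ≤ m) (htR : t ∈ Cfsg.pResidual 2 G)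
    (htaR : t * a ∉ Cfsg.pResidual 2 G) :
    Nat.card {C : ConjClasses G // ∃ g : G, ConjClasses.mk g = C ∧ orderOf g = 2} = 2 ∧
      (∃ N : Subgroup G, N.Normal ∧ N.index = 2) ∧ ∀ N : Subgroup G, N.Normal → N.index ≠ 4 := by
  have hp2 : Fact (Nat.Prime 2) := ⟨Nat.prime_two⟩
  obtain ⟨R, hR⟩ : ∃ R, R = Cfsg.pResidual 2 G := ⟨_, rfl⟩
  have hRn : R.Normal := hR ▸ inferInstance
  rw [← hR] at htR htaR
  have haR : a ∉ R := fun h => htaR (R.mul_mem htR h)
  have ha2 : a ^ 2 ∈ R := by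
    have h1 : a * t * a⁻¹ * t⁻¹ ∈ R := R.mul_mem (hRn.conj_mem t htR a) (R.inv_mem htR)
    have h2 : a * t * a⁻¹ * t⁻¹ = a * (t * a * t⁻¹)⁻¹ := by group
    rw [h2, D.hta, inv_inv] at h1
    rwa [pow_two]
  have hak : ∀ k : ℤ, a ^ k ∈ R ↔ Even k := by
    intro k
    have hev : ∀ j : ℤ, a ^ (2 * j) ∈ R := by
      intro j
      rw [zpow_mul]
      exact R.zpow_mem (by exact_mod_cast ha2) j
    rcases Int.even_or_odd k with hk | hk
    · obtain ⟨j, hj⟩ := hk
      have h1 : k = 2 * j := by omega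
      exact ⟨fun _ => ⟨j, hj⟩, fun _ => h1 ▸ hev j⟩
    · obtain ⟨j, hj⟩ := hk
      constructor
      · intro h
        exfalso
        rw [hj, zpow_add, zpow_one] at h
        exact haR ((R.mul_mem_cancel_left (hev j)).1 h)
      · intro h
        exfalso
        obtain ⟨l, hl⟩ := h
        omega
  have hidx : R.index = 2 := by
    rw [index_eq_two_iff]
    refine ⟨a, fun g => ?_⟩
    rw [xor_iff_iff_not]
    have hg : g ∈ R ⊔ (P : Subgroup G) := by
      rw [sup_comm, hR, H2.Residual.sylow_sup_residual P]; trivial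
    rw [mem_sup_of_normal_left] at hg
    obtain ⟨r, hr, x, hx, rfl⟩ := hg
    rw [mul_assoc, R.mul_mem_cancel_left hr, R.mul_mem_cancel_left hr]
    rcases D.eq_of hx with ⟨k, hk⟩ | ⟨k, hk⟩
    · rw [hk, hak]
      have h1 : a ^ k * a = a ^ (k + 1) := by rw [zpow_add, zpow_one]
      rw [h1, hak, Int.not_even_iff_odd, Int.even_add_one, Int.not_even_iff_odd]
    · rw [hk, mul_assoc, R.mul_mem_cancel_left htR, R.mul_mem_cancel_left htR, hak]
      have h1 : a ^ k * a = a ^ (k + 1) := by rw [zpow_add, zpow_one]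
      rw [h1, hak, Int.not_even_iff_odd, Int.even_add_one, Int.not_even_iff_odd]
  refine ⟨?_, ⟨R, hRn, hidx⟩, ?_⟩
  · -- t ~ z
    have hz : ConjClasses.mk t = ConjClasses.mk (a ^ 2 ^ (m - 1)) := by
      subst hR
      obtain ⟨Q, hQ⟩ := H2.Residual.exists_sylow_inf P (Cfsg.pResidual 2 G)
      have hcQ : Nat.card (Q : Subgroup (Cfsg.pResidual 2 G)) = 2 ^ (m - 1 + 1) := by
        have h1 : (P : Subgroup G) ⊔ Cfsg.pResidual 2 G = ⊤ := H2.Residual.sylow_sup_residual P
        have h2 := (P : Subgroup G).relIndex_sup_right (Cfsg.pResidual 2 G)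
        rw [h1, relIndex_top_right, hidx, ← inf_relIndex_right] at h2
        have h3 := relIndex_mul_relIndex ⊥ (Cfsg.pResidual 2 G ⊓ (P : Subgroup G)) (P : Subgroup G) bot_le inf_le_right
        rw [relIndex_bot_left, relIndex_bot_left, ← h2, card_P D, pow_succ] at h3
        rw [hQ, H39.PNilp.card_subgroupOf, inf_comm]
        have h4 : m - 1 + 1 = m := by omega
        rw [h4]
        exact Nat.eq_of_mul_eq_mul_right (by norm_num) h3
      have hb : (⟨a ^ 2, ha2⟩ : Cfsg.pResidual 2 G) ∈ (Q : Subgroup (Cfsg.pResidual 2 G)) := by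
        rw [hQ]
        exact (P : Subgroup G).pow_mem D.haP 2
      have hbo : orderOf (⟨a ^ 2, ha2⟩ : Cfsg.pResidual 2 G) = 2 ^ (m - 1) := by
        rw [orderOf_mk, orderOf_pow, D.ho]
        have h : Nat.gcd (2 ^ m) 2 = 2 := Nat.gcd_eq_right (dvd_pow_self 2 (by omega))
        rw [h]
        have : 2 ^ m = 2 ^ (m - 1) * 2 := by rw [← pow_succ]; congr 1; omega
        rw [this]
        simp
      obtain ⟨g, hg⟩ := conj_of_transfer H2.Residual.residual_residual Q ⟨a ^ 2, ha2⟩ ⟨t, htR⟩ hb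
        (relIndex_of_card hb hcQ hbo) (by rw [hQ]; exact D.htP) (by rw [orderOf_mk]; exact D.ordert) (by
          rintro ⟨k, hk⟩
          apply D.htn
          have h1 := congrArg Subtype.val hk
          change (a ^ 2) ^ k = t at h1
          rw [← h1]
          exact zpow_mem (pow_mem (mem_zpowers a) 2) k)
      have hg' : (g : G) * t * (g : G)⁻¹ ∈ zpowers a := by
        obtain ⟨k, hk⟩ := hg
        have h1 := congrArg Subtype.val hk
        change (a ^ 2) ^ k = (g : G) * t * (g : G)⁻¹ at h1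
        rw [← h1]
        exact zpow_mem (pow_mem (mem_zpowers a) 2) k
      have h3 : orderOf ((g : G) * t * (g : G)⁻¹) = 2 := by
        have := orderOf_injective (MulAut.conj (g : G)).toMonoidHom (MulAut.conj (g : G)).injective t
        refine Eq.trans ?_ D.ordert
        simpa using this
      rw [ConjClasses.mk_eq_mk_iff_isConj, isConj_iff]
      exact ⟨g, D.invol (by omega) hg' h3⟩
    have hne : ConjClasses.mk t ≠ ConjClasses.mk (t * a) := by
      intro h
      rw [ConjClasses.mk_eq_mk_iff_isConj, isConj_iff] at h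
      obtain ⟨g, hg⟩ := h
      apply htaR
      rw [← hg]
      exact hRn.conj_mem t htR g
    change Nat.card ({C : ConjClasses G | ∃ g : G, ConjClasses.mk g = C ∧ orderOf g = 2} : Set (ConjClasses G)) = 2
    rw [set_eq D (by omega), ← hz, Set.insert_eq_of_mem (Set.mem_insert _ _), Nat.card_coe_set_eq, Set.ncard_pair hne]
  · intro N hN hi
    have h1 := le_of_index hN (k := 2) (by rw [hi]; norm_num)
    rw [← hR] at h1
    have h2 := index_dvd_of_le h1
    rw [hi, hidx] at h2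
    omega

/-- case (c). -/
theorem case_c {P : Sylow 2 G} (D : Dat (P : Subgroup G) m a t) (hm : 2 ≤ m) (htR : t ∉ Cfsg.pResidual 2 G)
    (htaR : t * a ∉ Cfsg.pResidual 2 G) :
    Nat.card {C : ConjClasses G // ∃ g : G, ConjClasses.mk g = C ∧ orderOf g = 2} = 3 ∧
      Cfsg.HasNormalPComplement 2 G := by
  have hp2 : Fact (Nat.Prime 2) := ⟨Nat.prime_two⟩
  obtain ⟨R, hR⟩ : ∃ R, R = Cfsg.pResidual 2 G := ⟨_, rfl⟩
  have hRn : R.Normal := hR ▸ inferInstance
  rw [← hR] at htR htaR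
  have hF : ∀ x ∈ (P : Subgroup G), x ∈ R → x ∈ zpowers a := by
    intro x hx hxR
    rcases D.eq_of hx with ⟨k, hk⟩ | ⟨k, hk⟩
    · exact ⟨k, hk.symm⟩
    exfalso
    have ha2 : a ^ 2 ∈ R := by
      have h1 : a * x * a⁻¹ * x⁻¹ ∈ R := R.mul_mem (hRn.conj_mem x hxR a) (R.inv_mem hxR)
      have h2 : a * x * a⁻¹ * x⁻¹ = a * (x * a * x⁻¹)⁻¹ := by group
      have h3 : x * a * x⁻¹ = a⁻¹ := by
        rw [hk]
        have : t * a ^ k * a * (t * a ^ k)⁻¹ = t * a * t⁻¹ := by group
        rw [this, D.hta]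
      rw [h2, h3, inv_inv] at h1
      rwa [pow_two]
    have hev : ∀ j : ℤ, a ^ (2 * j) ∈ R := by
      intro j
      rw [zpow_mul]
      exact R.zpow_mem (by exact_mod_cast ha2) j
    rcases Int.even_or_odd k with ⟨j, hj⟩ | ⟨j, hj⟩
    · have h1 : k = 2 * j := by omega
      rw [hk, h1] at hxR
      exact htR ((R.mul_mem_cancel_right (hev j)).1 hxR)
    · rw [hk, hj, add_comm, zpow_add, zpow_one, ← mul_assoc] at hxR
      exact htaR ((R.mul_mem_cancel_right (hev j)).1 hxR)
  have hnpc : Cfsg.HasNormalPComplement 2 G := by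
    obtain ⟨Q, hQ⟩ := H2.Residual.exists_sylow_inf P R
    have hcyc : IsCyclic (Q : Subgroup R) := by
      have h1 : IsCyclic (zpowers a) := inferInstance
      have hle : ∀ y : R, y ∈ (Q : Subgroup R) → (y : G) ∈ (P : Subgroup G) := by
        intro y hy
        rw [hQ] at hy
        exact hy
      let f : (Q : Subgroup R) →* zpowers a :=
        { toFun := fun x => ⟨((x : R) : G), hF _ (hle _ x.2) (x : R).2⟩
          map_one' := rfl
          map_mul' := fun x y => rfl }
      have hf : Function.Injective f := by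
        intro x y hxy
        apply Subtype.ext
        apply Subtype.ext
        exact congrArg (fun w : zpowers a => (w : G)) hxy
      exact isCyclic_of_injective f hf
    have hR2 : Cfsg.HasNormalPComplement 2 R := by
      by_cases h2 : 2 ∣ Nat.card R
      · have h3 : (Nat.card R).minFac = 2 := by
          rw [Nat.minFac_eq_two_iff]; exact h2
        exact ⟨Q, (MonoidHom.transferSylow Q (hcyc.normalizer_le_centralizer h3)).ker, inferInstance,
          hcyc.isComplement' h3⟩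
      · apply H39.PNilp.of_coprime
        exact (Nat.coprime_two_right.2 (Nat.not_even_iff_odd.1 (by rwa [even_iff_two_dvd])))
    apply H39.PNilp.of_normal_of_index R hR2
    rw [hR]
    exact H2.Residual.exists_index_residual
  refine ⟨?_, hnpc⟩
  have hctrl := H2.Fusion.self_control_of_hasNPC hnpc P
  have hz1 : a ^ 2 ^ (m - 1) ∈ zpowers a := pow_mem (mem_zpowers a) _
  have hzP : a ^ 2 ^ (m - 1) ∈ (P : Subgroup G) := pow_mem D.haP _
  have hzt : ∀ t' : G, Dat (P : Subgroup G) m a t' → ConjClasses.mk (a ^ 2 ^ (m - 1)) ≠ ConjClasses.mk t' := by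
    intro t' D' h
    rw [ConjClasses.mk_eq_mk_iff_isConj, isConj_iff] at h
    obtain ⟨g, hg⟩ := h
    obtain ⟨x, hx, hxg⟩ := hctrl _ hzP g (by rw [hg]; exact D'.htP)
    rw [D.central (by omega) hx, hg] at hxg
    apply D'.htn
    rw [← hxg]
    exact hz1
  have htt : ConjClasses.mk t ≠ ConjClasses.mk (t * a) := by
    intro h
    rw [ConjClasses.mk_eq_mk_iff_isConj, isConj_iff] at h
    obtain ⟨g, hg⟩ := h
    obtain ⟨x, hx, hxg⟩ := hctrl _ D.htP g (by rw [hg]; exact D.swap.htP)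
    rw [hg] at hxg
    exact D.not_conj hm hx hxg
  change Nat.card ({C : ConjClasses G | ∃ g : G, ConjClasses.mk g = C ∧ orderOf g = 2} : Set (ConjClasses G)) = 3
  rw [set_eq D (by omega), Nat.card_coe_set_eq, Set.ncard_eq_three]
  exact ⟨_, _, _, hzt t D, hzt (t * a) D.swap, htt, rfl⟩

end main

theorem exists_dat {G : Type*} [Group G] (P : Subgroup G) (m : ℕ) (e : P ≃* DihedralGroup (2 ^ m)) :
    ∃ a t : G, Dat P m a t := by
  have hne : NeZero (2 ^ m) := ⟨by positivity⟩
  have hmem : ∀ i : ZMod (2 ^ m), DihedralGroup.r i ∈ zpowers (DihedralGroup.r 1 : DihedralGroup (2 ^ m)) := by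
    intro i
    refine ⟨(i.val : ℤ), ?_⟩
    change (DihedralGroup.r 1 : DihedralGroup (2 ^ m)) ^ ((i.val : ℕ) : ℤ) = _
    rw [zpow_natCast, DihedralGroup.r_one_pow, ZMod.natCast_zmod_val]
  refine ⟨(e.symm (DihedralGroup.r 1) : G), (e.symm (DihedralGroup.sr 0) : G), ?_, ?_, ?_, ?_, ?_, ?_, ?_⟩
  · exact (e.symm _).2
  · exact (e.symm _).2
  · rw [orderOf_coe]
    have := orderOf_injective e.symm.toMonoidHom e.symm.injective (DihedralGroup.r 1)
    rw [DihedralGroup.orderOf_r_one] at this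
    exact this
  · rw [← Subgroup.coe_mul, ← map_mul]
    simp
  · rw [← Subgroup.coe_mul, ← Subgroup.coe_inv, ← Subgroup.coe_mul, ← map_mul, ← map_inv, ← map_mul, ← Subgroup.coe_inv, ← map_inv]
    simp
  · rintro ⟨k, hk⟩
    change ((e.symm (DihedralGroup.r 1) : P) : G) ^ k = _ at hk
    rw [← Subgroup.coe_zpow, ← map_zpow] at hk
    have h1 := e.symm.injective (Subtype.ext hk)
    rw [DihedralGroup.r_one_zpow] at h1
    cases h1
  · intro x hx
    rcases h : e ⟨x, hx⟩ with i | i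
    · left
      obtain ⟨k, hk⟩ := hmem i
      refine ⟨k, ?_⟩
      change ((e.symm (DihedralGroup.r 1) : P) : G) ^ k = x
      change (DihedralGroup.r 1 : DihedralGroup (2 ^ m)) ^ k = _ at hk
      rw [← Subgroup.coe_zpow, ← map_zpow, hk, ← h, e.symm_apply_apply]
    · right
      obtain ⟨k, hk⟩ := hmem i
      refine ⟨k, ?_⟩
      change ((e.symm (DihedralGroup.r 1) : P) : G) ^ k = _
      change (DihedralGroup.r 1 : DihedralGroup (2 ^ m)) ^ k = _ at hk
      have h2 : x = ((e.symm (DihedralGroup.sr i) : P) : G) := by rw [← h, e.symm_apply_apply]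
      rw [← Subgroup.coe_zpow, ← map_zpow, hk, h2, ← Subgroup.coe_mul, ← map_mul]
      simp

/-- Let G be a finite group whose Sylow 2-subgroups are dihedral of order 2 ^ n with n ≥ 3, and count the conjugacy classes of involutions of G. Then exactly one of the following holds: there is one class of involutions and no normal subgroup of index 2; there are two classes of involutions, a normal subgroup of index 2 and none of index 4; there are three classes of involutions and G has a normal 2-complement. -/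
theorem result {G : Type*} [Group G] [Finite G] (P : Sylow 2 G) (n : ℕ) (hn : 3 ≤ n) (hdih : Nonempty (↥(P : Subgroup G) ≃* DihedralGroup (2 ^ (n - 1)))) : (Nat.card {C : ConjClasses G // ∃ g : G, ConjClasses.mk g = C ∧ orderOf g = 2} = 1 ∧ ∀ N : Subgroup G, N.Normal → N.index ≠ 2) ∨ (Nat.card {C : ConjClasses G // ∃ g : G, ConjClasses.mk g = C ∧ orderOf g = 2} = 2 ∧ (∃ N : Subgroup G, N.Normal ∧ N.index = 2) ∧ ∀ N : Subgroup G, N.Normal → N.index ≠ 4) ∨ (Nat.card {C : ConjClasses G // ∃ g : G, ConjClasses.mk g = C ∧ orderOf g = 2} = 3 ∧ Cfsg.HasNormalPComplement 2 G) := by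
  have hp2 : Fact (Nat.Prime 2) := ⟨Nat.prime_two⟩
  obtain ⟨m, rfl⟩ : ∃ m, n = m + 1 := ⟨n - 1, by omega⟩
  obtain ⟨e⟩ := hdih
  obtain ⟨a, t, D⟩ := exists_dat (P : Subgroup G) m e
  have hm : 2 ≤ m := by omega
  by_cases h1 : t ∈ Cfsg.pResidual 2 G
  · by_cases h2 : t * a ∈ Cfsg.pResidual 2 G
    · left
      apply case_a D hm
      have h3 : (P : Subgroup G) ≤ Cfsg.pResidual 2 G := by
        intro x hx
        have ha : a ∈ Cfsg.pResidual 2 G := ((Cfsg.pResidual 2 G).mul_mem_cancel_left h1).1 h2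
        rcases D.eq_of hx with ⟨k, hk⟩ | ⟨k, hk⟩
        · rw [hk]; exact zpow_mem ha k
        · rw [hk]; exact mul_mem h1 (zpow_mem ha k)
      have h4 := H2.Residual.sylow_sup_residual P
      rwa [sup_eq_right.2 h3] at h4
    · right; left
      exact case_b D hm h1 h2
  · by_cases h2 : t * a ∈ Cfsg.pResidual 2 G
    · right; left
      apply case_b D.swap hm h2
      intro h3
      apply h1
      have hn : (Cfsg.pResidual 2 G).Normal := inferInstance
      have ha2 : a ^ 2 ∈ Cfsg.pResidual 2 G := by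
        have h4 := mul_mem (hn.conj_mem _ h2 a) (inv_mem h2)
        have h5 : a * (t * a) * a⁻¹ * (t * a)⁻¹ = a * (t * a * t⁻¹)⁻¹ := by group
        rw [h5, D.hta, inv_inv] at h4
        rwa [pow_two]
      rw [mul_assoc, ← pow_two] at h3
      exact ((Cfsg.pResidual 2 G).mul_mem_cancel_right ha2).1 h3
    · right; right
      exact case_c D hm h1 h2

end Cfsg.Agent.S3864
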