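import Cfsg.Statements.S3866
import Mathlib

set_option autoImplicit false
open Cfsg

namespace Cfsg.Agent.S3866

/-- Let A be a commutative normal subgroup of the finite group G with G generated by A and an element x. Then a ↦ x a x⁻¹ a⁻¹ is a surjective homomorphism from A onto the commutator subgroup of G whose kernel is the centralizer of x in A; in particular the commutator subgroup has order equal to the index in A of that centralizer. -/
theorem result {G : Type*} [Group G] [Finite G] (A : Subgroup G) [A.Normal] (hA : IsMulCommutative A) (x : G) (hgen : A ⊔ Subgroup.zpowers x = ⊤) : (∀ a ∈ A, x * a * x⁻¹ * a⁻¹ ∈ commutator G) ∧ (∀ c ∈ commutator G, ∃ a ∈ A, x * a * x⁻¹ * a⁻¹ = c) ∧ (∀ a ∈ A, ∀ b ∈ A, x * (a * b) * x⁻¹ * (a * b)⁻¹ = (x * a * x⁻¹ * a⁻¹) * (x * b * x⁻¹ * b⁻¹)) ∧ Nat.card (commutator G) * Nat.card ↥(A ⊓ Subgroup.centralizer ({x} : Set G)) = Nat.card A := by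
  have hAc : ∀ a ∈ A, ∀ b ∈ A, a * b = b * a := fun a ha b hb => by
    have := hA.is_comm.comm (⟨a, ha⟩ : A) ⟨b, hb⟩
    simpa [Subtype.ext_iff] using this
  have hconj : ∀ a ∈ A, ∀ g : G, g * a * g⁻¹ ∈ A := fun a ha g => Subgroup.Normal.conj_mem ‹_› a ha g
  -- every element of G is a * x^n
  have hdec : ∀ g : G, ∃ a ∈ A, ∃ n : ℤ, a * x ^ n = g := by
    intro g
    have hg : g ∈ A ⊔ Subgroup.zpowers x := by rw [hgen]; trivial
    rw [Subgroup.mem_sup_of_normal_left] at hg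
    obtain ⟨a, ha, b, hb, rfl⟩ := hg
    obtain ⟨n, rfl⟩ := Subgroup.mem_zpowers_iff.1 hb
    exact ⟨a, ha, n, rfl⟩
  have hmul : ∀ a ∈ A, ∀ b ∈ A, x * (a * b) * x⁻¹ * (a * b)⁻¹ = (x * a * x⁻¹ * a⁻¹) * (x * b * x⁻¹ * b⁻¹) := by
    intro a ha b hb
    have h1 : x * (a * b) * x⁻¹ * (a * b)⁻¹ = (x * a * x⁻¹) * ((x * b * x⁻¹) * b⁻¹ * a⁻¹) := by group
    have h2 : (x * b * x⁻¹) * b⁻¹ * a⁻¹ = a⁻¹ * ((x * b * x⁻¹) * b⁻¹) :=
      hAc _ (mul_mem (hconj b hb x) (inv_mem hb)) _ (inv_mem ha)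
    rw [h1, h2]; group
  -- the homomorphism
  let f : A →* G :=
    { toFun := fun a => x * a * x⁻¹ * (a : G)⁻¹
      map_one' := by simp
      map_mul' := fun a b => by simpa using hmul a a.2 b b.2 }
  have hfA : ∀ a : A, f a ∈ A := fun a => mul_mem (hconj a a.2 x) (inv_mem a.2)
  set R : Subgroup G := f.range with hR
  have hRA : R ≤ A := by rintro _ ⟨a, rfl⟩; exact hfA a
  have hmem : ∀ a ∈ A, x * a * x⁻¹ * a⁻¹ ∈ R := fun a ha => ⟨⟨a, ha⟩, rfl⟩
  -- R is normal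
  have hRx : ∀ c ∈ R, x * c * x⁻¹ ∈ R := by
    rintro _ ⟨a, rfl⟩
    refine ⟨⟨x * a * x⁻¹, hconj a a.2 x⟩, ?_⟩
    change x * (x * a * x⁻¹) * x⁻¹ * (x * a * x⁻¹)⁻¹ = x * (x * a * x⁻¹ * (a : G)⁻¹) * x⁻¹
    group
  have hRx' : ∀ c ∈ R, x⁻¹ * c * x ∈ R := by
    rintro _ ⟨a, rfl⟩
    refine ⟨⟨x⁻¹ * a * x, by simpa using hconj a a.2 x⁻¹⟩, ?_⟩
    change x * (x⁻¹ * a * x) * x⁻¹ * (x⁻¹ * a * x)⁻¹ = x⁻¹ * (x * a * x⁻¹ * (a : G)⁻¹) * x
    group
  have hRxn : ∀ n : ℤ, ∀ c ∈ R, x ^ n * c * (x ^ n)⁻¹ ∈ R := by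
    intro n
    induction n using Int.induction_on with
    | zero => intro c hc; simpa using hc
    | succ n ih =>
      intro c hc
      have := ih _ (hRx c hc)
      have e : x ^ ((n : ℤ) + 1) * c * (x ^ ((n : ℤ) + 1))⁻¹ = x ^ (n : ℤ) * (x * c * x⁻¹) * (x ^ (n : ℤ))⁻¹ := by
        rw [zpow_add_one]; group
      rw [e]; exact this
    | pred n ih =>
      intro c hc
      have := ih _ (hRx' c hc)
      have e : x ^ (-(n : ℤ) - 1) * c * (x ^ (-(n : ℤ) - 1))⁻¹ = x ^ (-(n : ℤ)) * (x⁻¹ * c * x) * (x ^ (-(n : ℤ)))⁻¹ := by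
        rw [zpow_sub_one]; group
      rw [e]; exact this
  have hRn : R.Normal := by
    refine ⟨fun c hc g => ?_⟩
    obtain ⟨a, ha, n, rfl⟩ := hdec g
    have h1 := hRxn n c hc
    have h2 : a * x ^ n * c * (a * x ^ n)⁻¹ = a * (x ^ n * c * (x ^ n)⁻¹) * a⁻¹ := by group
    rw [h2, hAc a ha _ (hRA h1)]
    simpa using h1
  -- commutators lie in R : quotient is commutative
  have hcomm : commutator G ≤ R := by
    rw [← QuotientGroup.ker_mk' R]
    have hax : ∀ a ∈ A, (x : G ⧸ R) * (a : G ⧸ R) = a * x := by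
      intro a ha
      rw [← QuotientGroup.mk_mul, ← QuotientGroup.mk_mul, eq_comm, QuotientGroup.eq]
      have := hRx' _ (hRx' _ (hmem a ha))
      have h3 : (a * x)⁻¹ * (x * a) ∈ R := by
        have h4 := hRn.conj_mem _ (hmem a ha) (a * x)⁻¹
        have h5 : (a * x)⁻¹ * (x * a * x⁻¹ * a⁻¹) * (a * x)⁻¹⁻¹ = (a * x)⁻¹ * (x * a) := by group
        rwa [h5] at h4
      exact h3
    have hcommQ : ∀ g h : G ⧸ R, g * h = h * g := by
      intro g h
      obtain ⟨g, rfl⟩ := QuotientGroup.mk_surjective g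
      obtain ⟨h, rfl⟩ := QuotientGroup.mk_surjective h
      obtain ⟨a, ha, n, rfl⟩ := hdec g
      obtain ⟨b, hb, m, rfl⟩ := hdec h
      have c1 : Commute (a : G ⧸ R) (b : G ⧸ R) := by
        change (a : G ⧸ R) * b = b * a
        rw [← QuotientGroup.mk_mul, ← QuotientGroup.mk_mul, hAc a ha b hb]
      have c2 : Commute (x : G ⧸ R) (a : G ⧸ R) := hax a ha
      have c3 : Commute (x : G ⧸ R) (b : G ⧸ R) := hax b hb
      rw [QuotientGroup.mk_mul, QuotientGroup.mk_mul, QuotientGroup.mk_zpow, QuotientGroup.mk_zpow]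
      have d1 : Commute ((a : G ⧸ R) * (x : G ⧸ R) ^ n) (b : G ⧸ R) := c1.mul_left (c3.zpow_left n)
      have d2 : Commute ((a : G ⧸ R) * (x : G ⧸ R) ^ n) ((x : G ⧸ R) ^ m) :=
        (c2.symm.zpow_right m).mul_left ((Commute.refl _).zpow_zpow n m)
      exact d1.mul_right d2
    rw [commutator_def, Subgroup.commutator_le]
    intro g _ h _
    rw [MonoidHom.mem_ker, map_commutatorElement, commutatorElement_eq_one_iff_mul_comm]
    exact hcommQ _ _
  have hRcomm : R ≤ commutator G := by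
    rintro _ ⟨a, rfl⟩
    exact Subgroup.commutator_mem_commutator (Subgroup.mem_top x) (Subgroup.mem_top (a : G))
  have hEq : commutator G = R := le_antisymm hcomm hRcomm
  refine ⟨fun a ha => hRcomm (hmem a ha), ?_, hmul, ?_⟩
  · intro c hc
    obtain ⟨a, rfl⟩ := hcomm hc
    exact ⟨a, a.2, rfl⟩
  · rw [hEq]
    have h1 : Nat.card R * Nat.card f.ker = Nat.card A := by
      rw [hR, ← Subgroup.index_ker, mul_comm, Subgroup.card_mul_index]
    rw [← h1]
    congr 1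
    apply Nat.card_congr
    refine ⟨fun y => ⟨⟨y, y.2.1⟩, ?_⟩, fun y => ⟨y.1, y.1.2, ?_⟩, fun _ => rfl, fun _ => rfl⟩
    · rw [MonoidHom.mem_ker]
      change x * y * x⁻¹ * (y : G)⁻¹ = 1
      have := (Subgroup.mem_centralizer_iff.1 y.2.2) x rfl
      rw [this]; group
    · have h2 : x * (y.1 : G) * x⁻¹ * (y.1 : G)⁻¹ = 1 := MonoidHom.mem_ker.1 y.2
      change (y.1 : G) ∈ Subgroup.centralizer ({x} : Set G)
      rw [Subgroup.mem_centralizer_iff]
      intro h hh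
      rw [Set.mem_singleton_iff] at hh
      rw [hh]
      have h3 : x * (y.1 : G) = 1 * (y.1 : G) * x := by rw [← h2]; group
      rw [h3, one_mul]

end Cfsg.Agent.S3866
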