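import Cfsg.Statements.S3867
import Mathlib

set_option autoImplicit false
open Cfsg

namespace Cfsg.Agent.S3867

theorem card_sylow_quotient {G : Type*} [Group G] [Finite G] (p : ℕ) [Fact p.Prime] (P : Sylow p G)
    (N : Subgroup G) [N.Normal] :
    Nat.card (Sylow p (G ⧸ N)) = (Subgroup.normalizer (((P : Subgroup G) ⊔ N : Subgroup G) : Set G)).index := by
  have hs : Function.Surjective (QuotientGroup.mk' N) := QuotientGroup.mk'_surjective N
  let Q : Sylow p (G ⧸ N) := P.mapSurjective hs
  rw [Sylow.card_eq_index_normalizer Q]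
  have hQ : ((Q : Subgroup (G ⧸ N))) = (P : Subgroup G).map (QuotientGroup.mk' N) := rfl
  have hc : Subgroup.comap (QuotientGroup.mk' N) (Q : Subgroup (G ⧸ N)) = (P : Subgroup G) ⊔ N := by
    rw [hQ, Subgroup.comap_map_eq, QuotientGroup.ker_mk']
  have hn : Subgroup.normalizer (((P : Subgroup G) ⊔ N : Subgroup G) : Set G)
      = (Subgroup.normalizer ((Q : Subgroup (G ⧸ N)) : Set (G ⧸ N))).comap (QuotientGroup.mk' N) := by
    rw [← hc]
    exact (Subgroup.comap_normalizer_eq_of_surjective _ hs).symm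
  rw [hn, Subgroup.index_comap_of_surjective _ hs]
  rfl

theorem normalizer_sup {G : Type*} [Group G] [Finite G] (p : ℕ) [Fact p.Prime] (P : Sylow p G)
    (N : Subgroup G) [N.Normal] :
    Subgroup.normalizer (((P : Subgroup G) ⊔ N : Subgroup G) : Set G) =
      Subgroup.normalizer ((P : Subgroup G) : Set G) ⊔ N := by
  apply le_antisymm
  · intro g hg
    set Y := (P : Subgroup G) ⊔ N with hY
    have hPY : (P : Subgroup G) ≤ Y := le_sup_left
    have hgY : ((g • P : Sylow p G) : Subgroup G) ≤ Y := by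
      rw [Sylow.coe_subgroup_smul]
      intro x hx
      rw [Subgroup.mem_pointwise_smul_iff_inv_smul_mem] at hx
      have h1 := hPY hx
      have h2 := (Subgroup.mem_normalizer_iff.1 hg _).1 h1
      simpa [MulAut.smul_def, mul_assoc] using h2
    obtain ⟨y, hy⟩ := MulAction.exists_smul_eq Y (P.subtype hPY) ((g • P).subtype hgY)
    rw [Sylow.smul_subtype] at hy
    have h3 : (y : Y) • P = g • P := Sylow.subtype_injective hy
    have h4 : ((y : G)⁻¹ * g) • P = P := by
      rw [mul_smul, ← h3]
      exact inv_smul_smul (y : G) P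
    rw [Sylow.smul_eq_iff_mem_normalizer] at h4
    have h5 : (y : G) ∈ Subgroup.normalizer ((P : Subgroup G) : Set G) ⊔ N :=
      (sup_le_sup_right Subgroup.le_normalizer N) y.2
    have h6 := mul_mem h5 ((le_sup_left : _ ≤ Subgroup.normalizer ((P : Subgroup G) : Set G) ⊔ N) h4)
    simpa using h6
  · refine sup_le ?_ (le_sup_right.trans Subgroup.le_normalizer)
    intro g hg
    rw [Subgroup.mem_normalizer_iff] at hg ⊢
    intro x
    have h1 : ∀ g' : G, (∀ h, h ∈ (P : Subgroup G) ↔ g' * h * g'⁻¹ ∈ (P : Subgroup G)) →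
        ∀ x ∈ (P : Subgroup G) ⊔ N, g' * x * g'⁻¹ ∈ (P : Subgroup G) ⊔ N := by
      intro g' hg' x hx
      rw [Subgroup.mem_sup_of_normal_right] at hx ⊢
      obtain ⟨a, ha, b, hb, rfl⟩ := hx
      exact ⟨g' * a * g'⁻¹, (hg' a).1 ha, g' * b * g'⁻¹, Subgroup.Normal.conj_mem ‹_› b hb g', by group⟩
    constructor
    · exact h1 g hg x
    · intro hx
      have h2 := h1 g⁻¹ (fun h => by
        have := (hg (g⁻¹ * h * g⁻¹⁻¹))
        rw [this]; simp [mul_assoc]) _ hx
      simpa [mul_assoc] using h2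

theorem card_mul_relIndex' {G : Type*} [Group G] {H K : Subgroup G} (h : H ≤ K) :
    Nat.card H * H.relIndex K = Nat.card K := by
  rw [← Subgroup.relIndex_bot_left, ← Subgroup.relIndex_bot_left]
  exact Subgroup.relIndex_mul_relIndex _ _ _ bot_le h

theorem relIndex_sup_normal {G : Type*} [Group G] [Finite G] (H K : Subgroup G) [K.Normal] :
    H.relIndex (H ⊔ K) = H.relIndex K := by
  have e1 : H.relIndex (H ⊔ K) * Nat.card H = Nat.card (H ⊔ K : Subgroup G) := by
    rw [mul_comm]; exact card_mul_relIndex' le_sup_left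
  have e2 : K.relIndex (H ⊔ K) * Nat.card K = Nat.card (H ⊔ K : Subgroup G) := by
    rw [mul_comm]; exact card_mul_relIndex' le_sup_right
  have e3 : K.relIndex (H ⊔ K) = K.relIndex H := by
    rw [Subgroup.relIndex_sup_right]
  have e4 : K.relIndex H * Nat.card (K ⊓ H : Subgroup G) = Nat.card H := by
    rw [← Subgroup.inf_relIndex_right K H, mul_comm]; exact card_mul_relIndex' inf_le_right
  have e5 : H.relIndex K * Nat.card (H ⊓ K : Subgroup G) = Nat.card K := by
    rw [← Subgroup.inf_relIndex_right H K, mul_comm]; exact card_mul_relIndex' inf_le_right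
  rw [inf_comm K H] at e4
  have hpos : 0 < K.relIndex H := Nat.pos_of_ne_zero (by
    intro h; rw [h, zero_mul] at e4; exact Nat.card_pos.ne e4)
  have hpos2 : 0 < Nat.card (H ⊓ K : Subgroup G) := Nat.card_pos
  rw [e3, ← e5, ← e1, ← e4] at e2
  have : (K.relIndex H * Nat.card (H ⊓ K : Subgroup G)) * H.relIndex K =
      (K.relIndex H * Nat.card (H ⊓ K : Subgroup G)) * H.relIndex (H ⊔ K) := by
    linarith
  exact (Nat.eq_of_mul_eq_mul_left (Nat.mul_pos hpos hpos2) this).symm

/-- Let M and N be nontrivial normal subgroups of the finite group G with M ⊓ N trivial, and let p be a prime. Writing n(X) for the number of Sylow p-subgroups of a group X, one has n(G) · n(G/MN) = n(G/M) · n(G/N). -/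
theorem result {G : Type*} [Group G] [Finite G] (p : ℕ) [Fact p.Prime] (M N : Subgroup G) [M.Normal] [N.Normal] (hM : M ≠ ⊥) (hN : N ≠ ⊥) (hMN : M ⊓ N = ⊥) : Nat.card (Sylow p G) * Nat.card (Sylow p (G ⧸ (M ⊔ N))) = Nat.card (Sylow p (G ⧸ M)) * Nat.card (Sylow p (G ⧸ N)) := by
  obtain ⟨P⟩ := (Sylow.nonempty : Nonempty (Sylow p G))
  rw [Sylow.card_eq_index_normalizer P, card_sylow_quotient p P, card_sylow_quotient p P,
    card_sylow_quotient p P]
  set A := Subgroup.normalizer ((P : Subgroup G) : Set G) with hA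
  -- index of A in A ⊔ M
  have h1 : A.index = A.relIndex M * (Subgroup.normalizer (((P : Subgroup G) ⊔ M : Subgroup G) : Set G)).index := by
    rw [normalizer_sup p P M, ← hA, ← relIndex_sup_normal A M, Subgroup.relIndex_mul_index le_sup_left]
  set B := Subgroup.normalizer (((P : Subgroup G) ⊔ N : Subgroup G) : Set G) with hB
  have hB' : B = A ⊔ N := normalizer_sup p P N
  have h2 : B.index = B.relIndex M *
      (Subgroup.normalizer (((P : Subgroup G) ⊔ (M ⊔ N) : Subgroup G) : Set G)).index := by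
    have : Subgroup.normalizer (((P : Subgroup G) ⊔ (M ⊔ N) : Subgroup G) : Set G) = B ⊔ M := by
      rw [normalizer_sup p P (M ⊔ N), hB', ← hA, sup_comm M N, sup_assoc]
    rw [this, ← relIndex_sup_normal B M, Subgroup.relIndex_mul_index le_sup_left]
  have h3 : A ⊓ M = B ⊓ M := by
    apply le_antisymm
    · apply inf_le_inf_right
      rw [hB']; exact le_sup_left
    · refine le_inf ?_ inf_le_right
      intro m hm
      obtain ⟨hmB, hmM⟩ := Subgroup.mem_inf.1 hm
      -- M ⊓ (P ⊔ N) ≤ P
      have h4 : M ⊓ ((P : Subgroup G) ⊔ N) ≤ P := by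
        have hinf : ∀ x ∈ (M ⊓ ((P : Subgroup G) ⊔ N) : Subgroup G), x ∈ N → x = 1 := by
          intro x hx hxN
          have : x ∈ M ⊓ N := ⟨hx.1, hxN⟩
          rw [hMN] at this; exact this
        have hpg : IsPGroup p (M ⊓ ((P : Subgroup G) ⊔ N) : Subgroup G) := by
          rintro ⟨x, hx⟩
          obtain ⟨hxM, hxPN⟩ := Subgroup.mem_inf.1 hx
          rw [Subgroup.mem_sup_of_normal_right] at hxPN
          obtain ⟨a, ha, b, hb, hab⟩ := hxPN
          obtain ⟨k, hk⟩ := P.isPGroup' ⟨a, ha⟩
          refine ⟨k, ?_⟩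
          have hk' : a ^ p ^ k = 1 := by simpa [Subtype.ext_iff] using hk
          apply Subtype.ext
          simp only [SubmonoidClass.mk_pow, OneMemClass.coe_one]
          apply hinf
          · exact pow_mem hx _
          · rw [← QuotientGroup.eq_one_iff, ← hab]
            have : (b : G ⧸ N) = 1 := (QuotientGroup.eq_one_iff b).2 hb
            rw [QuotientGroup.mk_pow, QuotientGroup.mk_mul, this, mul_one, ← QuotientGroup.mk_pow, hk']
            rfl
        -- the subgroup generated by P and this normal (in P ⊔ N) p-subgroup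
        have hnorm : (P : Subgroup G) ≤ Subgroup.normalizer ((M ⊓ ((P : Subgroup G) ⊔ N) : Subgroup G) : Set G) := by
          intro g hg
          have key : ∀ g ∈ (P : Subgroup G), ∀ x ∈ (M ⊓ ((P : Subgroup G) ⊔ N) : Subgroup G),
              g * x * g⁻¹ ∈ (M ⊓ ((P : Subgroup G) ⊔ N) : Subgroup G) := by
            intro g hg x hx
            have hgPN : g ∈ (P : Subgroup G) ⊔ N := (le_sup_left : (P : Subgroup G) ≤ _) hg
            exact Subgroup.mem_inf.2 ⟨Subgroup.Normal.conj_mem ‹_› x hx.1 g, mul_mem (mul_mem hgPN (Subgroup.mem_inf.1 hx).2) (inv_mem hgPN)⟩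
          rw [Subgroup.mem_normalizer_iff]
          intro x
          refine ⟨key g hg x, fun h => ?_⟩
          have := key g⁻¹ (Subgroup.inv_mem _ hg) _ h
          simpa [mul_assoc] using this
        have := IsPGroup.to_sup_of_normal_right' P.isPGroup' hpg hnorm
        have h5 := P.is_maximal' this le_sup_left
        intro x hx
        have h6 := (le_sup_right : _ ≤ (P : Subgroup G) ⊔ (M ⊓ ((P : Subgroup G) ⊔ N))) hx
        rw [h5] at h6
        exact h6
      have key : ∀ m' ∈ M, m' ∈ B → ∀ x ∈ (P : Subgroup G), m' * x * m'⁻¹ ∈ (P : Subgroup G) := by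
        intro m' hm' hmB' x hx
        have hxPN : x ∈ (P : Subgroup G) ⊔ N := (le_sup_left : (P : Subgroup G) ≤ _) hx
        have h7 : m' * x * m'⁻¹ ∈ (P : Subgroup G) ⊔ N := (Subgroup.mem_normalizer_iff.1 hmB' x).1 hxPN
        have h8 : m' * x * m'⁻¹ * x⁻¹ ∈ M ⊓ ((P : Subgroup G) ⊔ N) := by
          refine Subgroup.mem_inf.2 ⟨?_, mul_mem h7 (inv_mem hxPN)⟩
          have : m' * x * m'⁻¹ * x⁻¹ = m' * (x * m'⁻¹ * x⁻¹) := by group
          rw [this]
          exact mul_mem hm' (Subgroup.Normal.conj_mem ‹_› _ (inv_mem hm') x)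
        have h9 := mul_mem (h4 h8) hx
        simpa using h9
      rw [hA, Subgroup.mem_normalizer_iff]
      intro x
      refine ⟨key m hmM hmB x, fun h => ?_⟩
      have := key m⁻¹ (Subgroup.inv_mem _ hmM) (Subgroup.inv_mem _ hmB) _ h
      simpa [mul_assoc] using this
  have h5 : A.relIndex M = B.relIndex M := by
    rw [← Subgroup.inf_relIndex_right A M, h3, Subgroup.inf_relIndex_right]
  change A.index * _ = _ * B.index
  rw [h1, h2, h5]
  ring

end Cfsg.Agent.S3867
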