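import Cfsg.Statements.S3878
import Mathlib
import Cfsg.Agent.S0713

set_option autoImplicit false
open Cfsg

namespace Cfsg.Agent.S3878

open Subgroup
open scoped Pointwise

/-- there are cycles of each length. -/
theorem exists_cycle {n m : ℕ} (hm : 2 ≤ m) (hmn : m ≤ n) :
    ∃ c : Equiv.Perm (Fin n), c.IsCycle ∧ c.support.card = m := by
  obtain ⟨c, hc⟩ := (Equiv.Perm.exists_with_cycleType_iff (Fin n) (m := {m})).2 (by simpa using ⟨hmn, hm⟩)
  refine ⟨c, ?_, ?_⟩
  · rw [← Equiv.Perm.card_cycleType_eq_one, hc]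
    simp
  · rw [← Equiv.Perm.sum_cycleType, hc]
    simp

theorem orderOf_conj' {G : Type*} [Group G] (x g : G) : orderOf (g * x * g⁻¹) = orderOf x := by
  have := orderOf_injective (MulAut.conj g).toMonoidHom (MulAut.conj g).injective x
  simpa using this

/-- a `p`-element has a conjugate in a subgroup of index prime to `p`. -/
theorem exists_conj_mem {G : Type*} [Group G] [Finite G] {p : ℕ} [hp : Fact p.Prime] (H : Subgroup G)
    (hH : ¬ p ∣ H.index) {x : G} {k : ℕ} (hx : orderOf x = p ^ k) : ∃ g : G, g * x * g⁻¹ ∈ H := by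
  obtain ⟨P⟩ : Nonempty (Sylow p H) := inferInstance
  have h1 : IsPGroup p ((P : Subgroup H).map H.subtype) := P.2.map _
  obtain ⟨Q, hQ⟩ := h1.exists_le_sylow
  have hcard : Nat.card ((P : Subgroup H).map H.subtype) = Nat.card (Q : Subgroup G) := by
    rw [Subgroup.card_map_of_injective H.subtype_injective, P.card_eq_multiplicity, Q.card_eq_multiplicity]
    congr 1
    rw [← H.card_mul_index, Nat.factorization_mul Nat.card_pos.ne' H.index_ne_zero_of_finite]
    simp [Nat.factorization_eq_zero_of_not_dvd hH]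
  have h2 : (P : Subgroup H).map H.subtype = Q := eq_of_le_of_card_ge hQ hcard.ge
  have h3 : IsPGroup p (zpowers x) := IsPGroup.of_card (n := k) (by rw [Nat.card_zpowers, hx])
  obtain ⟨R, hR⟩ := h3.exists_le_sylow
  obtain ⟨g, hg⟩ := MulAction.exists_smul_eq G R Q
  refine ⟨g, ?_⟩
  have h4 : g * x * g⁻¹ ∈ (Q : Subgroup G) := by
    rw [← hg, Sylow.coe_subgroup_smul]
    exact Subgroup.smul_mem_pointwise_smul x (MulAut.conj g) _ (hR (mem_zpowers x))
  rw [← h2] at h4
  obtain ⟨y, -, hy⟩ := h4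
  rw [← hy]
  exact y.2

/-- the conjugate of a cycle. -/
theorem exists_cycle_mem {n : ℕ} {p : ℕ} [hp : Fact p.Prime] (H : Subgroup (Equiv.Perm (Fin n)))
    (hH : ¬ p ∣ H.index) {k : ℕ} (hk : k ≠ 0) (hkn : p ^ k ≤ n) :
    ∃ c ∈ H, c.IsCycle ∧ c.support.card = p ^ k := by
  obtain ⟨c, hc, hcs⟩ := exists_cycle (m := p ^ k) (n := n) (hp.out.two_le.trans (Nat.le_self_pow hk p)) hkn
  have ho : orderOf c = p ^ k := by rw [hc.orderOf, hcs]
  obtain ⟨g, hg⟩ := exists_conj_mem H hH ho
  refine ⟨g * c * g⁻¹, hg, hc.conj, ?_⟩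
  rw [Equiv.Perm.card_support_conj, hcs]

theorem isPretransitive_of_cycle {n : ℕ} (H : Subgroup (Equiv.Perm (Fin n))) {c : Equiv.Perm (Fin n)} (hcH : c ∈ H)
    (hc : c.IsCycle) (hs : c.support.card = n) : MulAction.IsPretransitive H (Fin n) := by
  have hu : c.support = Finset.univ := by
    rw [← Finset.card_eq_iff_eq_univ, hs, Fintype.card_fin]
  refine ⟨fun x y => ?_⟩
  have hx : c x ≠ x := by
    rw [← Equiv.Perm.mem_support, hu]; exact Finset.mem_univ _
  have hy : c y ≠ y := by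
    rw [← Equiv.Perm.mem_support, hu]; exact Finset.mem_univ _
  obtain ⟨i, hi⟩ := hc.exists_zpow_eq hx hy
  exact ⟨⟨c ^ i, H.zpow_mem hcH i⟩, hi⟩

/-- the primitivity argument. -/
theorem isPreprimitive_of_cycle {n p q a j : ℕ} (hp : p.Prime) (hq : q.Prime) (hqp : q < p) (hn : n = p ^ a)
    (H : Subgroup (Equiv.Perm (Fin n))) (ht : MulAction.IsPretransitive H (Fin n))
    {c : Equiv.Perm (Fin n)} (hcH : c ∈ H) (hc : c.IsCycle) (hs : c.support.card = q ^ j)
    (hjn : n < q ^ (j + 1)) : MulAction.IsPreprimitive H (Fin n) := by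
  classical
  refine { ht with isTrivialBlock_of_isBlock := ?_ }
  intro B hB
  by_contra hnt
  rw [MulAction.IsTrivialBlock, not_or] at hnt
  obtain ⟨hns, hnu⟩ := hnt
  have hBne : B.Nonempty := by
    rw [Set.nonempty_iff_ne_empty]
    rintro rfl
    exact hns Set.subsingleton_empty
  have hdvd : B.ncard ∣ p ^ a := by
    have := hB.ncard_dvd_card hBne
    rw [Nat.card_eq_fintype_card, Fintype.card_fin] at this
    exact this.trans (dvd_of_eq hn)
  obtain ⟨i, hia, hi⟩ := (Nat.dvd_prime_pow hp).1 hdvd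
  have hi0 : i ≠ 0 := by
    rintro rfl
    rw [pow_zero, Set.ncard_eq_one] at hi
    obtain ⟨x, rfl⟩ := hi
    exact hns Set.subsingleton_singleton
  have hia' : i < a := by
    apply lt_of_le_of_ne hia
    rintro rfl
    apply hnu
    apply Set.eq_of_subset_of_ncard_le (Set.subset_univ B)
    rw [Set.ncard_univ, Nat.card_eq_fintype_card, Fintype.card_fin, hi]
    exact hn.le
  have hpB : B.ncard * p ≤ n := by
    rw [hi, hn, ← pow_succ]
    exact Nat.pow_le_pow_right hp.pos hia'
  -- the block system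
  have hsys := hB.isBlockSystem hBne
  have key : ∀ t ∈ Set.range (fun g : H => g • B), ((c.support : Set (Fin n)) ∩ t).ncard = 0 ∨ ((c.support : Set (Fin n)) ∩ t).ncard = B.ncard := by
    rintro t ⟨g, rfl⟩
    have htB : MulAction.IsBlock H (g • B) := hB.translate g
    have htc : (g • B).ncard = B.ncard :=
      Set.ncard_image_of_injective B (MulAction.injective g)
    by_cases hfix : ∃ y ∈ g • B, c y = y
    · obtain ⟨y, hy, hcy⟩ := hfix
      left
      rw [Set.ncard_eq_zero]
      rw [Set.eq_empty_iff_forall_notMem]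
      rintro z ⟨hz1, hz2⟩
      -- all of the support of `c` is in the block
      have hinv : ∀ k : ℤ, ∀ w ∈ g • B, (c ^ k) w ∈ g • B := by
        intro k w hw
        have hck : (c ^ k) y = y := Equiv.Perm.zpow_apply_eq_self_of_apply_eq_self hcy k
        have h1 : ((⟨c ^ k, H.zpow_mem hcH k⟩ : H) • (g • B)) = g • B := by
          apply htB.smul_eq_of_nonempty
          exact ⟨y, ⟨y, hy, hck⟩, hy⟩
        rw [← h1]
        exact ⟨w, hw, rfl⟩
      have hsub : (c.support : Set (Fin n)) ⊆ g • B := by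
        intro w hw
        obtain ⟨k, hk⟩ := hc.exists_zpow_eq (Equiv.Perm.mem_support.1 (Finset.mem_coe.1 hz1)) (Equiv.Perm.mem_support.1 (Finset.mem_coe.1 hw))
        rw [← hk]
        exact hinv k z hz2
      have h2 : q ^ j ≤ B.ncard := by
        rw [← htc, ← hs, ← Set.ncard_coe_finset]
        exact Set.ncard_le_ncard hsub (Set.toFinite _)
      have h3 : q ^ (j + 1) ≤ B.ncard * q := by
        rw [pow_succ]
        exact Nat.mul_le_mul_right q h2
      have h4 : B.ncard * q ≤ B.ncard * p := Nat.mul_le_mul_left _ hqp.le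
      omega
    · right
      push Not at hfix
      have h1 : (c.support : Set (Fin n)) ∩ g • B = g • B := by
        rw [Set.inter_eq_right]
        intro y hy
        exact Finset.mem_coe.2 (Equiv.Perm.mem_support.2 (hfix y hy))
      rw [h1, htc]
  have hsum := hsys.1.ncard_eq_finsum (c.support : Set (Fin n))
  have hBdvd : B.ncard ∣ q ^ j := by
    rw [← hs, ← Set.ncard_coe_finset, hsum, finsum_eq_sum_of_fintype]
    apply Finset.dvd_sum
    rintro ⟨t, ht⟩ -
    rcases key t ht with h | h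
    · rw [h]; exact dvd_zero _
    · rw [h]
  have hpd : p ∣ q ^ j := (dvd_pow_self p hi0).trans (hi ▸ hBdvd)
  have := (Nat.prime_dvd_prime_iff_eq hp hq).1 (hp.dvd_of_dvd_pow hpd)
  omega

theorem not_E {π : Set ℕ} {p q r : ℕ} (hp : p.Prime) (hq : q.Prime) (hr : r.Prime) (hqp : q < p) (hpπ : p ∈ π)
    (hqπ : q ∈ π) (hrπ : r ∉ π) : ∃ n : ℕ, ¬ Cfsg.IsEPiGroup π (Equiv.Perm (Fin n)) := by
  have hpF : Fact p.Prime := ⟨hp⟩
  have hqF : Fact q.Prime := ⟨hq⟩
  obtain ⟨a, ha⟩ : ∃ a, a = q + r + 5 := ⟨_, rfl⟩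
  obtain ⟨n, hn⟩ : ∃ n, n = p ^ a := ⟨_, rfl⟩
  have han : a < n := by rw [hn]; exact Nat.lt_pow_self hp.one_lt
  refine ⟨n, ?_⟩
  rintro ⟨H, hH1, hH2⟩
  -- transitive
  obtain ⟨c, hcH, hc, hcs⟩ := exists_cycle_mem (p := p) H (hH2 p hp hpπ) (k := a) (by omega) hn.ge
  have ht := isPretransitive_of_cycle H hcH hc (hcs.trans hn.symm)
  -- primitive
  obtain ⟨j, hj⟩ : ∃ j, j = Nat.log q n := ⟨_, rfl⟩
  have hj1 : q ^ j ≤ n := by rw [hj]; exact Nat.pow_log_le_self q (by omega)
  have hj2 : n < q ^ (j + 1) := by rw [hj]; exact Nat.lt_pow_succ_log_self hq.one_lt n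
  have hj0 : j ≠ 0 := by
    rintro rfl
    rw [zero_add, pow_one] at hj2
    omega
  obtain ⟨d, hdH, hd, hds⟩ := exists_cycle_mem (p := q) H (hH2 q hq hqπ) (k := j) hj0 hj1
  have hprim := isPreprimitive_of_cycle hp hq hqp hn H ht hdH hd hds hj2
  -- a cycle of length q
  obtain ⟨e, heH, he, hes⟩ := exists_cycle_mem (p := q) H (hH2 q hq hqπ) (k := 1) one_ne_zero (by rw [pow_one]; omega)
  rw [pow_one] at hes
  have halt := Cfsg.Agent.S0713.result H hprim hq (by rw [Fintype.card_fin]; omega) (by rw [Fintype.card_fin]; omega) he hes heH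
  -- order
  apply hrπ
  apply hH1 r hr
  have h1 : Nat.card (alternatingGroup (Fin n)) ∣ Nat.card H := card_dvd_of_le halt
  apply dvd_trans _ h1
  have hnt : Nontrivial (Fin n) := Fin.nontrivial_iff_two_le.2 (by omega)
  have h2 : 2 * Nat.card (alternatingGroup (Fin n)) = n.factorial := by
    rw [Nat.card_eq_fintype_card, two_mul_card_alternatingGroup, Fintype.card_perm, Fintype.card_fin]
  by_cases hr2 : r = 2
  · have h3 : 4 ∣ n.factorial := Nat.dvd_factorial (by norm_num) (by omega)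
    rw [← h2] at h3
    rw [hr2]
    omega
  · have h3 : r ∣ n.factorial := Nat.dvd_factorial hr.pos (by omega)
    rw [← h2] at h3
    rcases (Nat.Prime.dvd_mul hr).1 h3 with h | h
    · exact absurd ((Nat.prime_dvd_prime_iff_eq hr Nat.prime_two).1 h) hr2
    · exact h

theorem E_of_D {π : Set ℕ} {G : Type*} [Group G] [Finite G] (h : Cfsg.IsDPiGroup π G) : Cfsg.IsEPiGroup π G := by
  have hex : ∀ K : Subgroup G, Cfsg.IsPiSubgroup π K → ∃ H, K ≤ H ∧ Maximal (Cfsg.IsPiSubgroup π) H := by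
    intro K hK
    obtain ⟨H, hH, hmax⟩ := (Set.toFinite {H : Subgroup G | Cfsg.IsPiSubgroup π H}).exists_le_maximal hK
    exact ⟨H, hH, hmax⟩
  have hbot : Cfsg.IsPiSubgroup π (⊥ : Subgroup G) := by
    intro p hp hd
    rw [card_bot] at hd
    exact absurd (Nat.dvd_one.1 hd) hp.ne_one
  obtain ⟨H, -, hH⟩ := hex ⊥ hbot
  refine ⟨H, hH.prop, ?_⟩
  intro p hp hpπ
  have hpF : Fact p.Prime := ⟨hp⟩
  obtain ⟨P⟩ : Nonempty (Sylow p G) := inferInstance
  have hP : Cfsg.IsPiSubgroup π (P : Subgroup G) := by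
    intro r hr hrd
    obtain ⟨k, hk⟩ := IsPGroup.iff_card.1 P.2
    rw [hk] at hrd
    rw [(Nat.prime_dvd_prime_iff_eq hr hp).1 (hr.dvd_of_dvd_pow hrd)]
    exact hpπ
  obtain ⟨K, hPK, hK⟩ := hex P hP
  obtain ⟨g, hg⟩ := h H K hH hK
  have hcard : Nat.card K = Nat.card H := by
    rw [hg]
    exact Subgroup.card_map_of_injective (MulAut.conj g).injective
  have h1 : Nat.card (P : Subgroup G) ∣ Nat.card H := hcard ▸ card_dvd_of_le hPK
  intro h2
  apply P.not_dvd_index
  have h3 := H.card_mul_index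
  have h4 := (P : Subgroup G).card_mul_index
  obtain ⟨m, hm⟩ := h1
  rw [← h4, hm, mul_assoc] at h3
  have h5 := Nat.eq_of_mul_eq_mul_left Nat.card_pos h3
  rw [← h5]
  exact h2.mul_left m

/-- For a set of primes π the following are equivalent: every finite group has a Hall π-subgroup; in every finite group the maximal π-subgroups are pairwise conjugate; π contains at most one prime or contains every prime. -/
theorem result (π : Set ℕ) :
    ((∀ (G : Type) [Group G] [Finite G], Cfsg.IsEPiGroup π G) ↔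
      ((∀ p q : ℕ, p.Prime → q.Prime → p ∈ π → q ∈ π → p = q) ∨ ∀ p : ℕ, p.Prime → p ∈ π)) ∧
    ((∀ (G : Type) [Group G] [Finite G], Cfsg.IsDPiGroup π G) ↔
      ((∀ p q : ℕ, p.Prime → q.Prime → p ∈ π → q ∈ π → p = q) ∨ ∀ p : ℕ, p.Prime → p ∈ π)) := by
  have hforw : (∀ (G : Type) [Group G] [Finite G], Cfsg.IsEPiGroup π G) →
      ((∀ p q : ℕ, p.Prime → q.Prime → p ∈ π → q ∈ π → p = q) ∨ ∀ p : ℕ, p.Prime → p ∈ π) := by
    intro h
    by_contra hcon
    push Not at hcon
    obtain ⟨⟨p, q, hp, hq, hpπ, hqπ, hpq⟩, r, hr, hrπ⟩ := hcon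
    rcases lt_or_gt_of_ne hpq with hlt | hlt
    · obtain ⟨n, hn⟩ := not_E hq hp hr hlt hqπ hpπ hrπ
      exact hn (h _)
    · obtain ⟨n, hn⟩ := not_E hp hq hr hlt hpπ hqπ hrπ
      exact hn (h _)
  have hback : ((∀ p q : ℕ, p.Prime → q.Prime → p ∈ π → q ∈ π → p = q) ∨ ∀ p : ℕ, p.Prime → p ∈ π) →
      (∀ (G : Type) [Group G] [Finite G], Cfsg.IsDPiGroup π G) := by
    rintro (h | h) G _ _ H K hH hK
    · by_cases hex : ∃ p, p.Prime ∧ p ∈ π
      · obtain ⟨p, hp, hpπ⟩ := hex
        have hpF : Fact p.Prime := ⟨hp⟩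
        have key : ∀ L : Subgroup G, Maximal (Cfsg.IsPiSubgroup π) L → ∃ P : Sylow p G, (P : Subgroup G) = L := by
          intro L hL
          have hLp : IsPGroup p L := by
            apply IsPGroup.of_card (n := (Nat.card L).primeFactorsList.length)
            apply Nat.eq_prime_pow_of_unique_prime_dvd Nat.card_pos.ne'
            intro r hr hrd
            exact h r p hr hp (hL.prop r hr hrd) hpπ
          obtain ⟨P, hP⟩ := hLp.exists_le_sylow
          refine ⟨P, ?_⟩
          have hPπ : Cfsg.IsPiSubgroup π (P : Subgroup G) := by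
            intro r hr hrd
            obtain ⟨k, hk⟩ := IsPGroup.iff_card.1 P.2
            rw [hk] at hrd
            rw [(Nat.prime_dvd_prime_iff_eq hr hp).1 (hr.dvd_of_dvd_pow hrd)]
            exact hpπ
          exact le_antisymm (hL.2 hPπ hP) hP
        obtain ⟨P, rfl⟩ := key H hH
        obtain ⟨Q, rfl⟩ := key K hK
        obtain ⟨g, hg⟩ := MulAction.exists_smul_eq G P Q
        refine ⟨g, ?_⟩
        rw [← hg, Sylow.coe_subgroup_smul]
        rfl
      · push Not at hex
        have key : ∀ L : Subgroup G, Cfsg.IsPiSubgroup π L → L = ⊥ := by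
          intro L hL
          rw [← card_eq_one]
          by_contra hc
          obtain ⟨r, hr, hrd⟩ := Nat.exists_prime_and_dvd hc
          exact hex r hr (hL r hr hrd)
        refine ⟨1, ?_⟩
        rw [key H hH.prop, key K hK.prop, Subgroup.map_bot]
    · have htop : Cfsg.IsPiSubgroup π (⊤ : Subgroup G) := fun p hp _ => h p hp
      have h1 : H = ⊤ := top_le_iff.1 (hH.2 htop le_top)
      have h2 : K = ⊤ := top_le_iff.1 (hK.2 htop le_top)
      refine ⟨1, ?_⟩
      rw [h1, h2, ← MonoidHom.range_eq_map]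
      symm
      rw [MonoidHom.range_eq_top]
      exact (MulAut.conj (1 : G)).surjective
  refine ⟨⟨hforw, fun h G _ _ => E_of_D (hback h G)⟩, ⟨fun h => hforw (fun G _ _ => E_of_D (h G)), hback⟩⟩

end Cfsg.Agent.S3878
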