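import Cfsg.Statements.S3882
import Cfsg.Agent.Lib.H67.Metacyclic4

set_option autoImplicit false
open Cfsg

namespace Cfsg.Agent.S3882

/-- Let p be an odd prime and G a finite metacyclic p-group (G has a cyclic normal subgroup with cyclic quotient). Suppose |G'| = p^n and 0 ≤ s ≤ n. Then an element g lies in the subgroup generated by the p^s-th powers if and only if its conjugacy class has at most p^(n−s) elements; in particular the subgroup generated by the p^n-th powers is the center of G. -/
theorem result {G : Type*} [Group G] [Finite G] {p : ℕ} [Fact p.Prime] (hp : p ≠ 2) (hG : IsPGroup p G) (hmc : Cfsg.IsMetacyclic G) (n : ℕ) (hGn : Nat.card ↥(commutator G) = p ^ n) (s : ℕ) (hs : s ≤ n) (g : G) :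
    (g ∈ Subgroup.closure {x : G | ∃ y : G, y ^ p ^ s = x} ↔ (Subgroup.centralizer ({g} : Set G)).index ≤ p ^ (n - s)) ∧
      Subgroup.closure {x : G | ∃ y : G, y ^ p ^ n = x} = Subgroup.center G := by
  have hpp := (Fact.out : p.Prime)
  obtain ⟨D, -⟩ := H67.Metacyclic.exists_data hG hmc
  obtain ⟨n', hn'⟩ := D.exists_order hG hpp
  have : n' = n := by
    rw [D.card_commutator hn'] at hGn
    exact Nat.pow_right_injective hpp.two_le hGn
  subst this
  refine ⟨?_, ?_⟩
  · rw [D.mem_closure_pow_iff hpp hp hn' hs, D.index_centralizer_le_iff hpp hp hn' g hs]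
  · ext x
    rw [D.mem_closure_pow_iff hpp hp hn' le_rfl, D.div_top_iff hpp hp hn']

end Cfsg.Agent.S3882
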