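import Cfsg.Statements.S3883
import Cfsg.Agent.Lib.H67.Metacyclic4
import Cfsg.Agent.Lib.H1.Frat

set_option autoImplicit false
open Cfsg

namespace Cfsg.Agent.S3883

/-- Let p be an odd prime and G a finite metacyclic p-group (G has a cyclic normal subgroup with cyclic quotient). Suppose G is non-abelian. Then an element g of G lies outside the Frattini subgroup if and only if its centralizer C_G(g) is abelian. -/
theorem result {G : Type*} [Group G] [Finite G] {p : ℕ} [Fact p.Prime] (hp : p ≠ 2) (hG : IsPGroup p G) (hmc : Cfsg.IsMetacyclic G) (hna : ¬ IsMulCommutative G) (g : G) :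
    g ∉ frattini G ↔ IsMulCommutative ↥(Subgroup.centralizer ({g} : Set G)) := by
  have hpp := (Fact.out : p.Prime)
  obtain ⟨D, -⟩ := H67.Metacyclic.exists_data hG hmc
  obtain ⟨n, hn⟩ := D.exists_order hG hpp
  have hn0 : n ≠ 0 := by
    rintro rfl
    apply hna
    have h1 : D.c = 1 := by rw [← orderOf_eq_one_iff, hn, pow_zero]
    refine ⟨⟨fun x y => ?_⟩⟩
    rw [D.comm_eq_one_iff hn]
    have : Subsingleton (ZMod (p ^ 0)) := by
      rw [pow_zero]; infer_instance
    exact Subsingleton.elim _ _
  have hn1 : 1 ≤ n := Nat.one_le_iff_ne_zero.2 hn0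
  -- the Frattini subgroup
  have hfr : g ∈ frattini G ↔ H67.Metacyclic.Div p n 1 (D.phi n g) := by
    constructor
    · intro h
      have hle : frattini G ≤ D.divSubgroup hn 1 := by
        apply H1.Frat.frattini_le_of_elementary (p := p)
        · rw [D.commutator_eq hn, Subgroup.zpowers_le]
          obtain ⟨m, hm⟩ := D.hr
          have : D.c = (D.a ^ m) ^ p ^ 1 := by
            rw [H67.Metacyclic.Data.c, hm, pow_one, mul_comm, zpow_mul, zpow_natCast]
          rw [this]
          exact D.div_pow hpp hp hn _ 1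
        · intro x
          have := D.div_pow hpp hp hn x 1
          rwa [pow_one] at this
      exact hle h
    · intro h
      obtain ⟨y, z, rfl⟩ := D.exists_pow_of_div hpp hp hn hn1 h
      rw [pow_one]
      exact mul_mem (H1.Frat.pow_mem_frattini hG y) (H1.Frat.pow_mem_frattini hG z)
  obtain ⟨γ, hγ, e, he, hg⟩ := H67.SymplZMod.decompV hpp (D.phi n g)
  rw [hfr, hg, H67.Metacyclic.div_iff hpp hγ hn1 he]
  have hidx := D.index_centralizer hpp hp hn g hγ he hg
  rw [D.comm_iff_card_le hpp hp hG hn, D.index_commutator hpp hp hn]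
  have hcard := D.card_eq hpp hp hn
  rw [← Subgroup.card_mul_index (Subgroup.centralizer ({g} : Set G)), hidx] at hcard
  have hZ : 0 < Nat.card (Subgroup.center G) := Nat.card_pos
  have h1 : p ^ (n - γ) * p ^ γ = p ^ n := by rw [← pow_add, Nat.sub_add_cancel hγ]
  have h2 : Nat.card (Subgroup.centralizer ({g} : Set G)) = p ^ γ * (p ^ n * Nat.card (Subgroup.center G)) := by
    have h3 : 0 < p ^ (n - γ) := pow_pos hpp.pos _
    apply Nat.eq_of_mul_eq_mul_right h3
    rw [hcard, ← h1]; ring
  rw [h2]
  have h4 : 0 < p ^ n * Nat.card (Subgroup.center G) := Nat.mul_pos (pow_pos hpp.pos _) hZ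
  constructor
  · intro h
    have : γ = 0 := by omega
    rw [this, pow_zero, one_mul]
  · intro h h5
    have h6 : 1 < p ^ γ := Nat.one_lt_pow (by omega) hpp.one_lt
    have h7 := (Nat.mul_lt_mul_right h4).2 h6
    rw [one_mul] at h7
    exact absurd h (not_le.2 h7)

end Cfsg.Agent.S3883
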