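import Cfsg.Statements.S3884
import Cfsg.Agent.Lib.H67.Metacyclic4

set_option autoImplicit false
open Cfsg

namespace Cfsg.Agent.S3884

/-- Let p be an odd prime and G a finite metacyclic p-group (G has a cyclic normal subgroup with cyclic quotient). Then G is the product of two cyclic subgroups with trivial intersection: there are cyclic subgroups A and B with A ∩ B = 1 and |A| · |B| = |G|. -/
theorem result {G : Type*} [Group G] [Finite G] {p : ℕ} [Fact p.Prime] (hp : p ≠ 2) (hG : IsPGroup p G) (hmc : Cfsg.IsMetacyclic G) : ∃ A B : Subgroup G, IsCyclic ↥A ∧ IsCyclic ↥B ∧ A ⊓ B = ⊥ ∧ Nat.card ↥A * Nat.card ↥B = Nat.card G := by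
  classical
  have hpp := (Fact.out : p.Prime)
  obtain ⟨D, hN⟩ := H67.Metacyclic.exists_data hG hmc
  set N := Subgroup.zpowers D.a with hNdef
  obtain ⟨s, hs⟩ := hG.index N
  obtain ⟨m, hm⟩ := IsPGroup.iff_orderOf.1 hG D.a
  have hcardN : Nat.card N = p ^ m := by rw [hNdef, Nat.card_zpowers, hm]
  have hcardG : Nat.card G = p ^ m * p ^ s := by
    rw [← Subgroup.card_mul_index N, hcardN, hs]
  -- order of b modulo N
  have hbord : orderOf (D.b : G ⧸ N) = p ^ s := by
    rw [← hs]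
    apply orderOf_eq_card_of_forall_mem_zpowers
    intro x
    obtain ⟨g, rfl⟩ := QuotientGroup.mk_surjective x
    obtain ⟨i, j, rfl⟩ := D.gen g
    refine ⟨j, ?_⟩
    have h1 : ((D.a : G) : G ⧸ N) = 1 := (QuotientGroup.eq_one_iff _).2 (Subgroup.mem_zpowers _)
    simp [h1]
  have hbN : ∀ k : ℕ, D.b ^ k ∈ N ↔ p ^ s ∣ k := by
    intro k
    rw [← QuotientGroup.eq_one_iff, QuotientGroup.mk_pow, ← orderOf_dvd_iff_pow_eq_one, hbord]
  have haN : ∀ z : ℤ, D.a ^ z ∈ N := fun z => Subgroup.zpow_mem _ (Subgroup.mem_zpowers _) z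
  obtain ⟨c, hcm, hc⟩ : ∃ c : ℕ, c < p ^ m ∧ D.b ^ p ^ s = D.a ^ c := by
    have h1 : D.b ^ p ^ s ∈ N := (hbN _).2 dvd_rfl
    rw [hNdef, ← mem_powers_iff_mem_zpowers, Submonoid.mem_powers_iff] at h1
    obtain ⟨c₀, hc₀⟩ := h1
    refine ⟨c₀ % p ^ m, Nat.mod_lt _ (pow_pos hpp.pos _), ?_⟩
    rw [← hc₀, ← hm, pow_mod_orderOf]
  by_cases hcase : p ^ s ∣ c
  · -- Case 1
    obtain ⟨c', hc'⟩ := hcase
    -- S (p^s) r = p^s σ with p ∤ σ
    obtain ⟨σ, hσ⟩ := (H67.GeomSum.dvd_S_iff hpp hp D.hr (p ^ s) s).2 dvd_rfl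
    have hσp : ¬ (p : ℤ) ∣ σ := by
      rintro ⟨τ, rfl⟩
      have h1 : (p : ℤ) ^ (s + 1) ∣ H67.GeomSum.S (p ^ s) D.r := by
        rw [hσ, pow_succ]; exact ⟨τ, by ring⟩
      rw [H67.GeomSum.dvd_S_iff hpp hp D.hr, Nat.pow_dvd_pow_iff_le_right hpp.one_lt] at h1
      omega
    have hcop : IsCoprime σ ((p : ℤ) ^ m) := by
      apply IsCoprime.pow_right
      rw [isCoprime_comm, Int.isCoprime_iff_gcd_eq_one]
      rcases (Nat.coprime_or_dvd_of_prime hpp σ.natAbs) with h1 | h1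
      · exact h1
      · exact absurd (Int.natCast_dvd.2 h1) hσp
    obtain ⟨x, y, hxy⟩ := hcop
    -- t = -c' x  mod p^m, made natural
    obtain ⟨t, ht⟩ : ∃ t : ℕ, (p : ℤ) ^ m ∣ (t : ℤ) * σ + c' := by
      have : NeZero (p ^ m) := ⟨pow_ne_zero _ hpp.ne_zero⟩
      refine ⟨((-(c' : ℤ) * x : ℤ) : ZMod (p ^ m)).val, ?_⟩
      have h1 : ((((((-(c' : ℤ) * x : ℤ) : ZMod (p ^ m)).val : ℕ) : ℤ) * σ + c' : ℤ) : ZMod (p ^ m)) = 0 := by
        push_cast
        rw [ZMod.natCast_zmod_val]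
        have h2 := congrArg (fun z : ℤ => (z : ZMod (p ^ m))) hxy
        push_cast at h2
        have h3 : ((p : ZMod (p ^ m)) ^ m) = 0 := by
          have := ZMod.natCast_self (p ^ m)
          push_cast at this
          exact this
        rw [h3, mul_zero, add_zero] at h2
        push_cast
        linear_combination (-(c' : ZMod (p ^ m))) * h2
      rw [ZMod.intCast_zmod_eq_zero_iff_dvd] at h1
      exact_mod_cast h1
    set w := D.a ^ t * D.b with hw
    have hwform : ∀ k : ℕ, w ^ k = D.a ^ ((t : ℤ) * H67.GeomSum.S k D.r) * D.b ^ k := by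
      intro k
      have := D.pow_form t 1 k
      rw [pow_one, pow_one, one_mul] at this
      exact this
    have hw1 : w ^ p ^ s = 1 := by
      rw [hwform, hc, hσ, ← zpow_natCast, ← zpow_add]
      obtain ⟨z, hz⟩ := ht
      have : (t : ℤ) * ((p : ℤ) ^ s * σ) + (c : ℤ) = ((p ^ m : ℕ) : ℤ) * ((p : ℤ) ^ s * z) := by
        rw [hc']; push_cast
        linear_combination ((p : ℤ) ^ s) * hz
      rw [this, zpow_mul, zpow_natCast, ← hm, pow_orderOf_eq_one, one_zpow]
    have hwN : ∀ k : ℕ, w ^ k ∈ N → p ^ s ∣ k := by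
      intro k hk
      rw [← hbN]
      rw [hwform] at hk
      exact (Subgroup.mul_mem_cancel_left _ (haN _)).1 hk
    have hword : orderOf w = p ^ s := by
      apply Nat.dvd_antisymm (orderOf_dvd_of_pow_eq_one hw1)
      apply hwN
      rw [pow_orderOf_eq_one]; exact one_mem _
    refine ⟨N, Subgroup.zpowers w, ?_, ?_, ?_, ?_⟩
    · rw [hNdef]; infer_instance
    · infer_instance
    · rw [eq_bot_iff]
      rintro x ⟨hx1, hx2⟩
      have hx3 : x ∈ Subgroup.zpowers w := hx2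
      rw [← mem_powers_iff_mem_zpowers, Submonoid.mem_powers_iff] at hx3
      obtain ⟨k, rfl⟩ := hx3
      obtain ⟨k', rfl⟩ := hwN k hx1
      rw [pow_mul, hw1, one_pow]; exact one_mem _
    · rw [hcardN, Nat.card_zpowers, hword, hcardG]
  · -- Case 2
    have hc0 : c ≠ 0 := by rintro rfl; exact hcase (dvd_zero _)
    obtain ⟨γ, u, hu, hcu⟩ := Nat.exists_eq_pow_mul_and_not_dvd hc0 p hpp.ne_one
    have hγs : γ < s := by
      by_contra hcon
      push Not at hcon
      exact hcase (by rw [hcu]; exact Dvd.dvd.mul_right (pow_dvd_pow _ hcon) _)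
    have hγm : γ < m := by
      by_contra hcon
      push Not at hcon
      have h1 : p ^ m ≤ p ^ γ := Nat.pow_le_pow_right hpp.pos hcon
      have h2 : p ^ γ ≤ c := by
        rw [hcu]; exact Nat.le_mul_of_pos_right _ (Nat.pos_of_ne_zero (by rintro rfl; simp at hu))
      omega
    -- u' inverse of u modulo p^m
    have hcop : Nat.Coprime u (p ^ m) := by
      apply Nat.Coprime.pow_right
      exact ((Nat.Prime.coprime_iff_not_dvd hpp).2 hu).symm
    obtain ⟨u', hu'⟩ : ∃ u' : ℕ, u * u' ≡ 1 [MOD p ^ m] := by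
      have : NeZero (p ^ m) := ⟨pow_ne_zero _ hpp.ne_zero⟩
      refine ⟨((u : ZMod (p ^ m))⁻¹).val, ?_⟩
      rw [← ZMod.natCast_eq_natCast_iff]
      push_cast
      rw [ZMod.natCast_zmod_val]
      exact ZMod.coe_mul_inv_eq_one u hcop
    have hac : D.a ^ p ^ γ = D.b ^ (p ^ s * u') := by
      rw [pow_mul, hc, hcu, ← pow_mul]
      rw [pow_eq_pow_iff_modEq, hm]
      have := hu'.mul_left (p ^ γ)
      rw [mul_one, ← mul_assoc] at this
      exact this.symm
    set ob := orderOf D.b with hob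
    have hob0 : 0 < ob := orderOf_pos _
    set w := p ^ (s - γ) * u' with hwdef
    set w' := w * (ob - 1) with hw'def
    have hbw' : D.b ^ w' * D.b ^ w = 1 := by
      rw [← pow_add, hw'def]
      have : w * (ob - 1) + w = ob * w := by
        obtain ⟨k, hk⟩ := Nat.exists_eq_add_of_le' hob0
        rw [hk]; simp; ring
      rw [this, pow_mul, hob, pow_orderOf_eq_one, one_pow]
    have hwγ : w * p ^ γ = p ^ s * u' := by
      rw [hwdef]
      have : p ^ s = p ^ (s - γ) * p ^ γ := by rw [← pow_add, Nat.sub_add_cancel hγs.le]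
      rw [this]; ring
    set x := D.a * D.b ^ w' with hx
    set χ : ℤ := (D.r : ℤ) ^ w' with hχ
    have hxform : ∀ k : ℕ, x ^ k = D.a ^ (H67.GeomSum.S k χ) * D.b ^ (w' * k) := by
      intro k
      have := D.pow_form 1 w' k
      rw [pow_one, Nat.cast_one, one_mul] at this
      exact this
    -- a^(p^γ (χ - 1)) = 1
    have hcomm : D.a ^ ((χ - 1) * ((p ^ γ : ℕ) : ℤ)) = 1 := by
      have h1 := D.b_pow_mul_a_pow w' (p ^ γ)
      rw [hac, ← pow_add, add_comm, pow_add] at h1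
      have h2 : D.b ^ (p ^ s * u') = D.a ^ (p ^ γ * D.r ^ w') := mul_right_cancel h1
      rw [← hac] at h2
      have h3 : (χ - 1) * ((p ^ γ : ℕ) : ℤ) = ((p ^ γ * D.r ^ w' : ℕ) : ℤ) - ((p ^ γ : ℕ) : ℤ) := by
        rw [hχ]; push_cast; ring
      rw [h3, zpow_sub, zpow_natCast, zpow_natCast, ← h2, mul_inv_cancel]
    have hx1 : x ^ p ^ γ = 1 := by
      rw [hxform]
      obtain ⟨M, hM⟩ := H67.GeomSum.S_pow_sub hpp hp (D.dvd_pow_sub_one w') γ
      rw [← hχ] at hM
      have h1 : H67.GeomSum.S (p ^ γ) χ = ((p ^ γ : ℕ) : ℤ) + (χ - 1) * ((p ^ γ : ℕ) : ℤ) * M := by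
        linear_combination hM
      rw [h1, zpow_add, zpow_mul _ _ M, hcomm, one_zpow, mul_one, zpow_natCast, hac, ← hwγ,
        pow_mul D.b w, pow_mul D.b w']
      have hc' : Commute (D.b ^ w) (D.b ^ w') := (Commute.refl D.b).pow_pow _ _
      rw [← hc'.mul_pow, hc'.eq, hbw', one_pow]
    have hxB : ∀ k : ℕ, x ^ k ∈ Subgroup.zpowers D.b → p ^ γ ∣ k := by
      intro k hk
      rw [hxform] at hk
      have h1 : D.a ^ (H67.GeomSum.S k χ) ∈ Subgroup.zpowers D.b :=
        (Subgroup.mul_mem_cancel_right _ (Subgroup.pow_mem _ (Subgroup.mem_zpowers _) _)).1 hk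
      rw [← mem_powers_iff_mem_zpowers, Submonoid.mem_powers_iff] at h1
      obtain ⟨l, hl⟩ := h1
      have h2 : p ^ s ∣ l := (hbN l).1 (by rw [hl]; exact haN _)
      obtain ⟨l', rfl⟩ := h2
      rw [pow_mul, hc, ← pow_mul, ← zpow_natCast, zpow_eq_zpow_iff_modEq, hm] at hl
      have h3 : (p : ℤ) ^ γ ∣ H67.GeomSum.S k χ := by
        have h4 : ((p ^ m : ℕ) : ℤ) ∣ H67.GeomSum.S k χ - ((c * l' : ℕ) : ℤ) := hl.dvd
        push_cast at h4
        have h5 : (p : ℤ) ^ γ ∣ H67.GeomSum.S k χ - (c : ℤ) * l' := (pow_dvd_pow _ hγm.le).trans h4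
        have h6 : (p : ℤ) ^ γ ∣ (c : ℤ) * l' := by
          rw [hcu]; push_cast; exact ⟨(u : ℤ) * l', by ring⟩
        have h7 := dvd_add h5 h6
        rwa [sub_add_cancel] at h7
      exact (H67.GeomSum.dvd_S_iff hpp hp (D.dvd_pow_sub_one w') k γ).1 h3
    have hxord : orderOf x = p ^ γ := by
      apply Nat.dvd_antisymm (orderOf_dvd_of_pow_eq_one hx1)
      apply hxB
      rw [pow_orderOf_eq_one]; exact one_mem _
    have hbord' : orderOf D.b = p ^ s * p ^ (m - γ) := by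
      have h1 : p ^ s ∣ orderOf D.b := (hbN _).1 (by rw [pow_orderOf_eq_one]; exact one_mem _)
      have h2 := orderOf_pow_of_dvd (x := D.b) (n := p ^ s) (pow_ne_zero _ hpp.ne_zero) h1
      rw [hc, orderOf_pow, hm, hcu] at h2
      have h3 : Nat.gcd (p ^ m) (p ^ γ * u) = p ^ γ := by
        have : p ^ m = p ^ γ * p ^ (m - γ) := by rw [← pow_add, Nat.add_sub_cancel' hγm.le]
        rw [this, Nat.gcd_mul_left]
        have h4 : Nat.Coprime (p ^ (m - γ)) u :=
          Nat.Coprime.coprime_dvd_left (pow_dvd_pow _ (Nat.sub_le _ _)) hcop.symm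
        rw [h4, mul_one]
      rw [h3, Nat.pow_div hγm.le hpp.pos] at h2
      rw [h2]
      exact (Nat.mul_div_cancel' h1).symm
    refine ⟨Subgroup.zpowers x, Subgroup.zpowers D.b, inferInstance, inferInstance, ?_, ?_⟩
    · rw [eq_bot_iff]
      rintro y ⟨hy1, hy2⟩
      have hy3 : y ∈ Subgroup.zpowers x := hy1
      rw [← mem_powers_iff_mem_zpowers, Submonoid.mem_powers_iff] at hy3
      obtain ⟨k, rfl⟩ := hy3
      obtain ⟨k', rfl⟩ := hxB k hy2
      rw [pow_mul, hx1, one_pow]; exact one_mem _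
    · rw [Nat.card_zpowers, Nat.card_zpowers, hxord, hbord', hcardG]
      have : p ^ m = p ^ γ * p ^ (m - γ) := by rw [← pow_add, Nat.add_sub_cancel' hγm.le]
      rw [this]; ring

end Cfsg.Agent.S3884
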