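import Cfsg.Statements.S3886
import Cfsg.Agent.Lib.H67.Metacyclic3

set_option autoImplicit false
open Cfsg

namespace Cfsg.Agent.S3886

/-- Let p be an odd prime and G a finite metacyclic p-group (G has a cyclic normal subgroup with cyclic quotient). Then the largest value of |R| · |Z(R)| over subgroups R of G is |G : G'|², and the subgroups attaining it (the centrally large subgroups) are exactly the non-abelian subgroups together with the maximal abelian subgroups of G. -/
theorem result {G : Type*} [Group G] [Finite G] {p : ℕ} [Fact p.Prime] (hp : p ≠ 2) (hG : IsPGroup p G) (hmc : Cfsg.IsMetacyclic G) : Cfsg.maxCentralProduct G = (commutator G).index ^ 2 ∧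
    ∀ R : Subgroup G, Cfsg.IsCentrallyLarge R ↔ (¬ IsMulCommutative ↥R ∨ Maximal (fun K : Subgroup G => IsMulCommutative ↥K) R) := by
  have hpp := (Fact.out : p.Prime)
  obtain ⟨D, -⟩ := H67.Metacyclic.exists_data hG hmc
  obtain ⟨n, hn⟩ := D.exists_order hG hpp
  have hcc : ∀ R : Subgroup G, IsMulCommutative R → Nat.card (Subgroup.center R) = Nat.card R := by
    intro R hR
    rw [Subgroup.center_eq_top_iff.2 hR, Subgroup.card_top]
  have hle : ∀ R : Subgroup G, Nat.card R * Nat.card (Subgroup.center R) ≤ (commutator G).index ^ 2 := by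
    intro R
    by_cases hR : IsMulCommutative R
    · rw [hcc R hR, pow_two]
      exact Nat.mul_le_mul (D.card_le_of_comm hpp hp hn hR) (D.card_le_of_comm hpp hp hn hR)
    · exact (D.nonabelian_product hpp hp hG hn hR).le
  -- there is a maximal abelian subgroup
  obtain ⟨L, -, hL⟩ : ∃ L : Subgroup G, ⊥ ≤ L ∧ Maximal (fun K : Subgroup G => IsMulCommutative ↥K) L := by
    apply Finite.exists_le_maximal
    infer_instance
  have hLc := D.card_eq_of_maximal_comm hpp hp hn hL
  have hmax : Cfsg.maxCentralProduct G = (commutator G).index ^ 2 := by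
    unfold Cfsg.maxCentralProduct
    apply IsGreatest.csSup_eq
    constructor
    · refine ⟨L, ?_⟩
      rw [hcc L hL.prop, hLc, pow_two]
    · rintro k ⟨R, rfl⟩
      exact hle R
  refine ⟨hmax, fun R => ?_⟩
  unfold Cfsg.IsCentrallyLarge
  rw [hmax]
  constructor
  · intro h
    by_cases hR : IsMulCommutative R
    · right
      rw [D.maximal_comm_iff hpp hp hG hn]
      rw [hcc R hR, pow_two] at h
      exact Nat.mul_self_inj.1 h
    · exact Or.inl hR
  · rintro (hR | hR)
    · exact D.nonabelian_product hpp hp hG hn hR
    · rw [hcc R hR.prop, D.card_eq_of_maximal_comm hpp hp hn hR, pow_two]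

end Cfsg.Agent.S3886
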