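import Cfsg.Statements.S3898
import Cfsg.Agent.Lib.H68.OddClass

set_option autoImplicit false
open Cfsg

namespace Cfsg.Agent.S3898

open H68.Isolated H68.TwoClass H68.OddClass H68.PiClasses

/-- the odd order part -/
theorem odd_part {K : Type*} [Group K] [Finite K] (ho : Odd (Nat.card K)) (π : Finset ℕ) (hπ : ∀ r ∈ π, r.Prime)
    (hk : piPart π (Nat.card K) < 2 * Nat.card (PiClass π K)) :
    ∃ N : Subgroup K, N.Normal ∧ (∀ r : ℕ, r.Prime → r ∣ Nat.card ↥N → r ∉ π) ∧ (∀ r : ℕ, r.Prime → r ∣ N.index → r ∈ π) ∧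
      ∀ a b : K, a * b * a⁻¹ * b⁻¹ ∈ N := by
  classical
  apply H68.PiComplement.exists_of_forall π hπ
  intro r hr
  have hrp := hπ r hr
  have : Fact r.Prime := ⟨hrp⟩
  have h3 := card_piClass_le_mul (G := K) π hπ r hrp
  have h4 := piPart_eq π r hr (Nat.card K)
  have h5 : 0 < piPart (π.erase r) (Nat.card K) :=
    piPart_pos _ (fun s hs => hπ s (Finset.mem_of_mem_erase hs)) _
  have h6 : r ^ (Nat.card K).factorization r < 2 * Nat.card (PClass r K) := by
    have h7 : r ^ (Nat.card K).factorization r * piPart (π.erase r) (Nat.card K) <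
        (2 * Nat.card (PClass r K)) * piPart (π.erase r) (Nat.card K) := by
      calc r ^ (Nat.card K).factorization r * piPart (π.erase r) (Nat.card K) = piPart π (Nat.card K) := h4.symm
        _ < 2 * Nat.card (PiClass π K) := hk
        _ ≤ 2 * (Nat.card (PClass r K) * piPart (π.erase r) (Nat.card K)) := Nat.mul_le_mul_left _ h3
        _ = _ := by ring
    exact lt_of_mul_lt_mul_right h7 (Nat.zero_le _)
  have hall : ∀ P : Sylow r K, Nat.card (P : Subgroup K) < 2 * Nat.card (PClass r K) := by
    intro P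
    rw [P.card_eq_multiplicity]
    exact h6
  exact H68.PiComplement.of_hasNormalPComplement (hasNPC_odd ho default (hall default))
    (fun P => abelian_odd ho P (hall P))


/-- Let π be a finite set of primes containing 2 and G a finite group. Write k_π(G) for the number of conjugacy classes of G consisting of π-elements (elements all of whose order's prime divisors lie in π) and |G|_π for the π-part of the order of G. If k_π(G) > |G|_π/2, then G has a normal π-complement (a normal subgroup of order prime to π whose index is a π-number) and an abelian Hall subgroup for the set of odd primes in π. -/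
theorem result {G : Type*} [Group G] [Finite G] (π : Finset ℕ) (hπ : ∀ r ∈ π, r.Prime) (h2 : 2 ∈ π)
    (hk : π.prod (fun r => r ^ (Nat.card G).factorization r) < 2 * Nat.card {c : ConjClasses G // ∀ x ∈ c.carrier, ∀ r : ℕ, r.Prime → r ∣ orderOf x → r ∈ π}) :
    (∃ N : Subgroup G, N.Normal ∧ (∀ r : ℕ, r.Prime → r ∣ Nat.card ↥N → r ∉ π) ∧ ∀ r : ℕ, r.Prime → r ∣ N.index → r ∈ π) ∧ ∃ H : Subgroup G, Cfsg.IsPiHall ((↑π : Set ℕ) \ {2}) H ∧ IsMulCommutative ↥H := by
  classical
  set π' := π.erase 2 with hπ'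
  have hπ'p : ∀ r ∈ π', r.Prime := fun r hr => hπ r (Finset.mem_of_mem_erase hr)
  have hk' : piPart π (Nat.card G) < 2 * Nat.card (PiClass π G) := hk
  have hpart := piPart_eq π 2 h2 (Nat.card G)
  have hpos : 0 < piPart π' (Nat.card G) := piPart_pos _ hπ'p _
  have h2p : Nat.Prime 2 := Nat.prime_two
  have : Fact (Nat.Prime 2) := ⟨h2p⟩
  let P : Sylow 2 G := default
  have hPc : Nat.card (P : Subgroup G) = 2 ^ (Nat.card G).factorization 2 := P.card_eq_multiplicity
  -- the 2-part
  have hNPC : Cfsg.HasNormalPComplement 2 G := by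
    apply hasNPC P
    have h3 := card_piClass_le_mul (G := G) π hπ 2 h2p
    rw [hPc]
    have h7 : 2 ^ (Nat.card G).factorization 2 * piPart π' (Nat.card G) <
        (2 * Nat.card (PClass 2 G)) * piPart π' (Nat.card G) := by
      calc 2 ^ (Nat.card G).factorization 2 * piPart π' (Nat.card G) = piPart π (Nat.card G) := hpart.symm
        _ < 2 * Nat.card (PiClass π G) := hk'
        _ ≤ 2 * (Nat.card (PClass 2 G) * piPart π' (Nat.card G)) := Nat.mul_le_mul_left _ h3
        _ = _ := by ring
    exact lt_of_mul_lt_mul_right h7 (Nat.zero_le _)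
  obtain ⟨Q, K, hKn, hc⟩ := hNPC
  have hK2 : ¬ 2 ∣ Nat.card K := by
    rw [← hc.index_eq_card]; exact Q.not_dvd_index
  have hKodd : Odd (Nat.card K) := Nat.odd_iff.2 (by omega)
  have hKi : ∃ j, K.index = 2 ^ j := by
    obtain ⟨k, hk⟩ := IsPGroup.iff_card.1 Q.2
    exact ⟨k, by rw [← hk, hc.symm.index_eq_card]⟩
  have hKiP : K.index = 2 ^ (Nat.card G).factorization 2 := by
    rw [hc.symm.index_eq_card, ← Q.card_eq_multiplicity]
  have h2π' : 2 ∉ π' := Finset.notMem_erase 2 π
  have hpartK : piPart π' (Nat.card G) = piPart π' (Nat.card K) := by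
    unfold piPart
    apply Finset.prod_congr rfl
    intro r hr
    have hr2 : r ≠ 2 := by rintro rfl; exact h2π' hr
    congr 1
    rw [← K.card_mul_index, Nat.factorization_mul Nat.card_pos.ne' Subgroup.index_ne_zero_of_finite, Finsupp.add_apply,
      hKiP, Nat.Prime.factorization_pow h2p, Finsupp.single_apply, if_neg (Ne.symm hr2), add_zero]
  -- bound on the number of classes
  have hbound : Nat.card (PiClass π G) ≤ 2 ^ (Nat.card G).factorization 2 * Nat.card (PiClass π' K) := by
    have := finite_conjClasses G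
    have : Fintype (PClass 2 G) := Fintype.ofFinite _
    refine (card_piClass_le_sum π 2 h2p).trans ?_
    refine (Finset.sum_le_sum fun c _ => card_piClass_centralizer_le K hK2 hKi π' h2π' (rep c) ?_).trans ?_
    · apply c.2
      rw [← mk_rep c]
      exact ConjClasses.mem_carrier_mk
    · rw [Finset.sum_const, smul_eq_mul, Finset.card_univ, ← Nat.card_eq_fintype_card]
      exact Nat.mul_le_mul_right _ (card_pClass_le 2 h2p)
  have hkK : piPart π' (Nat.card K) < 2 * Nat.card (PiClass π' K) := by
    have h7 : 2 ^ (Nat.card G).factorization 2 * piPart π' (Nat.card K) <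
        2 ^ (Nat.card G).factorization 2 * (2 * Nat.card (PiClass π' K)) := by
      calc 2 ^ (Nat.card G).factorization 2 * piPart π' (Nat.card K) = piPart π (Nat.card G) := by rw [hpart, ← hpartK]
        _ < 2 * Nat.card (PiClass π G) := hk'
        _ ≤ 2 * (2 ^ (Nat.card G).factorization 2 * Nat.card (PiClass π' K)) := Nat.mul_le_mul_left _ hbound
        _ = _ := by ring
    exact lt_of_mul_lt_mul_left h7 (Nat.zero_le _)
  obtain ⟨N, hN, h3, h4, h5⟩ := odd_part hKodd π' hπ'p hkK
  -- membership in N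
  have hmemN : ∀ k : K, k ∈ N ↔ ∀ r : ℕ, r.Prime → r ∣ orderOf k → r ∉ π' := by
    intro k
    constructor
    · intro hk r hr hd
      apply h3 r hr
      refine hd.trans ?_
      exact Subgroup.orderOf_dvd_natCard N hk
    · intro hk
      rw [← QuotientGroup.eq_one_iff, ← orderOf_eq_one_iff]
      by_contra hne
      obtain ⟨q, hq, hqd⟩ := Nat.exists_prime_and_dvd hne
      apply hk q hq (hqd.trans (orderOf_map_dvd (QuotientGroup.mk' N) k))
      apply h4 q hq
      rw [Subgroup.index_eq_card]
      exact hqd.trans (orderOf_dvd_natCard _)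
  have hN' : (N.map K.subtype).Normal := by
    constructor
    rintro _ ⟨n, hn, rfl⟩ g
    have hgK : g * (n : G) * g⁻¹ ∈ K := hKn.conj_mem _ n.2 g
    refine ⟨⟨g * (n : G) * g⁻¹, hgK⟩, ?_, rfl⟩
    rw [SetLike.mem_coe, hmemN] at hn ⊢
    intro r hr hd
    apply hn r hr
    rw [← Subgroup.orderOf_coe] at hd ⊢
    rwa [orderOf_conj] at hd
  have hcardN : Nat.card (N.map K.subtype) = Nat.card N := Subgroup.card_map_of_injective K.subtype_injective
  have hind : ∀ H : Subgroup K, (H.map K.subtype).index = H.index * K.index := by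
    intro H
    rw [Subgroup.index_map_subtype]
  refine ⟨⟨N.map K.subtype, hN', ?_, ?_⟩, ?_⟩
  · intro r hr hd hrπ
    rw [hcardN] at hd
    apply h3 r hr hd
    rw [hπ', Finset.mem_erase]
    refine ⟨?_, hrπ⟩
    rintro rfl
    exact hK2 (hd.trans (Subgroup.card_subgroup_dvd_card N))
  · intro r hr hd
    rw [hind, hr.dvd_mul] at hd
    rcases hd with hd | hd
    · exact Finset.mem_of_mem_erase (h4 r hr hd)
    · rw [hKiP] at hd
      rw [(Nat.prime_dvd_prime_iff_eq hr h2p).1 (hr.dvd_of_dvd_pow hd)]
      exact h2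
  · obtain ⟨H, hH, hHc⟩ := H68.PiComplement.exists_hall (π' : Set ℕ) N
      (fun r hr hd hm => h3 r hr hd (Finset.mem_coe.1 hm)) (fun r hr hd => Finset.mem_coe.2 (h4 r hr hd)) h5
    have hset : (π' : Set ℕ) = (↑π : Set ℕ) \ {2} := by
      rw [hπ', Finset.coe_erase]
    refine ⟨H.map K.subtype, ⟨?_, ?_⟩, ?_⟩
    · intro r hr hd
      rw [Subgroup.card_map_of_injective K.subtype_injective] at hd
      rw [← hset]
      exact hH.1 r hr hd
    · intro r hr hrπ hd
      rw [hind, hr.dvd_mul] at hd
      rw [← hset] at hrπ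
      rcases hd with hd | hd
      · exact hH.2 r hr hrπ hd
      · rw [hKiP] at hd
        have := (Nat.prime_dvd_prime_iff_eq hr h2p).1 (hr.dvd_of_dvd_pow hd)
        subst this
        exact h2π' (Finset.mem_coe.1 hrπ)
    · refine ⟨⟨?_⟩⟩
      rintro ⟨_, a, ha, rfl⟩ ⟨_, b, hb, rfl⟩
      apply Subtype.ext
      have h6 := congrArg Subtype.val (hHc.is_comm.comm ⟨a, ha⟩ ⟨b, hb⟩)
      have h7 : a * b = b * a := h6
      show (a : G) * b = b * a
      rw [← Subgroup.coe_mul, h7, Subgroup.coe_mul]

end Cfsg.Agent.S3898
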