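import Cfsg.Statements.S3899
import Cfsg.Agent.Lib.H68.PiClasses
import Cfsg.Agent.Lib.H68.PiComplement
import Cfsg.Agent.S3897

set_option autoImplicit false
open Cfsg

namespace Cfsg.Agent.S3899

open H68.PiClasses H68.Isolated

theorem result {G : Type*} [Group G] [Finite G] (π : Finset ℕ) (hπ : ∀ r ∈ π, r.Prime) (h2 : 2 ∉ π) (p : ℕ) (hp : p ∈ π)
    (hmin : ∀ r ∈ π, p ≤ r) (hk : (p + 1) * π.prod (fun r => r ^ (Nat.card G).factorization r) < 2 * p * Nat.card {c : ConjClasses G // ∀ x ∈ c.carrier, ∀ r : ℕ, r.Prime → r ∣ orderOf x → r ∈ π}) :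
    (∃ N : Subgroup G, N.Normal ∧ (∀ r : ℕ, r.Prime → r ∣ Nat.card ↥N → r ∉ π) ∧ ∀ r : ℕ, r.Prime → r ∣ N.index → r ∈ π) ∧ ∃ H : Subgroup G, Cfsg.IsPiHall (↑π : Set ℕ) H ∧ IsMulCommutative ↥H := by
  classical
  have hk' : (p + 1) * piPart π (Nat.card G) < 2 * p * Nat.card (PiClass π G) := hk
  have key : ∀ r ∈ π, ∃ N : Subgroup G, N.Normal ∧ ¬ r ∣ Nat.card N ∧ (∃ k, N.index = r ^ k) ∧
      ∀ a b : G, a * b * a⁻¹ * b⁻¹ ∈ N := by
    intro r hr
    have hrp := hπ r hr
    have : Fact r.Prime := ⟨hrp⟩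
    have hr2 : r ≠ 2 := by rintro rfl; exact h2 hr
    have h3 := card_piClass_le_mul (G := G) π hπ r hrp
    have h4 := piPart_eq π r hr (Nat.card G)
    have h5 : 0 < piPart (π.erase r) (Nat.card G) :=
      piPart_pos _ (fun s hs => hπ s (Finset.mem_of_mem_erase hs)) _
    have hp0 := (hπ p hp).pos
    have hpr := hmin r hr
    set A := piPart (π.erase r) (Nat.card G)
    set R := r ^ (Nat.card G).factorization r with hR
    set k := Nat.card (PClass r G) with hkk
    -- (p+1) R A < 2 p k A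
    have h6 : (p + 1) * R < 2 * p * k := by
      have h7 : (p + 1) * (R * A) < 2 * p * (k * A) := by
        calc (p + 1) * (R * A) = (p + 1) * piPart π (Nat.card G) := by rw [h4]
          _ < 2 * p * Nat.card (PiClass π G) := hk'
          _ ≤ 2 * p * (k * A) := Nat.mul_le_mul_left _ h3
      have h8 : (p + 1) * R * A < 2 * p * k * A := by
        calc (p + 1) * R * A = (p + 1) * (R * A) := by ring
          _ < 2 * p * (k * A) := h7
          _ = _ := by ring
      exact lt_of_mul_lt_mul_right h8 (Nat.zero_le _)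
    have h9 : (r + 1) * R < 2 * r * k := by
      have h10 : (r + 1) * p ≤ (p + 1) * r := by nlinarith
      have h11 : ((r + 1) * R) * p < (2 * r * k) * p := by
        calc ((r + 1) * R) * p = ((r + 1) * p) * R := by ring
          _ ≤ ((p + 1) * r) * R := Nat.mul_le_mul_right _ h10
          _ = r * ((p + 1) * R) := by ring
          _ < r * (2 * p * k) := by
            apply Nat.mul_lt_mul_of_pos_left h6 hrp.pos
          _ = _ := by ring
      exact lt_of_mul_lt_mul_right h11 (Nat.zero_le _)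
    have hall : ∀ P : Sylow r G, Cfsg.HasNormalPComplement r G ∧ IsMulCommutative ↥(P : Subgroup G) := by
      intro P
      refine (Cfsg.Agent.S3897.result hr2 P).1 ?_
      rw [P.card_eq_multiplicity]
      exact h9
    exact H68.PiComplement.of_hasNormalPComplement (hall default).1 (fun P => (hall P).2)
  obtain ⟨N, hN, h3, h4, h5⟩ := H68.PiComplement.exists_of_forall π hπ key
  refine ⟨⟨N, hN, h3, h4⟩, ?_⟩
  exact H68.PiComplement.exists_hall (π : Set ℕ) N (fun r hr hd hm => h3 r hr hd (Finset.mem_coe.1 hm))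
    (fun r hr hd => Finset.mem_coe.2 (h4 r hr hd)) h5

end Cfsg.Agent.S3899
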