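import Cfsg.Statements.S3903
import Mathlib.GroupTheory.Nilpotent
import Mathlib.Data.Nat.Factorization.PrimePow
import Cfsg.Agent.Lib.H68.MaxSylow
import Cfsg.Agent.Lib.H68.Isolated

set_option autoImplicit false
open Cfsg

namespace Cfsg.Agent.S3903

open H68.Isolated MulAction

/-- The centralizer of a `p`-element outside `N` is a `p`-group if all orders outside `N` are prime powers. -/
theorem isPGroup_centralizer {G : Type*} [Group G] [Finite G] (N : Subgroup G) [N.Normal]
    (h : ∀ x : G, x ∉ N → IsPrimePow (orderOf x)) (x : G) (hx : x ∉ N) (p : ℕ) (hp : p.Prime) (k : ℕ)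
    (hk : orderOf x = p ^ k) : IsPGroup p (Subgroup.centralizer ({x} : Set G)) := by
  have : Fact p.Prime := ⟨hp⟩
  rw [IsPGroup.iff_orderOf]
  intro y
  have hy := Subgroup.mem_centralizer_singleton_iff.1 y.2
  have hxy : Commute x (y : G) := hy.symm
  have hk0 : k ≠ 0 := by
    rintro rfl
    rw [pow_zero, orderOf_eq_one_iff] at hk
    exact hx (hk ▸ one_mem N)
  refine ⟨_, Nat.eq_prime_pow_of_unique_prime_dvd (orderOf_pos y).ne' ?_⟩
  intro q hq hqd
  by_contra hne
  rw [← Subgroup.orderOf_coe] at hqd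
  set z := (y : G) ^ (orderOf (y : G) / q) with hz
  have hzq : orderOf z = q := orderOf_pow_orderOf_div (orderOf_pos (y : G)).ne' hqd
  have hxz : Commute x z := hxy.pow_right _
  have hcop : Nat.Coprime (orderOf x) (orderOf z) := by
    rw [hk, hzq]
    exact Nat.Coprime.pow_left _ ((Nat.coprime_primes hp hq).2 (Ne.symm hne))
  have hord := hxz.orderOf_mul_eq_mul_orderOf_of_coprime hcop
  by_cases hmem : x * z ∈ N
  · -- then x ^ q ∈ N, so x ∈ N
    have h1 : x ^ q ∈ N := by
      have h2 := pow_mem hmem q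
      rw [hxz.mul_pow, ← hzq, pow_orderOf_eq_one, mul_one, hzq] at h2
      exact h2
    have h3 : Nat.Coprime (orderOf x) q := by rw [← hzq]; exact hcop
    apply hx
    obtain ⟨m, hm⟩ := exists_pow_eq_self_of_coprime h3.symm
    rw [← hm]
    exact pow_mem h1 m
  · have h1 := h _ hmem
    rw [hord, hzq, hk] at h1
    rw [isPrimePow_nat_iff] at h1
    obtain ⟨r, j, hr, hj, hrj⟩ := h1
    have h2 : p ∣ r ^ j := by rw [hrj]; exact Dvd.dvd.mul_right (dvd_pow_self p hk0) q
    have h3 : q ∣ r ^ j := by rw [hrj]; exact dvd_mul_left q _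
    have h4 := (Nat.prime_dvd_prime_iff_eq hp hr).1 (hp.dvd_of_dvd_pow h2)
    have h5 := (Nat.prime_dvd_prime_iff_eq hq hr).1 (hq.dvd_of_dvd_pow h3)
    exact hne (h5.trans h4.symm)

theorem result {G : Type*} [Group G] [Finite G] (N : Subgroup G) [N.Normal] (hN : N ≠ ⊤)
    (h : ∀ x : G, x ∉ N → IsPrimePow (orderOf x) ∧ IsCoatom (Subgroup.centralizer ({x} : Set G))) : Group.IsSolvable ↥N := by
  classical
  by_contra hns
  have hG : ¬ Group.IsSolvable G := fun hs => hns inferInstance
  have hpN : ∀ (p : ℕ) [Fact p.Prime], ¬ IsPGroup p N := fun p _ hp => by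
    have := hp.isNilpotent
    exact hns inferInstance
  have hpG : ∀ (p : ℕ) [Fact p.Prime], ¬ IsPGroup p G := fun p _ hp => hpN p (hp.to_subgroup N)
  obtain ⟨x₀, hx₀⟩ : ∃ x, x ∉ N := by
    by_contra hcon
    push Not at hcon
    exact hN (eq_top_iff.2 fun x _ => hcon x)
  -- data for each x
  have step : ∀ x : G, x ∉ N → ∀ p : ℕ, p.Prime → p ∣ orderOf x →
      IsPGroup p (Subgroup.centralizer ({x} : Set G)) ∧ N ⊔ Subgroup.centralizer ({x} : Set G) = ⊤ := by
    intro x hx p hp hpd
    have : Fact p.Prime := ⟨hp⟩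
    obtain ⟨⟨q, k, hq, hk, hqk⟩, hco⟩ := h x hx
    have hq' := hq.nat_prime
    have hpq : p = q := by
      rw [← hqk] at hpd
      exact (Nat.prime_dvd_prime_iff_eq hp hq').1 (hp.dvd_of_dvd_pow hpd)
    subst hpq
    have h1 := isPGroup_centralizer N (fun x hx => (h x hx).1) x hx p hp k hqk.symm
    refine ⟨h1, ?_⟩
    apply hco.2
    refine lt_of_le_of_ne le_sup_right fun he => ?_
    have h2 : N ≤ Subgroup.centralizer ({x} : Set G) := by rw [he]; exact le_sup_left
    exact hpN p (h1.to_le h2)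
  have hidx : ∀ x : G, x ∉ N → ∀ p : ℕ, p.Prime → p ∣ orderOf x → ∃ k, N.index = p ^ k := by
    intro x hx p hp hpd
    have : Fact p.Prime := ⟨hp⟩
    obtain ⟨h1, h2⟩ := step x hx p hp hpd
    have h3 : N.index = N.relIndex (Subgroup.centralizer ({x} : Set G)) := by
      rw [← Subgroup.relIndex_sup_left, h2, Subgroup.relIndex_top_right]
    obtain ⟨k, hk⟩ := IsPGroup.iff_card.1 h1
    have h4 : N.index ∣ p ^ k := by
      rw [h3, ← hk]; exact Subgroup.relIndex_dvd_card _ _
    obtain ⟨j, _, hj⟩ := (Nat.dvd_prime_pow hp).1 h4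
    exact ⟨j, hj⟩
  have hNidx : N.index ≠ 1 := fun hh => hN (Subgroup.index_eq_one.1 hh)
  -- the prime p
  have hox₀ : orderOf x₀ ≠ 1 := fun hh => hx₀ (by rw [orderOf_eq_one_iff.1 hh]; exact one_mem N)
  set p := (orderOf x₀).minFac with hpdef
  have hp : p.Prime := Nat.minFac_prime hox₀
  have : Fact p.Prime := ⟨hp⟩
  obtain ⟨k₀, hk₀⟩ := hidx x₀ hx₀ p hp (Nat.minFac_dvd _)
  have hall : ∀ x : G, x ∉ N → p ∣ orderOf x := by
    intro x hx
    have hox : orderOf x ≠ 1 := fun hh => hx (by rw [orderOf_eq_one_iff.1 hh]; exact one_mem N)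
    have hq := Nat.minFac_prime hox
    obtain ⟨j, hj⟩ := hidx x hx _ hq (Nat.minFac_dvd _)
    have hk0 : k₀ ≠ 0 := by rintro rfl; rw [pow_zero] at hk₀; exact hNidx hk₀
    have h1 : p ∣ (orderOf x).minFac ^ j := by
      rw [← hj, hk₀]; exact dvd_pow_self p hk0
    have h2 := (Nat.prime_dvd_prime_iff_eq hp hq).1 (hp.dvd_of_dvd_pow h1)
    rw [h2]
    exact Nat.minFac_dvd _
  have hcp : ∀ x : G, x ∉ N → IsPGroup p (Subgroup.centralizer ({x} : Set G)) := fun x hx => (step x hx p hp (hall x hx)).1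
  have hsup : ∀ x : G, x ∉ N → N ⊔ Subgroup.centralizer ({x} : Set G) = ⊤ := fun x hx => (step x hx p hp (hall x hx)).2
  have hsyl : ∀ x : G, x ∉ N → ∃ P : Sylow p G, (P : Subgroup G) = Subgroup.centralizer ({x} : Set G) := by
    intro x hx
    obtain ⟨P, hP⟩ := (hcp x hx).exists_le_sylow
    refine ⟨P, ?_⟩
    rcases (h x hx).2.le_iff.1 hP with h1 | h1
    · exfalso
      apply hpG p
      have := P.2
      rw [h1] at this
      exact this.of_equiv Subgroup.topEquiv
    · exact h1
  choose! f hf using hsyl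
  -- every Sylow is a centralizer
  have hcent : ∀ P : Sylow p G, ∃ x : G, x ∉ N ∧ (P : Subgroup G) = Subgroup.centralizer ({x} : Set G) := by
    intro P
    obtain ⟨g, hg⟩ := exists_smul_eq G (f x₀) P
    have hx : g * x₀ * g⁻¹ ∉ N := fun hh => hx₀ (by
      have := Subgroup.Normal.conj_mem inferInstance _ hh g⁻¹
      have e : g⁻¹ * (g * x₀ * g⁻¹) * g⁻¹⁻¹ = x₀ := by group
      rwa [e] at this)
    refine ⟨g * x₀ * g⁻¹, hx, ?_⟩
    have hle : (P : Subgroup G) ≤ Subgroup.centralizer ({g * x₀ * g⁻¹} : Set G) := by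
      intro y hy
      rw [← hg] at hy
      have hy' : g⁻¹ * y * g ∈ f x₀ := mem_smul_sylow.1 hy
      have hy2 : g⁻¹ * y * g ∈ (f x₀ : Subgroup G) := hy'
      rw [hf x₀ hx₀, Subgroup.mem_centralizer_singleton_iff] at hy2
      rw [Subgroup.mem_centralizer_singleton_iff]
      calc y * (g * x₀ * g⁻¹) = g * (g⁻¹ * y * g * x₀) * g⁻¹ := by group
        _ = g * (x₀ * (g⁻¹ * y * g)) * g⁻¹ := by rw [hy2]
        _ = _ := by group
    exact (P.3 (hcp _ hx) hle).symm
  have hco : ∀ P : Sylow p G, IsCoatom (P : Subgroup G) := fun P => by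
    obtain ⟨x, hx, hP⟩ := hcent P
    rw [hP]; exact (h x hx).2
  have hsupP : ∀ P : Sylow p G, N ⊔ (P : Subgroup G) = ⊤ := fun P => by
    obtain ⟨x, hx, hP⟩ := hcent P
    rw [hP]; exact hsup x hx
  -- the Sylows are self-normalizing
  have hnorm : ∀ P : Sylow p G, Subgroup.normalizer (P : Set G) = (P : Subgroup G) := by
    intro P
    rcases (hco P).le_iff.1 (Subgroup.le_normalizer (H := (P : Subgroup G))) with h1 | h1
    · exfalso
      have := Subgroup.normalizer_eq_top_iff.1 h1
      have hs : Group.IsSolvable (P : Subgroup G) := by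
        have := P.2.isNilpotent
        infer_instance
      exact hG (H68.MaxSylow.isSolvable_of_normal_coatom _ (hco P) hs)
    · exact h1
  -- counting
  have hcardS : ∀ P : Sylow p G, Nat.card (Sylow p G) * Nat.card (P : Subgroup G) = Nat.card G := by
    intro P
    rw [P.card_eq_index_normalizer, hnorm P, mul_comm]
    exact Subgroup.card_mul_index _
  have hcardN : ∀ P : Sylow p G, Nat.card N = Nat.card (Sylow p G) * Nat.card (N ⊓ P : Subgroup G) := by
    intro P
    have h1 := H68.Util.card_mul_card_of_sup_eq_top (hsupP P)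
    rw [← hcardS P] at h1
    have h2 : 0 < Nat.card (P : Subgroup G) := Nat.card_pos
    have h3 : Nat.card N * Nat.card (P : Subgroup G) = (Nat.card (Sylow p G) * Nat.card (N ⊓ P : Subgroup G)) * Nat.card (P : Subgroup G) := by
      rw [h1]; ring
    exact Nat.eq_of_mul_eq_mul_right h2 h3
  have hdiff : ∀ P : Sylow p G, Nat.card {x : G // x ∈ P ∧ x ∉ N} + Nat.card (N ⊓ P : Subgroup G) = Nat.card (P : Subgroup G) := by
    intro P
    have h1 := Set.ncard_sdiff_add_ncard_of_subset (s := ((N ⊓ P : Subgroup G) : Set G)) (t := ((P : Subgroup G) : Set G))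
      (fun x hx => (Subgroup.mem_inf.1 hx).2) (Set.toFinite _)
    have h2 : ((P : Subgroup G) : Set G) \ ((N ⊓ P : Subgroup G) : Set G) = {x : G | x ∈ P ∧ x ∉ N} := by
      ext x
      simp only [Set.mem_sdiff, SetLike.mem_coe, Subgroup.mem_inf, Set.mem_setOf_eq, not_and]
      constructor
      · rintro ⟨h3, h4⟩; exact ⟨h3, fun h5 => h4 h5 h3⟩
      · rintro ⟨h3, h4⟩; exact ⟨h3, fun h5 => absurd h5 h4⟩
    rw [h2] at h1
    rw [← Nat.card_coe_set_eq, ← Nat.card_coe_set_eq, ← Nat.card_coe_set_eq] at h1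
    exact h1
  have : Fintype (Sylow p G) := Fintype.ofFinite _
  have hS : Nat.card (Σ P : Sylow p G, {x : G // x ∈ P ∧ x ∉ N}) + Nat.card N = Nat.card G := by
    rw [Nat.card_sigma]
    obtain ⟨P₀⟩ : Nonempty (Sylow p G) := inferInstance
    have hconst : ∀ P : Sylow p G, Nat.card {x : G // x ∈ P ∧ x ∉ N} = Nat.card {x : G // x ∈ P₀ ∧ x ∉ N} := by
      intro P
      have e1 := hdiff P
      have e2 := hdiff P₀
      have e3 : Nat.card (P : Subgroup G) = Nat.card (P₀ : Subgroup G) := by
        rw [P.card_eq_multiplicity, P₀.card_eq_multiplicity]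
      have e4 : Nat.card (N ⊓ P : Subgroup G) = Nat.card (N ⊓ P₀ : Subgroup G) := by
        have e5 := hcardN P
        rw [hcardN P₀] at e5
        exact (Nat.eq_of_mul_eq_mul_left (Nat.card_pos) e5).symm
      omega
    rw [Finset.sum_congr rfl (fun P _ => hconst P), Finset.sum_const, smul_eq_mul, Finset.card_univ,
      ← Nat.card_eq_fintype_card]
    have e1 := hdiff P₀
    have e2 := hcardS P₀
    rw [hcardN P₀, ← mul_add, e1, e2]
  have hcompl : Nat.card {x : G // x ∉ N} + Nat.card N = Nat.card G := by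
    have h1 := Set.ncard_sdiff_add_ncard_of_subset (s := (N : Set G)) (t := Set.univ) (Set.subset_univ _) (Set.toFinite _)
    rw [← Nat.card_coe_set_eq, ← Nat.card_coe_set_eq, Set.ncard_univ] at h1
    have h2 : Nat.card {x : G // x ∉ N} = Nat.card ((Set.univ \ (N : Set G) : Set G)) := by
      apply Nat.card_congr
      apply Equiv.subtypeEquivRight
      intro x
      simp
    rw [h2]
    exact h1
  let F : {x : G // x ∉ N} → (Σ P : Sylow p G, {x : G // x ∈ P ∧ x ∉ N}) := fun x =>
    ⟨f x, ⟨x, by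
      constructor
      · have : (x : G) ∈ (f x : Subgroup G) := by
          rw [hf x x.2, Subgroup.mem_centralizer_singleton_iff]
        exact this
      · exact x.2⟩⟩
  have hFinj : Function.Injective F := by
    intro x y hxy
    have h1 : ((F x).2 : G) = (F y).2 := by rw [hxy]
    exact Subtype.ext h1
  have hFsurj : Function.Surjective F := by
    have hbij : Function.Bijective F := by
      rw [Nat.bijective_iff_injective_and_card]
      exact ⟨hFinj, by omega⟩
    exact hbij.2
  have hkey : ∀ P : Sylow p G, ∀ x ∈ P, x ∉ N → (P : Subgroup G) = Subgroup.centralizer ({x} : Set G) := by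
    intro P x hx hxN
    obtain ⟨y, hy⟩ := hFsurj ⟨P, ⟨x, hx, hxN⟩⟩
    have h1 : f y = P := congrArg Sigma.fst hy
    have h2 : ((F y).2 : G) = x := by rw [hy]
    have h3 : (y : G) = x := h2
    rw [← h1, h3]
    exact hf x hxN
  -- abelian
  obtain ⟨P₀⟩ : Nonempty (Sylow p G) := inferInstance
  obtain ⟨c, hcP, hcN⟩ : ∃ c ∈ P₀, c ∉ N := by
    by_contra hcon
    push Not at hcon
    have h1 : N ⊔ (P₀ : Subgroup G) = N := sup_eq_left.2 fun x hx => hcon x hx
    rw [hsupP P₀] at h1
    exact hN h1.symm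
  have hcomm : ∀ a ∈ P₀, a ∉ N → ∀ b ∈ P₀, a * b = b * a := by
    intro a ha haN b hb
    have h1 : b ∈ (P₀ : Subgroup G) := hb
    rw [hkey P₀ a ha haN, Subgroup.mem_centralizer_singleton_iff] at h1
    exact h1.symm
  apply hG
  refine H68.MaxSylow.isSolvable_of_coatom_abelian_sylow P₀ (hco P₀) ?_
  intro a ha b hb
  by_cases haN : a ∈ N
  · have hac : a * c ∉ N := fun hh => hcN (by
      have := mul_mem (inv_mem haN) hh
      rwa [inv_mul_cancel_left] at this)
    have h1 := hcomm (a * c) (mul_mem ha hcP) hac b hb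
    have h2 := hcomm c hcP hcN b hb
    have h3 : a * b * c = b * a * c := by
      calc a * b * c = a * (b * c) := by group
        _ = a * (c * b) := by rw [h2]
        _ = a * c * b := by group
        _ = b * (a * c) := h1
        _ = b * a * c := by group
    exact mul_right_cancel h3
  · exact hcomm a ha haN b hb

end Cfsg.Agent.S3903
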