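import Cfsg.Statements.S3904
import Cfsg.Agent.Lib.H68.MaxCentE

set_option autoImplicit false
open Cfsg
open scoped commutatorElement

namespace Cfsg.Agent.S3904

open H68.MaxCentA H68.MaxCentB H68.MaxCentE in
theorem aux {G : Type*} [Group G] [Finite G] (hH : Hyp (⊤ : Subgroup G)) {V : Subgroup G} {p : ℕ} {v₀ n₀ : G}
    (hp : p.Prime) (d : Dat (⊤ : Subgroup G) V) (hVp : ∀ v ∈ V, v ^ p ∈ ZZ (⊤ : Subgroup G)) (hv₀ : v₀ ∈ V)
    (hvn : ⁅v₀, n₀⁆ ∉ ZZ (⊤ : Subgroup G)) :
    ¬ IsMulCommutative (G ⧸ Subgroup.center G) ∧ (∀ H : Subgroup (G ⧸ Subgroup.center G), H ≠ ⊤ → IsMulCommutative ↥H) ∧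
      ∃ p q a : ℕ, p.Prime ∧ q.Prime ∧ p ≠ q ∧ Nat.card (G ⧸ Subgroup.center G) = p ^ a * q ∧
        ∀ P : Subgroup (G ⧸ Subgroup.center G), Nat.card ↥P = p ^ a → P.Normal := by
  have hn₀ : n₀ ∈ (⊤ : Subgroup G) := Subgroup.mem_top _
  have hVn := d.normal
  have hZ : ∀ z : G, z ∈ ZZ (⊤ : Subgroup G) ↔ z ∈ Subgroup.center G := by
    intro z
    rw [mem_ZZ, Subgroup.mem_center_iff]
    exact ⟨fun h n => h.2 n (Subgroup.mem_top _), fun h => ⟨Subgroup.mem_top _, fun n _ => h n⟩⟩
  set π : G →* G ⧸ Subgroup.center G := QuotientGroup.mk' (Subgroup.center G) with hπ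
  have hπs : Function.Surjective π := QuotientGroup.mk'_surjective _
  have hπ1 : ∀ g : G, π g = 1 ↔ g ∈ ZZ (⊤ : Subgroup G) := by
    intro g
    rw [hπ, QuotientGroup.mk'_apply, QuotientGroup.eq_one_iff, hZ]
  have hcomm1 : ∀ a b : G, ⁅a, b⁆ ∈ ZZ (⊤ : Subgroup G) → π a * π b = π b * π a := by
    intro a b hab
    rw [← commutatorElement_eq_one_iff_mul_comm, ← map_commutatorElement, hπ1]
    exact hab
  set K0 : Subgroup (G ⧸ Subgroup.center G) := V.map π with hK0
  have hK0n : K0.Normal := hVn.map π hπs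
  have hcomap : K0.comap π = V := by
    rw [hK0, Subgroup.comap_map_eq, sup_eq_left, hπ, QuotientGroup.ker_mk']
    intro z hz
    exact d.Zle ((hZ z).2 hz)
  have hidx : K0.index = V.relIndex ⊤ := by
    rw [← Subgroup.index_comap_of_surjective K0 hπs, hcomap, Subgroup.relIndex_top_right]
  have hqp := relIndex_prime hH d hv₀ hn₀ hvn
  have := Fact.mk hp
  have hK0p : IsPGroup p K0 := by
    rintro ⟨_, v, hv, rfl⟩
    refine ⟨1, Subtype.ext ?_⟩
    rw [pow_one]
    show (π v) ^ p = 1
    rw [← map_pow, hπ1]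
    exact hVp v hv
  obtain ⟨a, ha⟩ := IsPGroup.iff_card.1 hK0p
  have hpq : p ≠ V.relIndex ⊤ := by
    obtain ⟨K, Q, hKn, hc, hQ, hcardQ, hQp, hKel, -, hKbot⟩ := frob hH hp d hVp hv₀ hn₀ hvn
    intro hpq
    have h1 := H1.Frob.coprime_card_index (H := Q) hQ.2.2
    have h2 : Nat.card K * Nat.card Q = Nat.card (↥(⊤ : Subgroup G) ⧸ Subgroup.center ↥(⊤ : Subgroup G)) := hc.card_mul_card
    have h3 : Nat.card K = Q.index := by
      apply Nat.eq_of_mul_eq_mul_right (Nat.card_pos (α := Q))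
      rw [h2, mul_comm, Q.card_mul_index]
    rw [← h3, hcardQ, ← hpq] at h1
    have hKp : IsPGroup p K := by
      intro k
      exact ⟨1, by rw [pow_one]; exact Subtype.ext (hKel.2 k k.2)⟩
    obtain ⟨b, hb⟩ := IsPGroup.iff_card.1 hKp
    have hb0 : b ≠ 0 := by
      rintro rfl
      rw [pow_zero] at hb
      exact hKbot (Subgroup.card_eq_one.1 hb)
    rw [hb] at h1
    have h4 : p ∣ 1 := by
      have := Nat.dvd_gcd (dvd_refl p) (dvd_pow_self p hb0)
      rwa [h1] at this
    exact hp.one_lt.ne' (Nat.dvd_one.1 h4)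
  refine ⟨?_, ?_, p, V.relIndex ⊤, a, hp, hqp, hpq, ?_, ?_⟩
  · intro hcm
    apply hvn
    rw [← hπ1, map_commutatorElement, commutatorElement_eq_one_iff_mul_comm]
    exact hcm.is_comm.comm _ _
  · intro H hHt
    set L := H.comap π with hL
    have hHL : H = L.map π := by rw [hL, Subgroup.map_comap_eq_self_of_surjective hπs]
    have key : ∀ a ∈ L, ∀ b ∈ L, π a * π b = π b * π a := by
      by_cases hLV : L ≤ V
      · intro a ha b hb
        rw [← map_mul, ← map_mul, d.comm a (hLV ha) b (hLV hb)]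
      · obtain ⟨l, hl, hlV⟩ := SetLike.not_le_iff_exists.1 hLV
        have hsup : V ⊔ L = ⊤ := by
          rcases eq_of_between hH d hv₀ hn₀ hvn (L := V ⊔ L) le_sup_left le_top with h1 | h1
          · exact absurd (h1 ▸ le_sup_right) hLV
          · exact h1
        have hW : L ⊓ V = ZZ (⊤ : Subgroup G) ∨ L ⊓ V = V := by
          apply d.min
          · constructor
            intro w hw g
            have hg : g ∈ V ⊔ L := by rw [hsup]; trivial
            rw [Subgroup.mem_sup_of_normal_left] at hg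
            obtain ⟨v, hv, m, hm, rfl⟩ := hg
            obtain ⟨hw1, hw2⟩ := Subgroup.mem_inf.1 hw
            have h2 := hVn.conj_mem _ hw2 m
            have h1 : v * m * w * (v * m)⁻¹ = m * w * m⁻¹ := by
              have h3 := d.comm v hv _ h2
              calc v * m * w * (v * m)⁻¹ = (v * (m * w * m⁻¹)) * v⁻¹ := by group
                _ = m * w * m⁻¹ * v * v⁻¹ := by rw [h3]
                _ = m * w * m⁻¹ := by group
            rw [h1]
            exact Subgroup.mem_inf.2 ⟨L.mul_mem (L.mul_mem hm hw1) (L.inv_mem hm), h2⟩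
          · intro z hz
            refine Subgroup.mem_inf.2 ⟨?_, d.Zle hz⟩
            rw [hL, Subgroup.mem_comap, (hπ1 z).2 hz]
            exact H.one_mem
          · exact inf_le_right
        rcases hW with hW | hW
        · intro a ha b hb
          apply hcomm1
          rw [← hW]
          refine Subgroup.mem_inf.2 ⟨?_, comm_mem hH d (Subgroup.mem_top a) b⟩
          rw [commutatorElement_def]
          exact L.mul_mem (L.mul_mem (L.mul_mem ha hb) (L.inv_mem ha)) (L.inv_mem hb)
        · exfalso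
          apply hHt
          have h1 : V ≤ L := inf_eq_right.1 hW
          rcases eq_of_between hH d hv₀ hn₀ hvn h1 le_top with h2 | h2
          · exact absurd (h2 ▸ hl) hlV
          · rw [hHL, h2, Subgroup.map_top_of_surjective _ hπs]
    refine ⟨⟨?_⟩⟩
    rintro ⟨x, hx⟩ ⟨y, hy⟩
    rw [hHL] at hx hy
    obtain ⟨a, ha, rfl⟩ := hx
    obtain ⟨b, hb, rfl⟩ := hy
    exact Subtype.ext (key a ha b hb)
  · rw [← K0.card_mul_index, ha, hidx]
  · intro P hP
    have hPK : P ≤ K0 := by
      intro x hx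
      have h1 : orderOf x ∣ p ^ a := by
        rw [← hP]
        exact Subgroup.orderOf_dvd_natCard P hx
      rw [← QuotientGroup.eq_one_iff, ← orderOf_eq_one_iff]
      apply Nat.eq_one_of_dvd_coprimes (k := orderOf (QuotientGroup.mk x : (G ⧸ Subgroup.center G) ⧸ K0))
        (((Nat.coprime_primes hp hqp).2 hpq).pow_left a)
      · exact (orderOf_map_dvd (QuotientGroup.mk' K0) x).trans h1
      · rw [← hidx, Subgroup.index_eq_card]
        exact orderOf_dvd_natCard _
    have : P = K0 := Subgroup.eq_of_le_of_card_ge hPK (by rw [hP, ha])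
    rw [this]
    exact hK0n


/-- Let G be a non-abelian finite group in which the centralizer of every non-central element is a maximal subgroup. Then G/Z(G) is either an elementary abelian p-group for some prime p, or a minimal non-abelian group (non-abelian with all proper subgroups abelian) of order p^a · q for distinct primes p, q with a normal Sylow p-subgroup. -/
theorem result {G : Type*} [Group G] [Finite G] (hna : ¬ IsMulCommutative G)
    (h : ∀ x : G, x ∉ Subgroup.center G → IsCoatom (Subgroup.centralizer ({x} : Set G))) :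
    (∃ p : ℕ, p.Prime ∧ Cfsg.IsElementaryAbelian p (⊤ : Subgroup (G ⧸ Subgroup.center G))) ∨
    (¬ IsMulCommutative (G ⧸ Subgroup.center G) ∧ (∀ H : Subgroup (G ⧸ Subgroup.center G), H ≠ ⊤ → IsMulCommutative ↥H) ∧
      ∃ p q a : ℕ, p.Prime ∧ q.Prime ∧ p ≠ q ∧ Nat.card (G ⧸ Subgroup.center G) = p ^ a * q ∧
        ∀ P : Subgroup (G ⧸ Subgroup.center G), Nat.card ↥P = p ^ a → P.Normal) := by
  have hH : H68.MaxCentA.Hyp (⊤ : Subgroup G) := by
    intro x _ hxZ
    apply h x
    intro h1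
    apply hxZ
    rw [H68.MaxCentA.mem_ZZ]
    exact ⟨Subgroup.mem_top _, fun n _ => Subgroup.mem_center_iff.1 h1 n⟩
  rcases H68.MaxCentE.main hH with ⟨p, hp, h1, h2⟩ | ⟨V, p, v₀, n₀, hp, d, hVp, hv₀, hn₀, hvn⟩
  · left
    have hZ : ∀ z : G, z ∈ H68.MaxCentA.ZZ (⊤ : Subgroup G) → z ∈ Subgroup.center G := by
      intro z hz
      rw [H68.MaxCentA.mem_ZZ] at hz
      rw [Subgroup.mem_center_iff]
      exact fun n => hz.2 n (Subgroup.mem_top _)
    refine ⟨p, hp, ⟨⟨?_⟩⟩, ?_⟩
    · rintro ⟨a, -⟩ ⟨b, -⟩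
      apply Subtype.ext
      show a * b = b * a
      obtain ⟨a, rfl⟩ := QuotientGroup.mk_surjective a
      obtain ⟨b, rfl⟩ := QuotientGroup.mk_surjective b
      have h3 := h1 a (Subgroup.mem_top _) b (Subgroup.mem_top _)
      have h4 : ⁅a, b⁆ ∈ Subgroup.center G := hZ _ h3
      rw [← QuotientGroup.eq_one_iff] at h4
      rw [← commutatorElement_eq_one_iff_mul_comm]
      exact h4
    · intro a _
      obtain ⟨a, rfl⟩ := QuotientGroup.mk_surjective a
      rw [← QuotientGroup.mk_pow, QuotientGroup.eq_one_iff]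
      exact hZ _ (h2 a (Subgroup.mem_top _))
  · right
    exact aux hH hp d hVp hv₀ hvn

end Cfsg.Agent.S3904
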