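import Cfsg.Statements.S3905
import Cfsg.Agent.Lib.H68.MaxCentE

set_option autoImplicit false
open Cfsg
open scoped commutatorElement

namespace Cfsg.Agent.S3905

/-- Let N be a normal subgroup of the finite group G such that for every element x of N outside the center of N the centralizer C_G(x) is a maximal subgroup of G. Then N/Z(N) is either an elementary abelian p-group for some prime p, or a Frobenius group whose kernel is an elementary abelian normal subgroup and whose complement has prime order. -/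
theorem result {G : Type*} [Group G] [Finite G] (N : Subgroup G) [N.Normal]
    (h : ∀ x : G, x ∈ N → x ∉ Subgroup.centralizer (N : Set G) → IsCoatom (Subgroup.centralizer ({x} : Set G))) :
    (∃ p : ℕ, p.Prime ∧ Cfsg.IsElementaryAbelian p (⊤ : Subgroup (↥N ⧸ Subgroup.center ↥N))) ∨
    (∃ (Q K : Subgroup (↥N ⧸ Subgroup.center ↥N)) (p : ℕ), p.Prime ∧ Cfsg.IsFrobeniusComplement Q ∧ (Nat.card ↥Q).Prime ∧
      K.Normal ∧ (K : Set (↥N ⧸ Subgroup.center ↥N)) = Cfsg.frobeniusKernel Q ∧ Cfsg.IsElementaryAbelian p K) := by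
  have hH : H68.MaxCentA.Hyp N := by
    intro x hx hxZ
    apply h x hx
    intro h1
    exact hxZ (Subgroup.mem_inf.2 ⟨hx, h1⟩)
  have hcen : ∀ n : N, n ∈ Subgroup.center N ↔ (n : G) ∈ H68.MaxCentA.ZZ N := by
    intro n
    rw [Subgroup.mem_center_iff, H68.MaxCentA.mem_ZZ]
    constructor
    · intro h1
      exact ⟨n.2, fun m hm => congrArg Subtype.val (h1 ⟨m, hm⟩)⟩
    · intro h1 m
      exact Subtype.ext (h1.2 m m.2)
  rcases H68.MaxCentE.main hH with ⟨p, hp, h1, h2⟩ | ⟨V, p, v₀, n₀, hp, d, hVp, hv₀, hn₀, hvn⟩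
  · left
    refine ⟨p, hp, ⟨⟨?_⟩⟩, ?_⟩
    · rintro ⟨a, -⟩ ⟨b, -⟩
      apply Subtype.ext
      show a * b = b * a
      obtain ⟨a, rfl⟩ := QuotientGroup.mk_surjective a
      obtain ⟨b, rfl⟩ := QuotientGroup.mk_surjective b
      have h3 := h1 a a.2 b b.2
      have h4 : (⁅a, b⁆ : N) ∈ Subgroup.center N := (hcen _).2 h3
      rw [← QuotientGroup.eq_one_iff] at h4
      rw [← commutatorElement_eq_one_iff_mul_comm]
      exact h4
    · intro a _
      obtain ⟨a, rfl⟩ := QuotientGroup.mk_surjective a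
      rw [← QuotientGroup.mk_pow, QuotientGroup.eq_one_iff, hcen]
      exact h2 a a.2
  · right
    obtain ⟨K, Q, hKn, hc, hQ, -, hQp, hKel, -, -⟩ := H68.MaxCentE.frob hH hp d hVp hv₀ hn₀ hvn
    exact ⟨Q, K, p, hp, hQ, hQp, hKn, H68.MaxCentE.eq_frobeniusKernel hc hQ, hKel⟩

end Cfsg.Agent.S3905
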