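import Cfsg.Statements.S3910
import Cfsg.Agent.Lib.H2.Nilp
import Cfsg.Agent.Lib.H62.Derangement

set_option autoImplicit false
open Cfsg

namespace Cfsg.Agent.S3910

/-- A finite nilpotent group in which any two abelian subgroups of the same order are conjugate is cyclic. -/
theorem result {G : Type*} [Group G] [Finite G] (hB : ∀ A B : Subgroup G, IsMulCommutative ↥A → IsMulCommutative ↥B → Nat.card ↥A = Nat.card ↥B → ∃ g : G, B = A.map (MulAut.conj g).toMonoidHom) (hnil : Group.IsNilpotent G) : IsCyclic G := by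
  classical
  have : Fintype G := Fintype.ofFinite G
  obtain ⟨x, hx⟩ := Finite.exists_max (fun g : G => orderOf g)
  have hdvd : ∀ y : G, orderOf y ∣ orderOf x := by
    intro y
    by_contra hnd
    have hn0 : orderOf x ≠ 0 := (orderOf_pos x).ne'
    have hd0 : orderOf y ≠ 0 := (orderOf_pos y).ne'
    have h1 : ∃ p : ℕ, p.Prime ∧ (orderOf x).factorization p < (orderOf y).factorization p := by
      by_contra hcon
      push Not at hcon
      apply hnd
      rw [← Nat.factorization_prime_le_iff_dvd hd0 hn0]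
      exact hcon
    obtain ⟨p, hp, hlt⟩ := h1
    have := Fact.mk hp
    set k := (orderOf y).factorization p with hk
    set j := (orderOf x).factorization p with hj
    have h2 : p ^ k ∣ orderOf y := Nat.ordProj_dvd _ _
    have h3 : p ^ j ∣ orderOf x := Nat.ordProj_dvd _ _
    obtain ⟨a, ha⟩ := h2
    obtain ⟨m, hm⟩ := h3
    have ha0 : a ≠ 0 := by rintro rfl; rw [mul_zero] at ha; exact hd0 ha
    have hm0 : m ≠ 0 := by rintro rfl; rw [mul_zero] at hm; exact hn0 hm
    have ho1 : orderOf (y ^ a) = p ^ k := by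
      rw [orderOf_pow' y ha0, ha, Nat.gcd_mul_left_left, Nat.mul_div_cancel _ (Nat.pos_of_ne_zero ha0)]
    have ho2 : orderOf (x ^ p ^ j) = m := by
      rw [orderOf_pow' x (pow_ne_zero _ hp.ne_zero), hm, Nat.gcd_mul_right_left,
        Nat.mul_div_cancel_left _ (pow_pos hp.pos _)]
    have hcop : Nat.Coprime p m := by
      have := Nat.coprime_ordCompl hp hn0
      rw [← hj] at this
      rwa [show orderOf x / p ^ j = m by rw [hm, Nat.mul_div_cancel_left _ (pow_pos hp.pos _)]] at this
    -- the two elements commute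
    have hcomm : Commute (y ^ a) (x ^ p ^ j) := by
      have hyp : IsPGroup p (Subgroup.zpowers (y ^ a)) := by
        apply IsPGroup.of_card (n := k)
        rw [Nat.card_zpowers, ho1]
      obtain ⟨P, hP⟩ := hyp.exists_le_sylow
      have h4 := H2.Nilp.residual_le_centralizer_of_nilpotent hnil P
      have h5 : x ^ p ^ j ∈ Cfsg.pResidual p G := by
        apply Subgroup.subset_closure
        show Nat.Coprime _ _
        rw [ho2]
        exact hcop.symm
      have h6 := h4 h5
      rw [Subgroup.mem_centralizer_iff] at h6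
      exact h6 _ (hP (Subgroup.mem_zpowers _))
    have h7 := hcomm.orderOf_mul_eq_mul_orderOf_of_coprime (by
      rw [ho1, ho2]; exact Nat.Coprime.pow_left _ hcop)
    have h8 := hx (y ^ a * x ^ p ^ j)
    rw [h7, ho1, ho2, hm] at h8
    have h9 : p ^ j < p ^ k := Nat.pow_lt_pow_right hp.one_lt hlt
    have h10 := Nat.le_of_mul_le_mul_right h8 (Nat.pos_of_ne_zero hm0)
    omega
  have htop : Subgroup.zpowers x = ⊤ := by
    by_contra hne
    obtain ⟨y, hy⟩ := H62.Derangement.exists_not_mem_conj (Subgroup.zpowers x) hne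
    obtain ⟨c, hc⟩ := hdvd y
    have hc0 : c ≠ 0 := by rintro rfl; rw [mul_zero] at hc; exact (orderOf_pos x).ne' hc
    have ho : orderOf (x ^ c) = orderOf y := by
      rw [orderOf_pow' x hc0, hc, Nat.gcd_mul_left_left, Nat.mul_div_cancel _ (Nat.pos_of_ne_zero hc0)]
    have hz : ∀ x : G, IsMulCommutative ↥(Subgroup.zpowers x) := fun x => inferInstance
    obtain ⟨g, hg⟩ := hB (Subgroup.zpowers (x ^ c)) (Subgroup.zpowers y) (hz _) (hz _)
      (by rw [Nat.card_zpowers, Nat.card_zpowers, ho])
    have h1 : y ∈ Subgroup.zpowers y := Subgroup.mem_zpowers y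
    rw [hg] at h1
    obtain ⟨w, hw, hwy⟩ := Subgroup.mem_map.1 h1
    apply hy g
    have h2 : g⁻¹ * y * g = w := by
      rw [← hwy]; simp [MulAut.conj_apply, mul_assoc]
    rw [h2]
    have h3 : Subgroup.zpowers (x ^ c) ≤ Subgroup.zpowers x := by
      rw [Subgroup.zpowers_le]; exact Subgroup.pow_mem _ (Subgroup.mem_zpowers x) c
    exact h3 hw
  exact ⟨⟨x, fun y => by
    have : y ∈ Subgroup.zpowers x := htop ▸ Subgroup.mem_top y
    exact this⟩⟩

end Cfsg.Agent.S3910
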