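import Cfsg.Statements.S3915
import Cfsg.Agent.Lib.H70.Layer1
import Cfsg.Agent.S0205

set_option autoImplicit false
open Cfsg

namespace Cfsg.Agent.S3915

/-- Let G be a finite group in which, for every prime p, any two cyclic p-subgroups of the same order are conjugate. If the layer E(G), the subgroup generated by the components of G, is non-trivial, then E(G)/Z(E(G)) is a non-abelian simple group. -/
theorem result {G : Type*} [Group G] [Finite G] (hP : ∀ (p : ℕ), p.Prime → ∀ A B : Subgroup G, IsCyclic ↥A → IsCyclic ↥B → IsPGroup p ↥A → Nat.card ↥A = Nat.card ↥B → ∃ g : G, B = A.map (MulAut.conj g).toMonoidHom) (hE : Cfsg.layer G ≠ ⊥) :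
    IsSimpleGroup (↥(Cfsg.layer G) ⧸ Subgroup.center ↥(Cfsg.layer G)) ∧ ¬ IsMulCommutative (↥(Cfsg.layer G) ⧸ Subgroup.center ↥(Cfsg.layer G)) := by
  exact H70.Lay.main (fun X _ _ h => Cfsg.Agent.S0205.result h) hP hE

end Cfsg.Agent.S3915
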