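import Cfsg.Statements.S3917
import Cfsg.Agent.Lib.H68.TwoGen
import Cfsg.Agent.Lib.H2.NonCyclic

set_option autoImplicit false
open Cfsg

namespace Cfsg.Agent.S3917

/-- Say that a group has self-centralizing non-cyclic subgroups when every non-cyclic subgroup H satisfies C_G(H) ≤ H. A finite abelian group with self-centralizing non-cyclic subgroups is cyclic or elementary abelian of order p² for a prime p. -/
theorem result {G : Type*} [CommGroup G] [Finite G] (hX : (∀ H : Subgroup G, ¬ IsCyclic ↥H → Subgroup.centralizer (H : Set G) ≤ H)) :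
    IsCyclic G ∨ ∃ p : ℕ, p.Prime ∧ Nat.card G = p ^ 2 ∧ Monoid.exponent G = p := by
  by_cases hc : IsCyclic G
  · exact Or.inl hc
  right
  obtain ⟨q, hq, x, y, hx, hy, hy1, hxy⟩ := H2.NonCyclic.exists_pair
    (⟨⟨fun a b => mul_comm a b⟩⟩ : IsMulCommutative G) hc
  have htop : ∀ H : Subgroup G, ¬ IsCyclic H → H = ⊤ := by
    intro H hH
    rw [eq_top_iff]
    refine le_trans ?_ (hX H hH)
    intro g _
    rw [Subgroup.mem_centralizer_iff]
    intro h _
    exact mul_comm _ _
  have h1 := H68.TwoGen.card_sup_zpowers hq hx hy hy1 hxy (Commute.all x y)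
  have h2 : Subgroup.zpowers x ⊔ Subgroup.zpowers y = ⊤ := by
    apply htop
    exact H68.TwoGen.not_isCyclic_subgroup hq (le_sup_left (α := Subgroup G) (Subgroup.mem_zpowers x))
      (le_sup_right (α := Subgroup G) (Subgroup.mem_zpowers y)) hx hy hy1 hxy
  have h3 : (powMonoidHom q : G →* G).ker = ⊤ := by
    apply htop
    exact H68.TwoGen.not_isCyclic_subgroup hq (x := x) (y := y) (by simpa [MonoidHom.mem_ker] using hx)
      (by simpa [MonoidHom.mem_ker] using hy) hx hy hy1 hxy
  refine ⟨q, hq, ?_, ?_⟩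
  · rw [h2] at h1
    simpa using h1
  · have h4 : Monoid.exponent G ∣ q := by
      apply Monoid.exponent_dvd_of_forall_pow_eq_one
      intro g
      have : g ∈ (powMonoidHom q : G →* G).ker := h3 ▸ Subgroup.mem_top g
      simpa [MonoidHom.mem_ker] using this
    rcases (Nat.dvd_prime hq).1 h4 with h5 | h5
    · exfalso
      rw [Monoid.exp_eq_one_iff] at h5
      exact hy1 (Subsingleton.elim _ _)
    · exact h5

end Cfsg.Agent.S3917
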