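import Cfsg.Statements.S3918
import Cfsg.Agent.Lib.H24.OddPGroup
import Cfsg.Agent.Lib.H68.TwoGen

set_option autoImplicit false
open Cfsg

namespace Cfsg.Agent.S3918

/-- Say that a group has self-centralizing non-cyclic subgroups when every non-cyclic subgroup H satisfies C_G(H) ≤ H. For an odd prime p, a finite non-abelian p-group has self-centralizing non-cyclic subgroups if and only if it has order p³. -/
theorem result {G : Type*} [Group G] [Finite G] {p : ℕ} [Fact p.Prime] (hp : p ≠ 2) (hG : IsPGroup p G) (hna : ¬ IsMulCommutative G) :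
    (∀ H : Subgroup G, ¬ IsCyclic ↥H → Subgroup.centralizer (H : Set G) ≤ H) ↔ Nat.card G = p ^ 3 := by
  have hpp : p.Prime := Fact.out
  have hG3 : p ^ 3 ∣ Nat.card G := by
    obtain ⟨n, hn⟩ := IsPGroup.iff_card.1 hG
    rw [hn]
    apply pow_dvd_pow
    by_contra hlt
    push Not at hlt
    apply hna
    interval_cases n
    · rw [pow_zero] at hn
      have := (Nat.card_eq_one_iff_unique.1 hn).1
      exact ⟨⟨fun a b => Subsingleton.elim _ _⟩⟩
    · rw [pow_one] at hn
      have := isCyclic_of_prime_card hn
      exact IsCyclic.isMulCommutative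
    · exact IsPGroup.isMulCommutative_of_card_eq_prime_sq hn
  constructor
  · intro hX
    have hnc : ¬ IsCyclic G := by
      intro h
      exact hna IsCyclic.isMulCommutative
    obtain ⟨z, A, hz, hzo, hAn, hAc, hAp, hzA, hcomm⟩ :=
      H24.OddPGroup.exists_center_normal_elementary_sq hp hG hnc
    have hzc : ∀ g : G, g * z = z * g := fun g => (Subgroup.mem_center_iff.1 hz g)
    obtain ⟨a, haA, haz⟩ : ∃ a ∈ A, a ∉ Subgroup.zpowers z := by
      by_contra hcon
      push Not at hcon
      have h1 : Nat.card A ≤ Nat.card (Subgroup.zpowers z) := Subgroup.card_le_of_le hcon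
      rw [hAc, Nat.card_zpowers, hzo] at h1
      have := hpp.two_le
      nlinarith
    have hz1 : z ≠ 1 := by
      rintro rfl; rw [orderOf_one] at hzo; exact hpp.one_lt.ne hzo
    have hzp : z ^ p = 1 := by rw [← hzo]; exact pow_orderOf_eq_one z
    have hAnc : ¬ IsCyclic A :=
      H68.TwoGen.not_isCyclic_subgroup hpp haA (hzA (Subgroup.mem_zpowers z)) (hAp a haA) hzp hz1 haz
    have hcA := hX A hAnc
    have hsup : Subgroup.zpowers a ⊔ Subgroup.zpowers z = A := by
      apply Subgroup.eq_of_le_of_card_ge
      · exact sup_le (by simpa using haA) hzA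
      · rw [hAc, H68.TwoGen.card_sup_zpowers hpp (hAp a haA) hzp hz1 haz ((hzc a))]
    let f : G →* G :=
      { toFun := fun g => g * a * g⁻¹ * a⁻¹
        map_one' := by simp
        map_mul' := by
          intro g h
          have h1 := hcomm a haA h
          have hc : ∀ w ∈ Subgroup.zpowers z, ∀ g : G, g * w = w * g := by
            rintro _ ⟨k, rfl⟩ g
            exact ((show Commute g z from hzc g).zpow_right k).eq
          have h2 := hc _ h1 g
          have h3 := hc _ h1 (g * a * g⁻¹ * a⁻¹)
          calc g * h * a * (g * h)⁻¹ * a⁻¹ = (g * (h * a * h⁻¹ * a⁻¹)) * a * g⁻¹ * a⁻¹ := by group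
            _ = (h * a * h⁻¹ * a⁻¹) * (g * a * g⁻¹ * a⁻¹) := by rw [h2]; group
            _ = _ := h3.symm }
    have hrange : f.range ≤ Subgroup.zpowers z := by
      rintro _ ⟨g, rfl⟩
      exact hcomm a haA g
    have hker : f.ker ≤ A := by
      intro g hg
      apply hcA
      have h1 : g * a * g⁻¹ * a⁻¹ = 1 := hg
      have h2 : g * a = a * g := by
        have := mul_inv_eq_one.1 h1
        rwa [mul_inv_eq_iff_eq_mul] at this
      rw [Subgroup.mem_centralizer_iff]
      intro h hh
      have h3 : A ≤ Subgroup.centralizer {g} := by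
        rw [← hsup]
        apply sup_le
        · rw [Subgroup.zpowers_le, Subgroup.mem_centralizer_singleton_iff]
          exact h2.symm
        · rw [Subgroup.zpowers_le, Subgroup.mem_centralizer_singleton_iff]
          exact (hzc g).symm
      have h4 := h3 hh
      rw [Subgroup.mem_centralizer_singleton_iff] at h4
      exact h4
    have h1 : Nat.card f.ker * Nat.card f.range = Nat.card G := by
      rw [← Subgroup.index_ker]
      exact Subgroup.card_mul_index _
    have h2 : Nat.card f.ker ≤ p ^ 2 := by
      rw [← hAc]
      exact Subgroup.card_le_of_le hker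
    have h3 : Nat.card f.range ≤ p := by
      rw [← hzo, ← Nat.card_zpowers]
      exact Subgroup.card_le_of_le hrange
    have h4 : Nat.card G ≤ p ^ 3 := by
      rw [← h1, pow_succ]
      exact Nat.mul_le_mul h2 h3
    exact le_antisymm h4 (Nat.le_of_dvd Nat.card_pos hG3)
  · intro hcard H hH
    obtain ⟨k, hk, hkc⟩ := (Nat.dvd_prime_pow hpp).1 (hcard ▸ Subgroup.card_subgroup_dvd_card H)
    by_contra hcon
    have hHtop : H ≠ ⊤ := by
      rintro rfl; exact hcon le_top
    have hk2 : k = 2 := by
      interval_cases k
      · exfalso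
        rw [pow_zero] at hkc
        have := Subgroup.card_eq_one.1 hkc
        subst this
        exact hH inferInstance
      · exfalso
        rw [pow_one] at hkc
        exact hH (isCyclic_of_prime_card hkc)
      · rfl
      · exfalso
        apply hHtop
        apply Subgroup.eq_top_of_card_eq
        rw [hkc, hcard]
    subst hk2
    have hHab : IsMulCommutative H := IsPGroup.isMulCommutative_of_card_eq_prime_sq hkc
    have hHle : H ≤ Subgroup.centralizer (H : Set G) := by
      intro h hh
      rw [Subgroup.mem_centralizer_iff]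
      intro g hg
      have := hHab.is_comm.comm ⟨g, hg⟩ ⟨h, hh⟩
      exact congrArg Subtype.val this
    have hHlt : H < Subgroup.centralizer (H : Set G) := lt_of_le_of_ne hHle (fun h => hcon h.ge)
    have hCtop : Subgroup.centralizer (H : Set G) = ⊤ := by
      obtain ⟨j, hj, hjc⟩ := (Nat.dvd_prime_pow hpp).1
        (hcard ▸ Subgroup.card_subgroup_dvd_card (Subgroup.centralizer (H : Set G)))
      have h1 : Nat.card H < Nat.card (Subgroup.centralizer (H : Set G)) := by
        apply lt_of_le_of_ne (Subgroup.card_le_of_le hHle)
        intro heq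
        exact hHlt.ne (Subgroup.eq_of_le_of_card_ge hHle heq.ge)
      rw [hkc, hjc] at h1
      have h2 : 2 < j := (Nat.pow_lt_pow_iff_right hpp.one_lt).1 h1
      apply Subgroup.eq_top_of_card_eq
      rw [hjc, hcard]
      congr 1; omega
    have hHcen : H ≤ Subgroup.center G := by
      intro h hh
      rw [Subgroup.mem_center_iff]
      intro g
      have h1 : g ∈ Subgroup.centralizer (H : Set G) := hCtop ▸ Subgroup.mem_top g
      rw [Subgroup.mem_centralizer_iff] at h1
      exact (h1 h hh).symm
    have hidx : (Subgroup.center G).index ∣ p := by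
      have h1 : H.index = p := by
        have := Subgroup.card_mul_index H
        rw [hkc, hcard] at this
        have h5 : p ^ 2 * H.index = p ^ 2 * p := by rw [this]; ring
        exact Nat.eq_of_mul_eq_mul_left (pow_pos hpp.pos 2) h5
      rw [← h1]
      exact Subgroup.index_dvd_of_le hHcen
    apply hna
    have hcyc : IsCyclic (G ⧸ Subgroup.center G) := by
      rcases (Nat.dvd_prime hpp).1 hidx with h | h
      · rw [Subgroup.index_eq_card] at h
        have := (Nat.card_eq_one_iff_unique.1 h).1
        exact isCyclic_of_subsingleton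
      · rw [Subgroup.index_eq_card] at h
        exact isCyclic_of_prime_card h
    exact MonoidHom.isMulCommutative_of_isCyclic_of_ker_le_center
      (QuotientGroup.mk' (Subgroup.center G)) (by simp)

end Cfsg.Agent.S3918
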