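import Cfsg.Statements.S3920

set_option autoImplicit false
open Cfsg

namespace Cfsg.Agent.S3920

open DihedralGroup in
theorem aux {n : ℕ} (hn : 3 ≤ n) (h : Odd n ∨ ∃ k : ℕ, n = 2 ^ k) {j a : ZMod n} (hj : j ≠ 0)
    (ha : a + a = 0) : a ∈ AddSubgroup.zmultiples j := by
  have : NeZero n := ⟨by omega⟩
  by_cases ha0 : a = 0
  · subst ha0; exact zero_mem _
  have hodd : ¬ Odd n := by
    rintro hodd
    apply ha0
    have h2 : (2 : ZMod n) * a = 0 := by rw [two_mul, ha]
    have hu : IsUnit (2 : ZMod n) := by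
      have := (ZMod.isUnit_iff_coprime 2 n).2 (Nat.coprime_two_left.2 hodd)
      simpa using this
    exact (hu.mul_right_eq_zero).1 h2
  obtain ⟨k, hk⟩ := h.resolve_left hodd
  have hjo : addOrderOf j ∣ 2 ^ k := by
    rw [← hk]
    have := addOrderOf_dvd_natCard j
    simpa using this
  obtain ⟨i, hi, hio⟩ := (Nat.dvd_prime_pow Nat.prime_two).1 hjo
  have hi0 : i ≠ 0 := by
    rintro rfl
    rw [pow_zero, AddMonoid.addOrderOf_eq_one_iff] at hio
    exact hj hio
  obtain ⟨i', rfl⟩ := Nat.exists_eq_succ_of_ne_zero hi0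
  have hj' : addOrderOf ((2 ^ i') • j) = 2 := by
    rw [addOrderOf_nsmul' j (pow_ne_zero _ two_ne_zero), hio, Nat.gcd_eq_right (pow_dvd_pow 2 (Nat.le_succ i')),
      Nat.succ_eq_add_one, pow_succ, Nat.mul_div_cancel_left _ (pow_pos two_pos _)]
  set b := (2 ^ i') • j with hb
  have hb0 : b ≠ 0 := by
    intro h0; rw [h0, addOrderOf_zero] at hj'; omega
  have hb2 : 2 • b = 0 := by rw [← hj']; exact addOrderOf_nsmul_eq_zero b
  have hcard := IsAddCyclic.card_nsmul_eq_zero_le (α := ZMod n) (n := 2) two_pos
  have hab : a = b := by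
    by_contra hab
    have h3 : ({0, a, b} : Finset (ZMod n)) ⊆ Finset.univ.filter (fun x => 2 • x = 0) := by
      intro x hx
      simp only [Finset.mem_insert, Finset.mem_singleton] at hx
      simp only [Finset.mem_filter, Finset.mem_univ, true_and]
      rcases hx with rfl | rfl | rfl
      · simp
      · rw [two_nsmul, ha]
      · exact hb2
    have h4 := Finset.card_le_card h3
    rw [Finset.card_eq_three.2 ⟨0, a, b, Ne.symm ha0, Ne.symm hb0, hab, rfl⟩] at h4
    omega
  rw [hab, hb]
  exact AddSubgroup.nsmul_mem _ (AddSubgroup.mem_zmultiples j) _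


/-- Say that a group has self-centralizing non-cyclic subgroups when every non-cyclic subgroup H satisfies C_G(H) ≤ H. For n ≥ 3, the dihedral group of order 2n has self-centralizing non-cyclic subgroups if and only if n is odd or a power of 2. -/
theorem result (n : ℕ) (hn : 3 ≤ n) : (∀ H : Subgroup (DihedralGroup n), ¬ IsCyclic ↥H → Subgroup.centralizer (H : Set (DihedralGroup n)) ≤ H) ↔ (Odd n ∨ ∃ k : ℕ, n = 2 ^ k) := by
  have : NeZero n := ⟨by omega⟩
  constructor
  · intro hX
    by_contra hcon
    push Not at hcon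
    obtain ⟨hodd, hpow⟩ := hcon
    obtain ⟨a, m, hm, hnm⟩ := Nat.exists_eq_two_pow_mul_odd (n := n) (by omega)
    have ha0 : a ≠ 0 := by
      rintro rfl
      apply hodd
      rw [hnm]; simpa using hm
    obtain ⟨a', rfl⟩ := Nat.exists_eq_succ_of_ne_zero ha0
    have hm1 : m ≠ 1 := by
      rintro rfl
      exact hpow (a' + 1) (by rw [hnm, mul_one])
    have hd : 2 ^ (a' + 1) ∣ n := ⟨m, hnm⟩
    let φ : ZMod n →+* ZMod (2 ^ (a' + 1)) := ZMod.castHom hd _
    let H : Subgroup (DihedralGroup n) :=
      { carrier := {x | ∃ i : ZMod n, φ i = 0 ∧ (x = DihedralGroup.r i ∨ x = DihedralGroup.sr i)}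
        one_mem' := ⟨0, map_zero φ, Or.inl DihedralGroup.one_def⟩
        mul_mem' := by
          rintro x y ⟨i, hi, hx⟩ ⟨j, hj, hy⟩
          rcases hx with rfl | rfl <;> rcases hy with rfl | rfl
          · exact ⟨i + j, by rw [map_add, hi, hj, add_zero], Or.inl (by simp)⟩
          · exact ⟨j - i, by rw [map_sub, hi, hj, sub_zero], Or.inr (by simp)⟩
          · exact ⟨i + j, by rw [map_add, hi, hj, add_zero], Or.inr (by simp)⟩
          · exact ⟨j - i, by rw [map_sub, hi, hj, sub_zero], Or.inl (by simp)⟩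
        inv_mem' := by
          rintro x ⟨i, hi, hx⟩
          rcases hx with rfl | rfl
          · exact ⟨-i, by rw [map_neg, hi, neg_zero], Or.inl (by simp)⟩
          · exact ⟨i, hi, Or.inr (by simp)⟩ }
    have hmem : ∀ x, x ∈ H ↔ ∃ i : ZMod n, φ i = 0 ∧ (x = DihedralGroup.r i ∨ x = DihedralGroup.sr i) :=
      fun x => Iff.rfl
    have hs : DihedralGroup.sr 0 ∈ H := (hmem _).2 ⟨0, map_zero φ, Or.inr rfl⟩
    have hr : DihedralGroup.r ((2 ^ (a' + 1) : ℕ) : ZMod n) ∈ H := by
      refine (hmem _).2 ⟨_, ?_, Or.inl rfl⟩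
      rw [map_natCast, ZMod.natCast_self]
    have hnc : ¬ IsCyclic H := by
      intro hcyc
      have h1 := (IsCyclic.isMulCommutative (α := H)).is_comm.comm ⟨_, hs⟩ ⟨_, hr⟩
      have h2 := congrArg Subtype.val h1
      simp only [MulMemClass.mk_mul_mk, DihedralGroup.sr_mul_r, DihedralGroup.r_mul_sr,
        DihedralGroup.sr.injEq] at h2
      have h3 : (((2 ^ (a' + 1) + 2 ^ (a' + 1) : ℕ)) : ZMod n) = 0 := by
        push_cast at h2 ⊢
        linear_combination h2
      rw [ZMod.natCast_eq_zero_iff, hnm, ← two_mul, mul_comm 2] at h3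
      have h4 := Nat.dvd_of_mul_dvd_mul_left (pow_pos two_pos _) h3
      rcases (Nat.dvd_prime Nat.prime_two).1 h4 with h5 | h5
      · exact hm1 h5
      · rw [h5] at hm; exact absurd hm (by decide)
    have hc : DihedralGroup.r ((2 ^ a' * m : ℕ) : ZMod n) ∈ H := by
      apply hX H hnc
      rw [Subgroup.mem_centralizer_iff]
      have h0 : ((2 ^ a' * m : ℕ) : ZMod n) + ((2 ^ a' * m : ℕ) : ZMod n) = 0 := by
        rw [← Nat.cast_add, ZMod.natCast_eq_zero_iff, hnm, pow_succ]
        exact ⟨1, by ring⟩
      intro h _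
      rcases h with i | i
      · simp [add_comm]
      · simp only [DihedralGroup.sr_mul_r, DihedralGroup.r_mul_sr, DihedralGroup.sr.injEq]
        linear_combination h0
    obtain ⟨i, hi, hx⟩ := (hmem _).1 hc
    rcases hx with hx | hx
    · rw [DihedralGroup.r.injEq] at hx
      rw [← hx, map_natCast, ZMod.natCast_eq_zero_iff, pow_succ] at hi
      have h4 := Nat.dvd_of_mul_dvd_mul_left (pow_pos two_pos _) hi
      have := Nat.not_even_iff_odd.2 hm
      exact this (even_iff_two_dvd.2 h4)
    · exact absurd hx (by simp)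
  · intro h H hH
    -- a reflection in `H`
    obtain ⟨i, hi⟩ : ∃ i, DihedralGroup.sr i ∈ H := by
      by_contra hcon
      push Not at hcon
      apply hH
      have hle : H ≤ Subgroup.zpowers (DihedralGroup.r 1) := by
        intro x hx
        rcases x with j | j
        · refine ⟨(j.val : ℤ), ?_⟩
          simp
        · exact absurd hx (hcon j)
      have : IsCyclic (Subgroup.zpowers (DihedralGroup.r (1 : ZMod n))) := inferInstance
      exact isCyclic_of_injective (Subgroup.inclusion hle) (Subgroup.inclusion_injective hle)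
    obtain ⟨j, hj, hj0⟩ : ∃ j, DihedralGroup.r j ∈ H ∧ j ≠ 0 := by
      by_contra hcon
      push Not at hcon
      apply hH
      have hle : H ≤ Subgroup.zpowers (DihedralGroup.sr i) := by
        intro x hx
        rcases x with j | j
        · rw [hcon j hx]
          exact one_mem _
        · have h1 := H.mul_mem hi hx
          rw [DihedralGroup.sr_mul_sr] at h1
          have h2 := hcon _ h1
          rw [sub_eq_zero] at h2
          rw [h2]
          exact Subgroup.mem_zpowers _
      exact isCyclic_of_injective (Subgroup.inclusion hle) (Subgroup.inclusion_injective hle)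
    have hkey : ∀ a : ZMod n, a + a = 0 → DihedralGroup.r a ∈ H := by
      intro a ha
      obtain ⟨t, rfl⟩ := aux hn h hj0 ha
      have := H.zpow_mem hj t
      simpa [mul_comm] using this
    intro x hx
    rw [Subgroup.mem_centralizer_iff] at hx
    have h1 := hx _ hi
    rcases x with a | a
    · apply hkey
      simp only [DihedralGroup.sr_mul_r, DihedralGroup.r_mul_sr, DihedralGroup.sr.injEq] at h1
      linear_combination h1
    · simp only [DihedralGroup.sr_mul_sr, DihedralGroup.r.injEq] at h1
      have h2 := hkey (a - i) (by linear_combination h1)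
      have h3 := H.mul_mem hi h2
      simpa using h3

end Cfsg.Agent.S3920
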