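import Cfsg.Statements.S3928
import Cfsg.Agent.Lib.H78.InvOdd4
import Cfsg.Agent.Lib.H68.IterComm

set_option autoImplicit false
open Cfsg

namespace Cfsg.Agent.S3928


open H78.InvOdd in
theorem gen_of_comm {G : Type*} [Group G] [Finite G] (α : MulAut G) (hα : ∀ g, α (α g) = g)
    (hG : Subgroup.closure (Set.range (fun c : G => c * (α c)⁻¹)) = ⊤) :
    Subgroup.closure (JS (α : G ≃* G)) = ⊤ := by
  have h1 := H68.IterComm.main α hG (Nat.card G + 1)
  rw [eq_top_iff, ← h1, Subgroup.closure_le]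
  rintro _ ⟨c, rfl⟩
  apply Subgroup.subset_closure
  have hy : ∀ y : G, α y = y⁻¹ → ∀ n : ℕ, (fun c : G => c * (α c)⁻¹)^[n] y = y ^ 2 ^ n := by
    intro y hy n
    induction n with
    | zero => simp
    | succ n ih =>
      rw [Function.iterate_succ_apply', ih]
      show y ^ 2 ^ n * (α (y ^ 2 ^ n))⁻¹ = _
      rw [map_pow, hy, inv_pow, inv_inv, ← pow_add, pow_succ 2 n, mul_two]
  have hc : α (c * (α c)⁻¹) = (c * (α c)⁻¹)⁻¹ := by
    rw [map_mul, map_inv, hα, mul_inv_rev, inv_inv]
  rw [Function.iterate_succ_apply, hy _ hc]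
  refine ⟨odd_orderOf_pow _ le_rfl, ?_⟩
  rw [map_pow, hc, inv_pow]


/-- There is a function f such that for every non-trivial finite group G and every automorphism α of G of order 2 with [G, α] = G (the elements g·α(g)⁻¹ generate G), the order of G is at most f(m), where m is the number of elements of odd order inverted by α. -/
theorem result : ∃ f : ℕ → ℕ, ∀ (G : Type) [Group G] [Finite G] [Nontrivial G] (α : MulAut G), orderOf α = 2 →
    Subgroup.closure (Set.range (fun c : G => c * (α c)⁻¹)) = ⊤ →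
      Nat.card G ≤ f (Nat.card {g : G // Odd (orderOf g) ∧ α g = g⁻¹}) := by

  obtain ⟨F, hF⟩ := H78.InvOdd.exists_bound
  refine ⟨F, ?_⟩
  intro G _ _ _ α hα hG
  have hinv : ∀ g, α (α g) = g := by
    intro g
    have h1 : α ^ 2 = 1 := by rw [← hα]; exact pow_orderOf_eq_one α
    have h2 : (α ^ 2) g = g := by rw [h1]; rfl
    rw [pow_two, MulAut.mul_apply] at h2
    exact h2
  exact hF G α _ (Nat.card (H78.InvOdd.CS (α : G ≃* G)))
    ⟨hinv, gen_of_comm α hinv hG, le_rfl, le_rfl⟩


end Cfsg.Agent.S3928
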