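import Cfsg.Statements.S3937
import Cfsg.Agent.Lib.H68.Engel

set_option autoImplicit false
open Cfsg

namespace Cfsg.Agent.S3937

/-- Baer's characterization of the Fitting subgroup: in a finite group G, an element g lies in the Fitting subgroup if and only if g is a left Engel element, that is, for every x there is n with [x, g, g, …, g] = 1 (n entries g, [a, b] = aba⁻¹b⁻¹). -/
theorem result {G : Type*} [Group G] [Finite G] (g : G) :
    g ∈ Cfsg.fittingSubgroup G ↔ ∀ x : G, ∃ n : ℕ, (List.replicate n g).foldl (fun a b => a * b * a⁻¹ * b⁻¹) x = 1 := by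
  exact H68.Engel.mem_fitting_iff

end Cfsg.Agent.S3937
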