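import Cfsg.Statements.S3939
import Cfsg.Agent.Lib.H68.Hyper

set_option autoImplicit false
open Cfsg

namespace Cfsg.Agent.S3939

/-- In a finite group G the set of elements g such that the subgroup generated by g and x is nilpotent for every x ∈ G is exactly the hypercenter of G (the last term of the upper central series). -/
theorem result {G : Type*} [Group G] [Finite G] (g : G) :
    (∀ x : G, Group.IsNilpotent ↥(Subgroup.closure ({x, g} : Set G))) ↔ g ∈ ⨆ n : ℕ, Subgroup.upperCentralSeries G n := by
  constructor
  · intro h
    -- induction on the order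
    have key : ∀ n : ℕ, ∀ g : G, orderOf g = n →
        (∀ x : G, Group.IsNilpotent ↥(Subgroup.closure ({x, g} : Set G))) →
        ∃ m, g ∈ Subgroup.upperCentralSeries G m := by
      intro n
      induction n using Nat.recOnPosPrimePosCoprime with
      | zero =>
        intro g hg _
        exact absurd hg (orderOf_pos g).ne'
      | one =>
        intro g hg _
        rw [orderOf_eq_one_iff] at hg
        exact ⟨0, hg ▸ one_mem _⟩
      | prime_pow p k hp hk =>
        intro g hg h
        have := Fact.mk hp
        exact H68.Hyper.mem_of_prime_pow hg h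
      | coprime a b ha hb hab iha ihb =>
        intro g hg h
        have ha0 : a ≠ 0 := by omega
        have hb0 : b ≠ 0 := by omega
        have hpow : ∀ (k : ℕ), ∀ x : G, Group.IsNilpotent ↥(Subgroup.closure ({x, g ^ k} : Set G)) := by
          intro k x
          have hle : Subgroup.closure ({x, g ^ k} : Set G) ≤ Subgroup.closure ({x, g} : Set G) := by
            rw [Subgroup.closure_le]
            rintro y (rfl | hy)
            · exact Subgroup.subset_closure (by simp)
            · rw [Set.mem_singleton_iff] at hy
              subst hy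
              exact Subgroup.pow_mem _ (Subgroup.subset_closure (by simp)) k
          have := h x
          exact Subgroup.isNilpotent_of_ker_le_center (Subgroup.inclusion hle) (by
            rw [(MonoidHom.ker_eq_bot_iff _).2 (Subgroup.inclusion_injective hle)]; exact bot_le)
        obtain ⟨m1, h1⟩ := iha (g ^ b) (by
          rw [orderOf_pow' g hb0, hg, Nat.gcd_mul_left_left, Nat.mul_div_cancel _ (Nat.pos_of_ne_zero hb0)]) (hpow b)
        obtain ⟨m2, h2⟩ := ihb (g ^ a) (by
          rw [orderOf_pow' g ha0, hg, Nat.gcd_mul_right_left, Nat.mul_div_cancel_left _ (Nat.pos_of_ne_zero ha0)]) (hpow a)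
        refine ⟨max m1 m2, ?_⟩
        have h1' := Subgroup.upperCentralSeries_mono G (le_max_left m1 m2) h1
        have h2' := Subgroup.upperCentralSeries_mono G (le_max_right m1 m2) h2
        have h3 : g = (g ^ a) ^ (Nat.gcdA a b) * (g ^ b) ^ (Nat.gcdB a b) := by
          rw [← zpow_natCast, ← zpow_natCast, ← zpow_mul, ← zpow_mul, ← zpow_add, ← Nat.gcd_eq_gcd_ab,
            Nat.Coprime.gcd_eq_one hab]
          simp
        rw [h3]
        exact Subgroup.mul_mem _ (Subgroup.zpow_mem _ h2' _) (Subgroup.zpow_mem _ h1' _)
    exact H68.Hyper.mem_iSup_iff.2 (key _ g rfl h)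
  · intro h x
    obtain ⟨n, hn⟩ := H68.Hyper.mem_iSup_iff.1 h
    exact H68.Hyper.isNilpotent_closure hn x

end Cfsg.Agent.S3939
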