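import Cfsg.Statements.S3941
import Mathlib.GroupTheory.Perm.ViaEmbedding

set_option autoImplicit false
open Cfsg

namespace Cfsg.Agent.S3941

open Equiv Equiv.Perm

theorem exists_normal {H : Type*} [Group H] [Finite H] {p : ℕ} [hp : Fact p.Prime]
    (h : Cfsg.IsPClosed p H) : ∃ P : Subgroup H, P.Normal ∧ IsPGroup p P ∧
      ∀ x : H, x ^ p = 1 → x ∈ P := by
  obtain ⟨P⟩ := (Sylow.nonempty : Nonempty (Sylow p H))
  refine ⟨P, h P, P.2, ?_⟩
  intro x hx
  have h1 : IsPGroup p (Subgroup.zpowers x) := by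
    intro y
    obtain ⟨k, hk⟩ := y.2
    refine ⟨1, Subtype.ext ?_⟩
    have hk' : (y : H) = x ^ k := hk.symm
    rw [Subgroup.coe_pow, pow_one, hk', Subgroup.coe_one, ← zpow_natCast, ← zpow_mul, mul_comm, zpow_mul,
      zpow_natCast, hx, one_zpow]
  obtain ⟨Q, hQ⟩ := h1.exists_le_sylow
  have := h P
  have h2 : Q = P := by
    have := Sylow.unique_of_normal P (h P)
    exact Subsingleton.elim _ _
  rw [← h2]
  exact hQ (Subgroup.mem_zpowers x)

theorem order_dvd {H : Type*} [Group H] [Finite H] {p : ℕ} [hp : Fact p.Prime] {P : Subgroup H}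
    (hP : IsPGroup p P) {x : H} (hx : x ∈ P) {q : ℕ} (hq : q.Prime) (hx1 : x ≠ 1) (hxq : x ^ q = 1) : q = p := by
  have := Fact.mk hq
  have h1 : orderOf x = q := orderOf_eq_prime hxq hx1
  obtain ⟨k, hk⟩ := (IsPGroup.iff_orderOf.1 hP) ⟨x, hx⟩
  rw [Subgroup.orderOf_mk, h1] at hk
  have h2 : q ∣ p := by
    apply hq.dvd_of_dvd_pow (n := k)
    rw [← hk]
  exact (Nat.prime_dvd_prime_iff_eq hq hp.out).1 h2


/-- Let n ≥ 5 and p an odd prime with p ≤ n, and suppose that every proper subgroup of the alternating group of degree n whose order is divisible by p has a normal Sylow p-subgroup. Then n = p. -/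
theorem result (n p : ℕ) (hn : 5 ≤ n) [Fact p.Prime] (hp : p ≠ 2) (hpn : p ≤ n)
    (h : ∀ H : Subgroup ↥(alternatingGroup (Fin n)), H ≠ ⊤ → p ∣ Nat.card ↥H → Cfsg.IsPClosed p ↥H) : n = p := by
  classical
  have hpp : p.Prime := Fact.out
  by_contra hne
  have hpn' : p + 1 ≤ n := by omega
  have hp3 : 3 ≤ p := by
    rcases hpp.two_le.eq_or_lt with h1 | h1
    · exact absurd h1.symm hp
    · exact h1
  have hodd : Odd p := hpp.odd_of_ne_two hp
  have hn0 : 0 < n := by omega
  let L : Fin n := ⟨n - 1, by omega⟩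
  let a0 : Fin n := ⟨0, by omega⟩
  let a1 : Fin n := ⟨1, by omega⟩
  let a2 : Fin n := ⟨2, by omega⟩
  let a3 : Fin n := ⟨3, by omega⟩
  have h01 : a0 ≠ a1 := by simp [a0, a1]
  have h02 : a0 ≠ a2 := by simp [a0, a2]
  have h03 : a0 ≠ a3 := by simp [a0, a3]
  have h12 : a1 ≠ a2 := by simp [a1, a2]
  have h13 : a1 ≠ a3 := by simp [a1, a3]
  have h23 : a2 ≠ a3 := by simp [a2, a3]
  have hL0 : L ≠ a0 := by simp only [L, a0, ne_eq, Fin.mk.injEq]; omega
  have hL1 : L ≠ a1 := by simp only [L, a1, ne_eq, Fin.mk.injEq]; omega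
  have hL2 : L ≠ a2 := by simp only [L, a2, ne_eq, Fin.mk.injEq]; omega
  have hL3 : L ≠ a3 := by simp only [L, a3, ne_eq, Fin.mk.injEq]; omega
  let H : Subgroup ↥(alternatingGroup (Fin n)) :=
    MulAction.stabilizer ↥(alternatingGroup (Fin n)) L
  have hmem : ∀ g : ↥(alternatingGroup (Fin n)), g ∈ H ↔ (g : Perm (Fin n)) L = L := fun g => Iff.rfl
  have hH : H ≠ ⊤ := by
    intro htop
    have h1 : (⟨swap L a0 * swap L a1, (isThreeCycle_swap_mul_swap_same hL0 hL1 h01).mem_alternatingGroup⟩ :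
        ↥(alternatingGroup (Fin n))) ∈ H := htop ▸ Subgroup.mem_top _
    rw [hmem] at h1
    simp only [Perm.mul_apply, swap_apply_left] at h1
    rw [swap_apply_of_ne_of_ne hL1.symm h01.symm] at h1
    exact hL1 h1.symm
  -- a `p`-cycle
  obtain ⟨q, hq⟩ : ∃ q, p = q + 2 := ⟨p - 2, by omega⟩
  let ι : Fin p ↪ Fin n := ⟨Fin.castLE hpn, Fin.castLE_injective hpn⟩
  let c : Perm (Fin n) := viaEmbeddingHom ι (finRotate p)
  have hcp : c ^ p = 1 := by
    simp only [c]
    rw [← map_pow]
    have h1 : (finRotate p) ^ p = 1 := by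
      subst hq
      have h2 : orderOf (finRotate (q + 2)) = q + 2 := by
        rw [isCycle_finRotate.orderOf, support_finRotate, Finset.card_univ, Fintype.card_fin]
      exact orderOf_dvd_iff_pow_eq_one.1 (by rw [h2])
    rw [h1, map_one]
  have hc : c ∈ alternatingGroup (Fin n) := by
    rw [mem_alternatingGroup]
    have h1 : sign c ^ p = 1 := by rw [← map_pow, hcp, map_one]
    rcases Int.units_eq_one_or (sign c) with h2 | h2
    · exact h2
    · rw [h2, hodd.neg_one_pow] at h1
      exact absurd h1 (by decide)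
  have hcL : c L = L := by
    simp only [c]
    rw [viaEmbeddingHom_apply]
    apply viaEmbedding_apply_of_notMem
    rintro ⟨i, hi⟩
    have := congrArg Fin.val hi
    simp only [ι, Function.Embedding.coeFn_mk, Fin.val_castLE, L] at this
    omega
  have hci : ∀ (i : ℕ) (hi : i + 1 < p), c ⟨i, by omega⟩ = ⟨i + 1, by omega⟩ := by
    intro i hi
    have h1 : (⟨i, by omega⟩ : Fin n) = ι ⟨i, by omega⟩ := rfl
    simp only [c]
    rw [viaEmbeddingHom_apply, h1, viaEmbedding_apply]
    subst hq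
    have h2 : finRotate (q + 2) ⟨i, by omega⟩ = ⟨i + 1, by omega⟩ := by
      apply finRotate_of_lt
      omega
    rw [h2]
    rfl
  have hpH : p ∣ Nat.card H := by
    have hc1 : c ≠ 1 := by
      intro h1
      have h2 := hci 0 (by omega)
      rw [h1] at h2
      simp at h2
    have h3 : orderOf (⟨⟨c, hc⟩, hcL⟩ : H) = p := by
      apply orderOf_eq_prime
      · ext; simp [hcp]
      · intro h4
        apply hc1
        have := congrArg (fun x : H => ((x : ↥(alternatingGroup (Fin n))) : Perm (Fin n))) h4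
        simpa using this
    rw [← h3]
    exact orderOf_dvd_natCard _
  obtain ⟨P, hPn, hPp, hP⟩ := exists_normal (h H hH hpH)
  by_cases hp3' : p = 3
  · subst hp3'
    have hx : (swap a0 a1 * swap a0 a2) ∈ alternatingGroup (Fin n) :=
      (isThreeCycle_swap_mul_swap_same h01 h02 h12).mem_alternatingGroup
    have hy : (swap a0 a1 * swap a0 a3) ∈ alternatingGroup (Fin n) :=
      (isThreeCycle_swap_mul_swap_same h01 h03 h13).mem_alternatingGroup
    let x : H := ⟨⟨_, hx⟩, by
      rw [hmem]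
      simp only [Perm.mul_apply]
      rw [swap_apply_of_ne_of_ne hL0 hL2, swap_apply_of_ne_of_ne hL0 hL1]⟩
    let y : H := ⟨⟨_, hy⟩, by
      rw [hmem]
      simp only [Perm.mul_apply]
      rw [swap_apply_of_ne_of_ne hL0 hL3, swap_apply_of_ne_of_ne hL0 hL1]⟩
    have hx3 : x ^ 3 = 1 := by
      ext1; ext1
      have := (isThreeCycle_swap_mul_swap_same h01 h02 h12).orderOf
      simp only [x, SubmonoidClass.mk_pow, OneMemClass.coe_one]
      rw [← this]; exact pow_orderOf_eq_one _
    have hy3 : y ^ 3 = 1 := by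
      ext1; ext1
      have := (isThreeCycle_swap_mul_swap_same h01 h03 h13).orderOf
      simp only [y, SubmonoidClass.mk_pow, OneMemClass.coe_one]
      rw [← this]; exact pow_orderOf_eq_one _
    have hxy := P.mul_mem (hP x hx3) (hP y hy3)
    have hval : (swap a0 a1 * swap a0 a2) * (swap a0 a1 * swap a0 a3) = swap a1 a2 * swap a0 a3 := by
      have h1 := swap_mul_swap_mul_swap (x := a2) (y := a0) (z := a1) h02.symm h12.symm
      rw [swap_comm a2 a0] at h1
      rw [← mul_assoc, h1]
    have hxyv : ((x * y : H) : ↥(alternatingGroup (Fin n))).1 = swap a1 a2 * swap a0 a3 := hval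
    have h23' : 2 = 3 := by
      apply order_dvd hPp hxy Nat.prime_two
      · intro h1
        rw [h1] at hxyv
        have h2 := congrArg (fun f : Perm (Fin n) => f a0) hxyv
        simp only [Perm.mul_apply, swap_apply_left] at h2
        rw [swap_apply_of_ne_of_ne h13.symm h23.symm] at h2
        exact h03 h2
      · ext1; ext1
        change ((x * y : H) : ↥(alternatingGroup (Fin n))).1 ^ 2 = 1
        rw [hxyv, sq]
        have h1 := swap_apply_apply (swap a1 a2) a0 a3
        rw [swap_apply_of_ne_of_ne h01 h02, swap_apply_of_ne_of_ne h13.symm h23.symm, swap_inv] at h1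
        rw [← mul_assoc, ← h1, swap_mul_self]
    omega
  · have hp5 : 5 ≤ p := by
      rcases hodd with ⟨k, hk⟩
      omega
    have ht3 := isThreeCycle_swap_mul_swap_same h01.symm h12 h02
    let x : H := ⟨⟨c, hc⟩, hcL⟩
    let t : H := ⟨⟨_, ht3.mem_alternatingGroup⟩, by
      rw [hmem]
      simp only [Perm.mul_apply]
      rw [swap_apply_of_ne_of_ne hL1 hL2, swap_apply_of_ne_of_ne hL1 hL0]⟩
    have hxp : x ^ p = 1 := by ext1; ext1; exact hcp
    have hxP := hP x hxp
    have hu := P.mul_mem hxP (hPn.conj_mem _ (P.inv_mem hxP) t)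
    have huv : ((x * (t * x⁻¹ * t⁻¹) : H) : ↥(alternatingGroup (Fin n))).1 = swap a1 a3 * swap a1 a0 := by
      change c * ((swap a1 a0 * swap a1 a2) * c⁻¹ * (swap a1 a0 * swap a1 a2)⁻¹) = _
      have h1 := swap_apply_apply c a1 a0
      have h2 := swap_apply_apply c a1 a2
      have e0 : c a0 = a1 := hci 0 (by omega)
      have e1 : c a1 = a2 := hci 1 (by omega)
      have e2 : c a2 = a3 := hci 2 (by omega)
      rw [e1, e0] at h1
      rw [e1, e2] at h2
      have h3 := swap_mul_swap_mul_swap (x := a3) (y := a2) (z := a1) h23.symm h13.symm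
      calc c * ((swap a1 a0 * swap a1 a2) * c⁻¹ * (swap a1 a0 * swap a1 a2)⁻¹)
          = (c * swap a1 a0 * c⁻¹) * (c * swap a1 a2 * c⁻¹) * (swap a1 a0 * swap a1 a2)⁻¹ := by group
        _ = swap a2 a1 * swap a2 a3 * (swap a1 a2 * swap a1 a0) := by
            rw [← h1, ← h2, mul_inv_rev, swap_inv, swap_inv]
        _ = (swap a2 a1 * swap a3 a2 * swap a2 a1) * swap a1 a0 := by
            rw [swap_comm a2 a3, swap_comm a1 a2]; group
        _ = _ := by rw [h3]
    have hu3 := isThreeCycle_swap_mul_swap_same h13 h01.symm h03.symm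
    apply hp3'
    symm
    apply order_dvd hPp hu Nat.prime_three
    · intro h1
      rw [h1] at huv
      have h2 := hu3.orderOf
      rw [← huv] at h2
      simp at h2
    · ext1; ext1
      change ((x * (t * x⁻¹ * t⁻¹) : H) : ↥(alternatingGroup (Fin n))).1 ^ 3 = 1
      rw [huv, ← hu3.orderOf]
      exact pow_orderOf_eq_one _

end Cfsg.Agent.S3941
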