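import Cfsg.Statements.S3949
import Mathlib.GroupTheory.OrderOfElement

set_option autoImplicit false
open Cfsg

namespace Cfsg.Agent.S3949

theorem iter_inv {G : Type*} [Group G] (α : MulAut G) (g : G) (hg : α g = g⁻¹) (n : ℕ) :
    (fun c : G => c * (α c)⁻¹)^[n] g = g ^ (2 ^ n) := by
  induction n with
  | zero => simp
  | succ n ih =>
    rw [Function.iterate_succ', Function.comp_apply, ih, map_pow, hg, pow_succ 2 n, pow_mul, inv_pow, inv_inv, pow_two]

theorem result {G : Type*} [Group G] [Finite G] (α : MulAut G) (hα : orderOf α = 2) (hG : Subgroup.closure (Set.range (fun c : G => c * (α c)⁻¹)) = ⊤)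
    (j : ℕ) (hj : ∀ g : G, α g = g⁻¹ → ¬ 2 ^ j ∣ orderOf g) :
    Set.range ((fun c : G => c * (α c)⁻¹)^[j]) = {g : G | Odd (orderOf g) ∧ α g = g⁻¹} := by
  have hα2 : ∀ x : G, α (α x) = x := by
    intro x
    have h1 : α ^ 2 = 1 := by rw [← hα]; exact pow_orderOf_eq_one α
    have h2 : (α ^ 2) x = x := by rw [h1]; rfl
    rw [pow_two] at h2
    exact h2
  have hj0 : j ≠ 0 := by
    rintro rfl
    exact hj 1 (by simp) (by simp)
  obtain ⟨i, rfl⟩ : ∃ i, j = i + 1 := ⟨j - 1, by omega⟩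
  ext g
  constructor
  · rintro ⟨c, rfl⟩
    set u := c * (α c)⁻¹ with hu
    have huinv : α u = u⁻¹ := by
      rw [hu, map_mul, map_inv, hα2, mul_inv_rev, inv_inv]
    rw [Function.iterate_succ, Function.comp_apply]
    have h1 := iter_inv α u huinv i
    change (fun c : G => c * (α c)⁻¹)^[i] u ∈ _
    rw [h1]
    refine ⟨?_, ?_⟩
    · have hn := hj u huinv
      have hpos := orderOf_pos u
      obtain ⟨k, m, hm, hk⟩ := Nat.exists_eq_two_pow_mul_odd hpos.ne'
      have hk' : k ≤ i := by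
        by_contra hcon
        apply hn
        rw [hk]
        exact Dvd.dvd.mul_right (pow_dvd_pow 2 (by omega)) m
      have h3 : orderOf (u ^ 2 ^ i) ∣ m := by
        apply orderOf_dvd_of_pow_eq_one
        rw [← pow_mul]
        obtain ⟨l, hl⟩ := pow_dvd_pow 2 hk'
        rw [hl]
        have : 2 ^ k * l * m = orderOf u * l := by rw [hk]; ring
        rw [this, pow_mul, pow_orderOf_eq_one, one_pow]
      exact Odd.of_dvd_nat hm h3
    · change α (u ^ 2 ^ i) = (u ^ 2 ^ i)⁻¹
      rw [map_pow, huinv, inv_pow]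
  · rintro ⟨hodd, hinv⟩
    have hcop : Nat.Coprime (2 ^ (i + 1)) (orderOf g) := Nat.Coprime.pow_left _ (Nat.coprime_two_left.2 hodd)
    obtain ⟨m, hm⟩ := exists_pow_eq_self_of_coprime hcop
    refine ⟨g ^ m, ?_⟩
    have hinv' : α (g ^ m) = (g ^ m)⁻¹ := by rw [map_pow, hinv, inv_pow]
    rw [iter_inv α _ hinv', ← pow_mul, mul_comm, pow_mul]
    exact hm

end Cfsg.Agent.S3949
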