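import Cfsg.Statements.S3972
import Cfsg.Agent.Lib.H69.CyclicReg
import Cfsg.Agent.Lib.H1.FrobSyl

set_option autoImplicit false
open Cfsg

namespace Cfsg.Agent.S3972

open MulAction

/-- Let `p` be a prime, `m ≥ 2`, and `G` a transitive but not doubly transitive permutation group on `p ^ m` points containing a permutation of order `p ^ m` (necessarily a full cycle). Then `G` is imprimitive, and the normal closure in `G` of the `p ^ (m - 1)`-th power of that permutation is an intransitive normal subgroup. -/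
theorem result {Ω : Type*} [Fintype Ω] [DecidableEq Ω] (p m : ℕ) (hp : p.Prime) (hm : 2 ≤ m) (hΩ : Fintype.card Ω = p ^ m) (G : Subgroup (Equiv.Perm Ω)) (htr : MulAction.IsPretransitive G Ω) (h2 : ¬ MulAction.IsMultiplyPretransitive G Ω 2) (g : G) (hg : orderOf g = p ^ m) : ¬ MulAction.IsPreprimitive G Ω ∧ ¬ MulAction.IsPretransitive (Subgroup.normalClosure ({g ^ (p ^ (m - 1))} : Set G)) Ω := by
  have := Fact.mk hp
  have hcard : Nat.card Ω = p ^ m := by rw [Nat.card_eq_fintype_card, hΩ]
  -- a point moved by `g ^ (p ^ (m-1))`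
  have hk1 : g ^ (p ^ (m - 1)) ≠ 1 := by
    intro h
    have h1 := orderOf_dvd_of_pow_eq_one h
    rw [hg, Nat.pow_dvd_pow_iff_le_right hp.one_lt] at h1
    omega
  obtain ⟨ω, hω⟩ : ∃ ω : Ω, g ^ (p ^ (m - 1)) • ω ≠ ω := by
    by_contra hcon
    push Not at hcon
    apply hk1
    apply Subtype.ext
    ext x
    exact hcon x
  -- `g` is transitive
  have hper : Function.minimalPeriod (g • ·) ω = p ^ m := by
    have h1 : Function.minimalPeriod (g • ·) ω ∣ p ^ m := by
      rw [← hg, ← MulAction.pow_smul_eq_iff_minimalPeriod_dvd, pow_orderOf_eq_one, one_smul]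
    obtain ⟨j, hj, hj2⟩ := (Nat.dvd_prime_pow hp).1 h1
    rcases Nat.lt_or_ge j m with hlt | hge
    · exfalso
      apply hω
      rw [MulAction.pow_smul_eq_iff_minimalPeriod_dvd, hj2]
      exact pow_dvd_pow p (by omega)
    · rw [hj2, le_antisymm hj hge]
  have htrans : ∀ x : Ω, ∃ i : ℤ, g ^ i • ω = x := by
    have h1 : Nat.card (orbit (Subgroup.zpowers g) ω) = p ^ m := by
      have := Fintype.ofFinite (orbit (Subgroup.zpowers g) ω)
      rw [← hper, MulAction.minimalPeriod_eq_card, Nat.card_eq_fintype_card]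
    have h3 : (orbit (Subgroup.zpowers g) ω) = Set.univ := by
      rw [Set.eq_univ_iff_ncard, ← Nat.card_coe_set_eq, h1, hcard]
    intro x
    have h4 : x ∈ orbit (Subgroup.zpowers g) ω := by rw [h3]; exact Set.mem_univ _
    obtain ⟨⟨_, i, rfl⟩, hi⟩ := h4
    exact ⟨i, hi⟩
  -- a nontrivial invariant equivalence relation
  obtain ⟨r, hr, hinv, hne, hnt⟩ : ∃ r : Ω → Ω → Prop, Equivalence r ∧
      (∀ k : G, ∀ x y, r x y → r (k • x) (k • y)) ∧ (∃ x y, r x y ∧ x ≠ y) ∧ ∃ x y, ¬ r x y := by
    by_contra hcon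
    apply h2
    apply H69.CyclicReg.two_transitive g ω htrans (p := p)
    · rw [hcard]; exact dvd_pow_self p (by omega)
    · rw [hcard]
      intro h
      have h1 := Nat.le_of_dvd hp.pos h
      have h3 : p ^ 1 < p ^ m := Nat.pow_lt_pow_right hp.one_lt (by omega)
      rw [pow_one] at h3
      omega
    · intro r hr hinv
      by_contra h
      push Not at h
      exact hcon ⟨r, hr, hinv, h.1, h.2⟩
  -- the power fixes all classes
  have hfix : ∀ x : Ω, r x (g ^ (p ^ (m - 1)) • x) := by
    obtain ⟨x, y, hxy, hne⟩ := hne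
    obtain ⟨i, hi⟩ := htrans x
    obtain ⟨j, hj⟩ := htrans y
    set τ : G := g ^ (j - i) with hτ
    have h1 : τ • x = y := by
      rw [hτ, ← hi, ← hj, smul_smul, ← zpow_add]; congr 2; ring
    have hτ1 : τ ≠ 1 := by
      intro h
      rw [h, one_smul] at h1
      exact hne h1
    -- `g ^ (p ^ (m-1))` is a power of `τ`
    have hmem : g ^ (p ^ (m - 1)) ∈ Subgroup.zpowers τ := by
      have hτz : τ ∈ Subgroup.zpowers g := ⟨j - i, rfl⟩
      have h3 : orderOf τ ∣ p ^ m := by
        rw [← hg, ← Nat.card_zpowers g, ← Subgroup.orderOf_mk τ hτz]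
        exact orderOf_dvd_natCard _
      obtain ⟨s, hs, hs2⟩ := (Nat.dvd_prime_pow hp).1 h3
      have hs0 : s ≠ 0 := by
        rintro rfl
        rw [pow_zero, orderOf_eq_one_iff] at hs2
        exact hτ1 hs2
      have h4 : orderOf (τ ^ (p ^ (s - 1))) = p := by
        rw [orderOf_pow_of_dvd (pow_ne_zero _ hp.ne_zero)
          (by rw [hs2]; exact pow_dvd_pow _ (Nat.sub_le _ _)), hs2,
          Nat.pow_div (Nat.sub_le _ _) hp.pos, Nat.sub_sub_self (Nat.pos_of_ne_zero hs0), pow_one]
      have h5 : orderOf (g ^ (p ^ (m - 1))) = p := by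
        rw [orderOf_pow_of_dvd (pow_ne_zero _ hp.ne_zero)
          (by rw [hg]; exact pow_dvd_pow _ (Nat.sub_le _ _)), hg,
          Nat.pow_div (Nat.sub_le _ _) hp.pos, Nat.sub_sub_self (by omega), pow_one]
      have h6 := H1.FrobSyl.eq_of_card_eq_of_le (A := Subgroup.zpowers g)
        (X := Subgroup.zpowers (g ^ (p ^ (m - 1)))) (Y := Subgroup.zpowers (τ ^ (p ^ (s - 1))))
        inferInstance
        (by rw [Subgroup.zpowers_le]; exact Subgroup.pow_mem _ (Subgroup.mem_zpowers g) _)
        (by rw [Subgroup.zpowers_le]; exact Subgroup.pow_mem _ hτz _)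
        (by rw [Nat.card_zpowers, Nat.card_zpowers, h4, h5])
      have h7 : g ^ (p ^ (m - 1)) ∈ Subgroup.zpowers (τ ^ (p ^ (s - 1))) := by
        rw [← h6]; exact Subgroup.mem_zpowers _
      exact (Subgroup.zpowers_le.2 (Subgroup.pow_mem _ (Subgroup.mem_zpowers τ) _)) h7
    -- the stabilizer of the class of `x`
    have hpow : ∀ l : ℤ, r x (τ ^ l • x) := by
      have hnat : ∀ l : ℕ, r x (τ ^ l • x) := by
        intro l
        induction l with
        | zero => rw [pow_zero, one_smul]; exact hr.refl x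
        | succ l ih =>
          rw [pow_succ', mul_smul]
          have h8 := hinv τ _ _ ih
          rw [h1] at h8
          exact hr.trans hxy h8
      intro l
      obtain ⟨l, rfl | rfl⟩ := l.eq_nat_or_neg
      · rw [zpow_natCast]; exact hnat l
      · have h8 := hinv (τ ^ (-(l : ℤ))) _ _ (hnat l)
        rw [← zpow_natCast, smul_smul, ← zpow_add, neg_add_cancel, zpow_zero, one_smul] at h8
        exact hr.symm h8
    obtain ⟨l, hl⟩ := hmem
    have h9 : r x (g ^ (p ^ (m - 1)) • x) := by
      have := hpow l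
      rwa [show τ ^ l = g ^ (p ^ (m - 1)) from hl] at this
    intro z
    obtain ⟨t, ht⟩ := htrans z
    have h10 : g ^ (t - i) • x = z := by
      rw [← hi, ← ht, smul_smul, ← zpow_add]; congr 2; ring
    have h11 := hinv (g ^ (t - i)) _ _ h9
    rw [h10, smul_smul] at h11
    have h12 : g ^ (t - i) * g ^ (p ^ (m - 1)) = g ^ (p ^ (m - 1)) * g ^ (t - i) := by
      rw [← zpow_natCast, ← zpow_add, ← zpow_add, add_comm]
    rw [h12, mul_smul, h10] at h11
    exact h11
  -- the normal closure fixes all classes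
  have hN : ∀ k ∈ Subgroup.normalClosure ({g ^ (p ^ (m - 1))} : Set G), ∀ x : Ω, r x (k • x) := by
    intro k hk
    let K : Subgroup G :=
      { carrier := {k | ∀ x : Ω, r x (k • x)}
        one_mem' := fun x => by rw [one_smul]; exact hr.refl x
        mul_mem' := fun {a b} ha hb x => by
          rw [mul_smul]; exact hr.trans (hb x) (ha (b • x))
        inv_mem' := fun {a} ha x => by
          have := ha (a⁻¹ • x)
          rw [smul_inv_smul] at this
          exact hr.symm this }
    have hK : K.Normal := ⟨fun a ha b x => by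
      have h1 := hinv b _ _ (ha (b⁻¹ • x))
      rw [smul_inv_smul] at h1
      rw [mul_smul, mul_smul]
      exact h1⟩
    have hle : Subgroup.normalClosure ({g ^ (p ^ (m - 1))} : Set G) ≤ K := by
      apply Subgroup.normalClosure_le_normal
      rw [Set.singleton_subset_iff]
      exact hfix
    exact hle hk
  have hNt : ¬ MulAction.IsPretransitive (Subgroup.normalClosure ({g ^ (p ^ (m - 1))} : Set G)) Ω := by
    intro ht
    obtain ⟨x, y, hxy⟩ := hnt
    obtain ⟨k, hk⟩ := ht.exists_smul_eq x y
    apply hxy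
    rw [← hk]
    exact hN k k.2 x
  refine ⟨?_, hNt⟩
  intro hprim
  rcases H69.CyclicReg.prim_of_preprimitive r hr hinv with h | h
  · obtain ⟨x, y, hxy, hne⟩ := hne
    exact hne (h x y hxy)
  · obtain ⟨x, y, hxy⟩ := hnt
    exact hxy (h x y)

end Cfsg.Agent.S3972
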