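import Cfsg.Statements.S3982
import Cfsg.Agent.Lib.H69.EvenNormalizer

set_option autoImplicit false
open Cfsg

namespace Cfsg.Agent.S3982

open H69.EvenNormalizer

/-- Let p be an odd prime and G a finite group of even order divisible by p in which the centralizer of every non-identity p-element has odd order. If some nontrivial p-subgroup of G has a normalizer of even order, then the normalizer of every Sylow p-subgroup of G has even order. -/
theorem result {G : Type*} [Group G] [Finite G] (p : ℕ) [Fact p.Prime] (hp2 : p ≠ 2) (hpG : p ∣ Nat.card G) (h2G : 2 ∣ Nat.card G) (hC : ∀ g : G, g ≠ 1 → (∃ k : ℕ, orderOf g = p ^ k) → Odd (Nat.card ↥(Subgroup.centralizer ({g} : Set G)))) (Q : Subgroup G) (hQ : IsPGroup p ↥Q) (hQ1 : Q ≠ ⊥) (hev : Even (Nat.card ↥(Subgroup.normalizer (Q : Set G)))) (P : Sylow p G) : Even (Nat.card ↥(Subgroup.normalizer ((P : Subgroup G) : Set G))) := by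
  have hp : p.Prime := Fact.out
  have hpodd : Odd p := hp.odd_of_ne_two hp2
  -- choose R with maximal order
  obtain ⟨R, ⟨hR, hR1, hRev⟩, hmax⟩ : ∃ R : Subgroup G, (IsPGroup p R ∧ R ≠ ⊥ ∧
      Even (Nat.card (Subgroup.normalizer (R : Set G)))) ∧ ∀ S : Subgroup G, (IsPGroup p S ∧ S ≠ ⊥ ∧
      Even (Nat.card (Subgroup.normalizer (S : Set G)))) → Nat.card S ≤ Nat.card R := by
    have hfin : {R : Subgroup G | IsPGroup p R ∧ R ≠ ⊥ ∧
      Even (Nat.card (Subgroup.normalizer (R : Set G)))}.Finite := Set.toFinite _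
    obtain ⟨R, hR, hmax⟩ := Set.exists_max_image _ (fun R : Subgroup G => Nat.card R) hfin ⟨Q, hQ, hQ1, hev⟩
    exact ⟨R, hR, hmax⟩
  have hpel : ∀ (T : Subgroup G), IsPGroup p T → ∀ x ∈ T, ∃ k : ℕ, orderOf x = p ^ k := by
    intro T hT x hx
    obtain ⟨k, hk⟩ := hT ⟨x, hx⟩
    have hk' : x ^ p ^ k = 1 := congrArg Subtype.val hk
    obtain ⟨c, -, hc⟩ := (Nat.dvd_prime_pow hp).1 (orderOf_dvd_of_pow_eq_one hk')
    exact ⟨c, hc⟩
  have hodd : ∀ (T : Subgroup G), IsPGroup p T → Odd (Nat.card T) := by
    intro T hT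
    obtain ⟨n, hn⟩ := hT.exists_card_eq
    rw [hn]
    exact hpodd.pow
  -- an involution normalizing R
  obtain ⟨⟨y, hyN⟩, hy⟩ : ∃ y : Subgroup.normalizer (R : Set G), orderOf y = 2 :=
    have : Fact (Nat.Prime 2) := ⟨Nat.prime_two⟩
    exists_prime_orderOf_dvd_card' 2 (even_iff_two_dvd.1 hRev)
  rw [Subgroup.orderOf_mk] at hy
  have hyy : y * y = 1 := by
    have := pow_orderOf_eq_one y
    rwa [hy, pow_two] at this
  have hyinv : y⁻¹ = y := inv_eq_of_mul_eq_one_right hyy
  -- y acts fixed point freely on R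
  have hfpf : ∀ r ∈ R, y * r * y⁻¹ = r → r = 1 := by
    intro r hr hyr
    by_contra hr1
    have h1 := hC r hr1 (hpel R hR r hr)
    have h2 : y ∈ Subgroup.centralizer ({r} : Set G) := by
      rw [Subgroup.mem_centralizer_singleton_iff]
      exact mul_inv_eq_iff_eq_mul.1 hyr
    have h3 : 2 ∣ Nat.card (Subgroup.centralizer ({r} : Set G)) := by
      rw [← hy, ← Subgroup.orderOf_mk y h2]
      exact orderOf_dvd_natCard _
    exact (Nat.not_even_iff_odd.2 h1) (even_iff_two_dvd.2 h3)
  have hyR : ∀ r ∈ R, y * r * y⁻¹ ∈ R := fun r hr => (Subgroup.mem_normalizer_iff.1 hyN r).1 hr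
  let φ : R →* R :=
    { toFun := fun r => ⟨y * r * y⁻¹, hyR r r.2⟩
      map_one' := by ext; simp
      map_mul' := fun a b => by ext; simp }
  have hφfpf : MonoidHom.FixedPointFree φ := by
    intro r hr
    apply Subtype.ext
    exact hfpf r r.2 (congrArg Subtype.val hr)
  have hφinv : Function.Involutive φ := by
    intro r
    apply Subtype.ext
    change y * (y * r * y⁻¹) * y⁻¹ = r
    rw [hyinv]
    calc y * (y * (r : G) * y) * y = (y * y) * r * (y * y) := by group
      _ = r := by rw [hyy]; group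
  have hinv : ∀ r ∈ R, y * r * y⁻¹ = r⁻¹ := by
    intro r hr
    have h1 := congrFun (hφfpf.coe_eq_inv_of_involutive hφinv) ⟨r, hr⟩
    exact congrArg Subtype.val h1
  have hcomm : ∀ r ∈ R, ∀ s ∈ R, r * s = s * r := by
    intro r hr s hs
    have h1 := hφfpf.commute_all_of_involutive hφinv ⟨r, hr⟩ ⟨s, hs⟩
    exact congrArg Subtype.val h1.eq
  let C := Subgroup.centralizer (R : Set G)
  have hCodd : Odd (Nat.card C) := by
    obtain ⟨r, hr, hr1⟩ : ∃ r ∈ R, r ≠ 1 := by
      by_contra h
      push Not at h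
      exact hR1 ((Subgroup.eq_bot_iff_forall R).2 h)
    have h1 := hC r hr1 (hpel R hR r hr)
    have h2 : C ≤ Subgroup.centralizer ({r} : Set G) := Subgroup.centralizer_le (by
      rw [Set.singleton_subset_iff]; exact hr)
    exact Odd.of_dvd_nat h1 (Subgroup.card_dvd_of_le h2)
  have hRC : R ≤ C := by
    intro r hr
    rw [Subgroup.mem_centralizer_iff]
    intro s hs
    exact hcomm s hs r hr
  -- R is Sylow
  obtain ⟨P₀, hP₀⟩ := hR.exists_le_sylow
  have hRP : R = (P₀ : Subgroup G) := by
    by_contra hne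
    obtain ⟨T, hRT, hTP, hTN⟩ := exists_gt_le_normalizer R P₀ P₀.isPGroup' (lt_of_le_of_ne hP₀ hne)
    have hTp : IsPGroup p T := P₀.isPGroup'.to_le hTP
    let K : Subgroup G := C ⊔ T
    have hCn : Subgroup.normalizer (R : Set G) ≤ Subgroup.normalizer (C : Set G) := by
      intro n hn
      rw [Subgroup.mem_normalizer_iff]
      have key : ∀ n ∈ Subgroup.normalizer (R : Set G), ∀ c ∈ C, n * c * n⁻¹ ∈ C := by
        intro n hn c hc
        rw [Subgroup.mem_centralizer_iff] at hc ⊢
        intro r hr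
        have h1 : n⁻¹ * r * n ∈ R := (Subgroup.mem_normalizer_iff''.1 hn r).1 hr
        have h2 := hc _ h1
        calc r * (n * c * n⁻¹) = n * ((n⁻¹ * r * n) * c) * n⁻¹ := by group
          _ = n * (c * (n⁻¹ * r * n)) * n⁻¹ := by rw [h2]
          _ = n * c * n⁻¹ * r := by group
      intro c
      constructor
      · exact key n hn c
      · intro hc
        have := key n⁻¹ (inv_mem hn) _ hc
        have h2 : n⁻¹ * (n * c * n⁻¹) * n⁻¹⁻¹ = c := by group
        rwa [h2] at this
    have hKodd : Odd (Nat.card K) := by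
      have h1 := H26.SupCard.card_sup_dvd_mul (X := C) (Y := T) (hTN.trans hCn)
      exact Odd.of_dvd_nat (hCodd.mul (hodd T hTp)) h1
    have hyK : y ∈ Subgroup.normalizer (K : Set G) := by
      have h1 : K ≤ K.comap (MulAut.conj y).toMonoidHom := by
        refine sup_le ?_ ?_
        · intro c hc
          exact Subgroup.mem_sup_left ((Subgroup.mem_normalizer_iff.1 (hCn hyN) c).1 hc)
        · intro t ht
          change y * t * y⁻¹ ∈ K
          have h2 : y * t * y⁻¹ * t⁻¹ ∈ C := by
            rw [Subgroup.mem_centralizer_iff]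
            intro r hr
            have htN := hTN ht
            have h3 : t⁻¹ * r * t ∈ R := (Subgroup.mem_normalizer_iff''.1 htN r).1 hr
            -- conj by y t y⁻¹ t⁻¹ fixes r
            have h4 : (t⁻¹ * y⁻¹ * t)  * (t⁻¹ * r * t) = (t⁻¹ * r * t)⁻¹ * (t⁻¹ * y⁻¹ * t) := by
              have h5 := hinv r hr
              have h6 : y⁻¹ * r = r⁻¹ * y⁻¹ := by
                rw [hyinv, ← h5, hyinv]
                calc y * r = y * r * (y * y) := by rw [hyy, mul_one]
                  _ = y * r * y * y := by group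
              calc (t⁻¹ * y⁻¹ * t)  * (t⁻¹ * r * t) = t⁻¹ * (y⁻¹ * r) * t := by group
                _ = t⁻¹ * (r⁻¹ * y⁻¹) * t := by rw [h6]
                _ = (t⁻¹ * r * t)⁻¹ * (t⁻¹ * y⁻¹ * t) := by group
            -- r (y t y⁻¹ t⁻¹) = (y t y⁻¹ t⁻¹) r
            have h7 : ∀ s ∈ R, s * y = y * s⁻¹ := by
              intro s hs
              have h5 := hinv s hs
              rw [hyinv] at h5
              calc s * y = (y * y) * s * y := by rw [hyy, one_mul]
                _ = y * (y * s * y) := by group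
                _ = y * s⁻¹ := by rw [h5]
            have h8 : (t⁻¹ * r * t) * y = y * (t⁻¹ * r * t)⁻¹ := h7 _ h3
            rw [hyinv]
            calc r * (y * t * y * t⁻¹) = (r * y) * t * y * t⁻¹ := by group
              _ = y * r⁻¹ * t * y * t⁻¹ := by rw [h7 r hr]
              _ = y * t * ((t⁻¹ * r * t)⁻¹ * y) * t⁻¹ := by group
              _ = y * t * (y * (t⁻¹ * r * t)⁻¹⁻¹) * t⁻¹ := by rw [h7 _ (inv_mem h3)]
              _ = y * t * y * t⁻¹ * r := by group
          have h3 : y * t * y⁻¹ = (y * t * y⁻¹ * t⁻¹) * t := by group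
          rw [h3]
          exact mul_mem (Subgroup.mem_sup_left h2) (Subgroup.mem_sup_right ht)
      rw [Subgroup.mem_normalizer_iff]
      intro a
      constructor
      · intro ha
        exact h1 ha
      · intro ha
        have h3 : y * (y * a * y⁻¹) * y⁻¹ ∈ K := h1 ha
        have h4 : y * (y * a * y⁻¹) * y⁻¹ = a := by
          rw [hyinv]
          calc y * (y * a * y) * y = (y * y) * a * (y * y) := by group
            _ = a := by rw [hyy]; group
        rwa [h4] at h3
    obtain ⟨S⟩ : Nonempty (Sylow p K) := inferInstance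
    have h1 := exists_sylow_even_normalizer p K hKodd y hy hyK S
    have h2 : Nat.card ((S : Subgroup K).map K.subtype) = Nat.card (S : Subgroup K) :=
      (Nat.card_congr ((S : Subgroup K).equivMapOfInjective _ K.subtype_injective).toEquiv).symm
    have h3 : Nat.card T ∣ Nat.card (S : Subgroup K) := by
      obtain ⟨n, hn⟩ := hTp.exists_card_eq
      rw [hn]
      apply S.pow_dvd_card_of_pow_dvd_card
      rw [← hn]
      exact Subgroup.card_dvd_of_le le_sup_right
    have h4 : Nat.card R < Nat.card T := by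
      apply lt_of_le_of_ne (Subgroup.card_le_of_le hRT.le)
      intro h
      exact hRT.ne (Subgroup.eq_of_le_of_card_ge hRT.le h.ge)
    have h5 : Nat.card T ≤ Nat.card (S : Subgroup K) := Nat.le_of_dvd Nat.card_pos h3
    have h6 : (S : Subgroup K).map K.subtype ≠ ⊥ := by
      intro h
      rw [h, Subgroup.card_bot] at h2
      have : 0 < Nat.card R := Nat.card_pos
      omega
    have h7 := hmax _ ⟨S.isPGroup'.map _, h6, h1⟩
    omega
  have h1 := P.card_eq_index_normalizer
  have h2 := P₀.card_eq_index_normalizer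
  have h3 := Subgroup.card_mul_index (Subgroup.normalizer ((P : Subgroup G) : Set G))
  have h4 := Subgroup.card_mul_index (Subgroup.normalizer ((P₀ : Subgroup G) : Set G))
  have h5 : (Subgroup.normalizer ((P : Subgroup G) : Set G)).index =
    (Subgroup.normalizer ((P₀ : Subgroup G) : Set G)).index := h1.symm.trans h2
  rw [h5, ← h4] at h3
  have h6 : (Subgroup.normalizer ((P₀ : Subgroup G) : Set G)).index ≠ 0 := Subgroup.FiniteIndex.index_ne_zero
  have h7 := Nat.eq_of_mul_eq_mul_right (Nat.pos_of_ne_zero h6) h3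
  rw [h7, ← hRP]
  exact hRev

end Cfsg.Agent.S3982
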