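import Cfsg.Statements.S3983
import Cfsg.Agent.Lib.H69.TISub

set_option autoImplicit false
open scoped Pointwise
open Cfsg

namespace Cfsg.Agent.S3983

open H69.TISub

/-- Let P be a Sylow p-subgroup of the finite group G that meets each conjugate g P g⁻¹ with g outside N_G(P) trivially, and let U be a subgroup of G of order divisible by p. Then a Sylow p-subgroup Q of U has the same property inside U: Q meets each conjugate u Q u⁻¹ with u ∈ U outside N_U(Q) trivially. -/
theorem result {G : Type*} [Group G] [Finite G] (p : ℕ) [Fact p.Prime] (P : Sylow p G) (hTI : ∀ g : G, g ∉ Subgroup.normalizer ((P : Subgroup G) : Set G) → (P : Subgroup G) ⊓ (MulAut.conj g • (P : Subgroup G)) = ⊥) (U : Subgroup G) (hU : p ∣ Nat.card ↥U) (Q : Sylow p ↥U) : ∀ u : ↥U, u ∉ Subgroup.normalizer ((Q : Subgroup ↥U) : Set ↥U) → (Q : Subgroup ↥U) ⊓ (MulAut.conj u • (Q : Subgroup ↥U)) = ⊥ := by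
  rw [ti_iff] at hTI ⊢
  have hQ' : IsPGroup p ((Q : Subgroup U).map U.subtype) := Q.isPGroup'.map _
  obtain ⟨P', hP'⟩ := hQ'.exists_le_sylow
  obtain ⟨a, ha⟩ := MulAction.exists_smul_eq G P P'
  have hTI' : TI (P' : Subgroup G) := by
    have h1 := hTI.conj a
    rw [← ha]
    exact h1
  have hQP : (Q : Subgroup U) = (P' : Subgroup G).subgroupOf U := by
    have h1 : (Q : Subgroup U) ≤ (P' : Subgroup G).subgroupOf U := by
      intro x hx
      exact hP' ⟨x, hx, rfl⟩
    exact (Q.is_maximal' (P'.isPGroup'.comap_of_injective U.subtype U.subtype_injective) h1).symm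
  intro u x hx hx1 hux
  rw [hQP] at hx hux ⊢
  rw [Subgroup.mem_subgroupOf] at hx hux
  have h1 := hTI' (u : G) (x : G) hx (fun h => hx1 (Subtype.ext h)) (by simpa using hux)
  ext z
  rw [mem_conj_smul, Subgroup.mem_subgroupOf, Subgroup.mem_subgroupOf]
  have h2 := SetLike.ext_iff.1 h1 (z : G)
  rw [mem_conj_smul] at h2
  simpa using h2

end Cfsg.Agent.S3983
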