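import Cfsg.Statements.S3984
import Cfsg.Agent.Lib.H69.TISub

set_option autoImplicit false
open scoped Pointwise
open Cfsg

namespace Cfsg.Agent.S3984

open H69.TISub

/-- Let P be a Sylow p-subgroup of the finite group G that meets each conjugate g P g⁻¹ with g outside N_G(P) trivially, and let N be a normal subgroup of G of order prime to p. Then every Sylow p-subgroup Q of G ⧸ N meets each conjugate x Q x⁻¹ with x outside its normalizer trivially. -/
theorem result {G : Type*} [Group G] [Finite G] (p : ℕ) [Fact p.Prime] (P : Sylow p G) (hTI : ∀ g : G, g ∉ Subgroup.normalizer ((P : Subgroup G) : Set G) → (P : Subgroup G) ⊓ (MulAut.conj g • (P : Subgroup G)) = ⊥) (N : Subgroup G) [N.Normal] (hN : (Nat.card ↥N).Coprime p) (Q : Sylow p (G ⧸ N)) : ∀ x : G ⧸ N, x ∉ Subgroup.normalizer ((Q : Subgroup (G ⧸ N)) : Set (G ⧸ N)) → (Q : Subgroup (G ⧸ N)) ⊓ (MulAut.conj x • (Q : Subgroup (G ⧸ N))) = ⊥ := by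
  rw [ti_iff] at hTI ⊢
  have hsurj : Function.Surjective (QuotientGroup.mk' N) := QuotientGroup.mk'_surjective N
  obtain ⟨P', hP'⟩ := Sylow.mapSurjective_surjective hsurj p Q
  have hQ : (Q : Subgroup (G ⧸ N)) = (P' : Subgroup G).map (QuotientGroup.mk' N) := by
    rw [← hP', Sylow.coe_mapSurjective]
  obtain ⟨a, ha⟩ := MulAction.exists_smul_eq G P P'
  have hTI' : TI (P' : Subgroup G) := by
    rw [← ha]
    exact hTI.conj a
  intro x z hz hz1 hxz
  obtain ⟨g, rfl⟩ := hsurj x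
  rw [hQ] at hz hxz
  obtain ⟨y, hy, rfl⟩ := hz
  obtain ⟨w, hw, hwg⟩ := hxz
  have hy1 : y ≠ 1 := by
    rintro rfl
    exact hz1 (map_one _)
  -- the element g⁻¹ y g lies in D = P' ⊔ N
  let D : Subgroup G := (P' : Subgroup G) ⊔ N
  have hPD : (P' : Subgroup G) ≤ D := le_sup_left
  have hND : N ≤ D := le_sup_right
  have hgD : g⁻¹ * y * g ∈ D := by
    have h1 : (w⁻¹ * (g⁻¹ * y * g)) ∈ N := by
      rw [← QuotientGroup.eq_one_iff]
      have h2 : (QuotientGroup.mk' N) (w⁻¹ * (g⁻¹ * y * g)) = 1 := by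
        rw [map_mul, map_inv, hwg, map_mul, map_mul, map_inv]
        group
      exact h2
    have h3 : g⁻¹ * y * g = w * (w⁻¹ * (g⁻¹ * y * g)) := by group
    rw [h3]
    exact mul_mem (hPD hw) (hND h1)
  have hpg : IsPGroup p (Subgroup.zpowers (⟨g⁻¹ * y * g, hgD⟩ : D)) := by
    obtain ⟨k, hk⟩ := P'.isPGroup' ⟨y, hy⟩
    have hk' : y ^ p ^ k = 1 := congrArg Subtype.val hk
    rw [IsPGroup.iff_card]
    have h1 : (⟨g⁻¹ * y * g, hgD⟩ : D) ^ p ^ k = 1 := by
      apply Subtype.ext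
      have h2 : (g⁻¹ * y * g) ^ p ^ k = g⁻¹ * y ^ p ^ k * g := by
        have := conj_pow (i := p ^ k) (a := g⁻¹) (b := y)
        rwa [inv_inv] at this
      change (g⁻¹ * y * g) ^ p ^ k = 1
      rw [h2, hk']; group
    obtain ⟨c, -, hc⟩ := (Nat.dvd_prime_pow Fact.out).1 (orderOf_dvd_of_pow_eq_one h1)
    exact ⟨c, by rw [Nat.card_zpowers, hc]⟩
  obtain ⟨S, hS⟩ := hpg.exists_le_sylow
  obtain ⟨d, hd⟩ := MulAction.exists_smul_eq D (P'.subtype hPD) S
  have hmem : (⟨g⁻¹ * y * g, hgD⟩ : D) ∈ (d • (P'.subtype hPD) : Sylow p D) := by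
    rw [hd]
    exact hS (Subgroup.mem_zpowers _)
  have hmem' : (⟨g⁻¹ * y * g, hgD⟩ : D) ∈ MulAut.conj d • ((P' : Subgroup G).subgroupOf D) := hmem
  rw [mem_conj_smul, Subgroup.mem_subgroupOf] at hmem'
  have hmem'' : (d : G)⁻¹ * (g⁻¹ * y * g) * d ∈ (P' : Subgroup G) := hmem'
  obtain ⟨n, hn, b, hb, hnb⟩ := Subgroup.mem_sup_of_normal_left.1 (show (d : G) ∈ N ⊔ (P' : Subgroup G) by
    rw [sup_comm]; exact d.2)
  have hfin : (g * n)⁻¹ * y * (g * n) ∈ (P' : Subgroup G) := by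
    have h1 : (g * n)⁻¹ * y * (g * n) = b * ((d : G)⁻¹ * (g⁻¹ * y * g) * d) * b⁻¹ := by
      rw [← hnb]; group
    rw [h1]
    exact mul_mem (mul_mem hb hmem'') (inv_mem hb)
  have h1 := hTI' (g * n) y hy hy1 hfin
  rw [hQ]
  ext v
  obtain ⟨v, rfl⟩ := hsurj v
  rw [mem_conj_smul]
  have hgn : (QuotientGroup.mk' N) (g * n) = (QuotientGroup.mk' N) g := by
    rw [map_mul]
    have : (QuotientGroup.mk' N) n = 1 := (QuotientGroup.eq_one_iff n).2 hn
    rw [this, mul_one]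
  rw [← hgn]
  constructor
  · rintro ⟨y', hy', hyv⟩
    refine ⟨(g * n) * y' * (g * n)⁻¹, ?_, ?_⟩
    · change _ ∈ (P' : Subgroup G)
      rw [← h1, mem_conj_smul]
      have : (g * n)⁻¹ * (g * n * y' * (g * n)⁻¹) * (g * n) = y' := by group
      rw [this]; exact hy'
    · rw [map_mul, map_mul, map_inv, hyv]; group
  · rintro ⟨y', hy', hyv⟩
    have hy'' : y' ∈ MulAut.conj (g * n) • (P' : Subgroup G) := by rw [h1]; exact hy'
    rw [mem_conj_smul] at hy''
    refine ⟨_, hy'', ?_⟩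
    rw [map_mul, map_mul, map_inv, hyv]

end Cfsg.Agent.S3984
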