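import Cfsg.Statements.S3985
import Cfsg.Agent.Lib.H69.TISub

set_option autoImplicit false
open scoped Pointwise
open Cfsg

namespace Cfsg.Agent.S3985

open H69.TISub

/-- Let P be a cyclic Sylow p-subgroup of the finite group G. Then P meets each conjugate g P g⁻¹ with g outside N_G(P) trivially if and only if P is weakly self-centralizing: C_G(x) = C_G(P) for every non-identity x ∈ P. -/
theorem result {G : Type*} [Group G] [Finite G] (p : ℕ) [Fact p.Prime] (P : Sylow p G) (hcyc : IsCyclic ↥(P : Subgroup G)) : (∀ g : G, g ∉ Subgroup.normalizer ((P : Subgroup G) : Set G) → (P : Subgroup G) ⊓ (MulAut.conj g • (P : Subgroup G)) = ⊥) ↔ ∀ x : G, x ∈ (P : Subgroup G) → x ≠ 1 → Subgroup.centralizer ({x} : Set G) = Subgroup.centralizer ((P : Subgroup G) : Set G) := by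
  rw [ti_iff]
  have hp : p.Prime := Fact.out
  obtain ⟨a, ha⟩ := hcyc.exists_generator
  have haP : ∀ y : G, y ∈ (P : Subgroup G) → ∃ i : ℤ, y = (a : G) ^ i := by
    intro y hy
    obtain ⟨i, hi⟩ := Subgroup.mem_zpowers_iff.1 (ha ⟨y, hy⟩)
    refine ⟨i, ?_⟩
    have := congrArg Subtype.val hi
    simpa using this.symm
  obtain ⟨n, hn⟩ := P.isPGroup'.exists_card_eq
  have hoa : orderOf (a : G) = p ^ n := by
    rw [Subgroup.orderOf_coe, ← hn]
    exact orderOf_eq_card_of_forall_mem_zpowers ha
  have hab : ∀ y ∈ (P : Subgroup G), ∀ z ∈ (P : Subgroup G), y * z = z * y := by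
    intro y hy z hz
    obtain ⟨i, rfl⟩ := haP y hy
    obtain ⟨j, rfl⟩ := haP z hz
    exact (Commute.refl (a : G)).zpow_zpow i j
  have hzero : ∀ i : ℤ, (a : G) ^ i = 1 ↔ (p : ℤ) ^ n ∣ i := by
    intro i
    rw [← orderOf_dvd_iff_zpow_eq_one, hoa]
    push_cast
    rfl
  constructor
  · intro hTI x hx hx1
    apply le_antisymm
    · intro c hc
      rw [Subgroup.mem_centralizer_singleton_iff] at hc
      have h1 := hTI c x hx hx1 (by
        have : c⁻¹ * x * c = x := by rw [mul_assoc, hc.symm]; group
        rw [this]; exact hx)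
      have hcN : c ∈ Subgroup.normalizer ((P : Subgroup G) : Set G) := mem_normalizer_iff_smul.2 h1
      obtain ⟨r, hr⟩ := haP (c * a * c⁻¹) ((Subgroup.mem_normalizer_iff.1 hcN a).1 a.2)
      obtain ⟨k, rfl⟩ := haP x hx
      have hconj : ∀ i : ℤ, c * (a : G) ^ i * c⁻¹ = (a : G) ^ (r * i) := by
        intro i
        rw [← conj_zpow, hr, ← zpow_mul]
      have h2 : (a : G) ^ (r * k - k) = 1 := by
        rw [zpow_sub, ← hconj, hc]
        group
      rw [hzero] at h2
      rw [Ne, hzero] at hx1
      have hpr : (p : ℤ) ∣ r - 1 := by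
        by_contra hnd
        apply hx1
        have hcop : IsCoprime ((p : ℤ) ^ n) (r - 1) := by
          apply IsCoprime.pow_left
          rw [Int.isCoprime_iff_gcd_eq_one]
          rw [← Int.isCoprime_iff_gcd_eq_one]
          exact (Prime.coprime_iff_not_dvd (Nat.prime_iff_prime_int.1 hp)).2 hnd
        have h3 : r * k - k = (r - 1) * k := by ring
        rw [h3] at h2
        exact hcop.dvd_of_dvd_mul_left h2
      have hconjn : ∀ m : ℕ, c ^ m * (a : G) * (c ^ m)⁻¹ = (a : G) ^ (r ^ m) := by
        intro m
        induction m with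
        | zero => simp
        | succ m ih =>
          have : c ^ (m + 1) * (a : G) * (c ^ (m + 1))⁻¹ = c * (c ^ m * a * (c ^ m)⁻¹) * c⁻¹ := by
            rw [pow_succ']; group
          rw [this, ih, hconj, pow_succ']
      -- c^(p^n) commutes with a
      have h3 : Commute (c ^ p ^ n) (a : G) := by
        have h4 : (a : G) ^ (r ^ p ^ n) = a := by
          have h5 : (a : G) ^ (r ^ p ^ n - 1 ^ p ^ n) = 1 := by
            rw [hzero]
            have := dvd_sub_pow_of_dvd_sub (R := ℤ) (p := p) (a := r) (b := 1) hpr n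
            exact (pow_dvd_pow _ (Nat.le_succ n)).trans this
          rw [one_pow, zpow_sub, zpow_one, mul_inv_eq_one] at h5
          exact h5
        have h5 := hconjn (p ^ n)
        rw [h4] at h5
        exact mul_inv_eq_iff_eq_mul.1 h5
      -- c^m commutes with a where m = index of P
      have h4 : Commute (c ^ (P : Subgroup G).index) (a : G) := by
        have h5 : c ^ (P : Subgroup G).index ∈ (P : Subgroup G) := by
          have h6 : IsPGroup p (Subgroup.zpowers (c ^ (P : Subgroup G).index)) := by
            rw [IsPGroup.iff_card]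
            have h7 : (c ^ (P : Subgroup G).index) ^ p ^ n = 1 := by
              rw [← pow_mul, ← hn, mul_comm, Subgroup.card_mul_index]
              exact pow_card_eq_one'
            obtain ⟨e, -, he⟩ := (Nat.dvd_prime_pow hp).1 (orderOf_dvd_of_pow_eq_one h7)
            exact ⟨e, by rw [Nat.card_zpowers, he]⟩
          have h7 : Subgroup.zpowers (c ^ (P : Subgroup G).index) ⊓
              Subgroup.normalizer ((P : Subgroup G) : Set G) =
              Subgroup.zpowers (c ^ (P : Subgroup G).index) ⊓ (P : Subgroup G) :=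
            h6.inf_normalizer_sylow P
          have h8 : c ^ (P : Subgroup G).index ∈ Subgroup.zpowers (c ^ (P : Subgroup G).index) ⊓
              Subgroup.normalizer ((P : Subgroup G) : Set G) :=
            ⟨Subgroup.mem_zpowers _, Subgroup.pow_mem _ hcN _⟩
          rw [h7] at h8
          exact h8.2
        exact hab _ h5 _ a.2
      have h5 : IsCoprime ((p : ℤ) ^ n) ((P : Subgroup G).index : ℤ) := by
        apply IsCoprime.pow_left
        rw [Nat.isCoprime_iff_coprime]
        exact (Nat.Prime.coprime_iff_not_dvd hp).2 P.not_dvd_index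
      obtain ⟨u, v, huv⟩ := h5
      have h6 : c = (c ^ p ^ n) ^ u * (c ^ (P : Subgroup G).index) ^ v := by
        rw [← zpow_natCast, ← zpow_natCast, ← zpow_mul, ← zpow_mul, ← zpow_add]
        have : ((p ^ n : ℕ) : ℤ) * u + ((P : Subgroup G).index : ℤ) * v = 1 := by
          push_cast
          linear_combination huv
        rw [this, zpow_one]
      have h7 : Commute c (a : G) := by
        rw [h6]
        exact (h3.zpow_left u).mul_left (h4.zpow_left v)
      rw [Subgroup.mem_centralizer_iff]
      intro y hy
      obtain ⟨i, rfl⟩ := haP y hy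
      exact ((h7.zpow_right i).eq).symm
    · apply Subgroup.centralizer_le
      rw [Set.singleton_subset_iff]
      exact hx
  · intro h g x hx hx1 hgx
    have hgx1 : g⁻¹ * x * g ≠ 1 := by
      intro h1
      apply hx1
      have : x = g * (g⁻¹ * x * g) * g⁻¹ := by group
      rw [this, h1]; group
    have h1 := h x hx hx1
    have h2 := h _ hgx hgx1
    -- conj g • P ≤ centralizer P
    have h3 : MulAut.conj g • (P : Subgroup G) ≤ Subgroup.centralizer ((P : Subgroup G) : Set G) := by
      rw [← h1]
      intro z hz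
      rw [mem_conj_smul] at hz
      rw [Subgroup.mem_centralizer_singleton_iff]
      have h4 := hab _ hz _ hgx
      have h5 : z * x = g * ((g⁻¹ * z * g) * (g⁻¹ * x * g)) * g⁻¹ := by group
      have h6 : x * z = g * ((g⁻¹ * x * g) * (g⁻¹ * z * g)) * g⁻¹ := by group
      rw [h5, h6, h4]
    have h4 : IsPGroup p (MulAut.conj g • (P : Subgroup G) : Subgroup G) := (g • P).isPGroup'
    have h5 : MulAut.conj g • (P : Subgroup G) ⊓ Subgroup.normalizer ((P : Subgroup G) : Set G) =
        MulAut.conj g • (P : Subgroup G) ⊓ (P : Subgroup G) := h4.inf_normalizer_sylow P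
    have h6 : MulAut.conj g • (P : Subgroup G) ≤ (P : Subgroup G) := by
      have h7 : MulAut.conj g • (P : Subgroup G) ≤ MulAut.conj g • (P : Subgroup G) ⊓
          Subgroup.normalizer ((P : Subgroup G) : Set G) := by
        refine le_inf le_rfl (h3.trans ?_)
        exact Subgroup.centralizer_le_normalizer _
      rw [h5] at h7
      exact h7.trans inf_le_right
    apply Subgroup.eq_of_le_of_card_ge h6
    rw [Nat.card_congr (Subgroup.equivSMul (MulAut.conj g) (P : Subgroup G)).toEquiv]

end Cfsg.Agent.S3985
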