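import Cfsg.Statements.S3987
import Cfsg.Agent.Lib.H69.SylowFactor
import Cfsg.Agent.Lib.H18.CharInd

set_option autoImplicit false
open Cfsg

namespace Cfsg.Agent.S3987

/-- Let p be a prime and G a finite group. Then some Sylow p-subgroup of G is a direct factor of G (normal with a normal complement) if and only if for every element x of p-power order and every element y whose order is a power of a prime other than p, the conjugacy class of x y has as many elements as the product of the sizes of the classes of x and of y. -/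
theorem result {G : Type*} [Group G] [Finite G] (p : ℕ) [Fact p.Prime] : (∃ (P : Sylow p G) (K : Subgroup G), (P : Subgroup G).Normal ∧ K.Normal ∧ (P : Subgroup G) ⊓ K = ⊥ ∧ (P : Subgroup G) ⊔ K = ⊤) ↔ ∀ x y : G, (∃ a : ℕ, orderOf x = p ^ a) → (∃ q b : ℕ, q.Prime ∧ q ≠ p ∧ orderOf y = q ^ b) → (Subgroup.centralizer ({x * y} : Set G)).index = (Subgroup.centralizer ({x} : Set G)).index * (Subgroup.centralizer ({y} : Set G)).index := by
  constructor
  · rintro ⟨P, K, hP, hK, h1, h2⟩ x y hx hy
    have hxP := H69.SylowFactor.mem_left P hP x hx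
    have hyK := H69.SylowFactor.mem_right P K hK h1 h2 y hy
    have hcomm : ∀ a ∈ (P : Subgroup G), ∀ b ∈ K, a * b = b * a := fun a ha b hb =>
      Subgroup.commute_of_normal_of_disjoint _ _ hP hK (disjoint_iff.2 h1) a b ha hb
    have hC : Subgroup.centralizer ({x * y} : Set G) =
        Subgroup.centralizer ({x} : Set G) ⊓ Subgroup.centralizer ({y} : Set G) := by
      ext g
      rw [Subgroup.mem_inf, Subgroup.mem_centralizer_singleton_iff,
        Subgroup.mem_centralizer_singleton_iff, Subgroup.mem_centralizer_singleton_iff]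
      constructor
      · intro hg
        -- g x g⁻¹ · g y g⁻¹ = x y
        have h3 : x⁻¹ * (g * x * g⁻¹) = y * (g * y * g⁻¹)⁻¹ := by
          have : (g * x * g⁻¹) * (g * y * g⁻¹) = x * y := by
            calc (g * x * g⁻¹) * (g * y * g⁻¹) = (g * (x * y)) * g⁻¹ := by group
              _ = x * y := by rw [hg]; group
          calc x⁻¹ * (g * x * g⁻¹) = x⁻¹ * ((g * x * g⁻¹) * (g * y * g⁻¹)) * (g * y * g⁻¹)⁻¹ := by group
            _ = y * (g * y * g⁻¹)⁻¹ := by rw [this]; group
        have h4 : x⁻¹ * (g * x * g⁻¹) ∈ (P : Subgroup G) ⊓ K := by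
          refine Subgroup.mem_inf.2 ⟨mul_mem (inv_mem hxP) (hP.conj_mem x hxP g), ?_⟩
          have h5 : y * (g * y * g⁻¹)⁻¹ ∈ K := mul_mem hyK (inv_mem (hK.conj_mem y hyK g))
          change x⁻¹ * (g * x * g⁻¹) ∈ K
          rw [h3]
          exact h5
        rw [h1, Subgroup.mem_bot] at h4
        have h5 : g * x * g⁻¹ = x := (inv_mul_eq_one.1 h4).symm
        rw [h4] at h3
        have h6 : g * y * g⁻¹ = y := (mul_inv_eq_one.1 h3.symm).symm
        exact ⟨mul_inv_eq_iff_eq_mul.1 h5, mul_inv_eq_iff_eq_mul.1 h6⟩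
      · rintro ⟨h3, h4⟩
        rw [← mul_assoc, h3, mul_assoc, h4, mul_assoc]
    rw [hC]
    have hKx : K ≤ Subgroup.centralizer ({x} : Set G) := by
      intro b hb
      rw [Subgroup.mem_centralizer_singleton_iff]
      exact (hcomm x hxP b hb).symm
    have hPy : (P : Subgroup G) ≤ Subgroup.centralizer ({y} : Set G) := by
      intro a ha
      rw [Subgroup.mem_centralizer_singleton_iff]
      exact hcomm a ha y hyK
    have hcomp : Subgroup.IsComplement' K (P : Subgroup G) := by
      apply Subgroup.isComplement'_of_disjoint_and_mul_eq_univ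
      · rw [disjoint_iff, inf_comm]; exact h1
      · rw [← Subgroup.normal_mul, sup_comm, h2]
        rfl
    have hidx : K.index = Nat.card (P : Subgroup G) := hcomp.symm.index_eq_card
    have hcop : Nat.Coprime (Subgroup.centralizer ({x} : Set G)).index (Subgroup.centralizer ({y} : Set G)).index := by
      apply Nat.Coprime.coprime_dvd_left (Subgroup.index_dvd_of_le hKx)
      apply Nat.Coprime.coprime_dvd_right (Subgroup.index_dvd_of_le hPy)
      rw [hidx]
      exact P.card_coprime_index
    apply le_antisymm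
    · exact Subgroup.index_inf_le
    · apply Nat.le_of_dvd
      · exact Nat.pos_of_ne_zero Subgroup.FiniteIndex.index_ne_zero
      · exact Nat.Coprime.mul_dvd_of_dvd_of_dvd hcop (Subgroup.index_dvd_of_le inf_le_left)
          (Subgroup.index_dvd_of_le inf_le_right)
  · intro h
    apply H69.SylowFactor.direct_factor_of_commute p
    intro x y hx hy
    have h1 := h x y hx hy
    rw [← H18.CharInd.card_isConj_eq_index, ← H18.CharInd.card_isConj_eq_index,
      ← H18.CharInd.card_isConj_eq_index] at h1
    let X : Set G := {z | IsConj x z}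
    let Y : Set G := {z | IsConj y z}
    let Z : Set G := {z | IsConj (x * y) z}
    have h2 : Z.ncard = X.ncard * Y.ncard := h1
    have hsub : Z ⊆ (fun q : G × G => q.1 * q.2) '' (X ×ˢ Y) := by
      intro z hz
      obtain ⟨c, hc⟩ := isConj_iff.1 hz
      refine ⟨(c * x * c⁻¹, c * y * c⁻¹), ⟨isConj_iff.2 ⟨c, rfl⟩, isConj_iff.2 ⟨c, rfl⟩⟩, ?_⟩
      change (c * x * c⁻¹) * (c * y * c⁻¹) = z
      rw [← hc]; group
    have h3 : (X ×ˢ Y).ncard ≤ ((fun q : G × G => q.1 * q.2) '' (X ×ˢ Y)).ncard := by
      rw [Set.ncard_prod, ← h2]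
      exact Set.ncard_le_ncard hsub (Set.toFinite _)
    have h4 : Set.InjOn (fun q : G × G => q.1 * q.2) (X ×ˢ Y) := by
      apply Set.injOn_of_ncard_image_eq _ (Set.toFinite _)
      exact le_antisymm (Set.ncard_image_le (Set.toFinite _)) h3
    have h5 : ((x * y) * x * (x * y)⁻¹, (x * y) * y * (x * y)⁻¹) = (x, y) := by
      apply h4
      · exact ⟨isConj_iff.2 ⟨x * y, rfl⟩, isConj_iff.2 ⟨x * y, rfl⟩⟩
      · exact ⟨IsConj.refl x, IsConj.refl y⟩
      · change (x * y) * x * (x * y)⁻¹ * ((x * y) * y * (x * y)⁻¹) = x * y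
        group
    have h6 : (x * y) * x * (x * y)⁻¹ = x := congrArg Prod.fst h5
    have h7 : (x * y) * x = x * (x * y) := mul_inv_eq_iff_eq_mul.1 h6
    rw [mul_assoc] at h7
    exact (mul_left_cancel h7).symm

end Cfsg.Agent.S3987
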