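import Cfsg.Statements.S4009
import Cfsg.Agent.Lib.H82.DLen2

set_option autoImplicit false
open Cfsg

namespace Cfsg.Agent.S4009

/-- Let P be a finite p-group of order p^n whose derived length is exactly k + 1 (the k-th derived subgroup is nontrivial and the (k+1)-st is trivial). Then n ≥ 2^k + 2k − 2. -/
theorem result {P : Type*} [Group P] [Finite P] (p : ℕ) [Fact p.Prime] (n k : ℕ) (hcard : Nat.card P = p ^ n) (hk : derivedSeries P k ≠ ⊥) (hk' : derivedSeries P (k + 1) = ⊥) : 2 ^ k + 2 * k ≤ n + 2 := by
  exact H82.DLen.result (IsPGroup.of_card hcard) hcard hk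

end Cfsg.Agent.S4009
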