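import Cfsg.Statements.S4013
import Cfsg.Agent.Lib.H70.Basic

set_option autoImplicit false
open Cfsg

namespace Cfsg.Agent.S4013

/-- Let G be a finite p-group (p prime) and N < M normal subgroups of G such that for some g ∈ M ∖ N the conjugacy class of g is exactly M ∖ N. Then p = 2 and N has index 2 in M. -/
theorem result {G : Type*} [Group G] [Finite G] (p : ℕ) [Fact p.Prime] (hG : IsPGroup p G) (N M : Subgroup G) [N.Normal] [M.Normal] (hNM : N < M) (g : G) (hgM : g ∈ M) (hgN : g ∉ N) (hcl : {h : G | IsConj g h} = (M : Set G) \ (N : Set G)) : p = 2 ∧ N.relIndex M = 2 := by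
  have hp := (Fact.out : p.Prime)
  obtain ⟨n, hn⟩ := hG.exists_card_eq
  have h1 := H70.Basic.ncard_class_dvd g
  rw [hcl, H70.Basic.ncard_sdiff N M hNM.le] at h1
  have h2 : Nat.card N * N.relIndex M = Nat.card M := by
    rw [Subgroup.relIndex, ← Subgroup.card_mul_index (N.subgroupOf M)]
    congr 1
    exact (Nat.card_congr (Subgroup.subgroupOfEquivOfLe hNM.le).toEquiv).symm
  have h3 : Nat.card N * (N.relIndex M - 1) = Nat.card M - Nat.card N := by
    rw [Nat.mul_sub, h2, mul_one]
  have h4 : N.relIndex M - 1 ∣ p ^ n := by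
    rw [← hn]
    exact (Dvd.intro_left _ h3).trans h1
  have h5 : N.relIndex M ∣ p ^ n := by
    rw [← hn]
    exact (Dvd.intro_left _ h2).trans (Subgroup.card_subgroup_dvd_card M)
  obtain ⟨a, -, ha⟩ := (Nat.dvd_prime_pow hp).mp h5
  obtain ⟨b, -, hb⟩ := (Nat.dvd_prime_pow hp).mp h4
  have hne : N.relIndex M ≠ 1 := by
    rw [Ne, Subgroup.relIndex_eq_one]
    exact fun h => absurd h (not_le_of_gt hNM)
  have ha0 : a ≠ 0 := by
    rintro rfl
    exact hne (by simpa using ha)
  have hpa : p ∣ p ^ a := dvd_pow_self p ha0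
  have hb0 : b = 0 := by
    by_contra hb0
    have hpb : p ∣ p ^ b := dvd_pow_self p hb0
    rw [← ha] at hpa
    rw [← hb] at hpb
    have hpos : 1 ≤ N.relIndex M := by rw [ha]; exact Nat.one_le_pow _ _ hp.pos
    have := (Nat.dvd_sub hpa hpb)
    rw [Nat.sub_sub_self hpos] at this
    exact hp.one_lt.ne' (Nat.dvd_one.mp this)
  rw [hb0, pow_zero] at hb
  have hr : N.relIndex M = 2 := by omega
  refine ⟨?_, hr⟩
  rw [hr] at ha
  rw [← ha] at hpa
  exact (Nat.prime_dvd_prime_iff_eq hp Nat.prime_two).mp hpa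

end Cfsg.Agent.S4013
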