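import Cfsg.Statements.S4027
import Cfsg.Agent.Lib.H70.NoReal

set_option autoImplicit false
open Cfsg

namespace Cfsg.Agent.S4027

/-- Let G be a finite group in which every element x of odd order satisfies N_G(⟨x⟩) = C_G(x). Then the Sylow 2-subgroups of G are normal. -/
theorem result {G : Type*} [Group G] [Finite G]
    (hirr : ∀ x : G, (∀ r : ℕ, r.Prime → r ∣ orderOf x → r ≠ 2) →
      Subgroup.normalizer ((Subgroup.zpowers x : Subgroup G) : Set G) ≤ Subgroup.centralizer {x}) (P : Sylow 2 G) :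
    (P : Subgroup G).Normal := by
  refine H70.NoReal.sylow_normal (fun x t hx ht => ?_) P
  have h1 : ∀ r : ℕ, r.Prime → r ∣ orderOf x → r ≠ 2 := by
    rintro r hr hrd rfl
    exact (Nat.Prime.coprime_iff_not_dvd Nat.prime_two).mp hx.symm hrd
  have h2 := hirr x h1 (H70.Real.mem_normalizer_zpowers_of_inv ht)
  rw [Subgroup.mem_centralizer_singleton_iff] at h2
  have h3 : t * x * t⁻¹ = x := by rw [h2]; group
  rw [ht] at h3
  have h4 : x ^ 2 = 1 := by
    rw [sq]
    calc x * x = x⁻¹ * x := by rw [h3]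
      _ = 1 := inv_mul_cancel x
  have h5 : orderOf x ∣ 2 := orderOf_dvd_of_pow_eq_one h4
  rw [← orderOf_eq_one_iff]
  exact Nat.eq_one_of_dvd_coprimes hx dvd_rfl h5

end Cfsg.Agent.S4027
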