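import Cfsg.Statements.S4028
import Cfsg.Agent.Lib.H70.Real

set_option autoImplicit false
open Cfsg

namespace Cfsg.Agent.S4028

open Subgroup in
/-- Let G be a finite group with Sylow 2-subgroup P. Then N_G(⟨x⟩) = C_G(x) holds for every 2-element x of G if and only if N_P(⟨y⟩) = C_P(y) holds for every y ∈ P (computed inside P). -/
theorem result {G : Type*} [Group G] [Finite G] (P : Sylow 2 G) :
    (∀ x : G, (∀ r : ℕ, r.Prime → r ∣ orderOf x → r = 2) →
      Subgroup.normalizer ((Subgroup.zpowers x : Subgroup G) : Set G) ≤ Subgroup.centralizer {x}) ↔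
    (∀ y : ↥(P : Subgroup G), Subgroup.normalizer ((Subgroup.zpowers y : Subgroup ↥(P : Subgroup G)) : Set ↥(P : Subgroup G)) ≤
        Subgroup.centralizer {y}) := by
  constructor
  · intro h y n hn
    have h1 : n * y * n⁻¹ ∈ zpowers y := H70.Real.mem_normalizer_zpowers_iff.mp hn
    have h2 : (n : G) * y * (n : G)⁻¹ ∈ zpowers (y : G) := by
      obtain ⟨k, hk⟩ := mem_zpowers_iff.mp h1
      rw [mem_zpowers_iff]
      refine ⟨k, ?_⟩
      have := congrArg Subtype.val hk
      simpa using this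
    have h3 := h (y : G) ?_ (H70.Real.mem_normalizer_zpowers_iff.mpr h2)
    · rw [mem_centralizer_singleton_iff] at h3 ⊢
      exact Subtype.ext h3
    · intro r hr hdvd
      obtain ⟨k, hk⟩ := (IsPGroup.iff_orderOf.mp P.isPGroup') y
      rw [Subgroup.orderOf_coe, hk] at hdvd
      exact (Nat.prime_dvd_prime_iff_eq hr Nat.prime_two).mp (hr.dvd_of_dvd_pow hdvd)
  · intro h x hx n hn
    obtain ⟨k, hk⟩ := H70.Real.orderOf_eq_pow_of_forall hx
    obtain ⟨a, b, hab, ⟨j, hj⟩, hb⟩ := H70.Real.exists_decomp 2 Nat.prime_two n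
    rw [← hab]
    refine mul_mem ?_ (H70.Real.mem_centralizer_of_odd hk (pow_mem hn b) hb)
    set m := n ^ a with hm
    have hmn : m ∈ normalizer ((zpowers x : Subgroup G) : Set G) := pow_mem hn a
    have hX : IsPGroup 2 (zpowers x) := by
      apply IsPGroup.of_card (n := k)
      rw [Nat.card_zpowers, hk]
    have hM : IsPGroup 2 (zpowers m) := by
      apply IsPGroup.of_card (n := j)
      rw [Nat.card_zpowers, hj]
    have hsup : IsPGroup 2 ((zpowers x ⊔ zpowers m : Subgroup G)) :=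
      IsPGroup.to_sup_of_normal_left' hX hM (by rw [zpowers_le]; exact hmn)
    obtain ⟨Q, hQ⟩ := hsup.exists_le_sylow
    obtain ⟨g, hg⟩ := MulAction.exists_smul_eq G Q P
    have hc : ∀ y ∈ (Q : Subgroup G), g * y * g⁻¹ ∈ (P : Subgroup G) := by
      intro y hy
      rw [← hg, Sylow.coe_subgroup_smul]
      exact ⟨y, hy, by simp⟩
    have hxQ : x ∈ (Q : Subgroup G) := hQ ((le_sup_left : zpowers x ≤ _) (mem_zpowers x))
    have hmQ : m ∈ (Q : Subgroup G) := hQ ((le_sup_right : zpowers m ≤ _) (mem_zpowers m))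
    have h1 := h ⟨g * x * g⁻¹, hc x hxQ⟩ (x := ⟨g * m * g⁻¹, hc m hmQ⟩) ?_
    · rw [mem_centralizer_singleton_iff] at h1 ⊢
      have h2 := congrArg Subtype.val h1
      simp only [MulMemClass.mk_mul_mk] at h2
      have h3 : g * (m * x) * g⁻¹ = g * (x * m) * g⁻¹ := by
        calc g * (m * x) * g⁻¹ = g * m * g⁻¹ * (g * x * g⁻¹) := by group
          _ = g * x * g⁻¹ * (g * m * g⁻¹) := h2
          _ = g * (x * m) * g⁻¹ := by group
      exact mul_left_cancel (mul_right_cancel h3)
    · rw [H70.Real.mem_normalizer_zpowers_iff]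
      obtain ⟨l, hl⟩ := mem_zpowers_iff.mp (H70.Real.mem_normalizer_zpowers_iff.mp hmn)
      rw [mem_zpowers_iff]
      refine ⟨l, Subtype.ext ?_⟩
      simp only [SubgroupClass.coe_zpow, conj_zpow, hl, MulMemClass.coe_mul,
        InvMemClass.coe_inv]
      group

end Cfsg.Agent.S4028
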