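import Cfsg.Statements.S4032
import Cfsg.Agent.Lib.H70.SylowSub

set_option autoImplicit false
open Cfsg

namespace Cfsg.Agent.S4032

open Subgroup in
/-- Let π be a set of primes and G a finite group in which N_G(⟨x⟩) = C_G(x) for every π-element x. If N is a normal subgroup of G whose order is divisible by no prime of π, then G/N has the same property: N_{G/N}(⟨y⟩) = C_{G/N}(y) for every π-element y of G/N. -/
theorem result {G : Type*} [Group G] [Finite G] (π : Set ℕ)
    (hirr : ∀ x : G, (∀ r : ℕ, r.Prime → r ∣ orderOf x → r ∈ π) →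
      Subgroup.normalizer ((Subgroup.zpowers x : Subgroup G) : Set G) ≤ Subgroup.centralizer {x})
    (N : Subgroup G) [N.Normal] (hN : ∀ r : ℕ, r.Prime → r ∣ Nat.card N → r ∉ π) :
    ∀ y : G ⧸ N, (∀ r : ℕ, r.Prime → r ∣ orderOf y → r ∈ π) →
      Subgroup.normalizer ((Subgroup.zpowers y : Subgroup (G ⧸ N)) : Set (G ⧸ N)) ≤ Subgroup.centralizer {y} := by
  intro y hy gb hgb
  rw [mem_centralizer_singleton_iff]
  have hy1 : y ∈ centralizer ({gb} : Set (G ⧸ N)) := by
    refine H70.SylowSub.mem_of_parts (centralizer ({gb} : Set (G ⧸ N))) (orderOf y) y rfl ?_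
    intro z hz ⟨r, k, hr, hk⟩
    rw [mem_centralizer_singleton_iff]
    -- gb normalizes ⟨z⟩
    have hgz : gb * z * gb⁻¹ ∈ zpowers z := by
      obtain ⟨j, rfl⟩ := mem_zpowers_iff.mp hz
      obtain ⟨l, hl⟩ := mem_zpowers_iff.mp (H70.Real.mem_normalizer_zpowers_iff.mp hgb)
      rw [mem_zpowers_iff]
      refine ⟨l, ?_⟩
      rw [← conj_zpow, ← hl, ← zpow_mul, ← zpow_mul, mul_comm]
    by_cases hz1 : z = 1
    · rw [hz1]; simp
    have hk0 : k ≠ 0 := by
      rintro rfl
      rw [pow_zero, orderOf_eq_one_iff] at hk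
      exact hz1 hk
    have hrπ : r ∈ π := by
      apply hy r hr
      have h1 : orderOf z ∣ orderOf y := orderOf_dvd_of_mem_zpowers hz
      exact (dvd_trans (by rw [hk]; exact dvd_pow_self r hk0) h1)
    have hrN : ¬ r ∣ Nat.card N := fun h => hN r hr h hrπ
    haveI : Fact r.Prime := ⟨hr⟩
    obtain ⟨x, hx, j, hj⟩ := H70.SylowSub.exists_lift (QuotientGroup.mk' N)
      (QuotientGroup.mk'_surjective N) hr hk
    obtain ⟨g, rfl⟩ := QuotientGroup.mk'_surjective N gb
    -- g normalizes zpowers x ⊔ N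
    have hH : (zpowers z).comap (QuotientGroup.mk' N) = zpowers x ⊔ N := by
      rw [← hx, ← MonoidHom.map_zpowers, Subgroup.comap_map_eq, QuotientGroup.ker_mk']
    have hgH : g ∈ normalizer ((zpowers x ⊔ N : Subgroup G) : Set G) := by
      rw [← hH]
      apply Subgroup.le_normalizer_comap
      rw [mem_comap]
      exact H70.Real.mem_normalizer_zpowers_iff.mpr hgz
    have hX : IsPGroup r (zpowers x) := by
      apply IsPGroup.of_card (n := j)
      rw [Nat.card_zpowers, hj]
    obtain ⟨u, huH, hu⟩ := H70.SylowSub.exists_conj_of_normalizer (p := r)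
      (zpowers x ⊔ N) (zpowers x) le_sup_left hX
      (fun h => hrN (h.trans (H70.SylowSub.relIndex_sup_dvd _ _))) hgH
    have hxπ : ∀ s : ℕ, s.Prime → s ∣ orderOf x → s ∈ π := by
      intro s hs hsx
      rw [hj] at hsx
      rw [(Nat.prime_dvd_prime_iff_eq hs hr).mp (hs.dvd_of_dvd_pow hsx)]
      exact hrπ
    have h1 := hirr x hxπ hu
    rw [mem_centralizer_singleton_iff] at h1
    rw [← hH, mem_comap] at huH
    have h2 : QuotientGroup.mk' N u * z = z * QuotientGroup.mk' N u := by
      obtain ⟨i, hi⟩ := mem_zpowers_iff.mp huH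
      rw [← hi, ← zpow_add_one, ← zpow_one_add, add_comm]
    have h3 : QuotientGroup.mk' N (u * g) * z = z * QuotientGroup.mk' N (u * g) := by
      rw [← hx, ← map_mul, h1, map_mul]
    rw [map_mul] at h3
    have h4 : QuotientGroup.mk' N u * (QuotientGroup.mk' N g * z)
        = QuotientGroup.mk' N u * (z * QuotientGroup.mk' N g) := by
      rw [← mul_assoc, h3, ← mul_assoc, ← mul_assoc, h2]
    exact (mul_left_cancel h4).symm
  exact (mem_centralizer_singleton_iff.mp hy1).symm

end Cfsg.Agent.S4032
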