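import Cfsg.Statements.S4033
import Mathlib
import Cfsg.Agent.Lib.H70.RegG
import Cfsg.Agent.Lib.H70.Basic
import Cfsg.Agent.Lib.H70.PiSep

set_option autoImplicit false
open Cfsg

namespace Cfsg.Agent.S4033

open Subgroup H70.RegT

universe u

/-- central `{p, q}'`-elements -/
def cen (n : ℕ) (G : Type*) [Group G] : Subgroup G where
  carrier := {z | z ∈ center G ∧ (orderOf z).Coprime n}
  one_mem' := ⟨one_mem _, by simp⟩
  mul_mem' := by
    rintro a b ⟨ha, ha'⟩ ⟨hb, hb'⟩
    exact ⟨mul_mem ha hb, Nat.Coprime.coprime_dvd_left (commute_of_center ha b).orderOf_mul_dvd_mul_orderOf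
      (Nat.Coprime.mul_left ha' hb')⟩
  inv_mem' := by
    rintro a ⟨ha, ha'⟩
    exact ⟨inv_mem ha, by rwa [orderOf_inv]⟩

theorem alt2 {G : Type u} [Group G] [Finite G] {p q : ℕ} (hp : p.Prime) (hq : q.Prime) (hqp : q ≠ p)
    (h : ∀ r : ℕ, r.Prime → r ≠ p → r ≠ q → ∀ y : G, (∃ k : ℕ, y ^ (r ^ k) = 1) → y ∈ center G) :
    ∃ (q : ℕ) (_ : Fact q.Prime) (P : Sylow p G) (Q : Sylow q G) (A : Subgroup G), q ≠ p ∧
        A ≤ Subgroup.center G ∧ Nat.card ↥((P : Subgroup G) ⊔ (Q : Subgroup G)) = Nat.card P * Nat.card Q ∧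
        ((P : Subgroup G) ⊔ (Q : Subgroup G)).Normal ∧
        ((P : Subgroup G) ⊔ (Q : Subgroup G)) ⊓ A = ⊥ ∧ ((P : Subgroup G) ⊔ (Q : Subgroup G)) ⊔ A = ⊤ := by
  haveI : Fact p.Prime := ⟨hp⟩
  haveI : Fact q.Prime := ⟨hq⟩
  obtain ⟨P⟩ : Nonempty (Sylow p G) := inferInstance
  obtain ⟨Q⟩ : Nonempty (Sylow q G) := inferInstance
  set A := cen (p * q) G with hA
  have hAc : A ≤ center G := fun z hz => hz.1
  have hcardA : ∀ r : ℕ, r.Prime → r ∣ Nat.card A → r ≠ p ∧ r ≠ q := by
    intro r hr hrA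
    haveI : Fact r.Prime := ⟨hr⟩
    obtain ⟨z, hz⟩ := exists_prime_orderOf_dvd_card' r hrA
    have h1 : (orderOf (z : G)).Coprime (p * q) := z.2.2
    rw [Subgroup.orderOf_coe, hz] at h1
    have h2 := Nat.Coprime.coprime_mul_right_right h1
    have h3 := Nat.Coprime.coprime_mul_left_right h1
    constructor
    · rintro rfl; exact hr.one_lt.ne' ((Nat.coprime_self _).mp h2)
    · rintro rfl; exact hr.one_lt.ne' ((Nat.coprime_self _).mp h3)
  have hindA : ∀ r : ℕ, r.Prime → r ∣ A.index → r = p ∨ r = q := by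
    intro r hr hrA
    by_contra hcon
    push Not at hcon
    haveI : Fact r.Prime := ⟨hr⟩
    obtain ⟨R⟩ : Nonempty (Sylow r G) := inferInstance
    have h1 : (R : Subgroup G) ≤ A := by
      intro z hz
      obtain ⟨k, hk⟩ := (isPGroup_iff_pow (R : Subgroup G)).mp R.2 z hz
      exact ⟨h r hr hcon.1 hcon.2 z ⟨k, hk⟩, Nat.Coprime.mul_right (coprime_of_pow hp hr hcon.1 hk)
        (coprime_of_pow hq hr hcon.2 hk)⟩
    exact R.not_dvd_index (hrA.trans (Subgroup.index_dvd_of_le h1))
  haveI : A.Normal := by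
    constructor
    intro z hz g
    have : g * z * g⁻¹ = z := by rw [← (commute_of_center (hAc hz) g).eq]; group
    rw [this]; exact hz
  have hcop : (Nat.card A).Coprime A.index := by
    rw [Nat.coprime_iff_gcd_eq_one]
    by_contra hne
    obtain ⟨r, hr, hrd⟩ := Nat.exists_prime_and_dvd hne
    obtain ⟨h1, h2⟩ := hcardA r hr (hrd.trans (Nat.gcd_dvd_left _ _))
    rcases hindA r hr (hrd.trans (Nat.gcd_dvd_right _ _)) with h3 | h3
    · exact h1 h3
    · exact h2 h3
  obtain ⟨K, hK⟩ := Subgroup.exists_right_complement'_of_coprime hcop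
  have hKc : Nat.card K = A.index := hK.symm.index_eq_card.symm
  have hKi : K.index = Nat.card A := hK.index_eq_card
  haveI hKn : K.Normal := by
    constructor
    intro n hn g
    have hg : g ∈ A ⊔ K := by rw [hK.sup_eq_top]; exact mem_top _
    obtain ⟨a, ha, k, hk, rfl⟩ := Subgroup.mem_sup_of_normal_left.mp hg
    have h1 : a * k * n * (a * k)⁻¹ = k * n * k⁻¹ := by
      have h2 : a * k * n * (a * k)⁻¹ = a * (k * n * k⁻¹) * a⁻¹ := by group
      rw [h2, (commute_of_center (hAc ha) (k * n * k⁻¹)).eq]; group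
    rw [h1]
    exact mul_mem (mul_mem hk hn) (inv_mem hk)
  have hle : ∀ r : ℕ, r.Prime → (r = p ∨ r = q) → ∀ y : G, (∃ k : ℕ, y ^ (r ^ k) = 1) → y ∈ K := by
    rintro r hr hrpq y ⟨k, hk⟩
    have h1 : (orderOf (QuotientGroup.mk y : G ⧸ K)) ∣ r ^ k := by
      apply orderOf_dvd_of_pow_eq_one
      rw [← QuotientGroup.mk_pow, hk]; rfl
    have h2 : (orderOf (QuotientGroup.mk y : G ⧸ K)) ∣ Nat.card A := by
      rw [← hKi, Subgroup.index_eq_card]; exact orderOf_dvd_natCard _
    have h3 : (r ^ k).Coprime (Nat.card A) := by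
      apply Nat.Coprime.pow_left
      rw [Nat.Prime.coprime_iff_not_dvd hr]
      intro h4
      obtain ⟨h5, h6⟩ := hcardA r hr h4
      rcases hrpq with h7 | h7
      · exact h5 h7
      · exact h6 h7
    have h4 := Nat.eq_one_of_dvd_coprimes h3 h1 h2
    rw [orderOf_eq_one_iff, QuotientGroup.eq_one_iff] at h4
    exact h4
  have hPK : (P : Subgroup G) ≤ K := fun y hy =>
    hle p hp (Or.inl rfl) y ((isPGroup_iff_pow (P : Subgroup G)).mp P.2 y hy)
  have hQK : (Q : Subgroup G) ≤ K := fun y hy =>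
    hle q hq (Or.inr rfl) y ((isPGroup_iff_pow (Q : Subgroup G)).mp Q.2 y hy)
  have hPQ : (P : Subgroup G) ⊔ (Q : Subgroup G) = K := by
    apply le_antisymm (sup_le hPK hQK)
    rw [← Subgroup.relIndex_eq_one]
    by_contra hne
    obtain ⟨r, hr, hrd⟩ := Nat.exists_prime_and_dvd hne
    have h1 : r ∣ Nat.card K := hrd.trans (Subgroup.relIndex_dvd_card _ _)
    rw [hKc] at h1
    have hi : ∀ {s : ℕ} (S : Sylow s G), (S : Subgroup G) ≤ (P : Subgroup G) ⊔ (Q : Subgroup G) →
        ((P : Subgroup G) ⊔ (Q : Subgroup G)).relIndex K ∣ (S : Subgroup G).index := by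
      intro s S hS
      have h2 : ((P : Subgroup G) ⊔ (Q : Subgroup G)).relIndex K ∣ ((P : Subgroup G) ⊔ (Q : Subgroup G)).index :=
        Subgroup.relIndex_dvd_index_of_le (sup_le hPK hQK)
      exact h2.trans (Subgroup.index_dvd_of_le hS)
    rcases hindA r hr h1 with rfl | rfl
    · exact P.not_dvd_index (hrd.trans (hi P le_sup_left))
    · exact Q.not_dvd_index (hrd.trans (hi Q le_sup_right))
  have hcard : Nat.card K = Nat.card P * Nat.card Q := by
    have hPQc : (Nat.card P).Coprime (Nat.card Q) := by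
      rw [Sylow.card_eq_multiplicity P, Sylow.card_eq_multiplicity Q]
      exact Nat.Coprime.pow _ _ ((Nat.coprime_primes hp hq).mpr (Ne.symm hqp))
    have h1 : Nat.card P * Nat.card Q ∣ Nat.card K :=
      Nat.Coprime.mul_dvd_of_dvd_of_dvd hPQc (Subgroup.card_dvd_of_le hPK) (Subgroup.card_dvd_of_le hQK)
    obtain ⟨m, hm⟩ := h1
    have hm1 : m = 1 := by
      by_contra hne
      obtain ⟨r, hr, ⟨l, hl⟩⟩ := Nat.exists_prime_and_dvd hne
      have h2 : r ∣ Nat.card K := by
        rw [hm, hl]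
        exact ⟨Nat.card P * Nat.card Q * l, by ring⟩
      rw [hKc] at h2
      have hKG : Nat.card K ∣ Nat.card G := Subgroup.card_subgroup_dvd_card K
      rcases hindA r hr h2 with rfl | rfl
      · apply P.not_dvd_index
        have h3 : Nat.card P * r ∣ Nat.card P * (P : Subgroup G).index := by
          rw [Subgroup.card_mul_index]
          refine dvd_trans ?_ hKG
          rw [hm, hl]
          exact ⟨Nat.card Q * l, by ring⟩
        exact Nat.dvd_of_mul_dvd_mul_left Nat.card_pos h3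
      · apply Q.not_dvd_index
        have h3 : Nat.card Q * r ∣ Nat.card Q * (Q : Subgroup G).index := by
          rw [Subgroup.card_mul_index]
          refine dvd_trans ?_ hKG
          rw [hm, hl]
          exact ⟨Nat.card P * l, by ring⟩
        exact Nat.dvd_of_mul_dvd_mul_left Nat.card_pos h3
    rw [hm, hm1, mul_one]
  refine ⟨q, ⟨hq⟩, P, Q, A, hqp, hAc, ?_, ?_, ?_, ?_⟩
  · rw [hPQ, hcard]
  · rw [hPQ]; exact hKn
  · rw [hPQ, inf_comm]; exact disjoint_iff.mp hK.disjoint
  · rw [hPQ, sup_comm]; exact hK.sup_eq_top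

theorem alt1 {G : Type u} [Group G] [Finite G] {p : ℕ} (hp : p.Prime) (hA : HA p G) {x : G} (hx : X p x)
    (h : ∀ q : ℕ, q.Prime → q ≠ p →
      (Nat.card (centralizer ({x} : Set G))).factorization q = (Nat.card G).factorization q) :
    ∃ H : Subgroup G, IsMulCommutative H ∧ ¬ p ∣ Nat.card H ∧ ∃ k : ℕ, H.index = p ^ k := by
  refine ⟨Hs p x, ?_, ?_, ?_⟩
  · constructor
    constructor
    rintro ⟨a, ha⟩ ⟨b, hb⟩
    apply Subtype.ext
    exact (ha.2 b (hb.2 x (Commute.refl x)).symm).eq
  · intro hd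
    haveI : Fact p.Prime := ⟨hp⟩
    obtain ⟨z, hz⟩ := exists_prime_orderOf_dvd_card' p hd
    have h1 : (orderOf (z : G)).Coprime p := z.2.1
    rw [Subgroup.orderOf_coe, hz] at h1
    exact hp.one_lt.ne' ((Nat.coprime_self _).mp h1)
  · refine ⟨_, Nat.eq_prime_pow_of_unique_prime_dvd Subgroup.index_ne_zero_of_finite ?_⟩
    intro q hq hqd
    by_contra hqp
    have h1 : T q x ≤ Hs p x := by
      rintro y ⟨⟨k, hk⟩, h2⟩
      exact ⟨coprime_of_pow hp hq hqp hk, h2⟩
    have h2 := hqd.trans (Subgroup.index_dvd_of_le h1)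
    have h3 := hA.card_T hp hq hqp hx.1 hx.2
    rw [h q hq hqp] at h3
    have h4 := Subgroup.card_mul_index (T q x)
    rw [h3] at h4
    have h5 : q ^ (Nat.card G).factorization q * q ∣ q ^ (Nat.card G).factorization q * (T q x).index :=
      Nat.mul_dvd_mul_left _ h2
    rw [h4, ← pow_succ] at h5
    exact Nat.pow_succ_factorization_not_dvd Nat.card_pos.ne' hq h5

/-- Let G be a finite group and p a prime, and suppose the conjugacy classes of p-regular elements of G (elements of order prime to p) have exactly two distinct sizes. Then either G has an abelian p-complement (an abelian subgroup of order prime to p and p-power index), or there are a prime q ≠ p, a Sylow p-subgroup P, a Sylow q-subgroup Q and a central subgroup A such that PQ is a normal subgroup of order #P·#Q and G is the internal direct product PQ × A. -/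
theorem result {G : Type*} [Group G] [Finite G] {p : ℕ} (hp : p.Prime)
    (h2 : Set.ncard (Set.range fun x : {x : G // (orderOf x).Coprime p} => (ConjClasses.mk (x : G)).carrier.ncard) = 2) :
    (∃ H : Subgroup G, IsMulCommutative H ∧ ¬ p ∣ Nat.card H ∧ ∃ k : ℕ, H.index = p ^ k) ∨
    (∃ (q : ℕ) (_ : Fact q.Prime) (P : Sylow p G) (Q : Sylow q G) (A : Subgroup G), q ≠ p ∧
        A ≤ Subgroup.center G ∧ Nat.card ↥((P : Subgroup G) ⊔ (Q : Subgroup G)) = Nat.card P * Nat.card Q ∧
        ((P : Subgroup G) ⊔ (Q : Subgroup G)).Normal ∧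
        ((P : Subgroup G) ⊔ (Q : Subgroup G)) ⊓ A = ⊥ ∧ ((P : Subgroup G) ⊔ (Q : Subgroup G)) ⊔ A = ⊤) := by
  have hcl : ∀ x : G, (ConjClasses.mk x).carrier.ncard = (centralizer ({x} : Set G)).index := by
    intro x
    rw [← H70.Basic.ncard_class x]
    have : (ConjClasses.mk x).carrier = {h : G | IsConj x h} := by
      ext y
      rw [ConjClasses.mem_carrier_iff_mk_eq, ConjClasses.mk_eq_mk_iff_isConj, Set.mem_setOf_eq]
      exact isConj_comm
    rw [this]
  obtain ⟨a, b, hab, hset⟩ := Set.ncard_eq_two.mp h2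
  have hmem : ∀ x : G, (orderOf x).Coprime p → (centralizer ({x} : Set G)).index = a ∨
      (centralizer ({x} : Set G)).index = b := by
    intro x hx
    have h1 : (ConjClasses.mk x).carrier.ncard ∈ (Set.range fun x : {x : G // (orderOf x).Coprime p} =>
      (ConjClasses.mk (x : G)).carrier.ncard) := ⟨⟨x, hx⟩, rfl⟩
    rw [hset, hcl] at h1
    exact h1
  have h1 : (centralizer ({(1 : G)} : Set G)).index = 1 := by
    rw [Subgroup.index_eq_one, eq_top_iff]
    intro g _
    exact mem_centralizer_singleton_iff.mpr (by simp)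
  have hcen : ∀ x : G, (centralizer ({x} : Set G)).index = 1 ↔ x ∈ center G := by
    intro x
    rw [Subgroup.index_eq_one]
    constructor
    · intro h
      apply mem_center_of_forall
      intro g
      have : g ∈ centralizer ({x} : Set G) := by rw [h]; exact mem_top g
      exact Commute.symm (mem_centralizer_singleton_iff.mp this)
    · intro h
      rw [eq_top_iff]
      intro g _
      exact mem_centralizer_singleton_iff.mpr (commute_of_center h g).eq.symm
  -- the other size
  obtain ⟨m, hm1, hm⟩ : ∃ m : ℕ, m ≠ 1 ∧ (m ∈ ({a, b} : Set ℕ)) ∧ ∀ c ∈ ({a, b} : Set ℕ), c = 1 ∨ c = m := by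
    rcases hmem 1 (by simp) with h3 | h3
    · rw [h1] at h3
      refine ⟨b, fun h => hab (h3.symm.trans h.symm), by simp, ?_⟩
      rintro c (rfl | rfl)
      · exact Or.inl h3.symm
      · exact Or.inr rfl
    · rw [h1] at h3
      refine ⟨a, fun h => hab (h.trans h3), by simp, ?_⟩
      rintro c (rfl | rfl)
      · exact Or.inr rfl
      · exact Or.inl h3.symm
  have hidx : ∀ x : G, X p x → (centralizer ({x} : Set G)).index = m := by
    intro x hx
    rcases hm.2 _ (hmem x hx.1) with h3 | h3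
    · exact absurd ((hcen x).mp h3) hx.2
    · exact h3
  have hcard : ∀ x y : G, X p x → X p y →
      Nat.card (centralizer ({x} : Set G)) = Nat.card (centralizer ({y} : Set G)) := by
    intro x y hx hy
    have e1 := Subgroup.card_mul_index (centralizer ({x} : Set G))
    have e2 := Subgroup.card_mul_index (centralizer ({y} : Set G))
    rw [hidx x hx] at e1
    rw [hidx y hy, ← e1] at e2
    have hm0 : 0 < m := by
      rw [← hidx x hx]; exact Nat.pos_of_ne_zero Subgroup.index_ne_zero_of_finite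
    exact (Nat.eq_of_mul_eq_mul_right hm0 e2).symm
  have hne : ∃ x : G, X p x := by
    have h3 : m ∈ (Set.range fun x : {x : G // (orderOf x).Coprime p} =>
      (ConjClasses.mk (x : G)).carrier.ncard) := by rw [hset]; exact hm.1
    obtain ⟨⟨x, hx⟩, hxm⟩ := h3
    have hxm' : (ConjClasses.mk x).carrier.ncard = m := hxm
    rw [hcl] at hxm'
    refine ⟨x, hx, fun hc => hm1 ?_⟩
    rw [← hxm']; exact (hcen x).mpr hc
  rcases dichotomy hp hcard hne with ⟨q, hq, hqp, h⟩ | ⟨hA, h⟩
  · exact Or.inr (alt2 hp hq hqp h)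
  · obtain ⟨x, hx⟩ := hne
    exact Or.inl (alt1 hp hA hx (h x hx))

end Cfsg.Agent.S4033
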