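import Cfsg.Statements.S4036

set_option autoImplicit false
open Cfsg

namespace Cfsg.Agent.S4036

/-- Let P be a finite abelian p-group and K a group of automorphisms of P (a subgroup of Aut P) whose order is divisible by p. If all non-identity elements of K have the same fixed-point subgroup on P, then K has no non-trivial normal subgroup of order prime to p. -/
theorem result {P : Type*} [CommGroup P] [Finite P] {p : ℕ}
    [Fact p.Prime] (hP : IsPGroup p P) (K : Subgroup (MulAut P)) (hK : p ∣ Nat.card K)
    (hfix : ∀ x y : MulAut P, x ∈ K → y ∈ K → x ≠ 1 → y ≠ 1 → ∀ v : P, x v = v ↔ y v = v) :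
    ∀ N : Subgroup ↥K, N.Normal → ¬ p ∣ Nat.card N → N = ⊥ := by
  intro N hN hpN
  classical
  have hp : p.Prime := Fact.out
  haveI : Fintype P := Fintype.ofFinite P
  haveI : Finite (MulAut P) := inferInstance
  haveI : Fintype N := Fintype.ofFinite N
  by_contra hne
  rw [← ne_eq, Subgroup.ne_bot_iff_exists_ne_one] at hne
  obtain ⟨m, hm⟩ := hne
  let T : P →* P :=
    { toFun := fun v => ∏ n : N, ((n : K) : MulAut P) v
      map_one' := by simp
      map_mul' := fun v w => by simp [Finset.prod_mul_distrib] }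
  have hT : ∀ v, T v = ∏ n : N, ((n : K) : MulAut P) v := fun v => rfl
  -- T v is fixed by N
  have hTfix : ∀ v, ∀ a : N, ((a : K) : MulAut P) (T v) = T v := by
    intro v a
    rw [hT, map_prod]
    refine Fintype.prod_equiv (Equiv.mulLeft a) _ _ ?_
    intro n
    simp
  -- K leaves the kernel invariant
  have hTK : ∀ v, ∀ k : K, T ((k : MulAut P) v) = (k : MulAut P) (T v) := by
    intro v k
    rw [hT, hT, map_prod]
    symm
    refine Fintype.prod_equiv ⟨fun n => ⟨k * n * k⁻¹, hN.conj_mem n n.2 k⟩,
      fun n => ⟨k⁻¹ * n * k, by simpa using hN.conj_mem n n.2 k⁻¹⟩, ?_, ?_⟩ _ _ ?_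
    · intro n; ext; simp [mul_assoc]
    · intro n; ext; simp [mul_assoc]
    · intro n
      simp
  have hinj : ¬ Function.Injective T := by
    intro hinj
    have hsurj : Function.Surjective T := Finite.surjective_of_injective hinj
    apply hm
    ext v
    obtain ⟨w, rfl⟩ := hsurj v
    simpa using hTfix w m
  -- an element of order p
  obtain ⟨g, hg⟩ := exists_prime_orderOf_dvd_card' (G := K) p hK
  have hg1 : (g : MulAut P) ≠ 1 := by
    intro h
    have : g = 1 := Subtype.ext h
    rw [this, orderOf_one] at hg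
    exact hp.one_lt.ne hg
  have hgp : (g : MulAut P) ^ p = 1 := by
    have : g ^ p = 1 := by rw [← hg]; exact pow_orderOf_eq_one g
    simpa using congrArg Subtype.val this
  let D := T.ker
  have hD : ∀ v, v ∈ D ↔ (g : MulAut P) v ∈ D := by
    intro v
    simp only [D, MonoidHom.mem_ker, hTK]
    simp
  let σ : Equiv.Perm D := Equiv.Perm.subtypePerm ((g : MulAut P).toEquiv : Equiv.Perm P) (fun v => (hD v).symm)
  have hσ : σ ^ p ^ 1 = 1 := by
    rw [pow_one, Equiv.Perm.subtypePerm_pow]
    ext v
    have h1 : ∀ k : ℕ, ∀ v : P, (((g : MulAut P).toEquiv : Equiv.Perm P) ^ k) v = ((g : MulAut P) ^ k) v := by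
      intro k
      induction k with
      | zero => intro v; rfl
      | succ k ih => intro v; rw [pow_succ, pow_succ, Equiv.Perm.mul_apply, ih]; rfl
    simp only [Equiv.Perm.subtypePerm_apply, h1, hgp]
    rfl
  have hDcard : p ∣ Fintype.card D := by
    have hD' : IsPGroup p D := hP.to_subgroup D
    haveI : Nontrivial D := by
      rw [Subgroup.nontrivial_iff_ne_bot]
      intro h
      exact hinj ((MonoidHom.ker_eq_bot_iff T).mp h)
    rcases hD'.card_eq_or_dvd with h | h
    · exact absurd h (Finite.one_lt_card).ne'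
    · rwa [Nat.card_eq_fintype_card] at h
  obtain ⟨w, hw, hw1⟩ := Equiv.Perm.exists_fixed_point_of_prime' hDcard hσ (a := 1) (by
    apply Subtype.ext; simp [σ])
  have hgw : (g : MulAut P) (w : P) = w := congrArg Subtype.val hw
  have hNw : ∀ n : N, ((n : K) : MulAut P) (w : P) = w := by
    intro n
    by_cases hn : ((n : K) : MulAut P) = 1
    · rw [hn]; rfl
    · exact (hfix g (n : K) g.2 (n : K).2 hg1 hn w).mp hgw
  have hTw : T w = (w : P) ^ Nat.card N := by
    rw [hT, Finset.prod_congr rfl (fun n _ => hNw n)]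
    simp
  have hTw1 : T w = 1 := w.2
  rw [hTw1] at hTw
  apply hw1
  apply Subtype.ext
  rw [Subgroup.coe_one, ← orderOf_eq_one_iff]
  have h1 : orderOf (w : P) ∣ Nat.card N := orderOf_dvd_of_pow_eq_one hTw.symm
  obtain ⟨k, hk⟩ := (IsPGroup.iff_orderOf.mp hP) (w : P)
  rcases Nat.eq_zero_or_pos k with rfl | hpos
  · simpa using hk
  · exfalso
    exact hpN (dvd_trans (by rw [hk]; exact dvd_pow_self p hpos.ne') h1)

end Cfsg.Agent.S4036
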