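import Cfsg.Statements.S4049
import Cfsg.Agent.Lib.H70.NoReal

set_option autoImplicit false
open Cfsg

namespace Cfsg.Agent.S4049

/-- Let G be a finite group such that N_G(H)/C_G(H) has odd order for every nontrivial subgroup H of odd order. Then the Sylow 2-subgroups of G are normal. -/
theorem result {G : Type*} [Group G] [Finite G]
    (hhom : ∀ H : Subgroup G, H ≠ ⊥ → ¬ 2 ∣ Nat.card ↥H →
        ¬ 2 ∣ (Subgroup.centralizer (H : Set G)).relIndex (Subgroup.normalizer (H : Set G))) (P : Sylow 2 G) :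
    (P : Subgroup G).Normal := by
  refine H70.NoReal.sylow_normal (fun x t hx ht => ?_) P
  by_contra hx1
  obtain ⟨s, ⟨k, hk⟩, hs⟩ := H70.Real.exists_two_elt (x := x) (isConj_iff.mpr ⟨t, ht⟩)
  have h2x : ¬ 2 ∣ orderOf x := (Nat.Prime.coprime_iff_not_dvd Nat.prime_two).mp hx.symm
  have h1 := hhom (Subgroup.zpowers x) (by rwa [Ne, Subgroup.zpowers_eq_bot])
    (by rw [Nat.card_zpowers]; exact h2x)
  have h2 : s ∈ Subgroup.centralizer ((Subgroup.zpowers x : Subgroup G) : Set G) := by
    refine H70.Real.mem_of_mem_of_coprime _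
      (Subgroup.normalizer ((Subgroup.zpowers x : Subgroup G) : Set G))
      (H70.Real.mem_normalizer_zpowers_of_inv hs) ?_
    rw [hk]
    exact Nat.Coprime.pow_left k ((Nat.Prime.coprime_iff_not_dvd Nat.prime_two).mpr h1)
  rw [H70.Real.centralizer_zpowers, Subgroup.mem_centralizer_singleton_iff] at h2
  have h3 : s * x * s⁻¹ = x := by rw [h2]; group
  rw [hs] at h3
  have h4 : x ^ 2 = 1 := by
    rw [sq]
    calc x * x = x⁻¹ * x := by rw [h3]
      _ = 1 := inv_mul_cancel x
  have h5 : orderOf x ∣ 2 := orderOf_dvd_of_pow_eq_one h4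
  apply hx1
  rw [← orderOf_eq_one_iff]
  exact Nat.eq_one_of_dvd_coprimes hx dvd_rfl h5

end Cfsg.Agent.S4049
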