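import Cfsg.Statements.S4052
import Cfsg.Agent.Lib.H8.DP2

set_option autoImplicit false
open Cfsg

namespace Cfsg.Agent.S4052

/-- Let π be a set of primes and G a finite group whose maximal π-subgroups are pairwise conjugate (so Hall π-subgroups exist, any two are conjugate, and every π-subgroup lies in one of them), and suppose N_G(H)/C_G(H) is a π-group for every nontrivial π-subgroup H. If either 3 does not divide the order of G, or the π'-elements of every proper subgroup of G form a subgroup, then the π'-elements of G form a subgroup. -/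
theorem result {G : Type*} [Group G] [Finite G] (π : Set ℕ)
    (hπ : ∀ p ∈ π, p.Prime) (hD : Cfsg.IsDPiGroup π G) (hhom : (∀ H : Subgroup G, H ≠ ⊥ → (∀ p : ℕ, p.Prime → p ∣ Nat.card ↥H → p ∈ π) →
        ∀ p : ℕ, p.Prime → p ∣ (Subgroup.centralizer (H : Set G)).relIndex (Subgroup.normalizer (H : Set G)) → p ∈ π))
    (hcase : ¬ 3 ∣ Nat.card G ∨ ∀ M : Subgroup G, M ≠ ⊤ →
      ∃ L : Subgroup ↥M, ∀ x : ↥M, x ∈ L ↔ ∀ p : ℕ, p.Prime → p ∣ orderOf x → p ∉ π) :
    (∃ K : Subgroup G, ∀ x : G, x ∈ K ↔ ∀ p : ℕ, p.Prime → p ∣ orderOf x → p ∉ π) := by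
  classical
  have hom : H8.DP.PHom π G := by
    intro U hU x hx hxπ
    by_cases hU0 : U = ⊥
    · subst hU0
      rw [Subgroup.mem_centralizer_iff]
      intro y hy
      rw [SetLike.mem_coe, Subgroup.mem_bot] at hy
      rw [hy, one_mul, mul_one]
    set N := Subgroup.normalizer (U : Set G) with hN
    set C := Subgroup.centralizer (U : Set G) with hC
    have hCn : (C.subgroupOf N).Normal :=
      Subgroup.normal_subgroupOf_of_le_normalizer (H38.Goldschmidt.le_normalizer_centralizer U)
    have h1 : orderOf (QuotientGroup.mk' (C.subgroupOf N) ⟨x, hx⟩) = 1 := by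
      by_contra hne
      obtain ⟨q, hq, hqd⟩ := Nat.exists_prime_and_dvd hne
      have h2 : q ∣ orderOf x := by
        rw [← Subgroup.orderOf_mk x hx]
        exact hqd.trans (orderOf_map_dvd _ _)
      have h3 : q ∣ C.relIndex N := by
        rw [Subgroup.relIndex, Subgroup.index_eq_card]
        exact hqd.trans (orderOf_dvd_natCard _)
      exact hxπ q hq h2 (hhom U hU0 hU q hq h3)
    rw [orderOf_eq_one_iff, QuotientGroup.mk'_apply, QuotientGroup.eq_one_iff] at h1
    exact h1
  have hbot : IsPiSubgroup π (⊥ : Subgroup G) := by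
    intro q hq hd
    rw [Subgroup.card_bot] at hd
    exact absurd (Nat.dvd_one.1 hd) hq.ne_one
  obtain ⟨H, -, hH⟩ := exists_maximal_ge_of_wellFoundedGT (IsPiSubgroup π) (⊥ : Subgroup G) hbot
  have hdom : H8.DP.Dom π H := by
    intro K hK
    obtain ⟨M, hKM, hM⟩ := exists_maximal_ge_of_wellFoundedGT (IsPiSubgroup π) K hK
    obtain ⟨g, hg⟩ := hD M H hM hH
    exact ⟨g, by rw [hg]; exact Subgroup.map_mono hKM⟩
  obtain ⟨K, hKn, hKH, hKi⟩ := H8.DP.main π (Nat.card G) G le_rfl hom H hH.1 hdom
  have hcomp : K.IsComplement' H :=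
    Subgroup.isComplement'_of_disjoint_and_mul_eq_univ (disjoint_iff.2 hKi) (by
      rw [← Subgroup.normal_mul, hKH, Subgroup.coe_top])
  have hKc : Nat.card K = H.index := hcomp.index_eq_card.symm
  have hKidx : K.index = Nat.card H := hcomp.symm.index_eq_card
  refine ⟨K, fun x => ⟨?_, ?_⟩⟩
  · intro hx p hp hpd hpπ
    apply H8.DP.not_dvd_index hdom hp hpπ
    rw [← hKc]
    exact hpd.trans (Subgroup.orderOf_dvd_natCard K hx)
  · intro hx
    have h1 : orderOf (QuotientGroup.mk' K x) = 1 := by
      by_contra hne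
      obtain ⟨q, hq, hqd⟩ := Nat.exists_prime_and_dvd hne
      have h2 : q ∣ orderOf x := hqd.trans (orderOf_map_dvd _ _)
      have h3 : q ∣ Nat.card H := by
        rw [← hKidx, Subgroup.index_eq_card]
        exact hqd.trans (orderOf_dvd_natCard _)
      exact hx q hq h2 (hH.1 q hq h3)
    rw [orderOf_eq_one_iff, QuotientGroup.mk'_apply, QuotientGroup.eq_one_iff] at h1
    exact h1

end Cfsg.Agent.S4052
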