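import Cfsg.Statements.S4056
import Cfsg.Agent.Lib.H70.ClassTwo

set_option autoImplicit false
open Cfsg

namespace Cfsg.Agent.S4056

/-- In a finite 2-group of nilpotency class at most 2 and exponent dividing 4, the Frattini subgroup lies in the centre and is elementary abelian. -/
theorem result {P : Type*} [Group P] [Finite P] (hP : IsPGroup 2 P)
    (hcl : Group.nilpotencyClass P ≤ 2) (hexp : Monoid.exponent P ∣ 4) :
    frattini P ≤ Subgroup.center P ∧ Cfsg.IsElementaryAbelian 2 (frattini P) := by
  have hnil : Group.IsNilpotent P := by
    have : Fact (Nat.Prime 2) := ⟨Nat.prime_two⟩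
    exact hP.isNilpotent
  exact H70.ClassTwo.frattini_central_elementary
    (H70.ClassTwo.commutator_mem_center hcl)
    (fun x => Monoid.exponent_dvd_iff_forall_pow_eq_one.mp hexp x)

end Cfsg.Agent.S4056
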