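import Cfsg.Statements.S4066
import Cfsg.Agent.Lib.H70.Real
import Cfsg.Agent.Lib.H70.Basic

set_option autoImplicit false
open Cfsg

namespace Cfsg.Agent.S4066

open Subgroup in
/-- Let G be a finite group in which the centralizer of every element meets each of its conjugates by elements outside its normalizer trivially. Then any two distinct Sylow p-subgroups of G, for any prime p, intersect trivially. -/
theorem result {G : Type*} [Group G] [Finite G] (hTI : ∀ x : G, Cfsg.IsTISubset (Subgroup.centralizer ({x} : Set G) : Set G))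
    {p : ℕ} [Fact p.Prime] (P Q : Sylow p G) (hPQ : P ≠ Q) : (P : Subgroup G) ⊓ (Q : Subgroup G) = ⊥ := by
  have hp : p.Prime := Fact.out
  -- basic fact
  have F : ∀ x u : G, u ∈ centralizer ({x} : Set G) → u ≠ 1 → 
      centralizer ({u} : Set G) ≤ normalizer ((centralizer ({x} : Set G) : Subgroup G) : Set G) := by
    intro x u hu hu1 g hg
    by_contra hgn
    apply hu1
    apply hTI x g hgn u hu
    have : g * u * g⁻¹ = u := by
      rw [mem_centralizer_singleton_iff.mp hg]; group
    rw [this]; exact hu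
  -- centre elements
  have Z : ∀ R : Sylow p G, ∀ u ∈ (R : Subgroup G), u ≠ 1 → ∃ z ∈ (R : Subgroup G), z ≠ 1 ∧
      (R : Subgroup G) ≤ centralizer ({z} : Set G) := by
    intro R u hu hu1
    haveI : Nontrivial (R : Subgroup G) := by
      rw [Subgroup.nontrivial_iff_exists_ne_one]
      exact ⟨u, hu, hu1⟩
    haveI := R.isPGroup'.center_nontrivial
    obtain ⟨z, hz⟩ := exists_ne (1 : center (R : Subgroup G))
    refine ⟨(z : (R : Subgroup G)), (z : (R : Subgroup G)).2, ?_, ?_⟩
    · intro h
      apply hz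
      ext
      simpa using h
    · intro g hg
      rw [mem_centralizer_singleton_iff]
      have := mem_center_iff.mp z.2 ⟨g, hg⟩
      exact congrArg Subtype.val this
  by_contra hne
  rw [← ne_eq, Subgroup.ne_bot_iff_exists_ne_one] at hne
  obtain ⟨⟨u, hu⟩, hu1⟩ := hne
  have hu1' : u ≠ 1 := fun h => hu1 (by ext; simpa using h)
  obtain ⟨huP, huQ⟩ := mem_inf.mp hu
  obtain ⟨z, hzP, hz1, hPz⟩ := Z P u huP hu1'
  obtain ⟨w, hwQ, hw1, hQw⟩ := Z Q u huQ hu1'
  set C := centralizer ({z} : Set G) with hC
  -- p-elements of the normalizer of C lie in C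
  have hpel : ∀ y ∈ (Q : Subgroup G), y ∈ normalizer (C : Set G) → y ∈ C := by
    intro y hy hyN
    apply H70.Real.mem_of_mem_normalizer_of_coprime C hyN
    obtain ⟨k, hk⟩ := (IsPGroup.iff_orderOf.mp Q.isPGroup') ⟨y, hy⟩
    rw [Subgroup.orderOf_mk] at hk
    rw [hk]
    apply Nat.Coprime.pow_left
    rw [Nat.Prime.coprime_iff_not_dvd hp]
    intro h
    exact P.not_dvd_index ((h.trans (relIndex_dvd_index_of_le le_normalizer)).trans
      (index_dvd_of_le hPz))
  have hwC : w ∈ C := by
    apply hpel w hwQ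
    apply F z u (hPz huP) hu1'
    rw [mem_centralizer_singleton_iff]
    exact (mem_centralizer_singleton_iff.mp (hQw huQ)).symm
  have hQC : (Q : Subgroup G) ≤ C := by
    intro y hy
    exact hpel y hy (F z w hwC hw1 (hQw hy))
  -- every element of C commutes with its C-conjugates
  have hcomm : ∀ x ∈ C, ∀ g ∈ C, Commute x (g * x * g⁻¹) := by
    intro x hx g hg
    have hgN : g ∈ normalizer ((centralizer ({x} : Set G) : Subgroup G) : Set G) := by
      apply F x z ?_ hz1
      · exact hg
      · rw [mem_centralizer_singleton_iff]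
        exact (mem_centralizer_singleton_iff.mp hx).symm
    have h1 : g * x * g⁻¹ ∈ centralizer ({x} : Set G) :=
      (mem_normalizer_iff.mp hgN x).mp (by rw [mem_centralizer_singleton_iff])
    exact (mem_centralizer_singleton_iff.mp h1).symm
  apply hPQ
  have hle : (P : Subgroup G) ≤ Q := by
    intro x hxP
    have hxC := hPz hxP
    set s : Set G := {y | ∃ g ∈ C, y = g * x * g⁻¹} with hs
    have hscomm : ∀ a ∈ s, ∀ b ∈ s, a * b = b * a := by
      rintro a ⟨g, hg, rfl⟩ b ⟨h, hh, rfl⟩
      have h1 := hcomm x hxC (g⁻¹ * h) (mul_mem (inv_mem hg) hh)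
      have h2 : Commute (g * x * g⁻¹) (g * (g⁻¹ * h * x * (g⁻¹ * h)⁻¹) * g⁻¹) :=
        (Commute.conj_iff (h := g)).mpr h1
      have h3 : g * (g⁻¹ * h * x * (g⁻¹ * h)⁻¹) * g⁻¹ = h * x * h⁻¹ := by group
      rw [h3] at h2
      exact h2
    have hA : IsPGroup p (closure s) := by
      apply H70.Basic.isPGroup_closure hscomm
      rintro a ⟨g, hg, rfl⟩
      obtain ⟨k, hk⟩ := P.isPGroup' ⟨x, hxP⟩
      refine ⟨k, ?_⟩
      rw [conj_pow]
      have : x ^ p ^ k = 1 := by simpa using congrArg Subtype.val hk
      simp [this]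
    have hQN : (Q : Subgroup G) ≤ normalizer ((closure s : Subgroup G) : Set G) := by
      apply H70.Basic.normalizer_closure
      rintro y hy b ⟨g, hg, rfl⟩
      apply Subgroup.subset_closure
      exact ⟨y * g, mul_mem (hQC hy) hg, by group⟩
    have hsup : IsPGroup p ((closure s ⊔ (Q : Subgroup G) : Subgroup G)) :=
      IsPGroup.to_sup_of_normal_left' hA Q.isPGroup' hQN
    have hmax := Q.is_maximal' hsup le_sup_right
    have hxs : x ∈ closure s := Subgroup.subset_closure ⟨1, one_mem _, by simp⟩
    have : x ∈ closure s ⊔ (Q : Subgroup G) := (le_sup_left : closure s ≤ _) hxs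
    rw [hmax] at this
    exact this
  exact Sylow.ext (P.is_maximal' Q.isPGroup' hle).symm

end Cfsg.Agent.S4066
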