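import Mathlib
import Cfsg.Statements.S4067
import Cfsg.Agent.Lib.H71.AutCount
import Cfsg.Agent.Lib.H71.AutClassTwo

set_option autoImplicit false
open Cfsg

namespace Cfsg.Agent.S4067

open Subgroup H71.AutClassTwo
open scoped commutatorElement

variable {G : Type*} [Group G] [Finite G]

theorem index_center_ge {p : ℕ} (hmin : ∀ d : ℕ, d ∣ Nat.card G → d ≠ 1 → p ≤ d) (hna : ¬ IsMulCommutative G) :
    p ^ 2 ≤ (center G).index := by
  have hne1 : (center G).index ≠ 1 := by
    intro h
    apply hna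
    have := Subgroup.index_eq_one.mp h
    constructor
    constructor
    intro a b
    have ha : b ∈ center G := by rw [this]; exact mem_top b
    exact (Subgroup.mem_center_iff.mp ha) a
  have hnp : ¬ (center G).index.Prime := by
    intro h
    have := Fact.mk h
    have hc : IsCyclic (G ⧸ center G) := isCyclic_of_prime_card (p := (center G).index) (by rw [← Subgroup.index_eq_card])
    apply hna
    constructor
    constructor
    exact commutative_of_cyclic_center_quotient (QuotientGroup.mk' (center G)) (by rw [QuotientGroup.ker_mk'])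
  have hn0 : (center G).index ≠ 0 := Subgroup.index_ne_zero_of_finite
  obtain ⟨a, ha, ha1, han⟩ := Nat.exists_dvd_of_not_prime (by omega) hnp
  obtain ⟨b, hb⟩ := ha
  have hd : (center G).index ∣ Nat.card G := Subgroup.index_dvd_card _
  have h1 : p ≤ a := hmin a ((Dvd.intro _ hb.symm).trans hd) ha1
  have h2 : p ≤ b := by
    apply hmin b ((Dvd.intro_left _ hb.symm).trans hd)
    rintro rfl
    rw [mul_one] at hb
    exact han hb.symm
  rw [hb, pow_two]
  exact Nat.mul_le_mul h1 h2

theorem pow_mem_center {p : ℕ} (hZ : commutator G ≤ center G) (hG' : Nat.card (commutator G) = p) (hp : p.Prime) (x : G) :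
    x ^ p ∈ center G := by
  rw [Subgroup.mem_center_iff]
  intro g
  have h1 : ⁅x ^ p, g⁆ = 1 := by
    rw [H3.ClassTwo.pow_left hZ]
    exact mem_of_pow hp hG' (Subgroup.commutator_mem_commutator (Subgroup.mem_top x) (Subgroup.mem_top g))
  exact (commutatorElement_eq_one_iff_mul_comm.mp h1).symm

/-- case A -/
theorem caseA {p : ℕ} (hp : p.Prime) (hZ : commutator G ≤ center G) (hG' : Nat.card (commutator G) = p)
    (hna : ¬ IsMulCommutative G) {w : G} (hwZ : w ∈ center G) (hwo : orderOf w = p) (hwG : w ∉ commutator G) :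
    ∃ M : Subgroup G, M.index = p ∧ center G ≤ M ∧ ∀ x ∉ M, p ^ 2 ≤ Nat.card (MulAction.orbit (MulAut G) x) := by
  have := Fact.mk hp
  obtain ⟨x0, hx0⟩ : ∃ x0 : G, x0 ∉ center G := by
    by_contra hcon
    push Not at hcon
    apply hna
    constructor
    constructor
    intro a b
    exact (Subgroup.mem_center_iff.mp (hcon b)) a
  have hle : center G ≤ (kap hZ x0).ker := by
    intro z hz
    rw [mem_ker_kap]
    exact ((Subgroup.mem_center_iff.mp hz) x0).symm
  refine ⟨(kap hZ x0).ker, index_ker_kap hZ hp hG' hx0, hle, ?_⟩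
  have hwc : Nat.card (zpowers w) = p := by rw [Nat.card_zpowers, hwo]
  have e : commutator G ≃* zpowers w := mulEquivOfPrimeCardEq (p := p) hG' hwc
  let f : G →* G := (zpowers w).subtype.comp (e.toMonoidHom.comp (kap hZ x0))
  have hfw : ∀ x, f x ∈ zpowers w := fun x => (e (kap hZ x0 x)).2
  have hzw : zpowers w ≤ center G := by rw [zpowers_le]; exact hwZ
  have hfZ : ∀ x, f x ∈ center G := fun x => hzw (hfw x)
  have hfc : ∀ z ∈ center G, f z = 1 := by
    intro z hz
    have h1 : kap hZ x0 z = 1 := hle hz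
    change ((e (kap hZ x0 z) : zpowers w) : G) = 1
    rw [h1, map_one]; rfl
  let t : G →* G := MonoidHom.mk' (fun x => x * f x) (by
    intro x y
    change x * y * f (x * y) = x * f x * (y * f y)
    rw [map_mul]
    have := (Subgroup.mem_center_iff.mp (hfZ x)) y
    calc x * y * (f x * f y) = x * (y * f x) * f y := by group
      _ = x * (f x * y) * f y := by rw [this]
      _ = _ := by group)
  have ht : ∀ x, t x = x * f x := fun _ => rfl
  have hinj : Function.Injective t := by
    rw [injective_iff_map_eq_one]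
    intro x hx
    rw [ht] at hx
    have h1 : x ∈ center G := by
      rw [eq_inv_of_mul_eq_one_left hx]
      exact inv_mem (hfZ x)
    rw [hfc x h1, mul_one] at hx
    exact hx
  let τ : MulAut G := MulEquiv.ofBijective t ⟨hinj, Finite.surjective_of_injective hinj⟩
  have hτ : ∀ x, τ x = x * f x := fun _ => rfl
  intro x hx
  have hxZ : x ∉ center G := fun h => hx (hle h)
  have hfx : f x ≠ 1 := by
    intro h
    apply hx
    have h1 : e (kap hZ x0 x) = 1 := Subtype.ext h
    exact (MulEquiv.map_eq_one_iff e).mp h1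
  apply orbit_ge_sq hZ hp hG' hxZ τ (f x) 1 (one_mem _)
  · rw [hτ, mul_one]
  · rw [hτ, hfc _ (hfZ x), mul_one]
  · intro i hi0 hip hmem
    have h1 : f x ^ i ≠ 1 := by
      intro h
      have h2 : orderOf (f x) ∣ i := orderOf_dvd_of_pow_eq_one h
      have h3 : orderOf (f x) ∣ p := by rw [← hwc]; exact Subgroup.orderOf_dvd_natCard _ (hfw x)
      rcases (Nat.dvd_prime hp).mp h3 with h4 | h4
      · exact hfx (orderOf_eq_one_iff.mp h4)
      · rw [h4] at h2
        exact absurd (Nat.le_of_dvd hi0 h2) (by omega)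
    -- the powers generate
    have h2 : zpowers (f x ^ i) = zpowers w := by
      apply Subgroup.eq_of_le_of_card_ge
      · rw [zpowers_le]; exact pow_mem (hfw x) i
      · have h3 : Nat.card (zpowers (f x ^ i)) ∣ p := by
          rw [← hwc]
          apply Subgroup.card_dvd_of_le
          rw [zpowers_le]; exact pow_mem (hfw x) i
        rcases (Nat.dvd_prime hp).mp h3 with h4 | h4
        · rw [Nat.card_zpowers] at h4
          exact absurd (orderOf_eq_one_iff.mp h4) h1
        · rw [h4, hwc]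
    apply hwG
    have h3 : zpowers (f x ^ i) ≤ commutator G := by rw [zpowers_le]; exact hmem
    rw [h2] at h3
    exact h3 (mem_zpowers w)

/-- existence of `y` for `p` odd -/
theorem exists_y_odd {p : ℕ} (hp : p.Prime) (hp2 : p ≠ 2) (hZ : commutator G ≤ center G) (hG' : Nat.card (commutator G) = p)
    (hidx : p ^ 2 ≤ (center G).index) (hB : ∀ w ∈ center G, w ^ p = 1 → w ∈ commutator G) :
    ∃ y : G, y ∉ center G ∧ y ^ p = 1 := by
  by_contra hcon
  push Not at hcon
  let f : G →* G := MonoidHom.mk' (fun x => x ^ p) (fun a b => H3.ClassTwo.mul_pow_prime hZ hp hp2 a b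
    (mem_of_pow hp hG' (Subgroup.commutator_mem_commutator (Subgroup.mem_top b) (Subgroup.mem_top a))))
  have hf : ∀ x, f x = x ^ p := fun _ => rfl
  have hr : f.range ≤ center G := by
    rintro _ ⟨x, rfl⟩
    rw [hf]; exact pow_mem_center hZ hG' hp x
  have hk : f.ker ≤ commutator G := by
    intro x hx
    rw [MonoidHom.mem_ker, hf] at hx
    by_cases hxZ : x ∈ center G
    · exact hB x hxZ hx
    · exact absurd hx (hcon x hxZ)
  have h1 : Nat.card f.ker * Nat.card f.range = Nat.card G := by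
    rw [← Subgroup.index_ker, Subgroup.card_mul_index]
  have h2 : Nat.card f.ker ≤ p := by
    rw [← hG']; exact Nat.le_of_dvd Nat.card_pos (Subgroup.card_dvd_of_le hk)
  have h3 : Nat.card f.range ≤ Nat.card (center G) := Nat.le_of_dvd Nat.card_pos (Subgroup.card_dvd_of_le hr)
  have h4 : Nat.card G ≤ p * Nat.card (center G) := by
    rw [← h1]; exact Nat.mul_le_mul h2 h3
  have h5 : Nat.card (center G) * p ^ 2 ≤ Nat.card G := by
    rw [← (center G).card_mul_index]; exact Nat.mul_le_mul_left _ hidx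
  have h6 : 0 < Nat.card (center G) := Nat.card_pos
  have h7 := hp.two_le
  have h8 : Nat.card (center G) * p ^ 2 ≤ Nat.card (center G) * p := by
    calc _ ≤ Nat.card G := h5
      _ ≤ p * Nat.card (center G) := h4
      _ = _ := mul_comm _ _
  have h9 := Nat.le_of_mul_le_mul_left h8 h6
  nlinarith

/-- existence of `y` for `p = 2` -/
theorem exists_y_two (hZ : commutator G ≤ center G) (hG' : Nat.card (commutator G) = 2)
    (hidx : 2 ^ 2 ≤ (center G).index) (hB : ∀ w ∈ center G, w ^ 2 = 1 → w ∈ commutator G) :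
    ∃ y : G, y ∉ center G ∧ y ^ 2 ∈ commutator G ∧ y ^ 2 ≠ 1 := by
  have hsq : ∀ c ∈ commutator G, c ^ 2 = 1 := fun c hc => mem_of_pow Nat.prime_two hG' hc
  have huniq : ∀ c ∈ commutator G, ∀ d ∈ commutator G, c ≠ 1 → d ≠ 1 → c = d := by
    intro c hc d hd hc1 hd1
    by_contra hne
    have h1 : Nat.card ({1, c, d} : Set G) ≤ Nat.card (commutator G) := by
      apply Nat.card_mono (Set.toFinite _)
      rintro x (rfl | rfl | rfl)
      · exact one_mem _
      · exact hc
      · exact hd
    rw [hG', Nat.card_coe_set_eq, Set.ncard_insert_of_notMem, Set.ncard_pair hne] at h1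
    · omega
    · simp only [Set.mem_insert_iff, Set.mem_singleton_iff, not_or]
      exact ⟨hc1.symm, hd1.symm⟩
  have hcm : ∀ a b : G, ⁅a, b⁆ ∈ commutator G := fun a b =>
    Subgroup.commutator_mem_commutator (Subgroup.mem_top a) (Subgroup.mem_top b)
  have hcen : ∀ d ∈ commutator G, ∀ g : G, g * d = d * g := fun d hd g => (Subgroup.mem_center_iff.mp (hZ hd)) g
  by_contra hcon
  push Not at hcon
  -- so every noncentral element with square in `G'` is an involution
  let K0 : Subgroup G :=
    { carrier := {x | x ^ 2 ∈ commutator G}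
      one_mem' := by simp
      inv_mem' := by
        intro x hx
        change (x⁻¹) ^ 2 ∈ commutator G
        rw [inv_pow]; exact inv_mem hx
      mul_mem' := by
        intro x y hx hy
        change (x * y) ^ 2 ∈ commutator G
        rw [H3.ClassTwo.mul_pow hZ]
        exact mul_mem (mul_mem hx hy) (pow_mem (hcm y x) _) }
  have hK0 : ∀ x, x ∈ K0 ↔ x ^ 2 ∈ commutator G := fun _ => Iff.rfl
  have hK0le : ¬ K0 ≤ center G := by
    intro hle
    -- the squaring map to `G / G'`
    let f : G →* G ⧸ commutator G := MonoidHom.mk' (fun x => QuotientGroup.mk' (commutator G) (x ^ 2)) (by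
      intro x y
      change QuotientGroup.mk' (commutator G) ((x * y) ^ 2) = QuotientGroup.mk' (commutator G) (x ^ 2) * QuotientGroup.mk' (commutator G) (y ^ 2)
      rw [H3.ClassTwo.mul_pow hZ, map_mul, map_mul]
      have : QuotientGroup.mk' (commutator G) (⁅y, x⁆ ^ (Nat.choose 2 2)) = 1 :=
        (QuotientGroup.eq_one_iff _).mpr (pow_mem (hcm y x) _)
      rw [this, mul_one])
    have hf : ∀ x, f x = QuotientGroup.mk' (commutator G) (x ^ 2) := fun _ => rfl
    have hker : f.ker = K0 := by
      ext x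
      rw [MonoidHom.mem_ker, hf, hK0]
      exact QuotientGroup.eq_one_iff _
    have hrange : f.range ≤ (center G).map (QuotientGroup.mk' (commutator G)) := by
      rintro _ ⟨x, rfl⟩
      exact ⟨x ^ 2, pow_mem_center hZ hG' Nat.prime_two x, rfl⟩
    have h1 : Nat.card f.ker * Nat.card f.range = Nat.card G := by
      rw [← Subgroup.index_ker, Subgroup.card_mul_index]
    have h2 : Nat.card f.range ≤ Nat.card ((center G).map (QuotientGroup.mk' (commutator G))) :=
      Nat.le_of_dvd Nat.card_pos (Subgroup.card_dvd_of_le hrange)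
    have h3 := H1.Cores.card_map_mk' (commutator G) (center G) hZ
    rw [hG'] at h3
    have h4 : Nat.card (center G) * 2 ^ 2 ≤ Nat.card G := by
      rw [← (center G).card_mul_index]; exact Nat.mul_le_mul_left _ hidx
    rw [hker] at h1
    -- squaring on `K0`
    let s : K0 →* commutator G := MonoidHom.mk' (fun x => ⟨(x : G) ^ 2, x.2⟩) (by
      intro x y
      apply Subtype.ext
      change ((x : G) * y) ^ 2 = (x : G) ^ 2 * (y : G) ^ 2
      rw [H3.ClassTwo.mul_pow hZ]
      have : ⁅(y : G), (x : G)⁆ = 1 := by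
        rw [commutatorElement_eq_one_iff_mul_comm]
        exact (Subgroup.mem_center_iff.mp (hle x.2)) y
      rw [this, one_pow, mul_one])
    have hs1 : Nat.card s.ker * Nat.card s.range = Nat.card K0 := by
      rw [← Subgroup.index_ker, Subgroup.card_mul_index]
    have hs2 : Nat.card s.range ≤ 2 := by
      rw [← hG']; exact Nat.le_of_dvd Nat.card_pos (Subgroup.card_subgroup_dvd_card _)
    have hs3 : Nat.card s.ker ≤ 2 := by
      rw [← hG', ← Subgroup.card_map_of_injective (f := K0.subtype) K0.subtype_injective]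
      apply Nat.le_of_dvd Nat.card_pos
      apply Subgroup.card_dvd_of_le
      rintro _ ⟨x, hx, rfl⟩
      apply hB _ (hle x.2)
      exact congrArg Subtype.val hx
    have h5 : Nat.card K0 ≤ 4 := by
      rw [← hs1]
      calc _ ≤ 2 * 2 := Nat.mul_le_mul hs3 hs2
        _ = 4 := rfl
    have h6 : Nat.card G ≤ 4 * Nat.card ((center G).map (QuotientGroup.mk' (commutator G))) := by
      rw [← h1]; exact Nat.mul_le_mul h5 h2
    have h7 : 0 < Nat.card ((center G).map (QuotientGroup.mk' (commutator G))) := Nat.card_pos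
    omega
  obtain ⟨c, hcK, hcZ⟩ := Set.not_subset.mp hK0le
  have hc2 : c ^ 2 = 1 := by
    by_contra h
    exact h (hcon c hcZ hcK)
  -- an element not commuting with `c`
  obtain ⟨b, hb⟩ : ∃ b : G, ⁅b, c⁆ ≠ 1 := by
    by_contra h
    push Not at h
    apply hcZ
    rw [SetLike.mem_coe, Subgroup.mem_center_iff]
    intro g
    exact commutatorElement_eq_one_iff_mul_comm.mp (h g)
  have hbc := hcm b c
  have hbc2 := hsq _ hbc
  have ho : orderOf b ≠ 0 := (orderOf_pos b).ne'
  have heven : 2 ∣ orderOf b := by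
    by_contra h
    have hodd : Odd (orderOf b) := Nat.not_even_iff_odd.mp (fun h' => h h'.two_dvd)
    obtain ⟨k, hk⟩ := hodd
    have h1 : ⁅b ^ orderOf b, c⁆ = 1 := by rw [pow_orderOf_eq_one, commutatorElement_one_left]
    rw [H3.ClassTwo.pow_left hZ, hk, pow_succ, pow_mul, hbc2, one_pow, one_mul] at h1
    exact hb h1
  obtain ⟨m, hm⟩ := heven
  have hm0 : m ≠ 0 := by rintro rfl; omega
  by_cases hm2 : 2 ∣ m
  · obtain ⟨l, hl⟩ := hm2
    have hl0 : l ≠ 0 := by rintro rfl; omega
    set w := b ^ l with hw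
    have hw2 : w ^ 2 = (b ^ 2) ^ l := by rw [hw, ← pow_mul, ← pow_mul, mul_comm]
    have hw2Z : w ^ 2 ∈ center G := by
      rw [hw2]; exact pow_mem (pow_mem_center hZ hG' Nat.prime_two b) l
    have hw4 : (w ^ 2) ^ 2 = 1 := by
      rw [hw, ← pow_mul, ← pow_mul]
      have : l * (2 * 2) = orderOf b := by omega
      rw [this, pow_orderOf_eq_one]
    have hw2ne : w ^ 2 ≠ 1 := by
      intro h
      rw [hw, ← pow_mul] at h
      have h1 := orderOf_dvd_of_pow_eq_one h
      have h2 := Nat.le_of_dvd (by omega) h1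
      omega
    have hw2G := hB _ hw2Z hw4
    by_cases hwZ : w ∈ center G
    · have h1 : (c * w) ^ 2 = w ^ 2 := by
        have : Commute c w := (Subgroup.mem_center_iff.mp hwZ) c
        rw [this.mul_pow, hc2, one_mul]
      have h2 : c * w ∉ center G := by
        intro h
        apply hcZ
        have := mul_mem h (inv_mem hwZ)
        rwa [mul_inv_cancel_right] at this
      have h3 := hcon _ h2 (by rw [h1]; exact hw2G)
      rw [h1] at h3
      exact hw2ne h3
    · exact hw2ne (hcon w hwZ hw2G)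
  · have hmodd : Odd m := Nat.not_even_iff_odd.mp (fun h' => hm2 h'.two_dvd)
    set b' := b ^ m with hb'
    have hb'2 : b' ^ 2 = 1 := by
      rw [hb', ← pow_mul, mul_comm, ← hm, pow_orderOf_eq_one]
    have hb'c : ⁅b', c⁆ = ⁅b, c⁆ := by
      obtain ⟨k, hk⟩ := hmodd
      rw [hb', H3.ClassTwo.pow_left hZ, hk, pow_succ, pow_mul, hbc2, one_pow, one_mul]
    have h1 : (c * b') ^ 2 = ⁅b, c⁆ := by
      rw [H3.ClassTwo.mul_pow hZ, hc2, hb'2, one_mul, one_mul, Nat.choose_self, pow_one, hb'c]
    have h2 : c * b' ∉ center G := by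
      intro h
      apply hb
      have h3 : ⁅c * b', c⁆ = 1 := by
        rw [commutatorElement_eq_one_iff_mul_comm]
        exact ((Subgroup.mem_center_iff.mp h) c).symm
      rw [H3.ClassTwo.mul_left hZ, commutatorElement_self, one_mul, hb'c] at h3
      exact h3
    have h3 := hcon _ h2 (by rw [h1]; exact hbc)
    rw [h1] at h3
    exact hb h3

theorem mem_of_pow_coprime (H : Subgroup G) [H.Normal] {y : G} {a b : ℕ} (ha : y ^ a ∈ H) (hb : y ^ b ∈ H) (hab : a.Coprime b) :
    y ∈ H := by
  rw [← QuotientGroup.eq_one_iff] at ha hb ⊢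
  rw [QuotientGroup.mk_pow] at ha hb
  have h1 := orderOf_dvd_of_pow_eq_one ha
  have h2 := orderOf_dvd_of_pow_eq_one hb
  exact orderOf_eq_one_iff.mp (Nat.eq_one_of_dvd_coprimes hab h1 h2)

theorem zmod_two_cases : ∀ a b : ZMod 2, (a = 0 ∨ b = 0) ∨ (a = 1 ∧ b = 1) := by decide

theorem zmod_two_add : ((1 : ZMod 2) + 1) = 0 := by decide

theorem ofAdd_two : ∀ a : Multiplicative (ZMod 2), a ≠ 1 → a = Multiplicative.ofAdd 1 := by decide

/-- case B -/
theorem caseB {p : ℕ} (hp : p.Prime) (hZ : commutator G ≤ center G) (hG' : Nat.card (commutator G) = p)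
    (hidx : p ^ 2 ≤ (center G).index) (hB : ∀ w ∈ center G, w ^ p = 1 → w ∈ commutator G) :
    ∃ M : Subgroup G, M.index = p ∧ center G ≤ M ∧ ∀ x ∉ M, p ^ 2 ≤ Nat.card (MulAction.orbit (MulAut G) x) := by
  have := Fact.mk hp
  have hNZ : NeZero p := ⟨hp.pos.ne'⟩
  obtain ⟨y, hyZ, hy⟩ : ∃ y : G, y ∉ center G ∧ ((p ≠ 2 ∧ y ^ p = 1) ∨ (p = 2 ∧ y ^ 2 ∈ commutator G ∧ y ^ 2 ≠ 1)) := by
    by_cases hp2 : p = 2
    · subst hp2
      obtain ⟨y, hy1, hy2, hy3⟩ := exists_y_two hZ hG' hidx hB
      exact ⟨y, hy1, Or.inr ⟨rfl, hy2, hy3⟩⟩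
    · obtain ⟨y, hy1, hy2⟩ := exists_y_odd hp hp2 hZ hG' hidx hB
      exact ⟨y, hy1, Or.inl ⟨hp2, hy2⟩⟩
  have hle : center G ≤ (kap hZ y).ker := by
    intro z hz
    rw [mem_ker_kap]
    exact ((Subgroup.mem_center_iff.mp hz) y).symm
  refine ⟨(kap hZ y).ker, index_ker_kap hZ hp hG' hyZ, hle, ?_⟩
  have hcM : Nat.card (Multiplicative (ZMod p)) = p := by
    rw [Nat.card_congr Multiplicative.toAdd, Nat.card_zmod]
  obtain ⟨e⟩ : Nonempty (commutator G ≃* Multiplicative (ZMod p)) := ⟨mulEquivOfPrimeCardEq (p := p) hG' hcM⟩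
  obtain ⟨β, hβdef⟩ : ∃ β : G → ZMod p, ∀ x, β x = Multiplicative.toAdd (e (kap hZ y x)) := ⟨_, fun _ => rfl⟩
  obtain ⟨Zf, hZdef⟩ : ∃ Zf : ZMod p → G, ∀ a, Zf a = ((e.symm (Multiplicative.ofAdd a) : commutator G) : G) :=
    ⟨_, fun _ => rfl⟩
  have hβ : ∀ x x', β (x * x') = β x + β x' := by
    intro x x'
    rw [hβdef (x * x'), hβdef x, hβdef x', map_mul, map_mul, toAdd_mul]
  have hZ0 : Zf 0 = 1 := by
    rw [hZdef, ofAdd_zero, map_one]; rfl
  have hZadd : ∀ a b, Zf a * Zf b = Zf (a + b) := by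
    intro a b
    rw [hZdef, hZdef, hZdef, ofAdd_add, map_mul]; rfl
  have hZG : ∀ a, Zf a ∈ commutator G := fun a => by rw [hZdef]; exact (e.symm (Multiplicative.ofAdd a)).2
  have hZc : ∀ a x, Zf a * x = x * Zf a := fun a x => ((Subgroup.mem_center_iff.mp (hZ (hZG a))) x).symm
  have hker0 : ∀ x, x ∈ (kap hZ y).ker ↔ β x = 0 := by
    intro x
    rw [MonoidHom.mem_ker, hβdef, toAdd_eq_zero, MulEquiv.map_eq_one_iff]
  have hβZ : ∀ a, β (Zf a) = 0 := fun a => (hker0 _).mp (hle (hZ (hZG a)))
  obtain ⟨Y, hYdef⟩ : ∃ Y : ZMod p → G, ∀ a, Y a = y ^ a.val := ⟨_, fun _ => rfl⟩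
  have hY0 : Y 0 = 1 := by rw [hYdef, ZMod.val_zero, pow_zero]
  have hβY : ∀ a, β (Y a) = 0 := by
    intro a
    rw [← hker0, mem_ker_kap, hYdef, ← pow_succ, ← pow_succ']
  have hcomm : ∀ x, ⁅x, y⁆ = Zf (β x) := by
    intro x
    rw [hZdef, hβdef, ofAdd_toAdd, MulEquiv.symm_apply_apply]
    rfl
  have hZpow : ∀ (b : ZMod p) (n : ℕ), Zf b ^ n = Zf (n * b) := by
    intro b n
    induction n with
    | zero => rw [pow_zero, Nat.cast_zero, zero_mul, hZ0]
    | succ n ih => rw [pow_succ, ih, hZadd]; congr 1; push_cast; ring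
  have hYx : ∀ a x, Y a * x = x * Y a * Zf (-(a * β x)) := by
    intro a x
    have h1 : ⁅x, y ^ a.val⁆ = Zf (a * β x) := by
      rw [H3.ClassTwo.pow_right hZ, hcomm, hZpow, ZMod.natCast_val, ZMod.cast_id]
    have h2 : x * y ^ a.val = ⁅x, y ^ a.val⁆ * y ^ a.val * x := H3.ClassTwo.mul_eq_comm_mul _ _
    rw [hYdef, h2, h1, mul_assoc (Zf (a * β x)), mul_assoc, hZc]
    rw [mul_assoc, hZadd, neg_add_cancel, hZ0, mul_one]
  -- the automorphism
  obtain ⟨q, hq0, τ, hτ⟩ : ∃ (q : ZMod p → ZMod p) (_ : q 0 = 0) (τ : MulAut G), ∀ x, τ x = x * Y (β x) * Zf (q (β x)) := by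
    rcases hy with ⟨hp2, hyp⟩ | ⟨hp2, hy2, hy2'⟩
    · have h2 : (2 : ZMod p) ≠ 0 := by
        intro h
        have h3 : ((2 : ℕ) : ZMod p) = 0 := by exact_mod_cast h
        rw [ZMod.natCast_eq_zero_iff] at h3
        have h4 := Nat.le_of_dvd (by norm_num) h3
        have := hp.two_le
        omega
      refine ⟨fun a => -(2⁻¹) * a ^ 2, by simp, exists_auto β hβ Zf hZ0 hZadd hZc hβZ Y hY0 hβY hYx (fun _ _ => 0) ?_
        (fun a => -(2⁻¹) * a ^ 2) (by simp) ?_⟩
      · intro a b
        rw [hZ0, mul_one, hYdef, hYdef, hYdef, ← pow_add, ZMod.val_add]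
        exact (pow_mod_orderOf _ _).symm.trans (by
          have h3 : orderOf y ∣ p := orderOf_dvd_of_pow_eq_one hyp
          rw [← pow_mod_orderOf y ((a.val + b.val) % p), Nat.mod_mod_of_dvd _ h3])
      · intro a b
        field_simp
        ring
    · subst hp2
      have hy1 : Zf 1 = y ^ 2 := by
        have h3 : e ⟨y ^ 2, hy2⟩ = Multiplicative.ofAdd 1 := by
          have h4 : e ⟨y ^ 2, hy2⟩ ≠ 1 := by
            intro h
            rw [MulEquiv.map_eq_one_iff] at h
            exact hy2' (congrArg Subtype.val h)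
          exact ofAdd_two _ h4
        rw [hZdef, ← h3, MulEquiv.symm_apply_apply]
      refine ⟨fun _ => 0, rfl, exists_auto β hβ Zf hZ0 hZadd hZc hβZ Y hY0 hβY hYx (fun a b => a * b) ?_
        (fun _ => 0) rfl ?_⟩
      · intro a b
        rw [hYdef, hYdef, hYdef]
        rcases zmod_two_cases a b with (rfl | rfl) | ⟨rfl, rfl⟩
        · simp [hZ0]
        · simp [hZ0]
        · have h6 : ((1 : ZMod 2) + 1) = 0 := zmod_two_add
          have h7 : ((1 : ZMod 2)).val = 1 := rfl
          rw [h6, mul_one, hy1, h7, ZMod.val_zero, pow_zero, one_mul, pow_one, pow_two]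
      · intro a b
        ring
  intro x hx
  have hxZ : x ∉ center G := fun h => hx (hle h)
  have hβx : β x ≠ 0 := fun h => hx ((hker0 x).mpr h)
  apply orbit_ge_sq hZ hp hG' hxZ τ (Y (β x)) (Zf (q (β x))) (hZG _) (hτ x)
  · rw [hτ, hβY, hY0, hq0, hZ0, mul_one, mul_one]
  · intro i hi0 hip hmem
    rw [hYdef, ← pow_mul] at hmem
    apply hyZ
    apply mem_of_pow_coprime (center G) (hZ hmem) (pow_mem_center hZ hG' hp y)
    apply Nat.Coprime.mul_left
    · rw [Nat.coprime_comm, hp.coprime_iff_not_dvd]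
      intro h
      have h1 := Nat.le_of_dvd (Nat.pos_of_ne_zero (by rwa [Ne, ZMod.val_eq_zero])) h
      have h2 := ZMod.val_lt (β x)
      omega
    · rw [Nat.coprime_comm, hp.coprime_iff_not_dvd]
      intro h
      have h1 := Nat.le_of_dvd hi0 h
      omega

/-- Let G be a finite non-abelian group and p the least prime dividing its order. Then the automorphism group of G has at most #G/p orbits on G. -/
theorem result {G : Type*} [Group G] [Finite G] (hna : ¬ IsMulCommutative G) :
    Nat.card (MulAction.orbitRel.Quotient (MulAut G) G) ≤ Nat.card G / (Nat.card G).minFac := by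
  set p := (Nat.card G).minFac with hpdef
  have hG1 : Nat.card G ≠ 1 := by
    intro h
    apply hna
    have := (Nat.card_eq_one_iff_unique.mp h).1
    exact ⟨⟨fun a b => Subsingleton.elim _ _⟩⟩
  have hp : p.Prime := Nat.minFac_prime hG1
  have hmin : ∀ d : ℕ, d ∣ Nat.card G → d ≠ 1 → p ≤ d := by
    intro d hd hd1
    have h1 : d.minFac.Prime := Nat.minFac_prime hd1
    exact (Nat.minFac_le_of_dvd h1.two_le ((Nat.minFac_dvd d).trans hd)).trans
      (Nat.minFac_le (Nat.pos_of_dvd_of_pos hd Nat.card_pos))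
  rw [Nat.le_div_iff_mul_le hp.pos]
  have hG'1 : Nat.card (commutator G) ≠ 1 := by
    intro h
    apply hna
    have h1 : commutator G = ⊥ := Subgroup.card_eq_one.mp h
    constructor
    constructor
    intro a b
    have h2 : ⁅a, b⁆ ∈ commutator G := Subgroup.commutator_mem_commutator (Subgroup.mem_top a) (Subgroup.mem_top b)
    rw [h1, Subgroup.mem_bot] at h2
    exact commutatorElement_eq_one_iff_mul_comm.mp h2
  have hge : p ≤ Nat.card (commutator G) := hmin _ (Subgroup.card_subgroup_dvd_card _) hG'1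
  rcases hge.lt_or_eq with hlt | heq
  · have h1 := H71.AutCount.card_conjClasses_mul_le hp.two_le hmin hlt
    refine le_trans (Nat.mul_le_mul_right _ ?_) h1
    apply Nat.card_le_card_of_surjective (fun c : ConjClasses G => Quotient.liftOn c
      (fun x => (Quotient.mk'' x : MulAction.orbitRel.Quotient (MulAut G) G)) (by
        intro a b hab
        obtain ⟨g, hg⟩ := isConj_iff.mp hab
        apply Quotient.sound'
        rw [MulAction.orbitRel_apply]
        refine ⟨MulAut.conj g⁻¹, ?_⟩
        change g⁻¹ * b * g⁻¹⁻¹ = a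
        rw [← hg]; group))
    intro ω
    obtain ⟨x, rfl⟩ := Quotient.mk''_surjective ω
    exact ⟨ConjClasses.mk x, rfl⟩
  · have hG' : Nat.card (commutator G) = p := heq.symm
    have hZ : commutator G ≤ center G := le_center hp hmin _ hG'
    have hidx := index_center_ge hmin hna
    obtain ⟨M, hM1, hM2, hM3⟩ : ∃ M : Subgroup G, M.index = p ∧ center G ≤ M ∧
        ∀ x ∉ M, p ^ 2 ≤ Nat.card (MulAction.orbit (MulAut G) x) := by
      by_cases hB : ∀ w ∈ center G, w ^ p = 1 → w ∈ commutator G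
      · exact caseB hp hZ hG' hidx hB
      · push Not at hB
        obtain ⟨w, hwZ, hwp, hwG⟩ := hB
        have := Fact.mk hp
        apply caseA hp hZ hG' hna hwZ _ hwG
        apply orderOf_eq_prime hwp
        rintro rfl
        exact hwG (one_mem _)
    exact H71.AutCount.orbits_mul_le hp.two_le (center G) M hM1 hidx (fun x hx => orbit_ge_p hZ hp hG' hx) hM3 hM2

end Cfsg.Agent.S4067
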