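import Mathlib
import Cfsg.Statements.S4068
import Cfsg.Agent.Lib.H71.FourOrbits4

set_option autoImplicit false
open Cfsg

namespace Cfsg.Agent.S4068

open H71.FourOrbits

variable {G : Type*} [Group G] [Finite G] {p : Fin 3 → ℕ}

/-- a nontrivial element fixes at most two Sylow `2`-subgroups -/
theorem fix (H : Hyp G p) (h0 : p 0 = 2) [Fact (p 0).Prime]
    (hX : ∀ P : Sylow (p 0) G, Nat.card (Sylow (p 0) G) = Nat.card (P : Subgroup G) + 1)
    (y : G) (P P' P'' : Sylow (p 0) G) (h1 : P ≠ P') (h2 : P ≠ P'') (h3 : P' ≠ P'') (hy1 : y • P = P)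
    (hy2 : y • P' = P') (hy3 : y • P'' = P'') : y = 1 := by
  classical
  have hC : ∀ Q : Sylow (p 0) G, ∀ x ∈ (Q : Subgroup G), x ≠ 1 → Subgroup.centralizer {x} = (Q : Subgroup G) :=
    fun Q => H.centralizer_of_abelian 0 Q (H.abelian_of_two 0 h0 Q)
  -- a 2-element of P fixing another Sylow is trivial
  have hfix : ∀ P Q : Sylow (p 0) G, P ≠ Q → ∀ s ∈ (P : Subgroup G), s • Q = Q → s = 1 := by
    intro P Q hPQ s hs hsQ
    by_contra hs1
    have hsn := Sylow.smul_eq_iff_mem_normalizer.1 hsQ
    have h4 : s ∈ (P : Subgroup G) ⊓ Subgroup.normalizer ((Q : Subgroup G) : Set G) := ⟨hs, hsn⟩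
    have h5 : s ∈ (Q : Subgroup G) := by
      have h6 := P.2.inf_normalizer_sylow Q
      have h7 : s ∈ (P : Subgroup G) ⊓ (Q : Subgroup G) := by
        have : (P : Subgroup G) ⊓ Subgroup.normalizer (Q : Set G) = (P : Subgroup G) ⊓ (Q : Subgroup G) := h6
        rw [← this]; exact h4
      exact h7.2
    apply hPQ
    apply Sylow.ext
    rw [← hC P s hs hs1, hC Q s h5 hs1]
  -- transitivity
  have htr : ∃ s ∈ (P : Subgroup G), s • P' = P'' := by
    let f : ↥(P : Subgroup G) → {Q : Sylow (p 0) G // Q ≠ P} := fun s => ⟨(s : G) • P', fun h => h1 (by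
      have h4 : (s : G)⁻¹ • P = P := by
        rw [Sylow.smul_eq_iff_mem_normalizer]
        exact Subgroup.le_normalizer ((P : Subgroup G).inv_mem s.2)
      have h5 : (s : G)⁻¹ • P = P' := by rw [inv_smul_eq_iff]; exact h.symm
      exact h4.symm.trans h5)⟩
    have hf : Function.Injective f := by
      intro s t hst
      have h4 : (s : G) • P' = (t : G) • P' := congrArg Subtype.val hst
      have h5 : ((t : G)⁻¹ * s) • P' = P' := by rw [mul_smul, h4, inv_smul_smul]
      have h6 := hfix P P' h1 _ ((P : Subgroup G).mul_mem ((P : Subgroup G).inv_mem t.2) s.2) h5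
      apply Subtype.ext
      rw [inv_mul_eq_one] at h6
      exact h6.symm
    have hcard : Nat.card {Q : Sylow (p 0) G // Q ≠ P} = Nat.card (P : Subgroup G) := by
      haveI := Fintype.ofFinite (Sylow (p 0) G)
      have h4 : Nat.card {Q : Sylow (p 0) G // Q ≠ P} = Nat.card (Sylow (p 0) G) - 1 := by
        rw [Nat.card_eq_fintype_card, Nat.card_eq_fintype_card, Fintype.card_subtype_compl, Fintype.card_subtype_eq]
      rw [h4, hX P, Nat.add_sub_cancel]
    have hb : Function.Bijective f := (Nat.bijective_iff_injective_and_card f).2 ⟨hf, hcard.symm⟩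
    obtain ⟨s, hs⟩ := hb.2 ⟨P'', h2.symm⟩
    exact ⟨s, s.2, congrArg Subtype.val hs⟩
  obtain ⟨s, hs, hsP⟩ := htr
  have hs1 : s ≠ 1 := by rintro rfl; rw [one_smul] at hsP; exact h3 hsP
  have hyn := Sylow.smul_eq_iff_mem_normalizer.1 hy1
  have hys : y * s * y⁻¹ ∈ (P : Subgroup G) := (Subgroup.mem_normalizer_iff.1 hyn s).1 hs
  have h4 : (s⁻¹ * (y * s * y⁻¹)) • P' = P' := by
    have h5 : y⁻¹ • P' = P' := by rw [inv_smul_eq_iff, hy2]
    rw [mul_smul, mul_smul, mul_smul, h5, hsP, hy3, ← hsP, inv_smul_smul]
  have h5 := hfix P P' h1 _ ((P : Subgroup G).mul_mem ((P : Subgroup G).inv_mem hs) hys) h4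
  have h6 : y * s = s * y := by
    rw [inv_mul_eq_one, eq_mul_inv_iff_mul_eq] at h5
    exact h5.symm
  have h7 : y ∈ (P : Subgroup G) := by
    rw [← hC P s hs hs1, Subgroup.mem_centralizer_singleton_iff]
    exact h6
  exact hfix P P' h1 y h7 hy2

theorem main (H : Hyp G p) (h0 : p 0 = 2) : Nonempty (G ≃* alternatingGroup (Fin 5)) := by
  classical
  haveI := Fact.mk (H.prime 0)
  haveI := Fintype.ofFinite (Sylow (p 0) G)
  obtain ⟨P0⟩ : Nonempty (Sylow (p 0) G) := inferInstance
  obtain ⟨hcard, hN⟩ := H.card h0 P0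
  have hNi : Nat.card (Sylow (p 0) G) = (Subgroup.normalizer ((P0 : Subgroup G) : Set G)).index :=
    Sylow.card_eq_index_normalizer P0
  have hci := (Subgroup.normalizer ((P0 : Subgroup G) : Set G)).card_mul_index
  rw [← hNi] at hci
  rcases hcard with ⟨hc1, hc2⟩ | ⟨hc1, hc2⟩
  · -- order 60
    have hX : Nat.card (Sylow (p 0) G) = 5 := by
      rw [hN, hc1, hc2] at hci
      omega
    have hX' : ∀ P : Sylow (p 0) G, Nat.card (Sylow (p 0) G) = Nat.card (P : Subgroup G) + 1 := by
      intro P
      rw [hX, Nat.card_congr (Sylow.equiv P P0).toEquiv, hc1]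
    have hXf : Fintype.card (Sylow (p 0) G) = 5 := by rw [← Nat.card_eq_fintype_card, hX]
    let e : Sylow (p 0) G ≃ Fin 5 := Fintype.equivFinOfCardEq hXf
    let φ : G →* Equiv.Perm (Fin 5) := e.permCongrHom.toMonoidHom.comp (MulAction.toPermHom G (Sylow (p 0) G))
    have hφ : Function.Injective φ := by
      rw [injective_iff_map_eq_one]
      intro y hy
      have h1 : ∀ Q : Sylow (p 0) G, y • Q = Q := by
        intro Q
        have h2 : MulAction.toPermHom G (Sylow (p 0) G) y = 1 := by
          apply e.permCongrHom.injective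
          rw [map_one]; exact hy
        exact congrArg (fun f : Equiv.Perm (Sylow (p 0) G) => f Q) h2
      exact fix H h0 hX' y (e.symm 0) (e.symm 1) (e.symm 2) (fun h => by simpa using e.symm.injective h)
        (fun h => by simpa using e.symm.injective h) (fun h => by simpa using e.symm.injective h) (h1 _) (h1 _) (h1 _)
    have hindex : φ.range.index = 2 := by
      have h1 := φ.range.card_mul_index
      have h2 : Nat.card φ.range = 60 := by
        rw [← hc2]; exact (Nat.card_congr (MonoidHom.ofInjective hφ).toEquiv).symm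
      rw [h2, Nat.card_perm, Nat.card_eq_fintype_card, Fintype.card_fin] at h1
      have h3 : Nat.factorial 5 = 120 := rfl
      omega
    have hr := Equiv.Perm.eq_alternatingGroup_of_index_eq_two hindex
    exact ⟨(MonoidHom.ofInjective hφ).trans (MulEquiv.subgroupCongr hr)⟩
  · -- order 504
    exfalso
    have hX : Nat.card (Sylow (p 0) G) = 9 := by
      rw [hN, hc1, hc2] at hci
      omega
    have hX' : ∀ P : Sylow (p 0) G, Nat.card (Sylow (p 0) G) = Nat.card (P : Subgroup G) + 1 := by
      intro P
      rw [hX, Nat.card_congr (Sylow.equiv P P0).toEquiv, hc1]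
    have hXf : Fintype.card (Sylow (p 0) G) = 9 := by rw [← Nat.card_eq_fintype_card, hX]
    obtain ⟨i, hi⟩ := H.prime_dvd Nat.prime_three (by rw [hc2]; norm_num)
    have hi0 : i ≠ 0 := by
      rintro rfl
      rw [h0] at hi; omega
    have hfact : ∀ i, Fact (p i).Prime := fun i => ⟨H.prime i⟩
    have hne : ∀ i, Nonempty (Sylow (p i) G) := fun i => inferInstance
    let P : ∀ i, Sylow (p i) G := fun i => (hne i).some
    have habi := H.abelian h0 P i hi0
    obtain ⟨k, o, hk, hkN, hko, -⟩ := H.index_prime i (P i) habi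
    have hP9 : Nat.card (P i : Subgroup G) = 9 := by
      have h1 := (P i).card_eq_multiplicity
      rw [h1, ← hi, hc2]
      have h2 : (504 : ℕ) = 3 ^ 2 * 56 := by norm_num
      rw [h2, Nat.factorization_mul (by norm_num) (by norm_num), Finsupp.add_apply, Nat.prime_three.factorization_pow,
        Nat.factorization_eq_zero_of_not_dvd (n := 56) (by norm_num)]
      simp
    have hk2 : k = 2 := by
      have h1 : k ∣ 2 ^ 3 := ⟨o, by rw [hko, hP9]; rfl⟩
      exact (Nat.prime_dvd_prime_iff_eq hk Nat.prime_two).1 (hk.dvd_of_dvd_pow h1)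
    have hci3 := (Subgroup.normalizer ((P i : Subgroup G) : Set G)).card_mul_index
    rw [hkN, hP9, hk2, hc2] at hci3
    have hn28 : (Subgroup.normalizer ((P i : Subgroup G) : Set G)).index = 28 := by omega
    -- elements of order three: at least 224
    let D : Unit → Subgroup G := fun _ => (P i : Subgroup G)
    let N : Unit → Subgroup G := fun _ => Subgroup.normalizer ((P i : Subgroup G) : Set G)
    have hinj : Function.Injective (H71.TICount.conjMap D N) := by
      apply H71.TICount.conjMap_injective
      intro _ _ k d hd hd1 hkd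
      refine ⟨rfl, ?_⟩
      have hkd1 : k * d * k⁻¹ ≠ 1 := by
        intro h
        apply hd1
        have : d = k⁻¹ * (k * d * k⁻¹) * k := by group
        rw [this, h]; group
      have hC := H.centralizer_of_abelian i (P i) habi
      have h1 := hC d hd hd1
      have h2 := hC _ hkd hkd1
      change k ∈ Subgroup.normalizer ((P i : Subgroup G) : Set G)
      rw [mem_normalizer_iff_map]
      rw [centralizer_conj, h1] at h2
      exact h2
    let E := {x : G // orderOf x = 3}
    let F : (Σ j, (G ⧸ N j) × {d : D j // d ≠ 1}) → E := fun z => ⟨(H71.TICount.conjMap D N z).1, by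
      change orderOf (z.2.1.out * (z.2.2.1 : G) * z.2.1.out⁻¹) = 3
      have h1 := orderOf_injective (MulAut.conj z.2.1.out).toMonoidHom (MulAut.conj z.2.1.out).injective (z.2.2.1 : G)
      have h2 : orderOf (z.2.2.1 : G) = p i :=
        H.order_of_mem i _ (P i).isPGroup' _ z.2.2.1.2 (fun h => z.2.2.2 (Subtype.ext h))
      rw [← hi] at h2
      rw [← h2]
      simpa using h1⟩
    have hFinj : Function.Injective F := by
      intro a b hab
      apply hinj
      apply Subtype.ext
      exact congrArg (fun e : E => (e : G)) hab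
    have hE : 224 ≤ Nat.card E := by
      have h1 := Nat.card_le_card_of_injective F hFinj
      rw [H71.TICount.card_sigma] at h1
      have h2 : ∑ j : Unit, (N j).index * (Nat.card (D j) - 1) = 28 * (9 - 1) := by
        rw [Fintype.sum_unique]
        change (Subgroup.normalizer ((P i : Subgroup G) : Set G)).index * (Nat.card (P i : Subgroup G) - 1) = _
        rw [hn28, hP9]
      omega
    -- elements of order three fix no point
    have hnofix : ∀ x : G, orderOf x = 3 → ∀ Q : Sylow (p 0) G, x • Q ≠ Q := by
      intro x hx Q hQ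
      have h1 := Sylow.smul_eq_iff_mem_normalizer.1 hQ
      obtain ⟨-, hNQ⟩ := H.card h0 Q
      rw [Nat.card_congr (Sylow.equiv Q P0).toEquiv, hc1] at hNQ
      have h2 : orderOf x ∣ Nat.card (Subgroup.normalizer ((Q : Subgroup G) : Set G)) :=
        Subgroup.orderOf_dvd_natCard _ h1
      rw [hx, hNQ] at h2
      omega
    have h3 : ∀ x : E, (x : G) ^ 3 = 1 := fun x => orderOf_dvd_iff_pow_eq_one.1 x.2.dvd
    let T : E × Sylow (p 0) G → (Fin 3 ↪ Sylow (p 0) G) := fun z =>
      ⟨![z.2, (z.1 : G) • z.2, (z.1 : G) • (z.1 : G) • z.2], by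
        have a1 : (z.1 : G) • z.2 ≠ z.2 := hnofix _ z.1.2 _
        have a2 : (z.1 : G) • (z.1 : G) • z.2 ≠ (z.1 : G) • z.2 := hnofix _ z.1.2 _
        have a3 : (z.1 : G) • (z.1 : G) • z.2 ≠ z.2 := by
          intro h
          apply a1
          have h4 : (z.1 : G) ^ 3 • z.2 = (z.1 : G) • z.2 := by
            rw [pow_succ', pow_two, mul_smul, mul_smul, h]
          rw [h3, one_smul] at h4
          exact h4.symm
        intro a b hab
        fin_cases a <;> fin_cases b <;> first | rfl | exact absurd hab a1 | exact absurd hab a1.symm | exact absurd hab a2 | exact absurd hab a2.symm | exact absurd hab a3 | exact absurd hab a3.symm⟩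
    have hT : Function.Injective T := by
      rintro ⟨x, Q⟩ ⟨x', Q'⟩ h
      have g0 : Q = Q' := congrArg (fun f : Fin 3 ↪ Sylow (p 0) G => f 0) h
      subst g0
      have g1 : (x : G) • Q = (x' : G) • Q := congrArg (fun f : Fin 3 ↪ Sylow (p 0) G => f 1) h
      have g2 : (x : G) • (x : G) • Q = (x' : G) • (x' : G) • Q := congrArg (fun f : Fin 3 ↪ Sylow (p 0) G => f 2) h
      have a1 : (x : G) • Q ≠ Q := hnofix _ x.2 _
      have a2 : (x : G) • (x : G) • Q ≠ (x : G) • Q := hnofix _ x.2 _
      have a3 : (x : G) • (x : G) • Q ≠ Q := by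
        intro h
        apply a1
        have h4 : (x : G) ^ 3 • Q = (x : G) • Q := by
          rw [pow_succ', pow_two, mul_smul, mul_smul, h]
        rw [h3, one_smul] at h4
        exact h4.symm
      have h5 : (x : G)⁻¹ * x' = 1 := by
        apply fix H h0 hX' _ Q ((x : G) • Q) ((x : G) • (x : G) • Q) a1.symm a3.symm a2.symm
        · rw [mul_smul, ← g1, inv_smul_smul]
        · rw [mul_smul, g1, ← g2, inv_smul_smul, g1]
        · have h6 : (x : G) • (x : G) • (x : G) • Q = Q := by
            rw [← mul_smul, ← mul_smul, ← pow_two, ← pow_succ, h3, one_smul]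
          have h7 : (x' : G) • (x' : G) • (x' : G) • Q = Q := by
            rw [← mul_smul, ← mul_smul, ← pow_two, ← pow_succ, h3, one_smul]
          rw [mul_smul, g2, inv_smul_eq_iff, h7, ← g2, h6]
      rw [inv_mul_eq_one] at h5
      have h6 : x = x' := Subtype.ext h5
      rw [h6]
    have hle := Nat.card_le_card_of_injective T hT
    rw [Nat.card_prod, hX] at hle
    have h8 : Nat.card (Fin 3 ↪ Sylow (p 0) G) = 504 := by
      rw [Nat.card_eq_fintype_card, Fintype.card_embedding_eq, hXf, Fintype.card_fin]
      rfl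
    rw [h8] at hle
    omega

/-- A finite non-solvable group on which its automorphism group has exactly four orbits is isomorphic to the alternating group of degree 5. -/
theorem result {G : Type*} [Group G] [Finite G] (hns : ¬ Group.IsSolvable G)
    (h4 : Nat.card (MulAction.orbitRel.Quotient (MulAut G) G) = 4) : Nonempty (G ≃* alternatingGroup (Fin 5)) := by
  classical
  -- at least three primes
  have hex : ∃ p : Fin 3 → ℕ, (∀ i, (p i).Prime) ∧ Function.Injective p ∧ ∀ i, p i ∣ Nat.card G := by
    have h3 : 3 ≤ (Nat.card G).primeFactors.card := by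
      by_contra hlt
      push Not at hlt
      apply hns
      have h5 : ∃ a b : ℕ, a.Prime ∧ b.Prime ∧ ∀ s ∈ (Nat.card G).primeFactors, s = a ∨ s = b := by
        rcases Nat.eq_zero_or_pos (Nat.card G).primeFactors.card with h | h
        · refine ⟨2, 2, Nat.prime_two, Nat.prime_two, fun s hs => ?_⟩
          rw [Finset.card_eq_zero] at h
          rw [h] at hs
          simp at hs
        · rcases (show (Nat.card G).primeFactors.card = 1 ∨ (Nat.card G).primeFactors.card = 2 by omega) with h | h
          · obtain ⟨a, ha⟩ := Finset.card_eq_one.1 h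
            have haP : a.Prime := Nat.prime_of_mem_primeFactors (by rw [ha]; exact Finset.mem_singleton_self a)
            refine ⟨a, a, haP, haP, fun s hs => ?_⟩
            rw [ha, Finset.mem_singleton] at hs
            left; exact hs
          · obtain ⟨a, b, -, hab⟩ := Finset.card_eq_two.1 h
            have haP : a.Prime := Nat.prime_of_mem_primeFactors (n := Nat.card G) (by rw [hab]; simp)
            have hbP : b.Prime := Nat.prime_of_mem_primeFactors (n := Nat.card G) (by rw [hab]; simp)
            refine ⟨a, b, haP, hbP, fun s hs => ?_⟩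
            rw [hab] at hs
            simpa using hs
      obtain ⟨a, b, ha, hb, hab⟩ := h5
      apply isSolvable_of_two ha hb
      intro s hs hsd
      exact hab s (Nat.mem_primeFactors.2 ⟨hs, hsd, Nat.card_pos.ne'⟩)
    obtain ⟨t, ht, htc⟩ := Finset.exists_subset_card_eq h3
    let e := t.equivFinOfCardEq htc
    refine ⟨fun i => (e.symm i : ℕ), fun i => Nat.prime_of_mem_primeFactors (ht (e.symm i).2), ?_, fun i =>
      Nat.dvd_of_mem_primeFactors (ht (e.symm i).2)⟩
    intro i j hij
    exact e.symm.injective (Subtype.ext hij)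
  obtain ⟨p, hp, hpinj, hpd⟩ := hex
  have hx : ∀ i, ∃ x : G, orderOf x = p i := by
    intro i
    haveI := Fact.mk (hp i)
    exact exists_prime_orderOf_dvd_card' (G := G) (p i) (hpd i)
  choose x hx using hx
  let f : Option (Fin 3) → G := fun o => o.elim 1 x
  let P : Option (Fin 3) → ℕ := fun o => o.elim 1 p
  have hP : ∀ o, orderOf (f o) = P o := by
    intro o
    rcases o with _ | i
    · exact orderOf_one
    · exact hx i
  have hPinj : Function.Injective P := by
    intro a b hab
    rcases a with _ | i <;> rcases b with _ | j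
    · rfl
    · exact absurd hab (hp j).one_lt.ne
    · exact absurd hab (hp i).one_lt.ne'
    · exact congrArg some (hpinj hab)
  have hall := H71.AutOrbit.exists_of_card_eq (G := G) (ι := Option (Fin 3)) f (by
    rw [h4, Nat.card_eq_fintype_card]; rfl) (by
    rintro i j ⟨α, hα⟩
    apply hPinj
    rw [← hP, ← hP, ← hα, MulEquiv.orderOf_eq])
  have H : Hyp G p := by
    refine ⟨hp, hpinj, hpd, ?_, ?_, hns⟩
    · intro g hg
      obtain ⟨o, α, hα⟩ := hall g
      rcases o with _ | i
      · exfalso; apply hg; rw [← hα]; exact map_one α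
      · refine ⟨i, ?_⟩
        rw [← hα, MulEquiv.orderOf_eq]; exact hx i
    · intro u v huv
      obtain ⟨i, α, hα⟩ := hall u
      obtain ⟨j, β, hβ⟩ := hall v
      have hij : i = j := by
        apply hPinj
        have e1 := MulEquiv.orderOf_eq α (f i)
        have e2 := MulEquiv.orderOf_eq β (f j)
        rw [hα] at e1
        rw [hβ] at e2
        rw [← hP, ← hP, ← e1, ← e2, huv]
      subst hij
      refine ⟨β * α⁻¹, ?_⟩
      rw [MulAut.mul_apply, ← hα, MulAut.inv_apply_self, hβ]
  obtain ⟨i, hi⟩ := H.exists_two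
  have H' := H.comp (Equiv.swap 0 i)
  exact main H' (by change p (Equiv.swap 0 i 0) = 2; rw [Equiv.swap_apply_left, hi])

end Cfsg.Agent.S4068
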