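import Mathlib
import Cfsg.Statements.S4071
import Cfsg.Agent.Lib.H71.Basic
import Cfsg.Agent.Lib.H71.Basic2

set_option autoImplicit false
open Cfsg
open scoped Pointwise

namespace Cfsg.Agent.S4071

theorem conj_pow_eq {G : Type*} [Group G] {g d w : G} (h : g * d * g⁻¹ = w⁻¹ * d) (hw : g * w = w * g) (k : ℕ) :
    g ^ k * d * (g ^ k)⁻¹ = (w ^ k)⁻¹ * d := by
  induction k with
  | zero => simp
  | succ k ih =>
    have h1 : g * (w ^ k)⁻¹ = (w ^ k)⁻¹ * g := by
      have : Commute g (w ^ k)⁻¹ := (Commute.pow_right hw k).inv_right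
      exact this
    calc g ^ (k + 1) * d * (g ^ (k + 1))⁻¹ = g * (g ^ k * d * (g ^ k)⁻¹) * g⁻¹ := by rw [pow_succ']; group
      _ = g * ((w ^ k)⁻¹ * d) * g⁻¹ := by rw [ih]
      _ = (w ^ k)⁻¹ * (g * d * g⁻¹) := by
        calc g * ((w ^ k)⁻¹ * d) * g⁻¹ = (g * (w ^ k)⁻¹) * d * g⁻¹ := by group
          _ = (w ^ k)⁻¹ * g * d * g⁻¹ := by rw [h1]
          _ = _ := by group
      _ = (w ^ k)⁻¹ * (w⁻¹ * d) := by rw [h]
      _ = (w ^ (k + 1))⁻¹ * d := by rw [pow_succ' w k, mul_inv_rev]; group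

theorem eq_one_of {G : Type*} [Group G] [Finite G] {g d w : G} (h : g * d * g⁻¹ = w⁻¹ * d) (hw : g * w = w * g)
    (hg : (orderOf g).Coprime (orderOf w)) : w = 1 := by
  have h1 := conj_pow_eq h hw (orderOf g)
  rw [pow_orderOf_eq_one, inv_one, mul_one, one_mul] at h1
  have h2 : w ^ orderOf g = 1 := by
    have h3 : (w ^ orderOf g)⁻¹ = 1 := mul_eq_right.1 h1.symm
    rwa [inv_eq_one] at h3
  have h3 : orderOf w ∣ orderOf g := orderOf_dvd_of_pow_eq_one h2
  rw [← orderOf_eq_one_iff]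
  exact Nat.eq_one_of_dvd_coprimes hg h3 dvd_rfl

theorem backward {G : Type*} [Group G] [Finite G] (x : G) (A : Subgroup G) (p : ℕ) (hp : p.Prime) (hA : A.Normal)
    (hAab : IsMulCommutative A) (hx : ∃ k : ℕ, orderOf x = p ^ k) (hpA : ¬ p ∣ Nat.card A)
    (hC : (Subgroup.zpowers x).IsComplement' A) (hxp : x ^ p ∈ Subgroup.center G)
    (hfpf : ∀ a : G, a ∈ A → a ≠ 1 → x * a * x⁻¹ ≠ a) (H : Subgroup G) (hH : ¬ IsMulCommutative H) :
    Subgroup.normalizer (H : Set G) = H := by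
  classical
  have hcommA : ∀ a ∈ A, ∀ b ∈ A, a * b = b * a := fun a ha b hb =>
    congrArg Subtype.val (hAab.is_comm.comm ⟨a, ha⟩ ⟨b, hb⟩)
  -- every element is x^i a
  have hdec : ∀ g : G, ∃ i : ℕ, ∃ a ∈ A, g = x ^ i * a := by
    intro g
    obtain ⟨⟨⟨y, hy⟩, ⟨a, ha⟩⟩, hg⟩ := hC.2 g
    have hg' : y * a = g := hg
    rw [SetLike.mem_coe, ← mem_powers_iff_mem_zpowers] at hy
    obtain ⟨i, rfl⟩ := hy
    exact ⟨i, a, ha, hg'.symm⟩
  -- powers x^i with p ∣ i are central
  have hcen : ∀ i : ℕ, p ∣ i → x ^ i ∈ Subgroup.center G := by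
    rintro _ ⟨c, rfl⟩
    rw [pow_mul]; exact Subgroup.pow_mem _ hxp c
  -- there is an element h = x^i a in H with p ∤ i
  have hex : ∃ h ∈ H, ∃ i : ℕ, ∃ a ∈ A, ¬ p ∣ i ∧ h = x ^ i * a := by
    by_contra hno
    push Not at hno
    apply hH
    refine ⟨⟨?_⟩⟩
    rintro ⟨g, hg⟩ ⟨h, hh⟩
    apply Subtype.ext
    change g * h = h * g
    obtain ⟨i, a, ha, hga⟩ := hdec g
    obtain ⟨j, b, hb, hhb⟩ := hdec h
    have hi : p ∣ i := by by_contra hi; exact hno g hg i a ha hi hga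
    have hj : p ∣ j := by by_contra hj; exact hno h hh j b hb hj hhb
    have c1 := Subgroup.mem_center_iff.1 (hcen i hi)
    have c2 := Subgroup.mem_center_iff.1 (hcen j hj)
    rw [hga, hhb]
    calc x ^ i * a * (x ^ j * b) = x ^ i * (a * x ^ j) * b := by group
      _ = x ^ i * (x ^ j * a) * b := by rw [c2 a]
      _ = (x ^ i * x ^ j) * (a * b) := by group
      _ = (x ^ j * x ^ i) * (b * a) := by rw [hcommA a ha b hb, c2 (x ^ i)]
      _ = x ^ j * (x ^ i * b) * a := by group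
      _ = x ^ j * (b * x ^ i) * a := by rw [c1 b]
      _ = _ := by group
  obtain ⟨h, hh, i, a0, ha0, hi, hha⟩ := hex
  -- x is a power of x^i
  have hcop : (orderOf x).Coprime i := by
    obtain ⟨k, hk⟩ := hx
    rw [hk]
    exact Nat.Coprime.pow_left k ((hp.coprime_iff_not_dvd).2 hi)
  obtain ⟨j, hj⟩ : ∃ j : ℕ, (x ^ i) ^ j = x := exists_pow_eq_self_of_coprime hcop.symm
  -- h acts fixed point freely on A
  have hhA : ∀ a ∈ A, h * a * h⁻¹ = x ^ i * a * (x ^ i)⁻¹ := by
    intro a ha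
    rw [hha]
    calc x ^ i * a0 * a * (x ^ i * a0)⁻¹ = x ^ i * (a0 * a) * a0⁻¹ * (x ^ i)⁻¹ := by group
      _ = x ^ i * (a * a0) * a0⁻¹ * (x ^ i)⁻¹ := by rw [hcommA a0 ha0 a ha]
      _ = _ := by group
  have hfix : ∀ a ∈ A, h * a * h⁻¹ = a → a = 1 := by
    intro a ha hfa
    by_contra ha1
    rw [hhA a ha] at hfa
    apply hfpf a ha ha1
    have h1 : Commute (x ^ i) a := by
      rw [mul_inv_eq_iff_eq_mul] at hfa
      exact hfa
    have h2 : Commute x a := by
      have := h1.pow_left j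
      rwa [hj] at this
    rw [h2.eq, mul_inv_cancel_right]
  -- G = H A
  have hHA : ∀ g : G, ∃ h' ∈ H, ∃ a ∈ A, g = h' * a := by
    have htop : H ⊔ A = ⊤ := by
      rw [eq_top_iff]
      intro g _
      obtain ⟨k, a, ha, rfl⟩ := hdec g
      have hxi : x ^ i ∈ H ⊔ A := by
        have : x ^ i = h * a0⁻¹ := by rw [hha]; group
        rw [this]
        exact Subgroup.mul_mem _ ((le_sup_left : H ≤ H ⊔ A) hh) ((le_sup_right : A ≤ H ⊔ A) (A.inv_mem ha0))
      have hx' : x ∈ H ⊔ A := by rw [← hj]; exact Subgroup.pow_mem _ hxi j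
      exact Subgroup.mul_mem _ (Subgroup.pow_mem _ hx' k) ((le_sup_right : A ≤ H ⊔ A) ha)
    intro g
    have hg : g ∈ ((H ⊔ A : Subgroup G) : Set G) := by rw [htop]; trivial
    rw [Subgroup.mul_normal H A] at hg
    obtain ⟨h', hh', a, ha, hg'⟩ := Set.mem_mul.1 hg
    exact ⟨h', hh', a, ha, hg'.symm⟩
  apply le_antisymm _ Subgroup.le_normalizer
  intro g hg
  obtain ⟨h', hh', a', ha', rfl⟩ := hHA g
  have ha'N : a' ∈ Subgroup.normalizer (H : Set G) := by
    have := Subgroup.mul_mem _ (Subgroup.le_normalizer (H.inv_mem hh')) hg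
    rwa [inv_mul_cancel_left] at this
  apply H.mul_mem hh'
  -- the map δ
  let B : Subgroup G := H ⊓ A
  have hBA : ∀ b : B, (b : G) ∈ A := fun b => b.2.2
  have hBH : ∀ b : B, (b : G) ∈ H := fun b => b.2.1
  let δ : B → B := fun b => ⟨h * b * h⁻¹ * (b : G)⁻¹,
    ⟨H.mul_mem (H.mul_mem (H.mul_mem hh (hBH b)) (H.inv_mem hh)) (H.inv_mem (hBH b)),
      A.mul_mem (hA.conj_mem _ (hBA b) h) (A.inv_mem (hBA b))⟩⟩
  have hδ : Function.Injective δ := by
    intro b c hbc
    have h1 : h * b * h⁻¹ * (b : G)⁻¹ = h * c * h⁻¹ * (c : G)⁻¹ := congrArg Subtype.val hbc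
    have h2 : h * ((c : G)⁻¹ * b) * h⁻¹ = (c : G)⁻¹ * b := by
      have h3 : h * (b : G) * h⁻¹ = h * c * h⁻¹ * ((c : G)⁻¹ * b) := by
        calc h * (b : G) * h⁻¹ = (h * b * h⁻¹ * (b : G)⁻¹) * b := by group
          _ = (h * c * h⁻¹ * (c : G)⁻¹) * b := by rw [h1]
          _ = _ := by group
      calc h * ((c : G)⁻¹ * b) * h⁻¹ = (h * c * h⁻¹)⁻¹ * (h * (b : G) * h⁻¹) := by group
        _ = (h * c * h⁻¹)⁻¹ * (h * c * h⁻¹ * ((c : G)⁻¹ * b)) := by rw [h3]
        _ = _ := by group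
    have h4 := hfix _ (A.mul_mem (A.inv_mem (hBA c)) (hBA b)) h2
    rw [inv_mul_eq_one] at h4
    exact Subtype.ext h4.symm
  have hδs : Function.Surjective δ := Finite.surjective_of_injective hδ
  have hmemB : h * a' * h⁻¹ * a'⁻¹ ∈ B := by
    refine ⟨?_, A.mul_mem (hA.conj_mem _ ha' h) (A.inv_mem ha')⟩
    have h1 : a' * h⁻¹ * a'⁻¹ ∈ H := (Subgroup.mem_normalizer_iff.1 ha'N h⁻¹).1 (H.inv_mem hh)
    have h2 : h * a' * h⁻¹ * a'⁻¹ = h * (a' * h⁻¹ * a'⁻¹) := by group
    rw [h2]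
    exact H.mul_mem hh h1
  obtain ⟨b, hb⟩ := hδs ⟨_, hmemB⟩
  have hb' : h * b * h⁻¹ * (b : G)⁻¹ = h * a' * h⁻¹ * a'⁻¹ := congrArg Subtype.val hb
  have h2 : h * (a'⁻¹ * b) * h⁻¹ = a'⁻¹ * b := by
    have h3 : h * (b : G) * h⁻¹ = h * a' * h⁻¹ * (a'⁻¹ * b) := by
      calc h * (b : G) * h⁻¹ = (h * b * h⁻¹ * (b : G)⁻¹) * b := by group
        _ = (h * a' * h⁻¹ * a'⁻¹) * b := by rw [hb']
        _ = _ := by group
    calc h * (a'⁻¹ * b) * h⁻¹ = (h * a' * h⁻¹)⁻¹ * (h * (b : G) * h⁻¹) := by group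
      _ = (h * a' * h⁻¹)⁻¹ * (h * a' * h⁻¹ * (a'⁻¹ * b)) := by rw [h3]
      _ = _ := by group
  have h4 := hfix _ (A.mul_mem (A.inv_mem ha') (hBA b)) h2
  rw [inv_mul_eq_one] at h4
  rw [h4]
  exact hBH b

theorem forward {G : Type*} [Group G] [Finite G] [hsol : Group.IsSolvable G] (hnn : ¬ Group.IsNilpotent G)
    (hS : ∀ H : Subgroup G, ¬ IsMulCommutative H → Subgroup.normalizer (H : Set G) = H) :
    ∃ (x : G) (A : Subgroup G) (p : ℕ), p.Prime ∧ A.Normal ∧ IsMulCommutative A ∧ (∃ k : ℕ, orderOf x = p ^ k) ∧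
      ¬ p ∣ Nat.card A ∧ (Subgroup.zpowers x).IsComplement' A ∧ x ^ p ∈ Subgroup.center G ∧
      ∀ a : G, a ∈ A → a ≠ 1 → x * a * x⁻¹ ≠ a := by
  classical
  have hab : ∀ N : Subgroup G, N.Normal → N ≠ ⊤ → IsMulCommutative N := by
    intro N hN hNt
    by_contra h
    have h1 := hS N h
    rw [Subgroup.normalizer_eq_top] at h1
    exact hNt h1.symm
  have hnt : Nontrivial G := by
    by_contra h
    rw [not_nontrivial_iff_subsingleton] at h
    apply hnn
    infer_instance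
  -- a maximal normal subgroup
  obtain ⟨M, hMmax⟩ := (Set.toFinite {N : Subgroup G | N.Normal ∧ N ≠ ⊤}).exists_maximal ⟨⊥, inferInstance, bot_ne_top⟩
  have hM : M.Normal := hMmax.1.1
  have hMt : M ≠ ⊤ := hMmax.1.2
  have hMab := hab M hM hMt
  have hcommM : ∀ a ∈ M, ∀ b ∈ M, a * b = b * a := fun a ha b hb =>
    congrArg Subtype.val (hMab.is_comm.comm ⟨a, ha⟩ ⟨b, hb⟩)
  haveI : Nontrivial (G ⧸ M) := by
    rw [← Finite.one_lt_card_iff_nontrivial, ← Subgroup.index_eq_card]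
    have h1 : M.index ≠ 0 := Subgroup.index_ne_zero_of_finite
    have h2 : M.index ≠ 1 := fun h => hMt (Subgroup.index_eq_one.1 h)
    omega
  haveI hsimp : IsSimpleGroup (G ⧸ M) := by
    refine ⟨fun N hN => ?_⟩
    have h1 : (N.comap (QuotientGroup.mk' M)).Normal := inferInstance
    by_cases h2 : N.comap (QuotientGroup.mk' M) = ⊤
    · right
      rw [eq_top_iff]
      intro y _
      obtain ⟨y, rfl⟩ := QuotientGroup.mk'_surjective M y
      have : y ∈ N.comap (QuotientGroup.mk' M) := by rw [h2]; trivial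
      exact this
    · left
      have h3 : N.comap (QuotientGroup.mk' M) ≤ M := by
        apply hMmax.2 ⟨h1, h2⟩
        intro m hm
        rw [Subgroup.mem_comap]
        have : QuotientGroup.mk' M m = 1 := (QuotientGroup.eq_one_iff m).2 hm
        rw [this]; exact N.one_mem
      rw [eq_bot_iff]
      intro y hy
      obtain ⟨y, rfl⟩ := QuotientGroup.mk'_surjective M y
      rw [Subgroup.mem_bot]
      exact (QuotientGroup.eq_one_iff y).2 (h3 hy)
  have hcommQ : ∀ a b : G ⧸ M, a * b = b * a := IsSimpleGroup.comm_iff_isSolvable.2 inferInstance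
  letI : CommGroup (G ⧸ M) := { (inferInstance : Group (G ⧸ M)) with mul_comm := hcommQ }
  have hprime : (Nat.card (G ⧸ M)).Prime := IsSimpleGroup.prime_card
  set p := Nat.card (G ⧸ M) with hpdef
  have hindex : M.index = p := Subgroup.index_eq_card M
  haveI := Fact.mk hprime
  -- the p'-part of M
  let A : Subgroup G :=
    { carrier := {x | x ∈ M ∧ (orderOf x).Coprime p}
      one_mem' := ⟨M.one_mem, by rw [orderOf_one]; exact Nat.coprime_one_left p⟩
      mul_mem' := by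
        rintro a b ⟨ha, ha'⟩ ⟨hb, hb'⟩
        refine ⟨M.mul_mem ha hb, ?_⟩
        have hc : Commute a b := hcommM a ha b hb
        exact Nat.Coprime.coprime_dvd_left hc.orderOf_mul_dvd_mul_orderOf (Nat.Coprime.mul_left ha' hb')
      inv_mem' := by
        rintro a ⟨ha, ha'⟩
        exact ⟨M.inv_mem ha, by rw [orderOf_inv]; exact ha'⟩ }
  have hAM : A ≤ M := fun a ha => ha.1
  have hAn : A.Normal := ⟨by
    rintro a ⟨ha, ha'⟩ g
    refine ⟨hM.conj_mem a ha g, ?_⟩
    have := orderOf_injective (MulAut.conj g).toMonoidHom (MulAut.conj g).injective a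
    have h2 : orderOf (g * a * g⁻¹) = orderOf a := by simpa using this
    rw [h2]; exact ha'⟩
  have hAab : IsMulCommutative A := ⟨⟨fun a b => Subtype.ext (hcommM a (hAM a.2) b (hAM b.2))⟩⟩
  have hpA : ¬ p ∣ Nat.card A := by
    intro h
    obtain ⟨⟨z, hzA⟩, hz⟩ := exists_prime_orderOf_dvd_card' (G := A) p h
    rw [Subgroup.orderOf_mk] at hz
    have h1 := hzA.2
    rw [hz, Nat.coprime_self] at h1
    exact hprime.one_lt.ne' h1
  -- the quotient by A is a p-group
  have hQA : IsPGroup p (G ⧸ A) := by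
    intro y
    obtain ⟨y, rfl⟩ := QuotientGroup.mk'_surjective A y
    have hyp : y ^ p ∈ M := by
      have h1 : (QuotientGroup.mk' M y) ^ p = 1 := by rw [hpdef]; exact pow_card_eq_one'
      rw [← map_pow] at h1
      exact (QuotientGroup.eq_one_iff _).1 h1
    obtain ⟨k, m, hm, hkm⟩ := Nat.exists_eq_pow_mul_and_not_dvd (orderOf_pos (y ^ p)).ne' p hprime.ne_one
    refine ⟨k + 1, ?_⟩
    rw [← map_pow, pow_succ', pow_mul]
    apply (QuotientGroup.eq_one_iff _).2
    refine ⟨M.pow_mem hyp _, ?_⟩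
    have h2 : orderOf ((y ^ p) ^ p ^ k) ∣ m := by
      rw [orderOf_dvd_iff_pow_eq_one, ← pow_mul, ← hkm, pow_orderOf_eq_one]
    exact Nat.Coprime.coprime_dvd_left h2 ((hprime.coprime_iff_not_dvd).2 hm).symm
  obtain ⟨j, hj⟩ := IsPGroup.iff_card.1 hQA
  rw [← Subgroup.index_eq_card] at hj
  obtain ⟨P⟩ : Nonempty (Sylow p G) := inferInstance
  have hPcard : Nat.card (P : Subgroup G) = p ^ j := by
    rw [P.card_eq_multiplicity, ← A.card_mul_index, hj, Nat.factorization_mul Nat.card_pos.ne' (pow_ne_zero _ hprime.ne_zero),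
      Finsupp.add_apply, Nat.factorization_eq_zero_of_not_dvd hpA, hprime.factorization_pow]
    simp
  have hPA : (P : Subgroup G).IsComplement' A := by
    apply Subgroup.isComplement'_of_coprime
    · rw [hPcard, ← hj, mul_comm, A.card_mul_index]
    · rw [hPcard]
      exact Nat.Coprime.pow_left j ((hprime.coprime_iff_not_dvd).2 hpA)
  have hPAinf : ∀ y, y ∈ (P : Subgroup G) → y ∈ A → y = 1 := by
    intro y h1 h2
    have := hPA.disjoint.eq_bot
    have h3 : y ∈ (P : Subgroup G) ⊓ A := ⟨h1, h2⟩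
    rw [this] at h3
    exact Subgroup.mem_bot.1 h3
  -- x in P outside M
  obtain ⟨x, hxP, hxM⟩ : ∃ x ∈ (P : Subgroup G), x ∉ M := by
    by_contra hno
    push Not at hno
    have h1 : (P : Subgroup G) ≤ M := hno
    have h2 : p ∣ (P : Subgroup G).index := hindex.symm.dvd.trans (Subgroup.index_dvd_of_le h1)
    exact P.not_dvd_index h2
  have hxord : ∃ k : ℕ, orderOf x = p ^ k := by
    obtain ⟨k, hk⟩ := (IsPGroup.iff_orderOf.1 P.isPGroup') ⟨x, hxP⟩
    exact ⟨k, by rw [← hk, Subgroup.orderOf_mk]⟩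
  -- M and x generate G
  have hMx : M ⊔ Subgroup.zpowers x = ⊤ := by
    have h1 : M.index = (M.relIndex (M ⊔ Subgroup.zpowers x)) * (M ⊔ Subgroup.zpowers x).index :=
      (Subgroup.relIndex_mul_index le_sup_left).symm
    rw [hindex] at h1
    have h2 : (M ⊔ Subgroup.zpowers x).index ∣ p := ⟨_, by rw [mul_comm]; exact h1⟩
    rcases (Nat.dvd_prime hprime).1 h2 with h3 | h3
    · exact Subgroup.index_eq_one.1 h3
    · exfalso
      rw [h3] at h1
      have h4 : M.relIndex (M ⊔ Subgroup.zpowers x) = 1 := by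
        have := hprime.pos
        exact Nat.eq_of_mul_eq_mul_right this (by rw [one_mul]; exact h1.symm)
      have h5 : M ⊔ Subgroup.zpowers x ≤ M := Subgroup.relIndex_eq_one.1 h4
      exact hxM (h5 ((le_sup_right : Subgroup.zpowers x ≤ _) (Subgroup.mem_zpowers x)))
  -- x does not centralize A
  have hxA : ¬ ∀ a ∈ A, x * a = a * x := by
    intro h
    apply hnn
    have hAc : A ≤ Subgroup.center G := by
      intro a ha
      have h1 : Subgroup.centralizer {a} = ⊤ := by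
        rw [eq_top_iff, ← hMx, sup_le_iff]
        constructor
        · intro m hm
          rw [Subgroup.mem_centralizer_singleton_iff]
          exact hcommM m hm a (hAM ha)
        · rw [Subgroup.zpowers_le, Subgroup.mem_centralizer_singleton_iff]
          exact h a ha
      rw [Subgroup.mem_center_iff]
      intro g
      have h2 : g ∈ Subgroup.centralizer {a} := by rw [h1]; trivial
      exact Subgroup.mem_centralizer_singleton_iff.1 h2
    have hnQ : Group.IsNilpotent (G ⧸ A) := hQA.isNilpotent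
    exact Subgroup.isNilpotent_of_ker_le_center (QuotientGroup.mk' A) (by rw [QuotientGroup.ker_mk']; exact hAc)
  -- the subgroup A<x>
  have hAx : ¬ IsMulCommutative (A ⊔ Subgroup.zpowers x : Subgroup G) := by
    intro hc
    apply hxA
    intro a ha
    exact congrArg Subtype.val (hc.is_comm.comm ⟨x, (le_sup_right : Subgroup.zpowers x ≤ _) (Subgroup.mem_zpowers x)⟩
      ⟨a, (le_sup_left : A ≤ _) ha⟩)
  have hNAx := hS _ hAx
  have hPx : (P : Subgroup G) = Subgroup.zpowers x := by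
    apply le_antisymm _ (by rw [Subgroup.zpowers_le]; exact hxP)
    by_contra hnot
    have hlt : Subgroup.zpowers x < (P : Subgroup G) :=
      lt_of_le_not_ge (by rw [Subgroup.zpowers_le]; exact hxP) hnot
    obtain ⟨y, hyP, hyx, hyN⟩ := H71.Basic.exists_mem_normalizer_of_lt P.isPGroup' hlt
    have h1 : y ∈ Subgroup.normalizer ((A ⊔ Subgroup.zpowers x : Subgroup G) : Set G) := by
      apply Subgroup.mem_normalizer_fintype
      intro n hn
      rw [Subgroup.normal_mul A] at hn ⊢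
      obtain ⟨m, hm, d, hd, rfl⟩ := Set.mem_mul.1 hn
      refine Set.mem_mul.2 ⟨y * m * y⁻¹, hAn.conj_mem m hm y, y * d * y⁻¹, (Subgroup.mem_normalizer_iff.1 hyN d).1 hd, by group⟩
    rw [hNAx] at h1
    have h1' : y ∈ ((A ⊔ Subgroup.zpowers x : Subgroup G) : Set G) := h1
    rw [Subgroup.normal_mul A] at h1'
    obtain ⟨a, ha, d, hd, had⟩ := Set.mem_mul.1 h1'
    have hdP : d ∈ (P : Subgroup G) := hlt.le hd
    have h2 : a = 1 := by
      apply hPAinf a _ ha
      have : a = y * d⁻¹ := by rw [← had]; group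
      rw [this]
      exact Subgroup.mul_mem _ hyP (Subgroup.inv_mem _ hdP)
    rw [h2, one_mul] at had
    apply hyx
    rw [← had]; exact hd
  rw [hPx] at hPA
  -- x^p is central
  have hxpM : x ^ p ∈ M := by
    have h1 : (QuotientGroup.mk' M x) ^ p = 1 := by rw [hpdef]; exact pow_card_eq_one'
    rw [← map_pow] at h1
    exact (QuotientGroup.eq_one_iff _).1 h1
  have hxpc : x ^ p ∈ Subgroup.center G := by
    have h1 : Subgroup.centralizer {x ^ p} = ⊤ := by
      rw [eq_top_iff, ← hMx, sup_le_iff]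
      constructor
      · intro m hm
        rw [Subgroup.mem_centralizer_singleton_iff]
        exact hcommM m hm _ hxpM
      · rw [Subgroup.zpowers_le, Subgroup.mem_centralizer_singleton_iff]
        rw [← pow_succ', ← pow_succ]
    rw [Subgroup.mem_center_iff]
    intro g
    have h2 : g ∈ Subgroup.centralizer {x ^ p} := by rw [h1]; trivial
    exact Subgroup.mem_centralizer_singleton_iff.1 h2
  refine ⟨x, A, p, hprime, hAn, hAab, hxord, hpA, hPA, hxpc, ?_⟩
  -- fixed point freeness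
  intro a0 ha0 ha01 hfix
  have hcommA : ∀ a ∈ A, ∀ b ∈ A, a * b = b * a := fun a ha b hb => hcommM a (hAM ha) b (hAM hb)
  have hxN : ∀ d ∈ A, x * d * x⁻¹ ∈ A := fun d hd => hAn.conj_mem d hd x
  let R : Subgroup G :=
    { carrier := {w | ∃ d ∈ A, w = d * (x * d⁻¹ * x⁻¹)}
      one_mem' := ⟨1, A.one_mem, by group⟩
      mul_mem' := by
        rintro _ _ ⟨d, hd, rfl⟩ ⟨e, he, rfl⟩
        refine ⟨e * d, A.mul_mem he hd, ?_⟩
        have h1 := hcommA _ (hxN _ (A.inv_mem hd)) _ (A.mul_mem he (hxN _ (A.inv_mem he)))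
        calc d * (x * d⁻¹ * x⁻¹) * (e * (x * e⁻¹ * x⁻¹)) = d * ((x * d⁻¹ * x⁻¹) * (e * (x * e⁻¹ * x⁻¹))) := by group
          _ = d * ((e * (x * e⁻¹ * x⁻¹)) * (x * d⁻¹ * x⁻¹)) := by rw [h1]
          _ = (d * e) * (x * (e⁻¹ * d⁻¹) * x⁻¹) := by group
          _ = (e * d) * (x * (e * d)⁻¹ * x⁻¹) := by rw [hcommA d hd e he, mul_inv_rev e d, ← mul_inv_rev, ← mul_inv_rev, hcommA d hd e he]
      inv_mem' := by
        rintro _ ⟨d, hd, rfl⟩
        refine ⟨d⁻¹, A.inv_mem hd, ?_⟩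
        have h1 := hcommA _ hd _ (hxN _ (A.inv_mem hd))
        rw [h1]; group }
  have hRA : R ≤ A := by
    rintro _ ⟨d, hd, rfl⟩
    exact A.mul_mem hd (hxN _ (A.inv_mem hd))
  have hxR : x ∈ Subgroup.normalizer (R : Set G) := by
    apply Subgroup.mem_normalizer_fintype
    rintro _ ⟨d, hd, rfl⟩
    exact ⟨x * d * x⁻¹, hxN d hd, by group⟩
  have hle : Subgroup.zpowers x ≤ Subgroup.normalizer (R : Set G) := by
    rw [Subgroup.zpowers_le]; exact hxR
  set H : Subgroup G := R ⊔ Subgroup.zpowers x with hH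
  have hHcoe : (H : Set G) = (R : Set G) * (Subgroup.zpowers x : Set G) :=
    Subgroup.coe_mul_of_right_le_normalizer_left R (Subgroup.zpowers x) hle
  have hxH : x ∈ H := (le_sup_right : Subgroup.zpowers x ≤ H) (Subgroup.mem_zpowers x)
  have hrel : ∀ d : G, x * d * x⁻¹ = (d * (x * d⁻¹ * x⁻¹))⁻¹ * d := fun d => by group
  have hcopA : ∀ a ∈ A, (orderOf x).Coprime (orderOf a) := by
    intro a ha
    obtain ⟨k, hk⟩ := hxord
    rw [hk]
    exact Nat.Coprime.pow_left k ha.2.symm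
  have hHna : ¬ IsMulCommutative H := by
    intro hHab
    apply hxA
    intro d hd
    have hwR : d * (x * d⁻¹ * x⁻¹) ∈ R := ⟨d, hd, rfl⟩
    have hwH : d * (x * d⁻¹ * x⁻¹) ∈ H := (le_sup_left : R ≤ H) hwR
    have h1 : x * (d * (x * d⁻¹ * x⁻¹)) = (d * (x * d⁻¹ * x⁻¹)) * x :=
      congrArg Subtype.val (hHab.is_comm.comm ⟨x, hxH⟩ ⟨_, hwH⟩)
    have h2 := eq_one_of (hrel d) h1 (hcopA _ (hRA hwR))
    have h3 : d * x = (d * (x * d⁻¹ * x⁻¹)) * (x * d) := by group
    rw [h3, h2, one_mul]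
  have hN := hS H hHna
  have ha0x : x * a0 = a0 * x := by rw [mul_inv_eq_iff_eq_mul] at hfix; exact hfix
  have ha0H : a0 ∈ H := by
    rw [← hN]
    have h1 : H ≤ Subgroup.centralizer {a0} := by
      rw [hH, sup_le_iff]
      constructor
      · intro r hr
        rw [Subgroup.mem_centralizer_singleton_iff]
        exact hcommA r (hRA hr) a0 ha0
      · rw [Subgroup.zpowers_le, Subgroup.mem_centralizer_singleton_iff]
        exact ha0x
    apply Subgroup.mem_normalizer_fintype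
    intro n hn
    have h2 := Subgroup.mem_centralizer_singleton_iff.1 (h1 hn)
    rw [← h2, mul_inv_cancel_right]
    exact hn
  have ha0H' : a0 ∈ (R : Set G) * (Subgroup.zpowers x : Set G) := by rw [← hHcoe]; exact ha0H
  obtain ⟨r, hr, c, hc, hrc⟩ := Set.mem_mul.1 ha0H'
  have hc1 : c = 1 := by
    apply hPAinf c
    · rw [hPx]; exact hc
    · have : c = r⁻¹ * a0 := by rw [← hrc]; group
      rw [this]
      exact A.mul_mem (A.inv_mem (hRA hr)) ha0
  rw [hc1, mul_one] at hrc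
  rw [hrc] at hr
  obtain ⟨d, hd, hzd⟩ := hr
  apply ha01
  have h5 := hrel d
  rw [← hzd] at h5
  exact eq_one_of h5 ha0x (hcopA a0 ha0)

/-- Let G be a finite solvable non-nilpotent group. Every non-abelian subgroup of G is self-normalizing if and only if G is a semidirect product ⟨x⟩ ⋉ A in which ⟨x⟩ is a p-group for some prime p, A is a normal abelian subgroup of order prime to p, x^p is central in G, and x acts fixed-point-freely on A (no non-identity element of A commutes with x). -/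
theorem result {G : Type*} [Group G] [Finite G]
    [Group.IsSolvable G] (hnn : ¬ Group.IsNilpotent G) :
    (∀ H : Subgroup G, ¬ IsMulCommutative H → Subgroup.normalizer (H : Set G) = H) ↔
    ∃ (x : G) (A : Subgroup G) (p : ℕ), p.Prime ∧ A.Normal ∧ IsMulCommutative A ∧ (∃ k : ℕ, orderOf x = p ^ k) ∧
      ¬ p ∣ Nat.card A ∧ (Subgroup.zpowers x).IsComplement' A ∧ x ^ p ∈ Subgroup.center G ∧
      ∀ a : G, a ∈ A → a ≠ 1 → x * a * x⁻¹ ≠ a := by
  constructor
  · exact forward hnn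
  · rintro ⟨x, A, p, hp, hA, hAab, hx, hpA, hC, hxp, hfpf⟩ H hH
    exact backward x A p hp hA hAab hx hpA hC hxp hfpf H hH

end Cfsg.Agent.S4071
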