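import Mathlib
import Cfsg.Statements.S4072
import Cfsg.Agent.Lib.H2.Frobenius

set_option autoImplicit false
open Cfsg
open scoped Pointwise

namespace Cfsg.Agent.S4072

/-- every nonabelian subgroup is self-normalizing -/
def SN (G : Type*) [Group G] : Prop :=
  ∀ H : Subgroup G, ¬ IsMulCommutative H → Subgroup.normalizer (H : Set G) = H

theorem conj_pow_eq {G : Type*} [Group G] {g d w : G} (h : g * d * g⁻¹ = w⁻¹ * d) (hw : g * w = w * g) (k : ℕ) :
    g ^ k * d * (g ^ k)⁻¹ = (w ^ k)⁻¹ * d := by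
  induction k with
  | zero => simp
  | succ k ih =>
    have h1 : g * (w ^ k)⁻¹ = (w ^ k)⁻¹ * g := by
      have : Commute g (w ^ k)⁻¹ := (Commute.pow_right hw k).inv_right
      exact this
    calc g ^ (k + 1) * d * (g ^ (k + 1))⁻¹ = g * (g ^ k * d * (g ^ k)⁻¹) * g⁻¹ := by rw [pow_succ']; group
      _ = g * ((w ^ k)⁻¹ * d) * g⁻¹ := by rw [ih]
      _ = (w ^ k)⁻¹ * (g * d * g⁻¹) := by
        calc g * ((w ^ k)⁻¹ * d) * g⁻¹ = (g * (w ^ k)⁻¹) * d * g⁻¹ := by group
          _ = (w ^ k)⁻¹ * g * d * g⁻¹ := by rw [h1]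
          _ = _ := by group
      _ = (w ^ k)⁻¹ * (w⁻¹ * d) := by rw [h]
      _ = (w ^ (k + 1))⁻¹ * d := by rw [pow_succ' w k, mul_inv_rev]; group

theorem eq_one_of {G : Type*} [Group G] [Finite G] {p : ℕ} {g d w : G} (h : g * d * g⁻¹ = w⁻¹ * d) (hw : g * w = w * g)
    (hg : (orderOf g).Coprime p) (hwp : ∃ k, orderOf w = p ^ k) : w = 1 := by
  have h1 := conj_pow_eq h hw (orderOf g)
  rw [pow_orderOf_eq_one, inv_one, mul_one, one_mul] at h1
  have h2 : w ^ orderOf g = 1 := by
    have h3 : (w ^ orderOf g)⁻¹ = 1 := mul_eq_right.1 h1.symm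
    rwa [inv_eq_one] at h3
  obtain ⟨k, hk⟩ := hwp
  have h3 : orderOf w ∣ orderOf g := orderOf_dvd_of_pow_eq_one h2
  have h4 : orderOf w ∣ p ^ k := by rw [hk]
  rw [← orderOf_eq_one_iff]
  exact Nat.eq_one_of_dvd_coprimes (Nat.Coprime.pow_right k hg) h3 h4

/-- central case: the local condition of Frobenius' theorem -/
theorem central_local {G : Type*} [Group G] [Finite G] {p : ℕ} [Fact p.Prime] (hS : SN G) (z : G)
    (hz : z ∈ Subgroup.center G) (hzp : orderOf z = p) (D : Subgroup G) (hD : IsPGroup p D) (g : G)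
    (hg : g ∈ Subgroup.normalizer (D : Set G)) (hgo : Nat.Coprime (orderOf g) p) : g ∈ Subgroup.centralizer (D : Set G) := by
  by_contra hgC
  have hp : p.Prime := Fact.out
  have hz1 : z ≠ 1 := by rintro rfl; rw [orderOf_one] at hzp; exact hp.one_lt.ne hzp
  have hord : ∀ d ∈ D, ∃ k, orderOf d = p ^ k := by
    intro d hd
    obtain ⟨k, hk⟩ := (IsPGroup.iff_orderOf.1 hD) ⟨d, hd⟩
    exact ⟨k, by rw [← hk, Subgroup.orderOf_mk]⟩
  by_cases hDab : IsMulCommutative D
  · have hcomm : ∀ a ∈ D, ∀ b ∈ D, a * b = b * a := fun a ha b hb =>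
      congrArg Subtype.val (hDab.is_comm.comm ⟨a, ha⟩ ⟨b, hb⟩)
    have hgD : ∀ d ∈ D, g * d * g⁻¹ ∈ D := fun d hd => (Subgroup.mem_normalizer_iff.1 hg d).1 hd
    let R : Subgroup G :=
      { carrier := {w | ∃ d ∈ D, w = d * (g * d⁻¹ * g⁻¹)}
        one_mem' := ⟨1, D.one_mem, by group⟩
        mul_mem' := by
          rintro _ _ ⟨d, hd, rfl⟩ ⟨e, he, rfl⟩
          refine ⟨e * d, D.mul_mem he hd, ?_⟩
          have h1 := hcomm _ (hgD _ (D.inv_mem hd)) _ (D.mul_mem he (hgD _ (D.inv_mem he)))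
          calc d * (g * d⁻¹ * g⁻¹) * (e * (g * e⁻¹ * g⁻¹)) = d * ((g * d⁻¹ * g⁻¹) * (e * (g * e⁻¹ * g⁻¹))) := by group
            _ = d * ((e * (g * e⁻¹ * g⁻¹)) * (g * d⁻¹ * g⁻¹)) := by rw [h1]
            _ = (d * e) * (g * (e⁻¹ * d⁻¹) * g⁻¹) := by group
            _ = (e * d) * (g * (e * d)⁻¹ * g⁻¹) := by rw [hcomm d hd e he, mul_inv_rev e d, ← mul_inv_rev, ← mul_inv_rev, hcomm d hd e he]
        inv_mem' := by
          rintro _ ⟨d, hd, rfl⟩
          refine ⟨d⁻¹, D.inv_mem hd, ?_⟩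
          have h1 := hcomm _ hd _ (hgD _ (D.inv_mem hd))
          rw [h1]; group }
    have hRD : R ≤ D := by
      rintro _ ⟨d, hd, rfl⟩
      exact D.mul_mem hd (hgD _ (D.inv_mem hd))
    have hgR : g ∈ Subgroup.normalizer (R : Set G) := by
      apply Subgroup.mem_normalizer_fintype
      rintro _ ⟨d, hd, rfl⟩
      exact ⟨g * d * g⁻¹, hgD d hd, by group⟩
    have hle : Subgroup.zpowers g ≤ Subgroup.normalizer (R : Set G) := by
      rw [Subgroup.zpowers_le]; exact hgR
    set H : Subgroup G := R ⊔ Subgroup.zpowers g with hH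
    have hHcoe : (H : Set G) = (R : Set G) * (Subgroup.zpowers g : Set G) :=
      Subgroup.coe_mul_of_right_le_normalizer_left R (Subgroup.zpowers g) hle
    have hgH : g ∈ H := (le_sup_right : Subgroup.zpowers g ≤ H) (Subgroup.mem_zpowers g)
    have hrel : ∀ d : G, g * d * g⁻¹ = (d * (g * d⁻¹ * g⁻¹))⁻¹ * d := fun d => by group
    have hHna : ¬ IsMulCommutative H := by
      intro hHab
      apply hgC
      rw [Subgroup.mem_centralizer_iff]
      intro d hd
      have hwR : d * (g * d⁻¹ * g⁻¹) ∈ R := ⟨d, hd, rfl⟩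
      have hwH : d * (g * d⁻¹ * g⁻¹) ∈ H := (le_sup_left : R ≤ H) hwR
      have h1 : g * (d * (g * d⁻¹ * g⁻¹)) = (d * (g * d⁻¹ * g⁻¹)) * g :=
        congrArg Subtype.val (hHab.is_comm.comm ⟨g, hgH⟩ ⟨_, hwH⟩)
      have h2 := eq_one_of (hrel d) h1 hgo (hord _ (hRD hwR))
      have h3 : d * g = (d * (g * d⁻¹ * g⁻¹)) * (g * d) := by group
      rw [h3, h2, one_mul]
    have hN := hS H hHna
    have hzH : z ∈ H := by
      rw [← hN]
      apply Subgroup.mem_normalizer_fintype
      intro n hn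
      have h1 : z * n = n * z := (Subgroup.mem_center_iff.1 hz n).symm
      rw [h1, mul_inv_cancel_right]
      exact hn
    have hzH' : z ∈ (R : Set G) * (Subgroup.zpowers g : Set G) := by rw [← hHcoe]; exact hzH
    obtain ⟨r, hr, c, hc, hrc⟩ := Set.mem_mul.1 hzH'
    -- c = r⁻¹ z is a p-element and a p'-element
    have hc1 : c = 1 := by
      have h1 : c = r⁻¹ * z := by rw [← hrc]; group
      have h2 : Commute r⁻¹ z := Subgroup.mem_center_iff.1 hz r⁻¹
      obtain ⟨k, hk⟩ := hord _ (hRD (R.inv_mem hr))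
      have h3 : orderOf c ∣ p ^ (k + 1) := by
        rw [h1, orderOf_dvd_iff_pow_eq_one, h2.mul_pow, pow_succ, pow_mul, pow_mul', ← hk, pow_orderOf_eq_one, one_pow,
          ← hzp, pow_orderOf_eq_one, one_pow, one_mul]
      have h4 : orderOf c ∣ orderOf g := by
        obtain ⟨m, rfl⟩ := hc
        rw [orderOf_dvd_iff_pow_eq_one]
        change (g ^ m) ^ orderOf g = 1
        rw [← zpow_natCast, ← zpow_mul, mul_comm, zpow_mul, zpow_natCast, pow_orderOf_eq_one, one_zpow]
      rw [← orderOf_eq_one_iff]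
      exact Nat.eq_one_of_dvd_coprimes (Nat.Coprime.pow_right (k + 1) hgo) h4 h3
    rw [hc1, mul_one] at hrc
    rw [hrc] at hr
    obtain ⟨d, hd, hzd⟩ := hr
    apply hz1
    have h5 := hrel d
    rw [← hzd] at h5
    exact eq_one_of h5 (Subgroup.mem_center_iff.1 hz g) hgo ⟨1, by rw [hzp, pow_one]⟩
  · have h1 := hS D hDab
    rw [h1] at hg
    apply hgC
    obtain ⟨k, hk⟩ := hord g hg
    have h2 : orderOf g = 1 := Nat.eq_one_of_dvd_coprimes (Nat.Coprime.pow_right k hgo) dvd_rfl (by rw [hk])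
    rw [orderOf_eq_one_iff] at h2
    rw [h2]; exact Subgroup.one_mem _

/-- non-central case -/
theorem noncentral_local {G : Type*} [Group G] [Finite G] {p q : ℕ} [Fact p.Prime] [Fact q.Prime] (hpq : p ≠ q)
    (hS : SN G) (M : Subgroup G) [M.Normal] (hMp : IsPGroup p M)
    (hMC : ∀ g : G, g ∈ Subgroup.centralizer (M : Set G) → g ∈ M) (D : Subgroup G) (hD : IsPGroup q D) (g : G)
    (hg : g ∈ Subgroup.normalizer (D : Set G)) (hgo : Nat.Coprime (orderOf g) q) : g ∈ Subgroup.centralizer (D : Set G) := by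
  have hp : p.Prime := Fact.out
  have hq : q.Prime := Fact.out
  have hord : ∀ d ∈ D, ∃ k, orderOf d = q ^ k := by
    intro d hd
    obtain ⟨k, hk⟩ := (IsPGroup.iff_orderOf.1 hD) ⟨d, hd⟩
    exact ⟨k, by rw [← hk, Subgroup.orderOf_mk]⟩
  have hordM : ∀ d ∈ M, ∃ k, orderOf d = p ^ k := by
    intro d hd
    obtain ⟨k, hk⟩ := (IsPGroup.iff_orderOf.1 hMp) ⟨d, hd⟩
    exact ⟨k, by rw [← hk, Subgroup.orderOf_mk]⟩
  have hDM : ∀ x, x ∈ D → x ∈ M → x = 1 := by
    intro x hx1 hx2
    obtain ⟨k, hk⟩ := hord x hx1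
    obtain ⟨l, hl⟩ := hordM x hx2
    rw [← orderOf_eq_one_iff]
    exact Nat.eq_one_of_dvd_coprimes (Nat.Coprime.pow k l ((Nat.coprime_primes hq hp).2 hpq.symm)) (by rw [hk]) (by rw [hl])
  by_cases hDab : IsMulCommutative D
  · by_cases hDbot : ∀ x ∈ D, x = 1
    · rw [Subgroup.mem_centralizer_iff]
      intro x hx
      rw [hDbot x hx, one_mul, mul_one]
    push Not at hDbot
    obtain ⟨x, hxD, hx1⟩ := hDbot
    have hna : ¬ IsMulCommutative (M ⊔ D : Subgroup G) := by
      intro hab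
      apply hx1
      apply hDM x hxD
      apply hMC
      rw [Subgroup.mem_centralizer_iff]
      intro m hm
      exact congrArg Subtype.val (hab.is_comm.comm ⟨m, (le_sup_left : M ≤ M ⊔ D) hm⟩ ⟨x, (le_sup_right : D ≤ M ⊔ D) hxD⟩)
    have hN := hS _ hna
    have hgN : g ∈ Subgroup.normalizer ((M ⊔ D : Subgroup G) : Set G) := by
      apply Subgroup.mem_normalizer_fintype
      intro n hn
      rw [Subgroup.normal_mul M D] at hn ⊢
      obtain ⟨m, hm, d, hd, rfl⟩ := Set.mem_mul.1 hn
      refine Set.mem_mul.2 ⟨g * m * g⁻¹, Subgroup.Normal.conj_mem inferInstance m hm g, g * d * g⁻¹,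
        (Subgroup.mem_normalizer_iff.1 hg d).1 hd, by group⟩
    rw [hN] at hgN
    have hgN' : g ∈ ((M ⊔ D : Subgroup G) : Set G) := hgN
    rw [Subgroup.normal_mul M D] at hgN'
    obtain ⟨m, hm, d, hd, hmd⟩ := Set.mem_mul.1 hgN'
    rw [Subgroup.mem_centralizer_iff]
    intro e he
    -- m normalizes D, hence centralizes D
    have hmN : m ∈ Subgroup.normalizer (D : Set G) := by
      have : m = g * d⁻¹ := by rw [← hmd]; group
      rw [this]
      exact Subgroup.mul_mem _ hg (Subgroup.le_normalizer (D.inv_mem hd))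
    have h1 : m * e * m⁻¹ * e⁻¹ = 1 := by
      apply hDM
      · exact D.mul_mem ((Subgroup.mem_normalizer_iff.1 hmN e).1 he) (D.inv_mem he)
      · have : m * e * m⁻¹ * e⁻¹ = m * (e * m⁻¹ * e⁻¹) := by group
        rw [this]
        exact M.mul_mem hm (Subgroup.Normal.conj_mem inferInstance _ (M.inv_mem hm) e)
    have h2 : m * e = e * m := by
      rw [mul_inv_eq_one, mul_inv_eq_iff_eq_mul] at h1
      exact h1
    have h3 : d * e = e * d := congrArg Subtype.val (hDab.is_comm.comm ⟨d, hd⟩ ⟨e, he⟩)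
    change e * g = g * e
    rw [← hmd, mul_assoc, h3, ← mul_assoc, ← mul_assoc, h2]
  · have h1 := hS D hDab
    rw [h1] at hg
    obtain ⟨k, hk⟩ := hord g hg
    have h2 : orderOf g = 1 := Nat.eq_one_of_dvd_coprimes (Nat.Coprime.pow_right k hgo) dvd_rfl (by rw [hk])
    rw [orderOf_eq_one_iff] at h2
    rw [h2]; exact Subgroup.one_mem _

universe u

theorem main : ∀ (n : ℕ) (G : Type u) [Group G] [Finite G], Nat.card G = n → SN G → Group.IsSolvable G ∨ IsSimpleGroup G := by
  intro n
  induction n using Nat.strong_induction_on with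
  | _ n ih =>
  intro G _ _ hn hS
  by_contra hno
  push Not at hno
  obtain ⟨hns, hnsimp⟩ := hno
  have hab : ∀ N : Subgroup G, N.Normal → N ≠ ⊤ → IsMulCommutative N := by
    intro N hN hNt
    by_contra h
    have h1 := hS N h
    rw [Subgroup.normalizer_eq_top] at h1
    exact hNt h1.symm
  have hsolab : ∀ N : Subgroup G, IsMulCommutative N → Group.IsSolvable N := by
    intro N hN
    letI : CommGroup N := { (inferInstance : Group N) with mul_comm := hN.is_comm.comm }
    infer_instance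
  have hext : ∀ (N : Subgroup G) [N.Normal], N ≠ ⊤ → Group.IsSolvable (G ⧸ N) → False := by
    intro N hN hNt hq
    apply hns
    haveI := hsolab N (hab N hN hNt)
    exact Group.isSolvable_of_ker_le_range N.subtype (QuotientGroup.mk' N) (by simp)
  have hnpc : ∀ p : ℕ, Fact p.Prime → p ∣ Nat.card G → ¬ Cfsg.HasNormalPComplement p G := by
    rintro p hp hpd ⟨P, N, hN, hC⟩
    have hNt : N ≠ ⊤ := by
      rintro rfl
      have h1 := hC.symm.index_eq_card
      rw [Subgroup.index_top] at h1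
      have h2 := P.dvd_card_of_dvd_card hpd
      rw [← h1] at h2
      exact hp.out.one_lt.ne' (Nat.dvd_one.1 h2)
    haveI := hN
    apply hext N hNt
    haveI : Group.IsNilpotent (G ⧸ N) := by
      apply IsPGroup.isNilpotent (p := p)
      obtain ⟨k, hk⟩ := P.isPGroup'.exists_card_eq
      apply IsPGroup.of_card (n := k)
      rw [← hk, ← Subgroup.index_eq_card, hC.symm.index_eq_card]
    infer_instance
  have hnt : Nontrivial G := by
    by_contra h
    rw [not_nontrivial_iff_subsingleton] at h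
    apply hns
    infer_instance
  -- a minimal normal subgroup
  have hmin : ∃ M : Subgroup G, (M.Normal ∧ M ≠ ⊥) ∧ ∀ N : Subgroup G, (N.Normal ∧ N ≠ ⊥) → N ≤ M → N = M := by
    obtain ⟨N, hN⟩ := (Set.toFinite {N : Subgroup G | N.Normal ∧ N ≠ ⊥}).exists_minimal ⟨⊤, inferInstance, top_ne_bot⟩
    exact ⟨N, hN.1, fun M hM hMN => le_antisymm hMN (hN.2 hM hMN)⟩
  obtain ⟨M, ⟨hM, hMb⟩, hMmin⟩ := hmin
  haveI := hM
  have hMt : M ≠ ⊤ := by
    rintro rfl
    apply hnsimp
    exact ⟨fun N hN => by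
      by_cases h : N = ⊥
      · left; exact h
      · right; exact hMmin N ⟨hN, h⟩ le_top⟩
  have hMab := hab M hM hMt
  -- M is elementary abelian
  obtain ⟨p, hp, hpM⟩ : ∃ p : ℕ, p.Prime ∧ p ∣ Nat.card M := by
    apply Nat.exists_prime_and_dvd
    intro h
    exact hMb (Subgroup.eq_bot_of_card_eq M h)
  haveI := Fact.mk hp
  have hcommM : ∀ a ∈ M, ∀ b ∈ M, a * b = b * a := fun a ha b hb =>
    congrArg Subtype.val (hMab.is_comm.comm ⟨a, ha⟩ ⟨b, hb⟩)
  let E : Subgroup G :=
    { carrier := {x | x ∈ M ∧ x ^ p = 1}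
      one_mem' := ⟨M.one_mem, one_pow p⟩
      mul_mem' := by
        rintro a b ⟨ha, ha'⟩ ⟨hb, hb'⟩
        refine ⟨M.mul_mem ha hb, ?_⟩
        have hc : Commute a b := hcommM a ha b hb
        rw [hc.mul_pow, ha', hb', one_mul]
      inv_mem' := by
        rintro a ⟨ha, ha'⟩
        exact ⟨M.inv_mem ha, by rw [inv_pow, ha', inv_one]⟩ }
  have hEn : E.Normal := ⟨by
    rintro a ⟨ha, ha'⟩ g
    exact ⟨hM.conj_mem a ha g, by rw [conj_pow, ha', mul_one, mul_inv_cancel]⟩⟩
  obtain ⟨⟨z, hzM⟩, hz⟩ := exists_prime_orderOf_dvd_card' (G := M) p hpM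
  rw [Subgroup.orderOf_mk] at hz
  have hz1 : z ≠ 1 := by rintro rfl; rw [orderOf_one] at hz; exact hp.one_lt.ne hz
  have hEM : E = M := by
    apply hMmin E ⟨hEn, ?_⟩ (fun x hx => hx.1)
    intro h
    have h1 : z ∈ E := ⟨hzM, by rw [← hz, pow_orderOf_eq_one]⟩
    rw [h, Subgroup.mem_bot] at h1
    exact hz1 h1
  have hMexp : ∀ x ∈ M, x ^ p = 1 := by
    intro x hx
    rw [← hEM] at hx
    exact hx.2
  have hMp : IsPGroup p M := fun x => ⟨1, by rw [pow_one]; exact Subtype.ext (hMexp x x.2)⟩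
  have hpG : p ∣ Nat.card G := hpM.trans (Subgroup.card_subgroup_dvd_card M)
  by_cases hMC : M ≤ Subgroup.center G
  · exact hnpc p inferInstance hpG (H2.Frobenius.hasNPC_of_local (central_local hS z (hMC hzM) hz))
  · -- G/M is simple
    have hSQ : SN (G ⧸ M) := by
      intro H hH
      have h1 := hS (H.comap (QuotientGroup.mk' M)) (by
        intro h
        apply hH
        refine ⟨⟨?_⟩⟩
        rintro ⟨a, ha⟩ ⟨b, hb⟩
        obtain ⟨a, rfl⟩ := QuotientGroup.mk'_surjective M a
        obtain ⟨b, rfl⟩ := QuotientGroup.mk'_surjective M b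
        apply Subtype.ext
        have h2 : a * b = b * a := congrArg Subtype.val (h.is_comm.comm ⟨a, ha⟩ ⟨b, hb⟩)
        change QuotientGroup.mk' M a * QuotientGroup.mk' M b = QuotientGroup.mk' M b * QuotientGroup.mk' M a
        rw [← map_mul, h2, map_mul])
      apply le_antisymm _ Subgroup.le_normalizer
      intro x hx
      obtain ⟨x, rfl⟩ := QuotientGroup.mk'_surjective M x
      have h2 : x ∈ Subgroup.normalizer ((H.comap (QuotientGroup.mk' M)) : Set G) := by
        apply Subgroup.mem_normalizer_fintype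
        intro n hn
        change QuotientGroup.mk' M (x * n * x⁻¹) ∈ H
        rw [map_mul, map_mul, map_inv]
        exact (Subgroup.mem_normalizer_iff.1 hx _).1 hn
      rw [h1] at h2
      exact h2
    have hcardQ : Nat.card (G ⧸ M) < n := by
      rw [← hn, ← Subgroup.index_eq_card, ← M.card_mul_index]
      have h1 : 1 < Nat.card M := by
        have h2 : Nat.card M ≠ 1 := fun h => hMb (Subgroup.eq_bot_of_card_eq M h)
        have h3 : 0 < Nat.card M := Nat.card_pos
        omega
      have h2 : 0 < M.index := Nat.pos_of_ne_zero Subgroup.index_ne_zero_of_finite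
      nlinarith
    have hQ := ih _ hcardQ (G ⧸ M) rfl hSQ
    have hQns : ¬ Group.IsSolvable (G ⧸ M) := fun h => hext M hMt h
    have hQs : IsSimpleGroup (G ⧸ M) := hQ.resolve_left hQns
    -- centralizer of M
    have hCM : ∀ g : G, g ∈ Subgroup.centralizer (M : Set G) → g ∈ M := by
      have hMle : M ≤ Subgroup.centralizer (M : Set G) := Subgroup.le_centralizer_iff_isMulCommutative.2 hMab
      have h1 : ((Subgroup.centralizer (M : Set G)).map (QuotientGroup.mk' M)).Normal :=
        Subgroup.Normal.map inferInstance _ (QuotientGroup.mk'_surjective M)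
      rcases hQs.eq_bot_or_eq_top_of_normal _ h1 with h | h
      · intro g hg
        have h2 : QuotientGroup.mk' M g ∈ (Subgroup.centralizer (M : Set G)).map (QuotientGroup.mk' M) := ⟨g, hg, rfl⟩
        rw [h, Subgroup.mem_bot] at h2
        exact (QuotientGroup.eq_one_iff g).1 h2
      · exfalso
        apply hMC
        have h2 : Subgroup.centralizer (M : Set G) = ⊤ := by
          rw [eq_top_iff]
          intro g _
          have h3 : QuotientGroup.mk' M g ∈ (Subgroup.centralizer (M : Set G)).map (QuotientGroup.mk' M) := by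
            rw [h]; trivial
          obtain ⟨c, hc, hcg⟩ := h3
          have h4 : c⁻¹ * g ∈ M := QuotientGroup.eq.1 hcg
          have h5 : g = c * (c⁻¹ * g) := by group
          rw [h5]
          exact Subgroup.mul_mem _ hc (hMle h4)
        intro m hm
        rw [Subgroup.mem_center_iff]
        intro g
        have h3 : g ∈ Subgroup.centralizer (M : Set G) := by rw [h2]; trivial
        exact (Subgroup.mem_centralizer_iff.1 h3 m hm).symm
    -- another prime
    have hex : ∃ q : ℕ, q.Prime ∧ q ≠ p ∧ q ∣ Nat.card G := by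
      by_contra hno
      push Not at hno
      apply hns
      have h1 : IsPGroup p G := by
        rw [IsPGroup.iff_card]
        refine ⟨(Nat.card G).primeFactorsList.length, ?_⟩
        exact Nat.eq_prime_pow_of_unique_prime_dvd Nat.card_pos.ne' (fun {d} hd hdd => by
          by_contra h
          exact hno d hd h hdd)
      haveI := h1.isNilpotent
      infer_instance
    obtain ⟨q, hq, hqp, hqG⟩ := hex
    haveI := Fact.mk hq
    exact hnpc q inferInstance hqG (H2.Frobenius.hasNPC_of_local (noncentral_local hqp.symm hS M hMp hCM))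

/-- A finite group in which every non-abelian subgroup is self-normalizing is solvable or simple. -/
theorem result {G : Type*} [Group G] [Finite G] (hS : ∀ H : Subgroup G, ¬ IsMulCommutative H → Subgroup.normalizer (H : Set G) = H) :
    Group.IsSolvable G ∨ IsSimpleGroup G :=
  main _ G rfl hS

end Cfsg.Agent.S4072
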