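import Cfsg.Statements.S4074

set_option autoImplicit false
open Cfsg

namespace Cfsg.Agent.S4074

open DihedralGroup

/-- For n > 2, every non-abelian subgroup of the dihedral group of order 2n is self-normalizing if and only if n = 4 or n is odd. -/
theorem result (n : ℕ) (hn : 2 < n) :
    (∀ H : Subgroup (DihedralGroup n), ¬ IsMulCommutative H → Subgroup.normalizer (H : Set (DihedralGroup n)) = H) ↔
    (n = 4 ∨ Odd n) := by
  haveI : NeZero n := ⟨by omega⟩
  constructor
  · intro hH
    by_contra hcon
    push Not at hcon
    obtain ⟨hn4, hodd⟩ := hcon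
    rw [Nat.not_odd_iff_even] at hodd
    have h2n : 2 ∣ n := hodd.two_dvd
    -- the subgroup
    let K : Subgroup (DihedralGroup n) :=
      { carrier := {x | (∃ j : ZMod n, x = r (2 * j)) ∨ (∃ j : ZMod n, x = sr (2 * j))}
        one_mem' := Or.inl ⟨0, by simp⟩
        mul_mem' := by
          rintro a b (⟨i, rfl⟩ | ⟨i, rfl⟩) (⟨j, rfl⟩ | ⟨j, rfl⟩)
          · left; exact ⟨i + j, by rw [r_mul_r]; ring_nf⟩
          · right; exact ⟨j - i, by rw [r_mul_sr]; ring_nf⟩
          · right; exact ⟨i + j, by rw [sr_mul_r]; ring_nf⟩
          · left; exact ⟨j - i, by rw [sr_mul_sr]; ring_nf⟩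
        inv_mem' := by
          rintro a (⟨i, rfl⟩ | ⟨i, rfl⟩)
          · left; exact ⟨-i, by rw [inv_r]; ring_nf⟩
          · right; exact ⟨i, by rw [inv_sr]⟩ }
    have hmem : ∀ x : DihedralGroup n, x ∈ K ↔ (∃ j : ZMod n, x = r (2 * j)) ∨ (∃ j : ZMod n, x = sr (2 * j)) :=
      fun x => Iff.rfl
    have hnc : ¬ IsMulCommutative K := by
      intro hc
      have h1 : (r 2 : DihedralGroup n) ∈ K := Or.inl ⟨1, by simp⟩
      have h2 : (sr 0 : DihedralGroup n) ∈ K := Or.inr ⟨0, by simp⟩
      have := setLike_mul_comm h1 h2
      rw [r_mul_sr, sr_mul_r] at this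
      have h3 : (0 - 2 : ZMod n) = 0 + 2 := by
        injection this
      have h4 : ((4 : ℕ) : ZMod n) = 0 := by
        have : (4 : ZMod n) = 0 := by linear_combination -h3
        exact_mod_cast this
      rw [ZMod.natCast_eq_zero_iff] at h4
      have : n ≤ 4 := Nat.le_of_dvd (by norm_num) h4
      interval_cases n
      · revert hodd; decide
      · exact hn4 rfl
    have hK := hH K hnc
    have hr1 : (r 1 : DihedralGroup n) ∈ Subgroup.normalizer (K : Set (DihedralGroup n)) := by
      apply Subgroup.mem_normalizer_fintype
      rintro x (⟨i, rfl⟩ | ⟨i, rfl⟩)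
      · left; exact ⟨i, by rw [inv_r, r_mul_r, r_mul_r]; ring_nf⟩
      · right; exact ⟨i - 1, by rw [inv_r, r_mul_sr, sr_mul_r]; ring_nf⟩
    rw [hK] at hr1
    rcases (hmem _).1 hr1 with ⟨j, hj⟩ | ⟨j, hj⟩
    · have h3 : (1 : ZMod n) = 2 * j := by injection hj
      have := congrArg (ZMod.castHom h2n (ZMod 2)) h3
      rw [map_mul, map_one, map_ofNat] at this
      have h20 : (2 : ZMod 2) = 0 := rfl
      rw [h20, zero_mul] at this
      exact one_ne_zero this
    · exact absurd hj (by simp)
  · intro h H hH
    apply le_antisymm _ Subgroup.le_normalizer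
    rcases h with rfl | hodd
    · -- n = 4: order 8
      have hcard : Nat.card (DihedralGroup 4) = 8 := by rw [DihedralGroup.nat_card]
      have htop : H = ⊤ := by
        have hdvd := H.card_subgroup_dvd_card
        rw [hcard] at hdvd
        have hle : Nat.card H ≤ 8 := Nat.le_of_dvd (by norm_num) hdvd
        have hpos : 0 < Nat.card H := Nat.card_pos
        have hH8 : Nat.card H = 8 := by
          by_contra hne
          apply hH
          have : Nat.card H = 1 ∨ Nat.card H = 2 ∨ Nat.card H = 4 := by
            interval_cases (Nat.card H) <;> simp_all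
          rcases this with h | h | h
          · haveI := (Nat.card_eq_one_iff_unique.mp h).1
            exact ⟨⟨fun a b => Subsingleton.elim _ _⟩⟩
          · haveI : Fact (Nat.Prime 2) := ⟨Nat.prime_two⟩
            haveI := isCyclic_of_prime_card h
            exact IsCyclic.isMulCommutative
          · haveI : Fact (Nat.Prime 2) := ⟨Nat.prime_two⟩
            exact IsPGroup.isMulCommutative_of_card_eq_prime_sq (p := 2) (by rw [h]; norm_num)
        exact Subgroup.eq_top_of_card_eq H (by rw [hH8, hcard])
      rw [htop]; exact le_top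
    · -- n odd
      -- H contains a reflection
      have hrefl : ∃ i : ZMod n, (sr i : DihedralGroup n) ∈ H := by
        by_contra hno
        push Not at hno
        apply hH
        refine ⟨⟨?_⟩⟩
        rintro ⟨a, ha⟩ ⟨b, hb⟩
        rcases a with i | i
        · rcases b with j | j
          · apply Subtype.ext
            change (r i * r j : DihedralGroup n) = r j * r i
            rw [r_mul_r, r_mul_r, add_comm]
          · exact absurd hb (hno j)
        · exact absurd ha (hno i)
      obtain ⟨i, hi⟩ := hrefl
      obtain ⟨m, hm⟩ := hodd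
      have key : ∀ k : ZMod n, (r k : DihedralGroup n) ∈ Subgroup.normalizer (H : Set (DihedralGroup n)) → r k ∈ H := by
        intro k hk
        rw [Subgroup.mem_normalizer_iff] at hk
        have h1 := (hk (sr i)).1 hi
        rw [inv_r, r_mul_sr, sr_mul_r] at h1
        have h2 := H.mul_mem h1 hi
        rw [sr_mul_sr] at h2
        have h3 := H.pow_mem h2 (m + 1)
        rw [r_pow] at h3
        have hcast : ((2 * m + 1 : ℕ) : ZMod n) = 0 := by rw [← hm]; exact ZMod.natCast_self n
        push_cast at hcast
        have : (i - (i - k + -k)) * ((m + 1 : ℕ) : ZMod n) = k := by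
          push_cast
          linear_combination k * hcast
        rwa [this] at h3
      intro g hg
      rcases g with k | k
      · exact key k hg
      · have h1 : (sr k * sr i : DihedralGroup n) ∈ Subgroup.normalizer (H : Set (DihedralGroup n)) :=
          Subgroup.mul_mem _ hg (Subgroup.le_normalizer hi)
        rw [sr_mul_sr] at h1
        have h2 := key _ h1
        rw [← sr_mul_sr] at h2
        exact (Subgroup.mul_mem_cancel_right H hi).1 h2

end Cfsg.Agent.S4074
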