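import Cfsg.Statements.S4075

set_option autoImplicit false
open Cfsg

namespace Cfsg.Agent.S4075

/-- Let G be a finite nilpotent group. Every non-abelian subgroup of G is self-normalizing if and only if G is abelian or G is a minimal non-abelian p-group for some prime p (non-abelian of prime-power order with every proper subgroup abelian). -/
theorem result {G : Type*} [Group G] [Finite G]
    [Group.IsNilpotent G] :
    (∀ H : Subgroup G, ¬ IsMulCommutative H → Subgroup.normalizer (H : Set G) = H) ↔
    (IsMulCommutative G ∨ (IsPrimePow (Nat.card G) ∧ ¬ IsMulCommutative G ∧ ∀ H : Subgroup G, H ≠ ⊤ → IsMulCommutative H)) := by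
  have hnc : NormalizerCondition G := normalizerCondition_of_isNilpotent
  constructor
  · intro h
    by_cases hc : IsMulCommutative G
    · exact Or.inl hc
    right
    have hall : ∀ H : Subgroup G, H ≠ ⊤ → IsMulCommutative H := by
      intro H hH
      by_contra hn
      exact hH ((normalizerCondition_iff_only_full_group_self_normalizing.mp hnc) H (h H hn))
    refine ⟨?_, hc, hall⟩
    -- all Sylow subgroups normal
    by_contra hpp
    have hsyl : ∀ (p : ℕ) [Fact p.Prime] (P : Sylow p G), IsMulCommutative (P : Subgroup G) := by
      intro p hp P
      by_cases hP : (P : Subgroup G) = ⊤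
      · exfalso
        apply hpp
        obtain ⟨n, hn⟩ := (IsPGroup.iff_card.mp P.isPGroup')
        rw [hP, Subgroup.card_top] at hn
        rw [hn]
        have hn0 : n ≠ 0 := by
          rintro rfl
          apply hc
          rw [pow_zero] at hn
          haveI := (Nat.card_eq_one_iff_unique.mp hn).1
          exact ⟨⟨fun a b => Subsingleton.elim _ _⟩⟩
        exact (hp.out.isPrimePow).pow hn0
      · exact hall _ hP
    -- two elements commute: decompose
    apply hc
    have hfin := (isNilpotent_of_finite_tfae (G := G)).out 0 4
    obtain ⟨e⟩ := hfin.1 inferInstance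
    refine ⟨⟨fun a b => ?_⟩⟩
    apply e.symm.injective
    rw [map_mul, map_mul]
    funext p P
    haveI : Fact (p : ℕ).Prime := ⟨Nat.prime_of_mem_primeFactors p.2⟩
    haveI := hsyl p P
    exact mul_comm' _ _
  · rintro (hc | ⟨-, -, hall⟩) H hH
    · exact absurd (inferInstance : IsMulCommutative H) hH
    · by_cases hT : H = ⊤
      · subst hT
        exact le_antisymm le_top Subgroup.le_normalizer
      · exact absurd (hall H hT) hH

end Cfsg.Agent.S4075
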