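import Cfsg.Statements.S4079
import Cfsg.Agent.Lib.H71.MetaAut2

set_option autoImplicit false
open Cfsg

namespace Cfsg.Agent.S4079

open Subgroup H71.MetaAut H71.MetaAut2

section

variable {L : Type*} [Group L] [Finite L] {p : ℕ} [hp : Fact p.Prime]

/-- the semidirect product with the group generated by `a` -/
abbrev Sd (a : MulAut L) := SemidirectProduct L ↥(Subgroup.zpowers a) (Subgroup.zpowers a).subtype

theorem sd_finite (a : MulAut L) : Finite (Sd a) :=
  Finite.of_equiv _ SemidirectProduct.equivProd.symm

theorem card_sd {a : MulAut L} {m : ℕ} (ha : orderOf a = p) (hm : Nat.card L = p ^ m) :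
    Nat.card (Sd a) = p ^ (m + 1) := by
  rw [SemidirectProduct.card, hm, Nat.card_zpowers, ha, pow_succ]

/-- the automorphism as an element of the semidirect product -/
def tt (a : MulAut L) : Sd a := SemidirectProduct.inr ⟨a, mem_zpowers a⟩

theorem mem_cent {a : MulAut L} (g : Sd a) : g * tt a = tt a * g ↔ a g.left = g.left := by
  constructor
  · intro h
    have h1 := congrArg SemidirectProduct.left h
    simp only [tt, SemidirectProduct.mul_left, SemidirectProduct.left_inr, SemidirectProduct.right_inr, map_one,
      mul_one, one_mul] at h1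
    exact h1.symm
  · intro h
    apply SemidirectProduct.ext
    · simp only [tt, SemidirectProduct.mul_left, SemidirectProduct.left_inr, SemidirectProduct.right_inr, map_one,
        mul_one, one_mul]
      exact h.symm
    · simp only [tt, SemidirectProduct.mul_right, SemidirectProduct.right_inr]
      obtain ⟨l, ⟨b, hb⟩⟩ := g
      apply Subtype.ext
      change b * a = a * b
      obtain ⟨k, rfl⟩ := hb
      exact ((Commute.refl a).zpow_left k).eq

theorem card_cent {a : MulAut L} (ha : orderOf a = p) {C : Subgroup L} (hC : Nat.card C = p)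
    (hCm : ∀ x, a x = x ↔ x ∈ C) : Nat.card (centralizer ({tt a} : Set (Sd a))) = p ^ 2 := by
  have e : centralizer ({tt a} : Set (Sd a)) ≃ C × zpowers a :=
    { toFun := fun g => (⟨g.1.left, (hCm _).1 ((mem_cent _).1 (mem_centralizer_singleton_iff.1 g.2))⟩, g.1.right)
      invFun := fun c => ⟨⟨c.1, c.2⟩, mem_centralizer_singleton_iff.2 ((mem_cent _).2 ((hCm _).2 c.1.2))⟩
      left_inv := fun g => rfl
      right_inv := fun c => rfl }
  rw [Nat.card_congr e, Nat.card_prod, hC, Nat.card_zpowers, ha, pow_two]

end

/-- Let p be an odd prime and L a finite metacyclic p-group with no cyclic subgroup of index p, and let a be an automorphism of L of order p. Then a moves some element of order p of L if and only if p = 3 and the semidirect product L ⋊ ⟨a⟩ (of order 3·#L) has maximal class, i.e. nilpotency class m where #L = 3^m. -/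
theorem result {L : Type*} [Group L] [Finite L] {p : ℕ} [Fact p.Prime]
    (hp : p ≠ 2) (hL : IsPGroup p L) (hmc : Cfsg.IsMetacyclic L) (hnc : ∀ C : Subgroup L, IsCyclic C → C.index ≠ p)
    (a : MulAut L) (ha : orderOf a = p) (m : ℕ) (hm : Nat.card L = p ^ m) :
    (∃ x : L, orderOf x = p ∧ a x ≠ x) ↔
    (p = 3 ∧ Group.nilpotencyClass (SemidirectProduct L ↥(Subgroup.zpowers a) (Subgroup.zpowers a).subtype) = m) := by
  have hpp : p.Prime := Fact.out
  have hap : a ^ p = 1 := by rw [← ha]; exact pow_orderOf_eq_one a
  have ha1 : a ≠ 1 := by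
    rintro rfl
    rw [orderOf_one] at ha
    exact hpp.one_lt.ne ha
  -- `L` is not cyclic
  have hcyc : ¬ IsCyclic L := by
    intro hc
    have hm0 : m ≠ 0 := by
      rintro rfl
      rw [pow_zero] at hm
      have : Subsingleton L := (Nat.card_eq_one_iff_unique.1 hm).1
      apply ha1
      ext x
      exact Subsingleton.elim _ _
    obtain ⟨C, hC⟩ := Sylow.exists_subgroup_card_pow_prime p (n := m - 1) (by
      rw [hm]; exact pow_dvd_pow p (by omega) : p ^ (m - 1) ∣ Nat.card L)
    apply hnc C inferInstance
    have h1 := C.card_mul_index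
    rw [hC, hm] at h1
    apply Nat.eq_of_mul_eq_mul_left (pow_pos hpp.pos (m - 1))
    rw [h1, ← pow_succ]
    congr 1; omega
  obtain ⟨E, hE, hcE⟩ := omega_data hL hp hmc hcyc
  have hEn : E.Normal := by
    refine ⟨fun x hx g => ?_⟩
    rw [hE] at hx ⊢
    rw [conj_pow, hx]; group
  have hm2 : 2 ≤ m := by
    have h1 := Subgroup.card_subgroup_dvd_card E
    rw [hcE, hm] at h1
    exact (Nat.pow_dvd_pow_iff_le_right hpp.one_lt).1 h1
  have hncE : ¬ IsCyclic (L ⧸ E) := by
    intro hc
    obtain ⟨x, hx, _⟩ := exists_of_cyclic_quotient (n := m - 1) hE hcE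
      (by rw [hm]; congr 1; omega) (by omega) hc
    apply hnc (zpowers x) inferInstance
    have h1 := (zpowers x).card_mul_index
    rw [Nat.card_zpowers, hx, hm] at h1
    apply Nat.eq_of_mul_eq_mul_left (pow_pos hpp.pos (m - 1))
    rw [h1, ← pow_succ]
    congr 1; omega
  obtain ⟨N, D⟩ := exists_data hL hp hmc hE hcE hncE
  have hm4 : 4 ≤ m := by
    have h1 := Subgroup.card_subgroup_dvd_card N
    rw [D.cardN, hm] at h1
    exact (Nat.pow_dvd_pow_iff_le_right hpp.one_lt).1 h1
  have := sd_finite a
  constructor
  · rintro ⟨x, hx, hax⟩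
    have hxE : x ∈ E := by rw [hE, ← hx]; exact pow_orderOf_eq_one x
    obtain ⟨hp3, C, hC, hCm⟩ := fixed_of_moves hp hL D a hap hxE hax
    refine ⟨hp3, ?_⟩
    have h1 := H72.MaxClassCent.class_of_cent (p := p) (m + 1) (by omega) (X := Sd a) (card_sd ha hm) (tt a)
      (card_cent ha hC hCm)
    rw [h1]; rfl
  · rintro ⟨rfl, hcl⟩
    by_contra hno
    push Not at hno
    have hfixE : ∀ x : L, x ^ 3 = 1 → a x = x := by
      intro x hx
      by_cases hx1 : x = 1
      · rw [hx1, map_one]
      · exact hno x (orderOf_eq_prime hx hx1)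
    let f : L →* Sd a := SemidirectProduct.inl
    have hf : Function.Injective f := SemidirectProduct.inl_injective
    have hcLr : Nat.card f.range = 3 ^ m := by
      rw [← hm]
      exact (Nat.card_congr (MonoidHom.ofInjective hf).toEquiv).symm
    have hnorm : f.range.Normal := by
      rw [SemidirectProduct.range_inl_eq_ker_rightHom]
      infer_instance
    apply back m hm4 (Sd a) (card_sd ha hm) hcl f.range hnorm hcLr ?_ ?_ (tt a) ?_ ?_ ?_
    · exact H76.TwoGen.metacyclic_of_surjective (MonoidHom.ofInjective hf).toMonoidHom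
        (MonoidHom.ofInjective hf).surjective hmc
    · intro hc
      apply hcyc
      exact isCyclic_of_injective (MonoidHom.ofInjective hf).toMonoidHom (MonoidHom.ofInjective hf).injective
    · rw [tt, ← map_pow]
      have : (⟨a, mem_zpowers a⟩ : zpowers a) ^ 3 = 1 := Subtype.ext hap
      rw [this, map_one]
    · rintro ⟨l, hl⟩
      have h1 := congrArg SemidirectProduct.right hl
      apply ha1
      exact (congrArg Subtype.val h1).symm
    · rintro _ ⟨l, rfl⟩ hl
      symm
      rw [mem_cent]
      apply hfixE
      rw [← map_pow] at hl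
      exact hf (hl.trans (map_one f).symm)

end Cfsg.Agent.S4079
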