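import Mathlib
import Cfsg.Statements.S4080

set_option autoImplicit false
open Cfsg

namespace Cfsg.Agent.S4080

/-- Cayley–Hamilton for 2×2 matrices, by hand. -/
theorem ch2 {R : Type*} [CommRing R] (N : Matrix (Fin 2) (Fin 2) R) :
    N * N = N.trace • N - N.det • (1 : Matrix (Fin 2) (Fin 2) R) := by
  ext i j
  fin_cases i <;> fin_cases j <;>
    simp [Matrix.mul_apply, Fin.sum_univ_two, Matrix.trace_fin_two, Matrix.det_fin_two] <;> ring

theorem sq_zero_of_nilp {K : Type*} [Field K] (N : Matrix (Fin 2) (Fin 2) K) (n : ℕ) (hn : N ^ n = 0) :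
    N * N = 0 := by
  by_cases hn0 : n = 0
  · subst hn0
    rw [pow_zero] at hn
    have : N = N * 1 := (mul_one N).symm
    rw [hn, mul_zero] at this
    rw [this, mul_zero]
  have hdet : N.det = 0 := by
    have : N.det ^ n = 0 := by rw [← Matrix.det_pow, hn, Matrix.det_zero]
    exact pow_eq_zero_iff hn0 |>.1 this
  have h1 : N * N = N.trace • N := by rw [ch2, hdet, zero_smul, sub_zero]
  have h2 : ∀ k : ℕ, N ^ (k + 1) = N.trace ^ k • N := by
    intro k
    induction k with
    | zero => simp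
    | succ k ih => rw [pow_succ, ih, smul_mul_assoc, h1, smul_smul, pow_succ]
  obtain ⟨k, rfl⟩ := Nat.exists_eq_succ_of_ne_zero hn0
  rw [h2 k] at hn
  rcases smul_eq_zero.1 hn with h | h
  · have : N.trace = 0 := by
      by_cases hk : k = 0
      · subst hk; simp at h
      · exact pow_eq_zero_iff hk |>.1 h
    rw [h1, this, zero_smul]
  · rw [h, mul_zero]

theorem mat {p : ℕ} [hpp : Fact p.Prime] (hp : 3 < p) (A : Matrix (Fin 2) (Fin 2) (ZMod (p ^ 2))) (hA : A ^ p = 1) :
    (p : ZMod (p ^ 2)) • (A - 1) = 0 := by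
  have hdvd : p ∣ p ^ 2 := dvd_pow_self p two_ne_zero
  let φ : ZMod (p ^ 2) →+* ZMod p := ZMod.castHom hdvd (ZMod p)
  let Φ : Matrix (Fin 2) (Fin 2) (ZMod (p ^ 2)) →+* Matrix (Fin 2) (Fin 2) (ZMod p) := φ.mapMatrix
  have hker : ∀ e : ZMod (p ^ 2), φ e = 0 → ∃ e' : ZMod (p ^ 2), e = (p : ZMod (p ^ 2)) * e' := by
    intro e he
    have h1 : φ ((e.val : ℕ) : ZMod (p ^ 2)) = ((e.val : ℕ) : ZMod p) := map_natCast φ _
    rw [ZMod.natCast_zmod_val, he] at h1
    obtain ⟨c, hc⟩ := (ZMod.natCast_eq_zero_iff _ _).1 h1.symm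
    refine ⟨(c : ZMod (p ^ 2)), ?_⟩
    rw [← Nat.cast_mul, ← hc, ZMod.natCast_zmod_val]
  have hNnil : (Φ A - 1) ^ p = 0 := by
    have : (Φ A - 1) ^ p = (Φ A) ^ p - 1 ^ p := by
      haveI : CharP (Matrix (Fin 2) (Fin 2) (ZMod p)) p := inferInstance
      exact sub_pow_char_of_commute p (Commute.one_right _)
    rw [this, ← map_pow, hA, map_one, one_pow, sub_self]
  have hsq := sq_zero_of_nilp _ _ hNnil
  set N := A - 1 with hN
  have hΦN : Φ N * Φ N = 0 := by
    rw [hN, map_sub, map_one]; exact hsq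
  have hex : ∃ M : Matrix (Fin 2) (Fin 2) (ZMod (p ^ 2)), N * N = (p : ZMod (p ^ 2)) • M := by
    rw [← map_mul] at hΦN
    have : ∀ i j, ∃ e' : ZMod (p ^ 2), (N * N) i j = (p : ZMod (p ^ 2)) * e' := by
      intro i j
      apply hker
      exact congrFun (congrFun hΦN i) j
    choose M hM using this
    exact ⟨fun i j => M i j, by ext i j; exact hM i j⟩
  obtain ⟨M, hM⟩ := hex
  have hp2 : (p : ZMod (p ^ 2)) * p = 0 := by
    rw [← Nat.cast_mul, ← sq]; exact ZMod.natCast_self _
  have hN4 : N ^ 4 = 0 := by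
    have : N ^ 4 = (N * N) * (N * N) := by noncomm_ring
    rw [this, hM, smul_mul_smul_comm, hp2, zero_smul]
  have hAN : A = N + 1 := by rw [hN]; abel
  have hexp : A ^ p = 1 + (p : ZMod (p ^ 2)) • N := by
    rw [hAN, (Commute.one_right N).add_pow]
    have hterm : ∀ k ∈ Finset.range (p + 1), k ≠ 0 → k ≠ 1 → N ^ k * 1 ^ (p - k) * ((p.choose k : ℕ) : Matrix (Fin 2) (Fin 2) (ZMod (p ^ 2))) = 0 := by
      intro k hk hk0 hk1
      rw [Finset.mem_range] at hk
      rw [one_pow, mul_one]
      by_cases hkp : k = p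
      · subst hkp
        have : N ^ k = N ^ 4 * N ^ (k - 4) := by rw [← pow_add]; congr 1; omega
        rw [this, hN4, zero_mul, zero_mul]
      · have hdv : p ∣ p.choose k := hpp.out.dvd_choose_self hk0 (by omega)
        obtain ⟨c, hc⟩ := hdv
        have h1 : N ^ k = (p : ZMod (p ^ 2)) • (M * N ^ (k - 2)) := by
          have : N ^ k = (N * N) * N ^ (k - 2) := by rw [← sq, ← pow_add]; congr 1; omega
          rw [this, hM, smul_mul_assoc]
        have h2 : ((p.choose k : ℕ) : Matrix (Fin 2) (Fin 2) (ZMod (p ^ 2))) = (p : ZMod (p ^ 2)) • ((c : ℕ) : Matrix (Fin 2) (Fin 2) (ZMod (p ^ 2))) := by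
          rw [hc, Nat.cast_mul]
          ext i j
          fin_cases i <;> fin_cases j <;> simp [Matrix.natCast_apply, Matrix.mul_apply, Fin.sum_univ_two]
        rw [h1, h2, smul_mul_smul_comm, hp2, zero_smul]
    rw [Finset.range_eq_Ico, Finset.sum_eq_sum_Ico_succ_bot (by omega), Finset.sum_eq_sum_Ico_succ_bot (by omega)]
    rw [Finset.sum_eq_zero (s := Finset.Ico (0 + 1 + 1) (p + 1))]
    · simp only [pow_zero, one_pow, Nat.choose_zero_right, Nat.cast_one, mul_one, zero_add, pow_one, Nat.choose_one_right, add_zero]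
      congr 1
      ext i j
      simp [Matrix.mul_apply, Fin.sum_univ_two, Matrix.natCast_apply]
      fin_cases i <;> fin_cases j <;> simp [mul_comm]
    · intro k hk
      rw [Finset.mem_Ico] at hk
      apply hterm k (Finset.mem_range.2 hk.2) (by omega) (by omega)
  rw [hA] at hexp
  have : (1 : Matrix (Fin 2) (Fin 2) (ZMod (p ^ 2))) + 0 = 1 + (p : ZMod (p ^ 2)) • N := by rw [add_zero]; exact hexp
  exact (add_left_cancel this).symm

/-- Let p > 3 be a prime and L the direct product of two cyclic groups of order p². Every automorphism of L of order p fixes every element of order p of L. -/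
theorem result {p : ℕ} [Fact p.Prime] (hp : 3 < p)
    (a : MulAut (Multiplicative (ZMod (p ^ 2) × ZMod (p ^ 2)))) (ha : orderOf a = p)
    (x : Multiplicative (ZMod (p ^ 2) × ZMod (p ^ 2))) (hx : orderOf x = p) : a x = x := by
  have hp0 : 0 < p := by omega
  haveI : NeZero (p ^ 2) := ⟨by positivity⟩
  let F : (ZMod (p ^ 2) × ZMod (p ^ 2)) →+ (ZMod (p ^ 2) × ZMod (p ^ 2)) :=
    { toFun := fun v => Multiplicative.toAdd (a (Multiplicative.ofAdd v))
      map_zero' := by simp
      map_add' := by intro u v; simp }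
  let T : Module.End (ZMod (p ^ 2)) (ZMod (p ^ 2) × ZMod (p ^ 2)) := AddMonoidHom.toZModLinearMap (p ^ 2) F
  have hT : ∀ v, T v = Multiplicative.toAdd (a (Multiplicative.ofAdd v)) := fun v => rfl
  have hTk : ∀ (k : ℕ) v, (T ^ k) v = Multiplicative.toAdd ((a ^ k) (Multiplicative.ofAdd v)) := by
    intro k
    induction k with
    | zero => intro v; simp
    | succ k ih =>
      intro v
      have e1 : (T ^ (k + 1)) v = T ((T ^ k) v) := by
        rw [show T ^ (k + 1) = T * T ^ k from pow_succ' T k]; rfl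
      have e2 : (a ^ (k + 1)) (Multiplicative.ofAdd v) = a ((a ^ k) (Multiplicative.ofAdd v)) := by
        rw [show a ^ (k + 1) = a * a ^ k from pow_succ' a k]; rfl
      rw [e1, e2, ih, hT]
      rfl
  have hTp : T ^ p = 1 := by
    apply LinearMap.ext
    intro v
    have hap : a ^ p = 1 := by
      have := pow_orderOf_eq_one a
      rwa [ha] at this
    rw [hTk, hap]; simp
  let b := Module.Basis.finTwoProd (ZMod (p ^ 2))
  let e := LinearMap.toMatrixAlgEquiv b
  have hA : (e T) ^ p = 1 := by rw [← map_pow, hTp, map_one]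
  have h1 := mat hp (e T) hA
  have h2 : (p : ZMod (p ^ 2)) • (T - 1) = 0 := by
    apply e.injective
    rw [map_smul, map_sub, map_one, h1, map_zero]
  -- x is divisible by p
  set v := Multiplicative.toAdd x with hv
  have hxp : x ^ p = 1 := by
    have := pow_orderOf_eq_one x
    rwa [hx] at this
  have hpv : p • v = 0 := by
    have := congrArg Multiplicative.toAdd hxp
    rwa [toAdd_pow, toAdd_one] at this
  have hdiv : ∀ u : ZMod (p ^ 2), p • u = 0 → ∃ u' : ZMod (p ^ 2), u = (p : ZMod (p ^ 2)) * u' := by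
    intro u hu
    rw [nsmul_eq_mul, ← ZMod.natCast_zmod_val u, ← Nat.cast_mul, ZMod.natCast_eq_zero_iff] at hu
    have hu' : p * p ∣ p * u.val := by
      rw [← sq]; exact hu
    obtain ⟨c, hc⟩ := Nat.dvd_of_mul_dvd_mul_left hp0 hu'
    exact ⟨c, by rw [← Nat.cast_mul, ← hc, ZMod.natCast_zmod_val]⟩
  obtain ⟨u1, hu1⟩ := hdiv v.1 (by have := congrArg Prod.fst hpv; simpa using this)
  obtain ⟨u2, hu2⟩ := hdiv v.2 (by have := congrArg Prod.snd hpv; simpa using this)
  have hvu : v = (p : ZMod (p ^ 2)) • ((u1, u2) : ZMod (p ^ 2) × ZMod (p ^ 2)) := by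
    ext <;> simp [hu1, hu2]
  have h3 : T v = v := by
    have h4 : (p : ZMod (p ^ 2)) • ((T - 1) (u1, u2)) = 0 := by
      have := congrArg (fun S : Module.End (ZMod (p ^ 2)) (ZMod (p ^ 2) × ZMod (p ^ 2)) => S (u1, u2)) h2
      simpa using this
    rw [LinearMap.sub_apply, Module.End.one_apply, smul_sub, sub_eq_zero] at h4
    rw [hvu, map_smul, h4]
  have h5 : Multiplicative.toAdd (a x) = Multiplicative.toAdd x := h3
  exact Multiplicative.toAdd.injective h5

end Cfsg.Agent.S4080
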