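import Mathlib
import Cfsg.Statements.S4081
import Cfsg.Agent.Lib.H71.FpfModule
import Cfsg.Agent.Lib.H71.SdpAut
import Cfsg.Agent.Lib.H71.AutOrbit
import Cfsg.Agent.Lib.H71.Basic2
import Cfsg.Agent.Lib.H1.FpfAb
import Cfsg.Agent.Lib.H4.Burnside
import Cfsg.Agent.Lib.H1.Solv

set_option autoImplicit false
open Cfsg

namespace Cfsg.Agent.S4081

open scoped IsMulCommutative

section conjEnd

variable {G : Type*} [Group G] (p : ℕ) [Fact p.Prime] (P : Subgroup G) [P.Normal] [IsMulCommutative P]
  [Module (ZMod p) (Additive P)]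

/-- conjugation as a linear endomorphism of a normal elementary abelian subgroup -/
noncomputable def conjEnd (x : G) : Module.End (ZMod p) (Additive P) :=
  AddMonoidHom.toZModLinearMap p (MonoidHom.toAdditive (MulAut.conjNormal x : P ≃* P).toMonoidHom)

theorem conjEnd_apply (x : G) (v : Additive P) :
    conjEnd p P x v = Additive.ofMul (MulAut.conjNormal x v.toMul) := rfl

theorem conjEnd_pow (x : G) (n : ℕ) : conjEnd p P (x ^ n) = (conjEnd p P x) ^ n := by
  induction n with
  | zero =>
    apply LinearMap.ext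
    intro v
    rw [conjEnd_apply]; simp
  | succ n ih =>
    apply LinearMap.ext
    intro v
    rw [pow_succ, pow_succ, Module.End.mul_apply, ← ih, conjEnd_apply, conjEnd_apply, conjEnd_apply, map_mul]
    rfl

theorem conjEnd_one : conjEnd p P (1 : G) = 1 := by
  have := conjEnd_pow p P (1 : G) 0
  rwa [pow_zero, pow_zero] at this

end conjEnd

/-- group-theoretic form of `exists_semilinear` -/
theorem exists_group_semilinear {G : Type*} [Group G] [Finite G] {p q : ℕ} [Fact p.Prime] [Fact q.Prime] (hpq : p ≠ q)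
    (hord : orderOf (p : ZMod q) = q - 1) (P : Subgroup G) [P.Normal] [IsMulCommutative P]
    (hexp : ∀ a ∈ P, a ^ p = 1) (x : G) (hx : x ^ q = 1) (hfix : ∀ a ∈ P, x * a * x⁻¹ = a → a = 1) :
    (∀ u v : P, u ≠ 1 → v ≠ 1 → ∃ s : P ≃* P, s u = v ∧
      ∀ w, s (MulAut.conjNormal x w) = MulAut.conjNormal x (s w)) ∧
    (∀ k : ℕ, ¬ q ∣ k → ∃ s : P ≃* P, ∀ w, s (MulAut.conjNormal x w) = MulAut.conjNormal (x ^ k) (s w)) := by
  obtain ⟨hmod⟩ : Nonempty (Module (ZMod p) (Additive P)) := ⟨AddCommGroup.zmodModule (n := p) (by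
    intro v
    apply Additive.toMul.injective
    apply Subtype.ext
    change ((v.toMul : P) : G) ^ p = 1
    exact hexp _ v.toMul.2)⟩
  obtain ⟨hA, hB⟩ := H71.FpfModule.exists_semilinear (q := q) hpq hord (conjEnd p P x)
    (by rw [← conjEnd_pow, hx, conjEnd_one])
    (by
      intro v hv
      have h2 := congrArg (fun w : Additive P => ((w.toMul : P) : G)) hv
      have h1 := hfix ((v.toMul : P) : G) v.toMul.2 h2
      apply Additive.toMul.injective
      exact Subtype.ext h1)
  constructor
  · intro u v hu hv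
    obtain ⟨s, hs1, hs2⟩ := hA (Additive.ofMul u) (Additive.ofMul v) hu hv
    exact ⟨MulEquiv.toAdditive.symm s, hs1, fun w => hs2 (Additive.ofMul w)⟩
  · intro k hk
    obtain ⟨s, hs⟩ := hB k hk
    refine ⟨MulEquiv.toAdditive.symm s, fun w => ?_⟩
    have h := hs (Additive.ofMul w)
    rw [← conjEnd_pow] at h
    exact h

theorem commute_aeval {R A : Type*} [CommSemiring R] [Semiring A] [Algebra R A] (a : A) (g : Polynomial R) :
    Commute (Polynomial.aeval a g) a := by
  have h1 : Commute (Polynomial.aeval a g) (Polynomial.aeval a (Polynomial.X : Polynomial R)) := by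
    rw [commute_iff_eq, ← map_mul, ← map_mul, mul_comm]
  rwa [Polynomial.aeval_X] at h1

/-- group-theoretic form of the converse `orderOf_eq` -/
theorem group_orderOf_eq {G : Type*} [Group G] [Finite G] {p q : ℕ} [Fact p.Prime] [Fact q.Prime] (hpq : p ≠ q)
    (P : Subgroup G) [P.Normal] [IsMulCommutative P] [Nontrivial P]
    (hexp : ∀ a ∈ P, a ^ p = 1) (x : G) (hx : x ^ q = 1) (hfix : ∀ a ∈ P, x * a * x⁻¹ = a → a = 1)
    (hstar : ∀ T : P →* P, (∀ w, T (MulAut.conjNormal x w) = MulAut.conjNormal x (T w)) →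
      (∀ H : Subgroup G, H.Normal → H ≤ P → ∀ w : P, (w : G) ∈ H → (T w : G) ∈ H) → ∀ w : P, w ≠ 1 → T w = 1 →
      ∀ w, T w = 1)
    (hσ : ∀ k : ℕ, ¬ q ∣ k → ∃ s : P ≃* P, ∀ w, s (MulAut.conjNormal x w) = MulAut.conjNormal (x ^ k) (s w)) :
    orderOf (p : ZMod q) = q - 1 := by
  obtain ⟨hmod⟩ : Nonempty (Module (ZMod p) (Additive P)) := ⟨AddCommGroup.zmodModule (n := p) (by
    intro v
    apply Additive.toMul.injective
    apply Subtype.ext
    change ((v.toMul : P) : G) ^ p = 1
    exact hexp _ v.toMul.2)⟩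
  apply H71.FpfModule.orderOf_eq hpq (conjEnd p P x)
    (by rw [← conjEnd_pow, hx, conjEnd_one])
    (by
      intro v hv
      have h2 := congrArg (fun w : Additive P => ((w.toMul : P) : G)) hv
      have h1 := hfix ((v.toMul : P) : G) v.toMul.2 h2
      apply Additive.toMul.injective
      exact Subtype.ext h1)
  · intro g w hw hgw
    have hc := commute_aeval (conjEnd p P x) g
    have h2 := hstar (AddMonoidHom.toMultiplicative (Polynomial.aeval (conjEnd p P x) g).toAddMonoidHom) (fun v => by
      have h3 := LinearMap.congr_fun hc.eq (Additive.ofMul v)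
      exact h3) (by
      intro H hH hHP v hv
      let S : Submodule (ZMod p) (Additive P) := AddSubgroup.toZModSubmodule p (Subgroup.toAddSubgroup (H.subgroupOf P))
      have hS : ∀ v : Additive P, v ∈ S ↔ ((v.toMul : P) : G) ∈ H := fun v => Iff.rfl
      have hpow : ∀ (n : ℕ) (v : Additive P), v ∈ S → ((conjEnd p P x) ^ n) v ∈ S := by
        intro n v hv
        rw [hS] at hv ⊢
        rw [← conjEnd_pow]
        exact hH.conj_mem _ hv (x ^ n)
      have hall : ∀ (g : Polynomial (ZMod p)) (v : Additive P), v ∈ S → (Polynomial.aeval (conjEnd p P x) g) v ∈ S := by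
        intro g
        induction g using Polynomial.induction_on' with
        | add g h hg hh =>
          intro v hv
          rw [map_add, LinearMap.add_apply]
          exact S.add_mem (hg v hv) (hh v hv)
        | monomial n a =>
          intro v hv
          rw [← Polynomial.C_mul_X_pow_eq_monomial, map_mul, Polynomial.aeval_C, map_pow, Polynomial.aeval_X,
            Module.End.mul_apply, Module.algebraMap_end_apply]
          exact S.smul_mem a (hpow n v hv)
      exact (hS _).1 (hall g (Additive.ofMul v) hv)) w.toMul hw hgw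
    apply LinearMap.ext
    intro v
    exact h2 v.toMul
  · intro k hk
    obtain ⟨s, hs⟩ := hσ k hk
    refine ⟨MulEquiv.toAdditive s, fun w => ?_⟩
    rw [← conjEnd_pow]
    exact hs w.toMul

theorem backward {G : Type*} [Group G] [Finite G] (p q n : ℕ) [Fact p.Prime] [Fact q.Prime] (hpq : p ≠ q)
    (hn : 1 ≤ n) (hcard : Nat.card G = p ^ n * q)
    (hP : ∀ P : Sylow p G, (P : Subgroup G).Normal ∧ Cfsg.IsElementaryAbelian p (P : Subgroup G))
    (hord : orderOf (p : ZMod q) = q - 1)
    (hfpf : ∀ x y : G, orderOf x = q → orderOf y = p → x * y * x⁻¹ ≠ y) :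
    Nat.card (MulAction.orbitRel.Quotient (MulAut G) G) = 3 := by
  classical
  have hp : p.Prime := Fact.out
  have hq : q.Prime := Fact.out
  have hcop : p.Coprime q := (Nat.coprime_primes hp hq).2 hpq
  obtain ⟨P0⟩ : Nonempty (Sylow p G) := inferInstance
  obtain ⟨hnorm, hcomm, hexp⟩ := hP P0
  have hPcard : Nat.card (P0 : Subgroup G) = p ^ n := by
    rw [P0.card_eq_multiplicity, hcard, Nat.factorization_mul (pow_ne_zero _ hp.ne_zero) hq.ne_zero,
      Finsupp.add_apply, hp.factorization_pow, hq.factorization]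
    simp [Finsupp.single_apply, hpq.symm]
  generalize hPdef : (P0 : Subgroup G) = P at *
  haveI := hnorm
  haveI := hcomm
  have hindex : P.index = q := by
    have h := P.card_mul_index
    rw [hPcard, hcard] at h
    exact Nat.eq_of_mul_eq_mul_left (pow_pos hp.pos n) h
  -- orders
  have hmemP : ∀ g : G, g ∈ P ↔ g ^ p = 1 := by
    intro g
    refine ⟨hexp g, fun h => ?_⟩
    apply H71.Basic2.mem_of_orderOf_coprime_index
    rw [hindex]
    exact Nat.Coprime.coprime_dvd_left (orderOf_dvd_of_pow_eq_one h) hcop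
  have hordP : ∀ g : G, g ≠ 1 → g ∈ P → orderOf g = p := fun g hg1 hg => orderOf_eq_prime (hexp g hg) hg1
  have hordn : ∀ g : G, g ∉ P → orderOf g = q := by
    intro g hg
    have hqd : q ∣ orderOf g := by
      by_contra hnd
      apply hg
      apply H71.Basic2.mem_of_orderOf_coprime_index
      rw [hindex]
      exact ((Nat.Prime.coprime_iff_not_dvd hq).2 hnd).symm
    have hpd : ¬ p ∣ orderOf g := by
      intro hpd
      obtain ⟨a, ha⟩ := H71.Basic2.exists_pow_orderOf_eq g hq hqd
      obtain ⟨b, hb⟩ := H71.Basic2.exists_pow_orderOf_eq g hp hpd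
      apply hfpf _ _ ha hb
      rw [((Commute.refl g).pow_pow a b).eq, mul_inv_cancel_right]
    have h1 : orderOf g ∣ p ^ n * q := by rw [← hcard]; exact orderOf_dvd_natCard g
    have h2 : orderOf g ∣ q := by
      apply Nat.Coprime.dvd_of_dvd_mul_left _ h1
      exact Nat.Coprime.pow_right n (((Nat.Prime.coprime_iff_not_dvd hp).2 hpd).symm)
    exact ((Nat.dvd_prime hq).1 h2).resolve_left (fun h => by rw [h] at hqd; exact hq.one_lt.ne' (Nat.dvd_one.1 hqd))
  -- an element of order q
  obtain ⟨x, hx⟩ := exists_prime_orderOf_dvd_card' (G := G) q (by rw [hcard]; exact dvd_mul_left _ _)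
  obtain ⟨y, hy⟩ := exists_prime_orderOf_dvd_card' (G := G) p
    (by rw [hcard]; exact (dvd_pow_self _ (by omega)).mul_right _)
  have hxP : x ∉ P := by
    intro h
    have := hordP x (by rintro rfl; rw [orderOf_one] at hx; exact hq.one_lt.ne hx) h
    rw [hx] at this
    exact hpq this.symm
  -- complement
  have hC : P.IsComplement' (Subgroup.zpowers x) := by
    apply Subgroup.isComplement'_of_coprime
    · rw [Nat.card_zpowers, hx, hPcard, hcard]
    · rw [Nat.card_zpowers, hx, hPcard]; exact Nat.Coprime.pow_left n hcop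
  -- linear algebra
  obtain ⟨hA, hB⟩ := exists_group_semilinear hpq hord P hexp x (by rw [← hx, pow_orderOf_eq_one]) (by
    intro a ha h
    by_contra h1
    exact hfpf x a hx (hordP _ h1 ha) h)
  -- automorphisms
  have hext : ∀ (s : P ≃* P) (k : ℕ), ¬ q ∣ k →
      (∀ w : P, s (MulAut.conjNormal x w) = MulAut.conjNormal (x ^ k) (s w)) →
      ∃ α : MulAut G, (∀ w : P, α (w : G) = s w) ∧ α x = x ^ k := by
    intro s k hk hs
    let κ0 : Subgroup.zpowers x →* Subgroup.zpowers x := powMonoidHom k
    have hκ0 : Function.Injective κ0 := by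
      rw [injective_iff_map_eq_one]
      intro a ha
      have h1 : a ^ k = 1 := ha
      have h2 : orderOf a ∣ k := orderOf_dvd_of_pow_eq_one h1
      have h3 : orderOf a ∣ q := by rw [← hx, ← Nat.card_zpowers x]; exact orderOf_dvd_natCard a
      rw [← orderOf_eq_one_iff]
      rcases (Nat.dvd_prime hq).1 h3 with h | h
      · exact h
      · rw [h] at h2; exact absurd h2 hk
    let κ : Subgroup.zpowers x ≃* Subgroup.zpowers x :=
      MulEquiv.ofBijective κ0 (Finite.injective_iff_bijective.1 hκ0)
    have hκ : ∀ a, κ a = a ^ k := fun a => rfl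
    -- powers
    have hs' : ∀ (i : ℕ) (w : P), s (MulAut.conjNormal (x ^ i) w) = MulAut.conjNormal ((x ^ i) ^ k) (s w) := by
      intro i
      induction i with
      | zero => intro w; simp
      | succ i ih =>
        intro w
        have h1 : (x ^ (i + 1)) ^ k = (x ^ i) ^ k * x ^ k := by
          rw [← pow_mul, ← pow_mul, ← pow_add, Nat.succ_mul]
        rw [pow_succ, map_mul, MulAut.mul_apply, ih, hs, ← MulAut.mul_apply, ← map_mul, ← h1, pow_succ]
    obtain ⟨α, hα1, hα2⟩ := H71.SdpAut.exists_aut hC s κ (by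
      rintro ⟨h, hh⟩ w
      rw [← mem_powers_iff_mem_zpowers] at hh
      obtain ⟨i, rfl⟩ := hh
      rw [hκ]
      have := congrArg (fun w : P => (w : G)) (hs' i w)
      exact this)
    refine ⟨α, fun w => hα1 w, ?_⟩
    have := hα2 ⟨x, Subgroup.mem_zpowers x⟩
    rw [this, hκ]; rfl
  -- same order implies conjugate
  have hsame : ∀ u v : G, orderOf u = orderOf v → ∃ α : MulAut G, α u = v := by
    intro u v huv
    by_cases hu1 : u = 1
    · refine ⟨1, ?_⟩
      rw [hu1, orderOf_one] at huv
      rw [MulAut.one_apply, hu1, orderOf_eq_one_iff.1 huv.symm]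
    have hv1 : v ≠ 1 := by
      rintro rfl
      rw [orderOf_one, orderOf_eq_one_iff] at huv
      exact hu1 huv
    by_cases huP : u ∈ P
    · have hvP : v ∈ P := by
        by_contra hvP
        rw [hordP u hu1 huP, hordn v hvP] at huv
        exact hpq huv
      obtain ⟨s, hs1, hs2⟩ := hA ⟨u, huP⟩ ⟨v, hvP⟩ (fun h => hu1 (congrArg (fun w : P => (w : G)) h))
        (fun h => hv1 (congrArg (fun w : P => (w : G)) h))
      obtain ⟨α, hα1, -⟩ := hext s 1 hq.not_dvd_one (by simpa using hs2)
      refine ⟨α, ?_⟩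
      have := hα1 ⟨u, huP⟩
      rw [hs1] at this
      exact this
    · have hvP : v ∉ P := by
        intro hvP
        rw [hordP v hv1 hvP, hordn u huP] at huv
        exact hpq huv.symm
      -- all elements of order q are conjugate to powers of x
      have key : ∀ u : G, orderOf u = q → ∃ α : MulAut G, α x = u := by
        intro u hu
        have hSyl : ∀ z : G, orderOf z = q → ∃ Q : Sylow q G, (Q : Subgroup G) = Subgroup.zpowers z := by
          intro z hz
          have h1 : Nat.card (Subgroup.zpowers z) = q ^ (Nat.card G).factorization q := by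
            rw [Nat.card_zpowers, hz, hcard, Nat.factorization_mul (pow_ne_zero _ hp.ne_zero) hq.ne_zero,
              Finsupp.add_apply, hp.factorization_pow, hq.factorization]
            simp [Finsupp.single_apply, hpq]
          exact ⟨Sylow.ofCard _ h1, rfl⟩
        obtain ⟨Q1, hQ1⟩ := hSyl x hx
        obtain ⟨Q2, hQ2⟩ := hSyl u hu
        obtain ⟨g, hg⟩ := MulAction.exists_smul_eq G Q1 Q2
        have h1 : MulAut.conj g⁻¹ u ∈ Subgroup.zpowers x := by
          have h2 : u ∈ (Q2 : Subgroup G) := by rw [hQ2]; exact Subgroup.mem_zpowers u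
          rw [← hg, Sylow.coe_subgroup_smul, Subgroup.mem_pointwise_smul_iff_inv_smul_mem, hQ1] at h2
          rwa [map_inv]
        rw [← mem_powers_iff_mem_zpowers] at h1
        obtain ⟨k, hk⟩ := h1
        have hk' : x ^ k = MulAut.conj g⁻¹ u := hk
        have hkq : ¬ q ∣ k := by
          rintro ⟨c, rfl⟩
          rw [pow_mul, ← hx, pow_orderOf_eq_one, one_pow] at hk'
          have h3 : orderOf (MulAut.conj g⁻¹ u) = q := by rw [MulEquiv.orderOf_eq, hu]
          rw [← hk', orderOf_one] at h3
          exact hq.one_lt.ne h3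
        obtain ⟨s, hs⟩ := hB k hkq
        obtain ⟨α, -, hα⟩ := hext s k hkq hs
        refine ⟨MulAut.conj g * α, ?_⟩
        rw [MulAut.mul_apply, hα, hk', ← MulAut.mul_apply, ← map_mul, mul_inv_cancel, map_one, MulAut.one_apply]
      obtain ⟨α, hα⟩ := key u (hordn u huP)
      obtain ⟨β, hβ⟩ := key v (hordn v hvP)
      refine ⟨β * α⁻¹, ?_⟩
      rw [MulAut.mul_apply, ← hα, MulAut.inv_apply_self, hβ]
  rw [H71.AutOrbit.card_eq_of_conj hsame]
  have hr : Set.range (fun g : G => orderOf g) = {1, p, q} := by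
    ext m
    constructor
    · rintro ⟨g, rfl⟩
      by_cases hg1 : g = 1
      · left; rw [hg1]; exact orderOf_one
      by_cases hgP : g ∈ P
      · right; left; exact hordP g hg1 hgP
      · right; right; exact hordn g hgP
    · rintro (rfl | rfl | rfl)
      · exact ⟨1, orderOf_one⟩
      · exact ⟨y, hy⟩
      · exact ⟨x, hx⟩
  rw [hr, Set.ncard_eq_three]
  exact ⟨1, p, q, hp.one_lt.ne, hq.one_lt.ne, hpq, rfl⟩

theorem forward_aux {G : Type*} [Group G] [Finite G] (p q a b : ℕ) [Fact p.Prime] [Fact q.Prime] (hpq : p ≠ q)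
    (ha : 1 ≤ a) (hb : 1 ≤ b) (hcard : Nat.card G = p ^ a * q ^ b)
    (hord : ∀ g : G, orderOf g = 1 ∨ orderOf g = p ∨ orderOf g = q)
    (hconj : ∀ u v : G, orderOf u = orderOf v → ∃ α : MulAut G, α u = v)
    (N : Subgroup G) [N.Normal] (hN : N ≠ ⊥) (hNp : ∀ x ∈ N, x ^ p = 1) :
    b = 1 ∧ (∀ P : Sylow p G, (P : Subgroup G).Normal ∧ Cfsg.IsElementaryAbelian p (P : Subgroup G)) ∧
      orderOf (p : ZMod q) = q - 1 ∧
      ∀ x y : G, orderOf x = q → orderOf y = p → x * y * x⁻¹ ≠ y := by
  classical
  have hp : p.Prime := Fact.out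
  have hq : q.Prime := Fact.out
  have hcop : p.Coprime q := (Nat.coprime_primes hp hq).2 hpq
  -- fixed point free
  have hfpf : ∀ x y : G, orderOf x = q → orderOf y = p → x * y * x⁻¹ ≠ y := by
    intro x y hx hy h
    have hc : Commute x y := by
      rw [commute_iff_eq]
      rw [mul_inv_eq_iff_eq_mul] at h
      exact h
    have h1 : orderOf (x * y) = q * p := by
      rw [← hx, ← hy]
      exact hc.orderOf_mul_eq_mul_orderOf_of_coprime (by rw [hx, hy]; exact hcop.symm)
    have hq1 := hq.one_lt
    have hp1 := hp.one_lt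
    rcases hord (x * y) with h2 | h2 | h2 <;> rw [h1] at h2 <;> nlinarith
  -- the Sylow subgroup
  obtain ⟨⟨z, hzN⟩, hz⟩ := Subgroup.ne_bot_iff_exists_ne_one.1 hN
  have hz1 : z ≠ 1 := fun h => hz (Subtype.ext h)
  have hzord : orderOf z = p := orderOf_eq_prime (hNp z hzN) hz1
  have hNpg : ∀ α : MulAut G, IsPGroup p (N.map α.toMonoidHom) := by
    intro α
    have h1 : IsPGroup p N := fun g => ⟨1, by
      rw [pow_one]; exact Subtype.ext (hNp g g.2)⟩
    exact h1.map _
  have hmem : ∀ (P : Sylow p G) (g : G), g ∈ (P : Subgroup G) ↔ g ^ p = 1 := by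
    intro P g
    constructor
    · intro hg
      have h1 : orderOf (⟨g, hg⟩ : (P : Subgroup G)) = orderOf g := Subgroup.orderOf_mk _ _
      obtain ⟨k, hk⟩ := (IsPGroup.iff_orderOf.1 P.isPGroup') ⟨g, hg⟩
      rw [h1] at hk
      rcases hord g with h2 | h2 | h2
      · rw [orderOf_eq_one_iff] at h2; rw [h2, one_pow]
      · rw [← h2, pow_orderOf_eq_one]
      · rw [h2] at hk
        have h3 : q ∣ p := hq.dvd_of_dvd_pow (by rw [← hk])
        exact absurd ((Nat.prime_dvd_prime_iff_eq hq hp).1 h3).symm hpq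
    · intro hg
      by_cases hg1 : g = 1
      · rw [hg1]; exact Subgroup.one_mem _
      have h1 : orderOf g = p := orderOf_eq_prime hg hg1
      obtain ⟨α, hα⟩ := hconj z g (by rw [hzord, h1])
      have h2 : (N.map α.toMonoidHom).Normal := Subgroup.Normal.map inferInstance _ α.surjective
      have h3 : N.map α.toMonoidHom ≤ (P : Subgroup G) := by
        obtain ⟨Q, hQ⟩ := (hNpg α).exists_le_sylow
        obtain ⟨c, hc⟩ := MulAction.exists_smul_eq G Q P
        intro y hy
        rw [← hc, Sylow.coe_subgroup_smul, Subgroup.mem_pointwise_smul_iff_inv_smul_mem, ← map_inv, MulAut.smul_def,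
          MulAut.conj_apply]
        exact hQ (h2.conj_mem y hy c⁻¹)
      exact h3 ⟨z, hzN, hα⟩
  have hnormal : ∀ P : Sylow p G, (P : Subgroup G).Normal := by
    intro P
    refine ⟨fun n hn g => ?_⟩
    rw [hmem] at hn ⊢
    rw [conj_pow, hn, mul_one, mul_inv_cancel]
  have hcomm : ∀ P : Sylow p G, IsMulCommutative (P : Subgroup G) := by
    intro P
    have hnt : Nontrivial (P : Subgroup G) := by
      rw [Subgroup.nontrivial_iff_exists_ne_one]
      exact ⟨z, (hmem P z).2 (hNp z hzN), hz1⟩
    haveI := P.isPGroup'.center_nontrivial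
    obtain ⟨⟨c, hc⟩, hc1⟩ := exists_ne (1 : Subgroup.center (P : Subgroup G))
    have hc1' : (c : G) ≠ 1 := fun h => hc1 (Subtype.ext (Subtype.ext h))
    have hcord : orderOf (c : G) = p := orderOf_eq_prime ((hmem P _).1 c.2) hc1'
    refine ⟨⟨?_⟩⟩
    rintro ⟨u, hu⟩ ⟨v, hv⟩
    apply Subtype.ext
    change u * v = v * u
    by_cases hu1 : u = 1
    · rw [hu1, one_mul, mul_one]
    have huord : orderOf u = p := orderOf_eq_prime ((hmem P _).1 hu) hu1
    obtain ⟨α, hα⟩ := hconj (c : G) u (by rw [hcord, huord])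
    have hv' : α.symm v ∈ (P : Subgroup G) := by
      rw [hmem] at hv ⊢
      rw [← map_pow, hv, map_one]
    have h1 := congrArg (fun w : (P : Subgroup G) => (w : G)) (Subgroup.mem_center_iff.1 hc ⟨α.symm v, hv'⟩)
    have h2 : α.symm v * (c : G) = (c : G) * α.symm v := h1
    have h3 := congrArg α h2
    rw [map_mul, map_mul, MulEquiv.apply_symm_apply, hα] at h3
    exact h3.symm
  obtain ⟨P0⟩ : Nonempty (Sylow p G) := inferInstance
  have hPcard : Nat.card (P0 : Subgroup G) = p ^ a := by
    rw [P0.card_eq_multiplicity, hcard, Nat.factorization_mul (pow_ne_zero _ hp.ne_zero) (pow_ne_zero _ hq.ne_zero),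
      Finsupp.add_apply, hp.factorization_pow, hq.factorization_pow]
    simp [Finsupp.single_apply, hpq.symm]
  have hmemP := hmem P0
  haveI := hnormal P0
  haveI := hcomm P0
  -- Sylow q-subgroups have order q
  have hb1 : b = 1 := by
    by_contra hb1
    obtain ⟨Q0⟩ : Nonempty (Sylow q G) := inferInstance
    have hQcard : Nat.card (Q0 : Subgroup G) = q ^ b := by
      rw [Q0.card_eq_multiplicity, hcard, Nat.factorization_mul (pow_ne_zero _ hp.ne_zero) (pow_ne_zero _ hq.ne_zero),
        Finsupp.add_apply, hp.factorization_pow, hq.factorization_pow]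
      simp [Finsupp.single_apply, hpq]
    have hQord : ∀ g ∈ (Q0 : Subgroup G), g ≠ 1 → orderOf g = q := by
      intro g hg hg1
      obtain ⟨k, hk⟩ := (IsPGroup.iff_orderOf.1 Q0.isPGroup') ⟨g, hg⟩
      rw [Subgroup.orderOf_mk] at hk
      rcases hord g with h2 | h2 | h2
      · exact absurd (orderOf_eq_one_iff.1 h2) hg1
      · rw [h2] at hk
        have h3 : p ∣ q := hp.dvd_of_dvd_pow (by rw [← hk])
        exact absurd ((Nat.prime_dvd_prime_iff_eq hp hq).1 h3) hpq
      · exact h2
    haveI hQnt : Nontrivial (Q0 : Subgroup G) := by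
      rw [← Finite.one_lt_card_iff_nontrivial, hQcard]
      exact Nat.one_lt_pow (by omega) hq.one_lt
    haveI := Q0.isPGroup'.center_nontrivial
    obtain ⟨⟨c, hc⟩, hc1⟩ := exists_ne (1 : Subgroup.center (Q0 : Subgroup G))
    have hc1' : (c : G) ≠ 1 := fun h => hc1 (Subtype.ext (Subtype.ext h))
    have hcord : orderOf c = q := by
      have h := hQord (c : G) c.2 hc1'
      rwa [Subgroup.orderOf_coe] at h
    have hZcard : Nat.card (Subgroup.zpowers c) = q := by rw [Nat.card_zpowers, hcord]
    have hex : ∃ d : (Q0 : Subgroup G), d ∉ Subgroup.zpowers c := by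
      by_contra hno
      push Not at hno
      have h1 : Subgroup.zpowers c = ⊤ := by
        rw [eq_top_iff]; exact fun d _ => hno d
      rw [h1, Subgroup.card_top, hQcard] at hZcard
      have h2 : q ^ 2 ≤ q ^ b := Nat.pow_le_pow_right hq.pos (by omega)
      rw [hZcard] at h2
      nlinarith [hq.one_lt]
    obtain ⟨d, hd⟩ := hex
    haveI hPnt : Nontrivial (P0 : Subgroup G) := by
      rw [Subgroup.nontrivial_iff_exists_ne_one]
      exact ⟨z, (hmemP z).2 (hNp z hzN), hz1⟩
    letI : MulDistribMulAction (Q0 : Subgroup G) (P0 : Subgroup G) :=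
      MulDistribMulAction.compHom (P0 : Subgroup G) ((MulAut.conjNormal (H := (P0 : Subgroup G))).comp (Q0 : Subgroup G).subtype)
    have hexpQ : ∀ e : (Q0 : Subgroup G), e ^ q = 1 := by
      intro e
      by_cases he : (e : G) = 1
      · have : e = 1 := Subtype.ext he
        rw [this, one_pow]
      · apply Subtype.ext
        change (e : G) ^ q = 1
        exact orderOf_dvd_iff_pow_eq_one.1 (hQord e e.2 he).dvd
    refine H1.FpfAb.not_fpf (A := (Q0 : Subgroup G)) (V := (P0 : Subgroup G)) ?_ q q hq hq (Subgroup.zpowers c) hZcard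
      d ?_ hd (fun e _ => hexpQ _)
    · intro e he v hv
      by_contra hv1
      have he1 : (e : G) ≠ 1 := fun h => he (Subtype.ext h)
      have hv1' : (v : G) ≠ 1 := fun h => hv1 (Subtype.ext h)
      apply hfpf (e : G) (v : G) (hQord _ e.2 he1) (orderOf_eq_prime ((hmemP _).1 v.2) hv1')
      exact congrArg (fun w : (P0 : Subgroup G) => (w : G)) hv
    · have h1 : (Subgroup.zpowers c).Normal := by
        refine ⟨fun n hn g => ?_⟩
        obtain ⟨k, rfl⟩ := hn
        have h2 : g * c ^ k * g⁻¹ = c ^ k := by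
          have h3 : Commute g (c ^ k) := by
            apply Commute.zpow_right
            exact (Subgroup.mem_center_iff.1 hc g)
          rw [h3.eq, mul_inv_cancel_right]
        rw [h2]
        exact ⟨k, rfl⟩
      rw [Subgroup.normalizer_eq_top]
      trivial
  subst hb1
  rw [pow_one] at hcard
  refine ⟨rfl, fun P => ⟨hnormal P, hcomm P, fun g hg => (hmem P g).1 hg⟩, ?_, hfpf⟩
  -- primitive root
  obtain ⟨x, hx⟩ := exists_prime_orderOf_dvd_card' (G := G) q (by rw [hcard]; exact dvd_mul_left _ _)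
  have hxq : x ^ q = 1 := by rw [← hx, pow_orderOf_eq_one]
  generalize hPdef : (P0 : Subgroup G) = P at *
  haveI hPnt : Nontrivial P := by
    rw [Subgroup.nontrivial_iff_exists_ne_one]
    exact ⟨z, (hmemP z).2 (hNp z hzN), hz1⟩
  have hC : P.IsComplement' (Subgroup.zpowers x) := by
    apply Subgroup.isComplement'_of_coprime
    · rw [Nat.card_zpowers, hx, hPcard, hcard]
    · rw [Nat.card_zpowers, hx, hPcard]; exact Nat.Coprime.pow_left a hcop
  have hPchar : ∀ α : MulAut G, P.map α.toMonoidHom = P := by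
    intro α
    ext g
    constructor
    · rintro ⟨w, hw, rfl⟩
      have hw' : w ∈ P := hw
      rw [hmemP] at hw' ⊢
      change (α w) ^ p = 1
      rw [← map_pow, hw', map_one]
    · intro hg
      refine ⟨α.symm g, ?_, α.apply_symm_apply g⟩
      change α.symm g ∈ P
      rw [hmemP] at hg ⊢
      rw [← map_pow, hg, map_one]
  apply group_orderOf_eq hpq P (fun g hg => (hmemP g).1 hg) x hxq
  · intro w hw h
    by_contra hw1
    exact hfpf x w hx (orderOf_eq_prime ((hmemP w).1 hw) hw1) h
  · -- homogeneity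
    intro T hT hTH w hw hTw u
    by_contra hTu
    let K : Subgroup G := T.ker.map P.subtype
    have hKmem : ∀ v : P, (v : G) ∈ K ↔ T v = 1 := by
      intro v
      constructor
      · rintro ⟨v', hv', h⟩
        have : v' = v := Subtype.ext h
        rw [← this]; exact hv'
      · intro h
        exact ⟨v, h, rfl⟩
    have hKP : K ≤ P := by
      rintro _ ⟨v, -, rfl⟩
      exact v.2
    have hTpow : ∀ (i : ℕ) (v : P), T (MulAut.conjNormal (x ^ i) v) = MulAut.conjNormal (x ^ i) (T v) := by
      intro i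
      induction i with
      | zero => intro v; simp
      | succ i ih =>
        intro v
        rw [pow_succ, map_mul, MulAut.mul_apply, MulAut.mul_apply, ih, hT]
    have hK : K.Normal := by
      refine ⟨?_⟩
      rintro _ ⟨v, hv, rfl⟩ g
      obtain ⟨⟨⟨e, he⟩, ⟨y, hy⟩⟩, hg⟩ := hC.2 g
      have hg' : e * y = g := hg
      rw [SetLike.mem_coe, ← mem_powers_iff_mem_zpowers] at hy
      obtain ⟨i, rfl⟩ := hy
      have h1 : g * P.subtype v * g⁻¹ = ((MulAut.conjNormal (x ^ i) v : P) : G) := by
        have h2 : e * ((MulAut.conjNormal (x ^ i) v : P) : G) = ((MulAut.conjNormal (x ^ i) v : P) : G) * e := by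
          have := mul_comm (⟨e, he⟩ : P) (MulAut.conjNormal (x ^ i) v : P)
          exact congrArg (fun w : P => (w : G)) this
        rw [← hg']
        calc e * x ^ i * P.subtype v * (e * x ^ i)⁻¹ = e * ((MulAut.conjNormal (x ^ i) v : P) : G) * e⁻¹ := by
              rw [MulAut.conjNormal_apply]
              simp only [Subgroup.subtype_apply]
              group
          _ = _ := by rw [h2, mul_inv_cancel_right]
      rw [h1, hKmem, hTpow]
      rw [show T v = 1 from hv, map_one]
    have hcardN : ∀ v v' : P, v ≠ 1 → v' ≠ 1 →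
        Nat.card (Subgroup.normalClosure {(v' : G)}) ≤ Nat.card (Subgroup.normalClosure {(v : G)}) := by
      intro v v' hv hv'
      have hv1 : (v : G) ≠ 1 := fun h => hv (Subtype.ext h)
      have hv1' : (v' : G) ≠ 1 := fun h => hv' (Subtype.ext h)
      obtain ⟨α, hα⟩ := hconj (v : G) (v' : G) (by
        rw [orderOf_eq_prime ((hmemP _).1 v.2) hv1, orderOf_eq_prime ((hmemP _).1 v'.2) hv1'])
      have h1 : Subgroup.normalClosure {(v' : G)} ≤ (Subgroup.normalClosure {(v : G)}).map α.toMonoidHom := by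
        haveI : ((Subgroup.normalClosure {(v : G)}).map α.toMonoidHom).Normal :=
          Subgroup.Normal.map inferInstance _ α.surjective
        apply Subgroup.normalClosure_le_normal
        rw [Set.singleton_subset_iff]
        exact ⟨v, Subgroup.subset_normalClosure rfl, hα⟩
      calc _ ≤ _ := Subgroup.card_le_of_le h1
        _ = _ := Subgroup.card_map_of_injective α.injective
    have hNeq : ∀ v v' : P, v ≠ 1 → v' ≠ 1 → (v' : G) ∈ Subgroup.normalClosure {(v : G)} →
        Subgroup.normalClosure {(v' : G)} = Subgroup.normalClosure {(v : G)} := by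
      intro v v' hv hv' hmem
      apply Subgroup.eq_of_le_of_card_ge
      · apply Subgroup.normalClosure_le_normal
        rw [Set.singleton_subset_iff]
        exact hmem
      · exact hcardN v' v hv' hv
    have hNP : ∀ v : P, Subgroup.normalClosure {(v : G)} ≤ P := by
      intro v
      apply Subgroup.normalClosure_le_normal
      rw [Set.singleton_subset_iff]
      exact v.2
    have hself : ∀ v : P, (v : G) ∈ Subgroup.normalClosure {(v : G)} := fun v => Subgroup.subset_normalClosure rfl
    have hu1 : u ≠ 1 := by rintro rfl; exact hTu (map_one T)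
    have hwu1 : w * u ≠ 1 := by
      intro h
      apply hTu
      have := congrArg T h
      rwa [map_mul, hTw, one_mul, map_one] at this
    have e1 := hNeq u (T u) hu1 hTu (hTH _ inferInstance (hNP u) u (hself u))
    have e2 := hNeq (w * u) (T u) hwu1 hTu (by
      have := hTH _ inferInstance (hNP (w * u)) (w * u) (hself (w * u))
      rwa [map_mul, hTw, one_mul] at this)
    have hwN : (w : G) ∈ Subgroup.normalClosure {(u : G)} := by
      have h1 : ((w * u : P) : G) ∈ Subgroup.normalClosure {(u : G)} := by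
        rw [← e1, e2]; exact hself _
      have h2 := Subgroup.mul_mem _ h1 (Subgroup.inv_mem _ (hself u))
      rwa [Subgroup.coe_mul, mul_inv_cancel_right] at h2
    have e3 := hNeq u w hu1 hw hwN
    apply hTu
    rw [← hKmem]
    have h4 : Subgroup.normalClosure {(w : G)} ≤ K := by
      apply Subgroup.normalClosure_le_normal
      rw [Set.singleton_subset_iff]
      exact (hKmem w).2 hTw
    apply h4
    rw [e3]
    exact hself u
  · intro k hk
    have hxk : orderOf (x ^ k) = q := by
      rw [← hx]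
      apply Nat.Coprime.orderOf_pow
      rw [hx]
      exact (Nat.Prime.coprime_iff_not_dvd hq).2 hk
    obtain ⟨α, hα⟩ := hconj x (x ^ k) (by rw [hx, hxk])
    refine ⟨(α.subgroupMap P).trans (MulEquiv.subgroupCongr (hPchar α)), ?_⟩
    intro w
    apply Subtype.ext
    change α (x * w * x⁻¹) = x ^ k * α w * (x ^ k)⁻¹
    rw [map_mul, map_mul, map_inv, hα]

theorem forward {G : Type*} [Group G] [Finite G] (hnpp : ¬ IsPrimePow (Nat.card G)) (hnt : Nat.card G ≠ 1)
    (h3 : Nat.card (MulAction.orbitRel.Quotient (MulAut G) G) = 3) :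
    ∃ (p q n : ℕ) (_ : Fact p.Prime) (_ : Fact q.Prime), p ≠ q ∧ 1 ≤ n ∧ Nat.card G = p ^ n * q ∧
      (∀ P : Sylow p G, (P : Subgroup G).Normal ∧ Cfsg.IsElementaryAbelian p (P : Subgroup G)) ∧
      orderOf (p : ZMod q) = q - 1 ∧
      ∀ x y : G, orderOf x = q → orderOf y = p → x * y * x⁻¹ ≠ y := by
  classical
  have hcard0 : Nat.card G ≠ 0 := Nat.card_pos.ne'
  set r1 := (Nat.card G).minFac with hr1def
  have hr1 : r1.Prime := Nat.minFac_prime hnt
  have hr1d : r1 ∣ Nat.card G := Nat.minFac_dvd _
  obtain ⟨a, m, hm, hcm⟩ := Nat.exists_eq_pow_mul_and_not_dvd hcard0 r1 hr1.ne_one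
  have ha1 : 1 ≤ a := by
    by_contra h
    have : a = 0 := by omega
    rw [this, pow_zero, one_mul] at hcm
    rw [hcm] at hr1d
    exact hm hr1d
  have hm1 : m ≠ 1 := by
    rintro rfl
    apply hnpp
    rw [hcm, mul_one]
    exact hr1.isPrimePow.pow (by omega)
  set r2 := m.minFac with hr2def
  have hr2 : r2.Prime := Nat.minFac_prime hm1
  have hr2d : r2 ∣ Nat.card G := by rw [hcm]; exact (Nat.minFac_dvd m).mul_left _
  have hne : r1 ≠ r2 := by
    intro h
    apply hm
    rw [h]; exact Nat.minFac_dvd m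
  haveI := Fact.mk hr1
  haveI := Fact.mk hr2
  obtain ⟨x1, hx1⟩ := exists_prime_orderOf_dvd_card' (G := G) r1 hr1d
  obtain ⟨x2, hx2⟩ := exists_prime_orderOf_dvd_card' (G := G) r2 hr2d
  have hall := H71.AutOrbit.exists_of_card_eq (G := G) (ι := Fin 3) ![1, x1, x2] (by rw [h3]; simp) (by
    intro i j hij
    obtain ⟨α, hα⟩ := hij
    have h1 : orderOf ((![1, x1, x2] : Fin 3 → G) i) = orderOf ((![1, x1, x2] : Fin 3 → G) j) := by
      rw [← hα, MulEquiv.orderOf_eq]
    have h2 : ∀ i : Fin 3, orderOf ((![1, x1, x2] : Fin 3 → G) i) = (![1, r1, r2] : Fin 3 → ℕ) i := by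
      intro i
      fin_cases i
      · exact orderOf_one
      · exact hx1
      · exact hx2
    rw [h2, h2] at h1
    have hr11 := hr1.one_lt
    have hr21 := hr2.one_lt
    fin_cases i <;> fin_cases j <;> simp at h1 ⊢ <;> omega)
  have hord : ∀ g : G, orderOf g = 1 ∨ orderOf g = r1 ∨ orderOf g = r2 := by
    intro g
    obtain ⟨i, α, hα⟩ := hall g
    rw [← hα, MulEquiv.orderOf_eq]
    fin_cases i
    · left; exact orderOf_one
    · right; left; exact hx1
    · right; right; exact hx2
  have hconj : ∀ u v : G, orderOf u = orderOf v → ∃ α : MulAut G, α u = v := by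
    intro u v huv
    obtain ⟨i, α, hα⟩ := hall u
    obtain ⟨j, β, hβ⟩ := hall v
    have h2 : ∀ i : Fin 3, orderOf ((![1, x1, x2] : Fin 3 → G) i) = (![1, r1, r2] : Fin 3 → ℕ) i := by
      intro i
      fin_cases i
      · exact orderOf_one
      · exact hx1
      · exact hx2
    have hij : i = j := by
      rw [← hα, ← hβ, MulEquiv.orderOf_eq, MulEquiv.orderOf_eq, h2, h2] at huv
      have hr11 := hr1.one_lt
      have hr21 := hr2.one_lt
      fin_cases i <;> fin_cases j <;> simp at huv ⊢ <;> omega
    subst hij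
    refine ⟨β * α⁻¹, ?_⟩
    rw [MulAut.mul_apply, ← hα, MulAut.inv_apply_self, hβ]
  -- order
  have hprime : ∀ r : ℕ, r.Prime → r ∣ Nat.card G → r = r1 ∨ r = r2 := by
    intro r hr hrd
    haveI := Fact.mk hr
    obtain ⟨y, hy⟩ := exists_prime_orderOf_dvd_card' (G := G) r hrd
    rcases hord y with h | h | h
    · rw [hy] at h; exact absurd h hr.ne_one
    · left; rw [← hy, h]
    · right; rw [← hy, h]
  have hm0 : m ≠ 0 := by rintro rfl; rw [mul_zero] at hcm; exact hcard0 hcm
  obtain ⟨b, m', hm', hcm'⟩ := Nat.exists_eq_pow_mul_and_not_dvd hm0 r2 hr2.ne_one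
  have hm'1 : m' = 1 := by
    by_contra h
    obtain ⟨r, hr, hrd⟩ := Nat.exists_prime_and_dvd h
    rcases hprime r hr (by rw [hcm, hcm']; exact (hrd.mul_left _).mul_left _) with rfl | rfl
    · apply hm; rw [hcm']; exact hrd.mul_left _
    · exact hm' hrd
  rw [hm'1, mul_one] at hcm'
  have hb1 : 1 ≤ b := by
    by_contra h
    have : b = 0 := by omega
    rw [this, pow_zero] at hcm'
    exact hm1 hcm'
  rw [hcm'] at hcm
  have hsol : Group.IsSolvable G := H4.Burnside.isSolvable_of_card_eq r1 r2 hr1 hr2 _ G rfl ⟨a, b, hcm⟩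
  -- minimal normal subgroup
  have hmin : ∃ N : Subgroup G, (N.Normal ∧ N ≠ ⊥) ∧ ∀ M : Subgroup G, (M.Normal ∧ M ≠ ⊥) → M ≤ N → M = N := by
    have hfin : (Set.univ : Set (Subgroup G)).Finite := Set.toFinite _
    obtain ⟨N, hN⟩ := (Set.toFinite {N : Subgroup G | N.Normal ∧ N ≠ ⊥}).exists_minimal
      ⟨⊤, inferInstance, by
        intro h
        have := Subgroup.card_top (G := G)
        rw [h, Subgroup.card_bot] at this
        exact hnt this.symm⟩
    exact ⟨N, hN.1, fun M hM hMN => le_antisymm hMN (hN.2 hM hMN)⟩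
  obtain ⟨N, ⟨hNn, hNb⟩, hNmin⟩ := hmin
  haveI := hNn
  obtain ⟨-, p, hp, hNp⟩ := H1.Solv.minimal_normal_elementary hsol N hNb (by
    intro M hM hMN
    by_cases hMb : M = ⊥
    · left; exact hMb
    · right; exact hNmin M ⟨hM, hMb⟩ hMN)
  have hp12 : p = r1 ∨ p = r2 := by
    obtain ⟨⟨z, hzN⟩, hz⟩ := Subgroup.ne_bot_iff_exists_ne_one.1 hNb
    have hz1 : z ≠ 1 := fun h => hz (Subtype.ext h)
    haveI := Fact.mk hp
    have := orderOf_eq_prime (hNp z hzN) hz1
    apply hprime p hp
    rw [← this]; exact orderOf_dvd_natCard z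
  rcases hp12 with rfl | rfl
  · obtain ⟨hb, h1, h2, h4⟩ := forward_aux r1 r2 a b hne ha1 hb1 hcm hord hconj N hNb hNp
    refine ⟨r1, r2, a, inferInstance, inferInstance, hne, ha1, ?_, h1, h2, h4⟩
    rw [hcm, hb, pow_one]
  · obtain ⟨hb, h1, h2, h4⟩ := forward_aux r2 r1 b a hne.symm hb1 ha1 (by rw [hcm, mul_comm])
      (fun g => by rcases hord g with h | h | h <;> tauto) hconj N hNb hNp
    refine ⟨r2, r1, b, inferInstance, inferInstance, hne.symm, hb1, ?_, h1, h2, h4⟩
    rw [hcm, hb, pow_one, mul_comm]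

/-- Let G be a finite group whose order is not a prime power. Then the automorphism group of G has exactly three orbits on G if and only if there are distinct primes p, q with #G = pⁿ·q (n ≥ 1) such that G has a normal elementary abelian Sylow p-subgroup P, p is a primitive root modulo q (the multiplicative order of p mod q is q − 1), and every element of order q of G acts on P without non-identity fixed points. -/
theorem result {G : Type*} [Group G] [Finite G] (hnpp : ¬ IsPrimePow (Nat.card G)) (hnt : Nat.card G ≠ 1) :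
    Nat.card (MulAction.orbitRel.Quotient (MulAut G) G) = 3 ↔
    ∃ (p q n : ℕ) (_ : Fact p.Prime) (_ : Fact q.Prime), p ≠ q ∧ 1 ≤ n ∧ Nat.card G = p ^ n * q ∧
      (∀ P : Sylow p G, (P : Subgroup G).Normal ∧ Cfsg.IsElementaryAbelian p (P : Subgroup G)) ∧
      orderOf (p : ZMod q) = q - 1 ∧
      ∀ x y : G, orderOf x = q → orderOf y = p → x * y * x⁻¹ ≠ y := by
  constructor
  · exact forward hnpp hnt
  · rintro ⟨p, q, n, _, _, hpq, hn, hcard, hP, hord, hfpf⟩
    exact backward p q n hpq hn hcard hP hord hfpf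

end Cfsg.Agent.S4081
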