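import Mathlib
import Cfsg.Statements.S4082
import Cfsg.Agent.Lib.H71.PCyc
import Cfsg.Agent.Lib.H71.CycBasic
import Cfsg.Agent.Lib.H76.MaxClass

set_option autoImplicit false
open Cfsg

namespace Cfsg.Agent.S4082

open Subgroup

theorem key {G : Type*} [Group G] [Finite G] {p : ℕ} [hp : Fact p.Prime] (hp2 : p ≠ 2) (R : Subgroup G) (hR : IsPGroup p R) {x : G}
    (ho : (orderOf x).Coprime p)
    (hH : IsCyclic ↥(zpowers x ⊔ R) ∨ ∃ n : ℕ, Nonempty (↥(zpowers x ⊔ R) ≃* DihedralGroup (p ^ n))) :
    (∀ y ∈ R, x * y = y * x) ∨ (orderOf x = 2 ∧ ∀ y ∈ R, x * y * x⁻¹ = y⁻¹) := by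
  have hxm : x ∈ zpowers x ⊔ R := (le_sup_left : zpowers x ≤ _) (mem_zpowers x)
  have hodd : Odd p := hp.out.odd_of_ne_two hp2
  rcases hH with hc | ⟨n, ⟨e⟩⟩
  · left
    intro y hy
    have hym : y ∈ zpowers x ⊔ R := (le_sup_right : R ≤ _) hy
    have := IsCyclic.isMulCommutative (α := ↥(zpowers x ⊔ R))
    have := mul_comm' (⟨x, hxm⟩ : ↥(zpowers x ⊔ R)) ⟨y, hym⟩
    exact congrArg Subtype.val this
  · have hpn : Odd (p ^ n) := hodd.pow
    have hyr : ∀ y (hy : y ∈ R), ∃ i, e ⟨y, (le_sup_right : R ≤ _) hy⟩ = DihedralGroup.r i := by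
      intro y hy
      rcases h : e ⟨y, (le_sup_right : R ≤ _) hy⟩ with i | i
      · exact ⟨i, rfl⟩
      · exfalso
        have h1 : orderOf (e ⟨y, (le_sup_right : R ≤ _) hy⟩) = 2 := by rw [h]; exact DihedralGroup.orderOf_sr i
        rw [MulEquiv.orderOf_eq, Subgroup.orderOf_mk] at h1
        obtain ⟨k, hk⟩ := (IsPGroup.iff_orderOf.mp hR) ⟨y, hy⟩
        rw [Subgroup.orderOf_mk, h1] at hk
        have : Odd (p ^ k) := hodd.pow
        rw [← hk] at this
        exact absurd this (by decide)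
    rcases h : e ⟨x, hxm⟩ with i | i
    · left
      intro y hy
      obtain ⟨j, hj⟩ := hyr y hy
      have h1 : e (⟨x, hxm⟩ * ⟨y, (le_sup_right : R ≤ _) hy⟩) = e (⟨y, (le_sup_right : R ≤ _) hy⟩ * ⟨x, hxm⟩) := by
        rw [map_mul, map_mul, h, hj, DihedralGroup.r_mul_r, DihedralGroup.r_mul_r, add_comm]
      exact congrArg Subtype.val (e.injective h1)
    · right
      refine ⟨?_, ?_⟩
      · have h1 : orderOf (e ⟨x, hxm⟩) = 2 := by rw [h]; exact DihedralGroup.orderOf_sr i
        rwa [MulEquiv.orderOf_eq, Subgroup.orderOf_mk] at h1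
      · intro y hy
        obtain ⟨j, hj⟩ := hyr y hy
        have h1 : e (⟨x, hxm⟩ * ⟨y, (le_sup_right : R ≤ _) hy⟩ * ⟨x, hxm⟩⁻¹) = e (⟨y, (le_sup_right : R ≤ _) hy⟩⁻¹) := by
          rw [map_mul, map_mul, map_inv, map_inv, h, hj]
          simp
        exact congrArg Subtype.val (e.injective h1)

theorem main_forward {G : Type*} [Group G] [Finite G] {p : ℕ} [hp : Fact p.Prime] (hp2 : p ≠ 2) (P : Sylow p G)
    (h : ∀ H : Subgroup G, (∀ S : Sylow p ↥H, (S : Subgroup ↥H).Normal) →
        (∀ (S : Sylow p ↥H) [(S : Subgroup ↥H).Normal], IsCyclic (↥H ⧸ (S : Subgroup ↥H))) →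
        IsCyclic H ∨ (∃ n : ℕ, Nonempty (H ≃* DihedralGroup (p ^ n)))) :
    (IsCyclic P ∧
      (Subgroup.normalizer ((P : Subgroup G) : Set G) = Subgroup.centralizer ((P : Subgroup G) : Set G) ∨
       ((Subgroup.centralizer ((P : Subgroup G) : Set G)).relIndex (Subgroup.normalizer ((P : Subgroup G) : Set G)) = 2 ∧
        ∀ Q : Subgroup G, Q ≤ P → Nat.card Q = p →
          IsMulCommutative ↥(Subgroup.centralizer (Q : Set G)) ∧
          ∀ x : G, x ∈ Subgroup.normalizer (Q : Set G) → x ∉ Subgroup.centralizer (Q : Set G) →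
            orderOf x = 2 ∧ ∀ c : G, c ∈ Subgroup.centralizer (Q : Set G) → x * c * x⁻¹ = c⁻¹))) := by
  have hodd : Odd p := hp.out.odd_of_ne_two hp2
  have hyp : ∀ (R : Subgroup G), IsPGroup p R → ∀ x ∈ normalizer (R : Set G), (orderOf x).Coprime p →
      IsCyclic ↥(zpowers x ⊔ R) ∨ ∃ n : ℕ, Nonempty (↥(zpowers x ⊔ R) ≃* DihedralGroup (p ^ n)) := by
    intro R hR x hx ho
    obtain ⟨-, h1, h2⟩ := H71.PCyc.hyp_of R hR hx ho
    exact h _ h1 h2
  have hkey : ∀ (R : Subgroup G), IsPGroup p R → ∀ x ∈ normalizer (R : Set G), (orderOf x).Coprime p →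
      (∀ y ∈ R, x * y = y * x) ∨ (orderOf x = 2 ∧ ∀ y ∈ R, x * y * x⁻¹ = y⁻¹) :=
    fun R hR x hx ho => key hp2 R hR ho (hyp R hR x hx ho)
  -- `p`-subgroups are cyclic
  have hcyc : ∀ R : Subgroup G, IsPGroup p R → IsCyclic R := by
    intro R hR
    have h1 := hyp R hR 1 (one_mem _) (by rw [orderOf_one]; exact Nat.coprime_one_left p)
    rw [zpowers_one_eq_bot, bot_sup_eq] at h1
    rcases h1 with h1 | ⟨n, ⟨e⟩⟩
    · exact h1
    · exfalso
      obtain ⟨k, hk⟩ := IsPGroup.iff_card.mp hR
      have h2 : Nat.card R = 2 * p ^ n := by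
        rw [Nat.card_congr e.toEquiv, DihedralGroup.nat_card]
      have h3 : Odd (Nat.card R) := by rw [hk]; exact hodd.pow
      rw [h2] at h3
      exact absurd h3 (by simp)
  have hcomm : ∀ R : Subgroup G, IsPGroup p R → ∀ a ∈ R, ∀ b ∈ R, a * b = b * a := by
    intro R hR a ha b hb
    have := hcyc R hR
    have := IsCyclic.isMulCommutative (α := R)
    exact congrArg Subtype.val (mul_comm' (⟨a, ha⟩ : R) ⟨b, hb⟩)
  have hPp : IsPGroup p (P : Subgroup G) := P.isPGroup'
  refine ⟨hcyc _ hPp, ?_⟩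
  -- elements of `N(P)` outside `C(P)`
  have hN : ∀ g ∈ normalizer ((P : Subgroup G) : Set G), g ∉ centralizer ((P : Subgroup G) : Set G) →
      ∃ b ∈ normalizer ((P : Subgroup G) : Set G), orderOf b = 2 ∧ (∀ y ∈ (P : Subgroup G), b * y * b⁻¹ = y⁻¹) ∧
        (∀ y ∈ (P : Subgroup G), g * y * g⁻¹ = y⁻¹) := by
    intro g hg hgc
    obtain ⟨i, j, hij, ⟨k, hk⟩, hj⟩ := H71.PCyc.exists_ppart p g
    have ha : g ^ i ∈ (P : Subgroup G) := by
      have hn : ((P : Subgroup G).subgroupOf (normalizer ((P : Subgroup G) : Set G))).Normal := Subgroup.normal_in_normalizer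
      have h1 : (⟨g ^ i, pow_mem hg i⟩ : normalizer ((P : Subgroup G) : Set G)) ∈ (P : Subgroup G).subgroupOf (normalizer ((P : Subgroup G) : Set G)) := by
        apply H71.Basic2.mem_of_orderOf_coprime_index
        rw [Subgroup.orderOf_mk, hk]
        apply Nat.Coprime.pow_left
        rw [hp.out.coprime_iff_not_dvd]
        intro hd
        apply P.not_dvd_index
        exact hd.trans ⟨_, (Subgroup.relIndex_mul_index (le_normalizer : (P : Subgroup G) ≤ _)).symm⟩
      exact h1
    have hb : g ^ j ∈ normalizer ((P : Subgroup G) : Set G) := pow_mem hg j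
    have hac : ∀ y ∈ (P : Subgroup G), g ^ i * y = y * g ^ i := fun y hy => hcomm _ hPp _ ha _ hy
    rcases hkey _ hPp _ hb hj with h1 | ⟨h1, h2⟩
    · exfalso
      apply hgc
      rw [Subgroup.mem_centralizer_iff]
      intro y hy
      rw [hij, ← mul_assoc, ← hac y hy, mul_assoc, ← h1 y hy, mul_assoc]
    · refine ⟨g ^ j, hb, h1, h2, ?_⟩
      intro y hy
      have : g * y * g⁻¹ = g ^ i * (g ^ j * y * (g ^ j)⁻¹) * (g ^ i)⁻¹ := by
        conv_lhs => rw [hij]
        group
      rw [this, h2 y hy, hac _ (inv_mem hy), mul_inv_cancel_right]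
  by_cases hNC : normalizer ((P : Subgroup G) : Set G) = centralizer ((P : Subgroup G) : Set G)
  · exact Or.inl hNC
  right
  have hCN : centralizer ((P : Subgroup G) : Set G) ≤ normalizer ((P : Subgroup G) : Set G) := Subgroup.centralizer_le_normalizer _
  obtain ⟨g, hgN, hgC⟩ : ∃ g ∈ normalizer ((P : Subgroup G) : Set G), g ∉ centralizer ((P : Subgroup G) : Set G) := by
    by_contra hcon
    push Not at hcon
    exact hNC (le_antisymm hcon hCN)
  refine ⟨?_, ?_⟩
  · rw [Subgroup.relIndex, Subgroup.index_eq_two_iff]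
    refine ⟨⟨g, hgN⟩, fun b => ?_⟩
    rw [Subgroup.mem_subgroupOf, Subgroup.mem_subgroupOf]
    by_cases hb : (b : G) ∈ centralizer ((P : Subgroup G) : Set G)
    · right
      refine ⟨hb, ?_⟩
      intro h1
      apply hgC
      have := mul_mem (inv_mem hb) h1
      simpa using this
    · left
      refine ⟨?_, hb⟩
      rw [Subgroup.mem_centralizer_iff]
      intro y hy
      obtain ⟨-, -, -, -, h1⟩ := hN g hgN hgC
      obtain ⟨-, -, -, -, h2⟩ := hN b b.2 hb
      have h3 : (b : G) * g * y * ((b : G) * g)⁻¹ = y := by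
        have : (b : G) * g * y * ((b : G) * g)⁻¹ = b * (g * y * g⁻¹) * (b : G)⁻¹ := by group
        rw [this, h1 y hy, h2 _ (inv_mem hy), inv_inv]
      rw [mul_inv_eq_iff_eq_mul] at h3
      exact h3.symm
  · intro Q hQP hQc
    have hQp : IsPGroup p Q := hPp.to_le hQP
    have hmain : ∀ x : G, x ∈ normalizer (Q : Set G) → x ∉ centralizer (Q : Set G) → orderOf x = 2 := by
      intro x hx hxc
      obtain ⟨i, j, hij, ⟨k, hk⟩, hj⟩ := H71.PCyc.exists_ppart p x
      have hRp : IsPGroup p (zpowers (x ^ i) ⊔ Q : Subgroup G) := by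
        apply IsPGroup.to_sup_of_normal_right'
        · rw [IsPGroup.iff_card]
          exact ⟨k, by rw [Nat.card_zpowers, hk]⟩
        · exact hQp
        · rw [zpowers_le]; exact pow_mem hx i
      have hbR : x ^ j ∈ normalizer ((zpowers (x ^ i) ⊔ Q : Subgroup G) : Set G) := by
        apply Subgroup.mem_normalizer_fintype
        intro y hy
        have h1 : (zpowers (x ^ i) ⊔ Q).map (MulAut.conj (x ^ j)).toMonoidHom ≤ zpowers (x ^ i) ⊔ Q := by
          rw [Subgroup.map_sup]
          apply sup_le_sup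
          · rw [MonoidHom.map_zpowers, zpowers_le]
            have : (MulAut.conj (x ^ j)).toMonoidHom (x ^ i) = x ^ i := by
              simp only [MulEquiv.coe_toMonoidHom, MulAut.conj_apply]
              rw [← pow_add, add_comm, pow_add, mul_inv_cancel_right]
            rw [this]; exact mem_zpowers _
          · rintro _ ⟨q, hq, rfl⟩
            exact (Subgroup.mem_normalizer_iff.mp (pow_mem hx j) q).mp hq
        exact h1 ⟨y, hy, rfl⟩
      have hai : x ^ i ∈ zpowers (x ^ i) ⊔ Q := (le_sup_left : zpowers (x ^ i) ≤ _) (mem_zpowers _)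
      rcases hkey _ hRp _ hbR hj with h1 | ⟨h1, h2⟩
      · exfalso
        apply hxc
        rw [Subgroup.mem_centralizer_iff]
        intro y hy
        have hy' : y ∈ zpowers (x ^ i) ⊔ Q := (le_sup_right : Q ≤ _) hy
        rw [hij, ← mul_assoc, ← hcomm _ hRp _ hai _ hy', mul_assoc, ← h1 y hy', mul_assoc]
      · have h3 := h2 _ hai
        have h4 : x ^ j * x ^ i * (x ^ j)⁻¹ = x ^ i := by
          rw [← pow_add, add_comm, pow_add, mul_inv_cancel_right]
        rw [h4] at h3
        have h5 : x ^ i = 1 := by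
          have h6 : (x ^ i) ^ 2 = 1 := by
            rw [pow_two]
            nth_rewrite 1 [h3]
            rw [inv_mul_cancel]
          have h7 : orderOf (x ^ i) ∣ 2 := orderOf_dvd_of_pow_eq_one h6
          rw [hk] at h7
          have h8 : (p ^ k).Coprime 2 := by
            rw [Nat.coprime_two_right]; exact hodd.pow
          have h9 : p ^ k = 1 := Nat.eq_one_of_dvd_coprimes h8 dvd_rfl h7
          rw [h9] at hk
          exact orderOf_eq_one_iff.mp hk
        rw [h5, one_mul] at hij
        rw [hij]; exact h1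
    have hinv : ∀ x : G, x ∈ normalizer (Q : Set G) → x ∉ centralizer (Q : Set G) →
        orderOf x = 2 ∧ ∀ c : G, c ∈ centralizer (Q : Set G) → x * c * x⁻¹ = c⁻¹ := by
      intro x hx hxc
      refine ⟨hmain x hx hxc, ?_⟩
      intro c hc
      have h1 : x * c ∈ normalizer (Q : Set G) := mul_mem hx (Subgroup.centralizer_le_normalizer _ hc)
      have h2 : x * c ∉ centralizer (Q : Set G) := by
        intro h3
        apply hxc
        have := mul_mem h3 (inv_mem hc)
        rwa [mul_inv_cancel_right] at this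
      have h3 : (x * c) * (x * c) = 1 := by
        have := pow_orderOf_eq_one (x * c)
        rwa [hmain _ h1 h2, pow_two] at this
      have h4 : x * x = 1 := by
        have := pow_orderOf_eq_one x
        rwa [hmain _ hx hxc, pow_two] at this
      have h5 : x⁻¹ = x := inv_eq_of_mul_eq_one_left h4
      rw [h5, ← mul_eq_one_iff_eq_inv]
      have : x * c * x * c = (x * c) * (x * c) := by group
      rw [this, h3]
    refine ⟨?_, hinv⟩
    -- existence of an inverting element
    obtain ⟨b, hbN, hb2, hbinv, -⟩ := hN g hgN hgC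
    have hbNQ : b ∈ normalizer (Q : Set G) := by
      apply Subgroup.mem_normalizer_fintype
      intro y hy
      rw [hbinv y (hQP hy)]; exact inv_mem hy
    have hbCQ : b ∉ centralizer (Q : Set G) := by
      intro hbc
      have hQbot : Q ≠ ⊥ := by
        rintro rfl
        rw [Subgroup.card_bot] at hQc
        exact hp.out.one_lt.ne hQc
      obtain ⟨⟨q, hq⟩, hq1⟩ := Subgroup.ne_bot_iff_exists_ne_one.mp hQbot
      have h1 := hbinv q (hQP hq)
      have h2 := (Subgroup.mem_centralizer_iff.mp hbc) q hq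
      rw [← h2, mul_inv_cancel_right] at h1
      have h3 : q ^ 2 = 1 := by
        rw [pow_two]
        nth_rewrite 1 [h1]
        rw [inv_mul_cancel]
      have h4 : orderOf q ∣ 2 := orderOf_dvd_of_pow_eq_one h3
      have h5 : orderOf q ∣ p := by rw [← hQc]; exact Subgroup.orderOf_dvd_natCard Q hq
      have h6 : Nat.Coprime p 2 := by rw [Nat.coprime_two_right]; exact hodd
      have h7 := Nat.eq_one_of_dvd_coprimes h6 h5 h4
      exact hq1 (Subtype.ext (orderOf_eq_one_iff.mp h7))
    obtain ⟨-, hb⟩ := hinv b hbNQ hbCQ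
    constructor
    constructor
    rintro ⟨c, hc⟩ ⟨d, hd⟩
    apply Subtype.ext
    change c * d = d * c
    have h1 := hb (c * d) (mul_mem hc hd)
    have h2 : b * (c * d) * b⁻¹ = (b * c * b⁻¹) * (b * d * b⁻¹) := by group
    rw [h2, hb c hc, hb d hd] at h1
    rw [← mul_inv_rev, inv_inj] at h1
    exact h1.symm

/-- the local condition in (2) -/
def Psi {G : Type*} [Group G] (Q : Subgroup G) : Prop :=
  IsMulCommutative ↥(Subgroup.centralizer (Q : Set G)) ∧
    ∀ x : G, x ∈ Subgroup.normalizer (Q : Set G) → x ∉ Subgroup.centralizer (Q : Set G) →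
      orderOf x = 2 ∧ ∀ c : G, c ∈ Subgroup.centralizer (Q : Set G) → x * c * x⁻¹ = c⁻¹

theorem mem_centralizer_map {G : Type*} [Group G] (Q : Subgroup G) (g y : G) :
    y ∈ centralizer ((Q.map (MulAut.conj g).toMonoidHom : Subgroup G) : Set G) ↔ g⁻¹ * y * g ∈ centralizer (Q : Set G) := by
  rw [Subgroup.mem_centralizer_iff, Subgroup.mem_centralizer_iff]
  constructor
  · intro h q hq
    have h1 := h (g * q * g⁻¹) ⟨q, hq, rfl⟩
    calc q * (g⁻¹ * y * g) = g⁻¹ * (g * q * g⁻¹ * y) * g := by group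
      _ = g⁻¹ * (y * (g * q * g⁻¹)) * g := by rw [h1]
      _ = _ := by group
  · rintro h _ ⟨q, hq, rfl⟩
    have h1 := h q hq
    simp only [MulEquiv.coe_toMonoidHom, MulAut.conj_apply]
    calc g * q * g⁻¹ * y = g * (q * (g⁻¹ * y * g)) * g⁻¹ := by group
      _ = g * ((g⁻¹ * y * g) * q) * g⁻¹ := by rw [h1]
      _ = _ := by group

theorem mem_map_conj {G : Type*} [Group G] (Q : Subgroup G) (g y : G) :
    y ∈ Q.map (MulAut.conj g).toMonoidHom ↔ g⁻¹ * y * g ∈ Q := by
  constructor
  · rintro ⟨q, hq, rfl⟩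
    simp only [MulEquiv.coe_toMonoidHom, MulAut.conj_apply]
    have : g⁻¹ * (g * q * g⁻¹) * g = q := by group
    rw [this]; exact hq
  · intro h
    refine ⟨_, h, ?_⟩
    simp only [MulEquiv.coe_toMonoidHom, MulAut.conj_apply]
    group

theorem mem_normalizer_map {G : Type*} [Group G] (Q : Subgroup G) (g y : G) :
    y ∈ normalizer ((Q.map (MulAut.conj g).toMonoidHom : Subgroup G) : Set G) ↔ g⁻¹ * y * g ∈ normalizer (Q : Set G) := by
  rw [Subgroup.mem_normalizer_iff, Subgroup.mem_normalizer_iff]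
  constructor
  · intro h q
    have h1 := h (g * q * g⁻¹)
    rw [mem_map_conj, mem_map_conj] at h1
    have e1 : g⁻¹ * (g * q * g⁻¹) * g = q := by group
    have e2 : g⁻¹ * (y * (g * q * g⁻¹) * y⁻¹) * g = g⁻¹ * y * g * q * (g⁻¹ * y * g)⁻¹ := by group
    rw [e1, e2] at h1
    exact h1
  · intro h q
    rw [mem_map_conj, mem_map_conj]
    have h1 := h (g⁻¹ * q * g)
    have e2 : g⁻¹ * y * g * (g⁻¹ * q * g) * (g⁻¹ * y * g)⁻¹ = g⁻¹ * (y * q * y⁻¹) * g := by group
    rw [e2] at h1
    exact h1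

theorem psi_map {G : Type*} [Group G] (Q : Subgroup G) (g : G) (h : Psi Q) : Psi (Q.map (MulAut.conj g).toMonoidHom) := by
  obtain ⟨hc, hx⟩ := h
  constructor
  · constructor
    constructor
    rintro ⟨a, ha⟩ ⟨b, hb⟩
    apply Subtype.ext
    change a * b = b * a
    rw [mem_centralizer_map] at ha hb
    have h1 := congrArg Subtype.val (mul_comm' (⟨_, ha⟩ : centralizer (Q : Set G)) ⟨_, hb⟩)
    change g⁻¹ * a * g * (g⁻¹ * b * g) = g⁻¹ * b * g * (g⁻¹ * a * g) at h1
    calc a * b = g * (g⁻¹ * a * g * (g⁻¹ * b * g)) * g⁻¹ := by group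
      _ = g * (g⁻¹ * b * g * (g⁻¹ * a * g)) * g⁻¹ := by rw [h1]
      _ = b * a := by group
  · intro x hxN hxC
    rw [mem_normalizer_map] at hxN
    rw [mem_centralizer_map] at hxC
    obtain ⟨h1, h2⟩ := hx _ hxN hxC
    constructor
    · have h3 : orderOf (g⁻¹ * x * g) = orderOf x := by
        have := orderOf_injective (MulAut.conj g⁻¹).toMonoidHom (MulAut.conj g⁻¹).injective x
        simpa using this
      rw [← h3, h1]
    · intro c hcc
      rw [mem_centralizer_map] at hcc
      have h3 := h2 _ hcc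
      calc x * c * x⁻¹ = g * (g⁻¹ * x * g * (g⁻¹ * c * g) * (g⁻¹ * x * g)⁻¹) * g⁻¹ := by group
        _ = g * (g⁻¹ * c * g)⁻¹ * g⁻¹ := by rw [h3]
        _ = c⁻¹ := by group

theorem eq_of_sq {C : Type*} [Group C] [Finite C] [hC : IsCyclic C] {u v : C} (hu : u * u = 1) (hv : v * v = 1) (hu1 : u ≠ 1) (hv1 : v ≠ 1) :
    u = v := by
  obtain ⟨m, hm⟩ := hC.exists_generator
  have ho : ∀ w : C, w * w = 1 → w ≠ 1 → orderOf w = 2 := by
    intro w hw hw1
    exact orderOf_eq_prime (by rw [pow_two, hw]) hw1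
  have h1 : u ∈ zpowers v := (H71.CycBasic.mem_zpowers_iff (hm u) (hm v)).mpr (by rw [ho u hu hu1, ho v hv hv1])
  obtain ⟨k, hk⟩ := Subgroup.mem_zpowers_iff.mp h1
  rcases Int.even_or_odd' k with ⟨l, rfl | rfl⟩
  · exfalso
    rw [zpow_mul] at hk
    have : v ^ (2 : ℤ) = 1 := by rw [zpow_ofNat, pow_two, hv]
    rw [this, one_zpow] at hk
    exact hu1 hk.symm
  · rw [zpow_add, zpow_mul] at hk
    have : v ^ (2 : ℤ) = 1 := by rw [zpow_ofNat, pow_two, hv]
    rw [this, one_zpow, one_mul, zpow_one] at hk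
    exact hk.symm

theorem main_backward {G : Type*} [Group G] [Finite G] {p : ℕ} [hp : Fact p.Prime] (hp2 : p ≠ 2) (P : Sylow p G) (hPc : IsCyclic P)
    (h : Subgroup.normalizer ((P : Subgroup G) : Set G) ≤ Subgroup.centralizer ((P : Subgroup G) : Set G) ∨
        ∀ Q : Subgroup G, Q ≤ P → Nat.card Q = p → Psi Q)
    (H : Subgroup G) (hn : ∀ S : Sylow p ↥H, (S : Subgroup ↥H).Normal)
    (hc : ∀ (S : Sylow p ↥H) [(S : Subgroup ↥H).Normal], IsCyclic (↥H ⧸ (S : Subgroup ↥H))) :
    IsCyclic H ∨ (∃ n : ℕ, Nonempty (H ≃* DihedralGroup (p ^ n))) := by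
  obtain ⟨S⟩ : Nonempty (Sylow p H) := inferInstance
  have hSn := hn S
  have hSq := hc S
  set S' : Subgroup G := (S : Subgroup H).map H.subtype with hS'
  have hS'p : IsPGroup p S' := S.isPGroup'.map _
  have hS'H : S' ≤ H := Subgroup.map_subtype_le _
  obtain ⟨P', hP'⟩ := hS'p.exists_le_sylow
  obtain ⟨g, hg⟩ := MulAction.exists_smul_eq G P P'
  have hP'eq : (P' : Subgroup G) = (P : Subgroup G).map (MulAut.conj g).toMonoidHom := by rw [← hg]; rfl
  have hP'c : IsCyclic (P' : Subgroup G) := by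
    rw [hP'eq]
    exact isCyclic_of_surjective ((P : Subgroup G).equivMapOfInjective _ (MulAut.conj g).injective).toMonoidHom (MulEquiv.surjective _)
  have hS'c : IsCyclic S' := Subgroup.isCyclic_of_le hP'
  have hSc : IsCyclic (S : Subgroup H) :=
    isCyclic_of_injective ((S : Subgroup H).equivMapOfInjective _ H.subtype_injective).toMonoidHom (MulEquiv.injective _)
  have hmemS : ∀ x : H, (x : G) ∈ S' ↔ x ∈ (S : Subgroup H) := by
    intro x
    constructor
    · rintro ⟨y, hy, hyx⟩
      rwa [← Subtype.ext hyx]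
    · intro hx; exact ⟨x, hx, rfl⟩
  have hScomm : ∀ a ∈ S', ∀ b ∈ S', a * b = b * a := by
    intro a ha b hb
    have := IsCyclic.isMulCommutative (α := S')
    exact congrArg Subtype.val (mul_comm' (⟨a, ha⟩ : S') ⟨b, hb⟩)
  have hconjS : ∀ x ∈ H, ∀ y ∈ S', x * y * x⁻¹ ∈ S' := by
    rintro x hx _ ⟨y, hy, rfl⟩
    exact ⟨⟨x, hx⟩ * y * ⟨x, hx⟩⁻¹, hSn.conj_mem y hy _, rfl⟩
  rcases h with h | h
  · -- the case `N(P) = C(P)`
    left
    apply H71.PCyc.isCyclic_of_central p S hSc _ hSq
    set K := (MonoidHom.transferSylow P h).ker with hK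
    have hKc : K.IsComplement' (P : Subgroup G) := MonoidHom.ker_transferSylow_isComplement' P h
    have hKi : K.index = Nat.card (P : Subgroup G) := hKc.symm.index_eq_card
    have hKcard : Nat.card K = (P : Subgroup G).index := hKc.index_eq_card.symm
    intro s hs
    rw [Subgroup.mem_center_iff]
    intro x
    obtain ⟨i, j, hij, ⟨k, hk⟩, hj⟩ := H71.PCyc.exists_ppart p (x : G)
    have hi : (x : G) ^ i ∈ S' := by
      have : x ^ i ∈ (S : Subgroup H) := by
        apply H71.Basic2.mem_of_orderOf_coprime_index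
        have h1 : orderOf (x ^ i) = p ^ k := by rw [← hk, ← Subgroup.coe_pow, Subgroup.orderOf_coe]
        rw [h1]
        apply Nat.Coprime.pow_left
        rw [hp.out.coprime_iff_not_dvd]
        exact S.not_dvd_index
      exact (hmemS _).mpr this
    have hjK : (x : G) ^ j ∈ K := by
      apply H71.Basic2.mem_of_orderOf_coprime_index
      rw [hKi]
      obtain ⟨m, hm⟩ := IsPGroup.iff_card.mp P.isPGroup'
      rw [hm]
      exact hj.pow_right m
    have hsS : (s : G) ∈ S' := (hmemS s).mpr hs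
    have h1 : (x : G) ^ j * s * ((x : G) ^ j)⁻¹ * (s : G)⁻¹ = 1 := by
      have h2 : (x : G) ^ j * s * ((x : G) ^ j)⁻¹ * (s : G)⁻¹ ∈ S' :=
        mul_mem (hconjS _ (pow_mem x.2 j) _ hsS) (inv_mem hsS)
      have h3 : (x : G) ^ j * s * ((x : G) ^ j)⁻¹ * (s : G)⁻¹ ∈ K := by
        have : (x : G) ^ j * s * ((x : G) ^ j)⁻¹ * (s : G)⁻¹ = (x : G) ^ j * (s * ((x : G) ^ j)⁻¹ * (s : G)⁻¹) := by group
        rw [this]
        exact mul_mem hjK ((inferInstance : K.Normal).conj_mem _ (inv_mem hjK) _)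
      obtain ⟨m, hm⟩ := (IsPGroup.iff_orderOf.mp hS'p) ⟨_, h2⟩
      rw [Subgroup.orderOf_mk] at hm
      have h4 := Subgroup.orderOf_dvd_natCard K h3
      rw [hKcard, hm] at h4
      have h5 : (p ^ m).Coprime (P : Subgroup G).index := by
        apply Nat.Coprime.pow_left
        rw [hp.out.coprime_iff_not_dvd]
        exact P.not_dvd_index
      have h6 := Nat.eq_one_of_dvd_coprimes h5 dvd_rfl h4
      rw [h6] at hm
      exact orderOf_eq_one_iff.mp hm
    have h2 : (x : G) ^ j * s = s * (x : G) ^ j := by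
      rw [mul_inv_eq_one, mul_inv_eq_iff_eq_mul] at h1
      exact h1
    apply Subtype.ext
    change (x : G) * s = s * x
    have h3 := hScomm _ hi _ hsS
    calc (x : G) * s = (x : G) ^ i * ((x : G) ^ j * s) := by rw [← mul_assoc, ← hij]
      _ = ((x : G) ^ i * s) * (x : G) ^ j := by rw [h2, mul_assoc]
      _ = s * ((x : G) ^ i * (x : G) ^ j) := by rw [h3, mul_assoc]
      _ = s * x := by rw [← hij]
  · by_cases hSbot : S' = ⊥
    · left
      have hSb : (S : Subgroup H) = ⊥ := by
        rw [eq_bot_iff]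
        intro x hx
        have := (hmemS x).mpr hx
        rw [hSbot] at this
        exact Subtype.ext this
      apply isCyclic_of_injective (QuotientGroup.mk' (S : Subgroup H))
      rw [← MonoidHom.ker_eq_bot_iff, QuotientGroup.ker_mk', hSb]
    -- a generator of `S'`
    obtain ⟨⟨s, hs⟩, hsg⟩ := hS'c.exists_generator
    have hsz : ∀ y ∈ S', y ∈ zpowers s := by
      intro y hy
      obtain ⟨k, hk⟩ := Subgroup.mem_zpowers_iff.mp (hsg ⟨y, hy⟩)
      exact ⟨k, by simpa using congrArg Subtype.val hk⟩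
    have hSz : zpowers s = S' := le_antisymm (by rw [zpowers_le]; exact hs) hsz
    obtain ⟨n, hn'⟩ := (IsPGroup.iff_orderOf.mp hS'p) ⟨s, hs⟩
    rw [Subgroup.orderOf_mk] at hn'
    have hn0 : n ≠ 0 := by
      rintro rfl
      rw [pow_zero, orderOf_eq_one_iff] at hn'
      apply hSbot
      rw [← hSz, hn', zpowers_one_eq_bot]
    obtain ⟨z, hz, hzo⟩ := H71.CycBasic.exists_orderOf (m := s) (d := p) (by rw [hn']; exact dvd_pow_self p hn0)
    set Q' : Subgroup G := zpowers z with hQ'
    have hQ'card : Nat.card Q' = p := by rw [hQ', Nat.card_zpowers, hzo]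
    have hzS : z ∈ S' := by rw [← hSz]; exact hz
    have hHN : H ≤ normalizer (Q' : Set G) := by
      intro x hx
      apply Subgroup.mem_normalizer_fintype
      intro y hy
      obtain ⟨k, rfl⟩ := Subgroup.mem_zpowers_iff.mp hy
      have h1 : x * z * x⁻¹ ∈ zpowers z := by
        apply (H71.CycBasic.mem_zpowers_iff (hsz _ (hconjS x hx z hzS)) hz).mpr
        have := orderOf_injective (MulAut.conj x).toMonoidHom (MulAut.conj x).injective z
        simp only [MulEquiv.coe_toMonoidHom, MulAut.conj_apply] at this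
        rw [this]
      have h2 : x * z ^ k * x⁻¹ = (x * z * x⁻¹) ^ k := (conj_zpow).symm
      rw [h2]
      exact zpow_mem h1 k
    have hQ'P' : Q' ≤ P' := by
      rw [hQ', zpowers_le]; exact hP' hzS
    have hpsi : Psi Q' := by
      have h1 : Q'.map (MulAut.conj g⁻¹).toMonoidHom ≤ P := by
        rintro _ ⟨y, hy, rfl⟩
        have h2 := hQ'P' hy
        rw [hP'eq, mem_map_conj] at h2
        simpa using h2
      have h2 := h _ h1 (by rw [Subgroup.card_map_of_injective (MulAut.conj g⁻¹).injective, hQ'card])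
      have h3 := psi_map _ g h2
      have h4 : (Q'.map (MulAut.conj g⁻¹).toMonoidHom).map (MulAut.conj g).toMonoidHom = Q' := by
        ext y
        rw [mem_map_conj, mem_map_conj]
        have : (g⁻¹)⁻¹ * (g⁻¹ * y * g) * g⁻¹ = y := by group
        rw [this]
      rw [h4] at h3
      exact h3
    obtain ⟨hcomm, hinv⟩ := hpsi
    have hS'C : S' ≤ centralizer (Q' : Set G) := by
      intro y hy
      rw [Subgroup.mem_centralizer_iff]
      intro q hq
      have hqS : q ∈ S' := by
        have : Q' ≤ S' := by rw [hQ', zpowers_le]; exact hzS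
        exact this hq
      exact hScomm _ hqS _ hy
    by_cases hHC : H ≤ centralizer (Q' : Set G)
    · left
      apply H71.PCyc.isCyclic_of_central p S hSc _ hSq
      intro s hs
      rw [Subgroup.mem_center_iff]
      intro x
      have h1 := congrArg Subtype.val (mul_comm' (⟨_, hHC x.2⟩ : centralizer (Q' : Set G)) ⟨_, hHC s.2⟩)
      exact Subtype.ext h1
    · right
      obtain ⟨x, hxH, hxC⟩ := Set.not_subset.mp hHC
      obtain ⟨hx2, hxinv⟩ := hinv x (hHN hxH) hxC
      have hxx : x * x = 1 := by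
        have := pow_orderOf_eq_one x
        rwa [hx2, pow_two] at this
      -- elements of `H` centralizing `Q'` lie in `S`
      have hclaim : ∀ a : H, (a : G) ∈ centralizer (Q' : Set G) → a ∈ (S : Subgroup H) := by
        intro a ha
        by_contra haS
        set π := QuotientGroup.mk' (S : Subgroup H) with hπ
        have hcom := IsCyclic.isMulCommutative (α := H ⧸ (S : Subgroup H))
        have h1 : (⟨x, hxH⟩ : H) * a * (⟨x, hxH⟩ : H)⁻¹ = a⁻¹ := Subtype.ext (hxinv _ ha)
        have h2 : π a * π a = 1 := by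
          have h3 := congrArg π h1
          rw [map_mul, map_mul, map_inv, map_inv, mul_comm' (π ⟨x, hxH⟩) (π a), mul_inv_cancel_right] at h3
          nth_rewrite 2 [h3]
          rw [mul_inv_cancel]
        have h3 : π ⟨x, hxH⟩ * π ⟨x, hxH⟩ = 1 := by
          rw [← map_mul]
          have : (⟨x, hxH⟩ : H) * ⟨x, hxH⟩ = 1 := Subtype.ext hxx
          rw [this, map_one]
        have h4 : π a ≠ 1 := by
          intro h5
          exact haS ((QuotientGroup.eq_one_iff a).mp h5)
        have h5 : π ⟨x, hxH⟩ ≠ 1 := by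
          intro h6
          exact hxC (hS'C ((hmemS _).mpr ((QuotientGroup.eq_one_iff _).mp h6)))
        have h6 := eq_of_sq h2 h3 h4 h5
        have h7 : a⁻¹ * ⟨x, hxH⟩ ∈ (S : Subgroup H) := QuotientGroup.eq.mp h6
        have h8 := hS'C ((hmemS _).mpr h7)
        apply hxC
        have := mul_mem ha h8
        simpa using this
      have hsH : s ∈ H := hS'H hs
      have hSz' : zpowers (⟨s, hsH⟩ : H) = (S : Subgroup H) := by
        ext y
        rw [← hmemS, ← hSz, Subgroup.mem_zpowers_iff, Subgroup.mem_zpowers_iff]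
        constructor
        · rintro ⟨k, hk⟩
          exact ⟨k, by simpa using congrArg Subtype.val hk⟩
        · rintro ⟨k, hk⟩
          exact ⟨k, Subtype.ext (by simpa using hk)⟩
      refine ⟨n, ?_⟩
      have : NeZero (p ^ n) := ⟨(pow_pos hp.out.pos n).ne'⟩
      apply H76.MaxClass.dihedral_of (⟨s, hsH⟩ : H) ⟨x, hxH⟩
      · rw [Subgroup.orderOf_mk, hn']
      · exact Subtype.ext (hxinv s (hS'C hs))
      · exact Subtype.ext (by simpa [pow_two] using hxx)
      · rw [hSz', ← hmemS]
        intro h1; exact hxC (hS'C h1)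
      · rw [hSz', Subgroup.index_eq_two_iff]
        refine ⟨⟨x, hxH⟩, fun b => ?_⟩
        by_cases hb : b ∈ (S : Subgroup H)
        · right
          refine ⟨hb, ?_⟩
          intro h1
          have h2 := mul_mem (inv_mem hb) h1
          rw [inv_mul_cancel_left] at h2
          exact hxC (hS'C ((hmemS _).mpr h2))
        · left
          refine ⟨?_, hb⟩
          apply hclaim
          have hbC : (b : G) ∉ centralizer (Q' : Set G) := fun h1 => hb (hclaim b h1)
          obtain ⟨-, hbinv⟩ := hinv b (hHN b.2) hbC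
          have hzC : ∀ q ∈ Q', q ∈ centralizer (Q' : Set G) := by
            intro q hq
            apply hS'C
            have : Q' ≤ S' := by rw [hQ', zpowers_le]; exact hzS
            exact this hq
          rw [Subgroup.mem_centralizer_iff]
          intro q hq
          have h3 : (b : G) * x * q * ((b : G) * x)⁻¹ = q := by
            have : (b : G) * x * q * ((b : G) * x)⁻¹ = b * (x * q * x⁻¹) * (b : G)⁻¹ := by group
            rw [this, hxinv q (hzC q hq), hbinv _ (inv_mem (hzC q hq)), inv_inv]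
          rw [mul_inv_eq_iff_eq_mul] at h3
          exact h3.symm

/-- Let p be an odd prime and G a finite group with Sylow p-subgroup P. Say that G has restricted p-by-cyclic subgroups when every subgroup H of G whose Sylow p-subgroup is normal in H with cyclic quotient is itself cyclic or dihedral of order 2pⁿ for some n. Then G has restricted p-by-cyclic subgroups if and only if P is cyclic and one of the following holds: (1) N_G(P) = C_G(P); or (2) N_G(P)/C_G(P) has order 2 and, for the subgroup Q of order p of P, the centralizer C_G(Q) is abelian and every element of N_G(Q) outside C_G(Q) is an involution inverting every element of C_G(Q). -/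
theorem result {G : Type*} [Group G] [Finite G] {p : ℕ}
    [Fact p.Prime] (hp : p ≠ 2) (P : Sylow p G) :
    (∀ H : Subgroup G, (∀ S : Sylow p ↥H, (S : Subgroup ↥H).Normal) →
        (∀ (S : Sylow p ↥H) [(S : Subgroup ↥H).Normal], IsCyclic (↥H ⧸ (S : Subgroup ↥H))) →
        IsCyclic H ∨ (∃ n : ℕ, Nonempty (H ≃* DihedralGroup (p ^ n)))) ↔
    (IsCyclic P ∧
      (Subgroup.normalizer ((P : Subgroup G) : Set G) = Subgroup.centralizer ((P : Subgroup G) : Set G) ∨
       ((Subgroup.centralizer ((P : Subgroup G) : Set G)).relIndex (Subgroup.normalizer ((P : Subgroup G) : Set G)) = 2 ∧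
        ∀ Q : Subgroup G, Q ≤ P → Nat.card Q = p →
          IsMulCommutative ↥(Subgroup.centralizer (Q : Set G)) ∧
          ∀ x : G, x ∈ Subgroup.normalizer (Q : Set G) → x ∉ Subgroup.centralizer (Q : Set G) →
            orderOf x = 2 ∧ ∀ c : G, c ∈ Subgroup.centralizer (Q : Set G) → x * c * x⁻¹ = c⁻¹))) := by
  constructor
  · exact main_forward hp P
  · rintro ⟨hPc, h | ⟨-, h⟩⟩ H hn hc
    · exact main_backward hp P hPc (Or.inl h.le) H hn hc
    · exact main_backward hp P hPc (Or.inr h) H hn hc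

end Cfsg.Agent.S4082
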