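import Mathlib
import Cfsg.Statements.S4083
import Cfsg.Agent.Lib.H71.PCyc
import Cfsg.Agent.Lib.H71.AFour
import Cfsg.Agent.Lib.H71.CycBasic
import Cfsg.Agent.Lib.H76.MaxClass
import Cfsg.Agent.Lib.H26.DihSylow

set_option autoImplicit false
open Cfsg

namespace Cfsg.Agent.S4083

open Subgroup

theorem dihedral_comm {n : ℕ} (h : ∀ a b : DihedralGroup (2 ^ n), a * b = b * a) : n ≤ 1 := by
  by_contra hn
  push Not at hn
  have h1 := h (DihedralGroup.r 1) (DihedralGroup.sr 0)
  rw [DihedralGroup.r_mul_sr, DihedralGroup.sr_mul_r] at h1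
  have h2 : (0 : ZMod (2 ^ n)) - 1 = 0 + 1 := by
    injection h1
  have h3 : ((2 : ℕ) : ZMod (2 ^ n)) = 0 := by
    have : (2 : ZMod (2 ^ n)) = 0 := by
      calc (2 : ZMod (2 ^ n)) = (0 + 1) - (0 - 1) := by ring
        _ = 0 := by rw [h2]; ring
    exact_mod_cast this
  rw [ZMod.natCast_eq_zero_iff] at h3
  have h4 := Nat.le_of_dvd (by norm_num) h3
  have h5 : 2 ^ 2 ≤ 2 ^ n := Nat.pow_le_pow_right (by norm_num) hn
  omega

theorem a4_not_comm : ¬ ∀ a b : alternatingGroup (Fin 4), a * b = b * a := by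
  decide

theorem not_cyclic_of_exp {G : Type*} [Group G] {K : Subgroup G} (hK : Nat.card K = 4) (h2 : ∀ k ∈ K, k ^ 2 = 1) : ¬ IsCyclic K := by
  intro hc
  have hfin : Finite K := Nat.finite_of_card_ne_zero (by rw [hK]; norm_num)
  obtain ⟨⟨g, hg⟩, hgo⟩ := hc.exists_ofOrder_eq_natCard
  rw [hK, Subgroup.orderOf_mk] at hgo
  have h1 : orderOf g ∣ 2 := orderOf_dvd_of_pow_eq_one (h2 g hg)
  rw [hgo] at h1
  exact absurd h1 (by norm_num)

theorem main_forward {G : Type*} [Group G] [Finite G] (P : Sylow 2 G)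
    (h : ∀ H : Subgroup G, (∀ S : Sylow 2 ↥H, (S : Subgroup ↥H).Normal) →
        (∀ (S : Sylow 2 ↥H) [(S : Subgroup ↥H).Normal], IsCyclic (↥H ⧸ (S : Subgroup ↥H))) →
        IsCyclic H ∨ (∃ n : ℕ, Nonempty (H ≃* DihedralGroup (2 ^ n))) ∨ Nonempty (H ≃* alternatingGroup (Fin 4))) :
    (IsCyclic P ∨
      ((∃ n : ℕ, 1 ≤ n ∧ Nonempty ((P : Subgroup G) ≃* DihedralGroup (2 ^ n))) ∧
        ∀ K : Subgroup G, K ≤ P → Nat.card K = 4 → (∀ k ∈ K, k ^ 2 = 1) → Subgroup.centralizer (K : Set G) = K)) := by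
  have hyp : ∀ (R : Subgroup G), IsPGroup 2 R → ∀ x ∈ normalizer (R : Set G), (orderOf x).Coprime 2 →
      IsCyclic ↥(zpowers x ⊔ R) ∨ (∃ n : ℕ, Nonempty (↥(zpowers x ⊔ R) ≃* DihedralGroup (2 ^ n))) ∨
        Nonempty (↥(zpowers x ⊔ R) ≃* alternatingGroup (Fin 4)) := by
    intro R hR x hx ho
    obtain ⟨-, h1, h2⟩ := H71.PCyc.hyp_of R hR hx ho
    exact h _ h1 h2
  have h2g : ∀ R : Subgroup G, IsPGroup 2 R → IsCyclic R ∨ ∃ n : ℕ, Nonempty (R ≃* DihedralGroup (2 ^ n)) := by
    intro R hR
    have h1 := hyp R hR 1 (one_mem _) (by rw [orderOf_one]; exact Nat.coprime_one_left 2)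
    rw [zpowers_one_eq_bot, bot_sup_eq] at h1
    rcases h1 with h1 | h1 | ⟨⟨e⟩⟩
    · exact Or.inl h1
    · exact Or.inr h1
    · exfalso
      obtain ⟨k, hk⟩ := IsPGroup.iff_card.mp hR
      have h3 : Nat.card (alternatingGroup (Fin 4)) = 12 := by
        rw [nat_card_alternatingGroup]; simp; rfl
      rw [Nat.card_congr e.toEquiv, h3] at hk
      have h4 : 3 ∣ 2 ^ k := by rw [← hk]; norm_num
      have h5 := Nat.prime_three.dvd_of_dvd_pow h4
      exact absurd h5 (by norm_num)
  have hPp : IsPGroup 2 (P : Subgroup G) := P.isPGroup'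
  rcases h2g _ hPp with h1 | ⟨n, ⟨e⟩⟩
  · exact Or.inl h1
  by_cases hPc : IsCyclic P
  · exact Or.inl hPc
  right
  refine ⟨⟨n, ?_, ⟨e⟩⟩, ?_⟩
  · by_contra hn
    apply hPc
    have hn0 : n = 0 := by omega
    subst hn0
    have : Fact (Nat.Prime 2) := ⟨Nat.prime_two⟩
    apply isCyclic_of_prime_card (p := 2)
    rw [Nat.card_congr e.toEquiv, DihedralGroup.nat_card]
    rfl
  · intro K hKP hK4 hK2
    have hKp : IsPGroup 2 K := hPp.to_le hKP
    have hKnc := not_cyclic_of_exp hK4 hK2
    have hKcomm : ∀ a ∈ K, ∀ b ∈ K, a * b = b * a := by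
      intro a ha b hb
      have h1 := hK2 _ (mul_mem ha hb)
      have h2 := hK2 _ ha
      have h3 := hK2 _ hb
      rw [pow_two] at h1 h2 h3
      have e1 : a⁻¹ = a := inv_eq_of_mul_eq_one_left h2
      have e2 : b⁻¹ = b := inv_eq_of_mul_eq_one_left h3
      have e3 : (a * b)⁻¹ = a * b := inv_eq_of_mul_eq_one_left h1
      rw [← e3, mul_inv_rev, e1, e2]
    have hKC : K ≤ centralizer (K : Set G) := by
      intro a ha
      rw [Subgroup.mem_centralizer_iff]
      intro b hb
      exact hKcomm b hb a ha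
    apply le_antisymm _ hKC
    intro x hx
    have : Fact (Nat.Prime 2) := ⟨Nat.prime_two⟩
    obtain ⟨i, j, hij, ⟨k, hk⟩, hj⟩ := H71.PCyc.exists_ppart 2 x
    have hiC : x ^ i ∈ centralizer (K : Set G) := pow_mem hx i
    have hjC : x ^ j ∈ centralizer (K : Set G) := pow_mem hx j
    -- the join with an element centralizing `K` is commutative
    have hcomm : ∀ y ∈ centralizer (K : Set G), ∀ a ∈ zpowers y ⊔ K, ∀ b ∈ zpowers y ⊔ K, a * b = b * a := by
      intro y hy
      have h1 : zpowers y ⊔ K = Subgroup.closure ({y} ∪ (K : Set G)) := by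
        rw [Subgroup.closure_union, Subgroup.closure_eq, Subgroup.zpowers_eq_closure]
      intro a ha b hb
      rw [h1] at ha hb
      have h2 : ∀ u ∈ ({y} ∪ (K : Set G)), ∀ v ∈ ({y} ∪ (K : Set G)), u * v = v * u := by
        rintro u (rfl | hu) v (rfl | hv)
        · rfl
        · exact ((Subgroup.mem_centralizer_iff.mp hy) v hv).symm
        · exact (Subgroup.mem_centralizer_iff.mp hy) u hu
        · exact hKcomm u hu v hv
      have h3 : Subgroup.closure ({y} ∪ (K : Set G)) ≤ centralizer (({y} ∪ (K : Set G) : Set G)) := by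
        rw [Subgroup.closure_le]
        intro u hu
        rw [SetLike.mem_coe, Subgroup.mem_centralizer_iff]
        intro v hv
        exact h2 v hv u hu
      have h4 : Subgroup.closure ({y} ∪ (K : Set G)) ≤ centralizer ((Subgroup.closure ({y} ∪ (K : Set G)) : Subgroup G) : Set G) := by
        rw [Subgroup.le_centralizer_iff, Subgroup.closure_le]
        intro u hu
        rw [SetLike.mem_coe, Subgroup.mem_centralizer_iff]
        intro v hv
        exact ((Subgroup.mem_centralizer_iff.mp (h3 hv)) u hu).symm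
      exact ((Subgroup.mem_centralizer_iff.mp (h4 ha)) b hb).symm
    -- cyclic and `A_4` cases are impossible
    have hnocyc : ∀ y, ¬ IsCyclic ↥(zpowers y ⊔ K) := by
      intro y hc
      exact hKnc (Subgroup.isCyclic_of_le (le_sup_right : K ≤ zpowers y ⊔ K))
    have hnoA4 : ∀ y ∈ centralizer (K : Set G), ¬ Nonempty (↥(zpowers y ⊔ K) ≃* alternatingGroup (Fin 4)) := by
      rintro y hy ⟨e⟩
      apply a4_not_comm
      intro a b
      obtain ⟨a', rfl⟩ := e.surjective a
      obtain ⟨b', rfl⟩ := e.surjective b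
      rw [← map_mul, ← map_mul]
      congr 1
      exact Subtype.ext (hcomm y hy _ a'.2 _ b'.2)
    have hcard : ∀ y ∈ centralizer (K : Set G), (∃ n : ℕ, Nonempty (↥(zpowers y ⊔ K) ≃* DihedralGroup (2 ^ n))) → y ∈ K := by
      rintro y hy ⟨n, ⟨e⟩⟩
      have h1 : n ≤ 1 := by
        apply dihedral_comm
        intro a b
        obtain ⟨a', rfl⟩ := e.surjective a
        obtain ⟨b', rfl⟩ := e.surjective b
        rw [← map_mul, ← map_mul]
        congr 1
        exact Subtype.ext (hcomm y hy _ a'.2 _ b'.2)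
      have h2 : Nat.card ↥(zpowers y ⊔ K) ≤ 4 := by
        rw [Nat.card_congr e.toEquiv, DihedralGroup.nat_card]
        have : 2 ^ n ≤ 2 ^ 1 := Nat.pow_le_pow_right (by norm_num) h1
        omega
      have h3 : K = zpowers y ⊔ K := Subgroup.eq_of_le_of_card_ge le_sup_right (by rw [hK4]; exact h2)
      rw [h3]
      exact (le_sup_left : zpowers y ≤ _) (mem_zpowers y)
    have hiK : x ^ i ∈ K := by
      apply hcard _ hiC
      have h1 : IsPGroup 2 (zpowers (x ^ i) ⊔ K : Subgroup G) := by
        apply IsPGroup.to_sup_of_normal_right'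
        · rw [IsPGroup.iff_card]
          exact ⟨k, by rw [Nat.card_zpowers, hk]⟩
        · exact hKp
        · rw [zpowers_le]; exact Subgroup.centralizer_le_normalizer _ hiC
      rcases h2g _ h1 with h2 | h2
      · exact absurd h2 (hnocyc _)
      · exact h2
    have hjK : x ^ j ∈ K := by
      apply hcard _ hjC
      rcases hyp K hKp (x ^ j) (Subgroup.centralizer_le_normalizer _ hjC) hj with h2 | h2 | h2
      · exact absurd h2 (hnocyc _)
      · exact h2
      · exact absurd h2 (hnoA4 _ hjC)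
    rw [hij]
    exact mul_mem hiK hjK

theorem mem_map_conj {G : Type*} [Group G] (Q : Subgroup G) (g y : G) :
    y ∈ Q.map (MulAut.conj g).toMonoidHom ↔ g⁻¹ * y * g ∈ Q := by
  constructor
  · rintro ⟨q, hq, rfl⟩
    simp only [MulEquiv.coe_toMonoidHom, MulAut.conj_apply]
    have : g⁻¹ * (g * q * g⁻¹) * g = q := by group
    rw [this]; exact hq
  · intro h
    refine ⟨_, h, ?_⟩
    simp only [MulEquiv.coe_toMonoidHom, MulAut.conj_apply]
    group

theorem mem_centralizer_map {G : Type*} [Group G] (Q : Subgroup G) (g y : G) :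
    y ∈ centralizer ((Q.map (MulAut.conj g).toMonoidHom : Subgroup G) : Set G) ↔ g⁻¹ * y * g ∈ centralizer (Q : Set G) := by
  rw [Subgroup.mem_centralizer_iff, Subgroup.mem_centralizer_iff]
  constructor
  · intro h q hq
    have h1 := h (g * q * g⁻¹) ⟨q, hq, rfl⟩
    calc q * (g⁻¹ * y * g) = g⁻¹ * (g * q * g⁻¹ * y) * g := by group
      _ = g⁻¹ * (y * (g * q * g⁻¹)) * g := by rw [h1]
      _ = _ := by group
  · rintro h _ ⟨q, hq, rfl⟩
    have h1 := h q hq
    simp only [MulEquiv.coe_toMonoidHom, MulAut.conj_apply]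
    calc g * q * g⁻¹ * y = g * (q * (g⁻¹ * y * g)) * g⁻¹ := by group
      _ = g * ((g⁻¹ * y * g) * q) * g⁻¹ := by rw [h1]
      _ = _ := by group

theorem main_backward {G : Type*} [Group G] [Finite G] (P : Sylow 2 G)
    (h : (IsCyclic P ∨
      ((∃ n : ℕ, 1 ≤ n ∧ Nonempty ((P : Subgroup G) ≃* DihedralGroup (2 ^ n))) ∧
        ∀ K : Subgroup G, K ≤ P → Nat.card K = 4 → (∀ k ∈ K, k ^ 2 = 1) → Subgroup.centralizer (K : Set G) = K)))
    (H : Subgroup G) (hn : ∀ S : Sylow 2 ↥H, (S : Subgroup ↥H).Normal)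
    (hc : ∀ (S : Sylow 2 ↥H) [(S : Subgroup ↥H).Normal], IsCyclic (↥H ⧸ (S : Subgroup ↥H))) :
    IsCyclic H ∨ (∃ n : ℕ, Nonempty (H ≃* DihedralGroup (2 ^ n))) ∨ Nonempty (H ≃* alternatingGroup (Fin 4)) := by
  have h2f : Fact (Nat.Prime 2) := ⟨Nat.prime_two⟩
  obtain ⟨S⟩ : Nonempty (Sylow 2 H) := inferInstance
  have hSn := hn S
  have hSq := hc S
  set S' : Subgroup G := (S : Subgroup H).map H.subtype with hS'
  have hS'p : IsPGroup 2 S' := S.isPGroup'.map _
  have hS'H : S' ≤ H := Subgroup.map_subtype_le _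
  obtain ⟨P', hP'⟩ := hS'p.exists_le_sylow
  obtain ⟨g, hg⟩ := MulAction.exists_smul_eq G P P'
  have hP'eq : (P' : Subgroup G) = (P : Subgroup G).map (MulAut.conj g).toMonoidHom := by rw [← hg]; rfl
  have hmemS : ∀ x : H, (x : G) ∈ S' ↔ x ∈ (S : Subgroup H) := by
    intro x
    constructor
    · rintro ⟨y, hy, hyx⟩
      rwa [← Subtype.ext hyx]
    · intro hx; exact ⟨x, hx, rfl⟩
  have hconjS : ∀ x ∈ H, ∀ y ∈ S', x * y * x⁻¹ ∈ S' := by
    rintro x hx _ ⟨y, hy, rfl⟩
    exact ⟨⟨x, hx⟩ * y * ⟨x, hx⟩⁻¹, hSn.conj_mem y hy _, rfl⟩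
  have hHN : H ≤ normalizer (S' : Set G) := by
    intro x hx
    apply Subgroup.mem_normalizer_fintype
    intro y hy
    exact hconjS x hx y hy
  have h2part : ∀ (x : H) (i k : ℕ), orderOf ((x : G) ^ i) = 2 ^ k → (x : G) ^ i ∈ S' := by
    intro x i k hk
    have : x ^ i ∈ (S : Subgroup H) := by
      apply H71.Basic2.mem_of_orderOf_coprime_index
      have h1 : orderOf (x ^ i) = 2 ^ k := by rw [← hk, ← Subgroup.coe_pow, Subgroup.orderOf_coe]
      rw [h1]
      apply Nat.Coprime.pow_left
      rw [Nat.prime_two.coprime_iff_not_dvd]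
      exact S.not_dvd_index
    exact (hmemS _).mpr this
  -- the structure of `S'`
  have hfact : ∃ R0 : Subgroup S', IsCyclic R0 ∧ R0.index ∣ 2 ∧ ∀ x, x ∉ R0 → x * x = 1 := by
    rcases h with h | ⟨⟨n, hn1, ⟨e⟩⟩, -⟩
    · have hP'c : IsCyclic (P' : Subgroup G) := by
        rw [hP'eq]
        exact isCyclic_of_surjective ((P : Subgroup G).equivMapOfInjective _ (MulAut.conj g).injective).toMonoidHom (MulEquiv.surjective _)
      have hS'c : IsCyclic S' := Subgroup.isCyclic_of_le hP'
      refine ⟨⊤, ?_, by simp, fun x hx => absurd (Subgroup.mem_top x) hx⟩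
      exact isCyclic_of_surjective Subgroup.topEquiv.symm.toMonoidHom (MulEquiv.surjective _)
    · exact H26.DihSylow.exists_cyclic P (m := 2 ^ n) (by
        calc 2 = 2 ^ 1 := by norm_num
          _ ≤ 2 ^ n := Nat.pow_le_pow_right (by norm_num) hn1) e hS'p
  -- transport of the condition on four-groups
  have hself : ∀ K : Subgroup G, K ≤ S' → Nat.card K = 4 → (∀ k ∈ K, k ^ 2 = 1) → centralizer (K : Set G) ≤ K := by
    intro K hK hK4 hK2
    rcases h with h | ⟨-, hKs⟩
    · exfalso
      have hP'c : IsCyclic (P' : Subgroup G) := by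
        rw [hP'eq]
        exact isCyclic_of_surjective ((P : Subgroup G).equivMapOfInjective _ (MulAut.conj g).injective).toMonoidHom (MulEquiv.surjective _)
      exact not_cyclic_of_exp hK4 hK2 (Subgroup.isCyclic_of_le (hK.trans hP'))
    · intro y hy
      have h1 : K.map (MulAut.conj g⁻¹).toMonoidHom ≤ P := by
        rintro _ ⟨y, hy, rfl⟩
        have h2 := hP' (hK hy)
        rw [hP'eq, mem_map_conj] at h2
        simpa using h2
      have h2 := hKs _ h1 (by rw [Subgroup.card_map_of_injective (MulAut.conj g⁻¹).injective, hK4]) (by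
        rintro _ ⟨y, hy, rfl⟩
        rw [← map_pow, hK2 y hy, map_one])
      have h3 : g⁻¹ * y * g ∈ centralizer ((K.map (MulAut.conj g⁻¹).toMonoidHom : Subgroup G) : Set G) := by
        rw [mem_centralizer_map]
        have : (g⁻¹)⁻¹ * (g⁻¹ * y * g) * g⁻¹ = y := by group
        rw [this]; exact hy
      rw [h2, mem_map_conj] at h3
      have : (g⁻¹)⁻¹ * (g⁻¹ * y * g) * g⁻¹ = y := by group
      rwa [this] at h3
  have hSe : S' ≃* (S : Subgroup H) := ((S : Subgroup H).equivMapOfInjective _ H.subtype_injective).symm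
  by_cases hK4 : IsKleinFour S'
  · -- `S` is a four-group
    have hcard : Nat.card S' = 4 := hK4.card_four
    have hexp : ∀ k ∈ S', k ^ 2 = 1 := by
      intro k hk
      have := Monoid.pow_exponent_eq_one (⟨k, hk⟩ : S')
      rw [hK4.exponent_two] at this
      exact congrArg Subtype.val this
    have hS'self := hself S' le_rfl hcard hexp
    have hcube : ∀ b ∈ H, (orderOf b).Coprime 2 → b ^ 3 = 1 := by
      intro b hb ho
      rw [Nat.coprime_two_right] at ho
      have hbN := hHN hb
      have h1 : orderOf (S'.normalizerMonoidHom ⟨b, hbN⟩) ∣ orderOf b := by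
        have := orderOf_map_dvd S'.normalizerMonoidHom (⟨b, hbN⟩ : normalizer (S' : Set G))
        rwa [Subgroup.orderOf_mk] at this
      have h2 : Odd (orderOf (S'.normalizerMonoidHom ⟨b, hbN⟩)) := Odd.of_dvd_nat ho h1
      have h3 := H71.AFour.aut_cube hcard _ h2
      rw [← map_pow] at h3
      have h4 : b ^ 3 ∈ centralizer (S' : Set G) := by
        rw [Subgroup.mem_centralizer_iff]
        intro u hu
        have h4 := DFunLike.congr_fun h3 ⟨u, hu⟩
        have h5 := congrArg Subtype.val h4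
        change b ^ 3 * u * (b ^ 3)⁻¹ = u at h5
        rw [mul_inv_eq_iff_eq_mul] at h5
        exact h5.symm
      have h5 := hS'self h4
      have h6 := Subgroup.orderOf_dvd_natCard S' h5
      rw [hcard] at h6
      have h7 : (orderOf (b ^ 3)).Coprime 4 := by
        have : (orderOf (b ^ 3)).Coprime 2 := Nat.Coprime.coprime_dvd_left (orderOf_pow_dvd 3) (Nat.coprime_two_right.mpr ho)
        have h8 : (4 : ℕ) = 2 ^ 2 := by norm_num
        rw [h8]
        exact this.pow_right 2
      exact orderOf_eq_one_iff.mp (Nat.eq_one_of_dvd_coprimes h7 dvd_rfl h6)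
    obtain ⟨q, hq⟩ := hSq.exists_generator
    obtain ⟨x, rfl⟩ := QuotientGroup.mk'_surjective _ q
    have hq3 : (QuotientGroup.mk' (S : Subgroup H) x) ^ 3 = 1 := by
      obtain ⟨i, j, hij, ⟨k, hk⟩, hj⟩ := H71.PCyc.exists_ppart 2 (x : G)
      have h1 := h2part x i k hk
      have h2 := hcube _ (pow_mem x.2 j) hj
      have h3 : x = x ^ i * x ^ j := Subtype.ext hij
      have h4 : QuotientGroup.mk' (S : Subgroup H) (x ^ i) = 1 := (QuotientGroup.eq_one_iff _).mpr ((hmemS (x ^ i)).mp h1)
      have h5 : (x ^ j) ^ 3 = 1 := Subtype.ext h2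
      calc (QuotientGroup.mk' (S : Subgroup H) x) ^ 3
          = (QuotientGroup.mk' (S : Subgroup H) (x ^ i) * QuotientGroup.mk' (S : Subgroup H) (x ^ j)) ^ 3 := by
            rw [← map_mul, ← h3]
        _ = 1 := by rw [h4, one_mul, ← map_pow, h5, map_one]
    have hidx : (S : Subgroup H).index ∣ 3 := by
      rw [Subgroup.index_eq_card, ← orderOf_eq_card_of_forall_mem_zpowers hq]
      exact orderOf_dvd_of_pow_eq_one hq3
    have hScard : Nat.card (S : Subgroup H) = 4 := by rw [← hcard]; exact (Nat.card_congr hSe.toEquiv).symm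
    rcases (Nat.dvd_prime Nat.prime_three).mp hidx with h1 | h1
    · -- `H = S`
      right; left
      refine ⟨1, ?_⟩
      have h2 : (S : Subgroup H) = ⊤ := Subgroup.index_eq_one.mp h1
      have e1 : H ≃* S' := (Subgroup.topEquiv.symm.trans (MulEquiv.subgroupCongr h2.symm)).trans hSe.symm
      obtain ⟨e2⟩ := IsKleinFour.nonempty_mulEquiv (G₁ := S') (G₂ := DihedralGroup 2)
      exact ⟨e1.trans e2⟩
    · right; right
      apply H71.AFour.iso_A4 (S : Subgroup H) hScard
      · intro y hy
        rw [← hmemS]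
        apply hS'self
        rw [Subgroup.mem_centralizer_iff] at hy ⊢
        intro u hu
        have := hy ⟨u, hS'H hu⟩ ((hmemS _).mp hu)
        exact congrArg Subtype.val this
      · rw [← (S : Subgroup H).card_mul_index, hScard, h1]
  · have hodd : ∀ b ∈ H, (orderOf b).Coprime 2 → b ∈ centralizer (S' : Set G) := by
      intro b hb ho
      exact H71.AFour.odd_cent S' hS'p hfact hK4 (hHN hb) (Nat.coprime_two_right.mp ho)
    by_cases hS'c : IsCyclic S'
    · left
      have hSc : IsCyclic (S : Subgroup H) := isCyclic_of_surjective hSe.toMonoidHom hSe.surjective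
      apply H71.PCyc.isCyclic_of_central 2 S hSc _ hSq
      intro s hs
      rw [Subgroup.mem_center_iff]
      intro x
      obtain ⟨i, j, hij, ⟨k, hk⟩, hj⟩ := H71.PCyc.exists_ppart 2 (x : G)
      have hi := h2part x i k hk
      have hjc := hodd _ (pow_mem x.2 j) hj
      have hsS : (s : G) ∈ S' := (hmemS s).mpr hs
      have h2 : s * (x : G) ^ j = (x : G) ^ j * s := (Subgroup.mem_centralizer_iff.mp hjc) s hsS
      have h3 : (x : G) ^ i * s = s * (x : G) ^ i := by
        have := IsCyclic.isMulCommutative (α := S')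
        exact congrArg Subtype.val (mul_comm' (⟨_, hi⟩ : S') ⟨_, hsS⟩)
      apply Subtype.ext
      change (x : G) * s = s * x
      calc (x : G) * s = (x : G) ^ i * ((x : G) ^ j * s) := by rw [← mul_assoc, ← hij]
        _ = ((x : G) ^ i * s) * (x : G) ^ j := by rw [← h2, mul_assoc]
        _ = s * ((x : G) ^ i * (x : G) ^ j) := by rw [h3, mul_assoc]
        _ = s * x := by rw [← hij]
    · right; left
      obtain ⟨R0, hR0c, hR0i, hR0⟩ := hfact
      have hR0i2 : R0.index = 2 := by
        rcases (Nat.dvd_prime Nat.prime_two).mp hR0i with h1 | h1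
        · exfalso
          apply hS'c
          have h2 : R0 = ⊤ := Subgroup.index_eq_one.mp h1
          rw [h2] at hR0c
          exact isCyclic_of_surjective Subgroup.topEquiv.toMonoidHom (MulEquiv.surjective _)
        · exact h1
      obtain ⟨t, ht⟩ : ∃ t : S', t ∉ R0 := by
        by_contra hcon
        push Not at hcon
        have : R0 = ⊤ := by rw [eq_top_iff]; exact fun x _ => hcon x
        rw [this, Subgroup.index_top] at hR0i2
        exact absurd hR0i2 (by norm_num)
      obtain ⟨⟨a, ha⟩, hag⟩ := hR0c.exists_generator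
      have haz : zpowers a = R0 := by
        apply le_antisymm
        · rw [zpowers_le]; exact ha
        · intro y hy
          obtain ⟨k, hk⟩ := Subgroup.mem_zpowers_iff.mp (hag ⟨y, hy⟩)
          exact ⟨k, by simpa using congrArg Subtype.val hk⟩
      have htt := hR0 t ht
      have htinv : t⁻¹ = t := inv_eq_of_mul_eq_one_left htt
      have hta : t * a ∉ R0 := by
        intro h1
        apply ht
        have := mul_mem h1 (inv_mem ha)
        rwa [mul_inv_cancel_right] at this
      have htaa := hR0 _ hta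
      have hinv : t * a * t⁻¹ = a⁻¹ := by
        rw [htinv, ← mul_eq_one_iff_eq_inv]
        calc t * a * t * a = (t * a) * (t * a) := by group
          _ = 1 := htaa
      obtain ⟨k, hk⟩ := (IsPGroup.iff_orderOf.mp hS'p) a
      have hk0 : k ≠ 0 := by
        rintro rfl
        rw [pow_zero, orderOf_eq_one_iff] at hk
        apply hS'c
        have h1 : R0 = ⊥ := by rw [← haz, hk, zpowers_one_eq_bot]
        have h2 : Nat.card S' = 2 := by
          rw [h1, Subgroup.index_bot] at hR0i2
          exact hR0i2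
        exact isCyclic_of_prime_card h2
      -- a four-group in `S'`
      set z : S' := a ^ (2 ^ (k - 1)) with hz
      have hzz : z * z = 1 := by
        rw [hz, ← pow_add, ← two_mul, ← pow_succ', Nat.sub_add_cancel (Nat.one_le_iff_ne_zero.mpr hk0), ← hk, pow_orderOf_eq_one]
      have hz1 : z ≠ 1 := by
        intro h1
        have h2 := orderOf_dvd_of_pow_eq_one h1
        rw [hk] at h2
        have h3 := Nat.le_of_dvd (by positivity) h2
        have h4 : 2 ^ (k - 1) < 2 ^ k := Nat.pow_lt_pow_right (by norm_num) (by omega)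
        omega
      have ht1 : t ≠ 1 := by
        rintro rfl
        exact ht (one_mem _)
      have hzR : z ∈ R0 := pow_mem ha _
      have hzt' : z ≠ t := by
        rintro h1
        rw [h1] at hzR
        exact ht hzR
      have htz : t * z * t⁻¹ = z := by
        have h1 : t * z * t⁻¹ = (t * a * t⁻¹) ^ (2 ^ (k - 1)) := by rw [conj_pow]
        rw [h1, hinv, inv_pow, ← hz]
        exact inv_eq_of_mul_eq_one_left hzz
      have hztc : z * t = t * z := by
        rw [mul_inv_eq_iff_eq_mul] at htz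
        exact htz.symm
      obtain ⟨K, hKs, hKcard, hKexp⟩ := H71.AFour.exists_klein (z := (z : G)) (t := (t : G)) (congrArg Subtype.val hzz)
        (congrArg Subtype.val htt) (congrArg Subtype.val hztc) (fun h1 => hz1 (Subtype.ext h1)) (fun h1 => ht1 (Subtype.ext h1))
        (fun h1 => hzt' (Subtype.ext h1))
      have hKS : K ≤ S' := by
        intro y hy
        have hy' : y ∈ (K : Set G) := hy
        rw [hKs] at hy'
        rcases hy' with rfl | rfl | rfl | rfl
        · exact one_mem _
        · exact z.2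
        · exact t.2
        · exact mul_mem z.2 t.2
      have hKself := hself K hKS hKcard hKexp
      have hb1 : ∀ b ∈ H, (orderOf b).Coprime 2 → b = 1 := by
        intro b hb ho
        have h1 : b ∈ K := by
          apply hKself
          exact Subgroup.centralizer_le hKS (hodd b hb ho)
        have h2 := Subgroup.orderOf_dvd_natCard K h1
        rw [hKcard] at h2
        have h7 : (orderOf b).Coprime 4 := by
          have h8 : (4 : ℕ) = 2 ^ 2 := by norm_num
          rw [h8]
          exact ho.pow_right 2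
        exact orderOf_eq_one_iff.mp (Nat.eq_one_of_dvd_coprimes h7 dvd_rfl h2)
      have hHS : H = S' := by
        apply le_antisymm _ hS'H
        intro x hx
        obtain ⟨i, j, hij, ⟨m, hm⟩, hj⟩ := H71.PCyc.exists_ppart 2 x
        have h1 := hb1 _ (pow_mem hx j) hj
        rw [h1, mul_one] at hij
        rw [hij]
        exact h2part ⟨x, hx⟩ i m hm
      have hNZ : NeZero (2 ^ k) := ⟨by positivity⟩
      obtain ⟨e⟩ := H76.MaxClass.dihedral_of a t hk hinv (by rw [pow_two]; exact htt) (by rw [haz]; exact ht) (by rw [haz]; exact hR0i2)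
      exact ⟨k, ⟨(MulEquiv.subgroupCongr hHS).trans e⟩⟩

/-- Let G be a finite group with Sylow 2-subgroup P. Every subgroup H of G whose Sylow 2-subgroup is normal in H with cyclic quotient is cyclic, dihedral of 2-power order, or isomorphic to the alternating group of degree 4, if and only if either P is cyclic, or P is dihedral (of order at least 4) and every elementary abelian subgroup K of order 4 of P satisfies C_G(K) = K. -/
theorem result {G : Type*} [Group G] [Finite G] (P : Sylow 2 G) :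
    (∀ H : Subgroup G, (∀ S : Sylow 2 ↥H, (S : Subgroup ↥H).Normal) →
        (∀ (S : Sylow 2 ↥H) [(S : Subgroup ↥H).Normal], IsCyclic (↥H ⧸ (S : Subgroup ↥H))) →
        IsCyclic H ∨ (∃ n : ℕ, Nonempty (H ≃* DihedralGroup (2 ^ n))) ∨ Nonempty (H ≃* alternatingGroup (Fin 4))) ↔
    (IsCyclic P ∨
      ((∃ n : ℕ, 1 ≤ n ∧ Nonempty ((P : Subgroup G) ≃* DihedralGroup (2 ^ n))) ∧
        ∀ K : Subgroup G, K ≤ P → Nat.card K = 4 → (∀ k ∈ K, k ^ 2 = 1) → Subgroup.centralizer (K : Set G) = K)) :=
  ⟨main_forward P, main_backward P⟩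

end Cfsg.Agent.S4083
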