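import Mathlib
import Cfsg.Statements.S4084

set_option autoImplicit false
open Cfsg

namespace Cfsg.Agent.S4084

theorem aux {G H : Type*} [Group G] [Finite G] [Group H] [Finite H] (e : G ≃ H)
    (he : ∀ x y : G, Commute x y ↔ Commute (e x) (e y))
    {p q : ℕ} (hp : p.Prime) (hq : q.Prime) (hpq : p ≠ q) :
    (∃ g : G, orderOf g = p * q) → (∃ h : H, orderOf h = p * q) := by
  rintro ⟨g, hg⟩
  have hp0 : 0 < p := hp.pos
  have hq0 : 0 < q := hq.pos
  have hx : orderOf (g ^ q) = p := by
    rw [orderOf_pow, hg, Nat.gcd_eq_right (dvd_mul_left q p), Nat.mul_div_cancel _ hq0]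
  have hy : orderOf (g ^ p) = q := by
    rw [orderOf_pow, hg, Nat.gcd_eq_right (dvd_mul_right p q), Nat.mul_div_cancel_left _ hp0]
  set x := g ^ q with hxdef
  set y := g ^ p with hydef
  have hxy : Commute y x := (Commute.refl g).pow_pow p q
  let C : Subgroup G := Subgroup.centralizer {x}
  let Z : Subgroup G := C ⊓ Subgroup.centralizer (C : Set G)
  let C' : Subgroup H := Subgroup.centralizer {e x}
  let Z' : Subgroup H := C' ⊓ Subgroup.centralizer (C' : Set H)
  have hC : ∀ c : G, c ∈ C ↔ Commute c x := by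
    intro c; rw [Subgroup.mem_centralizer_singleton_iff]; rfl
  have hC' : ∀ c : H, c ∈ C' ↔ Commute c (e x) := by
    intro c; rw [Subgroup.mem_centralizer_singleton_iff]; rfl
  have hCe : ∀ c : G, c ∈ C ↔ e c ∈ C' := by
    intro c; rw [hC, hC', he]
  have hZ : ∀ z : G, z ∈ Z ↔ (z ∈ C ∧ ∀ c ∈ C, Commute c z) := by
    intro z
    simp only [Z, Subgroup.mem_inf, Subgroup.mem_centralizer_iff, SetLike.mem_coe]
    rfl
  have hZ' : ∀ z : H, z ∈ Z' ↔ (z ∈ C' ∧ ∀ c ∈ C', Commute c z) := by
    intro z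
    simp only [Z', Subgroup.mem_inf, Subgroup.mem_centralizer_iff, SetLike.mem_coe]
    rfl
  have hZe : ∀ z : G, z ∈ Z ↔ e z ∈ Z' := by
    intro z
    rw [hZ, hZ', ← hCe]
    refine and_congr_right fun _ => ?_
    constructor
    · intro h c hc
      obtain ⟨c, rfl⟩ := e.surjective c
      exact (he _ _).1 (h c ((hCe c).2 hc))
    · intro h c hc
      exact (he _ _).2 (h _ ((hCe c).1 hc))
  have hcC : Nat.card C = Nat.card C' := Nat.card_congr (e.subtypeEquiv hCe)
  have hcZ : Nat.card Z = Nat.card Z' := Nat.card_congr (e.subtypeEquiv hZe)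
  have hxZ : x ∈ Z := by
    rw [hZ]
    exact ⟨(hC x).2 (Commute.refl x), fun c hc => (hC c).1 hc⟩
  have hyC : y ∈ C := (hC y).2 hxy
  have hpZ : p ∣ Nat.card Z' := by
    rw [← hcZ, ← hx]; exact Subgroup.orderOf_dvd_natCard Z hxZ
  have hqC : q ∣ Nat.card C' := by
    rw [← hcC, ← hy]; exact Subgroup.orderOf_dvd_natCard C hyC
  haveI : Fact p.Prime := ⟨hp⟩
  haveI : Fact q.Prime := ⟨hq⟩
  obtain ⟨z, hz⟩ := exists_prime_orderOf_dvd_card' p hpZ
  obtain ⟨c, hc⟩ := exists_prime_orderOf_dvd_card' q hqC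
  have hcomm : Commute (c : H) (z : H) := ((hZ' z).1 z.2).2 c c.2
  refine ⟨(z : H) * (c : H), ?_⟩
  rw [hcomm.symm.orderOf_mul_eq_mul_orderOf_of_coprime, Subgroup.orderOf_coe, Subgroup.orderOf_coe, hz, hc]
  rw [Subgroup.orderOf_coe, Subgroup.orderOf_coe, hz, hc]
  exact (Nat.coprime_primes hp hq).2 hpq

/-- Let G and H be finite groups whose commuting graphs are isomorphic: there is a bijection e : G → H with x, y commuting exactly when e(x), e(y) commute. Then G and H have the same prime graph: for distinct primes p, q, G has an element of order pq if and only if H does (and #G = #H, so the prime divisors agree). -/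
theorem result {G H : Type*} [Group G] [Finite G] [Group H] [Finite H] (e : G ≃ H)
    (he : ∀ x y : G, Commute x y ↔ Commute (e x) (e y))
    {p q : ℕ} (hp : p.Prime) (hq : q.Prime) (hpq : p ≠ q) :
    (∃ g : G, orderOf g = p * q) ↔ (∃ h : H, orderOf h = p * q) := by
  refine ⟨aux e he hp hq hpq, aux e.symm (fun x y => ?_) hp hq hpq⟩
  rw [he, e.apply_symm_apply, e.apply_symm_apply]

end Cfsg.Agent.S4084
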