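import Mathlib
import Cfsg.Statements.S4085
import Cfsg.Agent.Lib.H71.CycBasic

set_option autoImplicit false
open Cfsg

namespace Cfsg.Agent.S4085

open H71.CycBasic

/-- adjacency in the power graph -/
def adj {K : Type*} [Group K] (x y : K) : Prop := x ∈ Subgroup.zpowers y ∨ y ∈ Subgroup.zpowers x

theorem adj_comm {K : Type*} [Group K] {x y : K} : adj x y ↔ adj y x := or_comm

theorem adj_self {K : Type*} [Group K] (x : K) : adj x x := Or.inl (Subgroup.mem_zpowers x)

theorem adj_one {K : Type*} [Group K] (x : K) : adj 1 x := Or.inl (Subgroup.one_mem _)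

theorem adj_congr {K : Type*} [Group K] {x y : K} (h : Subgroup.zpowers x = Subgroup.zpowers y) (z : K) :
    adj x z ↔ adj y z := by
  unfold adj
  rw [h]
  constructor
  · rintro (h1 | h1)
    · left
      exact (Subgroup.zpowers_le.2 h1) (h ▸ Subgroup.mem_zpowers y)
    · right; exact h1
  · rintro (h1 | h1)
    · left
      exact (Subgroup.zpowers_le.2 h1) (h ▸ Subgroup.mem_zpowers x)
    · right; exact h1

/-- elements whose orders are incomparable under divisibility are not adjacent -/
theorem dvd_of_adj {K : Type*} [Group K] [Finite K] {x y : K} (h : adj x y) :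
    orderOf x ∣ orderOf y ∨ orderOf y ∣ orderOf x := by
  rcases h with h | h
  · left
    rw [← Nat.card_zpowers y]
    exact Subgroup.orderOf_dvd_natCard _ h
  · right
    rw [← Nat.card_zpowers x]
    exact Subgroup.orderOf_dvd_natCard _ h

theorem adj_of_dvd {K : Type*} [Group K] [Finite K] {m x y : K} (hx : x ∈ Subgroup.zpowers m)
    (hy : y ∈ Subgroup.zpowers m) (h : orderOf x ∣ orderOf y ∨ orderOf y ∣ orderOf x) : adj x y := by
  rcases h with h | h
  · left; exact (mem_zpowers_iff hx hy).2 h
  · right; exact (mem_zpowers_iff hy hx).2 h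

/-- a dominating element of a cyclic group of order divisible by two primes is trivial or a generator -/
theorem exists_not_adj {K : Type*} [Group K] [Finite K] {p q : ℕ} (hp : p.Prime) (hq : q.Prime) (hpq : p ≠ q) {m : K}
    (hpm : p ∣ orderOf m) (hqm : q ∣ orderOf m) {x : K} (hx : x ∈ Subgroup.zpowers m) (hx1 : x ≠ 1)
    (hxm : m ∉ Subgroup.zpowers x) :
    ∃ r : ℕ, r.Prime ∧ r ∣ orderOf m ∧ ∀ z ∈ Subgroup.zpowers m, orderOf z = r ^ (orderOf m).factorization r → ¬ adj x z := by
  by_contra hno
  push Not at hno
  have hm0 : orderOf m ≠ 0 := (orderOf_pos m).ne'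
  apply hxm
  rw [mem_zpowers_iff (Subgroup.mem_zpowers m) hx, ← Nat.factorization_prime_le_iff_dvd hm0 (orderOf_pos x).ne']
  intro r hr
  by_cases hrm : r ∣ orderOf m
  swap
  · rw [Nat.factorization_eq_zero_of_not_dvd hrm]; exact Nat.zero_le _
  obtain ⟨z, hz, hzr, hadj⟩ := hno r hr hrm
  have hfr : ∀ s : ℕ, s.Prime → s ∣ orderOf m → 0 < (orderOf m).factorization s := fun s hs hsm =>
    hs.factorization_pos_of_dvd hm0 hsm
  have key : r ^ (orderOf m).factorization r ∣ orderOf x := by
    rcases dvd_of_adj hadj with h | h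
    · exfalso
      -- x is an r-element
      obtain ⟨s, hs, hsr, hsm⟩ : ∃ s : ℕ, s.Prime ∧ s ≠ r ∧ s ∣ orderOf m := by
        by_cases hpr : p = r
        · exact ⟨q, hq, fun h => hpq (hpr.trans h.symm), hqm⟩
        · exact ⟨p, hp, hpr, hpm⟩
      obtain ⟨w, hw, hws, hadj'⟩ := hno s hs hsm
      rw [hzr] at h
      have hcop : (r ^ (orderOf m).factorization r).Coprime (s ^ (orderOf m).factorization s) :=
        Nat.Coprime.pow _ _ ((Nat.coprime_primes hr hs).2 hsr.symm)
      rcases dvd_of_adj hadj' with h' | h'
      · rw [hws] at h'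
        apply hx1
        rw [← orderOf_eq_one_iff]
        exact Nat.eq_one_of_dvd_coprimes hcop h h'
      · rw [hws] at h'
        have h2 : s ^ (orderOf m).factorization s = 1 := Nat.eq_one_of_dvd_coprimes hcop (h'.trans h) dvd_rfl
        have h3 := hfr s hs hsm
        have h4 : 1 < s ^ (orderOf m).factorization s := Nat.one_lt_pow (by omega) hs.one_lt
        omega
    · rw [hzr] at h; exact h
  exact (hr.pow_dvd_iff_le_factorization (orderOf_pos x).ne').1 key

theorem main {G H : Type*} [Group G] [Finite G] [Group H] [Finite H] (e : G ≃ H)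
    (he : ∀ x y : G, adj x y ↔ adj (e x) (e y))
    {p q : ℕ} (hp : p.Prime) (hq : q.Prime) (hpq : p ≠ q) (g : G) (hg : orderOf g = p * q) :
    ∃ h : H, orderOf h = p * q := by
  classical
  suffices hsuff : ∃ w : H, p * q ∣ orderOf w by
    obtain ⟨w, hw⟩ := hsuff
    obtain ⟨z, -, hz⟩ := exists_orderOf hw
    exact ⟨z, hz⟩
  by_contra hno
  push Not at hno
  have hcop : p.Coprime q := (Nat.coprime_primes hp hq).2 hpq
  have hcardGH : Nat.card G = Nat.card H := Nat.card_congr e
  have he' : ∀ x y : H, adj x y ↔ adj (e.symm x) (e.symm y) := by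
    intro x y
    rw [he, e.apply_symm_apply, e.apply_symm_apply]
  obtain ⟨m, hgm, hmax⟩ := exists_maximal g
  set n := orderOf m with hn
  have hpqn : p * q ∣ n := by
    rw [← hg, hn, ← Nat.card_zpowers m]
    exact Subgroup.orderOf_dvd_natCard _ hgm
  have hpn : p ∣ n := (dvd_mul_right p q).trans hpqn
  have hqn : q ∣ n := (dvd_mul_left q p).trans hpqn
  have hadjm : ∀ z, adj m z ↔ z ∈ Subgroup.zpowers m := by
    intro z
    constructor
    · rintro (h | h)
      · exact hmax z h
      · exact h
    · intro h; right; exact h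
  have hpG : p * q ∣ Nat.card G := by rw [← hg]; exact orderOf_dvd_natCard g
  -- all-adjacent elements of H are trivial
  have hall : ∀ u : H, (∀ z, adj u z) → u = 1 := by
    intro u hu
    by_contra hu1
    have hdiv : ∀ s : ℕ, ∀ t : ℕ, s.Prime → t.Prime → s ≠ t → s ∣ Nat.card H → t ∣ Nat.card H → s ∣ orderOf u := by
      intro s t hs ht hst hsH htH
      haveI := Fact.mk hs
      haveI := Fact.mk ht
      obtain ⟨a, ha⟩ := exists_prime_orderOf_dvd_card' (G := H) s hsH
      obtain ⟨b, hb⟩ := exists_prime_orderOf_dvd_card' (G := H) t htH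
      rcases dvd_of_adj (hu a) with h | h
      · rw [ha] at h
        rcases (Nat.dvd_prime hs).1 h with h1 | h1
        · exact absurd (orderOf_eq_one_iff.1 h1) hu1
        · rw [h1]
      · rw [ha] at h; exact h
    apply hno u
    have hd := hpG
    rw [hcardGH] at hd
    exact Nat.Coprime.mul_dvd_of_dvd_of_dvd hcop
      (hdiv p q hp hq hpq ((dvd_mul_right p q).trans hd) ((dvd_mul_left q p).trans hd))
      (hdiv q p hq hp hpq.symm ((dvd_mul_left q p).trans hd) ((dvd_mul_right p q).trans hd))
  have he1 : e 1 = 1 := by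
    apply hall
    intro z
    rw [← e.apply_symm_apply z, ← he]
    exact adj_one _
  have he1' : ∀ x, e x = 1 → x = 1 := fun x h => e.injective (by rw [h, he1])
  -- dominating elements in H
  let D : H → Prop := fun u => ∀ z, adj (e m) z → adj u z
  have hDm : D (e m) := fun z hz => hz
  -- classification of dominating elements
  have hD1 : ∀ u, D u → u ≠ 1 → Subgroup.zpowers (e.symm u) = Subgroup.zpowers m := by
    intro u hu hu1
    have h1 : e.symm u ∈ Subgroup.zpowers m := by
      rw [← hadjm, adj_comm, he, e.apply_symm_apply]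
      exact hu _ (adj_self _)
    have h2 : e.symm u ≠ 1 := by
      intro h
      apply hu1
      rw [← e.apply_symm_apply u, h, he1]
    apply le_antisymm (Subgroup.zpowers_le.2 h1)
    rw [Subgroup.zpowers_le]
    by_contra h3
    obtain ⟨r, hr, hrm, hz⟩ := exists_not_adj hp hq hpq hpn hqn h1 h2 h3
    obtain ⟨z, hzm, hzr⟩ := exists_orderOf (m := m) (Nat.ordProj_dvd n r)
    apply hz z hzm hzr
    rw [he, e.apply_symm_apply]
    apply hu
    rw [← he, hadjm]; exact hzm
  have hD2 : ∀ u, D u → u ≠ 1 → ∀ z, adj u z ↔ adj (e m) z := by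
    intro u hu hu1 z
    have h1 := adj_congr (hD1 u hu hu1) (e.symm z)
    rw [he, he, e.apply_symm_apply, e.apply_symm_apply] at h1
    exact h1
  -- dominating elements are not maximal cyclic
  have hD3 : ∀ u, D u → u ≠ 1 → ¬ (∀ z, u ∈ Subgroup.zpowers z → z ∈ Subgroup.zpowers u) := by
    intro u hu hu1 hmaxu
    have h1 : ∀ z, z ∈ Subgroup.zpowers u ↔ adj (e m) z := by
      intro z
      rw [← hD2 u hu hu1]
      constructor
      · intro h; right; exact h
      · rintro (h | h)
        · exact hmaxu z h
        · exact h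
    have h2 : orderOf u = n := by
      rw [hn, ← Nat.card_zpowers, ← Nat.card_zpowers]
      apply Nat.card_congr
      exact
        { toFun := fun z => ⟨e.symm z.1, by
            have := (h1 z.1).1 z.2
            rw [he', e.symm_apply_apply, hadjm] at this
            exact this⟩
          invFun := fun z => ⟨e z.1, by
            rw [h1, ← he, hadjm]; exact z.2⟩
          left_inv := fun z => Subtype.ext (e.apply_symm_apply _)
          right_inv := fun z => Subtype.ext (e.symm_apply_apply _) }
    apply hno u
    rw [h2]; exact hpqn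
  -- dominating elements have prime power order
  have hD4 : ∀ u, D u → u ≠ 1 → ∃ r j : ℕ, r.Prime ∧ 1 ≤ j ∧ orderOf u = r ^ j := by
    intro u hu hu1
    have hou1 : orderOf u ≠ 1 := fun h => hu1 (orderOf_eq_one_iff.1 h)
    by_contra hnp
    push Not at hnp
    have hex : ∃ s : ℕ, s.Prime ∧ s ≠ (orderOf u).minFac ∧ s ∣ orderOf u := by
      by_contra hno'
      push Not at hno'
      have h1 := Nat.eq_prime_pow_of_unique_prime_dvd (n := orderOf u) (p := (orderOf u).minFac) (orderOf_pos u).ne'
        (fun {d} hd hdd => by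
          by_contra h
          exact hno' d hd h hdd)
      apply hnp _ _ (Nat.minFac_prime hou1) _ h1
      by_contra h
      have h2 : (orderOf u).primeFactorsList.length = 0 := by omega
      rw [h2, pow_zero] at h1
      exact hou1 h1
    obtain ⟨s, hs, hsr, hsu⟩ := hex
    set r := (orderOf u).minFac with hr'
    have hr : r.Prime := Nat.minFac_prime hou1
    have hru : r ∣ orderOf u := Nat.minFac_dvd _
    obtain ⟨a1, ha1, ha1o⟩ := exists_orderOf hru
    obtain ⟨a2, ha2, ha2o⟩ := exists_orderOf hsu
    have ha12 : ¬ adj a1 a2 := by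
      intro h
      rcases dvd_of_adj h with h | h
      · rw [ha1o, ha2o] at h
        exact hsr ((Nat.prime_dvd_prime_iff_eq hr hs).1 h).symm
      · rw [ha1o, ha2o] at h
        exact hsr ((Nat.prime_dvd_prime_iff_eq hs hr).1 h)
    obtain ⟨w, huw, hwmax⟩ := exists_maximal u
    have hw1 : w ≠ 1 := by
      rintro rfl
      rw [Subgroup.zpowers_one_eq_bot, Subgroup.mem_bot] at huw
      exact hu1 huw
    have hwD : ¬ D w := fun h => hD3 w h hw1 hwmax
    simp only [D] at hwD
    push Not at hwD
    obtain ⟨w2, hw2, hww2⟩ := hwD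
    have huw2 : u ∈ Subgroup.zpowers w2 := by
      rcases (hD2 u hu hu1 w2).2 hw2 with h | h
      · exact h
      · exfalso
        apply hww2
        right
        exact (Subgroup.zpowers_le.2 huw) h
    -- the two parts
    have hpart : ∀ y y' : G, y ∈ Subgroup.zpowers m → y' ∈ Subgroup.zpowers m → ¬ adj y y' →
        u ∈ Subgroup.zpowers (e y) → u ∈ Subgroup.zpowers (e y') := by
      intro y y' hy hy' hn hyu
      have h1 : adj u (e y') := by
        rw [hD2 u hu hu1, ← he, hadjm]; exact hy'
      rcases h1 with h1 | h1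
      · exact h1
      · exfalso
        apply hn
        rw [he]
        right
        exact (Subgroup.zpowers_le.2 hyu) h1
    have hin : ∀ h : H, adj u h → e.symm h ∈ Subgroup.zpowers m := by
      intro h hh
      rw [← hadjm, he, e.apply_symm_apply, ← hD2 u hu hu1]; exact hh
    obtain ⟨zp, hzp, hzpo⟩ := exists_orderOf (m := m) (Nat.ordProj_dvd n p)
    have hconn : ∀ y y' : G, y ∈ Subgroup.zpowers m → y' ∈ Subgroup.zpowers m → ¬ adj y y' →
        (u ∈ Subgroup.zpowers (e y) ↔ u ∈ Subgroup.zpowers (e zp)) := by
      intro y y' hy hy' hyy'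
      have hy1 : y ≠ 1 := by rintro rfl; exact hyy' (adj_one _)
      have hym : m ∉ Subgroup.zpowers y := by
        intro h
        apply hyy'
        right
        exact (Subgroup.zpowers_le.2 h) hy'
      obtain ⟨r', hr', hrm', hz'⟩ := exists_not_adj hp hq hpq hpn hqn hy hy1 hym
      by_cases hrp : r' = p
      · subst hrp
        have h1 := hz' zp hzp hzpo
        exact ⟨hpart y zp hy hzp h1, hpart zp y hzp hy (fun h => h1 (adj_comm.1 h))⟩
      · obtain ⟨zr, hzr, hzro⟩ := exists_orderOf (m := m) (Nat.ordProj_dvd n r')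
        have h1 := hz' zr hzr hzro
        have h2 : ¬ adj zr zp := by
          have hm0 : n ≠ 0 := (orderOf_pos m).ne'
          have hcop' : (r' ^ n.factorization r').Coprime (p ^ n.factorization p) :=
            Nat.Coprime.pow _ _ ((Nat.coprime_primes hr' hp).2 hrp)
          intro h
          rcases dvd_of_adj h with h | h
          · rw [hzro, hzpo] at h
            have h3 := Nat.eq_one_of_dvd_coprimes hcop' dvd_rfl h
            have h4 := hr'.factorization_pos_of_dvd hm0 hrm'
            have h5 : 1 < r' ^ n.factorization r' := Nat.one_lt_pow (by omega) hr'.one_lt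
            omega
          · rw [hzro, hzpo] at h
            have h3 := Nat.eq_one_of_dvd_coprimes hcop' h dvd_rfl
            have h4 := hp.factorization_pos_of_dvd hm0 hpn
            have h5 : 1 < p ^ n.factorization p := Nat.one_lt_pow (by omega) hp.one_lt
            omega
        constructor
        · intro h
          exact hpart zr zp hzr hzp h2 (hpart y zr hy hzr h1 h)
        · intro h
          exact hpart zr y hzr hy (fun h => h1 (adj_comm.1 h)) (hpart zp zr hzp hzr (fun h => h2 (adj_comm.1 h)) h)
    have c1 := hconn (e.symm w) (e.symm w2) (hin w (Or.inl huw)) (hin w2 (Or.inl huw2)) (by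
      rw [← he']; exact hww2)
    have c2 := hconn (e.symm a1) (e.symm a2) (hin a1 (Or.inr ha1)) (hin a2 (Or.inr ha2)) (by
      rw [← he']; exact ha12)
    rw [e.apply_symm_apply] at c1 c2
    have h1 : u ∈ Subgroup.zpowers a1 := c2.2 (c1.1 huw)
    have h2 : orderOf u ∣ orderOf a1 := by
      rw [← Nat.card_zpowers a1]
      exact Subgroup.orderOf_dvd_natCard _ h1
    rw [ha1o] at h2
    exact hsr ((Nat.prime_dvd_prime_iff_eq hs hr).1 (hsu.trans h2))
  -- a dominating element of maximal order
  obtain ⟨u0, ⟨hu0D, hu01⟩, hu0max⟩ := (Set.toFinite {u : H | D u ∧ u ≠ 1}).exists_maximalFor (fun u => orderOf u) _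
    ⟨e m, hDm, fun h => by
      have h1 := he1' m h
      rw [h1, orderOf_one] at hn
      rw [hn] at hpqn
      have := hp.one_lt
      have h2 := Nat.dvd_one.1 ((dvd_mul_right p q).trans hpqn)
      omega⟩
  obtain ⟨r, j, hr, hj, hu0⟩ := hD4 u0 hu0D hu01
  -- D is zpowers u0
  have hDu0 : ∀ u, D u ↔ u ∈ Subgroup.zpowers u0 := by
    intro u
    constructor
    · intro hu
      by_cases hu1 : u = 1
      · rw [hu1]; exact Subgroup.one_mem _
      have h1 : adj u u0 := hu u0 (by rw [adj_comm]; exact hu0D _ (adj_self _))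
      rcases h1 with h1 | h1
      · exact h1
      · have h2 : orderOf u0 ∣ orderOf u := by
          rw [← Nat.card_zpowers u]
          exact Subgroup.orderOf_dvd_natCard _ h1
        have h3 := hu0max ⟨hu, hu1⟩ (Nat.le_of_dvd (orderOf_pos u) h2)
        have h4 : orderOf u = orderOf u0 := le_antisymm h3 (Nat.le_of_dvd (orderOf_pos u) h2)
        rw [mem_zpowers_iff (Subgroup.mem_zpowers u) h1, h4]
    · intro hu z hz
      rw [← hD2 u0 hu0D hu01] at hz
      rcases hz with hz | hz
      · left; exact (Subgroup.zpowers_le.2 hz) hu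
      · apply adj_of_dvd hu hz
        have h1 : orderOf u ∣ r ^ j := by
          rw [← hu0, ← Nat.card_zpowers u0]; exact Subgroup.orderOf_dvd_natCard _ hu
        have h2 : orderOf z ∣ r ^ j := by
          rw [← hu0, ← Nat.card_zpowers u0]; exact Subgroup.orderOf_dvd_natCard _ hz
        obtain ⟨i1, -, hi1⟩ := (Nat.dvd_prime_pow hr).1 h1
        obtain ⟨i2, -, hi2⟩ := (Nat.dvd_prime_pow hr).1 h2
        rw [hi1, hi2]
        rcases le_total i1 i2 with h | h
        · left; exact pow_dvd_pow r h
        · right; exact pow_dvd_pow r h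
  -- counting the dominating elements
  have hcount : r ^ j = n.totient + 1 := by
    have h1 : Nat.card {u : H // u ∈ Subgroup.zpowers u0} = r ^ j := by rw [← hu0]; exact Nat.card_zpowers u0
    have h2 : Nat.card {u : H // u ∈ Subgroup.zpowers u0} = Nat.card (Option {x : G // Subgroup.zpowers x = Subgroup.zpowers m}) := by
      symm
      have hDgen : ∀ x : G, Subgroup.zpowers x = Subgroup.zpowers m → e x ∈ Subgroup.zpowers u0 := by
        intro x hx
        rw [← hDu0]
        intro z hz
        rw [← e.apply_symm_apply z, ← he] at hz ⊢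
        exact (adj_congr hx _).2 hz
      apply Nat.card_congr
      refine Equiv.ofBijective (fun o => o.elim ⟨1, Subgroup.one_mem _⟩ (fun x => ⟨e x.1, hDgen x.1 x.2⟩)) ⟨?_, ?_⟩
      · have hm1 : ∀ x : {x : G // Subgroup.zpowers x = Subgroup.zpowers m}, e x.1 ≠ 1 := by
          intro x h
          have h3 := he1' _ h
          have h4 := x.2
          rw [h3, Subgroup.zpowers_one_eq_bot] at h4
          have h5 : m = 1 := by
            have := Subgroup.mem_zpowers m
            rw [← h4, Subgroup.mem_bot] at this
            exact this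
          rw [h5, orderOf_one] at hn
          rw [hn] at hpqn
          have := hp.one_lt
          have h2 := Nat.dvd_one.1 ((dvd_mul_right p q).trans hpqn)
          omega
        intro a b hab
        rcases a with _ | x <;> rcases b with _ | y
        · rfl
        · exact absurd (congrArg Subtype.val hab).symm (hm1 y)
        · exact absurd (congrArg Subtype.val hab) (hm1 x)
        · have h3 : e x.1 = e y.1 := congrArg Subtype.val hab
          exact congrArg some (Subtype.ext (e.injective h3))
      · rintro ⟨u, hu⟩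
        by_cases hu1 : u = 1
        · exact ⟨none, Subtype.ext hu1.symm⟩
        · exact ⟨some ⟨e.symm u, hD1 u ((hDu0 u).2 hu) hu1⟩, Subtype.ext (e.apply_symm_apply u)⟩
    haveI := Fintype.ofFinite {x : G // Subgroup.zpowers x = Subgroup.zpowers m}
    rw [← h1, h2, Nat.card_eq_fintype_card, Fintype.card_option, ← Nat.card_eq_fintype_card, card_gens]
  -- the elements of prime order
  have hprime : ∀ s t : ℕ, s.Prime → t.Prime → s ≠ t → s ∣ n → t ∣ n → (r ^ j).totient ≤ s - 1 := by
    intro s t hs ht hst hsn htn
    obtain ⟨x, hx, hxo⟩ := exists_orderOf hsn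
    have hx1 : x ≠ 1 := by rintro rfl; rw [orderOf_one] at hxo; exact hs.one_lt.ne hxo
    have hxm : m ∉ Subgroup.zpowers x := by
      intro h
      have h1 : n ∣ s := by
        rw [← hxo, ← Nat.card_zpowers x]; exact Subgroup.orderOf_dvd_natCard _ h
      exact hst ((Nat.prime_dvd_prime_iff_eq ht hs).1 (htn.trans h1)).symm
    have hex : e x ≠ 1 := fun h => hx1 (he1' x h)
    have hDx : ¬ D (e x) := by
      intro h
      have h1 := hD1 _ h hex
      rw [e.symm_apply_apply] at h1
      apply hxm
      rw [h1]; exact Subgroup.mem_zpowers m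
    have hux : u0 ∈ Subgroup.zpowers (e x) := by
      have h1 : adj u0 (e x) := by
        rw [hD2 u0 hu0D hu01, ← he, hadjm]; exact hx
      rcases h1 with h1 | h1
      · exact h1
      · exact absurd ((hDu0 _).2 h1) hDx
    have h1 : r ^ j ∣ orderOf (e x) := by
      rw [← hu0, ← Nat.card_zpowers (e x)]; exact Subgroup.orderOf_dvd_natCard _ hux
    have h2 : (r ^ j).totient ≤ (orderOf (e x)).totient :=
      Nat.le_of_dvd (Nat.totient_pos.2 (orderOf_pos _)) (Nat.totient_dvd_of_dvd h1)
    refine h2.trans ?_
    rw [← card_gens, ← Nat.totient_prime hs, ← card_orderOf hsn]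
    apply Nat.card_le_card_of_injective (fun u : {u : H // Subgroup.zpowers u = Subgroup.zpowers (e x)} =>
      (⟨e.symm u.1, ?_⟩ : {x : G // x ∈ Subgroup.zpowers m ∧ orderOf x = s}))
    · intro a b hab
      exact Subtype.ext (e.symm.injective (congrArg Subtype.val hab))
    · obtain ⟨u, hu⟩ := u
      have htw : ∀ z, adj (e.symm u) z ↔ adj x z := by
        intro z
        rw [he, he x z, e.apply_symm_apply]
        exact adj_congr hu _
      have hmem : e.symm u ∈ Subgroup.zpowers m := by
        rw [← hadjm, adj_comm, htw, adj_comm, hadjm]; exact hx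
      refine ⟨hmem, ?_⟩
      have hne1 : e.symm u ≠ 1 := by
        intro h
        have h3 : e.symm u = e.symm 1 := by rw [h, ← he1, e.symm_apply_apply]
        have h4 := e.symm.injective h3
        rw [h4, Subgroup.zpowers_one_eq_bot] at hu
        have h5 := Subgroup.mem_zpowers (e x)
        rw [← hu, Subgroup.mem_bot] at h5
        exact hex h5
      -- s divides the order
      have h3 : s ∣ orderOf (e.symm u) := by
        have h4 : adj (e.symm u) x := (htw x).2 (adj_self x)
        rcases dvd_of_adj h4 with h | h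
        · rw [hxo] at h
          rcases (Nat.dvd_prime hs).1 h with h5 | h5
          · exact absurd (orderOf_eq_one_iff.1 h5) hne1
          · rw [h5]
        · rw [hxo] at h; exact h
      -- only the prime s divides the order
      have h4 : ∀ ρ : ℕ, ρ.Prime → ρ ∣ orderOf (e.symm u) → ρ = s := by
        intro ρ hρ hρd
        by_contra hρs
        obtain ⟨z, hz, hzo⟩ := exists_orderOf hρd
        have h5 : adj (e.symm u) z := Or.inr hz
        rw [htw] at h5
        rcases dvd_of_adj h5 with h | h
        · rw [hxo, hzo] at h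
          exact hρs ((Nat.prime_dvd_prime_iff_eq hs hρ).1 h).symm
        · rw [hxo, hzo] at h
          exact hρs ((Nat.prime_dvd_prime_iff_eq hρ hs).1 h)
      have h5 := Nat.eq_prime_pow_of_unique_prime_dvd (orderOf_pos (e.symm u)).ne' (fun {d} hd hdd => h4 d hd hdd)
      set c := (orderOf (e.symm u)).primeFactorsList.length with hc
      -- compare with an element of order s t
      have hst' : s * t ∣ n := Nat.Coprime.mul_dvd_of_dvd_of_dvd ((Nat.coprime_primes hs ht).2 hst) hsn htn
      obtain ⟨z, hz, hzo⟩ := exists_orderOf hst'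
      have h6 : adj x z := adj_of_dvd hx hz (Or.inl (by rw [hxo, hzo]; exact dvd_mul_right s t))
      rw [← htw] at h6
      rcases dvd_of_adj h6 with h | h
      · rw [h5, hzo] at h
        have h7 : s ^ c ∣ s := by
          apply Nat.Coprime.dvd_of_dvd_mul_right _ h
          exact Nat.Coprime.pow_left c ((Nat.coprime_primes hs ht).2 hst)
        have h8 : orderOf (e.symm u) ∣ s := by rw [h5]; exact h7
        exact Nat.dvd_antisymm h8 h3
      · rw [hzo, h5] at h
        have h7 : t ∣ s := ht.dvd_of_dvd_pow ((dvd_mul_left t s).trans h)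
        exact absurd ((Nat.prime_dvd_prime_iff_eq ht hs).1 h7).symm hst
  have hA := hprime p q hp hq hpq hpn hqn
  have hB := hprime q p hq hp hpq.symm hqn hpn
  -- arithmetic
  have hφ : (p - 1) * (q - 1) ≤ n.totient := by
    have h1 : (p * q).totient ∣ n.totient := Nat.totient_dvd_of_dvd hpqn
    rw [Nat.totient_mul hcop, Nat.totient_prime hp, Nat.totient_prime hq] at h1
    exact Nat.le_of_dvd (Nat.totient_pos.2 (orderOf_pos m)) h1
  set M := (r ^ j).totient with hM
  have hMval : M = r ^ (j - 1) * (r - 1) := Nat.totient_prime_pow hr hj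
  have hMM : r ^ j ≤ M * (M + 1) := by
    have h1 : 1 ≤ r ^ (j - 1) := Nat.one_le_pow _ _ hr.pos
    have h2 : 1 ≤ r - 1 := by have := hr.two_le; omega
    have h3 : r ^ j = r ^ (j - 1) * r := by rw [← pow_succ]; congr 1; omega
    have h4 : r ≤ M + 1 := by
      rw [hMval]
      have : 1 * (r - 1) ≤ r ^ (j - 1) * (r - 1) := Nat.mul_le_mul_right _ h1
      omega
    have h5 : r ^ (j - 1) ≤ M := by
      rw [hMval]
      calc r ^ (j - 1) = r ^ (j - 1) * 1 := (mul_one _).symm
        _ ≤ _ := Nat.mul_le_mul_left _ h2
    rw [h3]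
    exact Nat.mul_le_mul h5 h4
  have hfin : M * (M + 1) ≤ (p - 1) * (q - 1) := by
    rcases lt_or_gt_of_ne hpq with h | h
    · have h1 : M + 1 ≤ q - 1 := by have := hp.two_le; omega
      exact Nat.mul_le_mul hA h1
    · have h1 : M + 1 ≤ p - 1 := by have := hq.two_le; omega
      rw [mul_comm]
      exact Nat.mul_le_mul h1 hB
  omega

/-- Let G and H be finite groups whose power graphs are isomorphic: there is a bijection e : G → H such that, for all x, y, one of x, y is a power of the other exactly when one of e(x), e(y) is a power of the other. Then G and H have the same prime graph: for distinct primes p, q, G has an element of order pq if and only if H does. -/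
theorem result {G H : Type*} [Group G] [Finite G] [Group H] [Finite H] (e : G ≃ H)
    (he : ∀ x y : G, (x ∈ Subgroup.zpowers y ∨ y ∈ Subgroup.zpowers x) ↔
      (e x ∈ Subgroup.zpowers (e y) ∨ e y ∈ Subgroup.zpowers (e x)))
    {p q : ℕ} (hp : p.Prime) (hq : q.Prime) (hpq : p ≠ q) :
    (∃ g : G, orderOf g = p * q) ↔ (∃ h : H, orderOf h = p * q) := by
  constructor
  · rintro ⟨g, hg⟩
    exact main e he hp hq hpq g hg
  · rintro ⟨g, hg⟩
    refine main e.symm (fun x y => ?_) hp hq hpq g hg
    have h1 := he (e.symm x) (e.symm y)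
    rw [e.apply_symm_apply, e.apply_symm_apply] at h1
    exact h1.symm

end Cfsg.Agent.S4085
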