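import Mathlib
import Cfsg.Statements.S4086

set_option autoImplicit false
open Cfsg

namespace Cfsg.Agent.S4086

theorem mem_zpowers_of_dvd {C : Type*} [Group C] [Finite C] [IsCyclic C] (x y : C) (h : orderOf x ∣ orderOf y) :
    x ∈ Subgroup.zpowers y := by
  classical
  haveI := Fintype.ofFinite C
  have hpos : 0 < orderOf y := orderOf_pos y
  have h1 : (Finset.univ.filter fun z : C => z ^ (orderOf y) = 1).card ≤ orderOf y :=
    IsCyclic.card_pow_eq_one_le hpos
  have h2 : (Finset.univ.filter fun z : C => z ∈ Subgroup.zpowers y) ⊆ (Finset.univ.filter fun z : C => z ^ (orderOf y) = 1) := by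
    intro z hz
    rw [Finset.mem_filter] at hz ⊢
    refine ⟨hz.1, ?_⟩
    obtain ⟨k, rfl⟩ := hz.2
    change (y ^ k) ^ orderOf y = 1
    rw [← zpow_natCast, ← zpow_mul, mul_comm, zpow_mul, zpow_natCast, pow_orderOf_eq_one, one_zpow]
  have h3 : (Finset.univ.filter fun z : C => z ∈ Subgroup.zpowers y).card = orderOf y := by
    rw [← Nat.card_zpowers, ← Fintype.card_subtype, ← Nat.card_eq_fintype_card]
  have h4 := Finset.eq_of_subset_of_card_le h2 (by rw [h3]; exact h1)
  have h5 : x ∈ (Finset.univ.filter fun z : C => z ^ (orderOf y) = 1) := by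
    rw [Finset.mem_filter]
    exact ⟨Finset.mem_univ _, orderOf_dvd_iff_pow_eq_one.1 h⟩
  rw [← h4, Finset.mem_filter] at h5
  exact h5.2

/-- For a finite group G the following are equivalent: every non-identity element has prime-power order; whenever two elements generate a cyclic subgroup, one of them is a power of the other (the enhanced power graph of G coincides with its power graph). -/
theorem result {G : Type*} [Group G] [Finite G] :
    (∀ g : G, g ≠ 1 → IsPrimePow (orderOf g)) ↔
    (∀ x y : G, IsCyclic ↥(Subgroup.closure ({x, y} : Set G)) → (x ∈ Subgroup.zpowers y ∨ y ∈ Subgroup.zpowers x)) := by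
  constructor
  · intro h x y hc
    have hx : x ∈ Subgroup.closure ({x, y} : Set G) := Subgroup.subset_closure (by simp)
    have hy : y ∈ Subgroup.closure ({x, y} : Set G) := Subgroup.subset_closure (by simp)
    set C := Subgroup.closure ({x, y} : Set G) with hC
    obtain ⟨g, hg⟩ := hc.exists_generator
    have key : ∀ a b : C, orderOf a ∣ orderOf b → (a : G) ∈ Subgroup.zpowers (b : G) := by
      intro a b hab
      obtain ⟨k, hk⟩ := mem_zpowers_of_dvd a b hab
      exact ⟨k, by rw [← hk]; rfl⟩
    by_cases hg1 : (g : G) = 1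
    · left
      have : (⟨x, hx⟩ : C) = 1 := by
        obtain ⟨k, hk⟩ := hg ⟨x, hx⟩
        have hg1' : g = 1 := Subtype.ext hg1
        rw [← hk, hg1']; simp
      have : x = 1 := congrArg Subtype.val this
      rw [this]; exact one_mem _
    · have hpp := h g hg1
      rw [isPrimePow_nat_iff] at hpp
      obtain ⟨p, k, hp, hk, hpk⟩ := hpp
      have hord : ∀ a : C, ∃ i ≤ k, orderOf a = p ^ i := by
        intro a
        have : orderOf a ∣ orderOf g := orderOf_dvd_of_mem_zpowers (hg a)
        rw [← Subgroup.orderOf_coe g, ← hpk] at this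
        exact (Nat.dvd_prime_pow hp).1 this
      obtain ⟨i, -, hi⟩ := hord ⟨x, hx⟩
      obtain ⟨j, -, hj⟩ := hord ⟨y, hy⟩
      rcases le_total i j with hij | hij
      · left
        exact key ⟨x, hx⟩ ⟨y, hy⟩ (by rw [hi, hj]; exact pow_dvd_pow p hij)
      · right
        exact key ⟨y, hy⟩ ⟨x, hx⟩ (by rw [hi, hj]; exact pow_dvd_pow p hij)
  · intro h g hg1
    have hn1 : orderOf g ≠ 1 := fun h1 => hg1 (orderOf_eq_one_iff.1 h1)
    have hn0 : orderOf g ≠ 0 := (orderOf_pos g).ne'
    have hp : (orderOf g).minFac.Prime := Nat.minFac_prime hn1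
    set p := (orderOf g).minFac with hpdef
    obtain ⟨k, m, hpm, hm⟩ := Nat.exists_eq_pow_mul_and_not_dvd hn0 p hp.ne_one
    have hk0 : k ≠ 0 := by
      rintro rfl
      apply hpm
      rw [pow_zero, one_mul] at hm
      rw [← hm]; exact Nat.minFac_dvd _
    have hpk0 : 0 < p ^ k := pow_pos hp.pos k
    have hm0 : 0 < m := Nat.pos_of_ne_zero (by rintro rfl; simp at hpm)
    have hcop : Nat.Coprime (p ^ k) m := Nat.Coprime.pow_left k ((Nat.Prime.coprime_iff_not_dvd hp).2 hpm)
    have hx : orderOf (g ^ (p ^ k)) = m := by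
      rw [orderOf_pow, hm, Nat.gcd_eq_right (dvd_mul_right _ _), Nat.mul_div_cancel_left _ hpk0]
    have hy : orderOf (g ^ m) = p ^ k := by
      rw [orderOf_pow, hm, Nat.gcd_eq_right (dvd_mul_left _ _), Nat.mul_div_cancel _ hm0]
    have hcyc : IsCyclic ↥(Subgroup.closure ({g ^ (p ^ k), g ^ m} : Set G)) := by
      have hle : Subgroup.closure ({g ^ (p ^ k), g ^ m} : Set G) ≤ Subgroup.zpowers g := by
        rw [Subgroup.closure_le]
        rintro z (rfl | hz)
        · exact Subgroup.pow_mem _ (Subgroup.mem_zpowers g) _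
        · rw [Set.mem_singleton_iff] at hz
          rw [hz]
          exact Subgroup.pow_mem _ (Subgroup.mem_zpowers g) _
      exact isCyclic_of_injective (Subgroup.inclusion hle) (Subgroup.inclusion_injective hle)
    rcases h _ _ hcyc with h1 | h1
    · have := orderOf_dvd_of_mem_zpowers h1
      rw [hx, hy] at this
      have hm1 : m = 1 := Nat.eq_one_of_dvd_coprimes hcop this dvd_rfl
      rw [hm, hm1, mul_one]
      exact hp.isPrimePow.pow hk0
    · have := orderOf_dvd_of_mem_zpowers h1
      rw [hx, hy] at this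
      have hpk1 : p ^ k = 1 := Nat.eq_one_of_dvd_coprimes hcop dvd_rfl this
      exfalso
      have := Nat.one_lt_pow hk0 hp.one_lt
      omega

end Cfsg.Agent.S4086
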