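import Mathlib
import Cfsg.Statements.S4088
import Cfsg.Agent.Lib.H71.PChains

set_option autoImplicit false
open Cfsg

namespace Cfsg.Agent.S4088

/-- Let G be a finite group, p a prime dividing the order of G, H a p-subgroup of G and P a Sylow p-subgroup of G. Call the subnormalizer of H the set of elements g of G such that H is subnormal in the subgroup generated by H and g. Then the number of elements of the subnormalizer of H equals the number of Sylow p-subgroups of G containing H times the order of N_G(P), and also equals the number of conjugates of H contained in P times the order of N_G(H). -/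
theorem result {G : Type*} [Group G] [Finite G] (p : ℕ) [Fact p.Prime]
    (hp : p ∣ Nat.card G) (H : Subgroup G) (hH : IsPGroup p H) (P : Sylow p G) :
    Nat.card {g : G // ((H).subgroupOf (H ⊔ Subgroup.zpowers g)).IsSubnormal} =
        Nat.card {Q : Sylow p G // H ≤ (Q : Subgroup G)} * Nat.card (Subgroup.normalizer ((P : Subgroup G) : Set G)) ∧
    Nat.card {g : G // ((H).subgroupOf (H ⊔ Subgroup.zpowers g)).IsSubnormal} =
        Nat.card {K : Subgroup G // K ≤ (P : Subgroup G) ∧ ∃ g : G, K = H.map (MulAut.conj g).toMonoidHom} *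
          Nat.card (Subgroup.normalizer (H : Set G)) := by
  have h1 : Nat.card {g : G // ((H).subgroupOf (H ⊔ Subgroup.zpowers g)).IsSubnormal} =
        Nat.card {Q : Sylow p G // H ≤ (Q : Subgroup G)} * Nat.card (Subgroup.normalizer ((P : Subgroup G) : Set G)) := by
    rw [← H71.PChains.card_subnormalizer p H P]
    exact Nat.card_congr (Equiv.subtypeEquivRight fun g => H71.Subnormalizer.isSubnormal_iff p H hH g)
  refine ⟨h1, ?_⟩
  rw [h1]
  -- both sides count pairs
  set L := Nat.card {Q : Sylow p G // H ≤ (Q : Subgroup G)} with hL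
  set A := Nat.card {K : Subgroup G // K ≤ (P : Subgroup G) ∧ ∃ g : G, K = H.map (MulAut.conj g).toMonoidHom} with hA
  -- count the elements g with H^g ≤ P
  have hconj : ∀ (g : G) (K : Subgroup G), H.map (MulAut.conj g).toMonoidHom ≤ K ↔ ∀ h ∈ H, g * h * g⁻¹ ∈ K := by
    intro g K
    rw [Subgroup.map_le_iff_le_comap]
    exact Iff.rfl
  have e1 : Nat.card {g : G // H.map (MulAut.conj g).toMonoidHom ≤ (P : Subgroup G)} =
      A * Nat.card (Subgroup.normalizer (H : Set G)) := by
    rw [hA, ← Nat.card_prod]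
    choose f hf using fun K : {K : Subgroup G // K ≤ (P : Subgroup G) ∧ ∃ g : G, K = H.map (MulAut.conj g).toMonoidHom} => K.2.2
    have hmapmul : ∀ a b : G, H.map (MulAut.conj (a * b)).toMonoidHom =
        (H.map (MulAut.conj b).toMonoidHom).map (MulAut.conj a).toMonoidHom := by
      intro a b
      rw [Subgroup.map_map]
      congr 1
      ext x
      simp [mul_assoc]
    have hnorm : ∀ n : G, n ∈ Subgroup.normalizer (H : Set G) ↔ H.map (MulAut.conj n).toMonoidHom = H := by
      intro n
      constructor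
      · intro hn
        ext x
        constructor
        · rintro ⟨y, hy, rfl⟩
          exact (Subgroup.mem_normalizer_iff.1 hn y).1 hy
        · intro hx
          have := (Subgroup.mem_normalizer_iff.1 ((Subgroup.normalizer (H : Set G)).inv_mem hn) x).1 hx
          exact ⟨_, this, by simp [mul_assoc]⟩
      · intro h
        apply Subgroup.mem_normalizer_fintype
        intro s hs
        rw [SetLike.mem_coe, ← h]
        exact ⟨s, hs, rfl⟩
    refine (Nat.card_congr ?_).symm
    refine Equiv.ofBijective (fun x => ⟨f x.1 * x.2.1, ?_⟩) ⟨?_, ?_⟩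
    · rw [hmapmul, (hnorm _).1 x.2.2, ← hf x.1]
      exact x.1.2.1
    · rintro ⟨K1, n1⟩ ⟨K2, n2⟩ h
      have h2 : f K1 * n1.1 = f K2 * n2.1 := congrArg Subtype.val h
      have h3 : K1.1 = K2.1 := by
        have := congrArg (fun g => H.map (MulAut.conj g).toMonoidHom) h2
        beta_reduce at this
        rw [hmapmul, hmapmul, (hnorm _).1 n1.2, (hnorm _).1 n2.2, ← hf, ← hf] at this
        exact this
      have h4 : K1 = K2 := Subtype.ext h3
      subst h4
      have h5 : n1.1 = n2.1 := mul_left_cancel h2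
      rw [Subtype.ext h5]
    · rintro ⟨g, hg⟩
      let K : {K : Subgroup G // K ≤ (P : Subgroup G) ∧ ∃ g : G, K = H.map (MulAut.conj g).toMonoidHom} :=
        ⟨H.map (MulAut.conj g).toMonoidHom, hg, g, rfl⟩
      have hK : H.map (MulAut.conj (f K)).toMonoidHom = H.map (MulAut.conj g).toMonoidHom := (hf K).symm
      have hn : (f K)⁻¹ * g ∈ Subgroup.normalizer (H : Set G) := by
        rw [hnorm, hmapmul, ← hK, ← hmapmul]
        simp only [inv_mul_cancel, map_one]
        exact Subgroup.map_id H
      exact ⟨⟨K, ⟨_, hn⟩⟩, Subtype.ext (by simp)⟩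
  have e2 : Nat.card {g : G // H.map (MulAut.conj g).toMonoidHom ≤ (P : Subgroup G)} =
      L * Nat.card (Subgroup.normalizer ((P : Subgroup G) : Set G)) := by
    rw [hL, ← Nat.card_prod]
    have hex : ∀ Q : Sylow p G, ∃ g : G, g • Q = P := fun Q => MulAction.exists_smul_eq G Q P
    choose f hf using hex
    have hiff : ∀ (g : G) (Q : Sylow p G), g • Q = P → (H.map (MulAut.conj g).toMonoidHom ≤ (P : Subgroup G) ↔ H ≤ (Q : Subgroup G)) := by
      intro g Q h
      rw [← h, Sylow.coe_subgroup_smul]
      constructor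
      · intro h1 x hx
        have := h1 (Subgroup.mem_map_of_mem _ hx)
        rw [Subgroup.mem_pointwise_smul_iff_inv_smul_mem] at this
        simpa [MulAut.smul_def, mul_assoc] using this
      · rintro h1 x ⟨y, hy, rfl⟩
        rw [Subgroup.mem_pointwise_smul_iff_inv_smul_mem]
        simpa [MulAut.smul_def, mul_assoc] using h1 hy
    refine (Nat.card_congr ?_).symm
    refine Equiv.ofBijective (fun x => ⟨x.2.1 * f x.1.1, ?_⟩) ⟨?_, ?_⟩
    · refine (hiff _ x.1.1 ?_).2 x.1.2
      rw [mul_smul, hf]
      exact Sylow.smul_eq_iff_mem_normalizer.2 x.2.2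
    · rintro ⟨Q1, n1⟩ ⟨Q2, n2⟩ h
      have h2 : n1.1 * f Q1.1 = n2.1 * f Q2.1 := congrArg Subtype.val h
      have h3 : Q1.1 = Q2.1 := by
        have a1 : (n1.1 * f Q1.1) • Q1.1 = P := by
          rw [mul_smul, hf]; exact Sylow.smul_eq_iff_mem_normalizer.2 n1.2
        have a2 : (n2.1 * f Q2.1) • Q2.1 = P := by
          rw [mul_smul, hf]; exact Sylow.smul_eq_iff_mem_normalizer.2 n2.2
        rw [h2] at a1
        exact smul_left_cancel _ (a1.trans a2.symm)
      have h4 : Q1 = Q2 := Subtype.ext h3
      subst h4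
      have h5 : n1.1 = n2.1 := mul_right_cancel h2
      rw [Subtype.ext h5]
    · rintro ⟨g, hg⟩
      have hQ : g • (g⁻¹ • P) = P := smul_inv_smul g P
      have hHQ : H ≤ ((g⁻¹ • P : Sylow p G) : Subgroup G) := (hiff g _ hQ).1 hg
      have hn : g * (f (g⁻¹ • P))⁻¹ ∈ Subgroup.normalizer ((P : Subgroup G) : Set G) := by
        refine Sylow.smul_eq_iff_mem_normalizer.1 ?_
        rw [mul_smul]
        have : (f (g⁻¹ • P))⁻¹ • P = g⁻¹ • P := by
          rw [inv_smul_eq_iff, hf]
        rw [this, hQ]
      exact ⟨⟨⟨g⁻¹ • P, hHQ⟩, ⟨_, hn⟩⟩, Subtype.ext (by simp)⟩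
  rw [← e1, ← e2]

end Cfsg.Agent.S4088
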