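import Mathlib
import Cfsg.Statements.S4089
import Cfsg.Agent.Lib.H71.Subnormalizer

set_option autoImplicit false
open Cfsg

namespace Cfsg.Agent.S4089

/-- a maximal g-invariant p-subgroup above H is radical -/
theorem exists_radical {G : Type*} [Group G] [Finite G] (p : ℕ) [Fact p.Prime]
    (H : Subgroup G) (g : G) (h : ∃ R : Subgroup G, IsPGroup p R ∧ H ≤ R ∧ g ∈ Subgroup.normalizer (R : Set G)) :
    ∃ R : Subgroup G, IsPGroup p R ∧ H ≤ R ∧ g ∈ Subgroup.normalizer (R : Set G) ∧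
      (Cfsg.pCore p (Subgroup.normalizer (R : Set G))).map (Subgroup.normalizer (R : Set G)).subtype = R := by
  let S : Set (Subgroup G) := {R | IsPGroup p R ∧ H ≤ R ∧ g ∈ Subgroup.normalizer (R : Set G)}
  obtain ⟨R, hRS, hmax⟩ := Set.Finite.exists_maximal (Set.toFinite S) h
  obtain ⟨hRp, hHR, hgR⟩ := hRS
  refine ⟨R, hRp, hHR, hgR, ?_⟩
  set N := Subgroup.normalizer (R : Set G) with hN
  have hRN : R ≤ N := Subgroup.le_normalizer
  have hRn : (R.subgroupOf N).Normal := Subgroup.normal_in_normalizer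
  have hle : R ≤ (Cfsg.pCore p N).map N.subtype := by
    intro x hx
    exact ⟨⟨x, hRN hx⟩, H1.Cores.le_pCore hRn (hRp.comap_subtype) (Subgroup.mem_subgroupOf.2 hx), rfl⟩
  apply le_antisymm _ hle
  apply hmax _ hle
  refine ⟨(H1.Cores.isPGroup_pCore p).map _, hHR.trans hle, ?_⟩
  rw [Subgroup.mem_normalizer_iff]
  have hn : (Cfsg.pCore p N).Normal := inferInstance
  have key : ∀ y ∈ N, ∀ x ∈ (Cfsg.pCore p N).map N.subtype, y * x * y⁻¹ ∈ (Cfsg.pCore p N).map N.subtype := by
    rintro y hy x ⟨z, hz, rfl⟩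
    exact ⟨⟨y, hy⟩ * z * ⟨y, hy⟩⁻¹, hn.conj_mem z hz _, rfl⟩
  intro x
  refine ⟨key g hgR x, fun hx => ?_⟩
  have := key g⁻¹ (N.inv_mem hgR) _ hx
  have e : g⁻¹ * (g * x * g⁻¹) * g⁻¹⁻¹ = x := by group
  rwa [e] at this

/-- Let G be a finite group, p a prime and H a p-subgroup of G. Then the set of elements g of G such that H is subnormal in the subgroup generated by H and g is the union of the normalizers N_G(R) over the subgroups R of G containing H with R = O_p(N_G(R)); and this set does not change when H is replaced by the intersection of all Sylow p-subgroups of G containing H. -/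
theorem result {G : Type*} [Group G] [Finite G] (p : ℕ) [Fact p.Prime]
    (H : Subgroup G) (hH : IsPGroup p H) :
    {g : G | ((H).subgroupOf (H ⊔ Subgroup.zpowers g)).IsSubnormal} =
      {g : G | ∃ R : Subgroup G, H ≤ R ∧ (Cfsg.pCore p (Subgroup.normalizer (R : Set G))).map (Subgroup.normalizer (R : Set G)).subtype = R ∧ g ∈ Subgroup.normalizer (R : Set G)} ∧
    ∀ g : G, (((H).subgroupOf (H ⊔ Subgroup.zpowers g)).IsSubnormal ↔
      (((sInf {K : Subgroup G | ∃ Q : Sylow p G, H ≤ (Q : Subgroup G) ∧ K = (Q : Subgroup G)})).subgroupOf ((sInf {K : Subgroup G | ∃ Q : Sylow p G, H ≤ (Q : Subgroup G) ∧ K = (Q : Subgroup G)}) ⊔ Subgroup.zpowers g)).IsSubnormal) := by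
  constructor
  · ext g
    simp only [Set.mem_setOf_eq]
    rw [H71.Subnormalizer.isSubnormal_iff p H hH g]
    constructor
    · intro h
      obtain ⟨R, -, h1, h2, h3⟩ := exists_radical p H g h
      exact ⟨R, h1, h3, h2⟩
    · rintro ⟨R, h1, h3, h2⟩
      refine ⟨R, ?_, h1, h2⟩
      rw [← h3]
      exact (H1.Cores.isPGroup_pCore p).map _
  · intro g
    set I := sInf {K : Subgroup G | ∃ Q : Sylow p G, H ≤ (Q : Subgroup G) ∧ K = (Q : Subgroup G)} with hI
    obtain ⟨Q0, hQ0⟩ := hH.exists_le_sylow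
    have hIQ : ∀ Q : Sylow p G, H ≤ (Q : Subgroup G) → I ≤ Q := fun Q hQ => sInf_le ⟨Q, hQ, rfl⟩
    have hHI : H ≤ I := by
      refine le_sInf ?_
      rintro K ⟨Q, hQ, rfl⟩
      exact hQ
    have hIp : IsPGroup p I := Q0.2.to_le (hIQ Q0 hQ0)
    rw [H71.Subnormalizer.isSubnormal_iff p H hH g, H71.Subnormalizer.isSubnormal_iff p I hIp g]
    constructor
    · intro h
      obtain ⟨R, hRp, hHR, hgR, hrad⟩ := exists_radical p H g h
      refine ⟨R, hRp, ?_, hgR⟩
      -- I ≤ R
      set IR := sInf {K : Subgroup G | ∃ Q : Sylow p G, R ≤ (Q : Subgroup G) ∧ K = (Q : Subgroup G)} with hIR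
      have h1 : I ≤ IR := by
        refine le_sInf ?_
        rintro K ⟨Q, hQ, rfl⟩
        exact hIQ Q (hHR.trans hQ)
      have h2 : R ≤ IR := by
        refine le_sInf ?_
        rintro K ⟨Q, hQ, rfl⟩
        exact hQ
      obtain ⟨Q1, hQ1⟩ := hRp.exists_le_sylow
      have h3 : IsPGroup p IR := Q1.2.to_le (sInf_le ⟨Q1, hQ1, rfl⟩)
      rcases h2.eq_or_lt with h4 | h4
      · rw [← h4] at h1; exact h1
      exfalso
      obtain ⟨x, hx1, hx2, hx3⟩ := H71.Basic.exists_mem_normalizer_of_lt h3 h4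
      apply hx2
      set N := Subgroup.normalizer (R : Set G) with hN
      have hn : (IR.subgroupOf N).Normal := by
        constructor
        intro y hy k
        rw [Subgroup.mem_subgroupOf] at hy ⊢
        rw [hIR, Subgroup.mem_sInf]
        rintro K ⟨Q, hQ, rfl⟩
        -- k⁻¹ Q k contains R
        have hle : R ≤ (((k : G)⁻¹ • Q : Sylow p G) : Subgroup G) := by
          intro r hr
          rw [Sylow.coe_subgroup_smul, Subgroup.mem_pointwise_smul_iff_inv_smul_mem, ← map_inv, inv_inv, MulAut.smul_def, MulAut.conj_apply]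
          exact hQ ((Subgroup.mem_normalizer_iff.1 k.2 r).1 hr)
        have h5 : (y : G) ∈ (((k : G)⁻¹ • Q : Sylow p G) : Subgroup G) := by
          have : IR ≤ (((k : G)⁻¹ • Q : Sylow p G) : Subgroup G) := sInf_le ⟨_, hle, rfl⟩
          exact this hy
        rw [Sylow.coe_subgroup_smul, Subgroup.mem_pointwise_smul_iff_inv_smul_mem, ← map_inv, inv_inv, MulAut.smul_def, MulAut.conj_apply] at h5
        exact h5
      have h6 := H1.Cores.le_pCore hn (h3.comap_subtype)
      rw [← hrad]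
      exact ⟨⟨x, hx3⟩, h6 (Subgroup.mem_subgroupOf.2 hx1), rfl⟩
    · rintro ⟨R, h1, h2, h3⟩
      exact ⟨R, h1, hHI.trans h2, h3⟩

end Cfsg.Agent.S4089
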