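import Mathlib
import Cfsg.Statements.S4091
import Cfsg.Agent.Lib.H71.SubnormCount
import Cfsg.Agent.Lib.H71.CopIneq

set_option autoImplicit false
open Cfsg

namespace Cfsg.Agent.S4091

open Subgroup

section factor

variable {G : Type*} [Group G] [Finite G]

theorem card_eq_mul_map {M D : Subgroup G} [M.Normal] (h : M ≤ D) :
    Nat.card D = Nat.card M * Nat.card (D.map (QuotientGroup.mk' M)) := by
  have h1 : ((QuotientGroup.mk' M).comp D.subtype).ker = M.subgroupOf D := by
    ext x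
    simp [Subgroup.mem_subgroupOf]
  have h2 : ((QuotientGroup.mk' M).comp D.subtype).range = D.map (QuotientGroup.mk' M) := by
    rw [MonoidHom.range_comp, Subgroup.range_subtype]
  have h3 := Subgroup.index_ker ((QuotientGroup.mk' M).comp D.subtype)
  rw [h1, h2] at h3
  rw [← h3]
  have := Subgroup.relIndex_mul_relIndex ⊥ M D bot_le h
  rw [Subgroup.relIndex_bot_left, Subgroup.relIndex_bot_left] at this
  exact this.symm

theorem card_section (H M M' : Subgroup G) [M.Normal] [M'.Normal] (hle : M ≤ M') :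
    Nat.card {u : G // u ∈ M' ∧ ∀ h ∈ H, h * u * h⁻¹ * u⁻¹ ∈ M} / Nat.card M =
      Nat.card (M'.map (QuotientGroup.mk' M) ⊓ centralizer (H.map (QuotientGroup.mk' M) : Set (G ⧸ M)) : Subgroup (G ⧸ M)) := by
  have hM := ‹M.Normal›
  set D : Subgroup G := M' ⊓ (centralizer (H.map (QuotientGroup.mk' M) : Set (G ⧸ M))).comap (QuotientGroup.mk' M) with hD
  have h1 : ∀ u : G, u ∈ D ↔ (u ∈ M' ∧ ∀ h ∈ H, h * u * h⁻¹ * u⁻¹ ∈ M) := by
    intro u
    rw [hD, Subgroup.mem_inf, Subgroup.mem_comap, Subgroup.mem_centralizer_iff]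
    refine and_congr Iff.rfl ?_
    constructor
    · intro h2 h hh
      have h3 := h2 (QuotientGroup.mk h) ⟨h, hh, rfl⟩
      rw [← QuotientGroup.eq_one_iff]
      have h4 : (QuotientGroup.mk h : G ⧸ M) * QuotientGroup.mk u = QuotientGroup.mk u * QuotientGroup.mk h := h3
      rw [QuotientGroup.mk_mul, QuotientGroup.mk_mul, QuotientGroup.mk_mul, h4, QuotientGroup.mk_inv, QuotientGroup.mk_inv]
      group
    · rintro h2 _ ⟨h, hh, rfl⟩
      have h3 := h2 h hh
      rw [← QuotientGroup.eq_one_iff] at h3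
      rw [QuotientGroup.mk_mul, QuotientGroup.mk_mul, QuotientGroup.mk_mul, QuotientGroup.mk_inv, QuotientGroup.mk_inv,
        mul_inv_eq_one, mul_inv_eq_iff_eq_mul] at h3
      exact h3
  have h2 : M ≤ D := by
    intro m hm
    rw [h1]
    exact ⟨hle hm, fun h _ => M.mul_mem (hM.conj_mem m hm h) (M.inv_mem hm)⟩
  have h3 : Nat.card {u : G // u ∈ M' ∧ ∀ h ∈ H, h * u * h⁻¹ * u⁻¹ ∈ M} = Nat.card D :=
    Nat.card_congr (Equiv.subtypeEquivRight fun u => (h1 u).symm)
  have h4 : D.map (QuotientGroup.mk' M) = M'.map (QuotientGroup.mk' M) ⊓ centralizer (H.map (QuotientGroup.mk' M) : Set (G ⧸ M)) := by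
    apply le_antisymm
    · refine le_inf (Subgroup.map_mono inf_le_left) ?_
      rw [Subgroup.map_le_iff_le_comap]
      exact inf_le_right
    · rintro _ ⟨⟨u, hu, rfl⟩, hu2⟩
      exact ⟨u, ⟨hu, hu2⟩, rfl⟩
  rw [h3, card_eq_mul_map h2, h4, Nat.mul_div_cancel_left _ Nat.card_pos]

theorem factor_ineq (p : ℕ) [Fact p.Prime] (P : Subgroup G) [Fintype P] (hP : IsPGroup p P) (M M' : Subgroup G) [M.Normal] [M'.Normal] (hle : M ≤ M')
    (hc : (M.relIndex M').Coprime p) :
    (∏ x : P, (Nat.card {u : G // u ∈ M' ∧ ∀ h ∈ Subgroup.zpowers x.1, h * u * h⁻¹ * u⁻¹ ∈ M} / Nat.card M)) ^ p ≤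
      (Nat.card {u : G // u ∈ M' ∧ ∀ h ∈ (⊥ : Subgroup G), h * u * h⁻¹ * u⁻¹ ∈ M} / Nat.card M) ^ Nat.card P *
      (Nat.card {u : G // u ∈ M' ∧ ∀ h ∈ P, h * u * h⁻¹ * u⁻¹ ∈ M} / Nat.card M) ^ ((p - 1) * Nat.card P) := by
  have hV : Nat.card (M'.map (QuotientGroup.mk' M)) = M.relIndex M' := by
    have h1 := card_eq_mul_map hle
    have h2 := Subgroup.relIndex_mul_relIndex ⊥ M M' bot_le hle
    rw [Subgroup.relIndex_bot_left, Subgroup.relIndex_bot_left] at h2
    rw [h1] at h2
    exact (Nat.eq_of_mul_eq_mul_left Nat.card_pos h2).symm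
  have hVn : (M'.map (QuotientGroup.mk' M)).Normal := Subgroup.Normal.map inferInstance _ (QuotientGroup.mk'_surjective M)
  have h := H71.CopIneq.star p hP ((QuotientGroup.mk' M).comp P.subtype) _ (M'.map (QuotientGroup.mk' M)) rfl
    (by rw [hV]; exact hc) (by rw [Subgroup.normalizer_eq_top]; exact le_top)
  have hr : ((QuotientGroup.mk' M).comp P.subtype).range = P.map (QuotientGroup.mk' M) := by
    rw [MonoidHom.range_comp, Subgroup.range_subtype]
  rw [hr] at h
  rw [card_section P M M' hle, card_section ⊥ M M' hle]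
  have h1 : (M'.map (QuotientGroup.mk' M) ⊓ centralizer (((⊥ : Subgroup G).map (QuotientGroup.mk' M) : Subgroup (G ⧸ M)) : Set (G ⧸ M)) : Subgroup (G ⧸ M)) =
      M'.map (QuotientGroup.mk' M) := by
    rw [Subgroup.map_bot, inf_eq_left]
    intro u _
    rw [Subgroup.mem_centralizer_iff]
    intro y hy
    have : y = 1 := Subgroup.mem_bot.1 hy
    rw [this, one_mul, mul_one]
  rw [h1]
  have h2 : ∀ x : P, Nat.card {u : G // u ∈ M' ∧ ∀ h ∈ Subgroup.zpowers x.1, h * u * h⁻¹ * u⁻¹ ∈ M} / Nat.card M =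
      Nat.card (M'.map (QuotientGroup.mk' M) ⊓ centralizer {((QuotientGroup.mk' M).comp P.subtype) x} : Subgroup (G ⧸ M)) := by
    intro x
    rw [card_section _ M M' hle, MonoidHom.map_zpowers, H71.CopIneq.centralizer_zpowers_eq]
    rfl
  rw [Finset.prod_congr rfl (fun x _ => h2 x)]
  exact h

end factor

/-- the product inequality for the numbers of Sylow subgroups containing an element -/
theorem prod_ineq {G : Type*} [Group G] [Finite G] (p : ℕ) [hp : Fact p.Prime]
    (hG : Cfsg.IsPSolvable p G) (P : Sylow p G) [Fintype (P : Subgroup G)] :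
    (∏ x : (P : Subgroup G), Nat.card {Q : Sylow p G // Subgroup.zpowers x.1 ≤ (Q : Subgroup G)}) ^ p ≤
      Nat.card (Sylow p G) ^ Nat.card (P : Subgroup G) := by
  obtain ⟨n, M, h0, hn, hmono, hnormal, hfac⟩ := hG
  have hPp := P.isPGroup'
  set T : Subgroup G → ℕ := fun H => Nat.card {g : G // ∀ h ∈ H, g * h * g⁻¹ ∈ (P : Subgroup G)} with hT
  set c : Fin n → Subgroup G → ℕ := fun i H => (if ((M i.castSucc).relIndex (M i.succ)).Coprime p then
          Nat.card {u : G // u ∈ M i.succ ∧ ∀ h ∈ H, h * u * h⁻¹ * u⁻¹ ∈ M i.castSucc} / Nat.card (M i.castSucc)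
          else 1) with hcdef
  have hTc : ∀ H : Subgroup G, IsPGroup p H → T H = Nat.card (P : Subgroup G) * ∏ i, c i H := fun H hH =>
    H71.SubnormCount.card_into_eq_prod p H hH P n M h0 hn hmono hnormal hfac
  set N := Nat.card (Subgroup.normalizer ((P : Subgroup G) : Set G)) with hN
  have hTL : ∀ H : Subgroup G, T H = Nat.card {Q : Sylow p G // H ≤ (Q : Subgroup G)} * N := fun H =>
    H71.SubnormCount.card_into H P
  have hPpos : 0 < Nat.card (P : Subgroup G) := Nat.card_pos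
  -- the factor inequalities
  have hfi : ∀ i, (∏ x : (P : Subgroup G), c i (Subgroup.zpowers x.1)) ^ p ≤ c i ⊥ ^ Nat.card (P : Subgroup G) * c i (P : Subgroup G) ^ ((p - 1) * Nat.card (P : Subgroup G)) := by
    intro i
    haveI := hnormal i.castSucc
    haveI := hnormal i.succ
    simp only [hcdef]
    split_ifs with hcop
    · exact factor_ineq p (P : Subgroup G) hPp (M i.castSucc) (M i.succ) (hmono (Fin.castSucc_lt_succ (i := i)).le) hcop
    · simp
  -- combine
  have hp1 : 1 ≤ p := hp.out.one_lt.le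
  have hexp : Nat.card (P : Subgroup G) * p = Nat.card (P : Subgroup G) + (p - 1) * Nat.card (P : Subgroup G) := by
    obtain ⟨t, rfl⟩ : ∃ t, p = t + 1 := ⟨p - 1, by omega⟩
    simp only [Nat.add_sub_cancel]; ring
  have hmain : (∏ x : (P : Subgroup G), T (Subgroup.zpowers x.1)) ^ p ≤ T ⊥ ^ Nat.card (P : Subgroup G) * T (P : Subgroup G) ^ ((p - 1) * Nat.card (P : Subgroup G)) := by
    have e1 : (∏ x : (P : Subgroup G), T (Subgroup.zpowers x.1)) = Nat.card (P : Subgroup G) ^ Nat.card (P : Subgroup G) * ∏ i, ∏ x : (P : Subgroup G), c i (Subgroup.zpowers x.1) := by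
      rw [Finset.prod_congr rfl (fun x _ => hTc (Subgroup.zpowers x.1) (hPp.to_le (by rw [Subgroup.zpowers_le]; exact x.2))),
        Finset.prod_mul_distrib, Finset.prod_const, Finset.card_univ, ← Nat.card_eq_fintype_card, Finset.prod_comm]
    rw [e1, mul_pow, ← pow_mul, ← Finset.prod_pow, hTc ⊥ (IsPGroup.of_bot), hTc _ hPp, mul_pow, mul_pow]
    have e2 := Finset.prod_le_prod' (s := Finset.univ) (fun i (_ : i ∈ (Finset.univ : Finset (Fin n))) => hfi i)
    rw [Finset.prod_mul_distrib, Finset.prod_pow Finset.univ _ (fun i => c i ⊥),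
      Finset.prod_pow Finset.univ _ (fun i => c i (P : Subgroup G))] at e2
    calc _ ≤ Nat.card (P : Subgroup G) ^ (Nat.card (P : Subgroup G) * p) * ((∏ i, c i ⊥) ^ Nat.card (P : Subgroup G) * (∏ i, c i (P : Subgroup G)) ^ ((p - 1) * Nat.card (P : Subgroup G))) :=
          Nat.mul_le_mul_left _ e2
      _ = _ := by rw [hexp, pow_add]; ring
  have h1 : Nat.card {Q : Sylow p G // (⊥ : Subgroup G) ≤ (Q : Subgroup G)} = Nat.card (Sylow p G) :=
    Nat.card_congr (Equiv.subtypeUnivEquiv fun Q => bot_le)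
  have h2 : Nat.card {Q : Sylow p G // (P : Subgroup G) ≤ (Q : Subgroup G)} = 1 := by
    rw [Nat.card_eq_one_iff_unique]
    refine ⟨⟨fun a b => ?_⟩, ⟨⟨P, le_rfl⟩⟩⟩
    have ha : a.1 = P := Sylow.ext (P.is_maximal' a.1.isPGroup' a.2)
    have hb : b.1 = P := Sylow.ext (P.is_maximal' b.1.isPGroup' b.2)
    exact Subtype.ext (ha.trans hb.symm)
  rw [hTL ⊥, hTL (P : Subgroup G), h1, h2, Finset.prod_congr rfl (fun (x : (P : Subgroup G)) _ => hTL (Subgroup.zpowers x.1)),
    Finset.prod_mul_distrib, Finset.prod_const, Finset.card_univ, ← Nat.card_eq_fintype_card, one_mul, mul_pow, mul_pow,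
    ← pow_mul, hexp, mul_assoc, ← pow_add] at hmain
  have hNpos : 0 < N ^ (Nat.card (P : Subgroup G) + (p - 1) * Nat.card (P : Subgroup G)) := pow_pos Nat.card_pos _
  exact Nat.le_of_mul_le_mul_right hmain hNpos

/-- Let G be a finite p-solvable group, P a Sylow p-subgroup of G, u the number of p-elements of G (elements of p-power order, the identity included) and n the number of Sylow p-subgroups of G. Then u/#P ≥ n^((p−1)/p), stated as u^p ≥ #P^p · n^(p−1). -/
theorem result {G : Type*} [Group G] [Finite G] (p : ℕ) [Fact p.Prime]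
    (hG : Cfsg.IsPSolvable p G) (P : Sylow p G) :
    Nat.card (P : Subgroup G) ^ p * Nat.card (Sylow p G) ^ (p - 1) ≤ Nat.card {g : G // ∃ k : ℕ, orderOf g = p ^ k} ^ p := by
  classical
  haveI : Fintype G := Fintype.ofFinite G
  haveI : Fintype (Sylow p G) := Fintype.ofFinite _
  have hp : p.Prime := Fact.out
  set L : G → ℕ := fun x => Nat.card {Q : Sylow p G // Subgroup.zpowers x ≤ (Q : Subgroup G)} with hL
  set n := Nat.card (Sylow p G) with hn
  set m := Nat.card (P : Subgroup G) with hm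
  set u := Nat.card {g : G // ∃ k : ℕ, orderOf g = p ^ k} with hu
  have hprod : (∏ x : (P : Subgroup G), L x.1) ^ p ≤ n ^ m := prod_ineq p hG P
  -- `L x ≠ 0` iff `x` is a `p`-element
  have hLx : ∀ x : G, 0 < L x ↔ ∃ k : ℕ, orderOf x = p ^ k := by
    intro x
    constructor
    · intro h
      obtain ⟨Q, hQ⟩ := (Nat.card_pos_iff.1 h).1
      have h1 : IsPGroup p (Subgroup.zpowers x) := Q.isPGroup'.to_le hQ
      obtain ⟨k, hk⟩ := IsPGroup.iff_card.1 h1
      exact ⟨k, by rw [← hk, Nat.card_zpowers]⟩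
    · rintro ⟨k, hk⟩
      have h1 : IsPGroup p (Subgroup.zpowers x) := IsPGroup.of_card (by rw [Nat.card_zpowers]; exact hk)
      obtain ⟨Q, hQ⟩ := h1.exists_le_sylow
      exact Nat.card_pos_iff.2 ⟨⟨Q, hQ⟩, inferInstance⟩
  have hLconj : ∀ g x : G, L (g * x * g⁻¹) = L x := by
    intro g x
    rw [hL]
    refine Nat.card_congr (Equiv.subtypeEquiv (MulAction.toPerm g⁻¹) ?_)
    intro Q
    rw [Subgroup.zpowers_le, Subgroup.zpowers_le]
    change _ ↔ x ∈ ((g⁻¹ • Q : Sylow p G) : Subgroup G)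
    rw [Sylow.coe_subgroup_smul, Subgroup.mem_pointwise_smul_iff_inv_smul_mem]
    simp [MulAut.smul_def, mul_assoc]
  -- double counting
  have hcount : (u : ℝ) = n * ∑ x : (P : Subgroup G), (1 : ℝ) / L x.1 := by
    have e1 : (∑ Q : Sylow p G, ∑ x : G, if x ∈ (Q : Subgroup G) then (1 : ℝ) / L x else 0) = u := by
      rw [Finset.sum_comm]
      have : ∀ x : G, (∑ Q : Sylow p G, if x ∈ (Q : Subgroup G) then (1 : ℝ) / L x else 0) = if ∃ k : ℕ, orderOf x = p ^ k then 1 else 0 := by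
        intro x
        rw [← Finset.sum_filter, Finset.sum_const, nsmul_eq_mul]
        have h1 : (Finset.univ.filter (fun Q : Sylow p G => x ∈ (Q : Subgroup G))).card = L x := by
          rw [hL, ← Fintype.card_subtype, ← Nat.card_eq_fintype_card]
          exact Nat.card_congr (Equiv.subtypeEquivRight fun Q => by rw [Subgroup.zpowers_le])
        rw [h1]
        split_ifs with h
        · have : (0 : ℝ) < L x := by exact_mod_cast (hLx x).2 h
          field_simp
        · have : L x = 0 := by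
            by_contra h2
            exact h ((hLx x).1 (Nat.pos_of_ne_zero h2))
          rw [this]; simp
      rw [Finset.sum_congr rfl (fun x _ => this x), ← Finset.sum_filter, Finset.sum_const, nsmul_eq_mul, mul_one, hu,
        Nat.card_eq_fintype_card, Fintype.card_subtype]
    have e2 : ∀ Q : Sylow p G, (∑ x : G, if x ∈ (Q : Subgroup G) then (1 : ℝ) / L x else 0) = ∑ x : (P : Subgroup G), (1 : ℝ) / L x.1 := by
      intro Q
      obtain ⟨g, hg⟩ := MulAction.exists_smul_eq G P Q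
      have e3 : (∑ x : (P : Subgroup G), (1 : ℝ) / L x.1) = ∑ x : G, if x ∈ (P : Subgroup G) then (1 : ℝ) / L x else 0 := by
        rw [← Finset.sum_filter, ← Finset.sum_subtype (Finset.univ.filter (fun x => x ∈ (P : Subgroup G))) (by simp) (fun x => (1 : ℝ) / L x)]
      rw [e3]
      symm
      refine Fintype.sum_equiv (MulAut.conj g).toEquiv _ _ ?_
      intro x
      have h1 : ((MulAut.conj g).toEquiv x) = g * x * g⁻¹ := rfl
      rw [h1, hLconj]
      have h2 : (x ∈ (P : Subgroup G)) ↔ g * x * g⁻¹ ∈ (Q : Subgroup G) := by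
        rw [← hg, Sylow.coe_subgroup_smul, Subgroup.mem_pointwise_smul_iff_inv_smul_mem]
        simp [MulAut.smul_def, mul_assoc]
      simp only [h2]
    rw [← e1, Finset.sum_congr rfl (fun Q _ => e2 Q), Finset.sum_const, Finset.card_univ, nsmul_eq_mul, hn, Nat.card_eq_fintype_card]
  -- AM-GM
  have hmpos : 0 < m := Nat.card_pos
  have hnpos : 0 < n := Nat.card_pos
  have hLpos : ∀ x : (P : Subgroup G), 0 < L x.1 := by
    intro x
    rw [hLx]
    obtain ⟨k, hk⟩ := IsPGroup.iff_orderOf.1 P.isPGroup' x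
    exact ⟨k, by rw [← hk, Subgroup.orderOf_coe]⟩
  set S := ∑ x : (P : Subgroup G), (1 : ℝ) / L x.1 with hS
  have hcard : (∑ x : (P : Subgroup G), (1 : ℝ)) = m := by
    rw [Finset.sum_const, Finset.card_univ, nsmul_eq_mul, mul_one, hm, Nat.card_eq_fintype_card]
  have hmR : (0 : ℝ) < m := by exact_mod_cast hmpos
  have hnR : (0 : ℝ) < n := by exact_mod_cast hnpos
  have hSpos : 0 ≤ S := Finset.sum_nonneg fun x _ => by positivity
  have hamgm : ∏ x : (P : Subgroup G), ((1 : ℝ) / L x.1) ≤ (S / m) ^ m := by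
    have h1 := Real.geom_mean_le_arith_mean (Finset.univ : Finset (P : Subgroup G)) (fun _ => 1) (fun x => (1 : ℝ) / L x.1)
      (fun _ _ => zero_le_one) (by rw [hcard]; exact hmR) (fun x _ => by positivity)
    simp only [Real.rpow_one, one_mul, hcard] at h1
    have h2 : (0 : ℝ) ≤ ∏ x : (P : Subgroup G), ((1 : ℝ) / L x.1) := Finset.prod_nonneg fun x _ => by positivity
    have h3 := pow_le_pow_left₀ (Real.rpow_nonneg h2 _) h1 m
    rwa [Real.rpow_inv_natCast_pow h2 hmpos.ne'] at h3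
  set A := S / m with hA
  have hA0 : 0 ≤ A := div_nonneg hSpos hmR.le
  have hprodR : (∏ x : (P : Subgroup G), (L x.1 : ℝ)) ^ p ≤ (n : ℝ) ^ m := by exact_mod_cast hprod
  have hprodpos : (0 : ℝ) < ∏ x : (P : Subgroup G), (L x.1 : ℝ) := Finset.prod_pos fun x _ => by exact_mod_cast hLpos x
  have h1 : 1 ≤ A ^ m * ∏ x : (P : Subgroup G), (L x.1 : ℝ) := by
    have e : (∏ x : (P : Subgroup G), ((1 : ℝ) / L x.1)) * ∏ x : (P : Subgroup G), (L x.1 : ℝ) = 1 := by
      rw [← Finset.prod_mul_distrib]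
      apply Finset.prod_eq_one
      intro x _
      have : (0 : ℝ) < L x.1 := by exact_mod_cast hLpos x
      field_simp
    rw [← e]
    exact mul_le_mul_of_nonneg_right hamgm hprodpos.le
  have h2 : 1 ≤ (A ^ p * n) ^ m := by
    calc (1 : ℝ) ≤ (A ^ m * ∏ x : (P : Subgroup G), (L x.1 : ℝ)) ^ p := one_le_pow₀ h1
      _ = A ^ (m * p) * (∏ x : (P : Subgroup G), (L x.1 : ℝ)) ^ p := by rw [mul_pow, ← pow_mul]
      _ ≤ A ^ (m * p) * (n : ℝ) ^ m := mul_le_mul_of_nonneg_left hprodR (pow_nonneg hA0 _)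
      _ = _ := by rw [mul_pow, ← pow_mul, mul_comm m p]
  have h3 : 1 ≤ A ^ p * n := by
    by_contra hlt
    push_neg at hlt
    exact absurd h2 (not_le_of_gt (pow_lt_one₀ (by positivity) hlt hmpos.ne'))
  have h4 : (m : ℝ) ^ p * (n : ℝ) ^ (p - 1) ≤ (u : ℝ) ^ p := by
    have e : (u : ℝ) = m * (n * A) := by
      rw [hcount, hA]; field_simp
    rw [e, mul_pow, mul_pow]
    have e2 : (n : ℝ) ^ p = n ^ (p - 1) * n := by
      rw [← pow_succ]; congr 1; have := hp.one_lt; omega
    rw [e2]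
    calc (m : ℝ) ^ p * (n : ℝ) ^ (p - 1) = (m : ℝ) ^ p * (n : ℝ) ^ (p - 1) * 1 := by ring
      _ ≤ (m : ℝ) ^ p * (n : ℝ) ^ (p - 1) * (A ^ p * n) := mul_le_mul_of_nonneg_left h3 (by positivity)
      _ = _ := by ring
  exact_mod_cast h4

end Cfsg.Agent.S4091
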