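import Mathlib
import Cfsg.Statements.S4092
import Cfsg.Agent.Lib.H71.Basic

set_option autoImplicit false
open Cfsg

namespace Cfsg.Agent.S4092

open scoped Pointwise

/-- Let G be a finite group, p a prime and P a Sylow p-subgroup of G that is not normal in G. Then G has at least p·#P elements of p-power order (the identity included). -/
theorem result {G : Type*} [Group G] [Finite G] (p : ℕ) [Fact p.Prime]
    (P : Sylow p G) (hP : ¬ (P : Subgroup G).Normal) :
    p * Nat.card (P : Subgroup G) ≤ Nat.card {g : G // ∃ k : ℕ, orderOf g = p ^ k} := by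
  classical
  have hp : p.Prime := Fact.out
  haveI := Fintype.ofFinite G
  -- a maximal intersection
  have hne : ∃ Q : Sylow p G, Q ≠ P := by
    by_contra hcon
    push Not at hcon
    haveI : Subsingleton (Sylow p G) := ⟨fun a b => by rw [hcon a, hcon b]⟩
    exact hP (Sylow.normal_of_subsingleton P)
  obtain ⟨Q0, hQ0⟩ := hne
  let S : Set (Sylow p G × Sylow p G) := {x | x.1 ≠ x.2}
  have hSfin : S.Finite := Set.toFinite _
  have hSne : S.Nonempty := ⟨(Q0, P), hQ0⟩
  obtain ⟨⟨A, B⟩, hAB, hmax⟩ := Set.exists_max_image S (fun x => Nat.card ↥((x.1 : Subgroup G) ⊓ (x.2 : Subgroup G))) hSfin hSne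
  have hAB' : A ≠ B := hAB
  set D : Subgroup G := (A : Subgroup G) ⊓ (B : Subgroup G) with hD
  have hmax' : ∀ X Y : Sylow p G, X ≠ Y → Nat.card ↥((X : Subgroup G) ⊓ (Y : Subgroup G)) ≤ Nat.card D :=
    fun X Y h => hmax (X, Y) h
  have heq : ∀ X Y : Sylow p G, X ≠ Y → D ≤ X → D ≤ Y → (X : Subgroup G) ⊓ (Y : Subgroup G) = D := by
    intro X Y h h1 h2
    exact (Subgroup.eq_of_le_of_card_ge (le_inf h1 h2) (hmax' X Y h)).symm
  have hDlt : D < (A : Subgroup G) := by
    refine lt_of_le_of_ne inf_le_left ?_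
    intro h
    have hle : (A : Subgroup G) ≤ (B : Subgroup G) := by rw [← h]; exact inf_le_right
    exact hAB' (Sylow.ext (A.3 B.2 hle).symm)
  obtain ⟨x, hxA, hxD, hxN⟩ := H71.Basic.exists_mem_normalizer_of_lt A.2 hDlt
  -- x^i ∉ D for 0 < i < p
  have hxord : ∃ m, orderOf x = p ^ m := by
    obtain ⟨m, hm⟩ := (IsPGroup.iff_orderOf.mp A.2) ⟨x, hxA⟩
    exact ⟨m, by rw [← hm, ← Subgroup.orderOf_coe]⟩
  have hxi : ∀ i : ℕ, 0 < i → i < p → x ^ i ∉ D := by
    intro i hi0 hip hi
    obtain ⟨m, hm⟩ := hxord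
    have hcop : Nat.Coprime i (orderOf x) := by
      rw [hm]
      exact Nat.Coprime.pow_right m ((Nat.coprime_comm).1 ((Nat.Prime.coprime_iff_not_dvd hp).2 (Nat.not_dvd_of_pos_of_lt hi0 hip)))
    obtain ⟨j, hj⟩ := exists_pow_eq_self_of_coprime hcop
    apply hxD
    rw [← hj]
    exact D.pow_mem hi j
  -- conj of B
  let R : Fin p → Sylow p G := fun i => (x ^ (i : ℕ)) • B
  have hR : ∀ i, ((R i : Sylow p G) : Subgroup G) = MulAut.conj (x ^ (i : ℕ)) • (B : Subgroup G) := fun i => rfl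
  have hDR : ∀ i, D ≤ (R i : Subgroup G) := by
    intro i d hd
    rw [hR, Subgroup.mem_pointwise_smul_iff_inv_smul_mem]
    have hN : x ^ (i : ℕ) ∈ Subgroup.normalizer (D : Set G) := Subgroup.pow_mem _ hxN _
    rw [Subgroup.mem_normalizer_iff''] at hN
    have h1 := (hN d).1 hd
    have : (MulAut.conj (x ^ (i : ℕ)))⁻¹ • d = (x ^ (i : ℕ))⁻¹ * d * x ^ (i : ℕ) := by
      rw [← map_inv, MulAut.smul_def, MulAut.conj_apply, inv_inv]
    rw [this]
    exact h1.2
  have hDA : D ≤ (A : Subgroup G) := inf_le_left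
  -- distinctness
  have hpowB : ∀ i : ℕ, 0 < i → i < p → (x ^ i) • B ≠ B := by
    intro i hi0 hip h
    rw [Sylow.smul_eq_iff_mem_normalizer] at h
    have h2 : x ^ i ∈ (A : Subgroup G) ⊓ Subgroup.normalizer (B : Set G) := ⟨Subgroup.pow_mem _ hxA _, h⟩
    rw [A.2.inf_normalizer_sylow B] at h2
    exact hxi i hi0 hip h2
  have hRne : ∀ i j : Fin p, i ≠ j → R i ≠ R j := by
    have aux : ∀ i j : Fin p, i < j → R i ≠ R j := by
      intro i j hij h
      have h1 : (x ^ ((j : ℕ) - (i : ℕ))) • B = B := by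
        have h2 : (x ^ (i : ℕ)) • B = (x ^ (j : ℕ)) • B := h
        have h3 : x ^ (j : ℕ) = x ^ (i : ℕ) * x ^ ((j : ℕ) - (i : ℕ)) := by
          rw [← pow_add]; congr 1; have := Fin.lt_def.1 hij; omega
        rw [h3, mul_smul] at h2
        exact (smul_left_cancel _ h2).symm
      have hlt := Fin.lt_def.1 hij
      exact hpowB ((j : ℕ) - (i : ℕ)) (by omega) (by have := j.2; omega) h1
    intro i j hij
    rcases lt_or_gt_of_ne hij with h | h
    · exact aux i j h
    · exact (aux j i h).symm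
  have hAR : ∀ i, A ≠ R i := by
    intro i h
    have h1 : (x ^ (i : ℕ))⁻¹ • A = B := by rw [h]; exact inv_smul_smul _ _
    have h2 : (x ^ (i : ℕ))⁻¹ • A = A := by
      rw [Sylow.smul_eq_iff_mem_normalizer]
      exact Subgroup.le_normalizer (A.inv_mem (A.pow_mem hxA _))
    exact hAB' (h2 ▸ h1)
  -- the family indexed by Option (Fin p)
  let T : Option (Fin p) → Sylow p G := fun o => o.elim A R
  have hT : ∀ a b, a ≠ b → T a ≠ T b := by
    rintro (_ | i) (_ | j) h
    · exact absurd rfl h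
    · exact hAR j
    · exact (hAR i).symm
    · exact hRne i j (fun h' => h (congrArg some h'))
  have hDT : ∀ a, D ≤ (T a : Subgroup G) := by
    rintro (_ | i)
    · exact hDA
    · exact hDR i
  -- counting
  let U : Finset G := Finset.univ.filter fun g => ∃ k : ℕ, orderOf g = p ^ k
  have hU : Nat.card {g : G // ∃ k : ℕ, orderOf g = p ^ k} = U.card := by
    rw [Nat.card_eq_fintype_card, Fintype.card_subtype]
  let F : Subgroup G → Finset G := fun K => Finset.univ.filter fun g => g ∈ K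
  have hF : ∀ K : Subgroup G, (F K).card = Nat.card K := by
    intro K
    rw [Nat.card_eq_fintype_card]
    exact (Fintype.card_subtype _).symm
  have hsub : (Finset.univ.biUnion fun a => F (T a) \ F D) ∪ F D ⊆ U := by
    intro g hg
    rw [Finset.mem_union, Finset.mem_biUnion] at hg
    have : ∃ X : Sylow p G, g ∈ X := by
      rcases hg with ⟨a, -, ha⟩ | hg
      · rw [Finset.mem_sdiff] at ha
        exact ⟨T a, (Finset.mem_filter.1 ha.1).2⟩
      · exact ⟨A, hDA (Finset.mem_filter.1 hg).2⟩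
    obtain ⟨X, hX⟩ := this
    obtain ⟨m, hm⟩ := (IsPGroup.iff_orderOf.mp X.2) ⟨g, hX⟩
    exact Finset.mem_filter.2 ⟨Finset.mem_univ _, m, by rw [← hm, ← Subgroup.orderOf_coe]⟩
  have hcard := Finset.card_le_card hsub
  rw [Finset.card_union_of_disjoint, Finset.card_biUnion] at hcard
  · have hTc : ∀ a, (F (T a) \ F D).card = Nat.card (P : Subgroup G) - Nat.card D := by
      intro a
      rw [Finset.card_sdiff_of_subset, hF, hF, Nat.card_congr (Sylow.equiv (T a) P).toEquiv]
      intro g hg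
      exact Finset.mem_filter.2 ⟨Finset.mem_univ _, hDT a (Finset.mem_filter.1 hg).2⟩
    rw [Finset.sum_congr rfl (fun a _ => hTc a), Finset.sum_const, Finset.card_univ, Fintype.card_option, Fintype.card_fin, hF, smul_eq_mul] at hcard
    rw [hU]
    -- p * |D| ≤ |P|
    have hpD : p * Nat.card D ≤ Nat.card (P : Subgroup G) := by
      rw [Nat.card_congr (Sylow.equiv P A).toEquiv]
      obtain ⟨a, ha⟩ := (IsPGroup.iff_card.mp A.2)
      have hdvd : Nat.card D ∣ Nat.card (A : Subgroup G) := Subgroup.card_dvd_of_le hDA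
      rw [ha] at hdvd ⊢
      obtain ⟨b, hb, hb'⟩ := (Nat.dvd_prime_pow hp).1 hdvd
      have hlt : Nat.card D < Nat.card (A : Subgroup G) := by
        apply lt_of_le_of_ne (Nat.le_of_dvd Nat.card_pos (Subgroup.card_dvd_of_le hDA))
        intro h
        exact hDlt.ne (Subgroup.eq_of_le_of_card_ge hDA h.ge)
      rw [hb', ha] at hlt
      have hba : b < a := (Nat.pow_lt_pow_iff_right hp.one_lt).1 hlt
      rw [hb', ← pow_succ']
      exact Nat.pow_le_pow_right hp.pos hba
    have hle : Nat.card D ≤ Nat.card (P : Subgroup G) := by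
      have := Nat.le_mul_of_pos_left (Nat.card D) hp.pos
      omega
    obtain ⟨c, hc⟩ := Nat.exists_eq_add_of_le hle
    rw [hc, Nat.add_sub_cancel_left] at hcard
    rw [hc] at hpD ⊢
    nlinarith
  · intro a _ b _ hab
    rw [Function.onFun, Finset.disjoint_left]
    intro g hg hg'
    rw [Finset.mem_sdiff] at hg hg'
    have h1 : g ∈ (T a : Subgroup G) ⊓ (T b : Subgroup G) := ⟨(Finset.mem_filter.1 hg.1).2, (Finset.mem_filter.1 hg'.1).2⟩
    rw [heq _ _ (hT a b hab) (hDT a) (hDT b)] at h1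
    exact hg.2 (Finset.mem_filter.2 ⟨Finset.mem_univ _, h1⟩)
  · rw [Finset.disjoint_left]
    intro g hg hg'
    rw [Finset.mem_biUnion] at hg
    obtain ⟨a, -, ha⟩ := hg
    exact (Finset.mem_sdiff.1 ha).2 hg'

end Cfsg.Agent.S4092
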