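import Mathlib
import Cfsg.Statements.S4093

set_option autoImplicit false
open scoped BigOperators
open Cfsg

namespace Cfsg.Agent.S4093

open scoped Pointwise

/-- Let G be a finite group with a normal subgroup N complementing a Sylow p-subgroup P (a normal p-complement). Then the number of elements of G of p-power order equals the sum over x ∈ P of the index of C_N(x) in N. -/
theorem result {G : Type*} [Group G] [Finite G] (p : ℕ) [Fact p.Prime]
    (P : Sylow p G) (N : Subgroup G) [N.Normal] (hNP : N.IsComplement' (P : Subgroup G)) :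
    Nat.card {g : G // ∃ k : ℕ, orderOf g = p ^ k} =
      ∑ᶠ x : (P : Subgroup G), Nat.card N / Nat.card ↥(N ⊓ Subgroup.centralizer ({(x : G)} : Set G)) := by
  classical
  haveI := Fintype.ofFinite G
  -- decomposition
  have hdec : ∀ g : G, ∃ n ∈ N, ∃ u ∈ (P : Subgroup G), n * u = g := by
    intro g
    obtain ⟨⟨n, u⟩, hnu⟩ := hNP.2 g
    exact ⟨n, n.2, u, u.2, hnu⟩
  have huniq : ∀ n n' u u' : G, n ∈ N → n' ∈ N → u ∈ (P : Subgroup G) → u' ∈ (P : Subgroup G) → n * u = n' * u' → u = u' := by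
    intro n n' u u' hn hn' hu hu' h
    have := hNP.1 (a₁ := (⟨n, hn⟩, ⟨u, hu⟩)) (a₂ := (⟨n', hn'⟩, ⟨u', hu'⟩)) h
    exact congrArg (fun z => (z.2 : G)) this
  -- every p-element is N-conjugate to an element of P
  have hconj : ∀ g : G, (∃ k : ℕ, orderOf g = p ^ k) → ∃ n ∈ N, ∃ u ∈ (P : Subgroup G), g = n * u * n⁻¹ := by
    rintro g ⟨k, hk⟩
    have hpg : IsPGroup p (Subgroup.zpowers g) := IsPGroup.of_card (by rw [Nat.card_zpowers, hk])
    obtain ⟨Q, hQ⟩ := hpg.exists_le_sylow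
    obtain ⟨h, hh⟩ := MulAction.exists_smul_eq G P Q
    have hgQ : g ∈ (Q : Subgroup G) := hQ (Subgroup.mem_zpowers g)
    rw [← hh, Sylow.coe_subgroup_smul, Subgroup.mem_pointwise_smul_iff_inv_smul_mem, ← map_inv, MulAut.smul_def, MulAut.conj_apply, inv_inv] at hgQ
    obtain ⟨n, hn, u, hu, rfl⟩ := hdec h
    refine ⟨n, hn, u * ((n * u)⁻¹ * g * (n * u)) * u⁻¹, (P : Subgroup G).mul_mem ((P : Subgroup G).mul_mem hu hgQ) ((P : Subgroup G).inv_mem hu), ?_⟩
    group
  -- bijection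
  let Cx : ↥(P : Subgroup G) → Subgroup N := fun x => (Subgroup.centralizer ({(x : G)} : Set G)).subgroupOf N
  let f : (Σ x : (P : Subgroup G), N ⧸ Cx x) → {g : G // ∃ k : ℕ, orderOf g = p ^ k} := fun z =>
    ⟨((z.2.out : N) : G) * (z.1 : G) * ((z.2.out : N) : G)⁻¹, by
      obtain ⟨k, hk⟩ := (IsPGroup.iff_orderOf.mp P.2) z.1
      refine ⟨k, ?_⟩
      rw [← hk, ← Subgroup.orderOf_coe]
      exact orderOf_injective (MulAut.conj ((z.2.out : N) : G)).toMonoidHom (MulAut.conj ((z.2.out : N) : G)).injective (z.1 : G)⟩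
  have hCx : ∀ (x : (P : Subgroup G)) (n : N), n ∈ Cx x ↔ (n : G) * x = x * n := by
    intro x n
    rw [Subgroup.mem_subgroupOf, Subgroup.mem_centralizer_singleton_iff]
  have hbij : Function.Bijective f := by
    constructor
    · rintro ⟨x, q⟩ ⟨x', q'⟩ h
      have h1 : ((q.out : N) : G) * (x : G) * ((q.out : N) : G)⁻¹ = ((q'.out : N) : G) * (x' : G) * ((q'.out : N) : G)⁻¹ := congrArg Subtype.val h
      have hxx : x = x' := by
        apply Subtype.ext
        have e1 : ∀ (n : N) (y : (P : Subgroup G)), (n : G) * y * (n : G)⁻¹ = ((n : G) * (y * (n : G)⁻¹ * (y : G)⁻¹)) * y := by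
          intro n y; group
        rw [e1, e1] at h1
        have hm : ∀ (n : N) (y : (P : Subgroup G)), (n : G) * (y * (n : G)⁻¹ * (y : G)⁻¹) ∈ N := by
          intro n y
          exact N.mul_mem n.2 ((inferInstance : N.Normal).conj_mem _ (N.inv_mem n.2) _)
        exact huniq _ _ _ _ (hm _ _) (hm _ _) x.2 x'.2 h1
      subst hxx
      have : q = q' := by
        rw [← QuotientGroup.out_eq' q, ← QuotientGroup.out_eq' q', QuotientGroup.eq, hCx]
        have h2 : ((q'.out : N) : G)⁻¹ * ((q.out : N) : G) * (x : G) = x * (((q'.out : N) : G)⁻¹ * ((q.out : N) : G)) := by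
          calc ((q'.out : N) : G)⁻¹ * ((q.out : N) : G) * (x : G)
              = ((q'.out : N) : G)⁻¹ * (((q.out : N) : G) * (x : G) * ((q.out : N) : G)⁻¹) * ((q.out : N) : G) := by group
            _ = ((q'.out : N) : G)⁻¹ * (((q'.out : N) : G) * (x : G) * ((q'.out : N) : G)⁻¹) * ((q.out : N) : G) := by rw [h1]
            _ = x * (((q'.out : N) : G)⁻¹ * ((q.out : N) : G)) := by group
        push_cast
        calc ((q.out : N) : G)⁻¹ * ((q'.out : N) : G) * (x : G)
            = ((q.out : N) : G)⁻¹ * ((q'.out : N) : G) * (x * (((q'.out : N) : G)⁻¹ * ((q.out : N) : G))) * (((q.out : N) : G)⁻¹ * ((q'.out : N) : G)) := by group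
          _ = ((q.out : N) : G)⁻¹ * ((q'.out : N) : G) * (((q'.out : N) : G)⁻¹ * ((q.out : N) : G) * (x : G)) * (((q.out : N) : G)⁻¹ * ((q'.out : N) : G)) := by rw [h2]
          _ = x * (((q.out : N) : G)⁻¹ * ((q'.out : N) : G)) := by group
      rw [this]
    · rintro ⟨g, hg⟩
      obtain ⟨n, hn, u, hu, hgu⟩ := hconj g hg
      refine ⟨⟨⟨u, hu⟩, QuotientGroup.mk ⟨n, hn⟩⟩, ?_⟩
      apply Subtype.ext
      change (((QuotientGroup.mk (⟨n, hn⟩ : N) : N ⧸ Cx ⟨u, hu⟩).out : N) : G) * u * (((QuotientGroup.mk (⟨n, hn⟩ : N) : N ⧸ Cx ⟨u, hu⟩).out : N) : G)⁻¹ = g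
      obtain ⟨c, hc⟩ := QuotientGroup.mk_out_eq_mul (Cx ⟨u, hu⟩) ⟨n, hn⟩
      rw [hc]
      have hcc := (hCx ⟨u, hu⟩ c).1 c.2
      push_cast
      rw [hgu]
      have : ((c : N) : G) * u = u * ((c : N) : G) := hcc
      calc n * ((c : N) : G) * u * (n * ((c : N) : G))⁻¹ = n * (((c : N) : G) * u) * ((c : N) : G)⁻¹ * n⁻¹ := by group
        _ = n * (u * ((c : N) : G)) * ((c : N) : G)⁻¹ * n⁻¹ := by rw [this]
        _ = n * u * n⁻¹ := by group
  rw [← Nat.card_congr (Equiv.ofBijective f hbij), Nat.card_sigma, finsum_eq_sum_of_fintype]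
  apply Finset.sum_congr rfl
  intro x _
  have h1 : Nat.card (N ⧸ Cx x) * Nat.card (Cx x) = Nat.card N := by
    rw [mul_comm]; exact Subgroup.card_mul_index (Cx x)
  have h2 : Nat.card (Cx x) = Nat.card ↥(N ⊓ Subgroup.centralizer ({(x : G)} : Set G)) := by
    rw [inf_comm, ← Subgroup.subgroupOf_map_subtype]
    exact Nat.card_congr ((Cx x).equivMapOfInjective N.subtype N.subtype_injective).toEquiv
  rw [← h2, ← h1, Nat.mul_div_cancel _ Nat.card_pos]

end Cfsg.Agent.S4093
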