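import Cfsg.Statements.S4097
import Cfsg.Agent.Lib.H1.FpfNilp
import Cfsg.Agent.S3992

set_option autoImplicit false
open Cfsg

namespace Cfsg.Agent.S4097

open Subgroup
open scoped Pointwise

/-- the hypothesis -/
def Hyp {G : Type*} [Group G] (A : Subgroup G) : Prop :=
  ∀ S : Subgroup G, A ≤ S → Group.IsSolvable S → ∀ a ∈ A, ∀ s ∈ S, a * s = s * a

theorem Hyp.subgroupOf {G : Type*} [Group G] {A : Subgroup G} (h : Hyp A) {H : Subgroup G}
    (hAH : A ≤ H) : Hyp (A.subgroupOf H) := by
  intro S hAS hS a ha s hs
  have h1 : A ≤ S.map H.subtype := by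
    intro x hx
    exact ⟨⟨x, hAH hx⟩, hAS (mem_subgroupOf.2 hx), rfl⟩
  have h2 : Group.IsSolvable (S.map H.subtype) := by
    have e := S.equivMapOfInjective H.subtype H.subtype_injective
    exact Group.isSolvable_of_surjective (f := e.toMonoidHom) e.surjective
  apply Subtype.ext
  exact h _ h1 h2 a (mem_subgroupOf.1 ha) s ⟨s, hs, rfl⟩

theorem main : ∀ (n : ℕ) (G : Type*) [Group G] [Finite G], Nat.card G = n → ∀ A : Subgroup G,
    Group.IsSolvable A → Hyp A → A ≤ center G := by
  intro n
  induction n using Nat.strong_induction_on with
  | _ n ih =>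
    intro G _ _ hn A hA h
    by_contra hnot
    have hAc : ∀ a ∈ A, ∀ b ∈ A, a * b = b * a := h A le_rfl hA
    set M := centralizer (A : Set G) with hMdef
    have hMmem : ∀ x, x ∈ M ↔ ∀ a ∈ A, a * x = x * a := by
      intro x; rw [hMdef, mem_centralizer_iff]; rfl
    have hcardconj : ∀ g : G, Nat.card (M.map (MulAut.conj g).toMonoidHom) = Nat.card M := fun g =>
      Subgroup.card_map_of_injective (MulAut.conj g).injective
    have hAM : A ≤ M := by
      intro a ha
      rw [hMdef, mem_centralizer_iff]
      intro b hb
      exact hAc b hb a ha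
    have hMtop : M ≠ ⊤ := by
      intro hM
      apply hnot
      intro a ha
      rw [mem_center_iff]
      intro g
      have hg : g ∈ M := by rw [hM]; exact mem_top g
      rw [hMdef, mem_centralizer_iff] at hg
      exact (hg a ha).symm
    -- proper overgroups of `A` centralize `A`
    have hprop : ∀ H : Subgroup G, A ≤ H → H ≠ ⊤ → H ≤ M := by
      intro H hAH hH x hx
      have hlt : Nat.card H < n := by
        rw [← hn]
        refine lt_of_le_of_ne (Subgroup.card_le_card_group H) ?_
        intro hc
        exact hH (Subgroup.eq_top_of_card_eq H hc)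
      have hsA : Group.IsSolvable (A.subgroupOf H) := by
        have e := (subgroupOfEquivOfLe hAH).symm
        exact Group.isSolvable_of_surjective (f := e.toMonoidHom) e.surjective
      have h1 := ih _ hlt H rfl (A.subgroupOf H) hsA (h.subgroupOf hAH)
      rw [hMdef, mem_centralizer_iff]
      intro a ha
      have h2 : (⟨a, hAH ha⟩ : H) ∈ center H := h1 (mem_subgroupOf.2 ha)
      exact (congrArg Subtype.val (mem_center_iff.1 h2 ⟨x, hx⟩)).symm
    -- `M` is not normal
    have hMn : ¬ M.Normal := by
      intro hM
      apply hMtop
      rw [eq_top_iff]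
      intro g _
      let Z1 : Subgroup G := (center M).map M.subtype
      have hZ1n : Z1.Normal := inferInstance
      have hZ1s : Group.IsSolvable Z1 := by
        have hcs : Group.IsSolvable (center M) := Group.isSolvable_of_comm (fun a b => Subtype.ext (mem_center_iff.1 b.2 a))
        have e := (center M).equivMapOfInjective M.subtype M.subtype_injective
        exact Group.isSolvable_of_surjective (f := e.toMonoidHom) e.surjective
      have hAZ : A ≤ Z1 := by
        intro a ha
        refine ⟨⟨a, hAM ha⟩, ?_, rfl⟩
        rw [SetLike.mem_coe, mem_center_iff]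
        intro x
        apply Subtype.ext
        exact ((hMmem x).1 x.2 a ha).symm
      have hS := Cfsg.Agent.S3992.solvable_comap Z1 hZ1s (zpowers (QuotientGroup.mk' Z1 g)) inferInstance
      have hZS : Z1 ≤ (zpowers (QuotientGroup.mk' Z1 g)).comap (QuotientGroup.mk' Z1) := by
        intro x hx
        rw [mem_comap]
        have : QuotientGroup.mk' Z1 x = 1 := (QuotientGroup.eq_one_iff x).2 hx
        rw [this]; exact one_mem _
      have h3 := h _ (hAZ.trans hZS) hS
      rw [hMdef, mem_centralizer_iff]
      intro a ha
      exact h3 a ha g (by rw [mem_comap]; exact mem_zpowers _)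
    have hMself : ∀ g : G, M.map (MulAut.conj g).toMonoidHom = M → g ∈ M := by
      intro g hg
      by_contra hgM
      have h1 : g ∈ normalizer (M : Set G) := by
        rw [mem_normalizer_iff]
        intro x
        constructor
        · intro hx
          rw [← hg]
          exact ⟨x, hx, by simp⟩
        · intro hx
          rw [← hg] at hx
          obtain ⟨y, hy, hyx⟩ := hx
          have : y = x := by
            have : g * y * g⁻¹ = g * x * g⁻¹ := by simpa using hyx
            simpa using this
          rwa [← this]
      by_cases h2 : normalizer (M : Set G) = ⊤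
      · exact hMn (Subgroup.normalizer_eq_top_iff.1 h2)
      · exact hgM (hprop _ (hAM.trans le_normalizer) h2 h1)
    -- intersection
    have hint : ∀ g : G, g ∉ M → ∀ x ∈ M, g⁻¹ * x * g ∈ M → x ∈ center G := by
      intro g hg x hx hxg
      set B := A.map (MulAut.conj g).toMonoidHom with hB
      have hBtop : A ⊔ B = ⊤ := by
        by_contra hne
        have h1 := hprop _ le_sup_left hne
        have h2 : B ≤ M := le_sup_right.trans h1
        -- `A ≤ M ^ g`
        have h3 : A ≤ M.map (MulAut.conj g).toMonoidHom := by
          intro a ha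
          refine ⟨g⁻¹ * a * g, ?_, by simp [mul_assoc]⟩
          rw [hMdef, SetLike.mem_coe, mem_centralizer_iff]
          intro b hb
          have h4 : g * b * g⁻¹ ∈ M := h2 ⟨b, hb, by simp⟩
          rw [hMdef, mem_centralizer_iff] at h4
          have h5 := h4 a ha
          calc b * (g⁻¹ * a * g) = g⁻¹ * (g * b * g⁻¹ * a) * g := by group
            _ = g⁻¹ * (a * (g * b * g⁻¹)) * g := by rw [h5]
            _ = g⁻¹ * a * g * b := by group
        have h6 : M.map (MulAut.conj g).toMonoidHom ≠ ⊤ := by
          intro h7
          apply hMtop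
          apply Subgroup.eq_top_of_card_eq
          rw [← hcardconj g, h7, Subgroup.card_top]
        have h8 := hprop _ h3 h6
        apply hg
        apply hMself
        apply Subgroup.eq_of_le_of_card_ge h8
        exact (hcardconj g).ge
      rw [mem_center_iff]
      intro y
      have hle : A ⊔ B ≤ centralizer {x} := by
        apply sup_le
        · intro a ha
          rw [mem_centralizer_singleton_iff]
          rw [hMdef, mem_centralizer_iff] at hx
          exact hx a ha
        · rintro _ ⟨a, ha, rfl⟩
          rw [mem_centralizer_singleton_iff]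
          rw [hMdef, mem_centralizer_iff] at hxg
          have h9 := hxg a ha
          change g * a * g⁻¹ * x = x * (g * a * g⁻¹)
          calc g * a * g⁻¹ * x = g * (a * (g⁻¹ * x * g)) * g⁻¹ := by group
            _ = g * (g⁻¹ * x * g * a) * g⁻¹ := by rw [h9]
            _ = x * (g * a * g⁻¹) := by group
      rw [hBtop] at hle
      exact mem_centralizer_singleton_iff.1 (hle (mem_top y))
    -- the Frobenius group
    have hZM : center G ≤ M := by
      intro x hx
      rw [hMmem]
      intro a _
      exact mem_center_iff.1 hx a
    set π := QuotientGroup.mk' (center G) with hπ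
    have hπs : Function.Surjective π := QuotientGroup.mk'_surjective _
    have hπ1 : ∀ x, π x = 1 ↔ x ∈ center G := fun x => QuotientGroup.eq_one_iff x
    have hmemM : ∀ x, π x ∈ M.map π → x ∈ M := by
      rintro x ⟨y, hy, hyx⟩
      have h1 : π (y⁻¹ * x) = 1 := by rw [map_mul, map_inv, hyx, inv_mul_cancel]
      have h2 := hZM ((hπ1 _).1 h1)
      have h3 := mul_mem hy h2
      rwa [mul_inv_cancel_left] at h3
    have hFC : IsFrobeniusComplement (M.map π) := by
      refine ⟨?_, ?_, ?_⟩
      · intro hb
        apply hnot
        intro a ha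
        have h1 : π a ∈ M.map π := ⟨a, hAM ha, rfl⟩
        rw [hb, mem_bot, hπ1] at h1
        exact h1
      · intro ht
        apply hMtop
        rw [eq_top_iff]
        intro x _
        exact hmemM x (by rw [ht]; exact mem_top _)
      · intro g hg
        obtain ⟨g, rfl⟩ := hπs g
        have hgM : g ∉ M := fun h' => hg ⟨g, h', rfl⟩
        rw [eq_bot_iff]
        intro x hx
        rw [mem_inf, H1.SZ.mem_conj_smul] at hx
        obtain ⟨x, rfl⟩ := hπs x
        rw [mem_bot, hπ1]
        apply hint g hgM x (hmemM x hx.1)
        apply hmemM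
        rw [map_mul, map_mul, map_inv]
        exact hx.2
    obtain ⟨N, hN, hNn, hNc, hNnil⟩ := H1.FpfNilp.frobeniusKernel_nilpotent hFC
    have hNs : Group.IsSolvable N := inferInstance
    have hcs : Group.IsSolvable (center G) := Group.isSolvable_of_comm (fun a b => Subtype.ext (mem_center_iff.1 b.2 a))
    have hKs : Group.IsSolvable (N.comap π) := Cfsg.Agent.S3992.solvable_comap (center G) hcs N hNs
    have hKn : (N.comap π).Normal := hNn.comap _
    have hAs : Group.IsSolvable (A.map (QuotientGroup.mk' (N.comap π))) :=
      Group.isSolvable_of_surjective (f := (QuotientGroup.mk' (N.comap π)).subgroupMap A)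
        (MonoidHom.subgroupMap_surjective _ _)
    have hS := Cfsg.Agent.S3992.solvable_comap (N.comap π) hKs _ hAs
    have hKM : N.comap π ≤ M := by
      intro x hx
      rw [hMmem]
      intro a ha
      refine h _ ?_ hS a ha x ?_
      · intro b hb
        rw [mem_comap]
        exact ⟨b, hb, rfl⟩
      · rw [mem_comap]
        have : QuotientGroup.mk' (N.comap π) x = 1 := (QuotientGroup.eq_one_iff x).2 hx
        rw [this]; exact one_mem _
    have h1 : N ≤ M.map π := by
      intro x hx
      obtain ⟨x, rfl⟩ := hπs x
      exact ⟨x, hKM hx, rfl⟩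
    have h2 := hNc.sup_eq_top
    rw [sup_eq_right.2 h1] at h2
    exact hFC.2.1 h2

/-- Let A be a solvable subgroup of a finite group G such that A lies in the centre of every solvable subgroup of G containing A. Then A lies in the centre of G. -/
theorem result {G : Type*} [Group G] [Finite G]
    (A : Subgroup G) (hA : Group.IsSolvable A)
    (hc : ∀ S : Subgroup G, A ≤ S → Group.IsSolvable S → ∀ a ∈ A, ∀ s ∈ S, a * s = s * a) : A ≤ Subgroup.center G :=
  main _ G rfl A hA hc

end Cfsg.Agent.S4097
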