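import Cfsg.Statements.S4104
import Cfsg.Agent.Lib.H71.PiDer

set_option autoImplicit false
open Cfsg

namespace Cfsg.Agent.S4104

/-- Let G be a finite group, π a set of primes with least member p, m the π-part of the order of G and k the number of conjugacy classes of G consisting of π-elements (elements whose order is divisible only by primes in π). If k > m/p, then G has a nilpotent Hall π-subgroup (a nilpotent subgroup of order m) whose derived subgroup has order at most p. -/
theorem result {G : Type*} [Group G] [Finite G]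
    (π : Set ℕ) (hπ : ∀ q ∈ π, q.Prime) (p : ℕ) (hp : p ∈ π) (hmin : ∀ q ∈ π, p ≤ q)
    (m : ℕ) (hm : m ∣ Nat.card G) (hmπ : ∀ q : ℕ, q.Prime → q ∣ m → q ∈ π)
    (hm' : ∀ q ∈ π, ¬ q ∣ Nat.card G / m)
    (k : ℕ) (hk : k = Nat.card {C : ConjClasses G // ∀ q : ℕ, q.Prime → (∃ g : G, ConjClasses.mk g = C ∧ q ∣ orderOf g) → q ∈ π})
    (hmany : m < p * k) :
    ∃ H : Subgroup G, Nat.card H = m ∧ Group.IsNilpotent H ∧ Nat.card (commutator H) ≤ p := by
  obtain ⟨h1, h2⟩ := H71.PiDer.translate π m hm hmπ hm'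
  rw [← hk] at h2
  have hs : ∀ q ∈ m.primeFactors, q.Prime := fun q hq => Nat.prime_of_mem_primeFactors hq
  have hsp : ∀ q ∈ m.primeFactors, p ≤ q := fun q hq =>
    hmin q (hmπ q (hs q hq) (Nat.dvd_of_mem_primeFactors hq))
  have hNH : ∃ H : Subgroup G, Group.IsNilpotent H ∧
      Nat.card H = H71.PiCount.part m.primeFactors (Nat.card G) := by
    by_contra hn
    have h3 := H71.PiHall.main_bound p _ m.primeFactors rfl hs hsp G hn
    rw [h1] at h3
    have h4 : p * k ≤ m := (Nat.mul_le_mul_left p h2).trans h3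
    omega
  obtain ⟨H, hHn, hHc⟩ := hNH
  have h3 : k ≤ Nat.card (ConjClasses H) := h2.trans (H71.PiDer.kk_le_classes hs hHn hHc)
  rw [h1] at hHc
  have h4 := H71.PiDer.card_bound (H := H) (p := p)
    (fun q hq hd => hmin q (hmπ q hq (by rwa [hHc] at hd)))
  have h5 : (commutator H).index * Nat.card (commutator H) = m := by
    rw [mul_comm, Subgroup.card_mul_index, hHc]
  have h6 : 0 < (commutator H).index := Nat.pos_of_ne_zero Subgroup.index_ne_zero_of_finite
  rw [hHc, ← h5] at h4
  have h7 := (Nat.mul_le_mul_right (p ^ 2) h3).trans h4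
  have hp2 := (hπ p hp).two_le
  refine ⟨H, hHc, hHn, ?_⟩
  rw [← h5] at hmany
  exact H71.PiDer.arith1 hp2 h6 h7 hmany

end Cfsg.Agent.S4104
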