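import Cfsg.Statements.S4105
import Cfsg.Agent.Lib.H71.PiDer

set_option autoImplicit false
open Cfsg
open scoped commutatorElement

namespace Cfsg.Agent.S4105

/-- Let G be a finite group, π a set of primes with least member p, m the π-part of the order of G and k the number of conjugacy classes of G consisting of π-elements. If k > m·(p² + p − 1)/p³, then G has an abelian Hall π-subgroup (an abelian subgroup of order m). -/
theorem result {G : Type*} [Group G] [Finite G]
    (π : Set ℕ) (hπ : ∀ q ∈ π, q.Prime) (p : ℕ) (hp : p ∈ π) (hmin : ∀ q ∈ π, p ≤ q)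
    (m : ℕ) (hm : m ∣ Nat.card G) (hmπ : ∀ q : ℕ, q.Prime → q ∣ m → q ∈ π)
    (hm' : ∀ q ∈ π, ¬ q ∣ Nat.card G / m)
    (k : ℕ) (hk : k = Nat.card {C : ConjClasses G // ∀ q : ℕ, q.Prime → (∃ g : G, ConjClasses.mk g = C ∧ q ∣ orderOf g) → q ∈ π})
    (hmany : m * (p ^ 2 + p - 1) < p ^ 3 * k) :
    ∃ H : Subgroup G, Nat.card H = m ∧ IsMulCommutative H := by
  have hmany1 : m < p * k := by
    have hp2 := (hπ p hp).two_le
    have e1 : p ^ 2 * m < p ^ 2 * (p * k) := by
      calc p ^ 2 * m = m * p ^ 2 := by ring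
        _ ≤ m * (p ^ 2 + p - 1) := Nat.mul_le_mul_left _ (by omega)
        _ < p ^ 3 * k := hmany
        _ = p ^ 2 * (p * k) := by ring
    exact lt_of_mul_lt_mul_left e1 (Nat.zero_le _)
  obtain ⟨h1, h2⟩ := H71.PiDer.translate π m hm hmπ hm'
  rw [← hk] at h2
  have hs : ∀ q ∈ m.primeFactors, q.Prime := fun q hq => Nat.prime_of_mem_primeFactors hq
  have hsp : ∀ q ∈ m.primeFactors, p ≤ q := fun q hq =>
    hmin q (hmπ q (hs q hq) (Nat.dvd_of_mem_primeFactors hq))
  have hNH : ∃ H : Subgroup G, Group.IsNilpotent H ∧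
      Nat.card H = H71.PiCount.part m.primeFactors (Nat.card G) := by
    by_contra hn
    have h3 := H71.PiHall.main_bound p _ m.primeFactors rfl hs hsp G hn
    rw [h1] at h3
    have h4 : p * k ≤ m := (Nat.mul_le_mul_left p h2).trans h3
    omega
  obtain ⟨H, hHn, hHc⟩ := hNH
  have h3 : k ≤ Nat.card (ConjClasses H) := h2.trans (H71.PiDer.kk_le_classes hs hHn hHc)
  rw [h1] at hHc
  have h4 := H71.PiDer.card_bound (H := H) (p := p)
    (fun q hq hd => hmin q (hmπ q hq (by rwa [hHc] at hd)))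
  have h5 : (commutator H).index * Nat.card (commutator H) = m := by
    rw [mul_comm, Subgroup.card_mul_index, hHc]
  have h6 : 0 < (commutator H).index := Nat.pos_of_ne_zero Subgroup.index_ne_zero_of_finite
  rw [hHc, ← h5] at h4
  have h7 := (Nat.mul_le_mul_right (p ^ 2) h3).trans h4
  have hp2 := (hπ p hp).two_le
  refine ⟨H, hHc, ?_⟩
  rw [← h5] at hmany
  have h8 := H71.PiDer.arith2 hp2 h6 h7 hmany
  have h9 : Nat.card (commutator H) = 1 := by
    by_contra hne
    obtain ⟨q, hq, hd⟩ := Nat.exists_prime_and_dvd hne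
    have h10 : q ∣ m := by rw [← h5]; exact hd.mul_left _
    have h11 := hmin q (hmπ q hq h10)
    have h12 := Nat.le_of_dvd Nat.card_pos hd
    omega
  have h13 : commutator H = ⊥ := Subgroup.card_eq_one.1 h9
  refine ⟨⟨fun a b => ?_⟩⟩
  have h14 : ⁅a, b⁆ ∈ commutator H :=
    Subgroup.commutator_mem_commutator (Subgroup.mem_top a) (Subgroup.mem_top b)
  rw [h13, Subgroup.mem_bot, commutatorElement_eq_one_iff_mul_comm] at h14
  exact h14

end Cfsg.Agent.S4105
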