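import Mathlib
import Cfsg.Statements.S4107
import Cfsg.Agent.Lib.H71.Basic
import Cfsg.Agent.Lib.H71.Basic2

set_option autoImplicit false
open Cfsg

namespace Cfsg.Agent.S4107

theorem key {G : Type*} [Group G] [Finite G] (N : Subgroup G) [N.Normal]
    (heq : ∀ x : G, x ∉ N → ∀ n ∈ N, orderOf (x * n) = orderOf x)
    (p : ℕ) [Fact p.Prime] (R : Subgroup G) [R.Normal] (hR : IsPGroup p R) (hRN : ¬ R ≤ N) : IsPGroup p N := by
  -- every x ∈ R \ N has C_N(x) a p-group
  have hp : p.Prime := Fact.out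
  have hcent : ∀ x ∈ R, x ∉ N → ∀ n ∈ N, Commute x n → ∃ k, orderOf n = p ^ k := by
    intro x hx hxN n hn hc
    have h1 := heq x hxN n hn
    obtain ⟨k, hk⟩ := (IsPGroup.iff_orderOf.mp hR) ⟨x, hx⟩
    rw [Subgroup.orderOf_mk] at hk
    have h2 : n ^ (p ^ k) = 1 := by
      have h3 : (x * n) ^ (p ^ k) = 1 := by rw [← hk, ← h1]; exact pow_orderOf_eq_one _
      rw [hc.mul_pow, ← hk, pow_orderOf_eq_one, one_mul, hk] at h3
      exact h3
    obtain ⟨j, -, hj⟩ := (Nat.dvd_prime_pow hp).1 (orderOf_dvd_of_pow_eq_one h2)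
    exact ⟨j, hj⟩
  obtain ⟨x, hxR, hxN⟩ := SetLike.not_le_iff_exists.1 hRN
  -- suppose N has a p'-element
  rw [IsPGroup.iff_orderOf]
  rintro ⟨n, hn⟩
  rw [Subgroup.orderOf_mk]
  obtain ⟨a, b, ha, hb, hab, -, ⟨k, hk⟩, hpb, -, -⟩ := H71.Basic.exists_pPart n (isOfFinOrder_of_finite n) p hp
  have hbN : b ∈ N := by
    obtain ⟨j, rfl⟩ := hb
    exact N.zpow_mem hn j
  by_cases hb1 : b = 1
  · exact ⟨k, by rw [← hab, hb1, mul_one, hk]⟩
  exfalso
  set A : Subgroup G := R ⊓ N with hA
  haveI hAn : A.Normal := inferInstance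
  have hApg : IsPGroup p A := hR.to_le inf_le_left
  have hob1 : orderOf b ≠ 1 := fun h => hb1 (orderOf_eq_one_iff.1 h)
  obtain ⟨q, hq, hqb⟩ := Nat.exists_prime_and_dvd hob1
  have hqp : q ≠ p := by rintro rfl; exact hpb hqb
  haveI : Fact q.Prime := ⟨hq⟩
  obtain ⟨c, hob'⟩ := H71.Basic2.exists_pow_orderOf_eq b hq hqb
  have hb'N : b ^ c ∈ N := N.pow_mem hbN c
  have hQ : IsPGroup q (Subgroup.zpowers (b ^ c)) := IsPGroup.of_card (n := 1) (by rw [Nat.card_zpowers, hob', pow_one])
  obtain ⟨y, hy, hyc⟩ := H71.Basic2.exists_commuting_in_coset (A := A) hQ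
    (by rw [Subgroup.normalizer_eq_top]; exact le_top)
    (by
      obtain ⟨m, hm⟩ := IsPGroup.iff_card.1 hApg
      rw [hm]
      intro h
      exact hqp ((Nat.prime_dvd_prime_iff_eq hq hp).1 (hq.dvd_of_dvd_pow h))) x
    (by
      intro u hu
      have huN : u ∈ N := (Subgroup.zpowers_le.2 hb'N) hu
      constructor
      · exact R.mul_mem (R.inv_mem hxR) ((inferInstance : R.Normal).conj_mem _ hxR u)
      · have : x⁻¹ * (u * x * u⁻¹) = (x⁻¹ * u * x) * u⁻¹ := by group
        rw [this]
        refine N.mul_mem ?_ (N.inv_mem huN)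
        have := (inferInstance : N.Normal).conj_mem _ huN x⁻¹
        simpa using this)
  have hyR : y ∈ R := by
    have : y = x * (x⁻¹ * y) := by group
    rw [this]; exact R.mul_mem hxR hy.1
  have hyN : y ∉ N := by
    intro h
    apply hxN
    have : x = y * (x⁻¹ * y)⁻¹ := by group
    rw [this]; exact N.mul_mem h (N.inv_mem hy.2)
  obtain ⟨j, hj⟩ := hcent y hyR hyN (b ^ c) hb'N (hyc _ (Subgroup.mem_zpowers _)).symm
  rw [hob'] at hj
  rcases Nat.eq_zero_or_pos j with rfl | hj0
  · rw [pow_zero] at hj; exact hq.ne_one hj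
  · have : p ∣ q := by rw [hj]; exact dvd_pow_self p hj0.ne'
    exact hqp ((Nat.prime_dvd_prime_iff_eq hp hq).1 this).symm

/-- A nilpotent normal subgroup is covered by its Sylow subgroups, which are normal in `G`. -/
theorem exists_pCore_not_le {G : Type*} [Group G] [Finite G] (N : Subgroup G) (hF : ¬ Cfsg.fittingSubgroup G ≤ N) :
    ∃ p : ℕ, p.Prime ∧ ∃ R : Subgroup G, R.Normal ∧ IsPGroup p R ∧ ¬ R ≤ N := by
  by_contra hcon
  push Not at hcon
  apply hF
  refine sSup_le ?_
  rintro M ⟨hMn, hMnil⟩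
  -- Sylow subgroups of M
  have htfae := (Group.isNilpotent_of_finite_tfae (G := M)).out 0 3
  have hsyl := htfae.1 hMnil
  have hM : (⊤ : Subgroup M) ≤ N.subgroupOf M := by
    -- index of N.subgroupOf M is 1
    rw [top_le_iff, ← Subgroup.index_eq_one]
    by_contra hidx
    obtain ⟨p, hp, hpi⟩ := Nat.exists_prime_and_dvd hidx
    haveI : Fact p.Prime := ⟨hp⟩
    obtain ⟨P⟩ : Nonempty (Sylow p M) := inferInstance
    have hPn : (P : Subgroup M).Normal := hsyl p ⟨hp⟩ P
    haveI : (P : Subgroup M).Characteristic := P.characteristic_of_normal hPn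
    haveI := hMn
    have h1 : ((P : Subgroup M).map M.subtype).Normal := inferInstance
    have h2 : (P : Subgroup M).map M.subtype ≤ N := hcon p hp _ h1 (P.2.map _)
    have h3 : (P : Subgroup M) ≤ N.subgroupOf M := by
      intro z hz
      exact h2 ⟨z, hz, rfl⟩
    exact P.not_dvd_index (hpi.trans (Subgroup.index_dvd_of_le h3))
  intro m hm
  exact hM (x := ⟨m, hm⟩) trivial

/-- Let G be a finite group and N a proper non-trivial normal subgroup such that for every x outside N all elements of the coset xN have the same order as x. Then N ≤ F(G) or F(G) ≤ N, where F(G) is the Fitting subgroup; and if N is properly contained in F(G) then F(G) has prime-power order. -/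
theorem result {G : Type*} [Group G] [Finite G] (N : Subgroup G) [N.Normal] (hN1 : N ≠ ⊥) (hN2 : N ≠ ⊤)
    (heq : ∀ x : G, x ∉ N → ∀ n ∈ N, orderOf (x * n) = orderOf x) :
    (N ≤ Cfsg.fittingSubgroup G ∨ Cfsg.fittingSubgroup G ≤ N) ∧
    (N < Cfsg.fittingSubgroup G → IsPrimePow (Nat.card (Cfsg.fittingSubgroup G))) := by
  have hpN : ∀ (p : ℕ) [Fact p.Prime], IsPGroup p N → N ≤ Cfsg.fittingSubgroup G := by
    intro p _ h
    exact le_sSup ⟨inferInstance, h.isNilpotent⟩
  constructor
  · by_cases hF : Cfsg.fittingSubgroup G ≤ N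
    · exact Or.inr hF
    · left
      obtain ⟨p, hp, R, hRn, hRp, hRN⟩ := exists_pCore_not_le N hF
      haveI : Fact p.Prime := ⟨hp⟩
      exact hpN p (key N heq p R hRp hRN)
  · intro hlt
    have hF : ¬ Cfsg.fittingSubgroup G ≤ N := not_le_of_gt hlt
    obtain ⟨p, hp, R, hRn, hRp, hRN⟩ := exists_pCore_not_le N hF
    haveI : Fact p.Prime := ⟨hp⟩
    have hNp := key N heq p R hRp hRN
    -- every nilpotent normal subgroup is a p-group
    have hall : ∀ M : Subgroup G, M.Normal → Group.IsNilpotent M → IsPGroup p M := by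
      intro M hMn hMnil
      have htfae := (Group.isNilpotent_of_finite_tfae (G := M)).out 0 3
      have hsyl := htfae.1 hMnil
      -- for q ≠ p, Sylow q of M is trivial
      have hq : ∀ q : ℕ, q.Prime → q ∣ Nat.card M → q = p := by
        intro q hq hqM
        by_contra hqp
        haveI : Fact q.Prime := ⟨hq⟩
        obtain ⟨Q⟩ : Nonempty (Sylow q M) := inferInstance
        have hQn : (Q : Subgroup M).Normal := hsyl q ⟨hq⟩ Q
        haveI : (Q : Subgroup M).Characteristic := Q.characteristic_of_normal hQn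
        have h1 : ((Q : Subgroup M).map M.subtype).Normal := inferInstance
        have hQ1 : (Q : Subgroup M).map M.subtype ≠ ⊥ := by
          rw [Ne, Subgroup.map_eq_bot_iff_of_injective _ M.subtype_injective]
          exact Q.ne_bot_of_dvd_card hqM
        have hQp : IsPGroup q ((Q : Subgroup M).map M.subtype) := Q.2.map _
        have hdisj : ∀ z ∈ (Q : Subgroup M).map M.subtype, z ∈ N → z = 1 := by
          intro z hz hzN
          obtain ⟨a, ha⟩ := (IsPGroup.iff_orderOf.mp hQp) ⟨z, hz⟩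
          obtain ⟨b, hb⟩ := (IsPGroup.iff_orderOf.mp hNp) ⟨z, hzN⟩
          rw [Subgroup.orderOf_mk] at ha hb
          have : orderOf z = 1 := by
            apply Nat.eq_one_of_dvd_coprimes (a := q ^ a) (b := p ^ b)
            · exact Nat.Coprime.pow _ _ ((Nat.coprime_primes hq hp).2 hqp)
            · rw [ha]
            · rw [hb]
          exact orderOf_eq_one_iff.1 this
        have hQN : ¬ (Q : Subgroup M).map M.subtype ≤ N := by
          intro h
          apply hQ1
          rw [Subgroup.eq_bot_iff_forall]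
          intro z hz
          exact hdisj z hz (h hz)
        have hNq := key N heq q _ hQp hQN
        apply hN1
        rw [Subgroup.eq_bot_iff_forall]
        intro z hz
        obtain ⟨a, ha⟩ := (IsPGroup.iff_orderOf.mp hNq) ⟨z, hz⟩
        obtain ⟨b, hb⟩ := (IsPGroup.iff_orderOf.mp hNp) ⟨z, hz⟩
        rw [Subgroup.orderOf_mk] at ha hb
        have : orderOf z = 1 := by
          apply Nat.eq_one_of_dvd_coprimes (a := q ^ a) (b := p ^ b)
          · exact Nat.Coprime.pow _ _ ((Nat.coprime_primes hq hp).2 hqp)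
          · rw [ha]
          · rw [hb]
        exact orderOf_eq_one_iff.1 this
      rw [IsPGroup.iff_card]
      exact ⟨_, Nat.eq_prime_pow_of_unique_prime_dvd Nat.card_pos.ne' (fun {q} hq1 hq2 => hq q hq1 hq2)⟩
    have hFp : IsPGroup p (Cfsg.fittingSubgroup G) := by
      apply Sylow.sSup_of_normal
      · rintro M ⟨hMn, hMnil⟩; exact hall M hMn hMnil
      · rintro M ⟨hMn, -⟩; exact hMn
    obtain ⟨k, hk⟩ := IsPGroup.iff_card.1 hFp
    rw [hk]
    apply hp.isPrimePow.pow
    rintro rfl
    rw [pow_zero] at hk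
    have := Subgroup.card_eq_one.1 hk
    rw [this] at hlt
    exact not_lt_bot hlt

end Cfsg.Agent.S4107
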