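import Mathlib
import Cfsg.Statements.S4108
import Cfsg.Agent.Lib.H71.Basic
import Cfsg.Agent.Lib.H71.Basic2

set_option autoImplicit false
open Cfsg

namespace Cfsg.Agent.S4108

open scoped Pointwise

/-- If `N` is a nontrivial normal subgroup, `H` nontrivial, `G = N H`, and no nontrivial element of `H` commutes with a
nontrivial element of `N`, then `H` is a Frobenius complement with kernel `N`. -/
theorem frobenius_of_fpf {L : Type*} [Group L] [Finite L] (N H : Subgroup L) [N.Normal] (hN : N ≠ ⊥) (hH : H ≠ ⊥)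
    (htop : N ⊔ H = ⊤) (hdisj : ∀ x ∈ N, x ∈ H → x = 1)
    (hfix : ∀ h ∈ H, h ≠ 1 → ∀ n ∈ N, n * h = h * n → n = 1) :
    Cfsg.IsFrobeniusComplement H ∧ Cfsg.frobeniusKernel H = (N : Set L) := by
  have hprod : ∀ g : L, ∃ n ∈ N, ∃ h ∈ H, n * h = g := by
    intro g
    have : g ∈ N ⊔ H := by rw [htop]; trivial
    exact Subgroup.mem_sup_of_normal_left.mp this
  have hconjmem : ∀ (g x : L), x ∈ MulAut.conj g • H ↔ g⁻¹ * x * g ∈ H := by
    intro g x
    rw [Subgroup.mem_pointwise_smul_iff_inv_smul_mem, ← map_inv, MulAut.smul_def, MulAut.conj_apply, inv_inv]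
  refine ⟨⟨hH, ?_, ?_⟩, ?_⟩
  · rintro rfl
    apply hN
    rw [Subgroup.eq_bot_iff_forall]
    intro x hx
    exact hdisj x hx trivial
  · intro g hg
    rw [Subgroup.eq_bot_iff_forall]
    rintro x ⟨hxH, hxg⟩
    change x ∈ MulAut.conj g • H at hxg
    rw [hconjmem] at hxg
    obtain ⟨n, hn, h, hh, rfl⟩ := hprod g
    have hn1 : n ≠ 1 := by
      rintro rfl
      apply hg; simpa using hh
    -- n⁻¹ x n ∈ H
    have h1 : n⁻¹ * x * n ∈ H := by
      have := H.mul_mem (H.mul_mem hh hxg) (H.inv_mem hh)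
      have e : h * ((n * h)⁻¹ * x * (n * h)) * h⁻¹ = n⁻¹ * x * n := by group
      rwa [e] at this
    have h2 : x⁻¹ * (n⁻¹ * x * n) = 1 := by
      apply hdisj
      · have e : x⁻¹ * (n⁻¹ * x * n) = (x⁻¹ * n⁻¹ * x) * n := by group
        rw [e]
        refine N.mul_mem ?_ hn
        have := (inferInstance : N.Normal).conj_mem _ (N.inv_mem hn) x⁻¹
        simpa using this
      · exact H.mul_mem (H.inv_mem hxH) h1
    by_contra hx1
    apply hn1
    apply hfix x hxH hx1 n hn
    have h3 : n⁻¹ * x * n = x := (inv_mul_eq_one.1 h2).symm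
    calc n * x = n * (n⁻¹ * x * n) := by rw [h3]
      _ = x * n := by group
  · ext x
    constructor
    · rintro (rfl | hx)
      · exact N.one_mem
      · obtain ⟨n, hn, h, hh, rfl⟩ := hprod x
        by_cases hh1 : h = 1
        · subst hh1; simpa using hn
        · exfalso
          obtain ⟨m, hm, hm'⟩ := H71.Basic.exists_conj_of_fpf N h (fun k hk hkh => hfix h hh hh1 k hk hkh) n hn
          apply hx m
          rw [hconjmem, hm']
          have : m⁻¹ * (m * h * m⁻¹) * m = h := by group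
          rw [this]; exact hh
    · intro hx
      by_cases hx1 : x = 1
      · exact Or.inl hx1
      · right
        intro g hg
        rw [hconjmem] at hg
        apply hx1
        have h1 : g⁻¹ * x * g = 1 := by
          apply hdisj _ _ hg
          have := (inferInstance : N.Normal).conj_mem x hx g⁻¹
          simpa using this
        have h2 : x = g * (g⁻¹ * x * g) * g⁻¹ := by group
        rw [h2, h1]; group

/-- Let G be a finite group, p a prime and N a proper non-trivial normal p-subgroup such that for every x outside N all elements of the coset xN have the same order as x. Then every non-trivial subgroup H of G of order prime to p acts fixed-point-freely on N: NH is a Frobenius group with complement H and kernel N. -/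
theorem result {G : Type*} [Group G] [Finite G] (N : Subgroup G) [N.Normal] (hN1 : N ≠ ⊥) (hN2 : N ≠ ⊤)
    (heq : ∀ x : G, x ∉ N → ∀ n ∈ N, orderOf (x * n) = orderOf x)
    (p : ℕ) [Fact p.Prime] (hNp : IsPGroup p N) :
    ∀ H : Subgroup G, H ≠ ⊥ → (Nat.card H).Coprime p →
      Cfsg.IsFrobeniusComplement (H.subgroupOf (N ⊔ H)) ∧ Cfsg.frobeniusKernel (H.subgroupOf (N ⊔ H)) = (N.subgroupOf (N ⊔ H) : Set ↥(N ⊔ H)) := by
  intro H hH hHp
  have hp : p.Prime := Fact.out
  have hordH : ∀ h ∈ H, ¬ p ∣ orderOf h := by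
    intro h hh hdvd
    have h1 : p ∣ Nat.card H := hdvd.trans (Subgroup.orderOf_dvd_natCard H hh)
    have h2 := Nat.dvd_gcd h1 (dvd_refl p)
    rw [Nat.coprime_iff_gcd_eq_one.1 hHp] at h2
    exact hp.one_lt.ne' (Nat.dvd_one.1 h2)
  have hdisj : ∀ x ∈ N, x ∈ H → x = 1 := by
    intro x hxN hxH
    obtain ⟨b, hb⟩ := (IsPGroup.iff_orderOf.mp hNp) ⟨x, hxN⟩
    rw [Subgroup.orderOf_mk] at hb
    rcases Nat.eq_zero_or_pos b with rfl | hb0
    · rw [pow_zero] at hb; exact orderOf_eq_one_iff.1 hb
    · exact absurd (by rw [hb]; exact dvd_pow_self p hb0.ne') (hordH x hxH)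
  have hfix : ∀ h ∈ H, h ≠ 1 → ∀ n ∈ N, n * h = h * n → n = 1 := by
    intro h hh hh1 n hn hc
    have hhN : h ∉ N := fun h' => hh1 (hdisj h h' hh)
    have h1 := heq h hhN n hn
    obtain ⟨b, hb⟩ := (IsPGroup.iff_orderOf.mp hNp) ⟨n, hn⟩
    rw [Subgroup.orderOf_mk] at hb
    have hcop : (orderOf h).Coprime (orderOf n) := by
      rw [hb]
      apply Nat.Coprime.pow_right
      exact ((Nat.Prime.coprime_iff_not_dvd hp).2 (hordH h hh)).symm
    have hcomm : Commute h n := hc.symm
    rw [hcomm.orderOf_mul_eq_mul_orderOf_of_coprime hcop] at h1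
    have h2 : 0 < orderOf h := orderOf_pos h
    have h3 : orderOf n = 1 := by
      have : orderOf h * orderOf n = orderOf h * 1 := by rw [h1, mul_one]
      exact Nat.eq_of_mul_eq_mul_left h2 this
    exact orderOf_eq_one_iff.1 h3
  apply frobenius_of_fpf
  · intro h
    apply hN1
    rw [Subgroup.eq_bot_iff_forall] at h ⊢
    intro x hx
    have := h ⟨x, (le_sup_left : N ≤ N ⊔ H) hx⟩ (Subgroup.mem_subgroupOf.2 hx)
    exact congrArg Subtype.val this
  · intro h
    apply hH
    rw [Subgroup.eq_bot_iff_forall] at h ⊢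
    intro x hx
    have := h ⟨x, (le_sup_right : H ≤ N ⊔ H) hx⟩ (Subgroup.mem_subgroupOf.2 hx)
    exact congrArg Subtype.val this
  · rw [← Subgroup.subgroupOf_sup (le_sup_left : N ≤ N ⊔ H) (le_sup_right : H ≤ N ⊔ H), Subgroup.subgroupOf_self]
  · intro x hx1 hx2
    exact Subtype.ext (hdisj x (Subgroup.mem_subgroupOf.1 hx1) (Subgroup.mem_subgroupOf.1 hx2))
  · intro h hh hh1 n hn hc
    apply Subtype.ext
    apply hfix h (Subgroup.mem_subgroupOf.1 hh) (fun h' => hh1 (Subtype.ext h')) n (Subgroup.mem_subgroupOf.1 hn)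
    exact congrArg Subtype.val hc

end Cfsg.Agent.S4108
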