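import Mathlib
import Cfsg.Statements.S4112
import Cfsg.Agent.Lib.H71.Basic
import Cfsg.Agent.Lib.H71.Basic2

set_option autoImplicit false
open Cfsg

namespace Cfsg.Agent.S4112

/-- Let G be a finite group and M ≤ N non-trivial proper normal subgroups such that for every g outside N the conjugacy class of g is a union of cosets of M (equivalently gm is conjugate to g for every m ∈ M). Then (1) and (2) below are equivalent, and they imply (3): (1) every g outside N acts fixed-point-freely on M, that is C_G(x) ≤ N for every x ∈ M, x ≠ 1; (2) the index of N in G is coprime to the order of M; (3) there is a subgroup H of G with HN = G and H ∩ M = 1. -/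
theorem result {G : Type*} [Group G] [Finite G] (N M : Subgroup G) [N.Normal] [M.Normal] (hMN : M ≤ N) (hM1 : M ≠ ⊥) (hN2 : N ≠ ⊤)
    (hcam : ∀ g : G, g ∉ N → ∀ m ∈ M, ∃ x : G, x * g * x⁻¹ = g * m) :
    ((∀ x ∈ M, x ≠ 1 → Subgroup.centralizer ({x} : Set G) ≤ N) ↔ N.index.Coprime (Nat.card M)) ∧
    ((∀ x ∈ M, x ≠ 1 → Subgroup.centralizer ({x} : Set G) ≤ N) → ∃ H : Subgroup G, H ⊔ N = ⊤ ∧ H ⊓ M = ⊥) := by
  have h12 : (∀ x ∈ M, x ≠ 1 → Subgroup.centralizer ({x} : Set G) ≤ N) → N.index.Coprime (Nat.card M) := by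
    intro h1
    apply Nat.Coprime.symm
    apply Nat.coprime_of_dvd
    intro p hp hpM hpN
    haveI : Fact p.Prime := ⟨hp⟩
    obtain ⟨P⟩ : Nonempty (Sylow p G) := inferInstance
    obtain ⟨x, hxM, hx1, hxP⟩ := H71.Basic2.exists_commuting_of_dvd (M := M) P.2
      (by rw [Subgroup.normalizer_eq_top]; exact le_top) hpM
    have hPN : (P : Subgroup G) ≤ N := by
      refine le_trans ?_ (h1 x hxM hx1)
      intro u hu
      rw [Subgroup.mem_centralizer_singleton_iff]
      exact hxP u hu
    have : N.index ∣ (P : Subgroup G).index := Subgroup.index_dvd_of_le hPN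
    exact P.not_dvd_index (hpN.trans this)
  have h21 : N.index.Coprime (Nat.card M) → (∀ x ∈ M, x ≠ 1 → Subgroup.centralizer ({x} : Set G) ≤ N) := by
    intro hco x hx hx1 g hg
    rw [Subgroup.mem_centralizer_singleton_iff] at hg
    by_contra hgN
    -- reduce x to prime order
    have hox1 : orderOf x ≠ 1 := fun h => hx1 (orderOf_eq_one_iff.1 h)
    obtain ⟨p, hp, hpx⟩ := Nat.exists_prime_and_dvd hox1
    obtain ⟨c, hc⟩ := hpx
    have hox0 : 0 < orderOf x := orderOf_pos x
    have hc0 : 0 < c := Nat.pos_of_ne_zero (by rintro rfl; rw [mul_zero] at hc; omega)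
    set x' := x ^ c with hx'
    have hox' : orderOf x' = p := by
      rw [hx', orderOf_pow, hc, Nat.gcd_eq_right (dvd_mul_left _ _), Nat.mul_div_cancel _ hc0]
    have hx'M : x' ∈ M := M.pow_mem hx c
    have hgx : Commute g x := hg
    have hgx' : Commute g x' := hgx.pow_right c
    have hpM : p ∣ Nat.card M := by rw [← hox']; exact Subgroup.orderOf_dvd_natCard M hx'M
    obtain ⟨a, b, ha, hb, hab, -, ⟨k, hk⟩, hpb, -, -⟩ := H71.Basic.exists_pPart g (isOfFinOrder_of_finite g) p hp
    have haN : a ∈ N := by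
      apply H71.Basic2.mem_of_orderOf_coprime_index
      rw [hk]
      apply Nat.Coprime.pow_left
      rw [Nat.Prime.coprime_iff_not_dvd hp]
      intro h
      have := Nat.dvd_gcd h hpM
      rw [Nat.coprime_iff_gcd_eq_one.1 hco] at this
      exact hp.one_lt.ne' (Nat.dvd_one.1 this)
    have hbN : b ∉ N := by
      intro hbN
      exact hgN (hab ▸ N.mul_mem haN hbN)
    have hbx' : Commute b x' := H71.Basic2.commute_of_mem_zpowers hb hgx'
    obtain ⟨y, hy⟩ := hcam b hbN x' hx'M
    have h1 : orderOf (b * x') = orderOf b := by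
      rw [← hy]
      exact orderOf_injective (MulAut.conj y).toMonoidHom (MulAut.conj y).injective b
    have h2 : orderOf (b * x') = orderOf b * orderOf x' := by
      apply hbx'.orderOf_mul_eq_mul_orderOf_of_coprime
      rw [hox']
      exact ((Nat.Prime.coprime_iff_not_dvd hp).2 hpb).symm
    rw [h1, hox'] at h2
    have hob : 0 < orderOf b := orderOf_pos b
    have := hp.two_le
    nlinarith
  refine ⟨⟨h12, h21⟩, ?_⟩
  intro h1
  have hco := h12 h1
  -- minimal supplement
  let S : Set (Subgroup G) := {H | H ⊔ N = ⊤}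
  have hSne : S.Nonempty := ⟨⊤, top_sup_eq N⟩
  obtain ⟨H, hHS, hmin⟩ := Set.Finite.exists_minimal (Set.toFinite S) hSne
  have hHN : H ⊔ N = ⊤ := hHS
  refine ⟨H, hHN, ?_⟩
  by_contra hbot
  have hcard1 : Nat.card ↥(H ⊓ M) ≠ 1 := by
    intro h; exact hbot (Subgroup.card_eq_one.1 h)
  obtain ⟨p, hp, hpD⟩ := Nat.exists_prime_and_dvd hcard1
  haveI : Fact p.Prime := ⟨hp⟩
  have hpM : p ∣ Nat.card M := hpD.trans (Subgroup.card_dvd_of_le inf_le_right)
  have hpH : p ∣ Nat.card H := hpD.trans (Subgroup.card_dvd_of_le inf_le_left)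
  -- K = N ∩ H ≤ Φ(H)
  have hK : N.subgroupOf H ≤ frattini H := by
    rw [frattini, Order.radical]
    refine le_iInf₂ ?_
    intro L hL
    by_contra hKL
    have hLK : L ⊔ N.subgroupOf H = ⊤ := by
      apply hL.2
      exact lt_of_le_of_ne le_sup_left (fun h => hKL (by rw [h]; exact le_sup_right))
    have h3 : (L.map H.subtype) ⊔ N = ⊤ := by
      rw [eq_top_iff, ← hHN]
      apply sup_le _ le_sup_right
      have h4 : H ≤ (⊤ : Subgroup H).map H.subtype := fun z hz => ⟨⟨z, hz⟩, trivial, rfl⟩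
      refine h4.trans ?_
      rw [← hLK, Subgroup.map_sup]
      apply sup_le_sup_left
      rw [Subgroup.subgroupOf_map_subtype]
      exact inf_le_left
    have h5 : H ≤ L.map H.subtype := hmin h3 (Subgroup.map_subtype_le L)
    apply hL.1
    rw [eq_top_iff]
    intro z _
    obtain ⟨w, hw, hwz⟩ := h5 z.2
    have : w = z := Subtype.ext hwz
    rwa [this] at hw
  have hKidx : (N.subgroupOf H).index = N.index := by
    have h6 : N.relIndex (H ⊔ N) = N.relIndex H := Subgroup.relIndex_sup_right H N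
    rw [hHN, Subgroup.relIndex_top_right] at h6
    exact h6.symm
  obtain ⟨Q⟩ : Nonempty (Sylow p H) := inferInstance
  have hQK : (Q : Subgroup H) ≤ N.subgroupOf H := by
    intro q hq
    apply H71.Basic2.mem_of_orderOf_coprime_index
    rw [hKidx]
    obtain ⟨k, hk⟩ := (IsPGroup.iff_orderOf.mp Q.2) ⟨q, hq⟩
    rw [← Subgroup.orderOf_mk q hq, hk]
    apply Nat.Coprime.pow_left
    rw [Nat.Prime.coprime_iff_not_dvd hp]
    intro h
    have := Nat.dvd_gcd h hpM
    rw [Nat.coprime_iff_gcd_eq_one.1 hco] at this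
    exact hp.one_lt.ne' (Nat.dvd_one.1 this)
  have hQF : (Q : Subgroup H) ≤ frattini H := hQK.trans hK
  have hQn : Subgroup.normalizer ((Q : Subgroup H) : Set H) = ⊤ := by
    apply frattini_nongenerating
    exact Sylow.normalizer_sup_eq_top' Q hQF
  haveI hQnorm : (Q : Subgroup H).Normal := Subgroup.normalizer_eq_top_iff.1 hQn
  obtain ⟨C, hC⟩ := Subgroup.exists_right_complement'_of_coprime (N := (Q : Subgroup H)) Q.card_coprime_index
  have hCtop : C = ⊤ := by
    apply frattini_nongenerating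
    rw [eq_top_iff, ← hC.sup_eq_top, sup_comm]
    exact sup_le_sup_left hQF C
  have hQbot : (Q : Subgroup H) = ⊥ := by
    have := hC.disjoint
    rw [hCtop, disjoint_top] at this
    exact this
  exact Q.ne_bot_of_dvd_card hpH hQbot

end Cfsg.Agent.S4112
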