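import Mathlib
import Cfsg.Statements.S4115
import Cfsg.Agent.Lib.H71.FrobWiel
import Cfsg.Agent.Lib.H71.FrobSection
import Cfsg.Agent.S4116

set_option autoImplicit false
open Cfsg

namespace Cfsg.Agent.S4115

open Subgroup

theorem mem_norm_of_ti {G : Type*} [Group G] {H : Subgroup G} (hTI : Cfsg.IsTISubset (H : Set G))
    {g x : G} (hx : x ∈ H) (hx1 : x ≠ 1) (h : g * x * g⁻¹ ∈ H) : g ∈ normalizer (H : Set G) := by
  by_contra hg
  exact hx1 (hTI g hg x hx h)

theorem normalizer_le_of_ti {G : Type*} [Group G] {H P : Subgroup G} (hTI : Cfsg.IsTISubset (H : Set G))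
    (hP : P ≤ H) (hP1 : P ≠ ⊥) : normalizer (P : Set G) ≤ normalizer (H : Set G) := by
  intro g hg
  obtain ⟨⟨x, hx⟩, hx1⟩ := Subgroup.ne_bot_iff_exists_ne_one.mp hP1
  exact mem_norm_of_ti hTI (hP hx) (fun h => hx1 (Subtype.ext h)) (hP ((mem_normalizer_iff.mp hg _).mp hx))

theorem hall {G : Type*} [Group G] [Finite G] {H : Subgroup G} (hTI : Cfsg.IsTISubset (H : Set G))
    (hHall : (Nat.card H).Coprime (H.subgroupOf (normalizer (H : Set G))).index) :
    (Nat.card H).Coprime H.index := by
  by_contra hcon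
  obtain ⟨p, hp, hpH, hpi⟩ := Nat.Prime.not_coprime_iff_dvd.mp hcon
  have := Fact.mk hp
  obtain ⟨P⟩ : Nonempty (Sylow p H) := inferInstance
  set P' : Subgroup G := (P : Subgroup H).map H.subtype with hP'
  have hP'H : P' ≤ H := Subgroup.map_subtype_le _
  have hcard : Nat.card P' = p ^ (Nat.card H).factorization p := by
    rw [hP', Subgroup.card_map_of_injective H.subtype_injective]
    exact P.card_eq_multiplicity
  have hP'1 : P' ≠ ⊥ := by
    intro h
    rw [h, Subgroup.card_bot] at hcard
    have h1 : (Nat.card H).factorization p ≠ 0 :=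
      (hp.factorization_pos_of_dvd Nat.card_pos.ne' hpH).ne'
    exact (Nat.one_lt_pow h1 hp.one_lt).ne hcard
  have hdvd : p ^ ((Nat.card H).factorization p + 1) ∣ Nat.card G := by
    rw [← H.card_mul_index, pow_succ]
    exact mul_dvd_mul (Nat.ordProj_dvd _ _) hpi
  have h1 := Sylow.prime_dvd_card_quotient_normalizer hdvd hcard
  have h2 : p ∣ P'.relIndex (normalizer (P' : Set G)) := h1
  have h3 : P'.relIndex (normalizer (P' : Set G)) ∣ P'.relIndex (normalizer (H : Set G)) :=
    ⟨_, (Subgroup.relIndex_mul_relIndex _ _ _ le_normalizer (normalizer_le_of_ti hTI hP'H hP'1)).symm⟩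
  have h4 : P'.relIndex H * H.relIndex (normalizer (H : Set G)) = P'.relIndex (normalizer (H : Set G)) :=
    Subgroup.relIndex_mul_relIndex _ _ _ hP'H le_normalizer
  have h5 := (h2.trans h3)
  rw [← h4] at h5
  rcases hp.dvd_mul.mp h5 with h6 | h6
  · have h7 : P'.relIndex H = (P : Subgroup H).index := by
      rw [Subgroup.relIndex, hP', Subgroup.subgroupOf, Subgroup.comap_map_eq_self_of_injective H.subtype_injective]
    rw [h7] at h6
    exact P.not_dvd_index h6
  · exact Nat.Prime.not_coprime_iff_dvd.mpr ⟨p, hp, hpH, h6⟩ hHall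

universe u

/-- a TI Hall subgroup with a normal complement in its normalizer has a normal complement -/
theorem exists_normal_complement {G : Type u} [Group G] [Finite G] (H A : Subgroup G) (hA : A = Subgroup.normalizer (H : Set G))
    (hTI : Cfsg.IsTISubset (H : Set G)) (hHall : (Nat.card H).Coprime (H.subgroupOf A).index)
    (K : Subgroup A) [hKn : K.Normal]
    (hK : K.IsComplement' (H.subgroupOf A)) :
    ∃ N : Subgroup G, N.Normal ∧ N.IsComplement' H := by
  set L : Subgroup G := K.map A.subtype with hL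
  have hHA : H ≤ A := by rw [hA]; exact Subgroup.le_normalizer
  have hHn : (H.subgroupOf A).Normal := by
    rw [Subgroup.normal_subgroupOf_iff_le_normalizer hHA]; exact hA.le
  have hLA : L ≤ A := Subgroup.map_subtype_le _
  have hLsub : L.subgroupOf A = K := Subgroup.comap_map_eq_self_of_injective A.subtype_injective K
  have hLn : A ≤ normalizer (L : Set G) := by
    rw [← Subgroup.normal_subgroupOf_iff_le_normalizer hLA, hLsub]
    exact hKn
  have hcardK : Nat.card K = (H.subgroupOf A).index := hK.index_eq_card.symm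
  have hcop : (Nat.card H).Coprime (Nat.card K) := by rw [hcardK]; exact hHall
  have hcardsub : Nat.card (H.subgroupOf A) = Nat.card H := H1.SZ.card_subgroupOf_of_le hHA
  -- elements of `A` as products
  have hFW : ∀ g ∉ A, ∀ x ∈ A, g * x * g⁻¹ ∈ A → x ∈ L := by
    intro g hg x hx hgx
    -- work with the projection to `A ⧸ K`
    -- `x = k h`
    have htop : K ⊔ H.subgroupOf A = ⊤ := hK.sup_eq_top
    have hdis : K ⊓ H.subgroupOf A = ⊥ := hK.disjoint.eq_bot
    have hmem : (⟨x, hx⟩ : A) ∈ K ⊔ H.subgroupOf A := by rw [htop]; exact Subgroup.mem_top _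
    obtain ⟨k, hk, h, hh, hkh⟩ := Subgroup.mem_sup_of_normal_right.1 hmem
    -- `k` and `h` commute
    have hcomm : k * h = h * k := by
      have h1 : k * h * k⁻¹ * h⁻¹ ∈ K ⊓ H.subgroupOf A := by
        refine ⟨?_, ?_⟩
        · have : k * h * k⁻¹ * h⁻¹ = k * (h * k⁻¹ * h⁻¹) := by group
          rw [this]
          exact K.mul_mem hk (hKn.conj_mem _ (K.inv_mem hk) h)
        · exact (H.subgroupOf A).mul_mem (hHn.conj_mem _ hh k) ((H.subgroupOf A).inv_mem hh)
      rw [hdis, Subgroup.mem_bot, mul_inv_eq_one, mul_inv_eq_iff_eq_mul] at h1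
      exact h1
    -- `x ^ |K| = h ^ |K|`
    have hxk : x ^ Nat.card K = (h : G) ^ Nat.card K := by
      have h1 : (⟨x, hx⟩ : A) ^ Nat.card K = h ^ Nat.card K := by
        rw [← hkh, (show Commute k h from hcomm).mul_pow]
        have h2 : k ^ Nat.card K = 1 := by
          have := pow_card_eq_one' (x := (⟨k, hk⟩ : K))
          exact congrArg Subtype.val this
        rw [h2, one_mul]
      have := congrArg Subtype.val h1
      simpa using this
    -- if `h ≠ 1` then `h ^ |K| ≠ 1`
    have hhH : (h : G) ∈ H := hh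
    have hxH : x ^ Nat.card K ∈ H := by rw [hxk]; exact H.pow_mem hhH _
    -- the same for `g x g⁻¹`
    have hconj : g * x ^ Nat.card K * g⁻¹ ∈ H := by
      have hmem2 : (⟨g * x * g⁻¹, hgx⟩ : A) ∈ K ⊔ H.subgroupOf A := by rw [htop]; exact Subgroup.mem_top _
      obtain ⟨k2, hk2, h2, hh2, hkh2⟩ := Subgroup.mem_sup_of_normal_right.1 hmem2
      have hcomm2 : k2 * h2 = h2 * k2 := by
        have h1 : k2 * h2 * k2⁻¹ * h2⁻¹ ∈ K ⊓ H.subgroupOf A := by
          refine ⟨?_, ?_⟩
          · have : k2 * h2 * k2⁻¹ * h2⁻¹ = k2 * (h2 * k2⁻¹ * h2⁻¹) := by group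
            rw [this]
            exact K.mul_mem hk2 (hKn.conj_mem _ (K.inv_mem hk2) h2)
          · exact (H.subgroupOf A).mul_mem (hHn.conj_mem _ hh2 k2) ((H.subgroupOf A).inv_mem hh2)
        rw [hdis, Subgroup.mem_bot, mul_inv_eq_one, mul_inv_eq_iff_eq_mul] at h1
        exact h1
      have h3 : (g * x * g⁻¹) ^ Nat.card K = (h2 : G) ^ Nat.card K := by
        have h1 : (⟨g * x * g⁻¹, hgx⟩ : A) ^ Nat.card K = h2 ^ Nat.card K := by
          rw [← hkh2, (show Commute k2 h2 from hcomm2).mul_pow]
          have h2 : k2 ^ Nat.card K = 1 := by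
            have := pow_card_eq_one' (x := (⟨k2, hk2⟩ : K))
            exact congrArg Subtype.val this
          rw [h2, one_mul]
        have := congrArg Subtype.val h1
        simpa using this
      rw [← conj_pow, h3]
      exact H.pow_mem hh2 _
    have hx1 : x ^ Nat.card K = 1 := by
      by_contra hne
      exact hg (by rw [hA]; exact mem_norm_of_ti hTI hxH hne hconj)
    -- hence `h = 1`
    have hh1 : h = 1 := by
      have h1 : orderOf h ∣ Nat.card K := by
        apply orderOf_dvd_of_pow_eq_one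
        apply Subtype.ext
        rw [hxk] at hx1
        simpa using hx1
      have h2 : orderOf h ∣ Nat.card H := by
        rw [← hcardsub]
        exact Subgroup.orderOf_dvd_natCard _ hh
      rw [← orderOf_eq_one_iff]
      exact Nat.eq_one_of_dvd_coprimes hcop h2 h1
    rw [hh1, mul_one] at hkh
    exact ⟨k, hk, congrArg Subtype.val hkh⟩
  obtain ⟨M, hMn, hMA, hMtop⟩ := H71.FrobWiel.frobenius_wielandt hLA hLn hFW
  refine ⟨M, hMn, ?_⟩
  have hMH : M ⊓ H = ⊥ := by
    rw [eq_bot_iff]
    rintro x ⟨hxM, hxH⟩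
    have h1 : x ∈ L := by rw [← hMA]; exact ⟨hxM, hHA hxH⟩
    obtain ⟨k, hk, hkx⟩ := h1
    have h2 : k ∈ K ⊓ H.subgroupOf A := ⟨hk, Subgroup.mem_subgroupOf.2 (by rw [show (k : G) = x from hkx]; exact hxH)⟩
    rw [hK.disjoint.eq_bot, Subgroup.mem_bot] at h2
    rw [h2] at hkx
    rw [Subgroup.mem_bot, ← hkx]; rfl
  have hAle : A ≤ M ⊔ H := by
    intro a ha
    have hmem : (⟨a, ha⟩ : A) ∈ K ⊔ H.subgroupOf A := by rw [hK.sup_eq_top]; exact Subgroup.mem_top _
    obtain ⟨k, hk, h, hh, hkh⟩ := Subgroup.mem_sup_of_normal_right.1 hmem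
    have h1 : a = (k : G) * (h : G) := (congrArg Subtype.val hkh).symm
    rw [h1]
    refine Subgroup.mul_mem _ (Subgroup.mem_sup_left ?_) (Subgroup.mem_sup_right hh)
    have h2 : (k : G) ∈ L := ⟨k, hk, rfl⟩
    rw [← hMA] at h2
    exact h2.1
  have hsup : M ⊔ H = ⊤ := by
    rw [eq_top_iff, ← hMtop]
    exact sup_le le_sup_left hAle
  apply Subgroup.isComplement'_of_disjoint_and_mul_eq_univ
  · rw [disjoint_iff]; exact hMH
  · rw [← Subgroup.normal_mul M H, hsup, Subgroup.coe_top]

/-- a non-normal TI Hall subgroup with a normal complement is a Frobenius complement -/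
theorem exists_frobenius {G : Type u} [Group G] [Finite G] (H M : Subgroup G) [hMn : M.Normal]
    (hTI : Cfsg.IsTISubset (H : Set G)) (hHall : (Nat.card H).Coprime H.index) (hc : M.IsComplement' H)
    (hnn : ¬ H.Normal) :
    ∃ (F : Type u) (_ : Group F) (_ : Finite F) (C : Subgroup F), Cfsg.IsFrobeniusComplement C ∧ Nonempty (H ≃* C) := by
  have hMH : M ⊓ H = ⊥ := hc.disjoint.eq_bot
  have hsup : M ⊔ H = ⊤ := hc.sup_eq_top
  have hcardM : Nat.card M = H.index := hc.index_eq_card.symm
  have hcop : (Nat.card H).Coprime (Nat.card M) := by rw [hcardM]; exact hHall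
  have hHbot : H ≠ ⊥ := by
    rintro rfl
    exact hnn inferInstance
  -- fixed points
  have hfix : ∀ h ∈ H, h ≠ 1 → M ⊓ centralizer {h} ≤ centralizer (H : Set G) := by
    rintro h hh h1 x ⟨hxM, hxh⟩
    have hxh' : x * h = h * x := Subgroup.mem_centralizer_singleton_iff.1 hxh
    have hxn : x ∈ normalizer (H : Set G) := by
      apply mem_norm_of_ti hTI hh h1
      rw [hxh', mul_inv_cancel_right]; exact hh
    rw [Subgroup.mem_centralizer_iff]
    intro y hy
    have h2 : y * x * y⁻¹ * x⁻¹ ∈ M ⊓ H := by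
      refine ⟨M.mul_mem (hMn.conj_mem x hxM y) (M.inv_mem hxM), ?_⟩
      have h3 := (Subgroup.mem_normalizer_iff.1 hxn y⁻¹).1 (H.inv_mem hy)
      have : y * x * y⁻¹ * x⁻¹ = y * (x * y⁻¹ * x⁻¹) := by group
      rw [this]
      exact H.mul_mem hy h3
    rw [hMH, Subgroup.mem_bot, mul_inv_eq_one, mul_inv_eq_iff_eq_mul] at h2
    exact h2
  -- a prime dividing `|M : C_M(H)|`
  set K := M ⊓ centralizer (H : Set G) with hK
  have hKM : K ≤ M := inf_le_left
  have hKne : K ≠ M := by
    intro h
    apply hnn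
    constructor
    intro n hn g
    have hg : g ∈ H ⊔ M := by rw [sup_comm, hsup]; exact Subgroup.mem_top g
    obtain ⟨y, hy, m, hm, rfl⟩ := Subgroup.mem_sup_of_normal_right.1 hg
    rw [← h] at hm
    have h1 := Subgroup.mem_centralizer_iff.1 hm.2 n hn
    have h2 : y * m * n * (y * m)⁻¹ = y * n * y⁻¹ := by
      calc y * m * n * (y * m)⁻¹ = y * (m * n) * m⁻¹ * y⁻¹ := by group
        _ = y * (n * m) * m⁻¹ * y⁻¹ := by rw [h1]
        _ = _ := by group
    rw [h2]
    exact H.mul_mem (H.mul_mem hy hn) (H.inv_mem hy)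
  have hrel : K.relIndex M ≠ 1 := by
    rw [Ne, Subgroup.relIndex_eq_one]
    intro h
    exact hKne (le_antisymm hKM h)
  obtain ⟨p, hp, hpd⟩ := Nat.exists_prime_and_dvd hrel
  haveI : Fact p.Prime := ⟨hp⟩
  obtain ⟨P⟩ : Nonempty (Sylow p M) := inferInstance
  set P' : Subgroup G := (P : Subgroup M).map M.subtype with hP'
  have hP'M : P' ≤ M := Subgroup.map_subtype_le _
  have hP'p : IsPGroup p P' := P.isPGroup'.map _
  -- the Frattini argument
  have hfrat : normalizer (P' : Set G) ⊔ M = ⊤ := Sylow.normalizer_sup_eq_top P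
  set Y := normalizer (P' : Set G) with hY
  have hMYn : (M.subgroupOf Y).Normal := inferInstance
  have hrelY : (M.subgroupOf Y).index = M.index := by
    have h1 : M.relIndex (Y ⊔ M) = M.relIndex Y := Subgroup.relIndex_sup_right Y M
    rw [hfrat, Subgroup.relIndex_top_right] at h1
    exact h1.symm
  have hMi : M.index = Nat.card H := hc.symm.index_eq_card
  have hcopY : (Nat.card (M.subgroupOf Y)).Coprime (M.subgroupOf Y).index := by
    rw [hrelY, hMi]
    have h1 : Nat.card (M.subgroupOf Y) ∣ Nat.card M := by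
      have : Nat.card (M.subgroupOf Y) = Nat.card (M ⊓ Y : Subgroup G) := by
        rw [← Subgroup.subgroupOf_map_subtype, Subgroup.card_map_of_injective Y.subtype_injective]
      rw [this]
      exact Subgroup.card_dvd_of_le inf_le_left
    exact (hcop.coprime_dvd_right h1).symm
  obtain ⟨H₁, hH₁⟩ := Subgroup.exists_right_complement'_of_coprime hcopY
  have hH₁card : Nat.card H₁ = Nat.card H := by
    rw [← hH₁.symm.index_eq_card, hrelY, hMi]
  set H₂ : Subgroup G := H₁.map Y.subtype with hH₂
  have hH₂card : Nat.card H₂ = Nat.card H := by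
    rw [hH₂, Subgroup.card_map_of_injective Y.subtype_injective, hH₁card]
  obtain ⟨g, hg⟩ := Cfsg.Agent.S4116.result H hHall hTI H₂ (by rw [hH₂card]; exact fun q _ h => h)
  have hH₂eq : H₂ = H.map (MulAut.conj g).toMonoidHom := by
    apply Subgroup.eq_of_le_of_card_ge hg
    rw [Subgroup.card_map_of_injective (MulAut.conj g).injective, hH₂card]
  have hH₂Y : H₂ ≤ Y := Subgroup.map_subtype_le _
  -- move `P'` by `g⁻¹`
  set Q : Subgroup G := P'.map (MulAut.conj g⁻¹).toMonoidHom with hQ
  have hQmem : ∀ x : G, x ∈ Q ↔ g * x * g⁻¹ ∈ P' := by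
    intro x
    constructor
    · rintro ⟨y, hy, rfl⟩
      have : g * ((MulAut.conj g⁻¹).toMonoidHom y) * g⁻¹ = y := by
        simp [mul_assoc]
      rw [this]; exact hy
    · intro h
      exact ⟨_, h, by simp [mul_assoc]⟩
  have hQM : Q ≤ M := by
    intro x hx
    have h1 := hP'M ((hQmem x).1 hx)
    have := hMn.conj_mem _ h1 g⁻¹
    simpa [mul_assoc] using this
  have hQp : IsPGroup p Q := hP'p.map _
  have hHQ : H ≤ normalizer (Q : Set G) := by
    intro h hh
    apply Subgroup.mem_normalizer_fintype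
    intro x hx
    rw [SetLike.mem_coe, hQmem] at hx ⊢
    have h1 : g * h * g⁻¹ ∈ Y := hH₂Y (by rw [hH₂eq]; exact ⟨h, hh, rfl⟩)
    have h2 := (Subgroup.mem_normalizer_iff.1 h1 _).1 hx
    have e : g * (h * x * h⁻¹) * g⁻¹ = g * h * g⁻¹ * (g * x * g⁻¹) * (g * h * g⁻¹)⁻¹ := by group
    rw [e]; exact h2
  have hQne : ¬ Q ≤ centralizer (H : Set G) := by
    intro h
    have h1 : Q ≤ K := le_inf hQM h
    have h2 : Nat.card Q = p ^ (Nat.card M).factorization p := by
      rw [hQ, Subgroup.card_map_of_injective (MulAut.conj g⁻¹).injective, hP',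
        Subgroup.card_map_of_injective M.subtype_injective]
      exact P.card_eq_multiplicity
    have h3 := Subgroup.card_dvd_of_le h1
    rw [h2] at h3
    have h4 : Nat.card K * K.relIndex M = Nat.card M := by
      have := Subgroup.relIndex_mul_relIndex ⊥ K M bot_le hKM
      rwa [Subgroup.relIndex_bot_left, Subgroup.relIndex_bot_left] at this
    have h5 : p ^ ((Nat.card M).factorization p + 1) ∣ Nat.card M := by
      rw [pow_succ]
      conv_rhs => rw [← h4]
      exact mul_dvd_mul h3 hpd
    exact Nat.pow_succ_factorization_not_dvd Nat.card_pos.ne' hp h5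
  exact H71.FrobSection.exists_frobenius H Q p hQp hHQ (hcop.coprime_dvd_right (Subgroup.card_dvd_of_le hQM)) hHbot
    (fun h hh h1 => (inf_le_inf_right _ hQM).trans (hfix h hh h1)) hQne

/-- Let G be a finite group and H a subgroup that meets each of its conjugates by elements outside N_G(H) trivially and whose order is coprime to its index in N_G(H). Then H has a normal complement in N_G(H) if and only if H has a normal complement in G. Moreover, if H is not normal in G and has a normal complement in N_G(H), then H is isomorphic to a Frobenius complement of some finite Frobenius group. -/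
theorem result {G : Type u} [Group G] [Finite G] (H : Subgroup G)
    (hTI : Cfsg.IsTISubset (H : Set G)) (hHall : (Nat.card H).Coprime (H.subgroupOf (Subgroup.normalizer (H : Set G))).index) :
    ((∃ K : Subgroup (Subgroup.normalizer (H : Set G)), K.Normal ∧ K.IsComplement' (H.subgroupOf (Subgroup.normalizer (H : Set G)))) ↔
      (∃ N : Subgroup G, N.Normal ∧ N.IsComplement' H)) ∧
    (¬ H.Normal → (∃ K : Subgroup (Subgroup.normalizer (H : Set G)), K.Normal ∧ K.IsComplement' (H.subgroupOf (Subgroup.normalizer (H : Set G)))) →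
      ∃ (F : Type u) (_ : Group F) (_ : Finite F) (C : Subgroup F), Cfsg.IsFrobeniusComplement C ∧ Nonempty (H ≃* C)) := by
  have hfwd : (∃ K : Subgroup (Subgroup.normalizer (H : Set G)), K.Normal ∧ K.IsComplement' (H.subgroupOf (Subgroup.normalizer (H : Set G)))) →
      (∃ N : Subgroup G, N.Normal ∧ N.IsComplement' H) := by
    rintro ⟨K, hKn, hK⟩
    exact exists_normal_complement H _ rfl hTI hHall K hK
  refine ⟨⟨hfwd, ?_⟩, ?_⟩
  · rintro ⟨N, hNn, hN⟩
    refine ⟨N.subgroupOf (Subgroup.normalizer (H : Set G)), inferInstance, ?_⟩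
    have hHA : H ≤ Subgroup.normalizer (H : Set G) := Subgroup.le_normalizer
    apply Subgroup.isComplement'_of_disjoint_and_mul_eq_univ
    · rw [disjoint_iff, eq_bot_iff]
      rintro x ⟨hx1, hx2⟩
      have : (x : G) ∈ N ⊓ H := ⟨hx1, hx2⟩
      rw [hN.disjoint.eq_bot, Subgroup.mem_bot] at this
      exact Subtype.ext this
    · rw [Set.eq_univ_iff_forall]
      intro x
      have hx : (x : G) ∈ N ⊔ H := by rw [hN.sup_eq_top]; exact Subgroup.mem_top _
      obtain ⟨h, hh, n, hn, hnx⟩ := Subgroup.mem_sup_of_normal_right.1 (by rw [sup_comm] at hx; exact hx)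
      have hnA : n ∈ Subgroup.normalizer (H : Set G) := by
        have : n = h⁻¹ * (x : G) := by rw [← hnx]; group
        rw [this]
        exact Subgroup.mul_mem _ (Subgroup.inv_mem _ (hHA hh)) x.2
      rw [Set.mem_mul]
      refine ⟨⟨h * n * h⁻¹, Subgroup.mul_mem _ (Subgroup.mul_mem _ (hHA hh) hnA) (Subgroup.inv_mem _ (hHA hh))⟩, ?_,
        ⟨h, hHA hh⟩, hh, ?_⟩
      · exact Subgroup.mem_subgroupOf.2 (hNn.conj_mem n hn h)
      · apply Subtype.ext
        rw [← hnx]
        simp
  · intro hnn hex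
    obtain ⟨M, hMn, hM⟩ := hfwd hex
    exact exists_frobenius H M hTI (hall hTI hHall) hM hnn

end Cfsg.Agent.S4115
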