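import Mathlib
import Cfsg.Statements.S4117
import Cfsg.Agent.S0055
import Cfsg.Agent.Lib.H11.CyclicNormal
import Cfsg.Agent.Lib.H1.Coprime2

set_option autoImplicit false
open Cfsg
open scoped commutatorElement

namespace Cfsg.Agent.S4117

open H1.Coprime2

theorem comm1 {X : Type*} [Group X] (u v : X) : u⁻¹ * (v * u * v⁻¹) = ⁅u⁻¹, v⁆ := by
  rw [commutatorElement_def]; group

theorem comm2 {X : Type*} [Group X] (u v : X) : u⁻¹⁻¹ * (v * u⁻¹ * v⁻¹) = ⁅u, v⁆ := by
  rw [commutatorElement_def]; group

theorem internal {X : Type*} [Group X] [Finite X] (K A : Subgroup X) [hKn : K.Normal] [IsZGroup K]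
    (hcop : (Nat.card A).Coprime (Nat.card K)) :
    IsCyclic ↥(⁅K, A⁆ : Subgroup X) ∧ (K ⊓ Subgroup.centralizer (A : Set X)) ⊓ ⁅K, A⁆ = ⊥ ∧
      ⁅K, A⁆ ⊔ (K ⊓ Subgroup.centralizer (A : Set X)) = K ∧
      (Nat.card (K ⊓ Subgroup.centralizer (A : Set X) : Subgroup X)).Coprime
        ((K ⊓ Subgroup.centralizer (A : Set X)).relIndex K) := by
  classical
  have hAK : A ≤ Subgroup.normalizer (K : Set X) := by rw [Subgroup.normalizer_eq_top]; exact le_top
  have hsolv : Group.IsSolvable A ∨ Group.IsSolvable K := Or.inr inferInstance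
  have hMK : ⁅K, A⁆ ≤ K := commutator_le_left hAK
  -- the derived subgroup of K
  have hDcyc : IsCyclic ↥(⁅K, K⁆ : Subgroup X) := by
    have h1 : IsCyclic (commutator K) := IsZGroup.isCyclic_commutator K
    have f := Subgroup.equivMapOfInjective (commutator K) _ K.subtype_injective
    rw [Subgroup.map_subtype_commutator] at f
    exact isCyclic_of_surjective f f.surjective
  have hDn : (⁅K, K⁆ : Subgroup X).Normal := inferInstance
  have hDC : _root_.commutator X ≤ Subgroup.centralizer ((⁅K, K⁆ : Subgroup X) : Set X) :=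
    H11.CyclicNormal.commutator_le_centralizer_of_cyclic_normal ⁅K, K⁆
  have hMD : ⁅K, A⁆ ≤ Subgroup.centralizer ((⁅K, K⁆ : Subgroup X) : Set X) :=
    le_trans (by rw [_root_.commutator_def]; exact Subgroup.commutator_mono le_top le_top) hDC
  set M : Subgroup X := ⁅K, A⁆ with hM
  haveI : IsZGroup M := IsZGroup.of_injective (f := Subgroup.inclusion hMK) (Subgroup.inclusion_injective hMK)
  haveI : Group.IsNilpotent M := by
    haveI : Group.IsNilpotent (Abelianization M) := inferInstance
    apply Subgroup.isNilpotent_of_ker_le_center (Abelianization.of : M →* Abelianization M)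
    rw [Abelianization.ker_of]
    intro d hd
    rw [Subgroup.mem_center_iff]
    intro m
    have h1 : (d : X) ∈ (⁅K, K⁆ : Subgroup X) := by
      have h2 : (d : X) ∈ (commutator M).map M.subtype := ⟨d, hd, rfl⟩
      rw [Subgroup.map_subtype_commutator] at h2
      exact Subgroup.commutator_mono hMK hMK h2
    apply Subtype.ext
    exact (Subgroup.mem_centralizer_iff.1 (hMD m.2) d h1).symm
  have hMcyc : IsCyclic M := inferInstance
  refine ⟨hMcyc, ?_, commutator_sup_centralizer A K hAK hcop hsolv, ?_⟩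
  · -- intersection
    have hMA : A ≤ Subgroup.normalizer (M : Set X) := le_normalizer_commutator_right K A
    letI : CommGroup M := hMcyc.commGroup
    haveI : IsMulCommutative M := ⟨⟨fun a b => mul_comm a b⟩⟩
    have h1 := (Cfsg.Agent.S0055.result A M hMA
      (Nat.Coprime.coprime_dvd_right (Subgroup.card_dvd_of_le hMK) hcop)).1
    have h2 : ⁅M, A⁆ = M := commutator_commutator_eq A K hAK hcop hsolv
    rw [h2] at h1
    rw [eq_bot_iff, ← h1]
    intro x hx
    exact ⟨⟨hx.2, hx.1.2⟩, hx.2⟩
  · -- Hall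
    set F := K ⊓ Subgroup.centralizer (A : Set X) with hF
    apply Nat.coprime_of_dvd
    intro p hp hp1 hp2
    haveI := Fact.mk hp
    obtain ⟨U, hU⟩ := exists_isSylIn p F
    have hUA : A ≤ Subgroup.normalizer (U : Set X) := by
      have h1 : U ≤ Subgroup.centralizer (A : Set X) := hU.1.trans inf_le_right
      have h2 : A ≤ Subgroup.centralizer (U : Set X) := Subgroup.le_centralizer_iff.1 h1
      exact h2.trans (Subgroup.centralizer_le_normalizer _)
    obtain ⟨S, hS, hUS, hSA⟩ := exists_invariant_sylow_ge A K hAK hcop hsolv p U (hU.1.trans inf_le_left) hU.isPGroup hUA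
    have hScyc : IsCyclic S := by
      obtain ⟨P, hP⟩ := hS.exists_sylow
      have h1 : IsCyclic P := inferInstance
      have f := Subgroup.equivMapOfInjective (P : Subgroup K) _ K.subtype_injective
      rw [hP] at f
      exact isCyclic_of_surjective f f.surjective
    have hcopS : (Nat.card S).Coprime (Nat.card A) :=
      (Nat.Coprime.coprime_dvd_right (Subgroup.card_dvd_of_le hS.1) hcop).symm
    rcases hS.isPGroup.commutator_eq_bot_or_commutator_eq_self hSA hcopS with h | h
    · -- S ≤ F
      have hSF : S ≤ F := by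
        apply le_inf hS.1
        rw [Subgroup.commutator_eq_bot_iff_le_centralizer] at h
        exact Subgroup.le_centralizer_iff.1 h
      have h3 : F.relIndex K ∣ S.relIndex K := Subgroup.relIndex_dvd_of_le_left K hSF
      have h4 : ¬ p ∣ S.relIndex K := by
        obtain ⟨P, hP⟩ := hS.exists_sylow
        have h5 : S.relIndex K = (P : Subgroup K).index := by
          rw [← hP, Subgroup.relIndex, Subgroup.subgroupOf, Subgroup.comap_map_eq_self_of_injective K.subtype_injective]
        rw [h5]; exact P.not_dvd_index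
      exact h4 (hp2.trans h3)
    · -- S ⊓ C(A) = 1
      letI : CommGroup S := hScyc.commGroup
      haveI : IsMulCommutative S := ⟨⟨fun a b => mul_comm a b⟩⟩
      have h1 := (Cfsg.Agent.S0055.result A S hSA hcopS.symm).1
      have h2 : ⁅S, A⁆ = S := by rw [Subgroup.commutator_comm]; exact h
      rw [h2] at h1
      have h3 : U = ⊥ := by
        rw [eq_bot_iff, ← h1]
        intro x hx
        exact ⟨⟨hUS hx, (hU.1 hx).2⟩, hUS hx⟩
      have h4 := hU.2
      rw [h3, Subgroup.card_bot] at h4
      have h5 : 1 ≤ (Nat.card F).factorization p :=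
        (hp.dvd_iff_one_le_factorization Nat.card_pos.ne').1 hp1
      have h6 : 1 < p ^ (Nat.card F).factorization p := Nat.one_lt_pow (by omega) hp.one_lt
      omega

/-- Let A be a finite group acting on the finite group G by automorphisms with the orders of A and G coprime, and suppose every Sylow subgroup of G is cyclic. Then the fixed-point subgroup C_G(A) is a Hall subgroup of G (its order is coprime to its index), the subgroup [G, A] generated by the elements g⁻¹·a(g) is cyclic and normal with [G, A] ∩ C_G(A) = 1 and [G, A]·C_G(A) = G. -/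
theorem result {G A : Type*} [Group G] [Finite G] [Group A] [Finite A]
    [MulDistribMulAction A G] (hcop : (Nat.card A).Coprime (Nat.card G))
    (hcyc : ∀ (p : ℕ) [Fact p.Prime] (P : Sylow p G), IsCyclic (P : Subgroup G)) :
    (Nat.card (MulAction.fixedPoints A G : Set G)).Coprime (Nat.card G / Nat.card (MulAction.fixedPoints A G : Set G)) ∧
    IsCyclic (Subgroup.closure {y : G | ∃ (a : A) (g : G), y = g⁻¹ * a • g}) ∧
    (Subgroup.closure {y : G | ∃ (a : A) (g : G), y = g⁻¹ * a • g}).Normal ∧
    (Subgroup.closure {y : G | ∃ (a : A) (g : G), y = g⁻¹ * a • g} : Set G) ∩ MulAction.fixedPoints A G = {1} ∧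
    Subgroup.closure {y : G | ∃ (a : A) (g : G), y = g⁻¹ * a • g} ⊔ Subgroup.closure (MulAction.fixedPoints A G) = ⊤ := by
  classical
  haveI : IsZGroup G := ⟨fun p hp P => by haveI := Fact.mk hp; exact hcyc p P⟩
  let φ : A →* MulAut G := MulDistribMulAction.toMulAut A G
  let X := G ⋊[φ] A
  haveI : Finite X := Finite.of_equiv _ (SemidirectProduct.equivProd (φ := φ)).symm
  let i : G →* X := SemidirectProduct.inl
  let j : A →* X := SemidirectProduct.inr
  have hi : Function.Injective i := SemidirectProduct.inl_injective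
  have hj : Function.Injective j := SemidirectProduct.inr_injective
  have hconj : ∀ (a : A) (g : G), j a * i g * (j a)⁻¹ = i (a • g) := by
    intro a g
    rw [← map_inv]
    exact (SemidirectProduct.inl_aut (φ := φ) a g).symm
  set K : Subgroup X := i.range with hK
  set A0 : Subgroup X := j.range with hA0
  have hKn : K.Normal := by
    rw [hK]
    have : i.range = (SemidirectProduct.rightHom (φ := φ)).ker := SemidirectProduct.range_inl_eq_ker_rightHom
    rw [this]; infer_instance
  haveI : IsZGroup K := IsZGroup.of_injective (f := (MonoidHom.ofInjective hi).symm.toMonoidHom) (MulEquiv.injective _)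
  have hKcard : Nat.card K = Nat.card G := (Nat.card_congr (MonoidHom.ofInjective hi).toEquiv).symm
  have hAcard : Nat.card A0 = Nat.card A := (Nat.card_congr (MonoidHom.ofInjective hj).toEquiv).symm
  obtain ⟨h1, h2, h3, h4⟩ := internal K A0 (by rw [hKcard, hAcard]; exact hcop)
  have hfix : ∀ g : G, g ∈ MulAction.fixedPoints A G ↔ i g ∈ K ⊓ Subgroup.centralizer (A0 : Set X) := by
    intro g
    rw [MulAction.mem_fixedPoints]
    constructor
    · intro h
      refine ⟨⟨g, rfl⟩, ?_⟩
      change i g ∈ Subgroup.centralizer (A0 : Set X)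
      rw [Subgroup.mem_centralizer_iff]
      rintro _ ⟨a, rfl⟩
      have := hconj a g
      rw [h a, mul_inv_eq_iff_eq_mul] at this
      exact this
    · rintro ⟨-, h⟩ a
      have h5 := Subgroup.mem_centralizer_iff.1 h (j a) ⟨a, rfl⟩
      apply hi
      rw [← hconj, h5, mul_inv_cancel_right]
  set M := Subgroup.closure {y : G | ∃ (a : A) (g : G), y = g⁻¹ * a • g} with hM
  have hMmap : M.map i = ⁅K, A0⁆ := by
    rw [hM, MonoidHom.map_closure]
    apply le_antisymm
    · rw [Subgroup.closure_le]
      rintro _ ⟨_, ⟨a, g, rfl⟩, rfl⟩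
      have h5 : i (g⁻¹ * a • g) = ⁅i g⁻¹, j a⁆ := by
        rw [map_mul, ← hconj, map_inv]; exact comm1 _ _
      rw [h5]
      exact Subgroup.commutator_mem_commutator ⟨g⁻¹, rfl⟩ ⟨a, rfl⟩
    · rw [Subgroup.commutator_le]
      rintro _ ⟨g, rfl⟩ _ ⟨a, rfl⟩
      apply Subgroup.subset_closure
      refine ⟨g⁻¹⁻¹ * a • g⁻¹, ⟨a, g⁻¹, rfl⟩, ?_⟩
      rw [map_mul, ← hconj, map_inv, map_inv]; exact comm2 _ _
  have hMmem : ∀ g : G, g ∈ M ↔ i g ∈ ⁅K, A0⁆ := by
    intro g
    rw [← hMmap]
    constructor
    · intro h; exact ⟨g, h, rfl⟩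
    · rintro ⟨g', h, h'⟩
      rw [← hi h']; exact h
  refine ⟨?_, ?_, ?_, ?_, ?_⟩
  · have e : (MulAction.fixedPoints A G : Set G) ≃ (K ⊓ Subgroup.centralizer (A0 : Set X) : Subgroup X) :=
      Equiv.ofBijective (fun g => ⟨i g, (hfix g).1 g.2⟩) ⟨fun a b hab => Subtype.ext (hi (congrArg Subtype.val hab)), by
        rintro ⟨x, hx⟩
        obtain ⟨g, rfl⟩ := hx.1
        exact ⟨⟨g, (hfix g).2 hx⟩, rfl⟩⟩
    rw [Nat.card_congr e]
    have h5 : Nat.card G / Nat.card (K ⊓ Subgroup.centralizer (A0 : Set X) : Subgroup X) =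
        (K ⊓ Subgroup.centralizer (A0 : Set X)).relIndex K := by
      rw [← hKcard]
      apply Nat.div_eq_of_eq_mul_right Nat.card_pos
      have h6 := ((K ⊓ Subgroup.centralizer (A0 : Set X)).subgroupOf K).card_mul_index
      rw [H1.SZ.card_subgroupOf_of_le inf_le_left] at h6
      exact h6.symm
    rw [h5]; exact h4
  · have f := Subgroup.equivMapOfInjective M i hi
    rw [hMmap] at f
    exact isCyclic_of_surjective f.symm f.symm.surjective
  · refine ⟨fun m hm g => ?_⟩
    rw [hMmem] at hm ⊢
    rw [map_mul, map_mul, map_inv]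
    exact (Subgroup.mem_normalizer_iff.1 (le_normalizer_commutator_left K A0 ⟨g, rfl⟩) _).1 hm
  · ext g
    constructor
    · rintro ⟨hg1, hg2⟩
      have h5 : i g ∈ (K ⊓ Subgroup.centralizer (A0 : Set X)) ⊓ ⁅K, A0⁆ := ⟨(hfix g).1 hg2, (hMmem g).1 hg1⟩
      rw [h2, Subgroup.mem_bot] at h5
      rw [Set.mem_singleton_iff]
      apply hi
      rw [h5, map_one]
    · rintro rfl
      exact ⟨M.one_mem, fun a => smul_one a⟩
  · rw [eq_top_iff]
    intro g _
    obtain ⟨x, hx, c, hc, hxc⟩ := exists_mul_of_mem A0 K (by rw [Subgroup.normalizer_eq_top]; exact le_top)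
      (by rw [hKcard, hAcard]; exact hcop) (Or.inr inferInstance) (k := i g) ⟨g, rfl⟩
    obtain ⟨x', rfl⟩ := (commutator_le_left (A := A0) (K := K) (by rw [Subgroup.normalizer_eq_top]; exact le_top)) hx
    obtain ⟨c', rfl⟩ := hc.1
    have h5 : g = x' * c' := hi (by rw [map_mul]; exact hxc)
    rw [h5]
    exact Subgroup.mul_mem _ ((le_sup_left : M ≤ _) ((hMmem x').2 hx))
      ((le_sup_right : Subgroup.closure (MulAction.fixedPoints A G) ≤ _) (Subgroup.subset_closure ((hfix c').2 hc)))

end Cfsg.Agent.S4117
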