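import Mathlib
import Cfsg.Statements.S4118
import Cfsg.Agent.S4115
import Cfsg.Agent.Lib.H71.SepTI
import Cfsg.Agent.Lib.H71.PerfAct
import Cfsg.Agent.Lib.H74.NonSolv3
import Cfsg.Agent.Lib.H74.FC

set_option autoImplicit false
open Cfsg

namespace Cfsg.Agent.S4118

open Subgroup

universe u

/-- a subgroup isomorphic to a Frobenius complement (in any universe) satisfies `IsFC` -/
theorem isFC_of_complement {H : Type*} [Group H] [Finite H] [Nontrivial H] {L : Type*} [Group L] [Finite L] (C : Subgroup L)
    (hH : Cfsg.IsFrobeniusComplement C) (e : H ≃* C) : H74.FrobC.IsFC H := by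
  obtain ⟨N, hN, hNn, hc⟩ := H1.FrobThm.frobenius_kernel hH.2.2
  have hNbot : N ≠ ⊥ := by
    rintro rfl
    apply hH.2.1
    have := hc.symm
    rw [Subgroup.isComplement'_bot_right] at this
    exact this
  have h1 := (H1.Frob.isFrobeniusComplement_iff N C hc hNbot hH.1).mp hH
  have : Nontrivial N := (Subgroup.nontrivial_iff_ne_bot N).mpr hNbot
  apply H74.FrobC.FC_of_fpf (K := N) ((MulAut.conjNormal.comp C.subtype).comp e.toMonoidHom)
  intro g hg k hk
  have h2 := h1 (e g) (e g).2 (by
    intro h3
    apply hg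
    apply e.injective
    rw [map_one]; exact Subtype.ext h3)
  have h3 : (k : L) ∈ N ⊓ Subgroup.centralizer {((e g : C) : L)} := by
    refine Subgroup.mem_inf.mpr ⟨k.2, ?_⟩
    rw [Subgroup.mem_centralizer_singleton_iff]
    have := congrArg Subtype.val hk
    simp only [MonoidHom.comp_apply, MulEquiv.coe_toMonoidHom, Subgroup.subtype_apply, MulAut.conjNormal_apply] at this
    rw [mul_inv_eq_iff_eq_mul] at this
    exact this.symm
  rw [h2] at h3
  exact Subtype.ext h3

/-- if `H` is a nonnormal TI Hall subgroup with `O H ⊴ G`, `O ⊴ G` of order coprime to `|H|`, then `H` is a Frobenius complement -/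
theorem isFC_H {G : Type u} [Group G] [Finite G] (H : Subgroup G) (hTI : Cfsg.IsTISubset (H : Set G)) (hnn : ¬ H.Normal)
    (hHall : (Nat.card H).Coprime H.index) (O : Subgroup G) [O.Normal] (hOc : (Nat.card O).Coprime (Nat.card H))
    (hX : (O ⊔ H).Normal) : H74.FrobC.IsFC H := by
  set X := O ⊔ H with hXdef
  have hHX : H ≤ X := le_sup_right
  have hOX : O ≤ X := le_sup_left
  have hOH : O ⊓ H = ⊥ := (Subgroup.disjoint_of_coprime_natCard hOc).eq_bot
  have hHbot : H ≠ ⊥ := by
    rintro rfl
    exact hnn inferInstance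
  have e1 : Nat.card (H.subgroupOf X) = Nat.card H := Nat.card_congr (Subgroup.subgroupOfEquivOfLe hHX).toEquiv
  have e2 : Nat.card (O.subgroupOf X) = Nat.card O := Nat.card_congr (Subgroup.subgroupOfEquivOfLe hOX).toEquiv
  have hidx : (H.subgroupOf X).index ∣ H.index := ⟨_, (Subgroup.relIndex_mul_index hHX).symm⟩
  have hHall' : (Nat.card (H.subgroupOf X)).Coprime (H.subgroupOf X).index := by
    rw [e1]; exact hHall.coprime_dvd_right hidx
  have hTI' : Cfsg.IsTISubset ((H.subgroupOf X : Subgroup X) : Set X) := by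
    intro g hg x hx hgx
    by_contra hx1
    apply hg
    have hgN : (g : G) ∈ normalizer (H : Set G) := by
      by_contra hcon
      have := hTI g hcon x hx (by simpa [Subgroup.mem_subgroupOf] using hgx)
      exact hx1 (Subtype.ext this)
    apply Subgroup.mem_normalizer_fintype
    intro y hy
    have := (Subgroup.mem_normalizer_iff.mp hgN (y : G)).mp hy
    simpa [Subgroup.mem_subgroupOf] using this
  have hnn' : ¬ (H.subgroupOf X).Normal := by
    intro hn
    apply hnn
    constructor
    intro h hh g
    have hmem : g * h * g⁻¹ ∈ X := hX.conj_mem h (hHX hh) g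
    have : (⟨g * h * g⁻¹, hmem⟩ : X) ∈ H.subgroupOf X := by
      apply H71.Basic2.mem_of_orderOf_coprime_index
      rw [Subgroup.orderOf_mk]
      have h1 : orderOf (g * h * g⁻¹) = orderOf h := by
        have := orderOf_injective (MulAut.conj g).toMonoidHom (MulAut.conj g).injective h
        simpa using this
      rw [h1]
      rw [e1] at hHall'
      exact hHall'.coprime_dvd_left (Subgroup.orderOf_dvd_natCard H hh)
    exact this
  have hc : (O.subgroupOf X).IsComplement' (H.subgroupOf X) := by
    apply Subgroup.isComplement'_of_coprime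
    · rw [e1, e2]
      have h1 := H71.SepTI.card_mul_relIndex' hOX
      have h2 : O.relIndex X = Nat.card H := by
        have h7 : O.relIndex (H ⊔ O) = O.relIndex H := Subgroup.relIndex_sup_right _ _
        rw [hXdef, sup_comm, h7]
        have := Subgroup.inf_relIndex_right O H
        rw [hOH, Subgroup.relIndex_bot_left] at this
        exact this.symm
      rw [h2] at h1
      exact h1
    · rw [e1, e2]; exact hOc
  obtain ⟨F, _, _, C, hC, ⟨e⟩⟩ := Cfsg.Agent.S4115.exists_frobenius (H.subgroupOf X) (O.subgroupOf X) hTI' hHall' hc hnn'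
  have hnt : Nontrivial H := (Subgroup.nontrivial_iff_ne_bot H).mpr hHbot
  exact isFC_of_complement C hC ((Subgroup.subgroupOfEquivOfLe hHX).symm.trans e)

theorem solvable_of_section {G : Type*} [Group G] [Finite G] (H : Subgroup G) (hFC : H74.FrobC.IsFC H)
    (hHall : (Nat.card H).Coprime H.index) (O : Subgroup G) [hOn : O.Normal] (hOc : (Nat.card O).Coprime (Nat.card H))
    (hX : (O ⊔ H).Normal) (hOm : ∀ K : Subgroup G, K.Normal → (Nat.card K).Coprime (Nat.card H) → K ≤ O)
    (hOs : Group.IsSolvable O) (hHs : Group.IsSolvable H) : Group.IsSolvable G := by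
  set π := QuotientGroup.mk' O with hπ
  have hπs : Function.Surjective π := QuotientGroup.mk'_surjective O
  have hOH : O ⊓ H = ⊥ := (Subgroup.disjoint_of_coprime_natCard hOc).eq_bot
  set H' := H.map π with hH'
  have hH'eq : H' = (O ⊔ H).map π := by
    rw [Subgroup.map_sup, (Subgroup.map_eq_bot_iff O).mpr (by rw [hπ, QuotientGroup.ker_mk']), bot_sup_eq]
  have hH'n : H'.Normal := by
    rw [hH'eq]; exact hX.map _ hπs
  have hinj : Function.Injective (π.subgroupMap H) := by
    rw [injective_iff_map_eq_one]
    intro x hx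
    have h1 : π (x : G) = 1 := congrArg Subtype.val hx
    rw [hπ, QuotientGroup.mk'_apply, QuotientGroup.eq_one_iff] at h1
    have h2 : (x : G) ∈ O ⊓ H := ⟨h1, x.2⟩
    rw [hOH] at h2
    exact Subtype.ext h2
  let e : H ≃* H' := MulEquiv.ofBijective (π.subgroupMap H) ⟨hinj, π.subgroupMap_surjective H⟩
  have hcard : Nat.card H' = Nat.card H := Nat.card_congr e.symm.toEquiv
  have hidx : H'.index ∣ H.index := by
    have h1 : H'.index = (O ⊔ H).index := by
      rw [hH'eq, Subgroup.index_map_eq _ hπs (by rw [hπ, QuotientGroup.ker_mk']; exact le_sup_left)]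
    rw [h1]
    exact Subgroup.index_dvd_of_le le_sup_right
  have hHall' : (Nat.card H').Coprime H'.index := by
    rw [hcard]; exact hHall.coprime_dvd_right hidx
  have hcl := H71.PerfAct.centralizer_le H' hHall' (by
    intro D hDn hDc
    have h1 : D.comap π ≤ O := by
      apply hOm _ (hDn.comap _)
      rw [hπ, H1.Cores.card_comap_mk']
      rw [hcard] at hDc
      exact Nat.Coprime.mul_left hOc hDc
    rw [← Subgroup.map_comap_eq_self_of_surjective hπs D, Subgroup.map_eq_bot_iff]
    rw [hπ, QuotientGroup.ker_mk']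
    exact h1)
  have hH's : Group.IsSolvable H' := Group.isSolvable_of_surjective (f := e.toMonoidHom) e.surjective
  have hR : ∀ (p : ℕ) [Fact p.Prime] (P : Subgroup H'), IsPGroup p P →
      IsCyclic P ∨ (p = 2 ∧ ∃ n, Nonempty (P ≃* QuaternionGroup (2 ^ n))) := by
    intro p _ P hP
    have e' : P ≃* P.map e.symm.toMonoidHom := P.equivMapOfInjective _ e.symm.injective
    rcases H74.FC.pgroup hFC p (P.map e.symm.toMonoidHom) (hP.map _) with h | ⟨h2, m, ⟨h⟩⟩
    · left; exact isCyclic_of_injective e'.toMonoidHom e'.injective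
    · right; exact ⟨h2, m, ⟨e'.trans h⟩⟩
  by_contra hG
  have hΓ : ¬ Group.IsSolvable (G ⧸ O) := by
    intro h
    exact hG (Group.isSolvable_of_ker_le_range O.subtype π (by rw [hπ, QuotientGroup.ker_mk', Subgroup.range_subtype]))
  obtain ⟨K, hK, hKp⟩ := H74.NonSolv3.exists_perfect _ (G ⧸ O) rfl hΓ
  have hKc : K ≤ centralizer (H' : Set (G ⧸ O)) := by
    intro k hk
    rw [Subgroup.mem_centralizer_iff]
    intro h hh
    have := H71.PerfAct.act_trivial hKp _ H' rfl hH's hR (MulAut.conjNormal.comp K.subtype) ⟨k, hk⟩ ⟨h, hh⟩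
    have h1 := congrArg Subtype.val this
    simp only [MonoidHom.comp_apply, Subgroup.subtype_apply, MulAut.conjNormal_apply] at h1
    rw [mul_inv_eq_iff_eq_mul] at h1
    exact h1.symm
  have hKH : K ≤ H' := hKc.trans hcl
  have hKs : Group.IsSolvable K := Group.isSolvable_of_isSolvable_injective (Subgroup.inclusion_injective hKH)
  have hKn : Nontrivial K := (Subgroup.nontrivial_iff_ne_bot K).mpr hK
  exact H74.Perf.not_solvable hKp hKs

/-- Let G be a finite group and H a non-normal subgroup meeting each of its conjugates by elements outside N_G(H) trivially, with the order of H coprime to its index in N_G(H); let π be the set of primes dividing the order of H and suppose G is π-separable (it has a chain of normal subgroups from 1 to G each of whose factors has order divisible only by primes in π or coprime to the order of H). Let O be the largest normal subgroup of G of order coprime to the order of H. Then G = O·N_G(H), O·H is normal in G, and G is solvable if and only if O is solvable and H has no subgroup isomorphic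 to SL₂(5). -/
theorem result {G : Type*} [Group G] [Finite G] (H : Subgroup G)
    (hTI : Cfsg.IsTISubset (H : Set G)) (hnn : ¬ H.Normal)
    (hHall : (Nat.card H).Coprime (H.subgroupOf (Subgroup.normalizer (H : Set G))).index)
    (hsep : ∃ (n : ℕ) (M : Fin (n + 1) → Subgroup G), M 0 = ⊥ ∧ M (Fin.last n) = ⊤ ∧ Monotone M ∧ (∀ i, (M i).Normal) ∧
      ∀ i : Fin n, (∀ q : ℕ, q.Prime → q ∣ (M i.castSucc).relIndex (M i.succ) → q ∣ Nat.card H) ∨
        ((M i.castSucc).relIndex (M i.succ)).Coprime (Nat.card H))
    (O : Subgroup G) (hO : O = sSup {K : Subgroup G | K.Normal ∧ (Nat.card K).Coprime (Nat.card H)}) :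
    O ⊔ Subgroup.normalizer (H : Set G) = ⊤ ∧ (O ⊔ H).Normal ∧
    (Group.IsSolvable G ↔ Group.IsSolvable O ∧
      ∀ K : Subgroup G, K ≤ H → ¬ Nonempty (K ≃* Matrix.SpecialLinearGroup (Fin 2) (ZMod 5))) := by
  have hH := Cfsg.Agent.S4115.hall hTI hHall
  have hOmem : O ∈ {K : Subgroup G | K.Normal ∧ (Nat.card K).Coprime (Nat.card H)} := by
    rw [hO]
    apply H1.Cores.sSup_mem_of_sup_closed
    · exact ⟨inferInstance, by simp⟩
    · rintro A ⟨hA, hA'⟩ B ⟨hB, hB'⟩
      exact ⟨inferInstance, Nat.Coprime.coprime_dvd_left (H1.Cores.card_sup_dvd_mul A B)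
        (Nat.Coprime.mul_left hA' hB')⟩
  obtain ⟨hOn, hOc⟩ := hOmem
  have hOm : ∀ K : Subgroup G, K.Normal → (Nat.card K).Coprime (Nat.card H) → K ≤ O := by
    intro K hK hKc
    rw [hO]
    exact le_sSup ⟨hK, hKc⟩
  obtain ⟨h1, h2⟩ := H71.SepTI.part_one H hTI hnn hH hsep O hOc hOm
  refine ⟨h1, h2, ?_⟩
  have hFC := isFC_H H hTI hnn hH O hOc h2
  constructor
  · intro hG
    refine ⟨inferInstance, ?_⟩
    rintro K hK ⟨e⟩
    have hKs : Group.IsSolvable K := inferInstance
    have hSn : Nontrivial (Matrix.SpecialLinearGroup (Fin 2) (ZMod 5)) := by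
      refine ⟨⟨⟨!![1, 1; 0, 1], by decide⟩, 1, ?_⟩⟩
      intro h
      have := congrFun (congrFun (congrArg Subtype.val h) 0) 1
      exact absurd this (by decide)
    have hKn : Nontrivial K := e.toEquiv.nontrivial
    exact H74.Perf.not_solvable (H74.NonSolv.perfect_of_equiv e) hKs
  · rintro ⟨hOs, hK⟩
    have hHs : Group.IsSolvable H := by
      by_contra hns
      obtain ⟨e⟩ := H74.NonSolv3.closure_iso hFC hns
      apply hK ((Subgroup.closure {x : H | orderOf x = 3}).map H.subtype) (Subgroup.map_subtype_le _)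
      exact ⟨((Subgroup.closure {x : H | orderOf x = 3}).equivMapOfInjective _ H.subtype_injective).symm.trans e⟩
    exact solvable_of_section H hFC hH O hOc h2 hOm hOs hHs

end Cfsg.Agent.S4118
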