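import Mathlib
import Cfsg.Statements.S4125
import Cfsg.Agent.Lib.H71.Baer11
import Cfsg.Agent.Lib.H71.PerfAct
import Cfsg.Agent.S0205

set_option autoImplicit false
open Cfsg

namespace Cfsg.Agent.S4125

open H71.Baer1 H71.Baer2 H71.Baer3

theorem quot_solvable {G : Type*} [Group G] [Finite G] {p q : ℕ} [hp : Fact p.Prime] [hq : Fact q.Prime] (hpq : p ≠ q)
    (hall : ∀ x : G, IsQ q x → ∃ a, sz x = p ^ a) (Q : Sylow q G) (h : (pPrimeCore q G).Normal) :
    Group.IsSolvable (G ⧸ pPrimeCore q G) := by
  set R := pPrimeCore q G with hR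
  set π := QuotientGroup.mk' R with hπ
  have hsurj : Function.Surjective π := QuotientGroup.mk'_surjective R
  set N := (Q : Subgroup G).map π with hNdef
  have hNQ : N = (Q.mapSurjective hsurj : Subgroup (G ⧸ R)) := rfl
  have hNn : N.Normal := by
    have h1 := (sup_normal' hpq hall Q).map π hsurj
    rw [Subgroup.map_sup] at h1
    have h2 : (pPrimeCore q G).map π = ⊥ := by
      rw [Subgroup.map_eq_bot_iff, QuotientGroup.ker_mk']
    rwa [h2, bot_sup_eq] at h1
  have hNc : IsMulCommutative N := by
    have := comm_Q hpq hall Q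
    exact Subgroup.map_isMulCommutative _ _
  have hNp : IsPGroup q N := Q.isPGroup'.map π
  have hNi : ¬ q ∣ N.index := by
    rw [hNQ]; exact (Q.mapSurjective hsurj).not_dvd_index
  obtain ⟨m, hm⟩ := IsPGroup.iff_card.mp hNp
  have hqi : q.Coprime N.index := (Nat.Prime.coprime_iff_not_dvd hq.out).mpr hNi
  have hcent : Subgroup.centralizer (N : Set (G ⧸ R)) ≤ N := by
    apply H71.PerfAct.centralizer_le
    · rw [hm]; exact Nat.Coprime.pow_left m hqi
    · intro D hD hDc
      have h1 : pPrimeCore q (G ⧸ R) = ⊥ := H1.Cores.pPrimeCore_quotient_pPrimeCore q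
      rw [eq_bot_iff, ← h1]
      apply H1.Cores.le_pPrimeCore hD
      by_cases hm0 : m = 0
      · -- `Q` is trivial
        have h2 : Nat.card (G ⧸ R) = N.index := by
          rw [← N.card_mul_index, hm, hm0, pow_zero, one_mul]
        exact Nat.Coprime.coprime_dvd_left (Subgroup.card_subgroup_dvd_card D) (by rw [h2]; exact hqi.symm)
      · rw [hm] at hDc
        exact (Nat.coprime_pow_right_iff (Nat.pos_of_ne_zero hm0) _ _).mp hDc
  refine H71.Baer11.isSolvable_of (fun {H} _ _ hH => Cfsg.Agent.S0205.result hH) hpq N hNp hNi hNc hcent ?_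
  rintro _ ⟨x, hx, rfl⟩
  obtain ⟨a, ha⟩ := hall x (isQ_mem hx)
  have h1 := H70.ClassSize.index_centralizer_map_dvd π hsurj x
  rw [show (Subgroup.centralizer ({x} : Set G)).index = p ^ a from ha] at h1
  obtain ⟨j, _, hj⟩ := (Nat.dvd_prime_pow hp.out).mp h1
  exact ⟨j, hj⟩

/-- Let G be a finite group and q a prime dividing its order such that every element of q-power order has a conjugacy class of prime-power size. Then G is q-solvable of q-length 1: there are normal subgroups K ≤ L of G with K of order prime to q, L/K a q-group and L of index prime to q. Moreover there is a prime p such that every element of q-power order has a class of p-power size (one prime serving for all of them), and for a Sylow q-subgroup Q: if p = q then Q is normal with a normal complement (a direct factor), while if p ≠ q then Q is abelian, the product of Q with the largest normal p-subgroup O_p(G) is normal in G, and G/O_{q'}(G) is solvable, where O_{q'}(G) is the largest normal subgroup of order prime to q. -/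
theorem result {G : Type*} [Group G] [Finite G] (q : ℕ) [Fact q.Prime] (hq : q ∣ Nat.card G)
    (hBaer : ∀ x : G, (∃ k : ℕ, orderOf x = q ^ k) → ∃ (r : ℕ) (a : ℕ), r.Prime ∧ (Subgroup.centralizer ({x} : Set G)).index = r ^ a) (Q : Sylow q G) :
    (∃ K L : Subgroup G, K.Normal ∧ L.Normal ∧ K ≤ L ∧ (Nat.card K).Coprime q ∧ (∃ m : ℕ, K.relIndex L = q ^ m) ∧ L.index.Coprime q) ∧
    ∃ p : ℕ, p.Prime ∧ (∀ x : G, (∃ k : ℕ, orderOf x = q ^ k) → ∃ a : ℕ, (Subgroup.centralizer ({x} : Set G)).index = p ^ a) ∧
      (p = q → (Q : Subgroup G).Normal ∧ ∃ N : Subgroup G, N.Normal ∧ N.IsComplement' (Q : Subgroup G)) ∧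
      (p ≠ q → IsMulCommutative (Q : Subgroup G) ∧ (Cfsg.pCore p G ⊔ (Q : Subgroup G)).Normal ∧
        ∀ _h : (Cfsg.pPrimeCore q G).Normal, Group.IsSolvable (G ⧸ Cfsg.pPrimeCore q G)) := by
  have _ := hq
  obtain ⟨p, hp, hall⟩ := exists_unique_prime (G := G) (q := q) hBaer
  have := Fact.mk hp
  refine ⟨?_, p, hp, hall, ?_, ?_⟩
  · apply exists_series Q
    by_cases hpq : p = q
    · subst hpq
      have h1 := (case_eq hall Q).1
      infer_instance
    · exact sup_normal' hpq hall Q
  · rintro rfl
    exact case_eq hall Q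
  · intro hpq
    exact ⟨comm_Q hpq hall Q, sup_normal hpq hall Q, fun h => quot_solvable hpq hall Q h⟩

end Cfsg.Agent.S4125
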