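import Mathlib
import Cfsg.Statements.S4126
import Cfsg.Agent.Lib.H71.PClass
import Cfsg.Agent.Lib.H38.SmallExp
import Cfsg.Agent.Lib.H1.Coprime2
import Cfsg.Agent.Lib.H2.Frobenius

set_option autoImplicit false
open Cfsg
open scoped commutatorElement

namespace Cfsg.Agent.S4126

/-- Let G be a finite group and p a prime. Suppose every element of order p, and when p = 2 also every element of order 4, has a conjugacy class of p-power size. Then G has a normal p-complement. -/
theorem result {G : Type*} [Group G] [Finite G] (p : ℕ) [Fact p.Prime]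
    (h : ∀ x : G, (orderOf x = p ∨ (p = 2 ∧ orderOf x = 4)) → ∃ a : ℕ, (Subgroup.centralizer ({x} : Set G)).index = p ^ a) :
    Cfsg.HasNormalPComplement p G := by
  classical
  have hp : p.Prime := Fact.out
  apply H2.Frobenius.hasNPC_of_local
  intro D hD g hgN hgo
  by_contra hgC
  obtain ⟨E, hED, hEN, hEb, hEcl, hEexp⟩ := H38.SmallExp.exists_smallExp hD hgN hgo hgC
  -- class sizes of elements of E
  have hE : ∀ x ∈ E, (∃ k, orderOf x = p ^ k) ∧ ∃ a : ℕ, (Subgroup.centralizer ({x} : Set G)).index = p ^ a := by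
    intro x hx
    refine ⟨?_, ?_⟩
    · obtain ⟨k, hk⟩ := (IsPGroup.iff_orderOf.1 hD) ⟨x, hED hx⟩
      exact ⟨k, by rw [← hk, Subgroup.orderOf_mk]⟩
    · by_cases hx1 : x = 1
      · refine ⟨0, ?_⟩
        rw [hx1, pow_zero, Subgroup.index_eq_one, eq_top_iff]
        intro y _
        rw [Subgroup.mem_centralizer_singleton_iff, mul_one, one_mul]
      apply h
      rcases H38.SmallExp.ex_iff.1 (hEexp x hx) with h1 | ⟨h2, h4⟩
      · left; exact orderOf_eq_prime h1 hx1
      · have h5 : orderOf x ∣ 2 ^ 2 := orderOf_dvd_of_pow_eq_one (by norm_num; exact h4)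
        obtain ⟨m, hm, hm'⟩ := (Nat.dvd_prime_pow Nat.prime_two).1 h5
        have h6 : m = 0 ∨ m = 1 ∨ m = 2 := by omega
        rcases h6 with rfl | rfl | rfl
        · rw [pow_zero, orderOf_eq_one_iff] at hm'; exact absurd hm' hx1
        · left; rw [hm', h2, pow_one]
        · right; exact ⟨h2, by rw [hm']; norm_num⟩
  obtain ⟨P⟩ : Nonempty (Sylow p G) := inferInstance
  -- conjugates under G are conjugates under P
  have hconj : ∀ x ∈ E, ∀ k : G, ∃ u ∈ (P : Subgroup G), k * x * k⁻¹ = u * x * u⁻¹ := by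
    intro x hx k
    obtain ⟨-, a, ha⟩ := hE x hx
    have hcop : (Subgroup.centralizer ({x} : Set G)).index.Coprime (P : Subgroup G).index := by
      rw [ha]
      exact Nat.Coprime.pow_left a ((hp.coprime_iff_not_dvd).2 P.not_dvd_index)
    obtain ⟨b, hb, c, hc, hbc⟩ := H72.CoprimeIndex.exists_mul_of_coprime_index _ _ hcop k
    refine ⟨b, hb, ?_⟩
    have h1 : c * x = x * c := Subgroup.mem_centralizer_singleton_iff.1 hc
    rw [hbc]
    calc b * c * x * (b * c)⁻¹ = b * (c * x) * c⁻¹ * b⁻¹ := by group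
      _ = b * (x * c) * c⁻¹ * b⁻¹ := by rw [h1]
      _ = _ := by group
  -- E lies in P together with its normal closure
  have hle : ∀ (M : Subgroup G) [M.Normal], IsPGroup p M → M ≤ (P : Subgroup G) := by
    intro M hM hMp
    obtain ⟨Q, hQ⟩ := hMp.exists_le_sylow
    obtain ⟨c, hc⟩ := MulAction.exists_smul_eq G Q P
    intro y hy
    rw [← hc, Sylow.coe_subgroup_smul, Subgroup.mem_pointwise_smul_iff_inv_smul_mem, ← map_inv, MulAut.smul_def,
      MulAut.conj_apply]
    exact hQ (hM.conj_mem y hy c⁻¹)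
  have hEP : ∀ x ∈ E, ∀ k : G, k * x * k⁻¹ ∈ (P : Subgroup G) := by
    intro x hx k
    obtain ⟨hx1, a, ha⟩ := hE x hx
    apply hle (Subgroup.normalClosure {x}) (H71.PClass.isPGroup_normalClosure x hx1 ha)
    have hn : (Subgroup.normalClosure ({x} : Set G)).Normal := inferInstance
    exact hn.conj_mem x (Subgroup.subset_normalClosure (Set.mem_singleton x)) k
  set N := Subgroup.normalClosure (E : Set G) with hN
  have hEN' : E ≤ N := Subgroup.subset_normalClosure
  have hNP : N ≤ (P : Subgroup G) := by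
    rw [hN, Subgroup.normalClosure, Subgroup.closure_le]
    intro y hy
    obtain ⟨x, hx, hy'⟩ := Group.mem_conjugatesOfSet_iff.1 hy
    obtain ⟨k, hk⟩ := isConj_iff.1 hy'
    rw [← hk]
    exact hEP x hx k
  have hNb : N ≠ ⊥ := by
    intro h1
    apply hEb
    rw [eq_bot_iff, ← h1]
    exact hEN'
  have hlt : ⁅N, (P : Subgroup G)⁆ < N := by
    apply H1.Coprime2.commutator_lt_of_isPGroup P.isPGroup' (P.isPGroup'.to_le hNP) _ hNb
    rw [Subgroup.normalizer_eq_top]
    exact le_top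
  -- but N ≤ [N, P]
  have hNle : N ≤ ⁅N, (P : Subgroup G)⁆ := by
    have hcl : Subgroup.closure (Group.conjugatesOfSet (E : Set G)) ≤ ⁅N, (P : Subgroup G)⁆ → N ≤ ⁅N, (P : Subgroup G)⁆ :=
      fun h => h
    apply hcl
    rw [Subgroup.closure_le]
    intro y hy
    obtain ⟨x, hx, hy'⟩ := Group.mem_conjugatesOfSet_iff.1 hy
    obtain ⟨k, hk⟩ := isConj_iff.1 hy'
    rw [← hk]
    -- the elements e of E with k e k⁻¹ ∈ [N,P]
    have h1 : E ≤ (⁅N, (P : Subgroup G)⁆).comap (MulAut.conj k).toMonoidHom := by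
      rw [← hEcl, Subgroup.closure_le]
      rintro _ ⟨e, he, rfl⟩
      obtain ⟨u, hu, hu'⟩ := hconj e he k
      obtain ⟨v, hv, hv'⟩ := hconj e he (k * g)
      change k * (e⁻¹ * (g * e * g⁻¹)) * k⁻¹ ∈ ⁅N, (P : Subgroup G)⁆
      have h2 : k * (e⁻¹ * (g * e * g⁻¹)) * k⁻¹ = ⁅e⁻¹, u⁆⁻¹ * ⁅e⁻¹, v⁆ := by
        calc k * (e⁻¹ * (g * e * g⁻¹)) * k⁻¹ = (k * e * k⁻¹)⁻¹ * ((k * g) * e * (k * g)⁻¹) := by group
          _ = (u * e * u⁻¹)⁻¹ * (v * e * v⁻¹) := by rw [hu', hv']
          _ = _ := by simp only [commutatorElement_def]; group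
      rw [h2]
      exact Subgroup.mul_mem _ (Subgroup.inv_mem _ (Subgroup.commutator_mem_commutator (N.inv_mem (hEN' he)) hu))
        (Subgroup.commutator_mem_commutator (N.inv_mem (hEN' he)) hv)
    exact h1 hx
  exact absurd hNle (not_le_of_gt hlt)

end Cfsg.Agent.S4126
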