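import Mathlib
import Cfsg.Statements.S4127
import Cfsg.Agent.Lib.H71.PClass
import Cfsg.Agent.Lib.H1.Coprime2
import Cfsg.Agent.Lib.H2.NPC

set_option autoImplicit false
open Cfsg

namespace Cfsg.Agent.S4127

/-- Let G be a finite group, p a prime and p^a the largest power of p dividing the size of any conjugacy class of G. If some element of p-power order has a conjugacy class of size exactly p^a, then G has a normal p-complement. -/
theorem result {G : Type*} [Group G] [Finite G] (p : ℕ) [Fact p.Prime]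
    (a : ℕ) (hmax : ∀ y : G, ¬ p ^ (a + 1) ∣ (Subgroup.centralizer ({y} : Set G)).index)
    (hx : ∃ x : G, (∃ k : ℕ, orderOf x = p ^ k) ∧ (Subgroup.centralizer ({x} : Set G)).index = p ^ a) :
    Cfsg.HasNormalPComplement p G := by
  classical
  have hp : p.Prime := Fact.out
  obtain ⟨x, hxk, hxa⟩ := hx
  set C := Subgroup.centralizer ({x} : Set G) with hC
  -- the structure of C
  obtain ⟨P, K, hPn, hPK, hKP⟩ := H71.PClass.exists_direct (G := C) (p := p) (by
    rintro ⟨y, hyC⟩ hy hdvd
    rw [Subgroup.orderOf_mk] at hy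
    have hcomm : x * y = y * x := (Subgroup.mem_centralizer_singleton_iff.1 hyC).symm
    have hcop : (orderOf x).Coprime (orderOf y) := by
      obtain ⟨k, hk⟩ := hxk
      rw [hk]
      exact Nat.Coprime.pow_left k ((hp.coprime_iff_not_dvd).2 hy)
    have h1 := H72.ClassSize.cent_mul_of_coprime hcomm hcop
    apply hmax (x * y)
    rw [h1, ← hC, inf_comm]
    have h2 : (Subgroup.centralizer ({y} : Set G) ⊓ C).index = (Subgroup.centralizer ({y} : Set G)).relIndex C * C.index := by
      rw [← Subgroup.inf_relIndex_right, Subgroup.relIndex_mul_index inf_le_right]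
    rw [h2, hxa, pow_succ']
    apply Nat.mul_dvd_mul_right
    have h3 : Subgroup.centralizer ({(⟨y, hyC⟩ : C)} : Set C) = (Subgroup.centralizer ({y} : Set G)).subgroupOf C := by
      ext z
      rw [Subgroup.mem_subgroupOf, Subgroup.mem_centralizer_singleton_iff, Subgroup.mem_centralizer_singleton_iff]
      exact Subtype.ext_iff
    rw [h3] at hdvd
    exact hdvd)
  have hdec : ∀ g : C, ∃ u ∈ (P : Subgroup C), ∃ k ∈ K, g = u * k ∧ u * k = k * u := by
    intro g
    obtain ⟨⟨⟨u, hu⟩, ⟨k, hk⟩⟩, hg⟩ := hPK.2 g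
    exact ⟨u, hu, k, hk, hg.symm, Subgroup.mem_centralizer_iff.1 (hKP hk) u hu⟩
  have hKnd : ¬ p ∣ Nat.card K := by
    rw [← hPK.symm.index_eq_card]
    exact P.not_dvd_index
  have hPord : ∀ u ∈ (P : Subgroup C), ∃ k, orderOf u = p ^ k := by
    intro d hd
    obtain ⟨k, hk⟩ := (IsPGroup.iff_orderOf.1 P.isPGroup') ⟨d, hd⟩
    exact ⟨k, by rw [← hk]; exact (Subgroup.orderOf_mk d hd).symm⟩
  have hKord : ∀ k ∈ K, (orderOf k).Coprime p := by
    intro k hk
    exact ((hp.coprime_iff_not_dvd).2 (fun h => hKnd (h.trans (Subgroup.orderOf_dvd_natCard K hk)))).symm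
  -- p-elements of C are in P, p'-elements in K
  have hP_of : ∀ g : C, (∃ k, orderOf g = p ^ k) → g ∈ (P : Subgroup C) := by
    intro g ⟨m, hg⟩
    obtain ⟨u, hu, k, hk, rfl, hc⟩ := hdec g
    have h1 : k = 1 := by
      obtain ⟨j, hj⟩ := hPord u hu
      have hcop : (orderOf u).Coprime (orderOf k) := by
        rw [hj]; exact Nat.Coprime.pow_left j (hKord k hk).symm
      have h2 := (show Commute u k from hc).orderOf_mul_eq_mul_orderOf_of_coprime hcop
      rw [hg] at h2
      rw [← orderOf_eq_one_iff]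
      exact Nat.eq_one_of_dvd_coprimes (Nat.Coprime.pow_right m (hKord k hk)) dvd_rfl ⟨_, by rw [h2, mul_comm]⟩
    rw [h1, mul_one]; exact hu
  have hK_of : ∀ g : C, (orderOf g).Coprime p → g ∈ K := by
    intro g hg
    obtain ⟨u, hu, k, hk, rfl, hc⟩ := hdec g
    have h1 : u = 1 := by
      obtain ⟨j, hj⟩ := hPord u hu
      have hcop : (orderOf u).Coprime (orderOf k) := by
        rw [hj]; exact Nat.Coprime.pow_left j (hKord k hk).symm
      have h2 := (show Commute u k from hc).orderOf_mul_eq_mul_orderOf_of_coprime hcop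
      rw [h2] at hg
      rw [← orderOf_eq_one_iff]
      exact Nat.eq_one_of_dvd_coprimes (Nat.Coprime.pow_right j (Nat.Coprime.coprime_mul_right hg)) dvd_rfl (by rw [hj])
    rw [h1, one_mul]; exact hk
  -- K as a subgroup of G
  set K' : Subgroup G := K.map C.subtype with hK'
  have hK'card : Nat.card K' = Nat.card K := Subgroup.card_map_of_injective (Subgroup.subtype_injective C)
  have hK'C : ∀ k ∈ K', k ∈ C := by
    rintro _ ⟨k, -, rfl⟩
    exact k.2
  -- the normal p-subgroup
  set R := Subgroup.normalClosure ({x} : Set G) with hR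
  have hRp : IsPGroup p R := H71.PClass.isPGroup_normalClosure x hxk hxa
  have hxR : x ∈ R := Subgroup.subset_normalClosure rfl
  have hKR : K' ≤ Subgroup.centralizer (R : Set G) := by
    apply H1.Coprime2.pq_lemma p (Subgroup.zpowers x) K' _ _ _ _ R rfl hRp
    · exact (Subgroup.zpowers_le.2 (Subgroup.le_normalizer hxR))
    · exact le_top.trans_eq (Subgroup.normalizer_eq_top (H := R)).symm 
    · rintro r ⟨hr1, hr2⟩
      rw [Subgroup.mem_centralizer_iff]
      rintro _ ⟨k, hk, rfl⟩
      have hrC : r ∈ C := by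
        rw [hC, Subgroup.mem_centralizer_singleton_iff]
        exact (Subgroup.mem_centralizer_iff.1 hr2 x (Subgroup.mem_zpowers x)).symm
      have hrP : (⟨r, hrC⟩ : C) ∈ (P : Subgroup C) := by
        apply hP_of
        rw [Subgroup.orderOf_mk]
        obtain ⟨m, hm⟩ := (IsPGroup.iff_orderOf.1 hRp) ⟨r, hr1⟩
        exact ⟨m, by rw [← hm, Subgroup.orderOf_mk]⟩
      have := Subgroup.mem_centralizer_iff.1 (hKP hk) _ hrP
      exact (congrArg Subtype.val this).symm
    · obtain ⟨k, hk⟩ := hxk
      exact IsPGroup.of_card (n := k) (by rw [Nat.card_zpowers, hk])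
    · rw [hK'card]; exact ((hp.coprime_iff_not_dvd).2 hKnd).symm
    · rw [Subgroup.zpowers_le, Subgroup.mem_centralizer_iff]
      intro k hk
      exact Subgroup.mem_centralizer_singleton_iff.1 (hK'C k hk)
  have hRC : Subgroup.centralizer (R : Set G) ≤ C := by
    intro g hg
    rw [hC, Subgroup.mem_centralizer_singleton_iff]
    exact (Subgroup.mem_centralizer_iff.1 hg x hxR).symm
  -- K' is normal
  have hK'n : K'.Normal := by
    refine ⟨fun k hk g => ?_⟩
    have h1 : g * k * g⁻¹ ∈ Subgroup.centralizer (R : Set G) := by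
      have : (Subgroup.centralizer (R : Set G)).Normal := inferInstance
      exact this.conj_mem k (hKR hk) g
    have h2 := hRC h1
    refine ⟨⟨g * k * g⁻¹, h2⟩, ?_, rfl⟩
    apply hK_of
    rw [Subgroup.orderOf_mk]
    have h3 : orderOf (g * k * g⁻¹) = orderOf k := by
      have := orderOf_injective (MulAut.conj g).toMonoidHom (MulAut.conj g).injective k
      simpa using this
    rw [h3]
    obtain ⟨k', hk', rfl⟩ := hk
    have h4 := hKord k' hk'
    rwa [Subgroup.coe_subtype, Subgroup.orderOf_coe]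
  obtain ⟨m, hm⟩ := P.isPGroup'.exists_card_eq
  refine H2.NPC.of_card_index (k := m + a) K' (by rw [hK'card]; exact hKnd) ?_
  have h1 := K'.card_mul_index
  have h2 := C.card_mul_index
  have h3 := K.card_mul_index
  rw [hK'card] at h1
  rw [hPK.index_eq_card, hm] at h3
  rw [hxa, ← h3] at h2
  apply Nat.eq_of_mul_eq_mul_left (Nat.card_pos (α := K))
  rw [h1, ← h2, pow_add]
  ring

end Cfsg.Agent.S4127
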