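import Cfsg.Statements.S4130
import Cfsg.Agent.Lib.H69.ClassP2
import Cfsg.Agent.Lib.H11.Supersolvable2
import Cfsg.Agent.Lib.H30.Nil
import Mathlib.GroupTheory.SpecificGroups.ZGroup

set_option autoImplicit false
open Cfsg
open scoped Pointwise

namespace Cfsg.Agent.S4130

universe u

open H69.ClassP

theorem hyp_of_sq {G : Type u} [Group G] (h : ∀ x : G, Squarefree (Subgroup.centralizer ({x} : Set G)).index)
    (p : ℕ) (hp : p.Prime) : Hyp p G := by
  intro x hd
  rw [pow_two] at hd
  exact hp.one_lt.ne' (Nat.isUnit_iff.1 (h x p hd))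

theorem sq_sub {G : Type u} [Group G] [Finite G] (h : ∀ x : G, Squarefree (Subgroup.centralizer ({x} : Set G)).index)
    (N : Subgroup G) [N.Normal] : ∀ x : N, Squarefree (Subgroup.centralizer ({x} : Set N)).index := fun x =>
  Squarefree.squarefree_of_dvd (H72.ClassSize.index_subgroup_dvd N x) (h x)

theorem sq_quot {G : Type u} [Group G] (h : ∀ x : G, Squarefree (Subgroup.centralizer ({x} : Set G)).index)
    (N : Subgroup G) [N.Normal] : ∀ x : G ⧸ N, Squarefree (Subgroup.centralizer ({x} : Set (G ⧸ N))).index := by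
  intro x
  obtain ⟨x, rfl⟩ := QuotientGroup.mk_surjective x
  exact Squarefree.squarefree_of_dvd (H72.ClassSize.index_quotient_dvd N x) (h x)

theorem good (n : ℕ) : ∀ (G : Type u) [Group G] [Finite G], Nat.card G = n →
    (∀ x : G, Squarefree (Subgroup.centralizer ({x} : Set G)).index) →
    IsSupersolvable G ∧
    (∀ q : ℕ, q.Prime → (∀ r : ℕ, r.Prime → r ∣ Nat.card G → r ≤ q) → ∀ Q : Sylow q G, (Q : Subgroup G).Normal) ∧
    (∀ p : ℕ, p.Prime → ¬ p ^ 2 ∣ Nat.card (commutator G)) := by
  induction n using Nat.strong_induction_on with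
  | _ n ih =>
  intro G _ _ hn h
  by_cases hsub : Nat.card G = 1
  · have hs : Subsingleton G := (Nat.card_eq_one_iff_unique.1 hsub).1
    refine ⟨H11.Supersolvable.of_subsingleton, ?_, ?_⟩
    · intro q _ _ Q
      exact Subsingleton.elim (⊥ : Subgroup G) (Q : Subgroup G) ▸ inferInstance
    · intro p hp hd
      have h1 : Nat.card (commutator G) ∣ 1 := by
        rw [← hsub]; exact Subgroup.card_subgroup_dvd_card _
      have h2 := Nat.dvd_one.1 (dvd_trans hd h1)
      have := Nat.one_lt_pow (n := 2) (by norm_num) hp.one_lt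
      omega
  have hcard1 : 1 < Nat.card G := lt_of_le_of_ne Nat.card_pos (Ne.symm hsub)
  have hnt : Nontrivial G := Finite.one_lt_card_iff_nontrivial.1 hcard1
  have hquot : ∀ N : Subgroup G, [N.Normal] → N ≠ ⊥ → Nat.card (G ⧸ N) < n := by
    intro N _ hN
    rw [← hn, Subgroup.card_eq_card_quotient_mul_card_subgroup N]
    have : 1 < Nat.card N := by
      rw [Finite.one_lt_card_iff_nontrivial]
      exact (Subgroup.nontrivial_iff_ne_bot _).2 hN
    exact lt_mul_of_one_lt_right Nat.card_pos this
  -- part 2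
  have part2 : ∀ q : ℕ, q.Prime → (∀ r : ℕ, r.Prime → r ∣ Nat.card G → r ≤ q) →
      ∀ Q : Sylow q G, (Q : Subgroup G).Normal := by
    intro q hq hmax Q
    have : Fact q.Prime := ⟨hq⟩
    set p := (Nat.card G).minFac with hpdef
    have hp : p.Prime := Nat.minFac_prime hsub
    have : Fact p.Prime := ⟨hp⟩
    have hpG : p ∣ Nat.card G := Nat.minFac_dvd _
    have hNPC : HasNormalPComplement p G :=
      hasNPC (fun r hr hrd => Nat.minFac_le_of_dvd hr.two_le hrd) (hyp_of_sq h p hp)
    by_cases hpq : p = q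
    · -- G is a q-group
      have hG : IsPGroup q G := by
        rw [IsPGroup.iff_card]
        refine ⟨(Nat.card G).primeFactorsList.length, ?_⟩
        apply Nat.eq_prime_pow_of_unique_prime_dvd Nat.card_pos.ne'
        intro d hd hdG
        have h1 := hmax d hd hdG
        have h2 : p ≤ d := Nat.minFac_le_of_dvd hd.two_le hdG
        omega
      have : (Q : Subgroup G) = ⊤ := by
        have h1 := Q.3 (IsPGroup.of_equiv (hG) (Subgroup.topEquiv (G := G)).symm) le_top
        exact h1.symm
      rw [this]; infer_instance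
    · rw [H2.NPC.iff_not_dvd_card_residual] at hNPC
      set K := pResidual p G with hK
      have hKlt : Nat.card K < n := by
        rw [← hn]
        refine lt_of_le_of_ne (Nat.le_of_dvd Nat.card_pos (Subgroup.card_subgroup_dvd_card K)) ?_
        intro e
        apply hNPC
        rw [e]; exact hpG
      have hQK : (Q : Subgroup G) ≤ K := by
        intro x hx
        apply H2.Residual.mem_residual_of_coprime
        obtain ⟨k, hk⟩ := pow_of_mem Q.2 hx
        have h1 : orderOf x ∣ q ^ k := orderOf_dvd_of_pow_eq_one hk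
        exact Nat.Coprime.coprime_dvd_left h1 (Nat.Coprime.pow_left k ((Nat.coprime_primes hq hp).2 (Ne.symm hpq)))
      obtain ⟨-, h2, -⟩ := ih _ hKlt K rfl (sq_sub h K)
      have h3 := h2 q hq (fun r hr hrd => hmax r hr (dvd_trans hrd (Subgroup.card_subgroup_dvd_card K))) (Q.subtype hQK)
      have h4 : ((Q.subtype hQK : Sylow q K) : Subgroup K).Characteristic :=
        Sylow.characteristic_of_normal _ h3
      have h5 : (((Q.subtype hQK : Sylow q K) : Subgroup K).map K.subtype).Normal := inferInstance
      have h6 : ((Q.subtype hQK : Sylow q K) : Subgroup K).map K.subtype = (Q : Subgroup G) := by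
        change ((Q : Subgroup G).subgroupOf K).map K.subtype = _
        rw [Subgroup.subgroupOf_map_subtype, inf_eq_left.2 hQK]
      rwa [h6] at h5
  -- the largest prime
  obtain ⟨q, hq, hqG, hmax⟩ : ∃ q : ℕ, q.Prime ∧ q ∣ Nat.card G ∧ ∀ r : ℕ, r.Prime → r ∣ Nat.card G → r ≤ q := by
    have hne : (Nat.card G).primeFactors.Nonempty := Nat.nonempty_primeFactors.2 hcard1
    refine ⟨(Nat.card G).primeFactors.max' hne, ?_, ?_, ?_⟩
    · exact Nat.prime_of_mem_primeFactors (Finset.max'_mem _ hne)
    · exact Nat.dvd_of_mem_primeFactors (Finset.max'_mem _ hne)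
    · intro r hr hrd
      apply Finset.le_max'
      exact Nat.mem_primeFactors.2 ⟨hr, hrd, Nat.card_pos.ne'⟩
  have : Fact q.Prime := ⟨hq⟩
  obtain ⟨Q⟩ : Nonempty (Sylow q G) := inferInstance
  have hQn : (Q : Subgroup G).Normal := part2 q hq hmax Q
  have hQne : (Q : Subgroup G) ≠ ⊥ := Q.ne_bot_of_dvd_card hqG
  have hR := card_inf_commutator Q (hyp_of_sq h q hq)
  refine ⟨?_, part2, ?_⟩
  · -- supersolvable
    by_cases hRb : (Q : Subgroup G) ⊓ commutator G = ⊥
    · -- Q central
      have hcen : ∀ x ∈ (Q : Subgroup G), ∀ g : G, x * g = g * x := by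
        intro x hx g
        have h1 : x * g * x⁻¹ * g⁻¹ ∈ (Q : Subgroup G) ⊓ commutator G := by
          refine Subgroup.mem_inf.2 ⟨?_, ?_⟩
          · have : x * g * x⁻¹ * g⁻¹ = x * (g * x⁻¹ * g⁻¹) := by group
            rw [this]
            exact mul_mem hx (hQn.conj_mem _ (inv_mem hx) g)
          · exact Subgroup.commutator_mem_commutator (Subgroup.mem_top x) (Subgroup.mem_top g)
        rw [hRb, Subgroup.mem_bot] at h1
        have h2 : x * g * x⁻¹ * g⁻¹ * (g * x) = g * x := by rw [h1, one_mul]
        calc x * g = x * g * x⁻¹ * g⁻¹ * (g * x) := by group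
          _ = g * x := h2
      obtain ⟨z, hz1⟩ := Subgroup.ne_bot_iff_exists_ne_one.1 hQne
      have hz1' : (z : G) ≠ 1 := fun e => hz1 (Subtype.ext e)
      have hn1 : (Subgroup.zpowers (z : G)).Normal := by
        constructor
        intro y hy g
        have hy' : y ∈ (Q : Subgroup G) := (Subgroup.zpowers_le.2 z.2) hy
        have : g * y * g⁻¹ = y := by rw [← hcen y hy' g]; group
        rw [this]; exact hy
      have hne : Subgroup.zpowers (z : G) ≠ ⊥ := by
        rw [Ne, Subgroup.zpowers_eq_bot]; exact hz1'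
      obtain ⟨h2, -, -⟩ := ih _ (hquot _ hne) (G ⧸ Subgroup.zpowers (z : G)) rfl (sq_quot h _)
      exact H11.Supersolvable.of_quotient_cyclic _ h2
    · have hc : Nat.card ((Q : Subgroup G) ⊓ commutator G : Subgroup G) = q := by
        rcases (Nat.dvd_prime hq).1 hR with h1 | h1
        · exact absurd (Subgroup.card_eq_one.1 h1) hRb
        · exact h1
      have hcyc : IsCyclic ((Q : Subgroup G) ⊓ commutator G : Subgroup G) := isCyclic_of_prime_card hc
      obtain ⟨h2, -, -⟩ := ih _ (hquot _ hRb) (G ⧸ ((Q : Subgroup G) ⊓ commutator G)) rfl (sq_quot h _)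
      exact H11.Supersolvable.of_quotient_cyclic _ h2
  · intro p hp hd
    have : Fact p.Prime := ⟨hp⟩
    by_cases hcore : pPrimeCore p G = ⊥
    · have hqp : q = p := by
        by_contra hne
        apply hQne
        rw [← le_bot_iff, ← hcore]
        apply H1.Cores.le_pPrimeCore hQn
        obtain ⟨k, hk⟩ := IsPGroup.iff_card.1 Q.2
        rw [hk]
        exact Nat.Coprime.pow_left k ((Nat.coprime_primes hq hp).2 hne)
      subst hqp
      obtain ⟨K, hK⟩ := Sylow.exists_subgroup_card_pow_prime q hd
      have h1 : IsPGroup q (K.map (commutator G).subtype) := (IsPGroup.of_card hK).map _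
      obtain ⟨Q', hQ'⟩ := h1.exists_le_sylow
      have h2 : Q' = Q := by
        have := Sylow.unique_of_normal Q hQn
        exact (this.uniq Q').trans (this.uniq Q).symm
      rw [h2] at hQ'
      have h3 : K.map (commutator G).subtype ≤ (Q : Subgroup G) ⊓ commutator G :=
        le_inf hQ' (Subgroup.map_subtype_le _)
      have h4 := Subgroup.card_dvd_of_le h3
      rw [Subgroup.card_map_of_injective (commutator G).subtype_injective, hK] at h4
      have h5 := Nat.le_of_dvd hq.pos (dvd_trans h4 hR)
      have h6 : q ^ 1 < q ^ 2 := Nat.pow_lt_pow_right hq.one_lt (by norm_num)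
      rw [pow_one] at h6
      omega
    · have hc := H1.Cores.coprime_card_pPrimeCore (G := G) p
      have hN : (pPrimeCore p G).Normal := by
        have := H1.Cores.pPrimeCore_characteristic (G := G) p
        infer_instance
      obtain ⟨-, -, h3⟩ := ih _ (hquot _ hcore) (G ⧸ pPrimeCore p G) rfl (sq_quot h _)
      apply h3 p hp
      have hmap : (commutator G).map (QuotientGroup.mk' (pPrimeCore p G)) = commutator (G ⧸ pPrimeCore p G) := by
        rw [commutator_def, Subgroup.map_commutator, commutator_def,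
          ← MonoidHom.range_eq_map, MonoidHom.range_eq_top.2 (QuotientGroup.mk'_surjective _)]
      rw [← hmap]
      have h4 : Nat.card (commutator G) = Nat.card ((commutator G).map (QuotientGroup.mk' (pPrimeCore p G))) *
          Nat.card (pPrimeCore p G ⊓ commutator G : Subgroup G) := by
        have h5 := Subgroup.card_eq_card_quotient_mul_card_subgroup
          ((QuotientGroup.mk' (pPrimeCore p G)).comp (commutator G).subtype).ker
        have h6 := Nat.card_congr (QuotientGroup.quotientKerEquivRange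
          ((QuotientGroup.mk' (pPrimeCore p G)).comp (commutator G).subtype)).toEquiv
        rw [h6] at h5
        have h7 : ((QuotientGroup.mk' (pPrimeCore p G)).comp (commutator G).subtype).range =
            (commutator G).map (QuotientGroup.mk' (pPrimeCore p G)) := by
          rw [MonoidHom.range_comp, Subgroup.range_subtype]
        have h8 : ((QuotientGroup.mk' (pPrimeCore p G)).comp (commutator G).subtype).ker =
            (pPrimeCore p G).subgroupOf (commutator G) := by
          rw [← MonoidHom.comap_ker, QuotientGroup.ker_mk']; rfl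
        rw [h7, h8] at h5
        rw [h5]
        congr 1
        rw [← Subgroup.subgroupOf_map_subtype]
        exact (Subgroup.card_map_of_injective (commutator G).subtype_injective).symm
      rw [h4] at hd
      have h9 : Nat.Coprime (p ^ 2) (Nat.card (pPrimeCore p G ⊓ commutator G : Subgroup G)) := by
        apply Nat.Coprime.pow_left
        exact (Nat.Coprime.coprime_dvd_left (Subgroup.card_dvd_of_le inf_le_left) hc).symm
      exact h9.dvd_of_dvd_mul_right hd

/-- the derived group is central in the Fitting subgroup (both cyclic square-free). -/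
theorem prime_elt_central {F : Type u} [Group F] [Finite F] (hF : Group.IsNilpotent F) (C : Subgroup F) [C.Normal]
    [IsCyclic C] (hsq : Squarefree (Nat.card C)) : C ≤ Subgroup.center F := by
  classical
  set A : Subgroup C := (Subgroup.center F).subgroupOf C with hA
  by_contra hcon
  have hAt : A.index ≠ 1 := by
    intro e
    apply hcon
    intro x hx
    have : (⟨x, hx⟩ : C) ∈ A := by rw [Subgroup.index_eq_one.1 e]; trivial
    exact Subgroup.mem_subgroupOf.1 this
  obtain ⟨r, hr, hrd⟩ := Nat.exists_prime_and_dvd hAt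
  have : Fact r.Prime := ⟨hr⟩
  have hnA : ¬ r ∣ Nat.card A := by
    intro hd
    have h1 := A.card_mul_index
    have h2 : r * r ∣ Nat.card C := by
      rw [← h1]; exact mul_dvd_mul hd hrd
    exact hr.one_lt.ne' (Nat.isUnit_iff.1 (hsq r h2))
  have hrC : r ∣ Nat.card C := dvd_trans hrd A.index_dvd_card
  obtain ⟨c, hc⟩ := exists_prime_orderOf_dvd_card' r hrC
  -- zpowers c is normal in F
  have hn : ((Subgroup.zpowers c).map C.subtype).Normal := by
    have hchar : (Subgroup.zpowers c).Characteristic := by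
      rw [Subgroup.characteristic_iff_map_le]
      intro φ
      obtain ⟨g, hg⟩ := (inferInstance : IsCyclic C).exists_generator
      obtain ⟨i, hi⟩ := Subgroup.mem_zpowers_iff.1 (hg (φ g))
      obtain ⟨j, hj⟩ := Subgroup.mem_zpowers_iff.1 (hg c)
      have hφc : φ c = c ^ i := by
        rw [← hj, map_zpow, ← hi, ← zpow_mul, ← zpow_mul, mul_comm]
      rintro _ ⟨w, hw, rfl⟩
      obtain ⟨l, rfl⟩ := Subgroup.mem_zpowers_iff.1 hw
      change φ (c ^ l) ∈ _
      rw [map_zpow, hφc]
      exact Subgroup.zpow_mem _ (Subgroup.zpow_mem _ (Subgroup.mem_zpowers c) _) _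
    infer_instance
  have hne : (Subgroup.zpowers c).map C.subtype ≠ ⊥ := by
    intro e
    rw [Subgroup.map_eq_bot_iff_of_injective _ C.subtype_injective, Subgroup.zpowers_eq_bot] at e
    rw [e, orderOf_one] at hc
    exact hr.one_lt.ne' hc.symm
  have h1 := H30.Nil.inf_center_ne_bot _ hne
  -- order r: contained in the center
  have hcard : Nat.card ((Subgroup.zpowers c).map C.subtype : Subgroup F) = r := by
    rw [Subgroup.card_map_of_injective C.subtype_injective, Nat.card_zpowers, hc]
  have h2 : (Subgroup.zpowers c).map C.subtype ⊓ Subgroup.center F = (Subgroup.zpowers c).map C.subtype := by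
    apply Subgroup.eq_of_le_of_card_ge inf_le_left
    rw [hcard]
    have h3 : Nat.card ((Subgroup.zpowers c).map C.subtype ⊓ Subgroup.center F : Subgroup F) ∣ r := by
      rw [← hcard]
      exact Subgroup.card_dvd_of_le inf_le_left
    rcases (Nat.dvd_prime hr).1 h3 with h4 | h4
    · exact absurd (Subgroup.card_eq_one.1 h4) h1
    · exact h4.ge
  apply hnA
  have hcA : c ∈ A := by
    rw [Subgroup.mem_subgroupOf]
    have h3 : (c : F) ∈ (Subgroup.zpowers c).map C.subtype := ⟨c, Subgroup.mem_zpowers c, rfl⟩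
    rw [← h2] at h3
    exact h3.2
  have h3 : orderOf c ∣ Nat.card A := by
    rw [← Subgroup.orderOf_mk c hcA]; exact orderOf_dvd_natCard _
  rw [hc] at h3
  exact h3

theorem index_sq {G : Type u} [Group G] [Finite G] (h : ∀ x : G, Squarefree (Subgroup.centralizer ({x} : Set G)).index)
    [hcyc : IsCyclic (commutator G)] (_hsq : Squarefree (Nat.card (commutator G))) :
    Squarefree (fittingSubgroup G).index := by
  classical
  rw [Nat.squarefree_iff_prime_squarefree]
  intro p hp hd
  have : Fact p.Prime := ⟨hp⟩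
  obtain ⟨P⟩ : Nonempty (Sylow p G) := inferInstance
  -- generator
  obtain ⟨c, hc⟩ := hcyc.exists_generator
  set k : G := (c : G) ^ p with hk
  have hconj : ∀ g : G, ∃ i : ℤ, g * (c : G) * g⁻¹ = (c : G) ^ i := by
    intro g
    have h1 : g * (c : G) * g⁻¹ ∈ commutator G := Subgroup.Normal.conj_mem inferInstance _ c.2 g
    obtain ⟨i, hi⟩ := Subgroup.mem_zpowers_iff.1 (hc ⟨_, h1⟩)
    refine ⟨i, ?_⟩
    have := congrArg Subtype.val hi
    simpa using this.symm
  have hgen : ∀ z ∈ commutator G, ∃ i : ℤ, z = (c : G) ^ i := by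
    intro z hz
    obtain ⟨i, hi⟩ := Subgroup.mem_zpowers_iff.1 (hc ⟨z, hz⟩)
    refine ⟨i, ?_⟩
    have := congrArg Subtype.val hi
    simpa using this.symm
  have hkconj : ∀ g : G, ∃ i : ℤ, g * k * g⁻¹ = k ^ i := by
    intro g
    obtain ⟨i, hi⟩ := hconj g
    refine ⟨i, ?_⟩
    rw [hk, ← conj_pow, hi, ← zpow_natCast, ← zpow_mul, ← zpow_natCast, ← zpow_mul, mul_comm]
  set C := Subgroup.centralizer ({k} : Set G) with hC
  have hCn : C.Normal := by
    constructor
    intro x hx g
    rw [hC, Subgroup.mem_centralizer_singleton_iff] at hx ⊢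
    obtain ⟨i, hi⟩ := hkconj g⁻¹
    rw [inv_inv] at hi
    have h1 : x * (g⁻¹ * k * g) = (g⁻¹ * k * g) * x := by
      rw [hi]
      exact (Commute.zpow_right (show Commute x k from hx) i)
    calc g * x * g⁻¹ * k = g * (x * (g⁻¹ * k * g)) * g⁻¹ := by group
      _ = g * ((g⁻¹ * k * g) * x) * g⁻¹ := by rw [h1]
      _ = k * (g * x * g⁻¹) := by group
  have hcomm : ∀ a ∈ commutator G, ∀ b ∈ commutator G, a * b = b * a := by
    intro a ha b hb
    obtain ⟨i, rfl⟩ := hgen a ha
    obtain ⟨j, rfl⟩ := hgen b hb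
    rw [← zpow_add, ← zpow_add, add_comm]
  have hkG : k ∈ commutator G := pow_mem c.2 p
  -- W = P ⊓ C is normal
  have hWn : ((P : Subgroup G) ⊓ C).Normal := by
    constructor
    intro x hx g
    -- y = gxg⁻¹ = z x with z ∈ G'
    set y := g * x * g⁻¹ with hy
    set z := y * x⁻¹ with hz
    have hzG : z ∈ commutator G := by
      have : z = g * x * g⁻¹ * x⁻¹ := by rw [hz, hy]
      rw [this]
      exact Subgroup.commutator_mem_commutator (Subgroup.mem_top g) (Subgroup.mem_top x)
    -- decompose z = a * b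
    set n := orderOf z with hn
    have hn0 : n ≠ 0 := (orderOf_pos z).ne'
    -- z^u with u ≡ 0 mod p-part etc.
    obtain ⟨s, m, hsm, hnm⟩ : ∃ s m : ℕ, ¬ p ∣ m ∧ n = p ^ s * m := by
      obtain ⟨s, m, hm, he⟩ := Nat.exists_eq_pow_mul_and_not_dvd hn0 p hp.ne_one
      exact ⟨s, m, hm, he⟩
    have hcop : Nat.Coprime (p ^ s) m := Nat.Coprime.pow_left s ((Nat.Prime.coprime_iff_not_dvd hp).2 hsm)
    obtain ⟨u, v, huv⟩ : ∃ u v : ℤ, u * (p ^ s : ℕ) + v * (m : ℕ) = 1 := by
      have h1 := Nat.isCoprime_iff_coprime.2 hcop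
      obtain ⟨u, v, e⟩ := h1
      exact ⟨u, v, e⟩
    set a := z ^ (u * ((p ^ s : ℕ) : ℤ)) with ha
    set b := z ^ (v * (m : ℤ)) with hb
    have hab : z = a * b := by
      rw [ha, hb, ← zpow_add, huv, zpow_one]
    have ham : a ^ m = 1 := by
      rw [ha, ← zpow_natCast, ← zpow_mul]
      have : u * ((p ^ s : ℕ) : ℤ) * (m : ℤ) = (n : ℤ) * u := by rw [hnm]; push_cast; ring
      rw [this, zpow_mul, zpow_natCast, hn, pow_orderOf_eq_one, one_zpow]
    have hbp : b ^ p ^ s = 1 := by
      rw [hb, ← zpow_natCast, ← zpow_mul]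
      have : v * (m : ℤ) * ((p ^ s : ℕ) : ℤ) = (n : ℤ) * v := by rw [hnm]; push_cast; ring
      rw [this, zpow_mul, zpow_natCast, hn, pow_orderOf_eq_one, one_zpow]
    have haG : a ∈ commutator G := zpow_mem hzG _
    have hbG : b ∈ commutator G := zpow_mem hzG _
    -- a ∈ zpowers k
    have hak : ∃ i : ℤ, a = k ^ i := by
      have hcopm : Nat.Coprime p m := (Nat.Prime.coprime_iff_not_dvd hp).2 hsm
      obtain ⟨u', v', huv'⟩ : ∃ u v : ℤ, u * (p : ℕ) + v * (m : ℕ) = 1 := by
        obtain ⟨u, v, e⟩ := Nat.isCoprime_iff_coprime.2 hcopm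
        exact ⟨u, v, e⟩
      obtain ⟨i, hi⟩ := hgen a haG
      refine ⟨i * u', ?_⟩
      have h1 : a = (a ^ p) ^ u' := by
        have h2 : a = a ^ (u' * (p : ℤ) + v' * (m : ℤ)) := by rw [huv', zpow_one]
        have h3 : a ^ (v' * (m : ℤ)) = 1 := by
          rw [mul_comm, zpow_mul, zpow_natCast, ham, one_zpow]
        rw [zpow_add, h3, mul_one, mul_comm, zpow_mul, zpow_natCast] at h2
        exact h2
      rw [h1, hk, hi, ← zpow_natCast, ← zpow_natCast, ← zpow_mul, ← zpow_mul, ← zpow_mul]
      congr 1; ring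
    obtain ⟨i, hi⟩ := hak
    have hxC : x * k = k * x := Subgroup.mem_centralizer_singleton_iff.1 hx.2
    -- b ∈ P ⊓ C
    have hbC : b ∈ C := Subgroup.mem_centralizer_singleton_iff.2 (hcomm b hbG k hkG)
    have hbP : b ∈ (P : Subgroup G) := by
      have hbn : (Subgroup.zpowers b).Normal := by
        constructor
        intro w hw g'
        obtain ⟨j, rfl⟩ := Subgroup.mem_zpowers_iff.1 hw
        obtain ⟨i', hi'⟩ := hgen b hbG
        obtain ⟨l, hl⟩ := hconj g'
        have h1 : g' * b * g'⁻¹ = b ^ l := by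
          rw [hi', ← conj_zpow, hl, ← zpow_mul, ← zpow_mul, mul_comm]
        rw [← conj_zpow, h1, ← zpow_mul]
        exact Subgroup.zpow_mem _ (Subgroup.mem_zpowers b) _
      have hbpg : IsPGroup p (Subgroup.zpowers b) := by
        intro w
        obtain ⟨w, hw⟩ := w
        obtain ⟨j, rfl⟩ := Subgroup.mem_zpowers_iff.1 hw
        refine ⟨s, Subtype.ext ?_⟩
        change (b ^ j) ^ p ^ s = 1
        rw [← zpow_natCast, ← zpow_mul, mul_comm, zpow_mul, zpow_natCast, hbp, one_zpow]
      have hle : Subgroup.zpowers b ≤ pCore p G := H1.Cores.le_pCore hbn hbpg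
      exact H1.Cores.pCore_le_sylow P (hle (Subgroup.mem_zpowers b))
    have hbx : b * x ∈ (P : Subgroup G) ⊓ C :=
      Subgroup.mem_inf.2 ⟨mul_mem hbP hx.1, mul_mem hbC hx.2⟩
    have hyab : y = a * (b * x) := by
      rw [← mul_assoc, ← hab, hz]; group
    have hbxk : (b * x) * k = k * (b * x) := Subgroup.mem_centralizer_singleton_iff.1 hbx.2
    have hcom : Commute a (b * x) := by
      rw [hi]
      exact (Commute.zpow_left (show Commute k (b * x) from hbxk.symm) i)
    -- a = 1
    obtain ⟨t1, ht1⟩ := pow_of_mem P.2 hbx.1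
    have hyp : ∃ t2 : ℕ, y ^ p ^ t2 = 1 := by
      obtain ⟨t, ht⟩ := pow_of_mem P.2 hx.1
      exact ⟨t, by rw [hy, conj_pow, ht]; simp⟩
    obtain ⟨t2, ht2⟩ := hyp
    have ha1 : a ^ p ^ (t1 + t2) = 1 := by
      have h1 : y ^ p ^ (t1 + t2) = 1 := by
        rw [add_comm, pow_add, pow_mul, ht2, one_pow]
      have h2 : (b * x) ^ p ^ (t1 + t2) = 1 := by
        rw [pow_add, pow_mul, ht1, one_pow]
      rw [hyab, hcom.mul_pow, h2, mul_one] at h1
      exact h1
    have ha0 : a = 1 := by
      rw [← orderOf_eq_one_iff]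
      apply Nat.dvd_one.1
      have h3 : Nat.Coprime (p ^ (t1 + t2)) m :=
        Nat.Coprime.pow_left _ ((Nat.Prime.coprime_iff_not_dvd hp).2 hsm)
      rw [← h3]
      exact Nat.dvd_gcd (orderOf_dvd_of_pow_eq_one ha1) (orderOf_dvd_of_pow_eq_one ham)
    rw [hyab, ha0, one_mul]
    exact hbx
  have hWF : (P : Subgroup G) ⊓ C ≤ fittingSubgroup G := by
    apply H1.Cores.le_fittingSubgroup hWn
    have h1 : IsPGroup p ((P : Subgroup G) ⊓ C : Subgroup G) := P.2.to_le inf_le_left
    exact h1.isNilpotent
  -- count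
  have hFn : (fittingSubgroup G).Normal := inferInstance
  have h1 : (fittingSubgroup G).relIndex (P : Subgroup G) * ((P : Subgroup G) ⊔ fittingSubgroup G).index =
      (fittingSubgroup G).index := by
    have h2 := Subgroup.relIndex_mul_index (le_sup_right : fittingSubgroup G ≤ (P : Subgroup G) ⊔ fittingSubgroup G)
    rw [← h2]
    congr 1
    rw [Subgroup.relIndex_sup_right]
  have h2 : p * p ∣ (fittingSubgroup G).relIndex (P : Subgroup G) := by
    rw [← h1] at hd
    have h3 : ¬ p ∣ ((P : Subgroup G) ⊔ fittingSubgroup G).index := fun e =>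
      P.not_dvd_index (dvd_trans e (Subgroup.index_dvd_of_le le_sup_left))
    have h4 : Nat.Coprime (p * p) (((P : Subgroup G) ⊔ fittingSubgroup G).index) := by
      have := (Nat.Prime.coprime_iff_not_dvd hp).2 h3
      exact Nat.Coprime.mul_left this this
    exact h4.dvd_of_dvd_mul_right hd
  have h3 : (fittingSubgroup G).relIndex (P : Subgroup G) ∣ C.index := by
    have h4 : (fittingSubgroup G).relIndex (P : Subgroup G) ∣ ((P : Subgroup G) ⊓ C).relIndex (P : Subgroup G) :=
      Subgroup.relIndex_dvd_of_le_left _ hWF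
    have h5 : ((P : Subgroup G) ⊓ C).relIndex (P : Subgroup G) = C.relIndex (P : Subgroup G) := by
      rw [inf_comm, Subgroup.inf_relIndex_right]
    rw [h5] at h4
    exact dvd_trans h4 (Subgroup.relIndex_dvd_index_of_normal _ _)
  have h4 := dvd_trans h2 h3
  exact hp.one_lt.ne' (Nat.isUnit_iff.1 (h k p h4))

/-- Let G be a finite group all of whose conjugacy class sizes are square-free. Then G is supersolvable, G/F(G) and the derived subgroup G′ are cyclic of square-free order (F(G) the Fitting subgroup, which is normal), F(G) has nilpotency class at most 2, and G is metabelian. -/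
theorem result {G : Type*} [Group G] [Finite G]
    (h : ∀ x : G, Squarefree (Subgroup.centralizer ({x} : Set G)).index) :
    Cfsg.IsSupersolvable G ∧ (Cfsg.fittingSubgroup G).Normal ∧
    (∀ _h : (Cfsg.fittingSubgroup G).Normal, IsCyclic (G ⧸ Cfsg.fittingSubgroup G) ∧ Squarefree (Cfsg.fittingSubgroup G).index) ∧
    IsCyclic (commutator G) ∧ Squarefree (Nat.card (commutator G)) ∧
    Subgroup.upperCentralSeries ↥(Cfsg.fittingSubgroup G) 2 = ⊤ ∧ commutator ↥(commutator G) = ⊥ := by
  obtain ⟨hss, -, hc⟩ := good _ G rfl h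
  have hsq : Squarefree (Nat.card (commutator G)) := by
    rw [Nat.squarefree_iff_prime_squarefree]
    intro p hp hd
    apply hc p hp
    rw [pow_two]; exact hd
  have hZ : IsZGroup (commutator G) := IsZGroup.of_squarefree hsq
  have hnil : Group.IsNilpotent (commutator G) := H11.Supersolvable2.commutator_nilpotent hss
  have hcyc : IsCyclic (commutator G) := inferInstance
  have hFn : (fittingSubgroup G).Normal := inferInstance
  have hisq := index_sq h hsq
  have hle : commutator G ≤ fittingSubgroup G := H1.Cores.le_fittingSubgroup inferInstance hnil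
  refine ⟨hss, hFn, ?_, hcyc, hsq, ?_, ?_⟩
  · intro _
    refine ⟨?_, hisq⟩
    have h1 : Squarefree (Nat.card (G ⧸ fittingSubgroup G)) := by
      rw [← Subgroup.index_eq_card]; exact hisq
    have h2 : IsZGroup (G ⧸ fittingSubgroup G) := IsZGroup.of_squarefree h1
    have h3 : Group.IsNilpotent (G ⧸ fittingSubgroup G) := by
      have hab : ∀ a b : G ⧸ fittingSubgroup G, a * b = b * a := by
        intro a b
        obtain ⟨a, rfl⟩ := QuotientGroup.mk_surjective a
        obtain ⟨b, rfl⟩ := QuotientGroup.mk_surjective b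
        rw [← QuotientGroup.mk_mul, ← QuotientGroup.mk_mul, QuotientGroup.eq]
        apply hle
        have : (a * b)⁻¹ * (b * a) = b⁻¹ * a⁻¹ * b⁻¹⁻¹ * a⁻¹⁻¹ := by group
        rw [this]
        exact Subgroup.commutator_mem_commutator (Subgroup.mem_top _) (Subgroup.mem_top _)
      let _i : CommGroup (G ⧸ fittingSubgroup G) := { (inferInstance : Group (G ⧸ fittingSubgroup G)) with
        mul_comm := hab }
      exact CommGroup.isNilpotent
    infer_instance
  · -- class of F
    have hFnil := H1.Cores.isNilpotent_fittingSubgroup (G := G)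
    set C : Subgroup (fittingSubgroup G) := (commutator G).subgroupOf (fittingSubgroup G) with hCdef
    have e : C ≃* commutator G := Subgroup.subgroupOfEquivOfLe hle
    have hCc : IsCyclic C := isCyclic_of_surjective e.symm e.symm.surjective
    have hCsq : Squarefree (Nat.card C) := by
      rw [Nat.card_congr e.toEquiv]; exact hsq
    have hcen := prime_elt_central hFnil C hCsq
    rw [eq_top_iff]
    intro x _
    rw [Subgroup.mem_upperCentralSeries_succ_iff]
    intro y
    rw [Subgroup.upperCentralSeries_one]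
    apply hcen
    rw [hCdef, Subgroup.mem_subgroupOf]
    exact Subgroup.commutator_mem_commutator (Subgroup.mem_top _) (Subgroup.mem_top _)
  · rw [eq_bot_iff]
    have hle2 : commutator ↥(commutator G) ≤ ⊥ := by
      refine Subgroup.commutator_le.2 ?_
      intro x _ y _
      rw [Subgroup.mem_bot, commutatorElement_eq_one_iff_mul_comm]
      obtain ⟨c, hc'⟩ := hcyc.exists_generator
      obtain ⟨i, rfl⟩ := Subgroup.mem_zpowers_iff.1 (hc' x)
      obtain ⟨j, rfl⟩ := Subgroup.mem_zpowers_iff.1 (hc' y)
      rw [← zpow_add, ← zpow_add, add_comm]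
    exact hle2

end Cfsg.Agent.S4130
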