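import Cfsg.Statements.S4134
import Cfsg.Agent.Lib.H72.Ito
import Cfsg.Agent.Lib.H2.NPC
import Cfsg.Agent.Lib.H2.Nilp

set_option autoImplicit false
open Cfsg

namespace Cfsg.Agent.S4134

/-- Let G be a finite group whose conjugacy classes have exactly two sizes, 1 and n > 1. Then n is a power of a prime p and G is the direct product of a p-group and an abelian group of order prime to p: its Sylow p-subgroup P is normal with an abelian normal complement centralizing it; moreover P has an abelian normal subgroup A with P/A of exponent dividing p. -/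
theorem result {G : Type*} [Group G] [Finite G] (n : ℕ) (hn : 1 < n)
    (h : ∀ x : G, (Subgroup.centralizer ({x} : Set G)).index = 1 ∨ (Subgroup.centralizer ({x} : Set G)).index = n) (hex : ∃ x : G, (Subgroup.centralizer ({x} : Set G)).index = n) :
    ∃ (p : ℕ) (_ : Fact p.Prime) (a : ℕ), n = p ^ a ∧ ∀ P : Sylow p G, (P : Subgroup G).Normal ∧
      (∃ N : Subgroup G, N.Normal ∧ N.IsComplement' (P : Subgroup G) ∧ IsMulCommutative N ∧
        ∀ x ∈ N, ∀ y ∈ (P : Subgroup G), x * y = y * x) ∧
      ∃ A : Subgroup (P : Subgroup G), A.Normal ∧ IsMulCommutative A ∧ ∀ y : (P : Subgroup G), y ^ p ∈ A := by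
  have H : H72.Ito.Two G n := ⟨hn, h⟩
  obtain ⟨x0, hx0⟩ := hex
  have hx0Z : x0 ∉ Subgroup.center G := by
    intro h1
    have h2 := (H72.TwoLargest.cs_eq_one x0).mpr h1
    have h3 : H72.TwoLargest.cs x0 = n := hx0
    omega
  obtain ⟨p, k, hp, hk⟩ := H.index_center ⟨x0, hx0Z⟩
  have hpF : Fact p.Prime := ⟨hp⟩
  have hnd : n ∣ p ^ k := by
    rw [← hk, ← hx0]
    exact Subgroup.index_dvd_of_le (H72.Ito.center_le_cent x0)
  obtain ⟨a, _, ha⟩ := (Nat.dvd_prime_pow hp).mp hnd
  refine ⟨p, hpF, a, ha, ?_⟩
  intro P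
  have hQ : IsPGroup p (G ⧸ Subgroup.center G) := IsPGroup.of_card (n := k) (by
    rw [← Subgroup.index_eq_card, hk])
  have hnil : Group.IsNilpotent G := Group.of_quotient_center_nilpotent hQ.isNilpotent
  have hNPC := H2.NPC.isComplement'_residual_of_hasNPC (H2.Nilp.hasNPC_of_nilpotent (p := p) hnil) P
  have hcardN : Nat.card (Cfsg.pResidual p G) = (P : Subgroup G).index := hNPC.index_eq_card.symm
  have hNZ : Cfsg.pResidual p G ≤ Subgroup.center G := by
    intro x hx
    have h1 : x ^ Nat.card (Cfsg.pResidual p G) ∈ Subgroup.center G := by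
      have h2 : orderOf x ∣ Nat.card (Cfsg.pResidual p G) := Subgroup.orderOf_dvd_natCard _ hx
      rw [orderOf_dvd_iff_pow_eq_one.mp h2]
      exact one_mem _
    have h2 : x ^ (p ^ k) ∈ Subgroup.center G := by
      rw [← hk]
      exact Subgroup.pow_index_mem _ x
    refine H3.LocalNPC.mem_of_pow_mem_of_coprime ?_ h1 h2
    apply Nat.Coprime.pow_right
    rw [hcardN]
    exact ((Nat.Prime.coprime_iff_not_dvd hp).mpr P.not_dvd_index).symm
  refine ⟨inferInstance, ⟨Cfsg.pResidual p G, inferInstance, hNPC, ?_, ?_⟩, ?_⟩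
  · refine ⟨⟨?_⟩⟩
    rintro ⟨u, hu⟩ ⟨v, hv⟩
    exact Subtype.ext (Subgroup.mem_center_iff.mp (hNZ hv) u)
  · intro x hx y _
    exact (Subgroup.mem_center_iff.mp (hNZ hx) y).symm
  · have HP : H72.Ito.Two (P : Subgroup G) n := by
      refine ⟨hn, ?_⟩
      intro x
      have h1 : H72.TwoLargest.cs x = H72.TwoLargest.cs (x : G) := by
        have h2 : Subgroup.centralizer ({x} : Set (P : Subgroup G)) =
            (Subgroup.centralizer ({(x : G)} : Set G)).subgroupOf (P : Subgroup G) := by
          ext y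
          rw [Subgroup.mem_subgroupOf, Subgroup.mem_centralizer_singleton_iff,
            Subgroup.mem_centralizer_singleton_iff, Subtype.ext_iff]
          simp
        show (Subgroup.centralizer ({x} : Set (P : Subgroup G))).index = _
        rw [h2]
        apply H72.CoprimeIndex.relIndex_eq_of_coprime
        rcases h (x : G) with h3 | h3
        · rw [h3]; exact Nat.coprime_one_left _
        · rw [h3, ha]
          exact Nat.Coprime.pow_left _ ((Nat.Prime.coprime_iff_not_dvd hp).mpr P.not_dvd_index)
      rw [h1]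
      exact h (x : G)
    exact H72.Ito.exists_abelian P.2 HP

end Cfsg.Agent.S4134
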