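import Cfsg.Statements.S4137
import Cfsg.Agent.Lib.H72.ItoZ9
import Cfsg.Agent.Lib.H21.PSLTransport

set_option autoImplicit false
open Cfsg

namespace Cfsg.Agent.S4137

/-- Let G be a finite group with trivial centre and at most three distinct sizes of conjugacy classes other than 1. Then G is solvable or G is isomorphic to PSL₂(2^a) for some a ≥ 1. -/
theorem result {G : Type*} [Group G] [Finite G]
    (hZ : Subgroup.center G = ⊥) (h : Nat.card {n : ℕ | 1 < n ∧ ∃ x : G, (Subgroup.centralizer ({x} : Set G)).index = n} ≤ 3) :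
    Group.IsSolvable G ∨ ∃ a : ℕ, 0 < a ∧ Nonempty (G ≃* Matrix.ProjectiveSpecialLinearGroup (Fin 2) (GaloisField 2 a)) := by
  classical
  by_cases hns : Group.IsSolvable G
  · exact Or.inl hns
  right
  set S : Set ℕ := {n : ℕ | 1 < n ∧ ∃ x : G, (Subgroup.centralizer ({x} : Set G)).index = n} with hS
  have hfin : S.Finite := by
    apply (Set.finite_range (fun x : G => (Subgroup.centralizer ({x} : Set G)).index)).subset
    rintro n ⟨-, x, hx⟩
    exact ⟨x, hx⟩
  have hcs1 : ∀ x : G, x ≠ 1 → 1 < (Subgroup.centralizer ({x} : Set G)).index := by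
    intro x hx
    have h0 := H72.TwoLargest.cs_pos x
    have h1 : H72.TwoLargest.cs x ≠ 1 := by
      intro h2
      rw [H72.TwoLargest.cs_eq_one, hZ, Subgroup.mem_bot] at h2
      exact hx h2
    change 1 < H72.TwoLargest.cs x
    omega
  have hmem : ∀ x : G, x ≠ 1 → H72.TwoLargest.cs x ∈ S := fun x hx => ⟨hcs1 x hx, x, rfl⟩
  have hcard : S.ncard ≤ 3 := h
  obtain ⟨F, _, _, n, hn, hF, ⟨e⟩⟩ := H72.ItoZ.main hZ hns (by
    intro w z hw hz hwz
    by_cases h2 : ∀ g : G, g ≠ 1 → H72.TwoLargest.cs g = H72.TwoLargest.cs w ∨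
        H72.TwoLargest.cs g = H72.TwoLargest.cs z
    · exact Or.inl h2
    · right
      push Not at h2
      obtain ⟨v, hv, hvw, hvz⟩ := h2
      refine ⟨v, hv, hvw, hvz, ?_⟩
      intro g hg
      have h3 : ({H72.TwoLargest.cs w, H72.TwoLargest.cs z, H72.TwoLargest.cs v} : Set ℕ) ⊆ S := by
        rintro m (rfl | rfl | rfl)
        · exact hmem w hw
        · exact hmem z hz
        · exact hmem v hv
      have h4 : ({H72.TwoLargest.cs w, H72.TwoLargest.cs z, H72.TwoLargest.cs v} : Set ℕ).ncard = 3 := by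
        rw [Set.ncard_eq_three]
        exact ⟨_, _, _, hwz, Ne.symm hvw, Ne.symm hvz, rfl⟩
      have h5 := Set.eq_of_subset_of_ncard_le h3 (by rw [h4]; exact hcard) hfin
      have h6 := hmem g hg
      rw [← h5] at h6
      simpa using h6)
  have hn0 : n ≠ 0 := by omega
  haveI : Fact (Nat.Prime 2) := ⟨Nat.prime_two⟩
  letI : Fintype (GaloisField 2 n) := Fintype.ofFinite _
  obtain ⟨e'⟩ := H21.PSLTransport.psl_congr_card (K := F) (L := GaloisField 2 n) (by
    rw [hF, ← Nat.card_eq_fintype_card, GaloisField.card 2 n hn0]) (Fin 2)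
  exact ⟨n, by omega, ⟨e.trans e'⟩⟩

end Cfsg.Agent.S4137
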