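import Cfsg.Statements.S4138
import Cfsg.Agent.Lib.H72.TwoLargest
import Cfsg.Agent.Lib.H82.Frob

set_option autoImplicit false
open Cfsg

namespace Cfsg.Agent.S4138

/-- Let G be a finite group whose two largest conjugacy class sizes m > n > 1 are coprime, and let x, y ∈ G have classes of sizes n and m respectively. Then C_G(x) and C_G(y) are abelian, and G/Z(G) is a Frobenius group with kernel C_G(x)/Z(G) and complement C_G(y)/Z(G). -/
theorem result {G : Type*} [Group G] [Finite G] (m n : ℕ) (hmn : n < m) (hn : 1 < n)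
    (hcop : m.Coprime n) (htop : ∀ z : G, (Subgroup.centralizer ({z} : Set G)).index ≤ m) (hsecond : ∀ z : G, (Subgroup.centralizer ({z} : Set G)).index < m → (Subgroup.centralizer ({z} : Set G)).index ≤ n)
    (x y : G) (hx : (Subgroup.centralizer ({x} : Set G)).index = n) (hy : (Subgroup.centralizer ({y} : Set G)).index = m) :
    IsMulCommutative (Subgroup.centralizer ({x} : Set G)) ∧ IsMulCommutative (Subgroup.centralizer ({y} : Set G)) ∧
    Cfsg.IsFrobeniusComplement ((Subgroup.centralizer ({y} : Set G)).map (QuotientGroup.mk' (Subgroup.center G))) ∧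
    Cfsg.frobeniusKernel ((Subgroup.centralizer ({y} : Set G)).map (QuotientGroup.mk' (Subgroup.center G))) =
      ((Subgroup.centralizer ({x} : Set G)).map (QuotientGroup.mk' (Subgroup.center G)) : Set (G ⧸ Subgroup.center G)) := by
  have H : H72.TwoLargest.Hyp G m n := ⟨hmn, hn, hcop, htop, hsecond⟩
  have hcx : ∀ u v : G, u ∈ Subgroup.centralizer ({x} : Set G) → v ∈ Subgroup.centralizer ({x} : Set G) →
      u * v = v * u := fun u v hu hv => H.NN_comm hy (H.cent_le_NN hx hy hu) (H.cent_le_NN hx hy hv)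
  have hcy : ∀ u v : G, u ∈ Subgroup.centralizer ({y} : Set G) → v ∈ Subgroup.centralizer ({y} : Set G) →
      u * v = v * u := fun u v hu hv => H.comm_cent_b hx hy hu hv
  have hxN : (Subgroup.centralizer ({x} : Set G)).Normal := by
    rw [H.cent_eq_NN hx hy]; infer_instance
  have hZx : Subgroup.center G ≤ Subgroup.centralizer ({x} : Set G) := H72.TwoLargest.Hyp.center_le_cent x
  have hZy : Subgroup.center G ≤ Subgroup.centralizer ({y} : Set G) := H72.TwoLargest.Hyp.center_le_cent y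
  have hxy : ¬ x ∈ Subgroup.centralizer ({y} : Set G) := fun h =>
    H.not_comm hx hy (H72.TwoLargest.mem_cent.mp h)
  have hyx : ¬ y ∈ Subgroup.centralizer ({x} : Set G) := fun h =>
    H.not_comm hx hy (H72.TwoLargest.mem_cent.mp h).symm
  have hmemx : ∀ g : G, (g : G ⧸ Subgroup.center G) ∈
      (Subgroup.centralizer ({x} : Set G)).map (QuotientGroup.mk' (Subgroup.center G)) →
      g ∈ Subgroup.centralizer ({x} : Set G) := by
    rintro g ⟨v, hv, hvg⟩
    have h1 : v⁻¹ * g ∈ Subgroup.center G := QuotientGroup.eq.mp hvg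
    have h2 : g = v * (v⁻¹ * g) := by group
    rw [h2]
    exact mul_mem hv (hZx h1)
  have hmemy : ∀ g : G, (g : G ⧸ Subgroup.center G) ∈
      (Subgroup.centralizer ({y} : Set G)).map (QuotientGroup.mk' (Subgroup.center G)) →
      g ∈ Subgroup.centralizer ({y} : Set G) := by
    rintro g ⟨v, hv, hvg⟩
    have h1 : v⁻¹ * g ∈ Subgroup.center G := QuotientGroup.eq.mp hvg
    have h2 : g = v * (v⁻¹ * g) := by group
    rw [h2]
    exact mul_mem hv (hZy h1)
  have hNn : ((Subgroup.centralizer ({x} : Set G)).map (QuotientGroup.mk' (Subgroup.center G))).Normal :=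
    Subgroup.Normal.map hxN _ (QuotientGroup.mk'_surjective _)
  refine ⟨⟨⟨fun u v => Subtype.ext (hcx u v u.2 v.2)⟩⟩, ⟨⟨fun u v => Subtype.ext (hcy u v u.2 v.2)⟩⟩, ?_⟩
  apply H82.Frob.isFrobenius
  · rw [eq_bot_iff]
    intro g hg
    obtain ⟨g, rfl⟩ := QuotientGroup.mk_surjective g
    obtain ⟨h1, h2⟩ := Subgroup.mem_inf.mp hg
    rw [Subgroup.mem_bot, QuotientGroup.eq_one_iff]
    exact H.inf_le_center' hx hy (Subgroup.mem_inf.mpr ⟨hmemx g h1, hmemy g h2⟩)
  · rw [eq_top_iff]
    intro g _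
    obtain ⟨g, rfl⟩ := QuotientGroup.mk_surjective g
    obtain ⟨c, hc, v, hv, rfl⟩ := H.exists_mul hx hy g
    rw [QuotientGroup.mk_mul]
    exact mul_mem (Subgroup.mem_sup_right ⟨c, hc, rfl⟩) (Subgroup.mem_sup_left ⟨v, hv, rfl⟩)
  · intro hbot
    have h1 : (x : G ⧸ Subgroup.center G) ∈ (⊥ : Subgroup (G ⧸ Subgroup.center G)) := by
      rw [← hbot]
      exact ⟨x, H72.TwoLargest.mem_cent.mpr rfl, rfl⟩
    rw [Subgroup.mem_bot, QuotientGroup.eq_one_iff] at h1
    exact hxy (hZy h1)
  · intro htop'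
    apply hyx
    apply hmemx
    rw [htop']
    trivial
  · intro v hv hv1 g hgv
    obtain ⟨v, rfl⟩ := QuotientGroup.mk_surjective v
    obtain ⟨g, rfl⟩ := QuotientGroup.mk_surjective g
    have hv' := hmemx v hv
    obtain ⟨c, hc, w, hw, rfl⟩ := H.exists_mul hx hy g
    have hvZ : v ∉ Subgroup.center G := fun h => hv1 ((QuotientGroup.eq_one_iff v).mpr h)
    have h1 : v⁻¹ * (c * v * c⁻¹) ∈ Subgroup.center G := by
      rw [← QuotientGroup.eq_one_iff]
      have h2 : v⁻¹ * (c * v * c⁻¹) = v⁻¹ * ((c * w) * v * (c * w)⁻¹) := by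
        have h3 : w * v = v * w := hcx w v hw hv'
        have h4 : w * v * w⁻¹ = v := by rw [h3]; group
        calc v⁻¹ * (c * v * c⁻¹) = v⁻¹ * (c * (w * v * w⁻¹) * c⁻¹) := by rw [h4]
          _ = v⁻¹ * ((c * w) * v * (c * w)⁻¹) := by group
      rw [h2]
      simp only [QuotientGroup.mk_mul, QuotientGroup.mk_inv] at hgv ⊢
      rw [hgv]
      group
    by_cases hcZ : c ∈ Subgroup.center G
    · exact ⟨c * w, mul_mem (hZx hcZ) hw, rfl⟩
    · exact absurd (H.fpf hx hy hc hcZ hv' h1) hvZ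

end Cfsg.Agent.S4138
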