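import Cfsg.Statements.S4142
import Cfsg.Agent.Lib.H72.ClassSize

set_option autoImplicit false
open Cfsg

namespace Cfsg.Agent.S4142

open Subgroup H72.ClassSize

theorem key {G : Type*} [Group G] [Finite G] (N : Subgroup G) [N.Normal] (g : G) :
    Nat.card (centralizer ({g} : Set G)) * Nat.card {n : N // ∃ x : G, x * g * x⁻¹ = g * n} =
      Nat.card (centralizer ({(QuotientGroup.mk g : G ⧸ N)} : Set (G ⧸ N))) * Nat.card N := by
  classical
  set Cb := centralizer ({(QuotientGroup.mk g : G ⧸ N)} : Set (G ⧸ N)) with hCb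
  set D : Subgroup G := Cb.comap (QuotientGroup.mk' N) with hD
  have hmemD : ∀ x : G, x ∈ D ↔ g⁻¹ * (x * g * x⁻¹) ∈ N := by
    intro x
    rw [hD, Subgroup.mem_comap, hCb, mem_cent_iff, QuotientGroup.mk'_apply]
    rw [← QuotientGroup.mk_mul, ← QuotientGroup.mk_inv, ← QuotientGroup.mk_mul, eq_comm,
      QuotientGroup.eq]
  have hCD : centralizer ({g} : Set G) ≤ D := by
    intro x hx
    rw [hmemD]
    rw [(mem_cent_iff g x).mp hx]
    simp [N.one_mem]
  have hcardD : Nat.card D = Nat.card Cb * Nat.card N := by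
    have h1 : D.index = Cb.index :=
      Subgroup.index_comap_of_surjective _ (QuotientGroup.mk'_surjective N)
    have h2 : Nat.card D * D.index = Nat.card G := Subgroup.card_mul_index D
    have h3 : Nat.card Cb * Cb.index = Nat.card (G ⧸ N) := Subgroup.card_mul_index Cb
    have h4 : Nat.card G = Nat.card (G ⧸ N) * Nat.card N := Subgroup.card_eq_card_quotient_mul_card_subgroup N
    have h5 : Cb.index ≠ 0 := Subgroup.index_ne_zero_of_finite
    apply Nat.eq_of_mul_eq_mul_right (Nat.pos_of_ne_zero h5)
    rw [← h1, h2, h4, ← h3, h1]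
    ring
  have hgD : g ∈ D := by rw [hmemD]; simp [N.one_mem]
  have hrel : (centralizer ({g} : Set G)).relIndex D = Nat.card {n : N // ∃ x : G, x * g * x⁻¹ = g * n} := by
    have h1 : (centralizer ({g} : Set G)).subgroupOf D = centralizer ({(⟨g, hgD⟩ : D)} : Set D) := by
      ext y
      rw [Subgroup.mem_subgroupOf, mem_centralizer_singleton_iff, mem_centralizer_singleton_iff,
        Subtype.ext_iff]
      simp
    rw [Subgroup.relIndex, h1, index_eq_card_conj]
    refine Nat.card_congr ⟨fun y => ⟨⟨g⁻¹ * (y.1 : G), ?_⟩, ?_⟩, fun n => ⟨⟨g * (n.1 : G), ?_⟩, ?_⟩, ?_, ?_⟩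
    · obtain ⟨x, hx⟩ := y.2
      have h2 := (hmemD x).mp x.2
      have h3 : (y.1 : G) = x * g * (x : G)⁻¹ := by rw [← hx]; simp
      rw [h3]; exact h2
    · obtain ⟨x, hx⟩ := y.2
      have h3 : (y.1 : G) = x * g * (x : G)⁻¹ := by rw [← hx]; simp
      refine ⟨x, ?_⟩
      rw [← h3]
      simp
    · obtain ⟨x, hx⟩ := n.2
      rw [hmemD]
      have h2 : g⁻¹ * (g * ↑n.1 * g * (g * ↑n.1)⁻¹) = (n.1 : G) * (g * (n.1 : G)⁻¹ * g⁻¹) := by group
      rw [h2]
      exact N.mul_mem n.1.2 (Subgroup.Normal.conj_mem inferInstance _ (N.inv_mem n.1.2) g)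
    · obtain ⟨x, hx⟩ := n.2
      refine ⟨⟨x, ?_⟩, ?_⟩
      · rw [hmemD, hx, inv_mul_cancel_left]; exact n.1.2
      · apply Subtype.ext
        simpa using hx
    · intro y
      apply Subtype.ext
      apply Subtype.ext
      simp
    · intro n
      apply Subtype.ext
      apply Subtype.ext
      simp
  have hmul : Nat.card (centralizer ({g} : Set G)) * (centralizer ({g} : Set G)).relIndex D = Nat.card D := by
    have h1 := Subgroup.relIndex_mul_index hCD
    have h2 : Nat.card D * D.index = Nat.card G := Subgroup.card_mul_index D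
    have h3 : Nat.card (centralizer ({g} : Set G)) * (centralizer ({g} : Set G)).index = Nat.card G :=
      Subgroup.card_mul_index _
    have h5 : D.index ≠ 0 := Subgroup.index_ne_zero_of_finite
    apply Nat.eq_of_mul_eq_mul_right (Nat.pos_of_ne_zero h5)
    rw [mul_assoc, h1, h3, h2]
  rw [← hrel, hmul, hcardD]

/-- Let G be a finite group and N a normal subgroup. Then the conjugacy class of every element g outside N is a union of cosets of N (gn is conjugate to g for all n ∈ N) if and only if for every g outside N the centralizer of g in G has the same order as the centralizer of gN in G/N. -/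
theorem result {G : Type*} [Group G] [Finite G] (N : Subgroup G) [N.Normal] :
    (∀ g : G, g ∉ N → ∀ n ∈ N, ∃ x : G, x * g * x⁻¹ = g * n) ↔
      ∀ g : G, g ∉ N → Nat.card (Subgroup.centralizer ({g} : Set G)) =
        Nat.card (Subgroup.centralizer ({(QuotientGroup.mk g : G ⧸ N)} : Set (G ⧸ N))) := by
  classical
  constructor
  · intro h g hg
    have hk := key N g
    have hall : Nat.card {n : N // ∃ x : G, x * g * x⁻¹ = g * n} = Nat.card N :=
      Nat.card_congr (Equiv.subtypeUnivEquiv fun n => h g hg n n.2)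
    rw [hall] at hk
    exact Nat.eq_of_mul_eq_mul_right Nat.card_pos hk
  · intro h g hg n hn
    have hk := key N g
    rw [h g hg] at hk
    have hall : Nat.card {n : N // ∃ x : G, x * g * x⁻¹ = g * n} = Nat.card N :=
      Nat.eq_of_mul_eq_mul_left Nat.card_pos hk
    have hsurj : Function.Surjective (Subtype.val : {n : N // ∃ x : G, x * g * x⁻¹ = g * n} → N) := by
      have hinj : Function.Injective (Subtype.val : {n : N // ∃ x : G, x * g * x⁻¹ = g * n} → N) :=
        Subtype.val_injective
      exact ((Nat.bijective_iff_injective_and_card _).mpr ⟨hinj, hall⟩).2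
    obtain ⟨m, hm⟩ := hsurj ⟨n, hn⟩
    obtain ⟨x, hx⟩ := m.2
    refine ⟨x, ?_⟩
    rw [hx, hm]

end Cfsg.Agent.S4142
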