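import Cfsg.Statements.S4144
import Cfsg.Agent.Lib.H57.Mc8
import Cfsg.Agent.Lib.H3.MaxClass2

set_option autoImplicit false
open Cfsg

namespace Cfsg.Agent.S4144

open H57.Mc

/-- Let X be a finite p-group of order p^n, n ≥ 2, of nilpotency class n − 1 (maximal class), and H any subgroup of X. Then the index in H of the subgroup generated by the p-th powers of elements of H is at most p^p. -/
theorem result {X : Type*} [Group X] [Finite X] {p : ℕ} [Fact p.Prime] (n : ℕ) (hn : 2 ≤ n) (hX : Nat.card X = p ^ n)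
    (hmax : Group.nilpotencyClass X = n - 1) (H : Subgroup X) :
    (Subgroup.closure {y : X | ∃ h ∈ H, y = h ^ p}).relIndex H ≤ p ^ p := by
  classical
  have hpp : p.Prime := Fact.out
  set U := Subgroup.closure {y : X | ∃ h ∈ H, y = h ^ p} with hUdef
  have hU : ∀ x ∈ H, x ^ p ∈ U := fun x hx => Subgroup.subset_closure ⟨x, hx, rfl⟩
  have hUH : U ≤ H := by
    rw [hUdef, Subgroup.closure_le]
    rintro _ ⟨x, hx, rfl⟩
    exact H.pow_mem hx p
  have hmul : Nat.card U * U.relIndex H = Nat.card H := by
    have := Subgroup.card_mul_index (U.subgroupOf H)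
    rwa [Nat.card_congr (Subgroup.subgroupOfEquivOfLe hUH).toEquiv] at this
  -- a small subgroup
  have hsmall : Nat.card H ≤ p ^ p → U.relIndex H ≤ p ^ p := by
    intro h
    refine le_trans ?_ h
    rw [← hmul]
    exact Nat.le_mul_of_pos_left _ Nat.card_pos
  have hlow : Nat.card H ≤ p ^ p * Nat.card U → U.relIndex H ≤ p ^ p := by
    intro h
    rw [← hmul, mul_comm] at h
    exact Nat.le_of_mul_le_mul_right h Nat.card_pos
  rcases Nat.lt_or_ge p n with hpn | hpn
  swap
  · apply hsmall
    refine (Nat.le_of_dvd Nat.card_pos (Subgroup.card_subgroup_dvd_card H)).trans ?_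
    rw [hX]; exact Nat.pow_le_pow_right hpp.pos hpn
  have hmc := mc_of_class hn hX hmax
  rcases hpp.eq_two_or_odd' with rfl | hodd
  · -- `p = 2`
    have hidx := H3.MaxClassP.index_commutator_eq hn hX hmax
    obtain ⟨a, t, ha, hai, -⟩ := H3.MaxClass2.exists_structure hpn hX (by rw [hidx]; norm_num)
    have hKc : IsCyclic (Subgroup.zpowers a ⊓ H : Subgroup X) :=
      isCyclic_of_injective (Subgroup.inclusion (inf_le_left : Subgroup.zpowers a ⊓ H ≤ Subgroup.zpowers a))
        (Subgroup.inclusion_injective _)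
    obtain ⟨c, hc⟩ := hKc
    have hcH : (c : X) ∈ H := c.2.2
    have hK : Subgroup.zpowers a ⊓ H = Subgroup.zpowers (c : X) := by
      apply le_antisymm
      · intro x hx
        obtain ⟨k, hk⟩ := hc ⟨x, hx⟩
        exact ⟨k, congrArg Subtype.val hk⟩
      · rw [Subgroup.zpowers_le]; exact c.2
    haveI : (Subgroup.zpowers a).Normal := Subgroup.normal_of_index_eq_two hai
    have h1 : (Subgroup.zpowers (c : X)).relIndex H ≤ 2 := by
      rw [← hK, Subgroup.inf_relIndex_right]
      have := Subgroup.relIndex_dvd_index_of_normal (Subgroup.zpowers a) H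
      rw [hai] at this
      exact Nat.le_of_dvd (by norm_num) this
    have h2 : (Subgroup.zpowers ((c : X) ^ 2)).relIndex (Subgroup.zpowers (c : X)) ≤ 2 := by
      have hle : Subgroup.zpowers ((c : X) ^ 2) ≤ Subgroup.zpowers (c : X) := by
        rw [Subgroup.zpowers_le]; exact Subgroup.pow_mem _ (Subgroup.mem_zpowers _) 2
      have h3 := Subgroup.card_mul_index ((Subgroup.zpowers ((c : X) ^ 2)).subgroupOf (Subgroup.zpowers (c : X)))
      rw [Nat.card_congr (Subgroup.subgroupOfEquivOfLe hle).toEquiv, Nat.card_zpowers, Nat.card_zpowers,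
        orderOf_pow] at h3
      have h4 : Nat.gcd (orderOf (c : X)) 2 ≤ 2 := Nat.gcd_le_right _ (by norm_num)
      have h5 : orderOf (c : X) / Nat.gcd (orderOf (c : X)) 2 * Nat.gcd (orderOf (c : X)) 2 = orderOf (c : X) :=
        Nat.div_mul_cancel (Nat.gcd_dvd_left _ _)
      have hpos : 0 < orderOf (c : X) := orderOf_pos _
      have hpos' : 0 < orderOf (c : X) / Nat.gcd (orderOf (c : X)) 2 := by
        refine Nat.pos_of_ne_zero fun h7 => ?_
        rw [h7, zero_mul] at h5
        omega
      have h6 : (Subgroup.zpowers ((c : X) ^ 2)).relIndex (Subgroup.zpowers (c : X)) =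
          Nat.gcd (orderOf (c : X)) 2 := by
        apply Nat.eq_of_mul_eq_mul_left hpos'
        exact h3.trans h5.symm
      rw [h6]; exact h4
    have h3 : Subgroup.zpowers ((c : X) ^ 2) ≤ U := by
      rw [Subgroup.zpowers_le]; exact hU _ hcH
    have hle : Subgroup.zpowers ((c : X) ^ 2) ≤ Subgroup.zpowers (c : X) := by
      rw [Subgroup.zpowers_le]; exact Subgroup.pow_mem _ (Subgroup.mem_zpowers _) 2
    have hcle : Subgroup.zpowers (c : X) ≤ H := by rw [Subgroup.zpowers_le]; exact hcH
    have h4 := Subgroup.relIndex_mul_relIndex _ _ _ hle hcle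
    calc U.relIndex H ≤ (Subgroup.zpowers ((c : X) ^ 2)).relIndex H :=
          Nat.le_of_dvd (Nat.pos_of_ne_zero Subgroup.index_ne_zero_of_finite) (Subgroup.relIndex_dvd_of_le_left H h3)
      _ = _ := h4.symm
      _ ≤ 2 * 2 := Nat.mul_le_mul h2 h1
      _ = 2 ^ 2 := by norm_num
  have h3 : 3 ≤ p := by
    have := hpp.two_le
    rcases hodd with ⟨m, hm⟩
    omega
  rcases Nat.lt_or_ge n (p + 2) with hn2 | hn2
  · have hn1 : n = p + 1 := by omega
    subst hn1
    by_cases hHt : H = ⊤
    · subst hHt
      have hU1 : Nat.card U ≠ 1 := by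
        intro h1
        rw [Subgroup.card_eq_one] at h1
        apply hmc.not_exp h3
        intro x
        have := hU x (Subgroup.mem_top x)
        rwa [h1, Subgroup.mem_bot] at this
      have hUp : p ≤ Nat.card U := by
        have hpg : IsPGroup p U := (IsPGroup.of_card hX).to_subgroup U
        obtain ⟨k, hk⟩ := IsPGroup.iff_card.1 hpg
        rw [hk]
        have hk0 : k ≠ 0 := by
          rintro rfl
          rw [pow_zero] at hk; exact hU1 hk
        exact Nat.le_self_pow hk0 p
      apply hlow
      rw [Subgroup.card_top, hX, pow_succ]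
      exact Nat.mul_le_mul_left _ hUp
    · apply hsmall
      have h1 : Nat.card H < Nat.card X := by
        refine lt_of_le_of_ne (Nat.le_of_dvd Nat.card_pos (Subgroup.card_subgroup_dvd_card H)) fun h2 => hHt ?_
        exact Subgroup.eq_top_of_card_eq H h2
      obtain ⟨k, hk⟩ := IsPGroup.iff_card.1 ((IsPGroup.of_card hX).to_subgroup H)
      rw [hk, hX] at h1
      rw [hk]
      have h2 := (Nat.pow_lt_pow_iff_right hpp.one_lt).1 h1
      exact Nat.pow_le_pow_right hpp.pos (by omega)
  · exact hlow (hmc.card_le h3 hn2 hU)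

end Cfsg.Agent.S4144
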