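import Cfsg.Statements.S4145
import Cfsg.Agent.Lib.H72.CyclicSylow
import Cfsg.Agent.Lib.H1.Cores

set_option autoImplicit false
open Cfsg

namespace Cfsg.Agent.S4145

open Subgroup

/-- a normal subgroup with a normal `p`-complement in a group with trivial `O_{p'}` is a `p`-group -/
theorem isPGroup_of_complement {G : Type*} [Group G] [Finite G] {p : ℕ} [hp : Fact p.Prime]
    (hO : pPrimeCore p G = ⊥) (H : Subgroup G) [H.Normal] (h : HasNormalPComplement p H) :
    IsPGroup p H := by
  obtain ⟨Q, L, hLn, hL⟩ := h
  have hcard : Nat.card L * Nat.card Q = Nat.card H := hL.card_mul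
  have hcop : (Nat.card L).Coprime p := by
    rw [Nat.coprime_comm, hp.out.coprime_iff_not_dvd]
    have h1 : Nat.card L = (Q : Subgroup H).index := by
      have h2 := Subgroup.card_mul_index (Q : Subgroup H)
      have h3 : 0 < Nat.card Q := Nat.card_pos
      apply Nat.eq_of_mul_eq_mul_right h3
      rw [hcard, ← h2, mul_comm]
    rw [h1]
    exact Q.not_dvd_index
  have h1 : L ≤ pPrimeCore p H := H1.Cores.le_pPrimeCore hLn hcop
  have h2 := H1.Cores.map_subtype_pPrimeCore p H
  rw [hO, inf_bot_eq, Subgroup.map_eq_bot_iff_of_injective _ (Subgroup.subtype_injective H)] at h2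
  rw [h2, le_bot_iff] at h1
  rw [h1, Subgroup.card_bot, one_mul] at hcard
  have h3 : (Q : Subgroup H) = ⊤ := Subgroup.eq_top_of_card_eq _ hcard
  have h4 := Q.2
  rw [h3] at h4
  exact h4.of_surjective (Subgroup.topEquiv : (⊤ : Subgroup H) ≃* H).toMonoidHom (MulEquiv.surjective _)

/-- Let G be a finite group with a cyclic Sylow p-subgroup and H a normal subgroup such that p divides both the order of H and the index of H. Then H has a normal p-complement and G is p-solvable. -/
theorem result {G : Type*} [Group G] [Finite G] (p : ℕ) [Fact p.Prime]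
    (P : Sylow p G) (hP : IsCyclic (P : Subgroup G)) (H : Subgroup G) [H.Normal] (h1 : p ∣ Nat.card H) (h2 : p ∣ H.index) :
    Cfsg.HasNormalPComplement p H ∧ Cfsg.IsPSolvable p G := by
  classical
  have hp : p.Prime := Fact.out
  have hcompl := H72.CyclicSylow.hasNormalPComplement_normal P hP H h2
  refine ⟨hcompl, ?_⟩
  have hNn : (pPrimeCore p G).Normal := H1.Cores.pPrimeCore_normal p
  set N := pPrimeCore p G with hN
  have hNcop : (Nat.card N).Coprime p := H1.Cores.coprime_card_pPrimeCore p
  have hO : pPrimeCore p (G ⧸ N) = ⊥ := H1.Cores.pPrimeCore_quotient_pPrimeCore p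
  have hsurj := QuotientGroup.mk'_surjective N
  set Hb := H.map (QuotientGroup.mk' N) with hHb
  have hHbn : Hb.Normal := Subgroup.Normal.map inferInstance _ hsurj
  -- Hb is a p-group
  have hHbp : IsPGroup p Hb := by
    obtain ⟨Q, L, hLn, hL⟩ := hcompl
    have hcard : Nat.card L * Nat.card Q = Nat.card H := hL.card_mul
    have hcop : (Nat.card L).Coprime p := by
      rw [Nat.coprime_comm, hp.coprime_iff_not_dvd]
      have h1 : Nat.card L = (Q : Subgroup H).index := by
        have h2 := Subgroup.card_mul_index (Q : Subgroup H)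
        have h3 : 0 < Nat.card Q := Nat.card_pos
        apply Nat.eq_of_mul_eq_mul_right h3
        rw [hcard, ← h2, mul_comm]
      rw [h1]
      exact Q.not_dvd_index
    have h3 : L ≤ pPrimeCore p H := H1.Cores.le_pPrimeCore hLn hcop
    have h4 := H1.Cores.map_subtype_pPrimeCore p H
    have h5 : L.map H.subtype ≤ N := by
      refine (Subgroup.map_mono h3).trans ?_
      rw [h4]; exact inf_le_right
    -- Hb is the image of Q
    have h6 : Hb = (Q : Subgroup H).map ((QuotientGroup.mk' N).comp H.subtype) := by
      apply le_antisymm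
      · rintro _ ⟨x, hx, rfl⟩
        have hx' : (⟨x, hx⟩ : H) ∈ (L ⊔ (Q : Subgroup H)) := by
          rw [hL.sup_eq_top]; trivial
        obtain ⟨l, hl, q, hq, hlq⟩ := Subgroup.mem_sup_of_normal_left.mp hx'
        refine ⟨q, hq, ?_⟩
        have e : x = (l : G) * q := by
          have := congrArg Subtype.val hlq
          exact this.symm
        show QuotientGroup.mk' N (q : G) = QuotientGroup.mk' N x
        rw [e, map_mul]
        have : QuotientGroup.mk' N (l : G) = 1 := by
          rw [QuotientGroup.mk'_apply, QuotientGroup.eq_one_iff]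
          exact h5 ⟨l, hl, rfl⟩
        rw [this, one_mul]
      · rintro _ ⟨q, hq, rfl⟩
        exact ⟨q, q.2, rfl⟩
    rw [h6]
    exact Q.2.map _
  have hHb1 : Hb ≠ ⊥ := by
    intro h0
    rw [hHb, Subgroup.map_eq_bot_iff, QuotientGroup.ker_mk'] at h0
    have h3 : Nat.card H ∣ Nat.card N := Subgroup.card_dvd_of_le h0
    have h4 := h1.trans h3
    rw [Nat.coprime_comm, hp.coprime_iff_not_dvd] at hNcop
    exact hNcop h4
  let Pb : Sylow p (G ⧸ N) := P.mapSurjective hsurj
  have hPb : IsCyclic (Pb : Subgroup (G ⧸ N)) := by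
    have : IsCyclic ((P : Subgroup G).map (QuotientGroup.mk' N)) := by
      exact isCyclic_of_surjective ((QuotientGroup.mk' N).subgroupMap (P : Subgroup G)) ((QuotientGroup.mk' N).subgroupMap_surjective _)
    exact this
  have hHbP : Hb ≤ (Pb : Subgroup (G ⧸ N)) := by
    have h3 : Hb ≤ pCore p (G ⧸ N) := H1.Cores.le_pCore hHbn hHbp
    exact h3.trans (H1.Cores.pCore_le_sylow Pb)
  set C := centralizer (Hb : Set (G ⧸ N)) with hC
  have hCn : C.Normal := inferInstance
  have hPbC : (Pb : Subgroup (G ⧸ N)) ≤ C := by
    intro x hx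
    rw [hC, Subgroup.mem_centralizer_iff]
    intro y hy
    exact (Subgroup.mem_centralizer_iff.mp (H72.CyclicSylow.le_centralizer_of_isCyclic _ hPb hx)) y (hHbP hy)
  have hCcompl : HasNormalPComplement p C := by
    have hcyc : IsCyclic ((Pb.subtype hPbC : Sylow p C) : Subgroup C) := by
      rw [Sylow.coe_subtype]
      exact isCyclic_of_surjective (Subgroup.subgroupOfEquivOfLe hPbC).symm (MulEquiv.surjective _)
    apply H72.CyclicSylow.hasNormalPComplement_of_central (Pb.subtype hPbC) hcyc (Hb.subgroupOf C)
    · rw [Sylow.coe_subtype]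
      intro x hx
      exact hHbP hx
    · intro h0
      apply hHb1
      have h3 : Hb ≤ C := hHbP.trans hPbC
      rw [Subgroup.subgroupOf_eq_bot] at h0
      rw [← inf_eq_left.mpr h3]
      exact h0.eq_bot
    · intro x hx
      rw [Subgroup.mem_center_iff]
      intro y
      apply Subtype.ext
      exact ((Subgroup.mem_centralizer_iff.mp y.2) x hx).symm
  have hCp : IsPGroup p C := isPGroup_of_complement hO C hCcompl
  have hCidx : (C.index).Coprime p := by
    rw [Nat.coprime_comm, hp.coprime_iff_not_dvd]
    intro hd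
    exact Pb.not_dvd_index (hd.trans (Subgroup.index_dvd_of_le hPbC))
  -- the chain
  set C' := C.comap (QuotientGroup.mk' N) with hC'
  have hNC' : N ≤ C' := by
    intro x hx
    rw [hC', Subgroup.mem_comap, QuotientGroup.mk'_apply, (QuotientGroup.eq_one_iff x).mpr hx]
    exact C.one_mem
  refine ⟨3, ![⊥, N, C', ⊤], rfl, rfl, ?_, ?_, ?_⟩
  · rw [Fin.monotone_iff_le_succ]
    intro i
    fin_cases i
    · exact bot_le
    · exact hNC'
    · exact le_top
  · intro i
    fin_cases i
    · show (⊥ : Subgroup G).Normal
      infer_instance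
    · exact hNn
    · exact hCn.comap _
    · show (⊤ : Subgroup G).Normal
      infer_instance
  · intro i
    fin_cases i
    · right
      show ((⊥ : Subgroup G).relIndex N).Coprime p
      rw [Subgroup.relIndex_bot_left]; exact hNcop
    · left
      show ∃ m : ℕ, N.relIndex C' = p ^ m
      obtain ⟨m, hm⟩ := IsPGroup.iff_card.mp hCp
      refine ⟨m, ?_⟩
      rw [← hm]
      have h3 : N = (QuotientGroup.mk' N).ker := (QuotientGroup.ker_mk' N).symm
      conv_lhs => rw [h3]
      rw [Subgroup.relIndex_ker, hC', Subgroup.map_comap_eq_self_of_surjective hsurj]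
    · right
      show (C'.relIndex ⊤).Coprime p
      rw [Subgroup.relIndex_top_right, hC', Subgroup.index_comap_of_surjective _ hsurj]
      exact hCidx

end Cfsg.Agent.S4145
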