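import Cfsg.Statements.S4146
import Cfsg.Agent.Lib.H72.ItoN4

set_option autoImplicit false
open Cfsg

namespace Cfsg.Agent.S4146

/-- Let G be a finite group whose conjugacy class sizes are exactly 1, n, m and nm for coprime integers n, m > 1. Then G is nilpotent and n and m are prime powers. -/
theorem result {G : Type*} [Group G] [Finite G] (n m : ℕ) (hn : 1 < n) (hm : 1 < m) (hcop : n.Coprime m)
    (h : Set.range (fun x : G => (Subgroup.centralizer ({x} : Set G)).index) = ({1, n, m, n * m} : Set ℕ)) :
    Group.IsNilpotent G ∧ IsPrimePow n ∧ IsPrimePow m := by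
  have hr : ∀ x : G, (Subgroup.centralizer ({x} : Set G)).index = 1 ∨
      (Subgroup.centralizer ({x} : Set G)).index = n ∨ (Subgroup.centralizer ({x} : Set G)).index = m ∨
      (Subgroup.centralizer ({x} : Set G)).index = n * m := by
    intro x
    have h1 : (Subgroup.centralizer ({x} : Set G)).index ∈ ({1, n, m, n * m} : Set ℕ) := by
      rw [← h]; exact ⟨x, rfl⟩
    simpa using h1
  have he : ∀ k : ℕ, k ∈ ({1, n, m, n * m} : Set ℕ) → ∃ x : G, H72.TwoLargest.cs x = k := by
    intro k hk
    rw [← h] at hk
    obtain ⟨x, hx⟩ := hk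
    exact ⟨x, hx⟩
  have H : H72.ItoZ.PP G n m :=
    { typ := hr
      exa := he n (by simp)
      exb := he m (by simp)
      exc := he (n * m) (by simp)
      cop := hcop
      a1 := hn
      b1 := hm }
  exact ⟨H72.ItoN.main H, H.isPrimePow_a, H.isPrimePow_b⟩

end Cfsg.Agent.S4146
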