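import Cfsg.Statements.S4149
import Cfsg.Agent.Lib.H72.TpCount

set_option autoImplicit false
open Cfsg

namespace Cfsg.Agent.S4149

open Subgroup H72.ClassSize H72.TpCount

/-- Let G be a finite group that has a normal p-complement for at most one prime p dividing its order, and let σ be a natural number such that every conjugacy class size of G has at most σ distinct prime divisors. Then the number of primes dividing at least one conjugacy class size of G is at most 2σ. -/
theorem result {G : Type*} [Group G] [Finite G] (σ : ℕ)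
    (hσ : ∀ x : G, ((Subgroup.centralizer ({x} : Set G)).index).primeFactors.card ≤ σ)
    (hnil : ∀ p q : ℕ, p.Prime → q.Prime → p ∣ Nat.card G → q ∣ Nat.card G →
      Cfsg.HasNormalPComplement p G → Cfsg.HasNormalPComplement q G → p = q) :
    Nat.card {p : ℕ | p.Prime ∧ ∃ x : G, p ∣ (Subgroup.centralizer ({x} : Set G)).index} ≤ 2 * σ := by
  classical
  have : Fintype G := Fintype.ofFinite G
  set R : Finset ℕ := (Nat.card G).primeFactors.filter
    (fun p => ∃ x : G, p ∣ (centralizer ({x} : Set G)).index) with hR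
  have hset : {p : ℕ | p.Prime ∧ ∃ x : G, p ∣ (centralizer ({x} : Set G)).index} = (R : Set ℕ) := by
    ext p
    simp only [Set.mem_ofPred_eq, hR, Finset.coe_filter, Nat.mem_primeFactors]
    constructor
    · rintro ⟨hp, x, hx⟩
      exact ⟨⟨hp, hx.trans (Subgroup.index_dvd_card _), Nat.card_pos.ne'⟩, x, hx⟩
    · rintro ⟨⟨hp, _, _⟩, x, hx⟩
      exact ⟨hp, x, hx⟩
  rw [hset, Nat.card_coe_set_eq, Set.ncard_coe_finset]
  by_contra hlt
  push Not at hlt
  let a : ℕ → ℕ := fun p => (Finset.univ.filter (fun g : G => p ∣ (centralizer ({g} : Set G)).index)).card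
  -- double counting
  have hsum : ∑ p ∈ R, a p ≤ Nat.card G * σ := by
    have h1 : ∑ p ∈ R, a p = ∑ g : G, (R.filter (fun p => p ∣ (centralizer ({g} : Set G)).index)).card := by
      simp only [a, Finset.card_filter]
      rw [Finset.sum_comm]
    rw [h1]
    calc ∑ g : G, (R.filter (fun p => p ∣ (centralizer ({g} : Set G)).index)).card ≤ ∑ _g : G, σ := by
          apply Finset.sum_le_sum
          intro g _
          refine le_trans (Finset.card_le_card ?_) (hσ g)
          intro p hp
          rw [Finset.mem_filter, hR, Finset.mem_filter, Nat.mem_primeFactors] at hp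
          rw [Nat.mem_primeFactors]
          exact ⟨hp.1.1.1, hp.2, index_ne_zero g⟩
      _ = Nat.card G * σ := by
          rw [Finset.sum_const, Finset.card_univ, smul_eq_mul, Nat.card_eq_fintype_card]
  have hpos : ∀ p ∈ R, 1 ≤ a p := by
    intro p hp
    rw [hR, Finset.mem_filter] at hp
    obtain ⟨x, hx⟩ := hp.2
    apply Finset.card_pos.mpr
    exact ⟨x, Finset.mem_filter.mpr ⟨Finset.mem_univ _, hx⟩⟩
  have hhalf : ∀ p ∈ R, ¬ Cfsg.HasNormalPComplement p G → Nat.card G ≤ 2 * a p := by
    intro p hp hn
    rw [hR, Finset.mem_filter, Nat.mem_primeFactors] at hp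
    have : Fact p.Prime := ⟨hp.1.1⟩
    have h1 := two_mul_card_le hn
    have h2 : Nat.card {g : G // ¬ p ∣ (centralizer ({g} : Set G)).index} + a p = Nat.card G := by
      have h3 : Nat.card {g : G // ¬ p ∣ (centralizer ({g} : Set G)).index} =
          (Finset.univ.filter (fun g : G => ¬ p ∣ (centralizer ({g} : Set G)).index)).card := by
        rw [Nat.card_eq_fintype_card, Fintype.card_subtype]
      rw [h3, Nat.card_eq_fintype_card, ← Finset.card_univ, add_comm]
      exact Finset.card_filter_add_card_filter_not (s := (Finset.univ : Finset G)) (fun g : G => p ∣ (centralizer ({g} : Set G)).index)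
    omega
  have hGpos : 0 < Nat.card G := Nat.card_pos
  by_cases hex : ∃ p0 ∈ R, Cfsg.HasNormalPComplement p0 G
  · obtain ⟨p0, hp0, hn0⟩ := hex
    have hothers : ∀ p ∈ R.erase p0, Nat.card G ≤ 2 * a p := by
      intro p hp
      rw [Finset.mem_erase] at hp
      apply hhalf p hp.2
      intro hn
      apply hp.1
      have h1 := hp.2
      rw [hR, Finset.mem_filter, Nat.mem_primeFactors] at h1
      have h2 := hp0
      rw [hR, Finset.mem_filter, Nat.mem_primeFactors] at h2
      exact hnil p p0 h1.1.1 h2.1.1 h1.1.2.1 h2.1.2.1 hn hn0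
    have h1 : a p0 + ∑ p ∈ R.erase p0, a p = ∑ p ∈ R, a p := Finset.add_sum_erase R a hp0
    have h2 : (R.erase p0).card * Nat.card G ≤ ∑ p ∈ R.erase p0, 2 * a p := by
      rw [← smul_eq_mul]
      exact Finset.card_nsmul_le_sum _ _ _ hothers
    rw [← Finset.mul_sum, Finset.card_erase_of_mem hp0] at h2
    have h3 := hpos p0 hp0
    have h4 : 2 * σ ≤ R.card - 1 := by omega
    have h5 : 2 * σ * Nat.card G ≤ (R.card - 1) * Nat.card G := Nat.mul_le_mul_right _ h4
    nlinarith
  · push Not at hex
    have h2 : R.card * Nat.card G ≤ ∑ p ∈ R, 2 * a p := by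
      rw [← smul_eq_mul]
      exact Finset.card_nsmul_le_sum _ _ _ (fun p hp => hhalf p hp (hex p hp))
    rw [← Finset.mul_sum] at h2
    have h5 : (2 * σ + 1) * Nat.card G ≤ R.card * Nat.card G := Nat.mul_le_mul_right _ hlt
    nlinarith

end Cfsg.Agent.S4149
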