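import Cfsg.Statements.S4150
import Mathlib
import Cfsg.Agent.Lib.H72.Deg13
import Cfsg.Agent.Lib.H72.TwoPrimes
import Cfsg.Agent.Lib.H60.Ord60
import Cfsg.Agent.Lib.H21.SimpleBasic
import Cfsg.Agent.Lib.H62.PrimGroup
import Cfsg.Agent.Lib.H1.Solv

set_option autoImplicit false
open Cfsg

namespace Cfsg.Agent.S4150

open MulAction Subgroup Equiv.Perm H72.JordanCycle

theorem transitive {α : Type*} [Fintype α] [DecidableEq α] (x y : Equiv.Perm α) {p q : ℕ}
    (hp : p.Prime) (hpq : p < q) (hx : orderOf x = p)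
    (hy : y.IsCycle) (hyo : orderOf y = q) (hd : Fintype.card α ≤ 2 * p)
    (hmov : ∀ a, x a ≠ a ∨ y a ≠ a) :
    IsPretransitive (closure {x, y} : Subgroup (Equiv.Perm α)) α := by
  have hys : y.support.card = q := by rw [← hy.orderOf, hyo]
  have hxG : x ∈ closure ({x, y} : Set (Equiv.Perm α)) := subset_closure (by simp)
  have hyG : y ∈ closure ({x, y} : Set (Equiv.Perm α)) := subset_closure (by simp)
  obtain ⟨a0, ha0, hcyc⟩ := hy
  rw [isPretransitive_iff_base a0]
  -- first move into the support of y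
  have h1 : ∀ a, ∃ j : ℕ, y ((x ^ j) a) ≠ (x ^ j) a := by
    intro a
    by_contra hcon
    push Not at hcon
    have hxa : x a ≠ a := by
      rcases hmov a with h | h
      · exact h
      · exact absurd (hcon 0) h
    let φ : Fin p → {b : α // b ∉ y.support} := fun j => ⟨(x ^ (j : ℕ)) a, by
      rw [Equiv.Perm.notMem_support]; exact hcon j⟩
    have hφ : Function.Injective φ := by
      intro i j hij
      have h2 : (x ^ (i : ℕ)) a = (x ^ (j : ℕ)) a := congrArg Subtype.val hij
      have h3 : (x ^ ((i : ℤ) - j)) a = a := by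
        rw [sub_eq_neg_add, zpow_add, zpow_neg, zpow_natCast, zpow_natCast, Equiv.Perm.mul_apply, h2,
          inv_apply_self']
      have h4 := H72.Deg13.pow_fix hp hx hxa h3
      apply Fin.ext
      have := i.2
      have := j.2
      have h5 : |((i : ℕ) : ℤ) - (j : ℕ)| < p := by
        rw [abs_lt]; constructor <;> omega
      have h6 := Int.eq_zero_of_abs_lt_dvd h4 h5
      omega
    have h2 := Nat.card_le_card_of_injective φ hφ
    have h3 : Nat.card {b : α // b ∉ y.support} = Fintype.card α - q := by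
      rw [Nat.card_eq_fintype_card, Fintype.card_subtype_compl, Fintype.card_coe, hys]
    rw [h3, Nat.card_fin] at h2
    have h4 : q ≤ Fintype.card α := by rw [← hys]; exact Finset.card_le_univ _
    omega
  intro a
  obtain ⟨j, hj⟩ := h1 a
  obtain ⟨k, hk⟩ := hcyc hj
  refine ⟨⟨(x ^ j)⁻¹ * y ^ k, mul_mem (inv_mem (pow_mem hxG j)) (zpow_mem hyG k)⟩, ?_⟩
  show (x ^ j)⁻¹ ((y ^ k) a0) = a
  rw [hk, inv_apply_self']

theorem primitive {α : Type*} [Fintype α] [DecidableEq α] (G : Subgroup (Equiv.Perm α))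
    [IsPretransitive G α] (y : Equiv.Perm α) (hy : y.IsCycle) (hyG : y ∈ G)
    (hyp : y.support.card.Prime) (hlt : Fintype.card α < 2 * y.support.card) :
    IsPreprimitive G α := by
  have := isPreprimitive_fixing hy hyp hyG
  let f : (SubMulAction.ofFixingSubgroup G ((y.support : Set α)ᶜ)) →ₑ[(fixingSubgroup G ((y.support : Set α)ᶜ)).subtype] α :=
    { toFun := Subtype.val, map_smul' := fun _ _ => rfl }
  apply IsPreprimitive.of_card_lt (f := f)
  have h1 : Set.range f = (y.support : Set α) := by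
    have h2 : Set.range f = Set.range (Subtype.val : (SubMulAction.ofFixingSubgroup G ((y.support : Set α)ᶜ)) → α) := rfl
    rw [h2]
    ext a
    constructor
    · rintro ⟨b, rfl⟩
      have := b.2
      rw [SubMulAction.mem_ofFixingSubgroup_iff] at this
      simpa using this
    · intro ha
      exact ⟨⟨a, by rw [SubMulAction.mem_ofFixingSubgroup_iff]; simpa using ha⟩, rfl⟩
  rw [h1, Set.ncard_coe_finset, Nat.card_eq_fintype_card]
  exact hlt

theorem index_ge {β : Type*} [Fintype β] [DecidableEq β] (hβ : 5 ≤ Nat.card β)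
    (H : Subgroup (alternatingGroup β)) (hH : H ≠ ⊤) : Nat.card β ≤ H.index := by
  have hs : IsSimpleGroup (alternatingGroup β) := alternatingGroup.isSimpleGroup hβ
  have hnt : Nontrivial β := by
    rw [← Finite.one_lt_card_iff_nontrivial]; omega
  have hnc : ¬ IsMulCommutative (alternatingGroup β) := by
    intro h
    have h1 : Nat.card β ≤ 3 := by
      by_contra hc
      push Not at hc
      have h2 := alternatingGroup.center_eq_bot (α := β) (by omega)
      have h3 : center (alternatingGroup β) = ⊤ := by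
        rw [eq_top_iff]
        intro a _
        rw [mem_center_iff]
        intro b
        exact h.is_comm.comm b a
      rw [h2] at h3
      have h4 : Nontrivial (alternatingGroup β) := inferInstance
      exact bot_ne_top h3
    omega
  have h1 := H21.SimpleBasic.two_mul_card_dvd_factorial_index hnc H hH
  rw [two_mul_nat_card_alternatingGroup, Nat.card_perm] at h1
  by_contra hcon
  push Not at hcon
  have h2 := Nat.le_of_dvd (Nat.factorial_pos _) h1
  have h3 : (H.index).factorial < (Nat.card β).factorial := by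
    apply (Nat.factorial_lt _).mpr hcon
    exact Nat.pos_of_ne_zero H.index_ne_zero_of_finite
  omega

/-- a solvable primitive group has prime power degree -/
theorem card_of_solvable {α : Type*} [Fintype α] [DecidableEq α] [Nontrivial α] (G : Subgroup (Equiv.Perm α))
    (hG : IsPreprimitive G α) (hs : Group.IsSolvable G) :
    Nat.card (fittingSubgroup G) = Fintype.card α ∧
    (∀ c : G, (∀ n ∈ fittingSubgroup G, c * n = n * c) → c ∈ fittingSubgroup G) ∧
    ∃ p e : ℕ, p.Prime ∧ Fintype.card α = p ^ e := by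
  have hF : fittingSubgroup G ≠ ⊥ := by
    intro h
    have h1 := H1.Solv.centralizer_fitting_le hs
    rw [h] at h1
    have h2 : ∀ g : G, g = 1 := by
      intro g
      have h3 : g ∈ centralizer ((⊥ : Subgroup G) : Set G) := by
        rw [mem_centralizer_iff]
        intro y hy
        rw [SetLike.mem_coe, mem_bot] at hy
        rw [hy, one_mul, mul_one]
      exact mem_bot.mp (h1 h3)
    obtain ⟨a, b, hab⟩ := exists_pair_ne α
    obtain ⟨g, hg⟩ := exists_smul_eq G a b
    rw [h2 g, one_smul] at hg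
    exact hab hg
  obtain ⟨_, h2, h3, p, e, hp, he, _⟩ := H62.PrimGroup.fitting_structure (H := G) (Δ := α) hF
  rw [Nat.card_eq_fintype_card (α := α)] at h2
  exact ⟨h2, h3, p, e, hp, by rw [← h2, he]⟩

theorem card_sub {α : Type*} [Fintype α] [DecidableEq α] [Nontrivial α] (G : Subgroup (Equiv.Perm α))
    (halt : G ≤ alternatingGroup α) :
    2 * (Nat.card G * (G.subgroupOf (alternatingGroup α)).index) = (Fintype.card α).factorial := by
  have h1 : Nat.card (G.subgroupOf (alternatingGroup α)) = Nat.card G :=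
    Nat.card_congr (Subgroup.subgroupOfEquivOfLe halt).toEquiv
  rw [← h1, Subgroup.card_mul_index, two_mul_nat_card_alternatingGroup, Nat.card_perm,
    Nat.card_eq_fintype_card]

theorem orderOf_dvd_card {α : Type*} [Fintype α] [DecidableEq α] (G : Subgroup (Equiv.Perm α))
    {x : Equiv.Perm α} (hx : x ∈ G) : orderOf x ∣ Nat.card G := Subgroup.orderOf_dvd_natCard G hx

theorem deg6 {α : Type*} [Fintype α] [DecidableEq α] (G : Subgroup (Equiv.Perm α))
    (hG : IsPreprimitive G α) (hα : Fintype.card α = 6) (halt : G ≤ alternatingGroup α)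
    (h5 : 5 ∣ Nat.card G) :
    Nonempty (G ≃* alternatingGroup (Fin 5)) ∨ alternatingGroup α ≤ G := by
  have hnt : Nontrivial α := by
    rw [← Fintype.one_lt_card_iff_nontrivial]; omega
  by_cases htop : G.subgroupOf (alternatingGroup α) = ⊤
  · right
    exact Subgroup.subgroupOf_eq_top.mp htop
  · left
    have hidx := index_ge (by rw [Nat.card_eq_fintype_card, hα]; norm_num) _ htop
    rw [Nat.card_eq_fintype_card, hα] at hidx
    have hcard := card_sub G halt
    rw [hα, show Nat.factorial 6 = 720 from rfl] at hcard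
    have h6 : 6 ∣ Nat.card G := by
      obtain ⟨a⟩ : Nonempty α := hnt.to_nonempty
      have h1 := index_stabilizer G a
      rw [orbit_eq_univ, Set.ncard_univ, Nat.card_eq_fintype_card (α := α), hα] at h1
      rw [← h1]
      exact Subgroup.index_dvd_card _
    have h30 : 30 ∣ Nat.card G := by
      have : Nat.Coprime 6 5 := by norm_num
      exact this.mul_dvd_of_dvd_of_dvd h6 h5
    obtain ⟨k, hk⟩ := h30
    have hnsol : ¬ Group.IsSolvable G := by
      intro hs
      obtain ⟨_, _, p, e, hp, he⟩ := card_of_solvable G hG hs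
      rw [hα] at he
      have h2 : p ∣ 6 := by
        rw [he]
        apply dvd_pow_self
        rintro rfl
        norm_num at he
      have hp2 : 2 ∣ p ^ e := by rw [← he]; norm_num
      have hp3 : 3 ∣ p ^ e := by rw [← he]; norm_num
      have h3 := (Nat.prime_dvd_prime_iff_eq Nat.prime_two hp).mp (Nat.prime_two.dvd_of_dvd_pow hp2)
      have h4 := (Nat.prime_dvd_prime_iff_eq Nat.prime_three hp).mp (Nat.prime_three.dvd_of_dvd_pow hp3)
      omega
    set j := (G.subgroupOf (alternatingGroup α)).index with hj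
    have hkj : k * j = 12 := by
      rw [hk] at hcard
      have : 2 * (30 * k * j) = 60 * (k * j) := by ring
      omega
    have hk2 : k = 1 ∨ k = 2 := by
      have hj6 : 6 ≤ j := hidx
      have h1 : k * 6 ≤ 12 := by rw [← hkj]; exact Nat.mul_le_mul_left k hj6
      have h0 : k ≠ 0 := by rintro rfl; omega
      omega
    rcases hk2 with rfl | rfl
    · exfalso
      exact hnsol (H60.Ord60.solvable_of_dvd (by rw [hk]; norm_num) (by rw [hk]; norm_num))
    · have h60 : Nat.card G = 60 := by rw [hk]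
      have := H60.Ord60.isSimple_of_not_solvable h60 hnsol
      exact H60.Ord60.iso_alt5 h60

theorem deg7 {α : Type*} [Fintype α] [DecidableEq α] (G : Subgroup (Equiv.Perm α))
    (hG : IsPreprimitive G α) (hα : Fintype.card α = 7) (halt : G ≤ alternatingGroup α)
    (x : Equiv.Perm α) (hx : x.IsCycle) (hxs : x.support.card = 5) (hxG : x ∈ G) :
    alternatingGroup α ≤ G := by
  have hnt : Nontrivial α := by
    rw [← Fintype.one_lt_card_iff_nontrivial]; omega
  by_contra hcon
  have htop : G.subgroupOf (alternatingGroup α) ≠ ⊤ := fun h => hcon (Subgroup.subgroupOf_eq_top.mp h)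
  have hidx := index_ge (by rw [Nat.card_eq_fintype_card, hα]; norm_num) _ htop
  rw [Nat.card_eq_fintype_card, hα] at hidx
  have hcard := card_sub G halt
  rw [hα, show Nat.factorial 7 = 5040 from rfl] at hcard
  have hmt : IsMultiplyPretransitive G α 3 := by
    have := isMultiplyPretransitive hG hx (by rw [hxs]; norm_num) hxG (by rw [hxs, hα]; norm_num)
    rwa [hxs, hα] at this
  have h210 : 210 ∣ Nat.card G := by
    obtain ⟨s, hs⟩ : ∃ s : Finset α, s.card = 3 := by
      obtain ⟨s, _, hs⟩ := Finset.exists_subset_card_eq (s := (Finset.univ : Finset α)) (n := 3)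
        (by rw [Finset.card_univ, hα]; norm_num)
      exact ⟨s, hs⟩
    have h1 := hmt.index_of_fixingSubgroup_mul (s := (s : Set α)) (by rw [Set.ncard_coe_finset, hs])
    rw [Nat.card_eq_fintype_card, hα, show Nat.factorial (7 - 3) = 24 from rfl,
      show Nat.factorial 7 = 5040 from rfl] at h1
    have h2 : (fixingSubgroup G (s : Set α)).index = 210 := by omega
    rw [← h2]
    exact Subgroup.index_dvd_card _
  obtain ⟨k, hk⟩ := h210
  set j := (G.subgroupOf (alternatingGroup α)).index with hj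
  have hkj : k * j = 12 := by
    rw [hk] at hcard
    have : 2 * (210 * k * j) = 420 * (k * j) := by ring
    omega
  have hk1 : k = 1 := by
    have hj6 : 7 ≤ j := hidx
    have h1 : k * 7 ≤ 12 := by rw [← hkj]; exact Nat.mul_le_mul_left k hj6
    have h0 : k ≠ 0 := by rintro rfl; omega
    omega
  subst hk1
  have hcG : Nat.card G = 210 := by rw [hk]
  have hZ : IsZGroup G := IsZGroup.of_squarefree (by
    rw [hcG]
    rw [Nat.squarefree_iff_prime_squarefree]
    intro p hp hd
    have hpp : p * p ≤ 210 := Nat.le_of_dvd (by norm_num) hd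
    have hp14 : p ≤ 14 := by nlinarith
    interval_cases p <;> revert hd hp <;> norm_num)
  obtain ⟨hF, hself, _⟩ := card_of_solvable G hG inferInstance
  rw [hα] at hF
  -- x centralizes F
  have hxo : orderOf x = 5 := by rw [hx.orderOf, hxs]
  set F := fittingSubgroup G with hFdef
  have hFn : F.Normal := H1.Cores.fittingSubgroup_normal
  let x' : G := ⟨x, hxG⟩
  have hx'o : orderOf x' = 5 := by rw [Subgroup.orderOf_mk, hxo]
  have h5 : Fact (Nat.Prime 5) := ⟨by norm_num⟩
  have h7 : Fact (Nat.Prime 7) := ⟨by norm_num⟩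
  have hfix : ∃ f ∈ F, f ≠ 1 ∧ x' * f = f * x' := by
    by_contra hno
    push Not at hno
    -- the map j ↦ x^j f x^-j
    obtain ⟨f, hf⟩ := exists_prime_orderOf_dvd_card' (G := F) 7 (by rw [hF])
    have hf1 : (f : G) ≠ 1 := by
      intro h
      have h1 : f = 1 := Subtype.ext h
      rw [h1, orderOf_one] at hf
      norm_num at hf
    -- conjugation by x' on F: x' f x'⁻¹ = f ^ a
    have hFtop : ∀ g : F, g ∈ zpowers f := by
      have h1 : zpowers f = ⊤ := by
        apply Subgroup.eq_top_of_card_eq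
        rw [Nat.card_zpowers, hf, hF]
      intro g; rw [h1]; trivial
    have hcon1 : (⟨x' * f * x'⁻¹, hFn.conj_mem _ f.2 _⟩ : F) ∈ zpowers f := hFtop _
    obtain ⟨a, ha⟩ := mem_zpowers_iff.mp hcon1
    have ha' : x' * (f : G) * x'⁻¹ = (f : G) ^ a := by
      have := congrArg Subtype.val ha
      simpa using this.symm
    have hfo : orderOf (f : G) = 7 := by rw [Subgroup.orderOf_coe, hf]
    have h5a := H72.Deg13.conj_pow_pow ha' 5
    have hx5 : x' ^ 5 = 1 := by rw [← hx'o]; exact pow_orderOf_eq_one _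
    rw [hx5, one_mul, inv_one, mul_one] at h5a
    have hm5 : a ^ 5 ≡ 1 [ZMOD 7] := by
      have h1 : (f : G) ^ (1 : ℤ) = (f : G) ^ (a ^ 5) := by rw [zpow_one]; exact h5a
      rw [zpow_eq_zpow_iff_modEq, hfo] at h1
      exact h1.symm
    have ha7 : ¬ (7 : ℤ) ∣ a := by
      intro hd
      have h1 : a ^ 5 ≡ 0 [ZMOD 7] := (Int.modEq_zero_iff_dvd).mpr (dvd_pow hd (by norm_num))
      have h2 := h1.symm.trans hm5
      have := h2.dvd
      norm_num at this
    have hm6 : a ^ 6 ≡ 1 [ZMOD 7] := by
      have hcop : IsCoprime a ((7 : ℕ) : ℤ) :=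
        ((Prime.coprime_iff_not_dvd (Nat.prime_iff_prime_int.mp (by norm_num))).mpr ha7).symm
      exact Int.ModEq.pow_card_sub_one_eq_one (by norm_num) hcop
    have hm1 : a ≡ 1 [ZMOD 7] := by
      have h1 : a ^ 6 ≡ a [ZMOD 7] := by
        have : a ^ 6 = a ^ 5 * a := by ring
        rw [this]
        calc a ^ 5 * a ≡ 1 * a [ZMOD 7] := hm5.mul_right a
          _ = a := one_mul a
      exact h1.symm.trans hm6
    apply hno f f.2 hf1
    have h1 : (f : G) ^ a = f := by
      have : (f : G) ^ a = (f : G) ^ (1 : ℤ) := by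
        rw [zpow_eq_zpow_iff_modEq, hfo]; exact hm1
      rw [this, zpow_one]
    rw [h1] at ha'
    exact mul_inv_eq_iff_eq_mul.mp ha'
  obtain ⟨f, hfF, hf1, hfx⟩ := hfix
  have hzf : zpowers (⟨f, hfF⟩ : F) = ⊤ := by
    apply Subgroup.eq_top_of_card_eq
    rw [Nat.card_zpowers, hF]
    have h1 : orderOf (⟨f, hfF⟩ : F) ∣ 7 := by rw [← hF]; exact orderOf_dvd_natCard _
    rcases (Nat.dvd_prime (by norm_num)).mp h1 with h2 | h2
    · exfalso
      rw [orderOf_eq_one_iff] at h2
      exact hf1 (congrArg Subtype.val h2)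
    · exact h2
  have hxF : x' ∈ F := by
    apply hself
    intro n hn
    have h1 : (⟨n, hn⟩ : F) ∈ zpowers (⟨f, hfF⟩ : F) := by rw [hzf]; trivial
    obtain ⟨i, hi⟩ := mem_zpowers_iff.mp h1
    have h2 : f ^ i = n := by simpa using congrArg Subtype.val hi
    rw [← h2]
    exact (show Commute x' f from hfx).zpow_right i
  have h1 := Subgroup.orderOf_dvd_natCard F hxF
  rw [hx'o, hF] at h1
  norm_num at h1

/-- the generic case -/
theorem good {α : Type*} [Fintype α] [DecidableEq α] (x y : Equiv.Perm α) {p q : ℕ}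
    (hp : p.Prime) (hq : q.Prime) (hpq : p < q) (hx : orderOf x = p) (hyo : orderOf y = q)
    (hd : Fintype.card α ≤ 2 * p) (hmov : ∀ a, x a ≠ a ∨ y a ≠ a)
    (hcase : (Fintype.card α < 2 * p ∧ p + 3 ≤ Fintype.card α) ∨ q + 3 ≤ Fintype.card α) :
    alternatingGroup α ≤ closure {x, y} := by
  have hy : y.IsCycle := Equiv.Perm.isCycle_of_prime_order' (by rw [hyo]; exact hq) (by rw [hyo]; omega)
  have hys : y.support.card = q := by rw [← hy.orderOf, hyo]
  have hxG : x ∈ closure ({x, y} : Set (Equiv.Perm α)) := subset_closure (by simp)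
  have hyG : y ∈ closure ({x, y} : Set (Equiv.Perm α)) := subset_closure (by simp)
  have := transitive x y hp hpq hx hy hyo hd hmov
  have hprim := primitive _ y hy hyG (by rw [hys]; exact hq) (by rw [hys]; omega)
  rcases hcase with ⟨h1, h2⟩ | h1
  · have hxc : x.IsCycle := Equiv.Perm.isCycle_of_prime_order' (by rw [hx]; exact hp) (by rw [hx]; omega)
    have hxs : x.support.card = p := by rw [← hxc.orderOf, hx]
    exact jordan_cycle hprim x hxc (by rw [hxs]; exact hp) (by rw [hxs]; exact h2) hxG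
  · exact jordan_cycle hprim y hy (by rw [hys]; exact hq) (by rw [hys]; exact h1) hyG

theorem closure_le_alt {α : Type*} [Fintype α] [DecidableEq α] {x y : Equiv.Perm α}
    (hx : x ∈ alternatingGroup α) (hy : y ∈ alternatingGroup α) :
    closure {x, y} ≤ alternatingGroup α := by
  rw [closure_le]
  rintro z (rfl | hz)
  · exact hx
  · rw [Set.mem_singleton_iff.mp hz]; exact hy

theorem iso_of_le {α : Type*} [Fintype α] [DecidableEq α] {x y : Equiv.Perm α}
    (hx : x ∈ alternatingGroup α) (hy : y ∈ alternatingGroup α) (h5 : 5 ≤ Fintype.card α)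
    (h : alternatingGroup α ≤ closure {x, y}) :
    ∃ d : ℕ, 5 ≤ d ∧ Nonempty (closure ({x, y} : Set (Equiv.Perm α)) ≃* alternatingGroup (Fin d)) := by
  refine ⟨Fintype.card α, h5, ?_⟩
  have e : closure ({x, y} : Set (Equiv.Perm α)) = alternatingGroup α := le_antisymm (closure_le_alt hx hy) h
  rw [e]
  exact ⟨Equiv.altCongrHom (Fintype.equivFin α)⟩

/-- The admissible pairs. -/
def Adm (m p q : ℕ) : Prop :=
  (m ≤ 6 ∧ p = 3 ∧ q = 5) ∨ (m ≤ 10 ∧ p = 5 ∧ q = 7) ∨ (m ≤ 14 ∧ p = 7 ∧ q = 11) ∨
    (m ≤ 16 ∧ p = 11 ∧ q = 13) ∨ (m < 2 * p ∧ p + 3 ≤ q)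

theorem core {α : Type*} [Fintype α] [DecidableEq α] (m p q : ℕ) (hp : p.Prime) (hq : q.Prime)
    (hadm : Adm m p q) (hm5 : 5 ≤ q) (hdm : Fintype.card α ≤ m) (x y : Equiv.Perm α)
    (hx : orderOf x = p) (hy : orderOf y = q)
    (hmov : ∀ a, x a ≠ a ∨ y a ≠ a) (hxa : x ∈ alternatingGroup α) (hya : y ∈ alternatingGroup α) :
    ∃ d : ℕ, 5 ≤ d ∧ Nonempty (closure ({x, y} : Set (Equiv.Perm α)) ≃* alternatingGroup (Fin d)) := by
  have hpq : p < q := by
    rcases hadm with ⟨_, rfl, rfl⟩ | ⟨_, rfl, rfl⟩ | ⟨_, rfl, rfl⟩ | ⟨_, rfl, rfl⟩ | ⟨_, h⟩ <;> omega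
  have hd2 : Fintype.card α ≤ 2 * p := by
    rcases hadm with ⟨h, rfl, rfl⟩ | ⟨h, rfl, rfl⟩ | ⟨h, rfl, rfl⟩ | ⟨h, rfl, rfl⟩ | ⟨h, _⟩ <;> omega
  have hyc : y.IsCycle := Equiv.Perm.isCycle_of_prime_order' (by rw [hy]; exact hq) (by rw [hy]; omega)
  have hys : y.support.card = q := by rw [← hyc.orderOf, hy]
  have hqd : q ≤ Fintype.card α := by rw [← hys]; exact Finset.card_le_univ _
  have hxG : x ∈ closure ({x, y} : Set (Equiv.Perm α)) := subset_closure (by simp)
  have hyG : y ∈ closure ({x, y} : Set (Equiv.Perm α)) := subset_closure (by simp)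
  have h5 : 5 ≤ Fintype.card α := by omega
  have hgood := good x y hp hq hpq hx hy hd2 hmov
  have htr := transitive x y hp hpq hx hyc hy hd2 hmov
  have hprim := primitive _ y hyc hyG (by rw [hys]; exact hq) (by rw [hys]; omega)
  rcases hadm with ⟨h, rfl, rfl⟩ | ⟨h, rfl, rfl⟩ | ⟨h, rfl, rfl⟩ | ⟨h, rfl, rfl⟩ | ⟨h, h'⟩
  · by_cases hd5 : Fintype.card α < 6
    · apply iso_of_le hxa hya h5
      have hxc : x.IsCycle := Equiv.Perm.isCycle_of_prime_order' (by rw [hx]; exact hp) (by rw [hx]; omega)
      have hxs : x.support.card = 3 := by rw [← hxc.orderOf, hx]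
      exact alternatingGroup_le_of_isPreprimitive_of_isThreeCycle_mem hprim
        (card_support_eq_three_iff.mp hxs) hxG
    · have hd6 : Fintype.card α = 6 := by omega
      rcases deg6 _ hprim hd6 (closure_le_alt hxa hya) (by
        rw [← hy]; exact orderOf_dvd_card _ hyG) with h1 | h1
      · exact ⟨5, le_rfl, h1⟩
      · exact iso_of_le hxa hya h5 h1
  · by_cases hd7 : Fintype.card α = 7
    · apply iso_of_le hxa hya h5
      have hxc : x.IsCycle := Equiv.Perm.isCycle_of_prime_order' (by rw [hx]; exact hp) (by rw [hx]; omega)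
      have hxs : x.support.card = 5 := by rw [← hxc.orderOf, hx]
      exact deg7 _ hprim hd7 (closure_le_alt hxa hya) x hxc hxs hxG
    · apply iso_of_le hxa hya h5 (hgood (by omega))
  · apply iso_of_le hxa hya h5 (hgood (by omega))
  · by_cases hd13 : Fintype.card α = 13
    · apply iso_of_le hxa hya h5
      have hxc : x.IsCycle := Equiv.Perm.isCycle_of_prime_order' (by rw [hx]; exact hp) (by rw [hx]; omega)
      have hxs : x.support.card = 11 := by rw [← hxc.orderOf, hx]
      exact H72.Deg13.deg13 hprim hd13 (closure_le_alt hxa hya) x hxc hxs hxG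
    · apply iso_of_le hxa hya h5 (hgood (by omega))
  · apply iso_of_le hxa hya h5 (hgood (by omega))

theorem exists_adm (m : ℕ) (hm : 5 ≤ m) :
    ∃ p q : ℕ, p.Prime ∧ q.Prime ∧ m ≤ 2 * p ∧ p < q ∧ q ≤ m ∧ 5 ≤ q ∧ Adm m p q := by
  by_cases h1 : m ≤ 6
  · exact ⟨3, 5, by norm_num, by norm_num, by omega, by omega, by omega, by omega, Or.inl ⟨h1, rfl, rfl⟩⟩
  by_cases h2 : m ≤ 10
  · exact ⟨5, 7, by norm_num, by norm_num, by omega, by omega, by omega, by omega,
      Or.inr (Or.inl ⟨h2, rfl, rfl⟩)⟩
  by_cases h3 : m ≤ 14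
  · exact ⟨7, 11, by norm_num, by norm_num, by omega, by omega, by omega, by omega,
      Or.inr (Or.inr (Or.inl ⟨h3, rfl, rfl⟩))⟩
  by_cases h4 : m ≤ 16
  · exact ⟨11, 13, by norm_num, by norm_num, by omega, by omega, by omega, by omega,
      Or.inr (Or.inr (Or.inr (Or.inl ⟨h4, rfl, rfl⟩)))⟩
  obtain ⟨p, q, hp, hq, h5, h6, h7⟩ := H72.TwoPrimes.exists_two_primes m (by omega)
  exact ⟨p, q, hp, hq, by omega, by omega, h7, by omega, Or.inr (Or.inr (Or.inr (Or.inr ⟨h5, h6⟩)))⟩

/-- Let m ≥ 5. Then there are primes p < q with m/2 ≤ p and q ≤ m such that any two elements x, y of the alternating group of degree m with x of order p and y of order q generate a subgroup isomorphic to an alternating group of some degree d ≥ 5. -/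
theorem result (m : ℕ) (hm : 5 ≤ m) :
    ∃ p q : ℕ, p.Prime ∧ q.Prime ∧ m ≤ 2 * p ∧ p < q ∧ q ≤ m ∧
      ∀ x y : alternatingGroup (Fin m), orderOf x = p → orderOf y = q →
        ∃ d : ℕ, 5 ≤ d ∧ Nonempty (Subgroup.closure ({x, y} : Set (alternatingGroup (Fin m))) ≃* alternatingGroup (Fin d)) := by
  obtain ⟨p, q, hp, hq, h1, h2, h3, h5, hadm⟩ := exists_adm m hm
  refine ⟨p, q, hp, hq, h1, h2, h3, ?_⟩
  intro x y hx hy
  classical
  let P : Fin m → Prop := fun a => (x : Equiv.Perm (Fin m)) a ≠ a ∨ (y : Equiv.Perm (Fin m)) a ≠ a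
  have hPx : ∀ a, P ((x : Equiv.Perm (Fin m)) a) ↔ P a := by
    intro a
    by_cases h : (x : Equiv.Perm (Fin m)) a = a
    · rw [h]
    · constructor
      · intro _; exact Or.inl h
      · intro _
        left
        intro h'
        exact h ((x : Equiv.Perm (Fin m)).injective h')
  have hPy : ∀ a, P ((y : Equiv.Perm (Fin m)) a) ↔ P a := by
    intro a
    by_cases h : (y : Equiv.Perm (Fin m)) a = a
    · rw [h]
    · constructor
      · intro _; exact Or.inr h
      · intro _
        right
        intro h'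
        exact h ((y : Equiv.Perm (Fin m)).injective h')
  let x' : Equiv.Perm {a // P a} := (x : Equiv.Perm (Fin m)).subtypePerm hPx
  let y' : Equiv.Perm {a // P a} := (y : Equiv.Perm (Fin m)).subtypePerm hPy
  have hx' : Equiv.Perm.ofSubtype x' = (x : Equiv.Perm (Fin m)) :=
    Equiv.Perm.ofSubtype_subtypePerm hPx (fun a h => Or.inl h)
  have hy' : Equiv.Perm.ofSubtype y' = (y : Equiv.Perm (Fin m)) :=
    Equiv.Perm.ofSubtype_subtypePerm hPy (fun a h => Or.inr h)
  have hinj : Function.Injective (Equiv.Perm.ofSubtype : Equiv.Perm {a // P a} →* Equiv.Perm (Fin m)) :=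
    Equiv.Perm.ofSubtype_injective
  have hxo : orderOf x' = p := by
    rw [← hx, ← Subgroup.orderOf_coe x, ← hx', orderOf_injective _ hinj]
  have hyo : orderOf y' = q := by
    rw [← hy, ← Subgroup.orderOf_coe y, ← hy', orderOf_injective _ hinj]
  have hxa : x' ∈ alternatingGroup {a // P a} := by
    rw [mem_alternatingGroup, ← Equiv.Perm.sign_ofSubtype, hx']
    exact x.2
  have hya : y' ∈ alternatingGroup {a // P a} := by
    rw [mem_alternatingGroup, ← Equiv.Perm.sign_ofSubtype, hy']
    exact y.2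
  have hcard : Fintype.card {a // P a} ≤ m := by
    have := Fintype.card_subtype_le P
    rwa [Fintype.card_fin] at this
  obtain ⟨d, hd, ⟨e⟩⟩ := core m p q hp hq hadm h5 hcard x' y' hxo hyo (by
    rintro ⟨a, ha⟩
    rcases ha with h | h
    · left; intro h'; exact h (congrArg Subtype.val h')
    · right; intro h'; exact h (congrArg Subtype.val h')) hxa hya
  refine ⟨d, hd, ⟨?_⟩⟩
  have e1 : (closure ({x, y} : Set (alternatingGroup (Fin m)))).map (alternatingGroup (Fin m)).subtype =
      (closure ({x', y'} : Set (Equiv.Perm {a // P a}))).map Equiv.Perm.ofSubtype := by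
    rw [MonoidHom.map_closure, MonoidHom.map_closure, Set.image_pair, Set.image_pair, hx', hy']
    rfl
  exact ((closure ({x, y} : Set (alternatingGroup (Fin m)))).equivMapOfInjective _
    (alternatingGroup (Fin m)).subtype_injective).trans
    ((MulEquiv.subgroupCongr e1).trans
      (((closure ({x', y'} : Set (Equiv.Perm {a // P a}))).equivMapOfInjective _ hinj).symm.trans e))

end Cfsg.Agent.S4150
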