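import Cfsg.Statements.S4151
import Mathlib
import Cfsg.Agent.Lib.H29.Gen
import Cfsg.Agent.Lib.H1.FrobSyl
import Cfsg.Agent.Lib.H72.CyclicSylow
import Cfsg.Agent.Lib.H72.ClassSize
import Cfsg.Agent.Lib.H26.SupCard

set_option autoImplicit false
open Cfsg

namespace Cfsg.Agent.S4151

open Subgroup
open scoped Pointwise commutatorElement

theorem mem_norm_of_ti {G : Type*} [Group G] {H : Subgroup G} (hTI : Cfsg.IsTISubset (H : Set G))
    {g x : G} (hx : x ∈ H) (hx1 : x ≠ 1) (h : g * x * g⁻¹ ∈ H) : g ∈ normalizer (H : Set G) := by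
  by_contra hg
  exact hx1 (hTI g hg x hx h)

theorem normalizer_le_of_ti {G : Type*} [Group G] {H P : Subgroup G} (hTI : Cfsg.IsTISubset (H : Set G))
    (hP : P ≤ H) (hP1 : P ≠ ⊥) : normalizer (P : Set G) ≤ normalizer (H : Set G) := by
  intro g hg
  obtain ⟨⟨x, hx⟩, hx1⟩ := Subgroup.ne_bot_iff_exists_ne_one.mp hP1
  exact mem_norm_of_ti hTI (hP hx) (fun h => hx1 (Subtype.ext h)) (hP ((mem_normalizer_iff.mp hg _).mp hx))

theorem hall {G : Type*} [Group G] [Finite G] {H : Subgroup G} (hTI : Cfsg.IsTISubset (H : Set G))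
    (hHall : (Nat.card H).Coprime (H.subgroupOf (normalizer (H : Set G))).index) :
    (Nat.card H).Coprime H.index := by
  by_contra hcon
  obtain ⟨p, hp, hpH, hpi⟩ := Nat.Prime.not_coprime_iff_dvd.mp hcon
  have := Fact.mk hp
  obtain ⟨P⟩ : Nonempty (Sylow p H) := inferInstance
  set P' : Subgroup G := (P : Subgroup H).map H.subtype with hP'
  have hP'H : P' ≤ H := Subgroup.map_subtype_le _
  have hcard : Nat.card P' = p ^ (Nat.card H).factorization p := by
    rw [hP', Subgroup.card_map_of_injective H.subtype_injective]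
    exact P.card_eq_multiplicity
  have hP'1 : P' ≠ ⊥ := by
    intro h
    rw [h, Subgroup.card_bot] at hcard
    have h1 : (Nat.card H).factorization p ≠ 0 :=
      (hp.factorization_pos_of_dvd Nat.card_pos.ne' hpH).ne'
    exact (Nat.one_lt_pow h1 hp.one_lt).ne hcard
  have hdvd : p ^ ((Nat.card H).factorization p + 1) ∣ Nat.card G := by
    rw [← H.card_mul_index, pow_succ]
    exact mul_dvd_mul (Nat.ordProj_dvd _ _) hpi
  have h1 := Sylow.prime_dvd_card_quotient_normalizer hdvd hcard
  have h2 : p ∣ P'.relIndex (normalizer (P' : Set G)) := h1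
  have h3 : P'.relIndex (normalizer (P' : Set G)) ∣ P'.relIndex (normalizer (H : Set G)) :=
    ⟨_, (Subgroup.relIndex_mul_relIndex _ _ _ le_normalizer (normalizer_le_of_ti hTI hP'H hP'1)).symm⟩
  have h4 : P'.relIndex H * H.relIndex (normalizer (H : Set G)) = P'.relIndex (normalizer (H : Set G)) :=
    Subgroup.relIndex_mul_relIndex _ _ _ hP'H le_normalizer
  have h5 := (h2.trans h3)
  rw [← h4] at h5
  rcases hp.dvd_mul.mp h5 with h6 | h6
  · have h7 : P'.relIndex H = (P : Subgroup H).index := by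
      rw [Subgroup.relIndex, hP', Subgroup.subgroupOf, Subgroup.comap_map_eq_self_of_injective H.subtype_injective]
    rw [h7] at h6
    exact P.not_dvd_index h6
  · exact Nat.Prime.not_coprime_iff_dvd.mpr ⟨p, hp, hpH, h6⟩ hHall

/-- a coprime automorphism of a cyclic `p`-group fixing a nontrivial element is trivial -/
theorem cyc_cent {G : Type*} [Group G] [Finite G] {p : ℕ} [hp : Fact p.Prime] (P : Subgroup G)
    (hP : IsPGroup p P) (hcyc : IsCyclic P) {y : G} (hy : y ∈ normalizer (P : Set G))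
    (hyo : (orderOf y).Coprime p) {x : G} (hx : x ∈ P) (hx1 : x ≠ 1) (hyx : y * x = x * y) :
    y ∈ centralizer (P : Set G) := by
  obtain ⟨g, hgP, a, hgen, hga, hall⟩ := H72.CyclicSylow.exists_pow_conj P hcyc hy
  have h1 : x ^ a = x := by
    rw [← hall x hx, hyx, mul_inv_cancel_right]
  have h2 : x ^ ((a : ℤ) - 1) = 1 := by
    rw [zpow_sub, zpow_natCast, h1, zpow_one, mul_inv_cancel]
  have h3 : p ∣ orderOf x := by
    obtain ⟨n, hn⟩ := (IsPGroup.iff_orderOf.mp hP) ⟨x, hx⟩
    rw [Subgroup.orderOf_mk] at hn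
    rw [hn]
    apply dvd_pow_self
    rintro rfl
    rw [pow_zero, orderOf_eq_one_iff] at hn
    exact hx1 hn
  have h4 : (p : ℤ) ∣ (a : ℤ) - 1 :=
    (Int.natCast_dvd_natCast.mpr h3).trans (orderOf_dvd_iff_zpow_eq_one.mpr h2)
  obtain ⟨k, hk⟩ := H72.CyclicSylow.exists_pow_mem_centralizer P hP hall h4
  obtain ⟨m, hm⟩ := exists_pow_eq_self_of_coprime (n := p ^ k) (x := y)
    ((Nat.Coprime.pow_right k hyo).symm)
  rw [← hm]
  exact Subgroup.pow_mem _ hk m

/-- a `p`-group, `p` odd, all of whose abelian subgroups are cyclic is cyclic -/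
theorem cyclic_of_abelian_cyclic {P : Type*} [Group P] [Finite P] {p : ℕ} [hp : Fact p.Prime]
    (hP : IsPGroup p P) (hp2 : p ≠ 2) (h : ∀ A : Subgroup P, IsMulCommutative A → IsCyclic A) :
    IsCyclic P := by
  by_cases hP1 : Nat.card P = 1
  · have : Subsingleton P := (Nat.card_eq_one_iff_unique.mp hP1).1
    infer_instance
  have hPnt : Nontrivial P := by
    rw [← Finite.one_lt_card_iff_nontrivial]
    have : 0 < Nat.card P := Nat.card_pos
    omega
  have hZnt : Nontrivial (center P) := hP.center_nontrivial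
  obtain ⟨z, hzc, hzo⟩ : ∃ z : P, z ∈ center P ∧ orderOf z = p := by
    have h1 : IsPGroup p (center P) := hP.to_subgroup _
    have h2 : p ∣ Nat.card (center P) := by
      obtain ⟨n, hn⟩ := IsPGroup.iff_card.mp h1
      have h3 : 1 < Nat.card (center P) := Finite.one_lt_card_iff_nontrivial.mpr hZnt
      rw [hn] at h3 ⊢
      exact dvd_pow_self p (by rintro rfl; simp at h3)
    obtain ⟨z, hz⟩ := exists_prime_orderOf_dvd_card' p h2
    exact ⟨z, z.2, by rw [Subgroup.orderOf_coe, hz]⟩
  have key : ∀ x : P, x ^ p = 1 → x ∈ zpowers z := by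
    intro x hx
    set A : Subgroup P := closure {x, z} with hA
    have hxA : x ∈ A := subset_closure (by simp)
    have hzA : z ∈ A := subset_closure (by simp)
    have hxz : x * z = z * x := mem_center_iff.mp hzc x
    have hAc : IsMulCommutative A := by
      apply Subgroup.isMulCommutative_closure
      intro a ha b hb
      rcases ha with rfl | ha <;> rcases hb with rfl | hb
      · rfl
      · rw [Set.mem_singleton_iff.mp hb]; exact hxz
      · rw [Set.mem_singleton_iff.mp ha]; exact hxz.symm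
      · rw [Set.mem_singleton_iff.mp ha, Set.mem_singleton_iff.mp hb]
    have hAcyc : IsCyclic A := h A hAc
    have h1 := (H1.FrobSyl.mem_iff_pow_eq_one ((zpowers z).subgroupOf A) (⟨x, hxA⟩ : A)).mpr (by
      rw [H1.SZ.card_subgroupOf_of_le (by rw [zpowers_le]; exact hzA), Nat.card_zpowers, hzo]
      exact Subtype.ext (by push_cast; exact hx))
    exact mem_subgroupOf.mp h1
  have huniq : ∀ H K : Subgroup P, Nat.card H = p → Nat.card K = p → H = K := by
    have h1 : ∀ H : Subgroup P, Nat.card H = p → H = zpowers z := by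
      intro H hH
      apply Subgroup.eq_of_le_of_card_ge
      · intro x hx
        apply key
        have := pow_card_eq_one' (x := (⟨x, hx⟩ : H))
        rw [hH] at this
        exact congrArg Subtype.val this
      · rw [Nat.card_zpowers, hzo, hH]
    intro H K hH hK
    rw [h1 H hH, h1 K hK]
  rcases H1.UniqueSub.cyclic_or_quaternion p hP huniq with h1 | ⟨h1, _⟩
  · exact h1
  · exact absurd h1 hp2

theorem exists_complement {Γ : Type*} [Group Γ] [Finite Γ] {p : ℕ} [hp : Fact p.Prime]
    (D : Subgroup Γ) [hDn : D.Normal] (P : Sylow p D)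
    (h : normalizer ((P : Subgroup D) : Set D) ≤ centralizer ((P : Subgroup D) : Set D)) :
    ∃ N : Subgroup Γ, N.Normal ∧ N ≤ D ∧ ¬ p ∣ Nat.card N ∧
      N ⊔ (P : Subgroup D).map D.subtype = D := by
  set W : Subgroup D := (MonoidHom.transferSylow P h).ker with hW
  have hWn : W.Normal := inferInstance
  have hWP : IsComplement' W (P : Subgroup D) := MonoidHom.ker_transferSylow_isComplement' P h
  have hWc : ¬ p ∣ Nat.card W := MonoidHom.not_dvd_card_ker_transferSylow P h
  have hidx : W.index = Nat.card P := hWP.symm.index_eq_card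
  obtain ⟨k, hk⟩ := IsPGroup.iff_card.mp P.2
  have hmem : ∀ d : D, (orderOf d).Coprime p → d ∈ W := by
    intro d hd
    have h1 : d ^ W.index ∈ W := Subgroup.pow_index_mem W d
    rw [hidx] at h1
    obtain ⟨m, hm⟩ := exists_pow_eq_self_of_coprime (n := Nat.card P) (x := d) (by
      have h2 : Nat.card P = p ^ k := hk
      rw [h2]
      exact (Nat.Coprime.pow_right k hd).symm)
    rw [← hm]
    exact Subgroup.pow_mem _ h1 m
  refine ⟨W.map D.subtype, ?_, Subgroup.map_subtype_le _, ?_, ?_⟩
  · constructor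
    rintro _ ⟨w, hw, rfl⟩ g
    have hgD : g * (w : Γ) * g⁻¹ ∈ D := hDn.conj_mem _ w.2 g
    refine ⟨⟨_, hgD⟩, ?_, rfl⟩
    apply hmem
    rw [← Subgroup.orderOf_coe]
    have h1 : orderOf (g * (w : Γ) * g⁻¹) = orderOf w := by
      rw [← Subgroup.orderOf_coe w]
      exact orderOf_injective (MulAut.conj g).toMonoidHom (MulAut.conj g).injective _
    show (orderOf (g * (w : Γ) * g⁻¹)).Coprime p
    rw [h1]
    have h2 : orderOf w ∣ Nat.card W := Subgroup.orderOf_dvd_natCard W hw
    exact Nat.Coprime.coprime_dvd_left h2 ((Nat.Prime.coprime_iff_not_dvd hp.out).mpr hWc).symm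
  · rw [Subgroup.card_map_of_injective D.subtype_injective]
    exact hWc
  · rw [← Subgroup.map_sup, hWP.sup_eq_top, ← MonoidHom.range_eq_map, Subgroup.range_subtype]

theorem lemU {Γ : Type*} [Group Γ] [Finite Γ] {p : ℕ} [hp : Fact p.Prime] (D Q : Subgroup Γ)
    [hDn : D.Normal] (hQ : (Nat.card Q).Coprime p)
    (P : Sylow p D) (hcyc : IsCyclic (P : Subgroup D))
    (h : normalizer ((P : Subgroup D) : Set D) ≤ centralizer ((P : Subgroup D) : Set D))
    (x : Γ) (hx : x ∈ D) (hxo : orderOf x = p) (hxQ : x ∈ centralizer (Q : Set Γ)) :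
    ¬ p ∣ Nat.card (⁅D, Q⁆ : Subgroup Γ) := by
  obtain ⟨N, hNn, hND, hNp, hsup⟩ := exists_complement D P h
  suffices hle : ⁅D, Q⁆ ≤ N from fun hd => hNp (hd.trans (Subgroup.card_dvd_of_le hle))
  set π := QuotientGroup.mk' N with hπ
  have hDP : D.map π = ((P : Subgroup D).map D.subtype).map π := by
    have h1 : (N ⊔ (P : Subgroup D).map D.subtype).map π = D.map π := by rw [hsup]
    rw [← h1, Subgroup.map_sup, QuotientGroup.map_mk'_self, bot_sup_eq]
  have hDcyc : IsCyclic (D.map π) := by
    rw [hDP, Subgroup.map_map]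
    exact isCyclic_of_surjective _ ((π.comp D.subtype).subgroupMap_surjective (P : Subgroup D))
  have hDp : IsPGroup p (D.map π) := by
    rw [hDP]
    exact (P.2.map _).map _
  have hDπn : (D.map π).Normal := Subgroup.Normal.map hDn π (QuotientGroup.mk'_surjective N)
  have hxN : π x ≠ 1 := by
    intro h1
    rw [hπ, QuotientGroup.mk'_apply, QuotientGroup.eq_one_iff] at h1
    apply hNp
    rw [← hxo]
    exact Subgroup.orderOf_dvd_natCard N h1
  rw [Subgroup.commutator_le]
  intro d hd y hy
  have h1 : π y ∈ centralizer ((D.map π : Subgroup (Γ ⧸ N)) : Set (Γ ⧸ N)) := by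
    apply cyc_cent (D.map π) hDp hDcyc (x := π x) (y := π y)
    · rw [Subgroup.normalizer_eq_top]; trivial
    · have h2 : orderOf (π y) ∣ Nat.card Q :=
        (orderOf_map_dvd π y).trans (Subgroup.orderOf_dvd_natCard Q hy)
      exact Nat.Coprime.coprime_dvd_left h2 hQ
    · exact ⟨x, hx, rfl⟩
    · exact hxN
    · rw [← map_mul, ← map_mul, mem_centralizer_iff.mp hxQ y hy]
  have h2 := mem_centralizer_iff.mp h1 (π d) ⟨d, hd, rfl⟩
  rw [← QuotientGroup.eq_one_iff]
  have h3 : (QuotientGroup.mk ⁅d, y⁆ : Γ ⧸ N) = ⁅π d, π y⁆ := by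
    rw [commutatorElement_def, commutatorElement_def]; rfl
  rw [h3, commutatorElement_eq_one_iff_mul_comm]
  exact h2

theorem key {Γ : Type*} [Group Γ] [Finite Γ] {p : ℕ} [hp : Fact p.Prime] (H Q : Subgroup Γ)
    [hHn : H.Normal] [hZ : IsZGroup H] (hcop : (Nat.card Q).Coprime (Nat.card H))
    (hpC : p ∣ Nat.card (H ⊓ centralizer (Q : Set Γ) : Subgroup Γ)) :
    ¬ p ∣ Nat.card (⁅H, Q⁆ : Subgroup Γ) := by
  have hpH : p ∣ Nat.card H := hpC.trans (Subgroup.card_dvd_of_le inf_le_left)
  have hQp : (Nat.card Q).Coprime p := Nat.Coprime.coprime_dvd_right hpH hcop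
  obtain ⟨⟨x, hxC⟩, hxo⟩ := exists_prime_orderOf_dvd_card' p hpC
  rw [Subgroup.orderOf_mk] at hxo
  obtain ⟨hxH, hxQ⟩ := Subgroup.mem_inf.mp hxC
  have hx1 : x ≠ 1 := by
    rintro rfl
    rw [orderOf_one] at hxo
    exact hp.out.one_lt.ne hxo
  obtain ⟨P⟩ : Nonempty (Sylow p H) := inferInstance
  have hPcyc : IsCyclic (P : Subgroup H) := inferInstance
  rcases P.normalizer_le_centralizer_or_le_commutator with h | h
  · exact lemU H Q hQp P hPcyc h x hxH hxo hxQ
  · -- `P ≤ H'`, cyclic
    set A : Subgroup Γ := ⁅H, H⁆ with hA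
    have hAmap : (commutator H).map H.subtype = A := Subgroup.map_subtype_commutator H
    have hAn : A.Normal := inferInstance
    have hAcyc : IsCyclic A := by
      have h1 : IsCyclic (commutator H) := IsZGroup.isCyclic_commutator H
      rw [← hAmap]
      exact isCyclic_of_surjective _ (H.subtype.subgroupMap_surjective (commutator H))
    set P' : Subgroup Γ := (P : Subgroup H).map H.subtype with hP'
    have hP'A : P' ≤ A := by rw [← hAmap]; exact Subgroup.map_mono h
    have hP'H : P' ≤ H := Subgroup.map_subtype_le _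
    have hP'p : IsPGroup p P' := P.2.map _
    have hP'c : IsCyclic P' := isCyclic_of_surjective _ (H.subtype.subgroupMap_surjective (P : Subgroup H))
    have hP'n : P'.Normal := by
      constructor
      intro z hz g
      have h1 : MulAut.conj g • P' = P' := by
        apply H1.FrobSyl.eq_of_card_eq_of_le hAcyc _ hP'A (H1.SZ.card_conj_smul g P')
        intro y hy
        rw [H1.SZ.mem_conj_smul] at hy
        have h2 := hAn.conj_mem _ (hP'A hy) g
        have h3 : g * (g⁻¹ * y * g) * g⁻¹ = y := by group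
        rwa [h3] at h2
      rw [← h1, H1.SZ.mem_conj_smul]
      have h3 : g⁻¹ * (g * z * g⁻¹) * g = z := by group
      rwa [h3]
    have hxP : x ∈ P' := by
      have h1 : (P : Subgroup H).Normal := by
        have h2 : (P : Subgroup H) = P'.subgroupOf H := by
          rw [hP', Subgroup.subgroupOf, Subgroup.comap_map_eq_self_of_injective H.subtype_injective]
        rw [h2]; infer_instance
      have h3 : IsPGroup p (zpowers (⟨x, hxH⟩ : H)) := by
        apply IsPGroup.of_card (n := 1)
        rw [Nat.card_zpowers, Subgroup.orderOf_mk, hxo, pow_one]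
      obtain ⟨S, hS⟩ := h3.exists_le_sylow
      have h4 : S = P := by
        have := Sylow.unique_of_normal P h1
        exact Subsingleton.elim _ _
      rw [h4] at hS
      exact ⟨⟨x, hxH⟩, hS (mem_zpowers _), rfl⟩
    have hQP : ∀ y ∈ Q, y ∈ centralizer (P' : Set Γ) := by
      intro y hy
      apply cyc_cent P' hP'p hP'c (x := x)
      · rw [Subgroup.normalizer_eq_top]; trivial
      · exact Nat.Coprime.coprime_dvd_left (Subgroup.orderOf_dvd_natCard Q hy) hQp
      · exact hxP
      · exact hx1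
      · exact mem_centralizer_iff.mp hxQ y hy
    set D : Subgroup Γ := H ⊓ centralizer (P' : Set Γ) with hD
    have hDn : D.Normal := inferInstance
    have hHQ : ⁅H, Q⁆ ≤ D := by
      rw [Subgroup.commutator_le]
      intro g hg y hy
      refine Subgroup.mem_inf.mpr ⟨?_, ?_⟩
      · have h1 : ⁅g, y⁆ = g * (y * g⁻¹ * y⁻¹) := by rw [commutatorElement_def]; group
        rw [h1]
        exact H.mul_mem hg (hHn.conj_mem _ (H.inv_mem hg) y)
      · rw [mem_centralizer_iff]
        intro z hz
        have hz' : g⁻¹ * z * g ∈ P' := by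
          have := hP'n.conj_mem z hz g⁻¹
          rwa [inv_inv] at this
        have e1 := mem_centralizer_iff.mp (hQP y hy) z hz
        have e2 := mem_centralizer_iff.mp (hQP y hy) _ hz'
        rw [commutatorElement_def]
        calc z * (g * y * g⁻¹ * y⁻¹) = g * ((g⁻¹ * z * g) * y) * g⁻¹ * y⁻¹ := by group
          _ = g * (y * (g⁻¹ * z * g)) * g⁻¹ * y⁻¹ := by rw [e2]
          _ = g * y * g⁻¹ * (z * y) * (y⁻¹ * y⁻¹) := by group
          _ = g * y * g⁻¹ * (y * z) * (y⁻¹ * y⁻¹) := by rw [e1]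
          _ = (g * y * g⁻¹ * y⁻¹) * (y * (y * z) * (y⁻¹ * y⁻¹)) := by group
          _ = (g * y * g⁻¹ * y⁻¹) * (y * (z * y) * (y⁻¹ * y⁻¹)) := by rw [e1]
          _ = (g * y * g⁻¹ * y⁻¹) * ((y * z) * y⁻¹) := by group
          _ = (g * y * g⁻¹ * y⁻¹) * ((z * y) * y⁻¹) := by rw [e1]
          _ = (g * y * g⁻¹ * y⁻¹) * z := by group
    have hcomm : ⁅⁅H, Q⁆, Q⁆ = ⁅H, Q⁆ :=
      H1.Coprime2.commutator_commutator_eq Q H (by rw [Subgroup.normalizer_eq_top]; exact le_top)
        hcop (Or.inr inferInstance)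
    have hle : ⁅H, Q⁆ ≤ ⁅D, Q⁆ := by
      rw [← hcomm]
      exact Subgroup.commutator_mono hHQ le_rfl
    suffices hs : ¬ p ∣ Nat.card (⁅D, Q⁆ : Subgroup Γ) from
      fun hd => hs (hd.trans (Subgroup.card_dvd_of_le hle))
    have hP'D : P' ≤ D := le_inf hP'H (H72.CyclicSylow.le_centralizer_of_isCyclic P' hP'c)
    have hPD : IsPGroup p (P'.subgroupOf D) := hP'p.comap_of_injective D.subtype D.subtype_injective
    have hPi : ¬ p ∣ (P'.subgroupOf D).index := by
      intro hd
      have h1 : P'.relIndex D ∣ P'.relIndex H :=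
        ⟨_, (Subgroup.relIndex_mul_relIndex _ _ _ hP'D inf_le_left).symm⟩
      have h7 : P'.relIndex H = (P : Subgroup H).index := by
        rw [Subgroup.relIndex, hP', Subgroup.subgroupOf, Subgroup.comap_map_eq_self_of_injective H.subtype_injective]
      have h8 : p ∣ P'.relIndex H := dvd_trans hd h1
      rw [h7] at h8
      exact P.not_dvd_index h8
    have hPc : (centralizer ((P'.subgroupOf D : Subgroup D) : Set D)) = ⊤ := by
      rw [eq_top_iff]
      intro d _
      rw [mem_centralizer_iff]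
      intro z hz
      apply Subtype.ext
      exact mem_centralizer_iff.mp (Subgroup.mem_inf.mp d.2).2 z hz
    refine lemU D Q hQp (hPD.toSylow hPi) ?_ ?_ x (hP'D hxP) hxo hxQ
    · rw [IsPGroup.toSylow_coe]
      exact isCyclic_of_surjective _ (Subgroup.subgroupOfEquivOfLe hP'D).symm.surjective
    · rw [IsPGroup.toSylow_coe, hPc]
      exact le_top

/-- relative version -/
theorem key' {G : Type*} [Group G] [Finite G] (H Q : Subgroup G)
    (hQH : Q ≤ normalizer (H : Set G)) [hZ : IsZGroup H] (hcop : (Nat.card Q).Coprime (Nat.card H)) :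
    (Nat.card (⁅H, Q⁆ : Subgroup G)).Coprime (Nat.card (H ⊓ centralizer (Q : Set G) : Subgroup G)) := by
  set N := normalizer (H : Set G) with hN
  have hHN : H ≤ N := le_normalizer
  have hn : (H.subgroupOf N).Normal := Subgroup.normal_in_normalizer
  have e1 : (⁅H.subgroupOf N, Q.subgroupOf N⁆).map N.subtype = ⁅H, Q⁆ := by
    rw [Subgroup.map_commutator, Subgroup.subgroupOf_map_subtype, Subgroup.subgroupOf_map_subtype,
      inf_eq_left.mpr hHN, inf_eq_left.mpr hQH]
  have e2 : (H.subgroupOf N ⊓ centralizer ((Q.subgroupOf N : Subgroup N) : Set N)).map N.subtype =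
      H ⊓ centralizer (Q : Set G) := by
    ext z
    constructor
    · rintro ⟨w, ⟨hw1, hw2⟩, rfl⟩
      refine ⟨hw1, mem_centralizer_iff.mpr ?_⟩
      intro y hy
      exact congrArg Subtype.val (mem_centralizer_iff.mp hw2 ⟨y, hQH hy⟩ hy)
    · rintro ⟨h1, h2⟩
      refine ⟨⟨z, hHN h1⟩, ⟨h1, mem_centralizer_iff.mpr ?_⟩, rfl⟩
      intro y hy
      exact Subtype.ext (mem_centralizer_iff.mp h2 y hy)
  have hZ' : IsZGroup (H.subgroupOf N) :=
    IsZGroup.of_injective (f := (Subgroup.subgroupOfEquivOfLe hHN).toMonoidHom)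
      (Subgroup.subgroupOfEquivOfLe hHN).injective
  by_contra hcon
  obtain ⟨p, hp, h1, h2⟩ := Nat.Prime.not_coprime_iff_dvd.mp hcon
  have := Fact.mk hp
  rw [← e1, Subgroup.card_map_of_injective N.subtype_injective] at h1
  rw [← e2, Subgroup.card_map_of_injective N.subtype_injective] at h2
  refine key (H.subgroupOf N) (Q.subgroupOf N) ?_ h2 h1
  rw [H1.SZ.card_subgroupOf_of_le hHN, H1.SZ.card_subgroupOf_of_le hQH]
  exact hcop

/-- Let G be a finite group and H a non-normal subgroup meeting each of its conjugates by elements outside N_G(H) trivially, with the order of H coprime to its index in N_G(H), such that G is π-separable for π the set of primes dividing the order of H (G has a chain of normal subgroups from 1 to G each of whose factors has order divisible only by primes dividing the order of H or coprime to it). Suppose a Sylow 2-subgroup of H is abelian and Q is a complement of H in N_G(H). Then C_H(Q), the subgroup of elements of H commuting with Q, has order coprime to its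 index in G and has a normal complement in G. -/
theorem result {G : Type*} [Group G] [Finite G] (H : Subgroup G)
    (hTI : Cfsg.IsTISubset (H : Set G)) (hnn : ¬ H.Normal)
    (hHall : (Nat.card H).Coprime (H.subgroupOf (Subgroup.normalizer (H : Set G))).index)
    (hsep : ∃ (n : ℕ) (M : Fin (n + 1) → Subgroup G), M 0 = ⊥ ∧ M (Fin.last n) = ⊤ ∧ Monotone M ∧ (∀ i, (M i).Normal) ∧
      ∀ i : Fin n, (∀ q : ℕ, q.Prime → q ∣ (M i.castSucc).relIndex (M i.succ) → q ∣ Nat.card H) ∨
        ((M i.castSucc).relIndex (M i.succ)).Coprime (Nat.card H))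
    (h2 : ∀ P : Sylow 2 H, IsMulCommutative (P : Subgroup H))
    (Q : Subgroup G) (hQ : Q ≤ Subgroup.normalizer (H : Set G)) (hQH : Q ⊓ H = ⊥) (hQH' : Q ⊔ H = Subgroup.normalizer (H : Set G)) :
    (Nat.card ↥(H ⊓ Subgroup.centralizer (Q : Set G))).Coprime (H ⊓ Subgroup.centralizer (Q : Set G)).index ∧
    ∃ N : Subgroup G, N.Normal ∧ N.IsComplement' (H ⊓ Subgroup.centralizer (Q : Set G)) := by
  classical
  have hHn1 : H ≠ ⊥ := by rintro rfl; exact hnn inferInstance
  have hHall' := hall hTI hHall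
  obtain ⟨g0, hg0⟩ : ∃ g, g ∉ normalizer (H : Set G) := by
    by_contra hcon
    push Not at hcon
    exact hnn (Subgroup.normalizer_eq_top_iff.mp (eq_top_iff.mpr fun g _ => hcon g))
  have hL5 : ∀ R : Subgroup G, R.Normal → R ≤ H → R = ⊥ := by
    intro R hR hRH
    by_contra hne
    exact hg0 (normalizer_le_of_ti hTI hRH hne (by rw [Subgroup.normalizer_eq_top]; trivial))
  -- `K = O_{π'}(G)`
  obtain ⟨K, ⟨hKn, hKc⟩, hKmax⟩ := (Set.toFinite {M : Subgroup G | M.Normal ∧
    (Nat.card M).Coprime (Nat.card H)}).exists_maximal ⟨⊥, inferInstance, by simp⟩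
  have hKmax' : ∀ M : Subgroup G, M.Normal → (Nat.card M).Coprime (Nat.card H) → M ≤ K := by
    intro M hM hMc
    have h1 : (K ⊔ M).Normal := inferInstance
    have h3 : Nat.card (K ⊔ M : Subgroup G) ∣ Nat.card K * Nat.card M :=
      H26.SupCard.card_sup_dvd_mul (by rw [Subgroup.normalizer_eq_top]; exact le_top)
    have h4 : (Nat.card (K ⊔ M : Subgroup G)).Coprime (Nat.card H) :=
      Nat.Coprime.coprime_dvd_left h3 (Nat.Coprime.mul_left hKc hMc)
    exact le_sup_right.trans (hKmax ⟨h1, h4⟩ le_sup_left)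
  have hKtop : ¬ (⊤ : Subgroup G) ≤ K := by
    intro h
    have h1 : K = ⊤ := top_le_iff.mp h
    rw [h1, Subgroup.card_top] at hKc
    exact hHn1 (Subgroup.card_eq_one.mp (Nat.Coprime.eq_one_of_dvd hKc.symm (Subgroup.card_subgroup_dvd_card H)))
  have hHK : H ⊓ K = ⊥ := disjoint_iff.mp (Subgroup.disjoint_of_coprime_natCard hKc.symm)
  obtain ⟨n, M, hM0, hMn, hMm, hMnorm, hMf⟩ := hsep
  obtain ⟨i, hi1, hi2⟩ : ∃ i : Fin n, M i.castSucc ≤ K ∧ ¬ M i.succ ≤ K := by
    by_contra hcon
    push Not at hcon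
    have h1 : ∀ i, M i ≤ K := fun i => Fin.induction (by rw [hM0]; exact bot_le) (fun i hi => hcon i hi) i
    exact hKtop (by rw [← hMn]; exact h1 _)
  set L := K ⊔ M i.succ with hL
  have hMi : (M i.succ).Normal := hMnorm _
  have hLn : L.Normal := inferInstance
  have hKL : K ≤ L := le_sup_left
  have hrel : K.relIndex L ∣ (M i.castSucc).relIndex (M i.succ) := by
    rw [hL, Subgroup.relIndex_sup_left]
    exact Subgroup.relIndex_dvd_of_le_left _ hi1
  have hcardL : Nat.card K * K.relIndex L = Nat.card L := by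
    rw [← Subgroup.relIndex_bot_left K, ← Subgroup.relIndex_bot_left L]
    exact Subgroup.relIndex_mul_relIndex _ _ _ bot_le hKL
  have hLπ : ∀ q : ℕ, q.Prime → q ∣ K.relIndex L → q ∣ Nat.card H := by
    intro q hq hd
    rcases hMf i with h | h
    · exact h q hq (hd.trans hrel)
    · exfalso
      apply hi2
      refine le_trans le_sup_right (hKmax' L hLn ?_)
      rw [← hcardL]
      exact Nat.Coprime.mul_left hKc (Nat.Coprime.coprime_dvd_left hrel h)
  set R := L ⊓ H with hR
  have hRH : R ≤ H := inf_le_right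
  have hRL : R ≤ L := inf_le_left
  have hRidx : R.relIndex L ∣ H.index := by
    rw [hR, Subgroup.inf_relIndex_left]
    exact H72.ClassSize.relIndex_normal_dvd_index L H
  have hKR : K ⊔ R = L := by
    apply le_antisymm (sup_le hKL hRL)
    rw [← Subgroup.relIndex_eq_one]
    by_contra hne
    obtain ⟨q, hq, hqd⟩ := Nat.exists_prime_and_dvd hne
    have h3 : q ∣ Nat.card H :=
      hLπ q hq (hqd.trans (Subgroup.relIndex_dvd_of_le_left _ le_sup_left))
    have h4 : q ∣ H.index :=
      (hqd.trans (Subgroup.relIndex_dvd_of_le_left _ le_sup_right)).trans hRidx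
    exact Nat.Prime.not_coprime_iff_dvd.mpr ⟨q, hq, h3, h4⟩ hHall'
  have hR1 : R ≠ ⊥ := by
    intro h
    apply hi2
    rw [h, sup_bot_eq] at hKR
    rw [hKR]
    exact le_sup_right
  -- `H` does not centralize `K`
  have hnc : ¬ H ≤ centralizer (K : Set G) := by
    intro hc
    apply hR1
    apply hL5 R _ hRH
    constructor
    intro r hr g
    have h3 : g * r * g⁻¹ ∈ K ⊔ R := by rw [hKR]; exact hLn.conj_mem r (hRL hr) g
    obtain ⟨k, hk, r', hr', he⟩ := Subgroup.mem_sup_of_normal_left.mp h3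
    have hcom : Commute k r' := mem_centralizer_iff.mp (hc (hRH hr')) k hk
    have h4 : (g * r * g⁻¹) ^ Nat.card H = 1 := by
      rw [conj_pow]
      have : r ^ Nat.card H = 1 := by
        have := pow_card_eq_one' (x := (⟨r, hRH hr⟩ : H))
        exact congrArg Subtype.val this
      rw [this, mul_one, mul_inv_cancel]
    have h5 : r' ^ Nat.card H = 1 := by
      have := pow_card_eq_one' (x := (⟨r', hRH hr'⟩ : H))
      exact congrArg Subtype.val this
    rw [← he, hcom.mul_pow, h5, mul_one] at h4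
    have h6 : orderOf k ∣ Nat.card H := orderOf_dvd_of_pow_eq_one h4
    have h7 : orderOf k ∣ Nat.card K := Subgroup.orderOf_dvd_natCard K hk
    have h8 : orderOf k = 1 := Nat.eq_one_of_dvd_coprimes hKc h7 h6
    rw [orderOf_eq_one_iff] at h8
    rw [← he, h8, one_mul]
    exact hr'
  have hcent : ∀ x ∈ H, x ≠ 1 → K ⊓ centralizer {x} ≤ centralizer (H : Set G) := by
    intro x hx hx1 k hk
    have h3 : k ∈ normalizer (H : Set G) := by
      apply mem_norm_of_ti hTI hx hx1
      rw [mem_centralizer_singleton_iff.mp hk.2, mul_inv_cancel_right]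
      exact hx
    rw [mem_centralizer_iff]
    intro h hh
    have h4 : k * h * k⁻¹ * h⁻¹ ∈ H ⊓ K := by
      refine ⟨H.mul_mem ((mem_normalizer_iff.mp h3 h).mp hh) (H.inv_mem hh), ?_⟩
      have : k * h * k⁻¹ * h⁻¹ = k * (h * k⁻¹ * h⁻¹) := by group
      rw [this]
      exact K.mul_mem hk.1 (hKn.conj_mem _ (K.inv_mem hk.1) h)
    rw [hHK, Subgroup.mem_bot] at h4
    have h5 : k * h * k⁻¹ = h := mul_inv_eq_one.mp h4
    rw [← mul_inv_eq_iff_eq_mul.mp h5]
  have habel : ∀ A : Subgroup G, A ≤ H → IsMulCommutative A → IsCyclic A := by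
    intro A hA hAc
    by_contra hcyc
    apply hnc
    rw [Subgroup.le_centralizer_iff]
    exact H29.Gen.le_of_cent hAc hcyc (by rw [Subgroup.normalizer_eq_top]; exact le_top)
      (Nat.Coprime.coprime_dvd_left (Subgroup.card_dvd_of_le hA) hKc.symm)
      (fun a ha ha1 => hcent a (hA ha) ha1)
  have hZ : IsZGroup H := by
    refine ⟨fun p hp P => ?_⟩
    have := Fact.mk hp
    have hsub : ∀ A : Subgroup H, IsMulCommutative A → IsCyclic A := by
      intro A hA
      have h3 : IsMulCommutative (A.map H.subtype) := inferInstance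
      have h4 := habel (A.map H.subtype) (Subgroup.map_subtype_le A) h3
      exact isCyclic_of_surjective (A.equivMapOfInjective H.subtype H.subtype_injective).symm
        (MulEquiv.surjective _)
    by_cases hp2 : p = 2
    · subst hp2
      exact hsub _ (h2 P)
    · apply cyclic_of_abelian_cyclic P.2 hp2
      intro A hA
      have h3 : IsMulCommutative (A.map (P : Subgroup H).subtype) := inferInstance
      have h4 := hsub (A.map (P : Subgroup H).subtype) h3
      exact isCyclic_of_surjective (A.equivMapOfInjective (P : Subgroup H).subtype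
        (P : Subgroup H).subtype_injective).symm (MulEquiv.surjective _)
  have hRcard : Nat.card R = K.relIndex L := by
    rw [← hKR, Subgroup.relIndex_sup_left, ← Subgroup.inf_relIndex_right]
    have : K ⊓ R = ⊥ := by
      rw [eq_bot_iff, ← hHK, inf_comm]
      exact inf_le_inf_right _ hRH
    rw [this, Subgroup.relIndex_bot_left]
  have hG : ∀ g : G, ∃ k ∈ K, k⁻¹ * g ∈ normalizer (H : Set G) := by
    intro g
    obtain ⟨k, hk, hkR⟩ := H1.SZ.conj_of_card_rel L K hKL (by rw [Subgroup.normalizer_eq_top]; exact le_top)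
      (by rw [← hRcard]; exact Nat.Coprime.coprime_dvd_right (Subgroup.card_dvd_of_le hRH) hKc)
      (Or.inr (by
        intro hn
        have hs : Group.IsSolvable R := by
          have h3 : IsZGroup R := IsZGroup.of_injective (f := Subgroup.inclusion hRH) (Subgroup.inclusion_injective hRH)
          infer_instance
        apply Group.isSolvable_of_surjective (f := (QuotientGroup.mk' (K.subgroupOf L)).comp (Subgroup.inclusion hRL))
        rintro ⟨l⟩
        have hl : (l : G) ∈ K ⊔ R := by rw [hKR]; exact l.2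
        obtain ⟨k, hk, r, hr, he⟩ := Subgroup.mem_sup_of_normal_left.mp hl
        refine ⟨⟨r, hr⟩, ?_⟩
        change (QuotientGroup.mk (Subgroup.inclusion hRL ⟨r, hr⟩) : L ⧸ K.subgroupOf L) = QuotientGroup.mk l
        rw [QuotientGroup.eq]
        change r⁻¹ * (l : G) ∈ K
        rw [← he, ← mul_assoc]
        have := hKn.conj_mem k hk r⁻¹
        rwa [inv_inv] at this))
      R (MulAut.conj g • R) hRL (by
        intro y hy
        rw [H1.SZ.mem_conj_smul] at hy
        have := hLn.conj_mem _ (hRL hy) g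
        have e : g * (g⁻¹ * y * g) * g⁻¹ = y := by group
        rwa [e] at this) hRcard (by rw [H1.SZ.card_conj_smul, hRcard])
    refine ⟨k, hk, ?_⟩
    apply normalizer_le_of_ti hTI hRH hR1
    rw [← H1.SZ.conj_smul_eq_iff, H1.SZ.conj_mul_smul, ← hkR, ← H1.SZ.conj_mul_smul, inv_mul_cancel]
    simp
  -- coprimality of `Q` and `H`
  have hQc : (Nat.card Q).Coprime (Nat.card H) := by
    have h3 : H.relIndex Q = Nat.card Q := by
      rw [← Subgroup.inf_relIndex_right, inf_comm, hQH, Subgroup.relIndex_bot_left]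
    have h4 : H.relIndex Q ∣ (H.subgroupOf (normalizer (H : Set G))).index := by
      have hn : (H.subgroupOf (normalizer (H : Set G))).Normal := Subgroup.normal_in_normalizer
      rw [← Subgroup.relIndex_subgroupOf hQ]
      exact Subgroup.relIndex_dvd_index_of_normal _ _
    rw [← h3]
    exact (Nat.Coprime.coprime_dvd_right h4 hHall).symm
  set C := H ⊓ centralizer (Q : Set G) with hC
  set T := (⁅H, Q⁆ : Subgroup G) with hT
  have hTC : T ⊔ C = H := H1.Coprime2.commutator_sup_centralizer Q H hQ hQc (Or.inr inferInstance)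
  have hTCc : (Nat.card T).Coprime (Nat.card C) := key' H Q hQ hQc
  have hCH : Nat.card C ∣ Nat.card H := Subgroup.card_dvd_of_le inf_le_left
  have hHT : H ≤ normalizer (T : Set G) := H1.Coprime2.le_normalizer_commutator_left H Q
  have hQT : Q ≤ normalizer (T : Set G) := H1.Coprime2.le_normalizer_commutator_right H Q
  have hHTQ : H ≤ normalizer ((T ⊔ Q : Subgroup G) : Set G) := by
    have h3 : ∀ h ∈ H, ∀ x ∈ T ⊔ Q, h * x * h⁻¹ ∈ T ⊔ Q := by
      intro h hh x hx
      have h4 : T ⊔ Q ≤ (T ⊔ Q).comap (MulAut.conj h).toMonoidHom := by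
        apply sup_le
        · intro t ht
          exact (le_sup_left : T ≤ T ⊔ Q) ((mem_normalizer_iff.mp (hHT hh) t).mp ht)
        · intro q hq
          have e : h * q * h⁻¹ = ⁅h, q⁆ * q := by rw [commutatorElement_def]; group
          show h * q * h⁻¹ ∈ T ⊔ Q
          rw [e]
          exact mul_mem ((le_sup_left : T ≤ T ⊔ Q) (Subgroup.commutator_mem_commutator hh hq))
            ((le_sup_right : Q ≤ T ⊔ Q) hq)
      exact h4 hx
    exact H1.Coprime.le_normalizer_of_conj_mem h3
  have hNTQ : normalizer (H : Set G) ≤ normalizer ((T ⊔ Q : Subgroup G) : Set G) := by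
    rw [← hQH']
    exact sup_le (le_sup_right.trans le_normalizer) hHTQ
  have hNn : (K ⊔ (T ⊔ Q)).Normal := by
    constructor
    intro x hx g
    obtain ⟨k, hk, hkn⟩ := hG g
    set m := k⁻¹ * g with hm
    have hgm : g = k * m := by rw [hm]; group
    obtain ⟨k1, hk1, y, hy, he⟩ := Subgroup.mem_sup_of_normal_left.mp hx
    have h3 : m * x * m⁻¹ ∈ K ⊔ (T ⊔ Q) := by
      rw [← he]
      have e : m * (k1 * y) * m⁻¹ = (m * k1 * m⁻¹) * (m * y * m⁻¹) := by group
      rw [e]
      exact mul_mem ((le_sup_left : K ≤ _) (hKn.conj_mem _ hk1 m))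
        ((le_sup_right : T ⊔ Q ≤ K ⊔ (T ⊔ Q)) ((mem_normalizer_iff.mp (hNTQ hkn) y).mp hy))
    have hk' : k ∈ K ⊔ (T ⊔ Q) := (le_sup_left : K ≤ _) hk
    have e : g * x * g⁻¹ = k * (m * x * m⁻¹) * k⁻¹ := by rw [hgm]; group
    rw [e]
    exact mul_mem (mul_mem hk' h3) (inv_mem hk')
  have hNc : (Nat.card (K ⊔ (T ⊔ Q) : Subgroup G)).Coprime (Nat.card C) := by
    have h3 : Nat.card (K ⊔ (T ⊔ Q) : Subgroup G) ∣ Nat.card K * Nat.card (T ⊔ Q : Subgroup G) :=
      H26.SupCard.card_sup_dvd_mul (by rw [Subgroup.normalizer_eq_top]; exact le_top)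
    have h4 : Nat.card (T ⊔ Q : Subgroup G) ∣ Nat.card T * Nat.card Q :=
      H26.SupCard.card_sup_dvd_mul hQT
    refine Nat.Coprime.coprime_dvd_left (h3.trans (mul_dvd_mul_left _ h4)) ?_
    exact Nat.Coprime.mul_left (Nat.Coprime.coprime_dvd_right hCH hKc)
      (Nat.Coprime.mul_left hTCc (Nat.Coprime.coprime_dvd_right hCH hQc))
  have hsup : (K ⊔ (T ⊔ Q)) ⊔ C = ⊤ := by
    rw [eq_top_iff]
    intro g _
    obtain ⟨k, hk, hkn⟩ := hG g
    have e : g = k * (k⁻¹ * g) := by group
    rw [e]
    apply mul_mem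
    · exact (le_sup_left.trans le_sup_left : K ≤ (K ⊔ (T ⊔ Q)) ⊔ C) hk
    · have h3 : normalizer (H : Set G) ≤ (K ⊔ (T ⊔ Q)) ⊔ C := by
        rw [← hQH', ← hTC]
        refine sup_le ?_ (sup_le ?_ le_sup_right)
        · exact (le_sup_right.trans le_sup_right).trans le_sup_left
        · exact (le_sup_left.trans le_sup_right).trans le_sup_left
      exact h3 hkn
  have hcompl : (K ⊔ (T ⊔ Q)).IsComplement' C := by
    apply Subgroup.isComplement'_of_disjoint_and_mul_eq_univ
    · exact Subgroup.disjoint_of_coprime_natCard hNc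
    · rw [← Subgroup.normal_mul, hsup, Subgroup.coe_top]
  refine ⟨?_, K ⊔ (T ⊔ Q), hNn, hcompl⟩
  rw [hcompl.index_eq_card]
  exact hNc.symm

end Cfsg.Agent.S4151
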