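import Cfsg.Statements.S4152
import Cfsg.Agent.Lib.H72.ClassSize
import Cfsg.Agent.Lib.H72.PiParts

set_option autoImplicit false
open Cfsg

namespace Cfsg.Agent.S4152

open Subgroup H72.ClassSize H72.PiParts

/-- counting commuting pairs whose first entry lies in a conjugation-closed set -/
theorem card_pairs {G : Type*} [Group G] [Finite G] (P : ConjClasses G → Prop) :
    Nat.card {p : G × G // P (ConjClasses.mk p.1) ∧ Commute p.1 p.2} =
      Nat.card {C : ConjClasses G // P C} * Nat.card G := by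
  classical
  let F : {p : G × G // P (ConjClasses.mk p.1) ∧ Commute p.1 p.2} → {C : ConjClasses G // P C} :=
    fun p => ⟨ConjClasses.mk p.1.1, p.2.1⟩
  rw [← Nat.card_congr (Equiv.sigmaFiberEquiv F)]
  have : Fintype {C : ConjClasses G // P C} := Fintype.ofFinite _
  rw [Nat.card_sigma]
  have hfib : ∀ C : {C : ConjClasses G // P C}, Nat.card {p // F p = C} = Nat.card G := by
    rintro ⟨C, hC⟩
    obtain ⟨g, rfl⟩ := ConjClasses.mk_surjective C
    have e : {p // F p = ⟨ConjClasses.mk g, hC⟩} ≃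
        (Σ x : (ConjClasses.mk g).carrier, centralizer ({(x : G)} : Set G)) :=
      { toFun := fun p => ⟨⟨p.1.1.1, by
            rw [ConjClasses.mem_carrier_iff_mk_eq]
            exact congrArg Subtype.val p.2⟩, ⟨p.1.1.2, mem_cent_of_comm p.1.2.2.symm⟩⟩
        invFun := fun q => ⟨⟨(q.1.1, q.2.1), by
            have h := ConjClasses.mem_carrier_iff_mk_eq.mp q.1.2
            constructor
            · show P (ConjClasses.mk (q.1.1 : G))
              rw [h]; exact hC
            · exact (mem_cent_comm q.2.2).symm⟩, by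
            apply Subtype.ext
            exact ConjClasses.mem_carrier_iff_mk_eq.mp q.1.2⟩
        left_inv := fun p => rfl
        right_inv := fun q => rfl }
    rw [Nat.card_congr e]
    have : Fintype (ConjClasses.mk g).carrier := Fintype.ofFinite _
    rw [Nat.card_sigma]
    have hconst : ∀ x : (ConjClasses.mk g).carrier, Nat.card (centralizer ({(x : G)} : Set G)) =
        Nat.card (centralizer ({g} : Set G)) := by
      rintro ⟨x, hx⟩
      have h1 : IsConj x g := ConjClasses.mk_eq_mk_iff_isConj.mp (ConjClasses.mem_carrier_iff_mk_eq.mp hx)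
      have h2 := index_isConj h1
      have h3 := Subgroup.card_mul_index (centralizer ({x} : Set G))
      have h4 := Subgroup.card_mul_index (centralizer ({g} : Set G))
      rw [h2] at h3
      exact Nat.eq_of_mul_eq_mul_right (index_pos g) (h3.trans h4.symm)
    rw [Finset.sum_congr rfl (fun x _ => hconst x), Finset.sum_const, Finset.card_univ, smul_eq_mul,
      ← Nat.card_eq_fintype_card, ← index_eq_card_carrier, mul_comm]
    exact Subgroup.card_mul_index _
  rw [Finset.sum_congr rfl (fun x _ => hfib x), Finset.sum_const, Finset.card_univ, smul_eq_mul,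
    Nat.card_eq_fintype_card (α := {C : ConjClasses G // P C})]

/-- the predicate used in the statement, evaluated on a class -/
theorem pred_iff {G : Type*} [Group G] (π : Set ℕ) (g : G) :
    (∀ q : ℕ, q.Prime → (∃ x : G, ConjClasses.mk x = ConjClasses.mk g ∧ q ∣ orderOf x) → q ∈ π) ↔
      IsPi π g := by
  constructor
  · intro h q hq hqd
    exact h q hq ⟨g, rfl, hqd⟩
  · rintro h q hq ⟨x, hx, hqd⟩
    obtain ⟨c, hc⟩ := isConj_iff.mp (ConjClasses.mk_eq_mk_iff_isConj.mp hx)
    apply h q hq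
    rw [← hc]
    have e : orderOf (c * x * c⁻¹) = orderOf x := by
      have := orderOf_injective (MulAut.conj c).toMonoidHom (MulAut.conj c).injective x
      simpa using this
    rwa [e]

theorem coset_count {G : Type*} [Group G] [Finite G] (N : Subgroup G) [N.Normal] (π : Set ℕ) (y : G ⧸ N) :
    Nat.card {p : G × N // (QuotientGroup.mk p.1 : G ⧸ N) = y ∧ IsPi π p.1 ∧ Commute p.1 (p.2 : G)} ≤
      Nat.card {p : N × N // IsPi π p.1 ∧ Commute p.1 p.2} := by
  classical
  -- decomposition function on N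
  have hdec : ∀ n : N, ∃ i j : ℕ, n = n ^ i * n ^ j ∧ IsPi π (n ^ i) ∧ IsPi πᶜ (n ^ j) :=
    fun n => exists_parts π (isOfFinOrder_of_finite n)
  choose i j hij hi hj using hdec
  -- choose base points: for u : N with some w in coset y commuting with u
  let w0 : N → G := fun u => if h : ∃ w : G, (QuotientGroup.mk w : G ⧸ N) = y ∧ Commute w (u : G) then h.choose else 1
  have hw0 : ∀ u : N, ∀ w : G, (QuotientGroup.mk w : G ⧸ N) = y → Commute w (u : G) →
      (QuotientGroup.mk (w0 u) : G ⧸ N) = y ∧ Commute (w0 u) (u : G) := by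
    intro u w h1 h2
    have h : ∃ w : G, (QuotientGroup.mk w : G ⧸ N) = y ∧ Commute w (u : G) := ⟨w, h1, h2⟩
    simp only [w0, dif_pos h]
    exact h.choose_spec
  -- data: for p = (h, n), u = n^i, w = h * n^j
  have hcu : ∀ (h : G) (n : N), Commute h (n : G) → Commute (h * ((n ^ j n : N) : G)) ((n ^ i n : N) : G) := by
    intro h n hc
    rw [Subgroup.coe_pow, Subgroup.coe_pow]
    exact Commute.mul_left (hc.pow_right _) ((Commute.refl (n : G)).pow_pow _ _)
  have hmk : ∀ (h : G) (n : N), (QuotientGroup.mk (h * ((n ^ j n : N) : G)) : G ⧸ N) = QuotientGroup.mk h := by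
    intro h n
    rw [eq_comm, QuotientGroup.eq, inv_mul_cancel_left]
    exact (n ^ j n).2
  have hmem : ∀ p : {p : G × N // (QuotientGroup.mk p.1 : G ⧸ N) = y ∧ IsPi π p.1 ∧ Commute p.1 (p.2 : G)},
      (w0 (p.1.2 ^ i p.1.2))⁻¹ * (p.1.1 * ((p.1.2 ^ j p.1.2 : N) : G)) ∈ N := by
    intro p
    have h1 := hw0 (p.1.2 ^ i p.1.2) (p.1.1 * ((p.1.2 ^ j p.1.2 : N) : G)) ((hmk _ _).trans p.2.1)
      (hcu _ _ p.2.2.2)
    rw [← QuotientGroup.eq, h1.1]
    exact ((hmk _ _).trans p.2.1).symm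
  let f : {p : G × N // (QuotientGroup.mk p.1 : G ⧸ N) = y ∧ IsPi π p.1 ∧ Commute p.1 (p.2 : G)} →
      {p : N × N // IsPi π p.1 ∧ Commute p.1 p.2} := fun p =>
    ⟨(p.1.2 ^ i p.1.2, ⟨(w0 (p.1.2 ^ i p.1.2))⁻¹ * (p.1.1 * ((p.1.2 ^ j p.1.2 : N) : G)), hmem p⟩), by
      refine ⟨hi _, ?_⟩
      have h1 := hw0 (p.1.2 ^ i p.1.2) (p.1.1 * ((p.1.2 ^ j p.1.2 : N) : G)) ((hmk _ _).trans p.2.1)
        (hcu _ _ p.2.2.2)
      have h2 : Commute ((p.1.2 ^ i p.1.2 : N) : G)
          ((w0 (p.1.2 ^ i p.1.2))⁻¹ * (p.1.1 * ((p.1.2 ^ j p.1.2 : N) : G))) :=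
        Commute.mul_right h1.2.symm.inv_right (hcu _ _ p.2.2.2).symm
      apply Subtype.ext
      exact h2⟩
  apply Nat.card_le_card_of_injective f
  intro p q hpq
  have h1 : p.1.2 ^ i p.1.2 = q.1.2 ^ i q.1.2 := congrArg (fun z => z.1.1) hpq
  have h2 : (w0 (p.1.2 ^ i p.1.2))⁻¹ * (p.1.1 * ((p.1.2 ^ j p.1.2 : N) : G)) =
      (w0 (q.1.2 ^ i q.1.2))⁻¹ * (q.1.1 * ((q.1.2 ^ j q.1.2 : N) : G)) :=
    congrArg (fun z => ((z.1.2 : N) : G)) hpq
  rw [h1] at h2
  have h3 := mul_left_cancel h2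
  have hc : ∀ p : {p : G × N // (QuotientGroup.mk p.1 : G ⧸ N) = y ∧ IsPi π p.1 ∧ Commute p.1 (p.2 : G)},
      Commute p.1.1 ((p.1.2 ^ j p.1.2 : N) : G) := by
    intro p
    rw [Subgroup.coe_pow]
    exact p.2.2.2.pow_right _
  have h4 := parts_unique (isOfFinOrder_of_finite _) (isOfFinOrder_of_finite _)
    (isOfFinOrder_of_finite _) (isOfFinOrder_of_finite _) (hc p) (hc q) p.2.2.1
    ((isPi_coe_iff _).mpr (hj _)) q.2.2.1 ((isPi_coe_iff _).mpr (hj _)) h3
  apply Subtype.ext
  apply Prod.ext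
  · exact h4.1
  · rw [hij p.1.2, hij q.1.2, h1, Subtype.ext h4.2]

/-- Let G be a finite group, N a normal subgroup and π a set of primes. Then the number of conjugacy classes of π-elements of G (elements whose order is divisible only by primes in π) is at most the number of conjugacy classes of π-elements of N (under conjugation by N) times the number of conjugacy classes of π-elements of G/N. -/
theorem result {G : Type*} [Group G] [Finite G] (N : Subgroup G) [N.Normal] (π : Set ℕ) :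
    Nat.card {C : ConjClasses G // ∀ q : ℕ, q.Prime → (∃ g : G, ConjClasses.mk g = C ∧ q ∣ orderOf g) → q ∈ π} ≤ Nat.card {C : ConjClasses N // ∀ q : ℕ, q.Prime → (∃ g : N, ConjClasses.mk g = C ∧ q ∣ orderOf g) → q ∈ π} * Nat.card {C : ConjClasses (G ⧸ N) // ∀ q : ℕ, q.Prime → (∃ g : (G ⧸ N), ConjClasses.mk g = C ∧ q ∣ orderOf g) → q ∈ π} := by
  classical
  have hG := card_pairs (G := G) (fun C => ∀ q : ℕ, q.Prime → (∃ g : G, ConjClasses.mk g = C ∧ q ∣ orderOf g) → q ∈ π)
  have hN := card_pairs (G := N) (fun C => ∀ q : ℕ, q.Prime → (∃ g : N, ConjClasses.mk g = C ∧ q ∣ orderOf g) → q ∈ π)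
  have hQ := card_pairs (G := G ⧸ N) (fun C => ∀ q : ℕ, q.Prime → (∃ g : G ⧸ N, ConjClasses.mk g = C ∧ q ∣ orderOf g) → q ∈ π)
  simp only [pred_iff] at hG hN hQ
  set kG := Nat.card {C : ConjClasses G // ∀ q : ℕ, q.Prime → (∃ g : G, ConjClasses.mk g = C ∧ q ∣ orderOf g) → q ∈ π}
  set kN := Nat.card {C : ConjClasses N // ∀ q : ℕ, q.Prime → (∃ g : N, ConjClasses.mk g = C ∧ q ∣ orderOf g) → q ∈ π}
  set kQ := Nat.card {C : ConjClasses (G ⧸ N) // ∀ q : ℕ, q.Prime → (∃ g : (G ⧸ N), ConjClasses.mk g = C ∧ q ∣ orderOf g) → q ∈ π}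
  -- choose c h z
  let c : G → G ⧸ N → G := fun h z =>
    if hh : ∃ k : G, (QuotientGroup.mk k : G ⧸ N) = z ∧ Commute h k then hh.choose else 1
  have hcspec : ∀ h k : G, Commute h k → (QuotientGroup.mk (c h (QuotientGroup.mk k)) : G ⧸ N) = QuotientGroup.mk k ∧
      Commute h (c h (QuotientGroup.mk k)) := by
    intro h k hk
    have hh : ∃ k' : G, (QuotientGroup.mk k' : G ⧸ N) = QuotientGroup.mk k ∧ Commute h k' := ⟨k, rfl, hk⟩
    simp only [c, dif_pos hh]
    exact hh.choose_spec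
  let A := {p : G × G // IsPi π p.1 ∧ Commute p.1 p.2}
  let B := {p : (G ⧸ N) × (G ⧸ N) // IsPi π p.1 ∧ Commute p.1 p.2}
  let X : G ⧸ N → Type _ := fun y =>
    {p : G × N // (QuotientGroup.mk p.1 : G ⧸ N) = y ∧ IsPi π p.1 ∧ Commute p.1 (p.2 : G)}
  let f : A → Σ b : B, X b.1.1 := fun p =>
    ⟨⟨(QuotientGroup.mk p.1.1, QuotientGroup.mk p.1.2), by
        refine ⟨p.2.1.map (QuotientGroup.mk' N), ?_⟩
        exact p.2.2.map (QuotientGroup.mk' N)⟩,
      ⟨(p.1.1, ⟨(c p.1.1 (QuotientGroup.mk p.1.2))⁻¹ * p.1.2, by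
        rw [← QuotientGroup.eq]
        exact (hcspec _ _ p.2.2).1⟩), by
        refine ⟨rfl, p.2.1, ?_⟩
        exact Commute.mul_right (hcspec _ _ p.2.2).2.inv_right p.2.2⟩⟩
  have hfinj : Function.Injective f := by
    intro p q hpq
    have h1 : (f p).1 = (f q).1 := congrArg Sigma.fst hpq
    have h1a : (QuotientGroup.mk p.1.1 : G ⧸ N) = QuotientGroup.mk q.1.1 := congrArg (fun z => z.1.1) h1
    have h1b : (QuotientGroup.mk p.1.2 : G ⧸ N) = QuotientGroup.mk q.1.2 := congrArg (fun z => z.1.2) h1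
    have h2 : ((f p).2.1.1 : G) = (f q).2.1.1 := by rw [hpq]
    have h3 : (((f p).2.1.2 : N) : G) = (f q).2.1.2 := by rw [hpq]
    have h2' : p.1.1 = q.1.1 := h2
    have h3' : (c p.1.1 (QuotientGroup.mk p.1.2))⁻¹ * p.1.2 = (c q.1.1 (QuotientGroup.mk q.1.2))⁻¹ * q.1.2 := h3
    rw [h2', h1b] at h3'
    apply Subtype.ext
    exact Prod.ext h2' (mul_left_cancel h3')
  have hle := Nat.card_le_card_of_injective f hfinj
  have : Fintype B := Fintype.ofFinite _
  rw [Nat.card_sigma] at hle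
  have hbound : (∑ b : B, Nat.card (X b.1.1)) ≤ Nat.card B * (kN * Nat.card N) := by
    rw [Nat.card_eq_fintype_card, ← smul_eq_mul, ← Finset.card_univ]
    apply Finset.sum_le_card_nsmul
    intro b _
    rw [← hN]
    exact coset_count N π b.1.1
  have hfinal := hle.trans hbound
  change Nat.card {p : G × G // IsPi π p.1 ∧ Commute p.1 p.2} ≤
    Nat.card {p : (G ⧸ N) × (G ⧸ N) // IsPi π p.1 ∧ Commute p.1 p.2} * (kN * Nat.card N) at hfinal
  rw [hG, hQ] at hfinal
  have hcard : Nat.card G = Nat.card (G ⧸ N) * Nat.card N := Subgroup.card_eq_card_quotient_mul_card_subgroup N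
  have hpos : 0 < Nat.card G := Nat.card_pos
  apply Nat.le_of_mul_le_mul_right _ hpos
  calc kG * Nat.card G ≤ kQ * Nat.card (G ⧸ N) * (kN * Nat.card N) := hfinal
    _ = kN * kQ * Nat.card G := by rw [hcard]; ring

end Cfsg.Agent.S4152
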