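import Cfsg.Statements.S4153
import Cfsg.Agent.Lib.H72.PiParts
import Mathlib.GroupTheory.Sylow

set_option autoImplicit false
open Cfsg

namespace Cfsg.Agent.S4153

open Subgroup H72.PiParts

/-- Let G be a finite group, p a prime, N a normal subgroup, P a Sylow p-subgroup of G and P̄ a Sylow p-subgroup of G/N. Count the elements of p-power order, the identity included. Then (number of such elements of G/N)/#P̄ ≤ (number of such elements of G)/#P, stated as a cross-multiplied inequality, with equality when N is central. -/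
theorem result {G : Type*} [Group G] [Finite G] (p : ℕ) [Fact p.Prime] (N : Subgroup G) [N.Normal]
    (P : Sylow p G) (Pbar : Sylow p (G ⧸ N)) :
    Nat.card {g : (G ⧸ N) // ∃ k : ℕ, orderOf g = p ^ k} * Nat.card (P : Subgroup G) ≤ Nat.card {g : G // ∃ k : ℕ, orderOf g = p ^ k} * Nat.card (Pbar : Subgroup (G ⧸ N)) ∧
    (N ≤ Subgroup.center G → Nat.card {g : (G ⧸ N) // ∃ k : ℕ, orderOf g = p ^ k} * Nat.card (P : Subgroup G) = Nat.card {g : G // ∃ k : ℕ, orderOf g = p ^ k} * Nat.card (Pbar : Subgroup (G ⧸ N))) := by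
  classical
  have hp : p.Prime := Fact.out
  obtain ⟨P0⟩ : Nonempty (Sylow p N) := inferInstance
  have hcardG : Nat.card G = Nat.card (G ⧸ N) * Nat.card N := Subgroup.card_eq_card_quotient_mul_card_subgroup N
  have hcP : Nat.card (P : Subgroup G) = Nat.card (Pbar : Subgroup (G ⧸ N)) * Nat.card (P0 : Subgroup N) := by
    have h1 : Nat.card (P : Subgroup G) = p ^ (Nat.card G).factorization p := Sylow.card_eq_multiplicity P
    have h2 : Nat.card (Pbar : Subgroup (G ⧸ N)) = p ^ (Nat.card (G ⧸ N)).factorization p := Sylow.card_eq_multiplicity Pbar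
    have h3 : Nat.card (P0 : Subgroup N) = p ^ (Nat.card N).factorization p := Sylow.card_eq_multiplicity P0
    rw [h1, h2, h3, hcardG, Nat.factorization_mul Nat.card_pos.ne' Nat.card_pos.ne', Finsupp.add_apply, pow_add]
  set Q : Subgroup G := (P0 : Subgroup N).map N.subtype with hQ
  have hfrat : Subgroup.normalizer (Q : Set G) ⊔ N = ⊤ := Sylow.normalizer_sup_eq_top P0
  have hQp : IsPGroup p Q := P0.2.map _
  -- representatives
  have hrep : ∀ y : {g : (G ⧸ N) // ∃ k : ℕ, orderOf g = p ^ k}, ∃ r : G, (QuotientGroup.mk r : G ⧸ N) = y.1 ∧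
      r ∈ Subgroup.normalizer (Q : Set G) ∧ ∃ k : ℕ, orderOf r = p ^ k := by
    rintro ⟨y, hy⟩
    obtain ⟨x, rfl⟩ := QuotientGroup.mk_surjective y
    have hx : x ∈ Subgroup.normalizer (Q : Set G) ⊔ N := by rw [hfrat]; trivial
    obtain ⟨a, ha, n, hn, rfl⟩ := Subgroup.mem_sup_of_normal_right.mp hx
    have hmk : (QuotientGroup.mk (a * n) : G ⧸ N) = QuotientGroup.mk a := by
      rw [eq_comm, QuotientGroup.eq, inv_mul_cancel_left]; exact hn
    rw [hmk] at hy
    obtain ⟨i, j, hij, hi, hj⟩ := exists_parts {p} (isOfFinOrder_of_finite a)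
    refine ⟨a ^ i, ?_, Subgroup.pow_mem _ ha _, (isPi_singleton_iff hp (isOfFinOrder_of_finite _)).mp hi⟩
    have h1 : IsPi {p} (QuotientGroup.mk a : G ⧸ N) := (isPi_singleton_iff hp (isOfFinOrder_of_finite _)).mpr hy
    have h2 : IsPi {p} (QuotientGroup.mk (a ^ j) : G ⧸ N) := by
      rw [QuotientGroup.mk_pow]; exact h1.pow j
    have h3 : IsPi {p}ᶜ (QuotientGroup.mk (a ^ j) : G ⧸ N) := hj.map (QuotientGroup.mk' N)
    have h4 := eq_one_of_isPi_of_isPi_compl h2 h3
    show (QuotientGroup.mk (a ^ i) : G ⧸ N) = QuotientGroup.mk (a * n)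
    rw [hmk]
    conv_rhs => rw [hij]
    rw [QuotientGroup.mk_mul, h4, mul_one]
  choose r hr1 hr2 hr3 using hrep
  have hprod : ∀ y, ∀ u ∈ Q, ∃ k : ℕ, orderOf (r y * u) = p ^ k := by
    intro y u hu
    have hz : IsPGroup p (zpowers (r y)) := by
      obtain ⟨k, hk⟩ := hr3 y
      exact IsPGroup.of_card (n := k) (by rw [Nat.card_zpowers, hk])
    have hle : zpowers (r y) ≤ Subgroup.normalizer (Q : Set G) := by
      rw [Subgroup.zpowers_le]; exact hr2 y
    have hsup := hz.to_sup_of_normal_right' hQp hle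
    have hmem : r y * u ∈ zpowers (r y) ⊔ Q :=
      Subgroup.mul_mem _ (Subgroup.mem_sup_left (mem_zpowers _)) (Subgroup.mem_sup_right hu)
    obtain ⟨k, hk⟩ := hsup ⟨_, hmem⟩
    have h2 : (r y * u) ^ p ^ k = 1 := by
      have := congrArg Subtype.val hk
      simpa using this
    obtain ⟨m, _, hm⟩ := (Nat.dvd_prime_pow hp).mp (orderOf_dvd_of_pow_eq_one h2)
    exact ⟨m, hm⟩
  let f : {g : (G ⧸ N) // ∃ k : ℕ, orderOf g = p ^ k} × (P0 : Subgroup N) → {g : G // ∃ k : ℕ, orderOf g = p ^ k} :=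
    fun q => ⟨r q.1 * ((q.2 : N) : G), hprod q.1 _ ⟨q.2, q.2.2, rfl⟩⟩
  have hfmk : ∀ q, (QuotientGroup.mk ((f q : G)) : G ⧸ N) = q.1.1 := by
    intro q
    have : (QuotientGroup.mk (r q.1 * ((q.2 : N) : G)) : G ⧸ N) = QuotientGroup.mk (r q.1) := by
      rw [eq_comm, QuotientGroup.eq, inv_mul_cancel_left]; exact (q.2 : N).2
    exact this.trans (hr1 q.1)
  have hfinj : Function.Injective f := by
    intro q q' hqq
    have h1 : q.1 = q'.1 := by
      apply Subtype.ext
      rw [← hfmk q, ← hfmk q', hqq]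
    have h2 : r q.1 * ((q.2 : N) : G) = r q'.1 * ((q'.2 : N) : G) := congrArg Subtype.val hqq
    rw [h1] at h2
    have h3 := mul_left_cancel h2
    exact Prod.ext h1 (Subtype.ext (Subtype.ext h3))
  have hle : Nat.card {g : (G ⧸ N) // ∃ k : ℕ, orderOf g = p ^ k} * Nat.card (P0 : Subgroup N) ≤
      Nat.card {g : G // ∃ k : ℕ, orderOf g = p ^ k} := by
    rw [← Nat.card_prod]
    exact Nat.card_le_card_of_injective f hfinj
  refine ⟨?_, ?_⟩
  · rw [hcP]
    calc _ = (Nat.card {g : (G ⧸ N) // ∃ k : ℕ, orderOf g = p ^ k} * Nat.card (P0 : Subgroup N)) * Nat.card (Pbar : Subgroup (G ⧸ N)) := by ring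
      _ ≤ _ := Nat.mul_le_mul_right _ hle
  · intro hcen
    have hfsurj : Function.Surjective f := by
      rintro ⟨x, hx⟩
      have hxp : IsPi {p} x := (isPi_singleton_iff hp (isOfFinOrder_of_finite _)).mpr hx
      let y : {g : (G ⧸ N) // ∃ k : ℕ, orderOf g = p ^ k} := ⟨QuotientGroup.mk x,
        (isPi_singleton_iff hp (isOfFinOrder_of_finite _)).mp (hxp.map (QuotientGroup.mk' N))⟩
      have hn : (r y)⁻¹ * x ∈ N := by
        rw [← QuotientGroup.eq]; exact hr1 y
      have hnc : ∀ g : G, g * ((r y)⁻¹ * x) = ((r y)⁻¹ * x) * g := Subgroup.mem_center_iff.mp (hcen hn)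
      have hcomm : Commute (r y)⁻¹ x := by
        have h1 := hnc (r y)
        have h2 : x = (r y)⁻¹ * x * r y := by rw [← h1, mul_inv_cancel_left]
        show (r y)⁻¹ * x = x * (r y)⁻¹
        calc (r y)⁻¹ * x = ((r y)⁻¹ * x * r y) * (r y)⁻¹ := by group
          _ = x * (r y)⁻¹ := by rw [← h2]
      have hrp : IsPi {p} (r y) := (isPi_singleton_iff hp (isOfFinOrder_of_finite _)).mpr (hr3 y)
      have hnp : IsPi {p} ((r y)⁻¹ * x) := IsPi.mul hcomm hrp.inv hxp
      let n : N := ⟨(r y)⁻¹ * x, hn⟩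
      have hnp' : ∃ k : ℕ, orderOf n = p ^ k := by
        obtain ⟨k, hk⟩ := (isPi_singleton_iff hp (isOfFinOrder_of_finite ((r y)⁻¹ * x))).mp hnp
        refine ⟨k, ?_⟩
        rw [← hk, ← Subgroup.orderOf_coe n]
      have hP0n : (P0 : Subgroup N).Normal := by
        constructor
        intro a ha g
        have h1 : g * a = a * g := by
          apply Subtype.ext
          exact Subgroup.mem_center_iff.mp (hcen a.2) g
        rw [h1, mul_inv_cancel_right]; exact ha
      have hz : IsPGroup p (zpowers n) := by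
        obtain ⟨k, hk⟩ := hnp'
        exact IsPGroup.of_card (n := k) (by rw [Nat.card_zpowers, hk])
      have hsup : IsPGroup p (((P0 : Subgroup N) ⊔ zpowers n : Subgroup N)) := P0.2.to_sup_of_normal_left hz
      have hmem : n ∈ (P0 : Subgroup N) := by
        have h1 := P0.3 hsup le_sup_left
        rw [← h1]
        exact Subgroup.mem_sup_right (mem_zpowers n)
      refine ⟨⟨y, ⟨n, hmem⟩⟩, ?_⟩
      apply Subtype.ext
      show r y * ((r y)⁻¹ * x) = x
      rw [mul_inv_cancel_left]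
    have heq : Nat.card {g : (G ⧸ N) // ∃ k : ℕ, orderOf g = p ^ k} * Nat.card (P0 : Subgroup N) =
        Nat.card {g : G // ∃ k : ℕ, orderOf g = p ^ k} := by
      rw [← Nat.card_prod]
      exact Nat.card_congr (Equiv.ofBijective f ⟨hfinj, hfsurj⟩)
    rw [hcP, ← heq]
    ring

end Cfsg.Agent.S4153
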