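import Cfsg.Statements.S4154
import Mathlib.GroupTheory.Index
import Mathlib.Tactic

set_option autoImplicit false
open Cfsg

namespace Cfsg.Agent.S4154

/-- Let G be a finite group and α an automorphism of G such that every element of G is the product of an element fixed by α and an element of the form g⁻¹α(g). If N is a normal α-invariant subgroup, then the automorphism ᾱ induced on G/N has the same property, and every coset fixed by ᾱ contains an element fixed by α (so the fixed points of ᾱ are the images of the fixed points of α). -/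
theorem result {G : Type*} [Group G] [Finite G] (α : MulAut G)
    (hccp : ∀ x : G, ∃ c g : G, α c = c ∧ x = c * (g⁻¹ * α g))
    (N : Subgroup G) [N.Normal] (hN : ∀ n ∈ N, α n ∈ N) :
    (∀ x : G, ∃ c g : G, c⁻¹ * α c ∈ N ∧ x⁻¹ * (c * (g⁻¹ * α g)) ∈ N) ∧
    (∀ x : G, x⁻¹ * α x ∈ N → ∃ c : G, α c = c ∧ c⁻¹ * x ∈ N) := by
  classical
  constructor
  · intro x
    obtain ⟨c, g, hc, hx⟩ := hccp x
    refine ⟨c, g, ?_, ?_⟩
    · rw [hc, inv_mul_cancel]; exact N.one_mem
    · rw [← hx, inv_mul_cancel]; exact N.one_mem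
  · -- fixed point subgroup
    let C : Subgroup G :=
      { carrier := {c | α c = c}
        mul_mem' := by
          intro a b ha hb
          simp only [Set.mem_ofPred_eq] at ha hb ⊢
          rw [map_mul, ha, hb]
        one_mem' := by simp
        inv_mem' := by
          intro a ha
          simp only [Set.mem_ofPred_eq] at ha ⊢
          rw [map_inv, ha] }
    have hC : ∀ c, c ∈ C ↔ α c = c := fun c => Iff.rfl
    -- preimage of fixed points of G/N
    let D : Subgroup G :=
      { carrier := {x | x⁻¹ * α x ∈ N}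
        mul_mem' := by
          intro a b ha hb
          simp only [Set.mem_ofPred_eq] at ha hb ⊢
          have : (a * b)⁻¹ * α (a * b) = b⁻¹ * (a⁻¹ * α a) * b⁻¹⁻¹ * (b⁻¹ * α b) := by
            rw [map_mul]; group
          rw [this]
          exact N.mul_mem (Subgroup.Normal.conj_mem inferInstance _ ha _) hb
        one_mem' := by simp [N.one_mem]
        inv_mem' := by
          intro a ha
          simp only [Set.mem_ofPred_eq] at ha ⊢
          have : a⁻¹⁻¹ * α a⁻¹ = a * (a⁻¹ * α a)⁻¹ * a⁻¹ := by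
            rw [map_inv]; group
          rw [this]
          exact Subgroup.Normal.conj_mem inferInstance _ (N.inv_mem ha) _ }
    have hD : ∀ x, x ∈ D ↔ x⁻¹ * α x ∈ N := fun x => Iff.rfl
    have hCND : C ⊔ N ≤ D := by
      rw [sup_le_iff]
      constructor
      · intro c hc
        rw [hD, (hC c).mp hc, inv_mul_cancel]; exact N.one_mem
      · intro n hn
        rw [hD]
        exact N.mul_mem (N.inv_mem hn) (hN n hn)
    -- the map G → C-cosets: every x is c * (g⁻¹ α g); modulo D on the left for g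
    -- cover G/N : surjection from (C⊔N)/N × D\G
    have hNC : N ≤ C ⊔ N := le_sup_right
    -- index count : |G : N| ≤ |C⊔N : N| * |G : D|
    have hcount : Nat.card (G ⧸ N) ≤ N.relIndex (C ⊔ N) * D.index := by
      -- define f : (C⊔N)/N' × (G ⧸ D) → G ⧸ N
      let f : ((C ⊔ N : Subgroup G) ⧸ N.subgroupOf (C ⊔ N)) × (G ⧸ D) → G ⧸ N :=
        fun q => (QuotientGroup.mk ((q.1.out : G) * ((q.2.out : G) * α (q.2.out)⁻¹)) : G ⧸ N)
      have hf : Function.Surjective f := by
        intro y
        obtain ⟨x, rfl⟩ := QuotientGroup.mk_surjective y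
        obtain ⟨c, g, hc, hx⟩ := hccp x
        have hcm : c ∈ C ⊔ N := Subgroup.mem_sup_left hc
        obtain ⟨u, hu⟩ := QuotientGroup.mk_out_eq_mul (N.subgroupOf (C ⊔ N)) (⟨c, hcm⟩ : (C ⊔ N : Subgroup G))
        obtain ⟨d, hd⟩ := QuotientGroup.mk_out_eq_mul D g⁻¹
        refine ⟨⟨QuotientGroup.mk ⟨c, hcm⟩, QuotientGroup.mk g⁻¹⟩, ?_⟩
        simp only [f]
        rw [hu, hd]
        rw [eq_comm, QuotientGroup.eq]
        have huN : ((u : (C ⊔ N : Subgroup G)) : G) ∈ N := Subgroup.mem_subgroupOf.mp u.2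
        have hdN : (d : G)⁻¹ * α d ∈ N := d.2
        rw [hx]
        simp only [Subgroup.coe_mul, map_mul, map_inv, mul_inv_rev, inv_inv]
        -- c * (g⁻¹ α g) vs c u g⁻¹ d (α d)⁻¹ α g
        have e : (α g)⁻¹ * g * c⁻¹ * (c * ↑↑u * (g⁻¹ * ↑d * ((α ↑d)⁻¹ * α g))) =
            ((α g)⁻¹ * g * (↑↑u) * ((α g)⁻¹ * g)⁻¹) *
              ((α g)⁻¹ * (d * (((d : G)⁻¹ * α d)⁻¹) * (d : G)⁻¹) * ((α g)⁻¹)⁻¹) := by
          group
        rw [show (α g)⁻¹ * g * c⁻¹ * (c * ↑↑u * (g⁻¹ * ↑d * ((α ↑d)⁻¹ * α g))) =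
            ((α g)⁻¹ * g * (↑↑u) * ((α g)⁻¹ * g)⁻¹) *
              ((α g)⁻¹ * (d * (((d : G)⁻¹ * α d)⁻¹) * (d : G)⁻¹) * ((α g)⁻¹)⁻¹) from e]
        refine N.mul_mem (Subgroup.Normal.conj_mem inferInstance _ huN _)
          (Subgroup.Normal.conj_mem inferInstance _ (Subgroup.Normal.conj_mem inferInstance _ (N.inv_mem hdN) _) _)
      have h1 := Nat.card_le_card_of_surjective f hf
      rw [Nat.card_prod] at h1
      exact h1
    have hidx : Nat.card (G ⧸ N) = N.relIndex (C ⊔ N) * ((C ⊔ N).relIndex D * D.index) := by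
      have h1 := Subgroup.relIndex_mul_index hCND
      rw [h1, Subgroup.relIndex_mul_index hNC]
      rfl
    have hrel : (C ⊔ N).relIndex D = 1 := by
      rw [hidx] at hcount
      have h1 : 0 < N.relIndex (C ⊔ N) := Nat.pos_of_ne_zero Subgroup.index_ne_zero_of_finite
      have h2 : 0 < D.index := Nat.pos_of_ne_zero Subgroup.index_ne_zero_of_finite
      have h3 : (C ⊔ N).relIndex D * D.index ≤ D.index := Nat.le_of_mul_le_mul_left hcount h1
      have h4 : (C ⊔ N).relIndex D ≤ 1 := by
        by_contra hlt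
        push Not at hlt
        nlinarith
      have h5 : (C ⊔ N).relIndex D ≠ 0 := Subgroup.index_ne_zero_of_finite
      omega
    intro x hx
    have hxD : x ∈ D := hx
    have hle : D ≤ C ⊔ N := Subgroup.relIndex_eq_one.mp hrel
    obtain ⟨c, hc, n, hn, hcn⟩ := Subgroup.mem_sup_of_normal_right.mp (hle hxD)
    refine ⟨c, hc, ?_⟩
    rw [← hcn, inv_mul_cancel_left]
    exact hn

end Cfsg.Agent.S4154
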