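import Cfsg.Statements.S4155
import Cfsg.Agent.Lib.H1.Cores
import Cfsg.Agent.Lib.H1.FrobSyl
import Cfsg.Agent.Lib.H72.PiParts
import Cfsg.Agent.Lib.H3.LocalNPC

set_option autoImplicit false
open Cfsg

namespace Cfsg.Agent.S4155

theorem comm_eq_one {G : Type*} [Group G] [Finite G] (N : Subgroup G)
    (heq : ∀ x : G, x ∉ N → ∀ n ∈ N, orderOf (x * n) = orderOf x) {q k : ℕ} {x n : G}
    (hx : x ∉ N) (hxo : orderOf x = q ^ k) (hn : n ∈ N) (hno : (orderOf n).Coprime q)
    (hc : x * n = n * x) : n = 1 := by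
  have h1 := heq x hx n hn
  have h2 : orderOf (x * n) = orderOf x * orderOf n :=
    (show Commute x n from hc).orderOf_mul_eq_mul_orderOf_of_coprime (by
      rw [hxo]; exact Nat.Coprime.pow_left k hno.symm)
  rw [h2] at h1
  have h3 : orderOf n = 1 := by
    have : orderOf x * orderOf n = orderOf x * 1 := by rw [mul_one]; exact h1
    exact Nat.eq_of_mul_eq_mul_left (orderOf_pos x) this
  exact orderOf_eq_one_iff.mp h3

/-- a prime `r ≠ q` dividing `|N|` -/
theorem exists_prime {n q : ℕ} (hn : n ≠ 0) (hn1 : n ≠ 1) (hnpp : ¬ IsPrimePow n) (hq : q.Prime) :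
    ∃ r : ℕ, r.Prime ∧ r ≠ q ∧ r ∣ n := by
  by_contra hcon
  push Not at hcon
  apply hnpp
  have h1 : n = q ^ n.primeFactorsList.length := by
    apply Nat.eq_prime_pow_of_unique_prime_dvd hn
    intro r hr hrn
    by_contra hne
    exact hcon r hr hne hrn
  rw [isPrimePow_nat_iff]
  refine ⟨q, n.primeFactorsList.length, hq, ?_, h1.symm⟩
  rw [Nat.pos_iff_ne_zero]
  intro h0
  rw [h0, pow_zero] at h1
  exact hn1 h1

theorem mem_pCore_of_nilpotent {G : Type*} [Group G] [Finite G] (N : Subgroup G) [N.Normal]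
    (hnil : Group.IsNilpotent N) {q : ℕ} [Fact q.Prime] {x : G} (hx : x ∈ N) {k : ℕ}
    (hxo : orderOf x = q ^ k) : x ∈ N ⊓ Cfsg.pCore q G := by
  rw [← H1.Cores.map_subtype_pCore]
  have h1 : IsPGroup q (Subgroup.zpowers (⟨x, hx⟩ : N)) := by
    apply IsPGroup.of_card (n := k)
    rw [Nat.card_zpowers, ← Subgroup.orderOf_coe]
    exact hxo
  obtain ⟨P, hP⟩ := h1.exists_le_sylow
  have htfae := (Group.isNilpotent_of_finite_tfae (G := N)).out 0 3
  have hPn : (P : Subgroup N).Normal := htfae.mp hnil q inferInstance P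
  exact ⟨⟨x, hx⟩, H1.Cores.le_pCore hPn P.2 (hP (Subgroup.mem_zpowers _)), rfl⟩

theorem inf_pCore_ne_bot {G : Type*} [Group G] [Finite G] (N : Subgroup G) [N.Normal]
    (hnil : Group.IsNilpotent N) {r : ℕ} [Fact r.Prime] (hr : r ∣ Nat.card N) :
    N ⊓ Cfsg.pCore r G ≠ ⊥ := by
  obtain ⟨x, hx⟩ := exists_prime_orderOf_dvd_card' r hr
  have hxo : orderOf (x : G) = r ^ 1 := by rw [Subgroup.orderOf_coe, hx, pow_one]
  have h1 := mem_pCore_of_nilpotent N hnil x.2 hxo
  intro h2
  rw [h2, Subgroup.mem_bot] at h1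
  rw [h1, orderOf_one, pow_one] at hxo
  exact (Fact.out : r.Prime).one_lt.ne hxo


/-- Let G be a finite group and N a proper non-trivial normal nilpotent subgroup whose order is not a prime power, such that for every x outside N all elements of the coset xN have the same order as x. Then N is the Fitting subgroup of G, and for every prime q every Sylow q-subgroup of G/N is cyclic or generalized quaternion. -/
theorem result {G : Type*} [Group G] [Finite G] (N : Subgroup G) [N.Normal] (hN1 : N ≠ ⊥) (hN2 : N ≠ ⊤)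
    (heq : ∀ x : G, x ∉ N → ∀ n ∈ N, orderOf (x * n) = orderOf x)
    (hnil : Group.IsNilpotent N) (hnpp : ¬ IsPrimePow (Nat.card N)) :
    N = Cfsg.fittingSubgroup G ∧
    ∀ (q : ℕ) [Fact q.Prime] (Q : Sylow q (G ⧸ N)), IsCyclic (Q : Subgroup (G ⧸ N)) ∨ ∃ n : ℕ, Nonempty ((Q : Subgroup (G ⧸ N)) ≃* QuaternionGroup (2 ^ n)) := by
  have hcard1 : Nat.card N ≠ 1 := fun h => hN1 (Subgroup.card_eq_one.mp h)
  have hcard0 : Nat.card N ≠ 0 := Nat.card_pos.ne'
  refine ⟨?_, ?_⟩
  · apply le_antisymm (H1.Cores.le_fittingSubgroup inferInstance hnil)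
    by_contra hnle
    rw [SetLike.not_le_iff_exists] at hnle
    obtain ⟨x, hxF, hxN⟩ := hnle
    -- a primary element of `F` outside `N`
    have : ∃ j q k : ℕ, q.Prime ∧ orderOf (x ^ j) = q ^ k ∧ x ^ j ∉ N := by
      by_contra hcon
      push Not at hcon
      apply hxN
      apply H3.LocalNPC.mem_of_prime_powers (orderOf x) x rfl (orderOf_pos x)
      intro j q k hq ho _
      exact hcon j q k hq ho
    obtain ⟨j, q, k, hq, hj, hjN⟩ := this
    have : Fact q.Prime := ⟨hq⟩
    obtain ⟨r, hr, hrq, hrN⟩ := exists_prime hcard0 hcard1 hnpp hq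
    have : Fact r.Prime := ⟨hr⟩
    have hne := inf_pCore_ne_bot N hnil hrN
    obtain ⟨y, hy⟩ := (Subgroup.ne_bot_iff_exists_ne_one).mp hne
    have hy1 : (y : G) ≠ 1 := fun h => hy (Subtype.ext h)
    obtain ⟨hyN, hyr⟩ := Subgroup.mem_inf.mp y.2
    apply hy1
    have hyo : ∃ l : ℕ, orderOf (y : G) = r ^ l := by
      obtain ⟨l, hl⟩ := (IsPGroup.iff_orderOf.mp (H1.Cores.isPGroup_pCore (G := G) r)) ⟨y, hyr⟩
      exact ⟨l, by rw [← hl, ← Subgroup.orderOf_coe]⟩
    obtain ⟨l, hl⟩ := hyo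
    refine comm_eq_one N heq hjN hj hyN ?_ ?_
    · rw [hl]
      exact Nat.Coprime.pow_left l ((Nat.coprime_primes hr hq).mpr hrq)
    · -- `x ^ j ∈ O_q(G)`, `y ∈ O_r(G)`
      have hxq : x ^ j ∈ Cfsg.fittingSubgroup G ⊓ Cfsg.pCore q G :=
        mem_pCore_of_nilpotent _ (H1.Cores.isNilpotent_fittingSubgroup) (pow_mem hxF j) hj
      have hdis : Disjoint (Cfsg.pCore q G) (Cfsg.pCore r G) := by
        apply IsPGroup.disjoint_of_ne q r hrq.symm _ _ (H1.Cores.isPGroup_pCore q) (H1.Cores.isPGroup_pCore r)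
      exact Subgroup.commute_of_normal_of_disjoint _ _ inferInstance inferInstance hdis _ _
        (Subgroup.mem_inf.mp hxq).2 hyr
  · intro q hq Q'
    obtain ⟨Q, rfl⟩ := Sylow.mapSurjective_surjective (QuotientGroup.mk'_surjective N) q Q'
    obtain ⟨r, hr, hrq, hrN⟩ := exists_prime hcard0 hcard1 hnpp hq.out
    have : Fact r.Prime := ⟨hr⟩
    have hne := inf_pCore_ne_bot N hnil hrN
    set D : Subgroup G := N ⊓ Cfsg.pCore q G with hD
    set K : Subgroup G := N ⊓ Cfsg.pCore r G with hK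
    have hDQ : D ≤ (Q : Subgroup G) := inf_le_right.trans (H1.Cores.pCore_le_sylow Q)
    have hQN : (Q : Subgroup G) ⊓ N = D := by
      apply le_antisymm
      · intro x hx
        obtain ⟨hxQ, hxN⟩ := Subgroup.mem_inf.mp hx
        obtain ⟨l, hl⟩ := (IsPGroup.iff_orderOf.mp Q.2) ⟨x, hxQ⟩
        exact mem_pCore_of_nilpotent N hnil hxN (by rw [← hl, ← Subgroup.orderOf_coe])
      · exact le_inf hDQ inf_le_left
    have hKD : K ⊓ D = ⊥ := by
      rw [eq_bot_iff]
      intro x hx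
      obtain ⟨h1, h2⟩ := Subgroup.mem_inf.mp hx
      have hdis : Disjoint (Cfsg.pCore q G) (Cfsg.pCore r G) := by
        apply IsPGroup.disjoint_of_ne q r hrq.symm _ _ (H1.Cores.isPGroup_pCore q) (H1.Cores.isPGroup_pCore r)
      rw [← hdis.eq_bot]
      exact Subgroup.mem_inf.mpr ⟨(Subgroup.mem_inf.mp h2).2, (Subgroup.mem_inf.mp h1).2⟩
    have hfpf : ∀ a ∈ (Q : Subgroup G).map (QuotientGroup.mk' D), a ≠ 1 →
        K.map (QuotientGroup.mk' D) ⊓ Subgroup.centralizer {a} = ⊥ := by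
      rintro _ ⟨a, haQ, rfl⟩ ha1
      have haN : a ∉ N := by
        intro haN
        apply ha1
        rw [QuotientGroup.mk'_apply, QuotientGroup.eq_one_iff, ← hQN]
        exact Subgroup.mem_inf.mpr ⟨haQ, haN⟩
      obtain ⟨l, hl⟩ := (IsPGroup.iff_orderOf.mp Q.2) ⟨a, haQ⟩
      have hao : orderOf a = q ^ l := by rw [← hl, ← Subgroup.orderOf_coe]
      rw [eq_bot_iff]
      rintro _ ⟨⟨y, hyK, rfl⟩, hya⟩
      rw [Subgroup.mem_bot]
      have h1 : y⁻¹ * (a * y * a⁻¹) ∈ D := by
        rw [← QuotientGroup.eq_one_iff]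
        have h2 := Subgroup.mem_centralizer_singleton_iff.mp hya
        simp only [QuotientGroup.mk'_apply] at h2
        simp only [QuotientGroup.mk_mul, QuotientGroup.mk_inv]
        rw [← h2]; group
      have h2 : y⁻¹ * (a * y * a⁻¹) ∈ K := by
        have hKn : K.Normal := by rw [hK]; infer_instance
        exact mul_mem (inv_mem hyK) (hKn.conj_mem y hyK a)
      have h3 : y⁻¹ * (a * y * a⁻¹) ∈ K ⊓ D := Subgroup.mem_inf.mpr ⟨h2, h1⟩
      rw [hKD, Subgroup.mem_bot] at h3
      have h4 : a * y = y * a := by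
        have : a * y * a⁻¹ = y := (inv_mul_eq_one.mp h3).symm
        exact mul_inv_eq_iff_eq_mul.mp this
      obtain ⟨hyN, hyr⟩ := Subgroup.mem_inf.mp hyK
      have hy1 : y = 1 := by
        refine comm_eq_one N heq haN hao hyN ?_ h4
        obtain ⟨l', hl'⟩ := (IsPGroup.iff_orderOf.mp (H1.Cores.isPGroup_pCore (G := G) r)) ⟨y, hyr⟩
        have : orderOf y = r ^ l' := by rw [← hl', ← Subgroup.orderOf_coe]
        rw [this]
        exact Nat.Coprime.pow_left l' ((Nat.coprime_primes hr hq.out).mpr hrq)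
      rw [hy1, map_one]
    have hKne : K.map (QuotientGroup.mk' D) ≠ ⊥ := by
      intro h
      apply hne
      rw [Subgroup.map_eq_bot_iff, QuotientGroup.ker_mk'] at h
      rw [← hKD, eq_comm, inf_eq_left]
      exact h
    have hKn : (K.map (QuotientGroup.mk' D)).Normal :=
      Subgroup.Normal.map (by rw [hK]; infer_instance) _ (QuotientGroup.mk'_surjective D)
    have hcq := H1.FrobSyl.cyclic_or_quaternion ((Q : Subgroup G).map (QuotientGroup.mk' D))
      (K.map (QuotientGroup.mk' D)) hKne (by rw [Subgroup.normalizer_eq_top]; exact le_top) hfpf q (Q.2.map _)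
    -- isomorphism
    let f1 : (Q : Subgroup G) →* G ⧸ N := (QuotientGroup.mk' N).comp (Q : Subgroup G).subtype
    let f2 : (Q : Subgroup G) →* G ⧸ D := (QuotientGroup.mk' D).comp (Q : Subgroup G).subtype
    have hr1 : f1.range = (Q : Subgroup G).map (QuotientGroup.mk' N) := by
      rw [MonoidHom.range_comp, Subgroup.range_subtype]
    have hr2 : f2.range = (Q : Subgroup G).map (QuotientGroup.mk' D) := by
      rw [MonoidHom.range_comp, Subgroup.range_subtype]
    have hker : f1.ker = f2.ker := by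
      ext x
      rw [MonoidHom.mem_ker, MonoidHom.mem_ker]
      show ((x : G) : G ⧸ N) = 1 ↔ ((x : G) : G ⧸ D) = 1
      rw [QuotientGroup.eq_one_iff, QuotientGroup.eq_one_iff, ← hQN, Subgroup.mem_inf]
      exact ⟨fun h => ⟨x.2, h⟩, fun h => h.2⟩
    let e : f1.range ≃* f2.range :=
      (QuotientGroup.quotientKerEquivRange f1).symm.trans
        ((QuotientGroup.quotientMulEquivOfEq hker).trans (QuotientGroup.quotientKerEquivRange f2))
    have e1 : ((Q.mapSurjective (QuotientGroup.mk'_surjective N) : Sylow q (G ⧸ N)) : Subgroup (G ⧸ N)) = f1.range := by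
      rw [hr1]; rfl
    rw [← hr2] at hcq
    rw [e1]
    rcases hcq with h | ⟨_, n, ⟨e'⟩⟩
    · left
      exact isCyclic_of_surjective e.symm e.symm.surjective
    · right
      exact ⟨n, ⟨e.trans e'⟩⟩

end Cfsg.Agent.S4155
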