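import Cfsg.Statements.S4156
import Mathlib

set_option autoImplicit false
open Cfsg

namespace Cfsg.Agent.S4156

open Matrix

variable {n : ℕ} {F : Type*} [Field F]

/-- the sum-zero subspace -/
def V (n : ℕ) (F : Type*) [Field F] : Submodule F (Fin (n + 1) → F) where
  carrier := {v | ∑ i, v i = 0}
  add_mem' := by
    intro a b ha hb
    simp only [Set.mem_ofPred_eq] at ha hb ⊢
    simp [Finset.sum_add_distrib, ha, hb]
  zero_mem' := by simp
  smul_mem' := by
    intro c a ha
    simp only [Set.mem_ofPred_eq] at ha ⊢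
    simp only [Pi.smul_apply, smul_eq_mul]
    rw [← Finset.mul_sum, ha, mul_zero]

theorem mem_V (v : Fin (n + 1) → F) : v ∈ V n F ↔ ∑ i, v i = 0 := Iff.rfl

theorem finrank_V : Module.finrank F (V n F) = n := by
  let s : (Fin (n + 1) → F) →ₗ[F] F := ∑ i, LinearMap.proj i
  have hs : ∀ v, s v = ∑ i, v i := by
    intro v
    simp [s, LinearMap.sum_apply]
  have hker : V n F = LinearMap.ker s := by
    ext v
    rw [mem_V, LinearMap.mem_ker, hs]
  have hsurj : Function.Surjective s := by
    intro c
    refine ⟨Pi.single 0 c, ?_⟩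
    rw [hs]
    simp
  have h1 := LinearMap.finrank_range_add_finrank_ker s
  rw [LinearMap.range_eq_top.mpr hsurj, finrank_top, Module.finrank_self, Module.finrank_fin_fun, ← hker] at h1
  omega

/-- the action of permutations on the sum-zero subspace -/
def act : Equiv.Perm (Fin (n + 1)) →* (V n F →ₗ[F] V n F) where
  toFun g :=
    { toFun := fun v => ⟨fun i => v.1 (g⁻¹ i), by
        rw [mem_V]
        rw [Equiv.sum_comp (g⁻¹) (fun i => v.1 i)]
        exact v.2⟩
      map_add' := fun v w => rfl
      map_smul' := fun c v => rfl }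
  map_one' := rfl
  map_mul' g h := by
    ext v i
    simp [_root_.mul_inv_rev]

theorem act_apply (g : Equiv.Perm (Fin (n + 1))) (v : V n F) (i : Fin (n + 1)) :
    ((act g v : V n F) : Fin (n + 1) → F) i = v.1 (g⁻¹ i) := rfl

/-- Let n ≥ 5 and F a finite field. Then the projective special linear group PSL_n(F) contains a subgroup isomorphic to the alternating group of degree n + 1. -/
theorem result (n : ℕ) (hn : 5 ≤ n) (F : Type*) [Field F] [Finite F] :
    ∃ f : alternatingGroup (Fin (n + 1)) →* Matrix.ProjectiveSpecialLinearGroup (Fin n) F, Function.Injective f := by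
  classical
  let b : Module.Basis (Fin n) F (V n F) := Module.finBasisOfFinrankEq F (V n F) finrank_V
  let M : Equiv.Perm (Fin (n + 1)) →* Matrix (Fin n) (Fin n) F :=
    ((LinearMap.toMatrixAlgEquiv b : _ ≃ₐ[F] _) : (V n F →ₗ[F] V n F) →* Matrix (Fin n) (Fin n) F).comp act
  have hM : ∀ g, M g = LinearMap.toMatrixAlgEquiv b (act g) := fun g => rfl
  let d : alternatingGroup (Fin (n + 1)) →* Fˣ :=
    (Units.map (Matrix.detMonoidHom : Matrix (Fin n) (Fin n) F →* F)).comp
      (((MonoidHom.toHomUnits M)).comp (alternatingGroup (Fin (n + 1))).subtype)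
  have hdet : ∀ g : alternatingGroup (Fin (n + 1)), (M g).det = 1 := by
    intro g
    have hker : commutator (alternatingGroup (Fin (n + 1))) ≤ d.ker := by
      rw [commutator_def, Subgroup.commutator_le]
      intro g _ h _
      rw [MonoidHom.mem_ker, map_commutatorElement, commutatorElement_eq_one_iff_mul_comm]
      exact mul_comm (d g) (d h)
    rw [commutator_alternatingGroup_eq_top (by rw [Nat.card_eq_fintype_card, Fintype.card_fin]; omega)] at hker
    have h1 : d g = 1 := hker trivial
    have h2 : ((d g : Fˣ) : F) = (M g).det := rfl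
    rw [← h2, h1]
    rfl
  let f0 : alternatingGroup (Fin (n + 1)) →* SpecialLinearGroup (Fin n) F :=
    { toFun := fun g => ⟨M g, hdet g⟩
      map_one' := by
        apply Subtype.ext
        show M ((1 : alternatingGroup (Fin (n + 1))) : Equiv.Perm (Fin (n + 1))) = 1
        rw [Subgroup.coe_one, map_one]
      map_mul' := fun g h => by
        apply Subtype.ext
        show M ((g * h : alternatingGroup (Fin (n + 1))) : Equiv.Perm (Fin (n + 1))) = M g * M h
        rw [Subgroup.coe_mul, map_mul] }
  refine ⟨(QuotientGroup.mk' _).comp f0, ?_⟩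
  rw [injective_iff_map_eq_one]
  intro g hg
  rw [MonoidHom.comp_apply, QuotientGroup.mk'_apply, QuotientGroup.eq_one_iff] at hg
  obtain ⟨r, hr, hr'⟩ := Matrix.SpecialLinearGroup.mem_center_iff.mp hg
  have hMg : M g = scalar (Fin n) r := hr'.symm
  -- act g = r • id
  have hact : act (F := F) (g : Equiv.Perm (Fin (n + 1))) = r • LinearMap.id := by
    apply (LinearMap.toMatrixAlgEquiv b).injective
    rw [← hM, hMg, map_smul]
    have : (LinearMap.toMatrixAlgEquiv b) (LinearMap.id : V n F →ₗ[F] V n F) = 1 := map_one _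
    rw [this]
    ext i j
    simp [Matrix.scalar_apply, Matrix.diagonal_apply, Matrix.one_apply]
  by_contra hne
  have hne' : (g : Equiv.Perm (Fin (n + 1))) ≠ 1 := fun h => hne (Subtype.ext h)
  obtain ⟨i, hi⟩ : ∃ i, (g : Equiv.Perm (Fin (n + 1))) i ≠ i := by
    by_contra hcon
    push Not at hcon
    exact hne' (Equiv.ext hcon)
  set σ := (g : Equiv.Perm (Fin (n + 1))) with hσ
  obtain ⟨j, hj1, hj2⟩ : ∃ j, j ≠ i ∧ j ≠ σ⁻¹ i := by
    have : ∃ j, j ∉ ({i, σ⁻¹ i} : Finset (Fin (n + 1))) := by
      by_contra hcon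
      push Not at hcon
      have h1 : (Finset.univ : Finset (Fin (n + 1))) ⊆ {i, σ⁻¹ i} := fun x _ => hcon x
      have h2 := Finset.card_le_card h1
      rw [Finset.card_univ, Fintype.card_fin] at h2
      have h3 : ({i, σ⁻¹ i} : Finset (Fin (n + 1))).card ≤ 2 := Finset.card_le_two
      omega
    obtain ⟨j, hj⟩ := this
    rw [Finset.mem_insert, Finset.mem_singleton, not_or] at hj
    exact ⟨j, hj.1, hj.2⟩
  let w : Fin (n + 1) → F := Pi.single i 1 - Pi.single j 1
  have hw : w ∈ V n F := by
    rw [mem_V]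
    simp [w]
  have key : ∀ k, w (σ⁻¹ k) = r * w k := by
    intro k
    have h1 := congrArg (fun T => ((T ⟨w, hw⟩ : V n F) : Fin (n + 1) → F) k) hact
    simpa [act_apply] using h1
  have hσi : σ⁻¹ i ≠ i := by
    intro h
    apply hi
    rw [Equiv.Perm.inv_eq_iff_eq] at h
    exact h.symm
  have e1 := key i
  have e2 := key (σ i)
  have hwi : w i = 1 := by simp [w, hj1.symm]
  have hw2 : w (σ⁻¹ i) = 0 := by
    show (Pi.single i 1 - Pi.single j 1 : Fin (n + 1) → F) (σ⁻¹ i) = 0
    rw [Pi.sub_apply, Pi.single_eq_of_ne hσi, Pi.single_eq_of_ne hj2.symm, sub_zero]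
  rw [hw2, hwi, mul_one] at e1
  have e3 : σ⁻¹ (σ i) = i := by
    rw [Equiv.Perm.inv_eq_iff_eq]
  rw [e3, hwi, ← e1, zero_mul] at e2
  exact one_ne_zero e2

end Cfsg.Agent.S4156
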