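import Cfsg.Statements.S4157
import Mathlib
import Cfsg.Agent.Lib.H73.Kulakoff
import Cfsg.Agent.Lib.H73.KulakoffTwoB
import Cfsg.Agent.Lib.H3.MaxClass2

set_option autoImplicit false
open Cfsg

namespace Cfsg.Agent.S4157

/-- Let G be a finite p-group of order p^m that is not cyclic and, when p = 2, not of maximal class (nilpotency class m − 1). Then for every 1 ≤ k < m the number of subgroups of G of order p^k is congruent to 1 + p modulo p². -/
theorem result {G : Type*} [Group G] [Finite G] {p : ℕ} [Fact p.Prime] (m : ℕ)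
    (hG : Nat.card G = p ^ m) (hnc : ¬ IsCyclic G) (h2 : p = 2 → Group.nilpotencyClass G ≠ m - 1)
    (k : ℕ) (hk1 : 1 ≤ k) (hk2 : k < m) :
    Nat.card {H : Subgroup G // Nat.card H = p ^ k} ≡ 1 + p [MOD p ^ 2] := by
  by_cases hp2 : p = 2
  · subst hp2
    have h3 := H73.KulakoffTwoB.kulakoff_two k hk1 m G hG hnc hk2
    rw [if_neg] at h3
    · exact h3
    · rintro ⟨h4, h5⟩
      exact h2 rfl (H3.MaxClass2.nilpotencyClass_eq (by lia) hG h4)
  · exact H73.Kulakoff.kulakoff hp2 k hk1 m G hG hnc hk2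

end Cfsg.Agent.S4157
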