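import Cfsg.Statements.S4159
import Cfsg.Agent.S0205
import Cfsg.Agent.Lib.H72.FT4159

set_option autoImplicit false
open Cfsg

namespace Cfsg.Agent.S4159

/-- Let G be a finite group such that in every subgroup H of G, any two conjugacy classes of H of size greater than 1 have non-coprime sizes. Then G is solvable. -/
theorem result {G : Type*} [Group G] [Finite G]
    (h : ∀ (H : Subgroup G) (x y : H), 1 < (Subgroup.centralizer ({x} : Set H)).index → 1 < (Subgroup.centralizer ({y} : Set H)).index →
      ¬ ((Subgroup.centralizer ({x} : Set H)).index).Coprime (Subgroup.centralizer ({y} : Set H)).index) : Group.IsSolvable G := by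
  exact H72.FT4159.s4159 (fun K _ _ h => Cfsg.Agent.S0205.result h) h

end Cfsg.Agent.S4159
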