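import Cfsg.Statements.S4160
import Cfsg.Agent.Lib.H72.TpCount

set_option autoImplicit false
open Cfsg

namespace Cfsg.Agent.S4160

/-- Let G be a finite group and p ≠ q primes each dividing the size of some conjugacy class of G, such that no conjugacy class size is divisible by pq. Then G has a normal p-complement or a normal q-complement. -/
theorem result {G : Type*} [Group G] [Finite G] (p q : ℕ) (hp : p.Prime) (hq : q.Prime) (hpq : p ≠ q)
    (hp' : ∃ x : G, p ∣ (Subgroup.centralizer ({x} : Set G)).index) (hq' : ∃ x : G, q ∣ (Subgroup.centralizer ({x} : Set G)).index) (h : ∀ x : G, ¬ p * q ∣ (Subgroup.centralizer ({x} : Set G)).index) :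
    Cfsg.HasNormalPComplement p G ∨ Cfsg.HasNormalPComplement q G := by
  classical
  have : Fact p.Prime := ⟨hp⟩
  have : Fact q.Prime := ⟨hq⟩
  by_contra hcon
  push Not at hcon
  obtain ⟨h1, h2⟩ := hcon
  have h3 := H72.TpCount.two_mul_card_le h1
  have h4 := H72.TpCount.two_mul_card_le h2
  have hfin := Fintype.ofFinite G
  rw [Nat.card_eq_fintype_card, Nat.card_eq_fintype_card, Fintype.card_subtype] at h3 h4
  set A := Finset.univ.filter fun g : G => ¬ p ∣ (Subgroup.centralizer ({g} : Set G)).index with hA
  set B := Finset.univ.filter fun g : G => ¬ q ∣ (Subgroup.centralizer ({g} : Set G)).index with hB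
  have hU : A ∪ B = Finset.univ := by
    apply Finset.eq_univ_of_forall
    intro g
    rw [Finset.mem_union, hA, hB, Finset.mem_filter, Finset.mem_filter]
    by_contra hc
    push Not at hc
    exact h g (Nat.Coprime.mul_dvd_of_dvd_of_dvd ((Nat.coprime_primes hp hq).mpr hpq)
      (hc.1 (Finset.mem_univ _)) (hc.2 (Finset.mem_univ _)))
  have h1' : (Subgroup.centralizer ({(1 : G)} : Set G)).index = 1 := by
    rw [Subgroup.index_eq_one, Subgroup.centralizer_eq_top_iff_subset]
    intro x hx
    rw [Set.mem_singleton_iff] at hx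
    rw [hx]
    exact one_mem _
  have h1I : (1 : G) ∈ A ∩ B := by
    rw [Finset.mem_inter, hA, hB, Finset.mem_filter, Finset.mem_filter, h1']
    exact ⟨⟨Finset.mem_univ _, fun h => hp.one_lt.ne' (Nat.dvd_one.mp h)⟩,
      ⟨Finset.mem_univ _, fun h => hq.one_lt.ne' (Nat.dvd_one.mp h)⟩⟩
  have h5 := Finset.card_union_add_card_inter A B
  have h6 : 0 < (A ∩ B).card := Finset.card_pos.mpr ⟨1, h1I⟩
  rw [hU, Finset.card_univ] at h5
  omega

end Cfsg.Agent.S4160
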