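import Cfsg.Statements.S4161
import Cfsg.Agent.Lib.H25.ClsGraph4

set_option autoImplicit false
open Cfsg

namespace Cfsg.Agent.S4161

/-- Let G be a finite non-solvable group and p ≠ q primes each dividing the size of some conjugacy class of G. Then either some class size is divisible by pq, or there is a prime r, different from p and q, such that some class size is divisible by pr and some class size is divisible by rq. -/
theorem result {G : Type*} [Group G] [Finite G] (hG : ¬ Group.IsSolvable G)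
    (p q : ℕ) (hp : p.Prime) (hq : q.Prime) (hpq : p ≠ q) (hp' : ∃ x : G, p ∣ (Subgroup.centralizer ({x} : Set G)).index) (hq' : ∃ x : G, q ∣ (Subgroup.centralizer ({x} : Set G)).index) :
    (∃ x : G, p * q ∣ (Subgroup.centralizer ({x} : Set G)).index) ∨ ∃ r : ℕ, r.Prime ∧ r ≠ p ∧ r ≠ q ∧ (∃ x : G, p * r ∣ (Subgroup.centralizer ({x} : Set G)).index) ∧ (∃ y : G, r * q ∣ (Subgroup.centralizer ({y} : Set G)).index) := by
  haveI : Fact p.Prime := ⟨hp⟩
  haveI : Fact q.Prime := ⟨hq⟩
  by_contra hcon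
  rw [not_or] at hcon
  obtain ⟨h1, h2⟩ := hcon
  push Not at h1 h2
  have hmul : ∀ {a b n : ℕ}, a.Prime → b.Prime → a ≠ b → a ∣ n → b ∣ n → a * b ∣ n :=
    fun ha hb hab h h' => Nat.Coprime.mul_dvd_of_dvd_of_dvd
      ((Nat.coprime_primes ha hb).mpr hab) h h'
  refine H25.ClsGraph.main hG hpq hp' hq' ?_ ?_
  · intro x hx
    exact h1 x (hmul hp hq hpq hx.1 hx.2)
  · intro r hr hrp hrq
    by_contra hcon
    rw [not_or] at hcon
    push Not at hcon
    obtain ⟨⟨x, hx1, hx2⟩, ⟨y, hy1, hy2⟩⟩ := hcon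
    exact h2 r hr hrp hrq ⟨x, hmul hp hr hrp.symm hx1 hx2⟩ y (hmul hr hq hrq hy2 hy1)

end Cfsg.Agent.S4161
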