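import Cfsg.Statements.S4168
import Mathlib.GroupTheory.Transfer
import Mathlib.GroupTheory.Perm.Cycle.Type
import Mathlib.Tactic

set_option autoImplicit false
open Cfsg

namespace Cfsg.Agent.S4168

/-- Let L be a finite quasisimple group (perfect with L/Z(L) simple). Then every prime dividing the order of the centre Z(L) also divides the order of L/Z(L). -/
theorem result {L : Type*} [Group L] [Finite L] (hL : Cfsg.IsQuasisimple L)
    (p : ℕ) (hp : p.Prime) (hdiv : p ∣ Nat.card (Subgroup.center L)) : p ∣ (Subgroup.center L).index := by
  classical
  have : Fact p.Prime := ⟨hp⟩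
  have hperf : commutator L = ⊤ := hL.1.commutator_eq_top
  obtain ⟨z, hz⟩ := exists_prime_orderOf_dvd_card' p hdiv
  have hker : commutator L ≤ (MonoidHom.transferCenterPow L).ker := by
    rw [commutator_def, Subgroup.commutator_le]
    intro g _ h _
    rw [MonoidHom.mem_ker, map_commutatorElement, commutatorElement_eq_one_iff_mul_comm]
    exact Subgroup.mem_center_iff.mp ((MonoidHom.transferCenterPow L) h).2 _ |> Subtype.ext
  have hz1 : (MonoidHom.transferCenterPow L) (z : L) = 1 := by
    have : (z : L) ∈ (MonoidHom.transferCenterPow L).ker := hker (by rw [hperf]; trivial)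
    exact this
  have hz2 : (z : L) ^ (Subgroup.center L).index = 1 := by
    have := MonoidHom.transferCenterPow_apply (z : L)
    rw [hz1] at this
    exact this.symm
  have hz3 : z ^ (Subgroup.center L).index = 1 := by
    apply Subtype.ext
    simpa using hz2
  rw [← hz]
  exact orderOf_dvd_of_pow_eq_one hz3

end Cfsg.Agent.S4168
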