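import Cfsg.Statements.S4169
import Cfsg.Agent.Lib.H72.MinClass
import Cfsg.Agent.Lib.H72.PGroupCenter

set_option autoImplicit false
open Cfsg

namespace Cfsg.Agent.S4169

/-- Let P be a finite p-group whose conjugacy classes have exactly two sizes (1 and one other value). Then P has nilpotency class at most 3. -/
theorem result {P : Type*} [Group P] [Finite P] {p : ℕ} [Fact p.Prime] (hP : IsPGroup p P)
    (m : ℕ) (hm : 1 < m) (h : ∀ x : P, (Subgroup.centralizer ({x} : Set P)).index = 1 ∨ (Subgroup.centralizer ({x} : Set P)).index = m) :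
    upperCentralSeries P 3 = ⊤ := by
  classical
  obtain ⟨A, -, hAn, hAc, hAC⟩ := H72.PGroupCenter.exists_self_centralizing hP ⊥ inferInstance
    ⟨⟨fun a b => Subsingleton.elim _ _⟩⟩
  have hmin : ∀ x : P, 1 < (Subgroup.centralizer ({x} : Set P)).index →
      m ≤ (Subgroup.centralizer ({x} : Set P)).index := by
    intro x hx
    rcases h x with h1 | h1
    · omega
    · exact h1.ge
  have h3 := H72.MinClass.upperCentralSeries_three_eq_top A hAc hAC m hmin
  have htop : Subgroup.closure {x : P | (Subgroup.centralizer ({x} : Set P)).index = 1 ∨ (Subgroup.centralizer ({x} : Set P)).index = m} = ⊤ := by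
    rw [eq_top_iff]
    intro x _
    exact Subgroup.subset_closure (h x)
  rw [htop] at h3
  rw [eq_top_iff]
  intro g _
  have h4 := Subgroup.comap_upperCentralSeries (Subgroup.topEquiv (G := P)) 3
  rw [h3] at h4
  have h5 : (Subgroup.topEquiv (G := P)) ⟨g, trivial⟩ ∈ Subgroup.upperCentralSeries P 3 := by
    have h6 : (⟨g, trivial⟩ : (⊤ : Subgroup P)) ∈ (Subgroup.upperCentralSeries P 3).comap (Subgroup.topEquiv (G := P)) := by
      rw [h4]; trivial
    exact h6
  exact h5

end Cfsg.Agent.S4169
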