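import Cfsg.Statements.S4170
import Mathlib.GroupTheory.Sylow
import Mathlib.GroupTheory.PGroup
import Mathlib.GroupTheory.Perm.Basic
import Mathlib.GroupTheory.GroupAction.FixingSubgroup

set_option autoImplicit false
open scoped Pointwise
open Cfsg

namespace Cfsg.Agent.S4170

/-- A `p`-group acting fixes every point of an invariant set with fewer than `p` elements. -/
theorem fix_of_small {G Ω : Type*} [Group G] [Finite Ω] [MulAction G Ω] (p : ℕ) [Fact p.Prime]
    (Q : Subgroup G) (hQ : IsPGroup p Q) [Finite Q] (S : Set Ω) (hS : Nat.card S < p)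
    (hinv : ∀ g ∈ Q, ∀ s ∈ S, g • s ∈ S) : ∀ g ∈ Q, ∀ s ∈ S, g • s = s := by
  intro g hg s hs
  obtain ⟨n, hn⟩ := hQ.card_orbit s
  have hsub : MulAction.orbit Q s ⊆ S := by
    rintro _ ⟨q, rfl⟩
    exact hinv q.1 q.2 s hs
  have hle : Nat.card (MulAction.orbit Q s) ≤ Nat.card S := Nat.card_mono (Set.toFinite S) hsub
  have hn0 : n = 0 := by
    by_contra h
    have : p ≤ p ^ n := Nat.le_self_pow h p
    omega
  rw [hn0, pow_zero] at hn
  have hss := (Nat.card_eq_one_iff_unique.mp hn).1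
  have h1 : (⟨(⟨g, hg⟩ : Q) • s, ⟨⟨g, hg⟩, rfl⟩⟩ : MulAction.orbit Q s) = ⟨s, MulAction.mem_orbit_self s⟩ :=
    Subsingleton.elim _ _
  exact congrArg Subtype.val h1

/-- If `x` of order `p` normalises `K` and lies outside `K`, then `p` divides the index of `K`. -/
theorem dvd_index {G : Type*} [Group G] [Finite G] (p : ℕ) [Fact p.Prime] (K : Subgroup G) (x : G)
    (hx : x ∉ K) (hxp : x ^ p = 1) (hn : x ∈ Subgroup.normalizer (K : Set G)) : p ∣ K.index := by
  set N := Subgroup.normalizer (K : Set G) with hN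
  have hKN : K ≤ N := Subgroup.le_normalizer
  have : (K.subgroupOf N).Normal := by
    rw [hN]; infer_instance
  let xb : N ⧸ K.subgroupOf N := QuotientGroup.mk (⟨x, hn⟩ : N)
  have h1 : orderOf xb = p := by
    apply orderOf_eq_prime
    · change (QuotientGroup.mk ((⟨x, hn⟩ : N) ^ p) : N ⧸ K.subgroupOf N) = 1
      have : (⟨x, hn⟩ : N) ^ p = 1 := Subtype.ext (by simpa using hxp)
      rw [this]; rfl
    · intro h
      rw [QuotientGroup.eq_one_iff] at h
      exact hx (Subgroup.mem_subgroupOf.mp h)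
  have h2 : p ∣ Nat.card (N ⧸ K.subgroupOf N) := by
    rw [← h1]; exact orderOf_dvd_natCard xb
  have h3 : Nat.card (N ⧸ K.subgroupOf N) = K.relIndex N := rfl
  rw [h3] at h2
  exact h2.trans (Subgroup.relIndex_dvd_index_of_le hKN)

/-- Let p be an odd prime and G a nontrivial group of permutations of a finite set Ω that is generated by its elements of p-power order. Then Ω has two disjoint nonempty subsets Δ₁ and Δ₂ such that the index in G of the subgroup of elements mapping Δ₁ onto Δ₁ and Δ₂ onto Δ₂ (and hence also the complement of their union onto itself) is divisible by p. -/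
theorem result {Ω : Type*} [Fintype Ω] (p : ℕ) [Fact p.Prime] (hp : p ≠ 2) (G : Subgroup (Equiv.Perm Ω)) (hG : G ≠ ⊥) (hgen : Subgroup.closure {g : G | ∃ k : ℕ, orderOf g = p ^ k} = ⊤) :
    ∃ Δ₁ Δ₂ : Set Ω, Δ₁.Nonempty ∧ Δ₂.Nonempty ∧ Disjoint Δ₁ Δ₂ ∧ p ∣ (MulAction.stabilizer G Δ₁ ⊓ MulAction.stabilizer G Δ₂).index := by
  classical
  have hpp : p.Prime := Fact.out
  have : Finite Ω := inferInstance
  have : Finite (Equiv.Perm Ω) := inferInstance
  have : Finite G := inferInstance
  -- an element of order p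
  obtain ⟨x, hx⟩ : ∃ x : G, orderOf x = p := by
    have h1 : ∃ g : G, (∃ k : ℕ, orderOf g = p ^ k) ∧ g ≠ 1 := by
      by_contra hcon
      push Not at hcon
      have h2 : (⊤ : Subgroup G) ≤ ⊥ := by
        rw [← hgen, Subgroup.closure_le]
        intro g hg
        exact hcon g hg
      apply hG
      rw [eq_bot_iff]
      intro g hg
      have h3 := h2 (Subgroup.mem_top (⟨g, hg⟩ : G))
      rw [Subgroup.mem_bot] at h3
      exact congrArg Subtype.val h3
    obtain ⟨g, ⟨k, hk⟩, hg1⟩ := h1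
    have hk0 : k ≠ 0 := by
      rintro rfl
      rw [pow_zero, orderOf_eq_one_iff] at hk
      exact hg1 hk
    refine ⟨g ^ (p ^ (k - 1)), ?_⟩
    rw [orderOf_pow_of_dvd (pow_ne_zero _ hpp.ne_zero), hk]
    · rw [Nat.div_eq_iff_eq_mul_left (pow_pos hpp.pos _)]
      · rw [← pow_succ', Nat.sub_add_cancel (Nat.pos_of_ne_zero hk0)]
      · exact pow_dvd_pow p (Nat.sub_le k 1)
    · rw [hk]; exact pow_dvd_pow p (Nat.sub_le k 1)
  have hxp : x ^ p = 1 := by rw [← hx]; exact pow_orderOf_eq_one x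
  have hx1 : x ≠ 1 := by
    rintro rfl
    rw [orderOf_one] at hx
    exact hpp.one_lt.ne hx
  -- a moved point
  obtain ⟨α, hα⟩ : ∃ α : Ω, x • α ≠ α := by
    by_contra hcon
    push Not at hcon
    apply hx1
    apply Subtype.ext
    ext a
    exact hcon a
  let Z : Subgroup G := Subgroup.zpowers x
  have hZp : Nat.card Z = p := by rw [Nat.card_zpowers, hx]
  let A : Set Ω := MulAction.orbit Z α
  have hA : Nat.card A = p := by
    have hZ : IsPGroup p Z := IsPGroup.of_card (n := 1) (by rw [hZp, pow_one])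
    obtain ⟨n, hn⟩ := hZ.card_orbit α
    have hdvd : Nat.card A ∣ p := by
      rw [← hZp]
      have := MulAction.card_orbit_mul_card_stabilizer_eq_card_group Z α
      have h4 : Nat.card (MulAction.orbit Z α) * Nat.card (MulAction.stabilizer Z α) = Nat.card Z := by
        rw [← Nat.card_prod]
        exact Nat.card_congr (MulAction.orbitProdStabilizerEquivGroup Z α)
      exact Dvd.intro _ h4
    rcases (Nat.dvd_prime hpp).mp hdvd with h | h
    · exfalso
      have hss := (Nat.card_eq_one_iff_unique.mp h).1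
      have h1 : (⟨(⟨x, Subgroup.mem_zpowers x⟩ : Z) • α, ⟨⟨x, Subgroup.mem_zpowers x⟩, rfl⟩⟩ : A) = ⟨α, MulAction.mem_orbit_self α⟩ :=
        Subsingleton.elim _ _
      exact hα (congrArg Subtype.val h1)
    · exact h
  have hαA : α ∈ A := MulAction.mem_orbit_self α
  have hxα : x • α ∈ A := ⟨⟨x, Subgroup.mem_zpowers x⟩, rfl⟩
  have hinvA : ∀ s ∈ A, x • s ∈ A := by
    rintro _ ⟨z, rfl⟩
    refine ⟨⟨x, Subgroup.mem_zpowers x⟩ * z, ?_⟩
    simp only [mul_smul]
    rfl
  have hinvA' : ∀ s ∈ A, x⁻¹ • s ∈ A := by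
    rintro _ ⟨z, rfl⟩
    refine ⟨⟨x, Subgroup.mem_zpowers x⟩⁻¹ * z, ?_⟩
    simp only [mul_smul]
    rfl
  refine ⟨{α}, A \ {α}, Set.singleton_nonempty α, ⟨x • α, hxα, hα⟩, disjoint_sdiff_self_right, ?_⟩
  by_contra hnd
  set J : Subgroup G := MulAction.stabilizer G ({α} : Set Ω) ⊓ MulAction.stabilizer G (A \ {α}) with hJ
  -- a Sylow p-subgroup of J
  obtain ⟨P⟩ := (inferInstance : Nonempty (Sylow p J))
  let Q : Subgroup G := (P : Subgroup J).map J.subtype
  have hQp : IsPGroup p Q := P.isPGroup'.map J.subtype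
  have hQi : ¬ p ∣ Q.index := by
    have h1 : Q.index = (P : Subgroup J).index * J.index := Subgroup.index_map_subtype _
    rw [h1, hpp.dvd_mul]
    rintro (h | h)
    · exact P.not_dvd_index h
    · exact hnd h
  -- the pointwise stabiliser of A
  let K : Subgroup G := fixingSubgroup G A
  have hJα : ∀ g ∈ J, g • α = α := by
    intro g hg
    have h1 : g • ({α} : Set Ω) = {α} := hg.1
    rw [Set.smul_set_singleton] at h1
    exact Set.singleton_injective h1
  have hJA : ∀ g ∈ J, ∀ s ∈ A \ {α}, g • s ∈ A \ {α} := by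
    intro g hg s hs
    have h1 : g • (A \ {α}) = A \ {α} := hg.2
    have h2 : g • s ∈ g • (A \ {α}) := Set.smul_mem_smul_set hs
    rwa [h1] at h2
  have hQJ : Q ≤ J := Subgroup.map_subtype_le _
  have hcard : Nat.card (A \ {α} : Set Ω) < p := by
    have h1 : (A \ {α} : Set Ω) ⊂ A := by
      refine ⟨Set.sdiff_subset, fun h => ?_⟩
      exact (h hαA).2 rfl
    have h2 := Set.ncard_lt_ncard h1 (Set.toFinite A)
    rw [← Nat.card_coe_set_eq, ← Nat.card_coe_set_eq, hA] at h2
    exact h2
  have hQK : Q ≤ K := by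
    intro g hg
    rw [mem_fixingSubgroup_iff]
    intro s hs
    by_cases hsα : s = α
    · rw [hsα]; exact hJα g (hQJ hg)
    · exact fix_of_small p Q hQp (A \ {α}) hcard (fun g hg s hs => hJA g (hQJ hg) s hs) g hg s ⟨hs, hsα⟩
  have hKi : ¬ p ∣ K.index := fun h => hQi (h.trans (Subgroup.index_dvd_of_le hQK))
  apply hKi
  apply dvd_index p K x
  · intro h
    exact hα ((mem_fixingSubgroup_iff G).mp h α hαA)
  · exact hxp
  · rw [Subgroup.mem_normalizer_iff]
    intro g
    constructor
    · intro hg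
      show x * g * x⁻¹ ∈ K
      rw [mem_fixingSubgroup_iff]
      intro s hs
      have h1 : g • (x⁻¹ • s) = x⁻¹ • s := (mem_fixingSubgroup_iff G).mp hg _ (hinvA' s hs)
      rw [mul_smul, mul_smul, h1, smul_inv_smul]
    · intro hg
      show g ∈ K
      rw [mem_fixingSubgroup_iff]
      intro s hs
      have h1 : (x * g * x⁻¹) • (x • s) = x • s := (mem_fixingSubgroup_iff G).mp hg _ (hinvA s hs)
      rw [mul_smul, inv_smul_smul, mul_smul] at h1
      exact smul_left_cancel x h1

end Cfsg.Agent.S4170
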