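import Cfsg.Statements.S4176
import Cfsg.Agent.Lib.H72.SpanOrbit
import Cfsg.Agent.Lib.H65.PSolHall
import Cfsg.Agent.Lib.H37.PSolv

set_option autoImplicit false
open Cfsg

namespace Cfsg.Agent.S4176

open H72.SpanOrbit in
/-- arithmetic and span facts for a `p`-complement `K` of `H` -/
theorem span_facts {k V H : Type*} [Field k] [AddCommGroup V] [Module k V]
    [Group H] [Finite H] (ρ : Representation k H V) (a : V)
    (hspan : Submodule.span k {u : V | ∃ h : H, ρ h a = u} = ⊤) (K : Subgroup H)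
    (hK : (Nat.card K : k) ≠ 0) (hidx : ((stab ρ a).index : k) ≠ 0)
    (hcop : (stab ρ a).index.Coprime K.index) :
    ∃ c : V, (∀ h : H, ρ h c = c) ∧ ∀ v : V, (∀ x ∈ K, ρ x v = v) → ∃ l : k, v = l • c := by
  classical
  have : Fintype H := Fintype.ofFinite H
  set A := stab ρ a with hA
  have : Fintype (H ⧸ A) := Fintype.ofFinite _
  let φ : H ⧸ A → V := Quotient.lift (fun h => ρ h a) (by
    intro x y hxy
    have h1 : x⁻¹ * y ∈ A := QuotientGroup.leftRel_apply.mp hxy
    rw [hA, mem_stab, map_mul, Module.End.mul_apply] at h1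
    show ρ x a = ρ y a
    nth_rewrite 1 [← h1]
    rw [← Module.End.mul_apply, ← map_mul, mul_inv_cancel, map_one, Module.End.one_apply])
  have hφ : ∀ h : H, φ (QuotientGroup.mk h) = ρ h a := fun h => rfl
  set c := ∑ q : H ⧸ A, φ q with hc
  have hcfix : ∀ h : H, ρ h c = c := by
    intro h
    rw [hc, map_sum]
    refine Fintype.sum_equiv (MulAction.toPerm h) _ _ ?_
    intro q
    obtain ⟨g, rfl⟩ := QuotientGroup.mk_surjective q
    show ρ h (ρ g a) = ρ (h * g) a
    rw [map_mul, Module.End.mul_apply]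
  have hKa : ∀ h : H, sumB ρ K (ρ h a) = sumB ρ K a := by
    intro h
    obtain ⟨y, hy, z, hz, rfl⟩ := H72.CoprimeIndex.exists_mul_of_coprime_index A K hcop h
    rw [map_mul, Module.End.mul_apply, (mem_stab ρ a z).mp hz, sumB_smul ρ K y hy]
  have h1 : sumB ρ K c = (A.index : k) • sumB ρ K a := by
    rw [hc, map_sum]
    have : ∀ q : H ⧸ A, sumB ρ K (φ q) = sumB ρ K a := by
      intro q
      obtain ⟨g, rfl⟩ := QuotientGroup.mk_surjective q
      rw [hφ, hKa]
    rw [Finset.sum_congr rfl (fun q _ => this q), Finset.sum_const, Finset.card_univ,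
      ← Nat.cast_smul_eq_nsmul k, Subgroup.index_eq_card, Nat.card_eq_fintype_card]
  have h2 : sumB ρ K c = (Fintype.card K : k) • c := sumB_of_fixed ρ K c (fun x _ => hcfix x)
  have hKF : (Fintype.card K : k) ≠ 0 := by rw [← Nat.card_eq_fintype_card]; exact hK
  have h3 : sumB ρ K a = ((A.index : k)⁻¹ * (Fintype.card K : k)) • c := by
    rw [mul_smul, ← h2, h1, smul_smul, inv_mul_cancel₀ hidx, one_smul]
  refine ⟨c, hcfix, ?_⟩
  intro v hv
  have hvs : v ∈ Submodule.span k {u : V | ∃ h : H, ρ h a = u} := by rw [hspan]; trivial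
  have h4 : sumB ρ K v ∈ Submodule.span k {sumB ρ K a} := by
    have h5 : sumB ρ K v ∈ (Submodule.span k {u : V | ∃ h : H, ρ h a = u}).map (sumB ρ K) :=
      ⟨v, hvs, rfl⟩
    rw [Submodule.map_span] at h5
    refine Submodule.span_mono ?_ h5
    rintro _ ⟨u, ⟨h, rfl⟩, rfl⟩
    rw [Set.mem_singleton_iff]
    exact hKa h
  rw [sumB_of_fixed ρ K v hv] at h4
  obtain ⟨l, hl⟩ := Submodule.mem_span_singleton.mp h4
  refine ⟨(Fintype.card K : k)⁻¹ * (l * ((A.index : k)⁻¹ * (Fintype.card K : k))), ?_⟩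
  rw [mul_smul, mul_smul, ← h3, hl, smul_smul, inv_mul_cancel₀ hKF, one_smul]

open H72.SpanOrbit in
theorem part2 {k V H : Type*} [Field k] [AddCommGroup V] [Module k V]
    [Group H] [Finite H] (ρ : Representation k H V) (a : V)
    (hspan : Submodule.span k {u : V | ∃ h : H, ρ h a = u} = ⊤) (K : Subgroup H)
    (hK : (Nat.card K : k) ≠ 0)
    (hcop : (stab ρ a).index.Coprime K.index) (b : V)
    (hb : (stab ρ a).index.Coprime ((stab ρ b).relIndex K)) : ∀ x ∈ K, ρ x b = b := by
  let σ : Representation k K V := ρ.comp K.subtype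
  have hσ : ∀ (x : K) (v : V), σ x v = ρ (x : H) v := fun x v => rfl
  have hspan' : Submodule.span k {u : V | ∃ h : K, σ h a = u} = ⊤ := by
    rw [eq_top_iff, ← hspan]
    apply Submodule.span_mono
    rintro _ ⟨h, rfl⟩
    obtain ⟨y, hy, z, hz, rfl⟩ := H72.CoprimeIndex.exists_mul_of_coprime_index (stab ρ a) K hcop h
    refine ⟨⟨y, hy⟩, ?_⟩
    rw [hσ, map_mul, Module.End.mul_apply, (mem_stab ρ a z).mp hz]
  have h1 : (stab σ a).index = (stab ρ a).index := by
    have : stab σ a = (stab ρ a).subgroupOf K := by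
      ext x; rfl
    rw [this]
    exact H72.CoprimeIndex.relIndex_eq_of_coprime _ _ hcop
  have h2 : (stab σ b).index = (stab ρ b).relIndex K := by
    have : stab σ b = (stab ρ b).subgroupOf K := by
      ext x; rfl
    rw [this]
    rfl
  obtain ⟨-, h3⟩ := H72.SpanOrbit.main hK σ a hspan'
  intro x hx
  exact h3 b (by rw [h1, h2]; exact hb) ⟨x, hx⟩


/-- Let k be a field of prime characteristic p, H a finite p-soluble group and ρ a k-linear representation of H on V. Let a be a vector that is fixed by some Sylow p-subgroup of H and whose H-orbit spans V. Then the space of H-fixed vectors has dimension at most 1, and every vector b whose H-orbit has size coprime to the size of the orbit of a is fixed by H. -/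
theorem result {k V H : Type*} [Field k] (p : ℕ) [Fact p.Prime] [CharP k p] [AddCommGroup V] [Module k V]
    [Group H] [Finite H] (hsol : Cfsg.IsPSolvable p H) (ρ : Representation k H V) (a : V)
    (hfix : ∃ P : Sylow p H, ∀ x : H, x ∈ (P : Subgroup H) → ρ x a = a)
    (hspan : Submodule.span k {u : V | ∃ h : H, ρ h a = u} = ⊤) :
    Module.finrank k ρ.invariants ≤ 1 ∧
    ∀ b : V, (Nat.card {u : V | ∃ h : H, ρ h a = u}).Coprime (Nat.card {u : V | ∃ h : H, ρ h b = u}) → ∀ h : H, ρ h b = b := by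
  have hp : p.Prime := Fact.out
  have hcharp : ∀ n : ℕ, n.Coprime p → (n : k) ≠ 0 := by
    intro n hn h0
    have h1 : p ∣ n := (CharP.cast_eq_zero_iff k p n).mp h0
    exact hp.one_lt.ne' (Nat.eq_one_of_dvd_coprimes hn h1 dvd_rfl)
  obtain ⟨P, hP⟩ := hfix
  have hAidx : (H72.SpanOrbit.stab ρ a).index.Coprime p := by
    apply Nat.Coprime.symm
    rw [Nat.Prime.coprime_iff_not_dvd hp]
    intro h
    have h1 : (P : Subgroup H) ≤ H72.SpanOrbit.stab ρ a := fun x hx => hP x hx
    exact P.not_dvd_index (h.trans (Subgroup.index_dvd_of_le h1))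
  have hHall := H65.PSolHall.main hsol
  have hcopK : ∀ K : Subgroup H, H65.PSolHall.IsComp p K →
      (H72.SpanOrbit.stab ρ a).index.Coprime K.index := by
    rintro K ⟨_, n, hn⟩
    rw [hn]
    exact Nat.Coprime.pow_right n hAidx
  constructor
  · obtain ⟨K, hK, -⟩ := hHall.1 ⊥ (by rw [Subgroup.card_bot]; exact Nat.coprime_one_left p)
    obtain ⟨c, hc, hcv⟩ := span_facts ρ a hspan K (hcharp _ hK.1) (hcharp _ hAidx) (hcopK K hK)
    apply finrank_le_one (⟨c, hc⟩ : ρ.invariants)
    rintro ⟨v, hv⟩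
    obtain ⟨l, hl⟩ := hcv v (fun x _ => hv x)
    exact ⟨l, Subtype.ext hl.symm⟩
  · intro b hb
    rw [← H72.SpanOrbit.index_stab, ← H72.SpanOrbit.index_stab] at hb
    set B := H72.SpanOrbit.stab ρ b with hB
    -- a Hall subgroup of `B`
    obtain ⟨L', hL', -⟩ := (H65.PSolHall.main (H37.PSolv.subgroup hsol B)).1 ⊥
      (by rw [Subgroup.card_bot]; exact Nat.coprime_one_left p)
    have hLcard : Nat.card (L'.map B.subtype) = Nat.card L' :=
      Nat.card_congr (Subgroup.equivMapOfInjective L' B.subtype (Subgroup.subtype_injective _)).toEquiv.symm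
    obtain ⟨K, hK, hLK⟩ := hHall.1 (L'.map B.subtype) (by rw [hLcard]; exact hL'.1)
    have hLB : L'.map B.subtype ≤ B := Subgroup.map_subtype_le L'
    obtain ⟨hL1, l, hl⟩ := hL'
    obtain ⟨hK1, n, hn⟩ := id hK
    have hdvd : B.relIndex K ∣ B.index := by
      have e1 : Nat.card L' * p ^ l = Nat.card B := by rw [← hl]; exact Subgroup.card_mul_index L'
      have e2 : Nat.card K * p ^ n = Nat.card H := by rw [← hn]; exact Subgroup.card_mul_index K
      have e3 : Nat.card B * B.index = Nat.card H := Subgroup.card_mul_index B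
      have e4 : Nat.card (B ⊓ K : Subgroup H) * B.relIndex K = Nat.card K := by
        rw [← Subgroup.inf_relIndex_right B K, ← Subgroup.relIndex_bot_left (B ⊓ K),
          Subgroup.relIndex_mul_relIndex _ _ _ bot_le inf_le_right, Subgroup.relIndex_bot_left]
      have e5 : Nat.card L' ∣ Nat.card (B ⊓ K : Subgroup H) := by
        rw [← hLcard]; exact Subgroup.card_dvd_of_le (le_inf hLB hLK)
      obtain ⟨m, hm⟩ := e5
      have hcopr : (B.relIndex K).Coprime (p ^ l) := by
        apply Nat.Coprime.pow_right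
        refine Nat.Coprime.of_dvd_left ?_ hK1
        exact ⟨Nat.card (B ⊓ K : Subgroup H), by rw [mul_comm]; exact e4.symm⟩
      refine hcopr.dvd_of_dvd_mul_right ?_
      -- |B:..| p^l B.index = m * relIndex * p ^ n
      refine ⟨m * p ^ n, ?_⟩
      have hLpos : 0 < Nat.card L' := Nat.card_pos
      apply Nat.eq_of_mul_eq_mul_left hLpos
      calc Nat.card L' * (B.index * p ^ l) = (Nat.card L' * p ^ l) * B.index := by ring
        _ = Nat.card K * p ^ n := by rw [e1, e3, e2]
        _ = Nat.card L' * (B.relIndex K * (m * p ^ n)) := by rw [← e4, hm]; ring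
    have hbK := part2 ρ a hspan K (hcharp _ hK1) (hcopK K hK) b (Nat.Coprime.of_dvd_right hdvd hb)
    obtain ⟨c, hc, hcv⟩ := span_facts ρ a hspan K (hcharp _ hK1) (hcharp _ hAidx) (hcopK K hK)
    obtain ⟨l', hl'⟩ := hcv b hbK
    intro h
    rw [hl', map_smul, hc]

end Cfsg.Agent.S4176
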