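import Cfsg.Statements.S4178
import Mathlib.GroupTheory.Index
import Mathlib.LinearAlgebra.FiniteDimensional.Lemmas
import Mathlib.Tactic

set_option autoImplicit false
open Cfsg

namespace Cfsg.Agent.S4178

open Subgroup

/-- If `K` contains the stabilizer of a nonzero vector of a finite module `W` then `|H:K| ≤ |W| - 1`. -/
theorem index_le {H W : Type*} [Group H] [AddCommGroup W] [Finite W] (φ : H → W → W)
    (hmul : ∀ x y w, φ (x * y) w = φ x (φ y w)) (hone : ∀ w, φ 1 w = w)
    (hzero : ∀ x, φ x 0 = 0) (K : Subgroup H) (w : W) (hw : w ≠ 0)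
    (hK : ∀ h : H, φ h w = w → h ∈ K) : K.index ≤ Nat.card W - 1 := by
  classical
  have hinv : ∀ x w, φ x⁻¹ (φ x w) = w := by
    intro x w
    rw [← hmul, inv_mul_cancel, hone]
  have hne : ∀ x, φ x w ≠ 0 := by
    intro x h0
    apply hw
    rw [← hinv x w, h0, hzero]
  -- surjection from orbit to H/K ; injection H/K → orbit by choosing representatives
  let f : H ⧸ K → {u : W // u ≠ 0} := fun q => ⟨φ q.out w, hne _⟩
  have hf : Function.Injective f := by
    intro a b hab
    have h1 : φ a.out w = φ b.out w := congrArg Subtype.val hab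
    have h2 : φ (a.out⁻¹ * b.out) w = w := by
      rw [hmul, ← h1, hinv]
    have h3 := hK _ h2
    rw [← QuotientGroup.out_eq' a, ← QuotientGroup.out_eq' b, QuotientGroup.eq]
    exact h3
  have h4 := Nat.card_le_card_of_injective f hf
  have h5 : Nat.card {u : W // u ≠ 0} = Nat.card W - 1 := by
    have : Fintype W := Fintype.ofFinite W
    rw [Nat.card_eq_fintype_card, Nat.card_eq_fintype_card, Fintype.card_subtype_compl (p := fun x : W => x = 0)]
    simp
  rw [h5] at h4
  exact h4

/-- Let F be a finite field with q elements, V a non-zero finite-dimensional F-space of dimension d, H a group of invertible linear maps of V, and R the subgroup of H generated by the elements of H that fix some non-zero vector (have eigenvalue 1). Then the index of R in H is at most q^d − 1; and if H leaves invariant some proper non-zero subspace, the index is at most q^(d/2) − 1. -/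
theorem result {F V : Type*} [Field F] [Fintype F] [AddCommGroup V] [Module F V] [FiniteDimensional F V] [Nontrivial V]
    (H : Subgroup (V ≃ₗ[F] V)) :
    (Subgroup.closure {h : ↥H | ∃ v : V, v ≠ 0 ∧ (h : V ≃ₗ[F] V) v = v}).index ≤ Fintype.card F ^ Module.finrank F V - 1 ∧
    ((∃ W : Submodule F V, W ≠ ⊥ ∧ W ≠ ⊤ ∧ ∀ h ∈ H, ∀ w ∈ W, h w ∈ W) →
      ((Subgroup.closure {h : ↥H | ∃ v : V, v ≠ 0 ∧ (h : V ≃ₗ[F] V) v = v}).index : ℝ) ≤ Real.sqrt ((Fintype.card F : ℝ) ^ Module.finrank F V) - 1) := by
  classical
  have : Finite V := Module.finite_of_finite F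
  have hcard : ∀ (W : Type _) [AddCommGroup W] [Module F W] [FiniteDimensional F W],
      Nat.card W = Fintype.card F ^ Module.finrank F W := by
    intro W _ _ _
    rw [Module.natCard_eq_pow_finrank (K := F) (V := W), Nat.card_eq_fintype_card]
  set R := Subgroup.closure {h : ↥H | ∃ v : V, v ≠ 0 ∧ (h : V ≃ₗ[F] V) v = v} with hR
  constructor
  · obtain ⟨v, hv⟩ := exists_ne (0 : V)
    rw [← hcard V]
    refine index_le (fun (h : H) (w : V) => (h : V ≃ₗ[F] V) w) ?_ ?_ ?_ R v hv ?_
    · intro x y w; rfl
    · intro w; rfl
    · intro x; exact map_zero _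
    · intro h hh
      exact Subgroup.subset_closure ⟨v, hv, hh⟩
  · rintro ⟨W, hW1, hW2, hinv⟩
    have hfr : Module.finrank F (V ⧸ W) + Module.finrank F W = Module.finrank F V :=
      Submodule.finrank_quotient_add_finrank W
    have hq1 : 1 ≤ Fintype.card F := Fintype.card_pos
    -- it suffices to have index ≤ q^k - 1 with 2k ≤ d
    have hfinish : ∀ k : ℕ, 2 * k ≤ Module.finrank F V → R.index ≤ Fintype.card F ^ k - 1 →
        (R.index : ℝ) ≤ Real.sqrt ((Fintype.card F : ℝ) ^ Module.finrank F V) - 1 := by
      intro k hk hi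
      have h1 : R.index + 1 ≤ Fintype.card F ^ k := by
        have : 1 ≤ Fintype.card F ^ k := Nat.one_le_pow _ _ hq1
        omega
      have h2 : ((R.index : ℝ) + 1) ≤ (Fintype.card F : ℝ) ^ k := by exact_mod_cast h1
      have h3 : (Fintype.card F : ℝ) ^ k ≤ Real.sqrt ((Fintype.card F : ℝ) ^ Module.finrank F V) := by
        apply Real.le_sqrt_of_sq_le
        rw [← pow_mul, mul_comm]
        exact pow_le_pow_right₀ (by exact_mod_cast hq1) hk
      linarith
    by_cases hle : 2 * Module.finrank F W ≤ Module.finrank F V
    · apply hfinish _ hle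
      obtain ⟨w, hwW, hw0⟩ := (Submodule.ne_bot_iff W).mp hW1
      rw [← hcard W]
      refine index_le (fun (h : H) (w : W) => (⟨(h : V ≃ₗ[F] V) w, hinv h h.2 w w.2⟩ : W)) ?_ ?_ ?_ R ⟨w, hwW⟩ ?_ ?_
      · intro x y w; rfl
      · intro w; rfl
      · intro x; apply Subtype.ext; exact map_zero _
      · intro h; exact hw0 (congrArg Subtype.val h)
      · intro h hh
        exact Subgroup.subset_closure ⟨w, hw0, congrArg Subtype.val hh⟩
    · have hle' : 2 * Module.finrank F (V ⧸ W) ≤ Module.finrank F V := by omega
      apply hfinish _ hle'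
      have hmap : ∀ h : H, W ≤ W.comap ((h : V ≃ₗ[F] V) : V →ₗ[F] V) := fun h w hw => hinv h h.2 w hw
      have hntq : ∃ v : V, v ∉ W := by
        by_contra hcon
        push Not at hcon
        exact hW2 (eq_top_iff.mpr fun v _ => hcon v)
      obtain ⟨v, hv⟩ := hntq
      rw [← hcard (V ⧸ W)]
      have : Finite (V ⧸ W) := Quotient.finite _
      refine index_le (fun (h : H) (w : V ⧸ W) => W.mapQ W ((h : V ≃ₗ[F] V) : V →ₗ[F] V) (hmap h) w) ?_ ?_ ?_ R (W.mkQ v) ?_ ?_
      · intro x y w
        obtain ⟨w, rfl⟩ := W.mkQ_surjective w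
        rfl
      · intro w
        obtain ⟨w, rfl⟩ := W.mkQ_surjective w
        rfl
      · intro x; exact map_zero _
      · intro h
        apply hv
        exact (Submodule.Quotient.mk_eq_zero W).mp h
      · intro h hh
        apply Subgroup.subset_closure
        -- h has a nonzero fixed vector on V: otherwise h - 1 is injective, hence surjective on V, and W = (h-1) W
        by_contra hcon
        have hcon' : ∀ v : V, (h : V ≃ₗ[F] V) v = v → v = 0 := by
          intro v hv2
          by_contra hv3
          exact hcon ⟨v, hv3, hv2⟩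
        let T : V →ₗ[F] V := ((h : V ≃ₗ[F] V) : V →ₗ[F] V) - LinearMap.id
        have hT : ∀ v, T v = (h : V ≃ₗ[F] V) v - v := fun v => rfl
        have hTinj : Function.Injective T := by
          rw [injective_iff_map_eq_zero]
          intro v hv2
          rw [hT, sub_eq_zero] at hv2
          exact hcon' v hv2
        -- T restricts to W injectively so surjectively
        let TW : W →ₗ[F] W := T.restrict (p := W) (q := W) (fun w hw => W.sub_mem (hinv h h.2 w hw) hw)
        have hTWinj : Function.Injective TW := by
          intro a b hab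
          apply Subtype.ext
          apply hTinj
          exact congrArg Subtype.val hab
        have hTWsurj := LinearMap.injective_iff_surjective.mp hTWinj
        -- h v - v ∈ W
        have hmem : T v ∈ W := by
          have h1 : W.mkQ ((h : V ≃ₗ[F] V) v) = W.mkQ v := hh
          rw [hT, ← Submodule.Quotient.mk_eq_zero W]
          have h2 : W.mkQ ((h : V ≃ₗ[F] V) v - v) = 0 := by
            rw [map_sub, h1, sub_self]
          exact h2
        obtain ⟨w, hw⟩ := hTWsurj ⟨T v, hmem⟩
        have h3 : T (w : V) = T v := congrArg Subtype.val hw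
        apply hv
        rw [← hTinj h3]
        exact w.2

end Cfsg.Agent.S4178
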