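import Cfsg.Statements.S4181
import Cfsg.Agent.Lib.H29.SylNum

set_option autoImplicit false
open Cfsg

namespace Cfsg.Agent.S4181

open H29.SylNum in
/-- Let p be a prime and G a finite group generated by its elements of p-power order, and let H be a proper subgroup of G containing a Sylow p-subgroup of G. Then 2p − 1 times the number of Sylow p-subgroups of H is at most p − 1 times the number of Sylow p-subgroups of G. -/
theorem result {G : Type*} [Group G] [Finite G] (p : ℕ) [Fact p.Prime] (hgen : Subgroup.closure {g : G | ∃ k : ℕ, orderOf g = p ^ k} = ⊤)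
    (H : Subgroup G) (hH : H ≠ ⊤) (P : Sylow p G) (hP : (P : Subgroup G) ≤ H) :
    (2 * p - 1) * Nat.card (Sylow p ↥H) ≤ (p - 1) * Nat.card (Sylow p G) := by
  have hpp : p.Prime := Fact.out
  have hG : res p (⊤ : Subgroup G) = ⊤ := by
    unfold res
    simpa using hgen
  have hHi : ¬ p ∣ H.index := not_dvd_of_sylow_le p P hP
  have hM : Good p ⊤ (res p H) := by
    refine ⟨le_top, ?_, res_res p H, res_index p hHi⟩
    intro h
    apply hH
    rw [eq_top_iff, ← h]
    exact res_le p H
  have h1 := sylow_count p hG hM
  have h2 : Nat.card (Sylow p H) ≤ Nat.card {Q : Sylow p G // (Q : Subgroup G) ≤ res p H} := by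
    have hQi : ∀ R : Sylow p H, ¬ p ∣ ((R : Subgroup H).map H.subtype).index := by
      intro R
      rw [Subgroup.index_map_subtype, hpp.dvd_mul]
      rintro (h | h)
      · exact R.not_dvd_index h
      · exact hHi h
    let f : Sylow p H → {Q : Sylow p G // (Q : Subgroup G) ≤ res p H} := fun R =>
      ⟨(R.isPGroup'.map H.subtype).toSylow (hQi R), by
        rw [sylow_le_res]
        exact Subgroup.map_subtype_le _⟩
    apply Nat.card_le_card_of_injective f
    intro R R' h
    have h3 : (R : Subgroup H).map H.subtype = (R' : Subgroup H).map H.subtype :=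
      congrArg (fun Q : {Q : Sylow p G // (Q : Subgroup G) ≤ res p H} => ((Q.1 : Sylow p G) : Subgroup G)) h
    apply Sylow.ext
    exact Subgroup.map_injective H.subtype_injective h3
  have h3 : ((2 * p - 1 : ℕ) : ℤ) = 2 * (p : ℤ) - 1 := by
    rw [Nat.cast_sub (by have := hpp.pos; omega)]; simp
  have h4 : ((p - 1 : ℕ) : ℤ) = (p : ℤ) - 1 := by
    rw [Nat.cast_sub hpp.pos]; simp
  zify
  rw [h3, h4]
  refine le_trans ?_ h1
  apply mul_le_mul_of_nonneg_left
  · exact_mod_cast h2
  · have : (2 : ℤ) ≤ p := by exact_mod_cast hpp.two_le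
    linarith

end Cfsg.Agent.S4181
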