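import Cfsg.Statements.S4184
import Cfsg.Agent.Lib.H72.ClassSize

set_option autoImplicit false
open Cfsg

namespace Cfsg.Agent.S4184

open Subgroup H72.ClassSize

/-- `n` has full `p`-part (compared to `m`) for all primes `p ∈ A` -/
def Full (m : ℕ) (A : Set ℕ) (n : ℕ) : Prop :=
  ∀ p ∈ A, p.Prime → m.factorization p ≤ n.factorization p

theorem Full.of_dvd {m : ℕ} {A : Set ℕ} {n n' : ℕ} (h : Full m A n) (hd : n ∣ n') (hn' : n' ≠ 0) :
    Full m A n' := by
  intro p hp hpp
  exact (h p hp hpp).trans ((Nat.factorization_le_iff_dvd (ne_zero_of_dvd_ne_zero hn' hd) hn').mpr hd p)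

/-- a nontrivial element of the centre of a Sylow subgroup -/
theorem exists_central {G : Type*} [Group G] [Finite G] {p : ℕ} [Fact p.Prime] (P : Subgroup G)
    (hP : IsPGroup p P) (hne : P ≠ ⊥) : ∃ z ∈ P, z ≠ 1 ∧ ∀ y ∈ P, z * y = y * z := by
  have : Nontrivial P := (Subgroup.nontrivial_iff_ne_bot P).mpr hne
  have h1 : Nontrivial (center P) := hP.center_nontrivial
  obtain ⟨z, hz⟩ := exists_ne (1 : center P)
  refine ⟨z, z.1.2, ?_, ?_⟩
  · intro h
    apply hz
    apply Subtype.ext
    apply Subtype.ext
    exact h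
  · intro y hy
    have h2 := Subgroup.mem_center_iff.mp z.2 ⟨y, hy⟩
    exact (congrArg Subtype.val h2).symm

theorem main {G : Type*} [Group G] [Finite G] (m : ℕ) (A : Set ℕ)
    (H1 : ∀ g : G, g ≠ 1 → Full m A (centralizer ({g} : Set G)).index ∨
      Full m Aᶜ (centralizer ({g} : Set G)).index)
    (H2 : ∀ g : G, ¬ (Full m A (centralizer ({g} : Set G)).index ∧
      Full m Aᶜ (centralizer ({g} : Set G)).index))
    (H3 : ∀ g : G, ∀ p : ℕ, (centralizer ({g} : Set G)).index.factorization p ≤ m.factorization p)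
    (r : ℕ) (hr : r.Prime) (hrA : r ∉ A) (hrm : 0 < m.factorization r)
    (hrG : r ∣ Nat.card G)
    (p : ℕ) (hp : p.Prime) (hpA : p ∈ A) (hpm : 0 < m.factorization p) :
    (Nat.card G).factorization p ≤ m.factorization p := by
  classical
  by_contra hlt
  push Not at hlt
  have : Fact p.Prime := ⟨hp⟩
  have : Fact r.Prime := ⟨hr⟩
  have hpr : p ≠ r := by rintro rfl; exact hrA hpA
  have hcardidx : ∀ g : G, ∀ q : ℕ, (Nat.card (centralizer ({g} : Set G))).factorization q +
      (centralizer ({g} : Set G)).index.factorization q = (Nat.card G).factorization q := by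
    intro g q
    rw [← Subgroup.card_mul_index (centralizer ({g} : Set G)),
      Nat.factorization_mul Nat.card_pos.ne' (index_ne_zero g), Finsupp.add_apply]
  -- w central in a Sylow r-subgroup
  obtain ⟨R⟩ : Nonempty (Sylow r G) := inferInstance
  have hRne : (R : Subgroup G) ≠ ⊥ := R.ne_bot_of_dvd_card hrG
  obtain ⟨w, hwR, hw1, hwc⟩ := exists_central (R : Subgroup G) R.2 hRne
  have hwA : Full m A (centralizer ({w} : Set G)).index := by
    rcases H1 w hw1 with h | h
    · exact h
    · exfalso
      have h1 := h r hrA hr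
      have h2 : ¬ r ∣ (centralizer ({w} : Set G)).index := by
        rw [not_dvd_index_iff]
        exact ⟨R, fun y hy => mem_cent_of_comm (hwc y hy).symm⟩
      rw [Nat.factorization_eq_zero_of_not_dvd h2] at h1
      omega
  have hwp : (centralizer ({w} : Set G)).index.factorization p = m.factorization p :=
    le_antisymm (H3 w p) (hwA p hpA hp)
  -- Sylow p-subgroup of C(w)
  obtain ⟨P0⟩ : Nonempty (Sylow p (centralizer ({w} : Set G))) := inferInstance
  let P1 : Subgroup G := (P0 : Subgroup _).map (centralizer ({w} : Set G)).subtype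
  have hP1 : IsPGroup p P1 := P0.2.map _
  have hP1card : Nat.card P1 = p ^ (Nat.card (centralizer ({w} : Set G))).factorization p := by
    have h1 : Nat.card P0 = p ^ (Nat.card (centralizer ({w} : Set G))).factorization p :=
      Sylow.card_eq_multiplicity P0
    rw [← h1]
    exact Nat.card_congr (Subgroup.equivMapOfInjective (P0 : Subgroup (centralizer ({w} : Set G)))
        (centralizer ({w} : Set G)).subtype (Subgroup.subtype_injective _)).toEquiv.symm
  have hP1w : P1 ≤ centralizer ({w} : Set G) := by
    rintro _ ⟨y, _, rfl⟩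
    exact y.2
  have hcw := hcardidx w p
  have hP1ne : P1 ≠ ⊥ := by
    intro h0
    rw [h0, Subgroup.card_bot] at hP1card
    have h1 : 0 < (Nat.card (centralizer ({w} : Set G))).factorization p := by omega
    have h2 : 1 < p ^ (Nat.card (centralizer ({w} : Set G))).factorization p :=
      Nat.one_lt_pow h1.ne' hp.one_lt
    omega
  obtain ⟨u, huP1, hu1, huc⟩ := exists_central P1 hP1 hP1ne
  -- orders
  have hpow : ∀ {q : ℕ} {Q : Subgroup G}, IsPGroup q Q → ∀ y ∈ Q, ∃ k, orderOf y ∣ q ^ k := by
    intro q Q hQ y hy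
    obtain ⟨k, hk⟩ := hQ ⟨y, hy⟩
    refine ⟨k, orderOf_dvd_of_pow_eq_one ?_⟩
    have := congrArg Subtype.val hk
    simpa using this
  have hcop : ∀ y ∈ P1, (orderOf y).Coprime (orderOf w) := by
    intro y hy
    obtain ⟨k, hk⟩ := hpow hP1 y hy
    obtain ⟨l, hl⟩ := hpow R.2 w hwR
    exact Nat.Coprime.of_dvd hk hl (Nat.Coprime.pow k l ((Nat.coprime_primes hp hr).mpr hpr))
  -- products y * w for y ∈ P1 have class size divisible by both class sizes
  have hdvd : ∀ y ∈ P1, (centralizer ({y} : Set G)).index ∣ (centralizer ({y * w} : Set G)).index ∧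
      (centralizer ({w} : Set G)).index ∣ (centralizer ({y * w} : Set G)).index := by
    intro y hy
    have hcom : y * w = w * y := mem_cent_comm (hP1w hy)
    have h1 := cent_mul_of_coprime hcom (hcop y hy)
    rw [h1]
    exact ⟨Subgroup.index_dvd_of_le inf_le_left, Subgroup.index_dvd_of_le inf_le_right⟩
  have hnotAc : ∀ y ∈ P1, ¬ Full m Aᶜ (centralizer ({y} : Set G)).index := by
    intro y hy h
    apply H2 (y * w)
    exact ⟨hwA.of_dvd (hdvd y hy).2 (index_ne_zero _), h.of_dvd (hdvd y hy).1 (index_ne_zero _)⟩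
  have huA : Full m A (centralizer ({u} : Set G)).index := by
    rcases H1 u hu1 with h | h
    · exact h
    · exact absurd h (hnotAc u huP1)
  have hup : (centralizer ({u} : Set G)).index.factorization p = m.factorization p :=
    le_antisymm (H3 u p) (huA p hpA hp)
  have hcu := hcardidx u p
  -- P1 is a Sylow p-subgroup of C(u)
  have hcard_eq : (Nat.card (centralizer ({u} : Set G))).factorization p =
      (Nat.card (centralizer ({w} : Set G))).factorization p := by omega
  obtain ⟨P, hP⟩ := hP1.exists_le_sylow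
  have hPne : (P : Subgroup G) ≠ ⊥ := by
    intro h0
    rw [h0, le_bot_iff] at hP
    exact hP1ne hP
  obtain ⟨z, hzP, hz1, hzc⟩ := exists_central (P : Subgroup G) P.2 hPne
  -- P1 ⊔ zpowers z ≤ C(u) is a p-group
  have hsupP : P1 ⊔ zpowers z ≤ (P : Subgroup G) := sup_le hP (by rw [Subgroup.zpowers_le]; exact hzP)
  have hsupu : P1 ⊔ zpowers z ≤ centralizer ({u} : Set G) := by
    apply sup_le
    · intro y hy
      exact mem_cent_of_comm (huc y hy).symm
    · rw [Subgroup.zpowers_le]
      exact mem_cent_of_comm (hzc u (hP huP1))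
  have hsupcard : Nat.card (P1 ⊔ zpowers z : Subgroup G) ≤ Nat.card P1 := by
    obtain ⟨k, hk⟩ := IsPGroup.iff_card.mp (P.2.to_le hsupP)
    rw [hk, hP1card, ← hcard_eq]
    have h1 : p ^ k ∣ Nat.card (centralizer ({u} : Set G)) := by
      rw [← hk]; exact Subgroup.card_dvd_of_le hsupu
    exact Nat.pow_le_pow_right hp.pos ((hp.pow_dvd_iff_le_factorization Nat.card_pos.ne').mp h1)
  have hP1eq : P1 = P1 ⊔ zpowers z := Subgroup.eq_of_le_of_card_ge le_sup_left hsupcard
  have hzP1 : z ∈ P1 := by
    rw [hP1eq]
    exact Subgroup.mem_sup_right (mem_zpowers z)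
  -- contradiction
  apply hnotAc z hzP1
  rcases H1 z hz1 with h | h
  · exfalso
    have h1 := h p hpA hp
    have h2 : ¬ p ∣ (centralizer ({z} : Set G)).index := by
      rw [not_dvd_index_iff]
      exact ⟨P, fun y hy => mem_cent_of_comm (hzc y hy).symm⟩
    rw [Nat.factorization_eq_zero_of_not_dvd h2] at h1
    omega
  · exact h

theorem typeM {M : Type*} [Group M] [Finite M] (A : Set ℕ)
    (h : ∀ a ∈ A, ∀ b ∉ A, a.Prime → b.Prime → a ∣ Nat.card M → b ∣ Nat.card M →
      ¬ ∃ x : M, orderOf x = a * b) (x : M) (r : ℕ) (hr : r.Prime) (hrx : r ∣ orderOf x) (hrA : r ∉ A) :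
    Full (Nat.card M) A (centralizer ({x} : Set M)).index := by
  intro p hpA hp
  have : Fact p.Prime := ⟨hp⟩
  have hnot : ¬ p ∣ Nat.card (centralizer ({x} : Set M)) := by
    intro hd
    obtain ⟨y, hy⟩ := exists_prime_orderOf_dvd_card' p hd
    obtain ⟨k, hk⟩ := hrx
    have hk0 : k ≠ 0 := by
      rintro rfl
      rw [mul_zero, orderOf_eq_zero_iff] at hk
      exact hk (isOfFinOrder_of_finite x)
    have hxk : orderOf (x ^ k) = r := by
      rw [orderOf_pow' x hk0, hk, Nat.gcd_eq_right (Dvd.intro_left r rfl)]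
      exact Nat.mul_div_cancel _ (Nat.pos_of_ne_zero hk0)
    have hyo : orderOf (y : M) = p := by rw [Subgroup.orderOf_coe, hy]
    have hcom : Commute (y : M) (x ^ k) := (show Commute (y : M) x from mem_cent_comm y.2).pow_right k
    have hpr : p ≠ r := by rintro rfl; exact hrA hpA
    apply h p hpA r hrA hp hr
    · rw [← hyo]; exact orderOf_dvd_natCard _
    · rw [← hxk]; exact orderOf_dvd_natCard _
    · refine ⟨y * x ^ k, ?_⟩
      rw [hcom.orderOf_mul_eq_mul_orderOf_of_coprime, hyo, hxk]
      rw [hyo, hxk]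
      exact (Nat.coprime_primes hp hr).mpr hpr
  have h1 : (Nat.card M).factorization p = (Nat.card (centralizer ({x} : Set M))).factorization p +
      (centralizer ({x} : Set M)).index.factorization p := by
    rw [← Subgroup.card_mul_index (centralizer ({x} : Set M)),
      Nat.factorization_mul Nat.card_pos.ne' (index_ne_zero x), Finsupp.add_apply]
  rw [h1, Nat.factorization_eq_zero_of_not_dvd hnot, zero_add]

/-- Let G and M be finite groups with trivial centres and the same set of conjugacy class sizes, and suppose the prime graph of M is disconnected: the prime divisors of #M split into two non-empty parts such that M has no element of order pq with p in one part and q in the other. Then #G = #M. -/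
theorem result {G M : Type*}
    [Group G] [Finite G] [Group M] [Finite M] (hZG : Subgroup.center G = ⊥) (hZM : Subgroup.center M = ⊥)
    (h : Set.range (fun g : G => (Subgroup.centralizer ({g} : Set G)).index) = Set.range (fun g : M => (Subgroup.centralizer ({g} : Set M)).index))
    (hdisc : ∃ A : Set ℕ, (∃ a ∈ A, a.Prime ∧ a ∣ Nat.card M) ∧ (∃ b ∉ A, b.Prime ∧ b ∣ Nat.card M) ∧
      ∀ a ∈ A, ∀ b ∉ A, a.Prime → b.Prime → a ∣ Nat.card M → b ∣ Nat.card M → ¬ ∃ x : M, orderOf x = a * b) :
    Nat.card G = Nat.card M := by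
  classical
  obtain ⟨A, ⟨a, haA, hap, ham⟩, ⟨b, hbA, hbp, hbm⟩, hA⟩ := hdisc
  set m := Nat.card M with hm
  have hm0 : m ≠ 0 := Nat.card_pos.ne'
  have hA' : ∀ a ∈ Aᶜ, ∀ b ∉ Aᶜ, a.Prime → b.Prime → a ∣ m → b ∣ m → ¬ ∃ x : M, orderOf x = a * b := by
    intro a' ha' b' hb' h1 h2 h3 h4
    rw [Set.notMem_compl_iff] at hb'
    rw [mul_comm]
    exact hA b' hb' a' ha' h2 h1 h4 h3
  -- transfer between G and M
  have hGM : ∀ g : G, ∃ x : M, (centralizer ({x} : Set M)).index = (centralizer ({g} : Set G)).index := by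
    intro g
    have : (centralizer ({g} : Set G)).index ∈ Set.range (fun g : G => (Subgroup.centralizer ({g} : Set G)).index) := ⟨g, rfl⟩
    rw [h] at this
    exact this
  have hMG : ∀ x : M, ∃ g : G, (centralizer ({g} : Set G)).index = (centralizer ({x} : Set M)).index := by
    intro x
    have : (centralizer ({x} : Set M)).index ∈ Set.range (fun g : M => (Subgroup.centralizer ({g} : Set M)).index) := ⟨x, rfl⟩
    rw [← h] at this
    exact this
  have H1M : ∀ x : M, x ≠ 1 → Full m A (centralizer ({x} : Set M)).index ∨ Full m Aᶜ (centralizer ({x} : Set M)).index := by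
    intro x hx
    have hne : orderOf x ≠ 1 := fun h => hx (orderOf_eq_one_iff.mp h)
    obtain ⟨r, hr, hrd⟩ := Nat.exists_prime_and_dvd hne
    by_cases hrA : r ∈ A
    · right
      exact typeM Aᶜ hA' x r hr hrd (by rwa [Set.notMem_compl_iff])
    · left
      exact typeM A hA x r hr hrd hrA
  have H2M : ∀ x : M, ¬ (Full m A (centralizer ({x} : Set M)).index ∧ Full m Aᶜ (centralizer ({x} : Set M)).index) := by
    rintro x ⟨h1, h2⟩
    have h3 : m ∣ (centralizer ({x} : Set M)).index := by
      rw [← Nat.factorization_le_iff_dvd hm0 (index_ne_zero x)]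
      intro p
      by_cases hp : p.Prime
      · by_cases hpA : p ∈ A
        · exact h1 p hpA hp
        · exact h2 p hpA hp
      · rw [Nat.factorization_eq_zero_of_not_prime _ hp]; exact Nat.zero_le _
    have h4 : Nat.card (centralizer ({x} : Set M)) * (centralizer ({x} : Set M)).index = m := Subgroup.card_mul_index _
    have h5 : (centralizer ({x} : Set M)).index = m := by
      apply Nat.dvd_antisymm _ h3
      exact Dvd.intro_left _ h4
    rw [h5] at h4
    have h6 : Nat.card (centralizer ({x} : Set M)) = 1 := by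
      have : Nat.card (centralizer ({x} : Set M)) * m = 1 * m := by rw [h4, one_mul]
      exact Nat.eq_of_mul_eq_mul_right (Nat.pos_of_ne_zero hm0) this
    have h7 : centralizer ({x} : Set M) = ⊥ := Subgroup.card_eq_one.mp h6
    have h8 : x ∈ centralizer ({x} : Set M) := mem_cent_of_comm rfl
    rw [h7, Subgroup.mem_bot] at h8
    rw [h8] at h7
    have h9 : (centralizer ({(1 : M)} : Set M)) = ⊤ := by
      rw [eq_top_iff]
      intro y _
      exact mem_cent_of_comm (by simp)
    rw [h9] at h7
    have h10 : m = 1 := by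
      rw [hm, ← Subgroup.card_top, h7, Subgroup.card_bot]
    rw [h10] at ham
    exact hap.one_lt.ne' (Nat.dvd_one.mp ham)
  have hone : ∀ g : G, (centralizer ({g} : Set G)).index = 1 → g = 1 := by
    intro g hg
    have := (index_eq_one_iff g).mp hg
    rw [hZG] at this
    exact this
  have H1 : ∀ g : G, g ≠ 1 → Full m A (centralizer ({g} : Set G)).index ∨ Full m Aᶜ (centralizer ({g} : Set G)).index := by
    intro g hg
    obtain ⟨x, hx⟩ := hGM g
    rw [← hx]
    apply H1M
    rintro rfl
    apply hg
    apply hone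
    rw [← hx]
    exact (index_eq_one_iff _).mpr (Subgroup.one_mem _)
  have H2 : ∀ g : G, ¬ (Full m A (centralizer ({g} : Set G)).index ∧ Full m Aᶜ (centralizer ({g} : Set G)).index) := by
    intro g
    obtain ⟨x, hx⟩ := hGM g
    rw [← hx]
    exact H2M x
  have H3 : ∀ g : G, ∀ p : ℕ, (centralizer ({g} : Set G)).index.factorization p ≤ m.factorization p := by
    intro g
    obtain ⟨x, hx⟩ := hGM g
    rw [← hx]
    exact (Nat.factorization_le_iff_dvd (index_ne_zero x) hm0).mpr (Subgroup.index_dvd_card _)
  -- lower bound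
  have hlow : ∀ p : ℕ, p.Prime → m.factorization p ≤ (Nat.card G).factorization p := by
    intro p hp
    have hkey : ∀ (B : Set ℕ) (c : ℕ), (∀ a ∈ B, ∀ b ∉ B, a.Prime → b.Prime → a ∣ m → b ∣ m → ¬ ∃ x : M, orderOf x = a * b) →
        c ∉ B → c.Prime → c ∣ m → p ∈ B → m.factorization p ≤ (Nat.card G).factorization p := by
      intro B c hB hcB hc hcm hpB
      have : Fact c.Prime := ⟨hc⟩
      obtain ⟨x, hx⟩ := exists_prime_orderOf_dvd_card' c hcm
      have h1 := typeM B hB x c hc (by rw [hx]) hcB p hpB hp
      obtain ⟨g, hg⟩ := hMG x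
      rw [← hg] at h1
      exact h1.trans ((Nat.factorization_le_iff_dvd (index_ne_zero g) Nat.card_pos.ne').mpr (Subgroup.index_dvd_card _) p)
    by_cases hpA : p ∈ A
    · exact hkey A b hA hbA hbp hbm hpA
    · exact hkey Aᶜ a hA' (by rwa [Set.notMem_compl_iff]) hap ham hpA
  have hdG : ∀ q : ℕ, q.Prime → q ∣ m → q ∣ Nat.card G := by
    intro q hq hqm
    have h1 := hlow q hq
    have h2 : 0 < m.factorization q := hq.factorization_pos_of_dvd hm0 hqm
    exact Nat.dvd_of_factorization_pos (by omega)
  -- upper bound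
  have hup : ∀ p : ℕ, p.Prime → (Nat.card G).factorization p ≤ m.factorization p := by
    intro p hp
    have : Fact p.Prime := ⟨hp⟩
    by_cases hpm : p ∣ m
    · have hpos : 0 < m.factorization p := hp.factorization_pos_of_dvd hm0 hpm
      by_cases hpA : p ∈ A
      · exact main m A H1 H2 H3 b hbp hbA (hbp.factorization_pos_of_dvd hm0 hbm) (hdG b hbp hbm) p hp hpA hpos
      · refine main m Aᶜ ?_ ?_ H3 a hap (by rwa [Set.notMem_compl_iff])
          (hap.factorization_pos_of_dvd hm0 ham) (hdG a hap ham) p hp hpA hpos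
        · intro g hg
          rw [compl_compl]
          exact (H1 g hg).symm
        · intro g hg
          rw [compl_compl] at hg
          exact H2 g hg.symm
    · -- p does not divide m: all class sizes prime to p
      have hnd : ∀ g : G, ¬ p ∣ (centralizer ({g} : Set G)).index := by
        intro g hd
        have h1 := H3 g p
        rw [Nat.factorization_eq_zero_of_not_dvd hpm] at h1
        have h2 := hp.factorization_pos_of_dvd (index_ne_zero g) hd
        omega
      obtain ⟨P⟩ : Nonempty (Sylow p G) := inferInstance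
      have htop : centralizer ((P : Subgroup G) : Set G) = ⊤ := by
        apply eq_top_of_forall_conj_mem
        intro x
        obtain ⟨Q, hQ⟩ := (not_dvd_index_iff p x).mp (hnd x)
        obtain ⟨g, hg⟩ := MulAction.exists_smul_eq G P Q
        refine ⟨g⁻¹, ?_⟩
        rw [Subgroup.mem_centralizer_iff]
        intro y hy
        have h1 : g * y * g⁻¹ ∈ (Q : Subgroup G) := by
          rw [← hg]
          exact ⟨y, hy, rfl⟩
        have h2 := mem_cent_comm (hQ h1)
        calc y * (g⁻¹ * x * g⁻¹⁻¹) = g⁻¹ * ((g * y * g⁻¹) * x) * g := by group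
          _ = g⁻¹ * (x * (g * y * g⁻¹)) * g := by rw [h2]
          _ = g⁻¹ * x * g⁻¹⁻¹ * y := by group
      have hPbot : (P : Subgroup G) = ⊥ := by
        rw [eq_bot_iff, ← hZG]
        intro y hy
        rw [Subgroup.mem_center_iff]
        intro g
        have hg : g ∈ centralizer ((P : Subgroup G) : Set G) := by rw [htop]; trivial
        exact ((Subgroup.mem_centralizer_iff.mp hg) y hy).symm
      have h1 : Nat.card (P : Subgroup G) = p ^ (Nat.card G).factorization p := Sylow.card_eq_multiplicity P
      rw [hPbot, Subgroup.card_bot] at h1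
      have h2 : (Nat.card G).factorization p = 0 := by
        by_contra hne
        have h3 := Nat.one_lt_pow hne hp.one_lt
        omega
      omega
  apply Nat.eq_of_factorization_eq Nat.card_pos.ne' hm0
  intro p
  by_cases hp : p.Prime
  · exact le_antisymm (hup p hp) (hlow p hp)
  · rw [Nat.factorization_eq_zero_of_not_prime _ hp, Nat.factorization_eq_zero_of_not_prime _ hp]

end Cfsg.Agent.S4184
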