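import Cfsg.Statements.S4186
import Mathlib.Tactic

set_option autoImplicit false
open Cfsg

namespace Cfsg.Agent.S4186

/-- Let T and X be subgroups of a group with T a finite 2-group normalizing X but not centralizing it. Then some element of T inverts some non-identity element of X under conjugation. -/
theorem result {G : Type*} [Group G] (T X : Subgroup G) [Finite ↥T] (hT : IsPGroup 2 ↥T) (hTN : T ≤ Subgroup.normalizer (X : Set G)) (hTC : ¬ T ≤ Subgroup.centralizer (X : Set G)) : ∃ t ∈ T, ∃ x ∈ X, x ≠ 1 ∧ t * x * t⁻¹ = x⁻¹ := by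
  classical
  obtain ⟨t0, ht0T, ht0C⟩ := Set.not_subset.mp hTC
  have hex : ∃ k : ℕ, t0 ^ (2 ^ k) ∈ Subgroup.centralizer (X : Set G) := by
    obtain ⟨k, hk⟩ := hT ⟨t0, ht0T⟩
    refine ⟨k, ?_⟩
    have : t0 ^ (2 ^ k) = 1 := by
      have := congrArg Subtype.val hk
      simpa using this
    rw [this]
    exact Subgroup.one_mem _
  have hk := Nat.find_spec hex
  have hpos : Nat.find hex ≠ 0 := by
    intro h0
    rw [h0] at hk
    simp only [pow_zero, pow_one] at hk
    exact ht0C hk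
  obtain ⟨m, hm⟩ := Nat.exists_eq_succ_of_ne_zero hpos
  have hmin := Nat.find_min hex (m := m) (by omega)
  set t := t0 ^ (2 ^ m) with ht
  have htT : t ∈ T := Subgroup.pow_mem _ ht0T _
  have ht2 : t ^ 2 ∈ Subgroup.centralizer (X : Set G) := by
    rw [hm] at hk
    have : t ^ 2 = t0 ^ (2 ^ (m + 1)) := by
      rw [ht, ← pow_mul, pow_succ]
    rw [this]
    exact hk
  rw [Subgroup.mem_centralizer_iff] at hmin
  push Not at hmin
  obtain ⟨y, hyX, hy⟩ := hmin
  have hnorm := hTN htT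
  rw [Subgroup.mem_normalizer_iff] at hnorm
  have hyX' : y ∈ X := hyX
  have hty : t * y * t⁻¹ ∈ X := (hnorm y).mp hyX'
  refine ⟨t, htT, y⁻¹ * (t * y * t⁻¹), X.mul_mem (X.inv_mem hyX') hty, ?_, ?_⟩
  · intro h1
    apply hy
    have h2 : t * y * t⁻¹ = y := by
      have := congrArg (fun z => y * z) h1
      simpa [mul_assoc] using this
    calc y * t = (t * y * t⁻¹) * t := by rw [h2]
      _ = t * y := by group
  · have hc := (Subgroup.mem_centralizer_iff.mp ht2) y hyX
    have hc' : t ^ 2 * y * (t ^ 2)⁻¹ = y := by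
      rw [← hc]; group
    calc t * (y⁻¹ * (t * y * t⁻¹)) * t⁻¹ = (t * y⁻¹ * t⁻¹) * (t ^ 2 * y * (t ^ 2)⁻¹) := by
          group
      _ = (t * y⁻¹ * t⁻¹) * y := by rw [hc']
      _ = (y⁻¹ * (t * y * t⁻¹))⁻¹ := by group

end Cfsg.Agent.S4186
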