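import Cfsg.Statements.S4189
import Mathlib
import Cfsg.Agent.Lib.H76.MaxClass
import Cfsg.Agent.Lib.H1.Frat

set_option autoImplicit false
open Cfsg

namespace Cfsg.Agent.S4189

open Subgroup
open scoped commutatorElement

/-- every element is `x0 * d` with `x0 ∈ {1, a, b, ab}` and `d ∈ D` -/
def Cov {G : Type*} [Group G] (D : Subgroup G) (a b : G) : Prop :=
  ∀ x : G, ∃ x0 : G, (x0 = 1 ∨ x0 = a ∨ x0 = b ∨ x0 = a * b) ∧ ∃ d ∈ D, x = x0 * d

theorem lemY {H : Type*} [Group H] (a b : H) (hcen : commutator H ≤ center H)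
    (hcov : Cov (commutator H) a b) (ha : a * a ∈ commutator H) :
    (∀ d ∈ commutator H, d = 1 ∨ d = a * b * a⁻¹ * b⁻¹) ∧
      (a * b * a⁻¹ * b⁻¹) * (a * b * a⁻¹ * b⁻¹) = 1 := by
  set c := a * b * a⁻¹ * b⁻¹ with hc
  have hcD : c ∈ commutator H := by
    have : c = ⁅a, b⁆ := rfl
    rw [this]
    exact commutator_mem_commutator (mem_top _) (mem_top _)
  have hcc : c * c = 1 := by
    have h1 := mem_center_iff.mp (hcen ha) b
    have h2 := mem_center_iff.mp (hcen hcD) a
    calc c * c = (a * c) * a⁻¹ * c := by rw [h2]; group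
      _ = (a * a) * b * (a * a)⁻¹ * b⁻¹ := by rw [hc]; group
      _ = b * (a * a) * (a * a)⁻¹ * b⁻¹ := by rw [h1]
      _ = 1 := by group
  have hcen' : zpowers c ≤ center H := by rw [zpowers_le]; exact hcen hcD
  have hKn : (zpowers c).Normal := by
    constructor
    intro n hn g
    have h1 := mem_center_iff.mp (hcen' hn) g
    rw [h1, mul_inv_cancel_right]; exact hn
  have hle : commutator H ≤ zpowers c := by
    rw [_root_.commutator_def, commutator_le]
    intro x _ y _
    obtain ⟨x0, hx0, d, hd, rfl⟩ := hcov x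
    obtain ⟨y0, hy0, e, he, rfl⟩ := hcov y
    have hdc : ∀ z : H, Commute (QuotientGroup.mk d : H ⧸ zpowers c) (QuotientGroup.mk z) := by
      intro z
      have h1 : Commute d z := (mem_center_iff.mp (hcen hd) z).symm
      exact h1.map (QuotientGroup.mk' (zpowers c))
    have hec : ∀ z : H, Commute (QuotientGroup.mk z : H ⧸ zpowers c) (QuotientGroup.mk e) := by
      intro z
      have h1 : Commute z e := mem_center_iff.mp (hcen he) z
      exact h1.map (QuotientGroup.mk' (zpowers c))
    have hab : Commute (QuotientGroup.mk a : H ⧸ zpowers c) (QuotientGroup.mk b) := by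
      show (QuotientGroup.mk a : H ⧸ zpowers c) * QuotientGroup.mk b = QuotientGroup.mk b * QuotientGroup.mk a
      rw [← QuotientGroup.mk_mul, ← QuotientGroup.mk_mul, eq_comm, QuotientGroup.eq]
      have h3 : (b * a)⁻¹ * (a * b) = (b * a)⁻¹ * c * (b * a)⁻¹⁻¹ := by rw [hc]; group
      rw [h3]
      exact hKn.conj_mem _ (mem_zpowers c) _
    have h00 : Commute (QuotientGroup.mk x0 : H ⧸ zpowers c) (QuotientGroup.mk y0) := by
      have hone : ∀ z : H ⧸ zpowers c, Commute (QuotientGroup.mk (1 : H) : H ⧸ zpowers c) z := fun z => Commute.one_left z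
      have hone' : ∀ z : H ⧸ zpowers c, Commute z (QuotientGroup.mk (1 : H) : H ⧸ zpowers c) := fun z => Commute.one_right z
      have haab : Commute (QuotientGroup.mk a : H ⧸ zpowers c) (QuotientGroup.mk (a * b)) := by
        rw [QuotientGroup.mk_mul]; exact (Commute.refl _).mul_right hab
      have hbab : Commute (QuotientGroup.mk b : H ⧸ zpowers c) (QuotientGroup.mk (a * b)) := by
        rw [QuotientGroup.mk_mul]; exact hab.symm.mul_right (Commute.refl _)
      rcases hx0 with rfl | rfl | rfl | rfl
      · exact hone _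
      · rcases hy0 with rfl | rfl | rfl | rfl
        · exact hone' _
        · exact Commute.refl _
        · exact hab
        · exact haab
      · rcases hy0 with rfl | rfl | rfl | rfl
        · exact hone' _
        · exact hab.symm
        · exact Commute.refl _
        · exact hbab
      · rcases hy0 with rfl | rfl | rfl | rfl
        · exact hone' _
        · exact haab.symm
        · exact hbab.symm
        · exact Commute.refl _
    have hfin : Commute (QuotientGroup.mk (x0 * d) : H ⧸ zpowers c) (QuotientGroup.mk (y0 * e)) := by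
      rw [QuotientGroup.mk_mul, QuotientGroup.mk_mul]
      exact (h00.mul_right (hec x0)).mul_left ((hdc y0).mul_right (hdc e))
    rw [← QuotientGroup.eq_one_iff]
    have h5 : (QuotientGroup.mk ⁅x0 * d, y0 * e⁆ : H ⧸ zpowers c) =
        ⁅(QuotientGroup.mk (x0 * d) : H ⧸ zpowers c), QuotientGroup.mk (y0 * e)⁆ := rfl
    rw [h5, commutatorElement_eq_one_iff_commute]
    exact hfin
  refine ⟨?_, hcc⟩
  intro d hd
  obtain ⟨k, hk⟩ := mem_zpowers_iff.mp (hle hd)
  have h2 : c ^ (2 : ℤ) = 1 := by rw [zpow_two, hcc]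
  rcases Int.even_or_odd' k with ⟨m, hm | hm⟩
  · left
    rw [← hk, hm, zpow_mul, h2, one_zpow]
  · right
    rw [← hk, hm, zpow_add, zpow_mul, h2, one_zpow, zpow_one, one_mul]

theorem map_commutator_mem {H : Type*} [Group H] (α : H ≃* H) {d : H} (hd : d ∈ commutator H) :
    α d ∈ commutator H := by
  have h1 : (commutator H).map α.toMonoidHom = commutator H :=
    Subgroup.characteristic_iff_map_eq.mp inferInstance α
  have h2 : α d ∈ (commutator H).map α.toMonoidHom := ⟨d, hd, rfl⟩
  rwa [h1] at h2

theorem lemZ {H : Type*} [Group H] (a b : H) (hcen : commutator H ≤ center H)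
    (hcov : Cov (commutator H) a b) (ha : a * a ∈ commutator H) (α : H ≃* H) (hab : α a = b)
    (hb : (a * b)⁻¹ * α b ∈ commutator H) :
    a * b * a⁻¹ * b⁻¹ = 1 ∨ (a * a = a * b * a⁻¹ * b⁻¹ ∧ b * b = a * b * a⁻¹ * b⁻¹) := by
  obtain ⟨hY, hcc⟩ := lemY a b hcen hcov ha
  set c := a * b * a⁻¹ * b⁻¹ with hc
  have hbb : b * b = α (a * a) := by rw [map_mul, hab]
  have hbbD : b * b ∈ commutator H := by rw [hbb]; exact map_commutator_mem α ha
  rcases hY _ ha with h1 | h1
  · left
    have h2 : b * b = 1 := by rw [hbb, h1, map_one]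
    have h3 : α b * α b = 1 := by rw [← map_mul, h2, map_one]
    set d := (a * b)⁻¹ * α b with hd
    have h4 : α b = a * b * d := by rw [hd]; group
    have h5 : d * d = 1 := by
      rcases hY d hb with h | h
      · rw [h, one_mul]
      · rw [h, hcc]
    have h6 := mem_center_iff.mp (hcen hb) (a * b)
    have h7 : a * b * (a * b) = 1 := by
      rw [h4] at h3
      calc a * b * (a * b) = a * b * (a * b) * (d * d) := by rw [h5, mul_one]
        _ = a * b * ((a * b) * d) * d := by group
        _ = a * b * (d * (a * b)) * d := by rw [h6]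
        _ = a * b * d * (a * b * d) := by group
        _ = 1 := h3
    have h8 : a⁻¹ = a := inv_eq_of_mul_eq_one_left h1
    have h9 : b⁻¹ = b := inv_eq_of_mul_eq_one_left h2
    rw [hc, h8, h9, mul_assoc (a * b)]
    exact h7
  · rcases hY _ hbbD with h2 | h2
    · left
      rw [hbb, ← map_one α] at h2
      have h3 := α.injective h2
      rw [← h1, h3]
    · right
      exact ⟨h1, h2⟩

theorem lemX {G : Type*} [Group G] (a b : G) (h3 : ⁅⁅commutator G, (⊤ : Subgroup G)⁆, (⊤ : Subgroup G)⁆ = ⊥)
    (hcov : Cov (commutator G) a b) (ha : a * a ∈ commutator G) (α : G ≃* G) (hab : α a = b)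
    (hb : (a * b)⁻¹ * α b ∈ commutator G) :
    ⁅commutator G, (⊤ : Subgroup G)⁆ = ⊥ := by
  set D := commutator G with hD
  set T := ⁅D, (⊤ : Subgroup G)⁆ with hT
  have hTn : T.Normal := inferInstance
  have hTc : T ≤ center G := by
    intro t ht
    rw [mem_center_iff]
    intro g
    have h4 : ⁅t, g⁆ ∈ ⁅T, (⊤ : Subgroup G)⁆ := commutator_mem_commutator ht (mem_top g)
    rw [h3, mem_bot, commutatorElement_eq_one_iff_mul_comm] at h4
    exact h4.symm
  let π := QuotientGroup.mk' T
  have hπs : Function.Surjective π := QuotientGroup.mk'_surjective T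
  have hmapD : commutator (G ⧸ T) = D.map π := by
    rw [hD, _root_.commutator_def, _root_.commutator_def, Subgroup.map_commutator, Subgroup.map_top_of_surjective _ hπs]
  have hcen : commutator (G ⧸ T) ≤ center (G ⧸ T) := by
    rw [hmapD]
    rintro _ ⟨d, hd, rfl⟩
    rw [mem_center_iff]
    intro g
    obtain ⟨g, rfl⟩ := hπs g
    rw [← map_mul, ← map_mul]
    show (QuotientGroup.mk (g * d) : G ⧸ T) = QuotientGroup.mk (d * g)
    rw [QuotientGroup.eq]
    have h5 : (g * d)⁻¹ * (d * g) = ⁅d⁻¹, g⁻¹⁆ := by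
      rw [commutatorElement_def]; group
    rw [h5]
    exact commutator_mem_commutator (D.inv_mem hd) (mem_top _)
  have hcov' : Cov (commutator (G ⧸ T)) (π a) (π b) := by
    intro x
    obtain ⟨x, rfl⟩ := hπs x
    obtain ⟨x0, hx0, d, hd, rfl⟩ := hcov x
    refine ⟨π x0, ?_, π d, ?_, map_mul _ _ _⟩
    · rcases hx0 with rfl | rfl | rfl | rfl
      · left; exact map_one _
      · right; left; rfl
      · right; right; left; rfl
      · right; right; right; exact map_mul _ _ _
    · rw [hmapD]; exact ⟨d, hd, rfl⟩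
  have ha' : π a * π a ∈ commutator (G ⧸ T) := by
    rw [hmapD, ← map_mul]; exact ⟨_, ha, rfl⟩
  have hTα : T.map α.toMonoidHom = T := by
    have h5 : D.map α.toMonoidHom = D := Subgroup.characteristic_iff_map_eq.mp inferInstance α
    rw [hT, Subgroup.map_commutator, h5]
    congr 1
    exact Subgroup.map_top_of_surjective _ α.surjective
  let αb : (G ⧸ T) ≃* (G ⧸ T) := QuotientGroup.congr T T α hTα
  have hαb : ∀ x, αb (π x) = π (α x) := fun x => rfl
  have hab' : αb (π a) = π b := by rw [hαb, hab]
  have hb' : (π a * π b)⁻¹ * αb (π b) ∈ commutator (G ⧸ T) := by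
    rw [hαb, ← map_mul, ← map_inv, ← map_mul, hmapD]
    exact ⟨_, hb, rfl⟩
  obtain ⟨hY, hcc⟩ := lemY (π a) (π b) hcen hcov' ha'
  have hZ := lemZ (π a) (π b) hcen hcov' ha' αb hab' hb'
  set c := a * b * a⁻¹ * b⁻¹ with hc
  have hcπ : π a * π b * (π a)⁻¹ * (π b)⁻¹ = π c := by
    rw [hc, map_mul, map_mul, map_mul, map_inv, map_inv]
  rw [hcπ] at hY hZ
  have hmem : ∀ {x y : G}, π x = π y → x⁻¹ * y ∈ T := by
    intro x y h
    exact QuotientGroup.eq.mp h
  have hDT : ∀ d ∈ D, ∃ t ∈ T, d = t ∨ d = c * t := by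
    intro d hd
    rcases hY (π d) (by rw [hmapD]; exact ⟨d, hd, rfl⟩) with h | h
    · exact ⟨d, (QuotientGroup.eq_one_iff d).mp h, Or.inl rfl⟩
    · exact ⟨c⁻¹ * d, hmem h.symm, Or.inr (by group)⟩
  rcases hZ with h | ⟨h1, h2⟩
  · have hcT : c ∈ T := (QuotientGroup.eq_one_iff c).mp h
    have hDleT : D ≤ T := by
      intro d hd
      obtain ⟨t, ht, rfl | rfl⟩ := hDT d hd
      · exact ht
      · exact T.mul_mem hcT ht
    rw [eq_bot_iff, ← h3]
    exact commutator_mono hDleT le_rfl
  · rw [← map_mul] at h1 h2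
    have hTcomm : ∀ t ∈ T, ∀ g : G, Commute t g := fun t ht g => (mem_center_iff.mp (hTc ht) g).symm
    have hca : Commute c a := by
      have h5 : a * a = c * (c⁻¹ * (a * a)) := by group
      have h6 := hmem h1.symm
      have h7 : c = (a * a) * (c⁻¹ * (a * a))⁻¹ := by group
      rw [h7]
      exact ((Commute.refl a).mul_left (Commute.refl a)).mul_left ((hTcomm _ h6 a).inv_left)
    have hcb : Commute c b := by
      have h6 := hmem h2.symm
      have h7 : c = (b * b) * (c⁻¹ * (b * b))⁻¹ := by group
      rw [h7]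
      exact ((Commute.refl b).mul_left (Commute.refl b)).mul_left ((hTcomm _ h6 b).inv_left)
    have hcall : ∀ x : G, Commute c x := by
      intro x
      obtain ⟨x0, hx0, d, hd, rfl⟩ := hcov x
      have hcd : Commute c d := by
        obtain ⟨t, ht, rfl | rfl⟩ := hDT d hd
        · exact (hTcomm _ ht c).symm
        · exact (Commute.refl c).mul_right (hTcomm _ ht c).symm
      refine Commute.mul_right ?_ hcd
      rcases hx0 with rfl | rfl | rfl | rfl
      · exact Commute.one_right c
      · exact hca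
      · exact hcb
      · exact hca.mul_right hcb
    rw [eq_bot_iff, hT, commutator_le]
    intro d hd g _
    rw [mem_bot, commutatorElement_eq_one_iff_commute]
    obtain ⟨t, ht, rfl | rfl⟩ := hDT d hd
    · exact hTcomm _ ht g
    · exact (hcall g).mul_left (hTcomm _ ht g)

theorem eq_bot_of_le_commutator {G : Type*} [Group G] (hnil : Group.IsNilpotent G) (T : Subgroup G)
    (h : T ≤ ⁅T, (⊤ : Subgroup G)⁆) : T = ⊥ := by
  have h1 : ∀ n, T ≤ (⊤ : Subgroup G).lowerCentralSeries n := by
    intro n
    induction n with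
    | zero => exact le_top
    | succ n ih =>
      rw [Subgroup.lowerCentralSeries_succ]
      exact h.trans (commutator_mono ih le_rfl)
  obtain ⟨n, hn⟩ := Subgroup.nilpotent_iff_lowerCentralSeries.mp hnil
  rw [eq_bot_iff, ← hn]
  exact h1 n

theorem fixed_in_coset {P : Type*} [Group P] [Finite P] (D : Subgroup P) [D.Characteristic] {q : ℕ} (hq : q.Prime)
    (hqD : ¬ q ∣ Nat.card D) (α : MulAut P) (hα : α ^ q = 1) (x : P) (hx : x⁻¹ * α x ∈ D) :
    ∃ d ∈ D, α (x * d) = x * d := by
  classical
  have : Fact q.Prime := ⟨hq⟩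
  have hD : ∀ (β : MulAut P) (d : P), d ∈ D → β d ∈ D := by
    intro β d hd
    have h1 : D.map β.toMonoidHom = D := Subgroup.characteristic_iff_map_eq.mp inferInstance β
    have h2 : β d ∈ D.map β.toMonoidHom := ⟨d, hd, rfl⟩
    rwa [h1] at h2
  have hD' : ∀ (d : P), d ∈ D → α.symm d ∈ D := fun d hd => hD (α⁻¹) d hd
  let σ : Equiv.Perm {y : P // x⁻¹ * y ∈ D} :=
    { toFun := fun y => ⟨α y.1, by
        have e : x⁻¹ * α y.1 = (x⁻¹ * α x) * α (x⁻¹ * y.1) := by
          rw [map_mul, map_inv]; group
        rw [e]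
        exact D.mul_mem hx (hD α _ y.2)⟩
      invFun := fun y => ⟨α.symm y.1, by
        have e : x⁻¹ * α.symm y.1 = α.symm ((x⁻¹ * α x)⁻¹ * (x⁻¹ * y.1)) := by
          simp [map_mul, map_inv]
        rw [e]
        exact hD' _ (D.mul_mem (D.inv_mem hx) y.2)⟩
      left_inv := fun y => Subtype.ext (α.symm_apply_apply y.1)
      right_inv := fun y => Subtype.ext (α.apply_symm_apply y.1) }
  have hσpow : ∀ n : ℕ, ∀ y, ((σ ^ n) y).1 = (α ^ n) y.1 := by
    intro n
    induction n with
    | zero => intro y; rfl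
    | succ n ih =>
      intro y
      rw [pow_succ, pow_succ, Equiv.Perm.mul_apply, MulAut.mul_apply, ih]
      rfl
  have hσ : σ ^ q ^ 1 = 1 := by
    ext y
    rw [pow_one, hσpow, hα]
    rfl
  have hcard : Nat.card {y : P // x⁻¹ * y ∈ D} = Nat.card D := by
    apply Nat.card_congr
    refine ⟨fun y => ⟨x⁻¹ * y.1, y.2⟩, fun d => ⟨x * d.1, by simp⟩, ?_, ?_⟩
    · intro y; apply Subtype.ext; simp
    · intro d; apply Subtype.ext; simp
  have : Fintype {y : P // x⁻¹ * y ∈ D} := Fintype.ofFinite _
  obtain ⟨y, hy⟩ := Equiv.Perm.exists_fixed_point_of_prime (p := q) (n := 1)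
    (by rw [← Nat.card_eq_fintype_card, hcard]; exact hqD) hσ
  refine ⟨x⁻¹ * y.1, y.2, ?_⟩
  rw [mul_inv_cancel_left]
  exact congrArg Subtype.val hy

/-- Let P be a finite non-abelian 2-group whose commutator subgroup has index 4 and whose automorphism group is not a 2-group (some automorphism has order that is not a power of 2). Then P is isomorphic to the quaternion group of order 8. -/
theorem result {P : Type*} [Group P] [Finite P] (hP : IsPGroup 2 P) (hna : ¬ IsMulCommutative P) (h4 : (commutator P).index = 4) (haut : ¬ IsPGroup 2 (MulAut P)) : Nonempty (P ≃* QuaternionGroup 2) := by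
  classical
  have hnil : Group.IsNilpotent P := hP.isNilpotent
  have hfinA : Finite (MulAut P) := inferInstance
  -- an automorphism of odd prime order
  obtain ⟨q, hq, hq2, hqd⟩ : ∃ q : ℕ, q.Prime ∧ q ≠ 2 ∧ q ∣ Nat.card (MulAut P) := by
    by_contra hcon
    push Not at hcon
    apply haut
    apply IsPGroup.of_card (n := (Nat.card (MulAut P)).primeFactorsList.length)
    exact Nat.eq_prime_pow_of_unique_prime_dvd Nat.card_pos.ne' (fun {d} hd hdd => by
      by_contra hne
      exact hcon d hd hne hdd)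
  have : Fact q.Prime := ⟨hq⟩
  obtain ⟨α, hα⟩ := exists_prime_orderOf_dvd_card' q hqd
  have hαq : α ^ q = 1 := by rw [← hα]; exact pow_orderOf_eq_one α
  have hα1 : α ≠ 1 := by
    rintro rfl
    rw [orderOf_one] at hα
    exact hq.one_lt.ne hα
  set D := commutator P with hD
  have hDP : IsPGroup 2 D := hP.to_subgroup D
  have hqD : ¬ q ∣ Nat.card D := by
    obtain ⟨n, hn⟩ := IsPGroup.iff_card.mp hDP
    rw [hn]
    intro h
    have h1 := hq.dvd_of_dvd_pow h
    exact hq2 ((Nat.prime_dvd_prime_iff_eq hq Nat.prime_two).mp h1)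
  have hDfrat : D ≤ frattini P := H1.Frat.commutator_le_frattini
  -- some coset is moved
  obtain ⟨a, ha⟩ : ∃ a : P, a⁻¹ * α a ∉ D := by
    by_contra hcon
    push Not at hcon
    apply hα1
    let F : Subgroup P :=
      { carrier := {x | α x = x}
        mul_mem' := by
          intro x y hx hy
          simp only [Set.mem_ofPred_eq] at hx hy ⊢
          rw [map_mul, hx, hy]
        one_mem' := by simp
        inv_mem' := by
          intro x hx
          simp only [Set.mem_ofPred_eq] at hx ⊢
          rw [map_inv, hx] }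
    have hF : F ⊔ frattini P = ⊤ := by
      rw [eq_top_iff]
      intro x _
      obtain ⟨d, hd, hxd⟩ := fixed_in_coset D hq hqD α hαq x (hcon x)
      have e : x = (x * d) * d⁻¹ := by group
      rw [e]
      exact Subgroup.mul_mem _ (mem_sup_left hxd) (mem_sup_right (hDfrat (D.inv_mem hd)))
    have hFtop : F = ⊤ := frattini_nongenerating hF
    ext x
    have : x ∈ F := by rw [hFtop]; trivial
    exact this
  have hDα : ∀ d ∈ D, α d ∈ D := fun d hd => map_commutator_mem α hd
  have hDn : D.Normal := inferInstance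
  -- quotient group of order 4 and the induced automorphism
  have hDmap : D.map (α : P ≃* P).toMonoidHom = D := Subgroup.characteristic_iff_map_eq.mp inferInstance α
  let β : (P ⧸ D) ≃* (P ⧸ D) := QuotientGroup.congr D D α hDmap
  have hβ : ∀ x : P, β (QuotientGroup.mk x) = QuotientGroup.mk (α x) := fun x => rfl
  have hβpow : ∀ n : ℕ, ∀ x : P, (β ^ n : MulAut (P ⧸ D)) (QuotientGroup.mk x) = QuotientGroup.mk ((α ^ n) x) := by
    intro n
    induction n with
    | zero => intro x; rfl
    | succ n ih =>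
      intro x
      rw [pow_succ, pow_succ, MulAut.mul_apply, MulAut.mul_apply, hβ, ih]
  have hβq : ∀ y : P ⧸ D, (β ^ q : MulAut (P ⧸ D)) y = y := by
    intro y
    obtain ⟨x, rfl⟩ := QuotientGroup.mk_surjective y
    rw [hβpow, hαq]; rfl
  have hodd : Odd q := hq.odd_of_ne_two hq2
  -- if β² fixes y then β fixes y
  have hβ2 : ∀ y : P ⧸ D, β (β y) = y → β y = y := by
    intro y hy
    obtain ⟨k, hk⟩ := hodd
    have h1 : ∀ k : ℕ, (β ^ (2 * k) : MulAut (P ⧸ D)) y = y := by
      intro k
      induction k with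
      | zero => rfl
      | succ k ih =>
        rw [mul_add, mul_one, pow_add, MulAut.mul_apply]
        have : (β ^ 2 : MulAut (P ⧸ D)) y = y := by
          rw [pow_two, MulAut.mul_apply]; exact hy
        rw [this, ih]
    have h2 := hβq y
    rw [hk, pow_succ', MulAut.mul_apply, h1] at h2
    exact h2
  set A : P ⧸ D := QuotientGroup.mk a with hA
  set B : P ⧸ D := β A with hB
  have hcomm : ∀ x y : P ⧸ D, x * y = y * x := by
    intro x y
    obtain ⟨x, rfl⟩ := QuotientGroup.mk_surjective x
    obtain ⟨y, rfl⟩ := QuotientGroup.mk_surjective y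
    rw [← QuotientGroup.mk_mul, ← QuotientGroup.mk_mul, QuotientGroup.eq]
    have h5 : (x * y)⁻¹ * (y * x) = ⁅y⁻¹, x⁻¹⁆ := by rw [commutatorElement_def]; group
    rw [h5]
    exact commutator_mem_commutator (mem_top _) (mem_top _)
  have hAB : A ≠ B := by
    intro h
    apply ha
    exact QuotientGroup.eq.mp h
  have hA1 : A ≠ 1 := by
    intro h
    apply hAB
    rw [hB, h, map_one]
  have hB1 : B ≠ 1 := by
    intro h
    apply hA1
    rw [hB, ← map_one β] at h
    exact β.injective h
  have hBB : β B ≠ A := by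
    intro h
    exact hAB (hβ2 A h).symm
  have hAB1 : A * B ≠ 1 := by
    intro h
    apply hBB
    have h1 : B = A⁻¹ := eq_inv_of_mul_eq_one_right h
    rw [h1, map_inv, ← hB, h1, inv_inv]
  have hABA : A * B ≠ A := by
    intro h; apply hB1; exact mul_eq_left.mp h
  have hABB : A * B ≠ B := by
    intro h; apply hA1; exact mul_eq_right.mp h
  have hcard : Nat.card (P ⧸ D) = 4 := h4
  have hall : ∀ y : P ⧸ D, y = 1 ∨ y = A ∨ y = B ∨ y = A * B := by
    have : Fintype (P ⧸ D) := Fintype.ofFinite _
    have hc4 : ({1, A, B, A * B} : Finset (P ⧸ D)).card = 4 := by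
      rw [Finset.card_insert_of_notMem, Finset.card_insert_of_notMem, Finset.card_insert_of_notMem,
        Finset.card_singleton]
      · rw [Finset.mem_singleton]; exact hABB.symm
      · rw [Finset.mem_insert, Finset.mem_singleton, not_or]; exact ⟨hAB, hABA.symm⟩
      · rw [Finset.mem_insert, Finset.mem_insert, Finset.mem_singleton, not_or, not_or]
        exact ⟨hA1.symm, hB1.symm, hAB1.symm⟩
    have huniv : ({1, A, B, A * B} : Finset (P ⧸ D)) = Finset.univ := by
      apply Finset.eq_univ_of_card
      rw [hc4, ← Nat.card_eq_fintype_card, hcard]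
    intro y
    have : y ∈ ({1, A, B, A * B} : Finset (P ⧸ D)) := by rw [huniv]; exact Finset.mem_univ _
    simpa using this
  have hβB : β B = A * B := by
    rcases hall (β B) with h | h | h | h
    · exfalso
      rw [← map_one β] at h
      exact hB1 (β.injective h)
    · exact absurd h hBB
    · exfalso
      rw [hB] at h
      exact hAB (β.injective h).symm
    · exact h
  have hAA : A * A = 1 := by
    rcases hall (A * A) with h | h | h | h
    · exact h
    · exfalso; exact hA1 (mul_eq_left.mp h)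
    · exfalso
      have h1 : β (A * A) = β B := by rw [h]
      rw [map_mul, ← hB, hβB] at h1
      exact hAB (mul_right_cancel h1).symm
    · exfalso
      exact hAB (mul_left_cancel h)
  -- transfer to P
  set b := α a with hb
  have hBb : B = QuotientGroup.mk b := rfl
  have hcov : Cov D a b := by
    intro x
    have key : ∀ x0 : P, (QuotientGroup.mk x : P ⧸ D) = QuotientGroup.mk x0 → ∃ d ∈ D, x = x0 * d := by
      intro x0 h
      exact ⟨x0⁻¹ * x, QuotientGroup.eq.mp h.symm, by group⟩
    rcases hall (QuotientGroup.mk x) with h | h | h | h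
    · exact ⟨1, Or.inl rfl, key 1 h⟩
    · exact ⟨a, Or.inr (Or.inl rfl), key a h⟩
    · exact ⟨b, Or.inr (Or.inr (Or.inl rfl)), key b h⟩
    · exact ⟨a * b, Or.inr (Or.inr (Or.inr rfl)), key (a * b) h⟩
  have haa : a * a ∈ D := (QuotientGroup.eq_one_iff _).mp hAA
  have hbD : (a * b)⁻¹ * α b ∈ D := by
    apply QuotientGroup.eq.mp
    exact hβB.symm
  -- T = γ₃ is trivial
  set T := ⁅D, (⊤ : Subgroup P)⁆ with hT
  have hTbot : T = ⊥ := by
    apply eq_bot_of_le_commutator hnil
    set N := ⁅T, (⊤ : Subgroup P)⁆ with hN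
    have hNn : N.Normal := inferInstance
    let π := QuotientGroup.mk' N
    have hπs : Function.Surjective π := QuotientGroup.mk'_surjective N
    have hmapD : commutator (P ⧸ N) = D.map π := by
      rw [hD, _root_.commutator_def, _root_.commutator_def, Subgroup.map_commutator, Subgroup.map_top_of_surjective _ hπs]
    have hmapT : ⁅commutator (P ⧸ N), (⊤ : Subgroup (P ⧸ N))⁆ = T.map π := by
      rw [hmapD, hT, Subgroup.map_commutator, Subgroup.map_top_of_surjective _ hπs]
    have hmapN : ⁅⁅commutator (P ⧸ N), (⊤ : Subgroup (P ⧸ N))⁆, (⊤ : Subgroup (P ⧸ N))⁆ = ⊥ := by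
      rw [hmapT]
      have h5 : ⁅T.map π, (⊤ : Subgroup (P ⧸ N))⁆ = N.map π := by
        have h6 : N.map π = ⁅T.map π, (⊤ : Subgroup P).map π⁆ := Subgroup.map_commutator _ _ _
        rw [h6, Subgroup.map_top_of_surjective _ hπs]
      rw [h5, Subgroup.map_eq_bot_iff, QuotientGroup.ker_mk']
    have hNα : N.map (α : P ≃* P).toMonoidHom = N := by
      rw [hN, hT, Subgroup.map_commutator, Subgroup.map_commutator, hDmap,
        Subgroup.map_top_of_surjective _ α.surjective]
    let αb : (P ⧸ N) ≃* (P ⧸ N) := QuotientGroup.congr N N α hNα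
    have hαb : ∀ x, αb (π x) = π (α x) := fun x => rfl
    have h6 := lemX (π a) (π b) hmapN (by
        intro x
        obtain ⟨x, rfl⟩ := hπs x
        obtain ⟨x0, hx0, d, hd, rfl⟩ := hcov x
        refine ⟨π x0, ?_, π d, ?_, map_mul _ _ _⟩
        · rcases hx0 with rfl | rfl | rfl | rfl
          · left; exact map_one _
          · right; left; rfl
          · right; right; left; rfl
          · right; right; right; exact map_mul _ _ _
        · rw [hmapD]; exact ⟨d, hd, rfl⟩)
      (by rw [hmapD, ← map_mul]; exact ⟨_, haa, rfl⟩) αb (by rw [hαb, hb])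
      (by rw [hαb, ← map_mul, ← map_inv, ← map_mul, hmapD]; exact ⟨_, hbD, rfl⟩)
    rw [hmapT, Subgroup.map_eq_bot_iff, QuotientGroup.ker_mk'] at h6
    exact h6
  have hDcen : D ≤ center P := by
    intro d hd
    rw [mem_center_iff]
    intro g
    have h5 : ⁅d, g⁆ ∈ T := commutator_mem_commutator hd (mem_top g)
    rw [hTbot, mem_bot, commutatorElement_eq_one_iff_mul_comm] at h5
    exact h5.symm
  obtain ⟨hY, hcc⟩ := lemY a b hDcen hcov haa
  have hZ := lemZ a b hDcen hcov haa α rfl hbD
  set c := a * b * a⁻¹ * b⁻¹ with hc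
  have hc1 : c ≠ 1 := by
    intro h1
    apply hna
    have hDbot : ∀ d ∈ D, d = 1 := by
      intro d hd
      rcases hY d hd with h | h
      · exact h
      · rw [h, h1]
    refine ⟨⟨fun x y => ?_⟩⟩
    have h5 : ⁅x, y⁆ ∈ D := commutator_mem_commutator (mem_top x) (mem_top y)
    exact commutatorElement_eq_one_iff_mul_comm.mp (hDbot _ h5)
  have hcD : c ∈ D := by
    have : c = ⁅a, b⁆ := rfl
    rw [this]
    exact commutator_mem_commutator (mem_top _) (mem_top _)
  obtain ⟨h1, h2⟩ := hZ.resolve_left hc1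
  have hcardD : Nat.card D = 2 := by
    have : Fintype D := Fintype.ofFinite _
    have hu : ({1, ⟨c, hcD⟩} : Finset D) = Finset.univ := by
      rw [Finset.eq_univ_iff_forall]
      rintro ⟨d, hd⟩
      rw [Finset.mem_insert, Finset.mem_singleton]
      rcases hY d hd with h | h
      · left; exact Subtype.ext h
      · right; exact Subtype.ext h
    rw [Nat.card_eq_fintype_card, ← Finset.card_univ, ← hu, Finset.card_pair]
    intro h
    exact hc1 (congrArg Subtype.val h).symm
  have hcardP : Nat.card P = 8 := by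
    rw [← Subgroup.card_mul_index D, hcardD, h4]
  have hord : orderOf a = 4 := by
    have h5 : a ^ 2 ^ 2 = 1 := by
      have : a ^ 2 ^ 2 = (a * a) * (a * a) := by
        rw [show (2 : ℕ) ^ 2 = 2 + 2 from rfl, pow_add, pow_two]
      rw [this, h1, hcc]
    have h6 : ¬ a ^ 2 ^ 1 = 1 := by
      rw [pow_one, pow_two, h1]; exact hc1
    have := orderOf_eq_prime_pow h6 h5
    simpa using this
  have hcb : Commute c b := (mem_center_iff.mp (hDcen hcD) b).symm
  have hca : Commute c a := (mem_center_iff.mp (hDcen hcD) a).symm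
  have hcinv : c⁻¹ = c := inv_eq_of_mul_eq_one_left hcc
  have hbab : b * a * b⁻¹ = a⁻¹ := by
    have h5 : b * a * b⁻¹ = c⁻¹ * a := by
      have h6 : a * b = c * (b * a) := by rw [hc]; group
      have h7 : b * a = c⁻¹ * (a * b) := by rw [h6]; group
      calc b * a * b⁻¹ = c⁻¹ * (a * b) * b⁻¹ := by rw [← h7]
        _ = c⁻¹ * a := by group
    rw [h5, hcinv, ← h1]
    have h8 : a * a * a * a = 1 := by
      have : a * a * a * a = (a * a) * (a * a) := by group
      rw [this, h1, hcc]
    exact eq_inv_of_mul_eq_one_left h8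
  apply H76.MaxClass.quaternion_of (n := 2) a b (by rw [hord]) hbab
  · rw [pow_two, pow_two, h1, h2]
  · intro hmem
    apply hc1
    obtain ⟨k, hk⟩ := mem_zpowers_iff.mp hmem
    have h5 : Commute a b := by
      rw [← hk]; exact (Commute.refl a).zpow_right k
    rw [hc, h5.eq]
    group
  · have h5 := Subgroup.card_mul_index (zpowers a)
    rw [Nat.card_zpowers, hord, hcardP] at h5
    omega

end Cfsg.Agent.S4189
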