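import Cfsg.Statements.S4192
import Cfsg.Agent.Lib.H25.RealCls4
import Cfsg.Agent.S0205

set_option autoImplicit false
open Cfsg

namespace Cfsg.Agent.S4192

/-- Let G be a finite group; call an element real when it is conjugate to its inverse, and say that the real-class-size graph of a group is disconnected when the primes dividing its real class sizes split into two non-empty disjoint parts with no real class size divisible by a prime from each part. If the real-class-size graph of G is disconnected, then some real class size of G is even, and either the Sylow 2-subgroups of G are normal, or the subgroup K generated by the 2-elements of G (the smallest normal subgroup of odd index) again has a disconnected real-class-size graph and every real class size of K is odd or a power of 2. -/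
theorem result {G : Type*} [Group G] [Finite G] (h : (∃ π₁ π₂ : Set ℕ, π₁.Nonempty ∧ π₂.Nonempty ∧ Disjoint π₁ π₂ ∧ (∀ q ∈ π₁ ∪ π₂, q.Prime ∧ ∃ n ∈ {n : ℕ | ∃ x : G, IsConj x x⁻¹ ∧ (Subgroup.centralizer ({x} : Set G)).index = n}, q ∣ n) ∧ (∀ q : ℕ, q.Prime → (∃ n ∈ {n : ℕ | ∃ x : G, IsConj x x⁻¹ ∧ (Subgroup.centralizer ({x} : Set G)).index = n}, q ∣ n) → q ∈ π₁ ∨ q ∈ π₂) ∧ ∀ a ∈ π₁, ∀ b ∈ π₂, ∀ n ∈ {n : ℕ | ∃ x : G, IsConj x x⁻¹ ∧ (Subgroup.centralizer ({x} : Set G)).index = n}, ¬ (a ∣ n ∧ b ∣ n))) : (∃ n ∈ {n : ℕ | ∃ x : G, IsConj x x⁻¹ ∧ (Subgroup.centralizer ({x} : Set G)).index = n}, 2 ∣ n) ∧ ((∀ P : Sylow 2 G, (P : Subgroup G).Normal) ∨ ((∃ π₁ π₂ : Set ℕ, π₁.Nonempty ∧ π₂.Nonempty ∧ Disjoint π₁ π₂ ∧ (∀ q ∈ π₁ ∪ π₂, q.Prime ∧ ∃ n ∈ {n : ℕ | ∃ x : ↥(Subgroup.closure {g : G | ∃ k : ℕ, orderOf g = 2 ^ k}), IsConj x x⁻¹ ∧ (Subgroup.centralizer ({x} : Set ↥(Subgroup.closure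 {g : G | ∃ k : ℕ, orderOf g = 2 ^ k}))).index = n}, q ∣ n) ∧ (∀ q : ℕ, q.Prime → (∃ n ∈ {n : ℕ | ∃ x : ↥(Subgroup.closure {g : G | ∃ k : ℕ, orderOf g = 2 ^ k}), IsConj x x⁻¹ ∧ (Subgroup.centralizer ({x} : Set ↥(Subgroup.closure {g : G | ∃ k : ℕ, orderOf g = 2 ^ k}))).index = n}, q ∣ n) → q ∈ π₁ ∨ q ∈ π₂) ∧ ∀ a ∈ π₁, ∀ b ∈ π₂, ∀ n ∈ {n : ℕ | ∃ x : ↥(Subgroup.closure {g : G | ∃ k : ℕ, orderOf g = 2 ^ k}), IsConj x x⁻¹ ∧ (Subgroup.centralizer ({x} : Set ↥(Subgroup.closure {g : G | ∃ k : ℕ, orderOf g = 2 ^ k}))).index = n}, ¬ (a ∣ n ∧ b ∣ n)) ∧ ∀ n ∈ {n : ℕ | ∃ x : ↥(Subgroup.closure {g : G | ∃ k : ℕ, orderOf g = 2 ^ k}), IsConj x x⁻¹ ∧ (Subgroup.centralizer ({x} : Set ↥(Subgroup.closure {g : G | ∃ k : ℕ, orderOf g = 2 ^ k}))).index = n}, Odd n ∨ ∃ j : ℕ, n = 2 ^ j)) := by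
  exact H25.RealCls.s4192 (fun _ _ _ hK => Cfsg.Agent.S0205.result hK) h

end Cfsg.Agent.S4192
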