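import Cfsg.Statements.S4193
import Cfsg.Agent.S0205
import Cfsg.Agent.Lib.H72.FT4193

set_option autoImplicit false
open Cfsg

namespace Cfsg.Agent.S4193

/-- Let G be a finite group in which the conjugacy classes of all non-central real elements (elements conjugate to their inverses) have sizes with the same 2-part, and suppose G has a Sylow 2-subgroup S such that every element of S that is conjugate in S to its inverse lies in the centre of S. Then G is solvable and the subgroup generated by the 2-elements of G (the smallest normal subgroup of odd index) has a normal 2-complement. -/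
theorem result {G : Type*} [Group G] [Finite G] (a : ℕ) (h : ∀ x : G, IsConj x x⁻¹ → x ∉ Subgroup.center G → ((Subgroup.centralizer ({x} : Set G)).index).factorization 2 = a) (S : Sylow 2 G) (hS : ∀ s : ↥(S : Subgroup G), IsConj s s⁻¹ → s ∈ Subgroup.center ↥(S : Subgroup G)) : Group.IsSolvable G ∧ Cfsg.HasNormalPComplement 2 ↥(Subgroup.closure {g : G | ∃ k : ℕ, orderOf g = 2 ^ k}) := by
  exact H72.FT4193.main (fun K _ _ h => Cfsg.Agent.S0205.result h) a h S hS

end Cfsg.Agent.S4193
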