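import Cfsg.Statements.S4194
import Cfsg.Agent.Lib.H98.TwoCentral

set_option autoImplicit false
open Cfsg

namespace Cfsg.Agent.S4194

/-- A finite group G has commutative Sylow 2-subgroups if and only if every 2-element of G (element of order a power of 2) is 2-central, that is, its centralizer contains a Sylow 2-subgroup of G. -/
theorem result {G : Type*} [Group G] [Finite G] (P : Sylow 2 G) :
    IsMulCommutative (P : Subgroup G) ↔ ∀ x : G, (∃ k : ℕ, orderOf x = 2 ^ k) → (∃ Q : Sylow 2 G, (Q : Subgroup G) ≤ Subgroup.centralizer ({x} : Set G)) := by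
  haveI : Fact (Nat.Prime 2) := ⟨Nat.prime_two⟩
  constructor
  · intro hP x hx
    obtain ⟨k, hk⟩ := hx
    have h1 : IsPGroup 2 (Subgroup.zpowers x) := by
      rw [IsPGroup.iff_card]
      exact ⟨k, by rw [Nat.card_zpowers, hk]⟩
    obtain ⟨Q, hQ⟩ := h1.exists_le_sylow
    refine ⟨Q, ?_⟩
    intro y hy
    rw [Subgroup.mem_centralizer_singleton_iff]
    have hxQ : x ∈ (Q : Subgroup G) := hQ (Subgroup.mem_zpowers x)
    obtain ⟨g, hg⟩ := MulAction.exists_smul_eq G Q P
    have hmem : ∀ z ∈ (Q : Subgroup G), g * z * g⁻¹ ∈ (P : Subgroup G) := by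
      intro z hz
      have h2 : g * z * g⁻¹ ∈ ((g • Q : Sylow 2 G) : Subgroup G) := by
        rw [Sylow.coe_subgroup_smul]
        exact Subgroup.smul_mem_pointwise_smul _ (MulAut.conj g) _ hz
      rw [hg] at h2
      exact h2
    have h3 : (⟨_, hmem y hy⟩ : (P : Subgroup G)) * ⟨_, hmem x hxQ⟩ = ⟨_, hmem x hxQ⟩ * ⟨_, hmem y hy⟩ :=
      hP.is_comm.comm _ _
    have h4 : g * y * g⁻¹ * (g * x * g⁻¹) = g * x * g⁻¹ * (g * y * g⁻¹) := congrArg Subtype.val h3
    have h5 : g * (y * x) * g⁻¹ = g * (x * y) * g⁻¹ := by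
      calc g * (y * x) * g⁻¹ = g * y * g⁻¹ * (g * x * g⁻¹) := by group
        _ = g * x * g⁻¹ * (g * y * g⁻¹) := h4
        _ = _ := by group
    exact mul_left_cancel (mul_right_cancel h5)
  · intro h
    have hH : H98.TwoCentral.Hyp G := by
      rintro x ⟨k, hk⟩
      apply h x
      obtain ⟨j, _, hj⟩ := (Nat.dvd_prime_pow Nat.prime_two).mp (orderOf_dvd_of_pow_eq_one hk)
      exact ⟨j, hj⟩
    exact ⟨⟨fun a b => Subtype.ext (H98.TwoCentral.main hH P a a.2 b b.2)⟩⟩

end Cfsg.Agent.S4194
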