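import Cfsg.Statements.S4195
import Mathlib.Tactic

set_option autoImplicit false
open Cfsg

namespace Cfsg.Agent.S4195

/-- Let x be a non-identity element of a finite group G whose centralizer contains a Sylow 2-subgroup of G. If x is conjugate to its inverse, then x has order 2. -/
theorem result {G : Type*} [Group G] [Finite G] (x : G) (hx : x ≠ 1) (P : Sylow 2 G) (hP : (P : Subgroup G) ≤ Subgroup.centralizer ({x} : Set G)) (hreal : IsConj x x⁻¹) : orderOf x = 2 := by
  classical
  refine orderOf_eq_prime ?_ hx
  by_contra hx2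
  -- g conjugates x to x⁻¹
  obtain ⟨g, hg⟩ := isConj_iff.mp hreal
  -- the homomorphism-like subgroup N = elements conjugating x to x or x⁻¹
  let N : Subgroup G :=
    { carrier := {h | h * x * h⁻¹ = x ∨ h * x * h⁻¹ = x⁻¹}
      mul_mem' := by
        intro a b ha hb
        simp only [Set.mem_ofPred_eq] at ha hb ⊢
        have e : a * b * x * (a * b)⁻¹ = a * (b * x * b⁻¹) * a⁻¹ := by group
        rcases hb with hb | hb
        · rw [e, hb]; exact ha
        · rw [e, hb]
          have e2 : a * x⁻¹ * a⁻¹ = (a * x * a⁻¹)⁻¹ := by group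
          rw [e2]
          rcases ha with ha | ha
          · right; rw [ha]
          · left; rw [ha, inv_inv]
      one_mem' := by simp
      inv_mem' := by
        intro a ha
        simp only [Set.mem_ofPred_eq, inv_inv] at ha ⊢
        rcases ha with ha | ha
        · left
          calc a⁻¹ * x * a = a⁻¹ * (a * x * a⁻¹) * a := by rw [ha]
            _ = x := by group
        · right
          have : x = (a * x * a⁻¹)⁻¹ := by rw [ha, inv_inv]
          calc a⁻¹ * x * a = a⁻¹ * (a * x * a⁻¹)⁻¹ * a := by rw [← this]
            _ = x⁻¹ := by group }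
  have hCN : Subgroup.centralizer ({x} : Set G) ≤ N := by
    intro h hh
    left
    have := Subgroup.mem_centralizer_singleton_iff.mp hh
    rw [this]; group
  have hgN : g ∈ N := Or.inr hg
  have hgC : g ∉ Subgroup.centralizer ({x} : Set G) := by
    intro h
    have := Subgroup.mem_centralizer_singleton_iff.mp h
    apply hx2
    have h3 : g * x * g⁻¹ = x := by rw [this]; group
    rw [h3] at hg
    calc x ^ 2 = x * x := pow_two x
      _ = x * x⁻¹ := by rw [← hg]
      _ = 1 := mul_inv_cancel x
  -- relative index is 2
  have hrel : (Subgroup.centralizer ({x} : Set G)).relIndex N = 2 := by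
    rw [Subgroup.relIndex, Subgroup.index_eq_two_iff]
    refine ⟨⟨g, hgN⟩, ?_⟩
    rintro ⟨b, hb⟩
    simp only [Subgroup.mem_subgroupOf, Subgroup.coe_mul]
    rw [xor_iff_not_iff]
    intro hiff
    have key : ∀ h : G, h ∈ Subgroup.centralizer ({x} : Set G) ↔ h * x * h⁻¹ = x := by
      intro h
      rw [Subgroup.mem_centralizer_singleton_iff]
      constructor
      · intro e; rw [e]; group
      · intro e
        calc h * x = (h * x * h⁻¹) * h := by group
          _ = x * h := by rw [e]
    rw [key, key] at hiff
    have e : b * g * x * (b * g)⁻¹ = (b * x * b⁻¹)⁻¹ := by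
      calc b * g * x * (b * g)⁻¹ = b * (g * x * g⁻¹) * b⁻¹ := by group
        _ = b * x⁻¹ * b⁻¹ := by rw [hg]
        _ = (b * x * b⁻¹)⁻¹ := by group
    rw [e] at hiff
    have hne : x⁻¹ ≠ x := by
      intro h
      apply hx2
      calc x ^ 2 = x * x := pow_two x
        _ = x * x⁻¹ := by rw [h]
        _ = 1 := mul_inv_cancel x
    rcases hb with hb | hb
    · rw [hb] at hiff
      exact hne (hiff.mpr rfl)
    · rw [hb, inv_inv] at hiff
      exact hne (hiff.mp rfl)
  have hodd : ¬ 2 ∣ (Subgroup.centralizer ({x} : Set G)).index := by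
    intro h
    have h2 : (Subgroup.centralizer ({x} : Set G)).index ∣ (P : Subgroup G).index :=
      Subgroup.index_dvd_of_le hP
    exact P.not_dvd_index (h.trans h2)
  apply hodd
  rw [← Subgroup.relIndex_mul_index hCN, hrel]
  exact Dvd.intro _ rfl

end Cfsg.Agent.S4195
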