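import Mathlib
import Cfsg.Statements.S4196

set_option autoImplicit false
open Cfsg

namespace Cfsg.Agent.S4196

theorem class_card {G : Type*} [Group G] [Finite G] (x : G) :
    Nat.card {y : G // IsConj x y} = (Subgroup.centralizer ({x} : Set G)).index := by
  have h2 := MulAction.index_stabilizer (ConjAct G) x
  have h3 : (MulAction.orbit (ConjAct G) x).ncard = Nat.card {y : G // IsConj x y} := by
    rw [← Nat.card_coe_set_eq]
    refine Nat.card_congr (Equiv.subtypeEquivRight ?_)
    intro y
    rw [ConjAct.mem_orbit_conjAct, isConj_comm]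
  rw [← h3, ← h2]
  have h4 := Subgroup.nat_card_centralizer_nat_card_stabilizer x
  have h5 := (MulAction.stabilizer (ConjAct G) x).index_mul_card
  have h6 := (Subgroup.centralizer ({x} : Set G)).index_mul_card
  rw [h4] at h6
  have h7 : Nat.card (ConjAct G) = Nat.card G := rfl
  rw [h7, ← h6] at h5
  have h8 : Finite (ConjAct G) := inferInstanceAs (Finite G)
  exact Nat.eq_of_mul_eq_mul_right Nat.card_pos h5


/-- A finite group G has elementary abelian Sylow 2-subgroups (commutative with every element squaring to the identity) if and only if every 2-element of G has a Sylow 2-subgroup in its centralizer and is conjugate to its inverse. -/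
theorem result {G : Type*} [Group G] [Finite G] (P : Sylow 2 G) :
    (IsMulCommutative (P : Subgroup G) ∧ ∀ x ∈ (P : Subgroup G), x ^ 2 = 1) ↔
      ∀ x : G, (∃ k : ℕ, orderOf x = 2 ^ k) → (∃ Q : Sylow 2 G, (Q : Subgroup G) ≤ Subgroup.centralizer ({x} : Set G)) ∧ IsConj x x⁻¹ := by
  classical
  constructor
  · rintro ⟨hc, hsq⟩ x ⟨k, hk⟩
    have hx : IsPGroup 2 (Subgroup.zpowers x) := by
      refine IsPGroup.of_card (n := k) ?_
      rw [Nat.card_zpowers, hk]
    obtain ⟨Q, hQ⟩ := hx.exists_le_sylow
    obtain ⟨g, hg⟩ := MulAction.exists_smul_eq G Q P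
    have hmem : ∀ y ∈ (Q : Subgroup G), g * y * g⁻¹ ∈ (P : Subgroup G) := by
      intro y hy
      rw [← hg, Sylow.coe_subgroup_smul, Subgroup.mem_pointwise_smul_iff_inv_smul_mem]
      simpa [MulAut.smul_def, mul_assoc] using hy
    have hxQ : x ∈ (Q : Subgroup G) := hQ (Subgroup.mem_zpowers x)
    refine ⟨⟨Q, ?_⟩, ?_⟩
    · intro y hy
      rw [Subgroup.mem_centralizer_singleton_iff]
      have h1 := hmem y hy
      have h2 := hmem x hxQ
      have h3 := congrArg Subtype.val (hc.is_comm.comm (⟨_, h1⟩ : (P : Subgroup G)) ⟨_, h2⟩)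
      simp only [MulMemClass.mk_mul_mk] at h3
      have h4 : g * (y * x) * g⁻¹ = g * (x * y) * g⁻¹ := by
        calc g * (y * x) * g⁻¹ = g * y * g⁻¹ * (g * x * g⁻¹) := by group
          _ = g * x * g⁻¹ * (g * y * g⁻¹) := h3
          _ = _ := by group
      simpa using h4
    · have h2 := hsq _ (hmem x hxQ)
      have h3 : x ^ 2 = 1 := by
        have : g * x ^ 2 * g⁻¹ = 1 := by rw [← h2, pow_two, pow_two]; group
        rwa [conj_eq_one_iff] at this
      have h4 : x⁻¹ = x := by
        rw [pow_two] at h3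
        exact inv_eq_of_mul_eq_one_left h3
      rw [h4]
  · intro h
    have key : ∀ x : G, (∃ k : ℕ, orderOf x = 2 ^ k) → x ^ 2 = 1 := by
      intro x hx
      obtain ⟨⟨Q, hQ⟩, hreal⟩ := h x hx
      by_contra hne
      have hxinv : x ≠ x⁻¹ := by
        intro h1
        apply hne
        rw [pow_two]
        nth_rewrite 1 [h1]
        simp
      -- the conjugacy class
      have h1 := class_card x
      have hodd : ¬ 2 ∣ (Subgroup.centralizer ({x} : Set G)).index := by
        intro h2
        exact Q.not_dvd_index (h2.trans (Subgroup.index_dvd_of_le hQ))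
      apply hodd
      rw [← h1]
      have hinv : ∀ y : {y : G // IsConj x y}, IsConj x (y : G)⁻¹ := by
        rintro ⟨y, hy⟩
        refine hreal.trans ?_
        rw [isConj_iff] at hy ⊢
        obtain ⟨c, hc⟩ := hy
        refine ⟨c, ?_⟩
        show c * x⁻¹ * c⁻¹ = y⁻¹
        rw [← hc]; group
      let f : Function.End {y : G // IsConj x y} := fun y => ⟨(y : G)⁻¹, hinv y⟩
      have hf : f ^ 2 ^ 1 = 1 := by
        rw [pow_one, pow_two]
        funext y
        apply Subtype.ext
        show ((y : G)⁻¹)⁻¹ = y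
        simp
      have := Fintype.ofFinite G
      have h5 := Equiv.Perm.card_fixedPoints_modEq (p := 2) hf
      have h6 : Fintype.card (Function.fixedPoints f) = 0 := by
        rw [Fintype.card_eq_zero_iff, isEmpty_iff]
        rintro ⟨⟨y, hy⟩, hfix⟩
        have h7 : y⁻¹ = y := congrArg Subtype.val hfix
        rw [isConj_iff] at hy
        obtain ⟨c, hc⟩ := hy
        apply hxinv
        have h8 : x = c⁻¹ * y * c := by rw [← hc]; group
        have h9 : x⁻¹ = c⁻¹ * y⁻¹ * c := by rw [h8]; group
        rw [h9, h7, ← h8]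
      rw [h6] at h5
      rw [Nat.card_eq_fintype_card]
      exact (Nat.modEq_zero_iff_dvd.mp h5)
    have hsq : ∀ x ∈ (P : Subgroup G), x ^ 2 = 1 := by
      intro x hx
      apply key
      obtain ⟨k, hk⟩ := (IsPGroup.iff_orderOf.mp P.isPGroup') ⟨x, hx⟩
      exact ⟨k, by rw [← hk]; exact (Subgroup.orderOf_mk x hx).symm⟩
    refine ⟨⟨⟨?_⟩⟩, hsq⟩
    intro a b
    have ha := hsq a a.2
    have hb := hsq b b.2
    have hab := hsq (a * b : (P : Subgroup G)) (a * b).2
    apply Subtype.ext
    rw [pow_two] at ha hb hab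
    have e1 : ((a : G))⁻¹ = a := inv_eq_of_mul_eq_one_left ha
    have e2 : ((b : G))⁻¹ = b := inv_eq_of_mul_eq_one_left hb
    have e3 : (((a * b : (P : Subgroup G)) : G))⁻¹ = ((a * b : (P : Subgroup G)) : G) := inv_eq_of_mul_eq_one_left hab
    rw [Subgroup.coe_mul, mul_inv_rev, e1, e2] at e3
    rw [Subgroup.coe_mul, Subgroup.coe_mul]
    exact e3.symm


end Cfsg.Agent.S4196
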