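import Cfsg.Statements.S4230

set_option autoImplicit false
open Cfsg

namespace Cfsg.Agent.S4230

/-- Let p be an odd prime, q a natural number not divisible by p, and e the multiplicative order of q modulo p. For a natural number f, p divides the value at q of the f-th cyclotomic polynomial if and only if f = e·p^j for some j ≥ 0. -/
theorem result (p q f : ℕ) (hp : p.Prime) (hp2 : p ≠ 2) (hpq : ¬ p ∣ q) :
    ((p : ℤ) ∣ (Polynomial.cyclotomic f ℤ).eval (q : ℤ)) ↔ ∃ j : ℕ, f = orderOf (q : ZMod p) * p ^ j := by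
  haveI : Fact p.Prime := ⟨hp⟩
  have hq0 : (q : ZMod p) ≠ 0 := by
    intro h
    exact hpq ((ZMod.natCast_eq_zero_iff q p).mp h)
  have he_pos : 0 < orderOf (q : ZMod p) := by
    rw [orderOf_pos_iff, isOfFinOrder_iff_pow_eq_one]
    exact ⟨p - 1, by have := hp.two_le; omega, ZMod.pow_card_sub_one_eq_one hq0⟩
  have he_cop : ¬ p ∣ orderOf (q : ZMod p) := by
    intro h
    have h1 : orderOf (q : ZMod p) ∣ p - 1 := orderOf_dvd_of_pow_eq_one (ZMod.pow_card_sub_one_eq_one hq0)
    have h2 := Nat.le_of_dvd (by have := hp.two_le; omega) (h.trans h1)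
    have := hp.two_le
    omega
  have h1 : ((p : ℤ) ∣ (Polynomial.cyclotomic f ℤ).eval (q : ℤ)) ↔ (Polynomial.cyclotomic f (ZMod p)).IsRoot (q : ZMod p) := by
    have h2 := Polynomial.eval_intCast_map (Int.castRingHom (ZMod p)) (Polynomial.cyclotomic f ℤ) (q : ℤ)
    rw [Polynomial.map_cyclotomic_int] at h2
    rw [← ZMod.intCast_zmod_eq_zero_iff_dvd, Polynomial.IsRoot.def]
    have h3 : ((q : ℤ) : ZMod p) = (q : ZMod p) := by simp
    rw [← h3, h2]
    simp
  rw [h1]
  rcases Nat.eq_zero_or_pos f with hf | hf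
  · subst hf
    constructor
    · intro h
      simp at h
    · rintro ⟨j, hj⟩
      have := Nat.mul_pos he_pos (pow_pos hp.pos j)
      omega
  · obtain ⟨k, m, hm, hfm⟩ : ∃ k m, ¬ p ∣ m ∧ f = p ^ k * m := by
      obtain ⟨k, m, h1, h2⟩ := Nat.exists_eq_pow_mul_and_not_dvd hf.ne' p hp.ne_one
      exact ⟨k, m, h1, h2⟩
    haveI : NeZero (m : ZMod p) := ⟨fun h => hm ((ZMod.natCast_eq_zero_iff m p).mp h)⟩
    rw [hfm, Polynomial.isRoot_cyclotomic_prime_pow_mul_iff_of_charP]
    constructor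
    · intro h
      exact ⟨k, by rw [← h.eq_orderOf]; ring⟩
    · rintro ⟨j, hj⟩
      have hm' : m = orderOf (q : ZMod p) := by
        have c1 : Nat.Coprime (p ^ k) (orderOf (q : ZMod p)) := Nat.Coprime.pow_left _ ((Nat.Prime.coprime_iff_not_dvd hp).mpr he_cop)
        have c2 : Nat.Coprime (p ^ j) m := Nat.Coprime.pow_left _ ((Nat.Prime.coprime_iff_not_dvd hp).mpr hm)
        apply Nat.dvd_antisymm
        · have : m ∣ orderOf (q : ZMod p) * p ^ j := ⟨p ^ k, by rw [← hj]; ring⟩
          exact c2.symm.dvd_of_dvd_mul_right this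
        · have : orderOf (q : ZMod p) ∣ m * p ^ k := ⟨p ^ j, by rw [← hj]; ring⟩
          exact c1.symm.dvd_of_dvd_mul_right this
      rw [hm']
      exact IsPrimitiveRoot.orderOf _


end Cfsg.Agent.S4230
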