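import Cfsg.Statements.S4231
import Mathlib
import Cfsg.Agent.Lib.H73.AutAltOdd

set_option autoImplicit false
open Cfsg

namespace Cfsg.Agent.S4231

open Equiv Equiv.Perm

theorem conj_eq (n : ℕ) (x : alternatingGroup (Fin n)) :
    (MulAut.conj x : MulAut (alternatingGroup (Fin n))) = MulAut.conjNormal (x : Perm (Fin n)) := by
  ext1 y
  apply Subtype.ext
  rw [MulAut.conjNormal_apply]
  rfl

/-- Sylow `q`-subgroups, `q` odd, are abelian if `n < q ^ 2` -/
theorem comm_sylow (n : ℕ) (hn : 5 ≤ n) (G : Subgroup (MulAut (alternatingGroup (Fin n)))) {q : ℕ} [hq : Fact q.Prime]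
    (hq2 : q ≠ 2) (hlt : n < q ^ 2) (Q : Sylow q G) : IsMulCommutative (Q : Subgroup G) := by
  have hqodd : q % 2 = 1 := hq.out.eq_two_or_odd.resolve_left hq2
  obtain ⟨R, hR⟩ : ∃ R : Subgroup (Perm (Fin n)), R = ((Q : Subgroup G).map G.subtype).comap
      (MulAut.conjNormal : Perm (Fin n) →* MulAut (alternatingGroup (Fin n))) := ⟨_, rfl⟩
  have hinj := H40.AutAlt.injective_conjNormal (α := Fin n) (by simp; lia)
  have hRp : IsPGroup q R := by
    rw [hR]
    have : IsPGroup q ((Q : Subgroup G).map G.subtype) := Q.2.map _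
    exact this.comap_of_injective _ hinj
  have hcomm := H73.AutAltOdd.comm_of_lt hlt R hRp
  have key : ∀ a : (Q : Subgroup G), ∃ σ ∈ R, (MulAut.conjNormal σ : MulAut (alternatingGroup (Fin n))) = ((a : G) : MulAut (alternatingGroup (Fin n))) := by
    intro a
    obtain ⟨k, hk⟩ := Q.2 a
    have h1 : (((a : G) : MulAut (alternatingGroup (Fin n)))) ^ q ^ k = 1 := by
      have h2 := congrArg (fun x : (Q : Subgroup G) => ((x : G) : MulAut (alternatingGroup (Fin n)))) hk
      exact h2
    obtain ⟨σ, hσ⟩ := H73.AutAltOdd.exists_of_odd n hn _ (m := q ^ k) (by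
      have : Odd (q ^ k) := (Nat.odd_iff.2 hqodd).pow
      exact Nat.odd_iff.1 this) h1
    refine ⟨σ, ?_, hσ⟩
    rw [hR, Subgroup.mem_comap]
    exact ⟨(a : G), a.2, hσ.symm⟩
  refine ⟨⟨fun a b => ?_⟩⟩
  obtain ⟨σ, hσR, hσ⟩ := key a
  obtain ⟨τ, hτR, hτ⟩ := key b
  apply Subtype.ext
  apply Subtype.ext
  show ((a : G) : MulAut (alternatingGroup (Fin n))) * ((b : G) : MulAut (alternatingGroup (Fin n))) =
    ((b : G) : MulAut (alternatingGroup (Fin n))) * ((a : G) : MulAut (alternatingGroup (Fin n)))
  rw [← hσ, ← hτ, ← map_mul, ← map_mul, hcomm σ hσR τ hτR]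

/-- elements of order `p q` -/
theorem exists_orderOf (n : ℕ) {p q : ℕ} (hp : p.Prime) (hq : q.Prime) (hpq : p < q) (hn : q ^ 2 ≤ n) :
    ∃ x : alternatingGroup (Fin n), orderOf x = p * q := by
  have hq3 : 3 ≤ q := by have := hp.two_le; lia
  have hqodd : q % 2 = 1 := hq.eq_two_or_odd.resolve_left (by lia)
  have hcop : Nat.Coprime p q := (Nat.coprime_primes hp hq).2 hpq.ne
  rcases hp.eq_two_or_odd with h2 | hodd
  · subst h2
    obtain ⟨g, hg⟩ := (Equiv.Perm.exists_with_cycleType_iff (Fin n) (m := {2, 2, q})).2 (by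
      constructor
      · simp only [Multiset.insert_eq_cons, Multiset.sum_cons, Multiset.sum_singleton, Fintype.card_fin]
        nlinarith
      · intro a ha
        simp only [Multiset.insert_eq_cons, Multiset.mem_cons, Multiset.mem_singleton] at ha
        rcases ha with rfl | rfl | rfl <;> lia)
    have hgA : g ∈ alternatingGroup (Fin n) := by
      rw [mem_alternatingGroup, sign_of_cycleType, hg]
      simp only [Multiset.insert_eq_cons, Multiset.sum_cons, Multiset.sum_singleton, Multiset.card_cons, Multiset.card_singleton]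
      apply Even.neg_one_pow
      rw [Nat.even_iff]
      lia
    refine ⟨⟨g, hgA⟩, ?_⟩
    rw [← Subgroup.orderOf_coe]
    show orderOf g = 2 * q
    rw [← lcm_cycleType, hg]
    simp only [Multiset.insert_eq_cons, Multiset.lcm_cons, Multiset.lcm_singleton]
    have h1 : Nat.lcm 2 q = 2 * q := hcop.lcm_eq_mul
    have h2 : Nat.lcm 2 (2 * q) = 2 * q := Nat.lcm_eq_right (dvd_mul_right _ _)
    simp only [normalize_eq]
    show Nat.lcm 2 (Nat.lcm 2 q) = 2 * q
    rw [h1, h2]
  · obtain ⟨g, hg⟩ := (Equiv.Perm.exists_with_cycleType_iff (Fin n) (m := {p, q})).2 (by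
      constructor
      · simp only [Multiset.insert_eq_cons, Multiset.sum_cons, Multiset.sum_singleton, Fintype.card_fin]
        nlinarith
      · intro a ha
        simp only [Multiset.insert_eq_cons, Multiset.mem_cons, Multiset.mem_singleton] at ha
        rcases ha with rfl | rfl
        · exact hp.two_le
        · exact hq.two_le)
    have hgA : g ∈ alternatingGroup (Fin n) := by
      rw [mem_alternatingGroup, sign_of_cycleType, hg]
      simp only [Multiset.insert_eq_cons, Multiset.sum_cons, Multiset.sum_singleton, Multiset.card_cons, Multiset.card_singleton]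
      apply Even.neg_one_pow
      rw [Nat.even_iff]
      lia
    refine ⟨⟨g, hgA⟩, ?_⟩
    rw [← Subgroup.orderOf_coe]
    show orderOf g = p * q
    rw [← lcm_cycleType, hg]
    simp only [Multiset.insert_eq_cons, Multiset.lcm_cons, Multiset.lcm_singleton, normalize_eq]
    exact hcop.lcm_eq_mul

theorem aux (n : ℕ) (hn : 5 ≤ n) (G : Subgroup (MulAut (alternatingGroup (Fin n))))
    (hG : (MulAut.conj : alternatingGroup (Fin n) →* MulAut (alternatingGroup (Fin n))).range ≤ G)
    (p q : ℕ) [hp : Fact p.Prime] [hq : Fact q.Prime] (hpq : p < q) (h : ∀ g : G, orderOf g ≠ p * q) (Q : Sylow q G) :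
    IsMulCommutative (Q : Subgroup G) := by
  have hq2 : q ≠ 2 := by have := hp.out.two_le; lia
  by_contra hcon
  have hle : q ^ 2 ≤ n := by
    by_contra hlt
    exact hcon (comm_sylow n hn G hq2 (by lia) Q)
  obtain ⟨x, hx⟩ := exists_orderOf n hp.out hq.out hpq hle
  have hinj := H40.AutAlt.injective_conjNormal (α := Fin n) (by simp; lia)
  have h1 : orderOf (MulAut.conj x : MulAut (alternatingGroup (Fin n))) = p * q := by
    rw [conj_eq, orderOf_injective _ hinj, Subgroup.orderOf_coe, hx]
  apply h ⟨MulAut.conj x, hG ⟨x, rfl⟩⟩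
  rw [← Subgroup.orderOf_coe]
  exact h1

/-- Let n ≥ 5 and let G be a group of automorphisms of the alternating group of degree n containing all inner automorphisms. If p ≠ q are primes and G has no element of order pq, then every Sylow p-subgroup of G is abelian or every Sylow q-subgroup of G is abelian. -/
theorem result (n : ℕ) (hn : 5 ≤ n) (G : Subgroup (MulAut (alternatingGroup (Fin n))))
    (hG : (MulAut.conj : alternatingGroup (Fin n) →* MulAut (alternatingGroup (Fin n))).range ≤ G)
    (p q : ℕ) [Fact p.Prime] [Fact q.Prime] (hpq : p ≠ q) (h : ∀ g : G, orderOf g ≠ p * q) :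
    (∀ P : Sylow p G, IsMulCommutative (P : Subgroup G)) ∨ (∀ Q : Sylow q G, IsMulCommutative (Q : Subgroup G)) := by
  rcases lt_or_gt_of_ne hpq with hlt | hgt
  · right
    exact aux n hn G hG p q hlt h
  · left
    exact aux n hn G hG q p hgt (by
      intro g hg
      exact h g (by rw [hg, mul_comm]))

end Cfsg.Agent.S4231
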