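import Cfsg.Statements.S4235
import Cfsg.Agent.Lib.H74.FrobSys
import Cfsg.Agent.Lib.H2.CI.Main

set_option autoImplicit false
open scoped Pointwise
open Cfsg

namespace Cfsg.Agent.S4235

/-- a normal `2`-complement implies solvability -/
theorem solvable_of_complement {G : Type*} [Group G] [Finite G]
    (h : Cfsg.HasNormalPComplement 2 G) : Group.IsSolvable G := by
  obtain ⟨P, N, hN, hc⟩ := h
  have : Fact (Nat.Prime 2) := ⟨Nat.prime_two⟩
  rw [Group.isSolvable_iff_subgroup_quotient N]
  constructor
  · apply Cfsg.Agent.S0205.result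
    rw [← hc.index_eq_card, ← Nat.not_even_iff_odd, even_iff_two_dvd]
    exact P.not_dvd_index
  · have h1 : Nat.card (G ⧸ N) = Nat.card P := by
      have := hc.symm.index_eq_card
      exact this
    have h2 : IsPGroup 2 (G ⧸ N) := by
      obtain ⟨k, hk⟩ := (IsPGroup.iff_card).mp P.isPGroup'
      exact IsPGroup.of_card (h1.trans hk)
    have := h2.isNilpotent
    infer_instance

/-- Let G be a finite group. Call a subgroup maximal solvable if it is solvable and not properly contained in a solvable subgroup. Suppose F assigns to each maximal solvable subgroup M a normal subgroup F(M) of M such that: every element of M outside F(M) centralizes no non-identity element of F(M); F(M) meets each conjugate g F(M) g⁻¹ with g outside M trivially; and F(M) is nontrivial unless M is abelian. Then G is solvable, or G is isomorphic to SL(2, K) for a finite field K of characteristic 2 with at least 4 elements, or G is isomorphic to a Suzuki group. -/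
theorem result {G : Type*} [Group G] [Finite G] (F : Subgroup G → Subgroup G)
    (h : ∀ M : Subgroup G, (Group.IsSolvable M ∧ ∀ M' : Subgroup G, M < M' → ¬ Group.IsSolvable M') →
      F M ≤ M ∧ M ≤ Subgroup.normalizer (F M : Set G) ∧
      (∀ a ∈ M, a ∉ F M → ∀ x ∈ F M, x * a = a * x → x = 1) ∧
      (∀ g : G, g ∉ M → F M ⊓ (MulAut.conj g • F M) = ⊥) ∧
      (F M ≠ ⊥ ∨ IsMulCommutative M)) :
    Group.IsSolvable G ∨
      (∃ (K : Type) (_ : Field K) (_ : Fintype K), (∃ n : ℕ, 2 ≤ n ∧ Fintype.card K = 2 ^ n) ∧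
        Nonempty (G ≃* Matrix.SpecialLinearGroup (Fin 2) K)) ∨
      Cfsg.Lie.IsoSuzuki G := by
  have : Fact (Nat.Prime 2) := ⟨Nat.prime_two⟩
  by_cases hs : Group.IsSolvable G
  · exact Or.inl hs
  right
  have hG : 2 ∣ Nat.card G := by
    by_contra h2
    exact hs (Cfsg.Agent.S0205.result (Nat.not_even_iff_odd.mp
      (fun h3 => h2 (even_iff_two_dvd.mp h3))))
  obtain ⟨T⟩ : Nonempty (Sylow 2 G) := inferInstance
  obtain ⟨M, hTM, hM⟩ := Finite.exists_le_maximal (p := fun M : Subgroup G => Group.IsSolvable M)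
    (H74.FrobSys.solvable_normalizer_sylow T)
  have hmax : ∀ M' : Subgroup G, M < M' → ¬ Group.IsSolvable M' := fun M' hlt hsol =>
    hlt.not_ge (hM.2 hsol hlt.le)
  obtain ⟨h1, h2, h3, h4, h5⟩ := h M ⟨hM.1, hmax⟩
  by_cases hc : IsMulCommutative M
  · exfalso
    apply hs
    apply solvable_of_complement
    apply H72.TpCount.hasNormalPComplement_of_normalizer_le T
    intro x hx
    rw [Subgroup.mem_centralizer_iff]
    intro y hy
    have := hc.is_comm.comm ⟨y, hTM (Subgroup.le_normalizer hy)⟩ ⟨x, hTM hx⟩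
    exact congrArg Subtype.val this
  have hFS : H74.FrobSys.FS (F M) M :=
    { le := h1
      nor := h2
      fpf := h3
      ti := by
        intro g u hu hu1 hg
        by_contra hgM
        apply hu1
        have h6 : u ∈ F M ⊓ (MulAut.conj g • F M) := by
          refine Subgroup.mem_inf.mpr ⟨hu, ?_⟩
          rw [H8.Zass.mem_conj_iff]
          exact hg
        rw [h4 g hgM, Subgroup.mem_bot] at h6
        exact h6
      ne := h5.resolve_right hc
      sol := hM.1
      max := hmax }
  by_cases hF2 : 2 ∣ Nat.card (F M)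
  · obtain ⟨m, hd⟩ := hFS.even_case hs hF2
    rcases H74.ZDat.main hd with ⟨K, i1, i2, n, hn, hK, -, ⟨e⟩⟩ | ⟨hsz, -⟩
    · left
      have hch : CharP K 2 := H2.CI.charP_two_of_dvd (by rw [hK]; exact dvd_pow_self 2 (by omega))
      exact ⟨K, i1, i2, ⟨n, hn, hK⟩, ⟨e.trans (H2.CI.slEquivPsl K).symm⟩⟩
    · exact Or.inr hsz
  · exact (hFS.odd_case hs T (Subgroup.le_normalizer.trans hTM) hF2 hG).elim

end Cfsg.Agent.S4235
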