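import Cfsg.Statements.S4236
import Mathlib
import Cfsg.Agent.Lib.H73.Syl35

set_option autoImplicit false
open Cfsg

namespace Cfsg.Agent.S4236

open MulAction

theorem sylow_eq {G : Type*} [Group G] [Finite G] {p : ℕ} [Fact p.Prime] (P Q : Sylow p G)
    (h : (P : Subgroup G) ≤ Subgroup.normalizer ((Q : Subgroup G) : Set G)) : Q = P := by
  have h2 : IsPGroup p ((P : Subgroup G) ⊔ (Q : Subgroup G) : Subgroup G) := P.2.to_sup_of_normal_right' Q.2 h
  have h3 := P.3 h2 le_sup_left
  have h4 := Q.3 h2 le_sup_right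
  exact Sylow.ext (h4.symm.trans h3)

/-- No finite group has exactly 35 Sylow 17-subgroups. -/
theorem result {G : Type*} [Group G] [Finite G] : Nat.card (Sylow 17 G) ≠ 35 := by
  classical
  intro hcard
  have : Fintype (Sylow 17 G) := Fintype.ofFinite _
  have hΩ : Fintype.card (Sylow 17 G) = 35 := by rw [← Nat.card_eq_fintype_card, hcard]
  obtain ⟨P⟩ : Nonempty (Sylow 17 G) := inferInstance
  obtain ⟨f, hf⟩ : ∃ f : G →* Equiv.Perm (Sylow 17 G), f = toPermHom G (Sylow 17 G) := ⟨_, rfl⟩
  have hfx : ∀ (x : G) (Q : Sylow 17 G), f x Q = x • Q := fun x Q => by rw [hf]; rfl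
  let P' : Sylow 17 f.range := P.mapSurjective (f := f.rangeRestrict) f.rangeRestrict_surjective
  have hP'mem : ∀ x ∈ (P : Subgroup G), f.rangeRestrict x ∈ (P' : Subgroup f.range) := fun x hx => ⟨x, hx, rfl⟩
  have htr : IsPretransitive f.range (Sylow 17 G) := by
    constructor
    intro Q R
    obtain ⟨x, hx⟩ := exists_smul_eq G Q R
    exact ⟨f.rangeRestrict x, by rw [← hx]; exact hfx x Q⟩
  have hfix : ∀ Q : Sylow 17 G, (∀ g ∈ (P' : Subgroup f.range), g • Q = Q) ↔ Q = P := by
    intro Q
    constructor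
    · intro h
      apply sylow_eq
      intro x hx
      have h1 := h _ (hP'mem x hx)
      have h2 : x • Q = Q := by rw [← hfx]; exact h1
      exact Sylow.smul_eq_iff_mem_normalizer.1 h2
    · rintro rfl _ ⟨x, hx, rfl⟩
      show f x Q = Q
      rw [hfx]
      exact Sylow.smul_eq_iff_mem_normalizer.2 (Subgroup.le_normalizer hx)
  have hstab : stabilizer f.range P ≤ Subgroup.normalizer ((P' : Subgroup f.range) : Set f.range) := by
    rintro ⟨_, x, rfl⟩ hx
    have h1 : f x P = P := hx
    rw [hfx] at h1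
    have h2 := Sylow.smul_eq_iff_mem_normalizer.1 h1
    have h3 : (⟨f x, ⟨x, rfl⟩⟩ : f.range) = f.rangeRestrict x := rfl
    rw [h3]
    have h4 : (P' : Subgroup f.range) = (P : Subgroup G).map f.rangeRestrict := rfl
    rw [h4]
    exact Subgroup.le_normalizer_map f.rangeRestrict ⟨x, h2, rfl⟩
  have hprim := H73.Syl35.isPreprimitive hcard (P' : Subgroup f.range) P'.2 P hfix
  obtain ⟨k, hk⟩ := IsPGroup.iff_card.1 P'.2
  by_cases hk2 : 2 ≤ k
  · exact H73.Syl35.big_case hΩ f.range hprim (P' : Subgroup f.range) P'.2 P hfix hstab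
      (by rw [hk]; exact pow_dvd_pow 17 hk2)
  · have hk1 : k = 0 ∨ k = 1 := by lia
    rcases hk1 with rfl | rfl
    · -- trivial
      rw [pow_zero, Subgroup.card_eq_one] at hk
      have h1 : ∀ Q : Sylow 17 G, Q = P := by
        intro Q
        rw [← hfix]
        intro g hg
        rw [hk, Subgroup.mem_bot] at hg
        rw [hg, one_smul]
      have h2 : Subsingleton (Sylow 17 G) := ⟨fun Q R => (h1 Q).trans (h1 R).symm⟩
      have h3 : Nat.card (Sylow 17 G) = 1 := Nat.card_eq_one_iff_unique.2 ⟨h2, ⟨P⟩⟩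
      rw [hcard] at h3
      exact absurd h3 (by norm_num)
    · rw [pow_one] at hk
      have : FaithfulSMul f.range (Sylow 17 G) := inferInstance
      exact H73.Syl35.small_case hcard hprim P' hk P hfix hstab

end Cfsg.Agent.S4236
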