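import Cfsg.Statements.S4237
import Mathlib
import Cfsg.Agent.Lib.H73.Kulakoff
import Cfsg.Agent.Lib.H73.SylowSq

set_option autoImplicit false
open Cfsg

namespace Cfsg.Agent.S4237

/-- Let G be a finite group, p a prime and a a natural number such that p^(a+1) divides the order of G. Then the number of subgroups of G of order p^a is congruent to 1 or to 1 + p modulo p². -/
theorem result {G : Type*} [Group G] [Finite G] (p a : ℕ) (hp : p.Prime) (hdvd : p ^ (a + 1) ∣ Nat.card G) :
    Nat.card {H : Subgroup G // Nat.card H = p ^ a} ≡ 1 [MOD p ^ 2] ∨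
      Nat.card {H : Subgroup G // Nat.card H = p ^ a} ≡ 1 + p [MOD p ^ 2] := by
  have hfp : Fact p.Prime := ⟨hp⟩
  obtain ⟨P⟩ : Nonempty (Sylow p G) := inferInstance
  obtain ⟨n, hn⟩ := IsPGroup.iff_card.1 P.2
  have han : a + 1 ≤ n := by
    have h1 : p ^ (a + 1) ∣ Nat.card P := P.pow_dvd_card_of_pow_dvd_card hdvd
    rw [hn] at h1
    exact (Nat.pow_dvd_pow_iff_le_right hp.one_lt).1 h1
  have hred := H73.SylowSq.card_modEq P hn han
  have h1 := H69.SubgroupCount.card_modEq_one (G := P) p a hp (by rw [hn]; exact pow_dvd_pow p (by lia))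
  rcases Nat.eq_zero_or_pos a with rfl | ha
  · left
    have h2 : Nat.card {H : Subgroup G // Nat.card H = p ^ 0} = 1 := by
      rw [Nat.card_eq_one_iff_unique]
      refine ⟨⟨?_⟩, ⟨⟨⊥, by simp⟩⟩⟩
      rintro ⟨H, hH⟩ ⟨K, hK⟩
      rw [pow_zero] at hH hK
      exact Subtype.ext ((Subgroup.card_eq_one.1 hH).trans (Subgroup.card_eq_one.1 hK).symm)
    rw [h2]
  · by_cases hp2 : p = 2
    · subst hp2
      have h2 := hred.of_dvd (dvd_pow_self 2 two_ne_zero)
      have h3 := h2.trans h1
      have h4 : Nat.card {H : Subgroup G // Nat.card H = 2 ^ a} % 2 = 1 := h3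
      unfold Nat.ModEq
      lia
    · by_cases hc : IsCyclic P
      · left
        rw [H73.Kulakoff.card_cyclic (C := P) (by rw [hn]; exact pow_dvd_pow p (by lia))] at hred
        exact hred
      · right
        exact hred.trans (H73.Kulakoff.kulakoff hp2 a ha n P hn hc (by lia))

end Cfsg.Agent.S4237
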