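import Mathlib
import Cfsg.Statements.S4238
import Cfsg.Agent.Lib.H39.PNilp
import Cfsg.Agent.Lib.H2.Frobenius
import Cfsg.Agent.Lib.H1.Coprime2
import Cfsg.Agent.Lib.H1.Frat

set_option autoImplicit false
open Cfsg

namespace Cfsg.Agent.S4238

universe u

open scoped commutatorElement

/-- the condition on a section -/
def Good (p : ℕ) (K : Type u) [Group K] : Prop :=
  Cfsg.pPrimeCore p K = ⊥ → ∃ k : K, orderOf k = Monoid.exponent K

theorem Good.congr {p : ℕ} {K K' : Type u} [Group K] [Group K'] (e : K ≃* K') (h : Good p K) : Good p K' := by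
  intro h1
  have h2 : Cfsg.pPrimeCore p K = ⊥ := by
    rw [Cfsg.pPrimeCore, sSup_eq_bot] at h1 ⊢
    rintro N ⟨hN, hc⟩
    have h3 := h1 (N.map e.toMonoidHom) ⟨hN.map _ e.surjective, by
      rw [Subgroup.card_map_of_injective e.injective]; exact hc⟩
    exact (Subgroup.map_eq_bot_iff_of_injective _ e.injective).mp h3
  obtain ⟨k, hk⟩ := h h2
  refine ⟨e k, ?_⟩
  rw [← Monoid.exponent_eq_of_mulEquiv e, ← hk]
  exact orderOf_injective e.toMonoidHom e.injective k

def Sec (p : ℕ) (G : Type u) [Group G] : Prop :=
  ∀ (K : Type u) [Group K] (L : Subgroup G) (f : L →* K), Function.Surjective f → Good p K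

theorem Sec.self {p : ℕ} {G : Type u} [Group G] (h : Sec p G) : Good p G :=
  h G ⊤ (⊤ : Subgroup G).subtype (fun g => ⟨⟨g, trivial⟩, rfl⟩)

theorem Sec.subgroup {p : ℕ} {G : Type u} [Group G] (h : Sec p G) (M : Subgroup G) : Sec p M := by
  intro K _ L f hf
  refine h K (L.map M.subtype) (f.comp (L.equivMapOfInjective M.subtype M.subtype_injective).symm.toMonoidHom) ?_
  exact hf.comp (L.equivMapOfInjective M.subtype M.subtype_injective).symm.surjective

theorem Sec.quotient {p : ℕ} {G : Type u} [Group G] (h : Sec p G) (N : Subgroup G) [N.Normal] : Sec p (G ⧸ N) := by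
  intro K _ L f hf
  refine h K (L.comap (QuotientGroup.mk' N)) (f.comp ((QuotientGroup.mk' N).subgroupComap L)) ?_
  refine hf.comp ?_
  rintro ⟨x, hx⟩
  obtain ⟨y, rfl⟩ := QuotientGroup.mk'_surjective N x
  exact ⟨⟨y, hx⟩, rfl⟩

/-- a finite `p`-group has an element of order the exponent -/
theorem exists_exponent {p : ℕ} [Fact p.Prime] {K : Type u} [Group K] [Finite K] (hK : IsPGroup p K) :
    ∃ k : K, orderOf k = Monoid.exponent K := by
  obtain ⟨k, hk⟩ := Finite.exists_max (fun k : K => orderOf k)
  refine ⟨k, Nat.dvd_antisymm (Monoid.order_dvd_exponent k) ?_⟩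
  rw [Monoid.exponent_dvd]
  intro g
  obtain ⟨a, ha⟩ := (IsPGroup.iff_orderOf.mp hK) g
  obtain ⟨b, hb⟩ := (IsPGroup.iff_orderOf.mp hK) k
  have := hk g
  rw [ha, hb] at this ⊢
  exact pow_dvd_pow p ((Nat.pow_le_pow_iff_right (Fact.out : p.Prime).one_lt).mp this)

theorem comm_mem {p : ℕ} [Fact p.Prime] {G : Type u} [Group G] [Finite G] (N : Subgroup G) [N.Normal]
    (hq : HasNormalPComplement p (G ⧸ N)) (D : Subgroup G) (hD : IsPGroup p D) (hDn : D.Normal) (a : G)
    (ha : Nat.Coprime (orderOf a) p) (d : G) (hd : d ∈ D) : a * d * a⁻¹ * d⁻¹ ∈ N := by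
  have hmn : (D.map (QuotientGroup.mk' N)).Normal := hDn.map _ (QuotientGroup.mk'_surjective N)
  have h1 := H2.Frobenius.local_of_hasNPC hq (D.map (QuotientGroup.mk' N)) (hD.map _) (QuotientGroup.mk' N a)
    (by rw [Subgroup.normalizer_eq_top]; trivial)
    (Nat.Coprime.coprime_dvd_left (orderOf_map_dvd _ a) ha)
  rw [Subgroup.mem_centralizer_iff] at h1
  have h2 := h1 (QuotientGroup.mk' N d) ⟨d, hd, rfl⟩
  rw [← QuotientGroup.eq_one_iff]
  show QuotientGroup.mk' N (a * d * a⁻¹ * d⁻¹) = 1
  rw [map_mul, map_mul, map_mul, ← h2, map_inv, map_inv]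
  group

theorem main {p : ℕ} [Fact p.Prime] : ∀ (n : ℕ) (G : Type u) [Group G] [Finite G], Nat.card G = n → Sec p G →
    HasNormalPComplement p G := by
  intro n
  induction n using Nat.strong_induction_on with
  | _ n ih =>
    intro G _ _ hn hS
    by_contra hno
    have hp : p.Prime := Fact.out
    have hsub : ∀ H : Subgroup G, H ≠ ⊤ → HasNormalPComplement p H := by
      intro H hH
      refine ih (Nat.card H) ?_ H rfl (hS.subgroup H)
      rw [← hn, ← Subgroup.card_mul_index H]
      have h1 : H.index ≠ 1 := fun h => hH (Subgroup.index_eq_one.mp h)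
      have h2 : 0 < H.index := Nat.pos_of_ne_zero Subgroup.index_ne_zero_of_finite
      have h3 : 0 < Nat.card H := Nat.card_pos
      nlinarith [show 2 ≤ H.index by omega]
    have hquo : ∀ (N : Subgroup G) [N.Normal], N ≠ ⊥ → HasNormalPComplement p (G ⧸ N) := by
      intro N _ hN
      refine ih (Nat.card (G ⧸ N)) ?_ (G ⧸ N) rfl (hS.quotient N)
      rw [← hn, Subgroup.card_eq_card_quotient_mul_card_subgroup N]
      have h1 : 1 < Nat.card N := by
        rw [Subgroup.one_lt_card_iff_ne_bot]; exact hN
      have h2 : 0 < Nat.card (G ⧸ N) := Nat.card_pos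
      nlinarith
    have hcore' : ∀ N : Subgroup G, N.Normal → (Nat.card N).Coprime p → N = ⊥ := by
      intro N hN hc
      by_contra hNb
      apply hno
      exact H39.PNilp.of_quotient N hc (hquo N hNb)
    have hcore : Cfsg.pPrimeCore p G = ⊥ := by
      rw [Cfsg.pPrimeCore, sSup_eq_bot]
      rintro N ⟨hN, hc⟩
      exact hcore' N hN hc
    obtain ⟨k, hk⟩ := hS.self hcore
    -- a violation of the Frobenius criterion
    obtain ⟨D, hD, g, hg, hgo, hgc⟩ : ∃ D : Subgroup G, IsPGroup p D ∧ ∃ g, g ∈ Subgroup.normalizer (D : Set G) ∧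
        Nat.Coprime (orderOf g) p ∧ g ∉ Subgroup.centralizer (D : Set G) := by
      by_contra hcon
      push Not at hcon
      exact hno (H2.Frobenius.hasNPC_of_local (fun D hD g hg hgo => hcon D hD g hg hgo))
    have htop : D ⊔ Subgroup.zpowers g = ⊤ := by
      by_contra hne
      have h1 := hsub _ hne
      have hgL : g ∈ D ⊔ Subgroup.zpowers g := Subgroup.mem_sup_right (Subgroup.mem_zpowers g)
      have hDL : D ≤ D ⊔ Subgroup.zpowers g := le_sup_left
      have h2 := H2.Frobenius.local_of_hasNPC h1 (D.subgroupOf (D ⊔ Subgroup.zpowers g))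
        (hD.comap_subtype) ⟨g, hgL⟩ (by
          rw [Subgroup.mem_normalizer_iff] at hg ⊢
          intro x
          rw [Subgroup.mem_subgroupOf, Subgroup.mem_subgroupOf]
          exact hg x) (by rw [Subgroup.orderOf_mk]; exact hgo)
      apply hgc
      rw [Subgroup.mem_centralizer_iff] at h2 ⊢
      intro d hd
      exact congrArg Subtype.val (h2 ⟨d, hDL hd⟩ hd)
    have hDn : D.Normal := by
      rw [← Subgroup.normalizer_eq_top_iff, eq_top_iff, ← htop]
      refine sup_le Subgroup.le_normalizer ?_
      rw [Subgroup.zpowers_le]; exact hg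
    have hDb : D ≠ ⊥ := by
      rintro rfl
      apply hgc
      rw [Subgroup.mem_centralizer_iff]
      intro d hd
      have : d = 1 := hd
      rw [this, one_mul, mul_one]
    -- index of D
    have hgen : ∀ x : G ⧸ D, x ∈ Subgroup.zpowers (g : G ⧸ D) := by
      have h1 : (⊤ : Subgroup (G ⧸ D)) ≤ Subgroup.zpowers (g : G ⧸ D) := by
        rw [← Subgroup.map_top_of_surjective _ (QuotientGroup.mk'_surjective D), ← htop, Subgroup.map_sup]
        refine sup_le ?_ ?_
        · have : D.map (QuotientGroup.mk' D) = ⊥ := by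
            rw [Subgroup.map_eq_bot_iff, QuotientGroup.ker_mk']
          rw [this]; exact bot_le
        · rw [MonoidHom.map_zpowers]; rfl
      intro x
      exact h1 trivial
    have hidx : D.index ∣ orderOf g := by
      rw [Subgroup.index_eq_card]
      have h1 : Nat.card (G ⧸ D) = orderOf (g : G ⧸ D) := (orderOf_eq_card_of_forall_mem_zpowers hgen).symm
      rw [h1]
      exact orderOf_map_dvd (QuotientGroup.mk' D) g
    have hidxp : Nat.Coprime D.index p := Nat.Coprime.coprime_dvd_left hidx hgo
    have hpel : ∀ c : G, (∃ a, orderOf c = p ^ a) → c ∈ D := by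
      rintro c ⟨a, ha⟩
      rw [← QuotientGroup.eq_one_iff, ← orderOf_eq_one_iff]
      have h1 : orderOf (c : G ⧸ D) ∣ p ^ a := by
        rw [← ha]; exact orderOf_map_dvd (QuotientGroup.mk' D) c
      have h2 : orderOf (c : G ⧸ D) ∣ D.index := by
        rw [Subgroup.index_eq_card]; exact orderOf_dvd_natCard _
      exact Nat.eq_one_of_dvd_coprimes (Nat.Coprime.pow_right a hidxp) h2 h1
    -- the parts of k
    have hnpos : Monoid.exponent G ≠ 0 := Monoid.exponent_ne_zero_of_finite
    obtain ⟨a, m, hm, ham⟩ := Nat.exists_eq_pow_mul_and_not_dvd hnpos p hp.ne_one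
    have hmpos : 0 < m := Nat.pos_of_ne_zero (fun h => hm (h ▸ dvd_zero p))
    have hmp : Nat.Coprime m p := ((Nat.Prime.coprime_iff_not_dvd hp).mpr hm).symm
    rw [ham] at hk
    obtain ⟨y, hy⟩ : ∃ y : G, y = k ^ (p ^ a) := ⟨_, rfl⟩
    obtain ⟨c, hc⟩ : ∃ c : G, c = k ^ m := ⟨_, rfl⟩
    have hyo : orderOf y = m := by
      rw [hy, orderOf_pow_of_dvd (pow_pos hp.pos a).ne' (by rw [hk]; exact dvd_mul_right _ _), hk,
        Nat.mul_div_cancel_left _ (pow_pos hp.pos a)]
    have hco : orderOf c = p ^ a := by
      rw [hc, orderOf_pow_of_dvd hmpos.ne' (by rw [hk]; exact dvd_mul_left _ _), hk,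
        Nat.mul_div_cancel _ hmpos]
    have hcy : c * y = y * c := by rw [hc, hy]; exact (Commute.pow_pow_self k m (p ^ a)).eq
    have hyop : Nat.Coprime (orderOf y) p := by rw [hyo]; exact hmp
    have hcD : c ∈ D := hpel c ⟨a, hco⟩
    have ha1 : a ≠ 0 := by
      rintro rfl
      have hpD : p ∣ Nat.card D := by
        obtain ⟨j, hj⟩ := hD.exists_card_eq
        rcases Nat.eq_zero_or_pos j with h0 | h0
        · exfalso
          apply hDb
          rw [h0, pow_zero] at hj
          exact Subgroup.card_eq_one.mp hj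
        · rw [hj]; exact dvd_pow_self p h0.ne'
      obtain ⟨d, hd⟩ := exists_prime_orderOf_dvd_card' p hpD
      have h1 : p ∣ Monoid.exponent G := by
        rw [← hd, ← Subgroup.orderOf_coe]; exact Monoid.order_dvd_exponent _
      rw [ham, pow_zero, one_mul] at h1
      exact hm h1
    have hc1 : c ≠ 1 := by
      intro h
      rw [h, orderOf_one] at hco
      have := Nat.one_lt_pow ha1 hp.one_lt
      omega
    -- D and y generate G
    have hgm : orderOf g ∣ m := by
      have h1 : orderOf g ∣ p ^ a * m := by rw [← ham]; exact Monoid.order_dvd_exponent g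
      exact (Nat.Coprime.pow_right a hgo).dvd_of_dvd_mul_left h1
    have hyq : orderOf (y : G ⧸ D) = m := by
      apply Nat.dvd_antisymm
      · rw [← hyo]; exact orderOf_map_dvd (QuotientGroup.mk' D) y
      · -- y^j ∈ D → m ∣ j
        have h1 : y ^ orderOf (y : G ⧸ D) ∈ D := by
          rw [← QuotientGroup.eq_one_iff, QuotientGroup.mk_pow, pow_orderOf_eq_one]
        have h2 : y ^ orderOf (y : G ⧸ D) = 1 := by
          rw [← orderOf_eq_one_iff]
          obtain ⟨j, hj⟩ := (IsPGroup.iff_orderOf.mp hD) ⟨_, h1⟩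
          rw [Subgroup.orderOf_mk] at hj
          have h3 : orderOf (y ^ orderOf (y : G ⧸ D)) ∣ m := by
            rw [← hyo]; exact orderOf_pow_dvd _
          have h4 : orderOf (y ^ orderOf (y : G ⧸ D)) ∣ p ^ j := by rw [hj]
          exact Nat.eq_one_of_dvd_coprimes (Nat.Coprime.pow_right j hmp) h3 h4
        rw [← hyo]
        exact orderOf_dvd_of_pow_eq_one h2
    have hidxm : D.index = m := by
      apply Nat.dvd_antisymm (hidx.trans hgm)
      rw [← hyq, Subgroup.index_eq_card]
      exact orderOf_dvd_natCard _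
    have hytop : D ⊔ Subgroup.zpowers y = ⊤ := by
      have h1 : Subgroup.zpowers (y : G ⧸ D) = ⊤ := by
        apply Subgroup.eq_top_of_card_eq
        rw [Nat.card_zpowers, hyq, ← hidxm, Subgroup.index_eq_card]
      have h2 : (Subgroup.zpowers y).map (QuotientGroup.mk' D) = ⊤ := by
        rw [MonoidHom.map_zpowers]; exact h1
      rw [eq_top_iff]
      intro x _
      have h3 : (QuotientGroup.mk' D x) ∈ (Subgroup.zpowers y).map (QuotientGroup.mk' D) := by rw [h2]; trivial
      obtain ⟨z, hz, hzx⟩ := h3
      have h4 : z⁻¹ * x ∈ D := QuotientGroup.eq.mp hzx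
      have h5 : x = z * (z⁻¹ * x) := by group
      rw [h5]
      exact mul_mem (Subgroup.mem_sup_right hz) (Subgroup.mem_sup_left h4)
    have hnorm : ∀ Z : Subgroup G, D ≤ Subgroup.normalizer (Z : Set G) → y ∈ Subgroup.normalizer (Z : Set G) → Z.Normal := by
      intro Z h1 h2
      rw [← Subgroup.normalizer_eq_top_iff, eq_top_iff, ← hytop]
      refine sup_le h1 ?_
      rw [Subgroup.zpowers_le]; exact h2
    have hyc : ¬ Subgroup.zpowers y ≤ Subgroup.centralizer (D : Set G) := by
      intro hcon
      have h1 : (Subgroup.zpowers y).Normal := by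
        apply hnorm
        · intro d hd
          apply Subgroup.centralizer_le_normalizer
          rw [Subgroup.mem_centralizer_iff]
          intro z hz
          have := Subgroup.mem_centralizer_iff.mp (hcon hz) d hd
          exact this.symm
        · exact Subgroup.le_normalizer (Subgroup.mem_zpowers y)
      have h2 := hcore' _ h1 (by rw [Nat.card_zpowers]; exact hyop)
      rw [h2, sup_bot_eq] at hytop
      apply hno
      apply H39.PNilp.of_isPGroup
      rw [hytop] at hD
      exact hD.of_surjective (⊤ : Subgroup G).subtype (fun g => ⟨⟨g, trivial⟩, rfl⟩)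
    have hcop : (Nat.card (Subgroup.zpowers y)).Coprime (Nat.card D) := by
      obtain ⟨j, hj⟩ := hD.exists_card_eq
      rw [Nat.card_zpowers, hj]
      exact Nat.Coprime.pow_right j hyop
    have hel : ∀ z ∈ Subgroup.zpowers y, Nat.Coprime (orderOf z) p := by
      intro z hz
      have h1 : orderOf z ∣ orderOf y := by
        rw [← Nat.card_zpowers y, ← Subgroup.orderOf_mk z hz]; exact orderOf_dvd_natCard _
      exact Nat.Coprime.coprime_dvd_left h1 hyop
    have hnil : Group.IsNilpotent D := hD.isNilpotent
    -- D abelian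
    have hab : ⁅D, D⁆ = ⊥ := by
      by_contra hne
      have hq := hquo ⁅D, D⁆ hne
      apply hyc
      apply H1.Coprime2.le_centralizer_of_frattini
      · exact Nat.Coprime.coprime_dvd_right (Subgroup.card_subgroup_dvd_card _) hcop
      · intro z hz d hd
        have h1 := comm_mem ⁅D, D⁆ hq D hD hDn z (hel z hz) d hd
        have h2 : ⁅D, D⁆ ≤ (frattini D).map D.subtype := by
          rw [← Subgroup.map_subtype_commutator]
          exact Subgroup.map_mono H1.Frat.commutator_le_frattini
        exact h2 h1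
    -- the central subgroup generated by c
    have hDc : ∀ d ∈ D, d * c = c * d := by
      intro d hd
      rw [Subgroup.commutator_eq_bot_iff_le_centralizer] at hab
      exact (Subgroup.mem_centralizer_iff.mp (hab hd) c hcD).symm
    have hZn : (Subgroup.zpowers c).Normal := by
      apply hnorm
      · intro d hd
        apply Subgroup.centralizer_le_normalizer
        rw [Subgroup.mem_centralizer_iff]
        rintro z ⟨j, rfl⟩
        exact ((Commute.zpow_left (show Commute c d from (hDc d hd).symm) j)).eq
      · apply Subgroup.centralizer_le_normalizer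
        rw [Subgroup.mem_centralizer_iff]
        rintro z ⟨j, rfl⟩
        exact ((Commute.zpow_left (show Commute c y from hcy) j)).eq
    have hZb : Subgroup.zpowers c ≠ ⊥ := by
      rw [Ne, Subgroup.zpowers_eq_bot]; exact hc1
    have hq := hquo (Subgroup.zpowers c) hZb
    apply hyc
    apply H1.Coprime2.le_centralizer_of_series (Subgroup.zpowers y) D (Subgroup.zpowers c)
      (by rw [Subgroup.normalizer_eq_top]; exact le_top) hcop (Or.inr inferInstance)
    · rw [Subgroup.commutator_comm, Subgroup.commutator_le]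
      intro z hz d hd
      exact comm_mem _ hq D hD hDn z (hel z hz) d hd
    · rw [Subgroup.commutator_comm, Subgroup.commutator_eq_bot_iff_le_centralizer, Subgroup.zpowers_le, Subgroup.mem_centralizer_iff]
      rintro z ⟨j, rfl⟩
      exact ((Commute.zpow_left (show Commute c y from hcy) j)).eq


/-- Let G be a finite group and p a prime. Then G has a normal p-complement if and only if every section K = H/N of G (N a normal subgroup of a subgroup H) whose largest normal subgroup of order prime to p is trivial contains an element whose order equals the exponent of K. -/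
theorem result {G : Type*} [Group G] [Finite G] (p : ℕ) [Fact p.Prime] :
    Cfsg.HasNormalPComplement p G ↔
      ∀ (H : Subgroup G) (N : Subgroup H) [N.Normal], Cfsg.pPrimeCore p (H ⧸ N) = ⊥ →
        ∃ k : H ⧸ N, orderOf k = Monoid.exponent (H ⧸ N) := by
  constructor
  · intro h H N _ hcore
    have h1 : HasNormalPComplement p (H ⧸ N) := H2.NPC.quotient (H2.NPC.subgroup h H) N
    obtain ⟨K, hK, hco, n, hn⟩ := H39.PNilp.iff_exists.1 h1
    have hKb : K = ⊥ := by
      rw [eq_bot_iff, ← hcore]
      exact le_sSup ⟨hK, hco⟩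
    rw [hKb, Subgroup.index_bot] at hn
    exact exists_exponent (IsPGroup.of_card hn)
  · intro h
    apply main (Nat.card G) G rfl
    intro K _ L f hf
    have e : (L ⧸ f.ker) ≃* K := QuotientGroup.quotientKerEquivOfSurjective f hf
    exact Good.congr e (h L f.ker)


end Cfsg.Agent.S4238
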