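import Mathlib
import Cfsg.Statements.S4242
import Cfsg.Agent.Lib.H39.PNilp
import Cfsg.Agent.Lib.H2.Frobenius
import Cfsg.Agent.Lib.H1.Coprime2
import Cfsg.Agent.Lib.H73.Nilp

set_option autoImplicit false
open Cfsg

namespace Cfsg.Agent.S4242

open scoped commutatorElement

theorem nilp_of_le {G : Type*} [Group G] {H M : Subgroup G} (h : H ≤ M) (hM : Group.IsNilpotent M) :
    Group.IsNilpotent H := by
  have : Group.IsNilpotent (H.subgroupOf M) := inferInstance
  exact Group.nilpotent_of_surjective (f := (Subgroup.subgroupOfEquivOfLe h).toMonoidHom)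
    (Subgroup.subgroupOfEquivOfLe h).surjective

theorem card_sup_dvd {G : Type*} [Group G] [Finite G] (A S : Subgroup G) (h : A ≤ Subgroup.normalizer (S : Set G)) :
    Nat.card (A ⊔ S : Subgroup G) ≤ Nat.card A * Nat.card S := by
  rw [← Nat.card_prod]
  refine Nat.card_le_card_of_surjective (fun x : A × S => (⟨(x.1 : G) * (x.2 : G), mul_mem (Subgroup.mem_sup_left x.1.2) (Subgroup.mem_sup_right x.2.2)⟩ : (A ⊔ S : Subgroup G))) ?_
  rintro ⟨x, hx⟩
  have h1 : x ∈ ((A ⊔ S : Subgroup G) : Set G) := hx
  rw [Subgroup.coe_mul_of_left_le_normalizer_right A S h] at h1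
  obtain ⟨a, ha, b, hb, rfl⟩ := Set.mem_mul.mp h1
  exact ⟨(⟨a, ha⟩, ⟨b, hb⟩), rfl⟩

theorem mem_of_sup {G : Type*} [Group G] [Finite G] {p : ℕ} (Q : Subgroup G) (g : G) [hQn : Q.Normal]
    (htop : Q ⊔ Subgroup.zpowers g = ⊤) (hgo : (orderOf g).Coprime p) (c : G) (hc : ∃ k, orderOf c = p ^ k) : c ∈ Q := by
  obtain ⟨k, hk⟩ := hc
  have hgen : ∀ x : G ⧸ Q, x ∈ Subgroup.zpowers (g : G ⧸ Q) := by
    have h1 : (⊤ : Subgroup (G ⧸ Q)) ≤ Subgroup.zpowers (g : G ⧸ Q) := by
      rw [← Subgroup.map_top_of_surjective _ (QuotientGroup.mk'_surjective Q), ← htop, Subgroup.map_sup]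
      refine sup_le ?_ ?_
      · have : Q.map (QuotientGroup.mk' Q) = ⊥ := by
          rw [Subgroup.map_eq_bot_iff, QuotientGroup.ker_mk']
        rw [this]; exact bot_le
      · rw [MonoidHom.map_zpowers]; rfl
    intro x
    exact h1 trivial
  have hidx : Q.index ∣ orderOf g := by
    rw [Subgroup.index_eq_card]
    have h1 : Nat.card (G ⧸ Q) = orderOf (g : G ⧸ Q) := (orderOf_eq_card_of_forall_mem_zpowers hgen).symm
    rw [h1]
    exact orderOf_map_dvd (QuotientGroup.mk' Q) g
  have hidxp : Nat.Coprime Q.index p := Nat.Coprime.coprime_dvd_left hidx hgo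
  rw [← QuotientGroup.eq_one_iff, ← orderOf_eq_one_iff]
  have h1 : orderOf (c : G ⧸ Q) ∣ p ^ k := by
    rw [← hk]; exact orderOf_map_dvd (QuotientGroup.mk' Q) c
  have h2 : orderOf (c : G ⧸ Q) ∣ Q.index := by
    rw [Subgroup.index_eq_card]; exact orderOf_dvd_natCard _
  exact Nat.eq_one_of_dvd_coprimes (Nat.Coprime.pow_right k hidxp) h2 h1


/-- Let G be a finite group and p a prime dividing its order. Every maximal subgroup of G of order divisible by p is nilpotent if and only if G is nilpotent, or G is a minimal non-nilpotent group, or G is the internal direct product of a normal subgroup of order p and a normal minimal non-nilpotent subgroup of order prime to p. -/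
theorem result {G : Type*} [Group G] [Finite G] (p : ℕ) (hp : p.Prime) (hpG : p ∣ Nat.card G) :
    (∀ M : Subgroup G, IsCoatom M → p ∣ Nat.card M → Group.IsNilpotent M) ↔
      (Group.IsNilpotent G ∨ Cfsg.IsMinimalNonNilpotent G ∨
        ∃ Z K : Subgroup G, Z.Normal ∧ K.Normal ∧ Z ⊓ K = ⊥ ∧ Z ⊔ K = ⊤ ∧ Nat.card Z = p ∧
          Cfsg.IsMinimalNonNilpotent K ∧ ¬ p ∣ Nat.card K) := by
  have := Fact.mk hp
  constructor
  · intro h
    by_contra hcon
    push Not at hcon
    obtain ⟨hnn, hnmin, hno⟩ := hcon
    -- a maximal subgroup that is not nilpotent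
    obtain ⟨M, hM, hMn⟩ : ∃ M : Subgroup G, IsCoatom M ∧ ¬ Group.IsNilpotent M := by
      by_contra hc
      push Not at hc
      apply hnmin
      refine ⟨hnn, ?_⟩
      intro H hH
      obtain ⟨M, hM, hHM⟩ := (eq_top_or_exists_le_coatom H).resolve_left hH
      exact nilp_of_le hHM (hc M hM)
    have hpM : ¬ p ∣ Nat.card M := fun hd => hMn (h M hM hd)
    -- subgroups of order divisible by p
    have hsub : ∀ H : Subgroup G, H ≠ ⊤ → p ∣ Nat.card H → Group.IsNilpotent H := by
      intro H hH hd
      obtain ⟨M, hM, hHM⟩ := (eq_top_or_exists_le_coatom H).resolve_left hH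
      exact nilp_of_le hHM (h M hM (hd.trans (Subgroup.card_dvd_of_le hHM)))
    obtain ⟨P⟩ : Nonempty (Sylow p G) := inferInstance
    have hPb : (P : Subgroup G) ≠ ⊥ := P.ne_bot_of_dvd_card hpG
    have hpP : p ∣ Nat.card P := by
      obtain ⟨j, hj⟩ := P.isPGroup'.exists_card_eq
      rcases Nat.eq_zero_or_pos j with h0 | h0
      · exact absurd (Subgroup.card_eq_one.mp (by rw [hj, h0, pow_zero])) hPb
      · rw [hj]; exact dvd_pow_self p h0.ne'
    -- normality of P
    have hPn : (P : Subgroup G).Normal := by
      by_contra hPn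
      have hNPC : HasNormalPComplement p G := by
        apply H2.Frobenius.hasNPC_of_local
        intro Q hQ g hg hgo
        by_cases hQb : Q = ⊥
        · subst hQb
          rw [Subgroup.mem_centralizer_iff]
          intro d hd
          have : d = 1 := hd
          rw [this, one_mul, mul_one]
        · by_cases htop : Q ⊔ Subgroup.zpowers g = ⊤
          · -- then Q is a normal Sylow subgroup
            exfalso
            have hQn : Q.Normal := by
              rw [← Subgroup.normalizer_eq_top_iff, eq_top_iff, ← htop]
              refine sup_le Subgroup.le_normalizer ?_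
              rw [Subgroup.zpowers_le]; exact hg
            have hQP : Q = P := by
              have hle := hQ.le_sylow_of_normal P
              refine le_antisymm hle ?_
              intro c hc
              obtain ⟨k, hk⟩ := (IsPGroup.iff_orderOf.mp P.isPGroup') ⟨c, hc⟩
              rw [Subgroup.orderOf_mk] at hk
              exact mem_of_sup Q g htop hgo c ⟨k, hk⟩
            rw [hQP] at hQn
            exact hPn hQn
          · have hd : p ∣ Nat.card (Q ⊔ Subgroup.zpowers g : Subgroup G) := by
              have h1 : p ∣ Nat.card Q := by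
                obtain ⟨j, hj⟩ := hQ.exists_card_eq
                rcases Nat.eq_zero_or_pos j with h0 | h0
                · exact absurd (Subgroup.card_eq_one.mp (by rw [hj, h0, pow_zero])) hQb
                · rw [hj]; exact dvd_pow_self p h0.ne'
              exact h1.trans (Subgroup.card_dvd_of_le le_sup_left)
            exact H73.Nilp.mem_centralizer_of_le (hsub _ htop hd) hQ le_sup_left
              (Subgroup.mem_sup_right (Subgroup.mem_zpowers g)) hgo
      obtain ⟨K, hK, hKc, n, hn⟩ := H39.PNilp.iff_exists.1 hNPC
      have hcop : (Nat.card P).Coprime (Nat.card K) := H1.Cores.coprime_card_of_isPGroup P.isPGroup' hKc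
      have hPK : (P : Subgroup G) ≤ Subgroup.normalizer (K : Set G) := by
        rw [Subgroup.normalizer_eq_top]; exact le_top
      have hsolv : Group.IsSolvable P := by
        have := P.isPGroup'.isNilpotent
        infer_instance
      have hPKtop : (P : Subgroup G) ⊔ K = ⊤ := by
        apply Subgroup.eq_top_of_card_eq
        apply Nat.dvd_antisymm (Subgroup.card_subgroup_dvd_card _)
        have h1 : Nat.card G = Nat.card K * p ^ n := by rw [← hn, Subgroup.card_mul_index]
        have h2 : Nat.card P = p ^ n := by
          rw [P.card_eq_multiplicity, h1, Nat.factorization_mul Nat.card_pos.ne' (pow_pos hp.pos n).ne',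
            hp.factorization_pow]
          simp [Nat.factorization_eq_zero_of_not_dvd ((Nat.Prime.coprime_iff_not_dvd hp).mp hKc.symm)]
        rw [h1, ← h2]
        have h3 : Nat.card K ∣ Nat.card ((P : Subgroup G) ⊔ K : Subgroup G) := Subgroup.card_dvd_of_le le_sup_right
        have h4 : Nat.card P ∣ Nat.card ((P : Subgroup G) ⊔ K : Subgroup G) := Subgroup.card_dvd_of_le le_sup_left
        exact hcop.symm.mul_dvd_of_dvd_of_dvd h3 h4
      by_cases hall : ∀ q : ℕ, q.Prime → ∀ S : Subgroup G, H1.Coprime2.IsSylIn q K S →
          (P : Subgroup G) ≤ Subgroup.normalizer (S : Set G) → (P : Subgroup G) ⊔ S ≠ ⊤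
      · -- P centralizes K
        have hcent : K ≤ Subgroup.centralizer ((P : Subgroup G) : Set G) := by
          have h1 : K ⊓ Subgroup.centralizer ((P : Subgroup G) : Set G) = K := by
            apply Subgroup.eq_of_le_of_card_ge inf_le_left
            apply Nat.le_of_dvd Nat.card_pos
            rw [Nat.dvd_iff_prime_pow_dvd_dvd]
            intro q k hq hqk
            have := Fact.mk hq
            rcases Nat.eq_zero_or_pos k with hk0 | hk0
            · rw [hk0, pow_zero]; exact one_dvd _
            obtain ⟨S, hS, hPS⟩ := H1.Coprime2.exists_invariant_sylow (P : Subgroup G) K hPK hcop (Or.inl hsolv) q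
            have hne := hall q hq S hS hPS
            have hnil := hsub _ hne (hpP.trans (Subgroup.card_dvd_of_le le_sup_left))
            have hqp : q ≠ p := by
              rintro rfl
              have h5 : q ∣ Nat.card K := (dvd_pow_self q hk0.ne').trans hqk
              exact ((Nat.Prime.coprime_iff_not_dvd hq).mp hKc.symm) h5
            have hSC : S ≤ Subgroup.centralizer ((P : Subgroup G) : Set G) := by
              intro s hs
              refine H73.Nilp.mem_centralizer_of_le hnil P.isPGroup' le_sup_left (Subgroup.mem_sup_right hs) ?_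
              obtain ⟨j, hj⟩ := (IsPGroup.iff_orderOf.mp hS.isPGroup) ⟨s, hs⟩
              rw [Subgroup.orderOf_mk] at hj
              rw [hj]
              exact Nat.Coprime.pow_left j ((Nat.coprime_primes hq hp).mpr hqp)
            have h3 : q ^ k ∣ Nat.card S := by
              rw [hS.2]
              exact (Nat.Prime.pow_dvd_iff_dvd_ordProj hq Nat.card_pos.ne').mp hqk
            exact h3.trans (Subgroup.card_dvd_of_le (le_inf hS.1 hSC))
          rw [← h1]; exact inf_le_right
        apply hPn
        rw [← Subgroup.normalizer_eq_top_iff, eq_top_iff, ← hPKtop]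
        exact sup_le Subgroup.le_normalizer (hcent.trans (Subgroup.centralizer_le_normalizer _))
      · -- K is a Sylow q-subgroup
        push Not at hall
        obtain ⟨q, hq, S, hS, hPS, htop⟩ := hall
        have := Fact.mk hq
        -- M is a q-group, contradiction
        apply hMn
        have hKS : K = S := by
          symm
          apply Subgroup.eq_of_le_of_card_ge hS.1
          -- |G| = |P| |S|
          have h1 : Nat.card ((P : Subgroup G) ⊔ S : Subgroup G) ≤ Nat.card P * Nat.card S := by
            exact card_sup_dvd _ _ hPS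
          rw [htop, ← hPKtop] at h1
          have h2 : Nat.card P * Nat.card K ≤ Nat.card ((P : Subgroup G) ⊔ K : Subgroup G) := by
            apply Nat.le_of_dvd Nat.card_pos
            exact hcop.mul_dvd_of_dvd_of_dvd (Subgroup.card_dvd_of_le le_sup_left) (Subgroup.card_dvd_of_le le_sup_right)
          exact Nat.le_of_mul_le_mul_left (h2.trans h1) Nat.card_pos
        have hMK : M ≤ K := by
          intro x hx
          rw [H39.PNilp.mem_iff_coprime K hKc ⟨n, hn⟩]
          have h1 : orderOf x ∣ Nat.card M := by
            rw [← Subgroup.orderOf_mk x hx]; exact orderOf_dvd_natCard _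
          exact Nat.Coprime.coprime_dvd_left h1 ((Nat.Prime.coprime_iff_not_dvd hp).mpr hpM).symm
        rw [hKS] at hMK
        exact (hS.isPGroup.to_le hMK).isNilpotent
    -- now P is normal; M is a complement
    have hPM : ¬ (P : Subgroup G) ≤ M := by
      intro hle
      exact hpM (hpP.trans (Subgroup.card_dvd_of_le hle))
    have htop : (P : Subgroup G) ⊔ M = ⊤ := by
      rcases hM.le_iff.mp (le_sup_right : M ≤ (P : Subgroup G) ⊔ M) with h1 | h1
      · exact h1
      · exfalso; apply hPM; rw [← h1]; exact le_sup_left
    have hinf : (P : Subgroup G) ⊓ M = ⊥ := by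
      have hc : (Nat.card P).Coprime (Nat.card M) :=
        H1.Cores.coprime_card_of_isPGroup P.isPGroup' ((Nat.Prime.coprime_iff_not_dvd hp).mpr hpM).symm
      exact (Subgroup.disjoint_of_coprime_natCard hc).eq_bot
    have hcardPM : ∀ L : Subgroup G, L ≤ M → (P : Subgroup G) ⊔ L = ⊤ → L = M := by
      intro L hLM hL
      apply Subgroup.eq_of_le_of_card_ge hLM
      have h1 : Nat.card ((P : Subgroup G) ⊔ L : Subgroup G) ≤ Nat.card P * Nat.card L := by
        rw [sup_comm, mul_comm]
        exact Nat.le_of_dvd (Nat.mul_pos Nat.card_pos Nat.card_pos) (H1.Cores.card_sup_dvd_mul L (P : Subgroup G))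
      have h2 : Nat.card P * Nat.card M ≤ Nat.card ((P : Subgroup G) ⊔ M : Subgroup G) := by
        apply Nat.le_of_dvd Nat.card_pos
        have hc : (Nat.card P).Coprime (Nat.card M) :=
          H1.Cores.coprime_card_of_isPGroup P.isPGroup' ((Nat.Prime.coprime_iff_not_dvd hp).mpr hpM).symm
        exact hc.mul_dvd_of_dvd_of_dvd (Subgroup.card_dvd_of_le le_sup_left) (Subgroup.card_dvd_of_le le_sup_right)
      rw [htop] at h2
      rw [hL] at h1
      exact Nat.le_of_mul_le_mul_left (h2.trans h1) Nat.card_pos
    -- proper subgroups of M are nilpotent and centralize P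
    have hLprop : ∀ L : Subgroup G, L ≤ M → L ≠ M → Group.IsNilpotent L ∧ L ≤ Subgroup.centralizer ((P : Subgroup G) : Set G) := by
      intro L hLM hne
      have hne' : (P : Subgroup G) ⊔ L ≠ ⊤ := fun hc => hne (hcardPM L hLM hc)
      have hnil := hsub _ hne' (hpP.trans (Subgroup.card_dvd_of_le le_sup_left))
      refine ⟨nilp_of_le le_sup_right hnil, ?_⟩
      intro x hx
      refine H73.Nilp.mem_centralizer_of_le hnil P.isPGroup' le_sup_left (Subgroup.mem_sup_right hx) ?_
      have h1 : orderOf x ∣ Nat.card M := by
        rw [← Subgroup.orderOf_mk x (hLM hx)]; exact orderOf_dvd_natCard _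
      exact Nat.Coprime.coprime_dvd_left h1 ((Nat.Prime.coprime_iff_not_dvd hp).mpr hpM).symm
    have hMcent : M ≤ Subgroup.centralizer ((P : Subgroup G) : Set G) := by
      intro x hx
      refine (hLprop (Subgroup.zpowers x) (by rw [Subgroup.zpowers_le]; exact hx) ?_).2 (Subgroup.mem_zpowers x)
      intro hc
      apply hMn
      rw [← hc]
      have h5 : IsMulCommutative (Subgroup.zpowers x) := inferInstance
      exact ⟨1, Subgroup.upperCentralSeries_one_eq_top_iff.mpr h5⟩
    have hMnorm : M.Normal := by
      rw [← Subgroup.normalizer_eq_top_iff, eq_top_iff, ← htop]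
      refine sup_le ?_ Subgroup.le_normalizer
      intro x hx
      apply Subgroup.centralizer_le_normalizer
      rw [Subgroup.mem_centralizer_iff]
      intro m hm
      exact (Subgroup.mem_centralizer_iff.mp (hMcent hm) x hx).symm
    have hMmin : Cfsg.IsMinimalNonNilpotent M := by
      refine ⟨hMn, ?_⟩
      intro H hH
      have h1 := (hLprop (H.map M.subtype) (Subgroup.map_subtype_le H) (by
        intro hc
        apply hH
        apply Subgroup.map_injective M.subtype_injective
        rw [hc, ← MonoidHom.range_eq_map, Subgroup.range_subtype])).1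
      exact Group.nilpotent_of_surjective (f := (H.equivMapOfInjective M.subtype M.subtype_injective).symm.toMonoidHom)
        (H.equivMapOfInjective M.subtype M.subtype_injective).symm.surjective
    -- |P| = p
    have hPp : Nat.card P = p := by
      obtain ⟨x, hx⟩ := exists_prime_orderOf_dvd_card' p hpP
      -- Z = zpowers x, Z M is a subgroup, so equals G
      have hxo : orderOf (x : G) = p := by rw [Subgroup.orderOf_coe]; exact hx
      have hZM : Subgroup.zpowers (x : G) ⊔ M = ⊤ := by
        rcases hM.le_iff.mp (le_sup_right : M ≤ Subgroup.zpowers (x : G) ⊔ M) with h1 | h1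
        · exact h1
        · exfalso
          have h2 : (x : G) ∈ M := by rw [← h1]; exact Subgroup.mem_sup_left (Subgroup.mem_zpowers _)
          apply hpM
          rw [← hxo, ← Subgroup.orderOf_mk (x : G) h2]
          exact orderOf_dvd_natCard _
      have h1 : Nat.card (Subgroup.zpowers (x : G) ⊔ M : Subgroup G) ∣ Nat.card (Subgroup.zpowers (x : G)) * Nat.card M :=
        H1.Cores.card_sup_dvd_mul _ _
      rw [hZM, ← htop, Nat.card_zpowers, hxo] at h1
      have hc : (Nat.card P).Coprime (Nat.card M) :=
        H1.Cores.coprime_card_of_isPGroup P.isPGroup' ((Nat.Prime.coprime_iff_not_dvd hp).mpr hpM).symm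
      have h2 : Nat.card P * Nat.card M ∣ Nat.card ((P : Subgroup G) ⊔ M : Subgroup G) :=
        hc.mul_dvd_of_dvd_of_dvd (Subgroup.card_dvd_of_le le_sup_left) (Subgroup.card_dvd_of_le le_sup_right)
      have h3 := Nat.dvd_of_mul_dvd_mul_right Nat.card_pos (h2.trans h1)
      exact Nat.dvd_antisymm h3 hpP
    exact hpM (hno P M hPn hMnorm hinf htop hPp hMmin)
  · rintro (h | h | ⟨Z, K, hZ, hK, hinf, htop, hZp, hKmin, hpK⟩) M hM hd
    · infer_instance
    · exact h.2 M hM.1
    · -- M contains Z
      have hcopZK : (Nat.card Z).Coprime (Nat.card K) := by rw [hZp]; exact (Nat.Prime.coprime_iff_not_dvd hp).mpr hpK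
      have hcomm : ∀ z ∈ Z, ∀ k ∈ K, z * k = k * z := by
        have h1 : ⁅Z, K⁆ = ⊥ := by
          rw [eq_bot_iff, ← hinf]; exact Subgroup.commutator_le_inf _ _
        rw [Subgroup.commutator_eq_bot_iff_le_centralizer] at h1
        intro z hz k hk
        exact (Subgroup.mem_centralizer_iff.mp (h1 hz) k hk).symm
      have hidx : ¬ p ∣ Z.index := by
        intro hd2
        apply hpK
        have h1 : Z.index = Nat.card K := by
          have h2 := Z.card_mul_index
          have h3 : Nat.card G = Nat.card Z * Nat.card K := by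
            apply Nat.dvd_antisymm
            · rw [← Subgroup.card_top (G := G), ← htop]
              exact H1.Cores.card_sup_dvd_mul Z K
            · exact hcopZK.mul_dvd_of_dvd_of_dvd (Subgroup.card_subgroup_dvd_card _) (Subgroup.card_subgroup_dvd_card _)
          rw [h3] at h2
          exact Nat.eq_of_mul_eq_mul_left Nat.card_pos h2
        rwa [h1] at hd2
      have hZM : Z ≤ M := by
        obtain ⟨x, hx⟩ := exists_prime_orderOf_dvd_card' p hd
        have hxo : orderOf (x : G) = p := by rw [Subgroup.orderOf_coe]; exact hx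
        have hxZ : (x : G) ∈ Z := by
          rw [← QuotientGroup.eq_one_iff, ← orderOf_eq_one_iff]
          have h1 : orderOf ((x : G) : G ⧸ Z) ∣ p := by
            rw [← hxo]; exact orderOf_map_dvd (QuotientGroup.mk' Z) _
          have h2 : orderOf ((x : G) : G ⧸ Z) ∣ Z.index := by
            rw [Subgroup.index_eq_card]; exact orderOf_dvd_natCard _
          exact Nat.eq_one_of_dvd_coprimes ((Nat.Prime.coprime_iff_not_dvd hp).mpr hidx) h1 h2
        have hZx : Subgroup.zpowers (x : G) = Z := by
          apply Subgroup.eq_of_le_of_card_ge (by rw [Subgroup.zpowers_le]; exact hxZ)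
          rw [Nat.card_zpowers, hxo, hZp]
        rw [← hZx, Subgroup.zpowers_le]
        exact x.2
      -- M = Z (M ∩ K)
      have hKM : M ⊓ K ≠ K := by
        intro hc
        apply hM.1
        rw [eq_top_iff, ← htop]
        exact sup_le hZM (inf_eq_right.mp hc)
      have hnil : Group.IsNilpotent (M ⊓ K : Subgroup G) := by
        have h1 := hKmin.2 ((M ⊓ K).subgroupOf K) (by
          intro hc
          apply hKM
          rw [Subgroup.subgroupOf_eq_top] at hc
          exact le_antisymm inf_le_right hc)
        exact Group.nilpotent_of_surjective (f := (Subgroup.subgroupOfEquivOfLe (inf_le_right : M ⊓ K ≤ K)).toMonoidHom)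
          (Subgroup.subgroupOfEquivOfLe (inf_le_right : M ⊓ K ≤ K)).surjective
      have hZnil : Group.IsNilpotent Z := by
        have : IsPGroup p Z := IsPGroup.of_card (n := 1) (by rw [hZp, pow_one])
        exact this.isNilpotent
      let f : Z × (M ⊓ K : Subgroup G) →* M :=
        MonoidHom.noncommCoprod (Subgroup.inclusion hZM) (Subgroup.inclusion (inf_le_left : M ⊓ K ≤ M)) (by
          intro z k
          apply Subtype.ext
          exact hcomm z z.2 k k.2.2)
      have hf : Function.Surjective f := by
        intro m
        have h1 : (m : G) ∈ Z ⊔ K := by rw [htop]; trivial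
        rw [← SetLike.mem_coe, Subgroup.mul_normal] at h1
        obtain ⟨z, hz, k, hk, hzk⟩ := Set.mem_mul.mp h1
        have hkM : k ∈ M := by
          have : k = z⁻¹ * (m : G) := by rw [← hzk]; group
          rw [this]
          exact mul_mem (inv_mem (hZM hz)) m.2
        refine ⟨(⟨z, hz⟩, ⟨k, hkM, hk⟩), ?_⟩
        apply Subtype.ext
        exact hzk
      exact Group.nilpotent_of_surjective (f := f) hf


end Cfsg.Agent.S4242
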