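import Cfsg.Statements.S4244

set_option autoImplicit false
open Cfsg

namespace Cfsg.Agent.S4244

/-- Let H be a subnormal subgroup of a finite group G. Then for every subgroup K of G the index of H ∩ K in H divides the index of K in G. -/
theorem result {G : Type*} [Group G] [Finite G] (H : Subgroup G) (hH : H.IsSubnormal) (K : Subgroup G) :
    (H ⊓ K).relIndex H ∣ K.index := by
  have norm : ∀ {L : Type _} [Group L] [Finite L] (N K : Subgroup L), N.Normal → K.relIndex N ∣ K.index := by
    intro L _ _ N K hN
    have h1 : N.relIndex (K ⊔ N) = N.relIndex K := Subgroup.relIndex_sup_right K N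
    have hcards : Nat.card (K ⊔ N : Subgroup L) * Nat.card (K ⊓ N : Subgroup L) = Nat.card K * Nat.card N := by
      have a1 : Nat.card N * N.relIndex (K ⊔ N) = Nat.card (K ⊔ N : Subgroup L) := by
        have := (N.subgroupOf (K ⊔ N)).card_mul_index
        rwa [Nat.card_congr (Subgroup.subgroupOfEquivOfLe (le_sup_right : N ≤ K ⊔ N)).toEquiv] at this
      have a2 : Nat.card (K ⊓ N : Subgroup L) * N.relIndex K = Nat.card K := by
        have := (N.subgroupOf K).card_mul_index
        have e : Nat.card (N.subgroupOf K) = Nat.card (K ⊓ N : Subgroup L) := by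
          rw [← Subgroup.inf_subgroupOf_left, Nat.card_congr (Subgroup.subgroupOfEquivOfLe (inf_le_left : K ⊓ N ≤ K)).toEquiv]
        rwa [e] at this
      rw [h1] at a1
      rw [← a1, ← a2]; ring
    have h2 : K.relIndex N = K.relIndex (K ⊔ N) := by
      have b1 : Nat.card (K ⊓ N : Subgroup L) * K.relIndex N = Nat.card N := by
        have := (K.subgroupOf N).card_mul_index
        have e : Nat.card (K.subgroupOf N) = Nat.card (K ⊓ N : Subgroup L) := by
          rw [← Subgroup.inf_subgroupOf_right, Nat.card_congr (Subgroup.subgroupOfEquivOfLe (inf_le_right : K ⊓ N ≤ N)).toEquiv]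
        rwa [e] at this
      have b2 : Nat.card K * K.relIndex (K ⊔ N) = Nat.card (K ⊔ N : Subgroup L) := by
        have := (K.subgroupOf (K ⊔ N)).card_mul_index
        rwa [Nat.card_congr (Subgroup.subgroupOfEquivOfLe (le_sup_left : K ≤ K ⊔ N)).toEquiv] at this
      have p1 : 0 < Nat.card (K ⊓ N : Subgroup L) := Nat.card_pos
      have p2 : 0 < Nat.card K := Nat.card_pos
      rw [← b1, ← b2] at hcards
      have : Nat.card K * Nat.card (K ⊓ N : Subgroup L) * K.relIndex N = Nat.card K * Nat.card (K ⊓ N : Subgroup L) * K.relIndex (K ⊔ N) := by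
        linarith [hcards]
      exact Nat.eq_of_mul_eq_mul_left (Nat.mul_pos p2 p1) this
    rw [h2]
    exact Subgroup.relIndex_dvd_index_of_le le_sup_left
  have key : K.relIndex H ∣ K.index := by
    induction hH with
    | top => rw [Subgroup.relIndex_top_right]
    | step H L hle hL hN ih =>
      refine dvd_trans ?_ ih
      have := norm (H.subgroupOf L) (K.subgroupOf L) hN
      rwa [Subgroup.relIndex_subgroupOf hle] at this
  rwa [inf_comm, Subgroup.inf_relIndex_right]


end Cfsg.Agent.S4244
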