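import Mathlib
import Cfsg.Statements.S4245
import Cfsg.Agent.Lib.H4.Burnside

set_option autoImplicit false
open Cfsg

namespace Cfsg.Agent.S4245

/-- `X` is cyclic-by-(cyclic of 2-power order) -/
def Q (X : Type*) [Group X] : Prop :=
  ∃ (B : Subgroup X) (_ : B.Normal), IsCyclic B ∧ IsCyclic (X ⧸ B) ∧ ∃ r, Nat.card (X ⧸ B) = 2 ^ r

theorem Q.of_injective {X Y : Type*} [Group X] [Group Y] [Finite X] (hX : Q X) (f : Y →* X)
    (hf : Function.Injective f) : Q Y := by
  obtain ⟨B, hB, hc, hq, r, hr⟩ := hX
  have hn : (B.comap f).Normal := inferInstance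
  refine ⟨B.comap f, hn, ?_, ?_, ?_⟩
  · refine isCyclic_of_injective (f.subgroupComap B) ?_
    intro a b hab
    have h1 := congrArg Subtype.val hab
    exact Subtype.ext (hf h1)
  · have hinj : Function.Injective (QuotientGroup.map (B.comap f) B f le_rfl) := by
      rw [injective_iff_map_eq_one]
      intro a
      induction a using QuotientGroup.induction_on with
      | H z =>
        intro hz
        rw [QuotientGroup.map_mk, QuotientGroup.eq_one_iff] at hz
        rw [QuotientGroup.eq_one_iff]
        exact hz
    exact isCyclic_of_injective _ hinj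
  · have hinj : Function.Injective (QuotientGroup.map (B.comap f) B f le_rfl) := by
      rw [injective_iff_map_eq_one]
      intro a
      induction a using QuotientGroup.induction_on with
      | H z =>
        intro hz
        rw [QuotientGroup.map_mk, QuotientGroup.eq_one_iff] at hz
        rw [QuotientGroup.eq_one_iff]
        exact hz
    have h1 : Nat.card (Y ⧸ B.comap f) ∣ Nat.card (X ⧸ B) := Subgroup.card_dvd_of_injective _ hinj
    rw [hr] at h1
    obtain ⟨k, _, hk⟩ := (Nat.dvd_prime_pow Nat.prime_two).mp h1
    exact ⟨k, hk⟩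

theorem Q.of_surjective {X Y : Type*} [Group X] [Group Y] [Finite X] (hX : Q X) (f : X →* Y)
    (hf : Function.Surjective f) : Q Y := by
  obtain ⟨B, hB, hc, hq, r, hr⟩ := hX
  have hn : (B.map f).Normal := Subgroup.Normal.map hB f hf
  have hsurj : Function.Surjective (QuotientGroup.map B (B.map f) f (Subgroup.le_comap_map f B)) := by
    intro z
    induction z using QuotientGroup.induction_on with
    | H y =>
      obtain ⟨x, rfl⟩ := hf y
      exact ⟨(x : X ⧸ B), rfl⟩
  refine ⟨B.map f, hn, ?_, ?_, ?_⟩
  · exact isCyclic_of_surjective (f.subgroupMap B) (f.subgroupMap_surjective B)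
  · exact isCyclic_of_surjective _ hsurj
  · have h1 : Nat.card (Y ⧸ B.map f) ∣ Nat.card (X ⧸ B) := Subgroup.card_dvd_of_surjective _ hsurj
    rw [hr] at h1
    obtain ⟨k, _, hk⟩ := (Nat.dvd_prime_pow Nat.prime_two).mp h1
    exact ⟨k, hk⟩

theorem relIndex_dvd {L : Type*} [Group L] [Finite L] (N K : Subgroup L) (hN : N.Normal) :
    K.relIndex N ∣ K.index := by
  have h1 : N.relIndex (K ⊔ N) = N.relIndex K := Subgroup.relIndex_sup_right K N
  have hcards : Nat.card (K ⊔ N : Subgroup L) * Nat.card (K ⊓ N : Subgroup L) = Nat.card K * Nat.card N := by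
    have a1 : Nat.card N * N.relIndex (K ⊔ N) = Nat.card (K ⊔ N : Subgroup L) := by
      have := (N.subgroupOf (K ⊔ N)).card_mul_index
      rwa [Nat.card_congr (Subgroup.subgroupOfEquivOfLe (le_sup_right : N ≤ K ⊔ N)).toEquiv] at this
    have a2 : Nat.card (K ⊓ N : Subgroup L) * N.relIndex K = Nat.card K := by
      have := (N.subgroupOf K).card_mul_index
      have e : Nat.card (N.subgroupOf K) = Nat.card (K ⊓ N : Subgroup L) := by
        rw [← Subgroup.inf_subgroupOf_left, Nat.card_congr (Subgroup.subgroupOfEquivOfLe (inf_le_left : K ⊓ N ≤ K)).toEquiv]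
      rwa [e] at this
    rw [h1] at a1
    rw [← a1, ← a2]; ring
  have h2 : K.relIndex N = K.relIndex (K ⊔ N) := by
    have b1 : Nat.card (K ⊓ N : Subgroup L) * K.relIndex N = Nat.card N := by
      have := (K.subgroupOf N).card_mul_index
      have e : Nat.card (K.subgroupOf N) = Nat.card (K ⊓ N : Subgroup L) := by
        rw [← Subgroup.inf_subgroupOf_right, Nat.card_congr (Subgroup.subgroupOfEquivOfLe (inf_le_right : K ⊓ N ≤ N)).toEquiv]
      rwa [e] at this
    have b2 : Nat.card K * K.relIndex (K ⊔ N) = Nat.card (K ⊔ N : Subgroup L) := by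
      have := (K.subgroupOf (K ⊔ N)).card_mul_index
      rwa [Nat.card_congr (Subgroup.subgroupOfEquivOfLe (le_sup_left : K ≤ K ⊔ N)).toEquiv] at this
    have p1 : 0 < Nat.card (K ⊓ N : Subgroup L) := Nat.card_pos
    have p2 : 0 < Nat.card K := Nat.card_pos
    rw [← b1, ← b2] at hcards
    have : Nat.card K * Nat.card (K ⊓ N : Subgroup L) * K.relIndex N = Nat.card K * Nat.card (K ⊓ N : Subgroup L) * K.relIndex (K ⊔ N) := by
      linarith [hcards]
    exact Nat.eq_of_mul_eq_mul_left (Nat.mul_pos p2 p1) this
  rw [h2]
  exact Subgroup.relIndex_dvd_index_of_le le_sup_left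

/-- a finite group of prime power order is solvable -/
theorem solvable_of_card_pow {G : Type*} [Group G] [Finite G] {p n : ℕ} (hp : p.Prime) (h : Nat.card G = p ^ n) :
    Group.IsSolvable G := by
  have := Fact.mk hp
  have h1 : IsPGroup p G := IsPGroup.of_card h
  have := h1.isNilpotent
  infer_instance

theorem solvable_of_prime_card {G : Type*} [Group G] [Finite G] (h : (Nat.card G).Prime) :
    Group.IsSolvable G := solvable_of_card_pow (n := 1) h (by rw [pow_one])

/-- the simple case -/
theorem simple_case {G : Type*} [Group G] [Finite G] [IsSimpleGroup G] {p : ℕ} (hp : p.Prime) (A : Subgroup G)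
    (hQ : Q A) (s : ℕ) (hA : A.index = p ^ s) : Group.IsSolvable G := by
  obtain ⟨B, hB, hc, hq, r, hr⟩ := hQ
  have hcardA : Nat.card A = 2 ^ r * Nat.card B := by
    rw [← hr, ← Subgroup.index_eq_card, Subgroup.index_mul_card]
  have hcardG : Nat.card G = p ^ s * (2 ^ r * Nat.card B) := by
    rw [← hcardA, ← hA, Subgroup.index_mul_card]
  -- elements of B have centralizers containing B
  have hBcent : ∀ b : A, b ∈ B → B.map A.subtype ≤ Subgroup.centralizer ({(b : G)} : Set G) := by
    rintro b hb _ ⟨x, hx, rfl⟩
    rw [Subgroup.mem_centralizer_singleton_iff]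
    have := (IsCyclic.isMulCommutative (α := B)).is_comm.comm (⟨x, hx⟩ : B) ⟨b, hb⟩
    have h1 := congrArg (fun t : B => ((t : A) : G)) this
    exact h1
  have hBidx : (B.map A.subtype).index = p ^ s * 2 ^ r := by
    rw [Subgroup.index_map_subtype, hA, Subgroup.index_eq_card, hr, mul_comm]
  by_cases hB1 : B = ⊥
  · -- then |G| = p^s 2^r
    subst hB1
    rw [Subgroup.card_bot, mul_one] at hcardG
    exact H4.Burnside.isSolvable_of_card_eq p 2 hp Nat.prime_two _ G rfl ⟨s, r, hcardG⟩
  obtain ⟨b, hb, hb1⟩ := (Subgroup.ne_bot_iff_exists_ne_one.mp hB1 : ∃ b : B, b ≠ 1) |> fun ⟨b, hb⟩ => (⟨b.1, b.2, fun h => hb (Subtype.ext h)⟩ : ∃ b : A, b ∈ B ∧ b ≠ 1)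
  have hbG : (b : G) ≠ 1 := fun h => hb1 (Subtype.ext h)
  by_cases hp2 : p = 2
  · subst hp2
    have h1 : (Subgroup.centralizer ({(b : G)} : Set G)).index ∣ 2 ^ (s + r) := by
      rw [pow_add, ← hBidx]
      exact Subgroup.index_dvd_of_le (hBcent b hb)
    obtain ⟨k, _, hk⟩ := (Nat.dvd_prime_pow Nat.prime_two).mp h1
    exact solvable_of_prime_card (H4.Burnside.prime_card_of_class 2 k Nat.prime_two (b : G) hbG hk)
  by_cases heven : 2 ∣ Nat.card B
  · -- unique involution of B
    have := Fact.mk Nat.prime_two
    obtain ⟨z, hz⟩ := exists_prime_orderOf_dvd_card' 2 heven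
    have hz1 : z ≠ 1 := by
      intro h; rw [h, orderOf_one] at hz; exact absurd hz (by norm_num)
    have hzz : z * z = 1 := by rw [← pow_two, ← hz]; exact pow_orderOf_eq_one z
    have huniq : ∀ w : B, w * w = 1 → w ≠ 1 → w = z := by
      intro w hw hw1
      have := Fintype.ofFinite B
      classical
      have h2 := IsCyclic.card_pow_eq_one_le (α := B) (n := 2) (by norm_num)
      by_contra hne
      have h3 : ({1, z, w} : Finset B) ⊆ Finset.univ.filter (fun a : B => a ^ 2 = 1) := by
        intro t ht
        simp only [Finset.mem_insert, Finset.mem_singleton] at ht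
        rw [Finset.mem_filter]
        refine ⟨Finset.mem_univ _, ?_⟩
        rcases ht with rfl | rfl | rfl
        · simp
        · rw [pow_two, hzz]
        · rw [pow_two, hw]
      have h4 : ({1, z, w} : Finset B).card = 3 := by
        rw [Finset.card_insert_of_notMem, Finset.card_insert_of_notMem, Finset.card_singleton]
        · simpa using fun h => hne h.symm
        · simp only [Finset.mem_insert, Finset.mem_singleton, not_or]
          exact ⟨fun h => hz1 h.symm, fun h => hw1 h.symm⟩
      have h5 := Finset.card_le_card h3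
      omega
    have hAcent : A ≤ Subgroup.centralizer ({((z : A) : G)} : Set G) := by
      intro a ha
      rw [Subgroup.mem_centralizer_singleton_iff]
      have hconj : (⟨a, ha⟩ : A) * (z : A) * (⟨a, ha⟩ : A)⁻¹ ∈ B := hB.conj_mem _ z.2 _
      have h2 := huniq ⟨_, hconj⟩ (by
        apply Subtype.ext
        show ((⟨a, ha⟩ : A) * (z : A) * (⟨a, ha⟩ : A)⁻¹) * ((⟨a, ha⟩ : A) * (z : A) * (⟨a, ha⟩ : A)⁻¹) = 1
        have h3 : (z : A) * (z : A) = 1 := congrArg Subtype.val hzz
        calc ((⟨a, ha⟩ : A) * (z : A) * (⟨a, ha⟩ : A)⁻¹) * ((⟨a, ha⟩ : A) * (z : A) * (⟨a, ha⟩ : A)⁻¹)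
            = (⟨a, ha⟩ : A) * ((z : A) * (z : A)) * (⟨a, ha⟩ : A)⁻¹ := by group
          _ = 1 := by rw [h3]; group) (by
        intro h
        have h3 := congrArg Subtype.val h
        have h4 : (⟨a, ha⟩ : A) * (z : A) * (⟨a, ha⟩ : A)⁻¹ = 1 := h3
        rw [conj_eq_one_iff] at h4
        exact hz1 (Subtype.ext h4))
      have h5 := congrArg (fun t : B => ((t : A) : G)) h2
      have h6 : a * ((z : A) : G) * a⁻¹ = ((z : A) : G) := h5
      rw [mul_inv_eq_iff_eq_mul] at h6
      exact h6
    have h1 : (Subgroup.centralizer ({((z : A) : G)} : Set G)).index ∣ p ^ s := by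
      rw [← hA]
      exact Subgroup.index_dvd_of_le hAcent
    obtain ⟨k, _, hk⟩ := (Nat.dvd_prime_pow hp).mp h1
    exact solvable_of_prime_card (H4.Burnside.prime_card_of_class p k hp _ (fun h => hz1 (Subtype.ext (Subtype.ext h))) hk)
  · -- |B| odd
    rcases Nat.eq_zero_or_pos r with hr0 | hr0
    · subst hr0
      rw [pow_zero, mul_one] at hBidx
      have h1 : (Subgroup.centralizer ({(b : G)} : Set G)).index ∣ p ^ s := by
        rw [← hBidx]
        exact Subgroup.index_dvd_of_le (hBcent b hb)
      obtain ⟨k, _, hk⟩ := (Nat.dvd_prime_pow hp).mp h1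
      exact solvable_of_prime_card (H4.Burnside.prime_card_of_class p k hp (b : G) hbG hk)
    · -- Sylow 2-subgroups of G are cyclic
      have := Fact.mk Nat.prime_two
      obtain ⟨T, hT⟩ : ∃ T : Sylow 2 A, True := ⟨default, trivial⟩
      have hTcard : Nat.card T = 2 ^ r := by
        rw [Sylow.card_eq_multiplicity, hcardA, Nat.factorization_mul (by positivity) Nat.card_pos.ne',
          Nat.prime_two.factorization_pow]
        simp [Nat.factorization_eq_zero_of_not_dvd heven]
      have hTcyc : IsCyclic T := by
        have hinj : Function.Injective ((QuotientGroup.mk' B).comp (T : Subgroup A).subtype) := by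
          rw [injective_iff_map_eq_one]
          intro a ha
          have h1 : (a : A) ∈ B := (QuotientGroup.eq_one_iff _).mp ha
          have h2 : orderOf (a : A) ∣ Nat.card B := by
            have := orderOf_dvd_natCard (⟨a, h1⟩ : B)
            rwa [Subgroup.orderOf_mk] at this
          have h3 : orderOf (a : A) ∣ 2 ^ r := by
            rw [← hTcard]
            have := orderOf_dvd_natCard a
            rwa [← Subgroup.orderOf_coe] at this
          obtain ⟨k, _, hk⟩ := (Nat.dvd_prime_pow Nat.prime_two).mp h3
          rcases Nat.eq_zero_or_pos k with hk0 | hk0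
          · rw [hk0, pow_zero, orderOf_eq_one_iff] at hk
            exact Subtype.ext hk
          · exfalso
            apply heven
            refine dvd_trans ?_ h2
            rw [hk]
            exact dvd_pow_self 2 hk0.ne'
        exact isCyclic_of_injective _ hinj
      -- a Sylow 2-subgroup of G
      have hTG : Nat.card ((T : Subgroup A).map A.subtype) = 2 ^ r := by
        rw [Subgroup.card_map_of_injective A.subtype_injective]; exact hTcard
      have hfac : (Nat.card G).factorization 2 = r := by
        rw [hcardG, Nat.factorization_mul (pow_pos hp.pos _).ne' (by have := Nat.card_pos (α := B); positivity),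
          Nat.factorization_mul (by positivity) Nat.card_pos.ne',
          Nat.prime_two.factorization_pow, hp.factorization_pow]
        simp [Nat.factorization_eq_zero_of_not_dvd heven, hp2]
      let P : Sylow 2 G := Sylow.ofCard ((T : Subgroup A).map A.subtype) (by rw [hTG, hfac])
      have hPcyc : IsCyclic P := by
        have : IsCyclic ((T : Subgroup A).map A.subtype) :=
          isCyclic_of_surjective (A.subtype.subgroupMap (T : Subgroup A)) (A.subtype.subgroupMap_surjective _)
        exact this
      have hPcard : Nat.card P = 2 ^ r := hTG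
      have hmf : (Nat.card G).minFac = 2 := by
        rw [Nat.minFac_eq_two_iff]
        rw [hcardG]
        exact Dvd.dvd.mul_left (Dvd.dvd.mul_right (dvd_pow_self 2 hr0.ne') _) _
      have hcomp := IsCyclic.isComplement' hmf hPcyc
      rcases IsSimpleGroup.eq_bot_or_eq_top_of_normal (MonoidHom.transferSylow P (hPcyc.normalizer_le_centralizer hmf)).ker inferInstance with h | h
      · rw [h, Subgroup.isComplement'_bot_left] at hcomp
        refine solvable_of_card_pow (n := r) Nat.prime_two ?_
        rw [← hPcard, ← Subgroup.card_top, ← hcomp]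
      · rw [h, Subgroup.isComplement'_top_left] at hcomp
        exfalso
        have : Nat.card (P : Subgroup G) = 1 := by rw [hcomp, Subgroup.card_bot]
        rw [hPcard] at this
        have h2 : 2 ^ r ≠ 1 := by
          have := Nat.one_lt_two_pow hr0.ne'
          omega
        exact h2 this

universe u in
theorem main {p : ℕ} (hp : p.Prime) : ∀ (n : ℕ) (G : Type u) [Group G] [Finite G], Nat.card G = n →
    ∀ A : Subgroup G, Q A → ∀ s, A.index = p ^ s → Group.IsSolvable G := by
  intro n
  induction n using Nat.strong_induction_on with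
  | _ n ih =>
    intro G _ _ hn A hQ s hA
    by_cases htriv : Subsingleton G
    · infer_instance
    rw [not_subsingleton_iff_nontrivial] at htriv
    by_cases hs : ∃ N : Subgroup G, N.Normal ∧ N ≠ ⊥ ∧ N ≠ ⊤
    · obtain ⟨N, hN, hNb, hNt⟩ := hs
      have hNcard : Nat.card N < n := by
        rw [← hn, ← Subgroup.card_mul_index N]
        have h1 : N.index ≠ 1 := fun h => hNt (Subgroup.index_eq_one.mp h)
        have h2 : 0 < N.index := Nat.pos_of_ne_zero Subgroup.index_ne_zero_of_finite
        have h3 : 0 < Nat.card N := Nat.card_pos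
        nlinarith [show 2 ≤ N.index by omega]
      have hqcard : Nat.card (G ⧸ N) < n := by
        rw [← hn, Subgroup.card_eq_card_quotient_mul_card_subgroup N]
        have h1 : 1 < Nat.card N := by
          rw [Subgroup.one_lt_card_iff_ne_bot]; exact hNb
        have h2 : 0 < Nat.card (G ⧸ N) := Nat.card_pos
        nlinarith
      have s1 : Group.IsSolvable N := by
        have hdvd : (A.subgroupOf N).index ∣ p ^ s := by
          rw [← hA]; exact relIndex_dvd N A hN
        obtain ⟨k, _, hk⟩ := (Nat.dvd_prime_pow hp).mp hdvd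
        refine ih _ hNcard N rfl (A.subgroupOf N) ?_ k hk
        exact hQ.of_injective (Y := A.subgroupOf N) (N.subtype.subgroupComap A) (by
            intro a b hab
            have h1 := congrArg Subtype.val hab
            exact Subtype.ext (N.subtype_injective h1))
      have s2 : Group.IsSolvable (G ⧸ N) := by
        have hdvd : (A.map (QuotientGroup.mk' N)).index ∣ p ^ s := by
          rw [← hA]; exact Subgroup.index_map_dvd _ (QuotientGroup.mk'_surjective N)
        obtain ⟨k, _, hk⟩ := (Nat.dvd_prime_pow hp).mp hdvd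
        refine ih _ hqcard (G ⧸ N) rfl (A.map (QuotientGroup.mk' N)) ?_ k hk
        exact hQ.of_surjective ((QuotientGroup.mk' N).subgroupMap A) ((QuotientGroup.mk' N).subgroupMap_surjective A)
      exact (Group.isSolvable_iff_subgroup_quotient N).mpr ⟨s1, s2⟩
    · push Not at hs
      have : IsSimpleGroup G := ⟨fun N hN => by
        by_cases h : N = ⊥
        · exact Or.inl h
        · exact Or.inr (hs N hN h)⟩
      exact simple_case hp A hQ s hA


/-- Let G be a finite group with a subgroup A of prime-power index. Suppose A has a normal cyclic subgroup B such that A/B is cyclic of order a power of 2. Then G is solvable. -/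
theorem result {G : Type*} [Group G] [Finite G] (A : Subgroup G) (p s : ℕ) (hp : p.Prime) (hA : A.index = p ^ s)
    (B : Subgroup A) [B.Normal] (hB : IsCyclic B) (hAB : IsCyclic (A ⧸ B)) (r : ℕ) (hr : Nat.card (A ⧸ B) = 2 ^ r) :
    Group.IsSolvable G := by
  exact main hp (Nat.card G) G rfl A ⟨B, inferInstance, hB, hAB, r, hr⟩ s hA


end Cfsg.Agent.S4245
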