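import Cfsg.Statements.S4250
import Mathlib
import Cfsg.Agent.S0116
import Cfsg.Agent.Lib.H14.PBasic

set_option autoImplicit false
open Cfsg

namespace Cfsg.Agent.S4250

open scoped commutatorElement

section

variable {G : Type*} [Group G] [Finite G] (p : ℕ) [hp : Fact p.Prime] (P : Sylow p G)

/-- tame intersection -/
def Tame (Q : Sylow p G) : Prop :=
  (¬ p ∣ ((P : Subgroup G) ⊓ Subgroup.normalizer (((P : Subgroup G) ⊓ (Q : Subgroup G) : Subgroup G) : Set G)).relIndex (Subgroup.normalizer (((P : Subgroup G) ⊓ (Q : Subgroup G) : Subgroup G) : Set G)) ∧ ¬ p ∣ ((Q : Subgroup G) ⊓ Subgroup.normalizer (((P : Subgroup G) ⊓ (Q : Subgroup G) : Subgroup G) : Set G)).relIndex (Subgroup.normalizer (((P : Subgroup G) ⊓ (Q : Subgroup G) : Subgroup G) : Set G)))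

theorem conj_closure {D H : Subgroup G} (hst : ∀ x : G, (∃ k : ℕ, orderOf x = p ^ k) → x ∈ Subgroup.normalizer (H : Set G) →
      ∀ b ∈ H, b⁻¹ * (x⁻¹ * b * x) ∈ D) {y : G} (hy : y ∈ Subgroup.closure {x : G | x ∈ Subgroup.normalizer (H : Set G) ∧ ∃ k : ℕ, orderOf x = p ^ k}) :
    y ∈ Subgroup.normalizer (H : Set G) ∧ ∀ b ∈ H, b⁻¹ * (y⁻¹ * b * y) ∈ D := by
  induction hy using Subgroup.closure_induction with
  | mem x hx => exact ⟨hx.1, hst x hx.2 hx.1⟩
  | one =>
    refine ⟨one_mem _, fun b _ => ?_⟩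
    have : b⁻¹ * ((1 : G)⁻¹ * b * 1) = 1 := by group
    rw [this]; exact one_mem D
  | mul x y _ _ hx hy =>
    refine ⟨mul_mem hx.1 hy.1, fun b hb => ?_⟩
    have h1 : x⁻¹ * b * x ∈ H := (Subgroup.mem_normalizer_iff''.mp hx.1 b).mp hb
    have h2 := mul_mem (hx.2 b hb) (hy.2 _ h1)
    have h3 : b⁻¹ * (x⁻¹ * b * x) * ((x⁻¹ * b * x)⁻¹ * (y⁻¹ * (x⁻¹ * b * x) * y)) = b⁻¹ * ((x * y)⁻¹ * b * (x * y)) := by group
    rwa [h3] at h2
  | inv x _ hx =>
    refine ⟨inv_mem hx.1, fun b hb => ?_⟩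
    have h1 : x * b * x⁻¹ ∈ H := (Subgroup.mem_normalizer_iff.mp hx.1 b).mp hb
    have h2 := inv_mem (hx.2 _ h1)
    have h3 : ((x * b * x⁻¹)⁻¹ * (x⁻¹ * (x * b * x⁻¹) * x))⁻¹ = b⁻¹ * (x⁻¹⁻¹ * b * x⁻¹) := by group
    rwa [h3] at h2

theorem core {D : Subgroup G}
    (hN : ⁅(P : Subgroup G), Subgroup.normalizer ((P : Subgroup G) : Set G)⁆ ≤ D)
    (hst : ∀ (Q : Sylow p G), Tame p P Q → ∀ x : G, (∃ k : ℕ, orderOf x = p ^ k) →
      x ∈ Subgroup.normalizer (((P : Subgroup G) ⊓ (Q : Subgroup G) : Subgroup G) : Set G) →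
      ∀ b ∈ (P : Subgroup G) ⊓ (Q : Subgroup G), b⁻¹ * (x⁻¹ * b * x) ∈ D) :
    ∀ (n : ℕ) (A : Subgroup G), Nat.card (P : Subgroup G) - Nat.card A < n → A ≤ P → ∀ g : G, (∀ a ∈ A, g⁻¹ * a * g ∈ (P : Subgroup G)) →
      ∀ a ∈ A, a⁻¹ * (g⁻¹ * a * g) ∈ D := by
  intro n
  induction n with
  | zero => intro A h; exact absurd h (Nat.not_lt_zero _)
  | succ n ih =>
    intro A hcard hAP g hg
    -- step lemma
    have step : ∀ (Q : Sylow p G), Tame p P Q → ∀ x ∈ Subgroup.normalizer (((P : Subgroup G) ⊓ (Q : Subgroup G) : Subgroup G) : Set G),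
        Nat.card A ≤ Nat.card ((P : Subgroup G) ⊓ (Q : Subgroup G) : Subgroup G) →
        ∀ b ∈ (P : Subgroup G) ⊓ (Q : Subgroup G), b⁻¹ * (x⁻¹ * b * x) ∈ D := by
      intro Q hQ x hx hAc b hb
      set H := (P : Subgroup G) ⊓ (Q : Subgroup G) with hH
      by_cases hHP : H = P
      · apply hN
        rw [hHP] at hx hb
        have : b⁻¹ * (x⁻¹ * b * x) = ⁅b⁻¹, x⁻¹⁆ := by rw [commutatorElement_def]; group
        rw [this]
        exact Subgroup.commutator_mem_commutator (inv_mem hb) (inv_mem hx)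
      · have hHlt : H < P := lt_of_le_of_ne inf_le_left hHP
        set M := Subgroup.normalizer (H : Set G) with hM
        -- `N_P(H)` is larger than `H`
        have hHR : H < (P : Subgroup G) ⊓ M := by
          obtain ⟨t, htP, htH, htN⟩ := H14.PBasic.exists_mem_normalizer_of_lt P.isPGroup' hHlt
          refine lt_of_le_of_ne (le_inf inf_le_left Subgroup.le_normalizer) ?_
          intro he
          exact htH (he ▸ (⟨htP, htN⟩ : t ∈ (P : Subgroup G) ⊓ M))
        have hRcard : Nat.card H < Nat.card ((P : Subgroup G) ⊓ M : Subgroup G) := by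
          apply lt_of_le_of_ne (Subgroup.card_le_of_le hHR.le)
          intro he
          exact hHR.ne (Subgroup.eq_of_le_of_card_ge hHR.le he.ge)
        have hRP : Nat.card ((P : Subgroup G) ⊓ M : Subgroup G) ≤ Nat.card (P : Subgroup G) := Subgroup.card_le_of_le inf_le_left
        -- Frattini argument
        set K : Subgroup M := Subgroup.closure {x : M | ∃ k : ℕ, orderOf x = p ^ k} with hK
        have hKn : K.Normal := by
          constructor
          intro y hy m
          have h1 : K.map (MulAut.conj m).toMonoidHom ≤ K := by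
            rw [hK, MonoidHom.map_closure, Subgroup.closure_le]
            rintro _ ⟨z, ⟨k, hk⟩, rfl⟩
            apply Subgroup.subset_closure
            exact ⟨k, by rw [← hk]; exact orderOf_injective (MulAut.conj m).toMonoidHom (MulAut.conj m).injective z⟩
          exact h1 ⟨y, hy, rfl⟩
        have hRp : IsPGroup p (((P : Subgroup G) ⊓ M).subgroupOf M) :=
          (P.isPGroup'.to_le (inf_le_left : (P : Subgroup G) ⊓ M ≤ P)).comap_of_injective M.subtype (Subgroup.subtype_injective _)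
        let R : Sylow p M := hRp.toSylow hQ.1
        have hR : (R : Subgroup M) = ((P : Subgroup G) ⊓ M).subgroupOf M := rfl
        have hRK : (R : Subgroup M) ≤ K := by
          intro z hz
          apply Subgroup.subset_closure
          obtain ⟨k, hk⟩ := (IsPGroup.iff_orderOf.mp R.isPGroup') ⟨z, hz⟩
          rw [Subgroup.orderOf_mk] at hk
          exact ⟨k, hk⟩
        have hF : Subgroup.normalizer ((R : Subgroup M) : Set M) ⊔ K = ⊤ := Sylow.normalizer_sup_eq_top' R hRK
        have hxt : (⟨x, hx⟩ : M) ∈ Subgroup.normalizer ((R : Subgroup M) : Set M) ⊔ K := by rw [hF]; exact Subgroup.mem_top _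
        rw [sup_comm, Subgroup.mem_sup_of_normal_left] at hxt
        obtain ⟨y, hy, z, hz, hyz⟩ := hxt
        have hyz' : (y : G) * z = x := congrArg Subtype.val hyz
        have hyc : (y : G) ∈ Subgroup.closure {x : G | x ∈ Subgroup.normalizer (H : Set G) ∧ ∃ k : ℕ, orderOf x = p ^ k} := by
          have h1 : K.map M.subtype ≤ Subgroup.closure {x : G | x ∈ Subgroup.normalizer (H : Set G) ∧ ∃ k : ℕ, orderOf x = p ^ k} := by
            rw [hK, MonoidHom.map_closure, Subgroup.closure_le]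
            rintro _ ⟨w, ⟨k, hk⟩, rfl⟩
            apply Subgroup.subset_closure
            exact ⟨w.2, k, by rw [← hk]; exact Subgroup.orderOf_coe w⟩
          exact h1 ⟨y, hy, rfl⟩
        have hyN := conj_closure p (H := H) (D := D) (fun w hw1 hw2 => hst Q hQ w hw1 hw2) hyc
        have h1 : (y : G)⁻¹ * b * y ∈ H := (Subgroup.mem_normalizer_iff''.mp hyN.1 b).mp hb
        have hzR : ∀ c ∈ (P : Subgroup G) ⊓ M, (z : G)⁻¹ * c * z ∈ (P : Subgroup G) ⊓ M := by
          intro c hc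
          have h2 : (⟨c, hc.2⟩ : M) ∈ (R : Subgroup M) := hc
          have h3 := (Subgroup.mem_normalizer_iff''.mp hz _).mp h2
          exact h3
        have h2 := ih ((P : Subgroup G) ⊓ M) (by omega) inf_le_left z (fun c hc => (hzR c hc).1) _ (hHR.le h1)
        have h3 := mul_mem (hyN.2 b hb) h2
        have h4 : b⁻¹ * ((y : G)⁻¹ * b * y) * (((y : G)⁻¹ * b * y)⁻¹ * ((z : G)⁻¹ * ((y : G)⁻¹ * b * y) * z)) =
            b⁻¹ * (((y : G) * z)⁻¹ * b * (y * z)) := by group
        rw [h4, hyz'] at h3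
        exact h3
    intro a ha
    obtain ⟨m, Q, x, hprod, hprop, hA0, hA1⟩ := Cfsg.Agent.S0116.result P (A : Set G) g (fun a ha => hAP ha) (by
      rintro _ ⟨a, ha, rfl⟩; exact hg a ha)
    have hmem : ∀ i (hi : i < m), ∀ b ∈ A, (((List.ofFn x).take i).prod)⁻¹ * b * ((List.ofFn x).take i).prod ∈ (P : Subgroup G) ⊓ (Q ⟨i, hi⟩ : Subgroup G) := by
      intro i hi b hb
      rcases Nat.eq_zero_or_pos i with h0 | h0
      · subst h0
        have := hA0 hi hb
        simp only [List.take_zero, List.prod_nil, inv_one, one_mul, mul_one]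
        exact this
      · obtain ⟨j, rfl⟩ : ∃ j, i = j + 1 := ⟨i - 1, by omega⟩
        exact hA1 ⟨j, by omega⟩ hi ⟨b, hb, rfl⟩
    have claim : ∀ i ≤ m, a⁻¹ * ((((List.ofFn x).take i).prod)⁻¹ * a * ((List.ofFn x).take i).prod) ∈ D := by
      intro i
      induction i with
      | zero =>
        intro _
        simp
      | succ i ihi =>
        intro hi
        have hi' : i < m := by omega
        have h1 := ihi (by omega)
        have hlen : i < (List.ofFn x).length := by rw [List.length_ofFn]; exact hi'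
        rw [List.prod_take_succ _ _ hlen]
        set w := ((List.ofFn x).take i).prod with hw
        have hxi : (List.ofFn x)[i] = x ⟨i, hi'⟩ := by simp
        rw [hxi]
        have h2 := hmem i hi' a ha
        have hcardle : Nat.card A ≤ Nat.card ((P : Subgroup G) ⊓ (Q ⟨i, hi'⟩ : Subgroup G) : Subgroup G) := by
          apply Nat.card_le_card_of_injective (fun b : A => (⟨w⁻¹ * b * w, hmem i hi' b b.2⟩ : ((P : Subgroup G) ⊓ (Q ⟨i, hi'⟩ : Subgroup G) : Subgroup G)))
          intro b c hbc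
          have h3 : w⁻¹ * (b : G) * w = w⁻¹ * c * w := congrArg Subtype.val hbc
          exact Subtype.ext (mul_left_cancel (mul_right_cancel h3))
        have h3 := step (Q ⟨i, hi'⟩) ⟨(hprop ⟨i, hi'⟩).2.1, (hprop ⟨i, hi'⟩).2.2⟩ _ (hprop ⟨i, hi'⟩).1 hcardle _ h2
        have h4 := mul_mem h1 h3
        have h5 : a⁻¹ * (w⁻¹ * a * w) * ((w⁻¹ * a * w)⁻¹ * ((x ⟨i, hi'⟩)⁻¹ * (w⁻¹ * a * w) * x ⟨i, hi'⟩)) =
            a⁻¹ * ((w * x ⟨i, hi'⟩)⁻¹ * a * (w * x ⟨i, hi'⟩)) := by group
        rwa [h5] at h4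
    have h1 := claim m le_rfl
    have h2 : (List.ofFn x).take m = List.ofFn x := by
      rw [List.take_of_length_le]
      rw [List.length_ofFn]
    rwa [h2, hprod] at h1

end

/-- Let P be a Sylow p-subgroup of a finite group G. Call an intersection H = P ∩ Q with a Sylow p-subgroup Q tame when N_P(H) and N_Q(H) are Sylow p-subgroups of N_G(H). Then P ∩ G′ is generated by [P, N_G(P)] together with the commutator subgroups [P ∩ Q, ⟨x⟩] for all tame intersections P ∩ Q and all p-elements x of N_G(P ∩ Q). -/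
theorem result {G : Type*} [Group G] [Finite G] (p : ℕ) [Fact p.Prime] (P : Sylow p G) :
    (P : Subgroup G) ⊓ commutator G =
      ⁅(P : Subgroup G), Subgroup.normalizer ((P : Subgroup G) : Set G)⁆ ⊔
        ⨆ (Q : Sylow p G) (_ : (¬ p ∣ ((P : Subgroup G) ⊓ Subgroup.normalizer (((P : Subgroup G) ⊓ (Q : Subgroup G) : Subgroup G) : Set G)).relIndex (Subgroup.normalizer (((P : Subgroup G) ⊓ (Q : Subgroup G) : Subgroup G) : Set G)) ∧ ¬ p ∣ ((Q : Subgroup G) ⊓ Subgroup.normalizer (((P : Subgroup G) ⊓ (Q : Subgroup G) : Subgroup G) : Set G)).relIndex (Subgroup.normalizer (((P : Subgroup G) ⊓ (Q : Subgroup G) : Subgroup G) : Set G))))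
          (x : G) (_ : x ∈ Subgroup.normalizer (((P : Subgroup G) ⊓ (Q : Subgroup G) : Subgroup G) : Set G) ∧ ∃ k : ℕ, orderOf x = p ^ k),
          ⁅(P : Subgroup G) ⊓ (Q : Subgroup G), Subgroup.zpowers x⁆ := by
  apply le_antisymm
  · rw [inf_comm, Subgroup.commutator_inf_eq_focalSubgroup P, Subgroup.focalSubgroup_def, Subgroup.closure_le]
    rintro _ ⟨hmem, x, hx, u, rfl⟩
    set D := ⁅(P : Subgroup G), Subgroup.normalizer ((P : Subgroup G) : Set G)⁆ ⊔
        ⨆ (Q : Sylow p G) (_ : (¬ p ∣ ((P : Subgroup G) ⊓ Subgroup.normalizer (((P : Subgroup G) ⊓ (Q : Subgroup G) : Subgroup G) : Set G)).relIndex (Subgroup.normalizer (((P : Subgroup G) ⊓ (Q : Subgroup G) : Subgroup G) : Set G)) ∧ ¬ p ∣ ((Q : Subgroup G) ⊓ Subgroup.normalizer (((P : Subgroup G) ⊓ (Q : Subgroup G) : Subgroup G) : Set G)).relIndex (Subgroup.normalizer (((P : Subgroup G) ⊓ (Q : Subgroup G) : Subgroup G) : Set G))))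
          (x : G) (_ : x ∈ Subgroup.normalizer (((P : Subgroup G) ⊓ (Q : Subgroup G) : Subgroup G) : Set G) ∧ ∃ k : ℕ, orderOf x = p ^ k),
          ⁅(P : Subgroup G) ⊓ (Q : Subgroup G), Subgroup.zpowers x⁆ with hD
    have hux : u * x⁻¹ * u⁻¹ ∈ (P : Subgroup G) := by
      have h1 := mul_mem (inv_mem hx) hmem
      have h2 : x⁻¹ * ⁅x, u⁆ = u * x⁻¹ * u⁻¹ := by rw [commutatorElement_def]; group
      rwa [h2] at h1
    have key := core p P (D := D) le_sup_left (by
      intro Q hQ y hy hyN b hb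
      have h1 : ⁅(P : Subgroup G) ⊓ (Q : Subgroup G), Subgroup.zpowers y⁆ ≤ D := by
        rw [hD]
        refine le_sup_of_le_right ?_
        refine le_trans ?_ (le_iSup _ Q)
        refine le_trans ?_ (le_iSup _ hQ)
        refine le_trans ?_ (le_iSup _ y)
        exact le_iSup (fun _ : y ∈ Subgroup.normalizer (((P : Subgroup G) ⊓ (Q : Subgroup G) : Subgroup G) : Set G) ∧ ∃ k : ℕ, orderOf y = p ^ k =>
          ⁅(P : Subgroup G) ⊓ (Q : Subgroup G), Subgroup.zpowers y⁆) ⟨hyN, hy⟩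
      apply h1
      have h2 : b⁻¹ * (y⁻¹ * b * y) = ⁅b⁻¹, y⁻¹⁆ := by rw [commutatorElement_def]; group
      rw [h2]
      exact Subgroup.commutator_mem_commutator (inv_mem hb) (inv_mem (Subgroup.mem_zpowers y)))
      (Nat.card (P : Subgroup G) - Nat.card (Subgroup.zpowers x⁻¹) + 1) (Subgroup.zpowers x⁻¹) (Nat.lt_succ_self _)
      (Subgroup.zpowers_le.mpr (inv_mem hx)) u⁻¹ (by
        rintro _ ⟨k, rfl⟩
        change u⁻¹⁻¹ * (x⁻¹) ^ k * u⁻¹ ∈ (P : Subgroup G)
        rw [inv_inv, ← conj_zpow]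
        exact zpow_mem hux k) x⁻¹ (Subgroup.mem_zpowers _)
    have h2 : x⁻¹⁻¹ * (u⁻¹⁻¹ * x⁻¹ * u⁻¹) = ⁅x, u⁆ := by rw [commutatorElement_def]; group
    rw [h2] at key
    exact key
  · refine sup_le ?_ ?_
    · apply le_inf
      · rw [Subgroup.commutator_le]
        intro a ha n hn
        rw [commutatorElement_def]
        have h1 := mul_mem ha ((Subgroup.mem_normalizer_iff.mp hn _).mp (inv_mem ha))
        have h2 : a * (n * a⁻¹ * n⁻¹) = a * n * a⁻¹ * n⁻¹ := by group
        rwa [h2] at h1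
      · rw [commutator_def]
        exact Subgroup.commutator_mono le_top le_top
    · refine iSup_le fun Q => iSup_le fun hQ => iSup_le fun x => iSup_le fun hx => ?_
      apply le_inf
      · refine le_trans ?_ (inf_le_left : (P : Subgroup G) ⊓ (Q : Subgroup G) ≤ P)
        rw [Subgroup.commutator_le]
        intro a ha n hn
        have hn' : n ∈ Subgroup.normalizer (((P : Subgroup G) ⊓ (Q : Subgroup G) : Subgroup G) : Set G) :=
          (Subgroup.zpowers_le.mpr hx.1) hn
        rw [commutatorElement_def]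
        have h1 := mul_mem ha ((Subgroup.mem_normalizer_iff.mp hn' _).mp (inv_mem ha))
        have h2 : a * (n * a⁻¹ * n⁻¹) = a * n * a⁻¹ * n⁻¹ := by group
        rwa [h2] at h1
      · rw [commutator_def]
        exact Subgroup.commutator_mono le_top le_top

end Cfsg.Agent.S4250
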