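import Cfsg.Statements.S4251
import Cfsg.Agent.S0116
import Cfsg.Agent.Lib.H3.LocalNPC
-- import your own Cfsg.Agent.* helpers here

set_option autoImplicit false
open Cfsg

namespace Cfsg.Agent.S4251

open Subgroup in
/-- factorisation of the normalizer -/
theorem factor {G : Type*} [Group G] [Finite G] {p : ℕ} [hp : Fact p.Prime] (P H : Subgroup G)
    (h1 : ¬ p ∣ (P ⊓ normalizer (H : Set G)).relIndex (normalizer (H : Set G)))
    (h2 : IsPGroup p (normalizer (H : Set G) ⧸ (centralizer (H : Set G)).subgroupOf (normalizer (H : Set G))))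
    (x : G) (hx : x ∈ normalizer (H : Set G)) : ∃ c ∈ centralizer (H : Set G), ∃ u ∈ P, x = c * u := by
  set N := normalizer (H : Set G) with hN
  set C := (centralizer (H : Set G)).subgroupOf N with hC
  have hCn : C.Normal := by
    rw [hC]
    infer_instance
  set M := C ⊔ (P ⊓ N).subgroupOf N with hM
  have h3 : M.index = 1 := by
    obtain ⟨k, hk⟩ := IsPGroup.iff_card.1 h2
    have h4 : M.index ∣ p ^ k := by
      rw [← hk]
      exact Subgroup.index_dvd_of_le le_sup_left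
    have h5 : M.index ∣ (P ⊓ N).relIndex N := Subgroup.index_dvd_of_le le_sup_right
    obtain ⟨j, -, hj⟩ := (Nat.dvd_prime_pow hp.out).1 h4
    rcases Nat.eq_zero_or_pos j with h6 | h6
    · rw [hj, h6, pow_zero]
    · exfalso
      apply h1
      refine Dvd.dvd.trans ?_ h5
      rw [hj]
      exact dvd_pow_self p (by omega)
  have h4 : (⟨x, hx⟩ : N) ∈ M := by
    rw [Subgroup.index_eq_one.1 h3]; trivial
  obtain ⟨c, hc, u, hu, hcu⟩ := Subgroup.mem_sup_of_normal_left.1 h4
  exact ⟨c, hc, u, hu.1, (congrArg Subtype.val hcu).symm⟩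

open Subgroup in
/-- conjugation of a nontrivial subgroup of `P` into `P` is realised inside `P` -/
theorem control {G : Type*} [Group G] [Finite G] (p : ℕ) [hp : Fact p.Prime] (P : Sylow p G)
    (h : ∀ Q : Sylow p G, (P : Subgroup G) ⊓ (Q : Subgroup G) ≠ ⊥ → (¬ p ∣ ((P : Subgroup G) ⊓ Subgroup.normalizer (((P : Subgroup G) ⊓ (Q : Subgroup G) : Subgroup G) : Set G)).relIndex (Subgroup.normalizer (((P : Subgroup G) ⊓ (Q : Subgroup G) : Subgroup G) : Set G)) ∧ ¬ p ∣ ((Q : Subgroup G) ⊓ Subgroup.normalizer (((P : Subgroup G) ⊓ (Q : Subgroup G) : Subgroup G) : Set G)).relIndex (Subgroup.normalizer (((P : Subgroup G) ⊓ (Q : Subgroup G) : Subgroup G) : Set G))) →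
      IsPGroup p (Subgroup.normalizer (((P : Subgroup G) ⊓ (Q : Subgroup G) : Subgroup G) : Set G) ⧸
        (Subgroup.centralizer (((P : Subgroup G) ⊓ (Q : Subgroup G) : Subgroup G) : Set G)).subgroupOf
          (Subgroup.normalizer (((P : Subgroup G) ⊓ (Q : Subgroup G) : Subgroup G) : Set G))))
    (D : Subgroup G) (hD : D ≠ ⊥) (hDP : D ≤ P) (g : G) (hg : ∀ d ∈ D, g⁻¹ * d * g ∈ (P : Subgroup G)) :
    ∃ u ∈ (P : Subgroup G), ∀ d ∈ D, g⁻¹ * d * g = u⁻¹ * d * u := by
  obtain ⟨n, Q, x, hprod, hx, h0, hs⟩ := Cfsg.Agent.S0116.result P (D : Set G) g hDP (by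
    rintro _ ⟨d, hd, rfl⟩
    exact hg d hd)
  have key : ∀ i : ℕ, i ≤ n → ∃ u ∈ (P : Subgroup G), ∀ d ∈ D,
      (((List.ofFn x).take i).prod)⁻¹ * d * ((List.ofFn x).take i).prod = u⁻¹ * d * u := by
    intro i
    induction i with
    | zero =>
      intro _
      exact ⟨1, one_mem _, fun d _ => by simp⟩
    | succ i ih =>
      intro hi
      obtain ⟨u, hu, hud⟩ := ih (by omega)
      -- the elements lie in the intersection
      have hmem : ∀ d ∈ D, (((List.ofFn x).take i).prod)⁻¹ * d * ((List.ofFn x).take i).prod ∈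
          ((P : Subgroup G) ⊓ (Q ⟨i, by omega⟩ : Subgroup G) : Subgroup G) := by
        intro d hd
        rcases Nat.eq_zero_or_pos i with h1 | h1
        · subst h1
          have h2 : (((List.ofFn x).take 0).prod)⁻¹ * d * ((List.ofFn x).take 0).prod = d := by simp
          rw [h2]
          exact h0 (by omega) hd
        · obtain ⟨j, rfl⟩ : ∃ j, i = j + 1 := ⟨i - 1, by omega⟩
          exact hs ⟨j, by omega⟩ (by simp only []; omega) ⟨d, hd, rfl⟩
      have hne : ((P : Subgroup G) ⊓ (Q ⟨i, by omega⟩ : Subgroup G) : Subgroup G) ≠ ⊥ := by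
        intro hb
        apply hD
        rw [eq_bot_iff]
        intro d hd
        have h1 := hmem d hd
        rw [hb, mem_bot] at h1
        rw [mem_bot]
        have h2 : d = ((List.ofFn x).take i).prod * ((((List.ofFn x).take i).prod)⁻¹ * d * ((List.ofFn x).take i).prod) *
            (((List.ofFn x).take i).prod)⁻¹ := by group
        rw [h2, h1]; group
      obtain ⟨hxi, ht1, ht2⟩ := hx ⟨i, by omega⟩
      obtain ⟨c, hc, v, hv, hcv⟩ := factor (P : Subgroup G) _ ht1 (h _ hne ⟨ht1, ht2⟩) _ hxi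
      refine ⟨u * v, mul_mem hu hv, ?_⟩
      intro d hd
      have htake : ((List.ofFn x).take (i + 1)).prod = ((List.ofFn x).take i).prod * x ⟨i, by omega⟩ := by
        rw [List.prod_take_succ _ _ (by rw [List.length_ofFn]; omega), List.getElem_ofFn]
      have h3 := mem_centralizer_iff.1 hc _ (hmem d hd)
      have h4 : c⁻¹ * ((((List.ofFn x).take i).prod)⁻¹ * d * ((List.ofFn x).take i).prod) * c =
          (((List.ofFn x).take i).prod)⁻¹ * d * ((List.ofFn x).take i).prod := by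
        rw [mul_assoc, h3, inv_mul_cancel_left]
      rw [htake, hcv]
      calc (((List.ofFn x).take i).prod * (c * v))⁻¹ * d * (((List.ofFn x).take i).prod * (c * v))
          = v⁻¹ * (c⁻¹ * ((((List.ofFn x).take i).prod)⁻¹ * d * ((List.ofFn x).take i).prod) * c) * v := by group
        _ = v⁻¹ * (u⁻¹ * d * u) * v := by rw [h4, hud d hd]
        _ = (u * v)⁻¹ * d * (u * v) := by group
  obtain ⟨u, hu, hud⟩ := key n le_rfl
  refine ⟨u, hu, fun d hd => ?_⟩
  rw [← hud d hd, List.take_of_length_le (by rw [List.length_ofFn]), hprod]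

/-- Let P be a Sylow p-subgroup of a finite group G. Call an intersection H = P ∩ Q with a Sylow p-subgroup Q tame when N_P(H) and N_Q(H) are Sylow p-subgroups of N_G(H). If N_G(H)/C_G(H) is a p-group for every nontrivial tame intersection H = P ∩ Q, then G has a normal p-complement. -/
theorem result {G : Type*} [Group G] [Finite G] (p : ℕ) [Fact p.Prime] (P : Sylow p G)
    (h : ∀ Q : Sylow p G, (P : Subgroup G) ⊓ (Q : Subgroup G) ≠ ⊥ → (¬ p ∣ ((P : Subgroup G) ⊓ Subgroup.normalizer (((P : Subgroup G) ⊓ (Q : Subgroup G) : Subgroup G) : Set G)).relIndex (Subgroup.normalizer (((P : Subgroup G) ⊓ (Q : Subgroup G) : Subgroup G) : Set G)) ∧ ¬ p ∣ ((Q : Subgroup G) ⊓ Subgroup.normalizer (((P : Subgroup G) ⊓ (Q : Subgroup G) : Subgroup G) : Set G)).relIndex (Subgroup.normalizer (((P : Subgroup G) ⊓ (Q : Subgroup G) : Subgroup G) : Set G))) →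
      IsPGroup p (Subgroup.normalizer (((P : Subgroup G) ⊓ (Q : Subgroup G) : Subgroup G) : Set G) ⧸
        (Subgroup.centralizer (((P : Subgroup G) ⊓ (Q : Subgroup G) : Subgroup G) : Set G)).subgroupOf
          (Subgroup.normalizer (((P : Subgroup G) ⊓ (Q : Subgroup G) : Subgroup G) : Set G)))) :
    Cfsg.HasNormalPComplement p G := by
  by_contra hno
  obtain ⟨D, hD, g, hg, q, k, hq, hqp, ho, hgD⟩ := H3.LocalNPC.exists_bad hno
  -- conjugate into `P`
  obtain ⟨R, hR⟩ := hD.exists_le_sylow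
  obtain ⟨y, hy⟩ := MulAction.exists_smul_eq G R P
  have hyR : ∀ d ∈ D, y * d * y⁻¹ ∈ (P : Subgroup G) := by
    intro d hd
    rw [← hy]
    exact Subgroup.smul_mem_pointwise_smul d (MulAut.conj y) _ (hR hd)
  let D' : Subgroup G := D.map (MulAut.conj y).toMonoidHom
  have hD'P : D' ≤ P := by
    rintro _ ⟨d, hd, rfl⟩
    exact hyR d hd
  have hD'b : D' ≠ ⊥ := by
    intro hb
    apply hgD
    have h1 : D = ⊥ := (Subgroup.map_eq_bot_iff_of_injective D (MulAut.conj y).injective).1 hb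
    rw [h1, Subgroup.mem_centralizer_iff]
    intro d hd
    rw [show d = 1 from hd, one_mul, mul_one]
  have hstep : ∀ d ∈ D', (y * g * y⁻¹)⁻¹ * d * (y * g * y⁻¹) ∈ D' := by
    rintro _ ⟨d, hd, rfl⟩
    refine ⟨g⁻¹ * d * g, ?_, ?_⟩
    · have := (Subgroup.mem_normalizer_iff.1 (inv_mem hg) d).1 hd
      rwa [inv_inv] at this
    · change y * (g⁻¹ * d * g) * y⁻¹ = (y * g * y⁻¹)⁻¹ * (y * d * y⁻¹) * (y * g * y⁻¹)
      group
  obtain ⟨u, hu, hud⟩ := control p P h D' hD'b hD'P (y * g * y⁻¹) (fun d hd => hD'P (hstep d hd))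
  have hpow : ∀ n : ℕ, ∀ d ∈ D', ((y * g * y⁻¹) ^ n)⁻¹ * d * (y * g * y⁻¹) ^ n ∈ D' ∧
      ((y * g * y⁻¹) ^ n)⁻¹ * d * (y * g * y⁻¹) ^ n = (u ^ n)⁻¹ * d * u ^ n := by
    intro n
    induction n with
    | zero => intro d hd; simpa using hd
    | succ n ih =>
      intro d hd
      obtain ⟨h1, h2⟩ := ih d hd
      have h3 : ((y * g * y⁻¹) ^ (n + 1))⁻¹ * d * (y * g * y⁻¹) ^ (n + 1) =
          (y * g * y⁻¹)⁻¹ * (((y * g * y⁻¹) ^ n)⁻¹ * d * (y * g * y⁻¹) ^ n) * (y * g * y⁻¹) := by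
        rw [pow_succ]; group
      refine ⟨by rw [h3]; exact hstep _ h1, ?_⟩
      rw [h3, hud _ h1, h2, pow_succ]; group
  obtain ⟨j, hj⟩ := (IsPGroup.iff_orderOf.1 P.2) ⟨u, hu⟩
  rw [Subgroup.orderOf_mk] at hj
  apply hgD
  have hgc : (y * g * y⁻¹) ^ p ^ j ∈ Subgroup.centralizer (D' : Set G) := by
    rw [Subgroup.mem_centralizer_iff]
    intro d hd
    have h1 := (hpow (p ^ j) d hd).2
    rw [← hj, pow_orderOf_eq_one, hj, inv_one, one_mul, mul_one, mul_assoc, inv_mul_eq_iff_eq_mul] at h1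
    exact h1
  have hord : orderOf (y * g * y⁻¹) = q ^ k := by
    rw [← ho]
    exact MulEquiv.orderOf_eq (MulAut.conj y) g
  have hcop : Nat.Coprime (p ^ j) (q ^ k) :=
    Nat.Coprime.pow _ _ ((Nat.coprime_primes Fact.out hq).2 (Ne.symm hqp))
  have hgc2 : y * g * y⁻¹ ∈ Subgroup.centralizer (D' : Set G) := by
    apply H3.LocalNPC.mem_of_pow_mem_of_coprime hcop hgc
    rw [← hord, pow_orderOf_eq_one]
    exact one_mem _
  rw [Subgroup.mem_centralizer_iff]
  intro d hd
  have h1 := Subgroup.mem_centralizer_iff.1 hgc2 (y * d * y⁻¹) ⟨d, hd, rfl⟩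
  have h2 : d * g = y⁻¹ * ((y * d * y⁻¹) * (y * g * y⁻¹)) * y := by group
  rw [h2, h1]; group

end Cfsg.Agent.S4251
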