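import Cfsg.Statements.S4252

set_option autoImplicit false
open Cfsg

namespace Cfsg.Agent.S4252

open scoped Pointwise
open MulAction

/-- Let a finite group G act on a finite set Ω with more than one point, transitively but not regularly, so that no non-identity element of G fixes two distinct points. Then the stabilizer H of any point is a Frobenius complement in G (nontrivial, proper, meeting its other conjugates trivially), and the Frobenius kernel of G with respect to H (the identity together with the elements lying in no conjugate of H) is exactly the set consisting of the identity and the elements fixing no point. -/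
theorem result {G Ω : Type*} [Group G] [Finite G] [Fintype Ω] [MulAction G Ω] (hΩ : 1 < Fintype.card Ω)
    (htrans : ∀ α β : Ω, ∃ g : G, g • α = β) (hnreg : ∃ g : G, g ≠ 1 ∧ ∃ α : Ω, g • α = α)
    (hfix : ∀ g : G, g ≠ 1 → ∀ α β : Ω, g • α = α → g • β = β → α = β) (α : Ω) :
    Cfsg.IsFrobeniusComplement (MulAction.stabilizer G α) ∧
      Cfsg.frobeniusKernel (MulAction.stabilizer G α) = {g : G | g = 1 ∨ ∀ ω : Ω, g • ω ≠ ω} := by
  have hconj : ∀ (g x : G), x ∈ MulAut.conj g • stabilizer G α ↔ x • (g • α) = g • α := by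
    intro g x
    rw [Subgroup.mem_pointwise_smul_iff_inv_smul_mem, ← map_inv, MulAut.smul_def, MulAut.conj_apply,
      mem_stabilizer_iff, inv_inv, mul_smul, mul_smul, inv_smul_eq_iff]
  refine ⟨⟨?_, ?_, ?_⟩, ?_⟩
  · obtain ⟨g, hg, β, hβ⟩ := hnreg
    obtain ⟨h, hh⟩ := htrans β α
    intro hbot
    have h1 : h * g * h⁻¹ ∈ stabilizer G α := by
      rw [mem_stabilizer_iff, mul_smul, mul_smul, ← hh, inv_smul_smul, hβ]
    rw [hbot, Subgroup.mem_bot] at h1
    apply hg
    have h2 : g = h⁻¹ * (h * g * h⁻¹) * h := by group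
    rw [h2, h1]
    group
  · intro htop
    rw [Fintype.one_lt_card_iff] at hΩ
    obtain ⟨a, b, hab⟩ := hΩ
    obtain ⟨g, hg⟩ := htrans α a
    obtain ⟨h, hh⟩ := htrans α b
    have h1 : g ∈ stabilizer G α := htop ▸ Subgroup.mem_top g
    have h2 : h ∈ stabilizer G α := htop ▸ Subgroup.mem_top h
    rw [mem_stabilizer_iff] at h1 h2
    exact hab (by rw [← hg, ← hh, h1, h2])
  · intro g hg
    rw [eq_bot_iff]
    intro x hx'
    obtain ⟨hx1, hx2⟩ := Subgroup.mem_inf.mp hx'
    rw [hconj] at hx2
    rw [Subgroup.mem_bot]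
    by_contra hx
    exact hg (hfix x hx α (g • α) hx1 hx2).symm
  · ext x
    unfold Cfsg.frobeniusKernel
    rw [Set.mem_ofPred_eq, Set.mem_ofPred_eq]
    apply or_congr Iff.rfl
    constructor
    · intro h ω hω
      obtain ⟨g, rfl⟩ := htrans α ω
      exact h g ((hconj g x).mpr hω)
    · intro h g hg
      exact h (g • α) ((hconj g x).mp hg)

end Cfsg.Agent.S4252
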