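import Cfsg.Statements.S4253

set_option autoImplicit false
open Cfsg

namespace Cfsg.Agent.S4253

open scoped Pointwise

/-- Let H be a Frobenius complement in a finite group G (a nontrivial proper subgroup meeting each conjugate gHg⁻¹ with g outside H trivially). Then in the action of G on the left cosets of H by left multiplication, no non-identity element of G fixes two distinct cosets. -/
theorem result {G : Type*} [Group G] [Finite G] (H : Subgroup G) (hH : Cfsg.IsFrobeniusComplement H)
    (g : G) (hg : g ≠ 1) (a b : G ⧸ H) (ha : g • a = a) (hb : g • b = b) : a = b := by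
  obtain ⟨x, rfl⟩ := QuotientGroup.mk_surjective a
  obtain ⟨y, rfl⟩ := QuotientGroup.mk_surjective b
  have key : ∀ z : G, g • (z : G ⧸ H) = z → z⁻¹ * g * z ∈ H := by
    intro z hz
    have h1 : ((g * z : G) : G ⧸ H) = z := hz
    rw [eq_comm, QuotientGroup.eq] at h1
    rwa [mul_assoc]
  have hx := key x ha
  have hy := key y hb
  by_contra hne
  have hxy : x⁻¹ * y ∉ H := fun h => hne (QuotientGroup.eq.mpr h)
  have h1 := hH.2.2 _ hxy
  have h2 : x⁻¹ * g * x ∈ H ⊓ (MulAut.conj (x⁻¹ * y) • H) := by
    refine Subgroup.mem_inf.mpr ⟨hx, ?_⟩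
    rw [Subgroup.mem_pointwise_smul_iff_inv_smul_mem]
    have h3 : (MulAut.conj (x⁻¹ * y))⁻¹ • (x⁻¹ * g * x) = y⁻¹ * g * y := by
      rw [← map_inv, MulAut.smul_def, MulAut.conj_apply]
      group
    rw [h3]
    exact hy
  rw [h1, Subgroup.mem_bot] at h2
  apply hg
  have h4 : g = x * (x⁻¹ * g * x) * x⁻¹ := by group
  rw [h4, h2]
  group

end Cfsg.Agent.S4253
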