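import Cfsg.Statements.S4261
import Cfsg.Agent.S0048

set_option autoImplicit false
open Cfsg

namespace Cfsg.Agent.S4261

/-- Let M be a maximal subgroup of a finite solvable group G such that x^[G : M] lies in M for every x in G. Then M is normal in G. -/
theorem result {G : Type*} [Group G] [Finite G] (hG : Group.IsSolvable G) (M : Subgroup G) (hM : IsCoatom M)
    (hexp : ∀ x : G, x ^ M.index ∈ M) : M.Normal := by
  obtain ⟨p, k, hp, hk, hpk⟩ := Cfsg.Agent.S0048.result M hM
  have hp' : p.Prime := hp.nat_prime
  have : Fact p.Prime := ⟨hp'⟩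
  -- the normal closure of the p'-elements
  let S : Set G := {x : G | (orderOf x).Coprime p}
  have hS : ∀ x ∈ S, x ∈ M := by
    intro x hx
    have h1 : (orderOf x).Coprime M.index := by
      rw [← hpk]
      exact Nat.Coprime.pow_right k hx
    obtain ⟨m, hm⟩ := exists_pow_eq_self_of_coprime h1.symm
    rw [← hm]
    exact M.pow_mem (hexp x) m
  let N : Subgroup G := Subgroup.closure S
  have hN : N.Normal := by
    constructor
    intro n hn g
    induction hn using Subgroup.closure_induction with
    | mem x hx =>
      apply Subgroup.subset_closure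
      show (orderOf (g * x * g⁻¹)).Coprime p
      have h1 : orderOf (g * x * g⁻¹) ∣ orderOf x := by
        apply orderOf_dvd_of_pow_eq_one
        rw [conj_pow, pow_orderOf_eq_one]
        group
      exact Nat.Coprime.coprime_dvd_left h1 hx
    | one => simp
    | mul x y _ _ hx hy =>
      have : g * (x * y) * g⁻¹ = (g * x * g⁻¹) * (g * y * g⁻¹) := by group
      rw [this]
      exact N.mul_mem hx hy
    | inv x _ hx =>
      have : g * x⁻¹ * g⁻¹ = (g * x * g⁻¹)⁻¹ := by group
      rw [this]
      exact N.inv_mem hx
  have hNM : N ≤ M := (Subgroup.closure_le M).mpr hS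
  -- G/N is a p-group
  have hpG : IsPGroup p (G ⧸ N) := by
    intro x
    obtain ⟨x, rfl⟩ := QuotientGroup.mk'_surjective N x
    have hox : orderOf x ≠ 0 := (orderOf_pos x).ne'
    obtain ⟨a, r, hr, hxr⟩ := Nat.exists_eq_pow_mul_and_not_dvd hox p hp'.ne_one
    refine ⟨a, ?_⟩
    rw [← map_pow, QuotientGroup.mk'_apply, QuotientGroup.eq_one_iff]
    apply Subgroup.subset_closure
    show (orderOf (x ^ p ^ a)).Coprime p
    have h1 : orderOf (x ^ p ^ a) ∣ r := by
      apply orderOf_dvd_of_pow_eq_one
      rw [← pow_mul, ← hxr, pow_orderOf_eq_one]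
    exact Nat.Coprime.coprime_dvd_left h1 ((Nat.Prime.coprime_iff_not_dvd hp').mpr hr).symm
  have hnil : Group.IsNilpotent (G ⧸ N) := hpG.isNilpotent
  let f := QuotientGroup.mk' N
  have hf : Function.Surjective f := QuotientGroup.mk'_surjective N
  have hMM : (M.map f).comap f = M := by
    rw [Subgroup.comap_map_eq, QuotientGroup.ker_mk', sup_eq_left.mpr hNM]
  have hM' : IsCoatom (M.map f) := by
    constructor
    · intro h
      apply hM.1
      rw [← hMM, h, Subgroup.comap_top]
    · intro L hL
      have h1 : M < L.comap f := by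
        have h0 := (Subgroup.comap_lt_comap_of_surjective hf).mpr hL
        rwa [hMM] at h0
      have h2 := hM.2 _ h1
      rw [← Subgroup.map_comap_eq_self_of_surjective hf L, h2, ← MonoidHom.range_eq_map,
        MonoidHom.range_eq_top.mpr hf]
  have hn : (M.map f).Normal := Subgroup.NormalizerCondition.normal_of_coatom _ Group.normalizerCondition_of_isNilpotent hM'
  rw [← hMM]
  infer_instance

end Cfsg.Agent.S4261
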