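import Cfsg.Statements.S4262
import Cfsg.Agent.Lib.H74.AbelianMax

set_option autoImplicit false
open Cfsg

namespace Cfsg.Agent.S4262

open Subgroup

variable {G : Type*} [Group G] [Finite G]

/-- every non-central element has a power of prime power order that is non-central -/
theorem exists_p_power (x : G) (hx : x ∉ center G) :
    ∃ (p : ℕ) (_ : p.Prime) (a r : ℕ), x ^ r ∉ center G ∧ (x ^ r) ^ (p ^ a) = 1 := by
  have hne : orderOf (QuotientGroup.mk' (center G) x) ≠ 1 := by
    rw [Ne, orderOf_eq_one_iff]
    intro h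
    exact hx ((QuotientGroup.eq_one_iff x).mp h)
  obtain ⟨p, hp, hpd⟩ := Nat.exists_prime_and_dvd hne
  have hox : orderOf x ≠ 0 := (orderOf_pos x).ne'
  obtain ⟨a, r, hr, hxr⟩ := Nat.exists_eq_pow_mul_and_not_dvd hox p hp.ne_one
  refine ⟨p, hp, a, r, ?_, ?_⟩
  · intro h
    apply hr
    refine hpd.trans (orderOf_dvd_of_pow_eq_one ?_)
    rw [← map_pow]
    exact (QuotientGroup.eq_one_iff _).mpr h
  · rw [← pow_mul, mul_comm, ← hxr, pow_orderOf_eq_one]

omit [Finite G] in
theorem centralizer_le_pow (x : G) (n : ℕ) : centralizer ({x} : Set G) ≤ centralizer ({x ^ n} : Set G) := by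
  intro y hy
  rw [mem_centralizer_singleton_iff] at hy ⊢
  have : Commute y x := hy
  exact this.pow_right n

omit [Finite G] in
theorem centralizer_eq_of_le
    (h : ∀ g : G, g ∉ Subgroup.center G → IsCoatom (Subgroup.centralizer ({g} : Set G)))
    {x y : G} (hx : x ∉ center G) (hy : y ∉ center G)
    (hle : centralizer ({x} : Set G) ≤ centralizer ({y} : Set G)) :
    centralizer ({x} : Set G) = centralizer ({y} : Set G) := by
  rcases (h x hx).le_iff.mp hle with h1 | h1
  · exact absurd h1 (h y hy).1
  · exact h1.symm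

omit [Finite G] in
/-- if `u` is a non-central `p`-element, the `p'`-elements commuting with `u` commute with all of `C(u)` -/
theorem p'_central
    (h : ∀ g : G, g ∉ Subgroup.center G → IsCoatom (Subgroup.centralizer ({g} : Set G)))
    {p a : ℕ} {u y : G} (hu : u ∉ center G) (hua : u ^ (p ^ a) = 1)
    (hy : y ∈ centralizer ({u} : Set G)) (hyo : (orderOf y).Coprime (p ^ a)) :
    ∀ m ∈ centralizer ({u} : Set G), m * y = y * m := by
  by_cases hyc : y ∈ center G
  · intro m _
    exact mem_center_iff.mp hyc m
  · have hcomm : Commute u y := by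
      rw [mem_centralizer_singleton_iff] at hy
      exact hy.symm
    have hcop : (orderOf u).Coprime (orderOf y) :=
      Nat.Coprime.coprime_dvd_left (orderOf_dvd_of_pow_eq_one hua) hyo.symm
    have hw1 : (u * y) ^ (orderOf y) = u ^ (orderOf y) := by
      rw [hcomm.mul_pow, pow_orderOf_eq_one, mul_one]
    have hw2 : (u * y) ^ (orderOf u) = y ^ (orderOf u) := by
      rw [hcomm.mul_pow, pow_orderOf_eq_one, one_mul]
    obtain ⟨m1, hm1⟩ := exists_pow_eq_self_of_coprime hcop.symm
    obtain ⟨m2, hm2⟩ := exists_pow_eq_self_of_coprime hcop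
    have hwu : u = (u * y) ^ (orderOf y * m1) := by rw [pow_mul, hw1, hm1]
    have hwy : y = (u * y) ^ (orderOf u * m2) := by rw [pow_mul, hw2, hm2]
    have hwc : u * y ∉ center G := by
      intro hc
      apply hu
      rw [hwu]
      exact (center G).pow_mem hc _
    have h1 : centralizer ({u * y} : Set G) = centralizer ({u} : Set G) := by
      apply centralizer_eq_of_le h hwc hu
      conv_rhs => rw [hwu]
      exact centralizer_le_pow _ _
    have h2 : centralizer ({u * y} : Set G) = centralizer ({y} : Set G) := by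
      apply centralizer_eq_of_le h hwc hyc
      conv_rhs => rw [hwy]
      exact centralizer_le_pow _ _
    intro m hm
    rw [← h1, h2, mem_centralizer_singleton_iff] at hm
    exact hm

/-- decomposition of an element into its `p`-part and `p'`-part, both powers of it -/
theorem decomp (p : ℕ) (hp : p.Prime) (m : G) : ∃ (i j a : ℕ), m = m ^ i * m ^ j ∧ (m ^ i) ^ (p ^ a) = 1 ∧
    (orderOf (m ^ j)).Coprime p := by
  have hox : orderOf m ≠ 0 := (orderOf_pos m).ne'
  obtain ⟨a, r, hr, hxr⟩ := Nat.exists_eq_pow_mul_and_not_dvd hox p hp.ne_one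
  have hcop : Nat.Coprime r (p ^ a) :=
    (Nat.Coprime.pow_left a ((Nat.Prime.coprime_iff_not_dvd hp).mpr hr)).symm
  -- find i ≡ 1 mod p^a, i ≡ 0 mod r
  obtain ⟨i, hi1, hi2⟩ := Nat.chineseRemainder hcop 0 1
  obtain ⟨j, hj1, hj2⟩ := Nat.chineseRemainder hcop 1 0
  refine ⟨i, j, a, ?_, ?_, ?_⟩
  · rw [← pow_add]
    conv_lhs => rw [← pow_one m]
    rw [pow_eq_pow_iff_modEq, hxr]
    have h1 : 1 ≡ i + j [MOD r] := by
      have := hi1.add hj1
      simpa using this.symm
    have h2 : 1 ≡ i + j [MOD p ^ a] := by
      have := hi2.add hj2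
      simpa using this.symm
    exact (Nat.modEq_and_modEq_iff_modEq_mul hcop.symm).mp ⟨h2, h1⟩
  · rw [← pow_mul]
    apply orderOf_dvd_iff_pow_eq_one.mp
    rw [hxr, mul_comm i]
    exact Nat.mul_dvd_mul_left _ ((Nat.modEq_zero_iff_dvd).mp hi1)
  · have h3 : orderOf (m ^ j) ∣ r := by
      apply orderOf_dvd_of_pow_eq_one
      rw [← pow_mul]
      apply orderOf_dvd_iff_pow_eq_one.mp
      rw [hxr]
      exact Nat.mul_dvd_mul_right ((Nat.modEq_zero_iff_dvd).mp hj2) _
    exact Nat.Coprime.coprime_dvd_left h3 ((Nat.Prime.coprime_iff_not_dvd hp).mpr hr).symm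

/-- key claim -/
theorem exists_sylow
    (h : ∀ g : G, g ∉ Subgroup.center G → IsCoatom (Subgroup.centralizer ({g} : Set G)))
    (hns : ¬ Group.IsSolvable G) (x : G) (hx : x ∉ center G) :
    ∃ (p : ℕ) (_ : p.Prime) (S : Sylow p G), x ∈ centralizer (S : Set G) ∧ ¬ IsMulCommutative S := by
  obtain ⟨p, hp, a, r, hu, hua⟩ := exists_p_power x hx
  have : Fact p.Prime := ⟨hp⟩
  set u := x ^ r with hudef
  have hM : IsCoatom (centralizer ({x} : Set G)) := h x hx
  have hMu : centralizer ({x} : Set G) = centralizer ({u} : Set G) :=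
    centralizer_eq_of_le h hx hu (centralizer_le_pow x r)
  set M := centralizer ({x} : Set G) with hMdef
  have hZM : center G ≤ M := by
    intro z hz
    rw [hMdef, mem_centralizer_singleton_iff]
    exact (mem_center_iff.mp hz x).symm
  have hMnab : ¬ IsMulCommutative M := fun hab => hns (H74.AbelianMax.isSolvable M hM hab)
  -- p'-elements of M commute with M
  have hp' : ∀ y ∈ M, (orderOf y).Coprime p → ∀ m ∈ M, m * y = y * m := by
    intro y hy hyo
    rw [hMu] at hy ⊢
    exact p'_central h hu hua hy (Nat.Coprime.pow_right a hyo)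
  -- p'-elements of M are central in G
  have hpc : ∀ y ∈ M, (orderOf y).Coprime p → y ∈ center G := by
    intro y hy hyo
    by_contra hyc
    obtain ⟨q, hq, b, s, hv, hvb⟩ := exists_p_power y hyc
    have hMy : M = centralizer ({y} : Set G) := by
      have h0 : M ≤ centralizer ({y} : Set G) := by
        intro m hm
        rw [mem_centralizer_singleton_iff]
        exact hp' y hy hyo m hm
      rcases hM.le_iff.mp h0 with h1 | h1
      · exact absurd h1 (h y hyc).1
      · exact h1.symm
    have hMv : M = centralizer ({y ^ s} : Set G) := by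
      rw [hMy]
      exact centralizer_eq_of_le h hyc hv (centralizer_le_pow y s)
    have hqp : q ≠ p := by
      rintro rfl
      -- y^s has order dividing q^b and coprime to q, so trivial
      apply hv
      have h1 : (orderOf (y ^ s)).Coprime q :=
        Nat.Coprime.coprime_dvd_left (orderOf_pow_dvd s) hyo
      have h2 : orderOf (y ^ s) ∣ q ^ b := orderOf_dvd_of_pow_eq_one hvb
      have h3 : orderOf (y ^ s) = 1 := Nat.Coprime.eq_one_of_dvd (h1.pow_right b) h2
      rw [orderOf_eq_one_iff] at h3
      rw [h3]
      exact one_mem _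
    apply hMnab
    refine ⟨⟨?_⟩⟩
    rintro ⟨m, hm⟩ ⟨n, hn⟩
    apply Subtype.ext
    show m * n = n * m
    obtain ⟨i, j, c, hmij, hmi, hmj⟩ := decomp p hp m
    have h4 : n * m ^ j = m ^ j * n := hp' (m ^ j) (M.pow_mem hm j) hmj n hn
    have h5 : n * m ^ i = m ^ i * n := by
      have h6 : (orderOf (m ^ i)).Coprime (q ^ b) := by
        refine Nat.Coprime.coprime_dvd_left (orderOf_dvd_of_pow_eq_one hmi) ?_
        exact Nat.Coprime.pow c b ((Nat.coprime_primes hp hq).mpr hqp.symm)
      have h7 : m ^ i ∈ centralizer ({y ^ s} : Set G) := by rw [← hMv]; exact M.pow_mem hm i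
      have h8 := p'_central h hv hvb h7 h6
      rw [← hMv] at h8
      exact h8 n hn
    calc m * n = m ^ i * m ^ j * n := by rw [← hmij]
      _ = m ^ i * (n * m ^ j) := by rw [mul_assoc, h4]
      _ = n * m ^ i * m ^ j := by rw [← mul_assoc, ← h5]
      _ = n * m := by rw [mul_assoc, ← hmij]
  -- Sylow
  let PM : Sylow p M := Classical.arbitrary _
  have hPMp : IsPGroup p ((PM : Subgroup M).map M.subtype) := PM.isPGroup'.map _
  obtain ⟨S, hS⟩ := hPMp.exists_le_sylow
  have hMT : M ≤ (S : Subgroup G) ⊔ center G := by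
    rw [← relIndex_eq_one]
    have h1 : ((S : Subgroup G) ⊔ center G).relIndex M ∣ (PM : Subgroup M).index := by
      apply index_dvd_of_le
      intro z hz
      rw [mem_subgroupOf]
      exact (le_sup_left : (S : Subgroup G) ≤ _) (hS (mem_map_of_mem _ hz))
    have h2 : ¬ p ∣ (PM : Subgroup M).index := PM.not_dvd_index
    have h3 : ((S : Subgroup G) ⊔ center G).relIndex M ∣ (center G).relIndex M :=
      relIndex_dvd_of_le_left M le_sup_right
    have hZn : ((center G).subgroupOf M).Normal := inferInstance
    have h4 : IsPGroup p (M ⧸ (center G).subgroupOf M) := by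
      intro g
      obtain ⟨⟨m, hm⟩, rfl⟩ := QuotientGroup.mk'_surjective _ g
      obtain ⟨i, j, c, hmij, hmi, hmj⟩ := decomp p hp m
      refine ⟨c, ?_⟩
      rw [← map_pow, QuotientGroup.mk'_apply, QuotientGroup.eq_one_iff, mem_subgroupOf]
      show m ^ (p ^ c) ∈ center G
      have h5 : m ^ p ^ c = (m ^ i) ^ p ^ c * (m ^ j) ^ p ^ c := by
        conv_lhs => rw [hmij]
        exact Commute.mul_pow (((Commute.refl m).pow_pow i j)) _
      rw [h5, hmi, one_mul]
      exact (center G).pow_mem (hpc _ (M.pow_mem hm j) hmj) _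
    obtain ⟨k, hk⟩ := (IsPGroup.iff_card).mp h4
    have h6 : (center G).relIndex M = p ^ k := hk
    rw [h6] at h3
    obtain ⟨l, -, hl⟩ := (Nat.dvd_prime_pow hp).mp h3
    rw [hl] at h1 ⊢
    rcases Nat.eq_zero_or_pos l with rfl | hlpos
    · simp
    · exact absurd ((dvd_pow_self p hlpos.ne').trans h1) h2
  refine ⟨p, hp, S, ?_, ?_⟩
  · rcases hM.le_iff.mp hMT with h1 | h1
    · exfalso
      apply hns
      have h2 : IsPGroup p (G ⧸ center G) := by
        have h3 : Function.Surjective ((QuotientGroup.mk' (center G)).comp (S : Subgroup G).subtype) := by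
          intro g
          obtain ⟨g, rfl⟩ := QuotientGroup.mk'_surjective _ g
          have hg : g ∈ (S : Subgroup G) ⊔ center G := h1 ▸ mem_top g
          rw [← SetLike.mem_coe, mul_normal, Set.mem_mul] at hg
          obtain ⟨s, hs, z, hz, rfl⟩ := hg
          refine ⟨⟨s, hs⟩, ?_⟩
          rw [map_mul]
          have : QuotientGroup.mk' (center G) z = 1 := (QuotientGroup.eq_one_iff z).mpr hz
          rw [this, mul_one]
          rfl
        exact IsPGroup.of_surjective S.isPGroup' _ h3
      have h4 : Group.IsNilpotent (G ⧸ center G) := h2.isNilpotent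
      have h5 : Group.IsNilpotent G := Group.of_quotient_center_nilpotent h4
      infer_instance
    · rw [mem_centralizer_iff]
      intro s hs'
      have h2 : s ∈ M := by
        rw [← h1]
        exact (le_sup_left : (S : Subgroup G) ≤ _) hs'
      rw [hMdef, mem_centralizer_singleton_iff] at h2
      exact h2
  · intro hSab
    apply hMnab
    refine ⟨⟨?_⟩⟩
    rintro ⟨m, hm⟩ ⟨n, hn⟩
    apply Subtype.ext
    show m * n = n * m
    have key : ∀ m ∈ M, ∃ s ∈ (S : Subgroup G), ∃ z ∈ center G, m = s * z := by
      intro m hm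
      have h1 := hMT hm
      rw [← SetLike.mem_coe, mul_normal, Set.mem_mul] at h1
      obtain ⟨s, hs, z, hz, e⟩ := h1
      exact ⟨s, hs, z, hz, e.symm⟩
    obtain ⟨s, hs, z, hz, rfl⟩ := key m hm
    obtain ⟨t, ht, w, hw, rfl⟩ := key n hn
    have e1 : s * t = t * s := H74.AbelianMax.comm_of_mem hSab hs ht
    have hz' := mem_center_iff.mp hz
    have hw' := mem_center_iff.mp hw
    calc s * z * (t * w) = s * (z * t) * w := by group
      _ = s * (t * z) * w := by rw [hz' t]
      _ = s * t * (z * w) := by group
      _ = t * s * (w * z) := by rw [e1, hw' z]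
      _ = t * (s * w) * z := by group
      _ = t * (w * s) * z := by rw [hw' s]
      _ = t * w * (s * z) := by group

theorem index_center_ge {p : ℕ} [Fact p.Prime] (S : Type*) [Group S] [Finite S] (hS : IsPGroup p S)
    (hab : ¬ IsMulCommutative S) : p ^ 2 ≤ (center S).index := by
  obtain ⟨k, hk⟩ := hS.index (center S)
  have hp : p.Prime := Fact.out
  rw [hk]
  apply Nat.pow_le_pow_right hp.pos
  by_contra hlt
  apply hab
  have hk2 : k = 0 ∨ k = 1 := by omega
  have hcyc : IsCyclic (S ⧸ center S) := by
    rcases hk2 with rfl | rfl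
    · have h1 : Nat.card (S ⧸ center S) = 1 := by rw [← index_eq_card, hk, pow_zero]
      have h2 : Subsingleton (S ⧸ center S) := (Nat.card_eq_one_iff_unique.mp h1).1
      infer_instance
    · have h1 : Nat.card (S ⧸ center S) = p := by rw [← index_eq_card, hk, pow_one]
      exact isCyclic_of_prime_card h1
  exact MonoidHom.isMulCommutative_of_isCyclic_of_ker_le_center (QuotientGroup.mk' (center S))
    (by rw [QuotientGroup.ker_mk'])

theorem card_bound {p : ℕ} [Fact p.Prime] (S : Sylow p G) (hab : ¬ IsMulCommutative S) :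
    p ^ 2 * Nat.card (Sylow p G) * Nat.card (centralizer (S : Set G)) ≤ Nat.card G := by
  set C := centralizer (S : Set G) with hC
  set N := normalizer (S : Set G) with hN
  have hCN : C ≤ N := centralizer_le_normalizer _
  have hSN : (S : Subgroup G) ≤ N := le_normalizer
  have h1 : C.relIndex N * N.index = C.index := relIndex_mul_index hCN
  have h2 : Nat.card C * C.index = Nat.card G := card_mul_index C
  have h3 : Nat.card (Sylow p G) = N.index := S.card_eq_index_normalizer
  have h4 : C.relIndex (S : Subgroup G) ≤ C.relIndex N :=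
    relIndex_le_of_le_right hSN index_ne_zero_of_finite
  have h5 : C.relIndex (S : Subgroup G) = (center S).index := by
    unfold relIndex
    congr 1
    ext x
    rw [mem_subgroupOf, mem_center_iff, mem_centralizer_iff]
    constructor
    · intro hx y
      apply Subtype.ext
      exact hx y y.2
    · intro hx y hy
      exact congrArg Subtype.val (hx ⟨y, hy⟩)
  have h6 := index_center_ge S S.isPGroup' hab
  rw [← h5] at h6
  have h7 : p ^ 2 ≤ C.relIndex N := h6.trans h4
  calc p ^ 2 * Nat.card (Sylow p G) * Nat.card C = p ^ 2 * (N.index * Nat.card C) := by rw [h3, mul_assoc]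
    _ ≤ C.relIndex N * (N.index * Nat.card C) := Nat.mul_le_mul_right _ h7
    _ = Nat.card G := by rw [← mul_assoc, h1, mul_comm, h2]

theorem sum_inv_sq (n : ℕ) : (∑ p ∈ n.primeFactors, (1 : ℚ) / (p : ℚ) ^ 2) ≤ 3 / 4 - if 2 ≤ n then 1 / (n : ℚ) else 0 := by
  have h1 : (∑ p ∈ n.primeFactors, (1 : ℚ) / (p : ℚ) ^ 2) ≤ ∑ p ∈ Finset.Icc 2 n, (1 : ℚ) / (p : ℚ) ^ 2 := by
    apply Finset.sum_le_sum_of_subset_of_nonneg
    · intro p hp
      rw [Finset.mem_Icc]
      exact ⟨(Nat.prime_of_mem_primeFactors hp).two_le, Nat.le_of_mem_primeFactors hp⟩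
    · intro i _ _
      positivity
  refine h1.trans ?_
  split_ifs with h2
  · clear h1
    induction n, h2 using Nat.le_induction with
    | base => norm_num
    | succ n hn ih =>
      rw [Finset.sum_Icc_succ_top (by omega)]
      have hn0 : (0 : ℚ) < n := by positivity
      have h3 : (1 : ℚ) / ((n + 1 : ℕ) : ℚ) ^ 2 ≤ 1 / n - 1 / ((n + 1 : ℕ) : ℚ) := by
        push_cast
        rw [div_sub_div _ _ hn0.ne' (by positivity), div_le_div_iff₀ (by positivity) (by positivity)]
        nlinarith
      linarith
  · have : Finset.Icc 2 n = ∅ := Finset.Icc_eq_empty (by omega)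
    rw [this]
    norm_num

/-- Let G be a finite group in which the centralizer of every non-central element is a maximal subgroup of G. Then G is solvable. -/
theorem result {G : Type*} [Group G] [Finite G]
    (h : ∀ g : G, g ∉ Subgroup.center G → IsCoatom (Subgroup.centralizer ({g} : Set G))) :
    Group.IsSolvable G := by
  classical
  by_contra hns
  have := Fintype.ofFinite G
  set n := Nat.card G with hn
  have hnpos : 0 < n := Nat.card_pos
  -- the sets
  let A : ℕ → Finset G := fun p => Finset.univ.filter
    (fun x => ∃ S : Sylow p G, x ∈ centralizer (S : Set G) ∧ ¬ IsMulCommutative S)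
  have hcover : (Finset.univ : Finset G) ⊆ (Finset.univ.filter (fun x => x ∈ center G)) ∪
      n.primeFactors.biUnion A := by
    intro x _
    rw [Finset.mem_union, Finset.mem_filter]
    by_cases hx : x ∈ center G
    · exact Or.inl ⟨Finset.mem_univ _, hx⟩
    · right
      obtain ⟨p, hp, S, hxS, hS⟩ := exists_sylow h hns x hx
      rw [Finset.mem_biUnion]
      refine ⟨p, ?_, ?_⟩
      · rw [Nat.mem_primeFactors]
        refine ⟨hp, ?_, hnpos.ne'⟩
        by_contra hpn
        apply hS
        have : Fact p.Prime := ⟨hp⟩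
        have h1 : Nat.card S = 1 := by
          rcases S.isPGroup'.card_eq_or_dvd with h2 | h2
          · exact h2
          · exact absurd (h2.trans (card_subgroup_dvd_card _)) hpn
        have : Subsingleton S := (Nat.card_eq_one_iff_unique.mp h1).1
        exact ⟨⟨fun a b => Subsingleton.elim _ _⟩⟩
      · rw [Finset.mem_filter]
        exact ⟨Finset.mem_univ _, S, hxS, hS⟩
  have hA : ∀ p ∈ n.primeFactors, ((A p).card : ℚ) ≤ n * (1 / (p : ℚ) ^ 2) := by
    intro p hp
    have hpp : p.Prime := Nat.prime_of_mem_primeFactors hp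
    have : Fact p.Prime := ⟨hpp⟩
    have hp0 : (0 : ℚ) < (p : ℚ) ^ 2 := by have := hpp.pos; positivity
    have hs0 : (0 : ℚ) < Nat.card (Sylow p G) := by exact_mod_cast Nat.card_pos
    have h1 : A p ⊆ (Finset.univ : Finset (Sylow p G)).biUnion
        (fun S => if IsMulCommutative S then ∅ else Finset.univ.filter (fun x => x ∈ centralizer (S : Set G))) := by
      intro x hx
      rw [Finset.mem_filter] at hx
      obtain ⟨-, S, hxS, hS⟩ := hx
      rw [Finset.mem_biUnion]
      refine ⟨S, Finset.mem_univ _, ?_⟩
      rw [if_neg hS, Finset.mem_filter]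
      exact ⟨Finset.mem_univ _, hxS⟩
    have h2 : ((A p).card : ℚ) ≤ ∑ S : Sylow p G, (n : ℚ) / ((p : ℚ) ^ 2 * Nat.card (Sylow p G)) := by
      calc ((A p).card : ℚ) ≤ ∑ S : Sylow p G,
            (((if IsMulCommutative S then ∅ else Finset.univ.filter (fun x => x ∈ centralizer (S : Set G)) : Finset G).card : ℕ) : ℚ) := by
            exact_mod_cast (Finset.card_le_card h1).trans Finset.card_biUnion_le
        _ ≤ _ := by
            apply Finset.sum_le_sum
            intro S _
            split_ifs with hS
            · simp only [Finset.card_empty, Nat.cast_zero]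
              positivity
            · rw [le_div_iff₀ (by positivity)]
              have h3 := card_bound S hS
              have h4 : (Finset.univ.filter (fun x => x ∈ centralizer (S : Set G))).card =
                  Nat.card (centralizer (S : Set G)) := by
                rw [Nat.card_eq_fintype_card, Fintype.card_subtype]
              rw [h4]
              have h5 : ((p ^ 2 * Nat.card (Sylow p G) * Nat.card (centralizer (S : Set G)) : ℕ) : ℚ) ≤ (n : ℚ) := by
                exact_mod_cast h3
              push_cast at h5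
              linarith
    refine h2.trans ?_
    rw [Finset.sum_const, Finset.card_univ, ← Nat.card_eq_fintype_card, nsmul_eq_mul]
    rw [mul_div_assoc', mul_one_div, div_le_div_iff₀ (by positivity) (by positivity)]
    apply le_of_eq
    ring
  have hZ : 4 * Nat.card (center G) ≤ n := by
    have h1 : Nat.card (center G) * (center G).index = n := card_mul_index _
    have h2 : 4 ≤ (center G).index := by
      by_contra h3
      have h4 : (center G).index ≠ 0 := index_ne_zero_of_finite
      apply hns
      have hcyc : IsCyclic (G ⧸ center G) := by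
        have h5 : (center G).index = 1 ∨ (center G).index = 2 ∨ (center G).index = 3 := by omega
        rcases h5 with h5 | h5 | h5
        · have h6 : Nat.card (G ⧸ center G) = 1 := by rw [← index_eq_card, h5]
          have : Subsingleton (G ⧸ center G) := (Nat.card_eq_one_iff_unique.mp h6).1
          infer_instance
        · have h6 : Nat.card (G ⧸ center G) = 2 := by rw [← index_eq_card, h5]
          have : Fact (Nat.Prime 2) := ⟨Nat.prime_two⟩
          exact isCyclic_of_prime_card h6
        · have h6 : Nat.card (G ⧸ center G) = 3 := by rw [← index_eq_card, h5]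
          have : Fact (Nat.Prime 3) := ⟨Nat.prime_three⟩
          exact isCyclic_of_prime_card h6
      have hcomm : IsMulCommutative G :=
        MonoidHom.isMulCommutative_of_isCyclic_of_ker_le_center (QuotientGroup.mk' (center G))
          (by rw [QuotientGroup.ker_mk'])
      exact Group.isSolvable_of_comm (fun a b => hcomm.is_comm.comm a b)
    nlinarith
  have hcard : (n : ℚ) ≤ Nat.card (center G) + ∑ p ∈ n.primeFactors, (n : ℚ) * (1 / (p : ℚ) ^ 2) := by
    have h1 := Finset.card_le_card hcover
    have h2 : (Finset.univ : Finset G).card = n := by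
      rw [Finset.card_univ, ← Nat.card_eq_fintype_card]
    have h3 : (Finset.univ.filter (fun x => x ∈ center G)).card = Nat.card (center G) := by
      rw [Nat.card_eq_fintype_card, Fintype.card_subtype]
    have h4 := h1.trans (Finset.card_union_le _ _)
    rw [h2, h3] at h4
    have h5 : (n : ℚ) ≤ Nat.card (center G) + ((n.primeFactors.biUnion A).card : ℚ) := by
      exact_mod_cast h4
    refine h5.trans ?_
    gcongr
    calc ((n.primeFactors.biUnion A).card : ℚ) ≤ ∑ p ∈ n.primeFactors, ((A p).card : ℚ) := by
          exact_mod_cast Finset.card_biUnion_le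
      _ ≤ _ := Finset.sum_le_sum hA
  rw [← Finset.mul_sum] at hcard
  have hsum := sum_inv_sq n
  have hZq : 4 * (Nat.card (center G) : ℚ) ≤ n := by exact_mod_cast hZ
  have hZpos : 0 < Nat.card (center G) := Nat.card_pos
  have hn4 : 2 ≤ n := by omega
  rw [if_pos hn4] at hsum
  have hnq : (0 : ℚ) < n := by exact_mod_cast hnpos
  have h6 : (n : ℚ) * ∑ p ∈ n.primeFactors, (1 : ℚ) / (p : ℚ) ^ 2 ≤ n * (3 / 4 - 1 / (n : ℚ)) :=
    mul_le_mul_of_nonneg_left hsum hnq.le
  have h7 : (n : ℚ) * (3 / 4 - 1 / (n : ℚ)) = 3 / 4 * n - 1 := by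
    field_simp
  linarith

end Cfsg.Agent.S4262
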