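import Cfsg.Statements.S4263
import Cfsg.Agent.Lib.H74.Fitting

set_option autoImplicit false
open Cfsg
open scoped Pointwise

namespace Cfsg.Agent.S4263

/-- Let G be a finite group. An element x lies in the Fitting subgroup F(G) if and only if, for every subgroup H of G, the power x^[G : H] lies in H. -/
theorem result {G : Type*} [Group G] [Finite G] (x : G) :
    x ∈ Cfsg.fittingSubgroup G ↔ ∀ H : Subgroup G, x ^ H.index ∈ H := by
  constructor
  · intro hx H
    obtain ⟨k, hk⟩ := H74.Fitting.relIndex_dvd_index_of_normal_right H (Cfsg.fittingSubgroup G)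
    have h1 := H74.Fitting.pow_index_mem_of_nilpotent (H.subgroupOf (Cfsg.fittingSubgroup G)) ⟨x, hx⟩
    rw [Subgroup.mem_subgroupOf] at h1
    have h2 : x ^ H.relIndex (Cfsg.fittingSubgroup G) ∈ H := h1
    rw [hk, pow_mul]
    exact Subgroup.pow_mem _ h2 _
  · intro hx
    set F := Cfsg.fittingSubgroup G with hF
    rw [← QuotientGroup.eq_one_iff, ← orderOf_eq_one_iff]
    by_contra hne
    obtain ⟨p, hp, hpd⟩ := Nat.exists_prime_and_dvd hne
    have : Fact p.Prime := ⟨hp⟩
    have hox : orderOf x ≠ 0 := (orderOf_pos x).ne'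
    obtain ⟨a, r, hr, hxr⟩ := Nat.exists_eq_pow_mul_and_not_dvd hox p hp.ne_one
    have hyord : (x ^ r) ^ (p ^ a) = 1 := by
      rw [← pow_mul, mul_comm, ← hxr, pow_orderOf_eq_one]
    have hy : ∀ P : Sylow p G, x ^ r ∈ (P : Subgroup G) := by
      intro P
      have h1 : (x ^ r) ^ (P : Subgroup G).index ∈ (P : Subgroup G) := by
        rw [← pow_mul, mul_comm, pow_mul]
        exact Subgroup.pow_mem _ (hx P) _
      have hcop : Nat.Coprime (orderOf (x ^ r)) (P : Subgroup G).index := by
        refine Nat.Coprime.coprime_dvd_left (orderOf_dvd_of_pow_eq_one hyord) ?_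
        exact Nat.Coprime.pow_left _ ((Nat.Prime.coprime_iff_not_dvd hp).2 P.not_dvd_index)
      obtain ⟨m, hm⟩ := exists_pow_eq_self_of_coprime hcop.symm
      rw [← hm]
      exact Subgroup.pow_mem _ h1 _
    have hyF : x ^ r ∈ F := by
      have P : Sylow p G := Classical.arbitrary _
      have h1 : x ^ r ∈ (P : Subgroup G).normalCore := by
        intro g
        have h2 := hy (g⁻¹ • P)
        have h3 : x ^ r ∈ MulAut.conj g⁻¹ • (P : Subgroup G) := h2
        rw [Subgroup.mem_pointwise_smul_iff_inv_smul_mem] at h3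
        simpa using h3
      have h4 : (P : Subgroup G).normalCore ≤ Cfsg.pCore p G :=
        H74.Fitting.le_pCore inferInstance (P.isPGroup'.to_le (Subgroup.normalCore_le _))
      exact H74.Fitting.pCore_le_fitting p (h4 h1)
    have h5 : orderOf (x : G ⧸ F) ∣ r := by
      apply orderOf_dvd_of_pow_eq_one
      rw [← QuotientGroup.mk_pow, QuotientGroup.eq_one_iff]
      exact hyF
    exact hr (hpd.trans h5)

end Cfsg.Agent.S4263
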