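import Cfsg.Statements.S4331
import Mathlib
import Cfsg.Agent.Lib.H75.Subn

set_option autoImplicit false
set_option linter.all false
set_option linter.style.haveILetI false
open Cfsg

namespace Cfsg.Agent.S4331

section

variable {K : Type} [Field K] [Fintype K] [CharP K 3] (h9 : Fintype.card K = 9)

/-- affine maps (type `false`) and affine maps composed with cubing (type `true`). -/
def Ty (s : Bool) (π : Equiv.Perm K) : Prop :=
  ∃ a b : K, a ≠ 0 ∧ ∀ x, π x = a * (if s then x ^ 3 else x) + b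

omit [Fintype K] in
theorem cube_add (x y : K) : (x + y) ^ 3 = x ^ 3 + y ^ 3 := by
  haveI : Fact (Nat.Prime 3) := ⟨Nat.prime_three⟩
  exact add_pow_char x y 3

omit [Fintype K] in
theorem cube_sub (x y : K) : (x - y) ^ 3 = x ^ 3 - y ^ 3 := by
  haveI : Fact (Nat.Prime 3) := ⟨Nat.prime_three⟩
  exact sub_pow_char x y

omit [CharP K 3] in
include h9 in
theorem pow_nine (x : K) : x ^ 9 = x := by
  rw [← h9]; exact FiniteField.pow_card x

include h9 in
theorem Ty.mul {s t : Bool} {π ρ : Equiv.Perm K} (hπ : Ty s π) (hρ : Ty t ρ) : Ty (xor s t) (π * ρ) := by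
  obtain ⟨a, b, ha, hπ⟩ := hπ
  obtain ⟨c, d, hc, hρ⟩ := hρ
  cases s <;> cases t
  · refine ⟨a * c, a * d + b, mul_ne_zero ha hc, fun x => ?_⟩
    rw [Equiv.Perm.mul_apply, hρ, hπ]; simp; ring
  · refine ⟨a * c, a * d + b, mul_ne_zero ha hc, fun x => ?_⟩
    rw [Equiv.Perm.mul_apply, hρ, hπ]; simp; ring
  · refine ⟨a * c ^ 3, a * d ^ 3 + b, mul_ne_zero ha (pow_ne_zero _ hc), fun x => ?_⟩
    rw [Equiv.Perm.mul_apply, hρ, hπ]
    simp only [Bool.xor_false, if_true, Bool.false_eq_true, if_false]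
    rw [cube_add, mul_pow]; ring
  · refine ⟨a * c ^ 3, a * d ^ 3 + b, mul_ne_zero ha (pow_ne_zero _ hc), fun x => ?_⟩
    rw [Equiv.Perm.mul_apply, hρ, hπ]
    simp only [Bool.xor_true, Bool.not_true, if_true, Bool.false_eq_true, if_false]
    rw [cube_add, mul_pow, ← pow_mul, pow_nine h9]; ring

include h9 in
theorem Ty.inv {s : Bool} {π : Equiv.Perm K} (hπ : Ty s π) : Ty s π⁻¹ := by
  obtain ⟨a, b, ha, hπ⟩ := hπ
  cases s
  · refine ⟨a⁻¹, -(a⁻¹ * b), inv_ne_zero ha, fun x => ?_⟩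
    apply π.injective
    rw [Equiv.Perm.inv_def, Equiv.apply_symm_apply, hπ]
    simp only [Bool.false_eq_true, if_false]
    field_simp
    ring
  · refine ⟨(a⁻¹) ^ 3, -((a⁻¹ * b) ^ 3), pow_ne_zero _ (inv_ne_zero ha), fun x => ?_⟩
    apply π.injective
    rw [Equiv.Perm.inv_def, Equiv.apply_symm_apply, hπ]
    simp only [if_true]
    have h1 : a⁻¹ ^ 3 * x ^ 3 + -((a⁻¹ * b) ^ 3) = (a⁻¹ * (x - b)) ^ 3 := by
      rw [mul_pow, mul_pow, cube_sub]; ring
    rw [h1, ← pow_mul, pow_nine h9, ← mul_assoc, mul_inv_cancel₀ ha]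
    ring

omit [Fintype K] [CharP K 3] in
theorem Ty.one : Ty (K := K) false 1 := ⟨1, 0, one_ne_zero, fun x => by simp⟩

/-- The group AΓL(1,9). -/
def Gp : Subgroup (Equiv.Perm K) where
  carrier := {π | ∃ s, Ty s π}
  one_mem' := ⟨false, Ty.one⟩
  mul_mem' := fun {π ρ} ⟨_, hs⟩ ⟨_, ht⟩ => ⟨_, Ty.mul h9 hs ht⟩
  inv_mem' := fun {π} ⟨s, hs⟩ => ⟨s, Ty.inv h9 hs⟩

/-- affine maps -/
def Lin : Subgroup (Gp h9) where
  carrier := {π | Ty false (π : Equiv.Perm K)}
  one_mem' := Ty.one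
  mul_mem' := fun {π ρ} hs ht => Ty.mul h9 hs ht
  inv_mem' := fun {π} hs => Ty.inv h9 hs

/-- translations -/
def Tr : Subgroup (Gp h9) where
  carrier := {π | ∃ b : K, ∀ x, (π : Equiv.Perm K) x = x + b}
  one_mem' := ⟨0, fun x => by simp⟩
  mul_mem' := by
    rintro π ρ ⟨b, hb⟩ ⟨c, hc⟩
    refine ⟨c + b, fun x => ?_⟩
    show (π : Equiv.Perm K) ((ρ : Equiv.Perm K) x) = _
    rw [hc, hb]; ring
  inv_mem' := by
    rintro π ⟨b, hb⟩
    refine ⟨-b, fun x => ?_⟩
    show (π : Equiv.Perm K)⁻¹ x = _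
    apply (π : Equiv.Perm K).injective
    rw [Equiv.Perm.inv_def, Equiv.apply_symm_apply, hb]; ring

theorem solvable : Group.IsSolvable (Gp h9) := by
  refine ⟨3, ?_⟩
  have h1 : derivedSeries (Gp h9) 1 ≤ Lin h9 := by
    rw [derivedSeries_succ, Subgroup.commutator_le]
    rintro ⟨π, s, hπ⟩ _ ⟨ρ, t, hρ⟩ _
    show Ty false (π * ρ * π⁻¹ * ρ⁻¹)
    have := Ty.mul h9 (Ty.mul h9 (Ty.mul h9 hπ hρ) (Ty.inv h9 hπ)) (Ty.inv h9 hρ)
    cases s <;> cases t <;> exact this
  have h2 : derivedSeries (Gp h9) 2 ≤ Tr h9 := by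
    rw [derivedSeries_succ, Subgroup.commutator_le]
    intro π hπ ρ hρ
    obtain ⟨a, b, ha, hπ⟩ := h1 hπ
    obtain ⟨c, d, hc, hρ⟩ := h1 hρ
    simp only [Bool.false_eq_true, if_false] at hπ hρ
    refine ⟨(a * d + b) - (c * b + d), fun x => ?_⟩
    show ((π : Equiv.Perm K) * (ρ : Equiv.Perm K) * (π : Equiv.Perm K)⁻¹ * (ρ : Equiv.Perm K)⁻¹) x = _
    obtain ⟨y, rfl⟩ : ∃ y, ((ρ : Equiv.Perm K) * (π : Equiv.Perm K)) y = x := ⟨((ρ : Equiv.Perm K) * (π : Equiv.Perm K))⁻¹ x, by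
      rw [← Equiv.Perm.mul_apply, mul_inv_cancel]; rfl⟩
    rw [← Equiv.Perm.mul_apply]
    have e : (π : Equiv.Perm K) * (ρ : Equiv.Perm K) * (π : Equiv.Perm K)⁻¹ * (ρ : Equiv.Perm K)⁻¹ * ((ρ : Equiv.Perm K) * (π : Equiv.Perm K)) = π * ρ := by group
    rw [e, Equiv.Perm.mul_apply, Equiv.Perm.mul_apply, hπ, hρ, hρ, hπ]
    ring
  rw [eq_bot_iff, derivedSeries_succ, Subgroup.commutator_le]
  intro π hπ ρ hρ
  obtain ⟨b, hπ⟩ := h2 hπ
  obtain ⟨d, hρ⟩ := h2 hρ
  rw [Subgroup.mem_bot]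
  have e : π * ρ = ρ * π := by
    apply Subtype.ext
    apply Equiv.ext
    intro x
    show (π : Equiv.Perm K) ((ρ : Equiv.Perm K) x) = (ρ : Equiv.Perm K) ((π : Equiv.Perm K) x)
    rw [hπ, hρ, hρ, hπ]; ring
  rw [commutatorElement_eq_one_iff_mul_comm]
  exact e

/-- the affine permutation `a x + b` -/
def aff (a b : K) (ha : a ≠ 0) : Equiv.Perm K where
  toFun x := a * x + b
  invFun x := a⁻¹ * (x - b)
  left_inv x := by field_simp; ring
  right_inv x := by field_simp; ring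

def gaff (a b : K) (ha : a ≠ 0) : Gp h9 := ⟨aff a b ha, false, a, b, ha, fun x => by simp [aff]⟩

/-- the Frobenius permutation -/
def frobP : Equiv.Perm K where
  toFun x := x ^ 3
  invFun x := x ^ 3
  left_inv x := by show (x ^ 3) ^ 3 = x; rw [← pow_mul, pow_nine h9]
  right_inv x := by show (x ^ 3) ^ 3 = x; rw [← pow_mul, pow_nine h9]

def frob : Gp h9 := ⟨frobP h9, true, 1, 0, one_ne_zero, fun x => by simp [frobP]⟩

theorem frob_apply (x : K) : ((frob h9 : Gp h9) : Equiv.Perm K) x = x ^ 3 := rfl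

/-- the stabilizer of zero -/
def St : Subgroup (Gp h9) where
  carrier := {π | (π : Equiv.Perm K) 0 = 0}
  one_mem' := rfl
  mul_mem' := by
    intro π ρ hπ hρ
    show (π : Equiv.Perm K) ((ρ : Equiv.Perm K) 0) = 0
    have h1 : (π : Equiv.Perm K) 0 = 0 := hπ
    have h2 : (ρ : Equiv.Perm K) 0 = 0 := hρ
    rw [h2, h1]
  inv_mem' := by
    intro π hπ
    have h1 : (π : Equiv.Perm K) 0 = 0 := hπ
    show (π : Equiv.Perm K)⁻¹ 0 = 0
    apply (π : Equiv.Perm K).injective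
    rw [Equiv.Perm.inv_def, Equiv.apply_symm_apply, h1]

include h9 in
omit [CharP K 3] in
theorem pow_eight {a : K} (ha : a ≠ 0) : a ^ 8 = 1 := by
  have := pow_nine h9 a
  have h2 : a * (a ^ 8 - 1) = 0 := by ring_nf; rw [this]; ring
  rcases mul_eq_zero.1 h2 with h | h
  · exact absurd h ha
  · exact sub_eq_zero.1 h

theorem St_isPGroup : IsPGroup 2 (St h9) := by
  rintro ⟨⟨π, s, a, b, ha, hπ⟩, h0⟩
  have h0' : π 0 = 0 := h0
  refine ⟨4, ?_⟩
  apply Subtype.ext
  apply Subtype.ext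
  show π ^ (2 ^ 4) = 1
  apply Equiv.ext
  intro x
  have hb : b = 0 := by
    have := hπ 0
    rw [h0'] at this
    cases s <;> simpa using this.symm
  subst hb
  cases s
  · have hn : ∀ n : ℕ, (π ^ n) x = a ^ n * x := by
      intro n
      induction n with
      | zero => simp
      | succ n ih =>
        rw [pow_succ', Equiv.Perm.mul_apply, ih, hπ]
        simp; ring
    rw [hn]
    have : a ^ 2 ^ 4 = (a ^ 8) ^ 2 := by rw [← pow_mul]; norm_num
    rw [this, pow_eight h9 ha]; simp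
  · have h2 : ∀ y, (π ^ 2) y = a ^ 4 * y := by
      intro y
      rw [pow_two, Equiv.Perm.mul_apply, hπ, hπ]
      simp only [if_true, add_zero]
      rw [mul_pow, ← pow_mul, pow_nine h9]; ring
    have hn : ∀ n : ℕ, ((π ^ 2) ^ n) x = (a ^ 4) ^ n * x := by
      intro n
      induction n with
      | zero => simp
      | succ n ih =>
        rw [pow_succ', Equiv.Perm.mul_apply, ih, h2]
        ring
    have e : π ^ 2 ^ 4 = (π ^ 2) ^ 8 := by rw [← pow_mul]; norm_num
    rw [e, hn]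
    have : (a ^ 4) ^ 8 = (a ^ 8) ^ 4 := by rw [← pow_mul, ← pow_mul]
    rw [this, pow_eight h9 ha]; simp

/-- the group generated by Frobenius -/
def A : Subgroup (Gp h9) := Subgroup.zpowers (frob h9)

theorem sub_of_comm (g : Gp h9) (hg : g * frob h9 = frob h9 * g) :
    ((A h9).subgroupOf (A h9 ⊔ Subgroup.zpowers g)).IsSubnormal := by
  apply Subgroup.Normal.isSubnormal
  rw [Subgroup.normal_subgroupOf_iff_le_normalizer le_sup_left]
  refine sup_le Subgroup.le_normalizer ?_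
  rw [Subgroup.zpowers_le, Subgroup.mem_normalizer_iff]
  have hc : ∀ y ∈ A h9, g * y * g⁻¹ = y := by
    intro y hy
    obtain ⟨k, rfl⟩ := Subgroup.mem_zpowers_iff.1 hy
    have : Commute g (frob h9 ^ k) := Commute.zpow_right hg k
    rw [this.eq, mul_inv_cancel_right]
  intro y
  constructor
  · intro hy
    rw [hc y hy]; exact hy
  · intro hy
    have h1 := hc _ hy
    have h2 : g * y * g⁻¹ = y := by
      have := mul_right_cancel h1
      exact (mul_left_cancel this)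
    rw [← h2]; exact hy

theorem sub_of_St (g : Gp h9) (hg : g ∈ St h9) :
    ((A h9).subgroupOf (A h9 ⊔ Subgroup.zpowers g)).IsSubnormal := by
  have hle : A h9 ⊔ Subgroup.zpowers g ≤ St h9 := by
    refine sup_le ?_ ((Subgroup.zpowers_le).2 hg)
    rw [A, Subgroup.zpowers_le]
    show ((frob h9 : Gp h9) : Equiv.Perm K) 0 = 0
    rw [frob_apply]; simp
  have hp : IsPGroup 2 ↥(A h9 ⊔ Subgroup.zpowers g) := (St_isPGroup h9).to_le hle
  haveI : Fact (Nat.Prime 2) := ⟨Nat.prime_two⟩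
  exact H75.Subn.isSubnormal_of_isPGroup hp _

/-- conjugate into the stabilizer of zero if there is a fixed point -/
theorem conj_of_fixed (c : Gp h9) (x0 : K) (hx : (c : Equiv.Perm K) x0 = x0) :
    ∃ g : Gp h9, IsConj c g ∧ g ∈ St h9 := by
  let m : Gp h9 := gaff h9 1 (-x0) one_ne_zero
  refine ⟨m * c * m⁻¹, isConj_iff.2 ⟨m, rfl⟩, ?_⟩
  show ((m : Equiv.Perm K) * (c : Equiv.Perm K) * (m : Equiv.Perm K)⁻¹) 0 = 0
  have h1 : (m : Equiv.Perm K) x0 = 0 := by
    show 1 * x0 + -x0 = 0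
    ring
  rw [← h1]
  rw [← Equiv.Perm.mul_apply, inv_mul_cancel_right, Equiv.Perm.mul_apply, hx, h1]

theorem exists_conj (c : Gp h9) :
    ∃ g : Gp h9, IsConj c g ∧ ((A h9).subgroupOf (A h9 ⊔ Subgroup.zpowers g)).IsSubnormal := by
  by_cases hfix : ∃ x0 : K, (c : Equiv.Perm K) x0 = x0
  · obtain ⟨x0, hx⟩ := hfix
    obtain ⟨g, hg, hgS⟩ := conj_of_fixed h9 c x0 hx
    exact ⟨g, hg, sub_of_St h9 g hgS⟩
  · push Not at hfix
    obtain ⟨π, s, a, b, ha, hπ⟩ := c
    have hfix' : ∀ x, π x ≠ x := hfix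
    cases s
    · simp only [Bool.false_eq_true, if_false] at hπ
      have ha1 : a = 1 := by
        by_contra hne
        have hne' : 1 - a ≠ 0 := sub_ne_zero.2 (Ne.symm hne)
        apply hfix' (b / (1 - a))
        rw [hπ]
        field_simp
        ring
      have hb : b ≠ 0 := by
        rintro rfl
        apply hfix' 0
        rw [hπ]; simp
      set c : Gp h9 := ⟨π, false, a, b, ha, by simpa using hπ⟩ with hc
      let m : Gp h9 := gaff h9 b⁻¹ 0 (inv_ne_zero hb)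
      refine ⟨m * c * m⁻¹, isConj_iff.2 ⟨m, rfl⟩, ?_⟩
      apply sub_of_comm
      have hg : ∀ y, ((m * c * m⁻¹ : Gp h9) : Equiv.Perm K) y = y + 1 := by
        intro y
        show ((m : Equiv.Perm K) * π * (m : Equiv.Perm K)⁻¹) y = y + 1
        obtain ⟨z, rfl⟩ := (m : Equiv.Perm K).surjective y
        rw [← Equiv.Perm.mul_apply, inv_mul_cancel_right, Equiv.Perm.mul_apply, hπ, ha1]
        show b⁻¹ * (1 * z + b) + 0 = (b⁻¹ * z + 0) + 1
        field_simp
        ring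
      apply Subtype.ext
      apply Equiv.ext
      intro y
      show ((m * c * m⁻¹ : Gp h9) : Equiv.Perm K) (y ^ 3) = (((m * c * m⁻¹ : Gp h9) : Equiv.Perm K) y) ^ 3
      rw [hg, hg, cube_add, one_pow]
    · simp only [if_true] at hπ
      -- x - a x^3 is not injective
      obtain ⟨x0, hx0, hx1⟩ : ∃ x0 : K, x0 ≠ 0 ∧ a * x0 ^ 3 = x0 := by
        by_contra hcon
        push Not at hcon
        have hinj : Function.Injective (fun x : K => x - a * x ^ 3) := by
          intro x y hxy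
          by_contra hne
          have h1 : x - y ≠ 0 := sub_ne_zero.2 hne
          apply hcon (x - y) h1
          rw [cube_sub]
          have h2 : x - a * x ^ 3 = y - a * y ^ 3 := hxy
          linear_combination -h2
        obtain ⟨x, hx⟩ := (Finite.injective_iff_surjective.1 hinj) b
        apply hfix' x
        rw [hπ]
        have hx' : x - a * x ^ 3 = b := hx
        linear_combination -hx'
      have hax : a * x0 ^ 2 = 1 := by
        have : x0 * (a * x0 ^ 2 - 1) = 0 := by linear_combination hx1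
        rcases mul_eq_zero.1 this with h | h
        · exact absurd h hx0
        · exact sub_eq_zero.1 h
      set c : Gp h9 := ⟨π, true, a, b, ha, by simpa using hπ⟩ with hc
      -- m x = x0⁻¹ x + x0⁻¹ b
      let m : Gp h9 := gaff h9 x0⁻¹ (x0⁻¹ * b) (inv_ne_zero hx0)
      set b' : K := x0⁻¹ * b with hb'
      refine ⟨m * c * m⁻¹, isConj_iff.2 ⟨m, rfl⟩, ?_⟩
      apply sub_of_comm
      have hg : ∀ y, ((m * c * m⁻¹ : Gp h9) : Equiv.Perm K) y = y ^ 3 + (b' + b' - b' ^ 3) := by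
        intro y
        show ((m : Equiv.Perm K) * π * (m : Equiv.Perm K)⁻¹) y = _
        obtain ⟨z, rfl⟩ := (m : Equiv.Perm K).surjective y
        rw [← Equiv.Perm.mul_apply, inv_mul_cancel_right, Equiv.Perm.mul_apply, hπ]
        show x0⁻¹ * (a * z ^ 3 + b) + x0⁻¹ * b = (x0⁻¹ * z + x0⁻¹ * b) ^ 3 + (b' + b' - b' ^ 3)
        rw [cube_add, hb']
        have h3 : x0⁻¹ * a = x0⁻¹ ^ 3 := by
          have : a = (x0 ^ 2)⁻¹ := eq_inv_of_mul_eq_one_left hax
          rw [this]; field_simp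
        linear_combination z ^ 3 * h3
      have hthree : (3 : K) = 0 := by
        have := CharP.cast_eq_zero K 3
        exact_mod_cast this
      have hb3 : (b' + b' - b' ^ 3) ^ 3 = b' + b' - b' ^ 3 := by
        rw [cube_sub, cube_add, ← pow_mul, pow_nine h9]
        linear_combination (b' ^ 3 - b') * hthree
      apply Subtype.ext
      apply Equiv.ext
      intro y
      show ((m * c * m⁻¹ : Gp h9) : Equiv.Perm K) (y ^ 3) = (((m * c * m⁻¹ : Gp h9) : Equiv.Perm K) y) ^ 3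
      rw [hg, hg, cube_add, hb3]

theorem not_le : ¬ A h9 ≤ Cfsg.pCore 2 (Gp h9) := by
  intro hle
  have hcore : IsPGroup 2 (Cfsg.pCore 2 (Gp h9)) := by
    exact Sylow.sSup_of_normal _ (fun N hN => hN.2) (fun N hN => hN.1)
  have hcn : (Cfsg.pCore 2 (Gp h9)).Normal := Subgroup.sSup_normal _ (fun _ h => h.1)
  -- some b with b^3 ≠ b
  obtain ⟨b, hb⟩ : ∃ b : K, b ^ 3 ≠ b := by
    by_contra hcon
    push Not at hcon
    classical
    have h1 := Polynomial.card_le_degree_of_subset_roots (p := (Polynomial.X ^ 3 - Polynomial.X : Polynomial K)) (Z := Finset.univ) (by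
      intro x _
      rw [Polynomial.mem_roots (by
        intro h
        have := congrArg (fun q => Polynomial.coeff q 3) h
        simp [Polynomial.coeff_X] at this)]
      simp [hcon x])
    have h2 : (Polynomial.X ^ 3 - Polynomial.X : Polynomial K).natDegree = 3 := by
      compute_degree!
    rw [h2, Finset.card_univ, h9] at h1
    omega
  have hf : frob h9 ∈ Cfsg.pCore 2 (Gp h9) := hle (Subgroup.mem_zpowers _)
  let τ : Gp h9 := gaff h9 1 b one_ne_zero
  have h1 : frob h9 * (τ * (frob h9)⁻¹ * τ⁻¹) ∈ Cfsg.pCore 2 (Gp h9) :=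
    Subgroup.mul_mem _ hf (hcn.conj_mem _ (Subgroup.inv_mem _ hf) τ)
  have hval : ∀ y, ((frob h9 * (τ * (frob h9)⁻¹ * τ⁻¹) : Gp h9) : Equiv.Perm K) y = y + (b ^ 3 - b) := by
    intro y
    show ((frobP h9) * ((τ : Equiv.Perm K) * (frobP h9)⁻¹ * (τ : Equiv.Perm K)⁻¹)) y = _
    obtain ⟨z, rfl⟩ := ((τ : Equiv.Perm K) * (frobP h9)).surjective y
    rw [← Equiv.Perm.mul_apply]
    have e : (frobP h9) * ((τ : Equiv.Perm K) * (frobP h9)⁻¹ * (τ : Equiv.Perm K)⁻¹) * ((τ : Equiv.Perm K) * (frobP h9)) =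
      (frobP h9) * (τ : Equiv.Perm K) := by group
    rw [e, Equiv.Perm.mul_apply, Equiv.Perm.mul_apply]
    show (1 * z + b) ^ 3 = (1 * (z ^ 3) + b) + (b ^ 3 - b)
    rw [one_mul, cube_add]; ring
  obtain ⟨k, hk⟩ := hcore ⟨_, h1⟩
  have hk' := congrArg (fun w : Cfsg.pCore 2 (Gp h9) => ((w : Gp h9) : Equiv.Perm K)) hk
  set g : Gp h9 := frob h9 * (τ * (frob h9)⁻¹ * τ⁻¹) with hgdef
  have hk'' : (g : Equiv.Perm K) ^ (2 ^ k) = 1 := hk'
  have hthree : (3 : K) = 0 := by
    have := CharP.cast_eq_zero K 3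
    exact_mod_cast this
  have h3 : (g : Equiv.Perm K) ^ 3 = 1 := by
    apply Equiv.ext
    intro y
    show (g : Equiv.Perm K) ((g : Equiv.Perm K) ((g : Equiv.Perm K) y)) = y
    rw [hval, hval, hval]
    linear_combination (b ^ 3 - b) * hthree
  have hord1 := orderOf_dvd_of_pow_eq_one hk''
  have hord2 := orderOf_dvd_of_pow_eq_one h3
  have hcop : Nat.Coprime (2 ^ k) 3 := Nat.Coprime.pow_left k (by norm_num)
  have hone : orderOf (g : Equiv.Perm K) = 1 := Nat.eq_one_of_dvd_coprimes hcop hord1 hord2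
  rw [orderOf_eq_one_iff] at hone
  have := hval 0
  rw [hone] at this
  simp at this
  exact hb (sub_eq_zero.1 this.symm)

end

theorem result :
    ∃ (G : Type) (_ : Group G) (_ : Finite G) (A : Subgroup G), Group.IsSolvable G ∧ Nat.card A = 2 ∧
      (∀ c : G, ∃ g : G, IsConj c g ∧ (A.subgroupOf (A ⊔ Subgroup.zpowers g)).IsSubnormal) ∧
      ¬ A ≤ Cfsg.pCore 2 G := by
  haveI : Fact (Nat.Prime 3) := ⟨Nat.prime_three⟩
  letI : Fintype (GaloisField 3 2) := Fintype.ofFinite _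
  have h9 : Fintype.card (GaloisField 3 2) = 9 := by
    rw [← Nat.card_eq_fintype_card, GaloisField.card 3 2 (by norm_num)]; norm_num
  refine ⟨Gp h9, inferInstance, inferInstance, A h9, solvable h9, ?_, exists_conj h9, not_le h9⟩
  rw [A, Nat.card_zpowers]
  apply orderOf_eq_prime
  · apply Subtype.ext
    apply Equiv.ext
    intro x
    show ((x ^ 3) ^ 3 : GaloisField 3 2) = x
    rw [← pow_mul, pow_nine h9]
  · intro h
    apply not_le h9
    rw [A, h, Subgroup.zpowers_one_eq_bot]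
    exact bot_le

end Cfsg.Agent.S4331
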