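import Cfsg.Statements.S4332
import Mathlib

set_option autoImplicit false
set_option linter.all false
open Pointwise
open Cfsg

namespace Cfsg.Agent.S4332

/-- representatives -/
def L : List (Equiv.Perm (Fin 8)) :=
  [1,
   List.formPerm [6, 7],
   List.formPerm [4, 5] * List.formPerm [6, 7],
   List.formPerm [1, 2] * List.formPerm [4, 5] * List.formPerm [6, 7],
   List.formPerm [0, 3] * List.formPerm [1, 4] * List.formPerm [2, 5] * List.formPerm [6, 7],
   List.formPerm [5, 6, 7],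
   List.formPerm [3, 4] * List.formPerm [5, 6, 7],
   List.formPerm [1, 2] * List.formPerm [3, 4] * List.formPerm [5, 6, 7],
   List.formPerm [0, 1, 2] * List.formPerm [5, 6, 7],
   List.formPerm [0, 1, 2] * List.formPerm [3, 4] * List.formPerm [5, 6, 7],
   List.formPerm [4, 5, 6, 7],
   List.formPerm [1, 2] * List.formPerm [4, 5, 6, 7],
   List.formPerm [0, 3] * List.formPerm [1, 4] * List.formPerm [2, 5, 6, 7],
   List.formPerm [0, 1, 2] * List.formPerm [4, 5, 6, 7],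
   List.formPerm [0, 3, 1, 4] * List.formPerm [2, 5, 6, 7],
   List.formPerm [3, 4, 5, 6, 7],
   List.formPerm [1, 2] * List.formPerm [3, 4, 5, 6, 7],
   List.formPerm [0, 1, 2] * List.formPerm [3, 4, 5, 6, 7],
   List.formPerm [0, 3, 1, 4, 2, 5],
   List.formPerm [0, 3] * List.formPerm [1, 4, 2, 5, 6, 7],
   List.formPerm [0, 3, 1, 4, 2, 5, 6],
   List.formPerm [0, 3, 1, 4, 2, 5, 6, 7]]

def s0 : Equiv.Perm (Fin 8) := List.formPerm [0, 1, 2]

theorem s0_type : s0.cycleType = {3} := by decide +kernel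

theorem L_comm' : (L.all (fun g => decide (s0 * (g * s0 * g⁻¹) = (g * s0 * g⁻¹) * s0))) = true := by decide +kernel

theorem L_comm (g : Equiv.Perm (Fin 8)) (hg : g ∈ L) : s0 * (g * s0 * g⁻¹) = (g * s0 * g⁻¹) * s0 :=
  of_decide_eq_true (List.all_eq_true.1 L_comm' g hg)


theorem t0 : ∃ g ∈ L, g.cycleType = 0 := by decide +kernel
theorem t1 : ∀ a : Fin 9, 2 ≤ a.1 → ∃ g ∈ L, g.cycleType = {a.1} := by decide +kernel
theorem t2 : ∀ a b : Fin 9, 2 ≤ a.1 → 2 ≤ b.1 → a.1 + b.1 ≤ 8 → ∃ g ∈ L, g.cycleType = {a.1, b.1} := by decide +kernel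
theorem t3 : ∀ a b c : Fin 5, 2 ≤ a.1 → 2 ≤ b.1 → 2 ≤ c.1 → a.1 + b.1 + c.1 ≤ 8 → ∃ g ∈ L, g.cycleType = {a.1, b.1, c.1} := by decide +kernel
theorem t4 : ∃ g ∈ L, g.cycleType = {2, 2, 2, 2} := by decide +kernel

theorem cover (c : Equiv.Perm (Fin 8)) : ∃ g ∈ L, g.cycleType = c.cycleType := by
  have hsum : c.cycleType.sum ≤ 8 := by
    rw [Equiv.Perm.sum_cycleType]
    exact (Finset.card_le_univ _).trans (by simp)
  have htwo : ∀ n ∈ c.cycleType, 2 ≤ n := fun n hn => Equiv.Perm.two_le_of_mem_cycleType hn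
  generalize c.cycleType = m at hsum htwo
  rcases Multiset.empty_or_exists_mem m with rfl | ⟨a, ha⟩
  · exact t0
  obtain ⟨m, rfl⟩ := Multiset.exists_cons_of_mem ha
  have ha2 := htwo a ha
  rw [Multiset.sum_cons] at hsum
  have htwo' : ∀ n ∈ m, 2 ≤ n := fun n hn => htwo n (Multiset.mem_cons_of_mem hn)
  rcases Multiset.empty_or_exists_mem m with rfl | ⟨b, hb⟩
  · exact t1 ⟨a, by simp at hsum; omega⟩ ha2
  obtain ⟨m, rfl⟩ := Multiset.exists_cons_of_mem hb
  have hb2 := htwo' b hb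
  rw [Multiset.sum_cons] at hsum
  have htwo'' : ∀ n ∈ m, 2 ≤ n := fun n hn => htwo' n (Multiset.mem_cons_of_mem hn)
  rcases Multiset.empty_or_exists_mem m with rfl | ⟨c, hc⟩
  · rw [Multiset.sum_zero, add_zero] at hsum
    exact t2 ⟨a, by omega⟩ ⟨b, by omega⟩ ha2 hb2 hsum
  obtain ⟨m, rfl⟩ := Multiset.exists_cons_of_mem hc
  have hc2 := htwo'' c hc
  rw [Multiset.sum_cons] at hsum
  have htwo''' : ∀ n ∈ m, 2 ≤ n := fun n hn => htwo'' n (Multiset.mem_cons_of_mem hn)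
  rcases Multiset.empty_or_exists_mem m with rfl | ⟨d, hd⟩
  · rw [Multiset.sum_zero, add_zero] at hsum
    exact t3 ⟨a, by omega⟩ ⟨b, by omega⟩ ⟨c, by omega⟩ ha2 hb2 hc2 (by show a + b + c ≤ 8; omega)
  obtain ⟨m, rfl⟩ := Multiset.exists_cons_of_mem hd
  have hd2 := htwo''' d hd
  rw [Multiset.sum_cons] at hsum
  have h5 : ∀ n ∈ m, 2 ≤ n := fun n hn => htwo''' n (Multiset.mem_cons_of_mem hn)
  rcases Multiset.empty_or_exists_mem m with rfl | ⟨e, he⟩
  · rw [Multiset.sum_zero, add_zero] at hsum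
    obtain rfl : a = 2 := by omega
    obtain rfl : b = 2 := by omega
    obtain rfl : c = 2 := by omega
    obtain rfl : d = 2 := by omega
    exact t4
  obtain ⟨m, rfl⟩ := Multiset.exists_cons_of_mem he
  have he2 := h5 e he
  rw [Multiset.sum_cons] at hsum
  omega

theorem sub_of_comm {G : Type*} [Group G] (σ τ : G) (h : Commute σ τ) :
    ((Subgroup.zpowers σ).subgroupOf (Subgroup.zpowers σ ⊔ Subgroup.zpowers τ)).IsSubnormal := by
  apply Subgroup.Normal.isSubnormal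
  rw [Subgroup.normal_subgroupOf_iff_le_normalizer le_sup_left]
  refine sup_le Subgroup.le_normalizer ?_
  rw [Subgroup.zpowers_le, Subgroup.mem_normalizer_iff]
  have hc : ∀ y ∈ Subgroup.zpowers σ, τ * y * τ⁻¹ = y := by
    intro y hy
    obtain ⟨k, rfl⟩ := Subgroup.mem_zpowers_iff.1 hy
    have : Commute τ (σ ^ k) := Commute.zpow_right h.symm k
    rw [this.eq, mul_inv_cancel_right]
  intro y
  constructor
  · intro hy
    rw [hc y hy]; exact hy
  · intro hy
    have h1 := hc _ hy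
    have h2 : τ * y * τ⁻¹ = y := mul_left_cancel (mul_right_cancel h1)
    rw [← h2]; exact hy

theorem result
    (σ : Equiv.Perm (Fin 8)) (hσ : σ.IsThreeCycle) :
    (∀ c : Equiv.Perm (Fin 8), ∃ g : Equiv.Perm (Fin 8), IsConj c g ∧
      ((Subgroup.zpowers σ).subgroupOf (Subgroup.zpowers σ ⊔ MulAut.conj g • Subgroup.zpowers σ)).IsSubnormal) ∧
    Cfsg.pCore 3 (Equiv.Perm (Fin 8)) = ⊥ := by
  constructor
  · intro c
    obtain ⟨g, hgL, hg⟩ := cover c
    have hconj : IsConj s0 σ := by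
      rw [Equiv.Perm.isConj_iff_cycleType_eq, s0_type]
      exact hσ.symm
    obtain ⟨h, hh⟩ := isConj_iff.1 hconj
    refine ⟨h * g * h⁻¹, ?_, ?_⟩
    · have h1 : IsConj c g := by
        rw [Equiv.Perm.isConj_iff_cycleType_eq, hg]
      exact h1.trans (isConj_iff.2 ⟨h, rfl⟩)
    · have hz : MulAut.conj (h * g * h⁻¹) • Subgroup.zpowers σ =
          Subgroup.zpowers ((h * g * h⁻¹) * σ * (h * g * h⁻¹)⁻¹) := by
        have := MonoidHom.map_zpowers (MulAut.conj (h * g * h⁻¹)).toMonoidHom σ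
        exact this
      rw [hz]
      apply sub_of_comm
      have h2 := L_comm g hgL
      rw [← hh]
      have e1 : h * g * h⁻¹ * (h * s0 * h⁻¹) * (h * g * h⁻¹)⁻¹ = h * (g * s0 * g⁻¹) * h⁻¹ := by group
      rw [e1]
      show h * s0 * h⁻¹ * (h * (g * s0 * g⁻¹) * h⁻¹) = h * (g * s0 * g⁻¹) * h⁻¹ * (h * s0 * h⁻¹)
      calc h * s0 * h⁻¹ * (h * (g * s0 * g⁻¹) * h⁻¹) = h * (s0 * (g * s0 * g⁻¹)) * h⁻¹ := by group
        _ = h * ((g * s0 * g⁻¹) * s0) * h⁻¹ := by rw [h2]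
        _ = _ := by group
  · rw [eq_bot_iff]
    apply sSup_le
    rintro N ⟨hN, hNp⟩
    rw [le_bot_iff]
    by_contra hne
    have hle : alternatingGroup (Fin 8) ≤ N := by
      haveI := hN
      exact Equiv.Perm.alternatingGroup_le_of_normal (by simp) ((Subgroup.nontrivial_iff_ne_bot N).2 hne)
    have hmem : (List.formPerm [0, 1] * List.formPerm [2, 3] : Equiv.Perm (Fin 8)) ∈ N :=
      hle (by rw [Equiv.Perm.mem_alternatingGroup]; decide +kernel)
    obtain ⟨k, hk⟩ := hNp ⟨_, hmem⟩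
    have hk' := congrArg Subtype.val hk
    have hk'' : (List.formPerm [0, 1] * List.formPerm [2, 3] : Equiv.Perm (Fin 8)) ^ 3 ^ k = 1 := hk'
    have h2 : (List.formPerm [0, 1] * List.formPerm [2, 3] : Equiv.Perm (Fin 8)) ^ 2 = 1 := by decide +kernel
    have h3 := orderOf_dvd_of_pow_eq_one hk''
    have h4 := orderOf_dvd_of_pow_eq_one h2
    have hcop : Nat.Coprime (3 ^ k) 2 := Nat.Coprime.pow_left k (by norm_num)
    have h5 := Nat.eq_one_of_dvd_coprimes hcop h3 h4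
    rw [orderOf_eq_one_iff] at h5
    revert h5
    decide +kernel

end Cfsg.Agent.S4332
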