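import Cfsg.Statements.S4333
import Cfsg.Agent.Lib.H75.Zipper

set_option autoImplicit false
set_option linter.all false
open Pointwise
open Cfsg

namespace Cfsg.Agent.S4333

open Subgroup

theorem relSub {G : Type*} [Group G] (A X H : Subgroup G) (h : (A.subgroupOf X).IsSubnormal) :
    ((A.subgroupOf H).subgroupOf (X.subgroupOf H)).IsSubnormal := by
  let f : ↥(X.subgroupOf H) →* X :=
    { toFun := fun z => ⟨(z : H), z.2⟩
      map_one' := rfl
      map_mul' := fun _ _ => rfl }
  exact h.comap f

universe u

theorem main : ∀ (n : ℕ) (G : Type u) [Group G] [Finite G], Nat.card G ≤ n → ∀ (A : Subgroup G),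
    (∀ a ∈ A, ∀ g : G, (A.subgroupOf (A ⊔ MulAut.conj (g⁻¹ * a * g) • A)).IsSubnormal) → A.IsSubnormal := by
  intro n
  induction n with
  | zero =>
    intro G _ _ hG
    exact absurd (Nat.le_zero.1 hG) Nat.card_pos.ne'
  | succ n ih =>
    intro G _ _ hG A h
    by_contra hns
    have hprop : ∀ H : Subgroup G, A ≤ H → H ≠ ⊤ → (A.subgroupOf H).IsSubnormal := by
      intro H hAH hH
      have hlt : Nat.card H < Nat.card G := by
        refine lt_of_le_of_ne (Subgroup.card_le_card_group H) ?_
        intro h1
        exact hH (Subgroup.eq_top_of_card_eq H h1)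
      apply ih H (by omega) (A.subgroupOf H)
      rintro ⟨a, haH⟩ haA ⟨g, hgH⟩
      have h1 := relSub A _ H (h a haA g)
      have hy : g⁻¹ * a * g ∈ H := H.mul_mem (H.mul_mem (H.inv_mem hgH) haH) hgH
      have hle : MulAut.conj (g⁻¹ * a * g) • A ≤ H := by
        intro y hy'
        obtain ⟨z, hz, rfl⟩ := (H75.Basic.mem_conj_smul _ _ _).1 hy'
        exact H.mul_mem (H.mul_mem hy (hAH hz)) (H.inv_mem hy)
      have e : (A ⊔ MulAut.conj (g⁻¹ * a * g) • A).subgroupOf H =
          A.subgroupOf H ⊔ MulAut.conj ((⟨g, hgH⟩ : H)⁻¹ * ⟨a, haH⟩ * ⟨g, hgH⟩) • (A.subgroupOf H) := by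
        rw [subgroupOf_sup hAH hle]
        congr 1
        ext z
        rw [mem_subgroupOf, H75.Basic.mem_conj_smul', H75.Basic.mem_conj_smul', mem_subgroupOf]
        rfl
      rw [← e]
      exact h1
    have hAtop : A ≠ ⊤ := fun h1 => hns (h1 ▸ IsSubnormal.top)
    have hz := H75.Zipper.zipper A hprop hns
    obtain ⟨M, hM, hAM⟩ := (eq_top_or_exists_le_coatom A).resolve_left hAtop
    have hAsnM : (A.subgroupOf M).IsSubnormal := hprop M hAM hM.1
    -- conjugates of elements of A normalize M
    have hnorm : ∀ a ∈ A, ∀ g : G, g⁻¹ * a * g ∈ normalizer (M : Set G) := by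
      intro a ha g
      set y := g⁻¹ * a * g with hy
      have hJ : A ⊔ MulAut.conj y • A ≠ ⊤ := by
        intro h1
        apply hns
        have h2 := h a ha g
        rw [← hy, h1] at h2
        exact IsSubnormal.trans le_top h2 IsSubnormal.top
      obtain ⟨M', hM', hJM'⟩ := (eq_top_or_exists_le_coatom _).resolve_left hJ
      have hMM' := hz M M' hM hM' hAM (le_sup_left.trans hJM')
      have hAy : MulAut.conj y • A ≤ M := by
        rw [hMM']; exact le_sup_right.trans hJM'
      have hA2 : A ≤ MulAut.conj y⁻¹ • M := by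
        intro s hs
        rw [H75.Basic.mem_conj_smul', inv_inv]
        exact hAy ((H75.Basic.mem_conj_smul _ _ _).2 ⟨s, hs, rfl⟩)
      have hco : IsCoatom (MulAut.conj y⁻¹ • M) := by
        constructor
        · intro h4
          apply hM.1
          rw [eq_top_iff]
          intro w _
          have : y⁻¹ * w * y⁻¹⁻¹ ∈ MulAut.conj y⁻¹ • M := by rw [h4]; trivial
          rw [H75.Basic.mem_conj_smul'] at this
          have e : y⁻¹⁻¹ * (y⁻¹ * w * y⁻¹⁻¹) * y⁻¹ = w := by group
          rwa [e] at this
        · intro L hL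
          have h5 : M < MulAut.conj y • L := by
            have h6 := (Subgroup.pointwise_smul_le_pointwise_smul_iff (a := MulAut.conj y)).2 hL.le
            rw [map_inv, smul_inv_smul] at h6
            refine lt_of_le_of_ne h6 ?_
            intro h7
            apply hL.ne
            rw [h7, map_inv, inv_smul_smul]
          have h6 := hM.2 _ h5
          rw [eq_top_iff]
          intro w _
          have : y * w * y⁻¹ ∈ MulAut.conj y • L := by rw [h6]; trivial
          rw [H75.Basic.mem_conj_smul'] at this
          have e : y⁻¹ * (y * w * y⁻¹) * y = w := by group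
          rwa [e] at this
      have h8 := hz _ _ hM hco hAM hA2
      have h9 : y⁻¹ ∈ normalizer (M : Set G) := by
        apply H75.Basic.mem_normalizer_of_conj_mem
        intro z hz'
        have : y⁻¹ * z * (y⁻¹)⁻¹ ∈ MulAut.conj y⁻¹ • M := (H75.Basic.mem_conj_smul _ _ _).2 ⟨z, hz', rfl⟩
        rw [← h8] at this
        exact this
      have h10 := (normalizer (M : Set G)).inv_mem h9
      rwa [inv_inv] at h10
    rcases hM.le_iff.1 (le_normalizer (H := M)) with h1 | h1
    · have hMn : M.Normal := normalizer_eq_top_iff.1 h1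
      exact hns (IsSubnormal.trans hAM hAsnM hMn.isSubnormal)
    · -- normal closure
      have hle : normalClosure (A : Set G) ≤ M := by
        rw [normalClosure]
        rw [closure_le]
        intro z hz'
        rw [Group.mem_conjugatesOfSet_iff] at hz'
        obtain ⟨a, ha, hc⟩ := hz'
        obtain ⟨c, rfl⟩ := isConj_iff.1 hc
        have := hnorm a ha c⁻¹
        rw [inv_inv, h1] at this
        exact this
      have hne : normalClosure (A : Set G) ≠ ⊤ := by
        intro h2
        rw [h2, top_le_iff] at hle
        exact hM.1 hle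
      have hAle : A ≤ normalClosure (A : Set G) := subset_normalClosure
      have hn : (normalClosure (A : Set G)).Normal := normalClosure_normal
      exact hns (IsSubnormal.trans hAle (hprop _ hAle hne) hn.isSubnormal)

theorem result {G : Type*} [Group G] [Finite G]
    (A : Subgroup G)
    (h : ∀ a ∈ A, ∀ g : G, (A.subgroupOf (A ⊔ MulAut.conj (g⁻¹ * a * g) • A)).IsSubnormal) :
    A.IsSubnormal := main _ G le_rfl A h

end Cfsg.Agent.S4333
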