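import Cfsg.Statements.S4334
import Cfsg.Agent.S0071
import Cfsg.Agent.Lib.H73.Nilp
import Cfsg.Agent.Lib.H75.Basic
import Cfsg.Agent.Lib.H75.PCentral

set_option autoImplicit false
set_option linter.all false
open Cfsg

namespace Cfsg.Agent.S4334

open Pointwise

variable {G : Type*} [Group G]

theorem mem_sup_of_comm (A B : Subgroup G) (hc : ∀ a ∈ A, ∀ b ∈ B, a * b = b * a) {x : G} (hx : x ∈ A ⊔ B) :
    ∃ a ∈ A, ∃ b ∈ B, x = a * b := by
  let K : Subgroup G :=
    { carrier := {x | ∃ a ∈ A, ∃ b ∈ B, x = a * b}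
      one_mem' := ⟨1, A.one_mem, 1, B.one_mem, by simp⟩
      mul_mem' := by
        rintro _ _ ⟨a, ha, b, hb, rfl⟩ ⟨c, hc', d, hd, rfl⟩
        refine ⟨a * c, A.mul_mem ha hc', b * d, B.mul_mem hb hd, ?_⟩
        calc a * b * (c * d) = a * (b * c) * d := by group
          _ = a * (c * b) * d := by rw [hc c hc' b hb]
          _ = a * c * (b * d) := by group
      inv_mem' := by
        rintro _ ⟨a, ha, b, hb, rfl⟩
        refine ⟨a⁻¹, A.inv_mem ha, b⁻¹, B.inv_mem hb, ?_⟩
        rw [mul_inv_rev, hc _ (A.inv_mem ha) _ (B.inv_mem hb)] }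
  have h1 : A ≤ K := fun a ha => ⟨a, ha, 1, B.one_mem, by simp⟩
  have h2 : B ≤ K := fun b hb => ⟨1, A.one_mem, b, hb, by simp⟩
  exact (sup_le h1 h2) hx

/-- a Sylow subgroup of `G` inside `M` absorbs `q`-subgroups of `M` up to conjugation in `M` -/
theorem exists_conj_in [Finite G] {q : ℕ} [Fact q.Prime] (S : Sylow q G) (M B : Subgroup G)
    (hS : (S : Subgroup G) ≤ M) (hB : IsPGroup q B) (hBM : B ≤ M) :
    ∃ x ∈ M, ∀ b ∈ B, ∃ s ∈ (S : Subgroup G), b = x * s * x⁻¹ := by
  have h1 : IsPGroup q (B.subgroupOf M) := hB.comap_of_injective M.subtype (Subgroup.subtype_injective M)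
  obtain ⟨T, hT⟩ := h1.exists_le_sylow
  obtain ⟨x, hx⟩ := MulAction.exists_smul_eq M (S.subtype hS) T
  refine ⟨x, x.2, fun b hb => ?_⟩
  have h2 : (⟨b, hBM hb⟩ : M) ∈ (T : Subgroup M) := hT (by rw [Subgroup.mem_subgroupOf]; exact hb)
  rw [← hx] at h2
  have h3 : (⟨b, hBM hb⟩ : M) ∈ MulAut.conj x • ((S.subtype hS : Sylow q M) : Subgroup M) := h2
  rw [H75.Basic.mem_conj_smul] at h3
  obtain ⟨z, hz, hzb⟩ := h3
  refine ⟨z, ?_, ?_⟩
  · exact hz
  · have := congrArg Subtype.val hzb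
    exact this.symm

/-- In `Hs × Ht`, `q`-elements (`q ∈ σ`) lie in `Hs`. -/
theorem mem_left [Finite G] {A B : Subgroup G} (hc : ∀ a ∈ A, ∀ b ∈ B, a * b = b * a)
    (hAB : (Nat.card A).Coprime (Nat.card B)) {x : G} (hx : x ∈ A ⊔ B)
    (ho : (orderOf x).Coprime (Nat.card B)) : x ∈ A := by
  obtain ⟨a, ha, b, hb, rfl⟩ := mem_sup_of_comm A B hc hx
  have hcm : Commute a b := hc a ha b hb
  have h1 : (a * b) ^ orderOf (a * b) = 1 := pow_orderOf_eq_one _
  rw [hcm.mul_pow] at h1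
  have h2 : b ^ orderOf (a * b) = (a ^ orderOf (a * b))⁻¹ := eq_inv_of_mul_eq_one_right h1
  have h3 : b ^ orderOf (a * b) ∈ A ⊓ B := ⟨by rw [h2]; exact A.inv_mem (A.pow_mem ha _), B.pow_mem hb _⟩
  rw [Subgroup.inf_eq_bot_of_coprime hAB, Subgroup.mem_bot] at h3
  have h4 : orderOf b ∣ orderOf (a * b) := orderOf_dvd_of_pow_eq_one h3
  have h5 : orderOf b ∣ Nat.card B := by
    have := orderOf_dvd_natCard (⟨b, hb⟩ : B)
    rwa [Subgroup.orderOf_mk] at this
  have h6 : orderOf b = 1 := Nat.eq_one_of_dvd_coprimes ho h4 h5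
  rw [orderOf_eq_one_iff] at h6
  rw [h6, mul_one]; exact ha

theorem comm_decomp [Finite G] {A B : Subgroup G} (hc : ∀ a ∈ A, ∀ b ∈ B, a * b = b * a)
    (hAB : (Nat.card A).Coprime (Nat.card B)) (hn : Group.IsNilpotent A) {q : ℕ} [Fact q.Prime]
    (hqB : ¬ q ∣ Nat.card B) {x y : G} (hx : x ∈ A ⊔ B) (hy : y ∈ A ⊔ B)
    (hxo : (orderOf x).Coprime q) (hyo : ∃ k, orderOf y = q ^ k) : x * y = y * x := by
  have hq : q.Prime := Fact.out
  have hyA : y ∈ A := by
    refine mem_left hc hAB hy ?_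
    obtain ⟨k, hk⟩ := hyo
    rw [hk]
    exact Nat.Coprime.pow_left k ((Nat.Prime.coprime_iff_not_dvd hq).2 hqB)
  obtain ⟨a, ha, b, hb, rfl⟩ := mem_sup_of_comm A B hc hx
  have hcm : Commute a b := hc a ha b hb
  have h1 : (a * b) ^ orderOf (a * b) = 1 := pow_orderOf_eq_one _
  rw [hcm.mul_pow] at h1
  have h2 : a ^ orderOf (a * b) = (b ^ orderOf (a * b))⁻¹ := eq_inv_of_mul_eq_one_left h1
  have h3 : a ^ orderOf (a * b) ∈ A ⊓ B := ⟨A.pow_mem ha _, by rw [h2]; exact B.inv_mem (B.pow_mem hb _)⟩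
  rw [Subgroup.inf_eq_bot_of_coprime hAB, Subgroup.mem_bot] at h3
  have h4 : orderOf a ∣ orderOf (a * b) := orderOf_dvd_of_pow_eq_one h3
  have h5 : (orderOf a).Coprime q := Nat.Coprime.coprime_dvd_left h4 hxo
  have h6 : Commute (⟨y, hyA⟩ : A) ⟨a, ha⟩ :=
    H73.Nilp.commute_of_coprime (by rw [Subgroup.orderOf_mk]; exact hyo) (by rw [Subgroup.orderOf_mk]; exact h5)
  have h7 : y * a = a * y := congrArg Subtype.val h6.eq
  calc a * b * y = a * (b * y) := by group
    _ = a * (y * b) := by rw [hc y hyA b hb]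
    _ = (a * y) * b := by group
    _ = y * (a * b) := by rw [← h7]; group

theorem conj_sub [Finite G] {σ τ : Set ℕ} (hd : Disjoint σ τ) (H Hs Ht : Subgroup G)
    (hH : Cfsg.IsPiHall (σ ∪ τ) H)
    (hs : Cfsg.IsPiSubgroup σ Hs) (ht : Cfsg.IsPiSubgroup τ Ht) (hsn : Group.IsNilpotent Hs)
    (hjoin : Hs ⊔ Ht = H) (hcomm : ∀ a ∈ Hs, ∀ b ∈ Ht, a * b = b * a) (hD : Cfsg.IsDPiGroup τ G) :
    ∀ n : ℕ, ∀ K : Subgroup G, Nat.card K = n → Cfsg.IsPiSubgroup (σ ∪ τ) K →
      ∃ g : G, ∀ k ∈ K, ∃ h ∈ H, k = g * h * g⁻¹ := by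
  classical
  have hst : (Nat.card Hs).Coprime (Nat.card Ht) := by
    refine Nat.Coprime.symm (Nat.Coprime.symm ?_)
    refine Nat.coprime_of_dvd ?_
    intro r hr h1 h2
    exact Set.disjoint_left.1 hd (hs r hr h1) (ht r hr h2)
  have hcomm' : ∀ a ∈ Ht, ∀ b ∈ Hs, a * b = b * a := fun a ha b hb => (hcomm b hb a ha).symm
  -- Sylow subgroups of `G` inside `H`
  have hsyl : ∀ (r : ℕ) (hr : r.Prime), r ∈ σ ∪ τ → ∃ R : @Sylow r G _, (R : Subgroup G) ≤ H := by
    intro r hr hrπ
    haveI : Fact r.Prime := ⟨hr⟩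
    obtain ⟨R, -, hR⟩ := H75.PCentral.exists_sylow_between (p := r) H ⊥ (hH.2 r hr hrπ) IsPGroup.of_bot bot_le
    exact ⟨R, hR⟩
  -- `Ht` is a maximal τ-subgroup
  have hHt_index : ∀ r : ℕ, r.Prime → r ∈ τ → ¬ r ∣ Ht.index := by
    intro r hr hrτ hdvd
    haveI : Fact r.Prime := ⟨hr⟩
    obtain ⟨R, hR⟩ := hsyl r hr (Or.inr hrτ)
    have hRt : (R : Subgroup G) ≤ Ht := by
      intro y hy
      obtain ⟨k, hk⟩ := (IsPGroup.iff_orderOf.mp R.isPGroup') ⟨y, hy⟩
      rw [Subgroup.orderOf_mk] at hk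
      have hy' : y ∈ Ht ⊔ Hs := by rw [sup_comm, hjoin]; exact hR hy
      refine mem_left hcomm' hst.symm hy' ?_
      rw [hk]
      refine Nat.Coprime.pow_left k ((Nat.Prime.coprime_iff_not_dvd hr).2 fun hrs => ?_)
      exact Set.disjoint_left.1 hd (hs r hr hrs) hrτ
    exact R.not_dvd_index (hdvd.trans (Subgroup.index_dvd_of_le hRt))
  have hHt_max : Maximal (Cfsg.IsPiSubgroup τ) Ht := by
    refine ⟨ht, ?_⟩
    intro M hM hle
    have h1 : Ht.relIndex M * M.index = Ht.index := Subgroup.relIndex_mul_index hle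
    have h2 : Ht.relIndex M = 1 := by
      by_contra hne
      obtain ⟨r, hr, hrd⟩ := Nat.exists_prime_and_dvd hne
      have h3 : r ∈ τ := hM r hr (hrd.trans (Subgroup.relIndex_dvd_card _ _))
      exact hHt_index r hr h3 (h1 ▸ Dvd.dvd.mul_right hrd _)
    exact Subgroup.relIndex_eq_one.1 h2
  intro n
  induction n using Nat.strong_induction_on with
  | _ n ih =>
  intro K hKn hK
  by_cases hcase : ∀ r : ℕ, r.Prime → r ∣ Nat.card K → r ∈ τ
  · obtain ⟨M, hKM, hM⟩ := Finite.exists_le_maximal (p := Cfsg.IsPiSubgroup τ) (a := K) hcase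
    obtain ⟨g, hg⟩ := hD Ht M hHt_max hM
    refine ⟨g, fun k hk => ?_⟩
    have h1 := hKM hk
    rw [hg] at h1
    obtain ⟨h, hh, hhk⟩ := h1
    exact ⟨h, by rw [← hjoin]; exact Subgroup.mem_sup_right hh, hhk.symm⟩
  · push Not at hcase
    obtain ⟨q, hq, hqK, hqτ⟩ := hcase
    have hqσ : q ∈ σ := (hK q hq hqK).resolve_right hqτ
    haveI : Fact q.Prime := ⟨hq⟩
    have hqt : ¬ q ∣ Nat.card Ht := fun h => hqτ (ht q hq h)
    obtain ⟨Q0, hQ0⟩ := hsyl q hq (Or.inl hqσ)
    have hQ0o : ∀ v ∈ (Q0 : Subgroup G), ∃ k, orderOf v = q ^ k := by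
      intro v hv
      obtain ⟨k, hk⟩ := (IsPGroup.iff_orderOf.mp Q0.isPGroup') ⟨v, hv⟩
      rw [Subgroup.orderOf_mk] at hk
      exact ⟨k, hk⟩
    -- the centralizer of a q-subgroup contains Sylow r-subgroups
    have hcen : ∀ U : Subgroup G, IsPGroup q U → ∀ r : ℕ, r.Prime → r ∈ σ ∪ τ → r ≠ q →
        ¬ r ∣ (Subgroup.centralizer (U : Set G)).index := by
      intro U hU r hr hrπ hrq hdvd
      haveI : Fact r.Prime := ⟨hr⟩
      obtain ⟨R, hR⟩ := hsyl r hr hrπ
      obtain ⟨x, -, hx⟩ := exists_conj_in Q0 ⊤ U le_top hU le_top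
      have hle : ((x • R : Sylow r G) : Subgroup G) ≤ Subgroup.centralizer (U : Set G) := by
        intro y hy
        have hy' : y ∈ MulAut.conj x • (R : Subgroup G) := hy
        rw [H75.Basic.mem_conj_smul] at hy'
        obtain ⟨w, hw, rfl⟩ := hy'
        rw [Subgroup.mem_centralizer_iff]
        intro u hu
        obtain ⟨v, hv, rfl⟩ := hx u hu
        have hwo : (orderOf w).Coprime q := by
          obtain ⟨k, hk⟩ := (IsPGroup.iff_orderOf.mp R.isPGroup') ⟨w, hw⟩
          rw [Subgroup.orderOf_mk] at hk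
          rw [hk]
          exact Nat.Coprime.pow_left k ((Nat.coprime_primes hr hq).2 hrq)
        have hwv : w * v = v * w := comm_decomp hcomm hst hsn hqt (by rw [hjoin]; exact hR hw)
          (by rw [hjoin]; exact hQ0 hv) hwo (hQ0o v hv)
        calc x * v * x⁻¹ * (x * w * x⁻¹) = x * (v * w) * x⁻¹ := by group
          _ = x * (w * v) * x⁻¹ := by rw [hwv]
          _ = x * w * x⁻¹ * (x * v * x⁻¹) := by group
      exact (x • R : Sylow r G).not_dvd_index (hdvd.trans (Subgroup.index_dvd_of_le hle))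
    obtain ⟨P⟩ : Nonempty (Sylow q K) := inferInstance
    obtain ⟨N, hNn, hNc⟩ := (Cfsg.Agent.S0071.result P).2 (by
      intro Q hQP g hg hgo
      have hU : IsPGroup q (Q.map K.subtype) := (P.isPGroup'.to_le hQP).map _
      have hgN : (g : G) ∈ Subgroup.normalizer ((Q.map K.subtype : Subgroup G) : Set G) := by
        refine H75.Basic.mem_normalizer_of_conj_mem _ _ ?_
        rintro _ ⟨z, hz, rfl⟩
        refine ⟨g * z * g⁻¹, (Subgroup.mem_normalizer_iff.1 hg z).1 hz, by simp⟩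
      set C := Subgroup.centralizer ((Q.map K.subtype : Subgroup G) : Set G) with hC
      set N' := Subgroup.normalizer ((Q.map K.subtype : Subgroup G) : Set G) with hN'
      have hCN : C ≤ N' := Subgroup.centralizer_le_normalizer _
      haveI hCn : (C.subgroupOf N').Normal := by
        constructor
        intro c hc m
        rw [Subgroup.mem_subgroupOf] at hc ⊢
        rw [hC, Subgroup.mem_centralizer_iff] at hc ⊢
        intro u hu
        have h1 : (m : G)⁻¹ * u * m ∈ (Q.map K.subtype : Subgroup G) := by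
          have := (Subgroup.mem_normalizer_iff.1 (N'.inv_mem m.2) u).1 hu
          simpa using this
        have h2 := hc _ h1
        show u * ((m : G) * c * (m : G)⁻¹) = (m : G) * c * (m : G)⁻¹ * u
        calc u * ((m : G) * c * (m : G)⁻¹) = m * ((m : G)⁻¹ * u * m * c) * (m : G)⁻¹ := by group
          _ = m * (c * ((m : G)⁻¹ * u * m)) * (m : G)⁻¹ := by rw [h2]
          _ = (m : G) * c * (m : G)⁻¹ * u := by group
      have hcopr : (orderOf (g : G)).Coprime (C.relIndex N') := by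
        refine Nat.coprime_of_dvd ?_
        intro r hr h1 h2
        have h3 : r ∣ Nat.card K := by
          refine h1.trans ?_
          rw [Subgroup.orderOf_coe]
          exact orderOf_dvd_natCard g
        have h4 : r ≠ q := by
          rintro rfl
          have : r ∣ orderOf g := by rw [← Subgroup.orderOf_coe]; exact h1
          have h5 := Nat.Coprime.eq_one_of_dvd (Nat.Coprime.coprime_dvd_left this hgo) dvd_rfl
          exact hr.one_lt.ne' h5
        refine hcen _ hU r hr (hK r hr h3) h4 (h2.trans ?_)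
        exact ⟨N'.index, (Subgroup.relIndex_mul_index hCN).symm⟩
      have h6 : (⟨g, hgN⟩ : N') ∈ C.subgroupOf N' := by
        rw [← QuotientGroup.eq_one_iff, ← orderOf_eq_one_iff]
        have h7 : orderOf (((⟨g, hgN⟩ : N') : N' ⧸ C.subgroupOf N')) ∣ orderOf (g : G) := by
          have := orderOf_map_dvd (QuotientGroup.mk' (C.subgroupOf N')) (⟨g, hgN⟩ : N')
          rwa [Subgroup.orderOf_mk] at this
        have h8 : orderOf (((⟨g, hgN⟩ : N') : N' ⧸ C.subgroupOf N')) ∣ C.relIndex N' := by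
          rw [Subgroup.relIndex, Subgroup.index_eq_card]
          exact orderOf_dvd_natCard _
        exact Nat.eq_one_of_dvd_coprimes hcopr h7 h8
      rw [Subgroup.mem_subgroupOf, hC, Subgroup.mem_centralizer_iff] at h6
      rw [Subgroup.mem_centralizer_iff]
      intro z hz
      have := h6 z ⟨z, hz, rfl⟩
      exact Subtype.ext this)
    -- the normal q-complement
    set L := N.map K.subtype with hL
    have hcardL : Nat.card L = Nat.card N := Subgroup.card_map_of_injective (Subgroup.subtype_injective K)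
    have hcardNP : Nat.card N * Nat.card (P : Subgroup K) = Nat.card K := hNc.card_mul
    have hqN : ¬ q ∣ Nat.card N := by
      have h1 : (P : Subgroup K).index = Nat.card N := by
        have h2 := (P : Subgroup K).index_mul_card
        rw [← hcardNP] at h2
        exact Nat.eq_of_mul_eq_mul_right Nat.card_pos h2
      rw [← h1]
      exact P.not_dvd_index
    have hPne : 1 < Nat.card (P : Subgroup K) := by
      by_contra hne
      have h1 : Nat.card (P : Subgroup K) = 1 := le_antisymm (not_lt.1 hne) Nat.card_pos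
      rw [h1, mul_one] at hcardNP
      exact hqN (hcardNP ▸ hqK)
    have hlt : Nat.card L < n := by
      rw [hcardL, ← hKn, ← hcardNP]
      exact lt_mul_of_one_lt_right Nat.card_pos hPne
    have hLK : L ≤ K := by rintro _ ⟨z, -, rfl⟩; exact z.2
    obtain ⟨g, hg⟩ := ih _ hlt L rfl (fun r hr hrd => hK r hr (hrd.trans (Subgroup.card_dvd_of_le hLK)))
    -- `Q0^g` centralizes `L`
    have hcent : ((g • Q0 : Sylow q G) : Subgroup G) ≤ Subgroup.centralizer (L : Set G) := by
      intro y hy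
      have hy' : y ∈ MulAut.conj g • (Q0 : Subgroup G) := hy
      rw [H75.Basic.mem_conj_smul] at hy'
      obtain ⟨v, hv, rfl⟩ := hy'
      rw [Subgroup.mem_centralizer_iff]
      intro l hl
      obtain ⟨w, hw, hlw⟩ := hg l hl
      have hlo : (orderOf l).Coprime q := by
        have h1 : orderOf l ∣ Nat.card L := by
          have := orderOf_dvd_natCard (⟨l, hl⟩ : L)
          rwa [Subgroup.orderOf_mk] at this
        refine Nat.Coprime.coprime_dvd_left h1 ?_
        rw [hcardL]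
        exact ((Nat.Prime.coprime_iff_not_dvd hq).2 hqN).symm
      have hwo : (orderOf w).Coprime q := by
        have : orderOf l = orderOf w := by
          rw [hlw]
          exact orderOf_injective (MulAut.conj g).toMonoidHom (MulAut.conj g).injective w
        rwa [← this]
      have hwv : w * v = v * w := comm_decomp hcomm hst hsn hqt (by rw [hjoin]; exact hw)
          (by rw [hjoin]; exact hQ0 hv) hwo (hQ0o v hv)
      rw [hlw]
      calc g * w * g⁻¹ * (g * v * g⁻¹) = g * (w * v) * g⁻¹ := by group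
        _ = g * (v * w) * g⁻¹ := by rw [hwv]
        _ = g * v * g⁻¹ * (g * w * g⁻¹) := by group
    have hKL : K ≤ Subgroup.normalizer (L : Set G) := by
      intro k hk
      refine H75.Basic.mem_normalizer_of_conj_mem _ _ ?_
      rintro _ ⟨z, hz, rfl⟩
      exact ⟨⟨k, hk⟩ * z * ⟨k, hk⟩⁻¹, hNn.conj_mem z hz ⟨k, hk⟩, by simp⟩
    obtain ⟨x, hxL, hx⟩ := exists_conj_in (g • Q0 : Sylow q G) (Subgroup.normalizer (L : Set G))
      ((P : Subgroup K).map K.subtype) (hcent.trans (Subgroup.centralizer_le_normalizer _)) (P.isPGroup'.map _)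
      (by rintro _ ⟨z, -, rfl⟩; exact hKL z.2)
    refine ⟨x * g, fun k hk => ?_⟩
    obtain ⟨⟨a, b⟩, hab⟩ := hNc.2 ⟨k, hk⟩
    have hab' : ((a : K) : G) * ((b : K) : G) = k := congrArg Subtype.val hab
    -- `a ∈ L`
    have ha : ((a : K) : G) ∈ L := ⟨a, a.2, rfl⟩
    have ha2 : x⁻¹ * ((a : K) : G) * x ∈ L := by
      have := (Subgroup.mem_normalizer_iff.1 (Subgroup.inv_mem _ hxL) ((a : K) : G)).1 ha
      simpa using this
    obtain ⟨w, hw, hlw⟩ := hg _ ha2
    obtain ⟨s, hs', hbs⟩ := hx _ ⟨(b : K), b.2, rfl⟩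
    have hs'' : s ∈ MulAut.conj g • (Q0 : Subgroup G) := hs'
    rw [H75.Basic.mem_conj_smul] at hs''
    obtain ⟨v, hv, rfl⟩ := hs''
    refine ⟨w * v, H.mul_mem hw (hQ0 hv), ?_⟩
    rw [← hab']
    have e1 : ((a : K) : G) = x * (g * w * g⁻¹) * x⁻¹ := by rw [← hlw]; group
    have e2 : ((b : K) : G) = x * (g * v * g⁻¹) * x⁻¹ := hbs
    rw [e1, e2]
    group

/-- Let σ and τ be disjoint sets of primes with union π. Suppose a finite group G has a Hall π-subgroup H which is the direct product of a nilpotent σ-subgroup and a τ-subgroup (two elementwise-commuting subgroups generating H), and that the maximal τ-subgroups of G are pairwise conjugate. Then the maximal π-subgroups of G are pairwise conjugate. -/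
theorem result {G : Type*} [Group G] [Finite G]
    (σ τ π : Set ℕ) (hπ : π = σ ∪ τ) (hd : Disjoint σ τ) (H Hs Ht : Subgroup G) (hH : Cfsg.IsPiHall π H)
    (hs : Cfsg.IsPiSubgroup σ Hs) (ht : Cfsg.IsPiSubgroup τ Ht) (hsn : Group.IsNilpotent Hs)
    (hjoin : Hs ⊔ Ht = H) (hcomm : ∀ a ∈ Hs, ∀ b ∈ Ht, a * b = b * a) (hD : Cfsg.IsDPiGroup τ G) :
    Cfsg.IsDPiGroup π G := by
  subst hπ
  have key := conj_sub hd H Hs Ht hH hs ht hsn hjoin hcomm hD
  have h1 : ∀ X : Subgroup G, Maximal (Cfsg.IsPiSubgroup (σ ∪ τ)) X →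
      ∃ g : G, X = H.map (MulAut.conj g).toMonoidHom := by
    intro X hX
    obtain ⟨g, hg⟩ := key _ X rfl hX.1
    have hle : X ≤ H.map (MulAut.conj g).toMonoidHom := by
      intro k hk
      obtain ⟨h, hh, hk'⟩ := hg k hk
      exact ⟨h, hh, hk'.symm⟩
    have hpi : Cfsg.IsPiSubgroup (σ ∪ τ) (H.map (MulAut.conj g).toMonoidHom) := by
      intro r hr hrd
      rw [Subgroup.card_map_of_injective (MulAut.conj g).injective] at hrd
      exact hH.1 r hr hrd
    exact ⟨g, le_antisymm hle (hX.2 hpi hle)⟩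
  intro X Y hX hY
  obtain ⟨g, rfl⟩ := h1 X hX
  obtain ⟨h, rfl⟩ := h1 Y hY
  refine ⟨h * g⁻¹, ?_⟩
  rw [Subgroup.map_map]
  congr 1
  ext x
  simp [MulAut.conj_apply, mul_assoc]

end Cfsg.Agent.S4334
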