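import Cfsg.Statements.S4337
import Cfsg.Agent.Lib.H75.PermFour

set_option autoImplicit false
open Cfsg

namespace Cfsg.Agent.S4337

theorem result (n : ℕ) (a b c : Equiv.Perm (Fin n))
    (ha : a.IsSwap) (hb : b.IsSwap) (hc : c.IsSwap) :
    Group.IsSolvable (Subgroup.closure ({a, b, c} : Set (Equiv.Perm (Fin n)))) := by
  have hset : ({a, b, c} : Set (Equiv.Perm (Fin n))) = Set.range (![a, b, c]) := by
    rw [Matrix.range_cons, Matrix.range_cons, Matrix.range_cons, Matrix.range_empty]
    ext x
    simp only [Set.mem_insert_iff, Set.mem_singleton_iff, Set.mem_union, Set.mem_empty_iff_false, or_false]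
    try tauto
  rw [hset]
  have ht : ∀ i, ((![a, b, c]) i).IsSwap := by
    intro i
    fin_cases i
    · exact ha
    · exact hb
    · exact hc
  exact H75.PermFour.isSolvable_of_orbits (α := Fin n) (fun x => H75.PermFour.card_orbit_le _ ht x)

end Cfsg.Agent.S4337
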