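import Cfsg.Statements.S4342
import Cfsg.Agent.Lib.H75.SylowNumber

set_option autoImplicit false
open Cfsg

namespace Cfsg.Agent.S4342

open H75.SylowNumber in
theorem result {G : Type*} [Group G] [Finite G]
    (p : ℕ) [Fact p.Prime] (H : Subgroup G) [H.Normal] (hp : ¬ p ∣ H.index) :
    Nat.card (Sylow p (H ⧸ Subgroup.center H)) = Nat.card (Sylow p G) := by
  obtain ⟨P⟩ : Nonempty (Sylow p G) := inferInstance
  have hPH : (P : Subgroup G) ≤ H := by
    rw [← Subgroup.relIndex_eq_one]
    have h1 : H.relIndex P ∣ H.index := Subgroup.relIndex_dvd_index_of_normal H (P : Subgroup G)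
    have h2 : H.relIndex P ∣ Nat.card P := Subgroup.relIndex_dvd_card H (P : Subgroup G)
    obtain ⟨k, hk⟩ := (IsPGroup.iff_card.1 P.isPGroup')
    rw [hk] at h2
    obtain ⟨j, hj, hj2⟩ := (Nat.dvd_prime_pow Fact.out).1 h2
    rcases Nat.eq_zero_or_pos j with h0 | h0
    · rw [hj2, h0, pow_zero]
    · exfalso
      apply hp
      refine dvd_trans ?_ h1
      rw [hj2]
      exact dvd_pow_self p h0.ne'
  rw [← card_sylow_normal_of_le P H hPH]
  apply card_sylow_quotient_of_normalizes (P.subtype hPH)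
  intro z hz
  show z ∈ Subgroup.normalizer ((P.subtype hPH : Subgroup H) : Set H)
  rw [Subgroup.mem_normalizer_iff]
  intro y
  have h3 : z * y * z⁻¹ = y := by
    rw [← Subgroup.mem_center_iff.1 hz y, mul_inv_cancel_right]
  rw [h3]

end Cfsg.Agent.S4342
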