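import Cfsg.Statements.S4343
import Cfsg.Agent.Lib.H75.Brodkey

set_option autoImplicit false
open Cfsg

namespace Cfsg.Agent.S4343

theorem result {S : Type*} [Group S] [Finite S]
    [IsSimpleGroup S] (hS : ¬ IsMulCommutative S) (p : ℕ) [Fact p.Prime] (hp : p ∣ Nat.card S)
    (hn : Nat.card (Sylow p S) < p ^ 2) (P : Sylow p S) : Nat.card P = p := by
  -- the intersection of all Sylow subgroups
  let K : Subgroup S := ⨅ R : Sylow p S, (R : Subgroup S)
  have hK : K.Normal := by
    refine ⟨fun n hn g => ?_⟩
    rw [Subgroup.mem_iInf] at hn ⊢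
    intro R
    have h1 := hn (g⁻¹ • R)
    rw [Sylow.coe_subgroup_smul] at h1
    have h2 := (H75.Basic.mem_conj_smul' _ _ _).1 h1
    rw [inv_inv] at h2
    exact h2
  have hcore : K = ⊥ := by
    rcases hK.eq_bot_or_eq_top with h | h
    · exact h
    · exfalso
      have htop : (P : Subgroup S) = ⊤ := by
        rw [eq_top_iff, ← h]
        exact iInf_le _ P
      -- S is a p-group, simple so commutative
      apply hS
      have hpS : IsPGroup p S := by
        have := P.isPGroup'
        rw [htop] at this
        exact this.of_equiv Subgroup.topEquiv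
      have hc := hpS.bot_lt_center
      have hcn : (Subgroup.center S).Normal := inferInstance
      rcases hcn.eq_bot_or_eq_top with h1 | h1
      · exact absurd h1 hc.ne'
      · rw [isMulCommutative_iff]
        intro a b
        have : b ∈ Subgroup.center S := by rw [h1]; trivial
        exact Subgroup.mem_center_iff.1 this a
  rcases H75.Brodkey.card_eq_of_card_lt hn (by
    intro x hx
    have : x ∈ K := (Subgroup.mem_iInf).2 hx
    rw [hcore, Subgroup.mem_bot] at this
    exact this) P with h | h
  · exact h
  · exfalso
    have h1 := P.dvd_card_of_dvd_card hp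
    rw [h] at h1
    exact (Fact.out : p.Prime).one_lt.ne' (Nat.dvd_one.1 h1)

end Cfsg.Agent.S4343
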