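import Cfsg.Statements.S4344
import Cfsg.Agent.Lib.H75.Basic

set_option autoImplicit false
open Cfsg

namespace Cfsg.Agent.S4344

theorem result {S : Type*} [Group S] [Finite S]
    [IsSimpleGroup S] (hS : ¬ IsMulCommutative S) (p : ℕ) [Fact p.Prime] (hp : p ∣ Nat.card S)
    (M : Subgroup S) (hM : IsCoatom M) (C : Subgroup S) (hCM : C ≤ M) (hCn : (C.subgroupOf M).Normal)
    (hC : IsCyclic C) (P : Sylow p S) (hP : (P : Subgroup S) ≤ C) :
    Nat.card (Sylow p S) = M.index := by
  have hne : (P : Subgroup S) ≠ ⊥ := P.ne_bot_of_dvd_card hp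
  have hPN : M ≤ Subgroup.normalizer (P : Set S) := by
    have hCN : M ≤ Subgroup.normalizer (C : Set S) := (Subgroup.normal_subgroupOf_iff_le_normalizer hCM).1 hCn
    intro m hm
    apply H75.Basic.mem_normalizer_of_conj_mem (P : Subgroup S) m
    intro z hz
    have hzC : z ∈ C := hP hz
    have hz2 : m * z * m⁻¹ ∈ C := ((Subgroup.mem_normalizer_iff.1 (hCN hm)) z).1 hzC
    -- P.subtype is normal in the commutative group C
    haveI := hC
    have hcomm : ∀ a b : C, a * b = b * a := by
      letI := hC.commGroup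
      intro a b; exact mul_comm a b
    let PC : Sylow p C := P.subtype hP
    have hnorm : (PC : Subgroup C).Normal := by
      refine ⟨fun n hn g => ?_⟩
      rw [hcomm g n, mul_inv_cancel_right]; exact hn
    have hle : Subgroup.zpowers (⟨m * z * m⁻¹, hz2⟩ : C) ≤ PC := by
      have hpz : IsPGroup p (Subgroup.zpowers (⟨m * z * m⁻¹, hz2⟩ : C)) := by
        obtain ⟨k, hk⟩ := (IsPGroup.iff_orderOf.1 P.isPGroup') ⟨z, hz⟩
        refine IsPGroup.of_card (n := k) ?_
        rw [Nat.card_zpowers, ← Subgroup.orderOf_coe, ← hk, ← Subgroup.orderOf_coe]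
        exact orderOf_injective (MulAut.conj m).toMonoidHom (MulAut.conj m).injective z
      have hN : (Subgroup.zpowers (⟨m * z * m⁻¹, hz2⟩ : C)).Normal := by
        refine ⟨fun n hn g => ?_⟩
        rw [hcomm g n, mul_inv_cancel_right]; exact hn
      exact hpz.le_sylow_of_normal PC
    have := hle (Subgroup.mem_zpowers _)
    exact this
  rw [Sylow.card_eq_index_normalizer P]
  rcases hM.le_iff.1 hPN with h | h
  · exfalso
    have hn : (P : Subgroup S).Normal := Subgroup.normalizer_eq_top_iff.1 h
    rcases hn.eq_bot_or_eq_top with h1 | h1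
    · exact hne h1
    · apply hS
      have htop : (⊤ : Subgroup S) ≤ C := h1 ▸ hP
      refine ⟨⟨fun a b => ?_⟩⟩
      letI := hC.commGroup
      have := mul_comm (⟨a, htop trivial⟩ : C) ⟨b, htop trivial⟩
      exact congrArg Subtype.val this
  · rw [h]

end Cfsg.Agent.S4344
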