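import Cfsg.Statements.S4345
import Cfsg.Agent.Lib.H75.SylowNumber
import Cfsg.Agent.Lib.H61.Isospec

set_option autoImplicit false
set_option linter.all false
open Cfsg

namespace Cfsg.Agent.S4345

open H75.SylowNumber Subgroup

universe u

theorem main (p ℓ : ℕ) [Fact p.Prime] (hℓ : ℓ.Prime) : ∀ (n : ℕ) (G : Type u) [Group G] [Finite G], Nat.card G ≤ n →
    Group.IsSolvable G → ℓ ^ (Nat.card (Sylow p G)).factorization ℓ ≡ 1 [MOD p] := by
  intro n
  induction n with
  | zero =>
    intro G _ _ hG
    exact absurd (Nat.le_zero.1 hG) Nat.card_pos.ne'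
  | succ n ih =>
    intro G _ _ hG hsol
    by_cases htriv : (⊤ : Subgroup G) = ⊥
    · have h1 : Nat.card (Sylow p G) = 1 := by
        obtain ⟨P⟩ : Nonempty (Sylow p G) := inferInstance
        rw [Sylow.card_eq_index_normalizer P, index_eq_one, eq_top_iff, htriv]
        exact bot_le
      rw [h1]
      simp
      rfl
    · have hs : Group.IsSolvable (⊤ : Subgroup G) := inferInstance
      obtain ⟨V, r, hV, -, hVne, hr, hVc, hVe⟩ := H61.Isospec.exists_elemAb_normal (⊤ : Subgroup G) htriv hs
      haveI := hV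
      haveI : Fact r.Prime := ⟨hr⟩
      obtain ⟨P⟩ : Nonempty (Sylow p G) := inferInstance
      have hmul := card_sylow_eq_mul_quotient P V
      have hVp : IsPGroup r V := fun x => ⟨1, by rw [pow_one]; exact hVe x⟩
      obtain ⟨k, hk⟩ := IsPGroup.iff_card.1 hVp
      have hdvd : Nat.card (Sylow p ((P : Subgroup G) ⊔ V : Subgroup G)) ∣ r ^ k := by
        rw [card_sylow_subgroup P _ le_sup_left, ← hk]
        have h1 : (normalizer (P : Set G)).relIndex ((P : Subgroup G) ⊔ V) ∣ (P : Subgroup G).relIndex ((P : Subgroup G) ⊔ V) :=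
          relIndex_dvd_of_le_left _ (le_normalizer (H := (P : Subgroup G)))
        rw [relIndex_sup_of_normal] at h1
        exact h1.trans (relIndex_dvd_card _ _)
      obtain ⟨j, hj, hj2⟩ := (Nat.dvd_prime_pow hr).1 hdvd
      have hmod := card_sylow_modEq_one p ((P : Subgroup G) ⊔ V : Subgroup G)
      rw [hj2] at hmod
      have hlt : Nat.card (G ⧸ V) < Nat.card G := by
        have h1 := V.card_eq_card_quotient_mul_card_subgroup
        have h2 : 1 < Nat.card V := by
          have : Nat.card V ≠ 1 := fun h => hVne (Subgroup.card_eq_one.1 h)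
          have := Nat.card_pos (α := V)
          omega
        have h3 : 0 < Nat.card (G ⧸ V) := Nat.card_pos
        rw [h1]
        exact (Nat.lt_mul_iff_one_lt_right h3).2 h2
      have hih := ih (G ⧸ V) (by omega) inferInstance
      rw [hmul, hj2, Nat.factorization_mul Nat.card_pos.ne' (pow_pos hr.pos j).ne']
      rw [Finsupp.add_apply, pow_add]
      have h4 : ℓ ^ (r ^ j).factorization ℓ ≡ 1 [MOD p] := by
        by_cases hlr : ℓ = r
        · subst hlr
          rw [hℓ.factorization_pow, Finsupp.single_eq_same]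
          exact hmod
        · rw [hr.factorization_pow, Finsupp.single_eq_of_ne hlr, pow_zero]
      have := hih.mul h4
      rwa [mul_one] at this

theorem result {G : Type*} [Group G] [Finite G]
    (hG : Group.IsSolvable G) (p ℓ : ℕ) [Fact p.Prime] (hℓ : ℓ.Prime) :
    ℓ ^ (Nat.card (Sylow p G)).factorization ℓ ≡ 1 [MOD p] :=
  main p ℓ hℓ _ G le_rfl hG

end Cfsg.Agent.S4345
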