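import Cfsg.Statements.S4346
import Cfsg.Agent.Lib.H75.N22b

set_option autoImplicit false
open Cfsg

namespace Cfsg.Agent.S4346

/-- No finite group has exactly 22 Sylow 3-subgroups. -/
theorem result {G : Type*} [Group G] [Finite G] : Nat.card (Sylow 3 G) ≠ 22 :=
  H75.N22.main _ G rfl

end Cfsg.Agent.S4346
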