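import Cfsg.Statements.S4354
import Cfsg.Agent.Lib.H75.PCentral

set_option autoImplicit false
open Cfsg

namespace Cfsg.Agent.S4354

open H75.PCentral H75.SylowNumber

theorem good_normal {G : Type*} [Group G] [Finite G] (p : ℕ) [Fact p.Prime] (N : Subgroup G) [N.Normal]
    (hgood : ∀ x : G, (∃ k, orderOf x = p ^ k) → ¬ p ∣ (Subgroup.centralizer ({x} : Set G)).index) :
    ∀ x : N, (∃ k, orderOf x = p ^ k) → ¬ p ∣ (Subgroup.centralizer ({x} : Set N)).index := by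
  intro x hx
  have h1 := hgood (x : G) (by rw [Subgroup.orderOf_coe]; exact hx)
  have h2 := not_dvd_relIndex_of_normal (p := p) _ N h1
  have e : Subgroup.centralizer ({x} : Set N) = (Subgroup.centralizer ({(x : G)} : Set G)).subgroupOf N := by
    ext z
    rw [Subgroup.mem_subgroupOf, Subgroup.mem_centralizer_singleton_iff, Subgroup.mem_centralizer_singleton_iff]
    exact Subtype.ext_iff
  rw [e]
  exact h2

theorem good_quotient {G : Type*} [Group G] [Finite G] (p : ℕ) [Fact p.Prime] (N : Subgroup G) [N.Normal]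
    (hgood : ∀ x : G, (∃ k, orderOf x = p ^ k) → ¬ p ∣ (Subgroup.centralizer ({x} : Set G)).index) :
    ∀ x : G ⧸ N, (∃ k, orderOf x = p ^ k) → ¬ p ∣ (Subgroup.centralizer ({x} : Set (G ⧸ N))).index := by
  intro x hx
  obtain ⟨P⟩ : Nonempty (Sylow p G) := inferInstance
  have hsurj := QuotientGroup.mk'_surjective N
  have hpx : IsPGroup p (Subgroup.zpowers x) := by
    obtain ⟨k, hk⟩ := hx
    exact IsPGroup.of_card (n := k) (by rw [Nat.card_zpowers, hk])
  obtain ⟨Q, hQ⟩ := hpx.exists_le_sylow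
  obtain ⟨P, rfl⟩ := Sylow.mapSurjective_surjective hsurj p Q
  have hxP : x ∈ (P : Subgroup G).map (QuotientGroup.mk' N) := hQ (Subgroup.mem_zpowers x)
  obtain ⟨y, hy, rfl⟩ := hxP
  have h1 := hgood y (exists_orderOf_of_mem P.isPGroup' hy)
  intro h
  apply h1
  refine h.trans (dvd_trans ?_ (Subgroup.index_map_dvd _ hsurj))
  apply Subgroup.index_dvd_of_le
  rintro _ ⟨z, hz, rfl⟩
  have hz' : z ∈ Subgroup.centralizer ({y} : Set G) := hz
  rw [Subgroup.mem_centralizer_singleton_iff] at hz' ⊢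
  rw [← map_mul, ← map_mul, hz']

theorem result {G : Type*} [Group G] [Finite G]
    (p : ℕ) [Fact p.Prime] (h : ((∃ P : Sylow p G, ¬ IsMulCommutative P) ∧ ∀ x : G, (∃ k : ℕ, orderOf x = p ^ k) → ¬ p ∣ (Subgroup.centralizer ({x} : Set G)).index))
    (hmin : ∀ (N : Subgroup G) [N.Normal], N ≠ ⊥ → N ≠ ⊤ →
      ¬ ((∃ P : Sylow p N, ¬ IsMulCommutative P) ∧ ∀ x : N, (∃ k : ℕ, orderOf x = p ^ k) → ¬ p ∣ (Subgroup.centralizer ({x} : Set N)).index) ∧
      ¬ ((∃ P : Sylow p (G ⧸ N), ¬ IsMulCommutative P) ∧ ∀ x : (G ⧸ N), (∃ k : ℕ, orderOf x = p ^ k) → ¬ p ∣ (Subgroup.centralizer ({x} : Set (G ⧸ N))).index)) :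
    IsSimpleGroup G := by
  obtain ⟨⟨P, hP⟩, hgood⟩ := h
  have hnt : Nontrivial G := by
    rw [isMulCommutative_iff] at hP
    push Not at hP
    obtain ⟨a, b, hab⟩ := hP
    refine ⟨⟨(a : G) * b, b * a, fun e => hab (Subtype.ext e)⟩⟩
  refine { toNontrivial := hnt, eq_bot_or_eq_top_of_normal := ?_ }
  intro N hN
  by_contra hcon
  push Not at hcon
  obtain ⟨h1, h2⟩ := hmin N hcon.1 hcon.2
  have hNcomm : ∀ Q : Sylow p N, IsMulCommutative Q := by
    intro Q
    by_contra hQ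
    exact h1 ⟨⟨Q, hQ⟩, good_normal p N hgood⟩
  have hQcomm : ∀ Q : Sylow p (G ⧸ N), IsMulCommutative Q := by
    intro Q
    by_contra hQ
    exact h2 ⟨⟨Q, hQ⟩, good_quotient p N hgood⟩
  apply hP
  rw [isMulCommutative_iff]
  rintro ⟨a, ha⟩ ⟨b, hb⟩
  apply Subtype.ext
  refine comm_of_normal N hgood ?_ ?_ P a ha b hb
  · intro R a ha haN b hb hbN
    obtain ⟨Q, hQ⟩ := exists_sylow_inf R N
    have h3 := isMulCommutative_iff.1 (hNcomm Q)
    have ha' : (⟨a, haN⟩ : N) ∈ (Q : Subgroup N) := by rw [hQ]; exact ha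
    have hb' : (⟨b, hbN⟩ : N) ∈ (Q : Subgroup N) := by rw [hQ]; exact hb
    have h4 := h3 ⟨_, ha'⟩ ⟨_, hb'⟩
    exact congrArg (fun z : Q => ((z : N) : G)) h4
  · intro R a ha b hb
    have h3 := isMulCommutative_iff.1 (hQcomm (R.mapSurjective (QuotientGroup.mk'_surjective N)))
    have h4 := h3 ⟨QuotientGroup.mk' N a, ⟨a, ha, rfl⟩⟩ ⟨QuotientGroup.mk' N b, ⟨b, hb, rfl⟩⟩
    have h5 : QuotientGroup.mk' N a * QuotientGroup.mk' N b = QuotientGroup.mk' N b * QuotientGroup.mk' N a :=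
      congrArg Subtype.val h4
    rw [← QuotientGroup.ker_mk' N, MonoidHom.mem_ker, map_mul, map_mul, map_mul, h5, map_inv, map_inv]
    group

end Cfsg.Agent.S4354
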