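import Cfsg.Statements.S4355
import Cfsg.Agent.Lib.H98.TwoCentral

set_option autoImplicit false
open Cfsg

namespace Cfsg.Agent.S4355

/-- If every element of 2-power order of a finite group has a conjugacy class of odd size, then the Sylow 2-subgroups of the group are abelian. -/
theorem result {G : Type*} [Group G] [Finite G]
    (h : ∀ x : G, (∃ k : ℕ, orderOf x = 2 ^ k) → ¬ 2 ∣ (Subgroup.centralizer ({x} : Set G)).index) (P : Sylow 2 G) :
    IsMulCommutative P := by
  haveI : Fact (Nat.Prime 2) := ⟨Nat.prime_two⟩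
  have hH : H98.TwoCentral.Hyp G := by
    rintro x ⟨k, hk⟩
    obtain ⟨j, _, hj⟩ := (Nat.dvd_prime_pow Nat.prime_two).mp (orderOf_dvd_of_pow_eq_one hk)
    have hodd := h x ⟨j, hj⟩
    set C := Subgroup.centralizer ({x} : Set G) with hC
    obtain ⟨Q0⟩ : Nonempty (Sylow 2 C) := inferInstance
    have h1 : IsPGroup 2 ((Q0 : Subgroup C).map C.subtype) := Q0.isPGroup'.map _
    have h2 : ¬ 2 ∣ ((Q0 : Subgroup C).map C.subtype).index := by
      rw [Subgroup.index_map_subtype]
      intro h3
      rcases (Nat.Prime.dvd_mul Nat.prime_two).mp h3 with h4 | h4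
      · exact Q0.not_dvd_index h4
      · exact hodd h4
    refine ⟨h1.toSylow h2, ?_⟩
    rw [IsPGroup.toSylow_coe]
    exact Subgroup.map_subtype_le _
  exact ⟨⟨fun a b => Subtype.ext (H98.TwoCentral.main hH P a a.2 b b.2)⟩⟩

end Cfsg.Agent.S4355
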