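import Cfsg.Statements.S4359
import Cfsg.Agent.Lib.H90.GS2

set_option autoImplicit false
open Pointwise
open Cfsg

namespace Cfsg.Agent.S4359

/-- Let P be a subgroup of a finite group G and g an element such that P ∩ g⁻¹Pg is a normal subgroup of prime index p in g⁻¹Pg. Let n ≥ 1 and let K be the subgroup generated by P and its conjugates g⁻ⁱPgⁱ for i ≤ n. Suppose that g normalizes no non-identity normal subgroup of P and that P meets the center of K trivially. Then the order of P is pᵗ for some t with 1 ≤ t ≤ 3n and t ≠ 3n - 1. -/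
theorem result {G : Type*} [Group G] [Finite G]
    (P : Subgroup G) (g : G) (p : ℕ) (hp : p.Prime)
    (hN : ((P ⊓ MulAut.conj g⁻¹ • P).subgroupOf (MulAut.conj g⁻¹ • P)).Normal)
    (hidx : (P ⊓ MulAut.conj g⁻¹ • P).relIndex (MulAut.conj g⁻¹ • P) = p)
    (n : ℕ) (hn : 1 ≤ n) (K : Subgroup G) (hK : K = ⨆ i ∈ Finset.range (n + 1), MulAut.conj (g ^ i)⁻¹ • P)
    (h1 : ∀ Q : Subgroup G, Q ≤ P → (Q.subgroupOf P).Normal → MulAut.conj g • Q = Q → Q = ⊥)
    (h2 : P ⊓ (Subgroup.center K).map K.subtype = ⊥) :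
    ∃ t : ℕ, Nat.card P = p ^ t ∧ 1 ≤ t ∧ t ≤ 3 * n ∧ t ≠ 3 * n - 1 := by
  have hmem : ∀ (H : Subgroup G) (a y : G), y ∈ MulAut.conj a • H ↔ a⁻¹ * y * a ∈ H := by
    intro H a y
    rw [Subgroup.mem_pointwise_smul_iff_inv_smul_mem, ← map_inv, MulAut.smul_def, MulAut.conj_apply, inv_inv]
  have hD11 : H90.GS1.D P g 1 1 = MulAut.conj g⁻¹ • P := by
    ext y
    rw [hmem, inv_inv, H90.GS1.mem_D]
    constructor
    · intro h
      simpa using h 1 le_rfl le_rfl
    · intro h l h3 h4
      have : l = 1 := by omega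
      rw [this]
      simpa using h
  have hD01 : H90.GS1.D P g 0 1 = P ⊓ MulAut.conj g⁻¹ • P := by
    ext y
    rw [Subgroup.mem_inf, hmem, inv_inv, H90.GS1.mem_D]
    constructor
    · intro h
      exact ⟨by simpa using h 0 le_rfl (by norm_num), by simpa using h 1 (by norm_num) le_rfl⟩
    · rintro ⟨h, h'⟩ l h3 h4
      have : l = 0 ∨ l = 1 := by omega
      rcases this with this | this
      · rw [this]; simpa using h
      · rw [this]; simpa using h'
  rw [← hD01, ← hD11] at hN hidx
  obtain ⟨t, x, Y, S⟩ := H90.GS1.exists_dat hp (fun x hx y hy => by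
      have hy' : y ∈ H90.GS1.D P g 1 1 := H90.GS1.D_mono (by norm_num) le_rfl hy
      have h3 := hN.conj_mem ⟨y, hy'⟩ (Subgroup.mem_subgroupOf.2 hy) ⟨x, hx⟩
      exact Subgroup.mem_subgroupOf.1 h3) hidx (by
      intro Q hQP hQn hQg
      apply h1 Q hQP
      · refine ⟨fun y hy x => ?_⟩
        rw [Subgroup.mem_subgroupOf] at hy ⊢
        exact hQn x x.2 y hy
      · ext y
        rw [hmem]
        have h3 := hQg (g⁻¹ * y * g)
        have e : g * (g⁻¹ * y * g) * g⁻¹ = y := by group
        rw [e] at h3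
        exact h3.symm)
  have hb := H90.GS2.bound S hn (by
    intro z hz hc
    have hKz : K ≤ Subgroup.centralizer {z} := by
      rw [hK]
      refine iSup₂_le fun i hi => ?_
      intro y hy
      rw [hmem, inv_inv] at hy
      rw [Subgroup.mem_centralizer_singleton_iff]
      apply hc i (by rw [Finset.mem_range] at hi; omega)
      have h3 := S.conj (-(i : ℤ)) i t y
      have e : (-(i : ℤ)) + i = 0 := by ring
      rw [e, S.top, zpow_natCast] at h3
      exact h3.1 hy
    have hPK : P ≤ K := by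
      rw [hK]
      refine le_trans ?_ (le_iSup₂ (f := fun i (_ : i ∈ Finset.range (n + 1)) => MulAut.conj (g ^ i)⁻¹ • P) 0
        (Finset.mem_range.2 (by omega)))
      intro y hy
      rw [hmem]
      simpa using hy
    have h3 : z ∈ P ⊓ (Subgroup.center K).map K.subtype := by
      refine ⟨hz, ⟨⟨z, hPK hz⟩, ?_, rfl⟩⟩
      rw [SetLike.mem_coe, Subgroup.mem_center_iff]
      intro y
      apply Subtype.ext
      exact Subgroup.mem_centralizer_singleton_iff.1 (hKz y.2)
    rw [h2, Subgroup.mem_bot] at h3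
    exact h3)
  refine ⟨t, ?_, S.t1, hb.1, hb.2⟩
  have h3 := S.card 0 t le_rfl
  rwa [S.top] at h3

end Cfsg.Agent.S4359
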