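import Cfsg.Statements.S4365
import Mathlib
import Cfsg.Agent.Lib.H75.SylowNumber
import Cfsg.Agent.Lib.H75.ClassIndex

set_option autoImplicit false
open Cfsg

namespace Cfsg.Agent.S4365

open Subgroup

theorem mem_cent {P : Type*} [Group P] (x y : P) : y ∈ centralizer ({x} : Set P) ↔ y * x = x * y :=
  mem_centralizer_singleton_iff

theorem result {P : Type*} [Group P] [Finite P] (p : ℕ) [Fact p.Prime]
    (hP : IsPGroup p P) (a : ℕ) (ha : 1 ≤ a)
    (hcs : {k : ℕ | ∃ x : P, (Subgroup.centralizer ({x} : Set P)).index = k} = {1, p ^ a}) (x : P) :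
    x ^ p ∈ Subgroup.center P := by
  classical
  by_contra hxp
  -- basic facts on class sizes
  have hidx : ∀ y : P, y ∉ center P → (centralizer ({y} : Set P)).index = p ^ a := by
    intro y hy
    have h1 : (centralizer ({y} : Set P)).index ∈ ({1, p ^ a} : Set ℕ) := by
      rw [← hcs]; exact ⟨y, rfl⟩
    rcases h1 with h1 | h1
    · exfalso
      apply hy
      rw [index_eq_one] at h1
      rw [mem_center_iff]
      intro g
      have : g ∈ centralizer ({y} : Set P) := by rw [h1]; trivial
      exact (mem_cent y g).1 this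
    · exact h1
  have heq : ∀ y w : P, y ∉ center P → w ∉ center P → centralizer ({y} : Set P) ≤ centralizer ({w} : Set P) →
      centralizer ({y} : Set P) = centralizer ({w} : Set P) := by
    intro y w hy hw hle
    apply Subgroup.eq_of_le_of_card_ge hle
    have h1 := (centralizer ({y} : Set P)).index_mul_card
    have h2 := (centralizer ({w} : Set P)).index_mul_card
    rw [hidx y hy] at h1
    rw [hidx w hw] at h2
    have h3 : 0 < p ^ a := pow_pos (Fact.out : p.Prime).pos a
    exact le_of_eq (Nat.eq_of_mul_eq_mul_left h3 (h2.trans h1.symm))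
  have hpow : ∀ y : P, y ^ p ∉ center P → centralizer ({y} : Set P) = centralizer ({y ^ p} : Set P) := by
    intro y hy
    apply heq y (y ^ p) _ hy
    · intro g hg
      rw [mem_cent] at hg ⊢
      exact (Commute.pow_right hg p : Commute g (y ^ p))
    · intro h
      exact hy (Subgroup.pow_mem _ h p)
  have hxZ : x ∉ center P := fun h => hxp (Subgroup.pow_mem _ h p)
  -- the element u
  obtain ⟨u, huZ, hup, hucomm⟩ : ∃ u : P, u ∉ center P ∧ u ^ p ∈ center P ∧ ∀ g : P, u * g * u⁻¹ * g⁻¹ ∈ center P := by
    have : Nontrivial (P ⧸ center P) := by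
      refine ⟨⟨QuotientGroup.mk x, QuotientGroup.mk 1, ?_⟩⟩
      intro h
      have := QuotientGroup.eq.1 h.symm
      simp at this
      exact hxZ this
    have hQ : IsPGroup p (P ⧸ center P) := hP.to_quotient _
    have hnt := hQ.center_nontrivial
    have hcp : IsPGroup p (center (P ⧸ center P)) := hQ.to_subgroup _
    obtain ⟨n, hn0, hn⟩ := (hcp.nontrivial_iff_card).1 hnt
    obtain ⟨c, hc⟩ := exists_prime_orderOf_dvd_card' (G := center (P ⧸ center P)) p (by
      rw [hn]; exact dvd_pow_self p hn0.ne')
    obtain ⟨u, hu⟩ := QuotientGroup.mk_surjective (c : P ⧸ center P)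
    refine ⟨u, ?_, ?_, ?_⟩
    · intro h
      have h1 : (QuotientGroup.mk u : P ⧸ center P) = 1 := (QuotientGroup.eq_one_iff u).2 h
      rw [hu] at h1
      have h2 : c = 1 := Subtype.ext h1
      rw [h2, orderOf_one] at hc
      exact (Fact.out : p.Prime).one_lt.ne hc
    · rw [← QuotientGroup.eq_one_iff]
      have h1 : c ^ p = 1 := by rw [← hc]; exact pow_orderOf_eq_one c
      have h2 : (c : P ⧸ center P) ^ p = 1 := by
        have := congrArg Subtype.val h1
        simpa using this
      rw [← hu] at h2
      exact h2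
    · intro g
      rw [← QuotientGroup.eq_one_iff]
      have h1 := mem_center_iff.1 c.2 (QuotientGroup.mk g)
      rw [← hu] at h1
      show (QuotientGroup.mk u * QuotientGroup.mk g * (QuotientGroup.mk u)⁻¹ * (QuotientGroup.mk g)⁻¹ : P ⧸ center P) = 1
      rw [← h1]
      group
  set C : Subgroup P := centralizer ({u} : Set P) with hC
  -- every y with y^p noncentral has centralizer C
  have hyC : ∀ y : P, y ^ p ∉ center P → centralizer ({y} : Set P) = C := by
    intro y hy
    have hyZ : y ∉ center P := fun h => hy (Subgroup.pow_mem _ h p)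
    -- c = [u, y]
    set c : P := u * y * u⁻¹ * y⁻¹ with hc
    have hcZ : c ∈ center P := hucomm y
    have hcc : ∀ g : P, g * c = c * g := fun g => mem_center_iff.1 hcZ g
    have hcomm2 : c ^ p = 1 := by
      -- u^p commutes with y ; y⁻¹... : y u y⁻¹ = c⁻¹ u
      have h1 : y * u * y⁻¹ = c⁻¹ * u := by rw [hc]; group
      have h2 : (y * u * y⁻¹) ^ p = y * u ^ p * y⁻¹ := by
        rw [conj_pow]
      have h3 : (c⁻¹ * u) ^ p = c⁻¹ ^ p * u ^ p := by
        have : Commute c⁻¹ u := (Commute.inv_left (hcc u).symm)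
        exact this.mul_pow p
      rw [h1, h3, mem_center_iff.1 hup y, mul_inv_cancel_right] at h2
      have h4 : c⁻¹ ^ p = 1 := by
        have h5 : c⁻¹ ^ p * u ^ p = 1 * u ^ p := by rw [h2, one_mul]
        exact mul_right_cancel h5
      rw [inv_pow, inv_eq_one] at h4
      exact h4
    have hu_yp : u ∈ centralizer ({y ^ p} : Set P) := by
      rw [mem_cent]
      have h1 : u * y * u⁻¹ = c * y := by rw [hc]; group
      have h2 : (u * y * u⁻¹) ^ p = u * y ^ p * u⁻¹ := by rw [conj_pow]
      have h3 : (c * y) ^ p = c ^ p * y ^ p := by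
        have : Commute c y := (hcc y).symm
        exact this.mul_pow p
      rw [h1, h3, hcomm2, one_mul] at h2
      exact (mul_inv_eq_iff_eq_mul.1 h2.symm)
    rw [← hpow y hy, mem_cent] at hu_yp
    have hcuy : Commute u y := hu_yp
    have h1 : (u * y) ^ p = u ^ p * y ^ p := hcuy.mul_pow p
    have h2 : (u * y) ^ p ∉ center P := by
      rw [h1]
      intro h
      exact hy ((Subgroup.mul_mem_cancel_left _ hup).1 h)
    have h3 : centralizer ({(u * y) ^ p} : Set P) = centralizer ({y ^ p} : Set P) := by
      ext g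
      rw [mem_cent, mem_cent, h1]
      have h4 := mem_center_iff.1 hup g
      constructor
      · intro h
        have h5 : u ^ p * (g * y ^ p) = u ^ p * (y ^ p * g) := by
          calc u ^ p * (g * y ^ p) = (u ^ p * g) * y ^ p := by group
            _ = (g * u ^ p) * y ^ p := by rw [h4]
            _ = g * (u ^ p * y ^ p) := by group
            _ = u ^ p * y ^ p * g := h
            _ = u ^ p * (y ^ p * g) := by group
        exact mul_left_cancel h5
      · intro h
        calc g * (u ^ p * y ^ p) = (g * u ^ p) * y ^ p := by group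
          _ = (u ^ p * g) * y ^ p := by rw [h4]
          _ = u ^ p * (g * y ^ p) := by group
          _ = u ^ p * (y ^ p * g) := by rw [h]
          _ = u ^ p * y ^ p * g := by group
    have h5 : centralizer ({u * y} : Set P) = centralizer ({y} : Set P) := by
      rw [hpow _ h2, h3, ← hpow y hy]
    apply heq y u hyZ huZ
    intro g hg
    have hg2 := hg
    rw [← h5] at hg2
    rw [mem_cent] at hg hg2 ⊢
    -- g commutes with y and u*y
    have h6 : Commute g (u * y * y⁻¹) := Commute.mul_right hg2 (Commute.inv_right hg)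
    rw [mul_inv_cancel_right] at h6
    exact h6
  have hxC : centralizer ({x} : Set P) = C := hyC x hxp
  have hout : ∀ g : P, g ∉ C → g ^ p ∈ center P := by
    intro g hg
    by_contra h
    apply hg
    rw [← hyC g h, mem_cent]
  -- C is normalized by everything
  have hCn : ∀ g y : P, y ∈ C → g * y * g⁻¹ ∈ C := by
    intro g y hy
    rw [hC, mem_cent] at hy ⊢
    have h1 := mem_center_iff.1 (hucomm g) 
    have h2 : g * u * g⁻¹ = (u * g * u⁻¹ * g⁻¹)⁻¹ * u := by group
    have h3 : (g * y * g⁻¹) * (g * u * g⁻¹) = (g * u * g⁻¹) * (g * y * g⁻¹) := by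
      calc (g * y * g⁻¹) * (g * u * g⁻¹) = g * (y * u) * g⁻¹ := by group
        _ = g * (u * y) * g⁻¹ := by rw [hy]
        _ = (g * u * g⁻¹) * (g * y * g⁻¹) := by group
    rw [h2] at h3
    set k := (u * g * u⁻¹ * g⁻¹)⁻¹ with hk
    have h4 : ∀ w, w * k = k * w := by
      intro w
      exact mem_center_iff.1 ((center P).inv_mem (hucomm g)) w
    have h5 : k * ((g * y * g⁻¹) * u) = k * (u * (g * y * g⁻¹)) := by
      calc k * ((g * y * g⁻¹) * u) = (k * (g * y * g⁻¹)) * u := by group
        _ = ((g * y * g⁻¹) * k) * u := by rw [h4]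
        _ = (g * y * g⁻¹) * (k * u) := by group
        _ = (k * u) * (g * y * g⁻¹) := h3
        _ = k * (u * (g * y * g⁻¹)) := by group
    exact mul_left_cancel h5
  set A : Subgroup P := centralizer (C : Set P) with hA
  have hAmem : ∀ y ∈ A, y ∉ center P → centralizer ({y} : Set P) = C := by
    intro y hy hyZ
    symm
    rw [← hxC]
    apply heq x y hxZ hyZ
    rw [hxC]
    intro c hc
    rw [mem_cent]
    exact (mem_centralizer_iff.1 hy c hc)
  have hxA : x ∈ A := by
    rw [hA, mem_centralizer_iff]
    intro c hc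
    have : c ∈ centralizer ({x} : Set P) := by rw [hxC]; exact hc
    exact (mem_cent x c).1 this
  have hAn : ∀ g : P, g * x * g⁻¹ ∈ A := by
    intro g
    rw [hA, mem_centralizer_iff]
    intro c hc
    have h1 : g⁻¹ * c * g ∈ C := by
      have := hCn g⁻¹ c hc
      simpa using this
    have h2 := mem_centralizer_iff.1 hxA _ h1
    calc c * (g * x * g⁻¹) = g * ((g⁻¹ * c * g) * x) * g⁻¹ := by group
      _ = g * (x * (g⁻¹ * c * g)) * g⁻¹ := by rw [h2]
      _ = g * x * g⁻¹ * c := by group
  -- some g0 outside C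
  obtain ⟨g0, hg0⟩ : ∃ g0 : P, g0 ∉ C := by
    by_contra hcon
    push Not at hcon
    apply huZ
    rw [mem_center_iff]
    intro g
    exact (mem_cent u g).1 (hcon g)
  have hg0Z : g0 ∉ center P := by
    intro h
    apply hg0
    rw [hC, mem_cent]
    exact (mem_center_iff.1 h u).symm
  have hle1 : (centralizer ({g0} : Set P)).relIndex A ≤ p ^ a := by
    rw [← hidx g0 hg0Z, ← relIndex_top_right]
    exact relIndex_le_of_le_right le_top (by rw [relIndex_top_right]; exact index_ne_zero_of_finite)
  have hle2 : Nat.card (centralizer ({g0} : Set P) ⊓ A : Subgroup P) ≤ Nat.card (center P) := by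
    apply Subgroup.card_le_of_le
    rintro y ⟨hy1, hy2⟩
    by_contra hyZ
    apply hg0
    rw [← hAmem y hy2 hyZ, mem_cent]
    exact ((mem_cent g0 y).1 hy1).symm
  have hcardA : Nat.card A ≤ p ^ a * Nat.card (center P) := by
    rw [← H75.SylowNumber.relIndex_mul_card_inf (centralizer ({g0} : Set P)) A]
    exact Nat.mul_le_mul hle1 hle2
  have hZA : center P ≤ A := Subgroup.center_le_centralizer _
  have hcardAbar : Nat.card (A.map (QuotientGroup.mk' (center P))) ≤ p ^ a := by
    have h1 := Subgroup.relIndex_ker (K := A) (QuotientGroup.mk' (center P))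
    rw [QuotientGroup.ker_mk'] at h1
    rw [← h1]
    have h2 := H75.SylowNumber.relIndex_mul_card_inf (center P) A
    rw [inf_eq_left.2 hZA] at h2
    rw [← h2] at hcardA
    exact Nat.le_of_mul_le_mul_right hcardA Nat.card_pos
  -- find g ∉ C with [x,g] ∈ Z
  set xb : P ⧸ center P := QuotientGroup.mk' (center P) x with hxb
  have hSindex : ((centralizer ({xb} : Set (P ⧸ center P))).comap (QuotientGroup.mk' (center P))).index < p ^ a := by
    rw [Subgroup.index_comap_of_surjective _ (QuotientGroup.mk'_surjective _)]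
    refine lt_of_lt_of_le ?_ hcardAbar
    set Ab := A.map (QuotientGroup.mk' (center P)) with hAb
    have h1 := H75.ClassIndex.index_centralizer_le xb ((Ab : Set (P ⧸ center P)) \ {1}) (Set.toFinite _) (by
      intro g
      obtain ⟨g, rfl⟩ := QuotientGroup.mk'_surjective _ g
      refine ⟨⟨g * x * g⁻¹, hAn g, by rw [hxb, map_mul, map_mul, map_inv]⟩, ?_⟩
      intro h
      apply hxZ
      rw [Set.mem_singleton_iff, mul_inv_eq_one, mul_eq_left] at h
      exact (QuotientGroup.eq_one_iff x).1 h)
    refine lt_of_le_of_lt h1 ?_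
    have h2 : Nat.card ((Ab : Set (P ⧸ center P)) \ {1} : Set (P ⧸ center P)) + 1 = Nat.card Ab := by
      rw [Nat.card_coe_set_eq, Set.ncard_diff_singleton_add_one Ab.one_mem (Set.toFinite _)]
      rfl
    omega
  have hCS : centralizer ({x} : Set P) ≤ (centralizer ({xb} : Set (P ⧸ center P))).comap (QuotientGroup.mk' (center P)) := by
    intro g hg
    rw [mem_cent] at hg
    rw [mem_comap, mem_centralizer_singleton_iff, hxb, ← map_mul, ← map_mul, hg]
  obtain ⟨g, hgS, hgC⟩ : ∃ g ∈ (centralizer ({xb} : Set (P ⧸ center P))).comap (QuotientGroup.mk' (center P)),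
      g ∉ centralizer ({x} : Set P) := by
    by_contra hcon
    push Not at hcon
    have h1 := le_antisymm hCS hcon
    rw [← h1, hidx x hxZ] at hSindex
    exact lt_irrefl _ hSindex
  rw [hxC] at hgC
  have hgx : g * x ∉ C := by
    intro h
    apply hgC
    have hxC' : x ∈ C := by rw [← hxC, mem_cent]
    have := C.mul_mem h (C.inv_mem hxC')
    simpa using this
  have h1 := hout g hgC
  have h2 := hout (g * x) hgx
  rw [mem_comap, mem_centralizer_singleton_iff, hxb] at hgS
  apply hxp
  rw [← QuotientGroup.eq_one_iff] at h1 h2 ⊢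
  have h3 : ((QuotientGroup.mk' (center P)) g * (QuotientGroup.mk' (center P)) x) ^ p =
      (QuotientGroup.mk' (center P)) g ^ p * (QuotientGroup.mk' (center P)) x ^ p :=
    (show Commute _ _ from hgS).mul_pow p
  rw [← map_mul, ← map_pow, ← map_pow, ← map_pow] at h3
  have h4 : (QuotientGroup.mk' (center P)) ((g * x) ^ p) = 1 := h2
  have h5 : (QuotientGroup.mk' (center P)) (g ^ p) = 1 := h1
  rw [h4, h5, one_mul] at h3
  exact h3.symm

end Cfsg.Agent.S4365
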