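import Cfsg.Statements.S4370
import Cfsg.Agent.Lib.H73.Nilp
import Cfsg.Agent.Lib.H4.Defect
import Cfsg.Agent.Lib.H1.UniqueSub

set_option autoImplicit false
set_option linter.all false
open Cfsg

namespace Cfsg.Agent.S4370

theorem mem_zpowers_of_cyclic {C : Type*} [Group C] [Finite C] [IsCyclic C] {u v : C} {n : ℕ} (hn : 0 < n)
    (hu : orderOf u = n) (hv : v ^ n = 1) : v ∈ Subgroup.zpowers u := by
  classical
  have := Fintype.ofFinite C
  have h1 : (Finset.univ.filter fun a : C => a ^ n = 1).card ≤ n := IsCyclic.card_pow_eq_one_le hn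
  have h2 : (Finset.univ.filter fun a : C => a ∈ Subgroup.zpowers u) ⊆
      (Finset.univ.filter fun a : C => a ^ n = 1) := by
    intro a ha
    simp only [Finset.mem_filter, Finset.mem_univ, true_and] at ha ⊢
    obtain ⟨k, rfl⟩ := ha
    show (u ^ k) ^ n = 1
    rw [← zpow_natCast, ← zpow_mul, mul_comm, zpow_mul, zpow_natCast, ← hu, pow_orderOf_eq_one, one_zpow]
  have h3 : (Finset.univ.filter fun a : C => a ∈ Subgroup.zpowers u).card = n := by
    rw [← hu, ← Nat.card_zpowers u, Nat.card_eq_fintype_card, Fintype.card_subtype]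
  have h4 := Finset.eq_of_subset_of_card_le h2 (by rw [h3]; exact h1)
  have h5 : v ∈ (Finset.univ.filter fun a : C => a ∈ Subgroup.zpowers u) := by
    rw [h4]; simp [hv]
  simpa using h5

theorem zpowers_eq {G : Type*} [Group G] [Finite G] {w u v : G} {p : ℕ} [Fact p.Prime]
    (hc : IsCyclic (Subgroup.centralizer ({w} : Set G)))
    (hu : u ∈ Subgroup.centralizer ({w} : Set G)) (hv : v ∈ Subgroup.centralizer ({w} : Set G))
    (hup : orderOf u = p) (hvp : orderOf v = p) : v ∈ Subgroup.zpowers u := by
  have h := mem_zpowers_of_cyclic (u := (⟨u, hu⟩ : Subgroup.centralizer ({w} : Set G))) (v := ⟨v, hv⟩)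
    (n := p) (Fact.out : p.Prime).pos (by rw [Subgroup.orderOf_mk]; exact hup)
    (by ext; simp [← hvp, pow_orderOf_eq_one])
  obtain ⟨k, hk⟩ := h
  exact ⟨k, congrArg Subtype.val hk⟩

/-- centralizers in quaternion groups -/
theorem cyclic_centralizer {n : ℕ} [NeZero n] (x : QuaternionGroup n) (hx : x ∉ Subgroup.center (QuaternionGroup n)) :
    IsCyclic (Subgroup.centralizer ({x} : Set (QuaternionGroup n))) := by
  have hn : n ≠ 0 := NeZero.ne n
  -- solutions of 2 j = 0
  have two : ∀ j : ZMod (2 * n), j + j = 0 → j = 0 ∨ j = n := by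
    intro j hj
    have : NeZero (2 * n) := ⟨by omega⟩
    have h1 : ((j.val + j.val : ℕ) : ZMod (2 * n)) = 0 := by
      push_cast
      rw [ZMod.natCast_zmod_val]; exact hj
    rw [ZMod.natCast_eq_zero_iff] at h1
    have h2 : j.val < 2 * n := ZMod.val_lt j
    obtain ⟨c, hc⟩ := h1
    have hc2 : c < 2 := by
      by_contra hge
      have : 2 * n * 2 ≤ 2 * n * c := Nat.mul_le_mul_left _ (by omega)
      omega
    interval_cases c
    · left
      rw [← ZMod.val_eq_zero]; omega
    · right
      have h9 : j.val = n := by omega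
      have h10 : ((j.val : ℕ) : ZMod (2 * n)) = (n : ZMod (2 * n)) := congrArg (fun t : ℕ => (t : ZMod (2 * n))) h9
      rw [ZMod.natCast_zmod_val] at h10
      exact h10
  have two_n : (n : ZMod (2 * n)) + n = 0 := by
    have : ((n + n : ℕ) : ZMod (2 * n)) = 0 := by
      rw [ZMod.natCast_eq_zero_iff]; exact ⟨1, by ring⟩
    push_cast at this; exact this
  have hsub : ∀ (K : Subgroup (QuaternionGroup n)) (g : QuaternionGroup n), K ≤ Subgroup.zpowers g → IsCyclic K := by
    intro K g h
    exact isCyclic_of_injective (Subgroup.inclusion h) (Subgroup.inclusion_injective h)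
  cases x with
  | a i =>
    refine hsub _ (QuaternionGroup.a 1) ?_
    intro y hy
    rw [Subgroup.mem_centralizer_singleton_iff] at hy
    cases y with
    | a j =>
      have : NeZero (2 * n) := ⟨by omega⟩
      refine ⟨(j.val : ℤ), ?_⟩
      show QuaternionGroup.a 1 ^ (j.val : ℤ) = _
      rw [zpow_natCast, QuaternionGroup.a_one_pow, ZMod.natCast_zmod_val]
    | xa j =>
      exfalso
      rw [QuaternionGroup.xa_mul_a, QuaternionGroup.a_mul_xa] at hy
      have h1 : j + i = j - i := QuaternionGroup.xa.inj hy
      have h2 : i + i = 0 := by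
        have : j + i = j + -i := by rw [h1]; ring
        have h3 := add_left_cancel this
        nth_rewrite 1 [h3]; ring
      apply hx
      rw [Subgroup.mem_center_iff]
      intro g
      cases g with
      | a k => rw [QuaternionGroup.a_mul_a, QuaternionGroup.a_mul_a, add_comm]
      | xa k =>
        rw [QuaternionGroup.xa_mul_a, QuaternionGroup.a_mul_xa]
        congr 1
        have : i = -i := eq_neg_of_add_eq_zero_left h2
        rw [sub_eq_add_neg, ← this]
  | xa i =>
    refine hsub _ (QuaternionGroup.xa i) ?_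
    intro y hy
    rw [Subgroup.mem_centralizer_singleton_iff] at hy
    cases y with
    | a j =>
      rw [QuaternionGroup.xa_mul_a, QuaternionGroup.a_mul_xa] at hy
      have h1 : i - j = i + j := QuaternionGroup.xa.inj hy
      have h2 : j + j = 0 := by
        have : i + -j = i + j := by rw [← h1]; ring
        have h3 := add_left_cancel this
        nth_rewrite 1 [← h3]; ring
      rcases two j h2 with h | h
      · rw [h, QuaternionGroup.a_zero]; exact Subgroup.one_mem _
      · rw [h, ← QuaternionGroup.xa_sq i]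
        exact Subgroup.pow_mem _ (Subgroup.mem_zpowers _) 2
    | xa j =>
      rw [QuaternionGroup.xa_mul_xa, QuaternionGroup.xa_mul_xa] at hy
      have h1 : (n : ZMod (2 * n)) + i - j = n + j - i := QuaternionGroup.a.inj hy
      have h2 : (j - i) + (j - i) = 0 := by
        have : (j - i) + (j - i) = ((n : ZMod (2 * n)) + j - i) - (n + i - j) := by ring
        rw [this, h1, sub_self]
      rcases two _ h2 with h | h
      · rw [sub_eq_zero.1 h]; exact Subgroup.mem_zpowers _
      · have h3 : QuaternionGroup.xa j = QuaternionGroup.xa i ^ 3 := by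
          rw [pow_succ, QuaternionGroup.xa_sq, QuaternionGroup.a_mul_xa]
          congr 1
          have h4 : j = i + n := by rw [← h]; ring
          rw [h4]
          have : (n : ZMod (2 * n)) = -n := eq_neg_of_add_eq_zero_left two_n
          rw [sub_eq_add_neg, ← this]
        rw [h3]
        exact Subgroup.pow_mem _ (Subgroup.mem_zpowers _) 3

theorem backward {G : Type*} [Group G] [Finite G] (k m : ℕ) (hk : 1 ≤ k) (hm : Odd m)
    (e : G ≃* QuaternionGroup (2 ^ k) × Multiplicative (ZMod m)) (x : G) (hx : x ∉ Subgroup.center G) :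
    IsCyclic (Subgroup.centralizer ({x} : Set G)) := by
  haveI : NeZero (2 ^ k) := ⟨by positivity⟩
  haveI : NeZero m := ⟨by rintro rfl; simp at hm⟩
  -- a-component noncentral
  have hx1 : (e x).1 ∉ Subgroup.center (QuaternionGroup (2 ^ k)) := by
    intro hc
    apply hx
    rw [Subgroup.mem_center_iff]
    intro g
    apply e.injective
    rw [map_mul, map_mul]
    ext1
    · exact Subgroup.mem_center_iff.1 hc (e g).1
    · exact mul_comm (G := Multiplicative (ZMod m)) _ _
  have h1 := cyclic_centralizer _ hx1
  have h2 : IsCyclic (Subgroup.centralizer ({(e x).1} : Set (QuaternionGroup (2 ^ k))) × Multiplicative (ZMod m)) := by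
    rw [Group.isCyclic_prod_iff]
    refine ⟨h1, inferInstance, ?_⟩
    have h3 : Nat.card (Subgroup.centralizer ({(e x).1} : Set (QuaternionGroup (2 ^ k)))) ∣ 2 ^ (k + 2) := by
      have := Subgroup.card_subgroup_dvd_card (Subgroup.centralizer ({(e x).1} : Set (QuaternionGroup (2 ^ k))))
      rwa [Nat.card_eq_fintype_card (α := QuaternionGroup (2 ^ k)), QuaternionGroup.card,
        show 4 * 2 ^ k = 2 ^ (k + 2) by ring] at this
    have h4 : Nat.card (Multiplicative (ZMod m)) = m := Nat.card_zmod m
    rw [h4]
    exact Nat.Coprime.coprime_dvd_left h3 (Nat.Coprime.pow_left _ (Nat.coprime_two_left.2 hm))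
  let f : Subgroup.centralizer ({x} : Set G) →*
      Subgroup.centralizer ({(e x).1} : Set (QuaternionGroup (2 ^ k))) × Multiplicative (ZMod m) :=
    { toFun := fun y => (⟨(e y).1, by
        have hy := Subgroup.mem_centralizer_singleton_iff.1 y.2
        rw [Subgroup.mem_centralizer_singleton_iff]
        have := congrArg (fun g => (e g).1) hy
        simpa using this⟩, (e y).2)
      map_one' := by ext1 <;> simp
      map_mul' := fun y z => by
        ext1
        · ext1; simp
        · simp }
  refine isCyclic_of_injective f ?_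
  intro y z hyz
  ext1
  apply e.injective
  ext1
  · have := congrArg (fun g => (g.1 : QuaternionGroup (2 ^ k))) hyz
    exact this
  · have := congrArg (fun g => g.2) hyz
    exact this

theorem forward {G : Type*} [Group G] [Finite G] (hG : Group.IsNilpotent G)
    (hna : ¬ IsMulCommutative G)
    (h : ∀ x : G, x ∉ Subgroup.center G → IsCyclic (Subgroup.centralizer ({x} : Set G))) :
    ∃ (k m : ℕ), 1 ≤ k ∧ Odd m ∧ Nonempty (G ≃* QuaternionGroup (2 ^ k) × Multiplicative (ZMod m)) := by
  classical
  have hcen : Subgroup.center G ≠ ⊤ := by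
    intro hc
    apply hna
    constructor
    constructor
    intro a b
    have : b ∈ Subgroup.center G := by rw [hc]; trivial
    exact Subgroup.mem_center_iff.1 this a
  obtain ⟨p, hp, hpd⟩ : ∃ p : ℕ, p.Prime ∧ p ∣ (Subgroup.center G).index := by
    apply Nat.exists_prime_and_dvd
    intro h1
    exact hcen (Subgroup.index_eq_one.1 h1)
  haveI : Fact p.Prime := ⟨hp⟩
  obtain ⟨P, Q, hQ, hcard, hQp⟩ := H4.Defect.exists_reg_part G p
  have hPc : ¬ (P : Subgroup G) ≤ Subgroup.center G := by
    intro hle
    exact P.not_dvd_index (hpd.trans (Subgroup.index_dvd_of_le hle))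
  obtain ⟨x, hxP, hxc⟩ := SetLike.not_le_iff_exists.1 hPc
  have hPQ : ∀ a ∈ (P : Subgroup G), ∀ b ∈ Q, a * b = b * a := by
    intro a ha b hb
    exact Subgroup.mem_centralizer_iff.1 (H73.Nilp.mem_centralizer_of_coprime P ((hQ b).1 hb)) a ha
  have hcx := h x hxc
  have hQle : Q ≤ Subgroup.centralizer ({x} : Set G) := by
    intro b hb
    rw [Subgroup.mem_centralizer_singleton_iff]
    exact (hPQ x hxP b hb).symm
  have hQcyc : IsCyclic Q := isCyclic_of_injective (Subgroup.inclusion hQle) (Subgroup.inclusion_injective hQle)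
  -- the isomorphism
  have hcop : (Nat.card (P : Subgroup G)).Coprime (Nat.card Q) := by
    obtain ⟨k, hk⟩ := IsPGroup.iff_card.mp P.isPGroup'
    rw [hk]
    exact Nat.Coprime.pow_left k hQp.symm
  have hdis : (P : Subgroup G) ⊓ Q = ⊥ := Subgroup.inf_eq_bot_of_coprime hcop
  let f : ↥(P : Subgroup G) × ↥Q →* G :=
    MonoidHom.noncommCoprod (P : Subgroup G).subtype Q.subtype (fun a b => hPQ a a.2 b b.2)
  have hf : Function.Injective f := by
    rw [injective_iff_map_eq_one]
    rintro ⟨a, b⟩ hab
    have hab' : (a : G) * b = 1 := hab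
    have h1 : (a : G) ∈ (P : Subgroup G) ⊓ Q := ⟨a.2, by
      rw [eq_inv_of_mul_eq_one_left hab']; exact Q.inv_mem b.2⟩
    rw [hdis, Subgroup.mem_bot] at h1
    rw [h1, one_mul] at hab'
    ext
    · exact h1
    · exact hab'
  have hfb : Function.Bijective f := by
    rw [Nat.bijective_iff_injective_and_card]
    refine ⟨hf, ?_⟩
    rw [Nat.card_prod]
    exact hcard
  let e1 : ↥(P : Subgroup G) × ↥Q ≃* G := MulEquiv.ofBijective f hfb
  -- `P` commutative is impossible
  have hPnc : ¬ ∀ a b : (P : Subgroup G), a * b = b * a := by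
    intro hab
    apply hxc
    rw [Subgroup.mem_center_iff]
    intro g
    obtain ⟨⟨a, b⟩, rfl⟩ := hfb.2 g
    show (a : G) * b * x = x * (a * b)
    have h1 : (a : G) * x = x * a := congrArg Subtype.val (hab a ⟨x, hxP⟩)
    have h2 : x * (b : G) = b * x := hPQ x hxP b b.2
    calc (a : G) * b * x = a * (b * x) := by group
      _ = a * (x * b) := by rw [h2]
      _ = (a * x) * b := by group
      _ = x * (a * b) := by rw [h1]; group
  -- element of order p in the centre of `P`
  have hPnt : Nontrivial (P : Subgroup G) := by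
    refine ⟨⟨⟨x, hxP⟩, 1, ?_⟩⟩
    intro h1
    apply hxc
    have : x = 1 := congrArg Subtype.val h1
    rw [this]; exact Subgroup.one_mem _
  haveI : Nontrivial (Subgroup.center (P : Subgroup G)) := P.isPGroup'.center_nontrivial
  obtain ⟨z, hz⟩ : ∃ z : Subgroup.center (P : Subgroup G), orderOf z = p := by
    apply exists_prime_orderOf_dvd_card'
    have h1 : IsPGroup p (Subgroup.center (P : Subgroup G)) := P.isPGroup'.to_subgroup _
    obtain ⟨k, hk⟩ := IsPGroup.iff_card.mp h1
    have h2 : 1 < Nat.card (Subgroup.center (P : Subgroup G)) := Finite.one_lt_card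
    rw [hk] at h2 ⊢
    have hk0 : k ≠ 0 := by rintro rfl; simp at h2
    exact dvd_pow_self p hk0
  have hzo : orderOf ((z : (P : Subgroup G)) : G) = p := by
    rw [Subgroup.orderOf_coe, Subgroup.orderOf_coe]; exact hz
  have hzc : ∀ a ∈ (P : Subgroup G), a * ((z : (P : Subgroup G)) : G) = (z : (P : Subgroup G)) * a := by
    intro a ha
    exact congrArg Subtype.val (Subgroup.mem_center_iff.1 z.2 ⟨a, ha⟩)
  have huniq : ∀ H : Subgroup (P : Subgroup G), Nat.card H = p → H = Subgroup.zpowers (z : (P : Subgroup G)) := by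
    intro H hH
    obtain ⟨c, hc⟩ : ∃ c : H, orderOf c = p := by
      apply exists_prime_orderOf_dvd_card'
      rw [hH]
    have hco : orderOf (((c : (P : Subgroup G))) : G) = p := by
      rw [Subgroup.orderOf_coe, Subgroup.orderOf_coe]; exact hc
    have key : ((z : (P : Subgroup G)) : G) ∈ Subgroup.zpowers ((c : (P : Subgroup G)) : G) := by
      by_cases hcc : ((c : (P : Subgroup G)) : G) ∈ Subgroup.center G
      · refine zpowers_eq (w := x) hcx ?_ ?_ hco hzo
        · rw [Subgroup.mem_centralizer_singleton_iff]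
          exact (Subgroup.mem_center_iff.1 hcc x).symm
        · rw [Subgroup.mem_centralizer_singleton_iff]
          exact (hzc x hxP).symm
      · refine zpowers_eq (w := ((c : (P : Subgroup G)) : G)) (h _ hcc) ?_ ?_ hco hzo
        · rw [Subgroup.mem_centralizer_singleton_iff]
        · rw [Subgroup.mem_centralizer_singleton_iff]
          exact (hzc _ (c : (P : Subgroup G)).2).symm
    have key2 : (z : (P : Subgroup G)) ∈ Subgroup.zpowers (c : (P : Subgroup G)) := by
      obtain ⟨k, hk⟩ := key
      exact ⟨k, Subtype.ext (by simpa using hk)⟩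
    symm
    apply Subgroup.eq_of_le_of_card_ge
    · rw [Subgroup.zpowers_le]
      exact (Subgroup.zpowers_le.2 c.2) key2
    · rw [hH, Nat.card_zpowers, Subgroup.orderOf_coe, hz]
  rcases H1.UniqueSub.cyclic_or_quaternion p P.isPGroup'
      (fun H K hH hK => (huniq H hH).trans (huniq K hK).symm) with hcyc | ⟨rfl, n, ⟨e2⟩⟩
  · exfalso
    apply hPnc
    intro a b
    obtain ⟨g, hg⟩ := hcyc.exists_generator
    obtain ⟨i, rfl⟩ := hg a
    obtain ⟨j, rfl⟩ := hg b
    show g ^ i * g ^ j = g ^ j * g ^ i
    rw [← zpow_add, ← zpow_add, add_comm]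
  · have hn : 1 ≤ n := by
      by_contra hn0
      have hn1 : n = 0 := by omega
      subst hn1
      apply hPnc
      have hcyc : IsCyclic (QuaternionGroup (2 ^ 0)) := QuaternionGroup.quaternionGroup_one_isCyclic
      intro a b
      apply e2.injective
      obtain ⟨g, hg⟩ := hcyc.exists_generator
      rw [map_mul, map_mul]
      obtain ⟨i, hi⟩ := hg (e2 a)
      obtain ⟨j, hj⟩ := hg (e2 b)
      rw [← hi, ← hj]
      show g ^ i * g ^ j = g ^ j * g ^ i
      rw [← zpow_add, ← zpow_add, add_comm]
    refine ⟨n, Nat.card Q, hn, ?_, ⟨?_⟩⟩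
    · rw [← Nat.coprime_two_left]; exact hQp.symm
    · exact e1.symm.trans (MulEquiv.prodCongr e2 (zmodCyclicMulEquiv hQcyc).symm)

/-- Let G be a finite non-abelian nilpotent group. Then the centralizer of every non-central element of G is cyclic if and only if G is isomorphic to the direct product of a generalized quaternion group and a cyclic group of odd order. -/
theorem result {G : Type*} [Group G] [Finite G] (hG : Group.IsNilpotent G)
    (hna : ¬ IsMulCommutative G) :
    (∀ x : G, x ∉ Subgroup.center G → IsCyclic (Subgroup.centralizer ({x} : Set G))) ↔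
      ∃ (k m : ℕ), 1 ≤ k ∧ Odd m ∧ Nonempty (G ≃* QuaternionGroup (2 ^ k) × Multiplicative (ZMod m)) := by
  constructor
  · exact forward hG hna
  · rintro ⟨k, m, hk, hm, ⟨e⟩⟩ x hx
    exact backward k m hk hm e x hx

end Cfsg.Agent.S4370
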