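import Cfsg.Statements.S4377

set_option autoImplicit false
open Cfsg

namespace Cfsg.Agent.S4377

theorem sum_eq {G : Type*} [Group G] [Finite G] {n : ℕ} (hn : n ≠ 0) :
    ∑ m ∈ n.divisors, Nat.card {x : G // orderOf x = m} = Nat.card {x : G // x ^ n = 1} := by
  classical
  haveI : Fintype G := Fintype.ofFinite G
  have := sum_card_orderOf_eq_card_pow_eq_one (G := G) hn
  simp only [Nat.card_eq_fintype_card, Fintype.card_subtype]
  exact this

theorem card_zero {G : Type*} [Group G] [Finite G] : Nat.card {x : G // orderOf x = 0} = 0 := by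
  rw [Nat.card_eq_zero]
  left
  refine ⟨fun ⟨x, hx⟩ => ?_⟩
  exact (orderOf_pos x).ne' hx

theorem result {G H : Type*} [Group G] [Finite G] [Group H] [Finite H] :
    (∀ n : ℕ, Nat.card {g : G // orderOf g = n} = Nat.card {h : H // orderOf h = n}) ↔
      ∀ n : ℕ, Nat.card {g : G // g ^ n = 1} = Nat.card {h : H // h ^ n = 1} := by
  constructor
  · intro h n
    have key : ∀ n : ℕ, n ≠ 0 → Nat.card {g : G // g ^ n = 1} = Nat.card {h : H // h ^ n = 1} := by
      intro n hn
      rw [← sum_eq hn, ← sum_eq hn]
      exact Finset.sum_congr rfl (fun m _ => h m)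
    rcases eq_or_ne n 0 with rfl | hn
    · have h1 := key (Nat.card G * Nat.card H) (by
        have := Nat.card_pos (α := G); have := Nat.card_pos (α := H); positivity)
      have e1 : Nat.card {g : G // g ^ (Nat.card G * Nat.card H) = 1} = Nat.card {g : G // g ^ 0 = 1} := by
        congr 1
        congr 1
        funext g
        rw [pow_mul, pow_card_eq_one', one_pow, pow_zero]
      have e2 : Nat.card {g : H // g ^ (Nat.card G * Nat.card H) = 1} = Nat.card {g : H // g ^ 0 = 1} := by
        congr 1
        congr 1
        funext g
        rw [mul_comm, pow_mul, pow_card_eq_one', one_pow, pow_zero]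
      rw [← e1, ← e2]; exact h1
    · exact key n hn
  · intro h n
    induction n using Nat.strong_induction_on with
    | _ n ih =>
      rcases eq_or_ne n 0 with rfl | hn
      · rw [card_zero, card_zero]
      · have h1 := sum_eq (G := G) hn
        have h2 := sum_eq (G := H) hn
        rw [h n, ← h2] at h1
        rw [← Nat.cons_self_properDivisors hn, Finset.sum_cons, Finset.sum_cons] at h1
        have h3 : ∑ m ∈ n.properDivisors, Nat.card {x : G // orderOf x = m} =
            ∑ m ∈ n.properDivisors, Nat.card {x : H // orderOf x = m} :=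
          Finset.sum_congr rfl (fun m hm => ih m (Nat.mem_properDivisors.1 hm).2)
        rw [h3] at h1
        exact Nat.add_right_cancel h1

end Cfsg.Agent.S4377
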