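import Cfsg.Statements.S4376
import Cfsg.Agent.S4377
import Cfsg.Agent.Lib.H75.OTSigns
import Cfsg.Agent.Lib.H75.OTGL
import Cfsg.Agent.Lib.H75.OTAL

set_option autoImplicit false
open Cfsg

namespace Cfsg.Agent.S4376

open H75.OT

/-- one factor: multiplicity and numbers of cyclic modules of order 4, 3, 7 for each sign character -/
structure Dat where
  c : ℕ
  k : Fin 3 → ℕ
  a : Fin 3 → ℕ
  b : Fin 3 → ℕ

/-- factors on the solvable side -/
def pos : Fin 8 → Dat := ![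
    ⟨22, ![1, 1, 1], ![0, 0, 0], ![0, 0, 0]⟩,
    ⟨88, ![1, 0, 0], ![0, 0, 1], ![0, 1, 0]⟩,
    ⟨22, ![2, 0, 0], ![0, 1, 2], ![0, 0, 0]⟩,
    ⟨44, ![0, 1, 1], ![0, 1, 1], ![1, 0, 0]⟩,
    ⟨22, ![0, 1, 0], ![1, 1, 2], ![0, 0, 0]⟩,
    ⟨22, ![1, 0, 1], ![0, 0, 0], ![0, 1, 2]⟩,
    ⟨38, ![0, 0, 0], ![0, 2, 2], ![0, 1, 1]⟩,
    ⟨4, ![0, 0, 0], ![1, 2, 3], ![0, 2, 0]⟩]

/-- factors on the nonsolvable side -/
def neg : Fin 12 → Dat := ![
    ⟨17, ![1, 2, 0], ![0, 0, 1], ![0, 0, 0]⟩,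
    ⟨22, ![1, 1, 0], ![0, 0, 0], ![0, 0, 1]⟩,
    ⟨28, ![0, 1, 0], ![0, 0, 2], ![0, 0, 0]⟩,
    ⟨7, ![0, 1, 1], ![0, 0, 2], ![0, 0, 0]⟩,
    ⟨88, ![0, 0, 1], ![0, 0, 1], ![0, 1, 0]⟩,
    ⟨2, ![0, 1, 0], ![0, 0, 0], ![0, 0, 2]⟩,
    ⟨22, ![1, 1, 1], ![0, 0, 0], ![0, 1, 1]⟩,
    ⟨48, ![0, 0, 0], ![0, 1, 1], ![1, 0, 0]⟩,
    ⟨9, ![0, 0, 0], ![1, 1, 2], ![0, 0, 0]⟩,
    ⟨5, ![0, 1, 2], ![1, 2, 4], ![0, 0, 0]⟩,
    ⟨4, ![0, 0, 0], ![1, 2, 3], ![1, 0, 0]⟩,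
    ⟨24, ![0, 0, 0], ![0, 2, 2], ![2, 0, 1]⟩]

/-- product of the groups in a family -/
abbrev Fam {r : ℕ} (D : Fin r → Dat) : Type :=
  ∀ j : Fin r, Fin (D j).c → GG (D j).k (D j).a (D j).b

/-- the number of solutions in a family -/
def famF {r : ℕ} (D : Fin r → Dat) (n : ℕ) : ℕ :=
  ∏ j : Fin r, FF (D j).k (D j).a (D j).b n ^ (D j).c

theorem cnt_Fam {r : ℕ} (D : Fin r → Dat) (n : ℕ) : cnt (Fam D) n = famF D (Nat.gcd n 84) := by
  rw [cnt_pi, famF]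
  refine Finset.prod_congr rfl fun j _ => ?_
  rw [cnt_pow, cnt_GG, FF_gcd]

theorem isSolvable_pi {ι : Type*} [Finite ι] (G : ι → Type*) [∀ i, Group (G i)]
    (h : ∀ i, Group.IsSolvable (G i)) : Group.IsSolvable (∀ i, G i) := by
  have := Fintype.ofFinite ι
  choose m hm using fun i => (h i).1
  refine ⟨⟨Finset.univ.sup m, ?_⟩⟩
  rw [eq_bot_iff]
  intro x hx
  rw [Subgroup.mem_bot]
  funext i
  have h1 : Pi.evalMonoidHom G i x ∈ derivedSeries (G i) (Finset.univ.sup m) :=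
    map_derivedSeries_le_derivedSeries (Pi.evalMonoidHom G i) _ (Subgroup.mem_map_of_mem _ hx)
  have h2 := derivedSeries_antitone (G i) (Finset.le_sup (f := m) (Finset.mem_univ i)) h1
  rw [hm i, Subgroup.mem_bot] at h2
  exact h2

theorem isSolvable_Fam {r : ℕ} (D : Fin r → Dat) : Group.IsSolvable (Fam D) :=
  isSolvable_pi _ fun _ => isSolvable_pi _ fun _ => inferInstance

theorem cnt_mul_zmod2 (n : ℕ) : cnt (Multiplicative (ZMod 2)) n = Nat.gcd n 2 := cntA_zmod2 n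
theorem cnt_mul_zmod3 (n : ℕ) : cnt (Multiplicative (ZMod 3)) n = Nat.gcd n 3 := cntA_zmod3 n

/-- the solvable group -/
abbrev GS : Type := (Fin 44 → A168) × Fam pos
/-- the nonsolvable group -/
abbrev HN : Type := (Fin 44 → L168) × (Fin 60 → Multiplicative (ZMod 2)) ×
  (Fin 44 → Multiplicative (ZMod 3)) × Fam neg

theorem key : ∀ d ∈ ({1, 2, 3, 4, 6, 7, 12, 14, 21, 28, 42, 84} : Finset ℕ),
    tabA d ^ 44 * famF pos d = tabL d ^ 44 * (Nat.gcd d 2 ^ 60 * (Nat.gcd d 3 ^ 44 * famF neg d)) := by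
  decide +kernel

theorem cnt_eq (n : ℕ) : cnt GS n = cnt HN n := by
  have h : Nat.gcd n 84 ∣ 84 := Nat.gcd_dvd_right n 84
  have hd : Nat.gcd n 84 ∈ Nat.divisors 84 := Nat.mem_divisors.2 ⟨h, by norm_num⟩
  have hl : Nat.divisors 84 = {1, 2, 3, 4, 6, 7, 12, 14, 21, 28, 42, 84} := by decide +kernel
  rw [hl] at hd
  have := key _ hd
  rw [gcd_gcd_84 n 2 (by norm_num), gcd_gcd_84 n 3 (by norm_num)] at this
  rw [cnt_prod, cnt_prod, cnt_prod, cnt_prod, cnt_pow, cnt_pow, cnt_pow, cnt_pow, cnt_Fam, cnt_Fam, cnt_L168,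
    cnt_A168, cnt_mul_zmod2, cnt_mul_zmod3]
  exact this

theorem not_isSolvable_HN : ¬ Group.IsSolvable HN := by
  intro hs
  apply not_isSolvable_L168
  let f : HN →* L168 := (Pi.evalMonoidHom (fun _ : Fin 44 => L168) 0).comp (MonoidHom.fst _ _)
  refine Group.isSolvable_of_surjective (f := f) ?_
  intro x
  exact ⟨(fun _ => x, 1), rfl⟩

theorem isSolvable_GS : Group.IsSolvable GS := by
  have h1 : Group.IsSolvable (Fin 44 → A168) := isSolvable_pi _ fun _ => isSolvable_A168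
  have h2 := isSolvable_Fam pos
  infer_instance

/-- There are finite groups G and H having the same number of elements of each order (the same order type) with G solvable and H not solvable. -/
theorem result :
    ∃ (G : Type) (_ : Group G) (_ : Finite G) (H : Type) (_ : Group H) (_ : Finite H),
      Group.IsSolvable G ∧ ¬ Group.IsSolvable H ∧ ∀ n : ℕ, Nat.card {g : G // orderOf g = n} = Nat.card {h : H // orderOf h = n} := by
  refine ⟨GS, inferInstance, inferInstance, HN, inferInstance, inferInstance, isSolvable_GS,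
    not_isSolvable_HN, ?_⟩
  exact (Cfsg.Agent.S4377.result (G := GS) (H := HN)).2 cnt_eq

end Cfsg.Agent.S4376
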