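import Cfsg.Statements.S4378
import Cfsg.Agent.Lib.H66.CopFrattini
import Cfsg.Agent.Lib.H73.SolvSmall
import Cfsg.Agent.Lib.H11.MinNormal
import Cfsg.Agent.Lib.H75.Basic

set_option autoImplicit false
set_option linter.all false
open Cfsg

universe u

namespace Cfsg.Agent.S4378

def Star (G : Type*) [Group G] : Prop :=
  ∃ A B C : Subgroup G, A.Normal ∧ B.Normal ∧ C.Normal ∧ A ≤ B ∧ B ≤ C ∧ Odd (Nat.card A) ∧
      (∃ k : ℕ, A.relIndex B = 2 ^ k) ∧ Odd (B.relIndex C) ∧ ∃ k : ℕ, C.index = 2 ^ k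

def Hyp (G : Type*) [Group G] : Prop :=
  ∀ M : Subgroup G, IsCoatom M → (∃ K : Subgroup ↥M, K.Normal ∧ ¬ 2 ∣ Nat.card K ∧ ∃ k : ℕ, K.index = 2 ^ k) ∨ (M.index).Prime

theorem hyp_quot {G : Type*} [Group G] [Finite G] (h : Hyp G) (N : Subgroup G) [N.Normal] : Hyp (G ⧸ N) := by
  intro M hM
  have hs := QuotientGroup.mk'_surjective N
  have hM' : IsCoatom (M.comap (QuotientGroup.mk' N)) := Subgroup.isCoatom_comap_of_surjective hs hM
  rcases h _ hM' with ⟨K, hK, hK2, k, hk⟩ | hp
  · left
    let φ := (QuotientGroup.mk' N).subgroupComap M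
    have hφ : Function.Surjective φ := MonoidHom.subgroupComap_surjective_of_surjective _ _ hs
    refine ⟨K.map φ, hK.map φ hφ, ?_, ?_⟩
    · intro h2
      exact hK2 (h2.trans (Subgroup.card_map_dvd _ _))
    · have h1 : (K.map φ).index ∣ 2 ^ k := hk ▸ Subgroup.index_map_dvd K hφ
      obtain ⟨j, -, hj⟩ := (Nat.dvd_prime_pow Nat.prime_two).1 h1
      exact ⟨j, hj⟩
  · right
    rwa [Subgroup.index_comap_of_surjective M hs] at hp

theorem card_comap {G : Type*} [Group G] [Finite G] (N : Subgroup G) [N.Normal] (A : Subgroup (G ⧸ N)) :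
    Nat.card (A.comap (QuotientGroup.mk' N)) = Nat.card N * Nat.card A := by
  have h1 : N ≤ A.comap (QuotientGroup.mk' N) := by
    intro x hx
    rw [Subgroup.mem_comap, QuotientGroup.mk'_apply, (QuotientGroup.eq_one_iff x).2 hx]
    exact A.one_mem
  have h2 := Subgroup.relIndex_mul_relIndex (⊥ : Subgroup G) N (A.comap (QuotientGroup.mk' N)) bot_le h1
  rw [Subgroup.relIndex_bot_left, Subgroup.relIndex_bot_left] at h2
  rw [← h2]
  congr 1
  have h3 : N = (⊥ : Subgroup (G ⧸ N)).comap (QuotientGroup.mk' N) := by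
    rw [MonoidHom.comap_bot, QuotientGroup.ker_mk']
  nth_rewrite 1 [h3]
  rw [Subgroup.relIndex_comap, Subgroup.map_comap_eq_self_of_surjective (QuotientGroup.mk'_surjective N),
    Subgroup.relIndex_bot_left]

theorem le_comap {G : Type*} [Group G] (N : Subgroup G) [N.Normal] (A : Subgroup (G ⧸ N)) :
    N ≤ A.comap (QuotientGroup.mk' N) := by
  intro x hx
  rw [Subgroup.mem_comap, QuotientGroup.mk'_apply, (QuotientGroup.eq_one_iff x).2 hx]
  exact A.one_mem

theorem relIndex_comap {G : Type*} [Group G] (N : Subgroup G) [N.Normal] (A B : Subgroup (G ⧸ N)) :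
    (A.comap (QuotientGroup.mk' N)).relIndex (B.comap (QuotientGroup.mk' N)) = A.relIndex B := by
  rw [Subgroup.relIndex_comap, Subgroup.map_comap_eq_self_of_surjective (QuotientGroup.mk'_surjective N)]

theorem H66norm {G : Type*} [Group G] [Finite G] (N K : Subgroup G) [N.Normal] (x : G)
    (h : ∀ z ∈ K, x * z * x⁻¹ ∈ K) : x ∈ Subgroup.normalizer ((N ⊔ K : Subgroup G) : Set G) := by
  refine H75.Basic.mem_normalizer_of_conj_mem _ _ ?_
  intro z hz
  rw [← SetLike.mem_coe, Subgroup.normal_mul] at hz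
  obtain ⟨a, ha, b, hb, rfl⟩ := hz
  have : x * (a * b) * x⁻¹ = (x * a * x⁻¹) * (x * b * x⁻¹) := by group
  show x * (a * b) * x⁻¹ ∈ _
  rw [this]
  exact Subgroup.mul_mem _ (Subgroup.mem_sup_left (Subgroup.Normal.conj_mem inferInstance a ha x))
    (Subgroup.mem_sup_right (h b hb))

theorem star_of : ∀ n : ℕ, ∀ (G : Type u) [Group G] [Finite G], Nat.card G = n → Group.IsSolvable G →
    Hyp G → Star G := by
  intro n
  induction n using Nat.strong_induction_on with
  | _ n ih =>
  intro G _ _ hn hs hH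
  classical
  rcases subsingleton_or_nontrivial G with hsub | hnt
  · refine ⟨⊥, ⊥, ⊤, inferInstance, inferInstance, inferInstance, le_rfl, bot_le, ?_, ⟨0, ?_⟩, ?_, ⟨0, ?_⟩⟩
    · simp
    · simp
    · simp
    · simp
  have hquot : ∀ (N : Subgroup G) [N.Normal], N ≠ ⊥ → Star (G ⧸ N) := by
    intro N hN hNb
    refine ih (Nat.card (G ⧸ N)) ?_ (G ⧸ N) rfl inferInstance (hyp_quot hH N)
    rw [← hn, ← Subgroup.index_eq_card]
    have h1 := N.card_mul_index
    have h2 : 1 < Nat.card N := by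
      rw [Subgroup.one_lt_card_iff_ne_bot]; exact hNb
    rw [← h1]
    exact lt_mul_of_one_lt_left (Nat.pos_of_ne_zero Subgroup.index_ne_zero_of_finite) h2
  by_cases hodd : ∃ N : Subgroup G, N.Normal ∧ N ≠ ⊥ ∧ Odd (Nat.card N)
  · obtain ⟨N, hN, hNb, hNo⟩ := hodd
    obtain ⟨A, B, C, hA, hB, hC, hAB, hBC, hAo, ⟨k, hk⟩, hBCo, ⟨l, hl⟩⟩ := hquot N hNb
    refine ⟨A.comap (QuotientGroup.mk' N), B.comap (QuotientGroup.mk' N), C.comap (QuotientGroup.mk' N),
      hA.comap _, hB.comap _, hC.comap _, Subgroup.comap_mono hAB, Subgroup.comap_mono hBC, ?_, ⟨k, ?_⟩, ?_, ⟨l, ?_⟩⟩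
    · rw [card_comap]; exact hNo.mul hAo
    · rw [relIndex_comap, hk]
    · rw [relIndex_comap]; exact hBCo
    · rw [Subgroup.index_comap_of_surjective C (QuotientGroup.mk'_surjective N), hl]
  have hnoodd : ∀ L : Subgroup G, L.Normal → Odd (Nat.card L) → L = ⊥ := by
    intro L hL hLo
    by_contra hne
    exact hodd ⟨L, hL, hne, hLo⟩
  obtain ⟨N, -, hNn, hNb, hmin⟩ := H73.SolvSmall.exists_minimal_normal (N := (⊤ : Subgroup G)) inferInstance
    (by
      intro h
      exact (Subgroup.nontrivial_iff_ne_bot (⊤ : Subgroup G)).1 inferInstance h)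
  obtain ⟨hNc, p, hp, hNp, hNe⟩ := H11.MinNormal.minimal_normal_abelian hs N hNb hmin
  have hp2 : p = 2 := by
    by_contra hne
    apply hNb
    apply hnoodd N hNn
    haveI : Fact p.Prime := ⟨hp⟩
    obtain ⟨k, hk⟩ := IsPGroup.iff_card.mp hNp
    rw [hk]
    exact (hp.odd_of_ne_two hne).pow
  subst hp2
  obtain ⟨m, hm⟩ := IsPGroup.iff_card.mp hNp
  obtain ⟨A, B, C, hA, hB, hC, hAB, hBC, hAo, ⟨k, hk⟩, hBCo, ⟨l, hl⟩⟩ := hquot N hNb
  -- the Frattini type case
  have hcase : ((N ≤ Subgroup.center G) ∨ ∀ M : Subgroup G, IsCoatom M → N ≤ M) → Star G := by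
    intro hor
    have hrel : N.relIndex (A.comap (QuotientGroup.mk' N)) = Nat.card A := by
      have h3 : N = (⊥ : Subgroup (G ⧸ N)).comap (QuotientGroup.mk' N) := by
        rw [MonoidHom.comap_bot, QuotientGroup.ker_mk']
      nth_rewrite 1 [h3]
      rw [relIndex_comap, Subgroup.relIndex_bot_left]
    haveI := hA.comap (QuotientGroup.mk' N)
    obtain ⟨L, hLle, hdis, hsup, hLcard, hfr⟩ := H66.CopFrattini.exists_compl N (A.comap (QuotientGroup.mk' N))
      (le_comap N A) (by rw [hrel, hm]; exact Nat.Coprime.pow_left m (Nat.coprime_two_left.2 hAo)) inferInstance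
    have hnorm : Subgroup.normalizer (L : Set G) = ⊤ := by
      rcases hor with hc | hc
      · have : N ≤ Subgroup.normalizer (L : Set G) := hc.trans (Subgroup.center_le_normalizer _)
        rwa [sup_eq_right.2 this] at hfr
      · by_contra hne
        obtain ⟨M, hM, hle⟩ := (eq_top_or_exists_le_coatom (Subgroup.normalizer (L : Set G))).resolve_left hne
        have : (⊤ : Subgroup G) ≤ M := by
          rw [← hfr]; exact sup_le (hc M hM) hle
        exact hM.1 (top_le_iff.1 this)
    have hLn : L.Normal := Subgroup.normalizer_eq_top_iff.1 hnorm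
    have hLb : L = ⊥ := hnoodd L hLn (by rw [hLcard, hrel]; exact hAo)
    have hAN : A.comap (QuotientGroup.mk' N) = N := by rw [← hsup, hLb, sup_bot_eq]
    refine ⟨⊥, B.comap (QuotientGroup.mk' N), C.comap (QuotientGroup.mk' N), inferInstance,
      hB.comap _, hC.comap _, bot_le, Subgroup.comap_mono hBC, by simp, ⟨m + k, ?_⟩, ?_, ⟨l, ?_⟩⟩
    · have h1 : A = ⊥ := by
        have : Nat.card N * Nat.card A = Nat.card N := by rw [← card_comap, hAN]
        have h2 : Nat.card A = 1 := by
          have := Nat.eq_of_mul_eq_mul_left (Nat.card_pos (α := N)) (this.trans (mul_one _).symm)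
          exact this
        exact Subgroup.card_eq_one.1 h2
      rw [Subgroup.relIndex_bot_left, card_comap, hm, pow_add, ← hk, h1, Subgroup.relIndex_bot_left]
    · rw [relIndex_comap]; exact hBCo
    · rw [Subgroup.index_comap_of_surjective C (QuotientGroup.mk'_surjective N), hl]
  by_cases hall : ∀ M : Subgroup G, IsCoatom M → N ≤ M
  · exact hcase (Or.inr hall)
  push Not at hall
  obtain ⟨M, hM, hNM⟩ := hall
  have hsup : N ⊔ M = ⊤ := by
    rw [sup_comm]
    exact hM.2 _ (lt_of_le_of_ne le_sup_left (fun h => hNM (sup_eq_left.1 h.symm)))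
  have hNcomm : ∀ a ∈ N, ∀ b ∈ N, a * b = b * a := by
    intro a ha b hb
    have := hNc.is_comm.comm (⟨a, ha⟩ : N) ⟨b, hb⟩
    exact congrArg Subtype.val this
  have hinf : N ⊓ M = ⊥ := by
    have hn1 : (N ⊓ M).Normal := by
      rw [← Subgroup.normalizer_eq_top_iff, eq_top_iff, ← hsup]
      refine sup_le ?_ ?_
      · intro x hx
        rw [Subgroup.mem_normalizer_iff]
        intro z
        have key : ∀ y ∈ N, ∀ w ∈ N ⊓ M, y * w * y⁻¹ = w := by
          intro y hy w hw
          rw [hNcomm y hy w hw.1]; group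
        constructor
        · intro hz; rw [key x hx z hz]; exact hz
        · intro hz
          have := key x⁻¹ (N.inv_mem hx) _ hz
          have h2 : x⁻¹ * (x * z * x⁻¹) * x⁻¹⁻¹ = z := by group
          rw [h2] at this
          rw [this]; exact hz
      · intro x hx
        rw [Subgroup.mem_normalizer_iff]
        intro z
        constructor
        · intro hz
          exact ⟨hNn.conj_mem z hz.1 x, M.mul_mem (M.mul_mem hx hz.2) (M.inv_mem hx)⟩
        · intro hz
          have h2 : z = x⁻¹ * (x * z * x⁻¹) * x⁻¹⁻¹ := by group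
          rw [h2]
          exact ⟨hNn.conj_mem _ hz.1 _, M.mul_mem (M.mul_mem (M.inv_mem hx) hz.2) (M.inv_mem (M.inv_mem hx))⟩
    rcases hmin _ hn1 inf_le_left with h | h
    · exact h
    · exact absurd (inf_eq_left.1 h) hNM
  have hcardNM : Nat.card N * Nat.card M = Nat.card G := by
    rw [← H66.CopFrattini.card_normal_sup N M hinf, hsup, Subgroup.card_top]
  have hidx : M.index = Nat.card N := by
    have h1 := M.index_mul_card
    rw [← hcardNM] at h1
    exact Nat.eq_of_mul_eq_mul_right Nat.card_pos h1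
  rcases hH M hM with ⟨K, hK, hK2, j, hj⟩ | hprime
  · -- `M` has a normal 2-complement
    set K' := K.map M.subtype with hK'
    have hK'M : K' ≤ M := by rintro _ ⟨z, -, rfl⟩; exact z.2
    have hcK : Nat.card K' = Nat.card K := Subgroup.card_map_of_injective (Subgroup.subtype_injective M)
    have hdis : N ⊓ K' = ⊥ := by
      rw [eq_bot_iff, ← hinf]; exact inf_le_inf_left N hK'M
    have hcC : Nat.card (N ⊔ K' : Subgroup G) = Nat.card N * Nat.card K := by
      rw [H66.CopFrattini.card_normal_sup N K' hdis, hcK]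
    have hCn : (N ⊔ K').Normal := by
      rw [← Subgroup.normalizer_eq_top_iff, eq_top_iff, ← hsup]
      refine sup_le (le_sup_left.trans Subgroup.le_normalizer) ?_
      intro x hx
      refine H66norm N K' x ?_
      rintro _ ⟨z, hz, rfl⟩
      exact ⟨⟨x, hx⟩ * z * ⟨x, hx⟩⁻¹, hK.conj_mem z hz ⟨x, hx⟩, by simp⟩
    refine ⟨⊥, N, N ⊔ K', inferInstance, hNn, hCn, bot_le, le_sup_left, by simp, ⟨m, ?_⟩, ?_, ⟨j, ?_⟩⟩
    · rw [Subgroup.relIndex_bot_left, hm]
    · have h1 := Subgroup.relIndex_mul_relIndex (⊥ : Subgroup G) N (N ⊔ K') bot_le le_sup_left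
      rw [Subgroup.relIndex_bot_left, Subgroup.relIndex_bot_left, hcC] at h1
      rw [Nat.eq_of_mul_eq_mul_left Nat.card_pos h1]
      exact Nat.not_even_iff_odd.1 (fun h => hK2 h.two_dvd)
    · have h1 := (N ⊔ K').card_mul_index
      rw [hcC, ← hcardNM, ← K.card_mul_index, ← mul_assoc] at h1
      rw [Nat.eq_of_mul_eq_mul_left (Nat.mul_pos Nat.card_pos Nat.card_pos) h1, hj]
  · -- prime index : `N` has order 2, central
    apply hcase
    left
    rw [hidx, hm] at hprime
    have hm1 : m = 1 := by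
      rcases Nat.lt_trichotomy m 1 with h | h | h
      · have : m = 0 := by omega
        subst this
        exact absurd hprime (by norm_num)
      · exact h
      · exact absurd hprime (Nat.Prime.not_prime_pow h)
    have hN2 : Nat.card N = 2 := by rw [hm, hm1, pow_one]
    intro x hx
    rw [Subgroup.mem_center_iff]
    intro g
    by_cases hx1 : x = 1
    · rw [hx1]; simp
    · have h1 : g * x * g⁻¹ ∈ N := hNn.conj_mem x hx g
      have h2 : g * x * g⁻¹ ≠ 1 := by
        intro h
        apply hx1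
        have : x = g⁻¹ * (g * x * g⁻¹) * g := by group
        rw [this, h]; group
      have key : ∀ y z : N, y ≠ 1 → z ≠ 1 → y = z := by
        obtain ⟨w, hw, hw2⟩ := (Nat.card_eq_two_iff' (1 : N)).1 hN2
        intro y z hy hz
        rw [hw2 y hy, hw2 z hz]
      have h3 := key ⟨g * x * g⁻¹, h1⟩ ⟨x, hx⟩ (fun h => h2 (congrArg Subtype.val h))
        (fun h => hx1 (congrArg Subtype.val h))
      have h4 : g * x * g⁻¹ = x := congrArg Subtype.val h3
      calc g * x = (g * x * g⁻¹) * g := by group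
        _ = x * g := by rw [h4]

/-- Let G be a finite solvable group in which every maximal subgroup either has a normal 2-complement or has prime index. Then G has a chain of normal subgroups 1 ≤ A ≤ B ≤ C ≤ G in which A and C/B have odd order and B/A and G/C are 2-groups (so the 2-length of G is at most 2). -/
theorem result {G : Type*} [Group G] [Finite G]
    (hG : Group.IsSolvable G)
    (hmax : ∀ M : Subgroup G, IsCoatom M → (∃ K : Subgroup ↥M, K.Normal ∧ ¬ 2 ∣ Nat.card K ∧ ∃ k : ℕ, K.index = 2 ^ k) ∨ (M.index).Prime) :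
    ∃ A B C : Subgroup G, A.Normal ∧ B.Normal ∧ C.Normal ∧ A ≤ B ∧ B ≤ C ∧ Odd (Nat.card A) ∧
      (∃ k : ℕ, A.relIndex B = 2 ^ k) ∧ Odd (B.relIndex C) ∧ ∃ k : ℕ, C.index = 2 ^ k :=
  star_of _ G rfl hG hmax

end Cfsg.Agent.S4378
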