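import Cfsg.Statements.S4381
import Mathlib
import Cfsg.Agent.Lib.H76.Maschke
import Cfsg.Agent.Lib.H1.Coprime2
import Cfsg.Agent.Lib.H1.Frat

set_option autoImplicit false
open Pointwise
open Cfsg

namespace Cfsg.Agent.S4381

open Subgroup H76.Maschke

section
variable {A G : Type*} [Group A] [Finite A] [Group G] [Finite G] [MulDistribMulAction A G]

/-- maximal invariant -/
def MI (A : Type*) {G : Type*} [Group A] [Group G] [MulDistribMulAction A G] (M : Subgroup G) : Prop :=
  M ≠ ⊤ ∧ (∀ a : A, ∀ x ∈ M, a • x ∈ M) ∧ ∀ L : Subgroup G, M < L → (∀ a : A, ∀ x ∈ L, a • x ∈ L) → L = ⊤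

theorem exists_MI (L : Subgroup G) (hL : ∀ a : A, ∀ x ∈ L, a • x ∈ L) (hLt : L ≠ ⊤) :
    ∃ M : Subgroup G, L ≤ M ∧ MI A M := by
  obtain ⟨M, ⟨hLM, hM, hMt⟩, hmax⟩ := (Set.toFinite {M : Subgroup G | L ≤ M ∧ (∀ a : A, ∀ x ∈ M, a • x ∈ M) ∧ M ≠ ⊤}).exists_maximal
    ⟨L, le_rfl, hL, hLt⟩
  refine ⟨M, hLM, hMt, hM, ?_⟩
  intro N hMN hN
  by_contra hNt
  exact not_le_of_gt hMN (hmax ⟨hLM.trans hMN.le, hN, hNt⟩ hMN.le)

theorem frattini_inv (a : A) (x : G) (hx : x ∈ frattini G) : a • x ∈ frattini G := by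
  have h := characteristic_iff_map_eq.mp (frattini_characteristic (G := G)) (MulDistribMulAction.toMulEquiv G a)
  rw [← h]
  exact ⟨x, hx, rfl⟩

/-- an invariant Sylow subgroup -/
theorem exists_inv_sylow (hcop : (Nat.card A).Coprime (Nat.card G))
    (hsol : Group.IsSolvable A ∨ Group.IsSolvable G) (p : ℕ) [hp : Fact p.Prime] :
    ∃ P : Subgroup G, (∀ a : A, ∀ x ∈ P, a • x ∈ P) ∧ IsPGroup p P ∧ ¬ p ∣ P.index := by
  set K := (SemidirectProduct.inl : G →* SD A G).range with hK
  set A' := (SemidirectProduct.inr : A →* SD A G).range with hA'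
  have hKc : Nat.card K = Nat.card G :=
    (Nat.card_congr (MonoidHom.ofInjective (SemidirectProduct.inl_injective (φ := MulDistribMulAction.toMulAut A G))).toEquiv).symm
  have hAc : Nat.card A' = Nat.card A :=
    (Nat.card_congr (MonoidHom.ofInjective (SemidirectProduct.inr_injective (φ := MulDistribMulAction.toMulAut A G))).toEquiv).symm
  have hKn : K.Normal := by
    rw [hK, SemidirectProduct.range_inl_eq_ker_rightHom]; infer_instance
  obtain ⟨S, hS, hSA⟩ := H1.Coprime2.exists_invariant_sylow A' K (by rw [normalizer_eq_top]; exact le_top)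
    (by rw [hKc, hAc]; exact hcop) (by
      rcases hsol with h | h
      · left
        exact Group.isSolvable_of_surjective (f := (SemidirectProduct.inr : A →* SD A G).rangeRestrict)
          (MonoidHom.rangeRestrict_surjective _)
      · right
        exact Group.isSolvable_of_surjective (f := (SemidirectProduct.inl : G →* SD A G).rangeRestrict)
          (MonoidHom.rangeRestrict_surjective _)) p
  obtain ⟨hSK, hSc⟩ := hS
  set P := S.comap (SemidirectProduct.inl : G →* SD A G) with hP
  have hPS : P.map (SemidirectProduct.inl : G →* SD A G) = S := by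
    rw [hP, map_comap_eq, ← hK, inf_eq_right.mpr hSK]
  have hPc : Nat.card P = p ^ (Nat.card G).factorization p := by
    rw [← hKc, ← hSc, ← hPS, card_map_of_injective SemidirectProduct.inl_injective]
  refine ⟨P, ?_, IsPGroup.of_card hPc, ?_⟩
  · rw [← range_inr_le_normalizer_iff, hPS]; exact hSA
  · intro hd
    have h1 := P.card_mul_index
    obtain ⟨c, hc⟩ := hd
    have h2 : p ^ ((Nat.card G).factorization p + 1) ∣ Nat.card G := by
      rw [hPc, hc] at h1
      exact ⟨c, by rw [pow_succ, mul_assoc]; exact h1.symm⟩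
    exact Nat.pow_succ_factorization_not_dvd Nat.card_pos.ne' hp.out h2

/-- invariant complement modulo the Frattini subgroup -/
theorem exists_inv_compl (hcop : (Nat.card A).Coprime (Nat.card G)) {p : ℕ} [hp : Fact p.Prime] (hG : IsPGroup p G)
    (M : Subgroup G) (hM : ∀ a : A, ∀ x ∈ M, a • x ∈ M) (hFM : frattini G ≤ M) :
    ∃ N : Subgroup G, (∀ a : A, ∀ x ∈ N, a • x ∈ N) ∧ M ⊔ N = ⊤ ∧ M ⊓ N = frattini G := by
  have hnil := hG.isNilpotent
  have hMn : M.Normal := Subgroup.Normal.of_commutator_le _ (H1.Frat.commutator_le_frattini.trans hFM)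
  set F := (frattini G).map (SemidirectProduct.inl : G →* SD A G) with hF
  have hFn : F.Normal := normal_map_inl _ (fun a x hx => frattini_inv a x hx)
  set mk := QuotientGroup.mk' F with hmk
  have hmks : Function.Surjective mk := QuotientGroup.mk'_surjective F
  set π : G →* (SD A G ⧸ F) := mk.comp SemidirectProduct.inl with hπ
  have hker : ∀ x, π x = 1 ↔ x ∈ frattini G := by
    intro x
    rw [hπ, MonoidHom.comp_apply, hmk, QuotientGroup.mk'_apply, QuotientGroup.eq_one_iff]
    constructor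
    · rintro ⟨y, hy, hyx⟩
      rw [← SemidirectProduct.inl_injective hyx]; exact hy
    · intro hx; exact ⟨x, hx, rfl⟩
  set V := π.range with hV
  have hVe : V = ((SemidirectProduct.inl : G →* SD A G).range).map mk := by
    rw [hV, hπ, MonoidHom.range_comp]
  have hKn : ((SemidirectProduct.inl : G →* SD A G).range).Normal := by
    rw [SemidirectProduct.range_inl_eq_ker_rightHom]; infer_instance
  have hVn : V.Normal := by rw [hVe]; exact hKn.map _ hmks
  set W := M.map π with hW
  have hWe : W = (M.map (SemidirectProduct.inl : G →* SD A G)).map mk := by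
    rw [hW, hπ, ← map_map]
  have hWn : W.Normal := by rw [hWe]; exact (normal_map_inl M hM).map _ hmks
  have hWV : W ≤ V := by rw [hW, hV]; exact map_le_range π M
  have hVc : ∀ a ∈ V, ∀ b ∈ V, a * b = b * a := by
    rintro _ ⟨a, rfl⟩ _ ⟨b, rfl⟩
    have h1 : π (a * b * a⁻¹ * b⁻¹) = 1 := by
      rw [hker]
      exact H1.Frat.commutator_le_frattini (commutator_mem_commutator (mem_top a) (mem_top b))
    rw [map_mul, map_mul, map_mul, map_inv, map_inv, mul_inv_eq_one, mul_inv_eq_iff_eq_mul] at h1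
    exact h1
  have hVp : ∀ a ∈ V, a ^ p = 1 := by
    rintro _ ⟨a, rfl⟩
    rw [← map_pow, hker]
    exact H1.Frat.pow_mem_frattini hG a
  have hidx : V.index ∣ Nat.card A := by
    rw [hVe, ← index_range_inl (A := A) (G := G)]
    exact index_map_dvd _ hmks
  obtain ⟨U, hUn, hUV, hUW, hWU⟩ := exists_normal_compl V W hWV hVc hVp (by
    apply Nat.Coprime.coprime_dvd_right hidx
    apply Nat.Coprime.coprime_dvd_left _ hcop.symm
    rw [hW]
    exact (card_map_dvd M π).trans (card_subgroup_dvd_card M))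
  refine ⟨U.comap π, ?_, ?_, ?_⟩
  · intro a x hx
    rw [mem_comap] at hx ⊢
    have h1 := hUn.conj_mem _ hx (mk (SemidirectProduct.inr a))
    have h2 : mk (SemidirectProduct.inr a) * π x * (mk (SemidirectProduct.inr a))⁻¹ = π (a • x) := by
      rw [hπ, MonoidHom.comp_apply, MonoidHom.comp_apply, ← conj_inr, map_mul, map_mul, map_inv]
    rwa [h2] at h1
  · rw [eq_top_iff]
    intro x _
    have h1 : π x ∈ W ⊔ U := by rw [hWU]; exact ⟨x, rfl⟩
    obtain ⟨w, hw, u, hu, hwu⟩ := mem_sup_of_normal_left.mp h1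
    obtain ⟨m, hm, rfl⟩ := hw
    have h2 : m⁻¹ * x ∈ U.comap π := by
      rw [mem_comap, map_mul, map_inv, ← hwu]
      have : (π m)⁻¹ * (π m * u) = u := by group
      rw [this]; exact hu
    have h3 : x = m * (m⁻¹ * x) := by group
    rw [h3]
    exact mul_mem (mem_sup_left hm) (mem_sup_right h2)
  · apply le_antisymm
    · intro x hx
      have h1 : π x ∈ U ⊓ W := ⟨hx.2, ⟨x, hx.1, rfl⟩⟩
      rw [hUW, mem_bot, hker] at h1
      exact h1
    · intro x hx
      refine ⟨hFM hx, ?_⟩
      show π x ∈ U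
      rw [(hker x).mpr hx]; exact one_mem _

theorem eq_frattini {M : Subgroup G} (hM : MI A M)
    (h : ∀ L : Subgroup G, frattini G < L → (∀ a : A, ∀ x ∈ L, a • x ∈ L) → L = ⊤) : M = frattini G := by
  obtain ⟨hMt, hMi, hMm⟩ := hM
  have hle : frattini G ≤ M := by
    by_contra hnot
    have h1 : M < M ⊔ frattini G := lt_of_le_of_ne le_sup_left (fun h => hnot (h ▸ le_sup_right))
    have h2 := hMm _ h1 (by
      intro a x hx
      obtain ⟨m, hm, f, hf, rfl⟩ := mem_sup_of_normal_right.mp hx
      rw [smul_mul']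
      exact mul_mem (mem_sup_left (hMi a m hm)) (mem_sup_right (frattini_inv a f hf)))
    exact hMt (frattini_nongenerating h2)
  by_contra hne
  exact hMt (h M (lt_of_le_of_ne hle (Ne.symm hne)) hMi)

end

/-- Let the finite group A act by automorphisms on the finite group G with the orders of A and G coprime, and assume that A or G is solvable. Call a proper A-invariant subgroup of G maximal A-invariant when no A-invariant subgroup lies strictly between it and G. Then all maximal A-invariant subgroups of G are conjugate under elements of the fixed-point subgroup C_G(A) if and only if G is a p-group for some prime p and A leaves invariant no subgroup strictly between the Frattini subgroup of G and G. In that case, if G is nontrivial, the Frattini subgroup is the only maximal A-invariant subgroup (a trivial G has none). -/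
theorem result {A G : Type*} [Group A] [Finite A]
    [Group G] [Finite G] [MulDistribMulAction A G] (hcop : (Nat.card A).Coprime (Nat.card G)) (hsol : Group.IsSolvable A ∨ Group.IsSolvable G) :
    ((∀ M N : Subgroup G, (M ≠ ⊤ ∧ (∀ a : A, ∀ x ∈ M, a • x ∈ M) ∧ ∀ L : Subgroup G, M < L → (∀ a : A, ∀ x ∈ L, a • x ∈ L) → L = ⊤) → (N ≠ ⊤ ∧ (∀ a : A, ∀ x ∈ N, a • x ∈ N) ∧ ∀ L : Subgroup G, N < L → (∀ a : A, ∀ x ∈ L, a • x ∈ L) → L = ⊤) →
        ∃ c : G, (∀ a : A, a • c = c) ∧ N = MulAut.conj c • M) ↔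
      ((∃ p : ℕ, p.Prime ∧ IsPGroup p G) ∧ ∀ L : Subgroup G, frattini G < L → (∀ a : A, ∀ x ∈ L, a • x ∈ L) → L = ⊤)) ∧
    (((∃ p : ℕ, p.Prime ∧ IsPGroup p G) ∧ ∀ L : Subgroup G, frattini G < L → (∀ a : A, ∀ x ∈ L, a • x ∈ L) → L = ⊤) →
      ∀ M : Subgroup G, (M ≠ ⊤ ∧ (∀ a : A, ∀ x ∈ M, a • x ∈ M) ∧ ∀ L : Subgroup G, M < L → (∀ a : A, ∀ x ∈ L, a • x ∈ L) → L = ⊤) ↔ (M = frattini G ∧ M ≠ ⊤)) := by
  refine ⟨⟨?_, ?_⟩, ?_⟩
  · intro hconj
    by_cases htriv : Subsingleton G
    · refine ⟨⟨2, Nat.prime_two, ?_⟩, ?_⟩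
      · intro g; exact ⟨0, Subsingleton.elim _ _⟩
      · intro L _ _; exact Subsingleton.elim _ _
    rw [not_subsingleton_iff_nontrivial] at htriv
    have hpg : ∃ p : ℕ, p.Prime ∧ IsPGroup p G := by
      by_contra hcon
      push Not at hcon
      obtain ⟨M, _, hM⟩ := exists_MI (A := A) (⊥ : Subgroup G) (by
        intro a x hx; rw [mem_bot] at hx ⊢; rw [hx, smul_one]) bot_ne_top
      have hidx : M.index = 1 := by
        by_contra hne
        obtain ⟨p, hp, hpd⟩ := Nat.exists_prime_and_dvd hne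
        haveI : Fact p.Prime := ⟨hp⟩
        obtain ⟨P, hPi, hPp, hPd⟩ := exists_inv_sylow (A := A) hcop hsol p
        have hPt : P ≠ ⊤ := by
          rintro rfl
          exact hcon p hp (hPp.of_equiv topEquiv)
        obtain ⟨M', hPM', hM'⟩ := exists_MI (A := A) P hPi hPt
        obtain ⟨c, _, hc⟩ := hconj M M' hM hM'
        have h1 : M'.index = M.index := by
          rw [hc]
          have h2 : Nat.card (MulAut.conj c • M : Subgroup G) = Nat.card M := H1.SZ.card_conj_smul c M
          have h3 := M.card_mul_index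
          have h4 := (MulAut.conj c • M : Subgroup G).card_mul_index
          rw [h2, ← h3] at h4
          exact Nat.eq_of_mul_eq_mul_left Nat.card_pos h4
        rw [← h1] at hpd
        exact hPd (hpd.trans (index_dvd_of_le hPM'))
      exact hM.1 (index_eq_one.mp hidx)
    refine ⟨hpg, ?_⟩
    obtain ⟨p, hp, hG⟩ := hpg
    haveI : Fact p.Prime := ⟨hp⟩
    have hnil := hG.isNilpotent
    intro L hFL hL
    by_contra hLt
    obtain ⟨M, hLM, hM⟩ := exists_MI (A := A) L hL hLt
    have hFM : frattini G ≤ M := hFL.le.trans hLM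
    have hMn : M.Normal := Subgroup.Normal.of_commutator_le _ (H1.Frat.commutator_le_frattini.trans hFM)
    obtain ⟨N, hN, hMN, hMN'⟩ := exists_inv_compl (A := A) hcop hG M hM.2.1 hFM
    have hNt : N ≠ ⊤ := by
      rintro rfl
      rw [inf_top_eq] at hMN'
      rw [hMN'] at hLM
      exact not_le_of_gt hFL hLM
    obtain ⟨N', hNN', hN'⟩ := exists_MI (A := A) N hN hNt
    obtain ⟨c, _, hc⟩ := hconj M N' hM hN'
    have h1 : N' = M := by
      rw [hc]
      exact H1.SZ.conj_smul_eq_of_mem_normalizer (by rw [normalizer_eq_top]; exact mem_top _)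
    rw [h1] at hNN'
    apply hM.1
    rw [← hMN]
    exact (sup_eq_left.mpr hNN').symm
  · rintro ⟨_, h⟩ M N hM hN
    refine ⟨1, fun a => smul_one a, ?_⟩
    rw [map_one, one_smul, eq_frattini (A := A) hM h, eq_frattini (A := A) hN h]
  · rintro ⟨_, h⟩ M
    constructor
    · intro hM
      exact ⟨eq_frattini (A := A) hM h, hM.1⟩
    · rintro ⟨rfl, hMt⟩
      exact ⟨hMt, fun a x hx => frattini_inv a x hx, h⟩

end Cfsg.Agent.S4381
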