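import Cfsg.Statements.S4383
import Cfsg.Agent.Lib.H76.TwoMax2

set_option autoImplicit false
open Pointwise
open Cfsg

namespace Cfsg.Agent.S4383

/-- A finite group with exactly two conjugacy classes of maximal subgroups is solvable and its order has exactly two prime divisors. -/
theorem result {G : Type*} [Group G] [Finite G]
    (M₁ M₂ : Subgroup G) (h1 : IsCoatom M₁) (h2 : IsCoatom M₂) (hne : ∀ g : G, M₂ ≠ MulAut.conj g • M₁)
    (hall : ∀ M : Subgroup G, IsCoatom M → ∃ g : G, M = MulAut.conj g • M₁ ∨ M = MulAut.conj g • M₂) :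
    Group.IsSolvable G ∧ (Nat.card G).primeFactors.card = 2 := by
  have hsol : Group.IsSolvable G := H76.TwoMax.solv _ rfl ⟨M₁, M₂, hall⟩
  refine ⟨hsol, ?_⟩
  have hle : (Nat.card G).primeFactors ⊆ {M₁.index.minFac, M₂.index.minFac} := by
    intro p hp
    obtain ⟨M, hM, hMp⟩ := H76.TwoMax.exists_coatom_prime_power_index (G := G)
      (Nat.prime_of_mem_primeFactors hp) (Nat.dvd_of_mem_primeFactors hp)
    rw [Finset.mem_insert, Finset.mem_singleton]
    obtain ⟨g, rfl | rfl⟩ := hall M hM
    · left
      rw [← hMp, H76.TwoMax.index_conj]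
    · right
      rw [← hMp, H76.TwoMax.index_conj]
  have h2' : (Nat.card G).primeFactors.card ≤ 2 :=
    (Finset.card_le_card hle).trans Finset.card_le_two
  have h0 : (Nat.card G).primeFactors.card ≠ 0 := by
    intro h0
    rw [Finset.card_eq_zero, Nat.primeFactors_eq_empty] at h0
    rcases h0 with h0 | h0
    · exact Nat.card_pos.ne' h0
    · have : Subsingleton G := (Nat.card_eq_one_iff_unique.1 h0).1
      exact h1.1 (Subsingleton.elim _ _)
  have h1' : (Nat.card G).primeFactors.card ≠ 1 := by
    intro h1'
    obtain ⟨p, hp⟩ := Finset.card_eq_one.1 h1'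
    have hpp : p ∈ (Nat.card G).primeFactors := by rw [hp]; exact Finset.mem_singleton_self p
    have hprime := Nat.prime_of_mem_primeFactors hpp
    have hG : IsPGroup p G := by
      apply IsPGroup.of_card (n := (Nat.card G).factorization p)
      have h3 := Nat.prod_factorization_pow_eq_self (n := Nat.card G) Nat.card_pos.ne'
      rw [Finsupp.prod, Nat.support_factorization, hp, Finset.prod_singleton] at h3
      exact h3.symm
    exact H76.TwoMax.not_pgroup hprime hG M₁ M₂ h1 h2 hne hall
  omega

end Cfsg.Agent.S4383
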