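import Cfsg.Statements.S4387
import Mathlib
import Cfsg.Agent.Lib.H76.ConjCover

set_option autoImplicit false
open Pointwise
open Cfsg

namespace Cfsg.Agent.S4387

/-- Let G be a non-trivial finite group in which any two maximal subgroups are conjugate. Then G is cyclic of prime-power order. -/
theorem result {G : Type*} [Group G] [Finite G] [Nontrivial G]
    (h : ∀ M N : Subgroup G, IsCoatom M → IsCoatom N → ∃ g : G, N = MulAut.conj g • M) :
    IsCyclic G ∧ IsPrimePow (Nat.card G) := by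
  have hcyc : IsCyclic G := by
    by_contra hnc
    obtain ⟨M, hM, -⟩ : ∃ M : Subgroup G, IsCoatom M ∧ (⊥ : Subgroup G) ≤ M := by
      rcases eq_top_or_exists_le_coatom (⊥ : Subgroup G) with h1 | h1
      · exact absurd h1 bot_ne_top
      · exact h1
    obtain ⟨g, hg⟩ := H76.ConjCover.exists_forall_conj_notMem M hM.1
    have hz : Subgroup.zpowers g ≠ ⊤ := by
      intro h1
      exact hnc ⟨g, fun x => Subgroup.mem_zpowers_iff.1 (by rw [h1]; trivial)⟩
    rcases eq_top_or_exists_le_coatom (Subgroup.zpowers g) with h1 | ⟨N, hN, h1⟩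
    · exact hz h1
    · obtain ⟨x, hx⟩ := h M N hM hN
      have h2 : g ∈ N := h1 (Subgroup.mem_zpowers g)
      rw [hx, Subgroup.mem_pointwise_smul_iff_inv_smul_mem, ← map_inv, MulAut.smul_def, MulAut.conj_apply, inv_inv] at h2
      exact hg x h2
  refine ⟨hcyc, ?_⟩
  rw [isPrimePow_iff_unique_prime_dvd]
  have hcard : 1 < Nat.card G := Finite.one_lt_card
  obtain ⟨g, hg⟩ := hcyc.exists_generator
  have hord : orderOf g = Nat.card G := orderOf_eq_card_of_forall_mem_zpowers hg
  have key : ∀ p : ℕ, p.Prime → p ∣ Nat.card G → ∃ M : Subgroup G, IsCoatom M ∧ Nat.card M * p = Nat.card G := by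
    intro p hp hpd
    have h1 : Nat.card (Subgroup.zpowers (g ^ p)) * p = Nat.card G := by
      rw [Nat.card_zpowers, orderOf_pow, hord, Nat.gcd_eq_right hpd]
      exact Nat.div_mul_cancel hpd
    refine ⟨Subgroup.zpowers (g ^ p), ?_, h1⟩
    apply H76.ConjCover.isCoatom_of_index_prime
    have h2 := Subgroup.card_mul_index (Subgroup.zpowers (g ^ p))
    rw [← h1] at h2
    have h3 : 0 < Nat.card (Subgroup.zpowers (g ^ p)) := Nat.card_pos
    rw [Nat.eq_of_mul_eq_mul_left h3 h2]
    exact hp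
  refine ⟨(Nat.card G).minFac, ⟨Nat.minFac_prime hcard.ne', Nat.minFac_dvd _⟩, ?_⟩
  rintro q ⟨hq, hqd⟩
  obtain ⟨M, hM, hM1⟩ := key _ (Nat.minFac_prime hcard.ne') (Nat.minFac_dvd _)
  obtain ⟨N, hN, hN1⟩ := key q hq hqd
  obtain ⟨x, hx⟩ := h M N hM hN
  have h2 : Nat.card N = Nat.card M := by
    rw [hx]
    exact (Nat.card_congr (Subgroup.equivSMul (MulAut.conj x) M).toEquiv).symm
  rw [h2, ← hM1] at hN1
  have h3 : 0 < Nat.card M := Nat.card_pos
  rw [hM1] at hN1
  rw [← hM1] at hN1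
  exact Nat.eq_of_mul_eq_mul_left h3 (by rw [hN1, hM1])

end Cfsg.Agent.S4387
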