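import Cfsg.Statements.S4396
import Mathlib
import Cfsg.Agent.Lib.H76.FreeNil

set_option autoImplicit false
open Cfsg

open scoped Pointwise

namespace Cfsg.Agent.S4396

/-- Let the finite group A act faithfully and linearly on a finite-dimensional vector space V over a field k, and suppose A is a Frobenius group with nilpotent kernel F (every Frobenius kernel is nilpotent) and complement H such that F fixes no nonzero vector. Then V is free as a module for H: there is a subspace W with V the direct sum of the translates hW, h ∈ H. (No assumption on the characteristic of k.) -/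
theorem result {k V A : Type*} [Field k] [AddCommGroup V] [Module k V] [FiniteDimensional k V] [Group A] [Finite A] [DecidableEq A]
    (ρ : Representation k A V) (hρ : Function.Injective ρ)
    (Fk Hc : Subgroup A) [Fk.Normal] (hHc : Cfsg.IsFrobeniusComplement Hc) (hker : Cfsg.frobeniusKernel Hc = (Fk : Set A)) (hnil : Group.IsNilpotent ↥Fk)
    (hCF : ∀ v : V, (∀ f ∈ Fk, ρ f v = v) → v = 0) :
    ∃ W : Submodule k V, DirectSum.IsInternal (fun h : ↥Hc => W.map (ρ (h : A))) := by
  have : Fintype Hc := Fintype.ofFinite Hc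
  let act : MulDistribMulAction Hc Fk :=
    MulDistribMulAction.compHom Fk ((MulAut.conjNormal (H := Fk)).comp Hc.subtype)
  have hact : ∀ (h : Hc) (x : Fk), ((h • x : Fk) : A) = h * x * (h : A)⁻¹ := fun h x =>
    MulAut.conjNormal_apply (h : A) x
  have hfree : ∀ h : Hc, h ≠ 1 → ∀ x : Fk, h • x = x → x = 1 := by
    intro h hh x hx
    by_contra hx1
    have h1 : (x : A) ∈ Cfsg.frobeniusKernel Hc := by rw [hker]; exact x.2
    have h2 : (x : A) ∉ Hc := by
      rcases h1 with h1 | h1
      · exact absurd (Subtype.ext h1) hx1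
      · have := h1 1
        rwa [map_one, one_smul] at this
    have h3 := hHc.2.2 (x : A) h2
    apply hh
    have h4 : (h : A) ∈ Hc ⊓ (MulAut.conj (x : A) • Hc) := by
      refine Subgroup.mem_inf.2 ⟨h.2, ?_⟩
      rw [Subgroup.mem_pointwise_smul_iff_inv_smul_mem]
      have h5 : (h : A) * x * (h : A)⁻¹ = x := by rw [← hact, hx]
      have h6 : (MulAut.conj (x : A))⁻¹ • (h : A) = h := by
        rw [← map_inv, MulAut.smul_def, MulAut.conj_apply, inv_inv]
        rw [mul_inv_eq_iff_eq_mul] at h5
        rw [mul_assoc, h5, inv_mul_cancel_left]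
      rw [h6]
      exact h.2
    rw [h3, Subgroup.mem_bot] at h4
    exact Subtype.ext h4
  have hT : ∀ (h : Hc) (x : Fk) (v : V), (ρ.comp Hc.subtype) h ((ρ.comp Fk.subtype) x v) =
      (ρ.comp Fk.subtype) (h • x) ((ρ.comp Hc.subtype) h v) := by
    intro h x v
    show ρ (h : A) (ρ (x : A) v) = ρ ((h • x : Fk) : A) (ρ (h : A) v)
    rw [hact, ← Module.End.mul_apply, ← Module.End.mul_apply, ← map_mul, ← map_mul,
      inv_mul_cancel_right]
  have hF := H76.FreeOp.free_nil (k := k) (F := Fk) (H := Hc) hfree (Module.finrank k V) V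
    (ρ.comp Fk.subtype) (ρ.comp Hc.subtype) hT rfl (fun v hv => hCF v (fun f hf => hv ⟨f, hf⟩))
  exact H76.FreeOp.exists_internal (ρ.comp Hc.subtype) hF

end Cfsg.Agent.S4396
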