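import Cfsg.Statements.S4398
import Mathlib
import Cfsg.Agent.Lib.H76.SecRank2

set_option autoImplicit false
open Cfsg

namespace Cfsg.Agent.S4398

/-- Let S be a finite 2-group of sectional 2-rank at most 2 that contains a subgroup isomorphic to the dihedral group of order 8 or to the quaternion group of order 8. Then S is dihedral of order at least 8, semidihedral of order at least 16 (order 2^(k+4) with an element a of order 2^(k+3) and an involution b with b a b⁻¹ = a^(2^(k+2)−1)), or generalized quaternion of order at least 8. -/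
theorem result {S : Type*} [Group S] [Finite S] (h2 : IsPGroup 2 S) (hr : Cfsg.SectionalPRankLE 2 2 S)
    (hsub : ∃ H : Subgroup S, Nonempty (↥H ≃* DihedralGroup 4) ∨ Nonempty (↥H ≃* QuaternionGroup 2)) :
    ((∃ k : ℕ, Nonempty (S ≃* DihedralGroup (2 ^ (k + 2)))) ∨
      (∃ k : ℕ, Nat.card S = 2 ^ (k + 4) ∧ ∃ a b : S, orderOf a = 2 ^ (k + 3) ∧ orderOf b = 2 ∧ b * a * b⁻¹ = a ^ (2 ^ (k + 2) - 1)) ∨
      (∃ k : ℕ, Nonempty (S ≃* QuaternionGroup (2 ^ (k + 1))))) := by
  obtain ⟨H, hH⟩ := hsub
  have hcard : Nat.card H = 8 := by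
    rcases hH with ⟨⟨e⟩⟩ | ⟨⟨e⟩⟩
    · rw [Nat.card_congr e.toEquiv, DihedralGroup.nat_card]
    · rw [Nat.card_congr e.toEquiv, Nat.card_eq_fintype_card, QuaternionGroup.card]
  have hna : ¬ IsMulCommutative H := by
    intro h
    rcases hH with ⟨⟨e⟩⟩ | ⟨⟨e⟩⟩
    · have h1 : ∀ x y : DihedralGroup 4, x * y = y * x := by
        intro x y
        apply e.symm.injective
        rw [map_mul, map_mul, h.is_comm.comm]
      exact absurd (h1 (DihedralGroup.r 1) (DihedralGroup.sr 0)) (by decide)
    · have h1 : ∀ x y : QuaternionGroup 2, x * y = y * x := by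
        intro x y
        apply e.symm.injective
        rw [map_mul, map_mul, h.is_comm.comm]
      exact absurd (h1 (QuaternionGroup.a 1) (QuaternionGroup.xa 0)) (by decide)
  obtain ⟨n, hn⟩ := IsPGroup.iff_card.1 h2
  have h4 : (commutator S).index = 4 :=
    H76.SecRank2.index_commutator_of_contains n S hn hr H
      (H76.SecRank2.index_commutator_of_card_eight hcard hna) hcard.ge
  have h8 : Nat.card S ≠ 4 := by
    have := Subgroup.card_subgroup_dvd_card H
    rw [hcard] at this
    intro h
    rw [h] at this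
    exact absurd (Nat.le_of_dvd (by norm_num) this) (by norm_num)
  rcases H76.MaxClass.trichotomy h2 h4 h8 with h | ⟨k, hk, a, b, ha, hb, hba, -, -⟩ | h
  · exact Or.inl h
  · exact Or.inr (Or.inl ⟨k, hk, a, b, ha, hb, hba⟩)
  · exact Or.inr (Or.inr h)

end Cfsg.Agent.S4398
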