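import Cfsg.Statements.S4399
import Mathlib
import Cfsg.Agent.Lib.H76.MaxClass

set_option autoImplicit false
open Cfsg

namespace Cfsg.Agent.S4399

/-- Let S be a finite 2-group whose commutator quotient S/[S,S] is a Klein four-group (order 4 and exponent 2). Then S itself has order 4, or S is dihedral of order at least 8, semidihedral of order at least 16 (order 2^(k+4) with an element a of order 2^(k+3) and an involution b with b a b⁻¹ = a^(2^(k+2)−1)), or generalized quaternion of order at least 8. -/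
theorem result {S : Type*} [Group S] [Finite S] (h2 : IsPGroup 2 S) (hab : Nat.card (Abelianization S) = 4)
    (hexp : ∀ x : Abelianization S, x ^ 2 = 1) :
    Nat.card S = 4 ∨
    ((∃ k : ℕ, Nonempty (S ≃* DihedralGroup (2 ^ (k + 2)))) ∨
      (∃ k : ℕ, Nat.card S = 2 ^ (k + 4) ∧ ∃ a b : S, orderOf a = 2 ^ (k + 3) ∧ orderOf b = 2 ∧ b * a * b⁻¹ = a ^ (2 ^ (k + 2) - 1)) ∨
      (∃ k : ℕ, Nonempty (S ≃* QuaternionGroup (2 ^ (k + 1))))) := by
  by_cases h4 : Nat.card S = 4
  · exact Or.inl h4
  · right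
    rcases H76.MaxClass.trichotomy h2 hab h4 with h | ⟨k, hk, a, b, ha, hb, hba, -, -⟩ | h
    · exact Or.inl h
    · exact Or.inr (Or.inl ⟨k, hk, a, b, ha, hb, hba⟩)
    · exact Or.inr (Or.inr h)

end Cfsg.Agent.S4399
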