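import Cfsg.Statements.S4400
import Mathlib
import Cfsg.Agent.Lib.H76.SecRank
import Cfsg.Agent.Lib.H76.PG2
import Cfsg.Agent.Lib.H76.Commuting

set_option autoImplicit false
open Cfsg

namespace Cfsg.Agent.S4400

open Subgroup

/-- the `D` of index four in a nonabelian `P` with centre of order two. -/
theorem exists_D {S : Type*} [Group S] [Finite S] (h2 : IsPGroup 2 S) (P : Subgroup S)
    (hP : ¬ IsMulCommutative ↥P) (hZP : Nat.card ↥(Subgroup.center ↥P) = 2) :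
    ∃ D : Subgroup S, D ≤ P ∧ D.relIndex P = 4 ∧ (∀ x ∈ P, ∀ y ∈ P, x * y * x⁻¹ * y⁻¹ ∈ D) ∧
      (∀ x ∈ P, x ^ 2 ∈ D) ∧ ∀ x ∈ P, (∀ y ∈ P, x * y = y * x) → x ∈ D := by
  have hPp : IsPGroup 2 P := h2.to_subgroup P
  have hnc : ¬ IsCyclic P := by
    intro h
    exact hP h.isMulCommutative
  obtain ⟨D, hDn, hDi, hDc, hDs⟩ := H76.PG2.exists_index_sq hPp hnc
  have hDb : D ≠ ⊥ := by
    rintro rfl
    apply hP
    refine ⟨⟨fun x y => ?_⟩⟩
    have h1 := hDc x y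
    rw [mem_bot, mul_inv_eq_one, mul_inv_eq_iff_eq_mul] at h1
    exact h1
  have hZD := H76.PG.center_le_of_normal hPp hZP D hDb
  refine ⟨D.map P.subtype, map_subtype_le D, ?_, ?_, ?_, ?_⟩
  · have h1 : (D.map P.subtype).relIndex P = D.index := by
      rw [Subgroup.relIndex, Subgroup.subgroupOf]
      rw [Subgroup.comap_map_eq_self_of_injective P.subtype_injective]
    rw [h1, hDi]; norm_num
  · intro x hx y hy
    exact ⟨_, hDc ⟨x, hx⟩ ⟨y, hy⟩, rfl⟩
  · intro x hx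
    exact ⟨_, hDs ⟨x, hx⟩, rfl⟩
  · intro x hx hxy
    refine ⟨⟨x, hx⟩, hZD ?_, rfl⟩
    rw [Subgroup.mem_center_iff]
    intro y
    exact Subtype.ext (hxy y y.2).symm

theorem eq_of_central {S : Type*} [Group S] (P : Subgroup S)
    (hZP : Nat.card ↥(Subgroup.center ↥P) = 2) (z : S) (hz : z ∈ P) (hzc : z ∈ Subgroup.center S)
    (hz2 : orderOf z = 2) : (Subgroup.center ↥P).map P.subtype = zpowers z := by
  haveI : Finite (Subgroup.center ↥P) := Nat.finite_of_card_ne_zero (by rw [hZP]; norm_num)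
  have h1 : zpowers z ≤ (Subgroup.center ↥P).map P.subtype := by
    rw [zpowers_le]
    refine ⟨⟨z, hz⟩, ?_, rfl⟩
    rw [SetLike.mem_coe, Subgroup.mem_center_iff]
    intro y
    exact Subtype.ext (Subgroup.mem_center_iff.1 hzc y)
  symm
  haveI : Finite ((Subgroup.center ↥P).map P.subtype) := by
    apply Nat.finite_of_card_ne_zero
    rw [Subgroup.card_map_of_injective P.subtype_injective, hZP]; norm_num
  apply Subgroup.eq_of_le_of_card_ge h1
  rw [Subgroup.card_map_of_injective P.subtype_injective, hZP, Nat.card_zpowers, hz2]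

/-- Let S be a finite 2-group of sectional 2-rank at most 4, and let P and Q be normal non-abelian subgroups of S whose centres have order 2 and are different. Then P and Q commute elementwise and intersect trivially, and PQ contains its own centralizer in S. -/
theorem result {S : Type*} [Group S] [Finite S] (h2 : IsPGroup 2 S) (hr : Cfsg.SectionalPRankLE 2 4 S)
    (P Q : Subgroup S) [P.Normal] [Q.Normal] (hP : ¬ IsMulCommutative ↥P) (hQ : ¬ IsMulCommutative ↥Q)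
    (hZP : Nat.card ↥(Subgroup.center ↥P) = 2) (hZQ : Nat.card ↥(Subgroup.center ↥Q) = 2)
    (hne : (Subgroup.center ↥P).map P.subtype ≠ (Subgroup.center ↥Q).map Q.subtype) :
    ⁅P, Q⁆ = ⊥ ∧ P ⊓ Q = ⊥ ∧ Subgroup.centralizer ((P ⊔ Q : Subgroup S) : Set S) ≤ P ⊔ Q := by
  -- P ∩ Q = 1
  have hinf : P ⊓ Q = ⊥ := by
    by_contra h
    obtain ⟨z, hz, hzc, hz2⟩ := H76.PG.exists_center_of_normal h2 (P ⊓ Q) h
    exact hne ((eq_of_central P hZP z hz.1 hzc hz2).trans (eq_of_central Q hZQ z hz.2 hzc hz2).symm)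
  have hcomm : ⁅P, Q⁆ = ⊥ := by
    rw [eq_bot_iff, ← hinf]
    exact commutator_le_inf P Q
  have hc : ∀ a ∈ P, ∀ b ∈ Q, a * b = b * a := by
    intro a ha b hb
    have h1 := commutator_mem_commutator ha hb
    rw [hcomm, mem_bot, commutatorElement_eq_one_iff_mul_comm] at h1
    exact h1
  refine ⟨hcomm, hinf, ?_⟩
  by_contra hcon
  obtain ⟨x0, hx0c, hx0⟩ := SetLike.not_le_iff_exists.1 hcon
  -- choose x ∈ C with x ∉ PQ, x² ∈ PQ
  obtain ⟨x, hxc, hx, hx2⟩ : ∃ x ∈ Subgroup.centralizer ((P ⊔ Q : Subgroup S) : Set S), x ∉ P ⊔ Q ∧ x ^ 2 ∈ P ⊔ Q := by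
    obtain ⟨k, hk⟩ := h2 x0
    have hex : ∃ k : ℕ, x0 ^ 2 ^ k ∈ P ⊔ Q := ⟨k, by rw [hk]; exact one_mem _⟩
    obtain ⟨m, hsp, hmin⟩ : ∃ m : ℕ, x0 ^ 2 ^ m ∈ P ⊔ Q ∧ ∀ j < m, x0 ^ 2 ^ j ∉ P ⊔ Q := by
      classical
      exact ⟨Nat.find hex, Nat.find_spec hex, fun j hj => Nat.find_min hex hj⟩
    have hm0 : m ≠ 0 := by
      intro h
      rw [h, pow_zero, pow_one] at hsp
      exact hx0 hsp
    obtain ⟨j, hj⟩ := Nat.exists_eq_succ_of_ne_zero hm0
    refine ⟨x0 ^ 2 ^ j, pow_mem hx0c _, hmin j (by omega), ?_⟩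
    rw [← pow_mul, ← pow_succ]
    rw [hj] at hsp
    exact hsp
  obtain ⟨D, hDP, hDi, hDc, hDs, hDz⟩ := exists_D h2 P hP hZP
  obtain ⟨E, hEQ, hEi, hEc, hEs, hEz⟩ := exists_D h2 Q hQ hZQ
  have hxcen : ∀ y ∈ P ⊔ Q, y * x = x * y := by
    intro y hy
    exact mem_centralizer_iff.1 hxc y hy
  have hx2D : x ^ 2 ∈ D ⊔ E := by
    obtain ⟨a, ha, b, hb, hab⟩ := (H76.Commuting.mem_sup_of_commute hc).1 hx2
    rw [H76.Commuting.mem_sup_of_commute (fun a ha b hb => hc a (hDP ha) b (hEQ hb))]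
    have hx2cen : ∀ y ∈ P ⊔ Q, y * (a * b) = (a * b) * y := by
      intro y hy
      rw [← hab]
      have h1 := hxcen y hy
      rw [sq, ← mul_assoc, h1, mul_assoc, h1, mul_assoc]
    refine ⟨a, hDz a ha ?_, b, hEz b hb ?_, hab⟩
    · intro y hy
      have h1 := hx2cen y (mem_sup_left hy)
      have h2 := hc y hy b hb
      have h3 : (y * a) * b = (a * y) * b := by
        calc (y * a) * b = y * (a * b) := by group
          _ = a * b * y := h1
          _ = a * (b * y) := by group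
          _ = a * (y * b) := by rw [h2]
          _ = (a * y) * b := by group
      exact (mul_right_cancel h3).symm
    · intro y hy
      have h1 := hx2cen y (mem_sup_right hy)
      have h2 := hc a ha y hy
      have h3 : a * (y * b) = a * (b * y) := by
        calc a * (y * b) = (a * y) * b := by group
          _ = (y * a) * b := by rw [h2]
          _ = y * (a * b) := by group
          _ = a * b * y := h1
          _ = a * (b * y) := by group
      exact (mul_left_cancel h3).symm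
  have hDE : D ⊔ E ≤ P ⊔ Q := sup_le_sup hDP hEQ
  have hcx : ∀ a ∈ P ⊔ Q, ∀ b ∈ zpowers x, a * b = b * a := by
    intro a ha b hb
    obtain ⟨i, rfl⟩ := mem_zpowers_iff.1 hb
    have : Commute a x := hxcen a ha
    exact this.zpow_right i
  have hcPQ : ∀ a ∈ P, ∀ b ∈ Q, ∀ a' ∈ P, ∀ b' ∈ Q, a * b * (a' * b') = (a * a') * (b * b') := by
    intro a ha b hb a' ha' b' hb'
    calc a * b * (a' * b') = a * (b * a') * b' := by group
      _ = a * (a' * b) * b' := by rw [hc a' ha' b hb]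
      _ = (a * a') * (b * b') := by group
  have hcD : ∀ u ∈ P ⊔ Q, ∀ v ∈ P ⊔ Q, u * v * u⁻¹ * v⁻¹ ∈ D ⊔ E := by
    intro u hu v hv
    obtain ⟨a, ha, b, hb, rfl⟩ := (H76.Commuting.mem_sup_of_commute hc).1 hu
    obtain ⟨a', ha', b', hb', rfl⟩ := (H76.Commuting.mem_sup_of_commute hc).1 hv
    have h1 : (a * b)⁻¹ = a⁻¹ * b⁻¹ := by
      rw [mul_inv_rev, hc a⁻¹ (P.inv_mem ha) b⁻¹ (Q.inv_mem hb)]
    have h1' : (a' * b')⁻¹ = a'⁻¹ * b'⁻¹ := by
      rw [mul_inv_rev, hc a'⁻¹ (P.inv_mem ha') b'⁻¹ (Q.inv_mem hb')]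
    rw [h1, h1', hcPQ a ha b hb a' ha' b' hb',
      hcPQ _ (P.mul_mem ha ha') _ (Q.mul_mem hb hb') _ (P.inv_mem ha) _ (Q.inv_mem hb),
      hcPQ _ (P.mul_mem (P.mul_mem ha ha') (P.inv_mem ha)) _ (Q.mul_mem (Q.mul_mem hb hb') (Q.inv_mem hb))
        _ (P.inv_mem ha') _ (Q.inv_mem hb')]
    exact mul_mem (mem_sup_left (hDc a ha a' ha')) (mem_sup_right (hEc b hb b' hb'))
  have hsD : ∀ u ∈ P ⊔ Q, u ^ 2 ∈ D ⊔ E := by
    intro u hu
    obtain ⟨a, ha, b, hb, rfl⟩ := (H76.Commuting.mem_sup_of_commute hc).1 hu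
    rw [sq, hcPQ a ha b hb a ha b hb, ← sq, ← sq]
    exact mul_mem (mem_sup_left (hDs a ha)) (mem_sup_right (hEs b hb))
  have hbound := H76.SecRank.relIndex_le hr (D ⊔ E) ((P ⊔ Q) ⊔ zpowers x) (hDE.trans le_sup_left) (by
    intro u hu v hv
    obtain ⟨a, ha, b, hb, rfl⟩ := (H76.Commuting.mem_sup_of_commute hcx).1 hu
    obtain ⟨a', ha', b', hb', rfl⟩ := (H76.Commuting.mem_sup_of_commute hcx).1 hv
    have e1 : b * a' = a' * b := (hcx a' ha' b hb).symm
    have e2 : b * b' = b' * b := by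
      obtain ⟨i, rfl⟩ := mem_zpowers_iff.1 hb
      obtain ⟨j, rfl⟩ := mem_zpowers_iff.1 hb'
      exact (Commute.refl x).zpow_zpow i j
    have e3 : b' * a⁻¹ = a⁻¹ * b' := (hcx a⁻¹ (inv_mem ha) b' hb').symm
    have : a * b * (a' * b') * (a * b)⁻¹ * (a' * b')⁻¹ = a * a' * a⁻¹ * a'⁻¹ := by
      calc a * b * (a' * b') * (a * b)⁻¹ * (a' * b')⁻¹ = a * (b * a') * b' * b⁻¹ * a⁻¹ * b'⁻¹ * a'⁻¹ := by group
        _ = a * a' * (b * b') * b⁻¹ * a⁻¹ * b'⁻¹ * a'⁻¹ := by rw [e1]; group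
        _ = a * a' * (b' * a⁻¹) * b'⁻¹ * a'⁻¹ := by rw [e2]; group
        _ = a * a' * a⁻¹ * a'⁻¹ := by rw [e3]; group
    rw [this]
    exact hcD a ha a' ha') (by
    intro u hu
    obtain ⟨a, ha, b, hb, rfl⟩ := (H76.Commuting.mem_sup_of_commute hcx).1 hu
    have : Commute a b := hcx a ha b hb
    rw [this.mul_pow]
    refine mul_mem (hsD a ha) ?_
    obtain ⟨i, rfl⟩ := mem_zpowers_iff.1 hb
    rw [← zpow_natCast, ← zpow_mul, mul_comm, zpow_mul, zpow_natCast]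
    exact zpow_mem hx2D i)
  have h16 : (D ⊔ E).relIndex (P ⊔ Q) = 16 := by
    rw [H76.Commuting.relIndex_sup_of_commute hc hinf hDP hEQ, hDi, hEi]
  have h32 := relIndex_mul_relIndex (D ⊔ E) (P ⊔ Q) ((P ⊔ Q) ⊔ zpowers x) hDE le_sup_left
  have hge : 2 ≤ (P ⊔ Q).relIndex ((P ⊔ Q) ⊔ zpowers x) := by
    have h1 : (P ⊔ Q).relIndex ((P ⊔ Q) ⊔ zpowers x) ≠ 1 := by
      rw [Ne, relIndex_eq_one]
      intro h
      exact hx (h (mem_sup_right (mem_zpowers x)))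
    have h3 : (P ⊔ Q).relIndex ((P ⊔ Q) ⊔ zpowers x) ≠ 0 := Subgroup.index_ne_zero_of_finite
    omega
  rw [h16] at h32
  rw [← h32] at hbound
  omega

end Cfsg.Agent.S4400
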