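import Cfsg.Statements.S4401
import Mathlib
import Cfsg.Agent.S4400
import Cfsg.Agent.Lib.H76.MaxClass

set_option autoImplicit false
open Cfsg

namespace Cfsg.Agent.S4401

open Subgroup

theorem relIndex_centralizer_le {G : Type*} [Group G] (N : Subgroup G) (z : G) (T : Finset G)
    (h : ∀ n ∈ N, n * z * n⁻¹ ∈ T) : (centralizer ({z} : Set G)).relIndex N ≤ T.card := by
  classical
  let f : (N ⧸ (centralizer ({z} : Set G)).subgroupOf N) → T :=
    fun q => Quotient.liftOn' q (fun n : N => (⟨(n : G) * z * (n : G)⁻¹, h n n.2⟩ : T)) (by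
      intro a b hab
      rw [QuotientGroup.leftRel_apply, mem_subgroupOf, mem_centralizer_singleton_iff] at hab
      apply Subtype.ext
      change (a : G) * z * (a : G)⁻¹ = b * z * (b : G)⁻¹
      have h1 : ((a⁻¹ * b : N) : G) = (a : G)⁻¹ * b := by push_cast; rfl
      rw [h1] at hab
      rw [eq_mul_inv_iff_mul_eq]
      calc (a : G) * z * (a : G)⁻¹ * b = a * (z * ((a : G)⁻¹ * b)) := by group
        _ = a * (((a : G)⁻¹ * b) * z) := by rw [← hab]
        _ = b * z := by group)
  have hf : Function.Injective f := by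
    intro x y hxy
    induction x using QuotientGroup.induction_on with
    | H a =>
      induction y using QuotientGroup.induction_on with
      | H b =>
        have h1 : (a : G) * z * (a : G)⁻¹ = b * z * (b : G)⁻¹ := congrArg Subtype.val hxy
        rw [QuotientGroup.eq, mem_subgroupOf, mem_centralizer_singleton_iff]
        have h2 : ((a⁻¹ * b : N) : G) = (a : G)⁻¹ * b := by push_cast; rfl
        rw [h2]
        calc (a : G)⁻¹ * b * z = (a : G)⁻¹ * (b * z * (b : G)⁻¹) * b := by group
          _ = (a : G)⁻¹ * (a * z * (a : G)⁻¹) * b := by rw [h1]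
          _ = z * ((a : G)⁻¹ * b) := by group
  have h1 := Nat.card_le_card_of_injective f hf
  rw [Subgroup.relIndex, Subgroup.index_eq_card]
  simpa using h1

/-- Let S be a finite 2-group of sectional 2-rank at most 4 and P a proper non-abelian subgroup whose centre has order 2. Let S₀ be the centralizer in S of Z(P) and suppose P is normal in S₀. Then either S₀ = S, or P has sectional 2-rank at most 2 and S₀ has index 2 in S. -/
theorem result {S : Type*} [Group S] [Finite S] (h2 : IsPGroup 2 S) (hr : Cfsg.SectionalPRankLE 2 4 S)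
    (P : Subgroup S) (hPlt : P ≠ ⊤) (hP : ¬ IsMulCommutative ↥P) (hZP : Nat.card ↥(Subgroup.center ↥P) = 2)
    (S₀ : Subgroup S) (hS₀ : S₀ = Subgroup.centralizer (((Subgroup.center ↥P).map P.subtype : Subgroup S) : Set S))
    (hPn : ∀ s ∈ S₀, ∀ x ∈ P, s * x * s⁻¹ ∈ P) :
    S₀ = ⊤ ∨ (Cfsg.SectionalPRankLE 2 2 ↥P ∧ S₀.index = 2) := by
  by_cases hS₀top : S₀ = ⊤
  · exact Or.inl hS₀top
  right
  -- the generator z of Z(P)
  obtain ⟨z, hzP, hz2, hzc, hzmap⟩ : ∃ z ∈ P, orderOf z = 2 ∧ (∀ y ∈ P, y * z = z * y) ∧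
      (Subgroup.center ↥P).map P.subtype = zpowers z := by
    obtain ⟨x, hx⟩ := exists_prime_orderOf_dvd_card' (G := Subgroup.center ↥P) 2 (by rw [hZP])
    have hx2 : orderOf (((x : P) : S)) = 2 := by rw [Subgroup.orderOf_coe, Subgroup.orderOf_coe, hx]
    refine ⟨((x : P) : S), x.1.2, hx2, ?_, ?_⟩
    · intro y hy
      exact congrArg Subtype.val (Subgroup.mem_center_iff.1 x.2 ⟨y, hy⟩)
    · symm
      apply Subgroup.eq_of_le_of_card_ge
      · rw [zpowers_le]
        exact ⟨x, x.2, rfl⟩
      · rw [Subgroup.card_map_of_injective P.subtype_injective, hZP, Nat.card_zpowers, hx2]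
  have hcenP : ∀ a ∈ P, (∀ y ∈ P, a * y = y * a) → a = 1 ∨ a = z := by
    intro a ha hay
    have h1 : a ∈ zpowers z := by
      rw [← hzmap]
      refine ⟨⟨a, ha⟩, ?_, rfl⟩
      rw [SetLike.mem_coe, Subgroup.mem_center_iff]
      intro y
      exact Subtype.ext (hay y y.2).symm
    have h3 := H76.MaxClass.sq_eq_one_of_mem_zpowers (m := 0) (by rw [hz2]; norm_num) h1 (by
      obtain ⟨i, rfl⟩ := mem_zpowers_iff.1 h1
      rw [← zpow_natCast, ← zpow_mul, mul_comm, zpow_mul, zpow_natCast, ← hz2, pow_orderOf_eq_one, one_zpow])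
    simpa using h3
  have hzsq : z * z = 1 := by rw [← sq, ← hz2, pow_orderOf_eq_one]
  have hz1 : z ≠ 1 := by intro h; rw [h, orderOf_one] at hz2; norm_num at hz2
  have hS₀' : S₀ = centralizer ({z} : Set S) := by
    rw [hS₀, hzmap]
    ext x
    rw [mem_centralizer_singleton_iff, mem_centralizer_iff]
    constructor
    · intro h
      exact (h z (mem_zpowers z)).symm
    · intro h y hy
      obtain ⟨i, rfl⟩ := mem_zpowers_iff.1 hy
      have : Commute z x := h.symm
      exact this.zpow_left i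
  have hmemS₀ : ∀ x, x ∈ S₀ ↔ x * z = z * x := by
    intro x
    rw [hS₀', mem_centralizer_singleton_iff]
  have hPS₀ : P ≤ S₀ := fun x hx => (hmemS₀ x).2 (hzc x hx)
  have hzS₀ : z ∈ S₀ := hPS₀ hzP
  -- g normalizes S₀ but is outside
  haveI : Group.IsNilpotent S := h2.isNilpotent
  have hlt : S₀ < normalizer (S₀ : Set S) :=
    Group.normalizerCondition_of_isNilpotent S₀ (lt_top_iff_ne_top.2 hS₀top)
  obtain ⟨g, hgN, hgS⟩ := SetLike.exists_of_lt hlt
  have hconjS₀ : ∀ s, s ∈ S₀ ↔ g * s * g⁻¹ ∈ S₀ := fun s => mem_normalizer_iff.1 hgN s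
  have hconjS₀' : ∀ s ∈ S₀, g⁻¹ * s * g ∈ S₀ := by
    intro s hs
    rw [hconjS₀]
    have : g * (g⁻¹ * s * g) * g⁻¹ = s := by group
    rw [this]; exact hs
  set z' := g * z * g⁻¹ with hz'def
  have hzz' : z' ≠ z := by
    intro h
    apply hgS
    rw [hmemS₀]
    rw [hz'def, mul_inv_eq_iff_eq_mul] at h
    exact h
  -- P' = g P g⁻¹
  set P' : Subgroup S := P.map (MulAut.conj g).toMonoidHom with hP'def
  have hmemP' : ∀ x, x ∈ P' ↔ g⁻¹ * x * g ∈ P := by
    intro x
    rw [hP'def]
    constructor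
    · rintro ⟨y, hy, rfl⟩
      have : g⁻¹ * (MulAut.conj g).toMonoidHom y * g = y := by simp; group
      rw [this]; exact hy
    · intro h
      exact ⟨_, h, by simp; group⟩
  have hmemP'2 : ∀ x, x ∈ P → g * x * g⁻¹ ∈ P' := by
    intro x hx
    rw [hmemP']
    have : g⁻¹ * (g * x * g⁻¹) * g = x := by group
    rw [this]; exact hx
  have hP'S₀ : P' ≤ S₀ := by
    intro x hx
    rw [hmemP'] at hx
    have h1 := (hconjS₀ _).1 (hPS₀ hx)
    have : g * (g⁻¹ * x * g) * g⁻¹ = x := by group
    rwa [this] at h1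
  have hz'P' : z' ∈ P' := hmemP'2 z hzP
  have hPn' : ∀ s ∈ S₀, ∀ x ∈ P', s * x * s⁻¹ ∈ P' := by
    intro s hs x hx
    rw [hmemP'] at hx ⊢
    have h1 := hPn _ (hconjS₀' s hs) _ hx
    have : g⁻¹ * s * g * (g⁻¹ * x * g) * (g⁻¹ * s * g)⁻¹ = g⁻¹ * (s * x * s⁻¹) * g := by group
    rwa [this] at h1
  -- apply the previous statement in S₀
  let e : P ≃* P' := P.equivMapOfInjective _ (MulAut.conj g).injective
  have hP'na : ¬ IsMulCommutative ↥P' := by
    intro h
    apply hP
    refine ⟨⟨fun a b => ?_⟩⟩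
    apply e.injective
    rw [map_mul, map_mul, h.is_comm.comm]
  have hZP' : Nat.card (Subgroup.center ↥P') = 2 := by
    rw [← hZP]
    exact (Nat.card_congr (Subgroup.centerCongr e).toEquiv).symm
  let f : P.subgroupOf S₀ ≃* P := Subgroup.subgroupOfEquivOfLe hPS₀
  let f' : P'.subgroupOf S₀ ≃* P' := Subgroup.subgroupOfEquivOfLe hP'S₀
  haveI hn1 : (P.subgroupOf S₀).Normal := by
    constructor
    intro n hn s
    rw [mem_subgroupOf] at hn ⊢
    exact hPn s s.2 n hn
  haveI hn2 : (P'.subgroupOf S₀).Normal := by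
    constructor
    intro n hn s
    rw [mem_subgroupOf] at hn ⊢
    exact hPn' s s.2 n hn
  have key := Cfsg.Agent.S4400.result (S := S₀) (h2.to_subgroup S₀) (H76.SecRank.subgroup hr S₀)
    (P.subgroupOf S₀) (P'.subgroupOf S₀)
    (by
      intro h
      apply hP
      refine ⟨⟨fun a b => ?_⟩⟩
      apply f.symm.injective
      rw [map_mul, map_mul, h.is_comm.comm])
    (by
      intro h
      apply hP'na
      refine ⟨⟨fun a b => ?_⟩⟩
      apply f'.symm.injective
      rw [map_mul, map_mul, h.is_comm.comm])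
    (by rw [← hZP]; exact Nat.card_congr (Subgroup.centerCongr f).toEquiv)
    (by rw [← hZP']; exact Nat.card_congr (Subgroup.centerCongr f').toEquiv)
    (by
      intro h
      have h1 : (⟨z, hzS₀⟩ : S₀) ∈ (Subgroup.center ↥(P.subgroupOf S₀)).map (P.subgroupOf S₀).subtype := by
        refine ⟨⟨⟨z, hzS₀⟩, hzP⟩, ?_, rfl⟩
        rw [SetLike.mem_coe, Subgroup.mem_center_iff]
        intro y
        apply Subtype.ext; apply Subtype.ext
        exact hzc _ y.2
      rw [h] at h1
      obtain ⟨y, hy, hyz⟩ := h1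
      have h2' : z ∈ P' := by
        have := y.2
        rw [mem_subgroupOf] at this
        have h3 : ((y : S₀) : S) = z := congrArg Subtype.val hyz
        rwa [h3] at this
      -- z and z' both in the centre of P', of order 2
      have hzc' : (⟨z, h2'⟩ : P') ∈ Subgroup.center P' := by
        rw [Subgroup.mem_center_iff]
        intro v
        rw [SetLike.mem_coe, Subgroup.mem_center_iff] at hy
        have h4 := hy ⟨⟨v, hP'S₀ v.2⟩, v.2⟩
        have h5 := congrArg (fun w : ↥(P'.subgroupOf S₀) => ((w : S₀) : S)) h4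
        apply Subtype.ext
        have h3 : ((y : S₀) : S) = z := congrArg Subtype.val hyz
        simpa [h3] using h5
      have hz'c' : (⟨z', hz'P'⟩ : P') ∈ Subgroup.center P' := by
        rw [Subgroup.mem_center_iff]
        rintro ⟨v, hv⟩
        apply Subtype.ext
        change v * z' = z' * v
        have h4 := hzc _ ((hmemP' v).1 hv)
        rw [hz'def]
        calc v * (g * z * g⁻¹) = g * ((g⁻¹ * v * g) * z) * g⁻¹ := by group
          _ = g * (z * (g⁻¹ * v * g)) * g⁻¹ := by rw [h4]
          _ = g * z * g⁻¹ * v := by group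
      -- centre of order two contains 1, z, z'
      have hz'1 : z' ≠ 1 := by
        intro h
        apply hz1
        have : z = g⁻¹ * z' * g := by rw [hz'def]; group
        rw [this, h]; group
      have h6 : ({⟨1, P'.one_mem⟩, ⟨z, h2'⟩, ⟨z', hz'P'⟩} : Set P') ⊆ (Subgroup.center P' : Set P') := by
        intro v hv
        simp only [Set.mem_insert_iff, Set.mem_singleton_iff] at hv
        rcases hv with rfl | rfl | rfl
        · exact one_mem _
        · exact hzc'
        · exact hz'c'
      have h7 := Set.ncard_le_ncard h6 (Set.toFinite _)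
      have h8 : ({⟨1, P'.one_mem⟩, ⟨z, h2'⟩, ⟨z', hz'P'⟩} : Set P').ncard = 3 := by
        rw [Set.ncard_eq_three]
        refine ⟨_, _, _, ?_, ?_, ?_, rfl⟩
        · intro h; exact hz1 (congrArg Subtype.val h).symm
        · intro h; exact hz'1 (congrArg Subtype.val h).symm
        · intro h; exact hzz' (congrArg Subtype.val h).symm
      rw [h8] at h7
      change 3 ≤ Nat.card (Subgroup.center P') at h7
      omega)
  obtain ⟨key1, key2, key3⟩ := key
  have hcomm : ∀ a ∈ P, ∀ b ∈ P', a * b = b * a := by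
    intro a ha b hb
    have h1 := commutator_mem_commutator (H₁ := P.subgroupOf S₀) (H₂ := P'.subgroupOf S₀)
      (g₁ := ⟨a, hPS₀ ha⟩) (g₂ := ⟨b, hP'S₀ hb⟩) ha hb
    rw [key1, mem_bot, commutatorElement_eq_one_iff_mul_comm] at h1
    exact congrArg Subtype.val h1
  have hinf : P ⊓ P' = ⊥ := by
    rw [eq_bot_iff]
    rintro x ⟨hx, hx'⟩
    have h1 : (⟨x, hPS₀ hx⟩ : S₀) ∈ P.subgroupOf S₀ ⊓ P'.subgroupOf S₀ := ⟨hx, hx'⟩
    rw [key2, mem_bot] at h1
    rw [mem_bot]
    exact congrArg Subtype.val h1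
  have hV : ∀ x ∈ S₀, (∀ y ∈ P, x * y = y * x) → (∀ y ∈ P', x * y = y * x) →
      x = 1 ∨ x = z ∨ x = z' ∨ x = z * z' := by
    intro x hxS hxP hxP'
    have h1 : (⟨x, hxS⟩ : S₀) ∈ P.subgroupOf S₀ ⊔ P'.subgroupOf S₀ := by
      apply key3
      rw [mem_centralizer_iff]
      intro y hy
      rw [SetLike.mem_coe, H76.Commuting.mem_sup_of_commute (fun a ha b hb =>
        Subtype.ext (hcomm a ha b hb))] at hy
      obtain ⟨a, ha, b, hb, rfl⟩ := hy
      apply Subtype.ext
      change (a : S) * b * x = x * (a * b)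
      rw [← mul_assoc, hxP a ha, mul_assoc, ← hxP' b hb, mul_assoc]
    rw [H76.Commuting.mem_sup_of_commute (fun a ha b hb => Subtype.ext (hcomm a ha b hb))] at h1
    obtain ⟨a, ha, b, hb, hab⟩ := h1
    have hab' : x = (a : S) * b := congrArg Subtype.val hab
    have ha1 : (a : S) = 1 ∨ (a : S) = z := by
      apply hcenP _ ha
      intro y hy
      have h3 := hxP y hy
      have h4 := hcomm y hy b hb
      rw [hab'] at h3
      have h5 : (a * y : S) * b = (y * a) * b := by
        calc (a * y : S) * b = a * (y * b) := by group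
          _ = a * (b * y) := by rw [h4]
          _ = a * b * y := by group
          _ = y * (a * b) := h3
          _ = (y * a) * b := by group
      exact mul_right_cancel h5
    have hb1 : (b : S) = 1 ∨ (b : S) = z' := by
      have h6 : g⁻¹ * b * g = 1 ∨ g⁻¹ * b * g = z := by
        apply hcenP _ ((hmemP' _).1 hb)
        intro y hy
        have h3 := hxP' _ (hmemP'2 y hy)
        have h4 := hcomm a ha _ (hmemP'2 y hy)
        rw [hab'] at h3
        have h5 : (a : S) * (b * (g * y * g⁻¹)) = a * ((g * y * g⁻¹) * b) := by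
          calc (a : S) * (b * (g * y * g⁻¹)) = a * b * (g * y * g⁻¹) := by group
            _ = g * y * g⁻¹ * (a * b) := h3
            _ = (g * y * g⁻¹ * a) * b := by group
            _ = (a * (g * y * g⁻¹)) * b := by rw [h4]
            _ = a * ((g * y * g⁻¹) * b) := by group
        have h7 := mul_left_cancel h5
        calc g⁻¹ * b * g * y = g⁻¹ * (b * (g * y * g⁻¹)) * g := by group
          _ = g⁻¹ * ((g * y * g⁻¹) * b) * g := by rw [h7]
          _ = y * (g⁻¹ * b * g) := by group
      rcases h6 with h6 | h6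
      · left
        calc (b : S) = g * (g⁻¹ * b * g) * g⁻¹ := by group
          _ = 1 := by rw [h6]; group
      · right
        rw [hz'def, ← h6]; group
    rcases ha1 with ha1 | ha1 <;> rcases hb1 with hb1 | hb1 <;> rw [hab', ha1, hb1]
    · left; simp
    · right; right; left; simp
    · right; left; simp
    · right; right; right; rfl
  refine ⟨?_, ?_⟩
  · -- sectional rank of P
    rw [H76.SecRank.sectionalPRankLE_iff]
    intro N H hNH hc hs
    let c := (MulAut.conj g).toMonoidHom
    have hH1P : H.map P.subtype ≤ P := map_subtype_le H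
    have hH2P : (H.map P.subtype).map c ≤ P' := Subgroup.map_mono hH1P
    have hcH : ∀ a ∈ H.map P.subtype, ∀ b ∈ (H.map P.subtype).map c, a * b = b * a :=
      fun a ha b hb => hcomm a (hH1P ha) b (hH2P hb)
    have hinfH : H.map P.subtype ⊓ (H.map P.subtype).map c = ⊥ :=
      le_bot_iff.1 (hinf ▸ inf_le_inf hH1P hH2P)
    have hNH1 : N.map P.subtype ≤ H.map P.subtype := Subgroup.map_mono hNH
    have hNH2 : (N.map P.subtype).map c ≤ (H.map P.subtype).map c := Subgroup.map_mono hNH1
    have hc1 : ∀ x ∈ H.map P.subtype, ∀ y ∈ H.map P.subtype, x * y * x⁻¹ * y⁻¹ ∈ N.map P.subtype := by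
      rintro _ ⟨x, hx, rfl⟩ _ ⟨y, hy, rfl⟩
      exact ⟨_, hc x hx y hy, by simp⟩
    have hc2 : ∀ x ∈ (H.map P.subtype).map c, ∀ y ∈ (H.map P.subtype).map c,
        x * y * x⁻¹ * y⁻¹ ∈ (N.map P.subtype).map c := by
      rintro _ ⟨x, hx, rfl⟩ _ ⟨y, hy, rfl⟩
      exact ⟨_, hc1 x hx y hy, by simp only [map_mul, map_inv]⟩
    have hs1 : ∀ x ∈ H.map P.subtype, x ^ 2 ∈ N.map P.subtype := by
      rintro _ ⟨x, hx, rfl⟩
      exact ⟨_, hs x hx, by simp⟩
    have hs2 : ∀ x ∈ (H.map P.subtype).map c, x ^ 2 ∈ (N.map P.subtype).map c := by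
      rintro _ ⟨x, hx, rfl⟩
      exact ⟨_, hs1 x hx, by rw [map_pow]⟩
    have hb := H76.SecRank.relIndex_le hr _ _ (sup_le_sup hNH1 hNH2) (H76.Commuting.comm_mem_sup hcH hc1 hc2)
      (H76.Commuting.pow_mem_sup hcH hs1 hs2)
    rw [H76.Commuting.relIndex_sup_of_commute hcH hinfH hNH1 hNH2,
      relIndex_map_map_of_injective _ _ (f := c) (MulAut.conj g).injective,
      relIndex_map_map_of_injective _ _ P.subtype_injective] at hb
    by_contra hlt
    push Not at hlt
    have h3 : 5 * 5 ≤ N.relIndex H * N.relIndex H := Nat.mul_le_mul hlt hlt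
    omega
  · -- the index of S₀
    set w := z * z' with hw
    have hz'z : z * z' = z' * z := (hcomm z hzP z' hz'P')
    have hz'sq : z' * z' = 1 := by
      rw [hz'def]
      calc g * z * g⁻¹ * (g * z * g⁻¹) = g * (z * z) * g⁻¹ := by group
        _ = 1 := by rw [hzsq]; group
    have hz'1 : z' ≠ 1 := by
      intro h
      apply hz1
      have : z = g⁻¹ * z' * g := by rw [hz'def]; group
      rw [this, h]; group
    have hwz : w ≠ z := by
      intro h
      rw [hw] at h
      exact hz'1 (mul_eq_left.1 h)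
    have hwz' : w ≠ z' := by
      intro h
      rw [hw] at h
      exact hz1 (mul_eq_right.1 h)
    have hw1 : w ≠ 1 := by
      intro h
      apply hzz'
      have h1 : z * z' = z * z := by rw [← hw, h, hzsq]
      exact mul_left_cancel h1
    set N := normalizer (S₀ : Set S) with hN
    have hS₀N : S₀ ≤ N := Subgroup.le_normalizer
    have hNz : ∀ n ∈ N, n * z * n⁻¹ = z ∨ n * z * n⁻¹ = z' ∨ n * z * n⁻¹ = w := by
      intro n hn
      have hnS : ∀ s ∈ S₀, n⁻¹ * s * n ∈ S₀ := by
        intro s hs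
        rw [mem_normalizer_iff.1 hn]
        have : n * (n⁻¹ * s * n) * n⁻¹ = s := by group
        rw [this]; exact hs
      have h1 : ∀ s ∈ S₀, n * z * n⁻¹ * s = s * (n * z * n⁻¹) := by
        intro s hs
        have h2 := (hmemS₀ _).1 (hnS s hs)
        calc n * z * n⁻¹ * s = n * (z * (n⁻¹ * s * n)) * n⁻¹ := by group
          _ = n * ((n⁻¹ * s * n) * z) * n⁻¹ := by rw [← h2]
          _ = s * (n * z * n⁻¹) := by group
      rcases hV (n * z * n⁻¹) ((mem_normalizer_iff.1 hn z).1 hzS₀) (fun y hy => h1 y (hPS₀ hy))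
        (fun y hy => h1 y (hP'S₀ hy)) with h | h | h | h
      · exfalso; apply hz1
        have : z = n⁻¹ * (n * z * n⁻¹) * n := by group
        rw [this, h]; group
      · exact Or.inl h
      · exact Or.inr (Or.inl h)
      · exact Or.inr (Or.inr h)
    have hidxN : S₀.relIndex N = 2 := by
      classical
      have h1 := relIndex_centralizer_le N z {z, z', w} (by
        intro n hn
        simp only [Finset.mem_insert, Finset.mem_singleton]
        exact hNz n hn)
      rw [← hS₀'] at h1
      have h3 : ({z, z', w} : Finset S).card ≤ 3 := Finset.card_le_three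
      have h4 : S₀.relIndex N ≠ 1 := by
        rw [Ne, relIndex_eq_one]
        exact fun h => hgS (h hgN)
      have h5 : S₀.relIndex N ∣ Nat.card N := Subgroup.relIndex_dvd_card _ _
      obtain ⟨m, hm⟩ := IsPGroup.iff_card.1 (h2.to_subgroup N)
      rw [hm] at h5
      obtain ⟨j, -, hj⟩ := (Nat.dvd_prime_pow Nat.prime_two).1 h5
      rw [hj] at h1 h4 ⊢
      rcases j with _ | _ | j
      · simp at h4
      · rfl
      · exfalso
        have : 2 ^ (j + 1 + 1) = 4 * 2 ^ j := by ring
        have h6 : 1 ≤ 2 ^ j := Nat.one_le_two_pow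
        omega
    have hNdec : ∀ n ∈ N, n ∈ S₀ ∨ g⁻¹ * n ∈ S₀ := by
      intro n hn
      by_cases h : n ∈ S₀
      · exact Or.inl h
      · right
        obtain ⟨a, haN, ha⟩ := relIndex_eq_two_iff.1 hidxN
        have h1 := ha n hn
        have h3 := ha g hgN
        have h4 : n * a ∈ S₀ := by
          rcases h1 with h5 | h5
          · exact h5.1
          · exact absurd h5.1 h
        have h5 : g * a ∈ S₀ := by
          rcases h3 with h5 | h5
          · exact h5.1
          · exact absurd h5.1 hgS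
        have h6 : n * g⁻¹ ∈ S₀ := by
          have : n * g⁻¹ = (n * a) * (g * a)⁻¹ := by group
          rw [this]; exact mul_mem h4 (inv_mem h5)
        have h7 := hconjS₀' _ h6
        have : g⁻¹ * (n * g⁻¹) * g = g⁻¹ * n := by group
        rwa [this] at h7
    have hNz2 : ∀ n ∈ N, n * z * n⁻¹ = z ∨ n * z * n⁻¹ = z' := by
      intro n hn
      rcases hNdec n hn with h | h
      · left
        rw [mul_inv_eq_iff_eq_mul]; exact (hmemS₀ n).1 h
      · right
        have h1 := (hmemS₀ _).1 h
        rw [hz'def]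
        calc n * z * n⁻¹ = g * ((g⁻¹ * n) * z) * (g⁻¹ * n)⁻¹ * g⁻¹ := by group
          _ = g * (z * (g⁻¹ * n)) * (g⁻¹ * n)⁻¹ * g⁻¹ := by rw [h1]
          _ = g * z * g⁻¹ := by group
    have hNz3 : ∀ n ∈ N, n * z' * n⁻¹ = z ∨ n * z' * n⁻¹ = z' := by
      intro n hn
      have h1 := hNz2 (n * g) (mul_mem hn hgN)
      have h3 : n * g * z * (n * g)⁻¹ = n * z' * n⁻¹ := by rw [hz'def]; group
      rwa [h3] at h1
    have hwcen : ∀ n ∈ N, n * w * n⁻¹ = w := by
      intro n hn
      have h1 : n * w * n⁻¹ = (n * z * n⁻¹) * (n * z' * n⁻¹) := by rw [hw]; group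
      rw [h1]
      have hne : n * z * n⁻¹ ≠ n * z' * n⁻¹ := by
        intro h
        have h3 : n * z = n * z' := mul_right_cancel h
        exact hzz' (mul_left_cancel h3).symm
      rcases hNz2 n hn with h3 | h3 <;> rcases hNz3 n hn with h4 | h4
      · exact absurd (h3.trans h4.symm) hne
      · rw [h3, h4]
      · rw [h3, h4, hw, hz'z]
      · exact absurd (h3.trans h4.symm) hne
    by_cases hNtop : N = ⊤
    · rw [hNtop, relIndex_top_right] at hidxN
      exact hidxN
    exfalso
    have hlt2 : N < normalizer (N : Set S) :=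
      Group.normalizerCondition_of_isNilpotent N (lt_top_iff_ne_top.2 hNtop)
    obtain ⟨h, hhN, hh⟩ := SetLike.exists_of_lt hlt2
    have hconjN : ∀ n, n ∈ N ↔ h * n * h⁻¹ ∈ N := fun n => mem_normalizer_iff.1 hhN n
    have hconjN' : ∀ n ∈ N, h⁻¹ * n * h ∈ N := by
      intro n hn
      rw [hconjN]
      have : h * (h⁻¹ * n * h) * h⁻¹ = n := by group
      rw [this]; exact hn
    -- h w h⁻¹ = w
    have hwh : h * w * h⁻¹ = w := by
      have hcen : ∀ n ∈ N, (h * w * h⁻¹) * n = n * (h * w * h⁻¹) := by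
        intro n hn
        have h1 := hwcen _ (hconjN' n hn)
        rw [mul_inv_eq_iff_eq_mul] at h1
        calc (h * w * h⁻¹) * n = h * (w * (h⁻¹ * n * h)) * h⁻¹ := by group
          _ = h * ((h⁻¹ * n * h) * w) * h⁻¹ := by rw [← h1]
          _ = n * (h * w * h⁻¹) := by group
      have hwN : w ∈ N := hS₀N (mul_mem hzS₀ (hP'S₀ hz'P'))
      have hhwS₀ : h * w * h⁻¹ ∈ S₀ := (hmemS₀ _).2 (hcen z (hS₀N hzS₀))
      rcases hV _ hhwS₀ (fun y hy => hcen y (hS₀N (hPS₀ hy))) (fun y hy => hcen y (hS₀N (hP'S₀ hy))) with h1 | h1 | h1 | h1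
      · exfalso; apply hw1
        have : w = h⁻¹ * (h * w * h⁻¹) * h := by group
        rw [this, h1]; group
      · exfalso
        have h3 := hcen g hgN
        rw [h1] at h3
        exact hgS ((hmemS₀ g).2 h3.symm)
      · exfalso
        have h3 := hcen g hgN
        rw [h1] at h3
        -- z' commutes with g, so z' = z
        apply hzz'
        have h4 : g * z' = g * (g * z * g⁻¹) := by rw [hz'def]
        have h5 : z' * g = g * z := by rw [hz'def]; group
        rw [h5] at h3
        exact (mul_left_cancel h3).symm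
      · exact h1
    set u := h * z * h⁻¹ with hu
    set u' := h * z' * h⁻¹ with hu'
    have huu' : u * u' = w := by
      rw [← hwh, hw, hu, hu']; group
    have husq : u * u = 1 := by
      rw [hu]
      calc h * z * h⁻¹ * (h * z * h⁻¹) = h * (z * z) * h⁻¹ := by group
        _ = 1 := by rw [hzsq]; group
    have hu'w : u' = u * w := by
      rw [← huu', ← mul_assoc, husq, one_mul]
    have huN : u ∈ N := (hconjN z).1 (hS₀N hzS₀)
    have hunot : ¬ (u = 1 ∨ u = z ∨ u = z' ∨ u = w) := by
      rintro (h1 | h1 | h1 | h1)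
      · apply hz1
        have : z = h⁻¹ * u * h := by rw [hu]; group
        rw [this, h1]; group
      · apply hh
        apply hS₀N
        rw [hmemS₀]
        rw [hu, mul_inv_eq_iff_eq_mul] at h1
        exact h1
      · apply hh
        have h3 : g⁻¹ * h ∈ S₀ := by
          rw [hmemS₀]
          have h4 : h * z = z' * h := by
            rw [hu, mul_inv_eq_iff_eq_mul] at h1
            exact h1
          calc g⁻¹ * h * z = g⁻¹ * (h * z) := by group
            _ = g⁻¹ * (z' * h) := by rw [h4]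
            _ = z * (g⁻¹ * h) := by rw [hz'def]; group
        have : h = g * (g⁻¹ * h) := by group
        rw [this]
        exact mul_mem hgN (hS₀N h3)
      · have h3 : u' = 1 := by
          have h4 : u * u' = u * 1 := by rw [huu', h1, mul_one]
          exact mul_left_cancel h4
        apply hz'1
        have : z' = h⁻¹ * u' * h := by rw [hu']; group
        rw [this, h3]; group
    -- conjugation of u by elements of N
    have huconj : ∀ n ∈ N, n * u * n⁻¹ = u ∨ n * u * n⁻¹ = u * w := by
      intro n hn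
      have h1 := hNz2 _ (hconjN' n hn)
      have h3 : n * u * n⁻¹ = h * ((h⁻¹ * n * h) * z * (h⁻¹ * n * h)⁻¹) * h⁻¹ := by
        rw [hu]; group
      rcases h1 with h1 | h1
      · left; rw [h3, h1]
      · right; rw [h3, h1, ← hu', hu'w]
    have hwnotP : w ∉ P := by
      intro h1
      have h3 : z' ∈ P := by
        have : z' = z * w := by rw [hw, ← mul_assoc, hzsq, one_mul]
        rw [this]; exact mul_mem hzP h1
      have h4 : z' ∈ P ⊓ P' := ⟨h3, hz'P'⟩
      rw [hinf, mem_bot] at h4
      exact hz'1 h4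
    have hwnotP' : w ∉ P' := by
      intro h1
      have h3 : z ∈ P' := by
        have : z = w * z' := by rw [hw, mul_assoc, hz'sq, mul_one]
        rw [this]; exact mul_mem h1 hz'P'
      have h4 : z ∈ P ⊓ P' := ⟨hzP, h3⟩
      rw [hinf, mem_bot] at h4
      exact hz1 h4
    by_cases huS : u ∈ S₀
    · -- u centralizes P and P'
      have gen : ∀ R : Subgroup S, R ≤ S₀ → (∀ s ∈ S₀, ∀ x ∈ R, s * x * s⁻¹ ∈ R) → w ∉ R → ∀ y ∈ R, u * y = y * u := by
        intro R hRS hRn hwR y hy
        have h1 : u * y * u⁻¹ * y⁻¹ ∈ R := mul_mem (hRn u huS y hy) (inv_mem hy)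
        have h3 := huconj y (hS₀N (hRS hy))
        rcases h3 with h3 | h3
        · rw [mul_inv_eq_iff_eq_mul] at h3
          exact h3.symm
        · exfalso
          apply hwR
          have h4 : w = u⁻¹ * (y * u * y⁻¹) := by rw [h3]; group
          have h5 : (u * y * u⁻¹ * y⁻¹) = u * w⁻¹ * u⁻¹ := by
            rw [h4]; group
          have h6 := hRn _ (inv_mem huS) _ h1
          rw [h5] at h6
          have h7 : u⁻¹ * (u * w⁻¹ * u⁻¹) * u⁻¹⁻¹ = w⁻¹ := by group
          rw [h7] at h6
          simpa using inv_mem h6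
      exact hunot (hV u huS (gen P hPS₀ hPn hwnotP) (gen P' hP'S₀ hPn' hwnotP'))
    · -- u ∉ S₀
      have hgu : g⁻¹ * u ∈ S₀ := (hNdec u huN).resolve_left huS
      have huP : ∀ y ∈ P, u * y * u⁻¹ ∈ P' := by
        intro y hy
        have h1 := hmemP'2 _ (hPn _ hgu y hy)
        have : g * (g⁻¹ * u * y * (g⁻¹ * u)⁻¹) * g⁻¹ = u * y * u⁻¹ := by group
        rwa [this] at h1
      have hP2 : ∀ y ∈ P, y = 1 ∨ y = z := by
        intro y hy
        have h1 := huconj y (hS₀N (hPS₀ hy))
        have h3 := huP y⁻¹ (inv_mem hy)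
        have h4 : y * (u * y⁻¹ * u⁻¹) = (y * u * y⁻¹) * u⁻¹ := by group
        rcases h1 with h1 | h1
        · left
          rw [h1, mul_inv_cancel] at h4
          have h5 : y ∈ P ⊓ P' := by
            refine ⟨hy, ?_⟩
            have : y = (u * y⁻¹ * u⁻¹)⁻¹ := eq_inv_of_mul_eq_one_left h4
            rw [this]; exact P'.inv_mem h3
          rw [hinf, mem_bot] at h5
          exact h5
        · right
          have h6 : u * w * u⁻¹ = w := hwcen u huN
          rw [h1, h6] at h4
          -- y * p'' = z * z'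
          have h5 : z⁻¹ * y ∈ P ⊓ P' := by
            refine ⟨P.mul_mem (P.inv_mem hzP) hy, ?_⟩
            have : z⁻¹ * y = z' * (u * y⁻¹ * u⁻¹)⁻¹ := by
              rw [eq_mul_inv_iff_mul_eq, mul_assoc, h4, hw]; group
            rw [this]; exact P'.mul_mem hz'P' (P'.inv_mem h3)
          rw [hinf, mem_bot, inv_mul_eq_one] at h5
          exact h5.symm
      apply hP
      refine ⟨⟨?_⟩⟩
      rintro ⟨a, ha⟩ ⟨b, hb⟩
      apply Subtype.ext
      change a * b = b * a
      rcases hP2 a ha with h1 | h1 <;> rcases hP2 b hb with h3 | h3 <;> rw [h1, h3] <;> simp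

end Cfsg.Agent.S4401
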