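import Cfsg.Statements.S4402
import Cfsg.Agent.Lib.H25.WrG

set_option autoImplicit false
open Cfsg

namespace Cfsg.Agent.S4402

/-- Let S be a finite 2-group of sectional 2-rank at most 4 and P a proper subgroup isomorphic to the wreath product of the dihedral group of order 8 by a group of order 2 (equivalently, to a Sylow 2-subgroup of the symmetric group of degree 8; order 128). Then Z(S) = Z(P) has order 2, P has index 2 in its normalizer N_S(P), N_S(P)/Z(S) is again isomorphic to that wreath product, and every elementary abelian subgroup V of order 16 that is normal in P satisfies N_S(V) = P. -/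
theorem result {S : Type*} [Group S] [Finite S] (h2 : IsPGroup 2 S) (hr : Cfsg.SectionalPRankLE 2 4 S)
    (P : Subgroup S) (hPlt : P ≠ ⊤) (hP : ∃ T : Sylow 2 (Equiv.Perm (Fin 8)), Nonempty (↥P ≃* ↥(T : Subgroup (Equiv.Perm (Fin 8))))) :
    Subgroup.center S = (Subgroup.center ↥P).map P.subtype ∧ Nat.card ↥(Subgroup.center S) = 2 ∧
    P.relIndex (Subgroup.normalizer (P : Set S)) = 2 ∧
    (∃ (_ : ((Subgroup.center S).subgroupOf (Subgroup.normalizer (P : Set S))).Normal) (T : Sylow 2 (Equiv.Perm (Fin 8))),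
      Nonempty (↥(Subgroup.normalizer (P : Set S)) ⧸ (Subgroup.center S).subgroupOf (Subgroup.normalizer (P : Set S)) ≃*
        ↥(T : Subgroup (Equiv.Perm (Fin 8))))) ∧
    ∀ V : Subgroup S, V ≤ P → (∀ g ∈ P, ∀ v ∈ V, g * v * g⁻¹ ∈ V) → Cfsg.IsElementaryAbelian 2 V → Nat.card ↥V = 16 →
      Subgroup.normalizer (V : Set S) = P := by
  obtain ⟨e⟩ := H25.Wr.equiv_of hP
  let ν : H25.Wr.W →* S := P.subtype.comp e.toMonoidHom
  have hν : Function.Injective ν := P.subtype_injective.comp e.injective
  have hrange : ν.range = P := by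
    ext x
    constructor
    · rintro ⟨w, rfl⟩; exact (e w).2
    · intro hx
      obtain ⟨w, hw⟩ := e.surjective ⟨x, hx⟩
      exact ⟨w, congrArg Subtype.val hw⟩
  rw [← hrange] at hPlt
  have hmain := H25.Wr.main h2 hr ν hν hPlt
  rw [hrange] at hmain
  refine ⟨?_, hmain.1, hmain.2.1, hmain.2.2, ?_⟩
  · ext x
    rw [H25.Wr.center_iff h2 hr ν hν x]
    constructor
    · rintro (rfl | rfl)
      · exact Subgroup.one_mem _
      · refine ⟨e H25.Wr.z, ?_, rfl⟩
        rw [SetLike.mem_coe, Subgroup.mem_center_iff]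
        intro g
        obtain ⟨w, rfl⟩ := e.surjective g
        rw [← map_mul, ← map_mul, H25.Wr.z_cen]
    · rintro ⟨p, hp, rfl⟩
      obtain ⟨w, rfl⟩ := e.surjective p
      rw [SetLike.mem_coe, Subgroup.mem_center_iff] at hp
      rcases H25.Wr.L3 w (fun g => e.injective (by rw [map_mul, map_mul, hp])) with h | h
      · left; rw [h, map_one]; rfl
      · right; rw [h]; rfl
  · intro V hVP hVn hVe hVc
    have hVr : V ≤ ν.range := by rw [hrange]; exact hVP
    have hV : (V.comap ν).map ν = V := Subgroup.map_comap_eq_self hVr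
    have hc : Nat.card (V.comap ν) = 16 := by
      rw [← hVc, ← Subgroup.card_map_of_injective hν, hV]
    have h1 := H25.Wr.P2 (V.comap ν) (fun v hv g => by
        rw [Subgroup.mem_comap] at hv ⊢
        rw [map_mul, map_mul, map_inv]
        exact hVn _ (by rw [← hrange]; exact ⟨g, rfl⟩) _ hv)
      (fun v hv => hν (by
        rw [Subgroup.mem_comap] at hv
        rw [map_mul, map_one, ← sq]
        exact hVe.2 _ hv)) hc
    rcases h1 with h1 | h1
    · rw [← hV, h1, H25.Wr.normA h2 hr ν hν, hrange]
    · rw [← hV, h1, H25.Wr.normB h2 hr ν hν, hrange]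

end Cfsg.Agent.S4402
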