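import Cfsg.Statements.S4403
import Mathlib
import Cfsg.Agent.Lib.H72.CyclicSylow
import Cfsg.Agent.Lib.H2.CycP
import Cfsg.Agent.Lib.H26.Components

set_option autoImplicit false
open Cfsg

namespace Cfsg.Agent.S4403

open Subgroup

theorem cyc_quot {K A : Type*} [Group K] [Group A] [IsCyclic A] (N : Subgroup K) [N.Normal] (φ : K →* A)
    (h : φ.ker = N) : IsCyclic (K ⧸ N) := by
  subst h
  exact isCyclic_of_injective (QuotientGroup.kerLift φ) (QuotientGroup.kerLift_injective φ)

theorem nilp_of_comm {K : Type*} [Group K] (h : ∀ a b : K, a * b = b * a) : Group.IsNilpotent K := by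
  letI : CommGroup K := { (inferInstance : Group K) with mul_comm := h }
  exact CommGroup.isNilpotent

/-- Let K be a finite group, p a prime dividing its order with O_{p'}(K) = 1 (no nontrivial normal subgroup of order prime to p), and P a cyclic Sylow p-subgroup of K. Then either P is normal and self-centralizing in K with K/P cyclic of order dividing p − 1 (so K is the semidirect product of P by a group of automorphisms of P of order dividing p − 1), or the generalized Fitting subgroup F*(K) is a non-abelian simple group and p does not divide the index of F*(K) in K. -/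
theorem result {K : Type*} [Group K] [Finite K] (p : ℕ) [Fact p.Prime] (hp : p ∣ Nat.card K) (hO : Cfsg.pPrimeCore p K = ⊥)
    (P : Sylow p K) (hP : IsCyclic ↥(P : Subgroup K)) :
    ((P : Subgroup K).Normal ∧ Subgroup.centralizer ((P : Subgroup K) : Set K) = (P : Subgroup K) ∧
      (∀ (_ : (P : Subgroup K).Normal), IsCyclic (K ⧸ (P : Subgroup K))) ∧ (P : Subgroup K).index ∣ p - 1) ∨
    (IsSimpleGroup ↥(Cfsg.generalizedFittingSubgroup K) ∧ ¬ IsMulCommutative ↥(Cfsg.generalizedFittingSubgroup K) ∧
      ¬ p ∣ (Cfsg.generalizedFittingSubgroup K).index) := by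
  have hPf : Fact p.Prime := inferInstance
  have hpp := hPf.out
  have hPc := H72.CyclicSylow.le_centralizer_of_isCyclic (P : Subgroup K) hP
  by_cases hOp : pCore p K = ⊥
  · -- case `O_p(K) = 1`
    right
    have hF : fittingSubgroup K = ⊥ := by
      rw [H1.Cores.fittingSubgroup_eq_pCore_of p hO, hOp]
    have hFs : generalizedFittingSubgroup K = layer K := by
      rw [generalizedFittingSubgroup, hF, sup_bot_eq]
    have hKnt : Nontrivial K := by
      rw [← Finite.one_lt_card_iff_nontrivial]
      exact lt_of_lt_of_le hpp.one_lt (Nat.le_of_dvd Nat.card_pos hp)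
    have hne : layer K ≠ ⊥ := by
      intro h
      have h1 := H26.Components.centralizer_gFitting_le (G := K)
      rw [hFs, h] at h1
      obtain ⟨a, ha⟩ := exists_ne (1 : K)
      apply ha
      rw [← mem_bot]
      apply h1
      rw [mem_centralizer_iff]
      intro b hb
      rw [mem_bot.mp hb, one_mul, mul_one]
    -- a component
    obtain ⟨L, hL⟩ : ∃ L : Subgroup K, IsComponent L := by
      by_contra hcon
      push Not at hcon
      exact hne (H26.Components.layer_eq_bot_iff.mpr hcon)
    have hdiv : ∀ M : Subgroup K, IsComponent M → p ∣ Nat.card M := by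
      intro M hM
      by_contra hnd
      have h1 := H26.Subnormal.le_pPrimeCore hM.1 (p := p) ((Nat.Prime.coprime_iff_not_dvd hpp).mpr hnd).symm
      rw [hO, le_bot_iff] at h1
      exact H26.Components.ne_bot hM h1
    have huniq : ∀ M : Subgroup K, IsComponent M → M = L := by
      intro M hM
      by_contra hML
      have hcomm := H26.Components.commutator_eq_bot_of_ne hM hL hML
      obtain ⟨x, hx⟩ := exists_prime_orderOf_dvd_card' p (hdiv M hM)
      obtain ⟨y, hy⟩ := exists_prime_orderOf_dvd_card' p (hdiv L hL)
      rw [← Subgroup.orderOf_coe] at hx hy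
      have hxy : Commute (x : K) y := by
        have := Subgroup.commutator_eq_bot_iff_le_centralizer.mp hcomm x.2
        exact (mem_centralizer_iff.mp this y y.2).symm
      have hcomm' : ∀ a ∈ M, ∀ b ∈ L, a * b = b * a := by
        intro a ha b hb
        have := Subgroup.commutator_eq_bot_iff_le_centralizer.mp hcomm ha
        exact (mem_centralizer_iff.mp this b hb).symm
      have hinf : M ⊓ L = ⊥ := by
        rw [eq_bot_iff, ← hF]
        have hML' : ((M ⊓ L).subgroupOf M).map M.subtype = M ⊓ L := map_subgroupOf_eq_of_le inf_le_left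
        have hsub : (M ⊓ L).IsSubnormal := by
          rw [← hML', H26.Subnormal.map_subtype_iff hM.1]
          have : ((M ⊓ L).subgroupOf M).Normal := by
            constructor
            intro a ha g
            rw [mem_subgroupOf] at ha ⊢
            have h1 := hcomm' g g.2 a ha.2
            have h2 : ((g * a * g⁻¹ : M) : K) = a := by
              simp only [Subgroup.coe_mul, Subgroup.coe_inv]
              rw [h1, mul_inv_cancel_right]
            rw [h2]; exact ha
          exact this.isSubnormal
        apply H26.Subnormal.le_fittingSubgroup hsub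
        exact nilp_of_comm (fun a b => Subtype.ext (hcomm' a a.2.1 b b.2.2))
      have hxp : IsPGroup p (zpowers (x : K)) := IsPGroup.of_card (n := 1) (by rw [Nat.card_zpowers, hx, pow_one])
      have hyp : IsPGroup p (zpowers (y : K)) := IsPGroup.of_card (n := 1) (by rw [Nat.card_zpowers, hy, pow_one])
      have hsup : IsPGroup p (zpowers (x : K) ⊔ zpowers (y : K) : Subgroup K) := by
        apply hxp.to_sup_of_normal_right' hyp
        rw [zpowers_le, mem_normalizer_iff]
        intro b
        constructor
        · intro hb
          obtain ⟨n, rfl⟩ := mem_zpowers_iff.mp hb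
          rw [(hxy.zpow_right n).eq, mul_inv_cancel_right]
          exact hb
        · intro hb
          obtain ⟨n, hn⟩ := mem_zpowers_iff.mp hb
          have h1 : b = (y : K) ^ n := by
            have : b = (x : K)⁻¹ * ((x : K) * b * (x : K)⁻¹) * x := by group
            rw [this, ← hn, ← (hxy.zpow_right n).inv_left.eq.symm]
            group
          rw [h1]; exact zpow_mem (mem_zpowers _) n
      obtain ⟨P', hP'⟩ := hsup.exists_le_sylow
      have hbot : zpowers (x : K) ⊓ zpowers (y : K) = ⊥ := by
        rw [eq_bot_iff, ← hinf]
        apply inf_le_inf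
        · rw [zpowers_le]; exact x.2
        · rw [zpowers_le]; exact y.2
      rcases H2.CycP.cyclic_dichotomy' (H72.CyclicSylow.isCyclic_conj P P' hP) P'.2
        (le_sup_left.trans hP') (le_sup_right.trans hP') hbot with h | h
      · rw [zpowers_eq_bot] at h
        rw [h, orderOf_one] at hx
        exact hpp.one_lt.ne hx
      · rw [zpowers_eq_bot] at h
        rw [h, orderOf_one] at hy
        exact hpp.one_lt.ne hy
    have hlay : layer K = L := by
      apply le_antisymm
      · apply sSup_le
        intro M hM
        rw [huniq M hM]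
      · exact H26.Components.le_layer hL
    have hLn : L.Normal := by rw [← hlay]; infer_instance
    have hcent : center L = ⊥ := by
      have h1 : (center L).map L.subtype ≤ fittingSubgroup K := by
        apply H1.Cores.le_fittingSubgroup inferInstance
        apply nilp_of_comm
        rintro ⟨_, a, ha, rfl⟩ ⟨_, b, hb, rfl⟩
        apply Subtype.ext
        exact congrArg (Subtype.val : L → K) (mem_center_iff.mp hb a)
      rw [hF, le_bot_iff, map_eq_bot_iff_of_injective _ L.subtype_injective] at h1
      exact h1
    have hsimple : IsSimpleGroup L := by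
      have : Nontrivial L := H26.Quasisimple.nontrivial hL.2
      refine ⟨fun N hN => ?_⟩
      rcases H26.Quasisimple.normal_eq_top_or_le_center hL.2 N with h | h
      · exact Or.inr h
      · left; rw [hcent, le_bot_iff] at h; exact h
    rw [hFs, hlay]
    refine ⟨hsimple, H26.Quasisimple.not_isMulCommutative hL.2, ?_⟩
    intro hdvd
    obtain ⟨Q, N, hN, hNQ⟩ := H72.CyclicSylow.hasNormalPComplement_normal P hP L hdvd
    rcases hN.eq_bot_or_eq_top with h | h
    · subst h
      have h1 : (Q : Subgroup L) = ⊤ := isComplement'_bot_left.mp hNQ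
      have h2 : IsPGroup p (⊤ : Subgroup L) := by rw [← h1]; exact Q.2
      have h3 : IsPGroup p L := h2.of_equiv topEquiv
      exact H26.Quasisimple.not_isNilpotent hL.2 h3.isNilpotent
    · subst h
      have h1 : (Q : Subgroup L) = ⊥ := isComplement'_top_left.mp hNQ
      exact Q.ne_bot_of_dvd_card (hdiv L hL) h1
  · -- case `O_p(K) ≠ 1`
    left
    have hOP : pCore p K ≤ P := H1.Cores.pCore_le_sylow P
    obtain ⟨x, hxO, hxo⟩ := H2.CycP.exists_orderOf_eq hOp (H1.Cores.isPGroup_pCore p)
    have hOcyc : IsCyclic (pCore p K) := by
      have : IsCyclic ((pCore p K).subgroupOf (P : Subgroup K)) := inferInstance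
      exact isCyclic_of_surjective (subgroupOfEquivOfLe hOP) (subgroupOfEquivOfLe hOP).surjective
    set Z := zpowers x with hZ
    have hZn : Z.Normal := by
      constructor
      intro z hz g
      have h1 : g * x * g⁻¹ ∈ pCore p K := (inferInstance : (pCore p K).Normal).conj_mem _ hxO _
      have h2 := H2.CycP.zpowers_eq_of_orderOf_eq hOcyc (a := ⟨g * x * g⁻¹, h1⟩) (b := ⟨x, hxO⟩) (by
        rw [← Subgroup.orderOf_coe, ← Subgroup.orderOf_coe]
        exact (MulAut.conj g).orderOf_eq x)
      have h3 : g * x * g⁻¹ ∈ Z := by
        have h4 : (⟨g * x * g⁻¹, h1⟩ : pCore p K) ∈ zpowers (⟨x, hxO⟩ : pCore p K) := by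
          rw [← h2]; exact mem_zpowers _
        obtain ⟨n, hn⟩ := mem_zpowers_iff.mp h4
        rw [hZ, mem_zpowers_iff]
        exact ⟨n, congrArg Subtype.val hn⟩
      obtain ⟨n, rfl⟩ := mem_zpowers_iff.mp hz
      rw [← conj_zpow]
      exact zpow_mem h3 n
    set C := centralizer (Z : Set K) with hC
    have hZP : Z ≤ P := by rw [hZ, zpowers_le]; exact hOP hxO
    have hPC : (P : Subgroup K) ≤ C := hPc.trans (centralizer_le hZP)
    have hCn : C.Normal := inferInstance
    have hZC : Z ≤ C := hZP.trans hPC
    obtain ⟨Q, N, hN, hNQ⟩ := H72.CyclicSylow.hasNormalPComplement_of_central (P.subtype hPC) (by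
      have : IsCyclic ((P : Subgroup K).subgroupOf C) := isCyclic_of_surjective (subgroupOfEquivOfLe hPC).symm (subgroupOfEquivOfLe hPC).symm.surjective
      exact this) (Z.subgroupOf C) (by
        intro z hz
        exact hZP hz) (by
        intro h
        rw [subgroupOf_eq_bot, disjoint_iff, inf_eq_left.mpr hZC, hZ, zpowers_eq_bot] at h
        rw [h, orderOf_one] at hxo
        exact hpp.one_lt.ne hxo) (by
        intro z hz
        rw [mem_center_iff]
        intro g
        apply Subtype.ext
        exact (mem_centralizer_iff.mp g.2 _ hz).symm)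
    have hNb : N = ⊥ := by
      have h1 : N ≤ pPrimeCore p C := by
        apply H1.Cores.le_pPrimeCore hN
        rw [← hNQ.index_eq_card]
        exact ((Nat.Prime.coprime_iff_not_dvd hpp).mpr Q.not_dvd_index).symm
      have h2 : (pPrimeCore p C).map C.subtype = ⊥ := by
        rw [H1.Cores.map_subtype_pPrimeCore, hO, inf_bot_eq]
      rw [map_eq_bot_iff_of_injective _ C.subtype_injective] at h2
      rw [eq_bot_iff, ← h2]; exact h1
    have hCp : IsPGroup p C := by
      subst hNb
      have h1 : (Q : Subgroup C) = ⊤ := isComplement'_bot_left.mp hNQ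
      have h2 : IsPGroup p (⊤ : Subgroup C) := by rw [← h1]; exact Q.2
      exact h2.of_equiv topEquiv
    have hCP : C = P := P.3 hCp hPC
    have hPn : (P : Subgroup K).Normal := by rw [← hCP]; exact hCn
    have hker : (MulAut.conjNormal : K →* MulAut Z).ker = P := by
      rw [← hCP]
      ext g
      rw [MonoidHom.mem_ker, mem_centralizer_iff]
      constructor
      · intro h z hz
        have h1 := congrArg (fun f : MulAut Z => ((f ⟨z, hz⟩ : Z) : K)) h
        simp only [MulAut.conjNormal_apply, MulAut.one_apply] at h1
        rw [mul_inv_eq_iff_eq_mul] at h1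
        exact h1.symm
      · intro h
        ext z
        rw [MulAut.conjNormal_apply, MulAut.one_apply, ← h z z.2, mul_inv_cancel_right]
    have hZcyc : IsCyclic Z := inferInstance
    have hZcard : Nat.card Z = p := by rw [hZ, Nat.card_zpowers, hxo]
    have hA : IsCyclic (MulAut Z) := by
      have h1 : IsCyclic (ZMod (Nat.card Z))ˣ := by rw [hZcard]; exact ZMod.isCyclic_units_prime hpp
      exact isCyclic_of_surjective (IsCyclic.mulAutMulEquiv Z).symm (IsCyclic.mulAutMulEquiv Z).symm.surjective
    have hcardA : Nat.card (MulAut Z) = p - 1 := by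
      rw [IsCyclic.card_mulAut, hZcard, Nat.totient_prime hpp]
    refine ⟨hPn, ?_, ?_, ?_⟩
    · apply le_antisymm _ hPc
      rw [← hCP]
      conv_rhs => rw [hC]
      rw [hCP]
      exact centralizer_le hZP
    · intro _
      have := hA
      exact cyc_quot _ _ hker
    · rw [← hker, index_ker, ← hcardA]
      exact card_subgroup_dvd_card _

end Cfsg.Agent.S4403
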