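import Cfsg.Statements.S4405
import Mathlib
import Cfsg.Agent.Lib.H76.FixPt
import Cfsg.Agent.Lib.H91.LargeExtra
import Cfsg.Agent.Lib.H4.Burnside
import Cfsg.Agent.Lib.H1.Solv

set_option autoImplicit false
open Cfsg

namespace Cfsg.Agent.S4405

open Subgroup H76.FixPt

/-- the element of order 5 is inverted modulo `O₂(G)` -/
theorem inverted {G : Type*} [Group G] [Finite G]
    (hG : Nat.card G = 320) (h32 : Nat.card ↥(Cfsg.pCore 2 G) = 32)
    (T : G) (hT : orderOf T = 2) (hTH : T ∉ Cfsg.pCore 2 G) (x : G) (hx : orderOf x = 5) :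
    T * x * T⁻¹ * x ∈ Cfsg.pCore 2 G := by
  set H := Cfsg.pCore 2 G with hH
  have hHp : IsPGroup 2 H := H1.Cores.isPGroup_pCore 2
  have hf5 : Fact (Nat.Prime 5) := ⟨by norm_num⟩
  set mk := QuotientGroup.mk' H with hmk
  have hker : ∀ g, mk g = 1 ↔ g ∈ H := fun g => QuotientGroup.eq_one_iff g
  have hQ : Nat.card (G ⧸ H) = 10 := by
    have h1 := H.card_mul_index
    rw [h32, hG, index_eq_card] at h1
    omega
  have hxH : x ∉ H := by
    intro hxH
    obtain ⟨k, hk⟩ := hHp ⟨x, hxH⟩
    have h2 : x ^ 2 ^ k = 1 := congrArg Subtype.val hk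
    have h3 := orderOf_dvd_of_pow_eq_one h2
    rw [hx] at h3
    have := (Nat.prime_dvd_prime_iff_eq (by norm_num) (by norm_num)).mp ((by norm_num : (5).Prime).dvd_of_dvd_pow h3)
    omega
  have hx5 : (mk x) ^ 5 = 1 := by rw [← map_pow, ← hx, pow_orderOf_eq_one, map_one]
  have hxo : orderOf (mk x) = 5 := by
    apply orderOf_eq_prime hx5
    intro h
    exact hxH ((hker x).mp h)
  have hT2 : T * T = 1 := by rw [← sq, ← hT, pow_orderOf_eq_one]
  have hTo : orderOf (mk T) = 2 := by
    apply orderOf_eq_prime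
    · rw [sq, ← map_mul, hT2, map_one]
    · intro h; exact hTH ((hker T).mp h)
  have hZn : (zpowers (mk x)).Normal := by
    apply normal_of_index_eq_two
    have h1 := (zpowers (mk x)).card_mul_index
    rw [Nat.card_zpowers, hxo, hQ] at h1
    omega
  set c := mk T * mk x * (mk T)⁻¹ with hc
  have hcZ : c ∈ zpowers (mk x) := hZn.conj_mem _ (mem_zpowers _) _
  have hcomm : c * mk x = mk x * c := by
    obtain ⟨n, hn⟩ := mem_zpowers_iff.mp hcZ
    rw [← hn]; exact ((Commute.refl (mk x)).zpow_left n).eq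
  have hTT : mk T * mk T = 1 := by rw [← map_mul, hT2, map_one]
  have hTinv : (mk T)⁻¹ = mk T := inv_eq_of_mul_eq_one_right hTT
  have hTc : mk T * c * (mk T)⁻¹ = mk x := by
    rw [hc, hTinv]
    calc mk T * (mk T * mk x * mk T) * mk T = (mk T * mk T) * mk x * (mk T * mk T) := by group
      _ = mk x := by rw [hTT, one_mul, mul_one]
  by_contra hnot
  have hy : c * mk x ≠ 1 := by
    intro h
    apply hnot
    rw [← hker, map_mul, map_mul, map_mul, map_inv]
    exact h
  -- `T` centralizes `y = c x`
  set y := c * mk x with hyd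
  have hTy : mk T * y = y * mk T := by
    have : mk T * y * (mk T)⁻¹ = y := by
      calc mk T * y * (mk T)⁻¹ = (mk T * c * (mk T)⁻¹) * (mk T * mk x * (mk T)⁻¹) := by rw [hyd]; group
        _ = mk x * c := by rw [hTc]
        _ = y := by rw [← hcomm]
    rw [mul_inv_eq_iff_eq_mul] at this
    exact this
  have hyo : orderOf y = 5 := by
    have h1 : y ∈ zpowers (mk x) := mul_mem hcZ (mem_zpowers _)
    apply orderOf_eq_prime _ hy
    obtain ⟨n, hn⟩ := mem_zpowers_iff.mp h1
    rw [← hn, ← zpow_natCast, ← zpow_mul, mul_comm, zpow_mul, zpow_natCast, hx5, one_zpow]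
  -- the centralizer of `T` is everything
  have hcent : centralizer {mk T} = ⊤ := by
    rw [← card_eq_iff_eq_top]
    have h5 : 5 ∣ Nat.card (centralizer {mk T}) := by
      rw [← hyo, ← Nat.card_zpowers]
      apply card_dvd_of_le
      rw [zpowers_le, mem_centralizer_singleton_iff]
      exact hTy.symm
    have h2 : orderOf (mk T) ∣ Nat.card (centralizer {mk T}) := by
      rw [← Nat.card_zpowers]
      apply card_dvd_of_le
      rw [zpowers_le, mem_centralizer_singleton_iff]
    rw [hTo] at h2
    have h10 : Nat.card (centralizer {mk T}) ∣ 10 := by rw [← hQ]; exact card_subgroup_dvd_card _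
    have hle := Nat.le_of_dvd (by norm_num) h10
    have h10' : 10 ∣ Nat.card (centralizer {mk T}) :=
      Nat.Coprime.mul_dvd_of_dvd_of_dvd (by norm_num) h2 h5
    rw [hQ]
    exact Nat.dvd_antisymm h10 h10'
  have hTnorm : (zpowers (mk T)).Normal := by
    constructor
    intro a ha g
    have h1 : a ∈ centralizer {g} := by
      obtain ⟨n, rfl⟩ := mem_zpowers_iff.mp ha
      apply zpow_mem
      rw [mem_centralizer_singleton_iff]
      have : g ∈ centralizer {mk T} := by rw [hcent]; exact mem_top _
      rw [mem_centralizer_singleton_iff] at this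
      exact this.symm
    rw [mem_centralizer_singleton_iff] at h1
    rw [← h1, mul_inv_cancel_right]; exact ha
  apply hTH
  have hpre : IsPGroup 2 ((zpowers (mk T)).comap mk) := by
    apply IsPGroup.comap_of_ker_isPGroup
    · apply IsPGroup.of_card (n := 1)
      rw [Nat.card_zpowers, hTo, pow_one]
    · rw [hmk, QuotientGroup.ker_mk']; exact hHp
  exact H1.Cores.le_pCore (hTnorm.comap mk) hpre (mem_comap.mpr (mem_zpowers _))

/-- Let G be a finite group of order 320 = 64·5 whose largest normal 2-subgroup H = O₂(G) equals the Fitting subgroup F(G) and is extraspecial of order 32 containing no elementary abelian subgroup of order 8 (so H is the central product of a quaternion group and a dihedral group of order 8). If T is an involution of G outside H whose centralizer in H contains an elementary abelian subgroup of order 4, then C_H(T) itself is elementary abelian of order 4. -/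
theorem result {G : Type*} [Group G] [Finite G]
    (hG : Nat.card G = 320) (hHF : Cfsg.pCore 2 G = Cfsg.fittingSubgroup G)
    (hex : Cfsg.IsExtraspecial 2 ↥(Cfsg.pCore 2 G)) (h32 : Nat.card ↥(Cfsg.pCore 2 G) = 32)
    (hminus : ∀ A : Subgroup G, A ≤ Cfsg.pCore 2 G → Cfsg.IsElementaryAbelian 2 A → Nat.card ↥A ≤ 4)
    (T : G) (hT : orderOf T = 2) (hTH : T ∉ Cfsg.pCore 2 G)
    (V : Subgroup G) (hV : V ≤ Cfsg.pCore 2 G ⊓ Subgroup.centralizer ({T} : Set G)) (hV4 : Nat.card ↥V = 4) (hVe : Cfsg.IsElementaryAbelian 2 V) :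
    Nat.card ↥(Cfsg.pCore 2 G ⊓ Subgroup.centralizer ({T} : Set G)) = 4 ∧
      Cfsg.IsElementaryAbelian 2 (Cfsg.pCore 2 G ⊓ Subgroup.centralizer ({T} : Set G)) := by
  set H := Cfsg.pCore 2 G with hH
  have hHp : IsPGroup 2 H := H1.Cores.isPGroup_pCore 2
  have hsol : Group.IsSolvable G := H4.Burnside.isSolvable_of_card_eq 2 5 (by norm_num) (by norm_num) 320 G hG
    ⟨6, 1, by norm_num⟩
  have hCH : centralizer (H : Set G) ≤ H := by
    have := H1.Solv.centralizer_fitting_le (G := G) hsol
    rwa [← hHF] at this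
  obtain ⟨z, hzH, hz1, hz2, hcz, hcz', hzc, hctr, hcomm, hsq⟩ := H91.LargeExtra.exists_z hex
  -- `Z = ⟨z⟩` is normal in `G`
  set Z := (center H).map H.subtype with hZ
  have hZn : Z.Normal := inferInstance
  have hZcard : Nat.card Z = 2 := by
    rw [hcz, Nat.card_zpowers]
    exact orderOf_eq_prime (by rw [sq, hz2]) hz1
  have hzcent : ∀ g : G, g * z = z * g := by
    intro g
    have h1 := hZn.conj_mem z ((hcz' z).mpr (Or.inr rfl)) g
    rcases (hcz' _).mp h1 with h | h
    · exfalso
      rw [conj_eq_one_iff] at h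
      exact hz1 h
    · rw [mul_inv_eq_iff_eq_mul] at h
      exact h
  have hT2 : T * T = 1 := by rw [← sq, ← hT, pow_orderOf_eq_one]
  have hTinv : T⁻¹ = T := inv_eq_of_mul_eq_one_right hT2
  set C := H ⊓ centralizer ({T} : Set G) with hC
  have hZH : Z ≤ H := map_subtype_le _
  have hmemC : ∀ c, c ∈ C ↔ c ∈ H ∧ c * T = T * c := by
    intro c
    rw [hC, mem_inf, mem_centralizer_singleton_iff]
  -- it is enough to bound `|C|`
  suffices hle : Nat.card C ≤ 4 by
    have hVC : V = C := eq_of_le_of_card_ge hV (by rw [hV4]; exact hle)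
    rw [← hVC]
    exact ⟨hV4, hVe⟩
  by_contra hlt
  push Not at hlt
  -- element of order 5
  have hf5 : Fact (Nat.Prime 5) := ⟨by norm_num⟩
  obtain ⟨x, hx⟩ := exists_prime_orderOf_dvd_card' (G := G) 5 (by rw [hG]; norm_num)
  have hinv := inverted hG h32 T hT hTH x hx
  -- pass to `G / Z`
  set mk := QuotientGroup.mk' Z with hmk
  have hker : ∀ g, mk g = 1 ↔ g ∈ Z := fun g => QuotientGroup.eq_one_iff g
  have hker2 : ∀ g h, mk g = mk h ↔ (g = h ∨ g = h * z) := by
    intro g h
    rw [← div_eq_one, ← map_div, hker, hcz', div_eq_mul_inv]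
    constructor
    · rintro (h1 | h1)
      · left; rw [mul_inv_eq_one] at h1; exact h1
      · right; rw [mul_inv_eq_iff_eq_mul] at h1; rw [h1, hzcent]
    · rintro (h1 | h1)
      · left; rw [h1, mul_inv_cancel]
      · right; rw [h1, hzcent, mul_inv_cancel_right]
  set A := H.map mk with hA
  have hAn : A.Normal := (inferInstance : H.Normal).map _ (QuotientGroup.mk'_surjective _)
  have hAcard : Nat.card A = 16 := by
    have h1 := relIndex_mul_relIndex ⊥ Z H bot_le hZH
    rw [relIndex_bot_left, relIndex_bot_left, hZcard, h32] at h1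
    have h2 : Nat.card A = Z.relIndex H := by
      have hk := QuotientGroup.ker_mk' Z
      calc Nat.card A = (QuotientGroup.mk' Z).ker.relIndex H := by rw [relIndex_ker]
        _ = _ := by rw [hk]
    rw [h2]; omega
  have hAc : ∀ a ∈ A, ∀ b ∈ A, a * b = b * a := by
    rintro _ ⟨a, ha, rfl⟩ _ ⟨b, hb, rfl⟩
    rw [← map_mul, ← map_mul, hker2]
    rcases hcomm a ha b hb with h | h
    · left
      rw [mul_inv_eq_one, mul_inv_eq_iff_eq_mul] at h; exact h
    · right
      rw [mul_inv_eq_iff_eq_mul, mul_inv_eq_iff_eq_mul] at h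
      rw [h, mul_assoc, ← hzcent (b * a)]
  have hA2 : ∀ a ∈ A, a * a = 1 := by
    rintro _ ⟨a, ha, rfl⟩
    rw [← map_mul, hker, hcz']
    exact hsq a ha
  have hx5 : (mk x) ^ 5 = 1 := by rw [← map_pow, ← hx, pow_orderOf_eq_one, map_one]
  have hxo : orderOf (mk x) = 5 := by
    apply orderOf_eq_prime hx5
    intro h
    rcases (hcz' x).mp ((hker x).mp h) with h | h
    · rw [h, orderOf_one] at hx; omega
    · have : orderOf x = 2 := by rw [h]; exact orderOf_eq_prime (by rw [sq, hz2]) hz1
      omega
  -- `x` is fixed-point-free on `A`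
  have hfix : ∀ a ∈ A, mk x * a = a * mk x → a = 1 := by
    have h1 := card_modEq_inf_centralizer 5 A (mk x) (k := 1) (by rw [hxo, pow_one])
    rw [hAcard] at h1
    have h2 : Nat.card (A ⊓ centralizer {mk x} : Subgroup (G ⧸ Z)) ∣ 16 := by
      rw [← hAcard]; exact card_dvd_of_le inf_le_left
    have h3 : Nat.card (A ⊓ centralizer {mk x} : Subgroup (G ⧸ Z)) = 1 ∨
        Nat.card (A ⊓ centralizer {mk x} : Subgroup (G ⧸ Z)) = 16 := by
      set m := Nat.card (A ⊓ centralizer {mk x} : Subgroup (G ⧸ Z)) with hm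
      have hm16 : m ≤ 16 := Nat.le_of_dvd (by norm_num) h2
      clear_value m
      interval_cases m <;> revert h1 h2 <;> decide
    rcases h3 with h3 | h3
    · rw [card_eq_one] at h3
      intro a ha hxa
      have : a ∈ (A ⊓ centralizer {mk x} : Subgroup (G ⧸ Z)) := ⟨ha, mem_centralizer_singleton_iff.mpr hxa.symm⟩
      rwa [h3, mem_bot] at this
    · exfalso
      have h4 : (A ⊓ centralizer {mk x} : Subgroup (G ⧸ Z)) = A :=
        eq_of_le_of_card_ge inf_le_left (by rw [h3, hAcard])
      have h5 : x ∈ centralizer (H : Set G) := by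
        rw [mem_centralizer_iff]
        intro h hh
        have h6 : mk h ∈ (A ⊓ centralizer {mk x} : Subgroup (G ⧸ Z)) := by rw [h4]; exact ⟨h, hh, rfl⟩
        have h7 := mem_centralizer_singleton_iff.mp h6.2
        rw [← map_mul, ← map_mul, hker2] at h7
        rcases h7 with h7 | h7
        · exact h7
        · exfalso
          -- h x = x h z, so x⁵ does not commute with h
          have h8 : ∀ n : ℕ, h * x ^ n = x ^ n * h * z ^ n := by
            intro n
            induction n with
            | zero => simp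
            | succ n ih =>
              rw [pow_succ, ← mul_assoc, ih]
              calc x ^ n * h * z ^ n * x = x ^ n * (h * (z ^ n * x)) := by group
                _ = x ^ n * (h * (x * z ^ n)) := by
                    rw [(show Commute x z from hzcent x).pow_right n |>.eq]
                _ = x ^ n * (h * x) * z ^ n := by group
                _ = x ^ n * (x * h * z) * z ^ n := by rw [h7]
                _ = _ := by rw [pow_succ']; group
          have h9 := h8 5
          rw [← hx, pow_orderOf_eq_one, hx, one_mul, mul_one] at h9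
          have h10 : z ^ 5 = z := by
            calc z ^ 5 = (z * z) * (z * z) * z := by simp [pow_succ, mul_assoc]
              _ = z := by rw [hz2, one_mul, one_mul]
          rw [h10] at h9
          exact hz1 (mul_eq_left.mp h9.symm)
      have h6 := hCH h5
      obtain ⟨k, hk⟩ := hHp ⟨x, h6⟩
      have h2 : x ^ 2 ^ k = 1 := congrArg Subtype.val hk
      have h3 := orderOf_dvd_of_pow_eq_one h2
      rw [hx] at h3
      have := (Nat.prime_dvd_prime_iff_eq (by norm_num) (by norm_num)).mp
        ((by norm_num : (5).Prime).dvd_of_dvd_pow h3)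
      omega
  -- `|C_A(T)| ≤ 4`
  have hmkT2 : mk T * mk T = 1 := by rw [← map_mul, hT2, map_one]
  have hmkTinv : (mk T)⁻¹ = mk T := inv_eq_of_mul_eq_one_right hmkT2
  have hCA : Nat.card (A ⊓ centralizer {mk T} : Subgroup (G ⧸ Z)) ≤ 4 := by
    have h1 := card_sq_le A (mk x) (mk T) (by
      intro a ha hTa hTxa
      apply hfix a ha
      have hb : mk T * mk x * (mk T)⁻¹ * mk x ∈ A := ⟨_, hinv, by simp [map_mul, map_inv]⟩
      set b := mk T * mk x * (mk T)⁻¹ * mk x with hbd
      have hTx : mk T * mk x * mk T = b * (mk x)⁻¹ := by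
        rw [hbd, mul_inv_cancel_right, hmkTinv]
      -- t x⁻¹ t = x b⁻¹
      have hTx' : mk T * (mk x)⁻¹ * mk T = mk x * b⁻¹ := by
        have := congrArg (·⁻¹) hTx
        simp only [mul_inv_rev, inv_inv, hmkTinv] at this
        rw [← this]; group
      -- a commutes with T * (x⁻¹ T x) = (T x⁻¹ T) x = x b⁻¹ x
      have h2 : Commute a (mk x * b⁻¹ * mk x) := by
        rw [← hTx']
        have h3 : Commute a (mk T * ((mk x)⁻¹ * mk T * mk x)) :=
          Commute.mul_right (show Commute a (mk T) from hTa.symm) hTxa.symm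
        have h4 : mk T * (mk x)⁻¹ * mk T * mk x = mk T * ((mk x)⁻¹ * mk T * mk x) := by group
        rw [h4]; exact h3
      have h5 : Commute a ((mk x)⁻¹ * b⁻¹ * mk x) := by
        apply hAc a ha
        have := hAn.conj_mem _ (inv_mem hb) (mk x)⁻¹
        rwa [inv_inv] at this
      have h6 : Commute a (mk x ^ 2) := by
        have h7 : mk x ^ 2 = (mk x * b⁻¹ * mk x) * ((mk x)⁻¹ * b⁻¹ * mk x)⁻¹ := by rw [sq]; group
        rw [h7]
        exact h2.mul_right h5.inv_right
      have h8 : Commute a (mk x) := by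
        have h9 : mk x = (mk x ^ 2) ^ 3 := by
          rw [← pow_mul]
          calc mk x = mk x ^ 5 * mk x := by rw [hx5, one_mul]
            _ = _ := by rw [← pow_succ]
        rw [h9]; exact h6.pow_right 3
      exact h8.eq.symm)
    rw [hAcard] at h1
    nlinarith
  -- commutators
  have hrange : ∀ c ∈ C, ∃ h ∈ H, mk c = (mk h)⁻¹ * (mk T * mk h * (mk T)⁻¹) := by
    have h1 := card_centralizer_mul_card_range A hAc (mk T)
    rw [hAcard] at h1
    have h2 : 4 ≤ Nat.card (commHom A hAc (mk T)).range := by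
      by_contra hcon
      push Not at hcon
      have : Nat.card (A ⊓ centralizer {mk T} : Subgroup (G ⧸ Z)) * Nat.card (commHom A hAc (mk T)).range ≤ 4 * 3 :=
        Nat.mul_le_mul hCA (by omega)
      omega
    have h3 : (commHom A hAc (mk T)).range ≤ (commHom A hAc (mk T)).ker := by
      rintro _ ⟨a, rfl⟩
      rw [mem_ker_commHom]
      show mk T * ((a : G ⧸ Z)⁻¹ * (mk T * a * (mk T)⁻¹)) = ((a : G ⧸ Z)⁻¹ * (mk T * a * (mk T)⁻¹)) * mk T
      have h4 : (a : G ⧸ Z)⁻¹ = a := inv_eq_of_mul_eq_one_right (hA2 a a.2)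
      have h5 : mk T * (a : G ⧸ Z) * (mk T)⁻¹ ∈ A := hAn.conj_mem _ a.2 _
      rw [h4, hmkTinv]
      calc mk T * ((a : G ⧸ Z) * (mk T * a * mk T))
          = (mk T * a * (mk T)) * (mk T * mk T) * a * mk T := by rw [hmkT2]; group
        _ = (mk T * a * (mk T)⁻¹) * a * mk T := by rw [hmkT2, hmkTinv, mul_one]
        _ = a * (mk T * a * (mk T)⁻¹) * mk T := by rw [hAc _ h5 _ a.2]
        _ = _ := by rw [hmkTinv]
    have h4 : (commHom A hAc (mk T)).range = (commHom A hAc (mk T)).ker :=
      eq_of_le_of_card_ge h3 (by rw [card_ker_commHom]; exact hCA.trans h2)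
    intro c hc
    rw [hmemC] at hc
    have hcA : mk c ∈ A := ⟨c, hc.1, rfl⟩
    have h5 : (⟨mk c, hcA⟩ : A) ∈ (commHom A hAc (mk T)).range := by
      rw [h4, mem_ker_commHom]
      show mk T * mk c = mk c * mk T
      rw [← map_mul, ← map_mul, hc.2]
    obtain ⟨⟨_, h, hh, rfl⟩, hh'⟩ := h5
    exact ⟨h, hh, (congrArg Subtype.val hh').symm⟩
  -- `C` is elementary abelian
  have hCsq : ∀ c ∈ C, c * c = 1 := by
    intro c hc
    obtain ⟨h, hh, hch⟩ := hrange c hc
    rw [hmemC] at hc
    rw [← map_inv, ← map_inv, ← map_mul, ← map_mul, ← map_mul, hker2] at hch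
    set d := h⁻¹ * (T * h * T⁻¹) with hd
    have hdd : d * d = 1 → c * c = 1 := by
      intro hd1
      rcases hch with h1 | h1
      · rw [h1]; exact hd1
      · rw [h1]
        calc d * z * (d * z) = d * (z * d) * z := by group
          _ = d * (d * z) * z := by rw [hzcent d]
          _ = (d * d) * (z * z) := by group
          _ = 1 := by rw [hd1, hz2, one_mul]
    apply hdd
    have hdT : d * T = T * d := by
      rcases hch with h1 | h1
      · rw [← h1]; exact hc.2
      · have h2 : d = c * z := by rw [h1, mul_assoc, hz2, mul_one]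
        rw [h2, mul_assoc, ← hzcent T, ← mul_assoc, hc.2, mul_assoc]
    have h3 : T * d * T = d⁻¹ := by
      rw [hd, hTinv]
      simp only [mul_inv_rev, inv_inv, hTinv]
      calc T * (h⁻¹ * (T * h * T)) * T = T * h⁻¹ * T * h * (T * T) := by group
        _ = _ := by rw [hT2]; group
    have h4 : T * d * T = d := by rw [← hdT, mul_assoc, hT2, mul_one]
    rw [h4] at h3
    nth_rewrite 1 [h3]
    rw [inv_mul_cancel]
  have hCle := hminus C inf_le_left ⟨⟨⟨fun a b => by
    apply Subtype.ext
    show (a : G) * b = b * a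
    have h1 := hCsq a a.2
    have h2 := hCsq b b.2
    have h3 := hCsq (a * b) (mul_mem a.2 b.2)
    have e1 : (a : G)⁻¹ = a := inv_eq_of_mul_eq_one_right h1
    have e2 : (b : G)⁻¹ = b := inv_eq_of_mul_eq_one_right h2
    have e3 : ((a : G) * b)⁻¹ = a * b := inv_eq_of_mul_eq_one_right h3
    rw [← e3, mul_inv_rev, e1, e2]⟩⟩, fun a ha => by rw [sq]; exact hCsq a ha⟩
  omega

end Cfsg.Agent.S4405
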