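import Cfsg.Statements.S4406
import Mathlib

set_option autoImplicit false
open Cfsg

namespace Cfsg.Agent.S4406

open Subgroup

abbrev A4 := ↥(alternatingGroup (Fin 4))

set_option synthInstance.maxHeartbeats 400000 in
set_option synthInstance.maxSize 1000 in
theorem key0 : ∀ q v v' : A4, (q ^ 3 = 1 ∧ q ≠ 1 ∧ v ^ 2 = 1 ∧ v' ^ 2 = 1 ∧ v ≠ 1 ∧ v' ≠ 1 ∧ v ≠ v') →
    (q * v * q⁻¹ = v' ∧ q * v' * q⁻¹ = v * v') ∨
    (q * v * q⁻¹ = v * v' ∧ q * v' * q⁻¹ = v) := by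
  decide +kernel

theorem mul_comm' : ∀ v v' : A4, (v ^ 2 = 1 ∧ v' ^ 2 = 1) → v * v' = v' * v := by decide +kernel

theorem key (q v v' : A4) (h1 : q ^ 3 = 1) (h2 : q ≠ 1) (h3 : v ^ 2 = 1) (h4 : v' ^ 2 = 1) (h5 : v ≠ 1)
    (h6 : v' ≠ 1) (h7 : v ≠ v') :
    (q * v * q⁻¹ = v' ∧ q * v' * q⁻¹ = v * v' ∧ q⁻¹ * v * q = v * v' ∧ q⁻¹ * v' * q = v) ∨
    (q * v * q⁻¹ = v * v' ∧ q * v' * q⁻¹ = v ∧ q⁻¹ * v * q = v' ∧ q⁻¹ * v' * q = v * v') := by
  have hc := mul_comm' v v' ⟨h3, h4⟩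
  rcases key0 q v v' ⟨h1, h2, h3, h4, h5, h6, h7⟩ with ⟨a, b⟩ | ⟨a, b⟩
  · left
    refine ⟨a, b, ?_, ?_⟩
    · have : v = q * (v * v') * q⁻¹ := by
        calc v = (q * v * q⁻¹) * (q * v' * q⁻¹) := by
              rw [a, b, hc, ← mul_assoc, ← sq, h4, one_mul]
          _ = _ := by group
      nth_rewrite 1 [this]; group
    · rw [← a]; group
  · right
    refine ⟨a, b, ?_, ?_⟩
    · rw [← b]; group
    · have : v' = q * (v * v') * q⁻¹ := by
        calc v' = (q * v * q⁻¹) * (q * v' * q⁻¹) := by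
              rw [a, b, hc, mul_assoc, ← sq, h3, mul_one]
          _ = _ := by group
      nth_rewrite 1 [this]; group

theorem sq_of_pow_four : ∀ v : A4, v ^ 4 = 1 → v ^ 2 = 1 := by decide +kernel

theorem cube_of_pow_nine : ∀ v : A4, v ^ 9 = 1 → v ^ 3 = 1 := by decide +kernel

theorem card_A4 : Nat.card A4 = 12 := by
  rw [Nat.card_eq_fintype_card]; decide +kernel

theorem card_Q (Q : Sylow 3 (A4 × A4)) : Nat.card (Q : Subgroup (A4 × A4)) = 9 := by
  rw [Q.card_eq_multiplicity, Nat.card_prod, card_A4]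
  have : (12 * 12 : ℕ).factorization 3 = 2 := by
    rw [show (12 * 12 : ℕ) = 3 ^ 2 * 16 by norm_num, Nat.factorization_mul (by norm_num) (by norm_num),
      Nat.Prime.factorization_pow Nat.prime_three]
    simp
    exact Nat.factorization_eq_zero_of_not_dvd (by norm_num)
  rw [this]
  norm_num

theorem card_le_three {H : Subgroup A4} {n : ℕ} (h : Nat.card H ∣ 3 ^ n) : Nat.card H ≤ 3 := by
  have h2 : Nat.card H ∣ 12 := by rw [← card_A4]; exact card_subgroup_dvd_card H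
  have h3 : Nat.card H ∣ 3 := by
    have hc : Nat.Coprime (Nat.card H) 4 := by
      apply Nat.Coprime.coprime_dvd_left h
      exact Nat.Coprime.pow_left _ (by norm_num)
    exact hc.dvd_of_dvd_mul_right (show Nat.card H ∣ 3 * 4 from h2)
  exact Nat.le_of_dvd (by norm_num) h3

theorem exists_q {G : Type*} [Group G] [Finite G] (Q : Subgroup G) (f : G →* A4) (hQ : Nat.card Q = 9) :
    ∃ x ∈ Q, f x = 1 ∧ x ≠ 1 := by
  have h1 : Nat.card (f.comp Q.subtype).ker * Nat.card (f.comp Q.subtype).range = 9 := by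
    rw [← hQ, ← (f.comp Q.subtype).ker.card_mul_index, index_ker]
  have h2 : Nat.card (f.comp Q.subtype).range ≤ 3 := by
    apply card_le_three (n := 2)
    exact Dvd.intro_left _ h1
  have h3 : 1 < Nat.card (f.comp Q.subtype).ker := by
    by_contra hcon
    push Not at hcon
    have : Nat.card (f.comp Q.subtype).ker * Nat.card (f.comp Q.subtype).range ≤ 1 * 3 := Nat.mul_le_mul hcon h2
    omega
  rw [one_lt_card_iff_ne_bot] at h3
  obtain ⟨⟨x, hx⟩, hx1⟩ := Subgroup.ne_bot_iff_exists_ne_one.mp h3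
  refine ⟨x, x.2, hx, fun h => hx1 ?_⟩
  apply Subtype.ext
  apply Subtype.ext
  exact h

/-- In the direct product P = A₄ × A₄, let X be the Sylow 2-subgroup, X₁ and X₂ its intersections with the two direct factors, Q a Sylow 3-subgroup and Q₁, Q₂ its intersections with the two factors. Then every subgroup B of X of order 4 either meets X₁ or X₂ nontrivially, or is normalized by one of the two subgroups of Q of order 3 other than Q₁ and Q₂. -/
theorem result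
    (X : Sylow 2 (↥(alternatingGroup (Fin 4)) × ↥(alternatingGroup (Fin 4))))
    (Q : Sylow 3 (↥(alternatingGroup (Fin 4)) × ↥(alternatingGroup (Fin 4))))
    (B : Subgroup (↥(alternatingGroup (Fin 4)) × ↥(alternatingGroup (Fin 4)))) (hBX : B ≤ (X : Subgroup _)) (hB4 : Nat.card ↥B = 4) :
    B ⊓ ((X : Subgroup _) ⊓ Subgroup.prod ⊤ ⊥) ≠ ⊥ ∨ B ⊓ ((X : Subgroup _) ⊓ Subgroup.prod ⊥ ⊤) ≠ ⊥ ∨
      ∃ R : Subgroup (↥(alternatingGroup (Fin 4)) × ↥(alternatingGroup (Fin 4))), R ≤ (Q : Subgroup _) ∧ Nat.card ↥R = 3 ∧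
        R ≠ (Q : Subgroup _) ⊓ Subgroup.prod ⊤ ⊥ ∧ R ≠ (Q : Subgroup _) ⊓ Subgroup.prod ⊥ ⊤ ∧ R ≤ Subgroup.normalizer (B : Set _) := by
  by_cases h1 : B ⊓ ((X : Subgroup _) ⊓ Subgroup.prod ⊤ ⊥) ≠ ⊥
  · exact Or.inl h1
  by_cases h2 : B ⊓ ((X : Subgroup _) ⊓ Subgroup.prod ⊥ ⊤) ≠ ⊥
  · exact Or.inr (Or.inl h2)
  right; right
  push Not at h1 h2
  have hB1 : ∀ b ∈ B, b.2 = 1 → b = 1 := by
    intro b hb hb2
    have : b ∈ B ⊓ ((X : Subgroup (A4 × A4)) ⊓ Subgroup.prod ⊤ ⊥) :=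
      ⟨hb, hBX hb, mem_prod.mpr ⟨mem_top _, mem_bot.mpr hb2⟩⟩
    rw [h1, mem_bot] at this
    exact this
  have hB2 : ∀ b ∈ B, b.1 = 1 → b = 1 := by
    intro b hb hb2
    have : b ∈ B ⊓ ((X : Subgroup (A4 × A4)) ⊓ Subgroup.prod ⊥ ⊤) :=
      ⟨hb, hBX hb, mem_prod.mpr ⟨mem_bot.mpr hb2, mem_top _⟩⟩
    rw [h2, mem_bot] at this
    exact this
  have hBpow : ∀ b ∈ B, b.1 ^ 2 = 1 ∧ b.2 ^ 2 = 1 := by
    intro b hb
    have h3 : b ^ 4 = 1 := by
      have := pow_card_eq_one' (x := (⟨b, hb⟩ : B))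
      rw [hB4] at this
      exact congrArg Subtype.val this
    exact ⟨sq_of_pow_four _ (congrArg Prod.fst h3), sq_of_pow_four _ (congrArg Prod.snd h3)⟩
  -- two elements of `B`
  obtain ⟨b, hb, hb1⟩ : ∃ b ∈ B, b ≠ 1 := by
    have : B ≠ ⊥ := by
      rw [← one_lt_card_iff_ne_bot, hB4]; norm_num
    obtain ⟨⟨b, hb⟩, hb1⟩ := Subgroup.ne_bot_iff_exists_ne_one.mp this
    exact ⟨b, hb, fun h => hb1 (Subtype.ext h)⟩
  have hbsq : b * b = 1 := by
    have := hBpow b hb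
    rw [sq, sq] at this
    exact Prod.ext this.1 this.2
  obtain ⟨b', hb', hb'1⟩ : ∃ b' ∈ B, b' ∉ zpowers b := by
    by_contra hcon
    push Not at hcon
    have h3 : B ≤ zpowers b := hcon
    have h4 := card_dvd_of_le h3
    rw [hB4, Nat.card_zpowers] at h4
    have h5 : orderOf b ∣ 2 := orderOf_dvd_of_pow_eq_one (by rw [sq, hbsq])
    have := Nat.le_of_dvd (by norm_num) (h4.trans h5)
    omega
  have hb'1' : b' ≠ 1 := fun h => hb'1 (h ▸ one_mem _)
  have hbb' : b ≠ b' := fun h => hb'1 (h ▸ mem_zpowers _)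
  have hb'sq : b' * b' = 1 := by
    have := hBpow b' hb'
    rw [sq, sq] at this
    exact Prod.ext this.1 this.2
  have hne1 : b.1 ≠ b'.1 := by
    intro h
    apply hbb'
    have h3 : b * b' = 1 := by
      apply hB2 _ (mul_mem hb hb')
      show b.1 * b'.1 = 1
      rw [← h, ← sq]; exact (hBpow b hb).1
    have h4 := hb'sq
    rw [← h3] at h4
    exact (mul_right_cancel h4).symm
  have hne2 : b.2 ≠ b'.2 := by
    intro h
    apply hbb'
    have h3 : b * b' = 1 := by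
      apply hB1 _ (mul_mem hb hb')
      show b.2 * b'.2 = 1
      rw [← h, ← sq]; exact (hBpow b hb).2
    have h4 := hb'sq
    rw [← h3] at h4
    exact (mul_right_cancel h4).symm
  -- all elements of `B`
  have hall : ∀ x ∈ B, x = 1 ∨ x = b ∨ x = b' ∨ x = b * b' := by
    intro x hx
    by_contra hcon
    push Not at hcon
    obtain ⟨c1, c2, c3, c4⟩ := hcon
    have hinj : Function.Injective (![⟨1, one_mem _⟩, ⟨b, hb⟩, ⟨b', hb'⟩, ⟨b * b', mul_mem hb hb'⟩, ⟨x, hx⟩] : Fin 5 → B) := by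
      have d1 : b * b' ≠ 1 := by
        intro h
        have h4 := hb'sq
        rw [← h] at h4
        exact hbb' (mul_right_cancel h4).symm
      have d2 : b * b' ≠ b := by simpa using hb'1'
      have d3 : b * b' ≠ b' := by simpa using hb1
      intro i j hij
      have hij' := congrArg Subtype.val hij
      fin_cases i <;> fin_cases j <;> simp only [Fin.isValue, Matrix.cons_val] at hij' ⊢ <;>
        first
        | rfl
        | exact absurd hij' hb1
        | exact absurd hij'.symm hb1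
        | exact absurd hij' hb'1'
        | exact absurd hij'.symm hb'1'
        | exact absurd hij' hbb'
        | exact absurd hij'.symm hbb'
        | exact absurd hij' d1
        | exact absurd hij'.symm d1
        | exact absurd hij' d2
        | exact absurd hij'.symm d2
        | exact absurd hij' d3
        | exact absurd hij'.symm d3
        | exact absurd hij' c1
        | exact absurd hij'.symm c1
        | exact absurd hij' c2
        | exact absurd hij'.symm c2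
        | exact absurd hij' c3
        | exact absurd hij'.symm c3
        | exact absurd hij' c4
        | exact absurd hij'.symm c4
    have := Nat.card_le_card_of_injective _ hinj
    rw [hB4, Nat.card_eq_fintype_card, Fintype.card_fin] at this
    omega
  -- elements of `Q`
  obtain ⟨x, hxQ, hx2, hx1⟩ := exists_q (Q : Subgroup (A4 × A4)) (MonoidHom.snd A4 A4) (card_Q Q)
  obtain ⟨y, hyQ, hy2, hy1⟩ := exists_q (Q : Subgroup (A4 × A4)) (MonoidHom.fst A4 A4) (card_Q Q)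
  obtain ⟨q₁, x2⟩ := x
  obtain ⟨y1, q₂⟩ := y
  have hx2' : x2 = 1 := hx2
  have hy2' : y1 = 1 := hy2
  subst hx2' hy2'
  have hq₁ : q₁ ≠ 1 := fun h => hx1 (by rw [h]; rfl)
  have hq₂ : q₂ ≠ 1 := fun h => hy1 (by rw [h]; rfl)
  have hpow9 : ∀ z ∈ (Q : Subgroup (A4 × A4)), z ^ 9 = 1 := by
    intro z hz
    have := pow_card_eq_one' (x := (⟨z, hz⟩ : (Q : Subgroup (A4 × A4))))
    rw [card_Q Q] at this
    exact congrArg Subtype.val this
  have hq₁3 : q₁ ^ 3 = 1 := cube_of_pow_nine _ (congrArg Prod.fst (hpow9 _ hxQ))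
  have hq₂3 : q₂ ^ 3 = 1 := cube_of_pow_nine _ (congrArg Prod.snd (hpow9 _ hyQ))
  -- the final construction
  have hfin : ∀ r : A4, r ^ 3 = 1 → r ≠ 1 → ((1 : A4), r) ∈ (Q : Subgroup (A4 × A4)) →
      ((q₁, r) * b * (q₁, r)⁻¹ ∈ B) → ((q₁, r) * b' * (q₁, r)⁻¹ ∈ B) →
      ∃ R : Subgroup (A4 × A4), R ≤ (Q : Subgroup _) ∧ Nat.card ↥R = 3 ∧
        R ≠ (Q : Subgroup _) ⊓ Subgroup.prod ⊤ ⊥ ∧ R ≠ (Q : Subgroup _) ⊓ Subgroup.prod ⊥ ⊤ ∧
          R ≤ Subgroup.normalizer (B : Set _) := by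
    intro r hr3 hr1 hrQ hrb hrb'
    have hprod : (q₁, r) ∈ (Q : Subgroup (A4 × A4)) := by
      have := mul_mem hxQ hrQ
      simpa using this
    have hord : orderOf ((q₁, r) : A4 × A4) = 3 := by
      apply orderOf_eq_prime
      · exact Prod.ext hq₁3 hr3
      · intro h; exact hr1 (congrArg Prod.snd h)
    refine ⟨zpowers (q₁, r), ?_, ?_, ?_, ?_, ?_⟩
    · rw [zpowers_le]; exact hprod
    · rw [Nat.card_zpowers, hord]
    · intro h
      have : (q₁, r) ∈ (Q : Subgroup (A4 × A4)) ⊓ Subgroup.prod ⊤ ⊥ := by rw [← h]; exact mem_zpowers _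
      exact hr1 (mem_bot.mp (mem_prod.mp this.2).2)
    · intro h
      have : (q₁, r) ∈ (Q : Subgroup (A4 × A4)) ⊓ Subgroup.prod ⊥ ⊤ := by rw [← h]; exact mem_zpowers _
      exact hq₁ (mem_bot.mp (mem_prod.mp this.2).1)
    · rw [zpowers_le]
      have hle : ∀ z ∈ B, (q₁, r) * z * (q₁, r)⁻¹ ∈ B := by
        intro z hz
        rcases hall z hz with rfl | rfl | rfl | rfl
        · rw [mul_one, mul_inv_cancel]; exact one_mem _
        · exact hrb
        · exact hrb'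
        · have : (q₁, r) * (b * b') * (q₁, r)⁻¹ = ((q₁, r) * b * (q₁, r)⁻¹) * ((q₁, r) * b' * (q₁, r)⁻¹) := by group
          rw [this]; exact mul_mem hrb hrb'
      have hmap : B.map (MulAut.conj (q₁, r)).toMonoidHom = B := by
        apply eq_of_le_of_card_ge
        · rintro _ ⟨z, hz, rfl⟩
          exact hle z hz
        · rw [card_map_of_injective (MulAut.conj (q₁, r)).injective]
      rw [mem_normalizer_iff]
      intro z
      refine ⟨hle z, fun hz => ?_⟩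
      rw [← hmap] at hz
      obtain ⟨w, hw, hwz⟩ := hz
      have : w = z := (MulAut.conj (q₁, r)).injective hwz
      rw [← this]; exact hw
  have hbv1 : b.1 ≠ 1 := fun h => hb1 (hB2 b hb h)
  have hbv2 : b.2 ≠ 1 := fun h => hb1 (hB1 b hb h)
  have hbv1' : b'.1 ≠ 1 := fun h => hb'1' (hB2 b' hb' h)
  have hbv2' : b'.2 ≠ 1 := fun h => hb'1' (hB1 b' hb' h)
  have k1 := key q₁ b.1 b'.1 hq₁3 hq₁ (hBpow b hb).1 (hBpow b' hb').1 hbv1 hbv1' hne1
  have k2 := key q₂ b.2 b'.2 hq₂3 hq₂ (hBpow b hb).2 (hBpow b' hb').2 hbv2 hbv2' hne2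
  have hq₂i : q₂⁻¹ ^ 3 = 1 := by rw [inv_pow, hq₂3, inv_one]
  have hq₂Qi : ((1 : A4), q₂⁻¹) ∈ (Q : Subgroup (A4 × A4)) := by
    have := inv_mem hyQ
    simpa using this
  have e : ∀ r : A4, ∀ z w : A4 × A4, q₁ * z.1 * q₁⁻¹ = w.1 → r * z.2 * r⁻¹ = w.2 → (q₁, r) * z * (q₁, r)⁻¹ = w := by
    intro r z w h3 h4
    exact Prod.ext h3 h4
  rcases k1 with ⟨a1, a2, a3, a4⟩ | ⟨a1, a2, a3, a4⟩ <;> rcases k2 with ⟨c1, c2, c3, c4⟩ | ⟨c1, c2, c3, c4⟩
  · apply hfin q₂ hq₂3 hq₂ hyQ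
    · rw [e q₂ b b' a1 c1]; exact hb'
    · rw [e q₂ b' (b * b') a2 c2]; exact mul_mem hb hb'
  · apply hfin q₂⁻¹ hq₂i (inv_ne_one.mpr hq₂) hq₂Qi
    · rw [e q₂⁻¹ b b' a1 (by rw [inv_inv]; exact c3)]; exact hb'
    · rw [e q₂⁻¹ b' (b * b') a2 (by rw [inv_inv]; exact c4)]; exact mul_mem hb hb'
  · apply hfin q₂⁻¹ hq₂i (inv_ne_one.mpr hq₂) hq₂Qi
    · rw [e q₂⁻¹ b (b * b') a1 (by rw [inv_inv]; exact c3)]; exact mul_mem hb hb'
    · rw [e q₂⁻¹ b' b a2 (by rw [inv_inv]; exact c4)]; exact hb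
  · apply hfin q₂ hq₂3 hq₂ hyQ
    · rw [e q₂ b (b * b') a1 c1]; exact mul_mem hb hb'
    · rw [e q₂ b' b a2 c2]; exact hb

end Cfsg.Agent.S4406
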