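import Cfsg.Statements.S4408
import Mathlib
import Cfsg.Agent.Lib.H76.Eigen

set_option autoImplicit false
open Cfsg

namespace Cfsg.Agent.S4408

open Subgroup

/-- Let S be a finite solvable group whose Fitting subgroup F(S) has odd order, and let I be an elementary abelian 2-subgroup of S of order 2ⁿ with n ≥ 1. Then F(S) contains subgroups A₁, …, Aₙ of prime order, each normalized by I, pairwise commuting and generating a subgroup A of order |A₁|⋯|Aₙ| (their internal direct product), such that no non-identity element of I centralizes A. -/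
theorem result {S : Type*} [Group S] [Finite S]
    [Group.IsSolvable S] (hF : Odd (Nat.card ↥(Cfsg.fittingSubgroup S)))
    (I : Subgroup S) (hI : Cfsg.IsElementaryAbelian 2 I) (n : ℕ) (hn : 1 ≤ n) (hIn : Nat.card ↥I = 2 ^ n) :
    ∃ f : Fin n → Subgroup S, (∀ i, (Nat.card ↥(f i)).Prime) ∧ (∀ i, f i ≤ Cfsg.fittingSubgroup S) ∧
      (∀ i, I ≤ Subgroup.normalizer ((f i) : Set S)) ∧ (∀ i j, i ≠ j → ∀ a ∈ f i, ∀ b ∈ f j, a * b = b * a) ∧
      Nat.card ↥(⨆ i, f i) = ∏ i, Nat.card ↥(f i) ∧ I ⊓ Subgroup.centralizer ((⨆ i, f i : Subgroup S) : Set S) = ⊥ := by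
  have hnil : Group.IsNilpotent (fittingSubgroup S) := H1.Cores.isNilpotent_fittingSubgroup
  have hI2 : ∀ i ∈ I, i * i = 1 := fun i hi => by rw [← pow_two]; exact hI.2 i hi
  have hFn : (fittingSubgroup S).Normal := H1.Cores.fittingSubgroup_normal
  set F := fittingSubgroup S with hFdef
  have hCF : I ⊓ centralizer (F : Set S) = ⊥ := by
    rw [eq_bot_iff]
    intro i hi
    have h1 : i ∈ F := H1.Solv.centralizer_fitting_le inferInstance hi.2
    have h2 : i⁻¹ = i := inv_eq_of_mul_eq_one_left (hI2 i hi.1)
    exact mem_bot.mpr (H76.Eigen.sq_ne hF h1 h2)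
  have key : ∀ k : ℕ, k ≤ n → ∃ f : Fin k → Subgroup S, (∀ i, (Nat.card ↥(f i)).Prime) ∧
      (∀ i, f i ≤ F) ∧ (∀ i, I ≤ Subgroup.normalizer ((f i) : Set S)) ∧
      (∀ i j, i ≠ j → ∀ a ∈ f i, ∀ b ∈ f j, a * b = b * a) ∧
      Nat.card ↥(⨆ i, f i) = ∏ i, Nat.card ↥(f i) ∧
      Nat.card (I ⊓ Subgroup.centralizer ((⨆ i, f i : Subgroup S) : Set S) : Subgroup S) =
        2 ^ (n - k) := by
    intro k
    induction k with
    | zero =>
      intro _
      refine ⟨Fin.elim0, fun i => i.elim0, fun i => i.elim0, fun i => i.elim0, fun i => i.elim0,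
        ?_, ?_⟩
      · simp
      · have h1 : I ⊓ Subgroup.centralizer ((⨆ i, (Fin.elim0 i : Subgroup S) : Subgroup S) : Set S) = I := by
          rw [inf_eq_left]
          intro i _
          rw [mem_centralizer_iff]
          intro b hb
          have h0 : (⨆ i : Fin 0, (Fin.elim0 i : Subgroup S)) = ⊥ := iSup_of_empty _
          rw [SetLike.mem_coe, h0, mem_bot] at hb
          rw [hb, one_mul, mul_one]
        rw [h1, hIn, Nat.sub_zero]
    | succ k ih =>
      intro hk
      obtain ⟨f, h1, h2, h3, h4, h5, h6⟩ := ih (by omega)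
      set A : Subgroup S := ⨆ i, f i with hA
      have hAF : A ≤ F := iSup_le h2
      set J := I ⊓ centralizer (A : Set S) with hJ
      have hJne : J ≠ ⊥ := by
        intro h
        rw [h, card_bot] at h6
        have : 1 < 2 ^ (n - k) := Nat.one_lt_two_pow (by omega)
        omega
      obtain ⟨j, hjJ, hj1⟩ := (Subgroup.bot_or_exists_ne_one J).resolve_left hJne
      -- `j` acts nontrivially on `C_F(A)`
      have hne : ∃ x ∈ F ⊓ centralizer (A : Set S), j * x ≠ x * j := by
        by_contra hcon
        push Not at hcon
        apply hj1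
        have h7 := H76.Eigen.axb (F := F) (A := A) hnil hAF hF (hI2 j hjJ.1)
          (normalizer_eq_top (H := F) ▸ mem_top j) (fun a ha => ((mem_centralizer_iff.mp hjJ.2) a ha).symm)
          (fun x hx hxA => hcon x ⟨hx, mem_centralizer_iff.mpr (fun a ha => (hxA a ha).symm)⟩)
        have h8 : j ∈ I ⊓ centralizer (F : Set S) :=
          ⟨hjJ.1, mem_centralizer_iff.mpr (fun x hx => (h7 x hx).symm)⟩
        rw [hCF] at h8
        exact mem_bot.mp h8
      have hIA : I ≤ normalizer (A : Set S) := by
        apply H1.Coprime.le_normalizer_of_conj_mem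
        intro i hi a ha
        have h7 : A.map (MulAut.conj i).toMonoidHom ≤ A := by
          rw [hA, Subgroup.map_iSup]
          apply iSup_le
          intro t
          refine le_trans ?_ (le_iSup f t)
          intro y hy
          obtain ⟨x, hx, rfl⟩ := hy
          exact H1.Coprime.conj_mem_of_le_normalizer (h3 t) hi hx
        exact h7 ⟨a, ha, rfl⟩
      have hIF : I ≤ normalizer (F : Set S) := by rw [normalizer_eq_top]; exact le_top
      obtain ⟨a, haX, haE, haj, hap, ha1⟩ := H76.Eigen.exists_eig hI2
        (Odd.of_dvd_nat hF (card_dvd_of_le inf_le_left))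
        (H1.Coprime2.le_normalizer_inf hIF (H1.Coprime2.le_normalizer_centralizer hIA)) hjJ.1 hne
      have haA : ∀ b ∈ A, a * b = b * a := fun b hb => ((mem_centralizer_iff.mp haX.2) b hb).symm
      have haF : a ∈ F := haX.1
      have hji : ∀ b ∈ A, j * b * j⁻¹ = b := fun b hb => by
        rw [← (mem_centralizer_iff.mp hjJ.2) b hb, mul_inv_cancel_right]
      -- disjointness
      have hdisj : zpowers a ⊓ A = ⊥ := by
        have h7 : Nat.card (zpowers a) = orderOf a := Nat.card_zpowers a
        have h8 : Nat.card (zpowers a ⊓ A : Subgroup S) ∣ orderOf a := by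
          rw [← h7]; exact card_dvd_of_le inf_le_left
        rcases (Nat.dvd_prime hap).1 h8 with h9 | h9
        · exact card_eq_one.mp h9
        · exfalso
          have h10 : zpowers a ⊓ A = zpowers a :=
            eq_of_le_of_card_ge inf_le_left (by rw [h7, h9])
          have h11 : a ∈ A := by
            have : a ∈ zpowers a ⊓ A := by rw [h10]; exact mem_zpowers a
            exact this.2
          have h12 := hji a h11
          rw [haj] at h12
          exact ha1 (H76.Eigen.sq_ne hF haF h12)
      have hzA : ∀ x ∈ zpowers a, ∀ b ∈ A, x * b = b * x := by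
        intro x hx b hb
        obtain ⟨m, rfl⟩ := hx
        exact ((show Commute a b from haA b hb).zpow_left m).eq
      have hsup : (⨆ i, (Fin.cons (zpowers a) f : Fin (k + 1) → Subgroup S) i) = zpowers a ⊔ A := by
        apply le_antisymm
        · apply iSup_le
          intro i
          refine Fin.cases ?_ ?_ i
          · rw [Fin.cons_zero]; exact le_sup_left
          · intro t
            rw [Fin.cons_succ]
            exact (le_iSup f t).trans le_sup_right
        · apply sup_le
          · have := le_iSup (fun i => (Fin.cons (zpowers a) f : Fin (k + 1) → Subgroup S) i) 0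
            exact this
          · apply iSup_le
            intro t
            have := le_iSup (fun i => (Fin.cons (zpowers a) f : Fin (k + 1) → Subgroup S) i) t.succ
            exact this
      refine ⟨Fin.cons (zpowers a) f, ?_, ?_, ?_, ?_, ?_, ?_⟩
      · intro i
        refine Fin.cases ?_ ?_ i
        · rw [Fin.cons_zero, Nat.card_zpowers]; exact hap
        · intro t; rw [Fin.cons_succ]; exact h1 t
      · intro i
        refine Fin.cases ?_ ?_ i
        · rw [Fin.cons_zero, zpowers_le]; exact haF
        · intro t; rw [Fin.cons_succ]; exact h2 t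
      · intro i
        refine Fin.cases ?_ ?_ i
        · rw [Fin.cons_zero]
          apply H1.Coprime.le_normalizer_of_conj_mem
          intro b hb x hx
          obtain ⟨m, rfl⟩ := hx
          have h7 : b * a ^ m * b⁻¹ = (b * a * b⁻¹) ^ m := by rw [conj_zpow]
          simp only
          rw [h7]
          rcases haE b hb with h8 | h8
          · rw [h8]; exact zpow_mem (mem_zpowers a) m
          · rw [h8]; exact zpow_mem (inv_mem (mem_zpowers a)) m
        · intro t; rw [Fin.cons_succ]; exact h3 t
      · intro i i'
        refine Fin.cases ?_ ?_ i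
        · refine Fin.cases ?_ ?_ i'
          · intro h; exact absurd rfl h
          · intro t _ x hx y hy
            rw [Fin.cons_zero] at hx
            rw [Fin.cons_succ] at hy
            exact hzA x hx y ((le_iSup f t) hy)
        · intro t
          refine Fin.cases ?_ ?_ i'
          · intro _ x hx y hy
            rw [Fin.cons_zero] at hy
            rw [Fin.cons_succ] at hx
            exact (hzA y hy x ((le_iSup f t) hx)).symm
          · intro t' htt' x hx y hy
            rw [Fin.cons_succ] at hx hy
            exact h4 t t' (fun h => htt' (by rw [h])) x hx y hy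
      · rw [hsup, H76.Commuting.card_sup_of_commute hzA hdisj, h5, Fin.prod_univ_succ]
        simp only [Fin.cons_zero, Fin.cons_succ]
      · rw [hsup]
        have hJ' : I ⊓ centralizer ((zpowers a ⊔ A : Subgroup S) : Set S) = J ⊓ centralizer {a} := by
          ext x
          constructor
          · rintro ⟨hx1, hx2⟩
            have hx3 := mem_centralizer_iff.mp hx2
            refine ⟨⟨hx1, mem_centralizer_iff.mpr fun b hb => hx3 b (mem_sup_right hb)⟩,
              mem_centralizer_singleton_iff.mpr (hx3 a (mem_sup_left (mem_zpowers a))).symm⟩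
          · rintro ⟨hx1, hx2⟩
            refine ⟨hx1.1, ?_⟩
            have h7 : zpowers a ⊔ A ≤ centralizer {x} := by
              apply sup_le
              · rw [zpowers_le]
                exact mem_centralizer_singleton_iff.mpr (mem_centralizer_singleton_iff.mp hx2).symm
              · intro b hb
                exact mem_centralizer_singleton_iff.mpr (mem_centralizer_iff.mp hx1.2 b hb)
            exact mem_centralizer_iff.mpr fun b hb => mem_centralizer_singleton_iff.mp (h7 hb)
        rw [hJ']
        have hidx : ((centralizer {a}).subgroupOf J).index = 2 := by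
          rw [index_eq_two_iff]
          refine ⟨⟨j, hjJ⟩, fun b => ?_⟩
          have hb2 : ∀ x : J, x ∈ (centralizer {a}).subgroupOf J ↔ (x : S) * a * (x : S)⁻¹ = a := by
            intro x
            rw [mem_subgroupOf, mem_centralizer_singleton_iff, mul_inv_eq_iff_eq_mul]
          rw [hb2, hb2]
          have h7 : ((b * ⟨j, hjJ⟩ : J) : S) * a * ((b * ⟨j, hjJ⟩ : J) : S)⁻¹ =
              ((b : S) * a * (b : S)⁻¹)⁻¹ := by
            have : ((b * ⟨j, hjJ⟩ : J) : S) * a * ((b * ⟨j, hjJ⟩ : J) : S)⁻¹ =
              (b : S) * (j * a * j⁻¹) * (b : S)⁻¹ := by push_cast; group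
            rw [this, haj]; group
          rw [h7]
          have hane : a⁻¹ ≠ a := fun h => ha1 (H76.Eigen.sq_ne hF haF h)
          rcases haE b b.2.1 with h8 | h8
          · rw [h8]
            exact Or.inr ⟨rfl, hane⟩
          · rw [h8, inv_inv]
            exact Or.inl ⟨rfl, hane⟩
        have h9 := ((centralizer {a}).subgroupOf J).card_mul_index
        have h10 : Nat.card ((centralizer {a}).subgroupOf J) = Nat.card (J ⊓ centralizer {a} : Subgroup S) := by
          rw [← inf_subgroupOf_left, H1.SZ.card_subgroupOf_of_le inf_le_left]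
        rw [hidx, h6, h10] at h9
        have h11 : n - k = (n - (k + 1)) + 1 := by omega
        rw [h11, pow_succ] at h9
        omega
  obtain ⟨f, h1, h2, h3, h4, h5, h6⟩ := key n le_rfl
  refine ⟨f, h1, h2, h3, h4, h5, ?_⟩
  rw [Nat.sub_self, pow_zero] at h6
  exact card_eq_one.mp h6

end Cfsg.Agent.S4408
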