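import Cfsg.Statements.S4409
import Mathlib
import Cfsg.Agent.Lib.H76.NoAb8e

set_option autoImplicit false
open Cfsg

namespace Cfsg.Agent.S4409

/-- Let S be a finite solvable group with O_{2'}(S) = 1 that contains a non-cyclic abelian subgroup of order 8, while no proper subgroup of S of 2-power index contains one. Then a Sylow 2-subgroup X of S is normal in S, and one of the following holds: X is abelian; X is extraspecial of order at least 32; X has a generalized quaternion subgroup X₀ of index 2 with X = X₀·C_X(X₀); or X is special with centre of order 4. -/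
theorem result {S : Type*} [Group S] [Finite S]
    [Group.IsSolvable S] (hO : Cfsg.pPrimeCore 2 S = ⊥)
    (h8 : ∃ A : Subgroup S, IsMulCommutative ↥A ∧ ¬ IsCyclic ↥A ∧ Nat.card ↥A = 8)
    (hmin : ∀ R : Subgroup S, R ≠ ⊤ → (∃ k : ℕ, R.index = 2 ^ k) →
      ¬ ∃ A : Subgroup S, A ≤ R ∧ IsMulCommutative ↥A ∧ ¬ IsCyclic ↥A ∧ Nat.card ↥A = 8)
    (X : Sylow 2 S) :
    (X : Subgroup S).Normal ∧
      (IsMulCommutative ↥X ∨
        (Cfsg.IsExtraspecial 2 ↥X ∧ 32 ≤ Nat.card ↥X) ∨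
        (∃ (X₀ : Subgroup S) (k : ℕ), X₀ ≤ (X : Subgroup S) ∧ X₀.relIndex (X : Subgroup S) = 2 ∧
          Nonempty (↥X₀ ≃* QuaternionGroup (2 ^ (k + 1))) ∧ X₀ ⊔ ((X : Subgroup S) ⊓ Subgroup.centralizer (X₀ : Set S)) = (X : Subgroup S)) ∨
        (Cfsg.IsSpecial 2 ↥X ∧ Nat.card ↥(Subgroup.center ↥X) = 4)) := by
  have hb : H76.NoAb8.Bad (⊤ : Subgroup S) := by
    obtain ⟨A, h1, h2, h3⟩ := h8
    exact ⟨A, le_top, h1, h2, h3⟩
  obtain ⟨h1, h2⟩ := H76.NoAb8.main inferInstance hO hb (fun R hR hk h => hmin R hR hk h) X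
  refine ⟨h1, ?_⟩
  rcases h2 with h2 | h2 | ⟨X₀, h3, h4, h5, h6⟩ | h2
  · exact Or.inl h2
  · exact Or.inr (Or.inl h2)
  · exact Or.inr (Or.inr (Or.inl ⟨X₀, 0, h3, h4, h5, h6⟩))
  · exact Or.inr (Or.inr (Or.inr h2))

end Cfsg.Agent.S4409
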