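import Cfsg.Statements.S4410
import Mathlib
import Cfsg.Agent.Lib.H1.Solv

set_option autoImplicit false
open Cfsg

namespace Cfsg.Agent.S4410

open Subgroup

section
variable {V : Type*} [AddCommGroup V] [Module (ZMod 2) V]

theorem two_eq_zero (v : V) : v + v = 0 := by
  have h : ((2 : ZMod 2)) • v = 0 := by
    have : (2 : ZMod 2) = 0 := by decide
    rw [this, zero_smul]
  rwa [two_smul] at h

/-- `s` is a transvection with centre `a` -/
structure IsTv (s : V ≃ₗ[ZMod 2] V) (a : V) : Prop where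
  ne : a ≠ 0
  ap : ∀ v, s v = v ∨ s v = v + a
  fix : s a = a

theorem IsTv.conj {s : V ≃ₗ[ZMod 2] V} {a : V} (h : IsTv s a) (k : V ≃ₗ[ZMod 2] V) :
    IsTv (k⁻¹ * s * k) (k⁻¹ a) := by
  have hk : ∀ v, k⁻¹ (k v) = v := fun v => LinearEquiv.symm_apply_apply k v
  have hk' : ∀ v, k (k⁻¹ v) = v := fun v => LinearEquiv.apply_symm_apply k v
  refine ⟨fun h0 => h.ne ?_, fun v => ?_, ?_⟩
  · have := congrArg k h0
    rwa [hk', map_zero] at this
  · rcases h.ap (k v) with h1 | h1
    · left
      show k⁻¹ (s (k v)) = v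
      rw [h1, hk]
    · right
      show k⁻¹ (s (k v)) = _
      rw [h1, map_add, hk]
  · show k⁻¹ (s (k (k⁻¹ a))) = _
    rw [hk', h.fix]

theorem IsTv.sq {s : V ≃ₗ[ZMod 2] V} {a : V} (h : IsTv s a) : s * s = 1 := by
  ext v
  show s (s v) = v
  rcases h.ap v with h1 | h1
  · rw [h1, h1]
  · rw [h1, map_add, h1, h.fix, add_assoc, two_eq_zero, add_zero]

theorem apply_center {s s' : V ≃ₗ[ZMod 2] V} {a a' : V} (h : IsTv s a) (h' : IsTv s' a') {n : ℕ} (hn : Odd n)
    (hodd : (s * s') ^ n = 1) (hne : s ≠ s') : s a' = a' + a := by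
  rcases h.ap a' with h1 | h1
  swap
  · exact h1
  exfalso
  -- then `(s s')^4 = 1`
  have key : (s * s') ^ 4 = 1 := by
    have c2 : ∀ u w : V, u + w + w = u := fun u w => by rw [add_assoc, two_eq_zero, add_zero]
    have e : ∀ v, s (s' (s (s' v))) = v ∨ s (s' (s (s' v))) = v + a' := by
      intro v
      have ha := h'.ap a
      rcases h.ap v with hv | hv <;> rcases h'.ap v with hv' | hv'
      · left; rw [hv', hv, hv', hv]
      · left; rw [hv', map_add, h1, hv, map_add, h'.fix, hv', c2, hv]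
      · rw [hv', hv, map_add, hv']
        rcases ha with ha | ha
        · left; rw [ha, map_add, hv, h.fix, c2]
        · right; rw [ha, map_add, map_add, hv, h.fix, h1, ← add_assoc, c2]
      · have q1 : s (s' v) = v + a + a' := by rw [hv', map_add, hv, h1]
        have q2 : s' (v + a + a') = v + a' + s' a + a' := by rw [map_add, map_add, h'.fix, hv']
        rw [q1, q2, map_add s, map_add s, map_add s, hv, h1]
        rcases ha with ha | ha
        · left
          rw [ha, h.fix]
          calc v + a + a' + a + a' = v + (a + a) + (a' + a') := by abel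
            _ = v := by rw [two_eq_zero, two_eq_zero, add_zero, add_zero]
        · right
          rw [ha, map_add, h.fix, h1]
          calc v + a + a' + (a + a') + a' = v + (a + a) + (a' + a') + a' := by abel
            _ = v + a' := by rw [two_eq_zero, two_eq_zero, add_zero, add_zero]
    have e' : s (s' (s (s' a'))) = a' := by rw [h'.fix, h1, h'.fix, h1]
    ext v
    show s (s' (s (s' (s (s' (s (s' v))))))) = v
    rcases e v with hv | hv
    · rw [hv, hv]
    · rw [hv, map_add, map_add, map_add, map_add, hv, e', c2]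
  have h4 : s * s' = 1 := by
    have hd1 := orderOf_dvd_of_pow_eq_one key
    have hd2 := orderOf_dvd_of_pow_eq_one hodd
    have : orderOf (s * s') ∣ 1 := by
      have hc : Nat.Coprime 4 n := by
        have : Nat.Coprime 2 n := (Nat.coprime_two_left).mpr hn
        exact Nat.Coprime.pow_left 2 this
      rw [← hc]
      exact Nat.dvd_gcd hd1 hd2
    rw [Nat.dvd_one, orderOf_eq_one_iff] at this
    exact this
  apply hne
  have h5 := h'.sq
  rw [← h5] at h4
  exact mul_right_cancel h4

/-- three distinct transvections -/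
theorem third {s s' s'' : V ≃ₗ[ZMod 2] V} {a a' a'' : V} (h : IsTv s a) (h' : IsTv s' a') (h'' : IsTv s'' a'')
    {n : ℕ} (hn : Odd n) (h1 : (s * s') ^ n = 1) (h2 : (s'' * s) ^ n = 1) (h3 : (s'' * s') ^ n = 1)
    (h4 : (s'' * (s * s' * s)) ^ n = 1) (hne1 : s ≠ s') (hne2 : s'' ≠ s) (hne3 : s'' ≠ s') :
    s'' = s * s' * s := by
  by_contra hne
  have hinv : s⁻¹ = s := inv_eq_of_mul_eq_one_right h.sq
  have hc := h'.conj s
  rw [hinv] at hc
  have e1 := apply_center h h' hn h1 hne1
  rw [e1] at hc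
  have e2 := apply_center h'' h hn h2 hne2
  have e3 := apply_center h'' h' hn h3 hne3
  have e4 := apply_center h'' hc hn h4 hne
  rw [map_add, e2, e3] at e4
  apply h''.ne
  have e5 : a' + a'' + (a + a'') = a' + a := by
    calc a' + a'' + (a + a'') = a' + a + (a'' + a'') := by abel
      _ = _ := by rw [two_eq_zero, add_zero]
  rw [e5] at e4
  exact (left_eq_add.mp e4)

end

/-- Let V be a finite-dimensional vector space over the field with two elements and S a solvable group of linear automorphisms of V with O₂(S) = 1. If P ∈ S has order 4 and (P − 1)³ = 0 on V, then the image of (P − 1)² has at least 4 elements; equivalently, in the decomposition of V into indecomposable modules for the cyclic group generated by P, at least two summands have dimension 3. -/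
theorem result
    {V : Type*} [AddCommGroup V] [Module (ZMod 2) V] [Finite V]
    (S : Subgroup (V ≃ₗ[ZMod 2] V)) (hS : Group.IsSolvable ↥S) (hO2 : Cfsg.pCore 2 ↥S = ⊥)
    (P : V ≃ₗ[ZMod 2] V) (hPS : P ∈ S) (hP4 : orderOf P = 4)
    (hcub : ((P : V →ₗ[ZMod 2] V) - LinearMap.id) ^ 3 = 0) :
    4 ≤ Nat.card ↥(LinearMap.range (((P : V →ₗ[ZMod 2] V) - LinearMap.id) ^ 2)) := by
  by_contra hlt
  push Not at hlt
  have : Finite (V ≃ₗ[ZMod 2] V) := Finite.of_injective (fun e : V ≃ₗ[ZMod 2] V => (e : V → V)) (fun a b h => by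
    ext v; exact congrFun h v)
  set N := ((P : V →ₗ[ZMod 2] V) - LinearMap.id) ^ 2 with hN
  -- `t = P ^ 2`
  have hNv : ∀ v, P (P v) = v + N v := by
    intro v
    rw [hN, sq]
    show P (P v) = v + (((P : V →ₗ[ZMod 2] V) - LinearMap.id : V →ₗ[ZMod 2] V)
      (((P : V →ₗ[ZMod 2] V) - LinearMap.id : V →ₗ[ZMod 2] V) v))
    simp only [LinearMap.sub_apply, LinearMap.id_apply, LinearEquiv.coe_coe, map_sub]
    have : P v = - P v := by
      rw [eq_neg_iff_add_eq_zero]; exact two_eq_zero _
    have hh : v + (P (P v) - P v - (P v - v)) = P (P v) + (v + v) - (P v + P v) := by abel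
    rw [hh, two_eq_zero, two_eq_zero, add_zero, sub_zero]
  have hNN : ∀ v, N (N v) = 0 := by
    intro v
    have : N * N = 0 := by
      rw [hN, ← pow_add]
      rw [show 2 + 2 = 3 + 1 by norm_num, pow_add, hcub, zero_mul]
    exact LinearMap.congr_fun this v
  -- the card of the range is a power of two
  have hP2 : P ^ 2 ≠ 1 := by
    intro h
    have := orderOf_dvd_of_pow_eq_one h
    rw [hP4] at this
    omega
  obtain ⟨v₀, hv₀⟩ : ∃ v, N v ≠ 0 := by
    by_contra hcon
    push Not at hcon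
    apply hP2
    ext v
    rw [sq]
    show P (P v) = v
    rw [hNv, hcon, add_zero]
  have hcard : Nat.card (LinearMap.range N) = 2 := by
    have h1 : Nat.card (LinearMap.range N) = 2 ^ Module.finrank (ZMod 2) (LinearMap.range N) := by
      rw [Module.natCard_eq_pow_finrank (K := ZMod 2), Nat.card_zmod]
    have h2 : 1 < Nat.card (LinearMap.range N) := by
      rw [Finite.one_lt_card_iff_nontrivial]
      exact ⟨⟨⟨N v₀, v₀, rfl⟩, 0, fun h => hv₀ (congrArg Subtype.val h)⟩⟩
    rw [h1] at h2 hlt ⊢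
    set m := Module.finrank (ZMod 2) (LinearMap.range N)
    have h3 : m < 2 := by
      by_contra hm
      push Not at hm
      have := Nat.pow_le_pow_right (show 0 < 2 by norm_num) hm
      omega
    have h4 : m ≠ 0 := by rintro h; rw [h] at h2; simp at h2
    have : m = 1 := by omega
    rw [this, pow_one]
  have hNval : ∀ v, N v = 0 ∨ N v = N v₀ := by
    intro v
    by_contra hcon
    push Not at hcon
    have h1 : Function.Injective (![⟨0, Submodule.zero_mem _⟩, ⟨N v₀, v₀, rfl⟩, ⟨N v, v, rfl⟩] : Fin 3 → LinearMap.range N) := by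
      intro i j hij
      have hij' := congrArg Subtype.val hij
      fin_cases i <;> fin_cases j <;> simp at hij' ⊢
      · exact hv₀ hij'.symm
      · exact hcon.1 hij'.symm
      · exact hv₀ hij'
      · exact hcon.2 hij'.symm
      · exact hcon.1 hij'
      · exact hcon.2 hij'
    have h2 := Nat.card_le_card_of_injective _ h1
    rw [hcard, Nat.card_eq_fintype_card, Fintype.card_fin] at h2
    omega
  have htv : IsTv (P * P) (N v₀) := by
    refine ⟨hv₀, fun v => ?_, ?_⟩
    · show P (P v) = v ∨ P (P v) = v + N v₀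
      rw [hNv]
      rcases hNval v with h | h
      · left; rw [h, add_zero]
      · right; rw [h]
    · show P (P (N v₀)) = N v₀
      rw [hNv, hNN, add_zero]
  -- the Fitting subgroup
  set K := fittingSubgroup S with hK
  have hKodd : Odd (Nat.card K) := by
    have h1 := H1.Cores.not_dvd_relIndex_pCore_fittingSubgroup (G := S) 2
    rw [hO2, relIndex_bot_left] at h1
    rw [← Nat.not_even_iff_odd, even_iff_two_dvd]
    exact h1
  have hKn : K.Normal := H1.Cores.fittingSubgroup_normal
  have hCK := H1.Solv.centralizer_fitting_le (G := S) hS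
  have hKpow : ∀ x ∈ K, (x : V ≃ₗ[ZMod 2] V) ^ Nat.card K = 1 := by
    intro x hx
    have h1 : x ^ Nat.card K = 1 := by
      have := pow_card_eq_one' (x := (⟨x, hx⟩ : K))
      exact congrArg Subtype.val this
    rw [← Subgroup.coe_pow, h1]; rfl
  set Q : S := ⟨P, hPS⟩ with hQ
  have hQQ : ((Q * Q : S) : V ≃ₗ[ZMod 2] V) = P * P := rfl
  have htt : (Q * Q) * (Q * Q) = 1 := by
    apply Subtype.ext
    exact htv.sq
  have htinv : (Q * Q)⁻¹ = Q * Q := inv_eq_of_mul_eq_one_right htt
  obtain ⟨k, hkK, hk⟩ : ∃ k ∈ K, k⁻¹ * (Q * Q) * k ≠ Q * Q := by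
    by_contra hcon
    push Not at hcon
    have h1 : Q * Q ∈ K := by
      apply hCK
      rw [mem_centralizer_iff]
      intro k hk
      have := hcon k hk
      rw [mul_assoc, inv_mul_eq_iff_eq_mul] at this
      exact this.symm
    have h2 := hKpow _ h1
    apply hP2
    rw [sq, ← hQQ]
    obtain ⟨m, hm⟩ := hKodd
    have h3 : ((Q * Q : S) : V ≃ₗ[ZMod 2] V) * ((Q * Q : S) : V ≃ₗ[ZMod 2] V) = 1 := htv.sq
    rw [hm, pow_succ, pow_mul, sq, h3, one_pow, one_mul] at h2
    exact h2
  -- products of conjugates are in `K`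
  have hprod : ∀ k₁ ∈ K, ∀ k₂ ∈ K, (k₁⁻¹ * (Q * Q) * k₁) * (k₂⁻¹ * (Q * Q) * k₂) ∈ K := by
    intro k₁ h₁ k₂ h₂
    have e : (k₁⁻¹ * (Q * Q) * k₁) * (k₂⁻¹ * (Q * Q) * k₂) =
        k₁⁻¹ * ((Q * Q) * (k₁ * k₂⁻¹) * (Q * Q)⁻¹) * k₂ := by rw [htinv]; group
    rw [e]
    exact mul_mem (mul_mem (inv_mem h₁) (hKn.conj_mem _ (mul_mem h₁ (inv_mem h₂)) _)) h₂
  set t := Q * Q with ht
  set t' := k⁻¹ * t * k with ht'
  set l := Q⁻¹ * k * Q with hl
  have hlK : l ∈ K := by
    have := hKn.conj_mem k hkK Q⁻¹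
    rwa [inv_inv] at this
  set t'' := l⁻¹ * t * l with ht''
  have hQt : Q⁻¹ * t * Q = t := by rw [ht]; group
  have ht''e : t'' = Q⁻¹ * t' * Q := by
    rw [ht'', hl, ht']
    nth_rewrite 1 [← hQt]
    group
  have htvt' : IsTv (t' : V ≃ₗ[ZMod 2] V) _ := htv.conj (k : V ≃ₗ[ZMod 2] V)
  have htvt'' : IsTv (t'' : V ≃ₗ[ZMod 2] V) _ := htv.conj (l : V ≃ₗ[ZMod 2] V)
  have htvt : IsTv (t : V ≃ₗ[ZMod 2] V) _ := htv
  have hm : ∀ m₁ m₂ : S, m₁ * m₂ ∈ K → ((m₁ : V ≃ₗ[ZMod 2] V) * (m₂ : V ≃ₗ[ZMod 2] V)) ^ Nat.card K = 1 :=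
    fun m₁ m₂ h => hKpow _ h
  -- `t'` does not commute with `t`
  have hncomm : t * t' * t ≠ t' := by
    intro h
    have h1 : t * t' ∈ K := by
      have := hprod 1 (one_mem _) k hkK
      simpa using this
    have h2 := hKpow _ h1
    have h3 : (t * t') * (t * t') = 1 := by
      calc (t * t') * (t * t') = (t * t' * t) * t' := by group
        _ = t' * t' := by rw [h]
        _ = k⁻¹ * (t * t) * k := by rw [ht']; group
        _ = 1 := by rw [htt]; group
    have h2' : (t * t') ^ Nat.card K = 1 := Subtype.ext (by simpa using h2)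
    obtain ⟨m, hm⟩ := hKodd
    rw [hm, pow_succ, pow_mul, sq, h3, one_pow, one_mul] at h2'
    apply hk
    have h4 : t' = t⁻¹ := by rw [eq_inv_iff_mul_eq_one, mul_eq_one_iff_eq_inv]; exact (eq_inv_of_mul_eq_one_right h2')
    rw [h4, htinv]
  have ht''t : t'' ≠ t := by
    intro h
    rw [ht''e] at h
    apply hk
    have : t' = Q * t * Q⁻¹ := by rw [← h]; group
    rw [this, ht]; group
  have ht''t' : t'' ≠ t' := by
    intro h
    rw [ht''e] at h
    have h2 : Q⁻¹ * (Q⁻¹ * t' * Q) * Q = t' := by rw [h, h]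
    apply hncomm
    calc t * t' * t = t⁻¹ * t' * t := by rw [htinv]
      _ = Q⁻¹ * (Q⁻¹ * t' * Q) * Q := by rw [ht]; group
      _ = t' := h2
  have hfin := third htvt htvt' htvt'' hKodd
    (hm t t' (by have := hprod 1 (one_mem _) k hkK; simpa using this))
    (hm t'' t (by have := hprod l hlK 1 (one_mem _); simpa using this))
    (hm t'' t' (hprod l hlK k hkK))
    (hm t'' (t * t' * t) (by
      have h5 : t * t' * t = (t⁻¹ * k * t)⁻¹ * t * (t⁻¹ * k * t) := by
        rw [ht']
        have : t * (k⁻¹ * t * k) * t = t⁻¹ * k⁻¹ * t * k * t := by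
          nth_rewrite 1 [← htinv]; group
        rw [this]; group
      rw [h5]
      apply hprod l hlK
      have := hKn.conj_mem k hkK t⁻¹
      rwa [inv_inv] at this))
    (fun h => hk (Subtype.ext h.symm)) (fun h => ht''t (Subtype.ext h)) (fun h => ht''t' (Subtype.ext h))
  have hfin' : t'' = t * t' * t := Subtype.ext hfin
  -- conclude
  apply ht''t'
  rw [ht''e] at hfin' ⊢
  have h6 : Q⁻¹ * t' * Q = Q⁻¹ * (Q⁻¹ * t' * Q) * Q := by
    calc Q⁻¹ * t' * Q = t * t' * t := hfin'
      _ = t⁻¹ * t' * t := by rw [htinv]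
      _ = _ := by rw [ht]; group
  have h7 := mul_left_cancel (mul_right_cancel h6)
  exact h7.symm

end Cfsg.Agent.S4410
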