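import Cfsg.Statements.S4412
import Mathlib
import Cfsg.Agent.Lib.H76.ThreeBroad

set_option autoImplicit false
open Cfsg

namespace Cfsg.Agent.S4412

/-- Let p be an odd prime, P a finite p-group and I an elementary abelian subgroup of order 8 of Aut(P). Call T ∈ I, T ≠ 1, broad when its fixed-point subgroup C_P(T) is not cyclic. Suppose I has a proper subgroup I₀ containing no broad element such that the product of any two broad elements lies in I₀. Then P is abelian of rank exactly 3 (generated by three elements but not by two), there are exactly three broad elements and they generate I, and I₀ is exactly the set of products of two broad elements. -/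
theorem result
    {P : Type*} [Group P] [Finite P] (p : ℕ) (hp : p.Prime) (hp2 : p ≠ 2) (hP : IsPGroup p P)
    (I : Subgroup (MulAut P)) (hI : Cfsg.IsElementaryAbelian 2 I) (hI8 : Nat.card ↥I = 8)
    (I₀ : Subgroup (MulAut P)) (hI₀ : I₀ < I)
    (hdisj : ∀ T ∈ I₀, T ≠ 1 → ∃ g : P, ∀ x : P, (T x = x ↔ x ∈ Subgroup.zpowers g))
    (hprod : ∀ T ∈ I, ∀ T' ∈ I, T ≠ 1 → T' ≠ 1 → (¬ ∃ g : P, ∀ x : P, (T x = x ↔ x ∈ Subgroup.zpowers g)) →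
      (¬ ∃ g : P, ∀ x : P, (T' x = x ↔ x ∈ Subgroup.zpowers g)) → T * T' ∈ I₀) :
    IsMulCommutative P ∧ (∃ a b c : P, Subgroup.closure {a, b, c} = ⊤) ∧ (¬ ∃ a b : P, Subgroup.closure {a, b} = ⊤) ∧
      Nat.card {T : MulAut P // T ∈ I ∧ T ≠ 1 ∧ ¬ ∃ g : P, ∀ x : P, (T x = x ↔ x ∈ Subgroup.zpowers g)} = 3 ∧
      Subgroup.closure {T : MulAut P | T ∈ I ∧ T ≠ 1 ∧ ¬ ∃ g : P, ∀ x : P, (T x = x ↔ x ∈ Subgroup.zpowers g)} = I ∧
      (I₀ : Set (MulAut P)) = {S : MulAut P | ∃ T T' : MulAut P, T ∈ I ∧ T' ∈ I ∧ T ≠ 1 ∧ T' ≠ 1 ∧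
        (¬ ∃ g : P, ∀ x : P, (T x = x ↔ x ∈ Subgroup.zpowers g)) ∧ (¬ ∃ g : P, ∀ x : P, (T' x = x ↔ x ∈ Subgroup.zpowers g)) ∧ S = T * T'} := by
  obtain ⟨hc, h3, h2, e₁, e₂, e₃, n12, n13, n23, hB, hcl, hI0⟩ := H76.ThreeBroad.main hp hp2 hP
    (I := I) (fun i hi => by rw [← pow_two]; exact hI.2 i hi) hI8 hI₀ hdisj hprod
  have hset : {T : MulAut P | T ∈ I ∧ T ≠ 1 ∧ ¬ ∃ g : P, ∀ x : P, (T x = x ↔ x ∈ Subgroup.zpowers g)}
      = {e₁, e₂, e₃} := by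
    ext T
    exact hB T
  refine ⟨⟨⟨hc⟩⟩, h3, h2, ?_, ?_, ?_⟩
  · have h4 : Nat.card {T : MulAut P // T ∈ I ∧ T ≠ 1 ∧
        ¬ ∃ g : P, ∀ x : P, (T x = x ↔ x ∈ Subgroup.zpowers g)} =
        ({e₁, e₂, e₃} : Set (MulAut P)).ncard := by
      rw [← hset]
      rfl
    rw [h4, Set.ncard_eq_three]
    exact ⟨e₁, e₂, e₃, n12, n13, n23, rfl⟩
  · rw [hset]
    exact hcl
  · ext S
    constructor
    · intro hS
      have hb1 := (hB e₁).2 (Or.inl rfl)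
      have hb2 := (hB e₂).2 (Or.inr (Or.inl rfl))
      have hb3 := (hB e₃).2 (Or.inr (Or.inr rfl))
      rcases (hI0 S).1 hS with h | h | h | h
      · refine ⟨e₁, e₁, hb1.1, hb1.1, hb1.2.1, hb1.2.1, hb1.2.2, hb1.2.2, ?_⟩
        rw [h, ← pow_two, hI.2 e₁ hb1.1]
      · exact ⟨e₁, e₂, hb1.1, hb2.1, hb1.2.1, hb2.2.1, hb1.2.2, hb2.2.2, h⟩
      · exact ⟨e₁, e₃, hb1.1, hb3.1, hb1.2.1, hb3.2.1, hb1.2.2, hb3.2.2, h⟩
      · exact ⟨e₂, e₃, hb2.1, hb3.1, hb2.2.1, hb3.2.1, hb2.2.2, hb3.2.2, h⟩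
    · rintro ⟨T, T', hT, hT', hT1, hT'1, hTc, hT'c, rfl⟩
      exact hprod T hT T' hT' hT1 hT'1 hTc hT'c

end Cfsg.Agent.S4412
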