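import Cfsg.Statements.S4413
import Mathlib
import Cfsg.Agent.Lib.H76.AutExtra

set_option autoImplicit false
open Cfsg

namespace Cfsg.Agent.S4413

open Subgroup H76.AutExtra

/-- Let P be an extraspecial 2-group of order 32 with no elementary abelian subgroup of order 8 (the central product of a dihedral and a quaternion group of order 8). Then the inner automorphism group of P has order 16 and the outer automorphism group Aut(P)/Inn(P) is isomorphic to the symmetric group of degree 5; in particular Aut(P) has order 1920. -/
theorem result {P : Type*} [Group P] [Finite P]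
    (hex : Cfsg.IsExtraspecial 2 P) (h32 : Nat.card P = 32)
    (hminus : ∀ A : Subgroup P, Cfsg.IsElementaryAbelian 2 A → Nat.card ↥A ≤ 4)
    [(MulAut.conj : P →* MulAut P).range.Normal] :
    Nat.card ↥(MulAut.conj : P →* MulAut P).range = 16 ∧ Nat.card (MulAut P) = 1920 ∧
      Nonempty ((MulAut P ⧸ (MulAut.conj : P →* MulAut P).range) ≃* Equiv.Perm (Fin 5)) := by
  obtain ⟨z, hz⟩ := exists_data hex
  have D : Minus P z := ⟨hz, h32, hminus⟩
  have hker : (MulAut.conj : P →* MulAut P).ker = center P := by
    ext g
    rw [MonoidHom.mem_ker, mem_center_iff]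
    constructor
    · intro h x
      have h1 := congrArg (fun f : MulAut P => f x) h
      simp only [MulAut.conj_apply, MulAut.one_apply] at h1
      rw [mul_inv_eq_iff_eq_mul] at h1
      exact h1.symm
    · intro h
      ext x
      rw [MulAut.conj_apply, ← h x, mul_inv_cancel_right]; rfl
  have h16 : Nat.card ↥(MulAut.conj : P →* MulAut P).range = 16 := by
    have h1 := (center P).card_mul_index
    rw [hex.2, h32, ← hker, index_ker] at h1
    omega
  -- the isomorphism
  have e5 : Nat.card {v : P ⧸ center P // IsSing v} = Nat.card (Fin 5) := by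
    rw [D.card_sing hex, Nat.card_eq_fintype_card, Fintype.card_fin]
  have e5' : {v : P ⧸ center P // IsSing v} ≃ Fin 5 := (Finite.card_eq.mp e5).some
  have e1 : (MulAut P ⧸ (MulAut.conj : P →* MulAut P).range) ≃* (MulAut P ⧸ (permAct P).ker) :=
    QuotientGroup.quotientMulEquivOfEq (D.ker_permAct hex).symm
  have e2 : (MulAut P ⧸ (permAct P).ker) ≃* Equiv.Perm {v : P ⧸ center P // IsSing v} :=
    QuotientGroup.quotientKerEquivOfSurjective _ D.permAct_surjective
  have e3 : Equiv.Perm {v : P ⧸ center P // IsSing v} ≃* Equiv.Perm (Fin 5) := Equiv.permCongrHom e5'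
  have e := (e1.trans e2).trans e3
  refine ⟨h16, ?_, ⟨e⟩⟩
  rw [← (MulAut.conj : P →* MulAut P).range.card_mul_index, h16, index_eq_card, Nat.card_congr e.toEquiv,
    Nat.card_eq_fintype_card, Fintype.card_perm, Fintype.card_fin]
  rfl

end Cfsg.Agent.S4413
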