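import Cfsg.Statements.S4414
import Mathlib
import Cfsg.Agent.Lib.H76.OrbitFix2

set_option autoImplicit false
open Cfsg

namespace Cfsg.Agent.S4414

/-- Let S be a finite solvable group whose order is divisible only by the primes 2, p, q (p, q distinct odd primes), with a Sylow system S₂, S_p, S_q (pairwise permutable Sylow subgroups) such that: S_p is a minimal normal subgroup of S of order p or p²; S_q has order q and [S_p, S_q] = S_p; and O₂(S) = 1. Let E be an irreducible module for S over the field with two elements on which S_p acts faithfully, and E₀ the subspace of fixed points of S₂. Then either E₀ has at least 8 elements, or E₀ has exactly 4 elements and S_q does not leave E₀ invariant. -/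
theorem result {S : Type*} [Group S] [Finite S]
    [Group.IsSolvable S] (p q : ℕ) (hp : p.Prime) (hq : q.Prime) (hp2 : p ≠ 2) (hq2 : q ≠ 2) (hpq : p ≠ q)
    (hπ : ∀ r : ℕ, r.Prime → r ∣ Nat.card S → r = 2 ∨ r = p ∨ r = q)
    (S₂ : Sylow 2 S) (Sp : Sylow p S) (Sq : Sylow q S)
    (h2q : Nat.card ↥((S₂ : Subgroup S) ⊔ (Sq : Subgroup S)) = Nat.card ↥S₂ * Nat.card ↥Sq)
    (h2p : Nat.card ↥((S₂ : Subgroup S) ⊔ (Sp : Subgroup S)) = Nat.card ↥S₂ * Nat.card ↥Sp)
    (hpq' : Nat.card ↥((Sp : Subgroup S) ⊔ (Sq : Subgroup S)) = Nat.card ↥Sp * Nat.card ↥Sq)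
    (hSpN : (Sp : Subgroup S).Normal) (hSpmin : ∀ N : Subgroup S, N.Normal → N ≤ (Sp : Subgroup S) → N = ⊥ ∨ N = (Sp : Subgroup S))
    (hSpcard : Nat.card ↥Sp = p ∨ Nat.card ↥Sp = p ^ 2)
    (hSq : Nat.card ↥Sq = q) (hcomm : ⁅(Sp : Subgroup S), (Sq : Subgroup S)⁆ = (Sp : Subgroup S))
    (hO2 : Cfsg.pCore 2 S = ⊥)
    {E : Type*} [AddCommGroup E] [Module (ZMod 2) E] [Finite E] (ρ : Representation (ZMod 2) S E) (hE : Nontrivial E)
    (hirr : ∀ N : Submodule (ZMod 2) E, (∀ s : S, ∀ m ∈ N, ρ s m ∈ N) → N = ⊥ ∨ N = ⊤)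
    (hfaith : ∀ x ∈ (Sp : Subgroup S), ρ x = 1 → x = 1) :
    8 ≤ Nat.card {v : E // ∀ s ∈ (S₂ : Subgroup S), ρ s v = v} ∨
      (Nat.card {v : E // ∀ s ∈ (S₂ : Subgroup S), ρ s v = v} = 4 ∧
        ∃ x ∈ (Sq : Subgroup S), ∃ v : E, (∀ s ∈ (S₂ : Subgroup S), ρ s v = v) ∧ ¬ ∀ s ∈ (S₂ : Subgroup S), ρ s (ρ x v) = ρ x v) := by
  have hpf : Fact p.Prime := ⟨hp⟩
  have hqf : Fact q.Prime := ⟨hq⟩
  have hcard : Nat.card (Sp : Subgroup S) = p ∨ Nat.card (Sp : Subgroup S) = p ^ 2 := hSpcard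
  have hcomm' : ∀ a b : (Sp : Subgroup S), a * b = b * a := by
    rcases hcard with h | h
    · have hcyc : IsCyclic (Sp : Subgroup S) := isCyclic_of_prime_card h
      exact fun a b => (IsCyclic.isMulCommutative (α := (Sp : Subgroup S))).is_comm.comm a b
    · exact (IsPGroup.isMulCommutative_of_card_eq_prime_sq h).is_comm.comm
  have hodd : Odd (Nat.card (Sp : Subgroup S)) := by
    rcases hcard with h | h
    · rw [h]; exact hp.odd_of_ne_two hp2
    · rw [h]; exact (hp.odd_of_ne_two hp2).pow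
  have hA1 : (Sp : Subgroup S) ≠ ⊥ := by
    intro h
    have h1 : Nat.card (Sp : Subgroup S) = 1 := by rw [h]; exact Subgroup.card_bot
    rcases hcard with h2 | h2
    · rw [h1] at h2; exact hp.one_lt.ne h2
    · rw [h1] at h2
      have := Nat.one_lt_pow (two_ne_zero) hp.one_lt
      omega
  exact H76.OrbitFix.final ρ (Sp : Subgroup S) hSpN hcomm' hodd hA1 (S₂ : Subgroup S)
    S₂.isPGroup' hq2 (Sq : Subgroup S) hSq hcomm hE hirr hfaith

end Cfsg.Agent.S4414
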