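import Cfsg.Statements.S4415
import Cfsg.Agent.Lib.H79.KBl

set_option autoImplicit false
open Cfsg

namespace Cfsg.Agent.S4415

open Subgroup in
/-- the sub-statement on the shape of `R` -/
theorem shape {S : Type*} [Group S] [Finite S] (R : Subgroup S) (h : H79.KB.Conc R) :
    (Cfsg.IsElementaryAbelian 2 R ∧ Nat.card ↥R = 4) ∨
      (Cfsg.IsExtraspecial 2 ↥R ∧ Nat.card ↥R = 32 ∧
        ∃ A : Subgroup S, A ≤ R ∧ Cfsg.IsElementaryAbelian 2 A ∧ Nat.card ↥A = 8) := by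
  rcases h with ⟨h1, h2, h3⟩ | ⟨h1, z, hz, hz1, hzz, hzc, hsq, hcen, ⟨x0, hx0, y0, hy0, hxy⟩, A8, hA, hA8, hAs⟩
  · left
    refine ⟨⟨⟨⟨fun a b => Subtype.ext (h3 a a.2 b b.2)⟩⟩, fun a ha => by rw [pow_two]; exact h2 a ha⟩, h1⟩
  · right
    refine ⟨H79.KB.exsp h1 ⟨z, hz⟩ (fun h => hz1 (congrArg Subtype.val h)) (Subtype.ext hzz)
      (fun x => Subtype.ext (hzc x x.2)) ?_ ?_ ⟨⟨x0, hx0⟩, ⟨y0, hy0⟩, fun h => hxy (congrArg Subtype.val h)⟩, h1,
      A8, hA, ⟨⟨⟨?_⟩⟩, fun a ha => by rw [pow_two]; exact hAs a ha⟩, hA8⟩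
    · intro x
      rcases hsq x x.2 with h | h
      · exact Or.inl (Subtype.ext h)
      · exact Or.inr (Subtype.ext h)
    · intro x hx
      rcases hcen x x.2 (fun y hy => congrArg Subtype.val (hx ⟨y, hy⟩)) with h | h
      · exact Or.inl (Subtype.ext h)
      · exact Or.inr (Subtype.ext h)
    · intro x y
      apply Subtype.ext
      show (x : S) * y = y * x
      have h2 : ∀ w ∈ A8, w⁻¹ = w := fun w hw => (eq_inv_of_mul_eq_one_left (hAs w hw)).symm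
      have h3 := h2 _ (A8.mul_mem x.2 y.2)
      rw [mul_inv_rev, h2 _ x.2, h2 _ y.2] at h3
      exact h3.symm

/-- Let S be a finite solvable group acting faithfully on a finite-dimensional space E over the field with three elements, with O₃(S) = 1. Let B ≤ S have order 3 and suppose: E = E₀ ⊕ E₁ with B fixing E₁ pointwise, E₀ B-invariant of order 27 and indecomposable under B (a generator of B has a single Jordan block on E₀); B normalizes but does not centralize some subgroup Q of S that is elementary abelian of order 4; and B is the centre of a Sylow 3-subgroup of S. Put R = [O_{3'}(S), B]. Then R is elementary abelian of order 4 or extraspecial of order 32 containing an elementary abelian subgroup of order 8 (a central product of two quaternion groups), and E is the direct sum of a subspace fixed pointwise by R and an RB-invariant subspace on which the subgroup RB acts faithfully and irreducibly.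 -/
theorem result {S : Type*} [Group S] [Finite S]
    [Group.IsSolvable S] {E : Type*} [AddCommGroup E] [Module (ZMod 3) E] [Finite E] (ρ : Representation (ZMod 3) S E)
    (hfaith : Function.Injective ρ) (hO3 : Cfsg.pCore 3 S = ⊥)
    (B : Subgroup S) (hB : Nat.card ↥B = 3) (b : S) (hb : Subgroup.zpowers b = B)
    (E₀ E₁ : Submodule (ZMod 3) E) (hE01 : E₀ ⊓ E₁ = ⊥) (hE01' : E₀ ⊔ E₁ = ⊤)
    (hE1 : ∀ v ∈ E₁, ρ b v = v) (hE0inv : ∀ v ∈ E₀, ρ b v ∈ E₀) (hE0 : Nat.card ↥E₀ = 27)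
    (hind : ∃ v ∈ E₀, ρ b (ρ b v - v) - (ρ b v - v) ≠ 0)
    (Q : Subgroup S) (hQ : Cfsg.IsElementaryAbelian 2 Q) (hQ4 : Nat.card ↥Q = 4)
    (hBQ : B ≤ Subgroup.normalizer (Q : Set S)) (hBQ' : ¬ B ≤ Subgroup.centralizer (Q : Set S))
    (P : Sylow 3 S) (hBZ : (Subgroup.center ↥(P : Subgroup S)).map (P : Subgroup S).subtype = B) :
    ((Cfsg.IsElementaryAbelian 2 ⁅Cfsg.pPrimeCore 3 S, B⁆ ∧ Nat.card ↥⁅Cfsg.pPrimeCore 3 S, B⁆ = 4) ∨
      (Cfsg.IsExtraspecial 2 ↥⁅Cfsg.pPrimeCore 3 S, B⁆ ∧ Nat.card ↥⁅Cfsg.pPrimeCore 3 S, B⁆ = 32 ∧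
        ∃ A : Subgroup S, A ≤ ⁅Cfsg.pPrimeCore 3 S, B⁆ ∧ Cfsg.IsElementaryAbelian 2 A ∧ Nat.card ↥A = 8)) ∧
    ∃ F₀ F₁ : Submodule (ZMod 3) E, F₀ ⊓ F₁ = ⊥ ∧ F₀ ⊔ F₁ = ⊤ ∧
      (∀ r ∈ ⁅Cfsg.pPrimeCore 3 S, B⁆, ∀ v ∈ F₁, ρ r v = v) ∧ (∀ r ∈ ⁅Cfsg.pPrimeCore 3 S, B⁆ ⊔ B, ∀ v ∈ F₀, ρ r v ∈ F₀) ∧
      (∀ r ∈ ⁅Cfsg.pPrimeCore 3 S, B⁆ ⊔ B, (∀ v ∈ F₀, ρ r v = v) → r = 1) ∧
      (∀ N : Submodule (ZMod 3) E, N ≤ F₀ → (∀ r ∈ ⁅Cfsg.pPrimeCore 3 S, B⁆ ⊔ B, ∀ v ∈ N, ρ r v ∈ N) → N = ⊥ ∨ N = F₀) := by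
  haveI : Fact (Nat.Prime 3) := ⟨Nat.prime_three⟩
  set K := Cfsg.pPrimeCore 3 S with hK
  set R := ⁅K, B⁆ with hR
  have hb3 : b ^ 3 = 1 := by
    have h1 : orderOf b = 3 := by rw [← Nat.card_zpowers, hb, hB]
    rw [← h1]; exact pow_orderOf_eq_one b
  have hbB : b ∈ B := by rw [← hb]; exact Subgroup.mem_zpowers b
  haveI hKn : K.Normal := inferInstance
  have hBK : B ≤ Subgroup.normalizer (K : Set S) := by
    rw [Subgroup.normalizer_eq_top]; exact le_top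
  have hRK : R ≤ K := H1.Coprime2.commutator_le_left hBK
  have hcopK : (Nat.card K).Coprime 3 := H1.Cores.coprime_card_pPrimeCore 3
  have hcopR : (Nat.card R).Coprime 3 := Nat.Coprime.coprime_dvd_left (Subgroup.card_dvd_of_le hRK) hcopK
  have hRR : ⁅R, B⁆ = R := H1.Coprime2.commutator_commutator_eq B K hBK (by rw [hB]; exact hcopK.symm)
    (Or.inl inferInstance)
  have hbN : b ∈ Subgroup.normalizer (R : Set S) := H1.Coprime2.le_normalizer_commutator_right K B hbB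
  obtain ⟨hr2, hr1⟩ := H79.KB.ranks ρ hb3 E₀ E₁ hE01' hE1 hE0inv hE0
  obtain ⟨q, q', q'', hq, hq', hq'', e1, e2, e3, e4, n1, _, _, _, s1, s2, s3, _⟩ :=
    H79.KB.v4_struct hb3 Q hQ4 hQ.2 (fun x hx => (Subgroup.mem_normalizer_iff.1 (hBQ hbB) x).1 hx) (by
      by_contra hcon
      push Not at hcon
      apply hBQ'
      rw [← hb, Subgroup.zpowers_le, Subgroup.mem_centralizer_iff]
      intro x hx
      have h1 := hcon x hx
      calc x * b = b * x * b⁻¹ * b := by rw [h1]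
        _ = b * x := by group)
  have hv : H79.KB.V4 b q q' q'' := ⟨e1, e2, e3, e4, n1, s1, s2, s3⟩
  have hbP : b ∈ (Subgroup.center ↥(P : Subgroup S)).map (P : Subgroup S).subtype := by rw [hBZ]; exact hbB
  have k3 : q'' ∈ K := H79.KB.q_mem inferInstance b P hbP hv
  have k1 : q ∈ K := H79.KB.q_mem inferInstance b P hbP hv.rot
  have k2 : q' ∈ K := H79.KB.q_mem inferInstance b P hbP hv.rot.rot
  have hinR : ∀ {x y z : S}, x ∈ K → H79.KB.V4 b x y z → z ∈ R := by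
    intro x y z hx h
    have : z = x * b * x⁻¹ * b⁻¹ := by
      have e : x⁻¹ = x := (eq_inv_of_mul_eq_one_left h.s).symm
      calc z = x * (b * x * b⁻¹) := by rw [h.h1, h.h4]
        _ = x * b * x⁻¹ * b⁻¹ := by rw [e]; group
    rw [this]
    exact Subgroup.commutator_mem_commutator hx hbB
  have r3 : q'' ∈ R := hinR k1 hv
  have r1 : q ∈ R := hinR k2 hv.rot
  have r2 : q' ∈ R := hinR k3 hv.rot.rot
  obtain ⟨hc, hf, hi⟩ := H79.KB.assemble inferInstance hfaith R hcopR hb3 (by rw [hb, hRR]) hbN hr2 hr1 hv r1 r2 r3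
  rw [hb] at hf hi
  have hBN : B ≤ Subgroup.normalizer (R : Set S) := by rw [← hb, Subgroup.zpowers_le]; exact hbN
  refine ⟨shape R hc, H79.KB.F0 ρ R, H79.KB.F1 ρ R, ?_, H79.KB.sup_top ρ R hcopR, fun r hr v hv => hv r hr, ?_, hf, hi⟩
  · rw [eq_bot_iff]
    rintro v ⟨h0, h1⟩
    rw [Submodule.mem_bot]
    exact H79.KB.inf_bot ρ R hcopR h0 h1
  · intro r hr v hv
    exact H79.KB.F0_inv ρ R ((sup_le Subgroup.le_normalizer hBN : R ⊔ B ≤ _) hr) hv

end Cfsg.Agent.S4415
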