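import Cfsg.Statements.S4420
import Mathlib

set_option autoImplicit false
open Cfsg

namespace Cfsg.Agent.S4420

/-- Structure of groups in which every element outside some proper subgroup has square 1. Let H be a finite group with a proper subgroup A such that every element outside A has square 1. Then H has an abelian normal subgroup B of index 2 such that every element outside B is an involution inverting every element of B; and if H is not an elementary abelian 2-group, B is the only abelian normal subgroup of index 2 with this property. -/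
theorem result {H : Type*} [Group H] [Finite H] (A : Subgroup H) (hA : A ≠ ⊤) (hD : ∀ x : H, x ∉ A → x ^ 2 = 1) :
    ∃ B : Subgroup H, B.Normal ∧ IsMulCommutative ↥B ∧ B.index = 2 ∧
      (∀ x : H, x ∉ B → x ^ 2 = 1 ∧ ∀ b ∈ B, x * b * x⁻¹ = b⁻¹) ∧
      (¬ (IsMulCommutative H ∧ ∀ x : H, x ^ 2 = 1) →
        ∀ B' : Subgroup H, B'.Normal → IsMulCommutative ↥B' → B'.index = 2 →
          (∀ x : H, x ∉ B' → x ^ 2 = 1 ∧ ∀ b ∈ B', x * b * x⁻¹ = b⁻¹) → B' = B) := by
  have inv_of_sq : ∀ x : H, x ^ 2 = 1 → x⁻¹ = x := by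
    intro x hx
    rw [inv_eq_iff_mul_eq_one, ← sq, hx]
  have hinv : ∀ t : H, t ∉ A → ∀ a ∈ A, t * a * t⁻¹ = a⁻¹ := by
    intro t ht a ha
    have hta : t * a ∉ A := fun h => ht ((Subgroup.mul_mem_cancel_right A ha).1 h)
    have h1 := hD _ hta
    rw [inv_of_sq t (hD t ht), eq_inv_iff_mul_eq_one]
    rw [sq] at h1
    simpa [mul_assoc] using h1
  obtain ⟨t, ht⟩ : ∃ t : H, t ∉ A := by
    by_contra h
    push Not at h
    exact hA ((Subgroup.eq_top_iff' A).2 h)
  have hAcomm : ∀ a ∈ A, ∀ b ∈ A, a * b = b * a := by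
    intro a ha b hb
    have h1 := hinv t ht (a * b) (A.mul_mem ha hb)
    have h2 : t * (a * b) * t⁻¹ = (t * a * t⁻¹) * (t * b * t⁻¹) := by group
    rw [h2, hinv t ht a ha, hinv t ht b hb] at h1
    have h3 := congrArg (fun x => x⁻¹) h1
    simp only [mul_inv_rev, inv_inv] at h3
    exact h3.symm
  have uniq : ∀ B : Subgroup H, B.Normal → IsMulCommutative ↥B → B.index = 2 →
      (∀ x : H, x ∉ B → x ^ 2 = 1 ∧ ∀ b ∈ B, x * b * x⁻¹ = b⁻¹) →
      (¬ (IsMulCommutative H ∧ ∀ x : H, x ^ 2 = 1) →
        ∀ B' : Subgroup H, B'.Normal → IsMulCommutative ↥B' → B'.index = 2 →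
          (∀ x : H, x ∉ B' → x ^ 2 = 1 ∧ ∀ b ∈ B', x * b * x⁻¹ = b⁻¹) → B' = B) := by
    intro B _ hBc hBi hB hne B' _ hB'c hB'i hB'
    have hsq : ¬ ∀ x : H, x ^ 2 = 1 := by
      intro h
      refine hne ⟨⟨⟨fun x y => ?_⟩⟩, h⟩
      have h1 := inv_of_sq _ (h (x * y))
      rw [mul_inv_rev, inv_of_sq x (h x), inv_of_sq y (h y)] at h1
      exact h1.symm
    push Not at hsq
    obtain ⟨b, hb⟩ := hsq
    have hbB : b ∈ B := by
      by_contra h
      exact hb (hB b h).1
    have hbB' : b ∈ B' := by
      by_contra h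
      exact hb (hB' b h).1
    have hle : B' ≤ B := by
      intro x hx
      by_contra hxB
      have h1 := (hB x hxB).2 b hbB
      have h2 : x * b = b * x := by
        have := hB'c.is_comm.comm (⟨x, hx⟩ : B') ⟨b, hbB'⟩
        exact congrArg Subtype.val this
      rw [h2, mul_inv_cancel_right] at h1
      apply hb
      rw [sq]
      nth_rewrite 2 [h1]
      exact mul_inv_cancel b
    have hle' : B ≤ B' := by
      intro x hx
      by_contra hxB
      have h1 := (hB' x hxB).2 b hbB'
      have h2 : x * b = b * x := by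
        have := hBc.is_comm.comm (⟨x, hx⟩ : B) ⟨b, hbB⟩
        exact congrArg Subtype.val this
      rw [h2, mul_inv_cancel_right] at h1
      apply hb
      rw [sq]
      nth_rewrite 2 [h1]
      exact mul_inv_cancel b
    exact le_antisymm hle hle'
  by_cases hexp : ∀ a ∈ A, a ^ 2 = 1
  · -- H is elementary abelian
    have hall : ∀ x : H, x ^ 2 = 1 := by
      intro x
      by_cases hx : x ∈ A
      · exact hexp x hx
      · exact hD x hx
    have hcomm : ∀ x y : H, x * y = y * x := by
      intro x y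
      have h1 := inv_of_sq _ (hall (x * y))
      rw [mul_inv_rev, inv_of_sq x (hall x), inv_of_sq y (hall y)] at h1
      exact h1.symm
    -- a maximal subgroup containing A
    letI : CommGroup H := { (inferInstance : Group H) with mul_comm := hcomm }
    have hnt : A < ⊤ := lt_top_iff_ne_top.2 hA
    obtain ⟨B, hB, hAB⟩ : ∃ B : Subgroup H, IsCoatom B ∧ A ≤ B := by
      rcases eq_top_or_exists_le_coatom A with h | h
      · exact absurd h hA
      · exact h
    have hBi : B.index = 2 := by
      obtain ⟨x, hx⟩ : ∃ x : H, x ∉ B := by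
        by_contra h
        push Not at h
        exact hB.1 ((Subgroup.eq_top_iff' B).2 h)
      have hsup : B ⊔ Subgroup.zpowers x = ⊤ := by
        apply hB.2
        refine lt_of_le_of_ne le_sup_left ?_
        intro h
        apply hx
        rw [h]
        exact (le_sup_right : Subgroup.zpowers x ≤ B ⊔ Subgroup.zpowers x) (Subgroup.mem_zpowers x)
      rw [Subgroup.index_eq_two_iff]
      refine ⟨x, fun b => ?_⟩
      have hb : b ∈ B ⊔ Subgroup.zpowers x := by rw [hsup]; trivial
      rw [Subgroup.mem_sup] at hb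
      obtain ⟨y, hy, z, hz, rfl⟩ := hb
      obtain ⟨k, rfl⟩ := Subgroup.mem_zpowers_iff.1 hz
      have hxx : x * x = 1 := by rw [← sq]; exact hall x
      rcases Int.even_or_odd k with ⟨j, hj⟩ | ⟨j, hj⟩
      · have hxk : x ^ k = 1 := by
          rw [hj, ← two_mul, zpow_mul]
          have : x ^ (2:ℤ) = 1 := by rw [zpow_two]; exact hxx
          rw [this, one_zpow]
        rw [hxk, mul_one]
        right
        refine ⟨hy, ?_⟩
        intro h
        exact hx ((Subgroup.mul_mem_cancel_left B hy).1 h)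
      · have hxk : x ^ k = x := by
          rw [hj, zpow_add, zpow_mul]
          have : x ^ (2:ℤ) = 1 := by rw [zpow_two]; exact hxx
          rw [this, one_zpow, one_mul, zpow_one]
        rw [hxk, mul_assoc, hxx, mul_one]
        left
        refine ⟨hy, ?_⟩
        intro h
        exact hx ((Subgroup.mul_mem_cancel_left B hy).1 h)
    have hBn : B.Normal := inferInstance
    have hBc : IsMulCommutative ↥B := ⟨⟨fun a b => Subtype.ext (hcomm a b)⟩⟩
    have hBp : ∀ x : H, x ∉ B → x ^ 2 = 1 ∧ ∀ b ∈ B, x * b * x⁻¹ = b⁻¹ := by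
      intro x _
      refine ⟨hall x, fun b _ => ?_⟩
      rw [hcomm x b, mul_inv_cancel_right, inv_of_sq b (hall b)]
    exact ⟨B, hBn, hBc, hBi, hBp, uniq B hBn hBc hBi hBp⟩
  · push Not at hexp
    obtain ⟨a, ha, ha2⟩ := hexp
    have hidx : A.index = 2 := by
      rw [Subgroup.index_eq_two_iff]
      refine ⟨t, fun b => ?_⟩
      by_cases hb : b ∈ A
      · right
        exact ⟨hb, fun h => ht ((Subgroup.mul_mem_cancel_left A hb).1 h)⟩
      · left
        refine ⟨?_, hb⟩
        by_contra hbt
        -- b*t inverts a, but also centralizes a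
        have h1 := hinv _ hbt a ha
        have h2 : b * t * a * (b * t)⁻¹ = b * (t * a * t⁻¹) * b⁻¹ := by group
        rw [h2, hinv t ht a ha, hinv b hb _ (A.inv_mem ha), inv_inv] at h1
        apply ha2
        rw [sq]
        nth_rewrite 2 [h1]
        exact mul_inv_cancel a
    have hAn : A.Normal := Subgroup.normal_of_index_eq_two hidx
    have hAc : IsMulCommutative ↥A := ⟨⟨fun a b => Subtype.ext (hAcomm a a.2 b b.2)⟩⟩
    have hAp : ∀ x : H, x ∉ A → x ^ 2 = 1 ∧ ∀ b ∈ A, x * b * x⁻¹ = b⁻¹ :=
      fun x hx => ⟨hD x hx, hinv x hx⟩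
    exact ⟨A, hAn, hAc, hidx, hAp, uniq A hAn hAc hidx hAp⟩

end Cfsg.Agent.S4420
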