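import Cfsg.Statements.S4517
import Cfsg.Agent.Lib.H78.PrincReal

set_option autoImplicit false
open Cfsg

namespace Cfsg.Agent.S4517


open H20.Loc H20.GA H20.Blk H20.DefGrp H20.Orth H20.Defect H78.PrincReal


/-- Let G be a finite group, M a maximal ideal of the algebraic integers containing 2, and k a natural number coprime to the order of G with g ^ k = g⁻¹ for every element g of odd order (so that g ↦ g ^ k induces a field automorphism of the character values inverting the roots of unity of odd order). If B is a 2-block of full defect (its defect equals the exponent of 2 in the order of G) that is stable under χ ↦ χ ∘ (· ^ k), then B is the principal 2-block. -/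
theorem result {G : Type*} [Group G] [Finite G] (M : Ideal Cfsg.AlgInt) (hM : Cfsg.IsPModular 2 M) (k : ℕ) (hk : Nat.Coprime k (Nat.card G)) (hk₂ : ∀ g : G, Odd (orderOf g) → g ^ k = g⁻¹) (B : Set (Cfsg.IrrCharacter G)) (hB : Cfsg.IsPBlock M B) (hdef : Cfsg.blockDefect 2 B = (Nat.card G).factorization 2) (hstab : ∀ χ ∈ B, ∃ ψ ∈ B, ∀ g : G, (ψ : G → ℂ) g = (χ : G → ℂ) (g ^ k)) : B = Cfsg.principalBlock M G := by
  haveI := pm_isPrime hM
  by_contra hne
  have hBne := isPBlock_nonempty hB
  obtain ⟨χ, hχ, hht⟩ := exists_height_zero hM hB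
  have hnot : χ ∉ principalBlock M G := by
    intro h
    exact hne (isPBlock_eq_of_mem hB isPBlock_principal hχ h)
  have h1 := (height_zero_iff hM hB hχ).1 hht
  rw [hdef] at h1
  have h2 : (charDegree (χ : G → ℂ)).factorization 2 = 0 := by omega
  have hdegpos : charDegree (χ : G → ℂ) ≠ 0 := by
    intro h0
    have h3 : (charDegree (χ : G → ℂ) : ℂ) = (χ : G → ℂ) 1 := charDegree_irr χ
    rw [h0, Nat.cast_zero] at h3
    exact H18.CharBasic.irr_one_ne_zero χ.2 h3.symm
  have hdeg : ¬ 2 ∣ charDegree (χ : G → ℂ) := by
    intro hd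
    have := (Nat.prime_two.dvd_iff_one_le_factorization hdegpos).1 hd
    omega
  have hreal : ∀ g : G, ¬ 2 ∣ orderOf g → MemLocalIdeal M
      (centralChar (χ : G → ℂ) g⁻¹ - centralChar (χ : G → ℂ) g) := by
    intro g hg
    obtain ⟨ψ, hψ, hψg⟩ := hstab χ hχ
    have hψe : ψ = H78.Galois.powIrr hk χ := by
      apply Subtype.ext
      funext x
      rw [hψg, H78.Galois.powIrr_apply]
    have h3 := isPBlock_sameBlock hB hψ hχ g
    rw [hψe, H78.Galois.centralChar_powIrr, hk₂ g (by rwa [← Nat.not_even_iff_odd, even_iff_two_dvd])] at h3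
    exact h3
  have h3 := omega_eB_principal hM χ hdeg hreal
  rw [omega_eB_notMem hnot, zero_sub] at h3
  have h4 := locI_neg h3
  rw [neg_neg] at h4
  have h5 : MemLocalIdeal M (omega (triv G) (eB (principalBlock M G)) -
      blockCoeff (principalBlock M G) 1) := by
    apply omega_eB_principal hM (triv G)
    · have : charDegree ((triv G : IrrCharacter G) : G → ℂ) = 1 := by
        simp [charDegree, triv]
      rw [this]
      omega
    · intro g _
      have : centralChar ((triv G : IrrCharacter G) : G → ℂ) g⁻¹ =
          centralChar ((triv G : IrrCharacter G) : G → ℂ) g := by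
        rw [centralChar, centralChar, index_centralizer_inv]
        rfl
      rw [this]
      exact locI_refl _
  rw [omega_eB_mem triv_mem] at h5
  have h6 := locI_add h5 h4
  rw [sub_add_cancel] at h6
  exact not_locI_one h6

end Cfsg.Agent.S4517
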