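import Cfsg.Statements.S4520
import Cfsg.Agent.Lib.H78.Cover2
import Cfsg.Agent.Lib.H78.GalStab2
import Cfsg.Agent.Lib.H78.FixCong

set_option autoImplicit false
open Cfsg

namespace Cfsg.Agent.S4520


open H20.Loc H20.GA H20.Blk H20.Orth H20.Defect H78.PrincReal H78.Cover H78.GalStab H78.Galois
open H18.CharBasic H18.CharOrtho H18.CharQuot H31.Clifford H18.CharInd

theorem powIrr_iter {G : Type*} [Group G] [Finite G] {k : ℕ} (hk : Nat.Coprime k (Nat.card G))
    {m : ℕ} (hm : k ^ m ≡ 1 [MOD Nat.card G]) (χ : IrrCharacter G) : (powIrr hk)^[m] χ = χ := by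
  apply Subtype.ext
  funext g
  rw [powIrr_iterate]
  exact congrFun (pw_eq_self_of_modEq hm (χ : G → ℂ)) g

theorem powIrr_mem_iff {G : Type*} [Group G] [Finite G] {k : ℕ} (hk : Nat.Coprime k (Nat.card G))
    {m : ℕ} (hm : k ^ (m + 1) ≡ 1 [MOD Nat.card G]) {M : Ideal AlgInt} (χ : IrrCharacter G) :
    powIrr hk χ ∈ principalBlock M G ↔ χ ∈ principalBlock M G := by
  constructor
  · intro h
    have h1 : ∀ (j : ℕ) (ψ : IrrCharacter G), ψ ∈ principalBlock M G →
        (powIrr hk)^[j] ψ ∈ principalBlock M G := by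
      intro j
      induction j with
      | zero => intro ψ hψ; exact hψ
      | succ j ih =>
        intro ψ hψ
        rw [Function.iterate_succ_apply]
        exact ih _ (powIrr_mem_principalBlock hk hψ)
    have h2 := h1 m _ h
    rw [← Function.iterate_succ_apply, powIrr_iter hk hm] at h2
    exact h2
  · intro h
    exact powIrr_mem_principalBlock hk h

theorem wt_powIrr {G : Type*} [Group G] [Fintype G] {k : ℕ} (hk : Nat.Coprime k (Nat.card G))
    (N : Subgroup G) [N.Normal] [Fintype N] {θ : N → ℂ} (hθ : IsIrrCharacter N θ)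
    (hst : pw k θ = θ) (χ : IrrCharacter G) :
    wt N θ (powIrr hk χ : G → ℂ) = wt N θ (χ : G → ℂ) := by
  have h1 := wt_spec N (powIrr hk χ).2 hθ
  have h2 := wt_spec N χ.2 hθ
  have h3 : classInner (fun n : N => (powIrr hk χ : G → ℂ) n) θ =
      classInner (fun n : N => (χ : G → ℂ) n) θ := by
    have := inner_res_pw hk N (χ : G → ℂ) θ
    rw [hst] at this
    exact this
  have h4 : (powIrr hk χ : G → ℂ) 1 = (χ : G → ℂ) 1 := by rw [powIrr_apply, one_pow]
  rw [h3, h4, h2] at h1
  exact_mod_cast h1.symm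


/-- Let N be a normal subgroup of odd index in the finite group G, M a maximal ideal of the algebraic integers containing 2, and k coprime to the order of G with k ^ (2 ^ e) ≡ 1 modulo the order of G for some e and g ^ k = g⁻¹ for every element g of odd order. Let θ be an irreducible character of N and χ an irreducible character of G over θ, both unchanged by composing with g ↦ g ^ k. Then χ lies in the principal 2-block of G if and only if θ lies in the principal 2-block of N. -/
theorem result {G : Type*} [Group G] [Fintype G] (M : Ideal Cfsg.AlgInt) (hM : Cfsg.IsPModular 2 M) (N : Subgroup G) [N.Normal] [Fintype N] (hidx : Odd N.index) (k e : ℕ) (hk : Nat.Coprime k (Nat.card G)) (hke : k ^ (2 ^ e) ≡ 1 [MOD Nat.card G]) (hk₂ : ∀ g : G, Odd (orderOf g) → g ^ k = g⁻¹) (θ : Cfsg.IrrCharacter N) (hθ : ∀ n : N, (θ : N → ℂ) (n ^ k) = (θ : N → ℂ) n) (χ : Cfsg.IrrCharacter G) (hχ : ∀ g : G, (χ : G → ℂ) (g ^ k) = (χ : G → ℂ) g) (hover : Cfsg.classInner (fun n : N => (χ : G → ℂ) n) (θ : N → ℂ) ≠ 0) : χ ∈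 Cfsg.principalBlock M G ↔ θ ∈ Cfsg.principalBlock M N := by

  classical
  have hMp := pm_isPrime hM
  constructor
  · intro h
    exact mem_principal_of_over N hM h hover
  · intro h
    letI := Fintype.ofFinite (IrrCharacter G)
    have hf2 : Fact (Nat.Prime 2) := ⟨Nat.prime_two⟩
    set B := principalBlock M G with hB
    have hS : IsUnion M B := isUnion_of_isPBlock isPBlock_principal
    obtain ⟨χ1, hχ1, hin1, hst1, huniq⟩ := exists_unique_stable N hidx hk hk₂ θ.2 (funext hθ)
    have hχeq : (χ : G → ℂ) = χ1 := huniq χ χ.2 hover (funext hχ)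
    have h1 := sum_wt_congr N hM hS (θ := triv N) (θ' := θ) h
    -- fixed point counts
    have hm1 : k ^ ((2 ^ e - 1) + 1) ≡ 1 [MOD Nat.card G] := by
      have : 2 ^ e - 1 + 1 = 2 ^ e := Nat.sub_add_cancel (Nat.one_le_two_pow)
      rw [this]
      exact hke
    have hfix : ∀ φ : IrrCharacter N, pw k (φ : N → ℂ) = φ →
        (∑ χ : IrrCharacter G, if χ ∈ B then wt N (φ : N → ℂ) (χ : G → ℂ) else 0) ≡
        ∑ χ : IrrCharacter G with powIrr hk χ = χ,
          (if χ ∈ B then wt N (φ : N → ℂ) (χ : G → ℂ) else 0) [MOD 2] := by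
      intro φ hφ
      apply H78.FixCong.sum_fixed 2 (powIrr hk) e (powIrr_iter hk hke)
      intro χ
      have h2 := powIrr_mem_iff hk hm1 (M := M) χ
      by_cases h3 : χ ∈ B
      · rw [if_pos h3, if_pos (h2.2 h3), wt_powIrr hk N φ.2 hφ]
      · rw [if_neg h3, if_neg (fun h4 => h3 (h2.1 h4))]
    have ht := hfix (triv N) (by funext n; rfl)
    have hθf := hfix θ (funext hθ)
    -- the trivial character contributes one
    have hone : ∑ χ : IrrCharacter G with powIrr hk χ = χ,
        (if χ ∈ B then wt N ((triv N : IrrCharacter N) : N → ℂ) (χ : G → ℂ) else 0) = 1 := by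
      rw [Finset.sum_eq_single (triv G)]
      · rw [if_pos (show triv G ∈ B from triv_mem)]
        have h2 := wt_spec N (triv G).2 (triv N).2
        have h3 : classInner (fun n : N => ((triv G : IrrCharacter G) : G → ℂ) n)
            ((triv N : IrrCharacter N) : N → ℂ) = 1 := inner_irr_self (triv N).2
        rw [h3] at h2
        have h4 : (1 : ℂ) * 1 / 1 = (wt N ((triv N : IrrCharacter N) : N → ℂ)
          ((triv G : IrrCharacter G) : G → ℂ) : ℂ) := h2
        have h5 : ((1 : ℕ) : ℂ) = (wt N ((triv N : IrrCharacter N) : N → ℂ)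
          ((triv G : IrrCharacter G) : G → ℂ) : ℂ) := by rw [← h4]; norm_num
        exact_mod_cast h5.symm
      · intro ψ hψ hne
        rw [Finset.mem_filter] at hψ
        split_ifs with hψB
        · by_contra h0
          have h2 := (wt_ne_zero_iff N ψ.2 (triv N).2).1 h0
          have h3 := ker_of_over_one N ψ.2 h2
          have h4 : pw k (ψ : G → ℂ) = ψ := congrArg Subtype.val hψ.2
          have h5 := real_eq_one N hidx ψ.2 h3 (fun g => by
            rw [← pw_eq_conj N hidx hk₂ (isCharacter_of_isIrr ψ.2) h3 g, h4])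
          exact hne (Subtype.ext (funext h5))
        · rfl
      · intro hn
        exfalso
        apply hn
        rw [Finset.mem_filter]
        refine ⟨Finset.mem_univ _, ?_⟩
        apply Subtype.ext
        funext g
        rfl
    rw [hone] at ht
    have h2 : ∑ χ : IrrCharacter G with powIrr hk χ = χ,
        (if χ ∈ B then wt N (θ : N → ℂ) (χ : G → ℂ) else 0) ≡ 1 [MOD 2] :=
      (hθf.symm.trans (h1.symm.trans ht))
    have h3 : ∑ χ : IrrCharacter G with powIrr hk χ = χ,
        (if χ ∈ B then wt N (θ : N → ℂ) (χ : G → ℂ) else 0) ≠ 0 := by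
      intro h0
      rw [h0] at h2
      exact absurd h2 (by decide)
    obtain ⟨ψ, hψ, hψ0⟩ := Finset.exists_ne_zero_of_sum_ne_zero h3
    rw [Finset.mem_filter] at hψ
    have hψB : ψ ∈ B := by
      by_contra h4
      rw [if_neg h4] at hψ0
      exact hψ0 rfl
    rw [if_pos hψB] at hψ0
    have h4 := (wt_ne_zero_iff N ψ.2 θ.2).1 hψ0
    have h5 : (ψ : G → ℂ) = χ1 := huniq ψ ψ.2 h4 (congrArg Subtype.val hψ.2)
    have h6 : χ = ψ := Subtype.ext (hχeq.trans h5.symm)
    rw [h6]
    exact hψB


end Cfsg.Agent.S4520
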