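import Cfsg.Statements.S4521
import Cfsg.Agent.Lib.H78.BlkRed
import Cfsg.Agent.Lib.H78.PrincReal
import Cfsg.Agent.Lib.H31.Clifford

set_option autoImplicit false
open Cfsg

namespace Cfsg.Agent.S4521


open H20.Loc H20.GA H20.Blk H20.DefGrp H20.Orth H20.Defect H78.BlkRed H78.PrincReal

section grp

variable {G : Type*} [Group G] {U₁ U₂ : Subgroup G}

theorem normal_left (hcomm : ∀ u ∈ U₁, ∀ v ∈ U₂, u * v = v * u) (hgen : U₁ ⊔ U₂ = ⊤) :
    U₁.Normal := by
  constructor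
  intro n hn g
  have h1 : (⊤ : Subgroup G) ≤ Subgroup.normalizer (U₁ : Set G) := by
    rw [← hgen]
    refine sup_le Subgroup.le_normalizer ?_
    intro v hv
    rw [Subgroup.mem_normalizer_iff]
    intro h
    constructor
    · intro hh
      rw [← hcomm h hh v hv, mul_inv_cancel_right]
      exact hh
    · intro hh
      have h2 := hcomm _ hh v hv
      have h3 : h = v * h * v⁻¹ := by
        have h4 : v * h = v * (v * h * v⁻¹) := by
          calc v * h = v * h * v⁻¹ * v := by group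
            _ = v * (v * h * v⁻¹) := h2
        exact mul_left_cancel h4
      rw [h3]
      exact hh
  have h2 := h1 (Subgroup.mem_top g)
  rw [Subgroup.mem_normalizer_iff] at h2
  exact (h2 n).1 hn

theorem exists_decomp (hcomm : ∀ u ∈ U₁, ∀ v ∈ U₂, u * v = v * u) (hgen : U₁ ⊔ U₂ = ⊤) (g : G) :
    ∃ u ∈ U₁, ∃ v ∈ U₂, u * v = g := by
  have := normal_left hcomm hgen
  have h : g ∈ U₁ ⊔ U₂ := by rw [hgen]; exact Subgroup.mem_top g
  rwa [Subgroup.mem_sup_of_normal_left] at h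

theorem conj_left (hcomm : ∀ u ∈ U₁, ∀ v ∈ U₂, u * v = v * u) (hgen : U₁ ⊔ U₂ = ⊤) {u k : G}
    (hu : u ∈ U₁) (hk : IsConj u k) : ∃ x ∈ U₁, x * u * x⁻¹ = k := by
  obtain ⟨c, hc⟩ := isConj_iff.1 hk
  obtain ⟨x, hx, y, hy, rfl⟩ := exists_decomp hcomm hgen c
  refine ⟨x, hx, ?_⟩
  rw [← hc]
  have h1 := hcomm u hu y hy
  calc x * u * x⁻¹ = x * (u * y) * y⁻¹ * x⁻¹ := by group
    _ = x * (y * u) * y⁻¹ * x⁻¹ := by rw [h1]
    _ = _ := by group

theorem isConj_mul (hcomm : ∀ u ∈ U₁, ∀ v ∈ U₂, u * v = v * u) (hgen : U₁ ⊔ U₂ = ⊤) {u v : G}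
    (hu : u ∈ U₁) (hv : v ∈ U₂) (k : G) (hk : IsConj u k) : IsConj (u * v) (k * v) := by
  obtain ⟨x, hx, rfl⟩ := conj_left hcomm hgen hu hk
  rw [isConj_iff]
  refine ⟨x, ?_⟩
  have h1 := hcomm x⁻¹ (U₁.inv_mem hx) v hv
  calc x * (u * v) * x⁻¹ = x * u * (v * x⁻¹) := by group
    _ = x * u * (x⁻¹ * v) := by rw [h1]
    _ = _ := by group

variable [Finite G] {p : ℕ} [Fact p.Prime]

theorem eq_one_of_central {x z : G} (hx : ¬ p ∣ orderOf x) (hc : Commute x z)
    (hz : ∃ k : ℕ, orderOf z = p ^ k) (hxz : ¬ p ∣ orderOf (x * z)) : z = 1 := by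
  have hp : p.Prime := Fact.out
  obtain ⟨k, hk⟩ := hz
  have hcop : Nat.Coprime (orderOf x) (orderOf z) := by
    rw [hk]
    exact Nat.Coprime.pow_right k ((Nat.Prime.coprime_iff_not_dvd hp).2 hx).symm
  rw [hc.orderOf_mul_eq_mul_orderOf_of_coprime hcop] at hxz
  rcases Nat.eq_zero_or_pos k with rfl | hk0
  · rw [pow_zero] at hk
    exact orderOf_eq_one_iff.1 hk
  · exfalso
    apply hxz
    rw [hk]
    exact Dvd.dvd.mul_left (dvd_pow_self p hk0.ne') _

theorem index_mul (hcomm : ∀ u ∈ U₁, ∀ v ∈ U₂, u * v = v * u) (hgen : U₁ ⊔ U₂ = ⊤)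
    (hZ : IsPGroup p ↥(U₁ ⊓ U₂)) (u : U₁) (v : U₂) (hu : ¬ p ∣ orderOf u) :
    (Subgroup.centralizer ({(u : G) * (v : G)} : Set G)).index =
      (Subgroup.centralizer ({u} : Set U₁)).index * (Subgroup.centralizer ({v} : Set U₂)).index := by
  let f : U₁ × U₂ →* G :=
    { toFun := fun x => (x.1 : G) * (x.2 : G)
      map_one' := by simp
      map_mul' := by
        intro x y
        have h1 := hcomm y.1 y.1.2 x.2 x.2.2
        simp only [Prod.fst_mul, Prod.snd_mul, Subgroup.coe_mul]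
        calc (x.1 : G) * (y.1 : G) * ((x.2 : G) * (y.2 : G)) =
            (x.1 : G) * ((y.1 : G) * (x.2 : G)) * (y.2 : G) := by group
          _ = (x.1 : G) * ((x.2 : G) * (y.1 : G)) * (y.2 : G) := by rw [h1]
          _ = _ := by group }
  have hf : Function.Surjective f := by
    intro g
    obtain ⟨x, hx, y, hy, h⟩ := exists_decomp hcomm hgen g
    exact ⟨(⟨x, hx⟩, ⟨y, hy⟩), h⟩
  rw [← Subgroup.index_comap_of_surjective _ hf, ← Subgroup.index_prod]
  congr 1
  ext ⟨a, b⟩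
  rw [Subgroup.mem_comap, Subgroup.mem_prod, Subgroup.mem_centralizer_singleton_iff,
    Subgroup.mem_centralizer_singleton_iff, Subgroup.mem_centralizer_singleton_iff]
  show (a : G) * (b : G) * ((u : G) * (v : G)) = (u : G) * (v : G) * ((a : G) * (b : G)) ↔ _
  have e1 : (a : G) * (b : G) * ((u : G) * (v : G)) = ((a * u : U₁) : G) * ((b * v : U₂) : G) := by
    have h1 := hcomm u u.2 b b.2
    push_cast
    calc (a : G) * (b : G) * ((u : G) * (v : G)) = (a : G) * ((b : G) * (u : G)) * (v : G) := by group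
      _ = (a : G) * ((u : G) * (b : G)) * (v : G) := by rw [h1]
      _ = _ := by group
  have e2 : (u : G) * (v : G) * ((a : G) * (b : G)) = ((u * a : U₁) : G) * ((v * b : U₂) : G) := by
    have h1 := hcomm a a.2 v v.2
    push_cast
    calc (u : G) * (v : G) * ((a : G) * (b : G)) = (u : G) * ((v : G) * (a : G)) * (b : G) := by group
      _ = (u : G) * ((a : G) * (v : G)) * (b : G) := by rw [h1]
      _ = _ := by group
  rw [e1, e2]
  constructor
  · intro h
    -- z = (u*a)⁻¹ * (a*u) ∈ U₁ ∩ U₂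
    have h2 : ((u * a : U₁) : G)⁻¹ * ((a * u : U₁) : G) =
        ((v * b : U₂) : G) * ((b * v : U₂) : G)⁻¹ := by
      rw [eq_mul_inv_iff_mul_eq, mul_assoc, h]
      group
    set z : G := ((u * a : U₁) : G)⁻¹ * ((a * u : U₁) : G) with hz
    have hz1 : z ∈ U₁ := U₁.mul_mem (U₁.inv_mem (u * a).2) (a * u).2
    have hz2 : z ∈ U₂ := by rw [h2]; exact U₂.mul_mem (v * b).2 (U₂.inv_mem (b * v).2)
    have hzc : ∀ x ∈ U₁, x * z = z * x := fun x hx => hcomm x hx z hz2
    have hzp : ∃ k : ℕ, orderOf z = p ^ k := by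
      obtain ⟨k, hk⟩ := (IsPGroup.iff_orderOf.1 hZ) ⟨z, Subgroup.mem_inf.2 ⟨hz1, hz2⟩⟩
      exact ⟨k, by rw [← hk]; exact (Subgroup.orderOf_mk _ _).symm⟩
    have h3 : (a : G) * (u : G) = (u : G) * (a : G) * z := by
      rw [hz]
      push_cast
      group
    clear_value z
    have h7 : orderOf ((u : G) * z) = orderOf u := by
      have h8 : (u : G) * z = (a : G) * (u : G) * (a : G)⁻¹ := by
        have h5 := hzc (a : G) a.2
        have h6 : (u : G) * (a : G) * z = (u : G) * z * (a : G) := by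
          rw [mul_assoc, h5, ← mul_assoc]
        rw [h3, h6, mul_inv_cancel_right]
      rw [h8, orderOf_conj, Subgroup.orderOf_coe]
    have h9 : z = 1 := by
      apply eq_one_of_central (p := p) (x := (u : G))
      · rwa [Subgroup.orderOf_coe]
      · exact hzc u u.2
      · exact hzp
      · rwa [h7]
    constructor
    · apply Subtype.ext
      push_cast
      rw [h3, h9, mul_one]
    · apply Subtype.ext
      rw [h9] at h2
      exact (mul_inv_eq_one.1 h2.symm).symm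
  · rintro ⟨h1, h2⟩
    rw [h1, h2]

theorem exists_decomp_regular (hcomm : ∀ u ∈ U₁, ∀ v ∈ U₂, u * v = v * u) (hgen : U₁ ⊔ U₂ = ⊤)
    (g : G) (hg : ¬ p ∣ orderOf g) :
    ∃ (u : U₁) (v : U₂), (u : G) * (v : G) = g ∧ ¬ p ∣ orderOf u ∧ ¬ p ∣ orderOf v := by
  have hp : p.Prime := Fact.out
  obtain ⟨u, hu, v, hv, huv⟩ := exists_decomp hcomm hgen g
  -- choose n ≡ 1 mod (order of g), n ≡ 0 mod p^a
  set a := (Nat.card G).factorization p with ha
  have hcop : Nat.Coprime (orderOf g) (p ^ a) :=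
    Nat.Coprime.pow_right a ((Nat.Prime.coprime_iff_not_dvd hp).2 hg).symm
  obtain ⟨n, hn1, hn2⟩ := Nat.chineseRemainder hcop 1 0
  have h0 : p ^ a ∣ n := (Nat.modEq_zero_iff_dvd).1 hn2
  have hgn : g ^ n = g := by
    have : g ^ n = g ^ 1 := pow_eq_pow_iff_modEq.2 hn1
    rwa [pow_one] at this
  have hreg : ∀ w : G, ¬ p ∣ orderOf (w ^ n) := by
    intro w hw
    obtain ⟨m, hm⟩ := h0
    have h1 : (w ^ n) ^ (Nat.card G / p ^ a) = 1 := by
      rw [hm, ← pow_mul, mul_right_comm, Nat.mul_div_cancel' (Nat.ordProj_dvd _ _), pow_mul,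
        pow_card_eq_one', one_pow]
    have h2 := orderOf_dvd_of_pow_eq_one h1
    have h3 := dvd_trans hw h2
    exact Nat.not_dvd_ordCompl hp (Nat.card_pos (α := G)).ne' h3
  have hc : Commute u v := hcomm u hu v hv
  refine ⟨⟨u ^ n, U₁.pow_mem hu n⟩, ⟨v ^ n, U₂.pow_mem hv n⟩, ?_, ?_, ?_⟩
  · show u ^ n * v ^ n = g
    rw [← hc.mul_pow, huv, hgn]
  · rw [Subgroup.orderOf_mk]; exact hreg u
  · rw [Subgroup.orderOf_mk]; exact hreg v

end grp

section chr

open H18.CharBasic H18.CharOrtho H18.CharQuot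

variable {G : Type*} [Group G] [Fintype G] {U₁ U₂ : Subgroup G}

theorem ratio_left (hcomm : ∀ u ∈ U₁, ∀ v ∈ U₂, u * v = v * u) (hgen : U₁ ⊔ U₂ = ⊤)
    [Fintype U₁] {χ : G → ℂ} (hχ : IsIrrCharacter G χ) {ψ : U₁ → ℂ} (hψ : IsIrrCharacter U₁ ψ)
    (h : classInner (fun u : U₁ => χ u) ψ ≠ 0) (u : U₁) : χ u / χ 1 = ψ u / ψ 1 := by
  have hN := normal_left hcomm hgen
  have h1 := H31.Clifford.restrict_eq U₁ hχ hψ h
  have h2 : H31.Clifford.orb U₁ ψ = {ψ} := by
    ext φ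
    rw [H31.Clifford.mem_orb, Finset.mem_singleton]
    constructor
    · rintro ⟨g, rfl⟩
      funext w
      obtain ⟨x, hx, y, hy, rfl⟩ := exists_decomp hcomm hgen g
      have h3 : (⟨x * y * w * (x * y)⁻¹, hN.conj_mem w w.2 (x * y)⟩ : U₁) =
          (⟨x, hx⟩ : U₁) * w * (⟨x, hx⟩ : U₁)⁻¹ := by
        apply Subtype.ext
        show x * y * (w : G) * (x * y)⁻¹ = x * (w : G) * x⁻¹
        have h4 := hcomm w w.2 y hy
        calc x * y * (w : G) * (x * y)⁻¹ = x * (y * (w : G)) * y⁻¹ * x⁻¹ := by group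
          _ = x * ((w : G) * y) * y⁻¹ * x⁻¹ := by rw [h4]
          _ = _ := by group
      show ψ ⟨x * y * w * (x * y)⁻¹, _⟩ = ψ w
      rw [h3]
      exact isClassFunction_of_isIrr hψ w ⟨x, hx⟩
    · rintro rfl
      exact ⟨1, by
        funext w
        show φ w = φ ⟨1 * w * 1⁻¹, _⟩
        congr 1
        apply Subtype.ext
        simp⟩
  rw [h2, Finset.sum_singleton] at h1
  have h3 := congrFun h1 u
  have h4 := congrFun h1 1
  simp only [Pi.smul_apply, smul_eq_mul, OneMemClass.coe_one] at h3 h4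
  rw [h3, h4]
  have h5 := irr_one_ne_zero hψ
  field_simp

theorem centralChar_mul {p : ℕ} [Fact p.Prime] (hcomm : ∀ u ∈ U₁, ∀ v ∈ U₂, u * v = v * u)
    (hgen : U₁ ⊔ U₂ = ⊤) (hZ : IsPGroup p ↥(U₁ ⊓ U₂))
    [Fintype U₁] [Fintype U₂] {χ : G → ℂ} (hχ : IsIrrCharacter G χ) {ψ₁ : U₁ → ℂ}
    (hψ₁ : IsIrrCharacter U₁ ψ₁) {ψ₂ : U₂ → ℂ} (hψ₂ : IsIrrCharacter U₂ ψ₂)
    (h₁ : classInner (fun u : U₁ => χ u) ψ₁ ≠ 0) (h₂ : classInner (fun u : U₂ => χ u) ψ₂ ≠ 0)
    (u : U₁) (v : U₂) (hu : ¬ p ∣ orderOf u) :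
    centralChar χ ((u : G) * (v : G)) = centralChar ψ₁ u * centralChar ψ₂ v := by
  have e1 := ratio_left hcomm hgen hχ hψ₁ h₁ u
  have e2 := ratio_left (U₁ := U₂) (U₂ := U₁) (fun a ha b hb => (hcomm b hb a ha).symm)
    (by rw [sup_comm]; exact hgen) hχ hψ₂ h₂ v
  have e3 := ratio_mul hχ (isConj_mul hcomm hgen u.2 v.2)
  have h0 := irr_one_ne_zero hχ
  have e4 : χ ((u : G) * (v : G)) / χ 1 = (ψ₁ u / ψ₁ 1) * (ψ₂ v / ψ₂ 1) := by
    rw [← e1, ← e2]
    field_simp
    linear_combination -e3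
  rw [centralChar, centralChar, centralChar, index_mul hcomm hgen hZ u v hu, mul_div_assoc, e4]
  push_cast
  ring

end chr


/-- Let the finite group G be generated by subgroups U₁ and U₂ that commute elementwise and whose intersection is a p-group, and let M be a maximal ideal of the algebraic integers containing the prime p. If the irreducible character χ of G has the irreducible constituents ψ₁ on U₁ and ψ₂ on U₂, then χ lies in the principal block of G if and only if ψ₁ and ψ₂ lie in the principal blocks of U₁ and U₂. -/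
theorem result {G : Type*} [Group G] [Fintype G] (p : ℕ) [Fact p.Prime] (M : Ideal Cfsg.AlgInt) (hM : Cfsg.IsPModular p M) (U₁ U₂ : Subgroup G) [Fintype U₁] [Fintype U₂] (hcomm : ∀ u ∈ U₁, ∀ v ∈ U₂, u * v = v * u) (hgen : U₁ ⊔ U₂ = ⊤) (hZ : IsPGroup p ↥(U₁ ⊓ U₂)) (χ : Cfsg.IrrCharacter G) (ψ₁ : Cfsg.IrrCharacter U₁) (ψ₂ : Cfsg.IrrCharacter U₂) (h₁ : Cfsg.classInner (fun u : U₁ => (χ : G → ℂ) u) (ψ₁ : U₁ → ℂ) ≠ 0) (h₂ : Cfsg.classInner (fun u : U₂ => (χ : G → ℂ) u) (ψ₂ : U₂ → ℂ) ≠ 0) : χ ∈ Cfsg.principalBlock M G ↔ (ψ₁ ∈ Cfsg.principalBlock M U₁ ∧ ψ₂ ∈ Cfsg.principalBlock M U₂) := by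

  have hprime := pm_isPrime hM
  have htriv : ∀ g : G, ∀ (u : U₁) (v : U₂), ¬ p ∣ orderOf u →
      centralChar (fun _ : G => (1 : ℂ)) ((u : G) * (v : G)) =
        centralChar (fun _ : U₁ => (1 : ℂ)) u * centralChar (fun _ : U₂ => (1 : ℂ)) v := by
    intro g u v hu
    rw [centralChar, centralChar, centralChar, index_mul hcomm hgen hZ u v hu]
    push_cast
    ring
  have hmain := fun (u : U₁) (v : U₂) (hu : ¬ p ∣ orderOf u) =>
    centralChar_mul hcomm hgen hZ χ.2 ψ₁.2 ψ₂.2 h₁ h₂ u v hu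
  have hone : ∀ {H : Type _} [Group H] [Finite H] (ψ : IrrCharacter H), centralChar (ψ : H → ℂ) 1 = 1 := by
    intro H _ _ ψ
    have h0 := H18.CharBasic.irr_one_ne_zero ψ.2
    have h1 : Subgroup.centralizer ({(1 : H)} : Set H) = ⊤ := by
      rw [eq_top_iff]
      intro x _
      rw [Subgroup.mem_centralizer_singleton_iff]
      simp
    rw [centralChar, h1, Subgroup.index_top, Nat.cast_one, one_mul, div_self h0]
  have h1p : ∀ {H : Type _} [Group H], ¬ p ∣ orderOf (1 : H) := by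
    intro H _
    rw [orderOf_one]
    exact fun h => (Fact.out : p.Prime).one_lt.ne' (Nat.dvd_one.1 h)
  constructor
  · intro h
    constructor
    · apply sameBlock_symm
      apply sameBlock_of_regular (χ := ψ₁) (ψ := triv U₁) hM
      intro u hu
      have h2 := h ((u : G) * ((1 : U₂) : G))
      rw [hmain u 1 hu, htriv 1 u 1 hu, hone ψ₂] at h2
      have h3 : centralChar (fun _ : U₂ => (1 : ℂ)) 1 = 1 := hone (triv U₂)
      rw [h3, mul_one, mul_one] at h2
      exact locI_sub_comm.1 h2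
    · apply sameBlock_symm
      apply sameBlock_of_regular (χ := ψ₂) (ψ := triv U₂) hM
      intro v hv
      have h2 := h (((1 : U₁) : G) * (v : G))
      rw [hmain 1 v h1p, htriv 1 1 v h1p, hone ψ₁] at h2
      have h3 : centralChar (fun _ : U₁ => (1 : ℂ)) 1 = 1 := hone (triv U₁)
      rw [h3, one_mul, one_mul] at h2
      exact locI_sub_comm.1 h2
  · rintro ⟨ha, hb⟩
    apply sameBlock_symm
    apply sameBlock_of_regular (χ := χ) (ψ := triv G) hM
    intro g hg
    obtain ⟨u, v, rfl, hu, hv⟩ := exists_decomp_regular hcomm hgen g hg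
    have h3 : centralChar ((triv G : IrrCharacter G) : G → ℂ) ((u : G) * (v : G)) =
        centralChar (fun _ : U₁ => (1 : ℂ)) u * centralChar (fun _ : U₂ => (1 : ℂ)) v :=
      htriv 1 u v hu
    rw [hmain u v hu, h3]
    have hR1 : MemLocalRing M (centralChar (fun _ : U₁ => (1 : ℂ)) u) := by
      have : centralChar (fun _ : U₁ => (1 : ℂ)) u = omega (triv U₁) (cls u) := by
        rw [omega_cls]; rfl
      rw [this]
      exact omega_mem _ (cls_mem u)
    have hR2 : MemLocalRing M (centralChar (ψ₂ : U₂ → ℂ) v) := by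
      rw [← omega_cls]
      exact omega_mem _ (cls_mem v)
    exact locI_mul_congr hR1 hR2 (locI_sub_comm.1 (ha u)) (locI_sub_comm.1 (hb v))


end Cfsg.Agent.S4521
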