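import Cfsg.Statements.S4540
import Cfsg.Agent.Lib.H78.ContrTwo

set_option autoImplicit false
open Cfsg

namespace Cfsg.Agent.S4540

/-- Let B be a 2-block of the finite group G (relative to a maximal ideal M of the algebraic integers containing 2) of defect d with defect group D. Let z be an element of D commuting with every element of D, and let b be a block of the centralizer C of z with defect group D that induces B (a major subsection (z, b)). If b has 2-regular rank at most three, then 3·k(B) ≤ 3·k₀(B) + 2·Σ 2 ^ h(χ), where k(B) is the number of members of B, k₀(B) the number of members of height zero, and the sum runs over the members χ of B of positive height h(χ); this bound is at most 3·2 ^ d, so in particular B contains at most 2 ^ d irreducible characters. -/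
theorem result {G : Type*} [Group G] [Finite G] (M : Ideal Cfsg.AlgInt) (hM : Cfsg.IsPModular 2 M) (B : Set (Cfsg.IrrCharacter G)) (hB : Cfsg.IsPBlock M B) (D : Subgroup G) (hD : Cfsg.IsDefectGroup 2 M B D) (z : G) (hzD : z ∈ D) (hzc : ∀ d ∈ D, d * z = z * d) (b : Set (Cfsg.IrrCharacter ↥(Subgroup.centralizer ({z} : Set G)))) (hb : Cfsg.IsInducedBlock M (Subgroup.centralizer ({z} : Set G)) b B) (hbD : Cfsg.IsDefectGroup 2 M b (D.subgroupOf (Subgroup.centralizer ({z} : Set G)))) (hl : Cfsg.blockRank 2 b ≤ 3) : 3 * Nat.card B ≤ 3 * Nat.card {χ : Cfsg.IrrCharacter G // χ ∈ B ∧ Cfsg.blockHeight 2 B (χ : G → ℂ) = 0} + 2 * (∑ᶠ χ ∈ {χ : Cfsg.IrrCharacter G | χ ∈ B ∧ 1 ≤ Cfsg.blockHeight 2 B (χ : G → ℂ)}, 2 ^ Cfsg.blockHeight 2 B (χ : G → ℂ)) ∧ 3 * Nat.card {χ : Cfsg.IrrCharacter G // χ ∈ B ∧ Cfsg.blockHeight 2 B (χ : G → ℂ) = 0} + 2 * (∑ᶠ χ ∈ {χ : Cfsg.IrrCharacter G | χ ∈ B ∧ 1 ≤ Cfsg.blockHeight 2 B (χ : G → ℂ)}, 2 ^ Cfsg.blockHeight 2 B (χ : G → ℂ)) ≤ 3 * 2 ^ Cfsg.blockDefect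 2 B := by
  letI := Fintype.ofFinite G
  letI := Fintype.ofFinite (Subgroup.centralizer ({z} : Set G))
  letI := Fintype.ofFinite (Cfsg.IrrCharacter (Subgroup.centralizer ({z} : Set G)))
  letI := Fintype.ofFinite (Cfsg.IrrCharacter G)
  have hDle : D ≤ Subgroup.centralizer ({z} : Set G) := fun x hx =>
    Subgroup.mem_centralizer_singleton_iff.2 (hzc x hx)
  have hcD := H20.Defect.card_defectGroup hM hB hD
  have hcb := H20.Defect.card_defectGroup hM hb.1 hbD
  have hz : ∃ k : ℕ, orderOf z = 2 ^ k := by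
    have h1 : orderOf z ∣ Nat.card D := Subgroup.orderOf_dvd_natCard D hzD
    rw [hcD] at h1
    obtain ⟨l, -, hl⟩ := (Nat.dvd_prime_pow Nat.prime_two).1 h1
    exact ⟨l, hl⟩
  have hq : Cfsg.blockDefect 2 b = Cfsg.blockDefect 2 B := by
    have h1 : Nat.card (D.subgroupOf (Subgroup.centralizer ({z} : Set G))) = Nat.card D :=
      Nat.card_congr (Subgroup.subgroupOfEquivOfLe hDle).toEquiv
    rw [hcD, hcb] at h1
    exact Nat.pow_right_injective le_rfl h1
  obtain ⟨i, ζ, e, S⟩ := H78.Contr.exists_sit hM rfl hz hb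
  exact H78.ContrTwo.major_bound S hq hl


end Cfsg.Agent.S4540
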