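import Cfsg.Statements.S4550
import Cfsg.Agent.Lib.H78.Cong
import Cfsg.Agent.Lib.H78.Galois
import Cfsg.Agent.Lib.H20.Blk

set_option autoImplicit false
open Cfsg

namespace Cfsg.Agent.S4550

/-- Let G be a finite group of even order and M a maximal ideal of the algebraic integers containing 2. Let k be a natural number with g ^ k = g ^ 3 for every 2-element g and g ^ k = g for every element g of odd order (such k exist); an irreducible character χ is unchanged by g ↦ g ^ k exactly when it is fixed by the field automorphism that cubes the 2-power roots of unity and fixes the roots of unity of odd order. Then the number of members χ of the principal 2-block of odd degree with χ (g ^ k) = χ g for all g is even. -/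
theorem result {G : Type*} [Group G] [Finite G] (M : Ideal Cfsg.AlgInt) (hM : Cfsg.IsPModular 2 M) (hev : Even (Nat.card G)) (k : ℕ) (hk₁ : ∀ g : G, (∃ j : ℕ, orderOf g = 2 ^ j) → g ^ k = g ^ 3) (hk₂ : ∀ g : G, Odd (orderOf g) → g ^ k = g) : Even (Nat.card {χ : Cfsg.IrrCharacter G // χ ∈ Cfsg.principalBlock M G ∧ Odd (Cfsg.charDegree (χ : G → ℂ)) ∧ ∀ g : G, (χ : G → ℂ) (g ^ k) = (χ : G → ℂ) g}) := by
  classical
  have hMp := H20.Loc.pm_isPrime hM
  letI := Fintype.ofFinite (IrrCharacter G)
  set B := principalBlock M G with hBdef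
  have hB : IsPBlock M B := ⟨⟨fun _ => 1, H18.CharBasic.isIrrCharacter_one⟩, rfl⟩
  -- the sum of squares of degrees in the principal block is even
  have hdeg : ∀ χ : IrrCharacter G, (charDegree (χ : G → ℂ) : ℂ) = (χ : G → ℂ) 1 := fun χ =>
    H78.Cong.charDegree_eq (H18.CharBasic.isCharacter_of_isIrr χ.2)
  have hN : 2 ∣ ∑ χ : IrrCharacter G, (if χ ∈ B then charDegree (χ : G → ℂ) ^ 2 else 0) := by
    rw [← H20.Loc.locI_natCast_iff hM]
    have h1 := H20.Blk.blockCoeff_memR hB (1 : G)
    have h2 : ((∑ χ : IrrCharacter G, (if χ ∈ B then charDegree (χ : G → ℂ) ^ 2 else 0) : ℕ) : ℂ)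
        = (Nat.card G : ℂ) * blockCoeff B 1 := by
      rw [H20.Blk.blockCoeff_eq_sum, ← mul_assoc, mul_inv_cancel₀, one_mul]
      · push_cast
        refine Finset.sum_congr rfl fun χ _ => ?_
        split_ifs
        · rw [hdeg, H18.CharInd.conj_char_one (H18.CharBasic.isCharacter_of_isIrr χ.2), sq]
        · rfl
      · exact_mod_cast Nat.card_pos.ne'
    rw [h2]
    exact H20.Loc.locI_mul_right ((H20.Loc.locI_natCast_iff hM).2 hev.two_dvd) h1
  have hpar : 2 ∣ Nat.card {χ : IrrCharacter G // χ ∈ B ∧ Odd (charDegree (χ : G → ℂ))} := by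
    rw [Nat.card_eq_fintype_card, Fintype.card_subtype, Finset.card_filter]
    rw [← Nat.modEq_zero_iff_dvd] at hN ⊢
    refine Nat.ModEq.trans ?_ hN
    refine Nat.ModEq.symm ?_
    -- termwise congruence
    have : ∀ s : Finset (IrrCharacter G),
        (∑ χ ∈ s, (if χ ∈ B then charDegree (χ : G → ℂ) ^ 2 else 0)) ≡
        (∑ χ ∈ s, (if χ ∈ B ∧ Odd (charDegree (χ : G → ℂ)) then 1 else 0)) [MOD 2] := by
      intro s
      induction s using Finset.induction_on with
      | empty => rfl
      | insert a s ha ih =>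
        rw [Finset.sum_insert ha, Finset.sum_insert ha]
        refine Nat.ModEq.add ?_ ih
        by_cases h1 : a ∈ B
        · rw [if_pos h1]
          by_cases h2 : Odd (charDegree (a : G → ℂ))
          · rw [if_pos ⟨h1, h2⟩]
            have h3 : Odd (charDegree (a : G → ℂ) ^ 2) := h2.pow
            rw [Nat.ModEq, Nat.odd_iff.1 h3]
          · rw [if_neg (fun h => h2 h.2)]
            have h3 : Even (charDegree (a : G → ℂ) ^ 2) :=
              (Nat.not_odd_iff_even.1 h2).pow_of_ne_zero two_ne_zero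
            rw [Nat.ModEq, Nat.even_iff.1 h3]
        · rw [if_neg h1, if_neg (fun h => h1 h.1)]
    exact this _
  -- `k` is prime to the order
  have hcop : Nat.Coprime k (Nat.card G) := by
    apply Nat.Coprime.symm
    apply Nat.coprime_of_dvd
    intro q hq hqG hqk
    have := Fact.mk hq
    obtain ⟨g, hg⟩ := exists_prime_orderOf_dvd_card' q hqG
    have h1 : g ^ k = 1 := by
      rw [← orderOf_dvd_iff_pow_eq_one, hg]; exact hqk
    have hg1 : g ≠ 1 := by
      rintro rfl
      rw [orderOf_one] at hg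
      exact hq.one_lt.ne hg
    rcases hq.eq_two_or_odd' with h2 | h2
    · subst h2
      have h3 := hk₁ g ⟨1, by rw [hg, pow_one]⟩
      rw [h1] at h3
      have h4 : g ^ 2 = 1 := by rw [← hg]; exact pow_orderOf_eq_one g
      apply hg1
      calc g = g ^ 3 * (g ^ 2)⁻¹ := by group
        _ = 1 := by rw [← h3, h4]; simp
    · have h3 := hk₂ g (by rw [hg]; exact h2)
      rw [h1] at h3
      exact hg1 h3.symm
  -- the power map has 2-power order
  set a := (Nat.card G).factorization 2 with ha
  have hiter : ∀ g : G, g ^ k ^ (2 ^ a) = g := by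
    intro g
    set o := orderOf g with ho
    have hopos : 0 < o := orderOf_pos g
    set j := o.factorization 2 with hj
    obtain ⟨m, hm⟩ : ∃ m, o = 2 ^ j * m := ⟨_, (Nat.ordProj_mul_ordCompl_eq_self o 2).symm⟩
    have hmodd : ¬ 2 ∣ m := by
      intro h2
      have h3 : 2 ^ (j + 1) ∣ o := by
        rw [pow_succ, hm]; exact Nat.mul_dvd_mul_left _ h2
      have h4 := (Nat.prime_two.pow_dvd_iff_le_factorization hopos.ne').1 h3
      omega
    have hja : j ≤ a :=
      (Nat.factorization_le_iff_dvd hopos.ne' Nat.card_pos.ne').2 (orderOf_dvd_natCard g) 2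
    have hmpos : 0 < m := by
      rcases Nat.eq_zero_or_pos m with h | h
      · rw [h, mul_zero] at hm; omega
      · exact h
    have h1 : k ≡ 3 [MOD 2 ^ j] := by
      have hord : orderOf (g ^ m) = 2 ^ j := by
        rw [orderOf_pow_of_dvd hmpos.ne' ⟨2 ^ j, by rw [← ho, hm, mul_comm]⟩, ← ho, hm,
          Nat.mul_div_cancel _ hmpos]
      have := hk₁ (g ^ m) ⟨j, hord⟩
      rwa [pow_eq_pow_iff_modEq, hord] at this
    have h2 : k ≡ 1 [MOD m] := by
      have hord : orderOf (g ^ 2 ^ j) = m := by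
        rw [orderOf_pow_of_dvd (pow_pos two_pos j).ne' ⟨m, by rw [← ho, hm]⟩, ← ho, hm,
          Nat.mul_div_cancel_left _ (pow_pos two_pos j)]
      have := hk₂ (g ^ 2 ^ j) (by rw [hord]; exact Nat.odd_iff.2 (by omega))
      have h3 : (g ^ 2 ^ j) ^ k = (g ^ 2 ^ j) ^ 1 := by rw [this, pow_one]
      rwa [pow_eq_pow_iff_modEq, hord] at h3
    have h3 : k ^ 2 ^ a ≡ 1 [MOD 2 ^ j] := by
      refine (h1.pow _).trans ?_
      rcases Nat.eq_zero_or_pos j with h0 | h0
      · rw [h0, pow_zero]; exact Nat.modEq_one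
      · have h4 : Nat.Coprime 3 (2 ^ j) := Nat.Coprime.pow_right _ (by norm_num)
        have h5 := Nat.ModEq.pow_totient h4
        rw [Nat.totient_prime_pow Nat.prime_two h0] at h5
        have h6 : 2 ^ a = (2 ^ (j - 1) * (2 - 1)) * 2 ^ (a - (j - 1)) := by
          rw [Nat.add_one_sub_one, mul_one, ← pow_add]
          congr 1; omega
        rw [h6, pow_mul]
        simpa using h5.pow (2 ^ (a - (j - 1)))
    have h4 : k ^ 2 ^ a ≡ 1 [MOD m] := by simpa using h2.pow (2 ^ a)
    have h5 : k ^ 2 ^ a ≡ 1 [MOD o] := by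
      rw [hm]
      have hc : Nat.Coprime (2 ^ j) m :=
        Nat.Coprime.pow_left _ ((Nat.prime_two.coprime_iff_not_dvd).2 hmodd)
      exact (Nat.modEq_and_modEq_iff_modEq_mul hc).1 ⟨h3, h4⟩
    have h6 : g ^ k ^ 2 ^ a = g ^ 1 := pow_eq_pow_iff_modEq.2 h5
    rw [h6, pow_one]
  -- the action on odd degree characters of the principal block
  let Y := {χ : IrrCharacter G // χ ∈ B ∧ Odd (charDegree (χ : G → ℂ))}
  let f : Function.End Y := fun χ => ⟨H78.Galois.powIrr hcop χ.1,
    H78.Galois.powIrr_mem_principalBlock hcop χ.2.1, by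
      rw [H78.Galois.charDegree_powIrr]; exact χ.2.2⟩
  have hf : f ^ 2 ^ a = 1 := by
    have key : ∀ (n : ℕ) (χ : Y), ((f ^ n) χ).1 = (H78.Galois.powIrr hcop)^[n] χ.1 := by
      intro n
      induction n with
      | zero => intro χ; rfl
      | succ n ih =>
        intro χ
        rw [pow_succ, Function.iterate_succ, Function.comp]
        exact ih (f χ)
    funext χ
    apply Subtype.ext
    rw [key]
    apply Subtype.ext
    funext g
    rw [H78.Galois.powIrr_iterate, hiter]
    rfl
  have hmod := Equiv.Perm.card_fixedPoints_modEq hf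
  have hfix : Fintype.card (Function.fixedPoints f) =
      Nat.card {χ : IrrCharacter G // χ ∈ B ∧ Odd (charDegree (χ : G → ℂ)) ∧
        ∀ g : G, (χ : G → ℂ) (g ^ k) = (χ : G → ℂ) g} := by
    rw [← Nat.card_eq_fintype_card]
    refine Nat.card_congr ⟨fun χ => ⟨χ.1.1, χ.1.2.1, χ.1.2.2, fun g => ?_⟩,
      fun χ => ⟨⟨χ.1, χ.2.1, χ.2.2.1⟩, ?_⟩, fun χ => rfl, fun χ => rfl⟩
    · have := congrFun (congrArg (fun z : Y => (z.1 : G → ℂ)) χ.2) g
      exact this
    · apply Subtype.ext
      apply Subtype.ext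
      funext g
      exact χ.2.2.2 g
  rw [← hfix, even_iff_two_dvd, ← Nat.modEq_zero_iff_dvd]
  refine hmod.symm.trans ?_
  rw [Nat.modEq_zero_iff_dvd, ← Nat.card_eq_fintype_card]
  exact hpar

end Cfsg.Agent.S4550
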