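import Cfsg.Statements.S4552
import Cfsg.Agent.Lib.H84.GL6
import Cfsg.Agent.Lib.H80.SU4
import Cfsg.Agent.Lib.H78.Homo2

set_option autoImplicit false
open Cfsg

namespace Cfsg.Agent.S4552


open H84.FL in


/-- Let B be a 2-block of the finite group G (relative to a maximal ideal M of the algebraic integers containing 2) whose defect group D is the direct product of two cyclic groups of the same order 2 ^ m, m ≥ 2. Then either B has 2-regular rank one and exactly 4 ^ m irreducible characters, or B has 2-regular rank three and exactly (4 ^ m + 8) / 3 irreducible characters. -/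
theorem result {G : Type*} [Group G] [Finite G] (M : Ideal Cfsg.AlgInt) (hM : Cfsg.IsPModular 2 M) (B : Set (Cfsg.IrrCharacter G)) (hB : Cfsg.IsPBlock M B) (D : Subgroup G) (hD : Cfsg.IsDefectGroup 2 M B D) (m : ℕ) (hm : 2 ≤ m) (hiso : Nonempty (D ≃* Multiplicative (ZMod (2 ^ m) × ZMod (2 ^ m)))) : (Cfsg.blockRank 2 B = 1 ∧ Nat.card B = 4 ^ m) ∨ (Cfsg.blockRank 2 B = 3 ∧ 3 * Nat.card B = 4 ^ m + 8) := by
  classical
  have : Fact (Nat.Prime 2) := ⟨Nat.prime_two⟩
  have : M.IsMaximal := hM.2.1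
  have : CharP (H20.Loc.ResF M) 2 := H20.Loc.charP_resF hM
  let _ : Algebra (ZMod 2) (H20.Loc.ResF M) := ZMod.algebra (H20.Loc.ResF M) 2
  have : Algebra.IsAlgebraic (ZMod 2) (H20.Loc.ResF M) := H80.BR1.isAlgebraic_resF hM
  have : IsAlgClosed (H20.Loc.ResF M) := H20.Loc.isAlgClosed_resF
  obtain ⟨eqv⟩ := hiso
  have hcomm : ∀ a b : D, a * b = b * a := fun a b => eqv.injective (by rw [map_mul, map_mul, mul_comm])
  have hab : ∀ x ∈ D, ∀ y ∈ D, x * y = y * x := fun x hx y hy => congrArg Subtype.val (hcomm ⟨x, hx⟩ ⟨y, hy⟩)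
  have hcard : Nat.card D = 4 ^ m := by
    rw [Nat.card_congr eqv.toEquiv, Nat.card_congr Multiplicative.toAdd, Nat.card_prod, Nat.card_zmod,
      ← mul_pow]
    norm_num
  have hexp : ∀ x : D, x ^ (2 ^ m) = 1 := by
    intro x
    apply eqv.injective
    rw [map_pow, map_one]
    apply Multiplicative.toAdd.injective
    rw [toAdd_pow]
    show (2 ^ m) • (Multiplicative.toAdd (eqv x)) = 0
    refine Prod.ext ?_ ?_
    · show (2 ^ m) • (Multiplicative.toAdd (eqv x)).1 = 0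
      rw [nsmul_eq_mul, ZMod.natCast_self, zero_mul]
    · show (2 ^ m) • (Multiplicative.toAdd (eqv x)).2 = 0
      rw [nsmul_eq_mul, ZMod.natCast_self, zero_mul]
  have hD1 : D ≠ ⊥ := by
    rintro rfl
    rw [Subgroup.card_bot] at hcard
    have : 4 ^ 1 ≤ 4 ^ m := Nat.pow_le_pow_right (by norm_num) (by omega)
    omega
  obtain ⟨c, hc, hmax⟩ := H80.SU4.exists_max hM hB hD
  have h1 := H80.GX.index_ST hmax
  rw [H80.BR3.CH_top, sup_eq_right.2 (H80.BR11.le_cent_of_ab hab)] at h1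
  have hCT : Subgroup.centralizer (D : Set G) ≤ H80.GH.ST ⊤ D (H80.BR2.bl M _ c) := by
    have := H80.GH.CH_le_ST hmax.of.pair.blk.mem.1
    rwa [H80.BR3.CH_top] at this
  have hcW := card_WT hCT
  rw [← hcW] at h1
  obtain ⟨hf1, hf2⟩ := H78.Homo2.free_of_three hcomm hexp (H78.Homo2.card_inv (by omega) eqv) h1
  have hfree : ∀ g ∈ H80.GH.ST ⊤ D (H80.BR2.bl M _ c), ∀ x ∈ D, x ≠ 1 → g * x * g⁻¹ = x →
      g ∈ Subgroup.centralizer (D : Set G) := by
    intro g hg x hx hx1 hgx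
    set w : MulAut D := H80.FS.stHom ⊤ D (H80.BR2.bl M _ c) ⟨g, hg⟩ with hw
    have hwW : w ∈ WT D (H80.BR2.bl M _ c) := ⟨⟨g, hg⟩, rfl⟩
    have hw1 : w = 1 := hf1 w hwW ⟨x, hx⟩ (fun h => hx1 (congrArg Subtype.val h)) (Subtype.ext hgx)
    rw [Subgroup.mem_centralizer_iff]
    intro y hy
    have h1 : w ⟨y, hy⟩ = ⟨y, hy⟩ := by rw [hw1]; rfl
    have h2 : g * y * g⁻¹ = y := congrArg Subtype.val h1
    calc y * g = (g * y * g⁻¹) * g := by rw [h2]
      _ = g * y := by group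
  obtain ⟨n, rep, hrep⟩ := H84.FR.exists_reps (sub_comm hab) (WT D (H80.BR2.bl M _ c))
  have hn := hrep.card (sub_comm hab) (WT_free hfree)
  have hk := card_eq hM hmax hB hab hfree hn
  have hl := H84.GL.rank_eq_free hM hmax hB hab hD1 hfree (by omega)
  rw [hcard] at hn
  rcases hf2 with h | h
  · left
    rw [h] at hl hn
    exact ⟨hl, by omega⟩
  · right
    rw [h] at hl hn
    exact ⟨hl, by omega⟩


end Cfsg.Agent.S4552
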