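import Cfsg.Statements.S4558
import Cfsg.Agent.Lib.H78.Cong

set_option autoImplicit false
open Cfsg

namespace Cfsg.Agent.S4558

/-- Let χ be a character of the finite group G and g an element of p-power order for the prime p. If χ g = 0, then p divides the degree of χ. -/
theorem result {G : Type*} [Group G] [Finite G] (p : ℕ) [Fact p.Prime] (χ : G → ℂ) (hχ : Cfsg.IsCharacter G χ) (g : G) (hg : ∃ j : ℕ, orderOf g = p ^ j) (h0 : χ g = 0) : p ∣ Cfsg.charDegree χ := by
  obtain ⟨M, hM⟩ := H78.Cong.exists_isPModular (Fact.out : p.Prime)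
  have hMp := H20.Loc.pm_isPrime hM
  obtain ⟨j, hj⟩ := hg
  have h1 := H78.Cong.char_congr_one hM hχ (g := g) (k := j) (by rw [← hj]; exact pow_orderOf_eq_one g)
  rw [h0, zero_sub, ← H78.Cong.charDegree_eq hχ] at h1
  have h2 := H20.Loc.locI_neg h1
  rw [neg_neg] at h2
  exact (H20.Loc.locI_natCast_iff hM).1 h2

end Cfsg.Agent.S4558
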