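import Cfsg.Statements.S4560
import Cfsg.Agent.Lib.H78.Sn3

set_option autoImplicit false
open Cfsg

namespace Cfsg.Agent.S4560

/-- For n ≥ 7 the alternating group on n letters has an irreducible character that vanishes at some 2-element and is the restriction of an irreducible character of the symmetric group, and an irreducible character that vanishes at some element of order 3 and is the restriction of an irreducible character of the symmetric group. -/
theorem result (n : ℕ) (hn : 7 ≤ n) : (∃ χ : Cfsg.IrrCharacter (alternatingGroup (Fin n)), (∃ x : alternatingGroup (Fin n), (∃ j : ℕ, orderOf x = 2 ^ j) ∧ (χ : alternatingGroup (Fin n) → ℂ) x = 0) ∧ ∃ ψ : Cfsg.IrrCharacter (Equiv.Perm (Fin n)), ∀ x : alternatingGroup (Fin n), (ψ : Equiv.Perm (Fin n) → ℂ) x = (χ : alternatingGroup (Fin n) → ℂ) x) ∧ (∃ χ : Cfsg.IrrCharacter (alternatingGroup (Fin n)), (∃ y : alternatingGroup (Fin n), orderOf y = 3 ∧ (χ : alternatingGroup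 (Fin n) → ℂ) y = 0) ∧ ∃ ψ : Cfsg.IrrCharacter (Equiv.Perm (Fin n)), ∀ x : alternatingGroup (Fin n), (ψ : Equiv.Perm (Fin n) → ℂ) x = (χ : alternatingGroup (Fin n) → ℂ) x) := by

  constructor
  · obtain ⟨g, hg1, hg2, hg3⟩ := H78.Sn.exists_two n hn
    obtain ⟨χ, h1, ψ, h2⟩ := H78.Sn.exists_chars n hn ⟨g, hg1⟩ hg3
    refine ⟨χ, ⟨⟨g, hg1⟩, ?_, h1⟩, ψ, h2⟩
    have h3 : (⟨g, hg1⟩ : alternatingGroup (Fin n)) ^ 8 = 1 := Subtype.ext hg2
    have h4 := orderOf_dvd_of_pow_eq_one h3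
    obtain ⟨j, _, hj⟩ := (Nat.dvd_prime_pow Nat.prime_two (m := 3)).1 h4
    exact ⟨j, hj⟩
  · obtain ⟨g, hg1, hg2, hgne, hg3⟩ := H78.Sn.exists_three n hn
    obtain ⟨χ, h1, ψ, h2⟩ := H78.Sn.exists_chars n hn ⟨g, hg1⟩ hg3
    refine ⟨χ, ⟨⟨g, hg1⟩, ?_, h1⟩, ψ, h2⟩
    have : Fact (Nat.Prime 3) := ⟨Nat.prime_three⟩
    refine orderOf_eq_prime (Subtype.ext hg2) ?_
    intro h
    exact hgne (congrArg Subtype.val h)


end Cfsg.Agent.S4560
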