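import Cfsg.Statements.S4563
import Cfsg.Agent.Lib.H78.FRam3
import Cfsg.Agent.Lib.H11.HallConverse

set_option autoImplicit false
open Cfsg

namespace Cfsg.Agent.S4563

/-- Let χ be an irreducible character of the finite group H that is fully ramified over the normal subgroup Z: the restriction of χ to Z is e times an irreducible character of Z with e ^ 2 equal to the index of Z. If K is a proper normal subgroup of H containing Z and χ is induced from a character of K, then H/K is solvable; in particular, if K is solvable then so is H. -/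
theorem result {H : Type*} [Group H] [Fintype H] (Z : Subgroup H) [Z.Normal] (χ : Cfsg.IrrCharacter H) (hfr : ∃ (θ : Cfsg.IrrCharacter ↥Z) (e : ℕ), e ^ 2 = Z.index ∧ ∀ z : ↥Z, (χ : H → ℂ) z = (e : ℂ) * (θ : ↥Z → ℂ) z) (K : Subgroup H) [K.Normal] [Fintype K] (hZK : Z ≤ K) (hK : K ≠ ⊤) (φ : ↥K → ℂ) (hφ : Cfsg.IsCharacter ↥K φ) (hind : Cfsg.indFun K φ = (χ : H → ℂ)) : Group.IsSolvable (H ⧸ K) ∧ (Group.IsSolvable ↥K → Group.IsSolvable H) := by

  obtain ⟨θ, e, he, hres⟩ := hfr
  have h : H78.FRam.FR Z (χ : H → ℂ) (θ : ↥Z → ℂ) e := ⟨χ.2, θ.2, he, hres⟩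
  have hq : Group.IsSolvable (H ⧸ K) := by
    apply H11.HallConverse.isSolvable_of_complements
    intro p hp
    have : Fact p.Prime := ⟨hp⟩
    refine H78.FRam.solvable_quot h hZK hφ ?_
    rw [← hind]
    exact H18.CharInd.indFun_fintype _ _ K φ
  refine ⟨hq, fun hKs => ?_⟩
  exact (Group.isSolvable_iff_subgroup_quotient K).2 ⟨hKs, hq⟩


end Cfsg.Agent.S4563
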