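import Cfsg.Statements.S4564
import Cfsg.Agent.Lib.H78.FRam2

set_option autoImplicit false
open Cfsg

namespace Cfsg.Agent.S4564

/-- Let χ be an irreducible character of the finite group H that is fully ramified over the normal subgroup Z: the restriction of χ to Z is e times an irreducible character of Z with e ^ 2 equal to the index of Z. Let K be a normal subgroup of H containing Z and P a cyclic Sylow p-subgroup of H/K. Then P has a complement in H/K: a subgroup meeting P trivially whose product with P is the whole group. -/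
theorem result {H : Type*} [Group H] [Finite H] (Z : Subgroup H) [Z.Normal] (χ : Cfsg.IrrCharacter H) (hfr : ∃ (θ : Cfsg.IrrCharacter ↥Z) (e : ℕ), e ^ 2 = Z.index ∧ ∀ z : ↥Z, (χ : H → ℂ) z = (e : ℂ) * (θ : ↥Z → ℂ) z) (K : Subgroup H) [K.Normal] (hZK : Z ≤ K) (p : ℕ) [Fact p.Prime] (P : Sylow p (H ⧸ K)) (hcyc : IsCyclic P) : ∃ M : Subgroup (H ⧸ K), M.IsComplement' (P : Subgroup (H ⧸ K)) := by

  classical
  obtain ⟨θ, e, he, hres⟩ := hfr
  have h : H78.FRam.FR Z (χ : H → ℂ) (θ : ↥Z → ℂ) e := ⟨χ.2, θ.2, he, hres⟩
  obtain ⟨P0, hP0⟩ := Sylow.mapSurjective_surjective (QuotientGroup.mk'_surjective K) p P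
  have hP : (P : Subgroup (H ⧸ K)) = (P0 : Subgroup H).map (QuotientGroup.mk' K) := by
    rw [← hP0]; rfl
  rw [hP]
  refine H78.FRam.compl h hZK P0 ?_
  intro Ψ t η hFR hle hη hover
  refine hFR.mult_one hle ?_ hη hover
  let L : Subgroup H := (P0 : Subgroup H) ⊔ Z
  let f : L ⧸ K.subgroupOf L →* H ⧸ K := QuotientGroup.map _ _ L.subtype (fun x hx => hx)
  have hf : Function.Injective f := by
    rw [injective_iff_map_eq_one]
    intro x
    induction x using QuotientGroup.induction_on with
    | H x =>
      intro hx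
      have : (QuotientGroup.mk (x : H) : H ⧸ K) = 1 := hx
      rw [QuotientGroup.eq_one_iff] at this
      exact (QuotientGroup.eq_one_iff x).2 this
  have hr : ∀ x, f x ∈ (P : Subgroup (H ⧸ K)) := by
    intro x
    induction x using QuotientGroup.induction_on with
    | H x =>
      obtain ⟨y, hy, z, hz, hyz⟩ := H78.FRam.mem_sup_right x.2
      rw [hP]
      refine ⟨y, hy, ?_⟩
      show (QuotientGroup.mk y : H ⧸ K) = QuotientGroup.mk (x : H)
      rw [QuotientGroup.eq, ← hyz]
      simpa using hZK hz
  have hf' : Function.Injective (f.codRestrict (P : Subgroup (H ⧸ K)) hr) := by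
    intro a b hab
    exact hf (congrArg Subtype.val hab)
  haveI : IsCyclic P := hcyc
  exact isCyclic_of_injective _ hf'


end Cfsg.Agent.S4564
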