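import Cfsg.Statements.S4566
import Cfsg.Agent.Lib.H79.Central

set_option autoImplicit false
open Cfsg

namespace Cfsg.Agent.S4566


/-- Let N be a central subgroup of the finite group G, ψ a faithful irreducible (hence degree-one) character of N, and χ an irreducible character of G whose restriction to N contains ψ. If g ∈ G and some x ∈ G has commutator x⁻¹ g⁻¹ x g in N but different from 1, then χ g = 0. -/
theorem result {G : Type*} [Group G] [Fintype G] (N : Subgroup G) [Fintype N] (hN : N ≤ Subgroup.center G) (ψ : Cfsg.IrrCharacter ↥N) (hfaith : ∀ n : ↥N, (ψ : ↥N → ℂ) n = (ψ : ↥N → ℂ) 1 → n = 1) (χ : Cfsg.IrrCharacter G) (hover : Cfsg.classInner (fun n : ↥N => (χ : G → ℂ) n) (ψ : ↥N → ℂ) ≠ 0) (g x : G) (hcomm : x⁻¹ * g⁻¹ * x * g ∈ N) (hne : x⁻¹ * g⁻¹ * x * g ≠ 1) : (χ : G → ℂ) g = 0 := by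
  by_contra hg
  have hinv : (x⁻¹ * g⁻¹ * x * g)⁻¹ ∈ N := inv_mem hcomm
  have h1 := H79.Central.over_central hN ψ.2 χ.2 hover ⟨_, hinv⟩ g
  have h2 := H79.Central.over_central hN ψ.2 χ.2 hover 1 g
  have hcl := H18.CharBasic.isClassFunction_of_isIrr χ.2
  have h3 : (χ : G → ℂ) ((x⁻¹ * g⁻¹ * x * g)⁻¹ * g) = (χ : G → ℂ) g := by
    have h4 : (x⁻¹ * g⁻¹ * x * g)⁻¹ * g = g⁻¹ * (x⁻¹ * g * x) * g⁻¹⁻¹ := by group
    rw [h4, hcl]
    have h5 := hcl g x⁻¹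
    rw [inv_inv] at h5
    exact h5
  have h6 : (ψ : ↥N → ℂ) ⟨_, hinv⟩ = 1 := by
    have h7 : (χ : G → ℂ) g = (ψ : ↥N → ℂ) ⟨_, hinv⟩ * (χ : G → ℂ) g := by
      rw [← h1]; exact h3.symm
    have : ((ψ : ↥N → ℂ) ⟨_, hinv⟩ - 1) * (χ : G → ℂ) g = 0 := by
      rw [sub_mul, one_mul, ← h7, sub_self]
    rcases mul_eq_zero.1 this with h | h
    · exact sub_eq_zero.1 h
    · exact absurd h hg
  have h8 : (ψ : ↥N → ℂ) 1 = 1 := by
    have h7 : (χ : G → ℂ) g = (ψ : ↥N → ℂ) 1 * (χ : G → ℂ) g := by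
      rw [← h2]; simp
    have : ((ψ : ↥N → ℂ) 1 - 1) * (χ : G → ℂ) g = 0 := by
      rw [sub_mul, one_mul, ← h7, sub_self]
    rcases mul_eq_zero.1 this with h | h
    · exact sub_eq_zero.1 h
    · exact absurd h hg
  have h9 := hfaith ⟨_, hinv⟩ (by rw [h6, h8])
  have h10 := congrArg Subtype.val h9
  simp only [Subgroup.coe_one, inv_eq_one] at h10
  exact hne h10

end Cfsg.Agent.S4566
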