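import Cfsg.Statements.S4567
import Cfsg.Agent.Lib.H79.Central

set_option autoImplicit false
open Cfsg

namespace Cfsg.Agent.S4567

open H18.CharBasic H18.CharOrtho
open scoped ComplexConjugate

universe u

variable {G : Type u} [Group G] [Fintype G] {N : Subgroup G} [hNn : N.Normal] [Fintype N]

/-- special elements -/
def Special (N : Subgroup G) (g : G) : Prop := ∀ x : G, x⁻¹ * g⁻¹ * x * g ∈ N → x * g = g * x

/-- the functions over `ψ` -/
def InV (ψ : N → ℂ) (f : G → ℂ) : Prop :=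
  IsClassFunction G f ∧ ∀ (n : N) (g : G), f (n * g) = ψ n * f g

theorem inner_zero (hN : N ≤ Subgroup.center G) {ψ : N → ℂ} {f : G → ℂ} (hf : InV ψ f)
    {χ : G → ℂ} (hχ : IsIrrCharacter G χ) (h0 : classInner (fun n : N => χ n) ψ = 0) :
    classInner f χ = 0 := by
  have h1 : ∀ n : N, classInner f χ = ψ n * conj (χ n / χ 1) * classInner f χ := by
    intro n
    have h2 : ∑ g : G, f g * conj (χ g) = ∑ g : G, f (n * g) * conj (χ (n * g)) :=
      (Equiv.sum_comp (Equiv.mulLeft (n : G)) (fun g : G => f g * conj (χ g))).symm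
    have h3 : classInner f χ = (Nat.card G : ℂ)⁻¹ * ∑ g : G, f g * conj (χ g) := rfl
    have h4 : ∑ g : G, f (n * g) * conj (χ (n * g)) =
        ψ n * conj (χ n / χ 1) * ∑ g : G, f g * conj (χ g) := by
      rw [Finset.mul_sum]
      refine Finset.sum_congr rfl fun g _ => ?_
      rw [hf.2, H79.Central.central_mul hχ (hN n.2), map_mul]
      ring
    rw [h3]
    conv_lhs => rw [h2, h4]
    ring
  have h3 : (∑ n : N, ψ n * conj (χ n / χ 1) : ℂ) = 0 := by
    have h4 : (∑ n : N, (χ n : ℂ) * conj (ψ n) : ℂ) = 0 := by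
      rw [classInner] at h0
      rcases mul_eq_zero.1 h0 with h | h
      · exfalso
        rw [inv_eq_zero] at h
        exact (H18.CharOrtho.card_ne_zero' (G := N)) h
      · exact h
    have h5 : ∑ n : N, ψ n * conj (χ n / χ 1) = (conj (χ 1))⁻¹ * conj (∑ n : N, (χ n : ℂ) * conj (ψ n)) := by
      rw [map_sum, Finset.mul_sum]
      refine Finset.sum_congr rfl fun n _ => ?_
      rw [map_mul, Complex.conj_conj, map_div₀]
      ring
    rw [h5, h4, map_zero, mul_zero]
  have h6 : (Fintype.card N : ℂ) * classInner f χ = 0 := by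
    have : ∑ n : N, classInner f χ = 0 := by
      rw [Finset.sum_congr rfl (fun n _ => h1 n), ← Finset.sum_mul, h3, zero_mul]
    rwa [Finset.sum_const, Finset.card_univ, nsmul_eq_mul] at this
  rcases mul_eq_zero.1 h6 with h | h
  · exact absurd h (by exact_mod_cast Fintype.card_ne_zero)
  · exact h

theorem nonspecial (hN : N ≤ Subgroup.center G) {ψ : N → ℂ} (hψ1 : ψ 1 = 1)
    (hfaith : ∀ n : N, ψ n = ψ 1 → n = 1) {f : G → ℂ} (hf : InV ψ f) {g : G}
    (hg : ¬ Special N g) : f g = 0 := by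
  unfold Special at hg
  push Not at hg
  obtain ⟨x, hx, hne⟩ := hg
  let n : N := ⟨x⁻¹ * g⁻¹ * x * g, hx⟩
  have hc : ∀ y : G, y * (x⁻¹ * g⁻¹ * x * g) = (x⁻¹ * g⁻¹ * x * g) * y :=
    Subgroup.mem_center_iff.1 (hN hx)
  have h1 : x⁻¹ * g * x = (n⁻¹ : N) * g := by
    show x⁻¹ * g * x = (x⁻¹ * g⁻¹ * x * g)⁻¹ * g
    rw [eq_inv_mul_iff_mul_eq, ← hc]
    group
  have h2 : f g = ψ n⁻¹ * f g := by
    rw [← hf.2, ← h1]
    have := hf.1 g x⁻¹
    rw [inv_inv] at this
    exact this.symm
  by_contra hfg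
  have h3 : ψ n⁻¹ = 1 := by
    have : (ψ n⁻¹ - 1) * f g = 0 := by rw [sub_mul, ← h2]; ring
    rcases mul_eq_zero.1 this with h | h
    · exact sub_eq_zero.1 h
    · exact absurd h hfg
  have h4 : n⁻¹ = 1 := hfaith _ (h3.trans hψ1.symm)
  have h5 : (n : G) = 1 := by rw [inv_eq_one.1 h4]; rfl
  apply hne
  have h6 : x⁻¹ * g⁻¹ * x * g = 1 := h5
  have : x * g = (g * x) * (x⁻¹ * g⁻¹ * x * g) := by group
  rw [this, h6, mul_one]

open Classical in
/-- the function supported on the `N`-multiples of the class of `h` -/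
noncomputable def F (ψ : N → ℂ) (h : G) : G → ℂ := fun g =>
  ∑ n : N, (ψ n)⁻¹ * (if IsConj h (n * g) then 1 else 0)

theorem F_mem (hN : N ≤ Subgroup.center G) (φ : N →* ℂˣ) (h : G) :
    InV (fun n => (φ n : ℂ)) (F (fun n => (φ n : ℂ)) h) := by
  classical
  constructor
  · intro g x
    unfold F
    refine Finset.sum_congr rfl fun n _ => ?_
    have h1 : (n : G) * (x * g * x⁻¹) = x * (n * g) * x⁻¹ := by
      have := Subgroup.mem_center_iff.1 (hN n.2) x
      rw [← mul_assoc, ← mul_assoc, ← this]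
      group
    have h2 : IsConj ((n : G) * g) (n * (x * g * x⁻¹)) := by
      rw [h1]
      exact isConj_iff.2 ⟨x, rfl⟩
    have h3 : IsConj h (n * (x * g * x⁻¹)) ↔ IsConj h (n * g) :=
      ⟨fun h' => h'.trans h2.symm, fun h' => h'.trans h2⟩
    rw [if_congr h3 rfl rfl]
  · intro m g
    unfold F
    rw [Finset.mul_sum]
    refine (Fintype.sum_equiv (Equiv.mulRight m) _ _ fun n => ?_)
    show ((φ n : ℂ))⁻¹ * _ = (φ m : ℂ) * (((φ (n * m) : ℂˣ) : ℂ)⁻¹ * (if IsConj h (((n * m : N) : G) * g) then (1:ℂ) else 0))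
    have : ((n * m : N) : G) = (n : G) * m := rfl
    have hm : (φ m : ℂ) ≠ 0 := Units.ne_zero _
    rw [this, map_mul, Units.val_mul, mul_inv, ← mul_assoc (n : G)]
    generalize (if IsConj h ((n : G) * m * g) then (1:ℂ) else 0) = t
    rw [mul_comm ((φ n : ℂ))⁻¹ ((φ m : ℂ))⁻¹, mul_assoc, mul_inv_cancel_left₀ hm]

theorem F_self (hN : N ≤ Subgroup.center G) (φ : N →* ℂˣ) {h : G} (hs : Special N h) :
    F (fun n => (φ n : ℂ)) h h = 1 := by
  classical
  unfold F
  rw [Finset.sum_eq_single 1]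
  · have h1 : ((1 : N) : G) * h = h := by rw [OneMemClass.coe_one, one_mul]
    rw [h1, if_pos (IsConj.refl h)]
    show (((φ 1 : ℂˣ) : ℂ))⁻¹ * 1 = 1
    rw [map_one]
    simp
  · intro n _ hne
    rw [if_neg, mul_zero]
    intro hc
    apply hne
    obtain ⟨c, hc⟩ := isConj_iff.1 hc
    have hcm : ∀ y : G, y * (n : G) = n * y := Subgroup.mem_center_iff.1 (hN n.2)
    have h2 : (c⁻¹)⁻¹ * h⁻¹ * c⁻¹ * h = (n : G)⁻¹ := by
      have : (c⁻¹)⁻¹ * h⁻¹ * c⁻¹ = (c * h * c⁻¹)⁻¹ := by group
      rw [this, hc, ← hcm h]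
      group
    have h3 := hs c⁻¹ (by rw [h2]; exact N.inv_mem n.2)
    have h4 : c * h * c⁻¹ = h := by
      rw [mul_assoc, ← h3]; group
    have h5 : (n : G) = 1 := by
      rw [h4] at hc
      exact (mul_eq_right.1 hc.symm)
    exact Subtype.ext h5
  · intro h; exact absurd (Finset.mem_univ _) h

theorem F_ne (φ : N →* ℂˣ) {h g : G}
    (hne : ConjClasses.mk (h : G ⧸ N) ≠ ConjClasses.mk (g : G ⧸ N)) :
    F (fun n => (φ n : ℂ)) h g = 0 := by
  classical
  unfold F
  refine Finset.sum_eq_zero fun n _ => ?_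
  rw [if_neg, mul_zero]
  intro hc
  apply hne
  rw [ConjClasses.mk_eq_mk_iff_isConj]
  have h1 := (QuotientGroup.mk' N).map_isConj hc
  rw [map_mul] at h1
  have h2 : (QuotientGroup.mk' N) (n : G) = 1 := (QuotientGroup.eq_one_iff _).2 n.2
  rw [h2, one_mul] at h1
  exact h1

theorem zero_of_rep (hN : N ≤ Subgroup.center G) {ψ : N → ℂ} (hψ1 : ψ 1 = 1)
    (hfaith : ∀ n : N, ψ n = ψ 1 → n = 1) {f : G → ℂ} (hf : InV ψ f)
    (hz : ∀ g : G, Special N g → ∃ h : G, ConjClasses.mk (h : G ⧸ N) = ConjClasses.mk (g : G ⧸ N) ∧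
      f h = 0) : f = 0 := by
  funext g
  by_cases hg : Special N g
  · obtain ⟨h, h1, h2⟩ := hz g hg
    rw [ConjClasses.mk_eq_mk_iff_isConj, isConj_iff] at h1
    obtain ⟨c, hc⟩ := h1
    obtain ⟨c, rfl⟩ := QuotientGroup.mk_surjective c
    have h3 : ((c * h * c⁻¹ : G) : G ⧸ N) = (g : G ⧸ N) := by
      rw [← hc]; rfl
    rw [QuotientGroup.eq] at h3
    have h4 : g = ((⟨_, h3⟩ : N) : G) * (c * h * c⁻¹) := by
      have := Subgroup.mem_center_iff.1 (hN h3) (c * h * c⁻¹)
      show g = ((c * h * c⁻¹)⁻¹ * g) * (c * h * c⁻¹)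
      rw [← this]
      group
    rw [h4, hf.2, hf.1, h2, mul_zero]
    rfl
  · exact nonspecial hN hψ1 hfaith hf hg

/-- Let N be a central subgroup of the finite group G and ψ a faithful irreducible (hence degree-one) character of N. Call a coset g N special when every x ∈ G whose commutator x⁻¹ g⁻¹ x g lies in N actually commutes with g (this depends only on the coset). Then the number of irreducible characters of G whose restriction to N contains ψ equals the number of conjugacy classes of G/N consisting of special cosets. -/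
theorem result {G : Type*} [Group G] [Fintype G] (N : Subgroup G) [N.Normal] [Fintype N] (hN : N ≤ Subgroup.center G) (ψ : Cfsg.IrrCharacter ↥N) (hfaith : ∀ n : ↥N, (ψ : ↥N → ℂ) n = (ψ : ↥N → ℂ) 1 → n = 1) : Nat.card {χ : Cfsg.IrrCharacter G // Cfsg.classInner (fun n : ↥N => (χ : G → ℂ) n) (ψ : ↥N → ℂ) ≠ 0} = Nat.card {C : ConjClasses (G ⧸ N) // ∃ g : G, ConjClasses.mk (g : G ⧸ N) = C ∧ ∀ x : G, x⁻¹ * g⁻¹ * x * g ∈ N → x * g = g * x} := by
  classical
  have hcomm : ∀ a b : N, a * b = b * a := fun a b =>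
    Subtype.ext (Subgroup.mem_center_iff.1 (hN b.2) a)
  have hψ1 : (ψ : N → ℂ) 1 = 1 := H18.CharQuot.degree_one_of_comm hcomm ψ.2
  obtain ⟨φ, hφ⟩ := H18.CharQuot.exists_hom_of_degree_one (isCharacter_of_isIrr ψ.2) hψ1
  set A := {χ : IrrCharacter G // classInner (fun n : N => (χ : G → ℂ) n) (ψ : N → ℂ) ≠ 0} with hA
  set B := {C : ConjClasses (G ⧸ N) // ∃ g : G, ConjClasses.mk (g : G ⧸ N) = C ∧
    ∀ x : G, x⁻¹ * g⁻¹ * x * g ∈ N → x * g = g * x} with hB
  letI : Fintype (IrrCharacter G) := Fintype.ofFinite _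
  letI : Fintype A := Fintype.ofFinite _
  haveI : Finite B := Subtype.finite
  letI : Fintype B := Fintype.ofFinite _
  let rep : B → G := fun C => C.2.choose
  have rep_mk : ∀ C : B, ConjClasses.mk (rep C : G ⧸ N) = C.1 := fun C => C.2.choose_spec.1
  have rep_sp : ∀ C : B, Special N (rep C) := fun C => C.2.choose_spec.2
  have hAV : ∀ χ : A, InV (ψ : N → ℂ) (χ.1 : G → ℂ) := fun χ =>
    ⟨isClassFunction_of_isIrr χ.1.2, fun n g => H79.Central.over_central hN ψ.2 χ.1.2 χ.2 n g⟩
  let T : (A → ℂ) →ₗ[ℂ] (B → ℂ) :=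
    { toFun := fun c C => ∑ χ : A, c χ * (χ.1 : G → ℂ) (rep C)
      map_add' := fun c d => by
        funext C
        simp only [Pi.add_apply, add_mul, Finset.sum_add_distrib]
      map_smul' := fun a c => by
        funext C
        simp only [Pi.smul_apply, smul_eq_mul, Finset.mul_sum, RingHom.id_apply, mul_assoc] }
  have hT : ∀ c C, T c C = ∑ χ : A, c χ * (χ.1 : G → ℂ) (rep C) := fun _ _ => rfl
  have hinj : Function.Injective T := by
    rw [← LinearMap.ker_eq_bot, LinearMap.ker_eq_bot']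
    intro c hc
    set f : G → ℂ := ∑ χ : A, c χ • (χ.1 : G → ℂ) with hf
    have hfV : InV (ψ : N → ℂ) f := by
      constructor
      · exact isClassFunction_sum _ _ fun χ _ => isClassFunction_smul _ (isClassFunction_of_isIrr χ.1.2)
      · intro n g
        rw [hf]
        simp only [Finset.sum_apply, Pi.smul_apply, smul_eq_mul]
        rw [Finset.mul_sum]
        refine Finset.sum_congr rfl fun χ _ => ?_
        rw [(hAV χ).2]
        ring
    have hf0 : f = 0 := by
      apply zero_of_rep hN hψ1 hfaith hfV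
      intro g hg
      refine ⟨rep ⟨ConjClasses.mk (g : G ⧸ N), g, rfl, hg⟩, rep_mk _, ?_⟩
      have := congrFun hc ⟨ConjClasses.mk (g : G ⧸ N), g, rfl, hg⟩
      rw [hT] at this
      rw [hf]
      simp only [Finset.sum_apply, Pi.smul_apply, smul_eq_mul]
      exact this
    funext χ
    have h1 : classInner f (χ.1 : G → ℂ) = 0 := by rw [hf0]; simp
    rw [hf, H18.CharOrtho.inner_sum_left, Finset.sum_eq_single χ] at h1
    · rwa [H18.CharOrtho.inner_smul_left, inner_irr_self χ.1.2, mul_one] at h1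
    · intro θ _ hne
      rw [H18.CharOrtho.inner_smul_left, inner_irr_ne θ.1.2 χ.1.2
        (fun h => hne (Subtype.ext (Subtype.ext h))), mul_zero]
    · intro h; exact absurd (Finset.mem_univ _) h
  have hsurj : Function.Surjective T := by
    intro d
    set f : G → ℂ := ∑ C : B, d C • F (fun n => (φ n : ℂ)) (rep C) with hf
    have hfV : InV (ψ : N → ℂ) f := by
      rw [hφ]
      constructor
      · exact isClassFunction_sum _ _ fun C _ => isClassFunction_smul _ (F_mem hN φ (rep C)).1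
      · intro n g
        rw [hf]
        simp only [Finset.sum_apply, Pi.smul_apply, smul_eq_mul]
        rw [Finset.mul_sum]
        refine Finset.sum_congr rfl fun C _ => ?_
        rw [(F_mem hN φ (rep C)).2]
        ring
    refine ⟨fun χ => classInner f (χ.1 : G → ℂ), ?_⟩
    funext C
    rw [hT]
    have h1 : f = ∑ χ : A, classInner f (χ.1 : G → ℂ) • (χ.1 : G → ℂ) := by
      conv_lhs => rw [mem_classFun_expand hfV.1]
      rw [← Finset.sum_filter_add_sum_filter_not Finset.univ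
        (fun χ : IrrCharacter G => classInner (fun n : N => (χ : G → ℂ) n) (ψ : N → ℂ) ≠ 0)]
      rw [Finset.sum_eq_zero (s := Finset.univ.filter (fun χ : IrrCharacter G =>
        ¬ classInner (fun n : N => (χ : G → ℂ) n) (ψ : N → ℂ) ≠ 0)), add_zero]
      · exact Finset.sum_subtype _ (fun χ => by simp) (fun χ : IrrCharacter G =>
          classInner f (χ : G → ℂ) • (χ : G → ℂ))
      · intro χ hχ
        rw [Finset.mem_filter, not_not] at hχ
        rw [inner_zero hN hfV χ.2 hχ.2, zero_smul]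
    have h2 := congrFun h1 (rep C)
    simp only [Finset.sum_apply, Pi.smul_apply, smul_eq_mul] at h2
    rw [← h2, hf]
    simp only [Finset.sum_apply, Pi.smul_apply, smul_eq_mul]
    rw [Finset.sum_eq_single C]
    · rw [F_self hN φ (rep_sp C), mul_one]
    · intro D _ hne
      rw [F_ne φ, mul_zero]
      rw [rep_mk, rep_mk]
      exact fun h => hne (Subtype.ext h)
    · intro h; exact absurd (Finset.mem_univ _) h
  have he := (LinearEquiv.ofBijective T ⟨hinj, hsurj⟩).finrank_eq
  rw [Module.finrank_fintype_fun_eq_card, Module.finrank_fintype_fun_eq_card] at he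
  rw [Nat.card_eq_fintype_card, Nat.card_eq_fintype_card]
  exact he

end Cfsg.Agent.S4567
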