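import Cfsg.Statements.S4568
import Cfsg.Agent.Lib.H79.NonSol
import Cfsg.Agent.S0205

set_option autoImplicit false
open Cfsg

namespace Cfsg.Agent.S4568

universe u

theorem aux {G : Type u} [Group G] [Finite G] (M : Ideal Cfsg.AlgInt) (hM : Cfsg.IsPModular 2 M) (P : Sylow 2 G)
    (hab : IsMulCommutative P)
    (he : ((Subgroup.centralizer ((P : Subgroup G) : Set G)).relIndex
      (Subgroup.normalizer ((P : Subgroup G) : Set G))).Prime) :
    Cfsg.blockRank 2 (Cfsg.principalBlock M G) = (Subgroup.centralizer ((P : Subgroup G) : Set G)).relIndex
      (Subgroup.normalizer ((P : Subgroup G) : Set G)) ∧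
    (¬ Group.IsSolvable G → Nat.card (Cfsg.principalBlock M G) = Nat.card P) := by
  have habP : ∀ x ∈ (P : Subgroup G), ∀ y ∈ (P : Subgroup G), x * y = y * x := fun x hx y hy =>
    congrArg Subtype.val (hab.is_comm.comm (⟨x, hx⟩ : P) ⟨y, hy⟩)
  exact H79.NonSol.main (fun K _ _ hK => Cfsg.Agent.S0205.result hK) hM G P habP he

/-- Let G be a finite group with a commutative Sylow 2-subgroup P, let e be the index of the centralizer of P in the normalizer of P, and let M be a maximal ideal of the algebraic integers containing 2. If e is a prime number, then the principal 2-block has 2-regular rank e (e irreducible Brauer characters), and if moreover G is not solvable it contains exactly as many irreducible characters as P has elements. -/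
theorem result {G : Type*} [Group G] [Finite G] (M : Ideal Cfsg.AlgInt) (hM : Cfsg.IsPModular 2 M) (P : Sylow 2 G) (hab : IsMulCommutative P) (he : ((Subgroup.centralizer ((P : Subgroup G) : Set G)).relIndex (Subgroup.normalizer ((P : Subgroup G) : Set G))).Prime) : Cfsg.blockRank 2 (Cfsg.principalBlock M G) = (Subgroup.centralizer ((P : Subgroup G) : Set G)).relIndex (Subgroup.normalizer ((P : Subgroup G) : Set G)) ∧ (¬ Group.IsSolvable G → Nat.card (Cfsg.principalBlock M G) = Nat.card P) := by
  exact aux M hM P hab he

end Cfsg.Agent.S4568
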