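import Cfsg.Statements.S4570
import Cfsg.Agent.Lib.H79.Sixteen
import Cfsg.Agent.S0205

set_option autoImplicit false
open Cfsg

namespace Cfsg.Agent.S4570

universe u

theorem aux {G : Type u} [Group G] [Finite G] (M : Ideal Cfsg.AlgInt) (hM : Cfsg.IsPModular 2 M) (P : Sylow 2 G)
    (hab : IsMulCommutative P) (x : G) (hx : orderOf x = 2)
    (hl : Cfsg.blockRank 2 (Cfsg.principalBlock M ↥(Subgroup.centralizer ({x} : Set G))) = 1) :
    (Nat.card P = 8 → Nat.card (Cfsg.principalBlock M G) = 8) ∧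
      (Nat.card P = 16 → Nat.card (Cfsg.principalBlock M G) = 8 ∨ Nat.card (Cfsg.principalBlock M G) = 16) := by
  haveI : Fact (Nat.Prime 2) := ⟨Nat.prime_two⟩
  have h1 : IsPGroup 2 (Subgroup.zpowers x) := by
    apply IsPGroup.of_card (n := 1)
    rw [Nat.card_zpowers, hx, pow_one]
  obtain ⟨Q, hQ⟩ := h1.exists_le_sylow
  obtain ⟨g, hg⟩ := MulAction.exists_smul_eq G P Q
  have habP : ∀ x ∈ (P : Subgroup G), ∀ y ∈ (P : Subgroup G), x * y = y * x := fun x hx y hy =>
    congrArg Subtype.val (hab.is_comm.comm (⟨x, hx⟩ : P) ⟨y, hy⟩)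
  have habQ : ∀ x ∈ (Q : Subgroup G), ∀ y ∈ (Q : Subgroup G), x * y = y * x := by
    rw [← hg]
    rintro _ ⟨a, ha, rfl⟩ _ ⟨b, hb, rfl⟩
    show g * a * g⁻¹ * (g * b * g⁻¹) = g * b * g⁻¹ * (g * a * g⁻¹)
    calc g * a * g⁻¹ * (g * b * g⁻¹) = g * (a * b) * g⁻¹ := by group
      _ = g * (b * a) * g⁻¹ := by rw [habP a ha b hb]
      _ = g * b * g⁻¹ * (g * a * g⁻¹) := by group
  have hcard : Nat.card P = Nat.card (Q : Subgroup G) := by
    rw [← hg]; exact (Nat.card_congr (Subgroup.equivSMul (MulAut.conj g) (P : Subgroup G)).toEquiv)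
  have h2 := H79.Sixteen.main (fun K _ _ hK => Cfsg.Agent.S0205.result hK) hM G Q habQ
    (hQ (Subgroup.mem_zpowers x)) hx hl
  rw [hcard]
  exact h2

/-- Let G be a finite group with a commutative Sylow 2-subgroup P and M a maximal ideal of the algebraic integers containing 2, and suppose some involution x of G has the property that the principal 2-block of its centralizer has 2-regular rank one. If P has order 8 then the principal 2-block of G contains exactly 8 irreducible characters, and if P has order 16 it contains 8 or 16. -/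
theorem result {G : Type*} [Group G] [Finite G] (M : Ideal Cfsg.AlgInt) (hM : Cfsg.IsPModular 2 M) (P : Sylow 2 G) (hab : IsMulCommutative P) (x : G) (hx : orderOf x = 2) (hl : Cfsg.blockRank 2 (Cfsg.principalBlock M ↥(Subgroup.centralizer ({x} : Set G))) = 1) : (Nat.card P = 8 → Nat.card (Cfsg.principalBlock M G) = 8) ∧ (Nat.card P = 16 → Nat.card (Cfsg.principalBlock M G) = 8 ∨ Nat.card (Cfsg.principalBlock M G) = 16) := by
  exact aux M hM P hab x hx hl

end Cfsg.Agent.S4570
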