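import Cfsg.Statements.S4574
import Cfsg.Agent.Lib.H79.Deg
import Cfsg.Agent.Lib.H84.CyclicNorm

set_option autoImplicit false
open Cfsg

namespace Cfsg.Agent.S4574

open H18.CharBasic H18.CharOrtho H79.Deg

/-- The absolute value equals the degree at every power. -/
theorem norm_eq_of_mem {G : Type*} [Group G] [Finite G] {χ : G → ℂ} (h : Cfsg.IsCharacter G χ)
    {x y : G} (hy : ‖χ y‖ = (Cfsg.charDegree χ : ℝ)) (hx : x ∈ Subgroup.zpowers y) :
    ‖χ x‖ = (Cfsg.charDegree χ : ℝ) := by
  have hd := charDegree_coe h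
  obtain ⟨n, ρ, rfl⟩ := h
  rw [Representation.char_one] at hd
  have hd' : Cfsg.charDegree ρ.character = Module.finrank ℂ (Fin n → ℂ) := by exact_mod_cast hd
  rw [hd'] at hy ⊢
  rw [H4.Eigen.norm_char_eq_iff] at hy ⊢
  obtain ⟨ω, hω⟩ := hy
  rw [← mem_powers_iff_mem_zpowers] at hx
  obtain ⟨m, rfl⟩ := hx
  refine ⟨ω ^ m, ?_⟩
  change ρ (y ^ m) = _
  rw [map_pow, hω, smul_pow]
  congr 1
  exact one_pow m


/-- Let χ be an irreducible character of the finite group G, of degree d, and let Z(χ) be the set of elements g with |χ g| = d (the centre of χ). Then χ vanishes on at least (d ^ 2 - 1) · |Z(χ)| elements of G, with equality when every value |χ g| is 0, 1 or d. -/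
theorem result {G : Type*} [Group G] [Fintype G] [DecidableEq G] (χ : G → ℂ) (hχ : Cfsg.IsIrrCharacter G χ) : (Cfsg.charDegree χ ^ 2 - 1) * (Finset.univ.filter (fun g : G => ‖χ g‖ = (Cfsg.charDegree χ : ℝ))).card ≤ (Finset.univ.filter (fun g : G => χ g = 0)).card ∧ ((∀ g : G, ‖χ g‖ = 0 ∨ ‖χ g‖ = 1 ∨ ‖χ g‖ = (Cfsg.charDegree χ : ℝ)) → (Cfsg.charDegree χ ^ 2 - 1) * (Finset.univ.filter (fun g : G => ‖χ g‖ = (Cfsg.charDegree χ : ℝ))).card = (Finset.univ.filter (fun g : G => χ g = 0)).card) := by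
  classical
  set d := Cfsg.charDegree χ with hd
  have hc := isCharacter_of_isIrr hχ
  have hdpos : 0 < d := charDegree_pos hχ
  have hd1 : (1 : ℝ) ≤ (d : ℝ) := by exact_mod_cast hdpos
  set Z := Finset.univ.filter (fun g : G => ‖χ g‖ = (d : ℝ)) with hZ
  set V := Finset.univ.filter (fun g : G => χ g = 0) with hV
  set T := Finset.univ.filter (fun g : G => ¬ ‖χ g‖ = (d : ℝ)) with hT
  -- the norm equation
  have hnorm : ∑ g : G, ‖χ g‖ ^ 2 = (Nat.card G : ℝ) := by
    have h1 := inner_irr_self hχ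
    rw [inner_self_eq_sum] at h1
    have h2 : (Nat.card G : ℝ)⁻¹ * ∑ g : G, ‖χ g‖ ^ 2 = 1 := by exact_mod_cast h1
    have h3 : (Nat.card G : ℝ) ≠ 0 := by exact_mod_cast Nat.card_pos.ne'
    field_simp at h2
    exact h2
  have hsplit : ∑ g ∈ Z, ‖χ g‖ ^ 2 + ∑ g ∈ T, ‖χ g‖ ^ 2 = (Nat.card G : ℝ) := by
    rw [← hnorm]
    exact Finset.sum_filter_add_sum_filter_not _ _ _
  have hZsum : ∑ g ∈ Z, ‖χ g‖ ^ 2 = (d : ℝ) ^ 2 * Z.card := by
    rw [Finset.sum_congr rfl (fun g hg => by rw [(Finset.mem_filter.1 hg).2]), Finset.sum_const,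
      nsmul_eq_mul, mul_comm]
  have hcardG : (Z.card : ℝ) + (V.card : ℝ) + ((T.filter fun x => χ x ≠ 0).card : ℝ) =
      (Nat.card G : ℝ) := by
    have h1 : Z.card + T.card = Nat.card G := by
      rw [Nat.card_eq_fintype_card, ← Finset.card_univ]
      exact Finset.card_filter_add_card_filter_not _
    have h2 : (T.filter fun x => χ x = 0).card + (T.filter fun x => ¬ χ x = 0).card = T.card :=
      Finset.card_filter_add_card_filter_not _
    have h3 : (T.filter fun x => χ x = 0) = V := by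
      ext x
      simp only [hT, hV, Finset.mem_filter, Finset.mem_univ, true_and]
      constructor
      · exact fun h => h.2
      · intro h
        refine ⟨?_, h⟩
        rw [h, norm_zero]
        intro h0
        linarith
    rw [h3] at h2
    have h4 : Z.card + V.card + (T.filter fun x => χ x ≠ 0).card = Nat.card G := by
      rw [← h1, ← h2, add_assoc]
    exact_mod_cast h4
  have hcast : (((d ^ 2 - 1) * Z.card : ℕ) : ℝ) = (d : ℝ) ^ 2 * Z.card - Z.card := by
    have : 1 ≤ d ^ 2 := Nat.one_le_pow _ _ hdpos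
    rw [Nat.cast_mul, Nat.cast_sub this]
    push_cast
    ring
  constructor
  · have h1 := H84.CyclicNorm.card_nonzero_le_sum_norm_sq (isGen_of_isCharacter hc) T (by
      intro x hx y hxy
      simp only [hT, Finset.mem_filter, Finset.mem_univ, true_and] at hx ⊢
      intro hy
      apply hx
      exact norm_eq_of_mem hc hy (hxy ▸ Subgroup.mem_zpowers x))
    have h2 : (((d ^ 2 - 1) * Z.card : ℕ) : ℝ) ≤ (V.card : ℝ) := by
      rw [hcast, ← hZsum]
      have h3 : ((T.filter fun x => χ x ≠ 0).card : ℝ) ≤ ∑ x ∈ T, ‖χ x‖ ^ 2 := by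
        convert h1
      linarith
    exact_mod_cast h2
  · intro hval
    have h1 : ∑ x ∈ T, ‖χ x‖ ^ 2 = ((T.filter fun x => χ x ≠ 0).card : ℝ) := by
      rw [Finset.card_filter, Nat.cast_sum]
      refine Finset.sum_congr rfl fun x hx => ?_
      simp only [hT, Finset.mem_filter, Finset.mem_univ, true_and] at hx
      rcases hval x with h | h | h
      · rw [norm_eq_zero] at h
        simp [h]
      · have : χ x ≠ 0 := by
          intro h0; rw [h0, norm_zero] at h; norm_num at h
        simp [h, this]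
      · exact absurd h hx
    have h2 : (((d ^ 2 - 1) * Z.card : ℕ) : ℝ) = (V.card : ℝ) := by
      rw [hcast, ← hZsum]
      linarith
    exact_mod_cast h2

end Cfsg.Agent.S4574
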