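import Cfsg.Statements.S4580
import Cfsg.Agent.Lib.H79.RealBlk

set_option autoImplicit false
open Cfsg

namespace Cfsg.Agent.S4580

open H79.RealBlk H20.Loc
open scoped ComplexConjugate

theorem real_extension {G : Type*} [Group G] [Finite G] (N : Subgroup G) [N.Normal]
    (θ : Cfsg.IrrCharacter N) (hreal : ∀ n : N, ((θ : N → ℂ) n).im = 0)
    (η : Cfsg.IrrCharacter G) (hη : ∀ n : N, (η : G → ℂ) n = (θ : N → ℂ) n) :
    ∃ (η' : Cfsg.IrrCharacter G) (f : G →* ℂˣ) (k : ℕ), (∀ n : N, (η' : G → ℂ) n = (θ : N → ℂ) n) ∧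
      (∀ g, (cj η' : G → ℂ) g = (f g : ℂ) * (η' : G → ℂ) g) ∧ ∀ g, (f g : ℂ) ^ (2 ^ k) = 1 := by
  letI := Fintype.ofFinite N
  have hresη : (fun n : N => (η : G → ℂ) n) = (θ : N → ℂ) := funext hη
  have hN : IsIrrCharacter N (fun n : N => (η : G → ℂ) n) := by rw [hresη]; exact θ.2
  have hcj : (fun n : N => (cj η : G → ℂ) n) = (fun n : N => (η : G → ℂ) n) := by
    funext n
    rw [cj_apply, hη n]
    exact Complex.conj_eq_iff_im.mpr (hreal n)
  obtain ⟨β, hβ, hβN, hβη⟩ := H83.Gallagher.exists_eq_mul η.2 N hN (cj η).2 (by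
    rw [hcj, H18.CharOrtho.inner_irr_self hN]; exact one_ne_zero)
  have hη1 : (η : G → ℂ) 1 ≠ 0 := H18.CharBasic.irr_one_ne_zero η.2
  have hβ1 : β 1 = 1 := by
    have h1 := congrFun hβη 1
    rw [cj_one] at h1
    have h2 : (1 : ℂ) * (η : G → ℂ) 1 = β 1 * (η : G → ℂ) 1 := by rw [one_mul]; exact h1
    exact (mul_right_cancel₀ hη1 h2).symm
  obtain ⟨f, hf⟩ := H18.CharQuot.exists_hom_of_degree_one (H18.CharBasic.isCharacter_of_isIrr hβ) hβ1
  subst hf
  have hfN : ∀ n ∈ N, f n = 1 := by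
    intro n hn
    have := hβN n hn
    simp only [map_one, Units.val_one] at this
    exact Units.ext this
  -- |G| = 2 ^ a * m
  obtain ⟨a, m, hm, hG⟩ := Nat.exists_eq_two_pow_mul_odd (n := Nat.card G) Nat.card_pos.ne'
  have hfG : ∀ g, f g ^ (Nat.card G) = 1 := fun g => by
    rw [← map_pow, pow_card_eq_one', map_one]
  obtain ⟨c, hc⟩ := hm
  let μ : G →* ℂˣ := f ^ (c + 1)
  let η' : IrrCharacter G := ⟨fun g => (μ g : ℂ) * (η : G → ℂ) g, H18.CharQuot.isIrrCharacter_hom_mul μ η.2⟩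
  refine ⟨η', (f ^ m)⁻¹, a, ?_, ?_, ?_⟩
  · intro n
    show ((μ n : ℂˣ) : ℂ) * (η : G → ℂ) n = _
    have : μ n = 1 := by simp [μ, hfN n n.2]
    rw [this, hη]; simp
  · intro g
    have h1 : (cj η : G → ℂ) g = (f g : ℂ) * (η : G → ℂ) g := congrFun hβη g
    rw [cj_apply] at h1
    have h2 : conj ((μ g : ℂˣ) : ℂ) = ((μ g : ℂˣ) : ℂ)⁻¹ := by
      have h3 : ((μ g : ℂˣ) : ℂ) * conj ((μ g : ℂˣ) : ℂ) = 1 := by
        rw [Complex.mul_conj, Complex.normSq_eq_norm_sq, H18.CharBasic.hom_norm_one]; simp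
      exact (eq_inv_of_mul_eq_one_right h3)
    rw [cj_apply]
    show conj (((μ g : ℂˣ) : ℂ) * (η : G → ℂ) g) = (((f ^ m)⁻¹ : G →* ℂˣ) g : ℂ) * (((μ g : ℂˣ) : ℂ) * (η : G → ℂ) g)
    rw [map_mul, h1, h2]
    have hf0 : (f g : ℂ) ≠ 0 := (f g).ne_zero
    simp only [μ, MonoidHom.pow_apply, MonoidHom.inv_apply, Units.val_pow_eq_pow_val, Units.val_inv_eq_inv_val]
    rw [hc]
    field_simp
    ring
  · intro g
    simp only [MonoidHom.pow_apply, MonoidHom.inv_apply]
    rw [← Units.val_pow_eq_pow_val, inv_pow, ← pow_mul, mul_comm m, ← hG, hfG]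
    simp


/-- Let N be a normal subgroup of the finite group G, M a maximal ideal of the algebraic integers containing 2, and θ a real-valued irreducible character of N of odd degree that extends to G (some irreducible character of G restricts to θ). Then θ has an extension to G lying in the principal 2-block of G. -/
theorem result {G : Type*} [Group G] [Finite G] (N : Subgroup G) [N.Normal] (M : Ideal Cfsg.AlgInt) (hM : Cfsg.IsPModular 2 M) (θ : Cfsg.IrrCharacter N) (hreal : ∀ n : N, ((θ : N → ℂ) n).im = 0) (hodd : Odd (Cfsg.charDegree (θ : N → ℂ))) (hext : ∃ η : Cfsg.IrrCharacter G, ∀ n : N, (η : G → ℂ) n = (θ : N → ℂ) n) :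
    ∃ η : Cfsg.IrrCharacter G, (∀ n : N, (η : G → ℂ) n = (θ : N → ℂ) n) ∧ η ∈ Cfsg.principalBlock M G := by
  obtain ⟨η, hη⟩ := hext
  haveI := pm_isPrime hM
  haveI := hM.2.1
  obtain ⟨η', f, k, hη', hcj, hf⟩ := real_extension N θ hreal η hη
  refine ⟨η', hη', ?_⟩
  have h1 : SameBlock M (η' : G → ℂ) (cj η' : G → ℂ) := by
    intro g
    rw [H20.Loc.locI_sub_comm]
    have h2 : centralChar (cj η' : G → ℂ) g - centralChar (η' : G → ℂ) g =
        centralChar (η' : G → ℂ) g * ((f g : ℂ) - 1) := by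
      unfold centralChar
      rw [hcj g, cj_one]
      ring
    rw [h2]
    exact locI_mul_left (H20.Blk.centralChar_memR η' g) (locI_root_of_unity_sub_one hM (hf g))
  have hB := H20.Blk.isPBlock_blockOf (M := M) η'
  have h3 : blockOf M (η' : G → ℂ) = principalBlock M G := by
    apply principal_of_real hM hB (χ := η')
    · intro χ hχ
      exact H20.Blk.sameBlock_trans h1 (sameBlock_cj hχ)
    · exact H20.Blk.mem_blockOf_self η'
    · have h4 : charDegree (η' : G → ℂ) = charDegree (θ : N → ℂ) := by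
        unfold charDegree
        have := hη' 1
        rw [OneMemClass.coe_one] at this
        rw [this]
      rw [h4]; exact hodd
  rw [← h3]
  exact H20.Blk.mem_blockOf_self η'

end Cfsg.Agent.S4580
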