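import Cfsg.Statements.S4581
import Cfsg.Agent.Lib.H79.OddMain
import Cfsg.Agent.Lib.H79.RealBlk
import Cfsg.Agent.Lib.H1.Frat
import Cfsg.Agent.Lib.H79.Deg

set_option autoImplicit false
open Cfsg

namespace Cfsg.Agent.S4581

open scoped ComplexConjugate
open H18.CharBasic H18.CharOrtho H18.CharInd H18.CharQuot H79.Ovr H79.OddKer H79.OddMain

universe u

theorem parity {b : Bool} {A : Type u} [Group A] [Fintype A] {X : A → ℂ} (hX : IsCharacter A X) {n : ℕ}
    (hn : Odd n) (hXn : X 1 = n) (hadm : Adm b X) :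
    ∃ η : A → ℂ, OddIrr b η ∧ classInner X η ≠ 0 := by
  classical
  letI := Fintype.ofFinite (IrrCharacter A)
  by_contra hcon
  push Not at hcon
  have hm : ∀ η : IrrCharacter A, ∃ m : ℕ, classInner X (η : A → ℂ) = m := fun η =>
    inner_char_natCast hX (isCharacter_of_isIrr η.2)
  have hd : ∀ η : IrrCharacter A, ∃ d : ℕ, (η : A → ℂ) 1 = d := fun η =>
    exists_degree (isCharacter_of_isIrr η.2)
  choose m hm using hm
  choose d hd using hd
  have hsum : ∑ η : IrrCharacter A, m η * d η = n := by
    have h1 := congrFun (mem_classFun_expand (isClassFunction_of_isCharacter hX)) 1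
    simp only [Finset.sum_apply, Pi.smul_apply, smul_eq_mul, hm, hd] at h1
    rw [hXn] at h1
    exact_mod_cast h1.symm
  have hzero : ∀ η : IrrCharacter A, (b = true → ∀ a, conj ((η : A → ℂ) a) = (η : A → ℂ) a) →
      ((m η * d η : ℕ) : ZMod 2) = 0 := by
    intro η hη
    rw [ZMod.natCast_eq_zero_iff, ← even_iff_two_dvd, Nat.even_mul]
    by_contra h
    rw [not_or, Nat.not_even_iff_odd, Nat.not_even_iff_odd] at h
    have h2 := hcon η ⟨η.2, ⟨d η, h.2, hd η⟩, hη⟩
    rw [hm η] at h2
    have h3 : m η = 0 := by exact_mod_cast h2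
    rw [h3] at h
    exact (Nat.not_odd_zero) h.1
  have hz : ∑ η : IrrCharacter A, ((m η * d η : ℕ) : ZMod 2) = 0 := by
    cases b with
    | false => exact Finset.sum_eq_zero fun η _ => hzero η (fun h => absurd h (by simp))
    | true =>
      have hXr := hadm rfl
      have hmc : ∀ η, m (H79.RealBlk.cj η) = m η := by
        intro η
        have h1 : classInner X (H79.RealBlk.cj η : A → ℂ) = classInner X (η : A → ℂ) := by
          have h2 : classInner X (H79.RealBlk.cj η : A → ℂ) = conj (classInner X (η : A → ℂ)) := by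
            unfold classInner
            rw [map_mul, map_sum, map_inv₀, Complex.conj_natCast]
            congr 1
            refine Finset.sum_congr rfl fun y _ => ?_
            rw [map_mul, hXr, H79.RealBlk.cj_apply]
          rw [h2, hm]; simp
        rw [hm, hm] at h1
        exact_mod_cast h1
      have hdc : ∀ η, d (H79.RealBlk.cj η) = d η := by
        intro η
        have h1 := H79.RealBlk.cj_one η
        rw [hd, hd] at h1
        exact_mod_cast h1
      refine Finset.sum_involution (fun η _ => H79.RealBlk.cj η) ?_ ?_ (fun _ _ => Finset.mem_univ _)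
        (fun η _ => H79.RealBlk.cj_cj η)
      · intro η _
        rw [hmc, hdc]
        exact CharTwo.add_self_eq_zero _
      · intro η _ hne heq
        apply hne
        apply hzero
        intro _ a
        exact congrFun (congrArg Subtype.val heq) a
  rw [← Nat.cast_sum, hsum, ZMod.natCast_eq_zero_iff, ← even_iff_two_dvd] at hz
  exact (Nat.not_even_iff_odd.mpr hn) hz

section
variable {G Q : Type u} [Group G] [Finite G] [Group Q] [Fintype Q]

theorem exists_l {b : Bool} (hQ : IsPGroup 2 Q) (i : Q →* G) {χ : G → ℂ} (hχ : OddIrr b χ) :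
    ∃ l : Q →* ℂˣ, Adm b (fun x => (l x : ℂ)) ∧ Ovr i χ l := by
  obtain ⟨d, hd, hχd⟩ := hχ.odd
  obtain ⟨η, hη, hne⟩ := parity (b := b) (isCharacter_comp i (isCharacter_of_isIrr hχ.irr)) hd
    (by show χ (i 1) = d; rw [map_one]; exact hχd) (fun hb x => hχ.adm hb (i x))
  obtain ⟨e, he, hηe⟩ := hη.odd
  have h1 : η 1 = 1 := by
    have h2 := H79.Deg.charDegree_dvd_card hη.irr
    have h3 : Cfsg.charDegree η = e := H79.Deg.charDegree_of_natCast hηe
    rw [h3] at h2
    obtain ⟨k, hk⟩ := IsPGroup.iff_card.mp hQ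
    rw [hk, Nat.dvd_prime_pow Nat.prime_two] at h2
    obtain ⟨j, _, hj⟩ := h2
    cases j with
    | zero => rw [hηe, hj]; simp
    | succ j =>
      exfalso
      rw [hj, pow_succ] at he
      exact (Nat.not_even_iff_odd.mpr he) ⟨2 ^ j, by ring⟩
  obtain ⟨l, hl⟩ := exists_hom_of_degree_one (isCharacter_of_isIrr hη.irr) h1
  subst hl
  exact ⟨l, hη.adm, hne⟩

theorem exists_chi {b : Bool} (i : Q →* G) (hi : Function.Injective i) (hidx : ¬ 2 ∣ i.range.index)
    (l : Q →* ℂˣ) (hl : Adm b (fun x => (l x : ℂ))) : ∃ χ : G → ℂ, OddIrr b χ ∧ Ovr i χ l := by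
  classical
  letI := Fintype.ofFinite G
  letI := Fintype.ofFinite i.range
  let e : Q ≃* i.range := MonoidHom.ofInjective hi
  let l' : i.range →* ℂˣ := l.comp e.symm.toMonoidHom
  have hl' : ∀ x, l' (e x) = l x := fun x => by
    show l (e.symm (e x)) = l x
    rw [MulEquiv.symm_apply_apply]
  have hX := isCharacter_ind i.range (isCharacter_of_isIrr (isIrrCharacter_of_hom l'))
  obtain ⟨χ, hχ, hne⟩ := parity (b := b) hX (n := i.range.index)
    (Nat.odd_iff.mpr (by omega)) (by rw [indFun_one]; simp) (by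
      intro hb g
      rw [indFun_apply', map_mul, map_sum, map_inv₀, Complex.conj_natCast]
      congr 1
      refine Finset.sum_congr rfl fun x _ => ?_
      rw [ext_eq]
      split_ifs with hx
      · obtain ⟨y, hy⟩ := e.surjective ⟨_, hx⟩
        rw [← hy, hl']
        exact hl hb y
      · simp)
  refine ⟨χ, hχ, ?_⟩
  rw [H18.CharInd.frobenius _ _ (isClassFunction_of_isIrr hχ.irr), classInner_ne_zero_symm] at hne
  unfold Ovr
  rw [← classInner_mulEquiv e] at hne
  simp only [hl'] at hne
  exact hne

theorem ovr_conj {i : Q →* G} (hi : Function.Injective i) {χ : G → ℂ} (hχ : IsClassFunction G χ)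
    {n : G} (hn : n ∈ Subgroup.normalizer (i.range : Set G)) {l l' : Q →* ℂˣ}
    (hrel : ∀ x y : Q, i y = n * i x * n⁻¹ → l' y = l x) (h : Ovr i χ l') : Ovr i χ l := by
  have h1 : ∀ x : Q, ∃ y : Q, i y = n * i x * n⁻¹ := fun x =>
    (Subgroup.mem_normalizer_iff.mp hn (i x)).mp ⟨x, rfl⟩
  choose c hc using h1
  have hcinj : Function.Injective c := by
    intro x y hxy
    have h2 := hc x
    rw [hxy, hc y] at h2
    exact (hi (mul_left_cancel (mul_right_cancel h2))).symm
  have hcb : Function.Bijective c := Finite.injective_iff_bijective.mp hcinj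
  unfold Ovr at h ⊢
  have h3 : classInner (fun x => χ (i x)) (fun x => (l x : ℂ)) =
      classInner (fun x => χ (i x)) (fun x => (l' x : ℂ)) := by
    unfold classInner
    congr 1
    refine Fintype.sum_bijective c hcb _ _ fun x => ?_
    show χ (i x) * conj ((l x : ℂˣ) : ℂ) = χ (i (c x)) * conj ((l' (c x) : ℂˣ) : ℂ)
    rw [hc x, hχ, hrel x (c x) (hc x)]
  rw [h3]
  exact h

theorem ovr_real {i : Q →* G} {χ : G → ℂ} (hχ : ∀ g, conj (χ g) = χ g) {l : Q →* ℂˣ}
    (h : Ovr i χ l) : Ovr i χ l⁻¹ := by
  unfold Ovr at h ⊢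
  have h3 : classInner (fun x => χ (i x)) (fun x => ((l⁻¹ : Q →* ℂˣ) x : ℂ)) =
      conj (classInner (fun x => χ (i x)) (fun x => (l x : ℂ))) := by
    unfold classInner
    rw [map_mul, map_sum, map_inv₀, Complex.conj_natCast]
    congr 1
    refine Finset.sum_congr rfl fun y _ => ?_
    rw [map_mul, hχ, Complex.conj_conj]
    congr 1
    have h4 := hom_inv_eq_conj l y
    rw [map_inv] at h4
    show conj (((l y)⁻¹ : ℂˣ) : ℂ) = ((l y : ℂˣ) : ℂ)
    rw [h4, Complex.conj_conj]
  rw [h3]
  simpa using h

end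

/-- transfer of a bijective relation to cardinalities -/
theorem card_eq_of_rel {A B : Type*} (R : A → B → Prop) (h1 : ∀ a, ∃ b, R a b) (h2 : ∀ b, ∃ a, R a b)
    (h3 : ∀ a b b', R a b → R a b' → b = b') (h4 : ∀ a a' b, R a b → R a' b → a = a') :
    Nat.card A = Nat.card B := by
  choose f hf using h1
  refine Nat.card_eq_of_bijective f ⟨?_, ?_⟩
  · intro a a' haa
    exact h4 a a' (f a) (hf a) (haa ▸ hf a')
  · intro b
    obtain ⟨a, ha⟩ := h2 b
    exact ⟨a, h3 a _ _ (hf a) ha⟩

section
variable {G : Type u} [Group G] [Finite G]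

theorem oddIrr_true {χ : Cfsg.IrrCharacter G} (h1 : ∀ g : G, ((χ : G → ℂ) g).im = 0)
    (h2 : Odd (Cfsg.charDegree (χ : G → ℂ))) : OddIrr true (χ : G → ℂ) :=
  ⟨χ.2, ⟨_, h2, (H79.Deg.charDegree_coe (isCharacter_of_isIrr χ.2)).symm⟩,
    fun _ g => Complex.conj_eq_iff_im.mpr (h1 g)⟩

theorem oddIrr_false {χ : G → ℂ} (h : IsIrrCharacter G χ) (h2 : Odd (Cfsg.charDegree χ)) :
    OddIrr false χ :=
  ⟨h, ⟨_, h2, (H79.Deg.charDegree_coe (isCharacter_of_isIrr h)).symm⟩, fun h => absurd h (by simp)⟩

theorem of_oddIrr {b : Bool} {χ : G → ℂ} (h : OddIrr b χ) : Odd (Cfsg.charDegree χ) := by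
  obtain ⟨d, hd, hχd⟩ := h.odd
  rwa [H79.Deg.charDegree_of_natCast hχd]

end


/-- Let G be a finite solvable group, P a Sylow 2-subgroup and N its normalizer. Then G and N have the same number of real-valued irreducible characters of odd degree; and every odd-degree irreducible character of G is real-valued exactly when the derived subgroup of P equals the Frattini subgroup of P and P is its own normalizer in G. -/
theorem result {G : Type*} [Group G] [Finite G] [Group.IsSolvable G] (P : Sylow 2 G) :
    Nat.card {χ : Cfsg.IrrCharacter G // (∀ g : G, ((χ : G → ℂ) g).im = 0) ∧ Odd (Cfsg.charDegree (χ : G → ℂ))} =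
      Nat.card {ψ : Cfsg.IrrCharacter (Subgroup.normalizer ((P : Subgroup G) : Set G)) // (∀ g, ((ψ : Subgroup.normalizer ((P : Subgroup G) : Set G) → ℂ) g).im = 0) ∧ Odd (Cfsg.charDegree (ψ : Subgroup.normalizer ((P : Subgroup G) : Set G) → ℂ))} ∧
    ((∀ χ : Cfsg.IrrCharacter G, Odd (Cfsg.charDegree (χ : G → ℂ)) → ∀ g : G, ((χ : G → ℂ) g).im = 0) ↔
      (commutator (P : Subgroup G) = frattini (P : Subgroup G) ∧ Subgroup.normalizer ((P : Subgroup G) : Set G) = (P : Subgroup G))) := by
  classical
  haveI : Fact (Nat.Prime 2) := ⟨Nat.prime_two⟩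
  letI := Fintype.ofFinite G
  letI := Fintype.ofFinite (P : Subgroup G)
  have hsolvG : Group.IsSolvable G := inferInstance
  set N : Subgroup G := Subgroup.normalizer ((P : Subgroup G) : Set G) with hN
  have hPN : (P : Subgroup G) ≤ N := Subgroup.le_normalizer
  let i : (P : Subgroup G) →* G := (P : Subgroup G).subtype
  let iN : (P : Subgroup G) →* N := Subgroup.inclusion hPN
  have hi : Function.Injective i := Subtype.val_injective
  have hiN : Function.Injective iN := Subgroup.inclusion_injective hPN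
  have hir : i.range = P := Subgroup.range_subtype _
  have hiNr : iN.range = (P : Subgroup G).subgroupOf N := by
    ext t
    rw [MonoidHom.mem_range, Subgroup.mem_subgroupOf]
    constructor
    · rintro ⟨x, rfl⟩; exact x.2
    · intro ht; exact ⟨⟨t, ht⟩, Subtype.ext rfl⟩
  have hPi : ¬ 2 ∣ (P : Subgroup G).index := P.not_dvd_index
  have hPNi : ¬ 2 ∣ iN.range.index := by
    rw [hiNr]
    exact fun h => hPi (h.trans (Subgroup.relIndex_dvd_index_of_le hPN))
  have hidx : ¬ 2 ∣ i.range.index := by rw [hir]; exact hPi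
  have hgG := main true (P : Subgroup G) P.2 _ G rfl hsolvG i.range hidx (fun h => absurd h (by simp))
  have hgN := main true (P : Subgroup G) P.2 _ N rfl inferInstance iN.range hPNi (fun h => absurd h (by simp))
  refine ⟨?_, ?_⟩
  · -- counting
    refine card_eq_of_rel (fun χ ψ => ∃ l : (P : Subgroup G) →* ℂˣ, Adm true (fun x => (l x : ℂ)) ∧
      Ovr i ((χ.1 : Cfsg.IrrCharacter G) : G → ℂ) l ∧ Ovr iN ((ψ.1 : Cfsg.IrrCharacter N) : N → ℂ) l) ?_ ?_ ?_ ?_
    · intro χ
      obtain ⟨l, hl, hov⟩ := exists_l P.2 i (oddIrr_true χ.2.1 χ.2.2)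
      obtain ⟨ψ, hψ, hov'⟩ := exists_chi iN hiN hPNi l hl
      exact ⟨⟨⟨ψ, hψ.irr⟩, fun g => Complex.conj_eq_iff_im.mp (hψ.adm rfl g), of_oddIrr hψ⟩, l, hl, hov, hov'⟩
    · intro ψ
      obtain ⟨l, hl, hov⟩ := exists_l P.2 iN (oddIrr_true ψ.2.1 ψ.2.2)
      obtain ⟨χ, hχ, hov'⟩ := exists_chi i hi hidx l hl
      exact ⟨⟨⟨χ, hχ.irr⟩, fun g => Complex.conj_eq_iff_im.mp (hχ.adm rfl g), of_oddIrr hχ⟩, l, hl, hov', hov⟩
    · rintro χ ψ ψ' ⟨l, hl, h1, h2⟩ ⟨l', hl', h1', h2'⟩
      obtain ⟨n, hn, hrel⟩ := hgG.2 i i rfl rfl _ (oddIrr_true χ.2.1 χ.2.2) l l' hl hl' h1 h1'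
      have hnN : n ∈ N := by rw [hir] at hn; exact hn
      have h3 : Ovr iN ((ψ'.1 : Cfsg.IrrCharacter N) : N → ℂ) l := by
        refine ovr_conj hiN (isClassFunction_of_isIrr ψ'.1.2) (n := ⟨n, hnN⟩) ?_ (l' := l') ?_ h2'
        · rw [hiNr, Subgroup.mem_normalizer_iff]
          intro x
          rw [Subgroup.mem_subgroupOf, Subgroup.mem_subgroupOf]
          exact Subgroup.mem_normalizer_iff.mp hnN x
        · intro x y hxy
          exact hrel x y (congrArg Subtype.val hxy)
      have h4 := hgN.1 iN rfl _ _ (oddIrr_true ψ.2.1 ψ.2.2) (oddIrr_true ψ'.2.1 ψ'.2.2) l hl h2 h3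
      exact Subtype.ext (Subtype.ext h4)
    · rintro χ χ' ψ ⟨l, hl, h1, h2⟩ ⟨l', hl', h1', h2'⟩
      obtain ⟨n, hn, hrel⟩ := hgN.2 iN iN rfl rfl _ (oddIrr_true ψ.2.1 ψ.2.2) l l' hl hl' h2 h2'
      have h3 : Ovr i ((χ'.1 : Cfsg.IrrCharacter G) : G → ℂ) l := by
        refine ovr_conj hi (isClassFunction_of_isIrr χ'.1.2) (n := (n : G)) ?_ (l' := l') ?_ h1'
        · rw [hir]; exact n.2
        · intro x y hxy
          exact hrel x y (Subtype.ext hxy)
      have h4 := hgG.1 i rfl _ _ (oddIrr_true χ.2.1 χ.2.2) (oddIrr_true χ'.2.1 χ'.2.2) l hl h1 h3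
      exact Subtype.ext (Subtype.ext h4)
  · constructor
    · -- all odd degree characters real
      intro hall
      have hallr : ∀ χ : G → ℂ, OddIrr false χ → OddIrr true χ := fun χ hχ =>
        ⟨hχ.irr, hχ.odd, fun _ g => Complex.conj_eq_iff_im.mpr (hall ⟨χ, hχ.irr⟩ (of_oddIrr hχ) g)⟩
      have hNP : N = P := by
        by_contra hne
        have hlt : (P : Subgroup G) < N := lt_of_le_of_ne hPN (Ne.symm hne)
        obtain ⟨g, hgN', hgP⟩ := SetLike.exists_of_lt hlt
        haveI hnorm : ((P : Subgroup G).subgroupOf N).Normal := by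
          rw [hN]; infer_instance
        set R := (P : Subgroup G).subgroupOf N with hR
        have hg1 : (QuotientGroup.mk' R ⟨g, hgN'⟩) ≠ 1 := by
          intro h
          rw [QuotientGroup.mk'_apply, QuotientGroup.eq_one_iff, Subgroup.mem_subgroupOf] at h
          exact hgP h
        have hex : ∃ β : N ⧸ R → ℂ, IsIrrCharacter (N ⧸ R) β ∧ β (QuotientGroup.mk' R ⟨g, hgN'⟩) ≠ β 1 := by
          by_contra hcon
          push Not at hcon
          exact hg1 (eq_one_of_forall_irr hcon)
        obtain ⟨β₀, hβ₀, hβne⟩ := hex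
        letI := Fintype.ofFinite N
        let β : N → ℂ := fun t => β₀ (QuotientGroup.mk' R t)
        have hβ : IsIrrCharacter N β := isIrrCharacter_comp (QuotientGroup.mk' R) (QuotientGroup.mk'_surjective R) hβ₀
        have hβne1 : β ≠ fun _ => 1 := by
          intro h
          apply hβne
          have h1 := congrFun h ⟨g, hgN'⟩
          have h2 := congrFun h 1
          have h3 : β 1 = β₀ 1 := by show β₀ _ = _; rw [map_one]
          rw [h3] at h2
          rw [h2]; exact h1
        obtain ⟨e, he⟩ := exists_degree (isCharacter_of_isIrr hβ)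
        have he0 : β₀ 1 = e := by
          rw [← he]; show _ = β₀ _; rw [map_one]
        have hRi : ¬ 2 ∣ R.index := by rw [← hiNr]; exact hPNi
        have heodd : Odd e := by
          have h2 := H79.Deg.charDegree_dvd_card hβ₀
          rw [H79.Deg.charDegree_of_natCast he0] at h2
          rw [← Nat.not_even_iff_odd, even_iff_two_dvd]
          intro h
          exact hRi (h.trans h2)
        have hNi : ¬ 2 ∣ N.index := fun h => hPi (h.trans (Subgroup.index_dvd_of_le hPN))
        obtain ⟨χ, hχ, hne'⟩ := parity (b := false) (isCharacter_ind N (isCharacter_of_isIrr hβ))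
          (n := N.index * e) (by
            rw [Nat.odd_mul]
            exact ⟨Nat.odd_iff.mpr (by omega), heodd⟩)
          (by rw [indFun_one, he]; push_cast; ring) (fun h => absurd h (by simp))
        rw [H18.CharInd.frobenius _ _ (isClassFunction_of_isIrr hχ.irr), classInner_ne_zero_symm] at hne'
        have hov : Ovr i χ 1 := by
          have h1 := over_mono (isCharacter_restrict N (isCharacter_of_isIrr hχ.irr)) hβ hne' iN
            (ζ := fun _ => 1) isCharacter_one (by
              have h2 : (fun b => β (iN b)) = fun _ => (e : ℂ) * 1 := by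
                funext b
                show β₀ (QuotientGroup.mk' R (iN b)) = _
                have h3 : QuotientGroup.mk' R (iN b) = 1 := by
                  rw [QuotientGroup.mk'_apply, QuotientGroup.eq_one_iff]
                  exact b.2
                rw [h3, he0, mul_one]
              rw [h2]
              unfold classInner
              simp only [map_one, mul_one, Finset.sum_const, Finset.card_univ, nsmul_eq_mul]
              rw [Nat.card_eq_fintype_card]
              have h4 : (Fintype.card (P : Subgroup G) : ℂ) ≠ 0 := by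
                exact_mod_cast Fintype.card_ne_zero
              rw [inv_mul_cancel_left₀ h4]
              intro h5
              have : e = 0 := by exact_mod_cast h5
              rw [this] at heodd
              exact Nat.not_odd_zero heodd)
          exact h1
        have hone : OddIrr true (fun _ : G => (1 : ℂ)) :=
          ⟨isIrrCharacter_one, ⟨1, odd_one, by simp⟩, fun _ _ => by simp⟩
        have hov1 : Ovr i (fun _ : G => (1 : ℂ)) 1 := by
          have h5 : classInner (fun _ : (P : Subgroup G) => (1 : ℂ)) (fun _ => 1) ≠ 0 := by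
            rw [inner_irr_self isIrrCharacter_one]; exact one_ne_zero
          exact h5
        have h6 := hgG.1 i rfl _ _ (hallr χ hχ) hone 1 (fun _ _ => by simp) hov hov1
        apply hne'
        rw [h6]
        exact inner_irr_ne isIrrCharacter_one hβ (Ne.symm hβne1)
      refine ⟨?_, hNP⟩
      have hgF := main false (P : Subgroup G) P.2 _ G rfl hsolvG i.range hidx (fun _ => by
        rw [hir]; exact hNP.le)
      haveI : Group.IsNilpotent (P : Subgroup G) := P.2.isNilpotent
      apply le_antisymm H1.Frat.commutator_le_frattini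
      apply H1.Frat.frattini_le_of_elementary (p := 2) le_rfl
      intro x
      by_contra hx
      obtain ⟨l, hl⟩ := exists_hom_ne_one hx
      obtain ⟨χ, hχ, hov⟩ := exists_chi (b := false) i hi hidx l (fun h => absurd h (by simp))
      have hov' := ovr_real ((hallr χ hχ).adm rfl) hov
      obtain ⟨n, hn, hrel⟩ := hgF.2 i i rfl rfl χ hχ l l⁻¹ (fun h => absurd h (by simp))
        (fun h => absurd h (by simp)) hov hov'
      have hnP : n ∈ (P : Subgroup G) := by
        rw [hir] at hn
        rw [← hNP]; exact hn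
      have h7 := hrel x (⟨n, hnP⟩ * x * ⟨n, hnP⟩⁻¹) rfl
      rw [MonoidHom.inv_apply, map_mul, map_mul, map_inv, mul_comm (l ⟨n, hnP⟩), mul_inv_cancel_right] at h7
      apply hl
      rw [map_pow, pow_two]
      nth_rewrite 1 [← h7]
      exact inv_mul_cancel _
    · rintro ⟨hfr, hNP⟩ χ hodd g
      have hgF := main false (P : Subgroup G) P.2 _ G rfl hsolvG i.range hidx (fun _ => by
        rw [hir]; exact hNP.le)
      have hχ := oddIrr_false χ.2 hodd
      obtain ⟨l, _, hov⟩ := exists_l P.2 i hχ
      have hl2 : ∀ x, l x ^ 2 = 1 := by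
        intro x
        rw [← map_pow]
        have h1 : x ^ 2 ∈ commutator (P : Subgroup G) := by
          rw [hfr]; exact H1.Frat.pow_mem_frattini P.2 x
        have h2 := Abelianization.commutator_subset_ker l h1
        exact h2
      have hlr : ∀ x, conj (l x : ℂ) = (l x : ℂ) := by
        intro x
        have h1 := hom_inv_eq_conj l x
        rw [← h1, map_inv]
        congr 1
        rw [inv_eq_iff_mul_eq_one, ← pow_two, hl2]
      have hov' : Ovr i (fun g => conj ((χ : G → ℂ) g)) l := by
        unfold Ovr at hov ⊢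
        have h3 : classInner (fun x => conj ((χ : G → ℂ) (i x))) (fun x => (l x : ℂ)) =
            conj (classInner (fun x => (χ : G → ℂ) (i x)) (fun x => (l x : ℂ))) := by
          unfold classInner
          rw [map_mul, map_sum, map_inv₀, Complex.conj_natCast]
          congr 1
          refine Finset.sum_congr rfl fun y _ => ?_
          rw [map_mul, hlr, hlr]
        rw [h3]
        simpa using hov
      have hχ' : OddIrr false (fun g => conj ((χ : G → ℂ) g)) := by
        refine ⟨isIrrCharacter_conj χ.2, ?_, fun h => absurd h (by simp)⟩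
        obtain ⟨d, hd, hχd⟩ := hχ.odd
        exact ⟨d, hd, by rw [hχd]; simp⟩
      have h1 := hgF.1 i rfl _ _ hχ' hχ l (fun h => absurd h (by simp)) hov' hov
      exact Complex.conj_eq_iff_im.mp (congrFun h1 g)

end Cfsg.Agent.S4581
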