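import Cfsg.Statements.S4582
import Mathlib.GroupTheory.Transfer

set_option autoImplicit false
open Cfsg

namespace Cfsg.Agent.S4582

open Subgroup in
theorem key {H : Type*} [Group H] [Finite H] (N P : Subgroup H) [N.Normal] (hNP : N ⊔ P = ⊤)
    (hPG : IsPGroup 2 P) (hind : ¬ 2 ∣ P.index)
    (hP : ∀ x ∈ P, x ^ 2 ∈ (P ⊓ N) ⊔ ⁅P, P⁆)
    (hQ : ∀ x ∈ P ⊓ N, x ^ 2 ∈ ⁅P ⊓ N, P ⊓ N⁆)
    (hodd : Odd (Nat.card (Abelianization N))) :
    ∀ x ∈ P, x ^ 2 ∈ ⁅P, P⁆ := by
  classical
  let π : P →* Abelianization P := Abelianization.of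
  have hAp : IsPGroup 2 (Abelianization P) :=
    hPG.of_surjective π (QuotientGroup.mk'_surjective _)
  have hker : ∀ x : P, π x = 1 ↔ (x : H) ∈ ⁅P, P⁆ := by
    intro x
    have h1 : π x = 1 ↔ x ∈ _root_.commutator P := by
      rw [← Abelianization.ker_of]; exact Iff.rfl
    rw [h1, ← Subgroup.map_subtype_commutator]
    constructor
    · intro h; exact ⟨x, h, rfl⟩
    · rintro ⟨y, hy, hyx⟩
      have : y = x := Subtype.ext hyx
      rwa [← this]
  let s : P →* Abelianization P :=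
    { toFun := fun x => π x ^ 2
      map_one' := by simp
      map_mul' := fun a b => by rw [map_mul, mul_pow] }
  have hs : ∀ x, s x = π x ^ 2 := fun _ => rfl
  have hskill : ∀ x : P, (x : H) ∈ N → s x = 1 := by
    intro x hx
    rw [hs, ← map_pow, hker]
    have := hQ x ⟨x.2, hx⟩
    have h2 : ⁅P ⊓ N, P ⊓ N⁆ ≤ ⁅P, P⁆ := Subgroup.commutator_mono inf_le_left inf_le_left
    simpa using h2 this
  have hconj : ∀ (x : P) (g : H) (hg : g⁻¹ * (x : H) * g ∈ P), s ⟨g⁻¹ * (x : H) * g, hg⟩ = s x := by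
    intro x g hg
    have hgm : g ∈ N ⊔ P := by rw [hNP]; trivial
    rw [Subgroup.mem_sup_of_normal_left] at hgm
    obtain ⟨n, hn, q, hq, rfl⟩ := hgm
    have hy : n⁻¹ * (x : H) * n ∈ P := by
      have h1 := P.mul_mem (P.mul_mem hq hg) (P.inv_mem hq)
      have h2 : q * ((n * q)⁻¹ * (x : H) * (n * q)) * q⁻¹ = n⁻¹ * (x : H) * n := by group
      rwa [h2] at h1
    have h1 : (⟨(n * q)⁻¹ * (x : H) * (n * q), hg⟩ : P)
        = ⟨q, hq⟩⁻¹ * ⟨n⁻¹ * (x : H) * n, hy⟩ * ⟨q, hq⟩ := by
      apply Subtype.ext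
      simp only [Subgroup.coe_mul, Subgroup.coe_inv]
      group
    rw [h1, map_mul, map_mul, map_inv, mul_comm (s ⟨q, hq⟩)⁻¹, mul_assoc, inv_mul_cancel, mul_one]
    have h3 : (⟨n⁻¹ * (x : H) * n, hy⟩ : P) = x * (x⁻¹ * ⟨n⁻¹ * (x : H) * n, hy⟩) := by group
    rw [h3, map_mul]
    have h4 : s (x⁻¹ * ⟨n⁻¹ * (x : H) * n, hy⟩) = 1 := by
      apply hskill
      simp only [Subgroup.coe_mul, Subgroup.coe_inv]
      have h5 : (x : H)⁻¹ * (n⁻¹ * (x : H) * n) = ((x : H)⁻¹ * n⁻¹ * (x : H)⁻¹⁻¹) * n := by group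
      rw [h5]
      exact N.mul_mem (Subgroup.Normal.conj_mem inferInstance _ (N.inv_mem hn) _) hn
    rw [h4, mul_one]
  have htr : ∀ x : P, MonoidHom.transfer s (x : H) = s x ^ P.index := by
    intro x
    have : Fintype (Quotient (MulAction.orbitRel (zpowers (x : H)) (H ⧸ P))) :=
      Fintype.ofFinite _
    rw [index_eq_sum_minimalPeriod P (x : H), ← Finset.prod_pow_eq_pow_sum,
      MonoidHom.transfer_eq_prod_quotient_orbitRel_zpowers_quot]
    apply Finset.prod_congr rfl
    intro q _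
    have := hconj (x ^ Function.minimalPeriod ((x : H) • ·) q.out) q.out.out
      (QuotientGroup.out_conj_pow_minimalPeriod_mem P (x : H) q.out)
    rw [← map_pow]
    exact this
  have hsq : ∀ x : H, MonoidHom.transfer s x = MonoidHom.transfer π x ^ 2 := by
    intro x
    have : Fintype (Quotient (MulAction.orbitRel (zpowers (x : H)) (H ⧸ P))) :=
      Fintype.ofFinite _
    rw [MonoidHom.transfer_eq_prod_quotient_orbitRel_zpowers_quot,
      MonoidHom.transfer_eq_prod_quotient_orbitRel_zpowers_quot, ← Finset.prod_pow]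
    rfl
  set V := MonoidHom.transfer π with hV
  have hVN : ∀ n ∈ N, V n = 1 := by
    intro n hn
    let f : N →* Abelianization P := V.comp N.subtype
    have h1 : f ⟨n, hn⟩ = Abelianization.lift f (Abelianization.of ⟨n, hn⟩) := by
      rw [Abelianization.lift_apply_of]
    have h2 : orderOf (f ⟨n, hn⟩) ∣ Nat.card (Abelianization N) := by
      rw [h1]
      exact (orderOf_map_dvd _ _).trans (orderOf_dvd_natCard _)
    obtain ⟨k, hk⟩ := hAp (f ⟨n, hn⟩)
    have h3 : orderOf (f ⟨n, hn⟩) ∣ 2 ^ k := orderOf_dvd_of_pow_eq_one hk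
    have h4 : Nat.Coprime (Nat.card (Abelianization N)) (2 ^ k) :=
      Nat.Coprime.pow_right _ (Nat.coprime_two_right.mpr hodd)
    have h5 : orderOf (f ⟨n, hn⟩) = 1 := Nat.eq_one_of_dvd_coprimes h4 h2 h3
    exact orderOf_eq_one_iff.mp h5
  intro x hx
  have hx2 : V (x ^ 2) = 1 := by
    have h1 : (P ⊓ N) ⊔ ⁅P, P⁆ ≤ V.ker := by
      refine sup_le ?_ ?_
      · intro y hy
        exact hVN y hy.2
      · refine (Subgroup.commutator_mono le_top le_top).trans ?_
        exact Abelianization.commutator_subset_ker V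
    exact h1 (hP x hx)
  have h6 := htr ⟨x, hx⟩
  rw [hsq, ← map_pow, hx2] at h6
  obtain ⟨k, hk⟩ := hAp (s ⟨x, hx⟩)
  have h7 : orderOf (s ⟨x, hx⟩) ∣ 2 ^ k := orderOf_dvd_of_pow_eq_one hk
  have h8 : orderOf (s ⟨x, hx⟩) ∣ P.index := orderOf_dvd_of_pow_eq_one h6.symm
  have h9 : Nat.Coprime P.index (2 ^ k) :=
    Nat.Coprime.pow_right _ ((Nat.Prime.coprime_iff_not_dvd Nat.prime_two).mpr hind).symm
  have h10 := Nat.eq_one_of_dvd_coprimes h9 h8 h7
  have h11 := orderOf_eq_one_iff.mp h10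
  rw [hs, ← map_pow, hker] at h11
  simpa using h11


/-- Let N be a normal subgroup of the finite group G, P a Sylow 2-subgroup of G and Q = P ∩ N. Suppose that P/QP' and Q/Q' are elementary abelian (every square of an element of P lies in the subgroup generated by Q and the derived subgroup of P, and every square of an element of Q lies in the derived subgroup of Q), and that the commutator factor group N/N' has odd order. Then P/P' is elementary abelian. -/
theorem result {G : Type*} [Group G] [Finite G] (N : Subgroup G) [N.Normal] (P : Sylow 2 G)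
    (hP : ∀ x ∈ (P : Subgroup G), x ^ 2 ∈ ((P : Subgroup G) ⊓ N) ⊔ ⁅(P : Subgroup G), (P : Subgroup G)⁆)
    (hQ : ∀ x ∈ (P : Subgroup G) ⊓ N, x ^ 2 ∈ ⁅(P : Subgroup G) ⊓ N, (P : Subgroup G) ⊓ N⁆)
    (hodd : Odd (Nat.card (Abelianization N))) :
    ∀ x ∈ (P : Subgroup G), x ^ 2 ∈ ⁅(P : Subgroup G), (P : Subgroup G)⁆ := by
  classical
  set H : Subgroup G := N ⊔ (P : Subgroup G) with hH
  have hPH : (P : Subgroup G) ≤ H := le_sup_right
  have hNH : N ≤ H := le_sup_left
  haveI : (N.subgroupOf H).Normal := inferInstance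
  have hmapP : ((P : Subgroup G).subgroupOf H).map H.subtype = P := Subgroup.map_subgroupOf_eq_of_le hPH
  have hmapN : (N.subgroupOf H).map H.subtype = N := Subgroup.map_subgroupOf_eq_of_le hNH
  have hmapI : (((P : Subgroup G).subgroupOf H) ⊓ (N.subgroupOf H)).map H.subtype = (P : Subgroup G) ⊓ N := by
    have : ((P : Subgroup G).subgroupOf H) ⊓ (N.subgroupOf H) = ((P : Subgroup G) ⊓ N).subgroupOf H := rfl
    rw [this]
    exact Subgroup.map_subgroupOf_eq_of_le (inf_le_left.trans hPH)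
  have hinj : Function.Injective H.subtype := H.subtype_injective
  have hmem : ∀ (A : Subgroup H) (y : H), y ∈ A ↔ (y : G) ∈ A.map H.subtype := by
    intro A y
    constructor
    · intro h; exact ⟨y, h, rfl⟩
    · rintro ⟨z, hz, hzy⟩
      have : z = y := Subtype.ext hzy
      rwa [← this]
  intro x hx
  have hres := key (N.subgroupOf H) ((P : Subgroup G).subgroupOf H) ?_ ?_ ?_ ?_ ?_ ?_ ⟨x, hPH hx⟩ hx
  · rw [hmem, Subgroup.map_commutator, hmapP] at hres
    exact hres
  · apply Subgroup.map_injective hinj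
    rw [Subgroup.map_sup, hmapP, hmapN, ← MonoidHom.range_eq_map, Subgroup.range_subtype]
  · exact P.2.of_injective (Subgroup.subgroupOfEquivOfLe hPH).toMonoidHom (Subgroup.subgroupOfEquivOfLe hPH).injective
  · intro h2
    have h3 : ((P : Subgroup G).subgroupOf H).index ∣ (P : Subgroup G).index :=
      Subgroup.relIndex_dvd_index_of_le hPH
    exact P.not_dvd_index (h2.trans h3)
  · intro y hy
    rw [hmem, Subgroup.map_sup, Subgroup.map_commutator, hmapP, hmapI]
    exact hP y hy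
  · intro y hy
    rw [hmem, Subgroup.map_commutator, hmapI]
    exact hQ y hy
  · have e : (N.subgroupOf H) ≃* N := Subgroup.subgroupOfEquivOfLe hNH
    rwa [Nat.card_congr e.abelianizationCongr.toEquiv]

end Cfsg.Agent.S4582
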