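import Cfsg.Statements.S4583
import Cfsg.Agent.Lib.H79.BlkExt

set_option autoImplicit false
open Cfsg

namespace Cfsg.Agent.S4583

open H18.CharBasic H18.CharOrtho H18.CharQuot

/-- Let N be a normal subgroup of the finite group G, p a prime, M a maximal ideal of the algebraic integers containing p, and P a Sylow p-subgroup of G. Let θ be an irreducible character of N of degree prime to p lying in the principal p-block of N, and suppose θ extends to the subgroup NP (some irreducible character of NP restricts to θ). Then some irreducible character χ of G of degree prime to p in the principal p-block of G lies over θ (θ is a constituent of the restriction of χ to N). -/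
theorem result {G : Type*} [Group G] [Finite G] (N : Subgroup G) [N.Normal] (p : ℕ) [Fact p.Prime] (M : Ideal Cfsg.AlgInt) (hM : Cfsg.IsPModular p M) (P : Sylow p G)
    (θ : Cfsg.IrrCharacter N) (hθ : θ ∈ Cfsg.principalBlock M N) (hdeg : ¬ p ∣ Cfsg.charDegree (θ : N → ℂ))
    (hext : ∃ η : Cfsg.IrrCharacter ↥(N ⊔ (P : Subgroup G)), ∀ n : N, (η : ↥(N ⊔ (P : Subgroup G)) → ℂ) (Subgroup.inclusion le_sup_left n) = (θ : N → ℂ) n) :
    ∃ χ : Cfsg.IrrCharacter G, χ ∈ Cfsg.principalBlock M G ∧ ¬ p ∣ Cfsg.charDegree (χ : G → ℂ) ∧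
      haveI := Fintype.ofFinite N; Cfsg.classInner (fun n : N => (χ : G → ℂ) n) (θ : N → ℂ) ≠ 0 := by
  classical
  letI iN : Fintype N := Fintype.ofFinite N
  set H : Subgroup G := N ⊔ (P : Subgroup G) with hH
  letI iH : Fintype H := Fintype.ofFinite H
  obtain ⟨η, hη⟩ := hext
  have hNH : N ≤ H := le_sup_left
  have hPN : (P : Subgroup G) ≤ Subgroup.normalizer (N : Set G) := by
    rw [Subgroup.normalizer_eq_top]
    exact le_top
  have hreg : ∀ h ∈ H, ¬ p ∣ orderOf h → h ∈ N := by
    intro h hh hp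
    obtain ⟨n, hn, q, hq, rfl⟩ := Subgroup.mem_sup_of_normal_left.1 hh
    rw [← QuotientGroup.eq_one_iff]
    apply H20.PC.eq_one_of_regular (H20.PC.regular_mk N hp)
    have h1 : ((n * q : G) : G ⧸ N) = (q : G ⧸ N) := by
      rw [QuotientGroup.mk_mul, (QuotientGroup.eq_one_iff n).2 hn, one_mul]
    rw [h1]
    obtain ⟨k, hk⟩ := (IsPGroup.iff_orderOf.1 P.2) ⟨q, hq⟩
    rw [← Subgroup.orderOf_coe] at hk
    have h2 : orderOf (q : G ⧸ N) ∣ p ^ k := by
      rw [← hk]; exact orderOf_map_dvd (QuotientGroup.mk' N) q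
    obtain ⟨j, _, hj⟩ := (Nat.dvd_prime_pow Fact.out).1 h2
    exact ⟨j, hj⟩
  obtain ⟨χ, h1, h2, h3⟩ := H79.BlkExt.exists_over hM P H N le_sup_right hPN hNH hreg η.2 θ hθ
    (fun n => hη n) hdeg
  refine ⟨χ, h1, h2, ?_⟩
  have h4 := isCharacter_sub_constituent (isCharacter_restrict H (isCharacter_of_isIrr χ.2)) η.2 h3
  have h5 : IsCharacter N (fun n : N => ((fun h : H => (χ : G → ℂ) h) - (η : H → ℂ)) (Subgroup.inclusion hNH n)) :=
    isCharacter_comp (Subgroup.inclusion hNH) h4
  obtain ⟨m, hm⟩ := inner_char_natCast h5 (isCharacter_of_isIrr θ.2)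
  have h6 : (fun n : N => (χ : G → ℂ) n) = (θ : N → ℂ) +
      (fun n : N => ((fun h : H => (χ : G → ℂ) h) - (η : H → ℂ)) (Subgroup.inclusion hNH n)) := by
    funext n
    simp only [Pi.add_apply, Pi.sub_apply, hη]
    simp
  rw [h6, H18.CharOrtho.inner_add_left, hm, inner_irr_self θ.2]
  intro h7
  have : ((1 + m : ℕ) : ℂ) = 0 := by push_cast; exact h7
  have h8 : 1 + m = 0 := by exact_mod_cast this
  omega

end Cfsg.Agent.S4583
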