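import Cfsg.Statements.S4585
import Cfsg.Agent.Lib.H79.PSmall

set_option autoImplicit false
open Cfsg

namespace Cfsg.Agent.S4585


/-- Let p be a prime and P a group of order p^4. Then P' has index p^2 in P if and only if P has maximal nilpotency class, that is, nilpotency class exactly 3. -/
theorem result {P : Type*} [Group P] [Finite P] (p : ℕ) [Fact p.Prime] (hP : Nat.card P = p ^ 4) :
    (commutator P).index = p ^ 2 ↔ Group.nilpotencyClass P = 3 := by
  have hp' : p.Prime := Fact.out
  have hPG : IsPGroup p P := IsPGroup.of_card hP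
  have hnil := hPG.isNilpotent
  have hmul : Nat.card (commutator P) * (commutator P).index = p ^ 4 := by
    rw [Subgroup.card_mul_index, hP]
  have h2eq : Subgroup.lowerCentralSeries (⊤ : Subgroup P) 2 = ⁅commutator P, (⊤ : Subgroup P)⁆ := rfl
  have h3eq : Subgroup.lowerCentralSeries (⊤ : Subgroup P) 3 =
    ⁅⁅commutator P, (⊤ : Subgroup P)⁆, (⊤ : Subgroup P)⁆ := rfl
  have key2 : ⁅commutator P, (⊤ : Subgroup P)⁆ = ⊥ ↔ Group.nilpotencyClass P ≤ 2 := by
    rw [← h2eq]; exact Subgroup.lowerCentralSeries_eq_bot_iff_nilpotencyClass_le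
  have key3 : ⁅⁅commutator P, (⊤ : Subgroup P)⁆, (⊤ : Subgroup P)⁆ = ⊥ ↔
      Group.nilpotencyClass P ≤ 3 := by
    rw [← h3eq]; exact Subgroup.lowerCentralSeries_eq_bot_iff_nilpotencyClass_le
  clear h2eq h3eq
  constructor
  · intro h
    have hc : Nat.card (commutator P) = p ^ 2 := by
      rw [h] at hmul
      have : 0 < p ^ 2 := pow_pos hp'.pos 2
      apply Nat.eq_of_mul_eq_mul_right this
      rw [hmul]; ring
    have hne : commutator P ≠ ⊥ := by
      intro h0
      rw [h0, Subgroup.card_bot] at hc
      have := hp'.one_lt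
      nlinarith
    have h3ne : ⁅commutator P, (⊤ : Subgroup P)⁆ ≠ ⊥ := by
      intro h0
      have hZ : commutator P ≤ Subgroup.center P := H3.ClassTwo.commutator_le_center_of_class_two h0
      have h1 : (Subgroup.center P).index ∣ p ^ 2 := h ▸ Subgroup.index_dvd_of_le hZ
      obtain ⟨k, hk, hk'⟩ := (Nat.dvd_prime_pow hp').1 h1
      interval_cases k
      · rw [pow_zero, Subgroup.index_eq_one] at hk'
        apply hne
        rw [eq_bot_iff]
        apply H79.PSmall.commutator_le_of_forall
        intro a b
        rw [Subgroup.mem_bot, commutatorElement_eq_one_iff_mul_comm]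
        exact Subgroup.mem_center_iff.1 (hk' ▸ Subgroup.mem_top b) a
      · exact H79.PSmall.index_center_ne_prime (P := P) hp' (by simpa using hk')
      · have := H79.PSmall.card_commutator_of_index_center hk'
        rw [hc] at this
        have := hp'.one_lt
        nlinarith
    have h4 : ⁅⁅commutator P, (⊤ : Subgroup P)⁆, (⊤ : Subgroup P)⁆ = ⊥ := by
      have h5 := H3.PBasic.commutator_top_lt (commutator P) hne
      have h6 := H3.PBasic.commutator_top_lt ⁅commutator P, (⊤ : Subgroup P)⁆ h3ne
      have c5 : Nat.card (⁅commutator P, (⊤ : Subgroup P)⁆ : Subgroup P) ∣ p ^ 2 := hc ▸ Subgroup.card_dvd_of_le h5.le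
      obtain ⟨k, hk, hk'⟩ := (Nat.dvd_prime_pow hp').1 c5
      interval_cases k
      · exact absurd (Subgroup.eq_bot_of_card_eq _ (by simpa using hk')) h3ne
      · have c6 := Subgroup.card_dvd_of_le h6.le
        rw [hk', pow_one] at c6
        rcases (Nat.dvd_prime hp').1 c6 with c7 | c7
        · exact Subgroup.eq_bot_of_card_eq _ c7
        · exact absurd (Subgroup.eq_of_le_of_card_ge h6.le (by rw [c7, hk', pow_one])) h6.ne
      · exact absurd (Subgroup.eq_of_le_of_card_ge h5.le (by rw [hc, hk'])) h5.ne
    apply le_antisymm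
    · exact key3.1 h4
    · by_contra hcon
      have : Group.nilpotencyClass P ≤ 2 := by omega
      exact h3ne (key2.2 this)
  · intro h
    have h3ne : ⁅commutator P, (⊤ : Subgroup P)⁆ ≠ ⊥ := by
      intro h0
      have : Group.nilpotencyClass P ≤ 2 := key2.1 h0
      omega
    have hne : commutator P ≠ ⊥ := by
      intro h0
      apply h3ne
      rw [h0, Subgroup.commutator_bot_left]
    have h5 := H3.PBasic.commutator_top_lt (commutator P) hne
    have hdvd : (commutator P).index ∣ p ^ 4 := hP ▸ Subgroup.index_dvd_card _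
    obtain ⟨k, hk, hk'⟩ := (Nat.dvd_prime_pow hp').1 hdvd
    interval_cases k
    · exfalso
      rw [pow_zero, Subgroup.index_eq_one] at hk'
      rw [hk'] at h5
      have h7 := H3.PBasic.commutator_top_lt (⊤ : Subgroup P) (by rw [← hk']; exact hne)
      exact h7.ne hk'
    · exfalso
      have h8 : commutator P ≤ ⁅commutator P, (⊤ : Subgroup P)⁆ := by
        apply H79.PSmall.commutator_le_of_index_prime hp' (M := commutator P) (by simpa using hk')
        intro m hm a
        rw [← commutatorElement_inv]
        exact inv_mem (Subgroup.commutator_mem_commutator hm (Subgroup.mem_top a))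
      exact h5.ne (le_antisymm h5.le h8)
    · exact hk'
    · exfalso
      rw [hk'] at hmul
      have hc : Nat.card (commutator P) = p := by
        have : 0 < p ^ 3 := pow_pos hp'.pos 3
        apply Nat.eq_of_mul_eq_mul_right this
        rw [hmul]; ring
      have c5 := Subgroup.card_dvd_of_le h5.le
      rw [hc] at c5
      rcases (Nat.dvd_prime hp').1 c5 with c7 | c7
      · exact h3ne (Subgroup.eq_bot_of_card_eq _ c7)
      · exact h5.ne (Subgroup.eq_of_le_of_card_ge h5.le (by rw [c7, hc]))
    · exfalso
      rw [hk'] at hmul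
      have hc : Nat.card (commutator P) = 1 := by
        have : 0 < p ^ 4 := pow_pos hp'.pos 4
        apply Nat.eq_of_mul_eq_mul_right this
        rw [hmul]; ring
      exact hne (Subgroup.eq_bot_of_card_eq _ hc)

end Cfsg.Agent.S4585
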