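import Cfsg.Statements.S4586
import Cfsg.Agent.Lib.H79.PSmall

set_option autoImplicit false
open Cfsg

namespace Cfsg.Agent.S4586

open scoped commutatorElement in
theorem main {P : Type*} [Group P] [Finite P] (p : ℕ) [Fact p.Prime] (N : Subgroup P) [N.Normal]
    (hN : N.index = p) (x : P) (hx : x ∉ N) :
    (commutator P).index * Nat.card (commutator N) = p *
        Nat.card {n : N // x * n * x⁻¹ * (n : P)⁻¹ ∈ (commutator N).map N.subtype} := by
  classical
  have hp' : p.Prime := Fact.out
  let of : N →* Abelianization N := Abelianization.of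
  let cj : N →* N := (MulAut.conjNormal x : MulAut N).toMonoidHom
  let f : N →* Abelianization N := (of.comp cj) / of
  have hf : ∀ n, f n = of (cj n * n⁻¹) := by
    intro n
    rw [map_mul, map_inv, ← div_eq_mul_inv]
    rfl
  have hofker : of.ker = commutator N := Abelianization.ker_of N
  have hcj : ∀ n : N, ((cj n : N) : P) = x * n * x⁻¹ := fun n => MulAut.conjNormal_apply x n
  have hkercard : Nat.card {n : N // x * n * x⁻¹ * (n : P)⁻¹ ∈ (commutator N).map N.subtype} =
      Nat.card f.ker := by
    apply Nat.card_congr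
    apply Equiv.subtypeEquivRight
    intro n
    rw [MonoidHom.mem_ker, hf, ← MonoidHom.mem_ker, hofker]
    constructor
    · rintro ⟨c, hc, hc'⟩
      have : c = cj n * n⁻¹ := by
        apply Subtype.ext
        rw [Subgroup.coe_mul, hcj]
        exact hc'
      rw [← this]; exact hc
    · intro h
      refine ⟨_, h, ?_⟩
      change ((cj n * n⁻¹ : N) : P) = _
      rw [Subgroup.coe_mul, hcj]
      rfl
  -- the subgroup R
  let R0 : Subgroup N := f.range.comap of
  let R : Subgroup P := R0.map N.subtype
  have hRmem : ∀ g : P, g ∈ R ↔ ∃ hg : g ∈ N, ∃ n : N, f n = of ⟨g, hg⟩ := by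
    intro g
    constructor
    · rintro ⟨r, hr, rfl⟩
      obtain ⟨n, hn⟩ := hr
      exact ⟨r.2, n, hn⟩
    · rintro ⟨hg, n, hn⟩
      exact ⟨⟨g, hg⟩, ⟨n, hn⟩, rfl⟩
  have hofconj : ∀ (a b : N), of (a * b * a⁻¹) = of b := by
    intro a b
    rw [map_mul, map_mul, map_inv, mul_comm (of a), mul_inv_cancel_right]
  have hcommN : ∀ (a b : N), ((⁅a, b⁆ : N) : P) ∈ R := by
    intro a b
    refine (hRmem _).2 ⟨(⁅a, b⁆ : N).2, 1, ?_⟩
    rw [map_one]
    symm
    rw [← MonoidHom.mem_ker, hofker, commutator_eq_closure]
    exact Subgroup.subset_closure ⟨a, b, rfl⟩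
  have hxR : ∀ n : N, ⁅x, (n : P)⁆ ∈ R := by
    intro n
    refine (hRmem _).2 ⟨?_, n, ?_⟩
    · rw [commutatorElement_def]
      have : x * n * x⁻¹ * (n : P)⁻¹ = ((cj n * n⁻¹ : N) : P) := by
        rw [Subgroup.coe_mul, hcj]; rfl
      rw [this]; exact (cj n * n⁻¹).2
    · rw [hf]
      congr 1
  -- R is normal
  have hnormx : x ∈ Subgroup.normalizer (R : Set P) := by
    apply Subgroup.mem_normalizer_fintype
    intro g hg
    obtain ⟨hgN, n, hn⟩ := (hRmem g).1 hg
    refine (hRmem _).2 ⟨?_, cj n, ?_⟩
    · exact (inferInstance : N.Normal).conj_mem g hgN x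
    · have h1 : (⟨x * g * x⁻¹, (inferInstance : N.Normal).conj_mem g hgN x⟩ : N) = cj ⟨g, hgN⟩ := by
        apply Subtype.ext; rw [hcj]
      rw [h1]
      -- `of ∘ cj` factors through `of`
      have h2 : ∀ a b : N, of a = of b → of (cj a) = of (cj b) := by
        intro a b hab
        rw [← mul_inv_eq_one, ← map_inv, ← map_mul, ← MonoidHom.mem_ker, hofker] at hab ⊢
        have h3 : cj a * (cj b)⁻¹ = cj (a * b⁻¹) := by rw [map_mul, map_inv]
        rw [h3]
        have h4 : (commutator N).map cj = commutator N := by
          have := (inferInstance : (commutator N).Characteristic)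
          exact Subgroup.characteristic_iff_map_eq.1 this (MulAut.conjNormal x : MulAut N)
        rw [← h4]
        exact ⟨_, hab, rfl⟩
      have h5 : f n = of (cj n * n⁻¹) := hf n
      rw [hn] at h5
      rw [h2 _ _ h5, hf, map_mul, map_inv, map_mul, map_inv, map_mul, map_inv]
  have hnormN : N ≤ Subgroup.normalizer (R : Set P) := by
    intro a ha
    apply Subgroup.mem_normalizer_fintype
    intro g hg
    obtain ⟨hgN, n, hn⟩ := (hRmem g).1 hg
    refine (hRmem _).2 ⟨(inferInstance : N.Normal).conj_mem g hgN a, n, ?_⟩
    rw [hn]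
    exact (hofconj ⟨a, ha⟩ ⟨g, hgN⟩).symm
  have htop : ∀ K : Subgroup P, N ≤ K → x ∈ K → K = ⊤ := by
    intro K hK hxK
    have h1 : K.index ∣ p := hN ▸ Subgroup.index_dvd_of_le hK
    rcases (Nat.dvd_prime hp').1 h1 with h2 | h2
    · exact Subgroup.index_eq_one.1 h2
    · exfalso
      have h3 := Subgroup.relIndex_mul_index hK
      rw [hN, h2] at h3
      have h4 : N.relIndex K = 1 := Nat.eq_of_mul_eq_mul_right hp'.pos (by rw [h3, one_mul])
      rw [Subgroup.relIndex_eq_one] at h4
      exact hx (h4 hxK)
  have hRn : R.Normal := by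
    rw [← Subgroup.normalizer_eq_top_iff]
    exact htop _ hnormN hnormx
  have hRcomm : commutator P = R := by
    apply le_antisymm
    · apply H79.PSmall.commutator_le_of_cent_eq_top
      apply htop
      · intro n hn
        rw [H79.PSmall.mem_cent]
        -- the centralizer of n modulo R
        have : (Subgroup.centralizer ({(n : P ⧸ R)} : Set (P ⧸ R))).comap (QuotientGroup.mk' R) = ⊤ := by
          apply htop
          · intro a ha
            rw [Subgroup.mem_comap, Subgroup.mem_centralizer_singleton_iff]
            have h1 := hcommN ⟨a, ha⟩ ⟨n, hn⟩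
            rw [← QuotientGroup.eq_one_iff] at h1
            change ⁅(a : P ⧸ R), (n : P ⧸ R)⁆ = 1 at h1
            rw [commutatorElement_eq_one_iff_mul_comm] at h1
            exact h1
          · rw [Subgroup.mem_comap, Subgroup.mem_centralizer_singleton_iff]
            have h1 := hxR ⟨n, hn⟩
            rw [← QuotientGroup.eq_one_iff] at h1
            change ⁅(x : P ⧸ R), (n : P ⧸ R)⁆ = 1 at h1
            rw [commutatorElement_eq_one_iff_mul_comm] at h1
            exact h1
        intro a
        have h1 : a ∈ (Subgroup.centralizer ({(n : P ⧸ R)} : Set (P ⧸ R))).comap (QuotientGroup.mk' R) :=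
          this ▸ Subgroup.mem_top a
        rw [Subgroup.mem_comap, Subgroup.mem_centralizer_singleton_iff] at h1
        rw [← QuotientGroup.eq_one_iff]
        change ⁅(a : P ⧸ R), (n : P ⧸ R)⁆ = 1
        rw [commutatorElement_eq_one_iff_mul_comm]
        exact h1
      · rw [H79.PSmall.mem_cent]
        have : (Subgroup.centralizer ({(x : P ⧸ R)} : Set (P ⧸ R))).comap (QuotientGroup.mk' R) = ⊤ := by
          apply htop
          · intro a ha
            rw [Subgroup.mem_comap, Subgroup.mem_centralizer_singleton_iff]
            have h1 := hxR ⟨a, ha⟩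
            rw [← QuotientGroup.eq_one_iff] at h1
            change ⁅(x : P ⧸ R), (a : P ⧸ R)⁆ = 1 at h1
            rw [commutatorElement_eq_one_iff_mul_comm] at h1
            exact h1.symm
          · rw [Subgroup.mem_comap, Subgroup.mem_centralizer_singleton_iff]
            rfl
        intro a
        have h1 : a ∈ (Subgroup.centralizer ({(x : P ⧸ R)} : Set (P ⧸ R))).comap (QuotientGroup.mk' R) :=
          this ▸ Subgroup.mem_top a
        rw [Subgroup.mem_comap, Subgroup.mem_centralizer_singleton_iff] at h1
        rw [← QuotientGroup.eq_one_iff]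
        change ⁅(a : P ⧸ R), (x : P ⧸ R)⁆ = 1
        rw [commutatorElement_eq_one_iff_mul_comm]
        exact h1
    · intro r hr
      obtain ⟨hrN, n, hn⟩ := (hRmem r).1 hr
      rw [hf] at hn
      have h1 : (cj n * n⁻¹)⁻¹ * ⟨r, hrN⟩ ∈ commutator N := by
        rw [← hofker, MonoidHom.mem_ker, map_mul, map_inv, hn, inv_mul_cancel]
      have h2 : (commutator N).map N.subtype ≤ commutator P := by
        rw [commutator_def, commutator_def, Subgroup.map_commutator]
        exact Subgroup.commutator_mono le_top le_top
      have h3 := h2 ⟨_, h1, rfl⟩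
      have h4 : ((cj n * n⁻¹ : N) : P) ∈ commutator P := by
        rw [Subgroup.coe_mul, hcj, commutator_eq_closure]
        exact Subgroup.subset_closure ⟨x, n, rfl⟩
      have h5 := mul_mem h4 h3
      have h6 : ((cj n * n⁻¹ : N) : P) * N.subtype ((cj n * n⁻¹)⁻¹ * ⟨r, hrN⟩) = r := by
        rw [map_mul, map_inv]
        exact mul_inv_cancel_left _ _
      rw [h6] at h5
      exact h5
  -- cardinalities
  have hRcard : Nat.card R = Nat.card (commutator N) * Nat.card f.range := by
    have h1 : Nat.card R = Nat.card R0 := (Subgroup.card_map_of_injective N.subtype_injective)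
    rw [h1, H3.PBasic.card_comap_of_surjective of (QuotientGroup.mk'_surjective _), hofker]
  have h1 : Nat.card f.ker * Nat.card f.range = Nat.card N := by
    rw [← Subgroup.index_ker, Subgroup.card_mul_index]
  have h2 : Nat.card N * p = Nat.card P := by rw [← hN, Subgroup.card_mul_index]
  have h3 : Nat.card (commutator P) * (commutator P).index = Nat.card P :=
    Subgroup.card_mul_index _
  have hr : 0 < Nat.card f.range := Nat.card_pos
  rw [hkercard]
  rw [hRcomm, hRcard, ← hRcomm] at h3
  apply Nat.eq_of_mul_eq_mul_right hr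
  calc (commutator P).index * Nat.card (commutator N) * Nat.card f.range
      = Nat.card (commutator N) * Nat.card f.range * (commutator P).index := by ring
    _ = Nat.card P := h3
    _ = p * Nat.card f.ker * Nat.card f.range := by rw [← h2, ← h1]; ring


/-- Let p be a prime, P a finite p-group and N a normal subgroup of P of index p. For x ∈ P write c(x) for the number of elements n of N whose commutator x n x⁻¹ n⁻¹ lies in the derived subgroup N' (so c(x)/#N' is the order of the centralizer of x acting on N/N'). Then [P : P'] = p² if and only if c(x) = p·#N' for every x ∈ P outside N, and also if and only if c(x) = p·#N' for some x ∈ P outside N. -/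
theorem result {P : Type*} [Group P] [Finite P] (p : ℕ) [Fact p.Prime] (hP : IsPGroup p P) (N : Subgroup P) [N.Normal] (hN : N.index = p) :
    ((commutator P).index = p ^ 2 ↔ ∀ x : P, x ∉ N →
        Nat.card {n : N // x * n * x⁻¹ * (n : P)⁻¹ ∈ (commutator N).map N.subtype} = p * Nat.card (commutator N)) ∧
    ((commutator P).index = p ^ 2 ↔ ∃ x : P, x ∉ N ∧
        Nat.card {n : N // x * n * x⁻¹ * (n : P)⁻¹ ∈ (commutator N).map N.subtype} = p * Nat.card (commutator N)) := by
  have hp' : p.Prime := Fact.out
  have hcpos : 0 < Nat.card (commutator N) := Nat.card_pos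
  have key : ∀ x : P, x ∉ N → ((commutator P).index = p ^ 2 ↔
      Nat.card {n : N // x * n * x⁻¹ * (n : P)⁻¹ ∈ (commutator N).map N.subtype} =
        p * Nat.card (commutator N)) := by
    intro x hx
    have h := main p N hN x hx
    constructor
    · intro h1
      rw [h1] at h
      apply Nat.eq_of_mul_eq_mul_left hp'.pos
      rw [← h]; ring
    · intro h1
      rw [h1] at h
      apply Nat.eq_of_mul_eq_mul_right hcpos
      rw [h]; ring
  obtain ⟨x, hx⟩ : ∃ x : P, x ∉ N := by
    by_contra hcon
    push Not at hcon
    have : N = ⊤ := by rw [eq_top_iff]; intro y _; exact hcon y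
    rw [this, Subgroup.index_top] at hN
    exact hp'.one_lt.ne hN
  constructor
  · constructor
    · intro h y hy; exact (key y hy).1 h
    · intro h; exact (key x hx).2 (h x hx)
  · constructor
    · intro h; exact ⟨x, hx, (key x hx).1 h⟩
    · rintro ⟨y, hy, hy'⟩; exact (key y hy).2 hy'

end Cfsg.Agent.S4586
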