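import Cfsg.Statements.S4587
import Cfsg.Agent.Lib.H79.MaxAb2

set_option autoImplicit false
open Cfsg

namespace Cfsg.Agent.S4587

open Subgroup H79.MaxAb H79.MaxAb2
open scoped commutatorElement

/-- the index of the derived subgroup is at most the order of every centralizer -/
theorem index_commutator_le {P : Type*} [Group P] [Finite P] (x : P) :
    (commutator P).index ≤ Nat.card (centralizer ({x} : Set P)) := by
  set C := centralizer ({x} : Set P) with hC
  have h1 : C.index ≤ Nat.card (commutator P) := by
    let f : P ⧸ C → commutator P := Quotient.lift (fun y : P => (⟨⁅y, x⁆,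
      Subgroup.commutator_mem_commutator (mem_top _) (mem_top _)⟩ : commutator P)) (by
        intro a b hab
        have h2 : a⁻¹ * b ∈ C := QuotientGroup.leftRel_apply.1 hab
        have h3 := mem_centralizer_singleton_iff.1 h2
        apply Subtype.ext
        show ⁅a, x⁆ = ⁅b, x⁆
        rw [commutatorElement_def, commutatorElement_def]
        have h4 : b * x * b⁻¹ = a * x * a⁻¹ := by
          calc b * x * b⁻¹ = a * ((a⁻¹ * b) * x) * b⁻¹ := by group
            _ = a * (x * (a⁻¹ * b)) * b⁻¹ := by rw [h3]
            _ = _ := by group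
        rw [h4])
    apply Nat.card_le_card_of_injective f
    intro a b hab
    obtain ⟨a, rfl⟩ := QuotientGroup.mk_surjective a
    obtain ⟨b, rfl⟩ := QuotientGroup.mk_surjective b
    have h2 : ⁅a, x⁆ = ⁅b, x⁆ := congrArg Subtype.val hab
    rw [commutatorElement_def, commutatorElement_def] at h2
    have h3 : a * x * a⁻¹ = b * x * b⁻¹ := mul_right_cancel h2
    rw [QuotientGroup.eq, hC, mem_centralizer_singleton_iff]
    calc a⁻¹ * b * x = a⁻¹ * (b * x * b⁻¹) * b := by group
      _ = a⁻¹ * (a * x * a⁻¹) * b := by rw [h3]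
      _ = _ := by group
  have h2 := C.card_mul_index
  have h3 := (commutator P).card_mul_index
  have h4 : 0 < Nat.card (commutator P) := Nat.card_pos
  by_contra hlt
  push Not at hlt
  have h5 : Nat.card C * C.index < (commutator P).index * Nat.card (commutator P) :=
    lt_of_le_of_lt (Nat.mul_le_mul_left _ h1) (Nat.mul_lt_mul_of_pos_right hlt h4)
  rw [h2, mul_comm, h3] at h5
  exact lt_irrefl _ h5

theorem backward {G : Type*} [Group G] [Finite G] (p : ℕ) [hp : Fact p.Prime] (P : Sylow p G)
    (hbig : p ^ 2 ∣ Nat.card G) {x : G} (hxo : ∃ k : ℕ, orderOf x = p ^ k)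
    (hx : (Nat.card (centralizer ({x} : Set G))).factorization p = 2) :
    (commutator P).index = p ^ 2 := by
  have hPc : Nat.card P = p ^ (Nat.card G).factorization p := P.card_eq_multiplicity
  have hf : 2 ≤ (Nat.card G).factorization p :=
    (hp.out.pow_dvd_iff_le_factorization Nat.card_pos.ne').1 hbig
  -- lower bound
  obtain ⟨k, hk⟩ : ∃ k, (commutator P).index = p ^ k := by
    have h1 : (commutator P).index ∣ p ^ (Nat.card G).factorization p := by
      rw [← hPc]; exact index_dvd_card _
    obtain ⟨k, _, hk⟩ := (Nat.dvd_prime_pow hp.out).1 h1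
    exact ⟨k, hk⟩
  have hk2 : 2 ≤ k := by
    by_contra hlt
    have h1 : (commutator P).index ∣ p := by
      rw [hk]
      exact (pow_dvd_pow p (by omega : k ≤ 1)).trans (by rw [pow_one])
    have h2 := commutator_eq_bot_of_index_dvd P.2 h1
    rw [h2, index_bot, hPc] at h1
    have h3 := Nat.le_of_dvd hp.out.pos h1
    have h4 : p ^ 1 < p ^ (Nat.card G).factorization p :=
      Nat.pow_lt_pow_right hp.out.one_lt (by omega)
    rw [pow_one] at h4
    omega
  -- upper bound
  set C := centralizer ({x} : Set G) with hC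
  have hxC : x ∈ C := mem_centralizer_singleton_iff.2 rfl
  obtain ⟨Q⟩ : Nonempty (Sylow p C) := inferInstance
  have hxQ : (⟨x, hxC⟩ : C) ∈ (Q : Subgroup C) := by
    apply pelt_mem
    · obtain ⟨k, hk⟩ := hxo
      exact ⟨k, by rw [Subgroup.orderOf_mk, hk]⟩
    · rw [mem_centralizer_iff]
      intro y _
      exact Subtype.ext (mem_centralizer_singleton_iff.1 y.2)
  have hQ' : IsPGroup p ((Q : Subgroup C).map C.subtype) := Q.2.map _
  obtain ⟨S, hS⟩ := hQ'.exists_le_sylow
  obtain ⟨g, hg⟩ := MulAction.exists_smul_eq G S P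
  have hSP : ∀ y ∈ (S : Subgroup G), g * y * g⁻¹ ∈ (P : Subgroup G) := by
    intro y hy
    rw [← hg]
    exact ⟨y, hy, rfl⟩
  have hx'P : g * x * g⁻¹ ∈ (P : Subgroup G) := hSP x (hS ⟨⟨x, hxC⟩, hxQ, rfl⟩)
  have h1 := index_commutator_le (P := ((P : Subgroup G) : Type _)) ⟨g * x * g⁻¹, hx'P⟩
  set C' := centralizer ({(⟨g * x * g⁻¹, hx'P⟩ : P)} : Set P) with hC'
  have h2 : Nat.card C' ∣ Nat.card C := by
    rw [hC, ← card_centralizer_conj g x]
    let f : C' →* centralizer ({g * x * g⁻¹} : Set G) :=
      { toFun := fun z => ⟨z.1.1, by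
          have := mem_centralizer_singleton_iff.1 z.2
          exact mem_centralizer_singleton_iff.2 (congrArg Subtype.val this)⟩
        map_one' := rfl
        map_mul' := fun a b => rfl }
    exact Subgroup.card_dvd_of_injective f fun a b hab => by
      have := congrArg Subtype.val hab
      exact Subtype.ext (Subtype.ext this)
  obtain ⟨j, hj⟩ : ∃ j, Nat.card C' = p ^ j := (IsPGroup.iff_card).1 (P.2.to_subgroup _)
  have h3 : j ≤ 2 := by
    rw [← hx]
    rw [hj] at h2
    exact (hp.out.pow_dvd_iff_le_factorization Nat.card_pos.ne').1 h2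
  rw [hk, hj] at h1
  have h4 : k ≤ j := (Nat.pow_le_pow_iff_right hp.out.one_lt).1 h1
  have h5 : k = 2 := by omega
  rw [hk, h5]

/-- Let G be a finite group, p a prime and P a Sylow p-subgroup of order at least p². Assume that G has no nontrivial normal subgroup of order prime to p, that the derived subgroup P' of P contains no nontrivial normal subgroup of G, and that G is not almost simple (there is no non-abelian simple normal subgroup of G with trivial centralizer). Then [P : P'] = p² if and only if some p-element x of G has centralizer whose order has p-part exactly p². -/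
theorem result {G : Type*} [Group G] [Finite G] (p : ℕ) [Fact p.Prime] (P : Sylow p G) (hbig : p ^ 2 ∣ Nat.card G) (hcore : Cfsg.pPrimeCore p G = ⊥)
    (hcore' : (⁅(P : Subgroup G), (P : Subgroup G)⁆).normalCore = ⊥) (hnas : ¬ ∃ S : Subgroup G, S.Normal ∧ IsSimpleGroup S ∧ ¬ IsMulCommutative S ∧ Subgroup.centralizer (S : Set G) = ⊥) :
    (⁅(P : Subgroup G), (P : Subgroup G)⁆).relIndex (P : Subgroup G) = p ^ 2 ↔
      ∃ x : G, (∃ k : ℕ, orderOf x = p ^ k) ∧ (Nat.card (Subgroup.centralizer ({x} : Set G))).factorization p = 2 := by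
  have h0 : (⁅(P : Subgroup G), (P : Subgroup G)⁆).relIndex (P : Subgroup G) =
      (commutator P).index := by
    rw [Subgroup.relIndex, subgroupOf_commutator]
  rw [h0]
  constructor
  · exact forward P hbig hcore hcore' hnas
  · rintro ⟨x, hxo, hx⟩
    exact backward p P hbig hxo hx

end Cfsg.Agent.S4587
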