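import Cfsg.Statements.S4591
import Cfsg.Agent.Lib.H79.PPrime
import Cfsg.Agent.Lib.H2.NPC
import Cfsg.Agent.Lib.H1.Frat
import Cfsg.Agent.S0081

set_option autoImplicit false
open Cfsg

namespace Cfsg.Agent.S4591

open scoped ComplexConjugate
open Subgroup H18.CharBasic H18.CharOrtho H18.CharInd H18.CharQuot H79.Ovr H79.OddKer H79.PPrime

universe u

/-- intersection of the kernels of characters of `p'`-degree -/
def KK (p : ℕ) (G : Type u) [Group G] [Finite G] : Subgroup G where
  carrier := {g | ∀ χ : G → ℂ, IsIrrCharacter G χ → (∃ d : ℕ, ¬ p ∣ d ∧ χ 1 = d) → χ g = χ 1}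
  one_mem' := fun _ _ _ => rfl
  mul_mem' := by
    intro a b ha hb χ hχ hd
    rw [char_mul_right (isCharacter_of_isIrr hχ) (hb χ hχ hd), ha χ hχ hd]
  inv_mem' := by
    intro a ha χ hχ hd
    have h1 := ha χ hχ hd
    rw [char_inv (isCharacter_of_isIrr hχ), h1, conj_char_one (isCharacter_of_isIrr hχ)]

theorem mem_KK {p : ℕ} {G : Type u} [Group G] [Finite G] {g : G} : g ∈ KK p G ↔
    ∀ χ : G → ℂ, IsIrrCharacter G χ → (∃ d : ℕ, ¬ p ∣ d ∧ χ 1 = d) → χ g = χ 1 := Iff.rfl

instance {p : ℕ} {G : Type u} [Group G] [Finite G] : (KK p G).Normal := by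
  refine ⟨fun n hn g => ?_⟩
  rw [mem_KK] at hn ⊢
  intro χ hχ hd
  rw [isClassFunction_of_isIrr hχ, hn χ hχ hd]


/-- Let G be a finite group, p a prime and P a Sylow p-subgroup, and let N be the largest normal subgroup of G in which P has trivial centralizer (N is normal with C_N(P) = 1 and contains every normal subgroup with that property). Then the intersection of the kernels of the irreducible characters of G of degree prime to p is the normal core in G of the subgroup N·P' (P' the derived subgroup of P). In particular, when G has no nontrivial normal subgroup of order prime to p, that intersection is the normal core of P'. -/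
theorem result {G : Type*} [Group G] [Finite G] (p : ℕ) [Fact p.Prime] (P : Sylow p G) (N : Subgroup G) [N.Normal]
    (hN : N ⊓ Subgroup.centralizer ((P : Subgroup G) : Set G) = ⊥)
    (hmax : ∀ L : Subgroup G, L.Normal → L ⊓ Subgroup.centralizer ((P : Subgroup G) : Set G) = ⊥ → L ≤ N) :
    {g : G | ∀ χ : Cfsg.IrrCharacter G, ¬ p ∣ Cfsg.charDegree (χ : G → ℂ) → (χ : G → ℂ) g = (χ : G → ℂ) 1} =
      ((N ⊔ ⁅(P : Subgroup G), (P : Subgroup G)⁆).normalCore : Set G) := by
  classical
  letI := Fintype.ofFinite G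
  letI := Fintype.ofFinite (P : Subgroup G)
  have hp : p.Prime := Fact.out
  set K := KK p G with hK
  -- reformulation of the left side
  have hL : {g : G | ∀ χ : Cfsg.IrrCharacter G, ¬ p ∣ Cfsg.charDegree (χ : G → ℂ) →
      (χ : G → ℂ) g = (χ : G → ℂ) 1} = (K : Set G) := by
    ext g
    rw [Set.mem_ofPred_eq, SetLike.mem_coe, mem_KK]
    constructor
    · rintro h χ hχ ⟨d, hd, hχd⟩
      exact h ⟨χ, hχ⟩ (by rwa [H79.Deg.charDegree_of_natCast hχd])
    · intro h χ hχ
      exact h χ χ.2 ⟨_, hχ, (H79.Deg.charDegree_coe (isCharacter_of_isIrr χ.2)).symm⟩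
  rw [hL]
  set H₀ : Subgroup G := N ⊔ ⁅(P : Subgroup G), (P : Subgroup G)⁆ with hH₀
  -- N is in the kernel
  have hNker : ∀ χ : G → ℂ, IsIrrCharacter G χ → (∃ d : ℕ, ¬ p ∣ d ∧ χ 1 = d) → ∀ n ∈ N, χ n = χ 1 := by
    rintro χ hχ ⟨d, hd, hχd⟩
    refine ker_fixed P.2 (P : Subgroup G).subtype ?_ hχ hd hχd
    intro k hk hfix
    have h1 : k ∈ N ⊓ centralizer ((P : Subgroup G) : Set G) := by
      refine ⟨hk, ?_⟩
      show k ∈ centralizer _
      rw [mem_centralizer_iff]
      intro x hx
      exact mul_inv_eq_iff_eq_mul.mp (hfix ⟨x, hx⟩)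
    rw [hN, mem_bot] at h1
    exact h1
  have hcomm : ∀ x : (P : Subgroup G), x ∈ commutator (P : Subgroup G) ↔
      (x : G) ∈ ⁅(P : Subgroup G), (P : Subgroup G)⁆ := by
    intro x
    rw [← map_subtype_commutator]
    constructor
    · intro h; exact ⟨x, h, rfl⟩
    · rintro ⟨y, hy, hyx⟩
      have : y = x := Subtype.ext hyx
      rwa [← this]
  apply le_antisymm
  · -- K ≤ core
    have hKP : K ⊓ (P : Subgroup G) ≤ ⁅(P : Subgroup G), (P : Subgroup G)⁆ := by
      rintro x ⟨hxK, hxP⟩
      exact (hcomm ⟨x, hxP⟩).mp (mem_commutator_of_ker P ⟨x, hxP⟩ (fun χ hχ hd => hxK χ hχ hd))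
    haveI : Group.IsNilpotent (P : Subgroup G) := P.2.isNilpotent
    have hnpc : Cfsg.HasNormalPComplement p K := by
      apply Cfsg.Agent.S0081.result P K
      refine hKP.trans ?_
      rw [← map_subtype_commutator]
      exact Subgroup.map_mono H1.Frat.commutator_le_frattini
    -- the normal p-complement
    haveI hMn : ((Cfsg.pPrimeCore p K).map K.subtype).Normal := by
      rw [H1.Cores.map_subtype_pPrimeCore]; infer_instance
    have hM1 : (Cfsg.pPrimeCore p K).map K.subtype ≤ N := by
      apply hmax _ inferInstance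
      rw [eq_bot_iff]
      rintro c ⟨⟨⟨c, hcK⟩, hcM, rfl⟩, hcC⟩
      rw [mem_bot]
      refine eq_one_of_ker P hcC ?_ (fun χ hχ hd => hcK χ hχ hd)
      have h1 := orderOf_dvd_natCard (⟨⟨c, hcK⟩, hcM⟩ : Cfsg.pPrimeCore p K)
      rw [Subgroup.orderOf_mk] at h1
      have h2 := Nat.Coprime.coprime_dvd_left h1 (H1.Cores.coprime_card_pPrimeCore p)
      rwa [← Subgroup.orderOf_coe] at h2
    have hS : H28.RelSyl.IsSyl p ((P : Subgroup G) ⊓ K) K :=
      (H28.RelSyl.isSyl_top P).inf_normal (by rw [normalizer_eq_top]) le_top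
    have hres := H2.NPC.isComplement'_residual_of_hasNPC hnpc hS.toSylow
    have hKle : K ≤ H₀ := by
      intro k hk
      have h1 := hres.sup_eq_top
      have h2 : (⟨k, hk⟩ : K) ∈ Cfsg.pResidual p K ⊔ (hS.toSylow : Subgroup K) := by
        rw [h1]; trivial
      rw [mem_sup_of_normal_left] at h2
      obtain ⟨r, hr, s, hs, hrs⟩ := h2
      have h3 : (r : G) ∈ N := by
        apply hM1
        refine ⟨r, ?_, rfl⟩
        refine H1.Cores.le_pPrimeCore inferInstance ?_ hr
        have h4 := (H2.NPC.iff_not_dvd_card_residual).mp hnpc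
        exact ((Nat.Prime.coprime_iff_not_dvd hp).mpr h4).symm
      have h5 : (s : G) ∈ ⁅(P : Subgroup G), (P : Subgroup G)⁆ := by
        apply hKP
        rw [hS.coe_toSylow, mem_subgroupOf] at hs
        exact ⟨hs.2, hs.1⟩
      have h6 : k = (r : G) * s := congrArg Subtype.val hrs.symm
      rw [h6]
      exact mul_mem (le_sup_left (a := N) h3) (le_sup_right (a := N) h5)
    have h1 : K ≤ H₀.normalCore := Subgroup.normal_le_normalCore.mpr hKle
    exact h1
  · -- core ≤ K
    intro g hg χ hχ hd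
    set D := H₀.normalCore with hD
    let f := QuotientGroup.mk' N
    obtain ⟨d, hdp, hχd⟩ := hd
    have hNk := hNker χ hχ ⟨d, hdp, hχd⟩
    have hχ' := isIrrCharacter_deflate N hχ hNk
    have hdef : ∀ t : G, deflate N χ (f t) = χ t := fun t =>
      deflate_mk N (isCharacter_of_isIrr hχ) hNk t
    have hdef1 : deflate N χ 1 = χ 1 := by
      rw [← hdef 1, map_one]
    let D' : Subgroup (G ⧸ N) := D.map f
    haveI hD'n : D'.Normal := Subgroup.Normal.map inferInstance f (QuotientGroup.mk'_surjective N)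
    letI := Fintype.ofFinite D'
    have hD'P : D' ≤ (⁅(P : Subgroup G), (P : Subgroup G)⁆).map f := by
      rintro _ ⟨x, hx, rfl⟩
      have h1 : x ∈ H₀ := Subgroup.normalCore_le H₀ hx
      rw [hH₀, mem_sup_of_normal_left] at h1
      obtain ⟨n, hn, c, hc, rfl⟩ := h1
      refine ⟨c, hc, ?_⟩
      rw [map_mul]
      have : f n = 1 := (QuotientGroup.eq_one_iff n).mpr hn
      rw [this, one_mul]
    let i : (P : Subgroup G) →* G ⧸ N := f.comp (P : Subgroup G).subtype
    obtain ⟨l, hl⟩ := exists_lin P.2 i (isCharacter_of_isIrr hχ') hdp (by rw [hdef1]; exact hχd)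
    have hsum : ∑ k : D', deflate N χ k ≠ 0 := by
      let E : Subgroup (P : Subgroup G) := D'.comap i ⊓ commutator (P : Subgroup G)
      have hEi : ∀ e : E, i e ∈ D' := fun e => e.2.1
      let π : E →* D' := (i.comp E.subtype).codRestrict D' hEi
      have h1 := ovr_push (isCharacter_of_isIrr hχ') hl D'.subtype E π (by
        rintro ⟨y, hy⟩
        obtain ⟨x, hx, hxy⟩ := hD'P hy
        have hxP : x ∈ (P : Subgroup G) := by
          have : ⁅(P : Subgroup G), (P : Subgroup G)⁆ ≤ P := Subgroup.commutator_le_self _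
          exact this hx
        refine ⟨⟨⟨x, hxP⟩, ?_, ?_⟩, Subtype.ext hxy⟩
        · show f x ∈ D'
          rw [hxy]; exact hy
        · exact (hcomm ⟨x, hxP⟩).mpr hx) (fun e => rfl) (1 : D' →* ℂˣ) (fun e => by
          have := Abelianization.commutator_subset_ker l e.2.2
          rw [MonoidHom.mem_ker] at this
          rw [this]; rfl)
      intro h0
      apply h1
      unfold classInner
      simp only [MonoidHom.one_apply, Units.val_one, map_one, mul_one]
      have h2 : ∑ x : D', deflate N χ (D'.subtype x) = 0 := h0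
      rw [h2, mul_zero]
    have h2 := ker_of_sum hχ' hsum (f g) ⟨g, hg, rfl⟩
    rw [hdef, hdef1] at h2
    exact h2

end Cfsg.Agent.S4591
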