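import Cfsg.Statements.S4593
import Cfsg.Agent.Lib.H2.AbSylow
import Cfsg.Agent.Lib.H1.Cores
import Cfsg.Agent.Lib.H28.Sup
import Cfsg.Agent.S0215

set_option autoImplicit false
open Cfsg

namespace Cfsg.Agent.S4593

open Subgroup
open scoped commutatorElement

theorem conj_comm {G : Type*} [Group G] (α : MulAut G) (g : G) :
    α * MulAut.conj g * α⁻¹ = MulAut.conj (α g) := by
  ext x
  simp [MulAut.mul_apply, MulAut.conj_apply]

theorem cent_eq_one {G : Type*} [Group G] (hZ : Subgroup.center G = ⊥) {φ : MulAut G}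
    (h : ∀ g : G, φ * MulAut.conj g = MulAut.conj g * φ) : φ = 1 := by
  have hinj : ∀ x y : G, MulAut.conj x = MulAut.conj y → x = y := by
    intro x y hxy
    have h1 : x * y⁻¹ ∈ center G := by
      rw [mem_center_iff]
      intro z
      have h2 := congrArg (fun a : MulAut G => a (y⁻¹ * z * y)) hxy
      simp only [MulAut.conj_apply] at h2
      have h3 : y * (y⁻¹ * z * y) * y⁻¹ = z := by group
      rw [h3] at h2
      have h4 : z * (x * y⁻¹) = x * (y⁻¹ * z * y) * x⁻¹ * (x * y⁻¹) := by rw [h2]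
      rw [h4]; group
    rw [hZ, mem_bot] at h1
    exact mul_inv_eq_one.mp h1
  ext x
  apply hinj
  have h1 := conj_comm φ x
  rw [h x, mul_inv_cancel_right] at h1
  simpa using h1.symm


/-- Let G be a finite group with trivial centre and no nontrivial normal subgroup of odd order, whose Sylow 2-subgroups are abelian, and let P be a Sylow 2-subgroup. Every automorphism of G of 2-power order that fixes P elementwise is inner. -/
theorem result {G : Type*} [Group G] [Finite G] (hZ : Subgroup.center G = ⊥) (hcore : Cfsg.pPrimeCore 2 G = ⊥) (P : Sylow 2 G) (hab : IsMulCommutative (P : Subgroup G))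
    (α : MulAut G) (h2 : ∃ j : ℕ, orderOf α = 2 ^ j) (hfix : ∀ x ∈ (P : Subgroup G), α x = x) :
    ∃ g : G, ∀ x : G, α x = g * x * g⁻¹ := by
  classical
  haveI : Fact (Nat.Prime 2) := ⟨Nat.prime_two⟩
  obtain ⟨j, hj⟩ := h2
  let c : G →* MulAut G := MulAut.conj
  have hcinj : Function.Injective c := by
    rw [← MonoidHom.ker_eq_bot_iff, eq_bot_iff, ← hZ]
    intro x hx
    rw [mem_center_iff]
    intro z
    have h1 := congrArg (fun a : MulAut G => a z) (MonoidHom.mem_ker.mp hx)
    have h3 : x * z * x⁻¹ = z := h1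
    exact (mul_inv_eq_iff_eq_mul.mp h3).symm
  set I : Subgroup (MulAut G) := c.range with hI
  haveI hIn : I.Normal := by
    refine ⟨fun n hn φ => ?_⟩
    obtain ⟨g, rfl⟩ := hn
    exact ⟨φ g, (conj_comm φ g).symm⟩
  set X : Subgroup (MulAut G) := I ⊔ zpowers α with hX
  have hIX : I ≤ X := le_sup_left
  have hαX : α ∈ X := (le_sup_right : zpowers α ≤ X) (mem_zpowers α)
  set S : Subgroup (MulAut G) := (P : Subgroup G).map c ⊔ zpowers α with hS
  have hPI : (P : Subgroup G).map c ≤ I := by
    rintro _ ⟨x, _, rfl⟩; exact ⟨x, rfl⟩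
  have hSX : S ≤ X := sup_le (hPI.trans hIX) le_sup_right
  have hαS : α ∈ S := (le_sup_right : zpowers α ≤ S) (mem_zpowers α)
  -- α centralizes the image of P
  have hαP : ∀ x ∈ (P : Subgroup G), α * c x = c x * α := by
    intro x hx
    have h1 := conj_comm α x
    rw [hfix x hx] at h1
    exact mul_inv_eq_iff_eq_mul.mp h1
  -- S is abelian
  have hSab : ∀ x ∈ S, ∀ y ∈ S, x * y = y * x := by
    have h1 : S ≤ centralizer (S : Set (MulAut G)) := by
      have hP1 : (P : Subgroup G).map c ≤ centralizer (S : Set (MulAut G)) := by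
        rintro _ ⟨x, hx, rfl⟩
        rw [mem_centralizer_iff]
        intro s hs
        have h2 : S ≤ centralizer ({c x} : Set (MulAut G)) := by
          refine sup_le ?_ ?_
          · rintro _ ⟨y, hy, rfl⟩
            rw [mem_centralizer_singleton_iff, ← map_mul, ← map_mul]
            congr 1
            exact congrArg Subtype.val (hab.is_comm.comm (⟨y, hy⟩ : (P : Subgroup G)) ⟨x, hx⟩)
          · rw [zpowers_le, mem_centralizer_singleton_iff]
            exact hαP x hx
        exact mem_centralizer_singleton_iff.mp (h2 hs)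
      refine sup_le hP1 ?_
      rw [zpowers_le, mem_centralizer_iff]
      intro s hs
      have h2 : S ≤ centralizer ({α} : Set (MulAut G)) := by
        refine sup_le ?_ ?_
        · rintro _ ⟨y, hy, rfl⟩
          rw [mem_centralizer_singleton_iff]
          exact (hαP y hy).symm
        · rw [zpowers_le, mem_centralizer_singleton_iff]
      exact mem_centralizer_singleton_iff.mp (h2 hs)
    intro x hx y hy
    exact (mem_centralizer_iff.mp (h1 hx) y hy).symm
  have hS2 : IsPGroup 2 S := by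
    have h1 : IsPGroup 2 ((P : Subgroup G).map c) := P.2.map c
    have h2 : IsPGroup 2 (zpowers α) := IsPGroup.of_card (n := j) (by rw [Nat.card_zpowers, hj])
    have h3 : (P : Subgroup G).map c ≤ normalizer (zpowers α : Set (MulAut G)) := by
      refine le_trans ?_ (centralizer_le_normalizer _)
      rintro _ ⟨x, hx, rfl⟩
      rw [mem_centralizer_iff]
      rintro _ ⟨k, rfl⟩
      have h4 : Commute α (c x) := hαP x hx
      exact (h4.zpow_left k)
    exact h1.to_sup_of_normal_right' h2 h3
  -- a Sylow subgroup of X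
  have hSX2 : IsPGroup 2 (S.subgroupOf X) := hS2.comap_subtype
  obtain ⟨T, hT⟩ := hSX2.exists_le_sylow
  have hTg : ((T : Subgroup X).map X.subtype).comap c = P := by
    apply P.3
    · exact (T.2.map X.subtype).comap_of_injective c hcinj
    · intro x hx
      have h1 : c x ∈ S := (le_sup_left : (P : Subgroup G).map c ≤ S) ⟨x, hx, rfl⟩
      exact ⟨⟨c x, hSX h1⟩, hT h1, rfl⟩
  have hTS : ∀ t ∈ (T : Subgroup X), (t : MulAut G) ∈ S := by
    rintro ⟨t, htX⟩ ht
    have htX' := htX
    rw [hX, mem_sup_of_normal_left] at htX'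
    obtain ⟨i, ⟨g, rfl⟩, a, ha, hia⟩ := htX'
    have haS : a ∈ S := (le_sup_right : zpowers α ≤ S) ha
    have haT : (⟨a, hSX haS⟩ : X) ∈ (T : Subgroup X) := hT haS
    have h1 : (⟨t, htX⟩ : X) * (⟨a, hSX haS⟩ : X)⁻¹ ∈ (T : Subgroup X) := mul_mem ht (inv_mem haT)
    have h2 : g ∈ (P : Subgroup G) := by
      rw [← hTg]
      refine ⟨_, h1, ?_⟩
      show t * a⁻¹ = c g
      rw [← hia, mul_inv_cancel_right]
    show t ∈ S
    rw [← hia]
    exact mul_mem ((le_sup_left : (P : Subgroup G).map c ≤ S) ⟨g, h2, rfl⟩) haS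
  haveI hTab : IsMulCommutative T := ⟨⟨fun a b => by
    apply Subtype.ext
    apply Subtype.ext
    exact hSab _ (hTS a a.2) _ (hTS b b.2)⟩⟩
  -- commutators of X are in I
  have hcommI : ∀ x ∈ X, ∀ y ∈ X, ⁅x, y⁆ ∈ I := by
    intro x hx y hy
    let q := QuotientGroup.mk' I
    have hq : ∀ z ∈ X, ∃ k : ℤ, q z = q α ^ k := by
      intro z hz
      rw [hX, mem_sup_of_normal_left] at hz
      obtain ⟨i, hi, a, ⟨k, rfl⟩, rfl⟩ := hz
      refine ⟨k, ?_⟩
      have h1 : q i = 1 := (QuotientGroup.eq_one_iff i).mpr hi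
      rw [map_mul, h1, one_mul]
      exact map_zpow q α k
    obtain ⟨k, hk⟩ := hq x hx
    obtain ⟨l, hl⟩ := hq y hy
    rw [← QuotientGroup.eq_one_iff]
    show q ⁅x, y⁆ = 1
    rw [map_commutatorElement, hk, hl, commutatorElement_eq_one_iff_mul_comm, ← zpow_add, ← zpow_add,
      add_comm]
  obtain ⟨-, hdec⟩ := H2.AbSylow.abelian_sylow_decomp T hTab
  set NT := normalizer ((T : Subgroup X) : Set X) with hNT
  set Cc : Subgroup X := (T : Subgroup X) ⊓ centralizer (NT : Set X) with hCc
  have hαT : (⟨α, hαX⟩ : X) ∈ (T : Subgroup X) := hT hαS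
  have hsup : (⟨α, hαX⟩ : X) ∈ Cc ⊔ ⁅(T : Subgroup X), NT⁆ := by rw [hdec]; exact hαT
  have hnorm : Cc ≤ normalizer ((⁅(T : Subgroup X), NT⁆ : Subgroup X) : Set X) := by
    have hle : ⁅(T : Subgroup X), NT⁆ ≤ T := by
      rw [commutator_le]
      intro t ht n hn
      have h1 : n * t⁻¹ * n⁻¹ ∈ (T : Subgroup X) := (mem_normalizer_iff.mp hn _).mp (inv_mem ht)
      have h3 : ⁅t, n⁆ = t * (n * t⁻¹ * n⁻¹) := by rw [commutatorElement_def]; group
      rw [h3]; exact mul_mem ht h1
    refine le_trans ?_ (centralizer_le_normalizer _)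
    intro x hx
    rw [mem_centralizer_iff]
    intro y hy
    have := hTab.is_comm.comm (⟨y, hle hy⟩ : T) ⟨x, hx.1⟩
    exact congrArg Subtype.val this
  rw [H28.Sup.mem_sup_iff' hnorm] at hsup
  obtain ⟨z, hz, a, ha, hza⟩ := hsup
  -- a is inner
  have haI : (a : MulAut G) ∈ I := by
    have h1 : ⁅(T : Subgroup X), NT⁆ ≤ I.comap X.subtype := by
      rw [commutator_le]
      intro t _ n _
      exact hcommI t t.2 n n.2
    exact h1 ha
  obtain ⟨g₀, hg₀⟩ := haI
  by_cases hz1 : z = 1
  · refine ⟨g₀, fun x => ?_⟩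
    have h1 : α = (a : MulAut G) := by
      have := congrArg Subtype.val hza
      rw [hz1, one_mul] at this
      exact this
    rw [h1, ← hg₀]
    rfl
  · exfalso
    -- an involution which is a power of z
    obtain ⟨k, hk⟩ := IsPGroup.iff_orderOf.mp T.2 ⟨z, hz.1⟩
    rw [Subgroup.orderOf_mk] at hk
    have hk0 : k ≠ 0 := by
      rintro rfl
      rw [pow_zero, orderOf_eq_one_iff] at hk
      exact hz1 hk
    obtain ⟨m, rfl⟩ := Nat.exists_eq_succ_of_ne_zero hk0
    set u : X := z ^ (2 ^ m) with hu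
    have huord : orderOf u = 2 := by
      rw [hu, orderOf_pow' z (pow_ne_zero m two_ne_zero), hk, pow_succ, Nat.gcd_eq_right (Dvd.intro _ rfl),
        Nat.mul_div_cancel_left _ (pow_pos two_pos m)]
    have huC : u ∈ Cc := pow_mem hz _
    have hiso : ∀ g : X, g * u * g⁻¹ ∈ (T : Subgroup X) → g * u * g⁻¹ = u := by
      intro g hg
      have h1 : (g⁻¹)⁻¹ * u * g⁻¹ ∈ T := by rw [inv_inv]; exact hg
      obtain ⟨n, hn, hgn⟩ := T.conj_eq_normalizer_conj_of_mem u g⁻¹ huC.1 h1
      rw [inv_inv] at hgn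
      rw [hgn]
      have h2 : u * n = n * u := (mem_centralizer_iff.mp huC.2 n hn).symm
      rw [mul_assoc, h2, inv_mul_cancel_left]
    obtain ⟨N, hNn, hNodd, hNu⟩ := Cfsg.Agent.S0215.result T u huord huC.1 hiso
    have hcI : ∀ g : G, c g ∈ X := fun g => hIX ⟨g, rfl⟩
    let cX : G →* X := c.codRestrict X hcI
    have hcX : Function.Injective cX := by
      intro x y hxy
      exact hcinj (congrArg Subtype.val hxy)
    have hNc : N.comap cX = ⊥ := by
      rw [eq_bot_iff, ← hcore]
      apply H1.Cores.le_pPrimeCore inferInstance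
      have h1 : Nat.card (N.comap cX) ∣ Nat.card N := Subgroup.card_comap_dvd_of_injective N cX hcX
      exact Nat.Coprime.coprime_dvd_left h1 (Nat.coprime_two_right.mpr hNodd)
    have hNI : ∀ n ∈ N, ∀ g : G, ((n : X) : MulAut G) * c g = c g * n := by
      intro n hn g
      have h1 : n * cX g * n⁻¹ * (cX g)⁻¹ ∈ N := by
        have h2 : n * cX g * n⁻¹ * (cX g)⁻¹ = n * (cX g * n⁻¹ * (cX g)⁻¹) := by group
        rw [h2]
        exact mul_mem hn (hNn.conj_mem _ (inv_mem hn) _)
      obtain ⟨y, hy⟩ : ∃ y : G, cX y = n * cX g * n⁻¹ * (cX g)⁻¹ := by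
        have h3 : n * cX g * n⁻¹ = cX ((n : MulAut G) g) := by
          apply Subtype.ext
          exact conj_comm (n : MulAut G) g
        rw [h3, ← map_inv, ← map_mul]
        exact ⟨_, rfl⟩
      have h4 : y ∈ N.comap cX := by
        rw [mem_comap, hy]; exact h1
      rw [hNc, mem_bot] at h4
      rw [h4, map_one] at hy
      have h5 : n * cX g * n⁻¹ = cX g := (mul_inv_eq_one.mp hy.symm)
      have h6 : n * cX g = cX g * n := mul_inv_eq_iff_eq_mul.mp h5
      exact congrArg Subtype.val h6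
    have hNbot : ∀ n ∈ N, n = 1 := by
      intro n hn
      apply Subtype.ext
      exact cent_eq_one hZ (fun g => hNI n hn g)
    have hu1 : (u : MulAut G) = 1 := by
      apply cent_eq_one hZ
      intro g
      have h1 := hNbot _ (hNu (cX g))
      rw [mul_inv_eq_one] at h1
      have h2 : u * cX g = cX g * u := mul_inv_eq_iff_eq_mul.mp h1
      exact congrArg Subtype.val h2
    have hu2 : u = 1 := Subtype.ext hu1
    rw [hu2, orderOf_one] at huord
    exact absurd huord (by norm_num)

end Cfsg.Agent.S4593
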