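import Cfsg.Statements.S4602
import Cfsg.Agent.Lib.H37.PSolv
import Cfsg.Agent.Lib.H1.Coprime2

set_option autoImplicit false
open Cfsg

namespace Cfsg.Agent.S4602

open Subgroup

/-- a `P`-invariant Sylow `q`-subgroup in a normal `p'`-subgroup containing Sylow `q`-subgroups -/
theorem exists_inv {G : Type*} [Group G] [Finite G] {p q : ℕ} [hp : Fact p.Prime] [hq : Fact q.Prime]
    (K : Subgroup G) [K.Normal] (hK : (Nat.card K).Coprime p) (hqK : ¬ q ∣ K.index) (P : Sylow p G) :
    ∃ Q : Sylow q G, (P : Subgroup G) ≤ Subgroup.normalizer ((Q : Subgroup G) : Set G) := by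
  have hnil : Group.IsNilpotent P := P.2.isNilpotent
  obtain ⟨S, hS, hPS⟩ := H1.Coprime2.exists_invariant_sylow (P : Subgroup G) K
    (by rw [normalizer_eq_top]; exact le_top)
    (by
      obtain ⟨n, hn⟩ := IsPGroup.iff_card.mp P.2
      rw [hn]
      exact Nat.Coprime.pow_left _ hK.symm) (Or.inl inferInstance) q
  have hcard : Nat.card S = q ^ (Nat.card G).factorization q := by
    rw [hS.2, ← K.card_mul_index, Nat.factorization_mul Nat.card_pos.ne' K.index_ne_zero_of_finite]
    simp [Nat.factorization_eq_zero_of_not_dvd hqK]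
  exact ⟨Sylow.ofCard S hcard, by simpa using hPS⟩

/-- in a `p`-solvable group with `O_{p'} = 1`, a `q`-subgroup centralizing `O_p` is trivial -/
theorem eq_bot_of_centralizes {G : Type*} [Group G] [Finite G] {p q : ℕ} [hp : Fact p.Prime]
    [hq : Fact q.Prime] (hpq : p ≠ q) (hsolv : Cfsg.IsPSolvable p G) (h : Cfsg.pPrimeCore p G = ⊥)
    (Q : Subgroup G) (hQ : IsPGroup q Q) (hc : Q ≤ centralizer (Cfsg.pCore p G : Set G)) : Q = ⊥ := by
  have h1 := hc.trans (H37.PSolv.centralizer_pCore_le hsolv h)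
  have h2 : IsPGroup p Q := (H1.Cores.isPGroup_pCore (G := G) p).to_le h1
  have h4 := IsPGroup.disjoint_of_ne p q hpq Q Q h2 hQ
  exact disjoint_self.mp h4


/-- Let G be a finite p-solvable group and q a prime different from p. Some Sylow p-subgroup of G normalizes some Sylow q-subgroup of G if and only if q does not divide the order of G/O_{p'}(G), the quotient by the largest normal subgroup of order prime to p. -/
theorem result {G : Type*} [Group G] [Finite G] (p q : ℕ) [Fact p.Prime] [Fact q.Prime] (hpq : p ≠ q) (hsolv : Cfsg.IsPSolvable p G) :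
    (∃ (P : Sylow p G) (Q : Sylow q G), (P : Subgroup G) ≤ Subgroup.normalizer ((Q : Subgroup G) : Set G)) ↔ ¬ q ∣ (Cfsg.pPrimeCore p G).index := by
  constructor
  · rintro ⟨P, Q, hPQ⟩ hq
    set K := Cfsg.pPrimeCore p G with hK
    let f := QuotientGroup.mk' K
    have hfs : Function.Surjective f := QuotientGroup.mk'_surjective K
    have hbot : Cfsg.pPrimeCore p (G ⧸ K) = ⊥ := H1.Cores.pPrimeCore_quotient_pPrimeCore p
    have hs := H37.PSolv.quotient hsolv K
    let P' : Sylow p (G ⧸ K) := P.mapSurjective hfs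
    have hP' : (P' : Subgroup (G ⧸ K)) = (P : Subgroup G).map f := rfl
    have hOP : Cfsg.pCore p (G ⧸ K) ≤ (P : Subgroup G).map f := by
      rw [← hP']; exact H1.Cores.pCore_le_sylow P'
    have hQ' : (Q : Subgroup G).map f = ⊥ := by
      apply eq_bot_of_centralizes hpq hs hbot _ (Q.2.map f)
      rw [← Subgroup.commutator_eq_bot_iff_le_centralizer]
      rw [eq_bot_iff]
      have hn : (Q : Subgroup G).map f ≤ Subgroup.normalizer (Cfsg.pCore p (G ⧸ K) : Set (G ⧸ K)) := by
        rw [normalizer_eq_top]; exact le_top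
      have hn2 : Cfsg.pCore p (G ⧸ K) ≤ Subgroup.normalizer ((Q : Subgroup G).map f : Set (G ⧸ K)) := by
        refine hOP.trans ?_
        rintro _ ⟨x, hx, rfl⟩
        have := hPQ hx
        exact Subgroup.le_normalizer_map f ⟨x, this, rfl⟩
      have h1 := H1.Coprime2.commutator_le_right hn
      have h2 := H1.Coprime2.commutator_le_left hn2
      have h3 : Disjoint (Cfsg.pCore p (G ⧸ K)) ((Q : Subgroup G).map f) :=
        IsPGroup.disjoint_of_ne p q hpq _ _ (H1.Cores.isPGroup_pCore p) (Q.2.map f)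
      exact h3 h1 h2
    have hQK : (Q : Subgroup G) ≤ K := by
      rw [Subgroup.map_eq_bot_iff] at hQ'
      rwa [QuotientGroup.ker_mk'] at hQ'
    exact Q.not_dvd_index (hq.trans (Subgroup.index_dvd_of_le hQK))
  · intro hq
    obtain ⟨P⟩ : Nonempty (Sylow p G) := inferInstance
    obtain ⟨Q, hQ⟩ := exists_inv (q := q) (Cfsg.pPrimeCore p G) (H1.Cores.coprime_card_pPrimeCore p) hq P
    exact ⟨P, Q, hQ⟩

end Cfsg.Agent.S4602
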