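import Cfsg.Statements.S4601
import Cfsg.Agent.Lib.H74.Fitting
import Cfsg.Agent.S4602

set_option autoImplicit false
open Cfsg

namespace Cfsg.Agent.S4601

open Subgroup
open scoped Pointwise
open H1.Coprime2 (IsSylIn)

universe u

theorem relIndex_isSylIn {G : Type*} [Group G] [Finite G] {p : ℕ} [hp : Fact p.Prime] {K S : Subgroup G}
    (h : IsSylIn p K S) : ¬ p ∣ S.relIndex K := by
  obtain ⟨P, rfl⟩ := h.exists_sylow
  have h2 : (P : Subgroup K) = ((P : Subgroup K).map K.subtype).subgroupOf K := by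
    rw [Subgroup.subgroupOf, Subgroup.comap_map_eq_self_of_injective K.subtype_injective]
  rw [Subgroup.relIndex, ← h2]
  exact P.not_dvd_index

/-- an element with `p ∤ |N : C_N(x)|` centralizes a Sylow `p`-subgroup of `N` -/
theorem exists_cent {G : Type*} [Group G] [Finite G] {p : ℕ} [hp : Fact p.Prime] (N : Subgroup G) [N.Normal]
    (x : G) (hx : ¬ p ∣ (centralizer ({x} : Set G)).index) :
    ∃ T, IsSylIn p N T ∧ T ≤ centralizer ({x} : Set G) := by
  set C := centralizer ({x} : Set G) with hC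
  have h1 : ¬ p ∣ C.relIndex N := fun h => hx (h.trans (H74.Fitting.relIndex_dvd_index_of_normal_right C N))
  obtain ⟨T, hT⟩ := H1.Coprime2.exists_isSylIn p (C ⊓ N)
  refine ⟨T, ⟨hT.1.trans inf_le_right, ?_⟩, hT.1.trans inf_le_left⟩
  rw [hT.2]
  congr 1
  have h2 : Nat.card (C ⊓ N : Subgroup G) * C.relIndex N = Nat.card N := by
    rw [← Subgroup.inf_relIndex_right, ← Subgroup.card_mul_index ((C ⊓ N).subgroupOf N),
      H1.SZ.card_subgroupOf_of_le inf_le_right]
    rfl
  rw [← h2, Nat.factorization_mul Nat.card_pos.ne' (by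
    intro h0; rw [h0] at h1; exact h1 (dvd_zero p))]
  simp [Nat.factorization_eq_zero_of_not_dvd h1]

/-- if each element of the `q`-group `Q` centralizes a Sylow `p`-subgroup of the normal `q'`-group `N`,
then so does `Q` -/
theorem exists_cent_all {G : Type*} [Group G] [Finite G] {p q : ℕ} [hp : Fact p.Prime] [hq : Fact q.Prime]
    (N : Subgroup G) [N.Normal] (hN : (Nat.card N).Coprime q) (Q : Subgroup G) (hQ : IsPGroup q Q)
    (h : ∀ x ∈ Q, ∃ T, IsSylIn p N T ∧ T ≤ centralizer ({x} : Set G)) :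
    ∃ S, IsSylIn p N S ∧ Q ≤ centralizer (S : Set G) := by
  have hnil : Group.IsNilpotent Q := hQ.isNilpotent
  have hcop : ∀ A : Subgroup G, A ≤ Q → (Nat.card A).Coprime (Nat.card N) := by
    intro A hA
    obtain ⟨n, hn⟩ := IsPGroup.iff_card.mp (hQ.to_le hA)
    rw [hn]
    exact Nat.Coprime.pow_left _ hN.symm
  obtain ⟨S, hS, hQS⟩ := H1.Coprime2.exists_invariant_sylow Q N
    (by rw [normalizer_eq_top]; exact le_top) (hcop Q le_rfl) (Or.inl inferInstance) p
  refine ⟨S, hS, ?_⟩
  intro x hx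
  obtain ⟨T, hT, hTx⟩ := h x hx
  have hzQ : zpowers x ≤ Q := by rwa [zpowers_le]
  have hxT : zpowers x ≤ centralizer (T : Set G) := by
    rw [zpowers_le, mem_centralizer_iff]
    intro t ht
    have := mem_centralizer_singleton_iff.mp (hTx ht)
    exact this
  obtain ⟨c, hc, hcT⟩ := H1.Coprime2.conj_invariant_sylow (zpowers x) N
    (by rw [normalizer_eq_top]; exact le_top) (hcop _ hzQ) (Or.inl inferInstance) p T S hT hS
    (hxT.trans (centralizer_le_normalizer _)) (hzQ.trans hQS)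
  rw [mem_centralizer_iff]
  intro s hs
  rw [← hcT] at hs
  rw [SetLike.mem_coe, H1.SZ.mem_conj_smul] at hs
  have h1 := mem_centralizer_iff.mp (hxT (mem_zpowers x)) _ hs
  have h2 := mem_centralizer_iff.mp hc.2 x (mem_zpowers x)
  -- c⁻¹ s c commutes with x, c commutes with x
  have h3 : c⁻¹ * x = x * c⁻¹ := by
    rw [inv_mul_eq_iff_eq_mul, ← mul_assoc, ← h2, mul_assoc, mul_inv_cancel, mul_one]
  calc s * x = c * (c⁻¹ * s * c) * c⁻¹ * x := by group
    _ = c * (c⁻¹ * s * c) * (c⁻¹ * x) := by group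
    _ = c * ((c⁻¹ * s * c) * x) * c⁻¹ := by rw [h3]; group
    _ = (c * x) * (c⁻¹ * s * c) * c⁻¹ := by rw [h1]; group
    _ = x * s := by rw [← h2]; group

/-- a `p`-group acting on the Sylow `q`-subgroups of `M = QN` -/
theorem exists_norm {G : Type*} [Group G] [Finite G] {p q : ℕ} [hp : Fact p.Prime] [hq : Fact q.Prime]
    (hpq : p ≠ q)
    (N : Subgroup G) [N.Normal] (P : Subgroup G) (hP : IsPGroup p P)
    (Q : Sylow q G) (hPM : P ≤ normalizer (((Q : Subgroup G) ⊔ N : Subgroup G) : Set G))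
    (hc : ∃ S, IsSylIn p N S ∧ (Q : Subgroup G) ≤ centralizer (S : Set G)) :
    ∃ Q' : Sylow q G, P ≤ normalizer ((Q' : Subgroup G) : Set G) := by
  classical
  set M : Subgroup G := (Q : Subgroup G) ⊔ N with hM
  have hQM : (Q : Subgroup G) ≤ M := le_sup_left
  have hsyl : ∀ Q' : Sylow q G, (Q' : Subgroup G) ≤ M → IsSylIn q M Q' := by
    intro Q' hQ'
    refine ⟨hQ', ?_⟩
    rw [Q'.card_eq_multiplicity]
    congr 1
    have h1 : ¬ q ∣ M.index := fun h => Q'.not_dvd_index (h.trans (Subgroup.index_dvd_of_le hQ'))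
    rw [← M.card_mul_index, Nat.factorization_mul Nat.card_pos.ne' M.index_ne_zero_of_finite]
    simp [Nat.factorization_eq_zero_of_not_dvd h1]
  let Ω : SubMulAction P (Sylow q G) :=
    { carrier := {Q' | (Q' : Subgroup G) ≤ M}
      smul_mem' := by
        intro g Q' hQ'
        have h1 : MulAut.conj (g : G) • M = M := H1.SZ.conj_smul_eq_of_mem_normalizer (hPM g.2)
        have h2 : MulAut.conj (g : G) • (Q' : Subgroup G) ≤ MulAut.conj (g : G) • M :=
          Subgroup.pointwise_smul_le_pointwise_smul_iff.mpr hQ'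
        rw [h1] at h2
        exact h2 }
  have hΩ : (Ω : Set (Sylow q G)) = MulAction.orbit M Q := by
    ext Q'
    constructor
    · intro hQ'
      obtain ⟨k, hk, hkQ⟩ := (hsyl Q hQM).conj (hsyl Q' hQ')
      exact ⟨⟨k, hk⟩, Sylow.ext hkQ⟩
    · rintro ⟨m, rfl⟩
      show (((m • Q : Sylow q G)) : Subgroup G) ≤ M
      have h1 : MulAut.conj (m : G) • M = M := H1.SZ.conj_smul_eq_of_mem_normalizer (Subgroup.le_normalizer m.2)
      have h2 : MulAut.conj (m : G) • (Q : Subgroup G) ≤ MulAut.conj (m : G) • M :=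
        Subgroup.pointwise_smul_le_pointwise_smul_iff.mpr hQM
      rw [h1] at h2
      exact h2
  have hcard : Nat.card Ω = (MulAction.stabilizer M Q).index := by
    rw [MulAction.index_stabilizer]
    rw [← hΩ]
    exact (Nat.card_coe_set_eq _)
  obtain ⟨S, hS, hSQ⟩ := hc
  have hSM : S ≤ M := hS.1.trans le_sup_right
  have h1 : S.subgroupOf M ≤ MulAction.stabilizer M Q := by
    intro s hs
    rw [MulAction.mem_stabilizer_iff]
    apply Sylow.ext
    show MulAut.conj (s : G) • (Q : Subgroup G) = Q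
    apply H1.SZ.conj_smul_eq_of_mem_normalizer
    apply Subgroup.centralizer_le_normalizer
    rw [mem_centralizer_iff]
    intro x hx
    exact (mem_centralizer_iff.mp (hSQ hx) _ hs).symm
  have h2 : ¬ p ∣ S.relIndex M := by
    rw [← Subgroup.relIndex_mul_relIndex S N M hS.1 le_sup_right]
    intro h3
    rcases (Nat.Prime.dvd_mul hp.out).mp h3 with h4 | h4
    · exact relIndex_isSylIn hS h4
    · rw [hM, Subgroup.relIndex_sup_right] at h4
      have h5 : p ∣ Nat.card (Q : Subgroup G) := h4.trans (Subgroup.relIndex_dvd_card _ _)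
      obtain ⟨n, hn⟩ := IsPGroup.iff_card.mp Q.2
      rw [hn] at h5
      exact hpq ((Nat.prime_dvd_prime_iff_eq hp.out hq.out).mp (hp.out.dvd_of_dvd_pow h5))
  have h3 : ¬ p ∣ Nat.card Ω := by
    rw [hcard]
    intro h4
    exact h2 (h4.trans (Subgroup.index_dvd_of_le h1))
  obtain ⟨Q', hQ'⟩ := hP.nonempty_fixed_point_of_prime_not_dvd_card Ω h3
  refine ⟨(Q' : Sylow q G), ?_⟩
  intro g hg
  have h4 := hQ' ⟨g, hg⟩
  have h5 : MulAut.conj g • ((Q' : Sylow q G) : Subgroup G) = (Q' : Sylow q G) := by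
    have h6 := congrArg (fun X : Ω => ((X : Sylow q G) : Subgroup G)) h4
    exact h6
  exact H1.SZ.mem_normalizer_of_conj_smul_eq h5

theorem lift_elem {G : Type*} [Group G] [Finite G] {q : ℕ} [hq : Fact q.Prime] (N : Subgroup G) [N.Normal]
    (y : G ⧸ N) (hy : ∃ k : ℕ, orderOf y = q ^ k) :
    ∃ x : G, (∃ k : ℕ, orderOf x = q ^ k) ∧ QuotientGroup.mk' N x = y := by
  have h1 : IsPGroup q (zpowers y) := by
    obtain ⟨k, hk⟩ := hy
    exact IsPGroup.of_card (n := k) (by rw [Nat.card_zpowers, hk])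
  obtain ⟨Q', hQ'⟩ := h1.exists_le_sylow
  obtain ⟨Q, rfl⟩ := Sylow.mapSurjective_surjective (QuotientGroup.mk'_surjective N) q Q'
  obtain ⟨x, hx, hxy⟩ := hQ' (mem_zpowers y)
  refine ⟨x, ?_, hxy⟩
  obtain ⟨k, hk⟩ := IsPGroup.iff_orderOf.mp Q.2 ⟨x, hx⟩
  exact ⟨k, by rw [← hk, Subgroup.orderOf_mk]⟩

theorem main (p q : ℕ) [hp : Fact p.Prime] [hq : Fact q.Prime] (hpq : p ≠ q) (n : ℕ) :
    ∀ (G : Type u) [Group G] [Finite G], Nat.card G = n → Cfsg.IsPSolvable q G →
    (∀ y : G, (∃ k : ℕ, orderOf y = q ^ k) → ¬ p ∣ (Subgroup.centralizer ({y} : Set G)).index) →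
    ∀ P : Sylow p G, ∃ Q : Sylow q G, (P : Subgroup G) ≤ Subgroup.normalizer ((Q : Subgroup G) : Set G) := by
  induction n using Nat.strong_induction_on with
  | _ n ih =>
  intro G _ _ hGn hsolv h P
  rcases subsingleton_or_nontrivial G with hsub | hnt
  · obtain ⟨Q⟩ : Nonempty (Sylow q G) := inferInstance
    exact ⟨Q, fun x _ => by rw [Subsingleton.elim x 1]; exact one_mem _⟩
  -- reduction step
  have step : ∀ N : Subgroup G, N.Normal → N ≠ ⊥ → ∃ Q : Sylow q G,
      (P : Subgroup G) ≤ normalizer (((Q : Subgroup G) ⊔ N : Subgroup G) : Set G) := by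
    intro N hN hNb
    have hcard : Nat.card (G ⧸ N) < n := by
      rw [← hGn]
      have h1 := N.card_mul_index
      have h2 : 1 < Nat.card N := N.one_lt_card_iff_ne_bot.mpr hNb
      have h3 : N.index = Nat.card (G ⧸ N) := rfl
      have h4 : 0 < Nat.card (G ⧸ N) := Nat.card_pos
      rw [← h1, h3]
      nlinarith
    let f := QuotientGroup.mk' N
    have hfs : Function.Surjective f := QuotientGroup.mk'_surjective N
    obtain ⟨Q', hQ'⟩ := ih _ hcard (G ⧸ N) rfl (H37.PSolv.quotient (p := q) hsolv N) (by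
      intro y hy hdvd
      obtain ⟨x, hx, rfl⟩ := lift_elem N y hy
      apply h x hx
      refine hdvd.trans ?_
      have h5 : (centralizer ({x} : Set G)).map f ≤ centralizer ({f x} : Set (G ⧸ N)) := by
        rintro _ ⟨z, hz, rfl⟩
        have := mem_centralizer_singleton_iff.mp hz
        rw [mem_centralizer_singleton_iff, ← map_mul, this, map_mul]
      exact (Subgroup.index_dvd_of_le h5).trans (Subgroup.index_map_dvd _ hfs)) (P.mapSurjective hfs)
    obtain ⟨Q, rfl⟩ := Sylow.mapSurjective_surjective hfs q Q'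
    refine ⟨Q, ?_⟩
    have h6 : (Q : Subgroup G) ⊔ N = ((Q : Subgroup G).map f).comap f := by
      rw [QuotientGroup.comap_map_mk', sup_comm]
    rw [h6]
    intro x hx
    have h7 : f x ∈ normalizer (((Q : Subgroup G).map f : Subgroup (G ⧸ N)) : Set (G ⧸ N)) :=
      hQ' ⟨x, hx, rfl⟩
    rw [mem_normalizer_iff] at h7 ⊢
    intro z
    rw [mem_comap, mem_comap, map_mul, map_mul, map_inv]
    exact h7 (f z)
  rcases H37.PSolv.core_ne_bot (p := q) hsolv with h1 | h1
  · obtain ⟨Q, hQ⟩ := step _ inferInstance h1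
    refine ⟨Q, ?_⟩
    have h2 : (Q : Subgroup G) ⊔ Cfsg.pCore q G = Q := sup_eq_left.mpr (H1.Cores.pCore_le_sylow Q)
    rwa [h2] at hQ
  · obtain ⟨Q, hQ⟩ := step _ inferInstance h1
    exact exists_norm hpq (Cfsg.pPrimeCore q G) (P : Subgroup G) P.2 Q hQ
      (exists_cent_all _ (H1.Cores.coprime_card_pPrimeCore q) (Q : Subgroup G) Q.2 (by
        intro x hx
        apply exists_cent
        apply h
        obtain ⟨k, hk⟩ := IsPGroup.iff_orderOf.mp Q.2 ⟨x, hx⟩
        exact ⟨k, by rw [← hk, Subgroup.orderOf_mk]⟩))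


/-- Let p and q be primes and G a finite group that is p-solvable or q-solvable, in which no q-element has conjugacy class size divisible by p. Then some Sylow p-subgroup of G normalizes some Sylow q-subgroup of G. -/
theorem result {G : Type*} [Group G] [Finite G] (p q : ℕ) [Fact p.Prime] [Fact q.Prime] (hsolv : Cfsg.IsPSolvable p G ∨ Cfsg.IsPSolvable q G)
    (h : ∀ y : G, (∃ k : ℕ, orderOf y = q ^ k) → ¬ p ∣ (Subgroup.centralizer ({y} : Set G)).index) :
    ∃ (P : Sylow p G) (Q : Sylow q G), (P : Subgroup G) ≤ Subgroup.normalizer ((Q : Subgroup G) : Set G) := by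
  rcases eq_or_ne p q with rfl | hpq
  · obtain ⟨P⟩ : Nonempty (Sylow p G) := inferInstance
    exact ⟨P, P, Subgroup.le_normalizer⟩
  rcases hsolv with hs | hs
  · rw [Cfsg.Agent.S4602.result p q hpq hs]
    intro hdvd
    set K := Cfsg.pPrimeCore p G with hK
    let f := QuotientGroup.mk' K
    have hfs : Function.Surjective f := QuotientGroup.mk'_surjective K
    have hbot : Cfsg.pPrimeCore p (G ⧸ K) = ⊥ := H1.Cores.pPrimeCore_quotient_pPrimeCore p
    have hs' := H37.PSolv.quotient hs K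
    obtain ⟨y, hy⟩ := exists_prime_orderOf_dvd_card' (G := G ⧸ K) q hdvd
    obtain ⟨x, hx, hxy⟩ := lift_elem (q := q) K y ⟨1, by rw [hy, pow_one]⟩
    have h1 := h x hx
    -- C(x) contains a Sylow p-subgroup
    obtain ⟨T, hT, hTx⟩ := exists_cent (p := p) (⊤ : Subgroup G) x h1
    have hTc : Nat.card T = p ^ (Nat.card G).factorization p := by
      rw [hT.2]; simp
    let P : Sylow p G := Sylow.ofCard T hTc
    have h2 : Cfsg.pCore p (G ⧸ K) ≤ T.map f := by
      have := H1.Cores.pCore_le_sylow (P.mapSurjective hfs)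
      simpa [P] using this
    have h3 : zpowers y = ⊥ := by
      apply Cfsg.Agent.S4602.eq_bot_of_centralizes (p := p) (q := q) hpq hs' hbot
      · exact IsPGroup.of_card (n := 1) (by rw [Nat.card_zpowers, hy, pow_one])
      · rw [zpowers_le, mem_centralizer_iff]
        intro z hz
        obtain ⟨t, ht, rfl⟩ := h2 hz
        rw [← hxy]
        show f t * f x = f x * f t
        rw [← map_mul, ← map_mul, mem_centralizer_singleton_iff.mp (hTx ht)]
    rw [zpowers_eq_bot] at h3
    rw [h3, orderOf_one] at hy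
    exact (Fact.out : q.Prime).one_lt.ne hy
  · obtain ⟨P⟩ : Nonempty (Sylow p G) := inferInstance
    obtain ⟨Q, hQ⟩ := main p q hpq _ G rfl hs h P
    exact ⟨P, Q, hQ⟩

end Cfsg.Agent.S4601
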