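import Cfsg.Statements.S4604
import Cfsg.Agent.Lib.H79.PReg

set_option autoImplicit false
open Cfsg

namespace Cfsg.Agent.S4604

open H18.CharBasic in
/-- `χ(x)^(p^n) ≡ χ(x^(p^n))` modulo `p`. -/
theorem pow_congr {G : Type*} [Group G] [Finite G] {p : ℕ} (hp : p.Prime) {χ : G → ℂ}
    (h : Cfsg.IsCharacter G χ) (x : G) (n : ℕ) :
    ∃ γ : Cfsg.AlgInt, χ x ^ (p ^ n) - χ (x ^ (p ^ n)) = (p : ℂ) * (γ : ℂ) := by
  obtain ⟨s, hs⟩ := exists_eigen h x
  have h1 := hs ⟨x, Subgroup.mem_zpowers x⟩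
  have h2 := hs (⟨x, Subgroup.mem_zpowers x⟩ ^ (p ^ n))
  simp only [Subgroup.coe_pow] at h1 h2
  rw [h1, h2]
  clear h1 h2 hs
  -- roots of unity are algebraic integers
  have hint : ∀ f : Subgroup.zpowers x →* ℂˣ, IsIntegral ℤ (f ⟨x, Subgroup.mem_zpowers x⟩ : ℂ) := by
    intro f
    have h3 : (f ⟨x, Subgroup.mem_zpowers x⟩ : ℂ) ^ (Nat.card G) = 1 := by
      have h4 : (f ⟨x, Subgroup.mem_zpowers x⟩) ^ (Nat.card G) = 1 := by
        rw [← map_pow]
        have : (⟨x, Subgroup.mem_zpowers x⟩ : Subgroup.zpowers x) ^ (Nat.card G) = 1 := by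
          ext; simp
        rw [this, map_one]
      rw [← Units.val_pow_eq_pow_val, h4, Units.val_one]
    refine IsIntegral.of_pow (Nat.card_pos (α := G)) ?_
    rw [h3]
    exact isIntegral_one
  let F : (Subgroup.zpowers x →* ℂˣ) → Cfsg.AlgInt := fun f => ⟨_, hint f⟩
  have hF : ∀ f : Subgroup.zpowers x →* ℂˣ, (f ⟨x, Subgroup.mem_zpowers x⟩ : ℂ) = (F f : ℂ) := fun _ => rfl
  have key : ∃ γ : Cfsg.AlgInt, (s.map F).sum ^ (p ^ n) - (s.map fun f => F f ^ (p ^ n)).sum =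
      (p : Cfsg.AlgInt) * γ := by
    induction s using Multiset.induction_on with
    | empty =>
      refine ⟨0, ?_⟩
      simp [zero_pow (pow_pos hp.pos n).ne']
    | cons a t ih =>
      obtain ⟨γ, hγ⟩ := ih
      obtain ⟨r, hr⟩ := exists_add_pow_prime_pow_eq hp (F a) (t.map F).sum n
      refine ⟨γ + F a * (t.map F).sum * r, ?_⟩
      rw [Multiset.map_cons, Multiset.sum_cons, Multiset.map_cons, Multiset.sum_cons, hr, mul_add,
        ← hγ]
      ring
  obtain ⟨γ, hγ⟩ := key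
  refine ⟨γ, ?_⟩
  have h3 := congrArg (fun z : Cfsg.AlgInt => (z : ℂ)) hγ
  simp only [AddSubgroupClass.coe_sub, MulMemClass.coe_mul, SubmonoidClass.coe_pow] at h3
  have h4 : (((s.map F).sum : Cfsg.AlgInt) : ℂ) =
      (s.map fun f => (f ⟨x, Subgroup.mem_zpowers x⟩ : ℂ)).sum := by
    clear hγ h3
    induction s using Multiset.induction_on with
    | empty => simp
    | cons a t ih => simp only [Multiset.map_cons, Multiset.sum_cons, AddMemClass.coe_add, ih]; rfl
  have h5 : (((s.map fun f => F f ^ (p ^ n)).sum : Cfsg.AlgInt) : ℂ) =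
      (s.map fun f => (f (⟨x, Subgroup.mem_zpowers x⟩ ^ (p ^ n)) : ℂ)).sum := by
    clear hγ h3 h4
    induction s using Multiset.induction_on with
    | empty => simp
    | cons a t ih =>
      simp only [Multiset.map_cons, Multiset.sum_cons, AddMemClass.coe_add, ih]
      congr 1
      rw [map_pow, Units.val_pow_eq_pow_val]
      rfl
  rw [h4, h5] at h3
  rw [h3]
  simp


/-- Let G be a finite group, p a prime and p^a the p-part of the order of G. Let x, y ∈ G and let x′, y′ be their p-regular parts: x′ has order prime to p, commutes with x·x′⁻¹, and x·x′⁻¹ has p-power order (likewise for y). Then x′ and y′ are conjugate in G if and only if for every irreducible character χ of G the algebraic integer χ(x)^(p^a) − χ(y)^(p^a) is p times an algebraic integer. -/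
theorem result {G : Type*} [Group G] [Finite G] (p : ℕ) [Fact p.Prime] (x y x' y' : G)
    (hx : (∃ k : ℕ, orderOf (x * x'⁻¹) = p ^ k) ∧ Commute (x * x'⁻¹) x' ∧ ¬ p ∣ orderOf x')
    (hy : (∃ k : ℕ, orderOf (y * y'⁻¹) = p ^ k) ∧ Commute (y * y'⁻¹) y' ∧ ¬ p ∣ orderOf y') :
    IsConj x' y' ↔ ∀ χ : Cfsg.IrrCharacter G, ∃ γ : Cfsg.AlgInt,
      (χ : G → ℂ) x ^ (p ^ (Nat.card G).factorization p) - (χ : G → ℂ) y ^ (p ^ (Nat.card G).factorization p) = (p : ℂ) * (γ : ℂ) := by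
  classical
  have hp : p.Prime := Fact.out
  have := Fintype.ofFinite (Cfsg.IrrCharacter G)
  set q := p ^ (Nat.card G).factorization p with hq
  -- the `q`-th powers of `x` and `x'` agree
  have hpow : ∀ z z' : G, ((∃ k : ℕ, orderOf (z * z'⁻¹) = p ^ k) ∧ Commute (z * z'⁻¹) z' ∧
      ¬ p ∣ orderOf z') → z ^ q = z' ^ q := by
    rintro z z' ⟨⟨k, hk⟩, hc, -⟩
    have h1 : z = (z * z'⁻¹) * z' := by group
    have h2 : (z * z'⁻¹) ^ q = 1 := by
      rw [← orderOf_dvd_iff_pow_eq_one, hk, hq]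
      apply Nat.pow_dvd_pow
      have h3 : p ^ k ∣ Nat.card G := hk ▸ orderOf_dvd_natCard _
      exact (hp.pow_dvd_iff_le_factorization Nat.card_pos.ne').1 h3
    conv_lhs => rw [h1]
    rw [hc.mul_pow, h2, one_mul]
  have hx2 := hpow x x' hx
  have hy2 := hpow y y' hy
  -- reduction to the powers of the `p`-regular parts
  have hcongr : ∀ (z z' : G) (χ : Cfsg.IrrCharacter G), z ^ q = z' ^ q →
      ∃ γ : Cfsg.AlgInt, (χ : G → ℂ) z ^ q - (χ : G → ℂ) (z' ^ q) = (p : ℂ) * (γ : ℂ) := by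
    intro z z' χ h
    obtain ⟨γ, hγ⟩ := pow_congr hp (H18.CharBasic.isCharacter_of_isIrr χ.2) z
      ((Nat.card G).factorization p)
    rw [← hq] at hγ
    exact ⟨γ, by rw [← h]; exact hγ⟩
  constructor
  · intro hconj χ
    obtain ⟨γ₁, h1⟩ := hcongr x x' χ hx2
    obtain ⟨γ₂, h2⟩ := hcongr y y' χ hy2
    refine ⟨γ₁ - γ₂, ?_⟩
    have h3 : (χ : G → ℂ) (x' ^ q) = (χ : G → ℂ) (y' ^ q) :=
      H18.CharBasic.classFunction_isConj (H18.CharBasic.isClassFunction_of_isIrr χ.2)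
        (hconj.pow q)
    rw [AddSubgroupClass.coe_sub, mul_sub, ← h1, ← h2, h3]
    ring
  · intro h
    -- the powers are conjugate
    have hreg : ∀ z' : G, ¬ p ∣ orderOf z' → ¬ p ∣ orderOf (z' ^ q) := fun z' hz' hd =>
      hz' (hd.trans (orderOf_pow_dvd q))
    have hconj : IsConj (x' ^ q) (y' ^ q) := by
      by_contra hnc
      obtain ⟨c, hc, n, hn, hn1, hn2⟩ := H79.PReg.separate (hreg x' hx.2.2)
      have h3 := hn2 (y' ^ q) (hreg y' hy.2.2) hnc
      have h4 : ∀ χ : Cfsg.IrrCharacter G, ∃ γ : Cfsg.AlgInt,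
          (χ : G → ℂ) (x' ^ q) - (χ : G → ℂ) (y' ^ q) = (p : ℂ) * (γ : ℂ) := by
        intro χ
        obtain ⟨γ, hγ⟩ := h χ
        obtain ⟨γ₁, h1⟩ := hcongr x x' χ hx2
        obtain ⟨γ₂, h2⟩ := hcongr y y' χ hy2
        refine ⟨γ - γ₁ + γ₂, ?_⟩
        rw [AddMemClass.coe_add, AddSubgroupClass.coe_sub, mul_add, mul_sub, ← hγ, ← h1, ← h2]
        ring
      choose γ hγ using h4
      have h5 : (n : ℂ) = (p : ℂ) * ∑ χ : Cfsg.IrrCharacter G, c χ * (γ χ : ℂ) := by
        rw [← sub_zero (n : ℂ), ← hn1, ← h3, ← Finset.sum_sub_distrib, Finset.mul_sum]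
        refine Finset.sum_congr rfl fun χ _ => ?_
        rw [← mul_sub, hγ]; ring
      have h6 : IsIntegral ℤ ((n : ℂ) / (p : ℂ)) := by
        have hp0 : (p : ℂ) ≠ 0 := by exact_mod_cast hp.ne_zero
        rw [h5, mul_div_cancel_left₀ _ hp0]
        exact IsIntegral.sum _ fun χ _ => (hc χ).mul (γ χ).2
      exact hn (H4.Integral.dvd_of_isIntegral_div hp.ne_zero h6)
    -- recover `x'` from its `q`-th power
    have hcop : (q : ℕ).Coprime (orderOf x' * orderOf y') := by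
      rw [hq]
      apply Nat.Coprime.pow_left
      exact Nat.Coprime.mul_right (hp.coprime_iff_not_dvd.2 hx.2.2) (hp.coprime_iff_not_dvd.2 hy.2.2)
    have hbez : (1 : ℤ) = (q : ℤ) * Int.gcdA q (orderOf x' * orderOf y' : ℕ) +
        ((orderOf x' * orderOf y' : ℕ) : ℤ) * Int.gcdB q (orderOf x' * orderOf y' : ℕ) := by
      rw [← Int.gcd_eq_gcd_ab]
      have : Int.gcd (q : ℤ) ((orderOf x' * orderOf y' : ℕ) : ℤ) = 1 := by
        rw [Int.gcd_natCast_natCast]; exact hcop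
      rw [this]; rfl
    set a := Int.gcdA q (orderOf x' * orderOf y' : ℕ) with ha
    set b := Int.gcdB q (orderOf x' * orderOf y' : ℕ) with hb
    have hrec : ∀ z : G, orderOf z ∣ orderOf x' * orderOf y' → z = (z ^ q) ^ a := by
      intro z hz
      have h1 : z ^ (((orderOf x' * orderOf y' : ℕ) : ℤ)) = 1 := by
        rw [zpow_natCast]
        exact orderOf_dvd_iff_pow_eq_one.1 hz
      calc z = z ^ (1 : ℤ) := (zpow_one z).symm
        _ = (z ^ q) ^ a := by
          rw [hbez, zpow_add, zpow_mul, zpow_mul, h1, one_zpow, mul_one, zpow_natCast]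
    obtain ⟨c, hc⟩ := isConj_iff.1 hconj
    rw [isConj_iff]
    refine ⟨c, ?_⟩
    rw [hrec x' (Dvd.intro _ rfl), ← conj_zpow, hc, ← hrec y' (Dvd.intro_left _ rfl)]

end Cfsg.Agent.S4604
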