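import Cfsg.Statements.S4607
import Cfsg.Agent.Lib.H79.NilCount

set_option autoImplicit false
open Cfsg

namespace Cfsg.Agent.S4607

theorem centralizes_of_card_two {G : Type*} [Group G] [Finite G] {D : Subgroup G} (h2 : Nat.card D = 2) (x : G)
    (hx : x ∈ Subgroup.normalizer (D : Set G)) : x ∈ Subgroup.centralizer (D : Set G) := by
  rw [Subgroup.mem_centralizer_iff]
  intro y hy
  have hy : y ∈ D := hy
  by_cases h1 : y = 1
  · rw [h1, one_mul, mul_one]
  · have h3 : x * y * x⁻¹ ∈ D := (Subgroup.mem_normalizer_iff.1 hx y).1 hy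
    have h4 : x * y * x⁻¹ ≠ 1 := by
      intro h
      apply h1
      have h5 : y = x⁻¹ * (x * y * x⁻¹) * x := by group
      rw [h5, h]; group
    rw [Nat.card_eq_two_iff' (⟨1, D.one_mem⟩ : D)] at h2
    obtain ⟨z, hz, hz2⟩ := h2
    have h5 : (⟨y, hy⟩ : D) = z := hz2 ⟨y, hy⟩ (fun h => h1 (congrArg Subtype.val h))
    have h6 : (⟨x * y * x⁻¹, h3⟩ : D) = z := hz2 ⟨_, h3⟩ (fun h => h4 (congrArg Subtype.val h))
    have h7 : x * y * x⁻¹ = y := congrArg Subtype.val (h6.trans h5.symm)
    calc y * x = (x * y * x⁻¹) * x := by rw [h7]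
      _ = x * y := by group

/-- Let G be a finite group, p a prime, M a maximal ideal of the algebraic integers containing p, and B a p-block of G with defect group D. Then B contains exactly two irreducible characters if and only if D has order 2. -/
theorem result {G : Type*} [Group G] [Finite G] (p : ℕ) [Fact p.Prime] (M : Ideal Cfsg.AlgInt) (hM : Cfsg.IsPModular p M) (B : Set (Cfsg.IrrCharacter G)) (hB : Cfsg.IsPBlock M B) (D : Subgroup G) (hD : Cfsg.IsDefectGroup p M B D) : Nat.card B = 2 ↔ Nat.card D = 2 := by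
  haveI : M.IsMaximal := hM.2.1
  constructor
  · intro hk
    have h1 := H81.RankCard.rank_le (p := p) B
    have h2 : Cfsg.blockRank p B ≠ 2 := by
      intro h
      have h3 := H81.RankCard.defect_zero_of_eq hM hB (hk.trans h.symm)
      have h4 := (H81.RankCard.rank_of_defect_zero hM hB h3).1
      omega
    have h3 := H79.NilCount.rank_pos hM hB
    have h4 : Cfsg.blockRank p B = 1 := by omega
    have h5 := (H20.Cor.small hM hB h4 (by omega) hD).2
    omega
  · intro h2
    have hab : ∀ x ∈ D, ∀ y ∈ D, x * y = y * x := by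
      intro x hx y hy
      have hc : y ∈ Subgroup.centralizer (D : Set G) :=
        centralizes_of_card_two h2 y (Subgroup.le_normalizer hy)
      exact Subgroup.mem_centralizer_iff.1 hc x hx
    have hnil := H79.NilCount.nilpotent_of_normalizer hM hB hD hab
      (fun x hx => centralizes_of_card_two h2 x hx)
    rw [H79.NilCount.card_of_nilpotent hM hnil hD hab, h2]

end Cfsg.Agent.S4607
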