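import Cfsg.Statements.S4620
import Cfsg.Agent.Lib.H1.Cores
import Cfsg.Agent.Lib.H1.SZ

set_option autoImplicit false
open scoped Pointwise
open Cfsg

namespace Cfsg.Agent.S4620

open Subgroup

/-- the trivial-intersection property of the Sylow `p`-subgroups -/
def TI (p : ℕ) (X : Type*) [Group X] : Prop :=
  ∀ P₁ P₂ : Sylow p X, P₁ ≠ P₂ → (P₁ : Subgroup X) ⊓ P₂ = ⊥

theorem exists_sylow_mem {X : Type*} [Group X] [Finite X] {p : ℕ} [hp : Fact p.Prime] {K : Subgroup X}
    (h : p ∣ Nat.card K) : ∃ x ∈ K, x ≠ 1 ∧ ∃ P : Sylow p X, x ∈ P := by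
  obtain ⟨x, hx⟩ := exists_prime_orderOf_dvd_card' (G := K) p h
  have h1 : orderOf (x : X) = p := by rw [Subgroup.orderOf_coe, hx]
  have h2 : IsPGroup p (zpowers (x : X)) := IsPGroup.of_card (n := 1) (by rw [Nat.card_zpowers, h1, pow_one])
  obtain ⟨P, hP⟩ := h2.exists_le_sylow
  refine ⟨x, x.2, ?_, P, hP (mem_zpowers _)⟩
  intro h3
  rw [h3, orderOf_one] at h1
  exact hp.out.one_lt.ne h1

theorem inter_ne_bot {X : Type*} [Group X] [Finite X] {p : ℕ} [hp : Fact p.Prime]
    (hOp : Cfsg.pCore p X = ⊥) (hOp' : Cfsg.pPrimeCore p X = ⊥) (hTI : TI p X)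
    (K L : Subgroup X) [hK : K.Normal] [hL : L.Normal] (hK1 : K ≠ ⊥) (hL1 : L ≠ ⊥) : K ⊓ L ≠ ⊥ := by
  intro hbot
  have hdvd : ∀ M : Subgroup X, M.Normal → M ≠ ⊥ → p ∣ Nat.card M := by
    intro M hM hM1
    by_contra h
    apply hM1
    rw [eq_bot_iff, ← hOp']
    exact H1.Cores.le_pPrimeCore hM ((Nat.Prime.coprime_iff_not_dvd hp.out).mpr h).symm
  obtain ⟨x, hxK, hx1, P, hxP⟩ := exists_sylow_mem (hdvd K hK hK1)
  have hLP : L ≤ normalizer ((P : Subgroup X) : Set X) := by
    intro l hl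
    by_contra hn
    have h1 : l • P ≠ P := by
      intro h
      exact hn (Sylow.smul_eq_iff_mem_normalizer.mp h)
    have h2 := hTI (l • P) P h1
    have hc : Commute x l := Subgroup.commute_of_normal_of_disjoint K L hK hL (disjoint_iff.mpr hbot) x l hxK hl
    have h3 : x ∈ ((l • P : Sylow p X) : Subgroup X) ⊓ P := by
      refine ⟨?_, hxP⟩
      show x ∈ MulAut.conj l • (P : Subgroup X)
      rw [H1.SZ.mem_conj_smul]
      have : l⁻¹ * x * l = x := by rw [mul_assoc, hc.eq, inv_mul_cancel_left]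
      rwa [this]
    rw [h2] at h3
    exact hx1 h3
  have hPL : (P : Subgroup X) ⊓ L = ⊥ := by
    have h1 : ((P : Subgroup X).subgroupOf L).Normal := by
      have h2 : ((P : Subgroup X) ⊓ L).subgroupOf L = (P : Subgroup X).subgroupOf L :=
        Subgroup.inf_subgroupOf_right _ _
      rw [← h2]
      rw [Subgroup.normal_subgroupOf_iff_le_normalizer inf_le_right]
      intro l hl
      rw [mem_normalizer_iff]
      intro z
      have h3 := (mem_normalizer_iff.mp (hLP hl)) z
      rw [mem_inf, mem_inf, h3]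
      refine and_congr Iff.rfl ?_
      exact ⟨fun h => hL.conj_mem z h l, fun h => by
        have := hL.conj_mem _ h l⁻¹
        simpa [mul_assoc] using this⟩
    have h2 : (P : Subgroup X).subgroupOf L ≤ Cfsg.pCore p L :=
      H1.Cores.le_pCore h1 (P.2.comap_subtype)
    have h3 := Subgroup.map_mono (f := L.subtype) h2
    rw [H1.Cores.map_subtype_pCore, hOp, inf_bot_eq, Subgroup.subgroupOf_map_subtype] at h3
    exact eq_bot_iff.mpr h3
  obtain ⟨y, hyL, hy1, P', hyP'⟩ := exists_sylow_mem (hdvd L hL hL1)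
  obtain ⟨g, rfl⟩ := MulAction.exists_smul_eq X P P'
  have h4 : g⁻¹ * y * g ∈ (P : Subgroup X) := by
    have : y ∈ MulAut.conj g • (P : Subgroup X) := hyP'
    rwa [H1.SZ.mem_conj_smul] at this
  have h5 : g⁻¹ * y * g ∈ L := by
    have := hL.conj_mem y hyL g⁻¹
    simpa using this
  have h6 : g⁻¹ * y * g ∈ (P : Subgroup X) ⊓ L := ⟨h4, h5⟩
  rw [hPL, mem_bot] at h6
  apply hy1
  have h7 : y = g * (g⁻¹ * y * g) * g⁻¹ := by group
  rw [h7, h6]; group


/-- Let H be a finite group with no nontrivial normal p-subgroup and no nontrivial normal subgroup of order prime to p, whose Sylow p-subgroup P is nontrivial and a trivial-intersection set (P meets its conjugates by elements outside N_H(P) trivially). Then H has a unique minimal normal subgroup N; N is non-abelian simple with trivial centralizer in H (so H embeds in Aut(N)), and a Sylow p-subgroup of N is again a nontrivial trivial-intersection set in N. -/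
theorem result {H : Type*} [Group H] [Finite H] (p : ℕ) [Fact p.Prime] (hOp : Cfsg.pCore p H = ⊥) (hOp' : Cfsg.pPrimeCore p H = ⊥) (P : Sylow p H) (hP1 : (P : Subgroup H) ≠ ⊥)
    (hTI : ∀ g : H, g ∉ Subgroup.normalizer ((P : Subgroup H) : Set H) → (P : Subgroup H) ⊓ (MulAut.conj g • (P : Subgroup H)) = ⊥) :
    ∃ N : Subgroup H, N.Normal ∧ N ≠ ⊥ ∧ (∀ K : Subgroup H, K.Normal → K ≠ ⊥ → N ≤ K) ∧
      IsSimpleGroup N ∧ ¬ IsMulCommutative N ∧ Subgroup.centralizer (N : Set H) = ⊥ ∧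
      ∀ Q : Sylow p N, (Q : Subgroup N) ≠ ⊥ ∧
        ∀ n : N, n ∉ Subgroup.normalizer ((Q : Subgroup N) : Set N) → (Q : Subgroup N) ⊓ (MulAut.conj n • (Q : Subgroup N)) = ⊥ := by
  classical
  have hTI' : TI p H := by
    intro P₁ P₂ hne
    obtain ⟨a, rfl⟩ := MulAction.exists_smul_eq H P P₁
    obtain ⟨b, rfl⟩ := MulAction.exists_smul_eq H P P₂
    have h1 : a⁻¹ * b ∉ Subgroup.normalizer ((P : Subgroup H) : Set H) := by
      intro h
      apply hne
      have := Sylow.smul_eq_iff_mem_normalizer.mpr h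
      rw [mul_smul, inv_smul_eq_iff] at this
      exact this.symm
    have h2 := hTI _ h1
    rw [eq_bot_iff]
    rintro x ⟨hx1, hx2⟩
    have hx1' : a⁻¹ * x * a ∈ (P : Subgroup H) := by
      have : x ∈ MulAut.conj a • (P : Subgroup H) := hx1
      rwa [H1.SZ.mem_conj_smul] at this
    have hx2' : b⁻¹ * x * b ∈ (P : Subgroup H) := by
      have : x ∈ MulAut.conj b • (P : Subgroup H) := hx2
      rwa [H1.SZ.mem_conj_smul] at this
    have h3 : a⁻¹ * x * a ∈ (P : Subgroup H) ⊓ (MulAut.conj (a⁻¹ * b) • (P : Subgroup H)) := by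
      refine ⟨hx1', ?_⟩
      show _ ∈ MulAut.conj (a⁻¹ * b) • (P : Subgroup H)
      rw [H1.SZ.mem_conj_smul]
      have : (a⁻¹ * b)⁻¹ * (a⁻¹ * x * a) * (a⁻¹ * b) = b⁻¹ * x * b := by group
      rwa [this]
    rw [h2, mem_bot] at h3
    rw [mem_bot]
    have h7 : x = a * (a⁻¹ * x * a) * a⁻¹ := by group
    rw [h7, h3]; group
  -- the trivial intersection property is inherited by subgroups
  have hTIsub : ∀ N : Subgroup H, TI p N := by
    intro N Q₁ Q₂ hne
    obtain ⟨P₁, hP₁⟩ := (Q₁.2.map N.subtype).exists_le_sylow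
    obtain ⟨P₂, hP₂⟩ := (Q₂.2.map N.subtype).exists_le_sylow
    have hQ : ∀ (Q : Sylow p N) (P : Sylow p H), (Q : Subgroup N).map N.subtype ≤ P →
        (Q : Subgroup N) = (P : Subgroup H).subgroupOf N := by
      intro Q P h
      have h1 : (Q : Subgroup N) ≤ (P : Subgroup H).subgroupOf N := by
        rw [Subgroup.subgroupOf, ← Subgroup.map_le_iff_le_comap]; exact h
      exact (Q.3 P.2.comap_subtype h1).symm
    have hne' : P₁ ≠ P₂ := by
      rintro rfl
      exact hne (Sylow.ext ((hQ _ _ hP₁).trans (hQ _ _ hP₂).symm))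
    have h1 := hTI' P₁ P₂ hne'
    rw [hQ _ _ hP₁, hQ _ _ hP₂]
    rw [eq_bot_iff]
    rintro x ⟨hx1, hx2⟩
    have : (x : H) ∈ (P₁ : Subgroup H) ⊓ P₂ := ⟨hx1, hx2⟩
    rw [h1, mem_bot] at this
    exact Subtype.ext this
  have hTI2 : ∀ {X : Type _} [Group X] [Finite X], TI p X → ∀ (Q : Sylow p X) (n : X),
      n ∉ Subgroup.normalizer ((Q : Subgroup X) : Set X) → (Q : Subgroup X) ⊓ (MulAut.conj n • (Q : Subgroup X)) = ⊥ := by
    intro X _ _ h Q n hn
    have : Q ≠ n • Q := fun h' => hn (Sylow.smul_eq_iff_mem_normalizer.mp h'.symm)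
    exact h Q (n • Q) this
  -- minimal normal subgroup
  have hfin : {K : Subgroup H | K.Normal ∧ K ≠ ⊥}.Finite := Set.toFinite _
  have hHnt : (⊤ : Subgroup H) ≠ ⊥ := by
    intro h
    exact hP1 (eq_bot_iff.mpr (h ▸ le_top))
  obtain ⟨N, ⟨hN, hN1⟩, hmin⟩ := hfin.exists_minimal ⟨⊤, inferInstance, hHnt⟩
  have hmin' : ∀ K : Subgroup H, K.Normal → K ≠ ⊥ → N ≤ K := by
    intro K hK hK1
    have h1 := inter_ne_bot hOp hOp' hTI' N K hN1 hK1
    have h2 : N ≤ N ⊓ K := hmin ⟨inferInstance, h1⟩ inf_le_left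
    exact h2.trans inf_le_right
  have hOpN : Cfsg.pCore p N = ⊥ := by
    have := H1.Cores.map_subtype_pCore p N
    rw [hOp, inf_bot_eq] at this
    exact (Subgroup.map_eq_bot_iff_of_injective _ N.subtype_injective).mp this
  have hOpN' : Cfsg.pPrimeCore p N = ⊥ := by
    have := H1.Cores.map_subtype_pPrimeCore p N
    rw [hOp', inf_bot_eq] at this
    exact (Subgroup.map_eq_bot_iff_of_injective _ N.subtype_injective).mp this
  have hpN : p ∣ Nat.card N := by
    by_contra h
    apply hN1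
    rw [eq_bot_iff, ← hOp']
    exact H1.Cores.le_pPrimeCore hN ((Nat.Prime.coprime_iff_not_dvd (Fact.out : p.Prime)).mpr h).symm
  have hQ1 : ∀ Q : Sylow p N, (Q : Subgroup N) ≠ ⊥ := by
    intro Q hQ
    apply Q.not_dvd_index
    rw [hQ, Subgroup.index_bot]
    exact hpN
  have hnc : ¬ IsMulCommutative N := by
    intro hc
    obtain ⟨Q⟩ : Nonempty (Sylow p N) := inferInstance
    apply hQ1 Q
    have hQn : (Q : Subgroup N).Normal := ⟨fun x hx g => by
      have := hc.1.comm g x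
      rw [this, mul_inv_cancel_right]; exact hx⟩
    rw [eq_bot_iff, ← hOpN]
    exact H1.Cores.le_pCore hQn Q.2
  refine ⟨N, hN, hN1, hmin', ?_, hnc, ?_, ?_⟩
  · -- simple
    have hfin2 : {K : Subgroup N | K.Normal ∧ K ≠ ⊥}.Finite := Set.toFinite _
    have hNnt : (⊤ : Subgroup N) ≠ ⊥ := by
      intro h
      have h1 := congrArg (Subgroup.map N.subtype) h
      rw [← MonoidHom.range_eq_map, Subgroup.range_subtype, Subgroup.map_bot] at h1
      exact hN1 h1
    obtain ⟨S, ⟨hS, hS1⟩, hSmin⟩ := hfin2.exists_minimal ⟨⊤, inferInstance, hNnt⟩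
    have hSmin' : ∀ K : Subgroup N, K.Normal → K ≠ ⊥ → S ≤ K := by
      intro K hK hK1
      have h1 := inter_ne_bot hOpN hOpN' (hTIsub N) S K hS1 hK1
      have h2 : S ≤ S ⊓ K := hSmin ⟨inferInstance, h1⟩ inf_le_left
      exact h2.trans inf_le_right
    haveI hSchar : S.Characteristic := by
      rw [Subgroup.characteristic_iff_le_map]
      intro φ
      apply hSmin'
      · exact hS.map _ φ.surjective
      · intro h
        exact hS1 ((Subgroup.map_eq_bot_iff_of_injective _ φ.injective).mp h)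
    have h1 : N ≤ S.map N.subtype := hmin' _ inferInstance (by
      intro h
      exact hS1 ((Subgroup.map_eq_bot_iff_of_injective _ N.subtype_injective).mp h))
    have h2 : S = ⊤ := by
      rw [eq_top_iff]
      intro x _
      obtain ⟨y, hy, hyx⟩ := h1 x.2
      have : y = x := Subtype.ext hyx
      rwa [← this]
    haveI : Nontrivial N := (Subgroup.nontrivial_iff_ne_bot N).mpr hN1
    refine ⟨fun M hM => ?_⟩
    by_cases hM1 : M = ⊥
    · exact Or.inl hM1
    · right
      rw [eq_top_iff, ← h2]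
      exact hSmin' M hM hM1
  · by_contra h
    have h1 := hmin' _ (inferInstance : (Subgroup.centralizer (N : Set H)).Normal) h
    exact hnc ⟨⟨fun a b => Subtype.ext (h1 b.2 a a.2)⟩⟩
  · intro Q
    exact ⟨hQ1 Q, hTI2 (hTIsub N) Q⟩

end Cfsg.Agent.S4620
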