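import Cfsg.Statements.S4627
import Cfsg.Agent.Lib.H79.GLPow

set_option autoImplicit false
open Cfsg

namespace Cfsg.Agent.S4627

open Subgroup H79.SylElem H79.WrGd H79.GLWr Matrix Equiv in
open scoped MatrixGroups in
theorem aux {F : Type*} [Field F] [Fintype F] (hq : Fintype.card F % 4 = 3) (m : ℕ) (hm : 1 ≤ m)
    (P : Sylow 2 (Matrix.SpecialLinearGroup (Fin (2 * m)) F)) :
    ∀ x : (P : Subgroup (Matrix.SpecialLinearGroup (Fin (2 * m)) F)), x ^ 2 ∈ commutator (P : Subgroup (Matrix.SpecialLinearGroup (Fin (2 * m)) F)) := by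
  have e : J (Fin 2) m Empty ≃ Fin (2 * m) := Fintype.equivFinOfCardEq (by simp)
  refine transfer e (fun P' => main hq hm ⊤ ∅ ?_ ?_ ?_ 0 ?_ ?_ P') P
  · exact Set.empty_subset _
  · intro x _
    rw [Subsingleton.elim x 1]
    exact one_mem _
  · intro y' hy'
    exact absurd hy' (Set.notMem_empty _)
  · rw [Subgroup.card_top]; exact Nat.card_unique
  · rw [Fintype.card_empty, add_zero, add_zero]


/-- Let F be a finite field of odd order q and m ≥ 1. If 4 divides q + 1, or if 4 divides q − 1 and m is a power of 2, then a Sylow 2-subgroup P of SL_{2m}(F) has P/P' elementary abelian: the square of every element of P lies in the derived subgroup of P. -/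
theorem result {F : Type*} [Field F] [Fintype F] (hF : Odd (Fintype.card F)) (m : ℕ) (hm : 1 ≤ m)
    (hq : 4 ∣ Fintype.card F + 1 ∨ (4 ∣ Fintype.card F - 1 ∧ ∃ j : ℕ, m = 2 ^ j)) (P : Sylow 2 (Matrix.SpecialLinearGroup (Fin (2 * m)) F)) :
    ∀ x : (P : Subgroup (Matrix.SpecialLinearGroup (Fin (2 * m)) F)), x ^ 2 ∈ commutator (P : Subgroup (Matrix.SpecialLinearGroup (Fin (2 * m)) F)) := by
  have hq1 : 1 < Fintype.card F := Fintype.one_lt_card
  rcases hq with h | ⟨h, j, rfl⟩
  · exact aux (by omega) m hm P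
  · exact H79.SylElem.gd_iff.1 (H79.GLPow.main (by have := Nat.odd_iff.1 hF; omega) j (Fin (2 * 2 ^ j))
      (by rw [Fintype.card_fin, pow_succ, mul_comm]) P)

end Cfsg.Agent.S4627
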