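import Cfsg.Statements.S4628
import Cfsg.Agent.Lib.H79.GLWr

set_option autoImplicit false
open Cfsg

namespace Cfsg.Agent.S4628

open Subgroup H79.SylElem H79.WrGd H79.GLWr Matrix Equiv in
open scoped MatrixGroups in
theorem aux {F : Type*} [Field F] [Fintype F] (hq : Fintype.card F % 4 = 3) (m : ℕ) (hm : 1 ≤ m)
    (P : Sylow 2 (Matrix.SpecialLinearGroup (Fin (2 * m + 1)) F)) :
    ∀ x : (P : Subgroup (Matrix.SpecialLinearGroup (Fin (2 * m + 1)) F)), x ^ 2 ∈ commutator (P : Subgroup (Matrix.SpecialLinearGroup (Fin (2 * m + 1)) F)) := by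
  have hq1 : 1 < Fintype.card F := Fintype.one_lt_card
  have hF : Odd (Fintype.card F) := Nat.odd_iff.2 (by omega)
  have h2 : (2 : F) ≠ 0 := H6.SL2Tor.two_ne_zero_of_odd hF
  let y : GL Unit F := -1
  have hy2 : y ^ 2 = 1 := by simp [y]
  have hyd : GeneralLinearGroup.det y = -1 := by
    apply Units.ext
    simp [y]
  have hy1 : y ≠ 1 := by
    intro h
    rw [h, map_one] at hyd
    have h3 := congrArg Units.val hyd
    simp only [Units.val_neg, Units.val_one] at h3
    apply h2
    linear_combination h3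
  have e : J (Fin 2) m Unit ≃ Fin (2 * m + 1) := Fintype.equivFinOfCardEq (by simp)
  refine transfer e (fun P' => main hq hm (zpowers y) {y} ?_ ?_ ?_ 1 ?_ ?_ P') P
  · exact Set.singleton_subset_iff.2 (mem_zpowers y)
  · rw [zpowers_eq_closure]
  · intro y' hy'
    rw [Set.mem_singleton_iff.1 hy']
    exact ⟨hy2, hyd⟩
  · rw [Nat.card_zpowers]
    haveI : Fact (Nat.Prime 2) := ⟨Nat.prime_two⟩
    rw [orderOf_eq_prime hy2 hy1, pow_one]
  · rw [Fintype.card_unit, Finset.sum_range_succ, H79.ValQ.val_odd_sub hF hq1 ⟨m, rfl⟩,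
      H79.ValQ.val_sub_one hq]


/-- Let F be a finite field of odd order q with 4 dividing q + 1, and m ≥ 1. Then a Sylow 2-subgroup P of SL_{2m+1}(F) has P/P' elementary abelian: the square of every element of P lies in the derived subgroup of P. -/
theorem result {F : Type*} [Field F] [Fintype F] (hF : Odd (Fintype.card F)) (hq : 4 ∣ Fintype.card F + 1) (m : ℕ) (hm : 1 ≤ m) (P : Sylow 2 (Matrix.SpecialLinearGroup (Fin (2 * m + 1)) F)) :
    ∀ x : (P : Subgroup (Matrix.SpecialLinearGroup (Fin (2 * m + 1)) F)), x ^ 2 ∈ commutator (P : Subgroup (Matrix.SpecialLinearGroup (Fin (2 * m + 1)) F)) := by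
  exact aux (by have := Nat.odd_iff.1 hF; omega) m hm P

end Cfsg.Agent.S4628
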