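import Cfsg.Statements.S4741
import Cfsg.Agent.Lib.H81.BlockDet

set_option autoImplicit false
open Cfsg

namespace Cfsg.Agent.S4741

/-- Let p be a prime, M a maximal ideal of the algebraic integers containing p, and D a subgroup of the finite group G. Let x₁, …, x_r be pairwise non-conjugate elements of G such that D is a Sylow p-subgroup of the centralizer of each xᵢ, and such that for any conjugates g of some xᵢ and h of some xⱼ the element g h⁻¹ is never a non-identity p-element. Then there are r distinct p-blocks B₁, …, B_r of G, each having D as a defect group, such that for every choice of characters χᵢ ∈ Bᵢ of height zero the determinant of the r × r matrix (χᵢ(xⱼ)) does not lie in the local ideal at M. -/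
theorem result {G : Type*} [Group G] [Finite G] (p : ℕ) [Fact p.Prime] (M : Ideal Cfsg.AlgInt) (hM : Cfsg.IsPModular p M) (D : Subgroup G) {r : ℕ} (x : Fin r → G) (hx : ∀ i j : Fin r, IsConj (x i) (x j) → i = j) (hD : ∀ i : Fin r, ∃ S : Sylow p ↥(Subgroup.centralizer ({x i} : Set G)), (S : Subgroup ↥(Subgroup.centralizer ({x i} : Set G))).map (Subgroup.centralizer ({x i} : Set G)).subtype = D) (hsep : ∀ i j : Fin r, ∀ g h : G, IsConj (x i) g → IsConj (x j) h → ∀ k : ℕ, 0 < k → orderOf (g * h⁻¹) ≠ p ^ k) : ∃ B : Fin r → Set (Cfsg.IrrCharacter G), Function.Injective B ∧ (∀ i : Fin r, Cfsg.IsPBlock M (B i) ∧ Cfsg.IsDefectGroup p M (B i) D) ∧ ∀ χ : Fin r → Cfsg.IrrCharacter G, (∀ i : Fin r, χ i ∈ B i ∧ Cfsg.blockHeight p (B i) (χ i : G → ℂ) = 0) → ¬ Cfsg.MemLocalIdeal M (Matrix.det (Matrix.of fun i j : Fin r => (χ i : G → ℂ) (x j))) := by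
  classical
  haveI := hM.2.1
  letI : Fintype (IrrCharacter G) := Fintype.ofFinite _
  have hne : ∀ B : {B : Set (IrrCharacter G) // IsPBlock M B}, ∃ χ, χ ∈ B.1 :=
    fun B => H20.Blk.isPBlock_nonempty B.2
  choose ξ hξ using hne
  obtain ⟨a, ha, h1, h2⟩ := H81.BlockDet.exists_blocks hM x D hx hD hsep ξ hξ
  refine ⟨fun i => (a i).1, fun i j hij => ha (Subtype.ext hij), fun i => ⟨(a i).2, h1 i⟩, ?_⟩
  intro χ hχ
  exact H81.BlockDet.det_not_mem hM x D hD (fun i => (a i).1) (fun i => (a i).2) h1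
    (fun i => ξ (a i)) (fun i => hξ (a i)) h2 χ hχ


end Cfsg.Agent.S4741
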