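import Cfsg.Statements.S4743
import Cfsg.Agent.Lib.H81.DefectZero

set_option autoImplicit false
open Cfsg

namespace Cfsg.Agent.S4743

universe u

theorem orderOf_prime_of_dvd {G : Type u} [Group G] [Finite G] (H : Subgroup G) {r : ℕ} [Fact r.Prime]
    (h : r ∣ Nat.card H) : ∃ z ∈ H, orderOf z = r := by
  obtain ⟨y, hy⟩ := exists_prime_orderOf_dvd_card' r h
  exact ⟨y, y.2, by rw [Subgroup.orderOf_coe]; exact hy⟩

theorem conj_mem {G : Type u} [Group G] {H : Subgroup G} (hH : H.Normal) {z g : G} (hz : z ∈ H)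
    (h : IsConj z g) : g ∈ H := by
  obtain ⟨c, hc⟩ := isConj_iff.1 h
  rw [← hc]; exact hH.conj_mem z hz c

theorem false_of_psolvable {G : Type u} [Group G] [Finite G] {p q : ℕ} [Fact p.Prime] [Fact q.Prime]
    (hpq : p ≠ q) (hqG : q ∣ Nat.card G)
    (hA : ∀ z : G, z ≠ 1 → (∃ k : ℕ, orderOf z = q ^ k) → ∃ g h : G, IsConj z g ∧ IsConj z h ∧
      g * h⁻¹ ≠ 1 ∧ ∃ k : ℕ, orderOf (g * h⁻¹) = p ^ k)
    (hB : ∀ z : G, z ≠ 1 → (∃ k : ℕ, orderOf z = p ^ k) → ∃ g h : G, IsConj z g ∧ IsConj z h ∧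
      g * h⁻¹ ≠ 1 ∧ ∃ k : ℕ, orderOf (g * h⁻¹) = q ^ k)
    (hs : IsPSolvable p G) : False := by
  classical
  have hp : p.Prime := Fact.out
  have hq : q.Prime := Fact.out
  obtain ⟨n, H, h0, hn, hmono, hnorm, hfac⟩ := hs
  -- nontrivial r-element in a subgroup forces r to divide its order
  have hdiv : ∀ (K : Subgroup G) (r : ℕ), r.Prime → ∀ x ∈ K, x ≠ 1 → (∃ k : ℕ, orderOf x = r ^ k) →
      r ∣ Nat.card K := by
    rintro K r hr x hx hx1 ⟨k, hk⟩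
    have hk0 : k ≠ 0 := by
      rintro rfl
      rw [pow_zero, orderOf_eq_one_iff] at hk
      exact hx1 hk
    have h1 : orderOf (⟨x, hx⟩ : K) ∣ Nat.card K := orderOf_dvd_natCard _
    rw [Subgroup.orderOf_mk, hk] at h1
    exact (dvd_pow_self r hk0).trans h1
  -- minimal index with q dividing the order
  have hexq : ∃ i : ℕ, ∃ hi : i < n + 1, q ∣ Nat.card (H ⟨i, hi⟩) := by
    refine ⟨n, Nat.lt_succ_self n, ?_⟩
    have : (⟨n, Nat.lt_succ_self n⟩ : Fin (n + 1)) = Fin.last n := rfl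
    rw [this, hn, Subgroup.card_top]; exact hqG
  let i := Nat.find hexq
  obtain ⟨hi, hqi⟩ := Nat.find_spec hexq
  have hi0 : i ≠ 0 := by
    intro h
    have h2 : (⟨i, hi⟩ : Fin (n + 1)) = 0 := by
      apply Fin.ext; simp [h]
    change q ∣ Nat.card (H ⟨i, hi⟩) at hqi
    rw [h2, h0, Subgroup.card_bot] at hqi
    exact hq.one_lt.ne' (Nat.dvd_one.1 hqi)
  obtain ⟨i', hi'⟩ := Nat.exists_eq_succ_of_ne_zero hi0
  have hi'n : i' < n := by omega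
  have hi'n1 : i' < n + 1 := by omega
  have hmin : ¬ q ∣ Nat.card (H ⟨i', hi'n1⟩) := by
    intro h
    have := Nat.find_min' hexq ⟨hi'n1, h⟩
    change i ≤ i' at this
    omega
  have hsucc : (⟨i, hi⟩ : Fin (n + 1)) = (⟨i', hi'n⟩ : Fin n).succ := by
    apply Fin.ext; simp [hi']
  have hcast : (⟨i', hi'n1⟩ : Fin (n + 1)) = (⟨i', hi'n⟩ : Fin n).castSucc := rfl
  change q ∣ Nat.card (H ⟨i, hi⟩) at hqi
  have hle : H ⟨i', hi'n1⟩ ≤ H ⟨i, hi⟩ := by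
    apply hmono
    rw [Fin.mk_le_mk]; omega
  have hrel : Nat.card (H ⟨i', hi'n1⟩) * (H ⟨i', hi'n1⟩).relIndex (H ⟨i, hi⟩) =
      Nat.card (H ⟨i, hi⟩) := by
    rw [← Subgroup.relIndex_bot_left, ← Subgroup.relIndex_bot_left]
    exact Subgroup.relIndex_mul_relIndex _ _ _ bot_le hle
  have hqrel : q ∣ (H ⟨i', hi'n1⟩).relIndex (H ⟨i, hi⟩) := by
    rw [← hrel] at hqi
    exact (hq.dvd_mul.1 hqi).resolve_left hmin
  have hcop : ((H ⟨i', hi'n1⟩).relIndex (H ⟨i, hi⟩)).Coprime p := by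
    rcases hfac ⟨i', hi'n⟩ with ⟨m, hm⟩ | h
    · exfalso
      rw [← hcast, ← hsucc] at hm
      rw [hm] at hqrel
      exact hpq ((Nat.prime_dvd_prime_iff_eq hq hp).1 (hq.dvd_of_dvd_pow hqrel)).symm
    · rw [← hcast, ← hsucc] at h; exact h
  -- first step
  obtain ⟨z, hz, hzq⟩ := orderOf_prime_of_dvd (H ⟨i, hi⟩) hqi
  have hz1 : z ≠ 1 := by
    rintro rfl; rw [orderOf_one] at hzq; exact hq.one_lt.ne hzq
  obtain ⟨g, h, hg, hh, hne, k, hk⟩ := hA z hz1 ⟨1, by rw [hzq, pow_one]⟩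
  have hmem : g * h⁻¹ ∈ H ⟨i, hi⟩ :=
    mul_mem (conj_mem (hnorm _) hz hg) (inv_mem (conj_mem (hnorm _) hz hh))
  have hmem' : g * h⁻¹ ∈ H ⟨i', hi'n1⟩ := by
    have := hnorm ⟨i', hi'n1⟩
    have : ((H ⟨i', hi'n1⟩).subgroupOf (H ⟨i, hi⟩)).Normal := inferInstance
    have h1 := (H ⟨i', hi'n1⟩).subgroupOf (H ⟨i, hi⟩) |>.pow_index_mem (⟨g * h⁻¹, hmem⟩ : H ⟨i, hi⟩)
    rw [Subgroup.mem_subgroupOf] at h1
    change (g * h⁻¹) ^ ((H ⟨i', hi'n1⟩).relIndex (H ⟨i, hi⟩)) ∈ H ⟨i', hi'n1⟩ at h1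
    have hc2 : (orderOf (g * h⁻¹)).Coprime ((H ⟨i', hi'n1⟩).relIndex (H ⟨i, hi⟩)) := by
      rw [hk]; exact (Nat.Coprime.pow_left k hcop.symm)
    obtain ⟨m, hm⟩ := exists_pow_eq_self_of_coprime hc2.symm
    rw [← hm]
    exact pow_mem h1 m
  have hpi' : p ∣ Nat.card (H ⟨i', hi'n1⟩) := hdiv _ p hp _ hmem' hne ⟨k, hk⟩
  obtain ⟨y, hy, hyp⟩ := orderOf_prime_of_dvd (H ⟨i', hi'n1⟩) hpi'
  have hy1 : y ≠ 1 := by
    rintro rfl; rw [orderOf_one] at hyp; exact hp.one_lt.ne hyp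
  obtain ⟨g2, h2, hg2, hh2, hne2, k2, hk2⟩ := hB y hy1 ⟨1, by rw [hyp, pow_one]⟩
  have hmem2 : g2 * h2⁻¹ ∈ H ⟨i', hi'n1⟩ :=
    mul_mem (conj_mem (hnorm _) hy hg2) (inv_mem (conj_mem (hnorm _) hy hh2))
  exact hmin (hdiv _ q hq _ hmem2 hne2 ⟨k2, hk2⟩)

/-- Let p ≠ q be primes dividing the order of the finite group G, suppose the centralizer of every non-identity p-element has order prime to q, and suppose G is p-solvable or q-solvable. Then G has an irreducible character of p-defect zero or an irreducible character of q-defect zero. -/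
theorem result {G : Type*} [Group G] [Finite G] (p q : ℕ) [Fact p.Prime] [Fact q.Prime] (hppq : p ≠ q) (hpG : p ∣ Nat.card G) (hqG : q ∣ Nat.card G) (hC : ∀ g : G, g ≠ 1 → (∃ k : ℕ, orderOf g = p ^ k) → ¬ q ∣ Nat.card ↥(Subgroup.centralizer ({g} : Set G))) (hsolv : Cfsg.IsPSolvable p G ∨ Cfsg.IsPSolvable q G) : (∃ χ : Cfsg.IrrCharacter G, (Cfsg.charDegree (χ : G → ℂ)).factorization p = (Nat.card G).factorization p) ∨ (∃ χ : Cfsg.IrrCharacter G, (Cfsg.charDegree (χ : G → ℂ)).factorization q = (Nat.card G).factorization q) := by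
  by_contra hcon
  push Not at hcon
  have hnop : ¬ H81.DefectZero.HasDZ p G := fun ⟨χ, h⟩ => hcon.1 χ h
  have hnoq : ¬ H81.DefectZero.HasDZ q G := fun ⟨χ, h⟩ => hcon.2 χ h
  have hC' : ∀ g : G, g ≠ 1 → (∃ k : ℕ, orderOf g = q ^ k) →
      ¬ p ∣ Nat.card ↥(Subgroup.centralizer ({g} : Set G)) := fun g hg1 hg =>
    H81.DefectZero.centralizer_symm hC hg1 hg
  have hA : ∀ z : G, z ≠ 1 → (∃ k : ℕ, orderOf z = q ^ k) → ∃ g h : G, IsConj z g ∧ IsConj z h ∧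
      g * h⁻¹ ≠ 1 ∧ ∃ k : ℕ, orderOf (g * h⁻¹) = p ^ k := fun z hz hzq =>
    H81.DefectZero.defectZero_or hC hnop hz hzq
  have hB : ∀ z : G, z ≠ 1 → (∃ k : ℕ, orderOf z = p ^ k) → ∃ g h : G, IsConj z g ∧ IsConj z h ∧
      g * h⁻¹ ≠ 1 ∧ ∃ k : ℕ, orderOf (g * h⁻¹) = q ^ k := fun z hz hzq =>
    H81.DefectZero.defectZero_or hC' hnoq hz hzq
  rcases hsolv with h | h
  · exact false_of_psolvable hppq hqG hA hB h
  · exact false_of_psolvable hppq.symm hpG hB hA h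

end Cfsg.Agent.S4743
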