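import Cfsg.Statements.S4744
import Cfsg.Agent.Lib.H81.InvertMain

set_option autoImplicit false
open Cfsg

namespace Cfsg.Agent.S4744

/-- Let p be an odd prime and G a finite group of even order divisible by p in which the centralizer of every non-identity p-element has odd order. Then either G has an irreducible character of p-defect zero, or the normalizer of every Sylow p-subgroup P of G has even order and P is abelian. -/
theorem result {G : Type*} [Group G] [Finite G] (p : ℕ) [Fact p.Prime] (hp2 : p ≠ 2) (hpG : p ∣ Nat.card G) (h2G : 2 ∣ Nat.card G) (hC : ∀ g : G, g ≠ 1 → (∃ k : ℕ, orderOf g = p ^ k) → Odd (Nat.card ↥(Subgroup.centralizer ({g} : Set G)))) : (∃ χ : Cfsg.IrrCharacter G, (Cfsg.charDegree (χ : G → ℂ)).factorization p = (Nat.card G).factorization p) ∨ ∀ P : Sylow p G, Even (Nat.card ↥(Subgroup.normalizer ((P : Subgroup G) : Set G))) ∧ IsMulCommutative ↥(P : Subgroup G) := by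
  by_cases hno : H81.DefectZero.HasDZ p G
  · exact Or.inl hno
  right
  intro P
  have h2 : Fact (Nat.Prime 2) := ⟨Nat.prime_two⟩
  obtain ⟨t, ht⟩ := exists_prime_orderOf_dvd_card' 2 h2G
  obtain ⟨s, hs, hsP⟩ := H81.InvertMain.exists_conj_inverting hC hno ht P
  refine ⟨?_, H81.InvertMain.isMulCommutative_of_inverted (s := s) hsP⟩
  have hso : orderOf s = 2 := by
    obtain ⟨c, hc⟩ := isConj_iff.1 hs
    rw [← hc, H5.Dihedral.orderOf_conj]; exact ht
  have hsN : s ∈ Subgroup.normalizer ((P : Subgroup G) : Set G) := by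
    have hs2 : s * s = 1 := H5.Dihedral.mul_self hso
    have hsinv : s⁻¹ = s := inv_eq_of_mul_eq_one_left hs2
    rw [Subgroup.mem_normalizer_iff]
    intro x
    constructor
    · intro hx
      rw [hsP x hx]; exact inv_mem hx
    · intro hx
      have h1 := hsP _ hx
      have h2 : s * (s * x * s⁻¹) * s⁻¹ = x := by
        rw [hsinv]
        calc s * (s * x * s) * s = (s * s) * x * (s * s) := by group
          _ = x := by rw [hs2]; simp
      rw [h2] at h1
      rw [h1]; exact inv_mem hx
  have h3 : orderOf (⟨s, hsN⟩ : Subgroup.normalizer ((P : Subgroup G) : Set G)) ∣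
    Nat.card ↥(Subgroup.normalizer ((P : Subgroup G) : Set G)) := orderOf_dvd_natCard _
  rw [Subgroup.orderOf_mk, hso] at h3
  exact even_iff_two_dvd.2 h3

end Cfsg.Agent.S4744
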