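import Cfsg.Statements.S4746
import Cfsg.Agent.Lib.H81.DefectZero
import Cfsg.Agent.Lib.H18.CharInd

set_option autoImplicit false
open Cfsg
open scoped ComplexConjugate

namespace Cfsg.Agent.S4746

universe u

theorem two_dvd_sq_sum {R ι : Type*} [CommRing R] (s : Finset ι) (a : ι → R) :
    (2 : R) ∣ (∑ i ∈ s, a i) ^ 2 - ∑ i ∈ s, a i ^ 2 := by
  classical
  induction s using Finset.induction_on with
  | empty => simp
  | insert j s hj ih =>
    rw [Finset.sum_insert hj, Finset.sum_insert hj]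
    obtain ⟨t, ht⟩ := ih
    exact ⟨t + a j * ∑ i ∈ s, a i, by linear_combination ht⟩

/-- If `y` is real with centralizer of odd order in a group of even order, then some irreducible
character has even degree. -/
theorem exists_even_degree {G : Type u} [Group G] [Finite G] (hG : Even (Nat.card G)) (y : G)
    (hreal : IsConj y y⁻¹) (hodd : Odd (Nat.card (Subgroup.centralizer ({y} : Set G)))) :
    ∃ χ : IrrCharacter G, Even (charDegree (χ : G → ℂ)) := by
  classical
  let := Fintype.ofFinite (IrrCharacter G)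
  let := Fintype.ofFinite G
  by_contra hcon
  push Not at hcon
  have hy1 : y ≠ 1 := by
    rintro rfl
    have h1 : Subgroup.centralizer ({(1 : G)} : Set G) = ⊤ := by
      ext x; simp [Subgroup.mem_centralizer_singleton_iff]
    rw [h1, Subgroup.card_top] at hodd
    exact (Nat.not_even_iff_odd.2 hodd) hG
  -- algebraic integers
  have hint : ∀ χ : IrrCharacter G, IsIntegral ℤ ((χ : G → ℂ) y) := fun χ =>
    H18.CharBasic.char_isIntegral (H18.CharBasic.isCharacter_of_isIrr χ.2) y
  let a : IrrCharacter G → AlgInt := fun χ => ⟨(χ : G → ℂ) y, hint χ⟩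
  have ha : ∀ χ, ((a χ : AlgInt) : ℂ) = (χ : G → ℂ) y := fun χ => rfl
  -- sum of squares
  have hsq : ∑ χ : IrrCharacter G, ((χ : G → ℂ) y) ^ 2 =
      (Nat.card (Subgroup.centralizer ({y} : Set G)) : ℂ) := by
    have h1 := H18.CharInd.column_orthogonality (G := G) y y
    rw [if_pos (IsConj.refl y)] at h1
    rw [← h1]
    refine Finset.sum_congr rfl fun χ _ => ?_
    have h2 : conj ((χ : G → ℂ) y) = (χ : G → ℂ) y := by
      rw [← H18.CharBasic.char_inv (H18.CharBasic.isCharacter_of_isIrr χ.2)]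
      exact (H18.CharBasic.classFunction_isConj (H18.CharBasic.isClassFunction_of_isIrr χ.2)
        hreal).symm
    rw [h2, pow_two]
  have hsum : ∑ χ : IrrCharacter G, (χ : G → ℂ) 1 * (χ : G → ℂ) y = 0 :=
    H18.CharInd.sum_degree_mul hy1
  -- degrees are odd
  have hd : ∀ χ : IrrCharacter G, ∃ k : ℕ, (χ : G → ℂ) 1 = 2 * k + 1 := by
    intro χ
    obtain ⟨k, hk⟩ := Nat.not_even_iff_odd.1 (hcon χ)
    exact ⟨k, by rw [H81.DegreeCount.irr_one_eq, hk]; push_cast; ring⟩
  choose k hk using hd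
  have h2c : ((2 : AlgInt) : ℂ) = 2 := rfl
  have h2 : (2 : AlgInt) ∣ ∑ χ : IrrCharacter G, a χ := by
    refine ⟨- ∑ χ : IrrCharacter G, (k χ : AlgInt) * a χ, ?_⟩
    apply Subtype.ext
    push_cast
    simp only [ha, h2c]
    rw [Finset.sum_congr rfl (fun χ _ => by rw [hk χ])] at hsum
    have h3 : ∑ χ : IrrCharacter G, (2 * (k χ : ℂ) + 1) * (χ : G → ℂ) y =
        2 * (∑ χ : IrrCharacter G, (k χ : ℂ) * (χ : G → ℂ) y) +
          ∑ χ : IrrCharacter G, (χ : G → ℂ) y := by
      rw [Finset.mul_sum, ← Finset.sum_add_distrib]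
      exact Finset.sum_congr rfl fun χ _ => by ring
    rw [h3] at hsum
    linear_combination hsum
  have h3 : (2 : AlgInt) ∣ ∑ χ : IrrCharacter G, a χ ^ 2 := by
    have h4 := two_dvd_sq_sum Finset.univ a
    have h5 : (2 : AlgInt) ∣ (∑ χ : IrrCharacter G, a χ) ^ 2 := dvd_pow h2 two_ne_zero
    have h6 := dvd_sub h5 h4
    simpa using h6
  obtain ⟨t, ht⟩ := h3
  have h4 : ((2 : ℤ) : ℂ) * (t : ℂ) = ((Nat.card (Subgroup.centralizer ({y} : Set G)) : ℤ) : ℂ) := by
    have h5 := congrArg (fun z : AlgInt => (z : ℂ)) ht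
    push_cast at h5
    simp only [ha, h2c] at h5
    rw [hsq] at h5
    push_cast
    exact h5.symm
  have h5 := H81.DegreeCount.dvd_of_integral_mul t.2 (by norm_num) h4
  have h6 : 2 ∣ Nat.card (Subgroup.centralizer ({y} : Set G)) := by exact_mod_cast h5
  exact (Nat.not_even_iff_odd.2 hodd) (even_iff_two_dvd.2 h6)

/-- Let p be an odd prime and G a finite group of even order divisible by p in which the centralizer of every non-identity p-element has odd order. Then G has an irreducible character of p-defect zero or an irreducible character of even degree. -/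
theorem result {G : Type*} [Group G] [Finite G] (p : ℕ) [Fact p.Prime] (hp2 : p ≠ 2) (hpG : p ∣ Nat.card G) (h2G : 2 ∣ Nat.card G) (hC : ∀ g : G, g ≠ 1 → (∃ k : ℕ, orderOf g = p ^ k) → Odd (Nat.card ↥(Subgroup.centralizer ({g} : Set G)))) : (∃ χ : Cfsg.IrrCharacter G, (Cfsg.charDegree (χ : G → ℂ)).factorization p = (Nat.card G).factorization p) ∨ ∃ χ : Cfsg.IrrCharacter G, Even (Cfsg.charDegree (χ : G → ℂ)) := by
  by_cases hno : H81.DefectZero.HasDZ p G
  · exact Or.inl hno
  right
  have : Fact (Nat.Prime 2) := ⟨Nat.prime_two⟩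
  obtain ⟨t, ht⟩ := exists_prime_orderOf_dvd_card' 2 h2G
  have ht1 : t ≠ 1 := by
    rintro rfl; rw [orderOf_one] at ht; norm_num at ht
  obtain ⟨g, h, hg, hh, hne, hpow⟩ := H81.DefectZero.defectZero_or (p := p) (q := 2)
    (fun g hg1 hg h2 => (Nat.not_even_iff_odd.2 (hC g hg1 hg)) (even_iff_two_dvd.2 h2)) hno ht1
    ⟨1, by rw [ht, pow_one]⟩
  have hsq : ∀ y : G, IsConj t y → y * y = 1 := by
    intro y hy
    obtain ⟨c, hc⟩ := isConj_iff.1 hy
    have h1 : t * t = 1 := by rw [← pow_two, ← ht, pow_orderOf_eq_one]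
    rw [← hc]
    calc c * t * c⁻¹ * (c * t * c⁻¹) = c * (t * t) * c⁻¹ := by group
      _ = 1 := by rw [h1]; group
  have hginv : g⁻¹ = g := inv_eq_of_mul_eq_one_left (hsq g hg)
  have hhinv : h⁻¹ = h := inv_eq_of_mul_eq_one_left (hsq h hh)
  refine exists_even_degree (even_iff_two_dvd.2 h2G) (g * h⁻¹) ?_ (hC _ hne hpow)
  rw [isConj_iff]
  refine ⟨g, ?_⟩
  rw [mul_inv_rev, inv_inv, hhinv, hginv, ← mul_assoc, hsq g hg, one_mul]

end Cfsg.Agent.S4746
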