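import Cfsg.Statements.S4748
import Cfsg.Agent.Lib.H70.TISyl
import Cfsg.Agent.Lib.H66.PRed

set_option autoImplicit false
open scoped Pointwise
open Cfsg

namespace Cfsg.Agent.S4748

/-- Let G be a finite p-solvable group whose Sylow p-subgroup P meets each conjugate g P g⁻¹ with g outside N_G(P) trivially, and let χ be a faithful character of G (χ g = χ 1 only for g = 1) whose degree d satisfies d² ≤ |P|. Then P is normal in G. -/
theorem result {G : Type*} [Group G] [Finite G] (p : ℕ) [Fact p.Prime] (hsolv : Cfsg.IsPSolvable p G) (P : Sylow p G) (hTI : ∀ g : G, g ∉ Subgroup.normalizer ((P : Subgroup G) : Set G) → (P : Subgroup G) ⊓ (MulAut.conj g • (P : Subgroup G)) = ⊥) (χ : G → ℂ) (hχ : Cfsg.IsCharacter G χ) (hfaith : ∀ g : G, χ g = χ 1 → g = 1) (hdeg : Cfsg.charDegree χ ^ 2 ≤ Nat.card ↥(P : Subgroup G)) : (P : Subgroup G).Normal := by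
  classical
  by_contra hnot
  have hp : p.Prime := Fact.out
  obtain ⟨n, ρ, rfl⟩ := hχ
  have hfaith' : ∀ g, ρ.character g = ρ.character 1 → g = 1 := hfaith
  have hn : Cfsg.charDegree ρ.character = n := by
    rw [Cfsg.charDegree, Representation.char_one, Module.finrank_fin_fun]
    simp
  rw [hn] at hdeg
  set P' : Subgroup G := (P : Subgroup G) with hP'
  -- there is an element outside the normalizer
  obtain ⟨g₀, hg₀⟩ : ∃ g, g ∉ Subgroup.normalizer (P' : Set G) := by
    by_contra hcon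
    push Not at hcon
    apply hnot
    exact Subgroup.normalizer_eq_top_iff.mp (by rw [eq_top_iff]; intro g _; exact hcon g)
  have hcore : Cfsg.pCore p G = ⊥ := by
    rw [eq_bot_iff, ← hTI g₀ hg₀]
    apply le_inf (H1.Cores.pCore_le_sylow P)
    intro x hx
    rw [Subgroup.mem_pointwise_smul_iff_inv_smul_mem]
    apply H1.Cores.pCore_le_sylow P
    have hnorm : (Cfsg.pCore p G).Normal := inferInstance
    have := hnorm.conj_mem x hx g₀⁻¹
    simpa [MulAut.smul_def, ← map_inv] using this
  have hC := H66.PRed.centralizer_pPrimeCore_le hsolv hcore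
  set K := Cfsg.pPrimeCore p G with hK
  have hKn : K.Normal := inferInstance
  obtain ⟨m, hm⟩ := IsPGroup.iff_card.mp P.isPGroup'
  have hcopK : (Nat.card P').Coprime (Nat.card K) := by
    rw [hm]
    exact (Nat.Coprime.pow_right m (H1.Cores.coprime_card_pPrimeCore p)).symm
  have hPne : P' ≠ ⊥ := by
    intro h
    apply hnot
    rw [h]; infer_instance
  have hinf : P' ⊓ K = ⊥ := Subgroup.inf_eq_bot_of_coprime hcopK
  have hnc : ¬ P' ≤ Subgroup.centralizer (K : Set G) := by
    intro h
    apply hPne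
    rw [← hinf]
    exact (inf_eq_left.mpr (h.trans hC)).symm
  have hsol : Group.IsSolvable P' := by
    have := P.isPGroup'.isNilpotent
    infer_instance
  obtain ⟨r, R, hRK, hmin⟩ := H70.TISyl.exists_minAct (P := P') (K := K)
    (by rw [Subgroup.normalizer_eq_top]; exact le_top) hcopK hsol hnc
  refine hmin.not_sq_le ?_ ρ hfaith' hdeg
  intro a ha ha1 x hx hax
  have hxn : x ∈ Subgroup.normalizer (P' : Set G) := by
    by_contra hxn
    have h1 := hTI x hxn
    apply ha1
    rw [← Subgroup.mem_bot, ← h1]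
    refine Subgroup.mem_inf.mpr ⟨ha, ?_⟩
    rw [Subgroup.mem_pointwise_smul_iff_inv_smul_mem]
    have h2 : (MulAut.conj x)⁻¹ • a = a := by
      rw [← map_inv, MulAut.smul_def, MulAut.conj_apply, inv_inv, mul_assoc, hax]; group
    rw [h2]; exact ha
  rw [Subgroup.mem_centralizer_iff]
  intro y hy
  have h3 : x * y * x⁻¹ * y⁻¹ ∈ P' ⊓ K := by
    refine Subgroup.mem_inf.mpr ⟨mul_mem ((Subgroup.mem_normalizer_iff.mp hxn y).mp hy) (inv_mem hy), ?_⟩
    have h4 := hKn.conj_mem x⁻¹ (inv_mem (hRK hx)) y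
    have h5 : x * y * x⁻¹ * y⁻¹ = x * (y * x⁻¹ * y⁻¹) := by group
    rw [h5]
    exact mul_mem (hRK hx) h4
  rw [hinf, Subgroup.mem_bot] at h3
  have h4 := mul_inv_eq_one.mp h3
  exact (mul_inv_eq_iff_eq_mul.mp h4).symm

end Cfsg.Agent.S4748
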