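import Cfsg.Statements.S4754
import Cfsg.Agent.Lib.H81.CharAvg

set_option autoImplicit false
open Cfsg

namespace Cfsg.Agent.S4754

/-- For elements x, y of a finite group G, the conjugacy class of x y equals the set of all products of a conjugate of x with a conjugate of y if and only if χ(1) χ(a x a⁻¹ b y b⁻¹) = χ(x) χ(y) for all a, b ∈ G and every irreducible character χ. -/
theorem result {G : Type*} [Group G] [Finite G] (x y : G) : (∀ z : G, IsConj (x * y) z ↔ ∃ a b : G, z = a * x * a⁻¹ * (b * y * b⁻¹)) ↔ ∀ (a b : G) (χ : Cfsg.IrrCharacter G), (χ : G → ℂ) 1 * (χ : G → ℂ) (a * x * a⁻¹ * (b * y * b⁻¹)) = (χ : G → ℂ) x * (χ : G → ℂ) y := by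
  rw [H81.CharAvg.isConj_prod_iff]
  constructor
  · intro h a b χ
    have hcl := H18.CharBasic.isClassFunction_of_isIrr χ.2
    have h1 : ∀ a b : G, (χ : G → ℂ) (a * x * a⁻¹ * (b * y * b⁻¹)) = (χ : G → ℂ) (x * y) :=
      fun a b => (H18.CharBasic.classFunction_isConj hcl (h a b)).symm
    rw [h1 a b]
    exact H81.CharAvg.eq_of_const χ.2 x y _ h1
  · intro h a b
    rw [H18.CharInd.isConj_iff_char]
    intro χ
    have h1 := h 1 1 χ
    rw [← h a b χ] at h1
    have h3 := H18.CharBasic.irr_one_ne_zero χ.2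
    have h4 := mul_left_cancel₀ h3 h1
    simpa using h4

end Cfsg.Agent.S4754
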