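import Cfsg.Statements.S4755
import Cfsg.Agent.Lib.H81.CharAvg

set_option autoImplicit false
open Cfsg
open scoped ComplexConjugate

namespace Cfsg.Agent.S4755

/-- Let x, y be non-identity elements of the finite group G such that χ(x' y') = χ(x') χ(y') for all conjugates x' of x, y' of y and every irreducible character χ. Then the conjugacy class of x y is the set of all products of a conjugate of x with a conjugate of y; every irreducible character of degree greater than 1 vanishes at x y; and the conjugacy class of x y is the coset of the commutator subgroup containing x y. -/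
theorem result {G : Type*} [Group G] [Finite G] (x y : G) (hx : x ≠ 1) (hy : y ≠ 1) (h : ∀ (a b : G) (χ : Cfsg.IrrCharacter G), (χ : G → ℂ) (a * x * a⁻¹ * (b * y * b⁻¹)) = (χ : G → ℂ) (a * x * a⁻¹) * (χ : G → ℂ) (b * y * b⁻¹)) : (∀ z : G, IsConj (x * y) z ↔ ∃ a b : G, z = a * x * a⁻¹ * (b * y * b⁻¹)) ∧ (∀ χ : Cfsg.IrrCharacter G, (χ : G → ℂ) 1 ≠ 1 → (χ : G → ℂ) (x * y) = 0) ∧ (∀ z : G, IsConj (x * y) z ↔ (x * y)⁻¹ * z ∈ commutator G) := by
  have hconst : ∀ (χ : IrrCharacter G) (a b : G),
      (χ : G → ℂ) (a * x * a⁻¹ * (b * y * b⁻¹)) = (χ : G → ℂ) x * (χ : G → ℂ) y := by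
    intro χ a b
    have hcl := H18.CharBasic.isClassFunction_of_isIrr χ.2
    rw [h a b χ, hcl, hcl]
  have hxy : ∀ χ : IrrCharacter G, (χ : G → ℂ) (x * y) = (χ : G → ℂ) x * (χ : G → ℂ) y := by
    intro χ
    have := hconst χ 1 1
    simpa using this
  have h1 : ∀ a b : G, IsConj (x * y) (a * x * a⁻¹ * (b * y * b⁻¹)) := by
    intro a b
    rw [H18.CharInd.isConj_iff_char]
    intro χ
    rw [hxy, hconst]
  have h2 : ∀ χ : IrrCharacter G, (χ : G → ℂ) 1 ≠ 1 → (χ : G → ℂ) (x * y) = 0 := by
    intro χ hχ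
    have h3 := H81.CharAvg.eq_of_const χ.2 x y _ (hconst χ)
    rw [← hxy] at h3
    have h4 : ((χ : G → ℂ) 1 - 1) * (χ : G → ℂ) (x * y) = 0 := by
      rw [sub_mul, h3, one_mul, sub_self]
    exact (mul_eq_zero.1 h4).resolve_left (sub_ne_zero.2 hχ)
  refine ⟨(H81.CharAvg.isConj_prod_iff x y).2 h1, h2, ?_⟩
  -- |C(xy)| = |G : G'|
  set w := x * y with hw
  have := Fintype.ofFinite (IrrCharacter G)
  classical
  have hcol := H18.CharInd.column_orthogonality w w
  rw [if_pos (IsConj.refl w)] at hcol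
  have hcol2 : ∑ χ : IrrCharacter G, (χ : G → ℂ) w * conj ((χ : G → ℂ) w) =
      ((commutator G).index : ℂ) := by
    rw [← Finset.sum_filter_add_sum_filter_not Finset.univ
      (fun χ : IrrCharacter G => (χ : G → ℂ) 1 = 1)]
    have hz : ∑ χ ∈ Finset.univ.filter (fun χ : IrrCharacter G => ¬ (χ : G → ℂ) 1 = 1),
        (χ : G → ℂ) w * conj ((χ : G → ℂ) w) = 0 := by
      refine Finset.sum_eq_zero fun χ hχ => ?_
      rw [h2 χ (Finset.mem_filter.1 hχ).2, zero_mul]
    rw [hz, add_zero]
    have ho : ∑ χ ∈ Finset.univ.filter (fun χ : IrrCharacter G => (χ : G → ℂ) 1 = 1),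
        (χ : G → ℂ) w * conj ((χ : G → ℂ) w) =
        ∑ χ ∈ Finset.univ.filter (fun χ : IrrCharacter G => (χ : G → ℂ) 1 = 1), (1 : ℂ) := by
      refine Finset.sum_congr rfl fun χ hχ => ?_
      obtain ⟨f, hf⟩ := H18.CharQuot.exists_hom_of_degree_one
        (H18.CharBasic.isCharacter_of_isIrr χ.2) (Finset.mem_filter.1 hχ).2
      rw [hf, Complex.mul_conj, Complex.normSq_eq_norm_sq, H18.CharBasic.hom_norm_one f w]
      norm_num
    rw [ho, Finset.sum_const, nsmul_eq_mul, mul_one]
    congr 1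
    rw [← H18.CharQuot.card_hom_eq_index, ← Nat.card_congr (H18.CharQuot.linEquiv G),
      Nat.card_eq_fintype_card, Fintype.card_subtype]
  rw [hcol2] at hcol
  have hcard : (commutator G).index = Nat.card (Subgroup.centralizer ({w} : Set G)) := by
    exact_mod_cast hcol
  have hclass := H4.CharCount.card_centralizer_mul_card_class w
  rw [← hcard] at hclass
  have hcomm := (commutator G).index_mul_card
  have heq : Nat.card {z : G // IsConj w z} = Nat.card (commutator G) := by
    have h0 : 0 < (commutator G).index := Nat.pos_of_ne_zero Subgroup.index_ne_zero_of_finite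
    exact Nat.eq_of_mul_eq_mul_left h0 (hclass.trans hcomm.symm)
  have hsub : {z : G | IsConj w z} ⊆ {z : G | w⁻¹ * z ∈ commutator G} := by
    intro z hz
    obtain ⟨c, hc⟩ := isConj_iff.1 hz
    change w⁻¹ * z ∈ commutator G
    rw [← hc]
    rw [← Abelianization.ker_of G, MonoidHom.mem_ker]
    simp
  have hcoset : Nat.card {z : G // w⁻¹ * z ∈ commutator G} = Nat.card (commutator G) := by
    refine Nat.card_congr ⟨fun z => ⟨w⁻¹ * z.1, z.2⟩, fun k => ⟨w * k, by simp⟩, ?_, ?_⟩
    · intro z; apply Subtype.ext; simp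
    · intro k; apply Subtype.ext; simp
  have hEq : {z : G | IsConj w z} = {z : G | w⁻¹ * z ∈ commutator G} := by
    refine Set.eq_of_subset_of_ncard_le hsub ?_ (Set.toFinite _)
    rw [← Nat.card_coe_set_eq, ← Nat.card_coe_set_eq]
    exact (hcoset.trans heq.symm).le
  intro z
  exact Set.ext_iff.1 hEq z

end Cfsg.Agent.S4755
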