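import Cfsg.Statements.S4757
import Cfsg.Agent.Lib.H81.InvertSylow
import Cfsg.Agent.Lib.H18.CharInd
import Cfsg.Agent.Lib.H18.CharQuot
import Cfsg.Agent.Lib.H1.Cores

set_option autoImplicit false
open Cfsg
open scoped ComplexConjugate

namespace Cfsg.Agent.S4757

/-- if `χ(u) ∈ {0, χ(1) - c}` then nonlinear terms are nonnegative real -/
theorem term_nonneg {G : Type*} [Group G] [Finite G] {u : G} {χ : G → ℂ} (hχ : IsIrrCharacter G χ)
    {c : ℝ} (hc : c ≤ 2)
    (h : χ 1 - χ u = c ∨ χ u = 0) (h1 : χ 1 ≠ 1) : ∃ r : ℝ, 0 ≤ r ∧ χ 1 * χ u = r := by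
  obtain ⟨n, hn, hn1⟩ := H18.CharBasic.exists_degree_pos hχ
  rcases h with h | h
  · refine ⟨(n : ℝ) * ((n : ℝ) - c), ?_, ?_⟩
    · have h2 : 2 ≤ n := by
        by_contra hlt
        have : n = 1 := by omega
        rw [this] at hn1
        exact h1 (by rw [hn1]; simp)
      have h3 : (2 : ℝ) ≤ n := by exact_mod_cast h2
      apply mul_nonneg <;> linarith
    · have h4 : χ u = χ 1 - c := by rw [← h]; ring
      rw [h4, hn1]; push_cast; ring
  · exact ⟨0, le_refl _, by rw [h]; simp⟩

/-- a linear character of a perfect group is principal -/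
theorem eq_one_of_perfect {G : Type*} [Group G] (f : G →* ℂˣ) {g : G} (hg : g ∈ commutator G) :
    f g = 1 := by
  have := Abelianization.commutator_subset_ker f hg
  exact this

/-- Let u ≠ 1 be an element of the finite group G and c a complex number such that every non-principal irreducible character χ satisfies χ(1) − χ(u) = c or χ(u) = 0. Then the following are equivalent: (a) u has order 2, G is generated by u together with O(G), the largest normal subgroup of G of odd order, and the centralizer of u is {1, u}; (b) G is not perfect; (c) c = 2. -/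
theorem result {G : Type*} [Group G] [Finite G] (u : G) (hu : u ≠ 1) (c : ℂ) (hyp : ∀ χ : Cfsg.IrrCharacter G, (χ : G → ℂ) ≠ (fun _ => (1 : ℂ)) → ((χ : G → ℂ) 1 - (χ : G → ℂ) u = c ∨ (χ : G → ℂ) u = 0)) : ((orderOf u = 2 ∧ Subgroup.zpowers u ⊔ Cfsg.oddCore G = ⊤ ∧ Subgroup.centralizer ({u} : Set G) = Subgroup.zpowers u) ↔ commutator G ≠ ⊤) ∧ (commutator G ≠ ⊤ ↔ c = 2) := by
  classical
  have := Fintype.ofFinite (IrrCharacter G)
  have hsum := H18.CharInd.sum_degree_mul hu
  let p1 : IrrCharacter G := ⟨fun _ => 1, H18.CharBasic.isIrrCharacter_one⟩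
  -- c = 2 implies not perfect
  have hcb : c = 2 → commutator G ≠ ⊤ := by
    intro hc hperf
    have hlin : ∀ χ : IrrCharacter G, (χ : G → ℂ) 1 = 1 → χ = p1 := by
      intro χ h1
      obtain ⟨f, hf⟩ := H18.CharQuot.exists_hom_of_degree_one
        (H18.CharBasic.isCharacter_of_isIrr χ.2) h1
      apply Subtype.ext
      rw [hf]
      funext g
      rw [eq_one_of_perfect f (hperf ▸ Subgroup.mem_top g)]; rfl
    have hterm : ∀ χ : IrrCharacter G, ∃ r : ℝ, 0 ≤ r ∧ (χ = p1 → r = 1) ∧
        (χ : G → ℂ) 1 * (χ : G → ℂ) u = r := by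
      intro χ
      by_cases h : χ = p1
      · subst h
        exact ⟨1, zero_le_one, fun _ => rfl, by simp [p1]⟩
      · obtain ⟨r, hr, hr1⟩ := term_nonneg χ.2 (c := 2) (le_refl _) (u := u)
          (by
            have := hyp χ (fun hh => h (Subtype.ext hh))
            rw [hc] at this; exact_mod_cast this) (fun hh => h (hlin χ hh))
        exact ⟨r, hr, fun hh => absurd hh h, hr1⟩
    choose r hr0 hr1 hr2 using hterm
    simp only [hr2] at hsum
    have h1 : (∑ χ, r χ) = 0 := by exact_mod_cast hsum
    have h2 : r p1 ≤ ∑ χ, r χ := Finset.single_le_sum (fun χ _ => hr0 χ) (Finset.mem_univ p1)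
    rw [hr1 p1 rfl, h1] at h2
    exact absurd h2 (by norm_num)
  -- (a) implies (b)
  have hab : (orderOf u = 2 ∧ Subgroup.zpowers u ⊔ Cfsg.oddCore G = ⊤ ∧
      Subgroup.centralizer ({u} : Set G) = Subgroup.zpowers u) → commutator G ≠ ⊤ := by
    rintro ⟨ho, htop, -⟩ hperf
    have hchar := H1.Cores.pPrimeCore_characteristic (G := G) 2
    have hN : (oddCore G).Normal := @Subgroup.normal_of_characteristic _ _ _ hchar
    have hle : commutator G ≤ oddCore G := by
      rw [← Subgroup.Normal.quotient_commutative_iff_commutator_le]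
      have hmem : ∀ g : G, ∃ k : ℤ, ((g : G) : G ⧸ oddCore G) = ((u : G) : G ⧸ oddCore G) ^ k := by
        intro g
        have hg : g ∈ Subgroup.zpowers u ⊔ Cfsg.oddCore G := htop ▸ Subgroup.mem_top g
        rw [Subgroup.mem_sup_of_normal_right] at hg
        obtain ⟨a, ha, b, hb, rfl⟩ := hg
        obtain ⟨k, rfl⟩ := Subgroup.mem_zpowers_iff.1 ha
        refine ⟨k, ?_⟩
        rw [QuotientGroup.mk_mul, (QuotientGroup.eq_one_iff b).2 hb, mul_one,
          QuotientGroup.mk_zpow]
      refine ⟨⟨fun x y => ?_⟩⟩
      induction x using QuotientGroup.induction_on with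
      | H x =>
        induction y using QuotientGroup.induction_on with
        | H y =>
          obtain ⟨k, hk⟩ := hmem x
          obtain ⟨l, hl⟩ := hmem y
          rw [hk, hl, ← zpow_add, ← zpow_add, add_comm]
    rw [hperf, top_le_iff] at hle
    have h3 := H1.Cores.coprime_card_pPrimeCore (G := G) 2
    have h4 : Nat.card (pPrimeCore 2 G) = Nat.card G := by
      change Nat.card (oddCore G) = _
      rw [hle, Subgroup.card_top]
    rw [h4] at h3
    have h5 : 2 ∣ Nat.card G := ho ▸ orderOf_dvd_natCard u
    exact absurd (Nat.Coprime.eq_one_of_dvd h3.symm h5) (by norm_num)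
  -- (b) implies (a) and (c)
  have hb : commutator G ≠ ⊤ → (c = 2 ∧ (orderOf u = 2 ∧ Subgroup.zpowers u ⊔ Cfsg.oddCore G = ⊤ ∧
      Subgroup.centralizer ({u} : Set G) = Subgroup.zpowers u)) := by
    intro hnp
    obtain ⟨g, hg⟩ : ∃ g, g ∉ commutator G := by
      by_contra hcon
      push Not at hcon
      exact hnp (eq_top_iff.2 fun x _ => hcon x)
    obtain ⟨f, hf⟩ := H18.CharQuot.exists_hom_ne_one hg
    have hf1 : f ≠ 1 := by rintro rfl; exact hf rfl
    have hval : ∀ f : G →* ℂˣ, f ≠ 1 → 1 - (f u : ℂ) = c := by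
      intro f hf
      have h1 := hyp ⟨fun g => (f g : ℂ), H18.CharBasic.isIrrCharacter_of_hom f⟩ (by
        intro hh
        apply hf
        ext x
        exact congrFun hh x)
      rcases h1 with h1 | h1
      · simpa using h1
      · exact absurd h1 (Units.ne_zero _)
    -- c ≠ 0
    have hc0 : c ≠ 0 := by
      intro hc
      have hterm : ∀ χ : IrrCharacter G, ∃ r : ℝ, 0 ≤ r ∧ (χ = p1 → r = 1) ∧
          (χ : G → ℂ) 1 * (χ : G → ℂ) u = r := by
        intro χ
        by_cases h : χ = p1
        · subst h
          exact ⟨1, zero_le_one, fun _ => rfl, by simp [p1]⟩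
        · obtain ⟨n, hn, hn1⟩ := H18.CharBasic.exists_degree_pos χ.2
          rcases hyp χ (fun hh => h (Subtype.ext hh)) with h1 | h1
          · rw [hc, sub_eq_zero] at h1
            refine ⟨(n : ℝ) * n, by positivity, fun hh => absurd hh h, ?_⟩
            rw [← h1, hn1]; push_cast; ring
          · exact ⟨0, le_refl _, fun hh => absurd hh h, by rw [h1]; simp⟩
      choose r hr0 hr1 hr2 using hterm
      simp only [hr2] at hsum
      have h1 : (∑ χ, r χ) = 0 := by exact_mod_cast hsum
      have h2 : r p1 ≤ ∑ χ, r χ := Finset.single_le_sum (fun χ _ => hr0 χ) (Finset.mem_univ p1)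
      rw [hr1 p1 rfl, h1] at h2
      exact absurd h2 (by norm_num)
    have hfu := hval f hf1
    have hfu1 : (f u : ℂ) ≠ 1 := by
      intro hh; rw [hh, sub_self] at hfu; exact hc0 hfu.symm
    have hff : f * f = 1 := by
      by_contra hne
      have h1 := hval _ hne
      rw [← hfu, MonoidHom.mul_apply, Units.val_mul] at h1
      have h2 : (f u : ℂ) * (f u - 1) = 0 := by linear_combination -h1
      rcases mul_eq_zero.1 h2 with h3 | h3
      · exact Units.ne_zero _ h3
      · exact hfu1 (sub_eq_zero.1 h3)
    have hfum : (f u : ℂ) = -1 := by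
      have h1 : (f u : ℂ) * f u = 1 := by
        have := congrArg (fun k : G →* ℂˣ => (k u : ℂ)) hff
        simpa using this
      have h2 : ((f u : ℂ) - 1) * (f u + 1) = 0 := by linear_combination h1
      rcases mul_eq_zero.1 h2 with h3 | h3
      · exact absurd (sub_eq_zero.1 h3) hfu1
      · exact eq_neg_of_add_eq_zero_left h3
    have hc2 : c = 2 := by rw [← hfu, hfum]; norm_num
    have honly : ∀ k : G →* ℂˣ, k ≠ 1 → k = f := by
      intro k hk
      by_contra hne
      have hfk : f * k ≠ 1 := by
        intro h1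
        apply hne
        apply MonoidHom.ext
        intro x
        have e1 : f x * k x = 1 := DFunLike.congr_fun h1 x
        have e2 : f x * f x = 1 := DFunLike.congr_fun hff x
        exact mul_left_cancel (e1.trans e2.symm)
      have h1 := hval _ hfk
      have h2 := hval _ hk
      rw [MonoidHom.mul_apply, Units.val_mul, hfum] at h1
      rw [hc2] at h1 h2
      have h3 : (k u : ℂ) = 1 := by linear_combination h1
      rw [h3] at h2
      norm_num at h2
    let pf : IrrCharacter G := ⟨fun g => (f g : ℂ), H18.CharBasic.isIrrCharacter_of_hom f⟩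
    have hpf : pf ≠ p1 := by
      intro hh
      apply hf1
      ext x
      exact congrFun (congrArg Subtype.val hh) x
    have hlin : ∀ χ : IrrCharacter G, (χ : G → ℂ) 1 = 1 → χ = p1 ∨ χ = pf := by
      intro χ h1
      obtain ⟨k, hk⟩ := H18.CharQuot.exists_hom_of_degree_one
        (H18.CharBasic.isCharacter_of_isIrr χ.2) h1
      by_cases hk1 : k = 1
      · left; apply Subtype.ext; rw [hk, hk1]; funext g; simp [p1]
      · right; apply Subtype.ext; rw [hk, honly k hk1]
    have hnl : ∀ χ : IrrCharacter G, χ ≠ p1 → χ ≠ pf → (χ : G → ℂ) u = 0 := by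
      have hterm : ∀ χ : IrrCharacter G, ∃ r : ℝ, (χ ≠ pf → 0 ≤ r) ∧ (χ = p1 → r = 1) ∧
          (χ = pf → r = -1) ∧ (χ : G → ℂ) 1 * (χ : G → ℂ) u = r := by
        intro χ
        by_cases h : χ = p1
        · subst h
          exact ⟨1, fun _ => zero_le_one, fun _ => rfl, fun h => absurd h.symm hpf, by simp [p1]⟩
        · by_cases h' : χ = pf
          · subst h'
            refine ⟨-1, fun h => absurd rfl h, fun hh => absurd hh h, fun _ => rfl, ?_⟩
            simp only [pf, map_one, Units.val_one, one_mul, hfum]; norm_num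
          · obtain ⟨r, hr, hr1⟩ := term_nonneg χ.2 (c := 2) (le_refl _) (u := u)
              (by
                have := hyp χ (fun hh => h (Subtype.ext hh))
                rw [hc2] at this; exact_mod_cast this) (fun hh => by
                  rcases hlin χ hh with h1 | h1
                  · exact h h1
                  · exact h' h1)
            exact ⟨r, fun _ => hr, fun hh => absurd hh h, fun hh => absurd hh h', hr1⟩
      choose r hr0 hr1 hr2 hr3 using hterm
      simp only [hr3] at hsum
      have h1 : (∑ χ, r χ) = 0 := by exact_mod_cast hsum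
      intro χ hχ1 hχf
      have h2 : ∑ χ, r χ = ∑ χ ∈ Finset.univ.filter (fun χ => χ ≠ p1 ∧ χ ≠ pf), r χ := by
        rw [← Finset.add_sum_erase _ _ (Finset.mem_univ p1),
          ← Finset.add_sum_erase _ _ (Finset.mem_erase.2 ⟨hpf, Finset.mem_univ pf⟩),
          hr1 p1 rfl, hr2 pf rfl]
        have : (Finset.univ.filter (fun χ => χ ≠ p1 ∧ χ ≠ pf)) =
            (Finset.univ.erase p1).erase pf := by
          ext χ; simp [and_comm]
        rw [this]; ring
      rw [h2] at h1
      have h3 := (Finset.sum_eq_zero_iff_of_nonneg (fun χ hχ => hr0 χ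
        (Finset.mem_filter.1 hχ).2.2)).1 h1 χ (Finset.mem_filter.2 ⟨Finset.mem_univ _, hχ1, hχf⟩)
      have h4 := hr3 χ
      rw [h3] at h4
      rcases mul_eq_zero.1 (by rw [h4]; simp : (χ : G → ℂ) 1 * (χ : G → ℂ) u = 0) with h5 | h5
      · exact absurd h5 (H18.CharBasic.irr_one_ne_zero χ.2)
      · exact h5
    -- |C(u)| = 2
    have hcol := H18.CharInd.column_orthogonality u u
    rw [if_pos (IsConj.refl u)] at hcol
    have hcard : Nat.card (Subgroup.centralizer ({u} : Set G)) = 2 := by
      have h2 : ∑ χ : IrrCharacter G, (χ : G → ℂ) u * conj ((χ : G → ℂ) u) = 2 := by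
        rw [← Finset.add_sum_erase _ _ (Finset.mem_univ p1),
          ← Finset.add_sum_erase _ _ (Finset.mem_erase.2 ⟨hpf, Finset.mem_univ pf⟩),
          Finset.sum_eq_zero, add_zero]
        · simp only [p1, pf, hfum, map_one, map_neg]; norm_num
        · intro χ hχ
          rw [Finset.mem_erase, Finset.mem_erase] at hχ
          rw [hnl χ hχ.2.1 hχ.1, zero_mul]
      rw [h2] at hcol
      exact_mod_cast hcol.symm
    have hzle : Subgroup.zpowers u ≤ Subgroup.centralizer ({u} : Set G) := by
      rw [Subgroup.zpowers_le, Subgroup.mem_centralizer_singleton_iff]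
    have hz2 : Nat.card (Subgroup.zpowers u) = 2 := by
      have h1 := Subgroup.card_dvd_of_le hzle
      rw [hcard] at h1
      rcases (Nat.dvd_prime Nat.prime_two).1 h1 with h2 | h2
      · rw [Nat.card_zpowers, orderOf_eq_one_iff] at h2
        exact absurd h2 hu
      · exact h2
    have hou : orderOf u = 2 := by rw [← Nat.card_zpowers]; exact hz2
    have hCz : Subgroup.centralizer ({u} : Set G) = Subgroup.zpowers u :=
      (Subgroup.eq_of_le_of_card_ge hzle (by rw [hcard, hz2])).symm
    have huu : u * u = 1 := by rw [← pow_two, ← hou, pow_orderOf_eq_one]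
    have huK : u ∉ commutator G := by
      intro h
      have := eq_one_of_perfect f h
      rw [this] at hfu1
      exact hfu1 (by simp)
    have hcent : ∀ x, u * x * u⁻¹ = x → x = 1 ∨ x = u := by
      intro x hx
      have h1 : x ∈ Subgroup.centralizer ({u} : Set G) := by
        rw [Subgroup.mem_centralizer_singleton_iff]
        exact (mul_inv_eq_iff_eq_mul.1 hx).symm
      rw [hCz] at h1
      obtain ⟨k, hk⟩ := Subgroup.mem_zpowers_iff.1 h1
      rcases Int.even_or_odd' k with ⟨m, hm | hm⟩
      · left; rw [← hk, hm, zpow_mul, zpow_two, huu, one_zpow]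
      · right; rw [← hk, hm, zpow_add, zpow_mul, zpow_two, huu, one_zpow, one_mul, zpow_one]
    have hodd : Odd (Nat.card (commutator G)) := by
      rw [← Nat.not_even_iff_odd]
      intro hev
      have : Fact (Nat.Prime 2) := ⟨Nat.prime_two⟩
      obtain ⟨k, hk⟩ := exists_prime_orderOf_dvd_card' 2 (even_iff_two_dvd.1 hev)
      have hk' : orderOf (k : G) = 2 := by rw [Subgroup.orderOf_coe]; exact hk
      have hk1 : (k : G) ≠ 1 := by
        intro h; rw [h, orderOf_one] at hk'; exact absurd hk' (by norm_num)
      have hinv := H81.InvertSylow.inverts_of_fixedPointFree (commutator G) huu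
        (fun x hx => (inferInstance : (commutator G).Normal).conj_mem x hx u) (fun x hx hx1 => by
          rcases hcent x hx1 with h | h
          · exact h
          · rw [h] at hx; exact absurd hx huK)
      have h1 := hinv k k.2
      have h2 : (k : G)⁻¹ = k := by
        apply inv_eq_of_mul_eq_one_left
        rw [← pow_two, ← hk', pow_orderOf_eq_one]
      rw [h2] at h1
      rcases hcent _ h1 with h | h
      · exact hk1 h
      · exact huK (h ▸ k.2)
    refine ⟨hc2, hou, ?_, hCz⟩
    have hle : commutator G ≤ oddCore G := H1.Cores.le_pPrimeCore inferInstance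
      (Nat.coprime_two_right.2 hodd)
    have hidx : (commutator G).index = 2 := by
      rw [← H18.CharQuot.card_hom_eq_index]
      have : (Set.univ : Set (G →* ℂˣ)) = {1, f} := by
        ext k
        simp only [Set.mem_univ, Set.mem_insert_iff, Set.mem_singleton_iff, true_iff]
        by_cases hk : k = 1
        · exact Or.inl hk
        · exact Or.inr (honly k hk)
      rw [← Set.ncard_univ, this, Set.ncard_pair (Ne.symm hf1)]
    have hKL : commutator G ≤ Subgroup.zpowers u ⊔ commutator G := le_sup_right
    have h5 := Subgroup.relIndex_mul_index hKL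
    rw [hidx] at h5
    have h6 : (Subgroup.zpowers u ⊔ commutator G).index = 1 := by
      have h7 : (Subgroup.zpowers u ⊔ commutator G).index ∣ 2 := Dvd.intro_left _ h5
      rcases (Nat.dvd_prime Nat.prime_two).1 h7 with h8 | h8
      · exact h8
      · exfalso
        rw [h8] at h5
        have h9 : (commutator G).relIndex (Subgroup.zpowers u ⊔ commutator G) = 1 := by omega
        rw [Subgroup.relIndex_eq_one] at h9
        exact huK (h9 (Subgroup.mem_sup_left (Subgroup.mem_zpowers u)))
    rw [Subgroup.index_eq_one] at h6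
    rw [eq_top_iff, ← h6]
    exact sup_le_sup_left hle _
  exact ⟨⟨hab, fun h => (hb h).2⟩, ⟨fun h => (hb h).1, hcb⟩⟩

end Cfsg.Agent.S4757
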