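import Cfsg.Statements.S4759
import Cfsg.Agent.Lib.H13.S47m

set_option autoImplicit false
open Cfsg

namespace Cfsg.Agent.S4759

/-- Let G be a finite group that is the semidirect product of a normal extraspecial 2-subgroup E and a complement H acting faithfully on E (no non-identity element of H centralizes E), and suppose H has a normal subgroup K of odd order with [E, K] = E. Then every faithful irreducible character θ of E (there is exactly one) extends to G: some irreducible character of G restricts to θ on E. -/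
theorem result {G : Type*} [Group G] [Finite G] (E H : Subgroup G) [E.Normal] (hE : Cfsg.IsExtraspecial 2 ↥E) (hEH : E ⊓ H = ⊥) (hEHtop : E ⊔ H = ⊤) (hfaith : ∀ h ∈ H, (∀ e ∈ E, h * e = e * h) → h = 1) (K : Subgroup G) (hKH : K ≤ H) (hKn : ∀ h ∈ H, ∀ k ∈ K, h * k * h⁻¹ ∈ K) (hKodd : Odd (Nat.card ↥K)) (hEK : ⁅E, K⁆ = E) (θ : Cfsg.IrrCharacter ↥E) (hθ : ∀ e : ↥E, (θ : ↥E → ℂ) e = (θ : ↥E → ℂ) 1 → e = 1) : ∃ χ : Cfsg.IrrCharacter G, ∀ e : ↥E, (χ : G → ℂ) e = (θ : ↥E → ℂ) e := by
  exact H13.S47.final E H hE hEH hEHtop K hKH hKn hKodd hEK θ hθ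

end Cfsg.Agent.S4759
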