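import Cfsg.Statements.S4762
import Cfsg.Agent.Lib.H81.CentralVal
import Cfsg.Agent.Lib.H2.Nilp
import Cfsg.Agent.Lib.H1.Frat
import Cfsg.Agent.Lib.H3.Extraspecial

set_option autoImplicit false
open Cfsg
open scoped ComplexConjugate

namespace Cfsg.Agent.S4762

variable {G : Type*} [Group G] [Finite G]

/-- the extraspecial direction -/
theorem card_one_of_extraspecial (h : Cfsg.IsExtraspecial 2 G) :
    Nat.card {χ : Cfsg.IrrCharacter G // 2 ∣ Cfsg.charDegree (χ : G → ℂ)} = 1 := by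
  have : Fact (Nat.Prime 2) := ⟨Nat.prime_two⟩
  obtain ⟨⟨hP, hfr, hcomm⟩, hcard⟩ := h
  -- the central involution
  obtain ⟨z', hz'⟩ : ∃ z' : Subgroup.center G, z' ≠ 1 := by
    have : Nontrivial (Subgroup.center G) := by
      rw [← Finite.one_lt_card_iff_nontrivial, hcard]; norm_num
    exact exists_ne 1
  obtain ⟨z, hz⟩ : ∃ z : G, z = (z' : G) := ⟨_, rfl⟩
  have hz1 : z ≠ 1 := fun hh => hz' (Subtype.ext (hz ▸ hh))
  have hzc : z ∈ Subgroup.center G := hz ▸ z'.2
  have hzz : z ^ 2 = 1 := by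
    have h1 : z' ^ Nat.card (Subgroup.center G) = 1 := pow_card_eq_one'
    rw [hcard] at h1
    rw [hz]
    exact congrArg Subtype.val h1
  have hcz : ∀ x ∈ Subgroup.center G, x = 1 ∨ x = z := by
    intro x hx
    by_contra hcon
    push Not at hcon
    have h1 : ({1, z', ⟨x, hx⟩} : Set (Subgroup.center G)).ncard = 3 := by
      rw [Set.ncard_eq_three]
      refine ⟨1, z', ⟨x, hx⟩, Ne.symm hz', ?_, ?_, rfl⟩
      · intro hh; exact hcon.1 (congrArg Subtype.val hh).symm
      · intro hh; exact hcon.2 (hz ▸ (congrArg Subtype.val hh).symm)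
    have h2 := Set.ncard_le_card ({1, z', ⟨x, hx⟩} : Set (Subgroup.center G))
    rw [h1, hcard] at h2
    omega
  -- p | degree iff not in kernel
  have hiff : ∀ χ : IrrCharacter G, 2 ∣ charDegree (χ : G → ℂ) ↔ (χ : G → ℂ) z ≠ (χ : G → ℂ) 1 := by
    intro χ
    constructor
    · intro hd hker
      have h1 : (χ : G → ℂ) 1 = 1 := by
        refine H81.CentralVal.one_of_commutator_le χ.2 fun g hg => ?_
        rw [hcomm] at hg
        rcases hcz g hg with h | h
        · rw [h]
        · rw [h, hker]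
      rw [H81.DegreeCount.charDegree_natCast (n := 1) (by rw [h1]; simp)] at hd
      omega
    · intro hne
      apply H81.CentralVal.dvd_degree_of_isPGroup hP
      intro h1
      have h2 := H81.CentralVal.linear_commutator (H18.CharBasic.isCharacter_of_isIrr χ.2) h1
        (g := z) (by rw [hcomm]; exact hzc)
      exact hne (h2.trans h1.symm)
  -- all such characters agree
  have hform : ∀ χ : IrrCharacter G, (χ : G → ℂ) z ≠ (χ : G → ℂ) 1 →
      (∀ g, (χ : G → ℂ) (z * g) = - (χ : G → ℂ) g) ∧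
      (∀ g, g ∉ Subgroup.center G → (χ : G → ℂ) g = 0) := by
    intro χ hχ
    obtain ⟨c, hc0, hc1, hc2⟩ := H81.CentralVal.exists_central χ.2 hzc
    have h1 : c ^ 2 = 1 := hc2 2 hzz
    have h2 : c ≠ 1 := by
      rintro rfl
      apply hχ
      have := hc1 1
      rwa [mul_one, one_mul] at this
    have h3 : c = -1 := by
      have : (c - 1) * (c + 1) = 0 := by linear_combination h1
      rcases mul_eq_zero.1 this with h | h
      · exact absurd (sub_eq_zero.1 h) h2
      · exact eq_neg_of_add_eq_zero_left h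
    have h4 : ∀ g, (χ : G → ℂ) (z * g) = - (χ : G → ℂ) g := by
      intro g; rw [hc1, h3]; ring
    refine ⟨h4, fun g hg => ?_⟩
    rw [Subgroup.mem_center_iff] at hg
    push Not at hg
    obtain ⟨k, hk⟩ := hg
    have h5 : k * g * k⁻¹ * g⁻¹ = z := by
      have h6 : k * g * k⁻¹ * g⁻¹ ∈ Subgroup.center G := by
        rw [← hcomm, ← Abelianization.ker_of G, MonoidHom.mem_ker]
        simp
      rcases hcz _ h6 with h | h
      · exfalso; apply hk
        calc k * g = (k * g * k⁻¹ * g⁻¹) * (g * k) := by group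
          _ = g * k := by rw [h, one_mul]
      · exact h
    have h7 : k * g * k⁻¹ = z * g := by rw [← h5]; group
    have h8 := H18.CharBasic.isClassFunction_of_isIrr χ.2 g k
    rw [h7, h4] at h8
    have h9 : (2 : ℂ) * (χ : G → ℂ) g = 0 := by linear_combination -h8
    exact (mul_eq_zero.1 h9).resolve_left two_ne_zero
  have hdeg : ∀ χ : IrrCharacter G, (χ : G → ℂ) z ≠ (χ : G → ℂ) 1 →
      2 * charDegree (χ : G → ℂ) ^ 2 = Nat.card G := by
    intro χ hχ
    obtain ⟨h1, h2⟩ := hform χ hχ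
    have := Fintype.ofFinite G
    classical
    have h3 := H18.CharOrtho.inner_irr_self χ.2
    rw [classInner] at h3
    have hG : (Nat.card G : ℂ) ≠ 0 := by exact_mod_cast Nat.card_pos.ne'
    have h4 : ∑ g : G, (χ : G → ℂ) g * conj ((χ : G → ℂ) g) = (Nat.card G : ℂ) := by
      field_simp at h3
      exact h3
    have h5 : ∑ g : G, (χ : G → ℂ) g * conj ((χ : G → ℂ) g) =
        ∑ g ∈ ({1, z} : Finset G), (χ : G → ℂ) g * conj ((χ : G → ℂ) g) := by
      symm
      apply Finset.sum_subset (Finset.subset_univ _)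
      intro x _ hx
      rw [Finset.mem_insert, Finset.mem_singleton] at hx
      rw [h2 x (fun hxc => hx (hcz x hxc)), zero_mul]
    rw [h5, Finset.sum_pair (Ne.symm hz1)] at h4
    have h6 := h1 1
    rw [mul_one] at h6
    rw [h6, H81.DegreeCount.irr_one_eq χ] at h4
    simp only [map_neg, Complex.conj_natCast] at h4
    have h7 : (2 : ℂ) * (charDegree (χ : G → ℂ) : ℂ) ^ 2 = (Nat.card G : ℂ) := by
      rw [← h4]; ring
    exact_mod_cast h7
  rw [Nat.card_eq_one_iff_exists]
  -- existence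
  obtain ⟨χ, hχ⟩ : ∃ χ : IrrCharacter G, (χ : G → ℂ) z ≠ (χ : G → ℂ) 1 := by
    by_contra hcon
    push Not at hcon
    exact hz1 (H18.CharQuot.eq_one_of_forall_irr fun χ hχ => hcon ⟨χ, hχ⟩)
  refine ⟨⟨χ, (hiff χ).2 hχ⟩, ?_⟩
  rintro ⟨ψ, hψ⟩
  apply Subtype.ext
  apply Subtype.ext
  rw [hiff] at hψ
  change (ψ : G → ℂ) = χ
  have hd : charDegree (ψ : G → ℂ) = charDegree (χ : G → ℂ) := by
    have h1 := hdeg χ hχ
    have h2 := hdeg ψ hψ
    have h3 : charDegree (ψ : G → ℂ) ^ 2 = charDegree (χ : G → ℂ) ^ 2 := by omega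
    exact Nat.pow_left_injective (n := 2) (by norm_num) h3
  have h1e : (ψ : G → ℂ) 1 = (χ : G → ℂ) 1 := by
    rw [H81.DegreeCount.irr_one_eq, H81.DegreeCount.irr_one_eq, hd]
  funext g
  by_cases hg : g ∈ Subgroup.center G
  · rcases hcz g hg with h | h
    · rw [h, h1e]
    · have e1 := (hform χ hχ).1 1
      have e2 := (hform ψ hψ).1 1
      rw [mul_one] at e1 e2
      rw [h, e1, e2, h1e]
  · rw [(hform χ hχ).2 g hg, (hform ψ hψ).2 g hg]

/-- The `p`-group case of the forward direction. -/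
theorem extraspecial_of_unique {p : ℕ} [Fact p.Prime] (hP : IsPGroup p G) (χ : IrrCharacter G)
    (hχ : p ∣ charDegree (χ : G → ℂ))
    (huniq : ∀ ψ : IrrCharacter G, p ∣ charDegree (ψ : G → ℂ) → ψ = χ) :
    p = 2 ∧ Cfsg.IsExtraspecial 2 G := by
  classical
  have hp : p.Prime := Fact.out
  have := Fintype.ofFinite (IrrCharacter G)
  have hnil : Group.IsNilpotent G := hP.isNilpotent
  have hlin : ∀ ψ : IrrCharacter G, ψ ≠ χ → (ψ : G → ℂ) 1 = 1 := by
    intro ψ hψ
    by_contra h
    exact hψ (huniq ψ (H81.CentralVal.dvd_degree_of_isPGroup hP ψ h))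
  have hχ1 : (χ : G → ℂ) 1 ≠ 1 := by
    intro h
    rw [H81.DegreeCount.charDegree_natCast (n := 1) (by rw [h]; simp)] at hχ
    exact hp.one_lt.ne' (Nat.eq_one_of_dvd_one hχ)
  -- order formula
  have horder : Nat.card G = (commutator G).index + charDegree (χ : G → ℂ) ^ 2 := by
    have h1 := H18.CharInd.sum_degree_sq (G := G)
    rw [← Finset.add_sum_erase _ _ (Finset.mem_univ χ)] at h1
    have h2 : ∑ ψ ∈ Finset.univ.erase χ, (ψ : G → ℂ) 1 ^ 2 = ((commutator G).index : ℂ) := by
      rw [Finset.sum_congr rfl (g := fun _ => (1 : ℂ))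
        (fun ψ hψ => by rw [hlin ψ (Finset.ne_of_mem_erase hψ), one_pow])]
      rw [Finset.sum_const, nsmul_eq_mul, mul_one]
      congr 1
      rw [← H18.CharQuot.card_hom_eq_index, ← Nat.card_congr (H18.CharQuot.linEquiv G),
        Nat.card_eq_fintype_card, Fintype.card_subtype]
      congr 1
      ext ψ
      simp only [Finset.mem_erase, Finset.mem_univ, and_true, Finset.mem_filter, true_and]
      constructor
      · exact hlin ψ
      · intro h hh
        rw [hh] at h; exact hχ1 h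
    rw [h2, H81.DegreeCount.irr_one_eq χ] at h1
    have h3 : (Nat.card G : ℂ) = ((commutator G).index : ℂ) + (charDegree (χ : G → ℂ) : ℂ) ^ 2 := by
      rw [← h1]; ring
    exact_mod_cast h3
  obtain ⟨n, hn⟩ := IsPGroup.iff_card.1 hP
  have hidx := (commutator G).index_mul_card
  obtain ⟨c, hc⟩ : ∃ c, Nat.card (commutator G) = p ^ c :=
    IsPGroup.iff_card.1 (hP.to_subgroup _)
  obtain ⟨a, ha⟩ : ∃ a, charDegree (χ : G → ℂ) = p ^ a := by
    have h2 := H81.DegreeCount.charDegree_dvd χ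
    rw [hn] at h2
    obtain ⟨k, hk, hk'⟩ := (Nat.dvd_prime_pow hp).1 h2
    exact ⟨k, hk'⟩
  have hidx0 : 0 < (commutator G).index := Nat.pos_of_ne_zero Subgroup.index_ne_zero_of_finite
  have hc0 : c ≠ 0 := by
    rintro rfl
    rw [hc, pow_zero, mul_one] at hidx
    have h1 := H81.DegreeCount.charDegree_pos χ
    have h2 : 0 < charDegree (χ : G → ℂ) ^ 2 := by positivity
    omega
  have hkey : (commutator G).index * (p ^ c - 1) = p ^ (2 * a) := by
    rw [← hc, Nat.mul_sub, hidx, horder, ha, ← pow_mul, mul_comm a 2]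
    omega
  have hpc : p ^ c - 1 = 1 := by
    have h1 : (p ^ c - 1) ∣ p ^ (2 * a) := Dvd.intro_left _ hkey
    obtain ⟨k, hk, hk'⟩ := (Nat.dvd_prime_pow hp).1 h1
    rcases Nat.eq_zero_or_pos k with h | h
    · rw [hk', h, pow_zero]
    · exfalso
      have h2 : p ∣ p ^ c - 1 := by rw [hk']; exact dvd_pow_self p h.ne'
      have h3 : p ∣ p ^ c := dvd_pow_self p hc0
      have h4 : 1 ≤ p ^ c := Nat.one_le_pow _ _ hp.pos
      have h5 : p ∣ 1 := by
        have := (Nat.dvd_sub h3 h2)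
        rwa [Nat.sub_sub_self h4] at this
      exact hp.one_lt.ne' (Nat.eq_one_of_dvd_one h5)
  have hpc2 : p ^ c = 2 := by
    have h4 : 1 ≤ p ^ c := Nat.one_le_pow _ _ hp.pos
    omega
  have hp2 : p = 2 := by
    have h1 : p ∣ 2 := hpc2 ▸ dvd_pow_self p hc0
    exact (Nat.prime_dvd_prime_iff_eq hp Nat.prime_two).1 h1
  subst hp2
  refine ⟨rfl, ?_⟩
  have hG'2 : Nat.card (commutator G) = 2 := hc.trans hpc2
  -- commutator central
  have hle : commutator G ≤ Subgroup.center G := by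
    intro x hx
    by_cases hx1 : x = 1
    · rw [hx1]; exact one_mem _
    rw [Subgroup.mem_center_iff]
    intro g
    have h1 : g * x * g⁻¹ ∈ commutator G := (inferInstance : (commutator G).Normal).conj_mem x hx g
    have h2 : g * x * g⁻¹ = x := by
      by_contra hne
      have h3 : ({1, ⟨x, hx⟩, ⟨g * x * g⁻¹, h1⟩} : Set (commutator G)).ncard = 3 := by
        rw [Set.ncard_eq_three]
        refine ⟨1, ⟨x, hx⟩, ⟨g * x * g⁻¹, h1⟩, ?_, ?_, ?_, rfl⟩
        · intro hh; exact hx1 (congrArg Subtype.val hh).symm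
        · intro hh
          have : g * x * g⁻¹ = 1 := (congrArg Subtype.val hh).symm
          exact hx1 (conj_eq_one_iff.1 this)
        · intro hh; exact hne (congrArg Subtype.val hh).symm
      have h4 := Set.ncard_le_card ({1, ⟨x, hx⟩, ⟨g * x * g⁻¹, h1⟩} : Set (commutator G))
      rw [h3, hG'2] at h4
      omega
    exact mul_inv_eq_iff_eq_mul.1 h2
  have hge : Subgroup.center G ≤ commutator G := by
    intro z hz
    by_contra hzc
    obtain ⟨f, hf⟩ := H18.CharQuot.exists_hom_ne_one hzc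
    have h1 : IsIrrCharacter G ((fun x => (f x : ℂ)) * (χ : G → ℂ)) :=
      H18.CharQuot.isIrrCharacter_hom_mul f χ.2
    have h2 := huniq ⟨_, h1⟩ (by
      have : charDegree ((fun x => (f x : ℂ)) * (χ : G → ℂ)) = charDegree (χ : G → ℂ) := by
        apply H81.DegreeCount.charDegree_natCast
        simp [H81.DegreeCount.irr_one_eq χ]
      rw [this]; exact hχ)
    have h3 := congrFun (congrArg Subtype.val h2) z
    simp only [Pi.mul_apply] at h3
    have h4 := H81.CentralVal.central_ne_zero χ.2 hz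
    apply hf
    apply Units.ext
    exact mul_right_cancel₀ h4 (by rw [h3]; simp)
  have hcc : commutator G = Subgroup.center G := le_antisymm hle hge
  have hZ2 : Nat.card (Subgroup.center G) = 2 := hcc ▸ hG'2
  refine ⟨⟨hP, le_antisymm ?_ ?_, hcc⟩, hZ2⟩
  · rw [← hcc]
    refine H1.Frat.frattini_le_of_elementary (p := 2) le_rfl fun x => ?_
    rw [hcc]
    exact H3.Extraspecial.pow_mem_center hle hZ2 x
  · rw [← hcc]
    exact H1.Frat.commutator_le_frattini

/-- Let p be a prime and G a finite nilpotent group. Then G has exactly one irreducible complex character of degree divisible by p if and only if p = 2 and G is an extraspecial 2-group. -/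
theorem result {G : Type*} [Group G] [Finite G] [Group.IsNilpotent G] (p : ℕ) [Fact p.Prime] : Nat.card {χ : Cfsg.IrrCharacter G // p ∣ Cfsg.charDegree (χ : G → ℂ)} = 1 ↔ (p = 2 ∧ Cfsg.IsExtraspecial 2 G) := by
  classical
  have hp : p.Prime := Fact.out
  constructor
  swap
  · rintro ⟨rfl, h⟩
    exact card_one_of_extraspecial h
  intro h
  rw [Nat.card_eq_one_iff_exists] at h
  obtain ⟨⟨χ, hχ⟩, huniq'⟩ := h
  have huniq : ∀ ψ : IrrCharacter G, p ∣ charDegree (ψ : G → ℂ) → ψ = χ := fun ψ hψ =>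
    congrArg Subtype.val (huniq' ⟨ψ, hψ⟩)
  obtain ⟨P, Q, hQn, hQP⟩ := H2.Nilp.hasNPC_of_nilpotent (G := G) (p := p) inferInstance
  have hPn : (P : Subgroup G).Normal := by
    have q := (Group.isNilpotent_of_finite_tfae (G := G)).out 0 3
    exact q.1 inferInstance p inferInstance P
  have hinf : Q ⊓ (P : Subgroup G) = ⊥ := hQP.disjoint.eq_bot
  have hsup : Q ⊔ (P : Subgroup G) = ⊤ := hQP.sup_eq_top
  have hPidx : ¬ p ∣ (P : Subgroup G).index := P.not_dvd_index
  -- P is not abelian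
  obtain ⟨a, ha, b, hb, hab⟩ : ∃ a ∈ (P : Subgroup G), ∃ b ∈ (P : Subgroup G), a * b ≠ b * a := by
    by_contra hcon
    push Not at hcon
    have h1 := H4.CenterIndex.ito χ.2 (H81.DegreeCount.irr_one_eq χ) (P : Subgroup G) hcon
    exact hPidx (hχ.trans h1)
  -- a character of G/Q
  have hGQ : IsPGroup p (G ⧸ Q) := by
    rw [IsPGroup.iff_card]
    obtain ⟨n, hn⟩ := IsPGroup.iff_card.1 P.isPGroup'
    refine ⟨n, ?_⟩
    rw [← hn]
    change Q.index = _
    exact hQP.symm.index_eq_card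
  obtain ⟨χb, hχb⟩ : ∃ χb : IrrCharacter (G ⧸ Q), (χb : G ⧸ Q → ℂ) 1 ≠ 1 := by
    by_contra hcon
    push Not at hcon
    set w : G := a * b * a⁻¹ * b⁻¹ with hw
    have hw1 : ((w : G) : G ⧸ Q) = 1 := by
      apply H18.CharQuot.eq_one_of_forall_irr
      intro ψ hψ
      have h1 := hcon ⟨ψ, hψ⟩
      have h1' : ψ 1 = 1 := h1
      rw [h1']
      refine H81.CentralVal.linear_commutator (H18.CharBasic.isCharacter_of_isIrr hψ) h1' ?_
      rw [← Abelianization.ker_of, MonoidHom.mem_ker, hw]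
      simp
    rw [QuotientGroup.eq_one_iff] at hw1
    have hwP : w ∈ (P : Subgroup G) := by
      rw [hw]
      exact mul_mem (mul_mem (mul_mem ha hb) (inv_mem ha)) (inv_mem hb)
    have h2 : w ∈ Q ⊓ (P : Subgroup G) := ⟨hw1, hwP⟩
    rw [hinf, Subgroup.mem_bot] at h2
    apply hab
    calc a * b = (a * b * a⁻¹ * b⁻¹) * (b * a) := by group
      _ = b * a := by rw [← hw, h2, one_mul]
  have hdvd := H81.CentralVal.dvd_degree_of_isPGroup hGQ χb hχb
  let χ' : IrrCharacter G := ⟨fun g => (χb : G ⧸ Q → ℂ) (g : G ⧸ Q),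
    H18.CharQuot.isIrrCharacter_inflate Q χb.2⟩
  have hχ'1 : (χ' : G → ℂ) 1 = (charDegree (χb : G ⧸ Q → ℂ) : ℂ) := by
    rw [← H81.DegreeCount.irr_one_eq]; rfl
  have hχ'd : charDegree (χ' : G → ℂ) = charDegree (χb : G ⧸ Q → ℂ) :=
    H81.DegreeCount.charDegree_natCast hχ'1
  have hχ' : χ' = χ := huniq χ' (by rw [hχ'd]; exact hdvd)
  -- P = G
  have hPtop : (P : Subgroup G) = ⊤ := by
    by_contra hne
    have hnt : Nontrivial (G ⧸ (P : Subgroup G)) := by
      rw [QuotientGroup.nontrivial_iff]; exact hne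
    have hsol : Group.IsSolvable (G ⧸ (P : Subgroup G)) := inferInstance
    have hlt := Group.IsSolvable.commutator_lt_top_of_nontrivial (G ⧸ (P : Subgroup G))
    obtain ⟨g, -, hg⟩ := SetLike.exists_of_lt hlt
    obtain ⟨f, hf⟩ := H18.CharQuot.exists_hom_ne_one hg
    let k : G →* ℂˣ := f.comp (QuotientGroup.mk' (P : Subgroup G))
    have h1 : IsIrrCharacter G ((fun x => (k x : ℂ)) * (χ' : G → ℂ)) :=
      H18.CharQuot.isIrrCharacter_hom_mul k χ'.2
    have h2 := huniq ⟨_, h1⟩ (by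
      have : charDegree ((fun x => (k x : ℂ)) * (χ' : G → ℂ)) = charDegree (χb : G ⧸ Q → ℂ) := by
        apply H81.DegreeCount.charDegree_natCast
        rw [Pi.mul_apply, hχ'1, map_one]; simp
      rw [this]; exact hdvd)
    rw [← hχ'] at h2
    have h3 : ∀ y ∈ Q, k y = 1 := by
      intro y hy
      have h4 := congrFun (congrArg Subtype.val h2) y
      simp only [Pi.mul_apply] at h4
      have h5 : (χ' : G → ℂ) y = (χ' : G → ℂ) 1 := by
        change (χb : G ⧸ Q → ℂ) (y : G ⧸ Q) = (χb : G ⧸ Q → ℂ) ((1 : G) : G ⧸ Q)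
        rw [(QuotientGroup.eq_one_iff y).2 hy]; rfl
      have h6 : (χ' : G → ℂ) y ≠ 0 := by
        rw [h5]; exact H18.CharBasic.irr_one_ne_zero χ'.2
      apply Units.ext
      exact mul_right_cancel₀ h6 (by rw [h4]; simp)
    have h7 : (⊤ : Subgroup G) ≤ k.ker := by
      rw [← hsup]
      refine sup_le (fun y hy => h3 y hy) fun x hx => ?_
      rw [MonoidHom.mem_ker]
      change f (x : G ⧸ (P : Subgroup G)) = 1
      rw [(QuotientGroup.eq_one_iff x).2 hx, map_one]
    obtain ⟨g', rfl⟩ := QuotientGroup.mk_surjective g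
    exact hf (h7 (Subgroup.mem_top g'))
  have hPG : IsPGroup p G := by
    have h1 := P.isPGroup'
    have h2 := IsPGroup.iff_card.1 h1
    obtain ⟨n, hn⟩ := h2
    rw [hPtop, Subgroup.card_top] at hn
    exact IsPGroup.iff_card.2 ⟨n, hn⟩
  exact extraspecial_of_unique hPG χ hχ huniq

end Cfsg.Agent.S4762
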