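import Cfsg.Statements.S4775
import Cfsg.Agent.Lib.H82.SuzDeg

set_option autoImplicit false
open Cfsg

namespace Cfsg.Agent.S4775

/-- Let F be a finite field with q = 2^(2m+1) ≥ 8 elements and let S be isomorphic to the Suzuki group over F. Then the vertices of the character degree graph of S are 2 and the primes dividing (q − 1)(q² + 1); the primes dividing (q − 1)(q² + 1) are pairwise adjacent, and 2 is adjacent exactly to the primes dividing q − 1. -/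
theorem result (F : Type*) [Field F] [Fintype F] (m : ℕ) (hm : 1 ≤ m) (q : ℕ) (hq : Fintype.card F = q) (hqm : q = 2 ^ (2 * m + 1)) {S : Type*} [Group S] [Finite S] (hS : Nonempty (S ≃* ↥(Cfsg.Lie.Sz F (2 ^ (m + 1))))) : Cfsg.degreePrimes S = {r : ℕ | r.Prime ∧ (r = 2 ∨ r ∣ (q - 1) * (q ^ 2 + 1))} ∧ ∀ r s : ℕ, (Cfsg.degreeGraph S).Adj r s ↔ (r ≠ s ∧ r.Prime ∧ s.Prime ∧ ((r ∣ (q - 1) * (q ^ 2 + 1) ∧ s ∣ (q - 1) * (q ^ 2 + 1)) ∨ (r = 2 ∧ s ∣ q - 1) ∨ (s = 2 ∧ r ∣ q - 1))) := by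
  classical
  obtain ⟨e⟩ := hS
  have hF : Fintype.card F = 2 ^ (2 * m + 1) := by rw [hq, hqm]
  have e2 : S ≃* Cfsg.Sz F m := e.trans (H24.SzIso.equiv hF hm).symm
  have hcd := H82.SL2Even.charDegrees_congr e2
  have hC := H82.SuzDeg.concl (F := F) hm hF rfl rfl
  have hq1 : 1 ≤ 2 ^ (2 * m + 1) := Nat.one_le_two_pow
  have hle : 2 ^ (m + 1) ≤ 2 ^ (2 * m + 1) := Nat.pow_le_pow_right (by norm_num) (by omega)
  have hk12 : (2 ^ (2 * m + 1) + 2 ^ (m + 1) + 1) * (2 ^ (2 * m + 1) - 2 ^ (m + 1) + 1) =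
      (2 ^ (2 * m + 1)) ^ 2 + 1 := by
    obtain ⟨c, hc⟩ := Nat.exists_eq_add_of_le hle
    have h1 : (2 ^ (m + 1)) ^ 2 = 2 * 2 ^ (2 * m + 1) := by
      rw [← pow_mul, ← pow_succ']
      congr 1
      ring
    have h2 : 2 ^ (2 * m + 1) - 2 ^ (m + 1) = c := by omega
    rw [h2]
    rw [hc] at h1 ⊢
    ring_nf at h1 ⊢
    nlinarith
  have hg := H82.SuzDeg.graph (S := Cfsg.Sz F m) rfl (Nat.sub_add_cancel hq1) hk12
    (H8.SuzGroup.card_Sz hm hF) hC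
  rw [← hqm] at hg
  have h1 : Cfsg.degreePrimes S = Cfsg.degreePrimes (Cfsg.Sz F m) := by
    unfold Cfsg.degreePrimes
    rw [hcd]
  have h2 : ∀ r s, (Cfsg.degreeGraph S).Adj r s ↔ (Cfsg.degreeGraph (Cfsg.Sz F m)).Adj r s := by
    intro r s
    show (r ≠ s ∧ r.Prime ∧ s.Prime ∧ ∃ d ∈ Cfsg.charDegrees S, r * s ∣ d) ↔
      (r ≠ s ∧ r.Prime ∧ s.Prime ∧ ∃ d ∈ Cfsg.charDegrees (Cfsg.Sz F m), r * s ∣ d)
    rw [hcd]
  refine ⟨h1.trans hg.1, fun r s => (h2 r s).trans (hg.2 r s)⟩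

end Cfsg.Agent.S4775
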