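import Cfsg.Statements.S4781
import Cfsg.Agent.Lib.H77.NDA17
-- import your own Cfsg.Agent.* helpers here

set_option autoImplicit false
open Cfsg

namespace Cfsg.Agent.S4781

open Cfsg


/-- Let G be a finite solvable group in which no irreducible complex character degree a with 1 < a divides a larger irreducible character degree, and suppose the character degree graph of G (primes dividing some degree, distinct primes adjacent when their product divides a degree) has exactly two connected components. Then G has exactly three distinct irreducible character degrees. -/
theorem result {G : Type*} [Group G] [Finite G] [Group.IsSolvable G] (hnd : ∀ a ∈ Cfsg.charDegrees G, ∀ b ∈ Cfsg.charDegrees G, 1 < a → a < b → ¬ a ∣ b) (htwo : Nat.card ((Cfsg.degreeGraph G).induce (Cfsg.degreePrimes G)).ConnectedComponent = 2) : Nat.card ↥(Cfsg.charDegrees G) = 3 := by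
  exact H77.NDA.main inferInstance hnd htwo

end Cfsg.Agent.S4781
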