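import Cfsg.Statements.S4782
import Cfsg.Agent.Lib.H82.TwoPrimes

set_option autoImplicit false
open Cfsg

namespace Cfsg.Agent.S4782

/-- If the finite group G is not solvable, then at least three distinct primes each divide some irreducible complex character degree of G. -/
theorem result {G : Type*} [Group G] [Finite G] (hG : ¬ Group.IsSolvable G) : ∃ p q r : ℕ, p ≠ q ∧ q ≠ r ∧ p ≠ r ∧ p ∈ Cfsg.degreePrimes G ∧ q ∈ Cfsg.degreePrimes G ∧ r ∈ Cfsg.degreePrimes G := by
  by_contra hcon
  push Not at hcon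
  apply hG
  by_cases h0 : ∃ p, p ∈ Cfsg.degreePrimes G
  · obtain ⟨p, hp⟩ := h0
    by_cases h1 : ∃ q, q ∈ Cfsg.degreePrimes G ∧ p ≠ q
    · obtain ⟨q, hq, hpq⟩ := h1
      refine H82.TwoPrimes.isSolvable p q _ G rfl fun r hr => ?_
      by_contra h2
      push Not at h2
      exact hcon p q r hpq (Ne.symm h2.2) (Ne.symm h2.1) hp hq hr
    · push Not at h1
      exact H82.TwoPrimes.isSolvable p p _ G rfl fun r hr => Or.inl (h1 r hr).symm
  · push Not at h0
    exact H82.TwoPrimes.isSolvable 0 0 _ G rfl fun r hr => absurd hr (h0 r)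

end Cfsg.Agent.S4782
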