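import Cfsg.Statements.S4797
import Cfsg.Agent.Lib.H82.PrimeCodeg

set_option autoImplicit false
open Cfsg

namespace Cfsg.Agent.S4797

open H82.Deg H82.Simple H82.Quot H82.Const H82.Cliff H18.CharBasic H18.CharOrtho H18.CharQuot H18.CharInd

/-- The codegree of an irreducible complex character χ of a finite group G is [G : ker χ] / χ(1), where ker χ is the set of elements at which χ takes the value χ(1). A non-trivial finite group is perfect if and only if no irreducible complex character of it has prime codegree. -/
theorem result {G : Type*} [Group G] [Finite G] [Nontrivial G] : commutator G = ⊤ ↔ ∀ χ : Cfsg.IrrCharacter G, ¬ ((Nat.card G / (Nat.card {g : G // (χ : G → ℂ) g = (χ : G → ℂ) 1} * Cfsg.charDegree (χ : G → ℂ)))).Prime := by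
  classical
  simp_rw [codeg_eq]
  constructor
  · intro hperf χ hp
    set p := codeg χ with hpdef
    -- pass to the quotient by the kernel
    have hK : ∀ n ∈ ker χ, (χ : G → ℂ) n = (χ : G → ℂ) 1 := fun n hn => mem_ker.1 hn
    let χ' : IrrCharacter (G ⧸ ker χ) := ⟨deflate (ker χ) (χ : G → ℂ), isIrrCharacter_deflate _ χ.2 hK⟩
    have hdeg : charDegree (χ' : G ⧸ ker χ → ℂ) = charDegree (χ : G → ℂ) := charDegree_deflate _ χ hK
    have hcard : Nat.card (G ⧸ ker χ) = p * charDegree (χ' : G ⧸ ker χ → ℂ) := by
      rw [hdeg, hpdef, codeg_mul_degree]; rfl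
    have hperf' : commutator (G ⧸ ker χ) = ⊤ := by
      rw [commutator_def, eq_top_iff, ← Subgroup.map_top_of_surjective (QuotientGroup.mk' (ker χ))
        (QuotientGroup.mk'_surjective _), ← Subgroup.map_commutator, ← commutator_def, hperf]
    by_cases h1 : charDegree (χ' : G ⧸ ker χ → ℂ) = 1
    · rw [h1, mul_one] at hcard
      haveI : Fact p.Prime := ⟨hp⟩
      have hcyc : IsCyclic (G ⧸ ker χ) := isCyclic_of_prime_card hcard
      have hcomm : commutator (G ⧸ ker χ) = ⊥ := by
        rw [commutator_eq_bot_iff_center_eq_top, eq_top_iff]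
        intro x _
        rw [Subgroup.mem_center_iff]
        intro y
        exact hcyc.commutative.is_comm.comm y x
      rw [hperf'] at hcomm
      have h2 : Nat.card (⊤ : Subgroup (G ⧸ ker χ)) = Nat.card (⊥ : Subgroup (G ⧸ ker χ)) := by
        rw [hcomm]
      rw [Subgroup.card_top, Subgroup.card_bot, hcard] at h2
      exact hp.one_lt.ne' h2
    · obtain ⟨P, hP, hPcard, hPidx, hcop, hcent⟩ := H82.PrimeCodeg.exists_normal χ' p hp hcard h1
      haveI : Fact p.Prime := ⟨hp⟩
      have hcyc : IsCyclic P := isCyclic_of_prime_card hPcard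
      -- the conjugation action on `P` has abelian image
      let f : (G ⧸ ker χ) →* MulAut P := MulAut.conjNormal
      have hcommAut : ∀ a b : MulAut P, a * b = b * a := by
        intro a b
        obtain ⟨x, hx⟩ := hcyc.exists_generator
        obtain ⟨i, hi⟩ := hx (a x)
        obtain ⟨j, hj⟩ := hx (b x)
        ext y
        obtain ⟨k, hk⟩ := hx y
        have hi' : x ^ i = a x := hi
        have hj' : x ^ j = b x := hj
        have hk' : x ^ k = y := hk
        have e1 : (a * b) y = ((x ^ i) ^ j) ^ k := by
          rw [MulAut.mul_apply, ← hk', map_zpow, ← hj', map_zpow, map_zpow, ← hi']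
        have e2 : (b * a) y = ((x ^ j) ^ i) ^ k := by
          rw [MulAut.mul_apply, ← hk', map_zpow, ← hi', map_zpow, map_zpow, ← hj']
        rw [e1, e2, ← zpow_mul x i j, ← zpow_mul x j i, mul_comm i j]
      have hle : commutator (G ⧸ ker χ) ≤ f.ker := by
        rw [commutator_def, Subgroup.commutator_le]
        intro a _ b _
        rw [MonoidHom.mem_ker, map_commutatorElement, commutatorElement_eq_one_iff_mul_comm]
        exact hcommAut _ _
      rw [hperf', top_le_iff] at hle
      obtain ⟨x, hx1⟩ : ∃ x : P, x ≠ 1 := by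
        haveI : Nontrivial P := by
          rw [← Finite.one_lt_card_iff_nontrivial, hPcard]; exact hp.one_lt
        exact exists_ne 1
      apply h1
      rw [← hPidx, Subgroup.index_eq_one, eq_top_iff]
      intro g _
      refine hcent x x.2 (fun h => hx1 (Subtype.ext h)) g ?_
      have h2 : f g = 1 := by rw [← MonoidHom.mem_ker, hle]; trivial
      have h3 : f g x = x := by rw [h2]; rfl
      have h4 : g * (x : G ⧸ ker χ) * g⁻¹ = x := by
        have := congrArg Subtype.val h3
        rwa [MulAut.conjNormal_apply] at this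
      exact mul_inv_eq_iff_eq_mul.1 h4
  · intro h
    by_contra hne
    have h1 : (commutator G).index ≠ 1 := fun h' => hne (Subgroup.index_eq_one.1 h')
    rw [← card_hom_eq_index] at h1
    obtain ⟨p, hp, hpd⟩ := Nat.exists_prime_and_dvd h1
    haveI : Fact p.Prime := ⟨hp⟩
    haveI : Finite (G →* ℂˣ) := Nat.finite_of_card_ne_zero (by
      rw [card_hom_eq_index]; exact Subgroup.index_ne_zero_of_finite)
    obtain ⟨f, hf⟩ := exists_prime_orderOf_dvd_card' p hpd
    let χ : IrrCharacter G := ⟨fun g => (f g : ℂ), isIrrCharacter_of_hom f⟩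
    apply h χ
    have hdeg : charDegree (χ : G → ℂ) = 1 := charDegree_eq_of (by simp [χ])
    have hker : ker χ = f.ker := by
      ext g
      rw [mem_ker, MonoidHom.mem_ker]
      constructor
      · intro h2
        have h3 : (f g : ℂ) = (f 1 : ℂ) := h2
        rw [map_one] at h3
        exact Units.ext h3
      · intro h2
        show (f g : ℂ) = (f 1 : ℂ)
        rw [h2, map_one]
    have h2 := codeg_mul_degree χ
    rw [hdeg, mul_one, hker, Subgroup.index_ker] at h2
    rw [h2]
    -- the range is the group of `p`-th roots of unity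
    have h3 : f.range ≤ rootsOfUnity p ℂ := by
      rintro _ ⟨g, rfl⟩
      rw [mem_rootsOfUnity, ← MonoidHom.pow_apply, ← hf, pow_orderOf_eq_one]; rfl
    have h4 : Nat.card (rootsOfUnity p ℂ) = p := by
      rw [Complex.card_rootsOfUnity]
    have h5 : Nat.card f.range ∣ p := by
      rw [← h4]; exact Subgroup.card_dvd_of_le h3
    rcases (Nat.dvd_prime hp).1 h5 with h6 | h6
    · exfalso
      rw [Subgroup.card_eq_one] at h6
      have h7 : f = 1 := by
        ext g
        have : f g ∈ f.range := ⟨g, rfl⟩
        rw [h6, Subgroup.mem_bot] at this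
        rw [this]; rfl
      rw [h7, orderOf_one] at hf
      exact hp.one_lt.ne hf
    · rw [h6]; exact hp

end Cfsg.Agent.S4797
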