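import Cfsg.Statements.S4798
import Cfsg.Agent.Lib.H82.Const

set_option autoImplicit false
open Cfsg

namespace Cfsg.Agent.S4798

open H82.Deg H82.Simple H82.Quot H82.Const H82.Cliff H18.CharBasic H18.CharOrtho H18.CharQuot H18.CharInd

/-- Let p be a prime and χ a faithful irreducible complex character of the finite group G (χ(g) = χ(1) only for g = 1), so that its codegree is #G / χ(1). Then #G / χ(1) is a power of p if and only if χ is induced from a character of a Sylow p-subgroup of G. -/
theorem result {G : Type*} [Group G] [Fintype G] (p : ℕ) [Fact p.Prime] (χ : Cfsg.IrrCharacter G) (hfaith : ∀ g : G, (χ : G → ℂ) g = (χ : G → ℂ) 1 → g = 1) : (∃ k : ℕ, Nat.card G = p ^ k * Cfsg.charDegree (χ : G → ℂ)) ↔ ∃ (P : Sylow p G) (θ : ↥(P : Subgroup G) → ℂ), Cfsg.IsCharacter ↥(P : Subgroup G) θ ∧ (χ : G → ℂ) = Cfsg.indFun (P : Subgroup G) θ := by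
  classical
  have hp : p.Prime := Fact.out
  have hχc := isCharacter_of_isIrr χ.2
  constructor
  · rintro ⟨k, hk⟩
    obtain ⟨P⟩ : Nonempty (Sylow p G) := inferInstance
    letI := Fintype.ofFinite P
    have hPc := (P : Subgroup G).card_mul_index
    -- `p ^ k ∣ |P|`
    have hkP : p ^ k ∣ Nat.card P := by
      have h1 : p ^ k ∣ Nat.card G := Dvd.intro _ hk.symm
      rw [← hPc] at h1
      refine Nat.Coprime.dvd_of_dvd_mul_right ?_ h1
      exact Nat.Coprime.pow_left k ((Nat.Prime.coprime_iff_not_dvd hp).2 P.not_dvd_index)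
    obtain ⟨m, hm⟩ := IsPGroup.iff_card.1 P.2
    rw [hm] at hkP
    have hkm : k ≤ m := (Nat.pow_dvd_pow_iff_le_right hp.one_lt).1 hkP
    obtain ⟨j, rfl⟩ := Nat.exists_eq_add_of_le hkm
    have hdeg : charDegree (χ : G → ℂ) = (P : Subgroup G).index * p ^ j := by
      have h1 : p ^ k * charDegree (χ : G → ℂ) = p ^ k * ((P : Subgroup G).index * p ^ j) := by
        rw [← hk, ← hPc, hm, pow_add]; ring
      exact Nat.eq_of_mul_eq_mul_left (pow_pos hp.pos k) h1
    have hidx : 0 < (P : Subgroup G).index := Nat.pos_of_ne_zero Subgroup.index_ne_zero_of_finite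
    -- constituents of the restriction
    have hcons : ∀ θ : IrrCharacter P, classInner (fun x : P => (χ : G → ℂ) x) (θ : P → ℂ) ≠ 0 →
        ∃ i, j ≤ i ∧ charDegree (θ : P → ℂ) = p ^ i := by
      intro θ hθ
      have h1 : charDegree (θ : P → ℂ) ∣ p ^ (k + j) := by
        rw [← hm]; exact degree_dvd_card θ
      obtain ⟨i, _, hi⟩ := (Nat.dvd_prime_pow hp).1 h1
      refine ⟨i, ?_, hi⟩
      have h2 : classInner (indFun (P : Subgroup G) (θ : P → ℂ)) (χ : G → ℂ) ≠ 0 := by
        rw [classInner_ne_zero_symm, frobenius' _ _ (isClassFunction_of_isIrr χ.2)]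
        exact hθ
      have h3 := degree_le_of_constituent (isCharacter_ind _ (isCharacter_of_isIrr θ.2)) χ.2 h2
      rw [charDegree_ind _ (isCharacter_of_isIrr θ.2), hdeg, hi] at h3
      have h4 := Nat.le_of_mul_le_mul_left h3 hidx
      exact (Nat.pow_le_pow_iff_right hp.one_lt).1 h4
    have hex : ∃ θ : IrrCharacter P, classInner (fun x : P => (χ : G → ℂ) x) (θ : P → ℂ) ≠ 0 ∧
        charDegree (θ : P → ℂ) = p ^ j := by
      by_contra hcon
      push Not at hcon
      have h1 : p ^ (j + 1) ∣ charDegree (fun x : P => (χ : G → ℂ) x) := by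
        refine dvd_degree (isCharacter_restrict _ hχc) _ fun θ hθ => ?_
        obtain ⟨i, hi, hi'⟩ := hcons θ hθ
        rw [hi']
        have : j ≠ i := by
          rintro rfl
          exact hcon θ hθ hi'
        exact Nat.pow_dvd_pow p (by omega)
      rw [show charDegree (fun x : P => (χ : G → ℂ) x) = charDegree (χ : G → ℂ) from rfl, hdeg, pow_succ, mul_comm (P : Subgroup G).index,
        Nat.mul_dvd_mul_iff_left (pow_pos hp.pos j)] at h1
      exact P.not_dvd_index h1
    obtain ⟨θ, hθ, hθd⟩ := hex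
    refine ⟨P, θ, isCharacter_of_isIrr θ.2, ?_⟩
    symm
    refine eq_of_constituent_of_degree (isCharacter_ind _ (isCharacter_of_isIrr θ.2)) χ.2 ?_ ?_
    · rw [classInner_ne_zero_symm, frobenius' _ _ (isClassFunction_of_isIrr χ.2)]
      exact hθ
    · rw [charDegree_ind _ (isCharacter_of_isIrr θ.2), hdeg, hθd]
  · rintro ⟨P, θ, hθ, hχθ⟩
    letI := Fintype.ofFinite P
    have hPc := (P : Subgroup G).card_mul_index
    have hidx : 0 < (P : Subgroup G).index := Nat.pos_of_ne_zero Subgroup.index_ne_zero_of_finite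
    have hθ0 : θ ≠ 0 := by
      rintro rfl
      have h1 := irr_one_ne_zero χ.2
      rw [hχθ, indFun_zero] at h1
      exact h1 rfl
    obtain ⟨ψ, hψ, hψne⟩ := exists_constituent hθ hθ0
    have hle := degree_le_of_constituent hθ hψ hψne
    -- `χ` is a constituent of the induced character of `ψ`
    have h1 : classInner (indFun (P : Subgroup G) ψ) (χ : G → ℂ) ≠ 0 := by
      -- take a constituent `η` of `ψ^G`
      have h2 := isCharacter_ind (P : Subgroup G) (isCharacter_of_isIrr hψ)
      have h2' : indFun (P : Subgroup G) ψ ≠ 0 := by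
        intro h3
        have h4 := charDegree_ind (P : Subgroup G) (isCharacter_of_isIrr hψ)
        rw [h3] at h4
        have h5 : charDegree (0 : G → ℂ) = 0 := charDegree_eq_of (by simp)
        have h6 := charDegree_pos (⟨ψ, hψ⟩ : IrrCharacter P)
        rw [h5] at h4
        have h7 : 0 < (P : Subgroup G).index * charDegree ψ := Nat.mul_pos hidx h6
        omega
      obtain ⟨η, hη, hηne⟩ := exists_constituent h2 h2'
      -- `η` is a constituent of `χ`
      have h3 : classInner (χ : G → ℂ) η ≠ 0 := by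
        have h4 := isCharacter_sub_constituent hθ hψ hψne
        have h5 : (χ : G → ℂ) = indFun (P : Subgroup G) (θ - ψ) + indFun (P : Subgroup G) ψ := by
          rw [← indFun_add, sub_add_cancel, hχθ]
        rw [h5, H18.CharOrtho.inner_add_left]
        obtain ⟨a, ha⟩ := inner_char_natCast (isCharacter_ind (P : Subgroup G) h4) (isCharacter_of_isIrr hη)
        obtain ⟨b, hb⟩ := inner_char_natCast h2 (isCharacter_of_isIrr hη)
        rw [ha, hb]
        rw [hb] at hηne
        have hb0 : b ≠ 0 := by exact_mod_cast hηne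
        exact_mod_cast (by omega : a + b ≠ 0)
      have h4 : (χ : G → ℂ) = η := by
        by_contra hne
        exact h3 (inner_irr_ne χ.2 hη hne)
      rw [h4]; exact hηne
    have h5 := degree_le_of_constituent (isCharacter_ind (P : Subgroup G) (isCharacter_of_isIrr hψ)) χ.2 h1
    have h6 : charDegree (χ : G → ℂ) = (P : Subgroup G).index * charDegree θ := by
      rw [hχθ, charDegree_ind _ hθ]
    rw [charDegree_ind _ (isCharacter_of_isIrr hψ), h6] at h5
    have h7 := Nat.le_of_mul_le_mul_left h5 hidx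
    have h8 : charDegree θ = charDegree ψ := le_antisymm h7 hle
    obtain ⟨m, hm⟩ := IsPGroup.iff_card.1 P.2
    have h9 : charDegree ψ ∣ p ^ m := by
      rw [← hm]; exact degree_dvd_card (⟨ψ, hψ⟩ : IrrCharacter P)
    obtain ⟨i, hi, hi'⟩ := (Nat.dvd_prime_pow hp).1 h9
    refine ⟨m - i, ?_⟩
    rw [h6, h8, hi', ← hPc, hm]
    have : p ^ m = p ^ (m - i) * p ^ i := by rw [← pow_add]; congr 1; omega
    rw [this]; ring

end Cfsg.Agent.S4798
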