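import Cfsg.Statements.S4801
import Cfsg.Agent.Lib.H82.Simple

set_option autoImplicit false
open Cfsg

namespace Cfsg.Agent.S4801

open H82.Deg H82.Simple

/-- The codegree of an irreducible complex character χ of a finite group G is [G : ker χ] / χ(1), where ker χ is the set of elements at which χ takes the value χ(1). Let S be a finite simple group and G a finite group such that every codegree of an irreducible character of S is a codegree of an irreducible character of G. Then the order of S divides the order of G. -/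
theorem result {S : Type*} [Group S] [Finite S] (hS : IsSimpleGroup S) {G : Type*} [Group G] [Finite G] (hsub : ∀ χ : Cfsg.IrrCharacter S, ∃ ψ : Cfsg.IrrCharacter G, (Nat.card S / (Nat.card {g : S // (χ : S → ℂ) g = (χ : S → ℂ) 1} * Cfsg.charDegree (χ : S → ℂ))) = (Nat.card G / (Nat.card {g : G // (ψ : G → ℂ) g = (ψ : G → ℂ) 1} * Cfsg.charDegree (ψ : G → ℂ)))) : Nat.card S ∣ Nat.card G := by
  classical
  letI := Fintype.ofFinite (IrrCharacter S)
  have hdvd : ∀ χ : IrrCharacter S, codeg χ ∣ Nat.card G := by
    intro χ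
    obtain ⟨ψ, hψ⟩ := hsub χ
    rw [codeg_eq, codeg_eq] at hψ
    rw [hψ]
    exact codeg_dvd_card ψ
  have h1 := sum_degree_sq_nat (G := S)
  rw [← Finset.add_sum_erase _ _ (Finset.mem_univ (triv S)), charDegree_triv] at h1
  have h2 : Nat.card S ∣ ∑ χ ∈ Finset.univ.erase (triv S),
      Nat.card G * charDegree (χ : S → ℂ) ^ 2 := by
    refine Finset.dvd_sum fun χ hχ => ?_
    have hne := (Finset.mem_erase.1 hχ).1
    have h3 := codeg_mul_degree_of_simple hS hne
    obtain ⟨k, hk⟩ := hdvd χ
    rw [hk, ← h3]
    exact ⟨k * charDegree (χ : S → ℂ), by ring⟩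
  rw [← Finset.mul_sum] at h2
  have h4 : Nat.card S ∣ Nat.card G * (1 ^ 2 + ∑ χ ∈ Finset.univ.erase (triv S),
      charDegree (χ : S → ℂ) ^ 2) := by
    rw [h1]; exact Dvd.intro_left _ rfl
  rw [mul_add] at h4
  have h5 := (Nat.dvd_add_left h2).1 h4
  simpa using h5

end Cfsg.Agent.S4801
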