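import Cfsg.Statements.S4802
import Cfsg.Agent.Lib.H82.Coset

set_option autoImplicit false
open Cfsg

namespace Cfsg.Agent.S4802

open H82.Deg H82.Simple H82.Quot H82.Coset H18.CharBasic H18.CharQuot

/-- Let N < M be normal subgroups of the finite group G and g ∈ M ∖ N. Then the conjugacy class of g is exactly M ∖ N if and only if every irreducible complex character of G whose kernel contains N takes the same value at all elements of M ∖ N, and every irreducible complex character of G whose kernel does not contain N vanishes at g. -/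
theorem result {G : Type*} [Group G] [Finite G] (N M : Subgroup G) [N.Normal] [M.Normal] (hNM : N < M) (g : G) (hgM : g ∈ M) (hgN : g ∉ N) : {h : G | IsConj g h} = (M : Set G) \ (N : Set G) ↔ ((∀ χ : Cfsg.IrrCharacter G, (∀ x ∈ N, (χ : G → ℂ) x = (χ : G → ℂ) 1) → ∀ x ∈ M, x ∉ N → ∀ y ∈ M, y ∉ N → (χ : G → ℂ) x = (χ : G → ℂ) y) ∧ (∀ χ : Cfsg.IrrCharacter G, (∃ x ∈ N, (χ : G → ℂ) x ≠ (χ : G → ℂ) 1) → (χ : G → ℂ) g = 0)) := by
  constructor
  · intro hcl
    have hconj : ∀ x ∈ M, x ∉ N → IsConj g x := by
      intro x hx hx'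
      have : x ∈ {h : G | IsConj g h} := by rw [hcl]; exact ⟨hx, hx'⟩
      exact this
    refine ⟨?_, ?_⟩
    · intro χ _ x hx hx' y hy hy'
      rw [← classFunction_isConj (isClassFunction_of_isIrr χ.2) (hconj x hx hx'),
        ← classFunction_isConj (isClassFunction_of_isIrr χ.2) (hconj y hy hy')]
    · intro χ hχ
      refine eq_zero_of_coset N g ?_ χ ?_
      · intro n hn
        refine hconj _ (M.mul_mem hgM (hNM.le hn)) ?_
        intro h
        exact hgN ((N.mul_mem_cancel_right hn).1 h)
      · intro hover
        obtain ⟨x, hx, hx'⟩ := hχ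
        exact hx' (hover x hx)
  · rintro ⟨h1, h2⟩
    ext h
    constructor
    · intro hc
      have hc' : IsConj g h := hc
      obtain ⟨c, hc⟩ := isConj_iff.1 hc'
      refine ⟨?_, ?_⟩
      · rw [← hc]; exact (inferInstance : M.Normal).conj_mem _ hgM _
      · intro hh
        apply hgN
        have : c⁻¹ * h * c⁻¹⁻¹ ∈ N := (inferInstance : N.Normal).conj_mem _ hh _
        rw [← hc] at this
        convert this using 1
        group
    · rintro ⟨hhM, hhN⟩
      refine isConj_of_zero N g h ?_ ?_
      · intro χ hχ
        apply h2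
        unfold Over at hχ
        push Not at hχ
        exact hχ
      · intro χ hχ
        exact h1 χ hχ h hhM hhN g hgM hgN

end Cfsg.Agent.S4802
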