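import Cfsg.Statements.S4808
import Cfsg.Agent.Lib.H82.Quot

set_option autoImplicit false
open Cfsg

namespace Cfsg.Agent.S4808

open H82.Deg H82.Simple H82.Quot

/-- The codegree of an irreducible complex character χ of a finite group G is [G : ker χ] / χ(1), where ker χ is the set of elements at which χ takes the value χ(1). A prime divides the order of G if and only if it divides the codegree of some irreducible complex character of G. -/
theorem result {G : Type*} [Group G] [Finite G] (p : ℕ) (hp : p.Prime) : p ∣ Nat.card G ↔ ∃ χ : Cfsg.IrrCharacter G, p ∣ (Nat.card G / (Nat.card {g : G // (χ : G → ℂ) g = (χ : G → ℂ) 1} * Cfsg.charDegree (χ : G → ℂ))) := by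
  classical
  simp_rw [codeg_eq]
  constructor
  swap
  · rintro ⟨χ, hχ⟩
    exact hχ.trans (codeg_dvd_card χ)
  intro hpG
  by_contra hcon
  push Not at hcon
  letI := Fintype.ofFinite (IrrCharacter G)
  -- a normal subgroup `N` maximal subject to `p ∣ N.index`
  obtain ⟨N, hNmax⟩ := (Set.toFinite {N : Subgroup G | N.Normal ∧ p ∣ N.index}).exists_maximal
    ⟨⊥, inferInstance, by rwa [Subgroup.index_bot]⟩
  have hN : N.Normal := hNmax.prop.1
  have hNp : p ∣ N.index := hNmax.prop.2
  have hbig : ∀ K : Subgroup G, K.Normal → N < K → ¬ p ∣ K.index := by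
    intro K hK hNK hdvd
    exact absurd (hNmax.le_of_ge (show K ∈ {N : Subgroup G | N.Normal ∧ p ∣ N.index} from ⟨hK, hdvd⟩) hNK.le) hNK.not_ge
  have hNtop : N < ⊤ := by
    rw [lt_top_iff_ne_top]
    rintro rfl
    rw [Subgroup.index_top] at hNp
    exact hp.one_lt.ne' (Nat.dvd_one.1 hNp)
  -- a minimal normal subgroup above `N`
  obtain ⟨M, hMmin⟩ := (Set.toFinite {M : Subgroup G | M.Normal ∧ N < M}).exists_minimal
    ⟨⊤, inferInstance, hNtop⟩
  have hM : M.Normal := hMmin.prop.1
  have hNM : N < M := hMmin.prop.2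
  have hMp := hbig M hM hNM
  have hker : ∀ K : Subgroup G, K.Normal → N < K → M ≤ K := by
    intro K hK hNK
    by_contra hnot
    have h1 : N = K ⊓ M := by
      refine le_antisymm (le_inf hNK.le hNM.le) ?_
      by_contra h2
      have h3 : N < K ⊓ M := lt_of_le_of_ne (le_inf hNK.le hNM.le) (fun h => h2 (h ▸ le_rfl))
      have h4 : M ≤ K ⊓ M := hMmin.le_of_le (show K ⊓ M ∈ {M : Subgroup G | M.Normal ∧ N < M} from ⟨inferInstance, h3⟩) inf_le_right
      exact hnot (h4.trans inf_le_left)
    have h5 : N.relIndex M ∣ K.index := by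
      rw [h1, Subgroup.inf_relIndex_right]
      exact Subgroup.relIndex_dvd_index_of_normal K M
    have h6 : N.relIndex M * M.index = N.index := Subgroup.relIndex_mul_index hNM.le
    rw [← h6] at hNp
    rcases (Nat.Prime.dvd_mul hp).1 hNp with h7 | h7
    · exact hbig K hK hNK (h7.trans h5)
    · exact hMp h7
  have hsN := sum_degree_sq_over N
  have hsM := sum_degree_sq_over M
  have hsub : (Finset.univ.filter (Over M) : Finset (IrrCharacter G)) ⊆ Finset.univ.filter (Over N) := by
    intro χ hχ
    simp only [Finset.mem_filter, Finset.mem_univ, true_and] at hχ ⊢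
    exact fun n hn => hχ n (hNM.le hn)
  rw [← Finset.sum_sdiff hsub, hsM] at hsN
  have hd : p ∣ ∑ χ ∈ (Finset.univ.filter (Over N) : Finset (IrrCharacter G)) \ Finset.univ.filter (Over M),
      charDegree (χ : G → ℂ) ^ 2 := by
    refine Finset.dvd_sum fun χ hχ => ?_
    simp only [Finset.mem_sdiff, Finset.mem_filter, Finset.mem_univ, true_and] at hχ
    rw [over_iff, over_iff] at hχ
    have h1 : ker χ = N := by
      by_contra hne
      exact hχ.2 (hker _ inferInstance (lt_of_le_of_ne hχ.1 (Ne.symm hne)))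
    have h2 := codeg_mul_degree χ
    rw [h1] at h2
    rw [← h2] at hNp
    rcases (Nat.Prime.dvd_mul hp).1 hNp with h7 | h7
    · exact absurd h7 (hcon χ)
    · exact dvd_pow h7 two_ne_zero
  rw [← hsN] at hNp
  exact hMp ((Nat.dvd_add_right hd).1 hNp)

end Cfsg.Agent.S4808
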