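import Cfsg.Statements.S4814
import Cfsg.Agent.Lib.H82.Comm

set_option autoImplicit false
open Cfsg

namespace Cfsg.Agent.S4814

open H82.Deg H82.Simple H82.Quot H82.Comm H18.CharBasic H18.CharQuot H18.CharInd

/-- Let G be a finite group such that the sum, over the irreducible complex characters χ of G, of 1/χ(1)² is less than 2. Then every element of G is a product of two commutators. -/
theorem result {G : Type*} [Group G] [Finite G]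
    (h : ∑ᶠ χ : Cfsg.IrrCharacter G, 1 / ‖(χ : G → ℂ) 1‖ ^ 2 < (2 : ℝ)) (g : G) :
    ∃ a b c d : G, (a * b * a⁻¹ * b⁻¹) * (c * d * c⁻¹ * d⁻¹) = g := by
  classical
  by_contra hcon
  push Not at hcon
  letI := Fintype.ofFinite (IrrCharacter G)
  letI := Fintype.ofFinite G
  rw [finsum_eq_sum_of_fintype] at h
  have hcard : (Nat.card G : ℂ) ≠ 0 := by exact_mod_cast Nat.card_pos.ne'
  -- the sum over all quadruples
  have h0 : ∑ χ : IrrCharacter G, (χ : G → ℂ) g⁻¹ / (χ : G → ℂ) 1 ^ 3 = 0 := by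
    have h1 : ∑ χ : IrrCharacter G, (χ : G → ℂ) 1 * ∑ a : G, ∑ b : G, ∑ c : G, ∑ d : G,
        (χ : G → ℂ) (a * b * a⁻¹ * b⁻¹ * (c * d * c⁻¹ * d⁻¹ * g⁻¹)) = 0 := by
      simp_rw [Finset.mul_sum]
      rw [Finset.sum_comm]
      refine Finset.sum_eq_zero fun a _ => ?_
      rw [Finset.sum_comm]
      refine Finset.sum_eq_zero fun b _ => ?_
      rw [Finset.sum_comm]
      refine Finset.sum_eq_zero fun c _ => ?_
      rw [Finset.sum_comm]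
      refine Finset.sum_eq_zero fun d _ => ?_
      refine sum_degree_mul ?_
      intro h2
      refine hcon a b c d ?_
      have h3 : a * b * a⁻¹ * b⁻¹ * (c * d * c⁻¹ * d⁻¹) * g⁻¹ = 1 := by
        rw [mul_assoc (a * b * a⁻¹ * b⁻¹)]; exact h2
      exact mul_inv_eq_one.1 h3
    have h2 : ∀ χ : IrrCharacter G, (χ : G → ℂ) 1 * ∑ a : G, ∑ b : G, ∑ c : G, ∑ d : G,
        (χ : G → ℂ) (a * b * a⁻¹ * b⁻¹ * (c * d * c⁻¹ * d⁻¹ * g⁻¹)) =
        (Nat.card G : ℂ) ^ 4 * ((χ : G → ℂ) g⁻¹ / (χ : G → ℂ) 1 ^ 3) := by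
      intro χ
      have hne := irr_one_ne_zero χ.2
      have h3 : ∑ a : G, ∑ b : G, ∑ c : G, ∑ d : G,
        (χ : G → ℂ) (a * b * a⁻¹ * b⁻¹ * (c * d * c⁻¹ * d⁻¹ * g⁻¹)) =
          ∑ c : G, ∑ d : G, ∑ a : G, ∑ b : G,
        (χ : G → ℂ) (a * b * a⁻¹ * b⁻¹ * (c * d * c⁻¹ * d⁻¹ * g⁻¹)) := by
        calc _ = ∑ a : G, ∑ c : G, ∑ b : G, ∑ d : G,
              (χ : G → ℂ) (a * b * a⁻¹ * b⁻¹ * (c * d * c⁻¹ * d⁻¹ * g⁻¹)) :=
              Finset.sum_congr rfl fun a _ => Finset.sum_comm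
          _ = ∑ c : G, ∑ a : G, ∑ b : G, ∑ d : G,
              (χ : G → ℂ) (a * b * a⁻¹ * b⁻¹ * (c * d * c⁻¹ * d⁻¹ * g⁻¹)) := Finset.sum_comm
          _ = ∑ c : G, ∑ a : G, ∑ d : G, ∑ b : G,
              (χ : G → ℂ) (a * b * a⁻¹ * b⁻¹ * (c * d * c⁻¹ * d⁻¹ * g⁻¹)) :=
              Finset.sum_congr rfl fun c _ => Finset.sum_congr rfl fun a _ => Finset.sum_comm
          _ = _ := Finset.sum_congr rfl fun c _ => Finset.sum_comm
      rw [h3]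
      simp_rw [sum_commutator, ← Finset.mul_sum]
      rw [sum_commutator]
      field_simp
    rw [Finset.sum_congr rfl fun χ _ => h2 χ, ← Finset.mul_sum] at h1
    rcases mul_eq_zero.1 h1 with h3 | h3
    · exact absurd h3 (pow_ne_zero _ hcard)
    · exact h3
  rw [← Finset.add_sum_erase _ _ (Finset.mem_univ (triv G))] at h0 h
  have h4 : (triv G : G → ℂ) g⁻¹ / (triv G : G → ℂ) 1 ^ 3 = 1 := by simp [triv]
  have h5 : 1 / ‖(triv G : G → ℂ) 1‖ ^ 2 = (1 : ℝ) := by simp [triv]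
  rw [h4] at h0
  rw [h5] at h
  have h6 : ‖∑ χ ∈ Finset.univ.erase (triv G), (χ : G → ℂ) g⁻¹ / (χ : G → ℂ) 1 ^ 3‖ = 1 := by
    have : ∑ χ ∈ Finset.univ.erase (triv G), (χ : G → ℂ) g⁻¹ / (χ : G → ℂ) 1 ^ 3 = -1 := by
      linear_combination h0
    rw [this]; simp
  have h7 : ‖∑ χ ∈ Finset.univ.erase (triv G), (χ : G → ℂ) g⁻¹ / (χ : G → ℂ) 1 ^ 3‖ ≤
      ∑ χ ∈ Finset.univ.erase (triv G), 1 / ‖(χ : G → ℂ) 1‖ ^ 2 := by
    refine (norm_sum_le _ _).trans (Finset.sum_le_sum fun χ _ => ?_)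
    have h8 : ‖(χ : G → ℂ) g⁻¹‖ ≤ ‖(χ : G → ℂ) 1‖ :=
      (char_norm_le (isCharacter_of_isIrr χ.2) g⁻¹).trans (Complex.re_le_norm _)
    have h9 : 0 < ‖(χ : G → ℂ) 1‖ := norm_pos_iff.2 (irr_one_ne_zero χ.2)
    rw [norm_div, norm_pow, div_le_div_iff₀ (by positivity) (by positivity)]
    calc ‖(χ : G → ℂ) g⁻¹‖ * ‖(χ : G → ℂ) 1‖ ^ 2 ≤ ‖(χ : G → ℂ) 1‖ * ‖(χ : G → ℂ) 1‖ ^ 2 := by
          gcongr
      _ = 1 * ‖(χ : G → ℂ) 1‖ ^ 3 := by ring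
  linarith

end Cfsg.Agent.S4814
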