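import Cfsg.Statements.S4828
import Cfsg.Agent.Lib.H82.MaxPair
import Cfsg.Agent.S0968
import Cfsg.Agent.S0969

set_option autoImplicit false
open Cfsg

namespace Cfsg.Agent.S4828

open H80.GA H80.GB H80.GD H80.GE H80.GH

theorem centralizes_sub {G : Type*} [Group G] {Q : Subgroup G} {z c : G}
    (hz : z ∈ Q) (hc : c ∈ Subgroup.centralizer (Q : Set G)) : z * c = c * z :=
  Subgroup.mem_centralizer_iff.1 hc z hz

theorem zsub_center {G : Type*} [Group G] (Q : Subgroup G) :
    (Q ⊓ Subgroup.centralizer (Q : Set G)).subgroupOf (Subgroup.centralizer (Q : Set G)) ≤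
      Subgroup.center (Subgroup.centralizer (Q : Set G)) := by
  intro z hz
  rw [Subgroup.mem_center_iff]
  intro g
  have h1 : (z : G) ∈ Q := (Subgroup.mem_subgroupOf.1 hz).1
  exact Subtype.ext (centralizes_sub h1 g.2).symm

theorem card_zsub {G : Type*} [Group G] [Finite G] (Q : Subgroup G) :
    Nat.card ((Q ⊓ Subgroup.centralizer (Q : Set G)).subgroupOf
      (Subgroup.centralizer (Q : Set G))) = Nat.card ↥(Q ⊓ Subgroup.centralizer (Q : Set G)) :=
  Nat.card_congr (Subgroup.subgroupOfEquivOfLe inf_le_right).toEquiv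


/-- Let p be a prime, M a maximal ideal of the algebraic integers containing p, and (Q, e) a Brauer pair of the finite group G (Q a p-subgroup, e a block of C_G(Q)). Then (Q, e) is a maximal Brauer pair of some block of G if and only if e contains an irreducible character θ such that θ takes the value θ(1) at every element of Z(Q) = Q ∩ C_G(Q), the p-part of θ(1) times the p-part of the order of Z(Q) equals the p-part of the order of C_G(Q) (θ has defect zero as a character of C_G(Q)/Z(Q)), and every element of N_G(Q) of p-power order that stabilizes e lies in Q·C_G(Q) (the stabilizer of e in N_G(Q) has index prime to p over Q·C_G(Q)). -/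
theorem result {G : Type*} [Group G] [Finite G] (p : ℕ) [Fact p.Prime] (M : Ideal Cfsg.AlgInt) (hM : Cfsg.IsPModular p M) (Q : Subgroup G) (e : Set (Cfsg.IrrCharacter (Subgroup.centralizer (Q : Set G)))) (he : Cfsg.IsBrauerPair p M Q e) :
    (∃ B : Set (Cfsg.IrrCharacter G), Cfsg.IsMaximalBrauerPair p M B Q e) ↔
      ∃ θ ∈ e, (∀ z : Subgroup.centralizer (Q : Set G), (z : G) ∈ Q → (θ : Subgroup.centralizer (Q : Set G) → ℂ) z = (θ : Subgroup.centralizer (Q : Set G) → ℂ) 1) ∧
        (Cfsg.charDegree (θ : Subgroup.centralizer (Q : Set G) → ℂ)).factorization p + (Nat.card ↥(Q ⊓ Subgroup.centralizer (Q : Set G))).factorization p = (Nat.card (Subgroup.centralizer (Q : Set G))).factorization p ∧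
        (∀ g : G, g ∈ Subgroup.normalizer (Q : Set G) → Cfsg.StabilizesBlock (Subgroup.centralizer (Q : Set G)) e g → (∃ k : ℕ, orderOf g = p ^ k) → g ∈ Q ⊔ Subgroup.centralizer (Q : Set G)) := by
  classical
  have hMmax : M.IsMaximal := hM.2.1
  have hchar : CharP (H20.Loc.ResF M) p := H20.Loc.charP_resF hM
  let _ : Algebra (ZMod p) (H20.Loc.ResF M) := ZMod.algebra (H20.Loc.ResF M) p
  have halg : Algebra.IsAlgebraic (ZMod p) (H20.Loc.ResF M) := H80.BR1.isAlgebraic_resF hM
  have hclosed : IsAlgClosed (H20.Loc.ResF M) := H20.Loc.isAlgClosed_resF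
  have hQ : IsPGroup p Q := he.1
  have heb : Cfsg.IsPBlock M e := he.2
  have hpair : IsPair p ⊤ Q (H80.BR2.bl M _ e) := H80.BR5.isPair_bl hQ heb
  have hpZ : IsPGroup p ((Q ⊓ Subgroup.centralizer (Q : Set G)).subgroupOf
      (Subgroup.centralizer (Q : Set G))) := by
    intro x
    obtain ⟨k, hk⟩ := hQ ⟨((x : Subgroup.centralizer (Q : Set G)) : G),
      (Subgroup.mem_subgroupOf.1 x.2).1⟩
    refine ⟨k, ?_⟩
    apply Subtype.ext
    apply Subtype.ext
    have h1 := congrArg Subtype.val hk
    exact h1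
  have hvi : ((Q ⊓ Subgroup.centralizer (Q : Set G)).subgroupOf
      (Subgroup.centralizer (Q : Set G))).index.factorization p +
      (Nat.card ↥(Q ⊓ Subgroup.centralizer (Q : Set G))).factorization p =
      (Nat.card (Subgroup.centralizer (Q : Set G))).factorization p := by
    rw [← ((Q ⊓ Subgroup.centralizer (Q : Set G)).subgroupOf
      (Subgroup.centralizer (Q : Set G))).index_mul_card, card_zsub Q,
      Nat.factorization_mul Subgroup.index_ne_zero_of_finite Nat.card_pos.ne']
    rfl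
  have hstab : ∀ g : G, g ∈ ST ⊤ Q (H80.BR2.bl M _ e) ↔ g ∈ Subgroup.normalizer (Q : Set G) ∧
      Cfsg.StabilizesBlock (Subgroup.centralizer (Q : Set G)) e g := by
    intro g
    rw [mem_ST, H80.BR2.stabilizes_iff heb]
    constructor
    · rintro ⟨-, h1, h2⟩
      exact ⟨h1, H80.BR5.normalizer_cent_le Q h1, h2⟩
    · rintro ⟨h1, -, h2⟩
      exact ⟨Subgroup.mem_top _, h1, h2⟩
  constructor
  · rintro ⟨B, hmax⟩
    obtain ⟨hB, -, h⟩ := H80.BR3.maximal_iff.1 hmax
    obtain ⟨hZ, -⟩ := H82.MaxPair.fwd_aux h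
    have hdef : Cfsg.IsDefectGroup p M e ((Q ⊓ Subgroup.centralizer (Q : Set G)).subgroupOf
      (Subgroup.centralizer (Q : Set G))) := (H80.BR5.defect_cent hM heb).2 hZ
    have hsup : ((Q ⊓ Subgroup.centralizer (Q : Set G)).subgroupOf
        (Subgroup.centralizer (Q : Set G))) ⊔
        Subgroup.centralizer (((Q ⊓ Subgroup.centralizer (Q : Set G)).subgroupOf
        (Subgroup.centralizer (Q : Set G)) : Subgroup (Subgroup.centralizer (Q : Set G))) :
        Set (Subgroup.centralizer (Q : Set G))) = ⊤ := by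
      rw [eq_top_iff]
      refine le_trans ?_ le_sup_right
      intro x _
      rw [Subgroup.mem_centralizer_iff]
      intro z hz
      exact (Subgroup.mem_center_iff.1 (zsub_center Q hz) x).symm
    obtain ⟨⟨θ, ⟨hθe, hθz⟩, -⟩, hfac, -⟩ := Cfsg.Agent.S0968.result p M hM _ hpZ hsup e heb hdef
    refine ⟨θ, hθe, fun z hz => hθz z (Subgroup.mem_subgroupOf.2 ⟨hz, z.2⟩), ?_, ?_⟩
    · rw [hfac θ hθe hθz]
      exact hvi
    · intro g hg1 hg2 hg3
      have h1 := H82.MaxPair.fwd h ((hstab g).2 ⟨hg1, hg2⟩) hg3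
      rwa [H80.BR3.CH_top] at h1
  · rintro ⟨θ, hθe, hθz, hfac, hst⟩
    have hi : (Cfsg.charDegree (θ : Subgroup.centralizer (Q : Set G) → ℂ)).factorization p =
        ((Q ⊓ Subgroup.centralizer (Q : Set G)).subgroupOf
        (Subgroup.centralizer (Q : Set G))).index.factorization p := by omega
    have h1 := (Cfsg.Agent.S0969.result p M hM _ hpZ (zsub_center Q) θ hi).1
    have h2 : Cfsg.blockOf M (θ : Subgroup.centralizer (Q : Set G) → ℂ) = e :=
      (H20.Blk.isPBlock_eq heb hθe).symm
    rw [h2] at h1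
    have h3 := (H80.BR5.defect_cent hM heb).1 h1
    obtain ⟨b, hb⟩ := exists_pairOf hpair
    obtain ⟨B, hB, rfl⟩ := H80.BR1.exists_ebar hb.blk
    refine ⟨B, H80.BR3.maximal_iff.2 ⟨hB, heb, H82.MaxPair.bwd hb h3 ?_⟩⟩
    intro g hg hgp
    rw [H80.BR3.CH_top]
    exact hst g ((hstab g).1 hg).1 ((hstab g).1 hg).2 hgp

end Cfsg.Agent.S4828
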