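import Cfsg.Statements.S4840
import Cfsg.Agent.Lib.H82.GagSolv
import Cfsg.Agent.Lib.H82.Gagola4
import Cfsg.Agent.Lib.H1.FrobSyl

set_option autoImplicit false
open Cfsg

namespace Cfsg.Agent.S4840
open Subgroup H82.Gagola in
theorem aux {G : Type*} [Group G] [Finite G] (hs : Group.IsSolvable G) {χ : Cfsg.IrrCharacter G}
    {N : Subgroup G} {f : ℕ} (h : Gag χ N f) {p : ℕ} [hpf : Fact p.Prime] (hp : IsPGroup p N) :
    ¬ p ∣ Nat.card (_root_.commutator (G ⧸ Cfsg.pCore p G)) := by
  classical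
  haveI := h.normal
  have hc := comm h hp
  set K := Cfsg.pCore p G with hK
  haveI hKn : K.Normal := inferInstance
  have hKp : IsPGroup p K := H1.Cores.isPGroup_pCore p
  have hNK : N ≤ K := H1.Cores.le_pCore h.normal hp
  have hKb : K ≠ ⊥ := fun h1 => h.ne_bot (by rw [eq_bot_iff, ← h1]; exact hNK)
  -- `K` centralizes `N`
  have hKC : ∀ k ∈ K, ∀ x ∈ N, k * x = x * k := by
    haveI : Nontrivial K := (Subgroup.nontrivial_iff_ne_bot K).2 hKb
    haveI := hKp.center_nontrivial
    have hZn : ((Subgroup.center K).map K.subtype).Normal := inferInstance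
    have hZb : (Subgroup.center K).map K.subtype ≠ ⊥ := by
      intro h1
      rw [Subgroup.map_eq_bot_iff_of_injective _ K.subtype_injective] at h1
      exact (Subgroup.nontrivial_iff_ne_bot _).1 (inferInstance : Nontrivial (Subgroup.center K)) h1
    have h1 := le_of_normal h ((Subgroup.center K).map K.subtype) hZb
    intro k hk x hx
    obtain ⟨z, hz, hzx⟩ := h1 hx
    have h2 := Subgroup.mem_center_iff.1 hz ⟨k, hk⟩
    have h3 := congrArg Subtype.val h2
    rw [← hzx]
    exact h3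
  -- centralizers of nonidentity elements of `N` are `p`-groups
  have hstab : ∀ x ∈ N, x ≠ 1 → ∀ g : G, g * x = x * g → ∃ k : ℕ, g ^ p ^ k = 1 := by
    intro x hx hx1 g hg
    obtain ⟨P, hP⟩ := centralizer_sylow h hp hx hx1
    have h1 : g ∈ (P : Subgroup G) := by
      rw [← hP, Subgroup.mem_centralizer_singleton_iff]; exact hg
    obtain ⟨k, hk⟩ := P.isPGroup' ⟨g, h1⟩
    exact ⟨k, congrArg Subtype.val hk⟩
  letI cg : CommGroup N := { (inferInstance : Group N) with mul_comm := fun a b => hc.is_comm.comm a b }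
  haveI : Nontrivial N := (Subgroup.nontrivial_iff_ne_bot N).2 h.ne_bot
  let Φ : G →* MulAut N := MulAut.conjNormal
  have hΦ : ∀ (g : G) (x : N), ((Φ g x : N) : G) = g * x * g⁻¹ := fun g x => MulAut.conjNormal_apply g x
  let φ : G ⧸ K →* MulAut N := QuotientGroup.lift K Φ (by
    intro k hk
    rw [MonoidHom.mem_ker]
    ext x
    rw [hΦ, hKC k hk x x.2]
    simp)
  have hφ : ∀ g : G, φ (g : G ⧸ K) = Φ g := fun g => rfl
  have hinj : Function.Injective φ := by
    rw [injective_iff_map_eq_one]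
    intro q hq
    obtain ⟨g, rfl⟩ := QuotientGroup.mk_surjective q
    rw [QuotientGroup.eq_one_iff]
    have h1 : centralizer (N : Set G) ≤ K := by
      rw [hK]
      apply H1.Cores.le_pCore inferInstance
      obtain ⟨x, hx, hx1⟩ := exists_ne_one h
      obtain ⟨P, hP⟩ := centralizer_sylow h hp hx hx1
      have h2 : Subgroup.centralizer (N : Set G) ≤ P := by
        rw [← hP]; exact Subgroup.centralizer_le (Set.singleton_subset_iff.2 hx)
      exact P.isPGroup'.to_le h2
    apply h1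
    rw [mem_centralizer_iff]
    intro x hx
    have h2 := hΦ g ⟨x, hx⟩
    rw [← hφ, hq] at h2
    have h3 : x = g * x * g⁻¹ := h2
    nth_rewrite 1 [h3]
    group
  refine H82.GagSolv.not_dvd_commutator φ hinj hp ?_ ?_ inferInstance (H1.Cores.pCore_quotient_pCore p) ?_
  · intro x y hx hy
    obtain ⟨g, hg⟩ := isConj_iff.1 (h.isConj x x.2 (fun h1 => hx (Subtype.ext h1)) y y.2
      (fun h1 => hy (Subtype.ext h1)))
    refine ⟨(g : G ⧸ K), Subtype.ext ?_⟩
    rw [hφ, hΦ, hg]
  · intro x hx q hq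
    obtain ⟨g, rfl⟩ := QuotientGroup.mk_surjective q
    have h1 := congrArg Subtype.val hq
    rw [hφ, hΦ] at h1
    obtain ⟨k, hk⟩ := hstab x x.2 (fun h1 => hx (Subtype.ext h1)) g (mul_inv_eq_iff_eq_mul.1 h1)
    exact ⟨k, by rw [← QuotientGroup.mk_pow, hk, QuotientGroup.mk_one]⟩
  · intro q hq hqp Q hQ
    haveI : Fact q.Prime := ⟨hq⟩
    obtain ⟨T, hT⟩ := hQ.exists_le_sylow
    obtain ⟨S, hS⟩ := Sylow.mapSurjective_surjective (QuotientGroup.mk'_surjective K) q T
    have hSfpf : ∀ a ∈ (S : Subgroup G), a ≠ 1 → N ⊓ Subgroup.centralizer {a} = ⊥ := by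
      intro a ha ha1
      rw [eq_bot_iff]
      intro x hx
      by_contra hx1
      obtain ⟨k, hk⟩ := hstab x hx.1 hx1 a ((mem_centralizer_singleton_iff.1 hx.2).symm)
      obtain ⟨l, hl⟩ := S.isPGroup' ⟨a, ha⟩
      have hl' : a ^ q ^ l = 1 := congrArg Subtype.val hl
      apply ha1
      have h1 : orderOf a ∣ p ^ k := orderOf_dvd_of_pow_eq_one hk
      have h2 : orderOf a ∣ q ^ l := orderOf_dvd_of_pow_eq_one hl'
      have h3 : Nat.Coprime (p ^ k) (q ^ l) :=
        Nat.Coprime.pow _ _ ((Nat.coprime_primes hpf.out hq).2 (Ne.symm hqp))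
      exact orderOf_eq_one_iff.1 (Nat.dvd_one.1 (by rw [← h3]; exact Nat.dvd_gcd h1 h2))
    have hcq := H1.FrobSyl.cyclic_or_quaternion (S : Subgroup G) N h.ne_bot
      (by rw [normalizer_eq_top_iff.2 h.normal]; exact le_top) hSfpf q S.isPGroup'
    let F : (S : Subgroup G) →* G ⧸ K := (QuotientGroup.mk' K).comp (S : Subgroup G).subtype
    have hF : Function.Injective F := by
      rw [injective_iff_map_eq_one]
      intro a ha
      have h1 : ((a : G) : G ⧸ K) = 1 := ha
      rw [QuotientGroup.eq_one_iff] at h1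
      obtain ⟨k, hk⟩ := hKp ⟨a, h1⟩
      have hk' : (a : G) ^ p ^ k = 1 := congrArg Subtype.val hk
      obtain ⟨l, hl⟩ := S.isPGroup' a
      have hl' : (a : G) ^ q ^ l = 1 := congrArg Subtype.val hl
      have h1 : orderOf (a : G) ∣ p ^ k := orderOf_dvd_of_pow_eq_one hk'
      have h2 : orderOf (a : G) ∣ q ^ l := orderOf_dvd_of_pow_eq_one hl'
      have h3 : Nat.Coprime (p ^ k) (q ^ l) :=
        Nat.Coprime.pow _ _ ((Nat.coprime_primes hpf.out hq).2 (Ne.symm hqp))
      exact Subtype.ext (orderOf_eq_one_iff.1 (Nat.dvd_one.1 (by rw [← h3]; exact Nat.dvd_gcd h1 h2)))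
    have hrange : Q ≤ F.range := by
      intro x hx
      have h1 : x ∈ (T : Subgroup (G ⧸ K)) := hT hx
      rw [← hS] at h1
      obtain ⟨y, hy, hyx⟩ := h1
      exact ⟨⟨y, hy⟩, hyx⟩
    let E : (S : Subgroup G) ≃* F.range := MonoidHom.ofInjective hF
    let ι : Q →* (S : Subgroup G) := E.symm.toMonoidHom.comp (Subgroup.inclusion hrange)
    have hι : Function.Injective ι := E.symm.injective.comp (Subgroup.inclusion_injective hrange)
    rcases hcq with h1 | ⟨h1, n, ⟨e⟩⟩
    · left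
      exact isCyclic_of_injective ι hι
    · right
      exact ⟨h1, n, e.toMonoidHom.comp ι, e.injective.comp hι⟩

/-- Let G be a finite solvable group of order greater than 2 with an irreducible character nonzero on exactly two conjugacy classes. Then there is exactly one prime p with O_p(G) ≠ 1, and the quotient G/O_p(G) has a normal p-complement and commutative Sylow p-subgroups. -/
theorem result {G : Type*} [Group G] [Finite G] [hs : Group.IsSolvable G] (hG : 2 < Nat.card G) (χ : Cfsg.IrrCharacter G) (hχ : Nat.card {C : ConjClasses G // ∃ g ∈ C.carrier, (χ : G → ℂ) g ≠ 0} = 2) :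
    ∃ p : ℕ, p.Prime ∧ (∀ q : ℕ, q.Prime → (Cfsg.pCore q G ≠ ⊥ ↔ q = p)) ∧
      Cfsg.HasNormalPComplement p (G ⧸ Cfsg.pCore p G) ∧ ∀ Q : Sylow p (G ⧸ Cfsg.pCore p G), IsMulCommutative (Q : Subgroup (G ⧸ Cfsg.pCore p G)) := by
  obtain ⟨N, f, h⟩ := H82.Gagola.exists_gag hG χ hχ
  obtain ⟨p, hp, hx⟩ := H82.Gagola.exists_prime h
  haveI := Fact.mk hp
  have hpN := H82.Gagola.isPGroup_of h hx
  haveI := h.normal
  have hNK : N ≤ Cfsg.pCore p G := H1.Cores.le_pCore h.normal hpN
  refine ⟨p, hp, ?_, H82.GagSolv.npc_of_commutator (aux hs h hpN)⟩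
  intro q hq
  constructor
  · intro hb
    haveI := Fact.mk hq
    haveI : (Cfsg.pCore q G).Normal := inferInstance
    have h1 := H82.Gagola.le_of_normal h (Cfsg.pCore q G) hb
    have h2 : IsPGroup q N := (H1.Cores.isPGroup_pCore q).to_le h1
    have h3 := H82.Gagola.dvd_card h hpN
    obtain ⟨k, hk⟩ := IsPGroup.iff_card.1 h2
    rw [hk] at h3
    exact ((Nat.prime_dvd_prime_iff_eq hp hq).1 (hp.dvd_of_dvd_pow h3)).symm
  · rintro rfl hb
    exact h.ne_bot (by rw [eq_bot_iff, ← hb]; exact hNK)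

end Cfsg.Agent.S4840
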