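import Cfsg.Statements.S4850
import Cfsg.Agent.Lib.H80.VO2
import Cfsg.Agent.Lib.H52.Sub

set_option autoImplicit false
open Cfsg
open scoped commutatorElement

namespace Cfsg.Agent.S4850

/-- Let p be a prime and G a finite solvable group whose vanishing elements (elements at which some irreducible character is zero) of order divisible by p all have the same order, with at least one such element. Let P be a Sylow p-subgroup of G. Then the derived subgroup of P is subnormal in G and the image of P in G/O_p(G) is cyclic. -/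
theorem result {G : Type*} [Group G] [Finite G] [hs : Group.IsSolvable G] (p : ℕ) [Fact p.Prime] (b : ℕ) (hvo : {n : ℕ | p ∣ n ∧ ∃ (g : G) (χ : Cfsg.IrrCharacter G), orderOf g = n ∧ (χ : G → ℂ) g = 0} = {b}) (P : Sylow p G) :
    ((commutator ↥(P : Subgroup G)).map (P : Subgroup G).subtype).IsSubnormal ∧ IsCyclic ↥((P : Subgroup G).map (QuotientGroup.mk' (Cfsg.pCore p G))) := by
  classical
  have hp : Fact p.Prime := inferInstance
  have hord : ∀ g : G, H85.VanP.Van g → p ∣ orderOf g → orderOf g = b := by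
    rintro g ⟨χ, hχ⟩ hpg
    have h1 : orderOf g ∈ {n : ℕ | p ∣ n ∧ ∃ (g : G) (χ : Cfsg.IrrCharacter G), orderOf g = n ∧ (χ : G → ℂ) g = 0} :=
      ⟨hpg, g, χ, rfl, hχ⟩
    rw [hvo] at h1
    exact h1
  set O := Cfsg.pCore p G with hO
  have hOp : IsPGroup p O := H1.Cores.isPGroup_pCore p
  have hOP : O ≤ (P : Subgroup G) := H1.Cores.pCore_le_sylow P
  have key : ¬ p ^ 2 ∣ O.index := by
    by_cases hd : p ∣ O.index
    swap
    · exact fun h => hd ((dvd_pow_self p two_ne_zero).trans h)
    obtain ⟨M', T', hM', hT', hMT', hTM', hMp', hk', hv'⟩ := H80.VO1.exists_section p _ (G ⧸ O) rfl inferInstance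
      (H1.Cores.pCore_quotient_pCore p) hd
    obtain ⟨t', ht', htM'⟩ := SetLike.not_le_iff_exists.1 hTM'
    obtain ⟨t, rfl⟩ := QuotientGroup.mk'_surjective O t'
    obtain ⟨k, hk⟩ := hk' _ ht'
    set c := ordCompl[p] (Nat.card G) with hc
    have hcop : (p ^ k).Coprime c :=
      Nat.Coprime.pow_left _ (Nat.coprime_ordCompl hp.out Nat.card_pos.ne')
    have h5 : (QuotientGroup.mk' O t) ^ c ∉ M' := by
      intro h6
      apply htM'
      set s := QuotientGroup.mk' O t with hs'
      have h7 : ((p ^ k : ℕ) : ℤ) * ((p ^ k : ℕ) : ℤ).gcdA c + c * ((p ^ k : ℕ) : ℤ).gcdB c = 1 := by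
        have := Int.gcd_eq_gcd_ab ((p ^ k : ℕ) : ℤ) (c : ℤ)
        rw [Int.gcd_natCast_natCast, hcop] at this
        simpa using this.symm
      have h8 : s = (s ^ (p ^ k)) ^ (((p ^ k : ℕ) : ℤ).gcdA c) * (s ^ c) ^ (((p ^ k : ℕ) : ℤ).gcdB c) := by
        rw [← zpow_natCast, ← zpow_natCast s c, ← zpow_mul, ← zpow_mul, ← zpow_add, h7, zpow_one]
      rw [h8]
      exact mul_mem (zpow_mem hk _) (zpow_mem h6 _)
    have h6 : (t ^ c) ^ p ^ (Nat.card G).factorization p = 1 := by
      rw [← pow_mul, mul_comm, hc, Nat.ordProj_mul_ordCompl_eq_self]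
      exact pow_card_eq_one'
    have h7 : H85.VanP.Van (t ^ c) := by
      apply H85.VanP.van_of_quot O
      apply hv'
      · rw [map_pow]; exact pow_mem ht' c
      · rw [map_pow]; exact h5
    obtain ⟨j, _, hj⟩ := (Nat.dvd_prime_pow hp.out).1 (orderOf_dvd_of_pow_eq_one h6)
    have hj0 : j ≠ 0 := by
      rintro rfl
      rw [pow_zero] at hj
      apply h5
      rw [← map_pow, orderOf_eq_one_iff.1 hj, map_one]
      exact one_mem _
    have hbj : b = p ^ j := by
      rw [← hord _ h7 (by rw [hj]; exact dvd_pow_self p hj0), hj]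
    have hb0 : 0 < b := by rw [hbj]; exact pow_pos hp.out.pos j
    refine H80.VO1.thmC p _ G rfl hs ⟨?_, ?_⟩
    · intro g hg hpg
      exact ⟨j, by rw [← hbj, ← hord g hg hpg]; exact pow_orderOf_eq_one g⟩
    · intro g hg hpg hgp
      by_contra hne
      have h8 : g ^ b = 1 := by rw [← hord g hg hpg]; exact pow_orderOf_eq_one g
      have h9 : (g ^ p) ^ (p ^ (j - 1)) = 1 := by
        rw [← pow_mul, ← pow_succ', Nat.sub_add_cancel (Nat.pos_of_ne_zero hj0), ← hbj]
        exact h8
      have h10 : orderOf (g ^ p) ∣ p ^ (j - 1) := orderOf_dvd_of_pow_eq_one h9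
      obtain ⟨i, hi, hi2⟩ := (Nat.dvd_prime_pow hp.out).1 h10
      have hi0 : i ≠ 0 := by
        rintro rfl
        rw [pow_zero] at hi2
        exact hne (orderOf_eq_one_iff.1 hi2)
      have h11 := hord (g ^ p) hgp (by rw [hi2]; exact dvd_pow_self p hi0)
      rw [hi2, hbj] at h11
      have h12 := Nat.pow_right_injective hp.out.two_le h11
      omega
  have hcyc : IsCyclic ↥((P : Subgroup G).map (QuotientGroup.mk' O)) := by
    have h1 : IsPGroup p ((P : Subgroup G).map (QuotientGroup.mk' O)) := P.isPGroup'.map _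
    obtain ⟨k, hk⟩ := IsPGroup.iff_card.1 h1
    have h2 : Nat.card ↥((P : Subgroup G).map (QuotientGroup.mk' O)) ∣ O.index :=
      Subgroup.card_subgroup_dvd_card _
    have hk1 : k ≤ 1 := by
      by_contra hlt
      apply key
      rw [hk] at h2
      exact (pow_dvd_pow p (by omega)).trans h2
    rcases Nat.le_one_iff_eq_zero_or_eq_one.1 hk1 with rfl | rfl
    · rw [pow_zero] at hk
      have : Subsingleton ↥((P : Subgroup G).map (QuotientGroup.mk' O)) :=
        (Nat.card_eq_one_iff_unique.1 hk).1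
      exact isCyclic_of_subsingleton
    · rw [pow_one] at hk
      exact isCyclic_of_prime_card hk
  refine ⟨?_, hcyc⟩
  suffices hle : (commutator ↥(P : Subgroup G)).map (P : Subgroup G).subtype ≤ O from
    Subgroup.IsSubnormal.trans hle (H52.Sub.isSubnormal_of_isNilpotent hOp.isNilpotent _)
      (inferInstance : O.Normal).isSubnormal
  rw [commutator_def, Subgroup.map_commutator, Subgroup.commutator_le]
  rintro _ ⟨x, -, rfl⟩ _ ⟨y, -, rfl⟩
  rw [← QuotientGroup.eq_one_iff]
  have hcm := hcyc.isMulCommutative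
  have h1 := hcm.is_comm.comm (⟨QuotientGroup.mk' O x, ⟨x, x.2, rfl⟩⟩ : ↥((P : Subgroup G).map (QuotientGroup.mk' O)))
    ⟨QuotientGroup.mk' O y, ⟨y, y.2, rfl⟩⟩
  have h2 : QuotientGroup.mk' O (x : G) * QuotientGroup.mk' O (y : G) =
    QuotientGroup.mk' O (y : G) * QuotientGroup.mk' O (x : G) := congrArg Subtype.val h1
  show QuotientGroup.mk' O ⁅(x : G), (y : G)⁆ = 1
  rw [map_commutatorElement, commutatorElement_eq_one_iff_mul_comm]
  exact h2

end Cfsg.Agent.S4850
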