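import Cfsg.Statements.S4856
import Cfsg.Agent.Lib.H83.Schur

set_option autoImplicit false
open Cfsg

namespace Cfsg.Agent.S4856

open scoped ComplexConjugate in
theorem main {G : Type*} [Group G] [Finite G] (z : G) :
    (Nat.card {xy : G × G // xy.1 * xy.2 * xy.1⁻¹ * xy.2⁻¹ = z} : ℂ) =
      (Nat.card G : ℂ) * ∑ᶠ χ : Cfsg.IrrCharacter G, (χ : G → ℂ) z / (χ : G → ℂ) 1 := by
  classical
  letI := Fintype.ofFinite G
  haveI : Finite (IrrCharacter G) := H18.CharOrtho.instFiniteIrr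
  letI := Fintype.ofFinite (IrrCharacter G)
  have hG0 : (Nat.card G : ℂ) ≠ 0 := H18.CharOrtho.card_ne_zero'
  -- the counting function
  let f : G → ℂ := fun z => (Nat.card {xy : G × G // xy.1 * xy.2 * xy.1⁻¹ * xy.2⁻¹ = z} : ℂ)
  have hfsum : ∀ z, f z = ∑ xy : G × G, if xy.1 * xy.2 * xy.1⁻¹ * xy.2⁻¹ = z then (1 : ℂ) else 0 := by
    intro z
    simp only [f]
    rw [Nat.card_eq_fintype_card, Fintype.card_subtype, Finset.sum_ite, Finset.sum_const_zero,
      add_zero, Finset.sum_const, nsmul_eq_mul, mul_one]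
  have hfc : IsClassFunction G f := by
    intro g h
    simp only [f]
    congr 1
    refine Nat.card_congr
      { toFun := fun xy => ⟨(h⁻¹ * xy.1.1 * h, h⁻¹ * xy.1.2 * h), ?_⟩
        invFun := fun xy => ⟨(h * xy.1.1 * h⁻¹, h * xy.1.2 * h⁻¹), ?_⟩
        left_inv := ?_
        right_inv := ?_ }
    · have h1 := xy.2
      calc h⁻¹ * xy.1.1 * h * (h⁻¹ * xy.1.2 * h) * (h⁻¹ * xy.1.1 * h)⁻¹ * (h⁻¹ * xy.1.2 * h)⁻¹
          = h⁻¹ * (xy.1.1 * xy.1.2 * xy.1.1⁻¹ * xy.1.2⁻¹) * h := by group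
        _ = h⁻¹ * (h * g * h⁻¹) * h := by rw [h1]
        _ = g := by group
    · have h1 := xy.2
      calc h * xy.1.1 * h⁻¹ * (h * xy.1.2 * h⁻¹) * (h * xy.1.1 * h⁻¹)⁻¹ * (h * xy.1.2 * h⁻¹)⁻¹
          = h * (xy.1.1 * xy.1.2 * xy.1.1⁻¹ * xy.1.2⁻¹) * h⁻¹ := by group
        _ = h * g * h⁻¹ := by rw [h1]
    · rintro ⟨⟨x, y⟩, hxy⟩
      apply Subtype.ext
      simp [mul_assoc]
    · rintro ⟨⟨x, y⟩, hxy⟩
      apply Subtype.ext
      simp [mul_assoc]
  have hinner : ∀ χ : IrrCharacter G, classInner f (χ : G → ℂ) = (Nat.card G : ℂ) / (χ : G → ℂ) 1 := by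
    intro χ
    have hχ := χ.2
    have hχc := H18.CharBasic.isCharacter_of_isIrr hχ
    have h1 := H18.CharBasic.irr_one_ne_zero hχ
    rw [H18.CharOrtho.inner_eq_sum_inv hχc]
    have e1 : ∑ g : G, f g * (χ : G → ℂ) g⁻¹ =
        ∑ xy : G × G, (χ : G → ℂ) (xy.1 * xy.2 * xy.1⁻¹ * xy.2⁻¹)⁻¹ := by
      simp_rw [hfsum, Finset.sum_mul]
      rw [Finset.sum_comm]
      refine Finset.sum_congr rfl fun xy _ => ?_
      simp [Finset.sum_ite_eq]
    rw [e1, Fintype.sum_prod_type, Finset.sum_comm]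
    have e2 : ∀ y : G, ∑ x : G, (χ : G → ℂ) (x * y * x⁻¹ * y⁻¹)⁻¹ =
        (Nat.card G : ℂ) * ((χ : G → ℂ) y * (χ : G → ℂ) y⁻¹) / (χ : G → ℂ) 1 := by
      intro y
      rw [← H83.Schur.sum_conj_mul hχ y y⁻¹]
      refine Finset.sum_congr rfl fun x _ => ?_
      congr 1
      group
    simp_rw [e2]
    have e3 : ∑ y : G, (χ : G → ℂ) y * (χ : G → ℂ) y⁻¹ = (Nat.card G : ℂ) := by
      have h2 := H18.CharOrtho.inner_irr_self hχ
      rw [H18.CharOrtho.inner_eq_sum_inv hχc] at h2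
      rw [inv_mul_eq_iff_eq_mul₀ hG0, mul_one] at h2
      exact h2
    rw [← Finset.sum_div, ← Finset.mul_sum, e3]
    field_simp
  have hexp := H18.CharOrtho.mem_classFun_expand hfc
  have hz := congrFun hexp z
  rw [Finset.sum_apply] at hz
  rw [finsum_eq_sum_of_fintype]
  change f z = _
  rw [hz, Finset.mul_sum]
  refine Finset.sum_congr rfl fun χ _ => ?_
  rw [Pi.smul_apply, smul_eq_mul, hinner]
  ring

/-- For an element z of a finite group G, the number of pairs (x, y) of elements with x y x⁻¹ y⁻¹ = z equals the order of G times the sum over the irreducible characters χ of χ(z)/χ(1). -/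
theorem result {G : Type*} [Group G] [Finite G] (z : G) : (Nat.card {xy : G × G // xy.1 * xy.2 * xy.1⁻¹ * xy.2⁻¹ = z} : ℂ) = (Nat.card G : ℂ) * ∑ᶠ χ : Cfsg.IrrCharacter G, (χ : G → ℂ) z / (χ : G → ℂ) 1 := by
  exact main z

end Cfsg.Agent.S4856
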