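import Cfsg.Statements.S4866
import Cfsg.Agent.Lib.H83.RealOrb

set_option autoImplicit false
open Cfsg

namespace Cfsg.Agent.S4866

open H83.RealOrb H31.Clifford

theorem aux1 {G : Type*} [Group G] [Finite G] (K : Subgroup G) [K.Normal] :
    Nat.card (Quot (fun θ η : {θ : Cfsg.IrrCharacter ↥K // (∀ k : ↥K, ((θ : ↥K → ℂ) k).im = 0)} => ∃ g : G, ∀ k k' : ↥K, (k' : G) = g * (k : G) * g⁻¹ → (η.1 : ↥K → ℂ) k' = (θ.1 : ↥K → ℂ) k)) =
    Nat.card (Quotient (MulAction.orbitRel G (RIrr K))) := by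
  refine Nat.card_congr (Quot.congrRight ?_)
  suffices H : ∀ θ η : RIrr K, (∃ g : G, ∀ k k' : ↥K, (k' : G) = g * (k : G) * g⁻¹ → (η.1 : ↥K → ℂ) k' = (θ.1 : ↥K → ℂ) k) ↔
      (MulAction.orbitRel G (RIrr K)) θ η from H
  intro θ η
  rw [MulAction.orbitRel_apply]
  constructor
  · rintro ⟨g, hg⟩
    refine ⟨g⁻¹, ?_⟩
    apply Subtype.ext
    apply Subtype.ext
    funext k
    change (η.1 : K → ℂ) (MulAut.conjNormal (g⁻¹)⁻¹ k) = _
    apply hg k
    rw [MulAut.conjNormal_apply]; simp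
  · rintro ⟨g, hg⟩
    refine ⟨g⁻¹, fun k k' h => ?_⟩
    rw [← hg]
    change _ = (η.1 : K → ℂ) (MulAut.conjNormal g⁻¹ k)
    have hk : k' = MulAut.conjNormal g⁻¹ k := by
      apply Subtype.ext
      rw [MulAut.conjNormal_apply, h]
    rw [hk]

theorem aux2 {G : Type*} [Group G] [Finite G] (K : Subgroup G) [K.Normal] :
    Nat.card (Quot (fun x y : {x : ↥K // IsConj x x⁻¹} => ∃ g : G, (y.1 : G) = g * x.1 * g⁻¹)) =
    Nat.card (Quotient (MulAction.orbitRel G (RCl K))) := by
  have hreal : ∀ x : {x : ↥K // IsConj x x⁻¹}, ∀ k : K, ConjClasses.mk k = ConjClasses.mk x.1 → IsConj k k⁻¹ := by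
    intro x k hk
    have h1 : IsConj k x.1 := ConjClasses.mk_eq_mk_iff_isConj.1 hk
    exact (h1.trans x.2).trans (isConj_inv h1).symm
  let F : {x : ↥K // IsConj x x⁻¹} → RCl K := fun x => RCl.of (ConjClasses.mk x.1) (hreal x)
  have hF : ∀ x y : {x : ↥K // IsConj x x⁻¹}, (∃ g : G, (y.1 : G) = g * x.1 * g⁻¹) ↔
      (MulAction.orbitRel G (RCl K)) (F x) (F y) := by
    intro x y
    rw [MulAction.orbitRel_apply]
    constructor
    · rintro ⟨g, hg⟩
      refine ⟨g⁻¹, ?_⟩
      apply Subtype.ext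
      change ConjClasses.mk (MulAut.conjNormal g⁻¹ y.1) = ConjClasses.mk x.1
      congr 1
      apply Subtype.ext
      rw [MulAut.conjNormal_apply, hg]
      group
    · rintro ⟨g, hg⟩
      have h1 : ConjClasses.mk (MulAut.conjNormal g y.1) = ConjClasses.mk x.1 := congrArg Subtype.val hg
      obtain ⟨c, hc⟩ := isConj_iff.1 (ConjClasses.mk_eq_mk_iff_isConj.1 h1)
      have h2 := congrArg Subtype.val hc
      rw [Subgroup.coe_mul, Subgroup.coe_mul, MulAut.conjNormal_apply, Subgroup.coe_inv] at h2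
      refine ⟨(c * g)⁻¹, ?_⟩
      rw [← h2]
      group
  refine Nat.card_congr (Equiv.ofBijective (Quot.lift (fun x => (Quotient.mk _ (F x) : Quotient (MulAction.orbitRel G (RCl K))))
    (fun x y h => Quotient.sound ((hF x y).1 h))) ⟨?_, ?_⟩)
  · rintro ⟨x⟩ ⟨y⟩ h
    apply Quot.sound
    exact (hF x y).2 (Quotient.exact h)
  · rintro ⟨C⟩
    obtain ⟨C, hC⟩ := C
    obtain ⟨c, rfl⟩ := ConjClasses.exists_rep C
    exact ⟨Quot.mk _ ⟨c, hC c rfl⟩, rfl⟩

/-- Let K be a normal subgroup of odd index in the finite group G. Then G has as many orbits on the real-valued irreducible complex characters of K (acting by conjugation) as it has orbits on the conjugacy classes of K that are real in K; equivalently, the number of G-orbits of real-valued irreducible characters of K equals the number of G-conjugacy classes of elements of K that are conjugate in K to their inverses. -/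
theorem result {G : Type*} [Group G] [Finite G] (K : Subgroup G) [K.Normal] (hodd : Odd K.index) : Nat.card (Quot (fun θ η : {θ : Cfsg.IrrCharacter ↥K // (∀ k : ↥K, ((θ : ↥K → ℂ) k).im = 0)} => ∃ g : G, ∀ k k' : ↥K, (k' : G) = g * (k : G) * g⁻¹ → (η.1 : ↥K → ℂ) k' = (θ.1 : ↥K → ℂ) k)) = Nat.card (Quot (fun x y : {x : ↥K // IsConj x x⁻¹} => ∃ g : G, (y.1 : G) = g * x.1 * g⁻¹)) := by
  rw [aux1, aux2]
  exact card_orbits_real K hodd

end Cfsg.Agent.S4866
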