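import Cfsg.Statements.S4870
import Cfsg.Agent.Lib.H83.ExtInd

set_option autoImplicit false
open Cfsg

namespace Cfsg.Agent.S4870

open H18.CharBasic H18.CharOrtho H18.CharInd H18.CharQuot H31.Clifford H83.ExtInd in
theorem main {G : Type*} [Group G] [Finite G] (N : Subgroup G) (hN : N.Normal)
    (hmin : ∀ M : Subgroup G, M.Normal → M ≤ N → M = ⊥ ∨ M = N) (hna : ¬ IsMulCommutative ↥N)
    (φ : Cfsg.IrrCharacter ↥N) (I : Subgroup G)
    (hI : ∀ g : G, g ∈ I ↔ ∀ n n' : ↥N, (n' : G) = g * (n : G) * g⁻¹ → (φ : ↥N → ℂ) n' = (φ : ↥N → ℂ) n)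
    (hNI : N ≤ I)
    (hext : ∃ ψ : Cfsg.IrrCharacter ↥I, ∀ n : ↥N, (ψ : ↥I → ℂ) (Subgroup.inclusion hNI n) = (φ : ↥N → ℂ) n) :
    Nat.card {χ : Cfsg.IrrCharacter G // Cfsg.charDegree (χ : G → ℂ) = 1} ≤
      I.index * Nat.card {χ : Cfsg.IrrCharacter G //
        Cfsg.charDegree (χ : G → ℂ) = Cfsg.charDegree (φ : ↥N → ℂ) * I.index} := by
  classical
  letI := Fintype.ofFinite G
  letI := Fintype.ofFinite I
  haveI := hN
  obtain ⟨ψ, hψ⟩ := hext
  have hI' : ∀ g : G, g ∈ I ↔ conjFunN N g (φ : N → ℂ) = φ := by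
    intro g
    rw [hI]
    constructor
    · intro h
      funext n
      rw [cj_apply]
      exact h n _ rfl
    · intro h n n' hn
      have h1 := congrFun h n
      rw [cj_apply] at h1
      rw [← h1]
      exact congrArg (φ : N → ℂ) (Subtype.ext hn)
  have hf : ∀ f : I →* ℂˣ, ∀ x : G, ∀ hx : x ∈ N, f ⟨x, hNI hx⟩ = 1 := fun f x hx =>
    hom_trivial_of_minimal N hN hmin hna I hNI f x hx
  -- linear characters of G
  have h1 : Nat.card {χ : Cfsg.IrrCharacter G // Cfsg.charDegree (χ : G → ℂ) = 1} = Nat.card (G →* ℂˣ) := by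
    rw [← Nat.card_congr (linEquiv G)]
    refine Nat.card_congr (Equiv.subtypeEquivRight fun χ => ?_)
    rw [charDegree_eq_iff (isCharacter_of_isIrr χ.2), Nat.cast_one]
  have h2 : Nat.card (G →* ℂˣ) ≤ I.index * Nat.card (I →* ℂˣ) := by
    have h3 := card_hom_le I (⊤ : Subgroup (G →* ℂˣ)) (⊤ : Subgroup (I →* ℂˣ)) (fun _ _ => trivial)
    rwa [Subgroup.card_top, Subgroup.card_top] at h3
  have h3 : Nat.card (I →* ℂˣ) ≤ Nat.card {χ : Cfsg.IrrCharacter G //
        Cfsg.charDegree (χ : G → ℂ) = Cfsg.charDegree (φ : ↥N → ℂ) * I.index} := by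
    have key := fun f : I →* ℂˣ => twist_ind N φ I hI' hNI ψ.2 hψ f (hf f)
    haveI : Finite (IrrCharacter G) := instFiniteIrr
    refine Nat.card_le_card_of_injective (fun f : I →* ℂˣ =>
      (⟨⟨indFun I (fun g => (f g : ℂ) * (ψ : I → ℂ) g), (key f).1⟩, ?_⟩ : {χ : Cfsg.IrrCharacter G //
        Cfsg.charDegree (χ : G → ℂ) = Cfsg.charDegree (φ : ↥N → ℂ) * I.index})) ?_
    · apply charDegree_of_eq
      push_cast
      rw [charDegree_cast_irr, mul_comm]
      exact (key f).2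
    · intro f f' h
      have h4 := congrArg (fun χ : {χ : Cfsg.IrrCharacter G //
        Cfsg.charDegree (χ : G → ℂ) = Cfsg.charDegree (φ : ↥N → ℂ) * I.index} => (χ.1 : G → ℂ)) h
      exact twist_inj N φ I hI' hNI ψ.2 hψ f f' (hf f) (hf f') h4
  rw [h1]
  exact h2.trans (Nat.mul_le_mul_left _ h3)


/-- Let G be a finite group with a non-abelian minimal normal subgroup N, and let φ be an irreducible complex character of N with stabilizer I in G (the elements g with φ(g n g⁻¹) = φ(n) for all n ∈ N) such that φ extends to an irreducible character of I. Put d = φ(1)·[G : I]. Then the number of linear characters of G is at most [G : I] times the number of irreducible characters of G of degree d. -/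
theorem result {G : Type*} [Group G] [Finite G] (N : Subgroup G) (hN : N.Normal) (hN1 : N ≠ ⊥) (hmin : ∀ M : Subgroup G, M.Normal → M ≤ N → M = ⊥ ∨ M = N) (hna : ¬ IsMulCommutative ↥N) (φ : Cfsg.IrrCharacter ↥N) (I : Subgroup G) (hI : ∀ g : G, g ∈ I ↔ ∀ n n' : ↥N, (n' : G) = g * (n : G) * g⁻¹ → (φ : ↥N → ℂ) n' = (φ : ↥N → ℂ) n) (hNI : N ≤ I) (hext : ∃ ψ : Cfsg.IrrCharacter ↥I, ∀ n : ↥N, (ψ : ↥I → ℂ) (Subgroup.inclusion hNI n) = (φ : ↥N → ℂ) n) : Nat.card {χ : Cfsg.IrrCharacter G // Cfsg.charDegree (χ : G → ℂ) = 1} ≤ I.index * Nat.card {χ : Cfsg.IrrCharacter G // Cfsg.charDegree (χ : G → ℂ) = Cfsg.charDegree (φ : ↥N → ℂ) * I.index} := by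
  exact main N hN hmin hna φ I hI hNI hext

end Cfsg.Agent.S4870
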