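import Cfsg.Statements.S4871
import Cfsg.Agent.Lib.H83.SemiLin

set_option autoImplicit false
open Cfsg

namespace Cfsg.Agent.S4871

open H18.CharBasic H18.CharOrtho H18.CharInd H18.CharQuot H31.Clifford H83.ExtInd H83.FSMult H83.FSInd H83.SemiLin

theorem group_part {G : Type*} [Group G] [Finite G] (N P : Subgroup G) (hN : N.Normal) (q : ℕ)
    (hNel : Cfsg.IsElementaryAbelian q N) (hP : IsPGroup 2 ↥P) (hP1 : P ≠ ⊥)
    (hdisj : N ⊓ P = ⊥) (hprod : N ⊔ P = ⊤)
    (hmin : N ≠ ⊥ ∧ ∀ M : Subgroup G, M.Normal → M ≠ ⊥ → N ≤ M) :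
    N.IsComplement' P ∧ ∃ z ∈ P, z * z = 1 ∧ (∀ s ∈ P, s * z = z * s) ∧
      ∀ n ∈ N, z * n * z⁻¹ = n⁻¹ := by
  classical
  have hc : N.IsComplement' P := by
    refine Subgroup.isComplement'_of_disjoint_and_mul_eq_univ ?_ ?_
    · rw [disjoint_iff, hdisj]
    · rw [← Subgroup.normal_mul, hprod]; rfl
  refine ⟨hc, ?_⟩
  have hcomm : ∀ a ∈ N, ∀ b ∈ N, a * b = b * a := by
    intro a ha b hb
    have := hNel.1.is_comm.comm (⟨a, ha⟩ : N) ⟨b, hb⟩
    exact congrArg Subtype.val this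
  have hdec : ∀ g : G, ∃ m ∈ N, ∃ s ∈ P, m * s = g := by
    intro g
    have hg : g ∈ N ⊔ P := by rw [hprod]; trivial
    exact Subgroup.mem_sup_of_normal_left.1 hg
  -- the central involution
  haveI : Nontrivial P := (Subgroup.nontrivial_iff_ne_bot P).2 hP1
  haveI : Fact (Nat.Prime 2) := ⟨Nat.prime_two⟩
  have hcen : Nontrivial (Subgroup.center P) := hP.center_nontrivial
  have hcard : 2 ∣ Nat.card (Subgroup.center P) := by
    obtain ⟨k, hk⟩ := IsPGroup.iff_card.1 (hP.to_subgroup (Subgroup.center P))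
    have h1 : 1 < Nat.card (Subgroup.center P) := Finite.one_lt_card
    rw [hk] at h1 ⊢
    exact dvd_pow_self 2 (by rintro rfl; simp at h1)
  obtain ⟨z0, hz0⟩ := exists_prime_orderOf_dvd_card' (G := Subgroup.center P) 2 hcard
  let z : G := ((z0 : P) : G)
  have hzP : z ∈ P := (z0 : P).2
  have hzo : orderOf z = 2 := by
    change orderOf (((z0 : P) : G)) = 2
    rw [Subgroup.orderOf_coe, Subgroup.orderOf_coe, hz0]
  have hz1 : z ≠ 1 := by
    intro h; rw [h, orderOf_one] at hzo; omega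
  have hz2 : z * z = 1 := by
    have := pow_orderOf_eq_one z
    rwa [hzo, sq] at this
  have hzc : ∀ s ∈ P, s * z = z * s := by
    intro s hs
    have := Subgroup.mem_center_iff.1 z0.2 ⟨s, hs⟩
    exact congrArg Subtype.val this
  refine ⟨z, hzP, hz2, hzc, ?_⟩
  -- z does not centralize N
  have hK : (P ⊓ Subgroup.centralizer (N : Set G)).Normal := by
    constructor
    intro k hk g
    obtain ⟨m, hm, s, hs, rfl⟩ := hdec g
    have h1 : s * k * s⁻¹ ∈ P ⊓ Subgroup.centralizer (N : Set G) := by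
      refine Subgroup.mem_inf.2 ⟨P.mul_mem (P.mul_mem hs hk.1) (P.inv_mem hs), ?_⟩
      rw [Subgroup.mem_centralizer_iff]
      intro n hn
      have h2 := Subgroup.mem_centralizer_iff.1 hk.2 (s⁻¹ * n * s) (by
        have := hN.conj_mem n hn s⁻¹
        simpa using this)
      have h3 : n * (s * k * s⁻¹) = s * ((s⁻¹ * n * s) * k) * s⁻¹ := by group
      rw [h3, h2]; group
    have h4 := Subgroup.mem_centralizer_iff.1 h1.2 m hm
    have h5 : m * s * k * (m * s)⁻¹ = m * (s * k * s⁻¹) * m⁻¹ := by group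
    rw [h5, h4, mul_assoc, mul_inv_cancel, mul_one]
    exact h1
  have hznc : ¬ ∀ n ∈ N, z * n * z⁻¹ = n := by
    intro h
    have h1 : z ∈ P ⊓ Subgroup.centralizer (N : Set G) := by
      refine Subgroup.mem_inf.2 ⟨hzP, ?_⟩
      rw [Subgroup.mem_centralizer_iff]
      intro n hn
      have := h n hn
      calc n * z = (z * n * z⁻¹) * z := by rw [this]
        _ = z * n := by group
    have h2 : N ≤ P ⊓ Subgroup.centralizer (N : Set G) := by
      apply hmin.2 _ hK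
      intro h0
      rw [h0, Subgroup.mem_bot] at h1
      exact hz1 h1
    apply hmin.1
    rw [eq_bot_iff, ← hdisj]
    exact le_inf le_rfl (h2.trans inf_le_left)
  have hM : (N ⊓ Subgroup.centralizer ({z} : Set G)).Normal := by
    constructor
    intro n hn g
    obtain ⟨m, hm, s, hs, rfl⟩ := hdec g
    have h1 : s * n * s⁻¹ ∈ N := hN.conj_mem n hn.1 s
    have h5 : m * s * n * (m * s)⁻¹ = s * n * s⁻¹ := by
      have h6 : m * s * n * (m * s)⁻¹ = (m * (s * n * s⁻¹)) * m⁻¹ := by group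
      rw [h6, hcomm m hm _ h1]; group
    rw [h5]
    refine Subgroup.mem_inf.2 ⟨h1, ?_⟩
    rw [Subgroup.mem_centralizer_singleton_iff]
    have h2 : n * z = z * n := Subgroup.mem_centralizer_singleton_iff.1 hn.2
    have h3 : s⁻¹ * z = z * s⁻¹ := hzc s⁻¹ (P.inv_mem hs)
    calc s * n * s⁻¹ * z = s * n * (s⁻¹ * z) := by group
      _ = s * (n * z) * s⁻¹ := by rw [h3]; group
      _ = (s * z) * n * s⁻¹ := by rw [h2]; group
      _ = z * (s * n * s⁻¹) := by rw [hzc s hs]; group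
  have hMbot : N ⊓ Subgroup.centralizer ({z} : Set G) = ⊥ := by
    by_contra h0
    have h1 := hmin.2 _ hM h0
    apply hznc
    intro n hn
    have h2 : n * z = z * n := Subgroup.mem_centralizer_singleton_iff.1 (h1 hn).2
    rw [← h2]; group
  intro n hn
  have hzn : z * n * z⁻¹ ∈ N := hN.conj_mem n hn z
  have hw : n * (z * n * z⁻¹) ∈ N ⊓ Subgroup.centralizer ({z} : Set G) := by
    refine Subgroup.mem_inf.2 ⟨N.mul_mem hn hzn, ?_⟩
    rw [Subgroup.mem_centralizer_singleton_iff]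
    have hzi : z⁻¹ = z := inv_eq_of_mul_eq_one_left hz2
    have e1 : n * (z * n * z⁻¹) = (z * n * z⁻¹) * n := hcomm n hn _ hzn
    calc n * (z * n * z⁻¹) * z = (z * n * z⁻¹) * n * z := by rw [e1]
      _ = z * (n * (z * n * z⁻¹)) := by rw [hzi]; simp only [mul_assoc]
  rw [hMbot, Subgroup.mem_bot] at hw
  exact (inv_eq_of_mul_eq_one_right hw).symm

/-- counting lemma -/
theorem count {X : Type*} [Finite X] (deg : X → ℕ) (hdeg : ∀ x, deg x = 1 ∨ 2 ≤ deg x) (d : ℕ) (hd : 2 ≤ d)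
    (h : Nat.card {x // deg x = 1} ≤ d * Nat.card {x // deg x = d}) :
    4 * Nat.card X ≤ 3 * ∑ᶠ x, deg x := by
  classical
  letI := Fintype.ofFinite X
  rw [finsum_eq_sum_of_fintype, Nat.card_eq_fintype_card]
  rw [Nat.card_eq_fintype_card, Nat.card_eq_fintype_card, Fintype.card_subtype, Fintype.card_subtype] at h
  have h1 : ∀ x : X, (if deg x = d then (d : ℤ) else 0) - (if deg x = 1 then 1 else 0) ≤ 3 * (deg x : ℤ) - 4 := by
    intro x
    rcases hdeg x with hx | hx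
    · rw [if_pos hx, if_neg (by omega), hx]; norm_num
    · rw [if_neg (show ¬ deg x = 1 by omega)]
      split_ifs with hxd
      · rw [hxd]
        have : (2 : ℤ) ≤ d := by exact_mod_cast hd
        linarith
      · have : (2 : ℤ) ≤ deg x := by exact_mod_cast hx
        linarith
  have h2 := Finset.sum_le_sum (s := Finset.univ) fun x _ => h1 x
  rw [Finset.sum_sub_distrib, Finset.sum_sub_distrib, ← Finset.sum_filter, ← Finset.sum_filter,
    Finset.sum_const, Finset.sum_const, Finset.sum_const, ← Finset.mul_sum] at h2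
  simp only [nsmul_eq_mul, mul_one, Finset.card_univ] at h2
  have h3 : ((Finset.univ.filter fun x : X => deg x = 1).card : ℤ) ≤ d * (Finset.univ.filter fun x : X => deg x = d).card := by
    exact_mod_cast h
  have h4 : (0 : ℤ) ≤ 3 * ∑ x : X, (deg x : ℤ) - (Fintype.card X : ℤ) * 4 := by
    linarith
  have h5 : ((4 * Fintype.card X : ℕ) : ℤ) ≤ ((3 * ∑ x : X, deg x : ℕ) : ℤ) := by
    push_cast
    linarith
  exact_mod_cast h5

theorem main_count {G : Type*} [Group G] [Finite G] (N P : Subgroup G) (hN : N.Normal) (q : ℕ)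
    [Fact q.Prime] (hq : q ≠ 2) (hNel : Cfsg.IsElementaryAbelian q N) (hP : IsPGroup 2 ↥P)
    (hNb : N ≠ ⊥) (hc : N.IsComplement' P) (z : G) (hz : z ∈ P) (hz2 : z * z = 1)
    (hzc : ∀ s ∈ P, s * z = z * s) (hzinv : ∀ n ∈ N, z * n * z⁻¹ = n⁻¹) :
    ∃ d : ℕ, 2 ∣ d ∧ 0 < d ∧ Nat.card {χ : IrrCharacter G // charDegree (χ : G → ℂ) = 1 ∧ nu (χ : G → ℂ) = 1} ≤
      d * Nat.card {χ : IrrCharacter G // charDegree (χ : G → ℂ) = d ∧ nu (χ : G → ℂ) = 1} := by
  classical
  letI := Fintype.ofFinite G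
  haveI := hN
  have hqp : q.Prime := Fact.out
  have hcomm : ∀ a b : N, a * b = b * a := hNel.1.is_comm.comm
  -- a nontrivial linear character of N
  obtain ⟨n0, hn0⟩ : ∃ n0 : N, n0 ≠ 1 := by
    by_contra hcon
    push Not at hcon
    apply hNb
    rw [eq_bot_iff]
    intro x hx
    exact congrArg Subtype.val (hcon ⟨x, hx⟩)
  have hcomN : commutator N = ⊥ := by
    rw [commutator_def, Subgroup.commutator_eq_bot_iff_le_centralizer]
    intro x _
    rw [Subgroup.mem_centralizer_iff]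
    intro y _
    exact hcomm y x
  obtain ⟨lam, hlam⟩ := exists_hom_ne_one (G := N) (g := n0) (by
    rw [hcomN, Subgroup.mem_bot]; exact hn0)
  -- elements of N have odd order
  have hpow : ∀ n : N, n ^ q = 1 := fun n => Subtype.ext (hNel.2 n n.2)
  have hodd : ∀ c : ℂˣ, c ^ q = 1 → c ^ 2 = 1 → c = 1 := by
    intro c h1 h2
    have h3 : Nat.Coprime q 2 := (Nat.coprime_primes hqp Nat.prime_two).2 hq
    have h4 := orderOf_dvd_of_pow_eq_one h1
    have h5 := orderOf_dvd_of_pow_eq_one h2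
    have h6 := Nat.dvd_gcd h4 h5
    rw [h3] at h6
    exact orderOf_eq_one_iff.1 (Nat.dvd_one.1 h6)
  let θ : N → ℂ := fun n => (lam n : ℂ)
  have hθ : IsIrrCharacter N θ := isIrrCharacter_of_hom lam
  let T := inertia N θ
  have hNT : N ≤ T := le_inertia N (isClassFunction_of_isIrr hθ)
  have hT : ∀ g, g ∈ T ↔ ∀ n : N, lam (MulAut.conjNormal g n) = lam n := by
    intro g
    rw [mem_inertia]
    constructor
    · intro h n
      have h1 := congrFun h n
      exact Units.ext h1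
    · intro h
      funext n
      exact congrArg Units.val (h n)
  have hzn : ∀ n : N, lam (MulAut.conjNormal z n) = (lam n)⁻¹ := by
    intro n
    rw [← map_inv]
    congr 1
    apply Subtype.ext
    rw [MulAut.conjNormal_apply]
    exact hzinv n n.2
  have hzT : z ∉ T := by
    intro h
    apply hlam
    apply hodd
    · rw [← map_pow, hpow, map_one]
    · have h1 := (hT z).1 h n0
      rw [hzn] at h1
      rw [sq]
      nth_rewrite 1 [← h1]
      exact inv_mul_cancel _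
  obtain ⟨ξ, hξN, hξP⟩ := exists_ext N P T hc hNT lam (fun g hg => (hT g).1 hg)
  -- index of T
  have hd : 2 ∣ T.index := by
    have h1 : T.index ∣ N.index := Subgroup.index_dvd_of_le hNT
    have h2 : N.index = Nat.card P := hc.symm.index_eq_card
    obtain ⟨k, hk⟩ := IsPGroup.iff_card.1 hP
    rw [h2, hk] at h1
    obtain ⟨j, -, hj⟩ := (Nat.dvd_prime_pow Nat.prime_two).1 h1
    rw [hj]
    refine dvd_pow_self 2 ?_
    rintro rfl
    rw [pow_zero, Subgroup.index_eq_one] at hj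
    apply hzT
    rw [hj]; trivial
  refine ⟨T.index, hd, Nat.pos_of_ne_zero Subgroup.index_ne_zero_of_finite, ?_⟩
  haveI : Finite (IrrCharacter G) := instFiniteIrr
  let A : Subgroup (G →* ℂˣ) := (powMonoidHom 2 : (G →* ℂˣ) →* (G →* ℂˣ)).ker
  let B : Subgroup (T →* ℂˣ) := (powMonoidHom 2 : (T →* ℂˣ) →* (T →* ℂˣ)).ker
  have hA : ∀ f : G →* ℂˣ, f ∈ A ↔ f ^ 2 = 1 := fun f => by
    rw [MonoidHom.mem_ker]; rfl
  have hB : ∀ f : T →* ℂˣ, f ∈ B ↔ f ^ 2 = 1 := fun f => by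
    rw [MonoidHom.mem_ker]; rfl
  -- linear characters of G
  have h1 : Nat.card {χ : Cfsg.IrrCharacter G // Cfsg.charDegree (χ : G → ℂ) = 1 ∧ nu (χ : G → ℂ) = 1} ≤
      Nat.card A := by
    have h0 : ∀ χ : {χ : Cfsg.IrrCharacter G // Cfsg.charDegree (χ : G → ℂ) = 1 ∧ nu (χ : G → ℂ) = 1},
        ∃ f : A, (χ.1 : G → ℂ) = fun g => ((f : G →* ℂˣ) g : ℂ) := by
      intro χ
      have h2 : (χ.1 : G → ℂ) 1 = 1 := by
        have := (charDegree_eq_iff (isCharacter_of_isIrr χ.1.2)).1 χ.2.1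
        rwa [Nat.cast_one] at this
      obtain ⟨f, hf⟩ : ∃ f : G →* ℂˣ, (χ.1 : G → ℂ) = fun g => (f g : ℂ) :=
        exists_hom_of_degree_one (isCharacter_of_isIrr χ.1.2) h2
      refine ⟨⟨f, ?_⟩, hf⟩
      rw [hA, ← nu_lin_iff, ← hf]
      exact χ.2.2
    choose F hF using h0
    refine Nat.card_le_card_of_injective F ?_
    intro χ χ' h
    apply Subtype.ext
    apply Subtype.ext
    rw [hF, hF, h]
  have h2 : Nat.card A ≤ T.index * Nat.card B := by
    apply card_hom_le T A B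
    intro f hf
    rw [hB]
    rw [hA] at hf
    ext x
    have := DFunLike.congr_fun hf (x : G)
    simpa using congrArg Units.val this
  have hfN : ∀ f ∈ B, ∀ x : G, ∀ hx : x ∈ N, f ⟨x, hNT hx⟩ = 1 := by
    intro f hf x hx
    rw [hB] at hf
    apply hodd
    · rw [← map_pow]
      have : (⟨x, hNT hx⟩ : T) ^ q = 1 := Subtype.ext (hNel.2 x hx)
      rw [this, map_one]
    · exact DFunLike.congr_fun hf _
  let φ : IrrCharacter N := ⟨θ, hθ⟩
  have hξ : IsIrrCharacter T (fun t => (ξ t : ℂ)) := isIrrCharacter_of_hom ξ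
  have h3 : Nat.card B ≤ Nat.card {χ : Cfsg.IrrCharacter G //
        Cfsg.charDegree (χ : G → ℂ) = T.index ∧ nu (χ : G → ℂ) = 1} := by
    have hext : ∀ n : N, (fun t => (ξ t : ℂ)) (Subgroup.inclusion hNT n) = (φ : N → ℂ) n := by
      intro n
      exact congrArg Units.val (hξN n)
    have key := fun (f : T →* ℂˣ) hf => twist_ind N φ T (fun g => Iff.rfl) hNT hξ hext f hf
    refine Nat.card_le_card_of_injective (fun f : B =>
      (⟨⟨indFun T (fun g => ((f : T →* ℂˣ) g : ℂ) * (ξ g : ℂ)), (key f (hfN f f.2)).1⟩, ?_, ?_⟩ : {χ : Cfsg.IrrCharacter G //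
        Cfsg.charDegree (χ : G → ℂ) = T.index ∧ nu (χ : G → ℂ) = 1})) ?_
    · apply charDegree_of_eq
      have h4 := (key f (hfN f f.2)).2
      rw [show ((φ : N → ℂ) 1) = 1 by change ((lam 1 : ℂˣ) : ℂ) = 1; rw [map_one]; rfl, mul_one] at h4
      exact h4
    · have h5 := nu_ind_compl N P T hc hNT lam hT ((f : T →* ℂˣ) * ξ) (by
        intro n
        rw [MonoidHom.mul_apply, hfN f f.2 n n.2, one_mul, hξN]) (by
        intro s hs hsT
        rw [MonoidHom.mul_apply, hξP s hs, mul_one]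
        exact DFunLike.congr_fun ((hB f).1 f.2) _) z hz hz2 hzc hzn
      have h6 : (fun g : T => ((f : T →* ℂˣ) g : ℂ) * (ξ g : ℂ)) = fun t => ((((f : T →* ℂˣ) * ξ) t : ℂˣ) : ℂ) := by
        funext g
        rw [MonoidHom.mul_apply, Units.val_mul]
      change nu (indFun T (fun g : T => ((f : T →* ℂˣ) g : ℂ) * (ξ g : ℂ))) = 1
      rw [h6, h5]
    · intro f f' h
      have h4 := congrArg (fun χ : {χ : Cfsg.IrrCharacter G //
        Cfsg.charDegree (χ : G → ℂ) = T.index ∧ nu (χ : G → ℂ) = 1} => (χ.1 : G → ℂ)) h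
      exact Subtype.ext (twist_inj N φ T (fun g => Iff.rfl) hNT hξ hext f f' (hfN f f.2) (hfN f' f'.2) h4)
  exact h1.trans (h2.trans (Nat.mul_le_mul_left _ h3))

theorem main {G : Type*} [Group G] [Finite G] (N P : Subgroup G) (hN : N.Normal) (q : ℕ)
    [Fact q.Prime] (hq : q ≠ 2) (hNel : Cfsg.IsElementaryAbelian q N) (hP : IsPGroup 2 ↥P) (hP1 : P ≠ ⊥)
    (hdisj : N ⊓ P = ⊥) (hprod : N ⊔ P = ⊤)
    (hmin : N ≠ ⊥ ∧ ∀ M : Subgroup G, M.Normal → M ≠ ⊥ → N ≤ M) :
    4 * Nat.card {χ : Cfsg.IrrCharacter G // (Cfsg.charDegree (χ : G → ℂ) = 1 ∨ 2 ∣ Cfsg.charDegree (χ : G → ℂ)) ∧ nu (χ : G → ℂ) = 1} ≤ 3 * (∑ᶠ χ : {χ : Cfsg.IrrCharacter G // (Cfsg.charDegree (χ : G → ℂ) = 1 ∨ 2 ∣ Cfsg.charDegree (χ : G → ℂ)) ∧ nu (χ : G → ℂ) = 1}, Cfsg.charDegree (χ.1 : G → ℂ)) := by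
  haveI : Finite (IrrCharacter G) := instFiniteIrr
  obtain ⟨hc, z, hz, hz2, hzc, hzinv⟩ := group_part N P hN q hNel hP hP1 hdisj hprod hmin
  obtain ⟨d, hd2, hd0, h⟩ := main_count N P hN q hq hNel hP hmin.1 hc z hz hz2 hzc hzinv
  refine count (fun χ : {χ : Cfsg.IrrCharacter G // (Cfsg.charDegree (χ : G → ℂ) = 1 ∨ 2 ∣ Cfsg.charDegree (χ : G → ℂ)) ∧ nu (χ : G → ℂ) = 1} => Cfsg.charDegree (χ.1 : G → ℂ)) ?_ d (Nat.le_of_dvd hd0 hd2) ?_
  · intro χ
    rcases χ.2.1 with h1 | h1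
    · exact Or.inl h1
    · exact Or.inr (Nat.le_of_dvd (charDegree_pos χ.1.2) h1)
  · have e1 : Nat.card {χ : {χ : Cfsg.IrrCharacter G // (Cfsg.charDegree (χ : G → ℂ) = 1 ∨ 2 ∣ Cfsg.charDegree (χ : G → ℂ)) ∧ nu (χ : G → ℂ) = 1} // Cfsg.charDegree (χ.1 : G → ℂ) = 1} =
        Nat.card {χ : IrrCharacter G // charDegree (χ : G → ℂ) = 1 ∧ nu (χ : G → ℂ) = 1} :=
      Nat.card_congr
        { toFun := fun χ => ⟨χ.1.1, χ.2, χ.1.2.2⟩
          invFun := fun χ => ⟨⟨χ.1, Or.inl χ.2.1, χ.2.2⟩, χ.2.1⟩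
          left_inv := fun _ => rfl
          right_inv := fun _ => rfl }
    have e2 : Nat.card {χ : {χ : Cfsg.IrrCharacter G // (Cfsg.charDegree (χ : G → ℂ) = 1 ∨ 2 ∣ Cfsg.charDegree (χ : G → ℂ)) ∧ nu (χ : G → ℂ) = 1} // Cfsg.charDegree (χ.1 : G → ℂ) = d} =
        Nat.card {χ : IrrCharacter G // charDegree (χ : G → ℂ) = d ∧ nu (χ : G → ℂ) = 1} :=
      Nat.card_congr
        { toFun := fun χ => ⟨χ.1.1, χ.2, χ.1.2.2⟩
          invFun := fun χ => ⟨⟨χ.1, Or.inr (by rw [χ.2.1]; exact hd2), χ.2.2⟩, χ.2.1⟩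
          left_inv := fun _ => rfl
          right_inv := fun _ => rfl }
    rw [e1, e2]
    exact h


/-- Let G be a finite group that is the semidirect product of a normal elementary abelian subgroup N of odd order by a non-trivial 2-subgroup P, with N the unique minimal normal subgroup of G. Consider the strongly real irreducible complex characters of G (Frobenius–Schur indicator +1) whose degree is 1 or even. Then their average degree is at least 4/3: four times their number is at most three times the sum of their degrees. -/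
theorem result {G : Type*} [Group G] [Finite G] (N P : Subgroup G) (hN : N.Normal) (q : ℕ) [Fact q.Prime] (hq : q ≠ 2) (hNel : Cfsg.IsElementaryAbelian q N) (hP : IsPGroup 2 ↥P) (hP1 : P ≠ ⊥) (hdisj : N ⊓ P = ⊥) (hprod : N ⊔ P = ⊤) (hmin : N ≠ ⊥ ∧ ∀ M : Subgroup G, M.Normal → M ≠ ⊥ → N ≤ M) : 4 * Nat.card {χ : Cfsg.IrrCharacter G // (Cfsg.charDegree (χ : G → ℂ) = 1 ∨ 2 ∣ Cfsg.charDegree (χ : G → ℂ)) ∧ (Nat.card G : ℂ)⁻¹ * ∑ᶠ g : G, (χ : G → ℂ) (g * g) = 1} ≤ 3 * (∑ᶠ χ : {χ : Cfsg.IrrCharacter G // (Cfsg.charDegree (χ : G → ℂ) = 1 ∨ 2 ∣ Cfsg.charDegree (χ : G → ℂ)) ∧ (Nat.card G : ℂ)⁻¹ * ∑ᶠ g : G, (χ : G → ℂ) (g * g) = 1}, Cfsg.charDegree (χ.1 : G → ℂ)) := by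
  exact main N P hN q hq hNel hP hP1 hdisj hprod hmin

end Cfsg.Agent.S4871
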