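import Cfsg.Statements.S4873
import Cfsg.Agent.Lib.H83.RealOver

set_option autoImplicit false
open Cfsg

namespace Cfsg.Agent.S4873

open H18.CharBasic H18.CharOrtho H18.CharInd H18.CharQuot H31.Clifford H83.FSMult H83.FSInd H83.RealOver in
theorem main {G : Type*} [Group G] [Finite G] (N : Subgroup G) [N.Normal] (hodd : Odd N.index)
    (φ : Cfsg.IrrCharacter ↥N) (hφ : nu (φ : N → ℂ) = 1) :
    ∃! χ : Cfsg.IrrCharacter G, nu (χ : G → ℂ) = 1 ∧
      (∑ᶠ n : ↥N, (χ : G → ℂ) n * (starRingEnd ℂ) ((φ : ↥N → ℂ) n)) ≠ 0 := by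
  classical
  letI := Fintype.ofFinite G
  letI := Fintype.ofFinite N
  have hφr := real_of_nu φ.2 (by rw [hφ]; exact one_ne_zero)
  obtain ⟨χ, hχr, ⟨e, he, hχe⟩, huniq⟩ := exists_unique_real N hodd φ.2 hφr
  have h0 : (Nat.card N : ℂ)⁻¹ ≠ 0 := inv_ne_zero (card_ne_zero' (G := N))
  have hsum : ∀ χ : IrrCharacter G, (∑ᶠ n : ↥N, (χ : G → ℂ) n * (starRingEnd ℂ) ((φ : ↥N → ℂ) n)) ≠ 0 ↔
      classInner (fun n : N => (χ : G → ℂ) n) (φ : N → ℂ) ≠ 0 := by
    intro χ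
    rw [finsum_eq_sum_of_fintype, classInner]
    constructor
    · intro h1 h2
      rcases mul_eq_zero.1 h2 with h3 | h3
      · exact h0 h3
      · exact h1 h3
    · intro h1 h2
      exact h1 (by rw [h2, mul_zero])
  refine ⟨χ, ⟨?_, ?_⟩, ?_⟩
  · rw [nu_eq_of_odd χ.2 φ.2 hχr hφr e he hχe, hφ]
  · rw [hsum, hχe]
    intro h
    have : e = 0 := by exact_mod_cast h
    subst this
    simp at he
  · rintro χ' ⟨h1, h2⟩
    exact huniq χ' (real_of_nu χ'.2 (by rw [h1]; exact one_ne_zero)) ((hsum χ').1 h2)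


/-- Let N be a normal subgroup of odd index in the finite group G. Then every irreducible complex character of N with Frobenius–Schur indicator +1 lies under exactly one irreducible character of G with Frobenius–Schur indicator +1. -/
theorem result {G : Type*} [Group G] [Finite G] (N : Subgroup G) [N.Normal] (hodd : Odd N.index) (φ : Cfsg.IrrCharacter ↥N) (hφ : (Nat.card ↥N : ℂ)⁻¹ * ∑ᶠ g : ↥N, (φ : ↥N → ℂ) (g * g) = 1) : ∃! χ : Cfsg.IrrCharacter G, (Nat.card G : ℂ)⁻¹ * ∑ᶠ g : G, (χ : G → ℂ) (g * g) = 1 ∧ (∑ᶠ n : ↥N, (χ : G → ℂ) n * (starRingEnd ℂ) ((φ : ↥N → ℂ) n)) ≠ 0 := by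
  exact main N hodd φ hφ

end Cfsg.Agent.S4873
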