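import Cfsg.Statements.S4885
import Cfsg.Agent.Lib.H98.PqC
-- import your own Cfsg.Agent.* helpers here

set_option autoImplicit false
open Cfsg

namespace Cfsg.Agent.S4885

/-- Let p and q be primes dividing the order of the finite group G, and suppose G is p-solvable and q-solvable. Fix maximal ideals of the algebraic integers containing p and q, defining the principal p-block and the principal q-block. If the irreducible characters of degree prime to p in the principal p-block are exactly the irreducible characters of degree prime to q in the principal q-block, then p = q. -/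
theorem result {G : Type*} [Group G] [Finite G] (p q : ℕ) [Fact p.Prime] [Fact q.Prime] (hp : p ∣ Nat.card G) (hq : q ∣ Nat.card G) (hps : Cfsg.IsPSolvable p G) (hqs : Cfsg.IsPSolvable q G) (Mp Mq : Ideal Cfsg.AlgInt) (hMp : Cfsg.IsPModular p Mp) (hMq : Cfsg.IsPModular q Mq) (h : ∀ χ : Cfsg.IrrCharacter G, (χ ∈ Cfsg.principalBlock Mp G ∧ ¬ p ∣ Cfsg.charDegree (χ : G → ℂ)) ↔ (χ ∈ Cfsg.principalBlock Mq G ∧ ¬ q ∣ Cfsg.charDegree (χ : G → ℂ))) : p = q := by
  classical
  letI := Fintype.ofFinite G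
  by_contra hpq
  have hmp := H81.PrincPSolv.mem_principal_iff (M := Mp) hMp hps
  have hmq := H81.PrincPSolv.mem_principal_iff (M := Mq) hMq hqs
  have hc1 : H98.PqA.Cond p q G := fun χ hχ hd => ((h χ).mp ⟨(hmp χ).mpr hχ, hd⟩).2
  have hc2 : H98.PqA.Cond q p G := fun χ hχ hd => ((h χ).mpr ⟨(hmq χ).mpr hχ, hd⟩).2
  have hi2 := H98.PqC.main _ q p (Ne.symm hpq) G rfl hqs hps hc2 hc1
  -- a nonprincipal linear character of the image of a Sylow `p`-subgroup
  set N := pPrimeCore p G with hN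
  obtain ⟨P⟩ : Nonempty (Sylow p G) := inferInstance
  have hPL : (P : Subgroup G) ≤ pPrimeCore q G := H28.Sec10h1.isPGroup_le_of_not_dvd_index _ hi2 P.isPGroup'
  set Pb : Sylow p (G ⧸ N) := P.mapSurjective (QuotientGroup.mk'_surjective N) with hPb
  letI := Fintype.ofFinite (G ⧸ N)
  letI := Fintype.ofFinite (Pb : Subgroup (G ⧸ N))
  have hPb1 : p ∣ Nat.card (Pb : Subgroup (G ⧸ N)) := by
    apply Pb.dvd_card_of_dvd_card
    have h1 : Nat.card (G ⧸ N) * Nat.card N = Nat.card G := N.index_mul_card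
    rw [← h1] at hp
    rcases (Nat.Prime.dvd_mul (Fact.out : p.Prime)).mp hp with h2 | h2
    · exact h2
    · exact absurd h2 (H98.PqC.not_dvd_core (G := G) (p := p))
  haveI : Nontrivial (Pb : Subgroup (G ⧸ N)) := by
    rw [← Finite.one_lt_card_iff_nontrivial]
    exact lt_of_lt_of_le (Fact.out : p.Prime).one_lt (Nat.le_of_dvd Nat.card_pos hPb1)
  haveI := Pb.isPGroup'.isNilpotent
  have hcomm : commutator (Pb : Subgroup (G ⧸ N)) ≠ ⊤ := by
    intro h1
    have h2 := H27.Gen.eq_top_of_sup_commutator (Q := (Pb : Subgroup (G ⧸ N))) ⊥ (by rw [h1]; exact sup_top_eq _)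
    exact bot_ne_top h2
  obtain ⟨x, hx⟩ : ∃ x : (Pb : Subgroup (G ⧸ N)), x ∉ commutator (Pb : Subgroup (G ⧸ N)) := by
    by_contra hcon
    push Not at hcon
    exact hcomm (by rw [eq_top_iff]; intro x _; exact hcon x)
  obtain ⟨ν, hν⟩ := H18.CharQuot.exists_hom_ne_one hx
  obtain ⟨χ, hχ, ⟨d, hd, hχd⟩, hne⟩ := H79.PPrime.exists_over_pprime (Fact.out : p.Prime) (Pb : Subgroup (G ⧸ N)) Pb.not_dvd_index
    (H18.CharBasic.isIrrCharacter_of_hom ν) (e := 1) (fun h => (Fact.out : p.Prime).one_lt.ne' (Nat.dvd_one.mp h)) (by simp)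
  -- its inflation
  have h1 : ¬ p ∣ Cfsg.charDegree ((H20.NormQ.infl N ⟨χ, hχ⟩ : Cfsg.IrrCharacter G) : G → ℂ) := by
    have h2 : Cfsg.charDegree ((H20.NormQ.infl N ⟨χ, hχ⟩ : Cfsg.IrrCharacter G) : G → ℂ) = Cfsg.charDegree χ := rfl
    rw [h2, H79.Deg.charDegree_of_natCast hχd]; exact hd
  have h2 := (h (H20.NormQ.infl N ⟨χ, hχ⟩)).mp ⟨(hmp _).mpr (H20.NormQ.infl_trivial N _), h1⟩
  have h3 := (hmq _).mp h2.1
  -- `P` is in the kernel
  have h4 : ∀ z ∈ (Pb : Subgroup (G ⧸ N)), χ z = χ 1 := by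
    rintro _ ⟨y, hy, rfl⟩
    exact h3 y (hPL hy)
  have h5 := H79.PPrime.ker_constituent (H18.CharBasic.isCharacter_restrict (Pb : Subgroup (G ⧸ N)) (H18.CharBasic.isCharacter_of_isIrr hχ))
    (H18.CharBasic.isIrrCharacter_of_hom ν) hne (a := x) (h4 x x.2)
  apply hν
  rw [map_one] at h5
  exact Units.ext h5

end Cfsg.Agent.S4885
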