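import Cfsg.Statements.S4886
import Cfsg.Agent.Lib.H98.PqC
-- import your own Cfsg.Agent.* helpers here

set_option autoImplicit false
open Cfsg

namespace Cfsg.Agent.S4886

/-- Let p ≠ q be primes and G a finite group that is p-solvable and q-solvable. Fix maximal ideals of the algebraic integers containing p and q, defining the principal p-block and the principal q-block. Then every irreducible character of degree prime to p in the principal p-block has degree prime to q and every irreducible character of degree prime to q in the principal q-block has degree prime to p, if and only if some Sylow p-subgroup of G commutes elementwise with some Sylow q-subgroup. -/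
theorem result {G : Type*} [Group G] [Finite G] (p q : ℕ) [Fact p.Prime] [Fact q.Prime] (hpq : p ≠ q) (Mp Mq : Ideal Cfsg.AlgInt) (hMp : Cfsg.IsPModular p Mp) (hMq : Cfsg.IsPModular q Mq) (hps : Cfsg.IsPSolvable p G) (hqs : Cfsg.IsPSolvable q G) : ((∀ χ : Cfsg.IrrCharacter G, χ ∈ Cfsg.principalBlock Mp G → ¬ p ∣ Cfsg.charDegree (χ : G → ℂ) → ¬ q ∣ Cfsg.charDegree (χ : G → ℂ)) ∧ (∀ χ : Cfsg.IrrCharacter G, χ ∈ Cfsg.principalBlock Mq G → ¬ q ∣ Cfsg.charDegree (χ : G → ℂ) → ¬ p ∣ Cfsg.charDegree (χ : G → ℂ))) ↔ ∃ (P : Sylow p G) (Q : Sylow q G), ∀ x ∈ (P : Subgroup G), ∀ y ∈ (Q : Subgroup G), x * y = y * x := by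
  have hmp := H81.PrincPSolv.mem_principal_iff (M := Mp) hMp hps
  have hmq := H81.PrincPSolv.mem_principal_iff (M := Mq) hMq hqs
  constructor
  · rintro ⟨h1, h2⟩
    have hc1 : H98.PqA.Cond p q G := fun χ hχ hd => h1 χ ((hmp χ).mpr hχ) hd
    have hc2 : H98.PqA.Cond q p G := fun χ hχ hd => h2 χ ((hmq χ).mpr hχ) hd
    have hi1 := H98.PqC.main _ p q hpq G rfl hps hqs hc1 hc2
    have hi2 := H98.PqC.main _ q p (Ne.symm hpq) G rfl hqs hps hc2 hc1
    obtain ⟨P⟩ : Nonempty (Sylow p G) := inferInstance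
    obtain ⟨Q, hQ⟩ := H98.PqC.to_commute hi1 hi2 P
    exact ⟨P, Q, fun x hx y hy => (Subgroup.mem_centralizer_iff.mp (hQ hy)) x hx⟩
  · rintro ⟨P, Q, hPQ⟩
    have hQP : (Q : Subgroup G) ≤ Subgroup.centralizer ((P : Subgroup G) : Set G) := by
      intro y hy
      rw [Subgroup.mem_centralizer_iff]
      intro x hx
      exact hPQ x hx y hy
    have hPQ' : (P : Subgroup G) ≤ Subgroup.centralizer ((Q : Subgroup G) : Set G) := Subgroup.le_centralizer_iff.mp hQP
    have hi1 := H98.PqC.of_commute hpq hps P Q hQP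
    have hi2 := H98.PqC.of_commute (Ne.symm hpq) hqs Q P hPQ'
    constructor
    · intro χ hχ _ hq'
      obtain ⟨χb, rfl⟩ := H20.NormQ.exists_infl (pPrimeCore p G) ((hmp χ).mp hχ)
      have h1 : q ∣ Cfsg.charDegree (χb : G ⧸ pPrimeCore p G → ℂ) := hq'
      exact hi1 (h1.trans (H79.Deg.charDegree_dvd_card χb.2))
    · intro χ hχ _ hq'
      obtain ⟨χb, rfl⟩ := H20.NormQ.exists_infl (pPrimeCore q G) ((hmq χ).mp hχ)
      have h1 : p ∣ Cfsg.charDegree (χb : G ⧸ pPrimeCore q G → ℂ) := hq'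
      exact hi2 (h1.trans (H79.Deg.charDegree_dvd_card χb.2))

end Cfsg.Agent.S4886
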