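import Cfsg.Statements.S4888
import Cfsg.Agent.Lib.H83.BlkThom2

set_option autoImplicit false
open Cfsg

namespace Cfsg.Agent.S4888

/-- Let G be a finite group, p a prime and M a maximal ideal of the algebraic integers containing p. Then all height-zero irreducible characters of the principal p-block of G (equivalently, all its characters of degree prime to p) have the same degree if and only if G has a normal p-complement. -/
theorem result {G : Type*} [Group G] [Finite G] (p : ℕ) [Fact p.Prime] (M : Ideal Cfsg.AlgInt) (hM : Cfsg.IsPModular p M) : (∃ d : ℕ, ∀ χ : Cfsg.IrrCharacter G, χ ∈ (Cfsg.principalBlock M G) → Cfsg.blockHeight p (Cfsg.principalBlock M G) (χ : G → ℂ) = 0 → Cfsg.charDegree (χ : G → ℂ) = d) ↔ Cfsg.HasNormalPComplement p G := by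
  haveI := H20.Loc.pm_isPrime hM
  constructor
  · rintro ⟨d, hd⟩
    have hd1 : d = 1 := by
      have h1 := hd (H20.NPC.one G) H83.BlkThom.one_mem
        ((H83.BlkThom.height_zero_iff _).2 (by
          rw [H83.BlkThom.charDegree_triv]
          exact fun h => (Fact.out : p.Prime).one_lt.ne' (Nat.dvd_one.1 h)))
      rw [H83.BlkThom.charDegree_triv] at h1
      exact h1.symm
    subst hd1
    exact H83.BlkThom.compl_of (H83.BlkThom.not_dvd_residual hM fun χ hχ hp =>
      hd χ hχ ((H83.BlkThom.height_zero_iff χ).2 hp))
  · intro h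
    exact ⟨1, fun χ hχ h0 => H83.BlkThom.deg_of_compl hM h χ hχ ((H83.BlkThom.height_zero_iff χ).1 h0)⟩

end Cfsg.Agent.S4888
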