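import Cfsg.Statements.S4911
import Cfsg.Agent.Lib.H83.GlaubReal

set_option autoImplicit false
open Cfsg

namespace Cfsg.Agent.S4911

open H18.CharBasic H18.CharOrtho H77.GlaubP H77.CopSub H83.GlaubReal in
theorem main {G : Type*} [Group G] [Finite G] (p : ℕ) [Fact p.Prime] (P K : Subgroup G) (hP : IsPGroup p ↥P) (hK : ¬ p ∣ Nat.card ↥K) (hPK : P ≤ Subgroup.normalizer (K : Set G)) : Nat.card {θ : Cfsg.IrrCharacter ↥K // (∀ k : ↥K, ((θ : ↥K → ℂ) k).im = 0) ∧ (∀ x ∈ P, ∀ k k' : ↥K, (k' : G) = x * (k : G) * x⁻¹ → (θ : ↥K → ℂ) k' = (θ : ↥K → ℂ) k)} = Nat.card {c : ConjClasses ↥K // (∀ k : ↥K, ConjClasses.mk k = c → IsConj k k⁻¹) ∧ ∀ k : ↥K, ConjClasses.mk k = c → ∀ x ∈ P, ∀ k' : ↥K, (k' : G) = x * (k : G) * x⁻¹ → ConjClasses.mk k' = c} ∧ ((∀ θ : Cfsg.IrrCharacter ↥K, (∀ k : ↥K, ((θ : ↥K → ℂ) k).im = 0) → (∀ x ∈ P, ∀ k k' : ↥K, (k' : G) = x * (k : G) * x⁻¹ → (θ : ↥K → ℂ) k' = (θ : ↥K → ℂ) k)) → ∀ k : ↥K,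 IsConj k k⁻¹ → ∃ k' : ↥K, IsConj k k' ∧ ∀ x ∈ P, x * (k' : G) * x⁻¹ = (k' : G)) := by
  classical
  letI := Fintype.ofFinite K
  have hnorm : ∀ s ∈ P, ∀ g ∈ K, s * g * s⁻¹ ∈ K := by
    intro s hs g hg
    exact (Subgroup.mem_normalizer_iff.1 (hPK hs) g).1 hg
  let C : Subgroup G := K ⊓ Subgroup.centralizer (P : Set G)
  have hCK : C ≤ K := inf_le_left
  letI := Fintype.ofFinite C
  have hC := hC_iff K P hnorm (C := C) rfl hCK
  have hι := Subgroup.inclusion_injective hCK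
  constructor
  · have h1 := card_real_eq (conjHom K P hnorm) hP (Subgroup.inclusion hCK) hι hC hK
    refine Eq.trans (Nat.card_congr (Equiv.subtypeEquivRight fun θ => ?_)) (h1.trans
      (Nat.card_congr (Equiv.subtypeEquivRight fun c => ?_)))
    · rw [inv_iff K P hnorm]
    · rw [← class_iff K P hnorm]
      constructor
      · rintro ⟨h2, h3⟩
        exact ⟨h2, fun k hk x hx k' hk' => h3 x hx k k' hk' hk⟩
      · rintro ⟨h2, h3⟩
        exact ⟨h2, fun x hx k k' hk' hk => h3 k hk x hx k' hk'⟩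
  · intro hall k hk
    obtain ⟨c, hc⟩ := exists_fixed_of_all (conjHom K P hnorm) hP (Subgroup.inclusion hCK) hι hC hK
      (fun χ hχ => (inv_iff K P hnorm _).1 (hall χ hχ)) k hk
    refine ⟨Subgroup.inclusion hCK c, hc, ?_⟩
    intro x hx
    have h2 := (hC _).1 ⟨c, rfl⟩ ⟨x, hx⟩
    exact congrArg Subtype.val h2


/-- Let P and K be subgroups of a finite group with P a p-group normalizing K and K of order prime to p. Then the number of P-invariant real-valued irreducible complex characters of K equals the number of conjugacy classes of K that are real (closed under inversion) and P-invariant. Moreover, if every real-valued irreducible character of K is P-invariant, then every real element of K (one conjugate in K to its inverse) is conjugate in K to an element centralized by P. -/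
theorem result {G : Type*} [Group G] [Finite G] (p : ℕ) [Fact p.Prime] (P K : Subgroup G) (hP : IsPGroup p ↥P) (hK : ¬ p ∣ Nat.card ↥K) (hPK : P ≤ Subgroup.normalizer (K : Set G)) : Nat.card {θ : Cfsg.IrrCharacter ↥K // (∀ k : ↥K, ((θ : ↥K → ℂ) k).im = 0) ∧ (∀ x ∈ P, ∀ k k' : ↥K, (k' : G) = x * (k : G) * x⁻¹ → (θ : ↥K → ℂ) k' = (θ : ↥K → ℂ) k)} = Nat.card {c : ConjClasses ↥K // (∀ k : ↥K, ConjClasses.mk k = c → IsConj k k⁻¹) ∧ ∀ k : ↥K, ConjClasses.mk k = c → ∀ x ∈ P, ∀ k' : ↥K, (k' : G) = x * (k : G) * x⁻¹ → ConjClasses.mk k' = c} ∧ ((∀ θ : Cfsg.IrrCharacter ↥K, (∀ k : ↥K, ((θ : ↥K → ℂ) k).im = 0) → (∀ x ∈ P, ∀ k k' : ↥K, (k' : G) = x * (k : G) * x⁻¹ → (θ : ↥K → ℂ) k' = (θ : ↥K → ℂ) k)) → ∀ k : ↥K, IsConj k k⁻¹ → ∃ k' : ↥K, IsConj k k' ∧ ∀ x ∈ P, x * (k' : G) * x⁻¹ = (k' : G)) := by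
  exact main p P K hP hK hPK

end Cfsg.Agent.S4911
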