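import Cfsg.Statements.S4912
import Cfsg.Agent.Lib.H83.FSInd

set_option autoImplicit false
open Cfsg

namespace Cfsg.Agent.S4912

open H18.CharBasic H18.CharOrtho H18.CharInd H18.CharQuot H31.Clifford H83.ExtInd H83.FSMult H83.FSInd in
theorem main {G : Type*} [Group G] [Finite G] (N : Subgroup G) (hN : N.Normal)
    (hmin : ∀ M : Subgroup G, M.Normal → M ≤ N → M = ⊥ ∨ M = N) (hna : ¬ IsMulCommutative ↥N)
    (φ : Cfsg.IrrCharacter ↥N) (I : Subgroup G)
    (hI : ∀ g : G, g ∈ I ↔ ∀ n n' : ↥N, (n' : G) = g * (n : G) * g⁻¹ → (φ : ↥N → ℂ) n' = (φ : ↥N → ℂ) n)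
    (hNI : N ≤ I)
    (hext : ∃ ψ : Cfsg.IrrCharacter ↥I, nu (ψ : ↥I → ℂ) = 1 ∧ ∀ n : ↥N, (ψ : ↥I → ℂ) (Subgroup.inclusion hNI n) = (φ : ↥N → ℂ) n) :
    Nat.card {χ : Cfsg.IrrCharacter G // Cfsg.charDegree (χ : G → ℂ) = 1 ∧ nu (χ : G → ℂ) = 1} ≤
      I.index * Nat.card {χ : Cfsg.IrrCharacter G //
        Cfsg.charDegree (χ : G → ℂ) = Cfsg.charDegree (φ : ↥N → ℂ) * I.index ∧ nu (χ : G → ℂ) = 1} := by
  classical
  letI := Fintype.ofFinite G
  letI := Fintype.ofFinite I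
  haveI := hN
  obtain ⟨ψ, hψ1, hψ⟩ := hext
  have hI' : ∀ g : G, g ∈ I ↔ conjFunN N g (φ : N → ℂ) = φ := by
    intro g
    rw [hI]
    constructor
    · intro h
      funext n
      rw [cj_apply]
      exact h n _ rfl
    · intro h n n' hn
      have h1 := congrFun h n
      rw [cj_apply] at h1
      rw [← h1]
      exact congrArg (φ : N → ℂ) (Subtype.ext hn)
  have hf : ∀ f : I →* ℂˣ, ∀ x : G, ∀ hx : x ∈ N, f ⟨x, hNI hx⟩ = 1 := fun f x hx =>
    hom_trivial_of_minimal N hN hmin hna I hNI f x hx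
  haveI : Finite (IrrCharacter G) := instFiniteIrr
  let A : Subgroup (G →* ℂˣ) := (powMonoidHom 2 : (G →* ℂˣ) →* (G →* ℂˣ)).ker
  let B : Subgroup (I →* ℂˣ) := (powMonoidHom 2 : (I →* ℂˣ) →* (I →* ℂˣ)).ker
  have hA : ∀ f : G →* ℂˣ, f ∈ A ↔ f ^ 2 = 1 := fun f => by
    rw [MonoidHom.mem_ker]; rfl
  have hB : ∀ f : I →* ℂˣ, f ∈ B ↔ f ^ 2 = 1 := fun f => by
    rw [MonoidHom.mem_ker]; rfl
  -- linear characters of G
  have h1 : Nat.card {χ : Cfsg.IrrCharacter G // Cfsg.charDegree (χ : G → ℂ) = 1 ∧ nu (χ : G → ℂ) = 1} ≤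
      Nat.card A := by
    have h0 : ∀ χ : {χ : Cfsg.IrrCharacter G // Cfsg.charDegree (χ : G → ℂ) = 1 ∧ nu (χ : G → ℂ) = 1},
        ∃ f : A, (χ.1 : G → ℂ) = fun g => ((f : G →* ℂˣ) g : ℂ) := by
      intro χ
      have h2 : (χ.1 : G → ℂ) 1 = 1 := by
        have := (charDegree_eq_iff (isCharacter_of_isIrr χ.1.2)).1 χ.2.1
        rwa [Nat.cast_one] at this
      have h4 : linEquiv G ⟨χ.1, h2⟩ = linEquiv G ⟨χ.1, h2⟩ := rfl
      obtain ⟨f, hf⟩ : ∃ f : G →* ℂˣ, (χ.1 : G → ℂ) = fun g => (f g : ℂ) := by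
        refine ⟨linEquiv G ⟨χ.1, h2⟩, ?_⟩
        have h5 := (linEquiv G).symm_apply_apply ⟨χ.1, h2⟩
        have h6 := congrArg (fun c : {χ : IrrCharacter G // (χ : G → ℂ) 1 = 1} => (c.1 : G → ℂ)) h5
        exact h6.symm
      refine ⟨⟨f, ?_⟩, hf⟩
      rw [hA, ← nu_lin_iff, ← hf]
      exact χ.2.2
    choose F hF using h0
    refine Nat.card_le_card_of_injective F ?_
    intro χ χ' h
    apply Subtype.ext
    apply Subtype.ext
    rw [hF, hF, h]
  have h2 : Nat.card A ≤ I.index * Nat.card B := by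
    apply card_hom_le I A B
    intro f hf
    rw [hB]
    rw [hA] at hf
    ext x
    have := DFunLike.congr_fun hf (x : G)
    simpa using congrArg Units.val this
  have hψr := real_of_nu ψ.2 (by rw [hψ1]; exact one_ne_zero)
  have h3 : Nat.card B ≤ Nat.card {χ : Cfsg.IrrCharacter G //
        Cfsg.charDegree (χ : G → ℂ) = Cfsg.charDegree (φ : ↥N → ℂ) * I.index ∧ nu (χ : G → ℂ) = 1} := by
    have key := fun f : I →* ℂˣ => twist_ind N φ I hI' hNI ψ.2 hψ f (hf f)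
    refine Nat.card_le_card_of_injective (fun f : B =>
      (⟨⟨indFun I (fun g => ((f : I →* ℂˣ) g : ℂ) * (ψ : I → ℂ) g), (key f).1⟩, ?_, ?_⟩ : {χ : Cfsg.IrrCharacter G //
        Cfsg.charDegree (χ : G → ℂ) = Cfsg.charDegree (φ : ↥N → ℂ) * I.index ∧ nu (χ : G → ℂ) = 1})) ?_
    · apply charDegree_of_eq
      push_cast
      rw [charDegree_cast_irr, mul_comm]
      exact (key f).2
    · have hf2 := (hB f).1 f.2
      have h4 : ∀ g, ((f : I →* ℂˣ) g : ℂ) * ((f : I →* ℂˣ) g : ℂ) = 1 := by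
        intro g
        have := DFunLike.congr_fun hf2 g
        rw [MonoidHom.pow_apply, sq] at this
        have h5 := congrArg Units.val this
        simpa using h5
      have h5 : ∀ g, (((f : I →* ℂˣ) g : ℂ)).im = 0 := by
        intro g
        rcases mul_self_eq_one_iff.1 (h4 g) with h | h <;> rw [h] <;> simp
      have h6 : nu (fun g => ((f : I →* ℂˣ) g : ℂ) * (ψ : I → ℂ) g) = 1 := by
        rw [← hψ1, nu_eq, nu_eq]
        congr 1
        refine Finset.sum_congr rfl fun g _ => ?_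
        rw [map_mul, Units.val_mul, h4, one_mul]
      change nu (indFun I (fun g => ((f : I →* ℂˣ) g : ℂ) * (ψ : I → ℂ) g)) = 1
      rw [nu_ind I (isIrrCharacter_hom_mul _ ψ.2) (fun h => ?_) (key f).1, h6]
      rw [Complex.mul_im, h5, hψr]; simp
    · intro f f' h
      have h4 := congrArg (fun χ : {χ : Cfsg.IrrCharacter G //
        Cfsg.charDegree (χ : G → ℂ) = Cfsg.charDegree (φ : ↥N → ℂ) * I.index ∧ nu (χ : G → ℂ) = 1} => (χ.1 : G → ℂ)) h
      exact Subtype.ext (twist_inj N φ I hI' hNI ψ.2 hψ f f' (hf f) (hf f') h4)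
  exact h1.trans (h2.trans (Nat.mul_le_mul_left _ h3))


/-- Let G be a finite group with a non-abelian minimal normal subgroup N, and let φ be an irreducible complex character of N with stabilizer I in G such that φ extends to an irreducible character of I with Frobenius–Schur indicator +1. Put d = φ(1)·[G : I]. Then the number of linear characters of G with Frobenius–Schur indicator +1 is at most [G : I] times the number of irreducible characters of G of degree d with Frobenius–Schur indicator +1. -/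
theorem result {G : Type*} [Group G] [Finite G] (N : Subgroup G) (hN : N.Normal) (hN1 : N ≠ ⊥) (hmin : ∀ M : Subgroup G, M.Normal → M ≤ N → M = ⊥ ∨ M = N) (hna : ¬ IsMulCommutative ↥N) (φ : Cfsg.IrrCharacter ↥N) (I : Subgroup G) (hI : ∀ g : G, g ∈ I ↔ ∀ n n' : ↥N, (n' : G) = g * (n : G) * g⁻¹ → (φ : ↥N → ℂ) n' = (φ : ↥N → ℂ) n) (hNI : N ≤ I) (hext : ∃ ψ : Cfsg.IrrCharacter ↥I, (Nat.card ↥I : ℂ)⁻¹ * ∑ᶠ g : ↥I, (ψ : ↥I → ℂ) (g * g) = 1 ∧ ∀ n : ↥N, (ψ : ↥I → ℂ) (Subgroup.inclusion hNI n) = (φ : ↥N → ℂ) n) : Nat.card {χ : Cfsg.IrrCharacter G // Cfsg.charDegree (χ : G → ℂ) = 1 ∧ (Nat.card G : ℂ)⁻¹ * ∑ᶠ g : G, (χ : G → ℂ) (g * g) = 1} ≤ I.index * Nat.card {χ : Cfsg.IrrCharacter G // Cfsg.charDegree (χ : G → ℂ) = Cfsg.charDegree (φ : ↥N → ℂ) * I.index ∧ (Nat.card G : ℂ)⁻¹ * ∑ᶠ g : G, (χ : G → ℂ) (g * g) = 1} := by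
  exact main N hN hmin hna φ I hI hNI hext

end Cfsg.Agent.S4912
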