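import Cfsg.Statements.S4916
import Cfsg.Agent.Lib.H83.BlkThom2

set_option autoImplicit false
open Cfsg

namespace Cfsg.Agent.S4916

/-- Let G be a finite group, p a prime and M a maximal ideal of the algebraic integers containing p. Then the principal character is the only irreducible character of degree prime to p in the principal p-block of G if and only if p does not divide the order of G. -/
theorem result {G : Type*} [Group G] [Finite G] (p : ℕ) [Fact p.Prime] (M : Ideal Cfsg.AlgInt) (hM : Cfsg.IsPModular p M) : (∀ χ : Cfsg.IrrCharacter G, χ ∈ Cfsg.principalBlock M G → ¬ p ∣ Cfsg.charDegree (χ : G → ℂ) → (χ : G → ℂ) = fun _ => (1 : ℂ)) ↔ ¬ p ∣ Nat.card G := by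
  constructor
  · intro h
    exact H83.BlkThom.pos hM h
  · intro h χ hχ _
    have h1 : Cfsg.principalBlock M G = {H20.NPC.one G} := by
      rw [H20.NPC.principalBlock_eq]
      exact H20.NPC.blockOf_eq_singleton_of_card hM h _
    rw [h1, Set.mem_singleton_iff] at hχ
    rw [hχ]
    rfl

end Cfsg.Agent.S4916
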