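import Cfsg.Agent.Lib.H84.FixField
import Cfsg.Agent.Lib.H76.MaxClass
import Cfsg.Statements.S4923

set_option autoImplicit false
open Cfsg

namespace Cfsg.Agent.S4923

open H18.CharBasic H18.CharOrtho H18.CharInd H18.CharQuot Subgroup H84.FixField

/-- Generators of a maximal class group. -/
theorem gens {S : Type*} [Group S] [Finite S] {n : ℕ} (hn : 3 ≤ n) (hS : Nat.card S = 2 ^ n)
    (hab : (commutator S).index = 4) :
    ∃ a b : S, orderOf a = 2 ^ (n - 1) ∧ (zpowers a).index = 2 ∧ b ∉ zpowers a ∧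
      (b * a * b⁻¹ = a ^ (2 ^ (n - 1) - 1) ∨ (4 ≤ n ∧ b * a * b⁻¹ = a ^ (2 ^ (n - 2) - 1))) := by
  have h2 : IsPGroup 2 S := IsPGroup.iff_card.2 ⟨n, hS⟩
  have h4 : Nat.card S ≠ 4 := by
    rw [hS]
    have : 2 ^ 3 ≤ 2 ^ n := Nat.pow_le_pow_right (by norm_num) hn
    omega
  have key : ∀ (k : ℕ) (a b : S), n = k + 3 → orderOf a = 2 ^ (k + 2) → b ∉ zpowers a →
      b * a * b⁻¹ = a⁻¹ → ∃ a b : S, orderOf a = 2 ^ (n - 1) ∧ (zpowers a).index = 2 ∧ b ∉ zpowers a ∧
      (b * a * b⁻¹ = a ^ (2 ^ (n - 1) - 1) ∨ (4 ≤ n ∧ b * a * b⁻¹ = a ^ (2 ^ (n - 2) - 1))) := by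
    intro k a b hk ha hb hconj
    subst hk
    refine ⟨a, b, by rw [ha]; congr 1, ?_, hb, Or.inl ?_⟩
    · have h1 := Subgroup.card_mul_index (zpowers a)
      rw [Nat.card_zpowers, ha, hS, show 2 ^ (k + 3) = 2 ^ (k + 2) * 2 by ring] at h1
      exact Nat.eq_of_mul_eq_mul_left (by positivity) h1
    · rw [hconj]
      have h1 : a ^ (2 ^ (k + 3 - 1)) = 1 := by
        rw [show k + 3 - 1 = k + 2 by omega, ← ha]; exact pow_orderOf_eq_one a
      have h2 : 0 < 2 ^ (k + 3 - 1) := by positivity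
      rw [eq_comm, ← mul_eq_one_iff_eq_inv, ← pow_succ, Nat.sub_add_cancel h2, h1]
  rcases H76.MaxClass.trichotomy h2 hab h4 with ⟨k, ⟨e⟩⟩ | ⟨k, hk, a, b, ha, hb, hba, hbA, hidx⟩ | ⟨k, ⟨e⟩⟩
  · have hcard : Nat.card S = 2 * 2 ^ (k + 2) := by
      rw [Nat.card_congr e.toEquiv, DihedralGroup.nat_card]
    have hnk : n = k + 3 := by
      rw [hS, ← pow_succ'] at hcard
      have := Nat.pow_right_injective (le_refl 2) hcard
      omega
    apply key k (e.symm (DihedralGroup.r 1)) (e.symm (DihedralGroup.sr 0)) hnk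
    · rw [MulEquiv.orderOf_eq, DihedralGroup.orderOf_r_one]
    · intro hmem
      obtain ⟨i, hi⟩ := Subgroup.mem_zpowers_iff.1 hmem
      rw [← map_zpow] at hi
      have h3 := e.symm.injective hi
      rw [DihedralGroup.r_one_zpow] at h3
      exact absurd h3 (by simp)
    · rw [← map_inv, ← map_mul, ← map_mul, ← map_inv]
      congr 1
      simp
  · have hnk : n = k + 4 := by
      rw [hS] at hk
      exact Nat.pow_right_injective (le_refl 2) hk
    subst hnk
    refine ⟨a, b, by rw [ha]; congr 1, hidx, hbA, Or.inr ⟨by omega, ?_⟩⟩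
    rw [hba]; congr 1
  · have hne : NeZero (2 ^ (k + 1)) := ⟨by positivity⟩
    have hcard : Nat.card S = 4 * 2 ^ (k + 1) := by
      rw [Nat.card_congr e.toEquiv, Nat.card_eq_fintype_card, QuaternionGroup.card]
    have hnk : n = k + 3 := by
      rw [hS, show 4 * 2 ^ (k + 1) = 2 ^ (k + 3) by ring] at hcard
      exact Nat.pow_right_injective (le_refl 2) hcard
    apply key k (e.symm (QuaternionGroup.a 1)) (e.symm (QuaternionGroup.xa 0)) hnk
    · rw [MulEquiv.orderOf_eq, QuaternionGroup.orderOf_a_one]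
      ring
    · intro hmem
      obtain ⟨i, hi⟩ := Subgroup.mem_zpowers_iff.1 hmem
      rw [← map_zpow] at hi
      have h3 := e.symm.injective hi
      have h4 : ∀ i : ℤ, ∃ j, (QuaternionGroup.a 1 : QuaternionGroup (2 ^ (k + 1))) ^ i = QuaternionGroup.a j := by
        intro i
        obtain ⟨m, hm⟩ : ∃ m : ℕ, (QuaternionGroup.a 1 : QuaternionGroup (2 ^ (k + 1))) ^ i = (QuaternionGroup.a 1) ^ m := by
          obtain ⟨m, hm⟩ := (isOfFinOrder_of_finite (QuaternionGroup.a 1 : QuaternionGroup (2 ^ (k + 1)))).mem_powers_iff_mem_zpowers.2 ⟨i, rfl⟩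
          exact ⟨m, hm.symm⟩
        rw [hm]
        exact ⟨(m : ZMod _), QuaternionGroup.a_one_pow m⟩
      obtain ⟨j, hj⟩ := h4 i
      rw [hj] at h3
      exact absurd h3 (by simp)
    · rw [← map_inv, ← map_mul, ← map_mul, ← map_inv]
      congr 1
      have hinv : (QuaternionGroup.xa 0 : QuaternionGroup (2 ^ (k + 1)))⁻¹ = QuaternionGroup.xa (((2 ^ (k+1) : ℕ) : ZMod _) + 0) := rfl
      rw [hinv]
      have hinv2 : (QuaternionGroup.a 1 : QuaternionGroup (2 ^ (k + 1)))⁻¹ = QuaternionGroup.a (-1) := rfl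
      rw [hinv2, QuaternionGroup.xa_mul_a, QuaternionGroup.xa_mul_xa]
      congr 1
      have h5 : (((2 ^ (k+1) : ℕ) : ZMod (2 * 2 ^ (k+1))) + ((2 ^ (k+1) : ℕ) : ZMod (2 * 2 ^ (k+1)))) = 0 := by
        rw [← Nat.cast_add, ← two_mul]
        exact ZMod.natCast_self _
      have h6 : ((2 ^ (k+1) : ℕ) : ZMod (2 * 2 ^ (k+1))) + (((2 ^ (k+1) : ℕ) : ZMod (2 * 2 ^ (k+1))) + 0) - (0 + 1) = -1 := by
        calc _ = (((2 ^ (k+1) : ℕ) : ZMod (2 * 2 ^ (k+1))) + ((2 ^ (k+1) : ℕ) : ZMod (2 * 2 ^ (k+1)))) - 1 := by ring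
          _ = -1 := by rw [h5]; ring
      exact h6

/-- The action of `b` forces `|S : S'| = 4`. -/
theorem index_four {S : Type*} [Group S] [Finite S] {n : ℕ} (hn : 3 ≤ n) (hS : Nat.card S = 2 ^ n)
    {a b : S} (ha : orderOf a = 2 ^ (n - 1)) (hidx : (zpowers a).index = 2)
    (hb : b * a * b⁻¹ = a ^ (2 ^ (n - 1) - 1) ∨ (4 ≤ n ∧ b * a * b⁻¹ = a ^ (2 ^ (n - 2) - 1))) :
    (commutator S).index = 4 := by
  have h2p : Fact (Nat.Prime 2) := ⟨Nat.prime_two⟩
  obtain ⟨k, rfl⟩ : ∃ k, n = k + 3 := ⟨n - 3, by omega⟩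
  have ha' : orderOf a = 2 ^ (k + 2) := ha
  -- the commutator of b and a
  have hcomm : b * a * b⁻¹ * a⁻¹ ∈ commutator S := by
    rw [_root_.commutator_def]
    exact Subgroup.commutator_mem_commutator (Subgroup.mem_top b) (Subgroup.mem_top a)
  -- a ^ (2 * t) with t odd
  have hodd : ∃ t : ℕ, Odd t ∧ a ^ (2 * t) ∈ commutator S := by
    rcases hb with hb | ⟨h4, hb⟩
    · refine ⟨2 ^ (k + 1) - 1, ?_, ?_⟩
      · have : 0 < 2 ^ (k + 1) := by positivity
        rw [Nat.odd_sub (by omega)]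
        simp [Nat.pow_succ, Nat.even_mul]
      · have h1 : b * a * b⁻¹ * a⁻¹ = a ^ (2 * (2 ^ (k + 1) - 1)) := by
          rw [hb, mul_inv_eq_iff_eq_mul, ← pow_succ]
          congr 1
          have : 0 < 2 ^ (k + 1) := by positivity
          have e : 2 ^ (k + 3 - 1) = 2 * 2 ^ (k + 1) := by
            rw [show k + 3 - 1 = (k + 1) + 1 by omega]; ring
          rw [e]; omega
        rw [← h1]; exact hcomm
    · obtain ⟨l, rfl⟩ : ∃ l, k = l + 1 := ⟨k - 1, by omega⟩
      refine ⟨2 ^ (l + 1) - 1, ?_, ?_⟩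
      · have : 0 < 2 ^ (l + 1) := by positivity
        rw [Nat.odd_sub (by omega)]
        simp [Nat.pow_succ, Nat.even_mul]
      · have h1 : b * a * b⁻¹ * a⁻¹ = a ^ (2 * (2 ^ (l + 1) - 1)) := by
          rw [hb, mul_inv_eq_iff_eq_mul, ← pow_succ]
          congr 1
          have : 0 < 2 ^ (l + 1) := by positivity
          have e : 2 ^ (l + 1 + 3 - 2) = 2 * 2 ^ (l + 1) := by
            rw [show l + 1 + 3 - 2 = (l + 1) + 1 by omega]; ring
          rw [e]; omega
        rw [← h1]; exact hcomm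
  obtain ⟨t, ht, hta⟩ := hodd
  have ha2 : a ^ 2 ∈ commutator S := by
    have hcop : t.Coprime (orderOf (a ^ 2)) := by
      have h1 : orderOf (a ^ 2) ∣ 2 ^ (k + 2) := by
        rw [← ha']; exact orderOf_pow_dvd 2
      apply Nat.Coprime.coprime_dvd_right h1
      apply Nat.Coprime.pow_right
      exact Nat.coprime_two_right.2 ht
    obtain ⟨m, hm⟩ := exists_pow_eq_self_of_coprime hcop
    have hmm : ((a ^ 2) ^ t) ^ m = (a ^ (2 * t)) ^ m := by rw [pow_mul a 2 t]
    rw [← hm, hmm]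
    exact Subgroup.pow_mem _ hta m
  have hle : zpowers (a ^ 2) ≤ commutator S := by rw [zpowers_le]; exact ha2
  have hord2 : orderOf (a ^ 2) = 2 ^ (k + 1) := by
    rw [orderOf_pow_of_dvd (by norm_num) (by rw [ha']; exact dvd_pow_self 2 (by omega)), ha']
    rw [pow_succ]; simp
  have hidx2 : (zpowers (a ^ 2)).index = 4 := by
    have h1 := Subgroup.card_mul_index (zpowers (a ^ 2))
    rw [Nat.card_zpowers, hord2, hS, show 2 ^ (k + 3) = 2 ^ (k + 1) * 4 by ring] at h1
    exact Nat.eq_of_mul_eq_mul_left (by positivity) h1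
  -- zpowers (a^2) is normal
  have hAn : (zpowers a).Normal := Subgroup.normal_of_index_eq_two hidx
  have hn2 : (zpowers (a ^ 2)).Normal := by
    refine ⟨fun x hx g => ?_⟩
    obtain ⟨i, rfl⟩ := Subgroup.mem_zpowers_iff.1 hx
    have h1 : g * a * g⁻¹ ∈ zpowers a := hAn.conj_mem a (Subgroup.mem_zpowers a) g
    obtain ⟨j, hj⟩ := Subgroup.mem_zpowers_iff.1 h1
    have h2 : g * (a ^ 2) ^ i * g⁻¹ = (a ^ 2) ^ (j * i) := by
      have e1 : (a ^ 2) ^ (j * i) = a ^ (2 * (j * i)) := by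
        rw [zpow_mul a 2 (j * i)]
        congr 1
        exact (zpow_natCast a 2).symm
      have e2 : (((a ^ j) ^ 2) ^ i) = a ^ (2 * (j * i)) := by
        rw [← zpow_natCast (a ^ j) 2, ← zpow_mul, ← zpow_mul]
        congr 1
        push_cast
        ring
      rw [← conj_zpow, ← conj_pow, ← hj, e1, e2]
    rw [h2]
    exact Subgroup.zpow_mem _ (Subgroup.mem_zpowers _) _
  have hle2 : commutator S ≤ zpowers (a ^ 2) := by
    have hcard : Nat.card (S ⧸ zpowers (a ^ 2)) = 2 ^ 2 := hidx2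
    have hcm := IsPGroup.commutative_of_card_eq_prime_sq (p := 2) hcard
    rw [_root_.commutator_def, Subgroup.commutator_le]
    intro x _ y _
    rw [← QuotientGroup.eq_one_iff]
    have h1 := hcm (QuotientGroup.mk x) (QuotientGroup.mk y)
    change QuotientGroup.mk' (zpowers (a ^ 2)) (x * y * x⁻¹ * y⁻¹) = 1
    rw [map_mul, map_mul, map_mul, map_inv, map_inv]
    have h2 : QuotientGroup.mk' (zpowers (a ^ 2)) x * QuotientGroup.mk' (zpowers (a ^ 2)) y =
      QuotientGroup.mk' (zpowers (a ^ 2)) y * QuotientGroup.mk' (zpowers (a ^ 2)) x := h1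
    rw [h2]; group
  rw [le_antisymm hle2 hle, hidx2]

/-- Fusion of powers of a generator of the cyclic maximal subgroup. -/
theorem conj_pow_cases {G : Type*} [Group G] [Finite G] (P : Sylow 2 G) {n j : ℕ}
    {g b : G} (hg : g ∈ (P : Subgroup G)) (hb : b ∈ (P : Subgroup G))
    (hord : orderOf g = 2 ^ (n - 1)) (hidx : ((zpowers g).subgroupOf (P : Subgroup G)).index = 2)
    (hbA : b ∉ zpowers g) (hbg : b * g * b⁻¹ = g ^ j) {k : ℕ} (hconj : IsConj (g ^ k) g) :
    g ^ k = g ∨ g ^ k = g ^ j := by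
  have h2p : Fact (Nat.Prime 2) := ⟨Nat.prime_two⟩
  obtain ⟨c, hc⟩ := isConj_iff.1 hconj.symm
  -- c g c⁻¹ = g ^ k
  let N : Subgroup G := normalizer (zpowers g : Set G)
  have hcN : c ∈ N := by
    -- conj by c maps zpowers g into itself
    have hsub : (zpowers g).map (MulAut.conj c).toMonoidHom ≤ zpowers g := by
      rw [MonoidHom.map_zpowers, zpowers_le]
      change c * g * c⁻¹ ∈ _
      rw [hc]; exact Subgroup.pow_mem _ (mem_zpowers g) k
    have heq : (zpowers g).map (MulAut.conj c).toMonoidHom = zpowers g := by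
      apply Subgroup.eq_of_le_of_card_ge hsub
      rw [Subgroup.card_map_of_injective (MulAut.conj c).injective]
    rw [Subgroup.mem_normalizer_iff]
    intro x
    constructor
    · intro hx
      rw [← heq]
      exact ⟨x, hx, rfl⟩
    · intro hx
      have hx' : c * x * c⁻¹ ∈ (zpowers g).map (MulAut.conj c).toMonoidHom := by rw [heq]; exact hx
      obtain ⟨y, hy, hyx⟩ := hx'
      have : y = x := (MulAut.conj c).injective hyx
      rwa [← this]
  have hAnP : ((zpowers g).subgroupOf (P : Subgroup G)).Normal := Subgroup.normal_of_index_eq_two hidx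
  have hgP : zpowers g ≤ (P : Subgroup G) := by rw [zpowers_le]; exact hg
  have hPN : (P : Subgroup G) ≤ N := by
    intro x hx
    rw [Subgroup.mem_normalizer_iff]
    intro y
    constructor
    · intro hy
      exact hAnP.conj_mem ⟨y, hgP hy⟩ hy ⟨x, hx⟩
    · intro hy
      have hyP : y ∈ (P : Subgroup G) := by
        have h1 := hgP hy
        have h2 := (P : Subgroup G).mul_mem ((P : Subgroup G).mul_mem ((P : Subgroup G).inv_mem hx) h1) hx
        have h3 : x⁻¹ * (x * y * x⁻¹) * x = y := by group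
        rwa [h3] at h2
      have h4 := hAnP.conj_mem ⟨x * y * x⁻¹, hgP hy⟩ hy ⟨x, hx⟩⁻¹
      have h5 : x⁻¹ * (x * y * x⁻¹) * x⁻¹⁻¹ = y := by group
      have h6 : x⁻¹ * (x * y * x⁻¹) * x⁻¹⁻¹ ∈ zpowers g := h4
      rwa [h5] at h6
  -- N / C is a 2-group
  let C : Subgroup N := (centralizer ({g} : Set G)).subgroupOf N
  have hpow : ∀ x : N, ∃ i : ℕ, ∀ m : ℕ, (x : G) ^ m * g * ((x : G) ^ m)⁻¹ = g ^ (i ^ m) := by
    intro x
    have h1 : (x : G) * g * (x : G)⁻¹ ∈ zpowers g := (Subgroup.mem_normalizer_iff.1 x.2 g).1 (mem_zpowers g)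
    obtain ⟨i, hi⟩ := (isOfFinOrder_of_finite g).mem_powers_iff_mem_zpowers.2 h1
    have hi' : g ^ i = (x : G) * g * (x : G)⁻¹ := hi
    refine ⟨i, fun m => ?_⟩
    induction m with
    | zero => simp
    | succ m ih =>
      rw [pow_succ' (x : G) m]
      have : (x : G) * (x : G) ^ m * g * ((x : G) * (x : G) ^ m)⁻¹ = (x : G) * ((x : G) ^ m * g * ((x : G) ^ m)⁻¹) * (x : G)⁻¹ := by group
      rw [this, ih, ← conj_pow, ← hi', ← pow_mul, pow_succ' i m]
  have hCn : C.Normal := by
    refine ⟨fun x hx y => ?_⟩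
    rw [Subgroup.mem_subgroupOf, mem_centralizer_singleton_iff] at hx ⊢
    obtain ⟨i, hi⟩ := hpow y⁻¹
    have h1 := hi 1
    rw [pow_one, pow_one, Subgroup.coe_inv, inv_inv] at h1
    -- y⁻¹ g y = g ^ i
    have hx2 : (x : G) * g ^ i = g ^ i * (x : G) := (show Commute (x : G) g from hx).pow_right i
    rw [Subgroup.coe_mul, Subgroup.coe_mul, Subgroup.coe_inv]
    calc (y : G) * (x : G) * (y : G)⁻¹ * g = (y : G) * ((x : G) * ((y : G)⁻¹ * g * (y : G))) * (y : G)⁻¹ := by group
      _ = (y : G) * ((x : G) * g ^ i) * (y : G)⁻¹ := by rw [h1]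
      _ = (y : G) * (g ^ i * (x : G)) * (y : G)⁻¹ := by rw [hx2]
      _ = (y : G) * (((y : G)⁻¹ * g * (y : G)) * (x : G)) * (y : G)⁻¹ := by rw [h1]
      _ = g * ((y : G) * (x : G) * (y : G)⁻¹) := by group
  have hquot : IsPGroup 2 (N ⧸ C) := by
    intro q
    obtain ⟨x, rfl⟩ := QuotientGroup.mk_surjective q
    obtain ⟨i, hi⟩ := hpow x
    -- i is odd or g = 1
    have hi1 := hi 1
    rw [pow_one, pow_one] at hi1
    have hcop : Nat.Coprime i (2 ^ (n - 1)) := by
      have h1 : orderOf (g ^ i) = orderOf g := by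
        rw [← hi1]
        have := orderOf_injective (MulAut.conj (x : G)).toMonoidHom (MulAut.conj (x : G)).injective g
        simpa using this
      have h2 := orderOf_pow g (n := i)
      rw [h1] at h2
      have hpos : 0 < orderOf g := orderOf_pos g
      have h3 : Nat.gcd (orderOf g) i = 1 := by
        have h4 : Nat.gcd (orderOf g) i ∣ orderOf g := Nat.gcd_dvd_left _ _
        have h5 := Nat.div_mul_cancel h4
        rw [← h2] at h5
        have h6 : orderOf g * Nat.gcd (orderOf g) i = orderOf g * 1 := by rw [h5, mul_one]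
        exact Nat.eq_of_mul_eq_mul_left hpos h6
      rw [hord] at h3
      exact Nat.Coprime.symm h3
    refine ⟨n - 1, ?_⟩
    rw [← QuotientGroup.mk_pow, QuotientGroup.eq_one_iff, Subgroup.mem_subgroupOf, mem_centralizer_singleton_iff]
    have h2 := hi (2 ^ (n - 1))
    have h3 : g ^ (i ^ (2 ^ (n - 1))) = g := by
      conv_rhs => rw [← pow_one g]
      rw [pow_eq_pow_iff_modEq, hord]
      -- i ^ (2^(n-1)) ≡ 1 mod 2^(n-1)
      have h4 : Nat.totient (2 ^ (n - 1)) ∣ 2 ^ (n - 1) := by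
        rcases Nat.eq_zero_or_pos (n - 1) with h0 | h0
        · rw [h0]; simp
        · rw [Nat.totient_prime_pow Nat.prime_two h0]
          simp only [Nat.add_one_sub_one, mul_one]
          exact pow_dvd_pow 2 (by omega)
      obtain ⟨t, ht⟩ := h4
      conv_lhs => rw [ht, pow_mul]
      have h5 := Nat.ModEq.pow_totient hcop
      have h6 := h5.pow t
      rwa [one_pow] at h6
    rw [h3] at h2
    rw [Subgroup.coe_pow]
    rw [mul_inv_eq_iff_eq_mul] at h2
    exact h2
  -- P C = N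
  let PN : Sylow 2 N := P.subtype hPN
  have hsup : (PN : Subgroup N) ⊔ C = ⊤ := by
    have h1 : (((PN : Subgroup N) ⊔ C).index) ∣ C.index := Subgroup.index_dvd_of_le le_sup_right
    have h2 : (((PN : Subgroup N) ⊔ C).index) ∣ (PN : Subgroup N).index := Subgroup.index_dvd_of_le le_sup_left
    obtain ⟨i, hi⟩ := IsPGroup.iff_card.1 hquot
    have h3 : C.index = 2 ^ i := hi
    rw [h3] at h1
    have h4 : ¬ 2 ∣ (PN : Subgroup N).index := PN.not_dvd_index
    obtain ⟨s, hs, hs2⟩ := (Nat.dvd_prime_pow Nat.prime_two).1 h1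
    have h5 : s = 0 := by
      by_contra h0
      apply h4
      refine dvd_trans ?_ h2
      rw [hs2]; exact dvd_pow_self 2 h0
    rw [h5, pow_zero] at hs2
    exact Subgroup.index_eq_one.1 hs2
  have hmem : (⟨c, hcN⟩ : N) ∈ (PN : Subgroup N) ⊔ C := by rw [hsup]; trivial
  rw [Subgroup.mem_sup_of_normal_right] at hmem
  obtain ⟨x, hx, d, hd, hxd⟩ := hmem
  have hxP : (x : G) ∈ (P : Subgroup G) := hx
  have hcx : c = (x : G) * (d : G) := (congrArg Subtype.val hxd).symm
  have hdg : (d : G) * g = g * (d : G) := by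
    rw [Subgroup.mem_subgroupOf, mem_centralizer_singleton_iff] at hd
    exact hd
  have hxg : (x : G) * g * (x : G)⁻¹ = g ^ k := by
    rw [← hc, hcx]
    have : (x : G) * (d : G) * g * ((x : G) * (d : G))⁻¹ = (x : G) * ((d : G) * g) * (d : G)⁻¹ * (x : G)⁻¹ := by group
    rw [this, hdg]; group
  -- x in ⟨g⟩ or b ⟨g⟩
  by_cases hxA : (x : G) ∈ zpowers g
  · left
    obtain ⟨i, hi⟩ := Subgroup.mem_zpowers_iff.1 hxA
    rw [← hxg, ← hi]
    have : Commute (g ^ i) g := (Commute.refl g).zpow_left i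
    rw [this.eq]; group
  · right
    have h1 : (b⁻¹ * (x : G)) ∈ zpowers g := by
      have h2 := Subgroup.mul_mem_iff_of_index_two hidx (a := (⟨b, hb⟩⁻¹ : P)) (b := (⟨x, hxP⟩ : P))
      rw [Subgroup.inv_mem_iff] at h2
      have h3 : (⟨b, hb⟩ : P) ∉ (zpowers g).subgroupOf (P : Subgroup G) := hbA
      have h4 : (⟨x, hxP⟩ : P) ∉ (zpowers g).subgroupOf (P : Subgroup G) := hxA
      exact h2.2 (by simp only [h3, h4])
    obtain ⟨i, hi⟩ := Subgroup.mem_zpowers_iff.1 h1
    have h2 : (x : G) = b * g ^ i := by rw [hi]; group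
    rw [← hxg, h2, ← hbg]
    have h3 : Commute (g ^ i) g := (Commute.refl g).zpow_left i
    have : b * g ^ i * g * (b * g ^ i)⁻¹ = b * (g ^ i * g) * (g ^ i)⁻¹ * b⁻¹ := by group
    rw [this, h3.eq]; group

/-- A nonabelian group of order 8 has commutator subgroup of index 4. -/
theorem index_four_of_order_eight {S : Type*} [Group S] [Finite S] (hS : Nat.card S = 2 ^ 3)
    (hne : ∃ x y : S, x * y ≠ y * x) : (commutator S).index = 4 := by
  have h2p : Fact (Nat.Prime 2) := ⟨Nat.prime_two⟩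
  have hpg : IsPGroup 2 S := IsPGroup.iff_card.2 ⟨3, hS⟩
  obtain ⟨x, y, hxy⟩ := hne
  have hnt : Nontrivial S := ⟨x, y, fun h => hxy (by rw [h])⟩
  have hZnt := hpg.center_nontrivial
  obtain ⟨i, hi⟩ := (Nat.dvd_prime_pow Nat.prime_two).1 (hS ▸ Subgroup.card_subgroup_dvd_card (center S))
  have hmul := Subgroup.card_mul_index (center S)
  rw [hS, hi.2] at hmul
  have hi0 : i ≠ 0 := by
    rintro rfl
    rw [pow_zero] at hi
    have := Finite.one_lt_card (α := center S)
    omega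
  have hne3 : ¬ IsCyclic (S ⧸ center S) := by
    intro hc
    exact hxy ((commutative_of_cyclic_center_quotient (QuotientGroup.mk' (center S)) (by rw [QuotientGroup.ker_mk']) ) x y)
  have hi1 : i = 1 := by
    obtain ⟨hi3, _⟩ := hi
    by_contra h1
    have h4 : i = 2 ∨ i = 3 := by omega
    rcases h4 with rfl | rfl
    · apply hne3
      have : Nat.card (S ⧸ center S) = 2 := by
        change (center S).index = 2
        omega
      exact isCyclic_of_prime_card this
    · apply hne3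
      have : Nat.card (S ⧸ center S) = 1 := by
        change (center S).index = 1
        omega
      have := (Nat.card_eq_one_iff_unique.1 this).1
      infer_instance
  subst hi1
  have hidx : (center S).index = 4 := by omega
  have hle : commutator S ≤ center S := by
    have hcard : Nat.card (S ⧸ center S) = 2 ^ 2 := hidx
    have hcm := IsPGroup.commutative_of_card_eq_prime_sq (p := 2) hcard
    rw [_root_.commutator_def, Subgroup.commutator_le]
    intro x _ y _
    rw [← QuotientGroup.eq_one_iff]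
    have h1 := hcm (QuotientGroup.mk x) (QuotientGroup.mk y)
    change QuotientGroup.mk' (center S) (x * y * x⁻¹ * y⁻¹) = 1
    rw [map_mul, map_mul, map_mul, map_inv, map_inv]
    have h2 : QuotientGroup.mk' (center S) x * QuotientGroup.mk' (center S) y =
      QuotientGroup.mk' (center S) y * QuotientGroup.mk' (center S) x := h1
    rw [h2]; group
  have heq : commutator S = center S := by
    have h1 : Nat.card (commutator S) ∣ Nat.card (center S) := Subgroup.card_dvd_of_le hle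
    rw [hi.2, pow_one] at h1
    rcases (Nat.dvd_prime Nat.prime_two).1 h1 with h1 | h1
    · exfalso
      apply hxy
      have h2 : commutator S = ⊥ := Subgroup.card_eq_one.1 h1
      have h3 : x * y * x⁻¹ * y⁻¹ ∈ commutator S := by
        rw [_root_.commutator_def]
        exact Subgroup.commutator_mem_commutator (Subgroup.mem_top x) (Subgroup.mem_top y)
      rw [h2, Subgroup.mem_bot, mul_inv_eq_one, mul_inv_eq_iff_eq_mul] at h3
      exact h3
    · apply Subgroup.eq_of_le_of_card_ge hle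
      rw [h1, hi.2, pow_one]
  rw [heq, hidx]

/-- Even class size. -/
theorem two_dvd_index {G : Type*} [Group G] [Finite G] {g b : G}
    (hbN : b ∈ normalizer (zpowers g : Set G)) (hbg : b * g * b⁻¹ ≠ g)
    (hb2 : b ^ 2 ∈ zpowers g) : 2 ∣ (centralizer ({g} : Set G)).index := by
  have hCN : centralizer ({g} : Set G) ≤ normalizer (zpowers g : Set G) := by
    intro x hx
    rw [mem_centralizer_singleton_iff] at hx
    rw [Subgroup.mem_normalizer_iff]
    have hx' : Commute x g := hx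
    intro y
    constructor
    · intro hy
      obtain ⟨i, rfl⟩ := Subgroup.mem_zpowers_iff.1 hy
      rw [(hx'.zpow_right i).eq, mul_inv_cancel_right]
      exact Subgroup.zpow_mem _ (mem_zpowers g) i
    · intro hy
      obtain ⟨i, hi⟩ := Subgroup.mem_zpowers_iff.1 hy
      have : y = x⁻¹ * g ^ i * x := by rw [hi]; group
      rw [this, (hx'.inv_left.zpow_right i).eq, inv_mul_cancel_right]
      exact Subgroup.zpow_mem _ (mem_zpowers g) i
  rw [← Subgroup.relIndex_mul_index hCN]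
  apply Dvd.dvd.mul_right
  -- a fixed point free involution
  let C := (centralizer ({g} : Set G)).subgroupOf (normalizer (zpowers g : Set G))
  have hn : C.Normal := by
    refine ⟨fun x hx y => ?_⟩
    rw [Subgroup.mem_subgroupOf, mem_centralizer_singleton_iff] at hx ⊢
    have h1 : ((y : G)⁻¹) * g * ((y : G)⁻¹)⁻¹ ∈ zpowers g :=
      (Subgroup.mem_normalizer_iff.1 (y⁻¹).2 g).1 (mem_zpowers g)
    obtain ⟨i, hi⟩ := Subgroup.mem_zpowers_iff.1 h1
    have hx2 : (x : G) * g ^ i = g ^ i * (x : G) := (show Commute (x : G) g from hx).zpow_right i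
    rw [inv_inv] at hi
    rw [Subgroup.coe_mul, Subgroup.coe_mul, Subgroup.coe_inv]
    calc (y : G) * (x : G) * (y : G)⁻¹ * g = (y : G) * ((x : G) * ((y : G)⁻¹ * g * (y : G))) * (y : G)⁻¹ := by group
      _ = (y : G) * ((x : G) * g ^ i) * (y : G)⁻¹ := by rw [hi]
      _ = (y : G) * (g ^ i * (x : G)) * (y : G)⁻¹ := by rw [hx2]
      _ = (y : G) * (((y : G)⁻¹ * g * (y : G)) * (x : G)) * (y : G)⁻¹ := by rw [hi]
      _ = g * ((y : G) * (x : G) * (y : G)⁻¹) := by group
  have hord : orderOf (QuotientGroup.mk (s := C) ⟨b, hbN⟩) = 2 := by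
    rw [orderOf_eq_prime_iff]
    constructor
    · rw [← QuotientGroup.mk_pow, QuotientGroup.eq_one_iff, Subgroup.mem_subgroupOf,
        mem_centralizer_singleton_iff, Subgroup.coe_pow]
      obtain ⟨i, hi⟩ := Subgroup.mem_zpowers_iff.1 hb2
      change b ^ 2 * g = g * b ^ 2
      rw [← hi]
      exact ((Commute.refl g).zpow_left i).eq
    · intro h
      rw [QuotientGroup.eq_one_iff, Subgroup.mem_subgroupOf, mem_centralizer_singleton_iff] at h
      apply hbg
      have h' : b * g = g * b := h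
      rw [h']; group
  have h3 := orderOf_dvd_natCard (QuotientGroup.mk (s := C) ⟨b, hbN⟩)
  rw [hord] at h3
  exact h3

theorem isInt_val {G : Type*} [Group G] [Finite G] (g : G) :
    ∀ z ∈ {z : ℂ | ∃ χ : Cfsg.IrrCharacter G, (χ : G → ℂ) g = z}, IsIntegral ℚ z := by
  rintro z ⟨χ, rfl⟩
  exact (char_isIntegral (isCharacter_of_isIrr χ.2) g).tower_top

/-- The field of values criterion. -/
theorem field_iff {G : Type*} [Group G] [Finite G] (g : G) {ζ : ℂ} {j : ℕ} {T : Set ℂ}
    (hTi : ∀ z ∈ T, IsIntegral ℚ z)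
    (hT : ∀ (σ : ℂ ≃+* ℂ) (k : ℕ), (∀ z : ℂ, z ^ (Nat.card G) = 1 → σ z = z ^ k) →
      ((∀ z ∈ T, σ z = z) ↔ (ζ ^ k = ζ ∨ ζ ^ k = ζ ^ j))) :
    IntermediateField.adjoin ℚ {z : ℂ | ∃ χ : Cfsg.IrrCharacter G, (χ : G → ℂ) g = z} =
      IntermediateField.adjoin ℚ T ↔ ∀ k : ℕ, k.Coprime (Nat.card G) →
        (IsConj (g ^ k) g ↔ (ζ ^ k = ζ ∨ ζ ^ k = ζ ^ j)) := by
  have hG : Nat.card G ≠ 0 := Nat.card_pos.ne'
  rw [adjoin_eq_iff (isInt_val g) hTi]
  have hS : ∀ (σ : ℂ ≃+* ℂ) (k : ℕ), (∀ z : ℂ, z ^ (Nat.card G) = 1 → σ z = z ^ k) →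
      ((∀ z ∈ {z : ℂ | ∃ χ : Cfsg.IrrCharacter G, (χ : G → ℂ) g = z}, σ z = z) ↔ IsConj (g ^ k) g) := by
    intro σ k hσ
    rw [isConj_iff_char]
    constructor
    · intro h χ
      rw [← H78.Galois.char_map_eq_pow (dvd_refl _) (σ := σ.toRingHom) hσ (isCharacter_of_isIrr χ.2) g]
      exact h _ ⟨χ, rfl⟩
    · rintro h z ⟨χ, rfl⟩
      have h1 := H78.Galois.char_map_eq_pow (dvd_refl _) (σ := σ.toRingHom) hσ (isCharacter_of_isIrr χ.2) g
      rw [h χ] at h1
      exact h1
  constructor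
  · intro h k hk
    obtain ⟨σ, hσ⟩ := H78.Galois.exists_ringEquiv hG hk
    rw [← hS σ k hσ, h σ, hT σ k hσ]
  · intro h σ
    obtain ⟨k, hk, hσ⟩ := exists_pow hG σ
    rw [hS σ k hσ, h k hk, hT σ k hσ]

theorem add_inv_iff {x y : ℂ} (hx : x ≠ 0) (hy : y ≠ 0) : x + x⁻¹ = y + y⁻¹ ↔ (x = y ∨ x = y⁻¹) := by
  constructor
  · intro h
    have h1 : (x - y) * (x * y - 1) = 0 := by
      field_simp at h
      linear_combination h
    rcases mul_eq_zero.1 h1 with h2 | h2
    · left; exact sub_eq_zero.1 h2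
    · right; exact eq_inv_of_mul_eq_one_left (sub_eq_zero.1 h2)
  · rintro (rfl | rfl)
    · rfl
    · rw [inv_inv, add_comm]

theorem sub_inv_iff {x y : ℂ} (hx : x ≠ 0) (hy : y ≠ 0) : x - x⁻¹ = y - y⁻¹ ↔ (x = y ∨ x = -y⁻¹) := by
  constructor
  · intro h
    have h1 : (x - y) * (x * y + 1) = 0 := by
      field_simp at h
      linear_combination h
    rcases mul_eq_zero.1 h1 with h2 | h2
    · left; exact sub_eq_zero.1 h2
    · right
      have h3 : (-x) * y = 1 := by linear_combination -h2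
      have := eq_inv_of_mul_eq_one_left h3
      rw [← this, neg_neg]
  · rintro (rfl | rfl)
    · rfl
    · rw [← neg_inv, inv_inv]; ring

theorem main_field {G : Type*} [Group G] [Finite G] (g : G) {n : ℕ} (hn : 3 ≤ n)
    (hd : 2 ^ (n - 1) ∣ Nat.card G) {ζ : ℂ} (hζ : IsPrimitiveRoot ζ (2 ^ (n - 1))) :
    (IntermediateField.adjoin ℚ {z : ℂ | ∃ χ : Cfsg.IrrCharacter G, (χ : G → ℂ) g = z} =
      IntermediateField.adjoin ℚ ({ζ + ζ⁻¹} : Set ℂ) ↔ ∀ k : ℕ, k.Coprime (Nat.card G) →
        (IsConj (g ^ k) g ↔ (ζ ^ k = ζ ∨ ζ ^ k = ζ ^ (2 ^ (n - 1) - 1)))) ∧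
    (IntermediateField.adjoin ℚ {z : ℂ | ∃ χ : Cfsg.IrrCharacter G, (χ : G → ℂ) g = z} =
      IntermediateField.adjoin ℚ ({ζ - ζ⁻¹} : Set ℂ) ↔ ∀ k : ℕ, k.Coprime (Nat.card G) →
        (IsConj (g ^ k) g ↔ (ζ ^ k = ζ ∨ ζ ^ k = ζ ^ (2 ^ (n - 2) - 1)))) := by
  have h0 : 0 < 2 ^ (n - 1) := by positivity
  have hζ0 : ζ ≠ 0 := hζ.ne_zero h0.ne'
  have hζi : IsIntegral ℚ ζ := (hζ.isIntegral h0).tower_top
  have hζi' : IsIntegral ℚ ζ⁻¹ := (hζ.inv.isIntegral h0).tower_top
  have hpow : ζ ^ (Nat.card G) = 1 := by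
    obtain ⟨t, ht⟩ := hd
    rw [ht, pow_mul, hζ.pow_eq_one, one_pow]
  have hinv : ζ ^ (2 ^ (n - 1) - 1) = ζ⁻¹ := by
    apply eq_inv_of_mul_eq_one_left
    rw [← pow_succ, Nat.sub_add_cancel h0, hζ.pow_eq_one]
  have hneg : ζ ^ (2 ^ (n - 2)) = -1 := by
    have h2 : (ζ ^ (2 ^ (n - 2))) ^ 2 = 1 := by
      rw [← pow_mul, ← pow_succ, show n - 2 + 1 = n - 1 by omega, hζ.pow_eq_one]
    have h3 : (ζ ^ (2 ^ (n - 2)) - 1) * (ζ ^ (2 ^ (n - 2)) + 1) = 0 := by linear_combination h2
    rcases mul_eq_zero.1 h3 with h | h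
    · exfalso
      have h4 := hζ.dvd_of_pow_eq_one _ (sub_eq_zero.1 h)
      have h5 := Nat.le_of_dvd (by positivity) h4
      have h6 := Nat.pow_lt_pow_right (a := 2) (by norm_num) (show n - 2 < n - 1 by omega)
      omega
    · exact eq_neg_of_add_eq_zero_left h
  have hinv2 : ζ ^ (2 ^ (n - 2) - 1) = -ζ⁻¹ := by
    have h1 : 0 < 2 ^ (n - 2) := by positivity
    have h3 : ζ ^ (2 ^ (n - 2) - 1) * ζ = -1 := by
      rw [← pow_succ, Nat.sub_add_cancel h1, hneg]
    rw [eq_comm, neg_eq_iff_eq_neg]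
    rw [inv_eq_iff_eq_inv, eq_comm]
    apply inv_eq_of_mul_eq_one_right
    linear_combination -h3
  constructor
  · apply field_iff
    · rintro z rfl
      exact hζi.add hζi'
    · intro σ k hσ
      rw [hinv]
      simp only [Set.mem_singleton_iff, forall_eq, map_add, map_inv₀]
      rw [hσ ζ hpow]
      exact add_inv_iff (pow_ne_zero _ hζ0) hζ0
  · apply field_iff
    · rintro z rfl
      exact hζi.sub hζi'
    · intro σ k hσ
      rw [hinv2]
      simp only [Set.mem_singleton_iff, forall_eq, map_sub, map_inv₀]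
      rw [hσ ζ hpow]
      exact sub_inv_iff (pow_ne_zero _ hζ0) hζ0

/-- Realizing a residue modulo `2 ^ n` by a number coprime to `|G|`. -/
theorem exists_coprime_modEq {N n k : ℕ} (hN : 2 ^ n * (N / 2 ^ n) = N) (hr : Odd (N / 2 ^ n))
    (hn : 1 ≤ n) (hk : Odd k) :
    ∃ k' : ℕ, k'.Coprime N ∧ k' ≡ k [MOD 2 ^ n] := by
  have hcop : Nat.Coprime (2 ^ n) (N / 2 ^ n) := Nat.Coprime.pow_left n (Nat.coprime_two_left.2 hr)
  obtain ⟨x, hx1, hx2⟩ := Nat.chineseRemainder hcop k 1
  refine ⟨x, ?_, hx1⟩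
  rw [← hN]
  apply Nat.Coprime.mul_right
  · apply Nat.Coprime.pow_right
    rw [Nat.coprime_two_right]
    have h1 : x ≡ k [MOD 2] := hx1.of_dvd (dvd_pow_self 2 (by omega))
    rw [Nat.odd_iff] at hk ⊢
    rw [← hk]; exact h1
  · have := hx2.gcd_eq
    rw [Nat.gcd_one_left] at this
    exact this

/-- A conjugating element in the Sylow subgroup. -/
theorem index_sub {G : Type*} [Group G] [Finite G] (P : Sylow 2 G) {n : ℕ} (hn : 1 ≤ n)
    (hP : Nat.card P = 2 ^ n) {g : G} (hg : g ∈ (P : Subgroup G)) (hord : orderOf g = 2 ^ (n - 1)) :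
    ((zpowers g).subgroupOf (P : Subgroup G)).index = 2 := by
  have hle : zpowers g ≤ (P : Subgroup G) := by rw [zpowers_le]; exact hg
  have h1 := Subgroup.card_mul_index ((zpowers g).subgroupOf (P : Subgroup G))
  rw [Nat.card_congr (Subgroup.subgroupOfEquivOfLe hle).toEquiv, Nat.card_zpowers, hord] at h1
  have h2 : Nat.card (P : Subgroup G) = 2 ^ (n - 1) * 2 := by
    rw [← pow_succ, Nat.sub_add_cancel hn]; exact hP
  rw [h2] at h1
  exact Nat.eq_of_mul_eq_mul_left (by positivity) h1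

theorem result {G : Type*} [Group G] [Finite G] (P : Sylow 2 G) (n : ℕ) (hn : 3 ≤ n) (hP : Nat.card P = 2 ^ n) (ζ : ℂ) (hζ : IsPrimitiveRoot ζ (2 ^ (n - 1))) :
    (commutator ↥P).index = 4 ↔
      ∃ g : G, g ∈ (P : Subgroup G) ∧ 2 ∣ (Subgroup.centralizer ({g} : Set G)).index ∧
        (IntermediateField.adjoin ℚ {z : ℂ | ∃ χ : Cfsg.IrrCharacter G, (χ : G → ℂ) g = z} = IntermediateField.adjoin ℚ ({ζ + ζ⁻¹} : Set ℂ) ∨
          IntermediateField.adjoin ℚ {z : ℂ | ∃ χ : Cfsg.IrrCharacter G, (χ : G → ℂ) g = z} = IntermediateField.adjoin ℚ ({ζ - ζ⁻¹} : Set ℂ)) := by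
  have h2p : Fact (Nat.Prime 2) := ⟨Nat.prime_two⟩
  have hPdvd : 2 ^ n ∣ Nat.card G := hP ▸ Subgroup.card_subgroup_dvd_card (P : Subgroup G)
  have hdvd : 2 ^ (n - 1) ∣ Nat.card G := (pow_dvd_pow 2 (by omega)).trans hPdvd
  have hN : 2 ^ n * (Nat.card G / 2 ^ n) = Nat.card G := Nat.mul_div_cancel' hPdvd
  have hr : Odd (Nat.card G / 2 ^ n) := by
    have h1 : Nat.card G / 2 ^ n = (P : Subgroup G).index := by
      have h2 := Subgroup.card_mul_index (P : Subgroup G)
      have h3 : Nat.card (P : Subgroup G) = 2 ^ n := hP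
      rw [h3] at h2
      rw [← h2, Nat.mul_div_cancel_left _ (by positivity)]
    rw [h1, ← Nat.not_even_iff_odd, even_iff_two_dvd]
    exact P.not_dvd_index
  have h0 : 0 < 2 ^ (n - 1) := by positivity
  have hζ0 : ζ ≠ 0 := hζ.ne_zero h0.ne'
  have hζpow' : ∀ k l : ℕ, k ≤ l → (ζ ^ k = ζ ^ l ↔ k ≡ l [MOD 2 ^ (n - 1)]) := by
    intro k l hkl
    rw [Nat.modEq_iff_dvd' hkl, ← hζ.pow_eq_one_iff_dvd]
    constructor
    · intro h
      have h1 : ζ ^ k * ζ ^ (l - k) = ζ ^ k * 1 := by rw [← pow_add, Nat.add_sub_cancel' hkl, mul_one, h]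
      exact mul_left_cancel₀ (pow_ne_zero _ hζ0) h1
    · intro h
      rw [← Nat.add_sub_cancel' hkl, pow_add, h, mul_one]
  have hζpow : ∀ k l : ℕ, (ζ ^ k = ζ ^ l ↔ k ≡ l [MOD 2 ^ (n - 1)]) := by
    intro k l
    rcases le_total k l with h | h
    · exact hζpow' k l h
    · rw [eq_comm, hζpow' l k h]; exact ⟨Nat.ModEq.symm, Nat.ModEq.symm⟩
  constructor
  · intro hidx
    obtain ⟨a, b, ha, haidx, hbA, hb⟩ := gens hn hP hidx
    have hord : orderOf (a : G) = 2 ^ (n - 1) := by rw [Subgroup.orderOf_coe, ha]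
    have hgP : (a : G) ∈ (P : Subgroup G) := a.2
    have hix := index_sub P (by omega) hP hgP hord
    have hbA' : (b : G) ∉ zpowers (a : G) := by
      intro h
      obtain ⟨i, hi⟩ := Subgroup.mem_zpowers_iff.1 h
      apply hbA
      exact Subgroup.mem_zpowers_iff.2 ⟨i, Subtype.ext (by simpa using hi)⟩
    have hAnP : ((zpowers (a : G)).subgroupOf (P : Subgroup G)).Normal := Subgroup.normal_of_index_eq_two hix
    have hbN : (b : G) ∈ normalizer (zpowers (a : G) : Set G) := by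
      have hgP' : zpowers (a : G) ≤ (P : Subgroup G) := by rw [zpowers_le]; exact hgP
      rw [Subgroup.mem_normalizer_iff]
      intro y
      constructor
      · intro hy
        exact hAnP.conj_mem ⟨y, hgP' hy⟩ hy b
      · intro hy
        have h4 := hAnP.conj_mem ⟨b * y * (b : G)⁻¹, hgP' hy⟩ hy b⁻¹
        have h5 : (b : G)⁻¹ * (b * y * (b : G)⁻¹) * (b : G)⁻¹⁻¹ = y := by group
        have h6 : (b : G)⁻¹ * (b * y * (b : G)⁻¹) * (b : G)⁻¹⁻¹ ∈ zpowers (a : G) := h4
        rwa [h5] at h6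
    have hb2 : (b : G) ^ 2 ∈ zpowers (a : G) := by
      have := Subgroup.sq_mem_of_index_two hix b
      exact this
    have hpowG : ∀ k l : ℕ, ((a : G) ^ k = (a : G) ^ l ↔ k ≡ l [MOD 2 ^ (n - 1)]) := by
      intro k l
      rw [pow_eq_pow_iff_modEq, hord]
    have hm8 : 4 ≤ 2 ^ (n - 1) := by
      calc 4 = 2 ^ 2 := by norm_num
        _ ≤ 2 ^ (n - 1) := Nat.pow_le_pow_right (by norm_num) (by omega)
    have hkey : ∀ j : ℕ, b * a * b⁻¹ = a ^ j → ∀ k : ℕ, (IsConj ((a : G) ^ k) (a : G) ↔ (ζ ^ k = ζ ∨ ζ ^ k = ζ ^ j)) := by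
      intro j hj k
      have hj' : (b : G) * (a : G) * (b : G)⁻¹ = (a : G) ^ j := by
        have := congrArg (Subtype.val) hj
        simpa using this
      have e1 : ζ ^ k = ζ ↔ (a : G) ^ k = (a : G) := by
        have h1 := hζpow k 1
        have h2 := hpowG k 1
        rw [pow_one] at h1 h2
        rw [h1, h2]
      have e2 : ζ ^ k = ζ ^ j ↔ (a : G) ^ k = (a : G) ^ j := by
        rw [hζpow, hpowG]
      rw [e1, e2]
      constructor
      · intro h
        exact conj_pow_cases P hgP b.2 hord hix hbA' hj' h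
      · rintro (h | h)
        · rw [h]
        · rw [h, ← hj']
          exact (isConj_iff.2 ⟨(b : G), rfl⟩).symm
    refine ⟨(a : G), hgP, ?_, ?_⟩
    · apply two_dvd_index hbN ?_ hb2
      intro h
      rcases hb with hb | ⟨h4, hb⟩
      · have hb' : (b : G) * (a : G) * (b : G)⁻¹ = (a : G) ^ (2 ^ (n - 1) - 1) := by
          have := congrArg (Subtype.val) hb
          simpa using this
        rw [h] at hb'
        have h1 := (hpowG 1 (2 ^ (n - 1) - 1)).1 (by rw [pow_one]; exact hb')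
        have h2 := (Nat.modEq_iff_dvd' (by omega)).1 h1
        have h3 := Nat.le_of_dvd (by omega) h2
        omega
      · have hb' : (b : G) * (a : G) * (b : G)⁻¹ = (a : G) ^ (2 ^ (n - 2) - 1) := by
          have := congrArg (Subtype.val) hb
          simpa using this
        rw [h] at hb'
        have h5 : 4 ≤ 2 ^ (n - 2) := by
          calc 4 = 2 ^ 2 := by norm_num
            _ ≤ 2 ^ (n - 2) := Nat.pow_le_pow_right (by norm_num) (by omega)
        have h6 : 2 ^ (n - 1) = 2 ^ (n - 2) * 2 := by rw [← pow_succ]; congr 1; omega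
        have h1 := (hpowG 1 (2 ^ (n - 2) - 1)).1 (by rw [pow_one]; exact hb')
        have h2 := (Nat.modEq_iff_dvd' (by omega)).1 h1
        have h3 := Nat.le_of_dvd (by omega) h2
        omega
    · rcases hb with hb | ⟨h4, hb⟩
      · left
        exact (main_field (a : G) hn hdvd hζ).1.2 fun k _ => hkey _ hb k
      · right
        exact (main_field (a : G) hn hdvd hζ).2.2 fun k _ => hkey _ hb k
  · rintro ⟨g, hgP, hev, hf⟩
    have hf' : ∃ j : ℕ, (j = 2 ^ (n - 1) - 1 ∨ j = 2 ^ (n - 2) - 1) ∧ ∀ k : ℕ, k.Coprime (Nat.card G) →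
        (IsConj (g ^ k) g ↔ (ζ ^ k = ζ ∨ ζ ^ k = ζ ^ j)) := by
      rcases hf with hf | hf
      · exact ⟨_, Or.inl rfl, (main_field g hn hdvd hζ).1.1 hf⟩
      · exact ⟨_, Or.inr rfl, (main_field g hn hdvd hζ).2.1 hf⟩
    obtain ⟨j, hj, hfj⟩ := hf'
    -- P does not centralize g
    have hnc : ∃ b : G, b ∈ (P : Subgroup G) ∧ b * g * b⁻¹ ≠ g := by
      by_contra hcon
      push Not at hcon
      have hle : (P : Subgroup G) ≤ centralizer ({g} : Set G) := by
        intro x hx
        rw [mem_centralizer_singleton_iff]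
        have := hcon x hx
        rw [mul_inv_eq_iff_eq_mul] at this
        exact this
      exact P.not_dvd_index (hev.trans (Subgroup.index_dvd_of_le hle))
    obtain ⟨b, hbP, hbg⟩ := hnc
    rcases Nat.lt_or_ge 3 n with hn4 | hn3
    swap
    · -- n = 3
      have hn3' : n = 3 := by omega
      subst hn3'
      apply index_four_of_order_eight hP
      refine ⟨⟨b, hbP⟩, ⟨g, hgP⟩, fun h => hbg ?_⟩
      have h1 : b * g = g * b := congrArg Subtype.val h
      rw [h1]; group
    · -- n ≥ 4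
      obtain ⟨l, rfl⟩ : ∃ l, n = l + 4 := ⟨n - 4, by omega⟩
      have hcong : ∀ k : ℕ, Odd k → (IsConj (g ^ k) g ↔ (k ≡ 1 [MOD 2 ^ (l + 3)] ∨ k ≡ j [MOD 2 ^ (l + 3)])) := by
        intro k hk
        obtain ⟨k', hk'c, hk'⟩ := exists_coprime_modEq hN hr (by omega) hk
        have h1 := hfj k' hk'c
        have h2 : g ^ k' = g ^ k := by
          rw [pow_eq_pow_iff_modEq]
          apply hk'.of_dvd
          have : orderOf (⟨g, hgP⟩ : (P : Subgroup G)) ∣ Nat.card (P : Subgroup G) := orderOf_dvd_natCard _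
          rw [Subgroup.orderOf_mk] at this
          have h3 : Nat.card (P : Subgroup G) = 2 ^ (l + 4) := hP
          rwa [h3] at this
        have h3 : k' ≡ k [MOD 2 ^ (l + 3)] := hk'.of_dvd (pow_dvd_pow 2 (by omega))
        rw [h2] at h1
        rw [h1]
        have h4 := hζpow k' 1
        rw [pow_one] at h4
        have h5 := hζpow k' j
        rw [h4, h5]
        have h6 : l + 4 - 1 = l + 3 := by omega
        rw [h6]
        exact ⟨Or.imp (fun h => h3.symm.trans h) (fun h => h3.symm.trans h),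
          Or.imp (fun h => h3.trans h) (fun h => h3.trans h)⟩
      have hj4 : j % 4 = 3 := by
        have e1 : 2 ^ (l + 4 - 1) = 8 * 2 ^ l := by rw [show l + 4 - 1 = l + 3 by omega, pow_add]; ring
        have e2 : 2 ^ (l + 4 - 2) = 4 * 2 ^ l := by rw [show l + 4 - 2 = l + 2 by omega, pow_add]; ring
        have e3 : 0 < 2 ^ l := by positivity
        rw [e1, e2] at hj
        rcases hj with hj | hj <;> omega
      have hd4 : 4 ∣ 2 ^ (l + 3) := ⟨2 * 2 ^ l, by rw [pow_add]; ring⟩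
      -- the order of g
      have hordP : orderOf g ∣ 2 ^ (l + 4) := by
        have : orderOf (⟨g, hgP⟩ : (P : Subgroup G)) ∣ Nat.card (P : Subgroup G) := orderOf_dvd_natCard _
        rw [Subgroup.orderOf_mk] at this
        have h3 : Nat.card (P : Subgroup G) = 2 ^ (l + 4) := hP
        rwa [h3] at this
      obtain ⟨s, hs, hos⟩ := (Nat.dvd_prime_pow Nat.prime_two).1 hordP
      have hs3 : 3 ≤ s := by
        by_contra hcon
        have h4 : g ^ 4 = 1 := by
          apply orderOf_dvd_iff_pow_eq_one.1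
          rw [hos, show 4 = 2 ^ 2 by norm_num]
          exact pow_dvd_pow 2 (by omega)
        have h5 : g ^ 5 = g := by rw [pow_succ, h4, one_mul]
        have h6 := (hcong 5 (by decide)).1 (by rw [h5])
        rcases h6 with h6 | h6
        · have h7 := (Nat.modEq_iff_dvd' (by norm_num)).1 h6.symm
          have h8 := Nat.le_of_dvd (by norm_num) h7
          have e3 : 0 < 2 ^ l := by positivity
          rw [pow_add] at h8
          omega
        · have h7 : 5 ≡ j [MOD 4] := h6.of_dvd hd4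
          have h8 : 5 % 4 = j % 4 := h7
          omega
      have hsl : l + 3 ≤ s := by
        have h5 : g ^ (1 + 2 ^ s) = g := by rw [pow_add, ← hos, pow_orderOf_eq_one, pow_one, mul_one]
        have hds : 4 ∣ 2 ^ s := by
          rw [show 4 = 2 ^ 2 by norm_num]; exact pow_dvd_pow 2 (by omega)
        have h6 := (hcong (1 + 2 ^ s) (by
          rw [Nat.odd_iff]; omega)).1 (by rw [h5])
        rcases h6 with h6 | h6
        · have h7 := (Nat.modEq_iff_dvd' (by omega)).1 h6.symm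
          rw [Nat.add_sub_cancel_left] at h7
          exact (Nat.pow_dvd_pow_iff_le_right (by norm_num)).1 h7
        · have h7 : 1 + 2 ^ s ≡ j [MOD 4] := h6.of_dvd hd4
          have h8 : (1 + 2 ^ s) % 4 = j % 4 := h7
          omega
      have hsne : s ≠ l + 4 := by
        rintro rfl
        have hle : zpowers g ≤ (P : Subgroup G) := by rw [zpowers_le]; exact hgP
        have heq : zpowers g = (P : Subgroup G) := by
          apply Subgroup.eq_of_le_of_card_ge hle
          rw [Nat.card_zpowers, hos]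
          exact hP.le
        rw [← heq] at hbP
        obtain ⟨i, hi⟩ := Subgroup.mem_zpowers_iff.1 hbP
        apply hbg
        rw [← hi]
        have := ((Commute.refl g).zpow_left i).eq
        rw [this]; group
      have hs' : s = l + 3 := by omega
      subst hs'
      have hix := index_sub P (by omega) hP hgP hos
      have hAnP : ((zpowers g).subgroupOf (P : Subgroup G)).Normal := Subgroup.normal_of_index_eq_two hix
      have hbgz : b * g * b⁻¹ ∈ zpowers g := hAnP.conj_mem ⟨g, hgP⟩ (mem_zpowers g) ⟨b, hbP⟩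
      obtain ⟨i, hi⟩ := (isOfFinOrder_of_finite g).mem_powers_iff_mem_zpowers.2 hbgz
      have hi' : g ^ i = b * g * b⁻¹ := hi
      have hpowG : ∀ k l' : ℕ, (g ^ k = g ^ l' ↔ k ≡ l' [MOD 2 ^ (l + 3)]) := by
        intro k l'
        rw [pow_eq_pow_iff_modEq, hos]
      have hiodd : Odd i := by
        rw [← Nat.not_even_iff_odd]
        rintro ⟨t, ht⟩
        have h1 : (g ^ i) ^ (2 ^ (l + 2)) = 1 := by
          rw [← pow_mul, ht, ← two_mul, mul_comm 2 t, mul_assoc, ← pow_succ', mul_comm, pow_mul, ← hos,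
            pow_orderOf_eq_one, one_pow]
        have h2 : g ^ (2 ^ (l + 2)) = 1 := by
          rw [hi', conj_pow, mul_inv_eq_one] at h1
          exact mul_eq_left.1 h1
        have h3 := orderOf_dvd_of_pow_eq_one h2
        rw [hos] at h3
        have h4 := (Nat.pow_dvd_pow_iff_le_right (by norm_num)).1 h3
        omega
      have hcj : IsConj (g ^ i) g := by
        rw [hi']; exact (isConj_iff.2 ⟨b, rfl⟩).symm
      have hij : b * g * b⁻¹ = g ^ j := by
        rcases (hcong i hiodd).1 hcj with h | h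
        · exfalso; apply hbg
          rw [← hi']
          have := (hpowG i 1).2 h
          rwa [pow_one] at this
        · rw [← hi']; exact (hpowG i j).2 h
      apply index_four hn hP (a := (⟨g, hgP⟩ : (P : Subgroup G))) (b := (⟨b, hbP⟩ : (P : Subgroup G)))
      · rw [Subgroup.orderOf_mk]; exact hos
      · have : (zpowers g).subgroupOf (P : Subgroup G) = zpowers (⟨g, hgP⟩ : (P : Subgroup G)) := by
          ext x
          rw [Subgroup.mem_subgroupOf, Subgroup.mem_zpowers_iff, Subgroup.mem_zpowers_iff]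
          constructor
          · rintro ⟨i, hi⟩
            exact ⟨i, Subtype.ext (by simpa using hi)⟩
          · rintro ⟨i, hi⟩
            exact ⟨i, by rw [← hi]; simp⟩
        rw [← this]; exact hix
      · rcases hj with hj | hj
        · left
          apply Subtype.ext
          rw [← hj]
          simpa using hij
        · right
          refine ⟨hn4, ?_⟩
          apply Subtype.ext
          rw [← hj]
          simpa using hij

end Cfsg.Agent.S4923
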