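import Cfsg.Statements.S4931
import Cfsg.Agent.S0081
import Cfsg.Agent.Lib.H1.Frat
import Cfsg.Agent.Lib.H84.CharMisc
import Mathlib.GroupTheory.Transfer

set_option autoImplicit false
open Cfsg

namespace Cfsg.Agent.S4931

open Subgroup

/-- Burnside transfer modulo a normal subgroup. -/
theorem stepBurnside {L : Type*} [Group L] [Finite L] (p : ℕ) [hp : Fact p.Prime] (P : Sylow p L)
    (M : Subgroup L) [M.Normal] (hself : normalizer ((P : Subgroup L) : Set L) = (P : Subgroup L))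
    (habel : ∀ a ∈ (P : Subgroup L), ∀ b ∈ (P : Subgroup L), a * b * a⁻¹ * b⁻¹ ∈ M) :
    ∃ Q : Subgroup L, Q ⊔ (P : Subgroup L) = ⊤ ∧ ∀ x, x ∈ Q ↔ ∃ m : ℕ, ¬ p ∣ m ∧ x ^ m ∈ M := by
  classical
  let π := QuotientGroup.mk' M
  have hπ : Function.Surjective π := QuotientGroup.mk'_surjective M
  let Pq : Sylow p (L ⧸ M) := P.mapSurjective hπ
  have hPq : (Pq : Subgroup (L ⧸ M)) = (P : Subgroup L).map π := rfl
  have hcomm : ∀ a ∈ (P : Subgroup L), ∀ b ∈ (P : Subgroup L), π a * π b = π b * π a := by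
    intro a ha b hb
    have h1 := habel a ha b hb
    rw [← QuotientGroup.eq_one_iff] at h1
    have h2 : π a * π b * (π a)⁻¹ * (π b)⁻¹ = 1 := h1
    rw [mul_inv_eq_one, mul_inv_eq_iff_eq_mul] at h2
    exact h2
  have hnorm : normalizer ((Pq : Subgroup (L ⧸ M)) : Set (L ⧸ M)) ≤ (Pq : Subgroup (L ⧸ M)) := by
    intro y hy
    obtain ⟨l, rfl⟩ := hπ y
    let S : Subgroup L := (P : Subgroup L) ⊔ M
    have hPS : (P : Subgroup L) ≤ S := le_sup_left
    have hScomap : S = (Pq : Subgroup (L ⧸ M)).comap π := by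
      rw [hPq, Subgroup.comap_map_eq, QuotientGroup.ker_mk']
    -- T normalises S
    let T := normalizer (S : Set L)
    have hlT : l ∈ T := by
      rw [Subgroup.mem_normalizer_iff]
      intro h
      rw [hScomap, Subgroup.mem_comap, Subgroup.mem_comap, map_mul, map_mul, map_inv]
      exact (Subgroup.mem_normalizer_iff.1 hy (π h))
    have hST : S ≤ T := Subgroup.le_normalizer
    have hPT : (P : Subgroup L) ≤ T := hPS.trans hST
    let PT : Sylow p T := P.subtype hPT
    have hnormal : (S.subgroupOf T).Normal := Subgroup.normal_in_normalizer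
    have hle : (PT : Subgroup T) ≤ S.subgroupOf T := by
      intro x hx
      rw [Subgroup.mem_subgroupOf]
      exact hPS hx
    have hfr := Sylow.normalizer_sup_eq_top' PT hle
    have hmem : (⟨l, hlT⟩ : T) ∈ normalizer (PT : Set T) ⊔ S.subgroupOf T := by rw [hfr]; trivial
    rw [Subgroup.mem_sup_of_normal_right] at hmem
    obtain ⟨n, hn0, s, hs, hns⟩ := hmem
    have hn : n ∈ normalizer ((PT : Subgroup T) : Set T) := hn0
    have hnP : (n : L) ∈ (P : Subgroup L) := by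
      rw [← hself, Subgroup.mem_normalizer_iff]
      intro x
      constructor
      · intro hx
        have := (Subgroup.mem_normalizer_iff.1 hn ⟨x, hPT hx⟩).1 hx
        exact this
      · intro hx
        have hxT : x ∈ T := by
          have h1 := hPT hx
          have h2 := T.mul_mem (T.mul_mem (T.inv_mem n.2) h1) n.2
          have h3 : (n : L)⁻¹ * (↑n * x * (↑n)⁻¹) * ↑n = x := by group
          rwa [h3] at h2
        exact (Subgroup.mem_normalizer_iff.1 hn ⟨x, hxT⟩).2 hx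
    have hlS : l ∈ S := by
      have h1 : l = (n : L) * (s : L) := (congrArg Subtype.val hns).symm
      rw [h1]
      exact S.mul_mem (hPS hnP) hs
    rw [hScomap] at hlS
    exact hlS
  have hcent : normalizer (Pq : Set (L ⧸ M)) ≤ centralizer (Pq : Set (L ⧸ M)) := by
    refine hnorm.trans ?_
    rintro _ ⟨a, ha, rfl⟩
    rw [Subgroup.mem_centralizer_iff]
    rintro _ ⟨b, hb, rfl⟩
    exact (hcomm a ha b hb).symm
  let Kq := (MonoidHom.transferSylow Pq hcent).ker
  have hcompl : Kq.IsComplement' (Pq : Subgroup (L ⧸ M)) := MonoidHom.ker_transferSylow_isComplement' Pq hcent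
  have hKcard : ¬ p ∣ Nat.card Kq := MonoidHom.not_dvd_card_ker_transferSylow Pq hcent
  refine ⟨Kq.comap π, ?_, ?_⟩
  · rw [eq_top_iff]
    intro l _
    have h1 : π l ∈ Kq ⊔ (Pq : Subgroup (L ⧸ M)) := by rw [hcompl.sup_eq_top]; trivial
    rw [Subgroup.mem_sup_of_normal_left] at h1
    obtain ⟨k, hk, q, hq, hkq⟩ := h1
    obtain ⟨a, ha, rfl⟩ := hq
    have h2 : l * a⁻¹ ∈ Kq.comap π := by
      rw [Subgroup.mem_comap, map_mul, map_inv, ← hkq]
      simpa using hk
    have h3 : l = (l * a⁻¹) * a := by group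
    rw [h3]
    exact Subgroup.mul_mem_sup h2 ha
  · intro x
    rw [Subgroup.mem_comap]
    constructor
    · intro hx
      refine ⟨Nat.card Kq, hKcard, ?_⟩
      rw [← QuotientGroup.eq_one_iff, QuotientGroup.mk_pow]
      have : (⟨π x, hx⟩ : Kq) ^ Nat.card Kq = 1 := pow_card_eq_one'
      exact congrArg Subtype.val this
    · rintro ⟨m, hm, hxm⟩
      rw [← QuotientGroup.eq_one_iff, QuotientGroup.mk_pow] at hxm
      have hker : (MonoidHom.transferSylow Pq hcent (π x)) ^ m = 1 := by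
        rw [← map_pow]
        have : (π x) ^ m = 1 := hxm
        rw [this, map_one]
      rw [MonoidHom.mem_ker]
      obtain ⟨k, hk⟩ := Pq.2 (MonoidHom.transferSylow Pq hcent (π x))
      have h1 : orderOf (MonoidHom.transferSylow Pq hcent (π x)) ∣ Nat.gcd m (p ^ k) :=
        Nat.dvd_gcd (orderOf_dvd_of_pow_eq_one hker) (orderOf_dvd_of_pow_eq_one hk)
      have h2 : Nat.gcd m (p ^ k) = 1 := by
        apply Nat.Coprime.pow_right
        exact (Nat.Coprime.symm ((Nat.Prime.coprime_iff_not_dvd hp.out).2 hm))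
      rw [h2] at h1
      exact orderOf_eq_one_iff.1 (Nat.dvd_one.1 h1)

theorem eq_one_of_pow_coprime {G : Type*} [Group G] {p : ℕ} [hp : Fact p.Prime] {x : G} {k m : ℕ}
    (h1 : x ^ p ^ k = 1) (hm : ¬ p ∣ m) (h2 : x ^ m = 1) : x = 1 := by
  have h3 : orderOf x ∣ Nat.gcd m (p ^ k) :=
    Nat.dvd_gcd (orderOf_dvd_of_pow_eq_one h2) (orderOf_dvd_of_pow_eq_one h1)
  have h4 : Nat.gcd m (p ^ k) = 1 := by
    apply Nat.Coprime.pow_right
    exact (Nat.Coprime.symm ((Nat.Prime.coprime_iff_not_dvd hp.out).2 hm))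
  rw [h4] at h3
  exact orderOf_eq_one_iff.1 (Nat.dvd_one.1 h3)

theorem mem_of_pow_mem_coprime {G : Type*} [Group G] {p : ℕ} [hp : Fact p.Prime] {x : G} {k m : ℕ}
    (h1 : x ^ p ^ k = 1) (hm : ¬ p ∣ m) (M : Subgroup G) (h2 : x ^ m ∈ M) : x ∈ M := by
  have h4 : Nat.Coprime m (p ^ k) := by
    apply Nat.Coprime.pow_right
    exact (Nat.Coprime.symm ((Nat.Prime.coprime_iff_not_dvd hp.out).2 hm))
  have hcop : Nat.Coprime m (orderOf x) := Nat.Coprime.coprime_dvd_right (orderOf_dvd_of_pow_eq_one h1) h4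
  obtain ⟨a, ha⟩ := exists_pow_eq_self_of_coprime hcop
  rw [← ha]
  exact M.pow_mem h2 a

/-- The group-theoretic part. -/
theorem stepGroup {G : Type*} [Group G] [Finite G] (p : ℕ) [hp : Fact p.Prime] (P : Sylow p G)
    (L M : Subgroup G) [hL : L.Normal] [hM : M.Normal]
    (hLN : L ⊓ normalizer ((P : Subgroup G) : Set G) = (P : Subgroup G))
    (hMP1 : ∀ a ∈ (P : Subgroup G), ∀ b ∈ (P : Subgroup G), a * b * a⁻¹ * b⁻¹ ∈ M)
    (hMP2 : M ⊓ (P : Subgroup G) ≤ (frattini P).map (P : Subgroup G).subtype)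
    (tate : ∀ (Q : Subgroup G) [Q.Normal], Q ⊓ (P : Subgroup G) ≤ (frattini P).map (P : Subgroup G).subtype → Cfsg.HasNormalPComplement p Q) :
    ∃ K : Subgroup G, K.Normal ∧ K ⊔ normalizer ((P : Subgroup G) : Set G) = ⊤ ∧ K ⊓ normalizer ((P : Subgroup G) : Set G) = ⊥ := by
  classical
  have hPL : (P : Subgroup G) ≤ L := by rw [← hLN]; exact inf_le_left
  let PL : Sylow p L := P.subtype hPL
  have hPLmem : ∀ x : L, x ∈ (PL : Subgroup L) ↔ (x : G) ∈ (P : Subgroup G) := fun x => Iff.rfl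
  have hself : normalizer ((PL : Subgroup L) : Set L) = (PL : Subgroup L) := by
    apply le_antisymm _ Subgroup.le_normalizer
    intro n hn
    rw [hPLmem]
    rw [← hLN]
    refine ⟨n.2, ?_⟩
    change (n : G) ∈ normalizer ((P : Subgroup G) : Set G)
    rw [Subgroup.mem_normalizer_iff]
    intro x
    constructor
    · intro hx
      exact (Subgroup.mem_normalizer_iff.1 hn ⟨x, hPL hx⟩).1 hx
    · intro hx
      have hxL : x ∈ L := by
        have h1 := hPL hx
        have h2 := L.mul_mem (L.mul_mem (L.inv_mem n.2) h1) n.2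
        have h3 : (n : G)⁻¹ * (↑n * x * (↑n)⁻¹) * ↑n = x := by group
        rwa [h3] at h2
      exact (Subgroup.mem_normalizer_iff.1 hn ⟨x, hxL⟩).2 hx
  obtain ⟨Q0, hQ0sup, hQ0mem⟩ := stepBurnside p PL (M.subgroupOf L) hself (by
    intro a ha b hb
    rw [Subgroup.mem_subgroupOf]
    exact hMP1 a ha b hb)
  let Q := Q0.map L.subtype
  have hQmem : ∀ x, x ∈ Q ↔ x ∈ L ∧ ∃ m : ℕ, ¬ p ∣ m ∧ x ^ m ∈ M := by
    intro x
    constructor
    · rintro ⟨y, hy, rfl⟩
      obtain ⟨m, hm, hym⟩ := (hQ0mem y).1 hy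
      exact ⟨y.2, m, hm, hym⟩
    · rintro ⟨hxL, m, hm, hxm⟩
      exact ⟨⟨x, hxL⟩, (hQ0mem _).2 ⟨m, hm, hxm⟩, rfl⟩
  have hQn : Q.Normal := by
    refine ⟨fun x hx g => ?_⟩
    obtain ⟨hxL, m, hm, hxm⟩ := (hQmem x).1 hx
    refine (hQmem _).2 ⟨hL.conj_mem x hxL g, m, hm, ?_⟩
    rw [conj_pow]
    exact hM.conj_mem _ hxm g
  have hQP : Q ⊓ (P : Subgroup G) ≤ (frattini P).map (P : Subgroup G).subtype := by
    refine le_trans ?_ hMP2
    intro x hx
    obtain ⟨hxL, m, hm, hxm⟩ := (hQmem x).1 hx.1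
    obtain ⟨k, hk⟩ := P.2 ⟨x, hx.2⟩
    have hk' : x ^ p ^ k = 1 := congrArg Subtype.val hk
    exact ⟨mem_of_pow_mem_coprime hk' hm M hxm, hx.2⟩
  obtain ⟨P', N', hN'n, hN'c⟩ := tate Q hQP
  let K := N'.map Q.subtype
  -- order of N' is prime to p
  have hN'card : ¬ p ∣ Nat.card N' := by
    have h1 : Nat.card N' = (P' : Subgroup Q).index := by
      have h2 := hN'c.card_mul_card
      have h3 := (P' : Subgroup Q).card_mul_index
      have h4 : Nat.card N' * Nat.card P' = Nat.card P' * (P' : Subgroup Q).index := by rw [h2, h3]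
      rw [mul_comm] at h4
      exact Nat.eq_of_mul_eq_mul_left Nat.card_pos h4
    rw [h1]; exact P'.not_dvd_index
  have hKmem : ∀ x, x ∈ K ↔ x ∈ Q ∧ ∃ m : ℕ, ¬ p ∣ m ∧ x ^ m = 1 := by
    intro x
    constructor
    · rintro ⟨y, hy, rfl⟩
      refine ⟨y.2, Nat.card N', hN'card, ?_⟩
      have : (⟨y, hy⟩ : N') ^ Nat.card N' = 1 := pow_card_eq_one'
      exact congrArg (fun z : N' => ((z : Q) : G)) this
    · rintro ⟨hxQ, m, hm, hxm⟩
      refine ⟨⟨x, hxQ⟩, ?_, rfl⟩
      -- in Q/N', of p-power order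
      have h1 : Nat.card (Q ⧸ N') = Nat.card P' := by
        have := hN'c.card_mul_card
        have h2 := N'.card_mul_index
        have h3 : Nat.card N' * N'.index = Nat.card N' * Nat.card P' := by rw [this, h2]
        have := Nat.eq_of_mul_eq_mul_left Nat.card_pos h3
        exact this
      obtain ⟨k, hk⟩ := (IsPGroup.iff_card.1 P'.2)
      change (⟨x, hxQ⟩ : Q) ∈ N'
      rw [← QuotientGroup.eq_one_iff]
      apply eq_one_of_pow_coprime (p := p) (k := k) (m := m) _ hm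
      · rw [← QuotientGroup.mk_pow]
        have : (⟨x, hxQ⟩ : Q) ^ m = 1 := Subtype.ext hxm
        rw [this]; rfl
      · rw [← hk, ← h1]
        exact pow_card_eq_one'
  have hKn : K.Normal := by
    refine ⟨fun x hx g => ?_⟩
    obtain ⟨hxQ, m, hm, hxm⟩ := (hKmem x).1 hx
    refine (hKmem _).2 ⟨hQn.conj_mem x hxQ g, m, hm, ?_⟩
    rw [conj_pow, hxm]; group
  -- Q ≤ K ⊔ P
  have hQle : Q ≤ K ⊔ (P : Subgroup G) := by
    let PG := (P' : Subgroup Q).map Q.subtype
    have hPG : IsPGroup p PG := P'.2.map Q.subtype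
    obtain ⟨P2, hP2⟩ := hPG.exists_le_sylow
    obtain ⟨g, hg⟩ := MulAction.exists_smul_eq G P2 P
    intro q hq
    -- conjugate back
    have hq' : g⁻¹ * q * g ∈ Q := by
      have := hQn.conj_mem q hq g⁻¹
      rwa [inv_inv] at this
    have h1 : (⟨g⁻¹ * q * g, hq'⟩ : Q) ∈ N' ⊔ (P' : Subgroup Q) := by rw [hN'c.sup_eq_top]; trivial
    rw [Subgroup.mem_sup_of_normal_left] at h1
    obtain ⟨a, ha, b, hb, hab⟩ := h1
    have hab' : (a : G) * (b : G) = g⁻¹ * q * g := congrArg Subtype.val hab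
    have h2 : q = (g * a * g⁻¹) * (g * b * g⁻¹) := by
      have : q = g * (g⁻¹ * q * g) * g⁻¹ := by group
      rw [this, ← hab']; group
    rw [h2]
    apply Subgroup.mul_mem_sup
    · exact hKn.conj_mem _ ⟨a, ha, rfl⟩ g
    · have h3 : (b : G) ∈ (P2 : Subgroup G) := hP2 ⟨b, hb, rfl⟩
      rw [← hg]
      have : g * (b : G) * g⁻¹ ∈ g • P2 := by
        rw [Sylow.smul_def]
        exact ⟨b, h3, rfl⟩
      exact this
  have hLle : L ≤ K ⊔ (P : Subgroup G) := by
    intro l hl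
    have h1 : (⟨l, hl⟩ : L) ∈ Q0 ⊔ (PL : Subgroup L) := by rw [hQ0sup]; trivial
    have h2 := Subgroup.mem_map_of_mem L.subtype h1
    rw [Subgroup.map_sup] at h2
    have h3 : Q0.map L.subtype ⊔ (PL : Subgroup L).map L.subtype ≤ K ⊔ (P : Subgroup G) := by
      apply sup_le hQle
      refine le_trans ?_ le_sup_right
      rintro _ ⟨y, hy, rfl⟩
      exact hy
    exact h3 h2
  refine ⟨K, hKn, ?_, ?_⟩
  · rw [eq_top_iff]
    have hfr : normalizer ((P : Subgroup G) : Set G) ⊔ L = ⊤ := Sylow.normalizer_sup_eq_top' P hPL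
    rw [← hfr]
    apply sup_le le_sup_right
    refine hLle.trans (sup_le le_sup_left ?_)
    exact Subgroup.le_normalizer.trans le_sup_right
  · rw [eq_bot_iff]
    intro x hx
    obtain ⟨hxQ, m, hm, hxm⟩ := (hKmem x).1 hx.1
    have hxL := ((hQmem x).1 hxQ).1
    have hxP : x ∈ (P : Subgroup G) := by rw [← hLN]; exact ⟨hxL, hx.2⟩
    obtain ⟨k, hk⟩ := P.2 ⟨x, hxP⟩
    have hk' : x ^ p ^ k = 1 := congrArg Subtype.val hk
    exact Subgroup.mem_bot.2 (eq_one_of_pow_coprime hk' hm hxm)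


open H18.CharBasic H18.CharOrtho H18.CharInd H18.CharQuot H84.CharMisc
open scoped ComplexConjugate

/-- `P ≤ kernel of θ` gives degree prime to `p`; separation of elements outside `P`. -/
theorem exists_theta_of_notMem {G : Type*} [Group G] [Finite G] (p : ℕ) [Fact p.Prime]
    (P : Sylow p G) (x : normalizer ((P : Subgroup G) : Set G)) (hx : (x : G) ∉ (P : Subgroup G)) :
    ∃ θ : IrrCharacter (normalizer ((P : Subgroup G) : Set G)),
      ¬ p ∣ charDegree (θ : normalizer ((P : Subgroup G) : Set G) → ℂ) ∧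
      (∀ y : normalizer ((P : Subgroup G) : Set G), (y : G) ∈ (P : Subgroup G) →
        (θ : normalizer ((P : Subgroup G) : Set G) → ℂ) y = (θ : normalizer ((P : Subgroup G) : Set G) → ℂ) 1) ∧
      (θ : normalizer ((P : Subgroup G) : Set G) → ℂ) x ≠ (θ : normalizer ((P : Subgroup G) : Set G) → ℂ) 1 := by
  classical
  let N := normalizer ((P : Subgroup G) : Set G)
  let PN : Subgroup N := (P : Subgroup G).subgroupOf N
  have hPNn : PN.Normal := Subgroup.normal_in_normalizer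
  have hPle : (P : Subgroup G) ≤ N := Subgroup.le_normalizer
  have hidx : ¬ p ∣ Nat.card (N ⧸ PN) := by
    have h1 : PN = (P.subtype hPle : Subgroup N) := rfl
    have : Nat.card (N ⧸ PN) = PN.index := rfl
    rw [this, h1]
    exact (P.subtype hPle).not_dvd_index
  have h1 : (QuotientGroup.mk x : N ⧸ PN) ≠ 1 := by
    intro h
    exact hx ((QuotientGroup.eq_one_iff x).1 h)
  have h2 : ¬ ∀ χ : (N ⧸ PN) → ℂ, IsIrrCharacter (N ⧸ PN) χ → χ (QuotientGroup.mk x) = χ 1 :=
    fun h => h1 (eq_one_of_forall_irr h)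
  push Not at h2
  obtain ⟨χ, hχ, hne⟩ := h2
  refine ⟨⟨fun y => χ (QuotientGroup.mk y), isIrrCharacter_inflate PN hχ⟩, ?_, ?_, ?_⟩
  · intro hp
    apply hidx
    refine dvd_trans ?_ (H81.DegreeCount.charDegree_dvd (⟨χ, hχ⟩ : IrrCharacter (N ⧸ PN)))
    have h3 : charDegree (fun y : N => χ (QuotientGroup.mk y)) = charDegree χ := by
      unfold charDegree
      simp
    rw [← h3]; exact hp
  · intro y hy
    have : (QuotientGroup.mk y : N ⧸ PN) = 1 := (QuotientGroup.eq_one_iff y).2 hy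
    simp only [this, QuotientGroup.mk_one]
  · simpa using hne

/-- Characters of degree prime to `p` of the normaliser, trivial on `P'`, separate `P / P'`. -/
theorem exists_theta_of_notMem_comm {G : Type*} [Group G] [Finite G] (p : ℕ) [Fact p.Prime]
    (P : Sylow p G) (x : P) (hx : x ∉ commutator P) :
    ∃ θ : IrrCharacter (normalizer ((P : Subgroup G) : Set G)),
      ¬ p ∣ charDegree (θ : normalizer ((P : Subgroup G) : Set G) → ℂ) ∧
      (∀ a b : P,
        (θ : normalizer ((P : Subgroup G) : Set G) → ℂ) ⟨((a * b * a⁻¹ * b⁻¹ : P) : G), Subgroup.le_normalizer (a * b * a⁻¹ * b⁻¹ : P).2⟩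
          = (θ : normalizer ((P : Subgroup G) : Set G) → ℂ) 1) ∧
      (θ : normalizer ((P : Subgroup G) : Set G) → ℂ) ⟨x, Subgroup.le_normalizer x.2⟩
        ≠ (θ : normalizer ((P : Subgroup G) : Set G) → ℂ) 1 := by
  classical
  have := Fintype.ofFinite G
  let N := normalizer ((P : Subgroup G) : Set G)
  have := Fintype.ofFinite N
  let PN : Subgroup N := (P : Subgroup G).subgroupOf N
  have hPNn : PN.Normal := Subgroup.normal_in_normalizer
  have hPle : (P : Subgroup G) ≤ N := Subgroup.le_normalizer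
  have := Fintype.ofFinite PN
  let e : PN ≃* P := Subgroup.subgroupOfEquivOfLe hPle
  obtain ⟨f, hf⟩ := exists_hom_ne_one hx
  let lam : PN →* ℂˣ := f.comp e.toMonoidHom
  let θ0 : PN → ℂ := fun y => (lam y : ℂ)
  have hθ0 : IsIrrCharacter PN θ0 := isIrrCharacter_of_hom lam
  have hind : IsCharacter N (indFun PN θ0) := isCharacter_ind PN (isCharacter_of_isIrr hθ0)
  have hidx : ¬ p ∣ PN.index := (P.subtype hPle).not_dvd_index
  have hdeg : charDegree (indFun PN θ0) = PN.index := by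
    apply H81.DegreeCount.charDegree_natCast
    rw [indFun_one]
    have : θ0 1 = 1 := by simp [θ0]
    rw [this, mul_one]
  obtain ⟨θ, hθ, hne, hpθ⟩ := exists_constituent_not_dvd p hind (by rw [hdeg]; exact hidx)
  refine ⟨⟨θ, hθ⟩, hpθ, ?_, ?_⟩
  · intro a b
    apply constituent_ker hind hθ hne
    -- value of the induced function on a commutator
    rw [indFun_one]
    rw [indFun_apply]
    have hmem : ∀ t : N, t⁻¹ * (⟨((a * b * a⁻¹ * b⁻¹ : P) : G), Subgroup.le_normalizer (a * b * a⁻¹ * b⁻¹ : P).2⟩ : N) * t ∈ PN := by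
      intro t
      have : (⟨((a * b * a⁻¹ * b⁻¹ : P) : G), Subgroup.le_normalizer (a * b * a⁻¹ * b⁻¹ : P).2⟩ : N) ∈ PN :=
        (a * b * a⁻¹ * b⁻¹ : P).2
      have h1 := hPNn.conj_mem _ this t⁻¹
      rwa [inv_inv] at h1
    have hval : ∀ t : N, extendByZero PN θ0 (t⁻¹ * (⟨((a * b * a⁻¹ * b⁻¹ : P) : G), Subgroup.le_normalizer (a * b * a⁻¹ * b⁻¹ : P).2⟩ : N) * t) = 1 := by
      intro t
      rw [ext_mem PN θ0 (hmem t)]
      let a' : PN := ⟨⟨a, hPle a.2⟩, a.2⟩
      let b' : PN := ⟨⟨b, hPle b.2⟩, b.2⟩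
      let φ : PN →* PN := ((MulAut.conjNormal t⁻¹ : MulAut PN)).toMonoidHom
      have h2 : (⟨_, hmem t⟩ : PN) = φ (a' * b' * a'⁻¹ * b'⁻¹) := by
        apply Subtype.ext
        change _ = ((MulAut.conjNormal t⁻¹ (a' * b' * a'⁻¹ * b'⁻¹) : PN) : N)
        rw [MulAut.conjNormal_apply, inv_inv]
        rfl
      rw [h2]
      have h3 : (lam.comp φ) (a' * b' * a'⁻¹ * b'⁻¹) = 1 := by
        rw [map_mul, map_mul, map_mul, map_inv, map_inv]
        rw [mul_comm ((lam.comp φ) a') ((lam.comp φ) b')]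
        group
      change ((lam (φ (a' * b' * a'⁻¹ * b'⁻¹)) : ℂˣ) : ℂ) = 1
      have h4 : lam (φ (a' * b' * a'⁻¹ * b'⁻¹)) = 1 := h3
      rw [h4]; rfl
    have h0 : θ0 1 = 1 := by simp [θ0]
    rw [Finset.sum_congr rfl (fun t _ => hval t), h0, Finset.sum_const, Finset.card_univ, mul_one,
      ← Nat.card_eq_fintype_card, nsmul_eq_mul, mul_one, ← PN.card_mul_index]
    push_cast
    have : (Nat.card PN : ℂ) ≠ 0 := card_ne_zero'
    field_simp
  · intro hxθ
    -- restriction of θ to P contains λ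
    have h1 : classInner (fun y : PN => θ y) θ0 ≠ 0 := by
      rw [frobenius PN θ0 (isClassFunction_of_isIrr hθ)] at hne
      exact classInner_ne_zero_symm.1 hne
    have h2 : IsCharacter PN (fun y : PN => θ y) := isCharacter_restrict PN (isCharacter_of_isIrr hθ)
    let x' : PN := ⟨⟨x, hPle x.2⟩, x.2⟩
    have h3 := constituent_ker h2 hθ0 h1 (y := x') hxθ
    have h4 : (lam x' : ℂ) = 1 := by
      have h5 : θ0 1 = 1 := by simp [θ0]
      rw [← h5, ← h3]
    apply hf
    have h6 : f x = lam x' := rfl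
    rw [h6]
    exact Units.ext h4

/-- The forward direction, given Tate's theorem. -/
theorem forward {G : Type*} [Group G] [Finite G] (p : ℕ) [hp : Fact p.Prime] (P : Sylow p G)
    (tate : ∀ (Q : Subgroup G) [Q.Normal], Q ⊓ (P : Subgroup G) ≤ (frattini P).map (P : Subgroup G).subtype → Cfsg.HasNormalPComplement p Q)
    (hext : ∀ θ : Cfsg.IrrCharacter ↥(Subgroup.normalizer ((P : Subgroup G) : Set G)), ¬ p ∣ Cfsg.charDegree (θ : ↥(Subgroup.normalizer ((P : Subgroup G) : Set G)) → ℂ) →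
        ∃ χ : Cfsg.IrrCharacter G, ∀ x : ↥(Subgroup.normalizer ((P : Subgroup G) : Set G)), (χ : G → ℂ) x = (θ : ↥(Subgroup.normalizer ((P : Subgroup G) : Set G)) → ℂ) x) :
    ∃ K : Subgroup G, K.Normal ∧ K ⊔ Subgroup.normalizer ((P : Subgroup G) : Set G) = ⊤ ∧ K ⊓ Subgroup.normalizer ((P : Subgroup G) : Set G) = ⊥ := by
  classical
  have hPle : (P : Subgroup G) ≤ normalizer ((P : Subgroup G) : Set G) := Subgroup.le_normalizer
  let S1 := {χ : IrrCharacter G // ∀ y ∈ (P : Subgroup G), (χ : G → ℂ) y = (χ : G → ℂ) 1}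
  let S2 := {χ : IrrCharacter G // ∀ a ∈ (P : Subgroup G), ∀ b ∈ (P : Subgroup G),
    (χ : G → ℂ) (a * b * a⁻¹ * b⁻¹) = (χ : G → ℂ) 1}
  let L : Subgroup G := ⨅ χ : S1, kerSub (χ.1 : G → ℂ) (isCharacter_of_isIrr χ.1.2)
  let M : Subgroup G := ⨅ χ : S2, kerSub (χ.1 : G → ℂ) (isCharacter_of_isIrr χ.1.2)
  have hL : L.Normal := by
    apply Subgroup.normal_iInf_normal
    intro χ
    exact kerSub_normal _
  have hM : M.Normal := by
    apply Subgroup.normal_iInf_normal
    intro χ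
    exact kerSub_normal _
  have hLmem : ∀ x, x ∈ L ↔ ∀ χ : S1, (χ.1 : G → ℂ) x = (χ.1 : G → ℂ) 1 := by
    intro x
    rw [Subgroup.mem_iInf]
    rfl
  have hMmem : ∀ x, x ∈ M ↔ ∀ χ : S2, (χ.1 : G → ℂ) x = (χ.1 : G → ℂ) 1 := by
    intro x
    rw [Subgroup.mem_iInf]
    rfl
  apply stepGroup p P L M _ _ _ tate
  · apply le_antisymm
    · intro x hx
      by_contra hxP
      obtain ⟨θ, h1, h2, h3⟩ := exists_theta_of_notMem p P ⟨x, hx.2⟩ hxP
      obtain ⟨χ, hχ⟩ := hext θ h1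
      have h4 : ∀ y ∈ (P : Subgroup G), (χ : G → ℂ) y = (χ : G → ℂ) 1 := by
        intro y hy
        have h5 := hχ ⟨y, hPle hy⟩
        have h6 := hχ 1
        have h7 := h2 ⟨y, hPle hy⟩ hy
        change (χ : G → ℂ) y = _ at h5
        change (χ : G → ℂ) 1 = _ at h6
        rw [h5, h6, h7]
      have h5 := (hLmem x).1 hx.1 ⟨χ, h4⟩
      apply h3
      have h6 := hχ 1
      change (χ : G → ℂ) 1 = _ at h6
      rw [← h6, ← hχ ⟨x, hx.2⟩]
      exact h5
    · refine le_inf ?_ hPle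
      intro x hx
      rw [hLmem]
      intro χ
      exact χ.2 x hx
  · intro a ha b hb
    rw [hMmem]
    intro χ
    exact χ.2 a ha b hb
  · intro x hx
    have hfr : commutator P ≤ frattini P := by
      have : Group.IsNilpotent P := P.2.isNilpotent
      exact H1.Frat.commutator_le_frattini
    refine ⟨⟨x, hx.2⟩, hfr ?_, rfl⟩
    by_contra hxP
    obtain ⟨θ, h1, h2, h3⟩ := exists_theta_of_notMem_comm p P ⟨x, hx.2⟩ hxP
    obtain ⟨χ, hχ⟩ := hext θ h1
    have h6 := hχ 1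
    change (χ : G → ℂ) 1 = _ at h6
    have h4 : ∀ a ∈ (P : Subgroup G), ∀ b ∈ (P : Subgroup G),
        (χ : G → ℂ) (a * b * a⁻¹ * b⁻¹) = (χ : G → ℂ) 1 := by
      intro a ha b hb
      have h5 := h2 ⟨a, ha⟩ ⟨b, hb⟩
      rw [h6, ← h5, ← hχ]
      rfl
    have h5 := (hMmem x).1 hx.1 ⟨χ, h4⟩
    apply h3
    rw [← h6, ← hχ]
    exact h5

/-- The converse direction. -/
theorem backward {G : Type*} [Group G] [Finite G] (N K : Subgroup G) [hK : K.Normal]
    (hsup : K ⊔ N = ⊤) (hinf : K ⊓ N = ⊥) (θ : IrrCharacter N) :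
    ∃ χ : IrrCharacter G, ∀ x : N, (χ : G → ℂ) x = (θ : N → ℂ) x := by
  classical
  let φ : N →* G ⧸ K := (QuotientGroup.mk' K).comp N.subtype
  have hinj : Function.Injective φ := by
    rw [injective_iff_map_eq_one]
    intro a ha
    have h1 : (a : G) ∈ K := (QuotientGroup.eq_one_iff (a : G)).1 ha
    have h2 : (a : G) ∈ K ⊓ N := ⟨h1, a.2⟩
    rw [hinf] at h2
    exact Subtype.ext (Subgroup.mem_bot.1 h2)
  have hsurj : Function.Surjective φ := by
    intro y
    obtain ⟨g, rfl⟩ := QuotientGroup.mk'_surjective K y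
    have h1 : g ∈ K ⊔ N := by rw [hsup]; trivial
    rw [Subgroup.mem_sup_of_normal_left] at h1
    obtain ⟨k, hk, n, hn, rfl⟩ := h1
    refine ⟨⟨n, hn⟩, ?_⟩
    change (QuotientGroup.mk' K) n = _
    rw [map_mul]
    have : (QuotientGroup.mk' K) k = 1 := (QuotientGroup.eq_one_iff k).2 hk
    rw [this, one_mul]
  let e : N ≃* G ⧸ K := MulEquiv.ofBijective φ ⟨hinj, hsurj⟩
  let π : G →* N := e.symm.toMonoidHom.comp (QuotientGroup.mk' K)
  have hπ : Function.Surjective π := e.symm.surjective.comp (QuotientGroup.mk'_surjective K)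
  refine ⟨⟨fun g => (θ : N → ℂ) (π g), isIrrCharacter_comp π hπ θ.2⟩, fun x => ?_⟩
  have : π x = x := by
    change e.symm (QuotientGroup.mk' K (x : G)) = x
    rw [MulEquiv.symm_apply_eq]
    rfl
  change (θ : N → ℂ) (π x) = _
  rw [this]

/-- Let G be a finite group, p a prime and P a Sylow p-subgroup of G with normalizer N. Then every irreducible complex character of N of degree not divisible by p is the restriction of an irreducible character of G if and only if there is a normal subgroup K of G with KN = G and K ∩ N = 1. -/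
theorem result {G : Type*} [Group G] [Finite G] (p : ℕ) [Fact p.Prime] (P : Sylow p G) :
    (∀ θ : Cfsg.IrrCharacter ↥(Subgroup.normalizer ((P : Subgroup G) : Set G)), ¬ p ∣ Cfsg.charDegree (θ : ↥(Subgroup.normalizer ((P : Subgroup G) : Set G)) → ℂ) →
        ∃ χ : Cfsg.IrrCharacter G, ∀ x : ↥(Subgroup.normalizer ((P : Subgroup G) : Set G)), (χ : G → ℂ) x = (θ : ↥(Subgroup.normalizer ((P : Subgroup G) : Set G)) → ℂ) x) ↔
      ∃ K : Subgroup G, K.Normal ∧ K ⊔ Subgroup.normalizer ((P : Subgroup G) : Set G) = ⊤ ∧ K ⊓ Subgroup.normalizer ((P : Subgroup G) : Set G) = ⊥ := by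
  constructor
  · intro h
    exact forward p P (fun Q hQ hle => Cfsg.Agent.S0081.result P Q hle) h
  · rintro ⟨K, hK, hsup, hinf⟩ θ _
    exact backward _ K hsup hinf θ

end Cfsg.Agent.S4931
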