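import Cfsg.Agent.Lib.H84.OrbN
import Cfsg.Agent.Lib.H19.RootsU
import Cfsg.Statements.S4937

set_option autoImplicit false
open Cfsg

namespace Cfsg.Agent.S4937

open H18.CharBasic H18.CharOrtho H18.CharInd H18.CharQuot H84.OrbN Subgroup H20.Loc
open scoped ComplexConjugate

theorem relIndex_dvd_index {J : Type*} [Group J] [Finite J] (C N : Subgroup J) [N.Normal] :
    C.relIndex N ∣ C.index := by
  have h1 : N.relIndex C ∣ N.index := Subgroup.relIndex_dvd_index_of_normal N C
  obtain ⟨t, ht⟩ := h1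
  -- [J : N ⊓ C] two ways
  have h2 : (N ⊓ C).relIndex C * C.index = (N ⊓ C).index := Subgroup.relIndex_mul_index inf_le_right
  have h3 : (C ⊓ N).relIndex N * N.index = (C ⊓ N).index := Subgroup.relIndex_mul_index inf_le_right
  rw [Subgroup.inf_relIndex_right] at h2 h3
  rw [inf_comm] at h3
  refine ⟨t, ?_⟩
  have h4 : N.relIndex C ≠ 0 := Subgroup.index_ne_zero_of_finite
  have h5 : N.relIndex C * C.index = N.relIndex C * (C.relIndex N * t) := by
    rw [h2, ← h3, ht]; ring
  exact Nat.eq_of_mul_eq_mul_left (Nat.pos_of_ne_zero h4) h5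

/-- Step 3: the ratio is constant on cosets. -/
theorem step3 {G : Type*} [Group G] [Finite G] {p : ℕ} {M : Ideal AlgInt} (hM : IsPModular p M)
    (N : Subgroup G) [hNn : N.Normal] [Fintype N] {χ : G → ℂ} (hχ : IsCharacter G χ)
    (hN : IsIrrCharacter N (fun n : N => χ n))
    (hblk : ∀ z ∈ N, MemLocalIdeal M (((orb N z).card : ℂ) * (χ z / χ 1 - 1)))
    {c : G} (hc : ¬ p ∣ (orb N c).card) (hc' : ¬ p ∣ (orb N c⁻¹).card) (g : G) (hg : g * c⁻¹ ∈ N) :
    MemLocalIdeal M (((orb N g).card : ℂ) * (χ g / χ 1 - χ c / χ 1)) := by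
  classical
  have hMp : M.IsPrime := pm_isPrime hM
  have hMm : M.IsMaximal := hM.2.1
  set d := χ 1 with hd
  let F : G → ℂ := fun z => if z ∈ N then χ z / d - 1 else 0
  have hFinv : ∀ n ∈ N, ∀ z, F (n * z * n⁻¹) = F z := by
    intro n hn z
    have h1 : n * z * n⁻¹ ∈ N ↔ z ∈ N := by
      constructor
      · intro h
        have := hNn.conj_mem _ h n⁻¹
        simpa [mul_assoc] using this
      · intro h; exact hNn.conj_mem _ h n
    simp only [F, h1, isClassFunction_of_isCharacter hχ z n]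
  have hFM : ∀ z, MemLocalIdeal M (((orb N z).card : ℂ) * F z) := by
    intro z
    by_cases hz : z ∈ N
    · simp only [F, if_pos hz]; exact hblk z hz
    · simp only [F, if_neg hz, mul_zero]; exact locI_zero
  have hmain : ∀ g : G, g * c⁻¹ ∈ N → MemLocalIdeal M ((((orb N g).card : ℂ) * χ g / d) *
      (((orb N c⁻¹).card : ℂ) * χ c⁻¹ / d) - ((orb N g).card : ℂ) * ((orb N c⁻¹).card : ℂ)) := by
    intro g hg
    have h1 := sum_mem_locI N hFinv hFM g c⁻¹
    have h2 : ∑ x ∈ orb N g, ∑ y ∈ orb N c⁻¹, F (x * y) =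
        (((orb N g).card : ℂ) * χ g / d) *
      (((orb N c⁻¹).card : ℂ) * χ c⁻¹ / d) - ((orb N g).card : ℂ) * ((orb N c⁻¹).card : ℂ) := by
      rw [omega_mul N hχ hN g c⁻¹]
      have h3 : ∀ x ∈ orb N g, ∑ y ∈ orb N c⁻¹, F (x * y) = ∑ y ∈ orb N c⁻¹, (χ (x * y) / d) - ((orb N c⁻¹).card : ℂ) := by
        intro x hx
        have h4 : ∀ y ∈ orb N c⁻¹, F (x * y) = χ (x * y) / d - 1 := by
          intro y hy
          obtain ⟨n, hn, rfl⟩ := mem_orb.1 hx
          obtain ⟨m, hm, rfl⟩ := mem_orb.1 hy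
          have h5 : n * g * n⁻¹ * (m * c⁻¹ * m⁻¹) ∈ N := by
            have e : n * g * n⁻¹ * (m * c⁻¹ * m⁻¹) = n * (g * c⁻¹) * (c * (n⁻¹ * m) * c⁻¹) * m⁻¹ := by group
            rw [e]
            exact N.mul_mem (N.mul_mem (N.mul_mem hn hg) (hNn.conj_mem _ (N.mul_mem (N.inv_mem hn) hm) c)) (N.inv_mem hm)
          simp only [F, if_pos h5]
        rw [Finset.sum_congr rfl h4, Finset.sum_sub_distrib, Finset.sum_const, nsmul_eq_mul, mul_one]
      rw [Finset.sum_congr rfl h3, Finset.sum_sub_distrib, Finset.sum_const, nsmul_eq_mul]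
    rw [h2] at h1
    exact h1
  -- integrality
  have hint : ∀ g, MemLocalRing M (((orb N g).card : ℂ) * χ g / d) := fun g =>
    isIntegral_mem (isIntegral_omega N hχ hN g)
  have hu : ∀ g, ¬ p ∣ (orb N g).card → MemLocalRing M (χ g / d) := by
    intro g hg
    have h1 := locR_mul (locR_natCast_inv hM hg) (hint g)
    have h2 : ((orb N g).card : ℂ) ≠ 0 := by
      intro h0
      have : (orb N g).card = 0 := by exact_mod_cast h0
      exact hg (this ▸ dvd_zero p)
    have h3 : ((orb N g).card : ℂ)⁻¹ * (((orb N g).card : ℂ) * χ g / d) = χ g / d := by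
      field_simp
    rwa [h3] at h1
  have hk0 : ((orb N c).card : ℂ) ≠ 0 := by
    intro h0
    have : (orb N c).card = 0 := by exact_mod_cast h0
    exact hc (this ▸ dvd_zero p)
  have hk1 : ((orb N c⁻¹).card : ℂ) ≠ 0 := by
    intro h0
    have : (orb N c⁻¹).card = 0 := by exact_mod_cast h0
    exact hc' (this ▸ dvd_zero p)
  -- divide
  have h1 : ∀ g : G, g * c⁻¹ ∈ N → MemLocalIdeal M (((orb N g).card : ℂ) * (χ g / d) * (χ c⁻¹ / d) - ((orb N g).card : ℂ)) := by
    intro g hg
    have h2 := locI_mul_left (locR_natCast_inv hM hc') (hmain g hg)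
    have h3 : ((orb N c⁻¹).card : ℂ)⁻¹ * ((((orb N g).card : ℂ) * χ g / d) *
      (((orb N c⁻¹).card : ℂ) * χ c⁻¹ / d) - ((orb N g).card : ℂ) * ((orb N c⁻¹).card : ℂ)) =
      ((orb N g).card : ℂ) * (χ g / d) * (χ c⁻¹ / d) - ((orb N g).card : ℂ) := by
      field_simp
    rwa [h3] at h2
  have h2 : MemLocalIdeal M ((χ c / d) * (χ c⁻¹ / d) - 1) := by
    have h3 := locI_mul_left (locR_natCast_inv hM hc) (h1 c (by rw [mul_inv_cancel]; exact N.one_mem))
    have h4 : ((orb N c).card : ℂ)⁻¹ * (((orb N c).card : ℂ) * (χ c / d) * (χ c⁻¹ / d) - ((orb N c).card : ℂ)) =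
      (χ c / d) * (χ c⁻¹ / d) - 1 := by field_simp
    rwa [h4] at h3
  -- combine : k χ(g)/d - k χ(c)/d = -(kχ(g)/d)(uv - 1) + (kχ(g)/d v - k) u ; u = χ c/d, v = χ c⁻¹/d
  have h3 : ((orb N g).card : ℂ) * (χ g / d - χ c / d) =
      -((((orb N g).card : ℂ) * χ g / d) * ((χ c / d) * (χ c⁻¹ / d) - 1)) +
      (((orb N g).card : ℂ) * (χ g / d) * (χ c⁻¹ / d) - ((orb N g).card : ℂ)) * (χ c / d) := by ring
  rw [h3]
  exact locI_add (locI_neg (locI_mul_left (hint g) h2)) (locI_mul_right (h1 g hg) (hu c hc))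

theorem irr_of_le {G : Type*} [Group G] {V : Type*} [AddCommGroup V] [Module ℂ V]
    (ρ : Representation ℂ G V) {N J : Subgroup G} (hNJ : N ≤ J)
    (h : (H83.Gallagher.resRep ρ N).IsIrreducible) : (H83.Gallagher.resRep ρ J).IsIrreducible := by
  let f : Subrepresentation (H83.Gallagher.resRep ρ J) → Subrepresentation (H83.Gallagher.resRep ρ N) :=
    fun W => ⟨W.toSubmodule, fun n v hv => W.apply_mem_toSubmodule ⟨n, hNJ n.2⟩ hv⟩
  have hnt : Nontrivial (Subrepresentation (H83.Gallagher.resRep ρ J)) := by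
    obtain ⟨a, b, hab⟩ := h.toNontrivial
    refine ⟨⊥, ⊤, fun hbt => ?_⟩
    have h1 : (⊥ : Submodule ℂ V) = ⊤ := congrArg Subrepresentation.toSubmodule hbt
    have h2 : Subsingleton (Submodule ℂ V) := subsingleton_of_bot_eq_top h1
    apply hab
    have h3 : a.toSubmodule = b.toSubmodule := Subsingleton.elim _ _
    exact Subrepresentation.toSubmodule_injective h3
  refine ⟨fun W => ?_⟩
  rcases h.eq_bot_or_eq_top (f W) with h1 | h1
  · left
    apply Subrepresentation.toSubmodule_injective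
    have h2 : (f W).toSubmodule = (⊥ : Submodule ℂ V) := by rw [h1]; rfl
    exact h2
  · right
    apply Subrepresentation.toSubmodule_injective
    have h2 : (f W).toSubmodule = (⊤ : Submodule ℂ V) := by rw [h1]; rfl
    exact h2

/-- Membership in the principal block from the orbit version. -/
theorem blk_of {J : Type*} [Group J] [Finite J] {M : Ideal AlgInt} [M.IsPrime]
    (N : Subgroup J) [N.Normal] (ξ : J → ℂ) (hξ : ξ 1 ≠ 0)
    (h : ∀ y : J, MemLocalIdeal M (((centralizer ({y} : Set J)).relIndex N : ℂ) * (ξ y / ξ 1 - 1))) :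
    SameBlock M (fun _ : J => (1 : ℂ)) ξ := by
  intro y
  obtain ⟨t, ht⟩ := relIndex_dvd_index (centralizer ({y} : Set J)) N
  have h1 : centralChar (fun _ : J => (1 : ℂ)) y - centralChar ξ y =
      -((t : ℂ) * (((centralizer ({y} : Set J)).relIndex N : ℂ) * (ξ y / ξ 1 - 1))) := by
    unfold centralChar
    rw [ht]
    push_cast
    field_simp
    ring
  rw [h1]
  exact locI_neg (locI_mul_left (locR_natCast t) (h y))

/-- Let G be a finite group, p a prime, M a maximal ideal of the algebraic integers containing p, N a normal subgroup of G and P a Sylow p-subgroup of N such that G = N·C_G(P). Let θ be an irreducible character in the principal p-block of N that is the restriction of some irreducible character of G. Then θ is the restriction of an irreducible character χ of G lying in the principal p-block of G such that, for every subgroup J of G containing N, the restriction of χ to J is an irreducible character of J lying in the principal p-block of J. -/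
theorem result {G : Type*} [Group G] [Finite G] (p : ℕ) [Fact p.Prime] (M : Ideal Cfsg.AlgInt) (hM : Cfsg.IsPModular p M) (N : Subgroup G) [N.Normal] (P : Sylow p ↥N)
    (hcov : N ⊔ Subgroup.centralizer (((P : Subgroup ↥N).map N.subtype : Subgroup G) : Set G) = ⊤)
    (θ : Cfsg.IrrCharacter ↥N) (hθ : θ ∈ Cfsg.principalBlock M ↥N)
    (hext : ∃ ψ : Cfsg.IrrCharacter G, ∀ x : ↥N, (ψ : G → ℂ) x = (θ : ↥N → ℂ) x) :
    ∃ χ : Cfsg.IrrCharacter G, χ ∈ Cfsg.principalBlock M G ∧ (∀ x : ↥N, (χ : G → ℂ) x = (θ : ↥N → ℂ) x) ∧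
      ∀ J : Subgroup G, N ≤ J → ∃ ξ : Cfsg.IrrCharacter ↥J, ξ ∈ Cfsg.principalBlock M ↥J ∧ ∀ y : ↥J, (ξ : ↥J → ℂ) y = (χ : G → ℂ) y := by
  classical
  have hpp := hM.1
  have hMp : M.IsPrime := pm_isPrime hM
  have hMm : M.IsMaximal := hM.2.1
  have := Fintype.ofFinite G
  have := Fintype.ofFinite N
  obtain ⟨ψ, hψ⟩ := hext
  let χ : G → ℂ := (ψ : G → ℂ)
  have hχirr : IsIrrCharacter G χ := ψ.2
  have hχ : IsCharacter G χ := isCharacter_of_isIrr ψ.2
  have hNθ : (fun n : N => χ n) = (θ : N → ℂ) := funext hψ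
  have hN : IsIrrCharacter N (fun n : N => χ n) := by rw [hNθ]; exact θ.2
  have hd : χ 1 ≠ 0 := irr_one_ne_zero hχirr
  have hθ1 : (θ : N → ℂ) 1 = χ 1 := by rw [← hNθ]; rfl
  -- block condition on N
  have hblk : ∀ z ∈ N, MemLocalIdeal M (((orb N z).card : ℂ) * (χ z / χ 1 - 1)) := by
    intro z hz
    have h1 : MemLocalIdeal M (centralChar (fun _ : N => (1:ℂ)) ⟨z,hz⟩ - centralChar (θ : N → ℂ) ⟨z,hz⟩) := hθ ⟨z,hz⟩
    have h2 : (centralizer ({⟨z,hz⟩} : Set N)).index = (orb N z).card := by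
      rw [card_orb, Subgroup.relIndex]
      congr 1
      ext x
      rw [mem_centralizer_singleton_iff, Subgroup.mem_subgroupOf, mem_centralizer_singleton_iff]
      exact Subtype.ext_iff
    have h3 : (θ : N → ℂ) ⟨z, hz⟩ = χ z := by rw [← hNθ]
    have h4 : ((orb N z).card : ℂ) * (χ z / χ 1 - 1) =
        -(centralChar (fun _ : N => (1:ℂ)) ⟨z,hz⟩ - centralChar (θ : N → ℂ) ⟨z,hz⟩) := by
      unfold centralChar
      rw [h2, h3, hθ1]
      ring
    rw [h4]; exact locI_neg h1
  set C : Subgroup G := centralizer (((P : Subgroup ↥N).map N.subtype : Subgroup G) : Set G) with hC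
  have hcard : ∀ c ∈ C, ¬ p ∣ (orb N c).card := by
    intro c hc hdvd
    rw [card_orb] at hdvd
    have h1 : (P : Subgroup N) ≤ (centralizer ({c} : Set G)).subgroupOf N := by
      intro x hx
      rw [Subgroup.mem_subgroupOf, mem_centralizer_singleton_iff]
      exact (mem_centralizer_iff.1 hc (x : G) ⟨x, hx, rfl⟩)
    exact P.not_dvd_index (hdvd.trans (Subgroup.index_dvd_of_le h1))
  let π := QuotientGroup.mk' N
  have hπ : ∀ z c : G, z * c⁻¹ ∈ N ↔ π z = π c := by
    intro z c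
    rw [← QuotientGroup.eq_one_iff]
    change π (z * c⁻¹) = 1 ↔ _
    rw [map_mul, map_inv, mul_inv_eq_one]
  have hex : ∀ g : G, ∃ c ∈ C, π g = π c := by
    intro g
    have h1 : g ∈ N ⊔ C := by rw [hcov]; trivial
    rw [Subgroup.mem_sup_of_normal_left] at h1
    obtain ⟨n, hn, c, hc, rfl⟩ := h1
    refine ⟨c, hc, ?_⟩
    rw [← hπ]
    simpa using hn
  choose cf hcfC hcfπ using hex
  have hstep : ∀ g : G, ∀ c ∈ C, π g = π c → MemLocalIdeal M (((orb N g).card : ℂ) * (χ g / χ 1 - χ c / χ 1)) := by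
    intro g c hc hgc
    exact step3 hM N hχ hN hblk (hcard c hc) (hcard c⁻¹ (C.inv_mem hc)) g ((hπ g c).2 hgc)
  have hcard0 : ∀ c ∈ C, ((orb N c).card : ℂ) ≠ 0 := by
    intro c hc h0
    have : (orb N c).card = 0 := by exact_mod_cast h0
    exact hcard c hc (this ▸ dvd_zero p)
  have hR : ∀ c ∈ C, MemLocalRing M (χ c / χ 1) := by
    intro c hc
    have h1 := locR_mul (locR_natCast_inv hM (hcard c hc)) (isIntegral_mem (isIntegral_omega N hχ hN c))
    have h2 := hcard0 c hc
    have h3 : ((orb N c).card : ℂ)⁻¹ * (((orb N c).card : ℂ) * χ c / χ 1) = χ c / χ 1 := by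
      field_simp
    rwa [h3] at h1
  have hstepC : ∀ c' ∈ C, ∀ c ∈ C, π c' = π c → MemLocalIdeal M (χ c' / χ 1 - χ c / χ 1) := by
    intro c' hc' c hc h
    have h1 := locI_mul_left (locR_natCast_inv hM (hcard c' hc')) (hstep c' c hc h)
    rwa [← mul_assoc, inv_mul_cancel₀ (hcard0 c' hc'), one_mul] at h1
  let m : G → ResF M := fun g => redFun M (χ (cf g) / χ 1)
  have hmN : ∀ n ∈ N, m n = 1 := by
    intro n hn
    have h1 : cf n ∈ N := by
      have h2 : π n = 1 := (QuotientGroup.eq_one_iff n).2 hn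
      rw [hcfπ n] at h2
      exact (QuotientGroup.eq_one_iff _).1 h2
    have h2 := locI_mul_left (locR_natCast_inv hM (hcard _ (hcfC n))) (hblk _ h1)
    rw [← mul_assoc, inv_mul_cancel₀ (hcard0 _ (hcfC n)), one_mul] at h2
    have h3 := (redFun_eq_iff (hR _ (hcfC n)) (locR_one (M := M))).2 h2
    change redFun M (χ (cf n) / χ 1) = 1
    rw [h3, redFun_one]
  have hm_mul : ∀ g h : G, m (g * h) = m g * m h := by
    intro g h
    let c := cf (g * h)
    let F : G → ℂ := fun z => if z * c⁻¹ ∈ N then χ z / χ 1 - χ c / χ 1 else 0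
    have hFinv : ∀ n ∈ N, ∀ z, F (n * z * n⁻¹) = F z := by
      intro n hn z
      have hπn : π n = 1 := (QuotientGroup.eq_one_iff n).2 hn
      have h1 : n * z * n⁻¹ * c⁻¹ ∈ N ↔ z * c⁻¹ ∈ N := by
        rw [hπ, hπ, map_mul, map_mul, map_inv, hπn]
        simp
      simp only [F, h1, isClassFunction_of_isCharacter hχ z n]
    have hFM : ∀ z, MemLocalIdeal M (((orb N z).card : ℂ) * F z) := by
      intro z
      by_cases hz : z * c⁻¹ ∈ N
      · simp only [F, if_pos hz]; exact hstep z c (hcfC _) ((hπ z c).1 hz)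
      · simp only [F, if_neg hz, mul_zero]; exact locI_zero
    have h1 := sum_mem_locI N hFinv hFM (cf g) (cf h)
    have h2 : ∑ x ∈ orb N (cf g), ∑ y ∈ orb N (cf h), F (x * y) =
        ((orb N (cf g)).card : ℂ) * ((orb N (cf h)).card : ℂ) *
          ((χ (cf g) / χ 1) * (χ (cf h) / χ 1) - χ c / χ 1) := by
      have h3 : ∀ x ∈ orb N (cf g), ∑ y ∈ orb N (cf h), F (x * y) =
          ∑ y ∈ orb N (cf h), (χ (x * y) / χ 1) - ((orb N (cf h)).card : ℂ) * (χ c / χ 1) := by
        intro x hx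
        have h4 : ∀ y ∈ orb N (cf h), F (x * y) = χ (x * y) / χ 1 - χ c / χ 1 := by
          intro y hy
          obtain ⟨n, hn, rfl⟩ := mem_orb.1 hx
          obtain ⟨k, hk, rfl⟩ := mem_orb.1 hy
          have hπn : π n = 1 := (QuotientGroup.eq_one_iff n).2 hn
          have hπk : π k = 1 := (QuotientGroup.eq_one_iff k).2 hk
          have h5 : n * cf g * n⁻¹ * (k * cf h * k⁻¹) * c⁻¹ ∈ N := by
            rw [hπ]
            change _ = π (cf (g * h))
            rw [← hcfπ (g * h)]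
            simp only [map_mul, map_inv, hπn, hπk, inv_one, one_mul, mul_one]
            rw [← hcfπ g, ← hcfπ h]
          simp only [F, if_pos h5]
        rw [Finset.sum_congr rfl h4, Finset.sum_sub_distrib, Finset.sum_const, nsmul_eq_mul]
      rw [Finset.sum_congr rfl h3, Finset.sum_sub_distrib, Finset.sum_const, nsmul_eq_mul,
        ← omega_mul N hχ hN]
      ring
    rw [h2] at h1
    have h4 : MemLocalIdeal M ((χ (cf g) / χ 1) * (χ (cf h) / χ 1) - χ c / χ 1) := by
      have h5 := locI_mul_left (locR_mul (locR_natCast_inv hM (hcard _ (hcfC g)))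
        (locR_natCast_inv hM (hcard _ (hcfC h)))) h1
      have h6 := hcard0 _ (hcfC g)
      have h7 := hcard0 _ (hcfC h)
      have h8 : ((orb N (cf g)).card : ℂ)⁻¹ * ((orb N (cf h)).card : ℂ)⁻¹ *
          (((orb N (cf g)).card : ℂ) * ((orb N (cf h)).card : ℂ) *
          ((χ (cf g) / χ 1) * (χ (cf h) / χ 1) - χ c / χ 1)) =
          (χ (cf g) / χ 1) * (χ (cf h) / χ 1) - χ c / χ 1 := by
        field_simp
      rwa [h8] at h5
    have h9 := (redFun_eq_iff (locR_mul (hR _ (hcfC g)) (hR _ (hcfC h))) (hR c (hcfC _))).2 h4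
    rw [redFun_mul (hR _ (hcfC g)) (hR _ (hcfC h))] at h9
    exact h9.symm
  have hm1 : m 1 = 1 := hmN 1 N.one_mem
  let mh : G →* ResF M := ⟨⟨m, hm1⟩, hm_mul⟩
  -- the exponent
  set e := ordCompl[p] (Nat.card G) with he
  have hGe : ordProj[p] (Nat.card G) * e = Nat.card G := Nat.ordProj_mul_ordCompl_eq_self _ _
  have hpe : ¬ p ∣ e := Nat.not_dvd_ordCompl hpp Nat.card_pos.ne'
  have he0 : e ≠ 0 := by rintro h0; rw [h0] at hpe; exact hpe (dvd_zero p)
  have hroot : ∀ g : G, ∃ ε : AlgInt, ε ^ e = 1 ∧ redFun M (ε : ℂ) = m g := by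
    intro g
    obtain ⟨a, ha⟩ := redFun_surjective (M := M) (m g)
    have haM : a ∉ M := by
      intro h
      have h1 : redFun M (a : ℂ) = 0 := by
        rw [redFun_coe]; exact Ideal.Quotient.eq_zero_iff_mem.2 h
      have h2 : mh (g * g⁻¹) = 1 := by rw [mul_inv_cancel, map_one]
      rw [map_mul] at h2
      have h3 : mh g = 0 := by change m g = 0; rw [← ha, h1]
      rw [h3, zero_mul] at h2
      exact zero_ne_one h2
    obtain ⟨n, hn, hn1⟩ := H19.RootsU.exists_pow_sub_one_mem hM haM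
    have h1 : (m g) ^ n = 1 := by
      rw [← ha, redFun_coe, ← map_pow]
      have := Ideal.Quotient.eq_zero_iff_mem.2 hn1
      rw [map_sub, sub_eq_zero, map_one] at this
      exact this
    have h2 : (m g) ^ Nat.card G = 1 := by
      have : mh (g ^ Nat.card G) = 1 := by rw [pow_card_eq_one', map_one]
      rw [map_pow] at this
      exact this
    have h3 : orderOf (m g) ∣ e := by
      have h4 := orderOf_dvd_of_pow_eq_one h1
      have h5 := orderOf_dvd_of_pow_eq_one h2
      rw [← hGe] at h5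
      refine Nat.Coprime.dvd_of_dvd_mul_left ?_ h5
      apply Nat.Coprime.pow_right
      apply Nat.Coprime.symm
      rw [Nat.Prime.coprime_iff_not_dvd hpp]
      exact fun h => hn (h.trans h4)
    have h4 : (m g) ^ e = 1 := orderOf_dvd_iff_pow_eq_one.1 h3
    have h5 : a ^ e - 1 ∈ M := by
      rw [← Ideal.Quotient.eq_zero_iff_mem, map_sub, map_pow, map_one, sub_eq_zero]
      rw [← ha, redFun_coe] at h4
      exact h4
    obtain ⟨ε, hε, hε2⟩ := H19.RootsU.exists_root_sub_mem hM he0 h5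
    refine ⟨ε, hε, ?_⟩
    rw [redFun_coe, ← ha, redFun_coe]
    have := Ideal.Quotient.eq_zero_iff_mem.2 hε2
    rw [map_sub, sub_eq_zero] at this
    exact this.symm
  choose ε hε1 hε2 using hroot
  have huniq : ∀ a b : AlgInt, a ^ e = 1 → b ^ e = 1 → redFun M (a : ℂ) = redFun M (b : ℂ) → a = b := by
    intro a b ha hb hab
    apply H19.RootsU.eq_of_sub_mem hM hpe ha hb
    rw [redFun_coe, redFun_coe] at hab
    rw [← Ideal.Quotient.eq_zero_iff_mem, map_sub, hab, sub_self]
  have hεN : ∀ n ∈ N, ε n = 1 := by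
    intro n hn
    apply huniq _ _ (hε1 n) (one_pow e)
    rw [hε2, hmN n hn]
    have : ((1 : AlgInt) : ℂ) = 1 := rfl
    rw [this, redFun_one]
  have hεmul : ∀ g h, ε (g * h) = ε g * ε h := by
    intro g h
    apply huniq _ _ (hε1 _) (by rw [mul_pow, hε1, hε1, one_mul])
    rw [hε2, hm_mul, ← hε2, ← hε2, redFun_coe, redFun_coe, redFun_coe, map_mul]
  let lam0 : G →* ℂ := ⟨⟨fun g => (ε g : ℂ), by simp only [hεN 1 N.one_mem]; rfl⟩, fun g h => by
    simp only [hεmul]; rfl⟩
  let lam : G →* ℂˣ := lam0.toHomUnits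
  have hlam : ∀ g, (lam g : ℂ) = (ε g : ℂ) := fun g => rfl
  let mu : G →* ℂˣ := lam⁻¹
  have hmu : ∀ g, (mu g : ℂ) * (ε g : ℂ) = 1 := by
    intro g
    rw [← hlam]
    change (((lam g)⁻¹ : ℂˣ) : ℂ) * _ = 1
    exact Units.inv_mul _
  have hmu' : ∀ g, (mu g : ℂ) = (ε g⁻¹ : ℂ) := by
    intro g
    rw [← hlam, map_inv]
    rfl
  let χ' : G → ℂ := fun g => (mu g : ℂ) * χ g
  have hχ' : IsIrrCharacter G χ' := isIrrCharacter_hom_mul mu hχirr
  have hχ'1 : χ' 1 = χ 1 := by simp [χ']
  have hkey : ∀ g, MemLocalIdeal M (((orb N g).card : ℂ) * (χ' g / χ' 1 - 1)) := by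
    intro g
    have h1 := hstep g (cf g) (hcfC g) (hcfπ g)
    have h2 : MemLocalIdeal M (χ (cf g) / χ 1 - (ε g : ℂ)) := by
      rw [← redFun_eq_iff (hR _ (hcfC g)) (isIntegral_mem (ε g).2)]
      exact (hε2 g).symm
    have h3 : MemLocalIdeal M (((orb N g).card : ℂ) * (χ g / χ 1 - (ε g : ℂ))) := by
      have h4 : ((orb N g).card : ℂ) * (χ g / χ 1 - (ε g : ℂ)) =
        ((orb N g).card : ℂ) * (χ g / χ 1 - χ (cf g) / χ 1) + ((orb N g).card : ℂ) * (χ (cf g) / χ 1 - (ε g : ℂ)) := by ring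
      rw [h4]
      exact locI_add h1 (locI_mul_left (locR_natCast _) h2)
    have h5 : ((orb N g).card : ℂ) * (χ' g / χ' 1 - 1) =
        (mu g : ℂ) * (((orb N g).card : ℂ) * (χ g / χ 1 - (ε g : ℂ))) := by
      rw [hχ'1]
      simp only [χ']
      have h6 := hmu g
      calc ((orb N g).card : ℂ) * ((mu g : ℂ) * χ g / χ 1 - 1)
          = ((orb N g).card : ℂ) * ((mu g : ℂ) * χ g / χ 1 - (mu g : ℂ) * (ε g : ℂ)) := by rw [h6]
        _ = _ := by ring
    rw [h5]
    refine locI_mul_left ?_ h3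
    rw [hmu']
    exact isIntegral_mem (ε g⁻¹).2
  have hχ'N : ∀ x : N, χ' x = (θ : N → ℂ) x := by
    intro x
    rw [← hNθ]
    simp only [χ']
    have h1 : (mu (x : G) : ℂ) = 1 := by
      rw [hmu', hεN _ (N.inv_mem x.2)]; rfl
    rw [h1, one_mul]
  refine ⟨⟨χ', hχ'⟩, ?_, hχ'N, ?_⟩
  · change SameBlock M (fun _ : G => (1 : ℂ)) χ'
    apply blk_of N χ' (by rw [hχ'1]; exact hd)
    intro y
    rw [← card_orb]
    exact hkey y
  · intro J hNJ
    have hirrJ : IsIrrCharacter J (fun y : J => χ' y) := by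
      obtain ⟨n, ρ, hρ, hρχ⟩ := hχ'
      have hN' : IsIrrCharacter N (fun n : N => ρ.character n) := by
        have : (fun n : N => ρ.character n) = (θ : N → ℂ) := by
          funext x; rw [hρχ]; exact hχ'N x
        rw [this]; exact θ.2
      have hNirr := H83.Gallagher.restrict_irreducible ρ N hN'
      have hJirr : (H83.Gallagher.resRep ρ J).IsIrreducible := irr_of_le ρ hNJ hNirr
      have h1 := isIrrCharacter_of_rep _ hJirr
      have h2 : (H83.Gallagher.resRep ρ J).character = fun y : J => χ' y := by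
        funext y
        rw [← hρχ]; rfl
      rw [h2] at h1
      exact h1
    refine ⟨⟨_, hirrJ⟩, ?_, fun y => rfl⟩
    change SameBlock M (fun _ : J => (1 : ℂ)) (fun y : J => χ' y)
    have hNJn : (N.subgroupOf J).Normal := inferInstance
    apply blk_of (N.subgroupOf J) (fun y : J => χ' y) (by
      change χ' ((1 : J) : G) ≠ 0
      rw [Subgroup.coe_one, hχ'1]; exact hd)
    intro y
    have h1 : centralizer ({y} : Set J) = (centralizer ({(y : G)} : Set G)).subgroupOf J := by
      ext x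
      rw [mem_centralizer_singleton_iff, Subgroup.mem_subgroupOf, mem_centralizer_singleton_iff]
      exact Subtype.ext_iff
    rw [h1, Subgroup.relIndex_subgroupOf hNJ, ← card_orb]
    exact hkey y

end Cfsg.Agent.S4937
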