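import Cfsg.Statements.S4969
import Cfsg.Agent.Lib.H18.CharInd
import Mathlib.Algebra.Order.Chebyshev

set_option autoImplicit false
open Cfsg

namespace Cfsg.Agent.S4969

theorem result {G : Type*} [Group G] [Finite G] (g : G) (N : ℝ) (hN : 0 < N) :
    ∑ᶠ χ : Cfsg.IrrCharacter G, (if N ≤ ‖(χ : G → ℂ) 1‖ then ‖(χ : G → ℂ) g‖ / ‖(χ : G → ℂ) 1‖ else 0) ≤
      Real.sqrt ((Nat.card (ConjClasses G) : ℝ) * (Nat.card ↥(Subgroup.centralizer ({g} : Set G)) : ℝ)) / N := by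
  have := Fintype.ofFinite (IrrCharacter G)
  rw [finsum_eq_sum_of_fintype]
  have h1 : ∀ χ : IrrCharacter G, (if N ≤ ‖(χ : G → ℂ) 1‖ then ‖(χ : G → ℂ) g‖ / ‖(χ : G → ℂ) 1‖ else 0) ≤ ‖(χ : G → ℂ) g‖ / N := by
    intro χ
    split_ifs with h
    · exact div_le_div_of_nonneg_left (norm_nonneg _) hN h
    · exact div_nonneg (norm_nonneg _) hN.le
  refine (Finset.sum_le_sum fun χ _ => h1 χ).trans ?_
  rw [← Finset.sum_div]
  apply div_le_div_of_nonneg_right _ hN.le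
  apply Real.le_sqrt_of_sq_le
  refine sq_sum_le_card_mul_sum_sq.trans ?_
  have h2 : ∑ χ : IrrCharacter G, ‖(χ : G → ℂ) g‖ ^ 2 = (Nat.card ↥(Subgroup.centralizer ({g} : Set G)) : ℝ) := by
    have h := H18.CharInd.column_orthogonality g g
    rw [if_pos (IsConj.refl g)] at h
    have h3 : ((∑ χ : IrrCharacter G, ‖(χ : G → ℂ) g‖ ^ 2 : ℝ) : ℂ) = ((Nat.card ↥(Subgroup.centralizer ({g} : Set G)) : ℝ) : ℂ) := by
      push_cast
      rw [← h]
      refine Finset.sum_congr rfl fun χ _ => ?_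
      rw [Complex.mul_conj']
    exact_mod_cast h3
  rw [h2, Finset.card_univ, ← Nat.card_eq_fintype_card, H18.CharOrtho.card_irr_eq_card_conjClasses]

end Cfsg.Agent.S4969
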