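import Cfsg.Statements.S4989
import Cfsg.Agent.Lib.H84.CyclicNorm

set_option autoImplicit false
open Cfsg

namespace Cfsg.Agent.S4989

open H18.CharBasic H18.CharOrtho H84.CyclicNorm

theorem result {G : Type*} [Group G] [Finite G] (H : Subgroup G) (χ : Cfsg.IrrCharacter G) : (Nat.card ↥H : ℝ)⁻¹ * ∑ᶠ h : ↥H, ‖(χ : G → ℂ) h‖ ^ 2 ≤ 1 + (Set.ncard ({x : G | (χ : G → ℂ) x = 0} \ (H : Set G)) : ℝ) / (Nat.card ↥H : ℝ) := by
  classical
  have := Fintype.ofFinite G
  have := Fintype.ofFinite H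
  have hHpos : (0 : ℝ) < Nat.card H := by exact_mod_cast Nat.card_pos
  rw [finsum_eq_sum_of_fintype]
  -- total
  have htot : ∑ g : G, ‖(χ : G → ℂ) g‖ ^ 2 = (Nat.card G : ℝ) := by
    have h := inner_irr_self χ.2
    rw [inner_self_eq_sum] at h
    have h1 : ((Nat.card G : ℝ)⁻¹ * ∑ g : G, ‖(χ : G → ℂ) g‖ ^ 2 : ℝ) = 1 := by exact_mod_cast h
    have hG : (Nat.card G : ℝ) ≠ 0 := by exact_mod_cast (Nat.card_pos (α := G)).ne'
    rw [inv_mul_eq_iff_eq_mul₀ hG, mul_one] at h1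
    exact h1
  set T : Finset G := Finset.univ.filter (fun x => x ∉ H) with hTdef
  have hT : ∀ x ∈ T, ∀ y, Subgroup.zpowers y = Subgroup.zpowers x → y ∈ T := by
    intro x hx y hy
    rw [hTdef, Finset.mem_filter] at hx ⊢
    refine ⟨Finset.mem_univ _, fun hyH => hx.2 ?_⟩
    have : Subgroup.zpowers x ≤ H := by
      rw [← hy, Subgroup.zpowers_le]; exact hyH
    exact this (Subgroup.mem_zpowers x)
  have h1 := card_nonzero_le_sum_norm_sq (isGen_of_isIrr χ.2) T hT
  have hsplit : ∑ g : G, ‖(χ : G → ℂ) g‖ ^ 2 = ∑ h : H, ‖(χ : G → ℂ) h‖ ^ 2 + ∑ x ∈ T, ‖(χ : G → ℂ) x‖ ^ 2 := by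
    rw [← Finset.sum_filter_add_sum_filter_not Finset.univ (fun x => x ∈ H)]
    congr 1
    symm
    apply Finset.sum_bij (fun (h : H) _ => (h : G))
    · intro a _; simp
    · intro a _ b _ hab; exact Subtype.ext hab
    · intro b hb; exact ⟨⟨b, (Finset.mem_filter.1 hb).2⟩, Finset.mem_univ _, rfl⟩
    · intro a _; rfl
  have hcards : (T.filter fun x => (χ : G → ℂ) x ≠ 0).card + Set.ncard ({x : G | (χ : G → ℂ) x = 0} \ (H : Set G)) + Nat.card H = Nat.card G := by
    have e1 : Set.ncard ({x : G | (χ : G → ℂ) x = 0} \ (H : Set G)) = (T.filter fun x => (χ : G → ℂ) x = 0).card := by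
      rw [← Set.ncard_coe_finset]
      congr 1
      ext x
      simp only [hTdef, Set.mem_sdiff, Set.mem_ofPred_eq, SetLike.mem_coe, Finset.coe_filter, Finset.mem_filter, Finset.mem_univ, true_and]
      tauto
    have e2 : (T.filter fun x => (χ : G → ℂ) x = 0).card + (T.filter fun x => (χ : G → ℂ) x ≠ 0).card = T.card :=
      Finset.card_filter_add_card_filter_not (s := T) (fun x => (χ : G → ℂ) x = 0)
    have e3 : T.card + Nat.card H = Nat.card G := by
      rw [Nat.card_eq_fintype_card, Nat.card_eq_fintype_card, ← Finset.card_univ (α := G),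
        ← Finset.card_filter_add_card_filter_not (s := (Finset.univ : Finset G)) (fun x => x ∈ H)]
      rw [add_comm]
      congr 1
      rw [← Fintype.card_subtype]
    rw [e1]; omega
  have hcards' : ((T.filter fun x => (χ : G → ℂ) x ≠ 0).card : ℝ) + Set.ncard ({x : G | (χ : G → ℂ) x = 0} \ (H : Set G)) + Nat.card H = Nat.card G := by
    exact_mod_cast hcards
  have hfin : ∑ h : H, ‖(χ : G → ℂ) h‖ ^ 2 ≤ Nat.card H + Set.ncard ({x : G | (χ : G → ℂ) x = 0} \ (H : Set G)) := by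
    linarith
  rw [inv_mul_le_iff₀ hHpos]
  have : (Nat.card H : ℝ) * (1 + (Set.ncard ({x : G | (χ : G → ℂ) x = 0} \ (H : Set G)) : ℝ) / (Nat.card ↥H : ℝ)) = Nat.card H + Set.ncard ({x : G | (χ : G → ℂ) x = 0} \ (H : Set G)) := by
    field_simp
  rw [this]
  exact hfin

end Cfsg.Agent.S4989
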