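import Cfsg.Statements.S4996
import Cfsg.Agent.Lib.H84.CyclicNorm
import Cfsg.Agent.Lib.H84.AvgN

set_option autoImplicit false
open Cfsg

namespace Cfsg.Agent.S4996

open H18.CharBasic H18.CharOrtho H84.CyclicNorm H84.AvgN

theorem result {G : Type*} [Group G] [Finite G] (N : Subgroup G) [N.Normal] (χ : Cfsg.IrrCharacter G) : ¬ Cfsg.IsIrrCharacter ↥N (fun n : ↥N => (χ : G → ℂ) n) ↔ ∃ x : G, ∀ n : ↥N, (χ : G → ℂ) ((n : G) * x) = 0 := by
  classical
  have := Fintype.ofFinite G
  have := Fintype.ofFinite N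
  have hNpos : (0 : ℝ) < Nat.card N := by exact_mod_cast Nat.card_pos
  have hchar := isCharacter_avg_normSq N (isCharacter_of_isIrr χ.2)
  set s : G → ℂ := fun g => (Nat.card N : ℂ)⁻¹ * ∑ n : N, ((‖(χ : G → ℂ) ((n : G) * g)‖ ^ 2 : ℝ) : ℂ) with hs
  set r : G → ℝ := fun g => (Nat.card N : ℝ)⁻¹ * ∑ n : N, ‖(χ : G → ℂ) ((n : G) * g)‖ ^ 2 with hr
  have hsr : ∀ g, s g = (r g : ℂ) := by
    intro g; simp only [hs, hr]; push_cast; rfl
  have hr0 : ∀ g, 0 ≤ r g := fun g => by
    simp only [hr]; positivity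
  have hnorm : ∀ g, ‖s g‖ = r g := fun g => by
    rw [hsr, Complex.norm_real, Real.norm_of_nonneg (hr0 g)]
  have hzero : ∀ g, s g = 0 ↔ ∀ n : N, (χ : G → ℂ) ((n : G) * g) = 0 := by
    intro g
    rw [hsr, Complex.ofReal_eq_zero]
    simp only [hr]
    rw [mul_eq_zero, or_iff_right (inv_ne_zero hNpos.ne'), Finset.sum_eq_zero_iff_of_nonneg (fun _ _ => by positivity)]
    simp
  -- s 1 is the norm of the restriction
  have hs1 : s 1 = classInner (fun n : N => (χ : G → ℂ) n) (fun n : N => (χ : G → ℂ) n) := by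
    rw [inner_self_eq_sum, hsr]
    simp only [hr, mul_one]
  have hresC : IsCharacter N (fun n : N => (χ : G → ℂ) n) := isCharacter_restrict N (isCharacter_of_isIrr χ.2)
  constructor
  · intro hirr
    by_contra hno
    push Not at hno
    have hne : ∀ g, s g ≠ 0 := by
      intro g h0
      obtain ⟨n, hn⟩ := hno g
      exact hn ((hzero g).1 h0 n)
    -- sum over all nontrivial elements
    have hT : ∀ x ∈ (Finset.univ.erase (1 : G)), ∀ y, Subgroup.zpowers y = Subgroup.zpowers x → y ∈ Finset.univ.erase (1 : G) := by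
      intro x hx y hy
      rw [Finset.mem_erase] at hx ⊢
      refine ⟨fun h => hx.1 ?_, Finset.mem_univ _⟩
      rw [h, Subgroup.zpowers_one_eq_bot, eq_comm, Subgroup.zpowers_eq_bot] at hy
      exact hy
    have h1 := card_nonzero_le_sum_norm (isGen_of_isCharacter hchar) (Finset.univ.erase (1 : G)) hT
    have hfilt : ((Finset.univ.erase (1 : G)).filter fun x => s x ≠ 0) = Finset.univ.erase (1 : G) :=
      Finset.filter_true_of_mem fun x _ => hne x
    rw [hfilt, Finset.card_erase_of_mem (Finset.mem_univ _), Finset.card_univ, ← Nat.card_eq_fintype_card] at h1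
    have htot : ∑ g : G, r g = (Nat.card G : ℝ) := by
      have h2 : ∑ g : G, r g = (Nat.card N : ℝ)⁻¹ * ∑ n : N, ∑ g : G, ‖(χ : G → ℂ) ((n : G) * g)‖ ^ 2 := by
        simp only [hr]
        rw [← Finset.mul_sum, Finset.sum_comm]
      have h3 : ∀ n : N, ∑ g : G, ‖(χ : G → ℂ) ((n : G) * g)‖ ^ 2 = (Nat.card G : ℝ) := by
        intro n
        have e1 : ∑ g : G, ‖(χ : G → ℂ) ((n : G) * g)‖ ^ 2 = ∑ g : G, ‖(χ : G → ℂ) g‖ ^ 2 :=
          Fintype.sum_equiv (Equiv.mulLeft (n : G)) _ _ fun g => rfl
        rw [e1]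
        have h := inner_irr_self χ.2
        rw [inner_self_eq_sum] at h
        have h1 : ((Nat.card G : ℝ)⁻¹ * ∑ g : G, ‖(χ : G → ℂ) g‖ ^ 2 : ℝ) = 1 := by exact_mod_cast h
        have hG : (Nat.card G : ℝ) ≠ 0 := by exact_mod_cast (Nat.card_pos (α := G)).ne'
        rw [inv_mul_eq_iff_eq_mul₀ hG, mul_one] at h1
        exact h1
      rw [h2]
      simp only [h3, Finset.sum_const, Finset.card_univ, nsmul_eq_mul, ← Nat.card_eq_fintype_card]
      field_simp
    have h4 : ∑ x ∈ Finset.univ.erase (1 : G), ‖s x‖ = (Nat.card G : ℝ) - r 1 := by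
      rw [← htot, ← Finset.add_sum_erase _ _ (Finset.mem_univ (1 : G))]
      simp only [hnorm]; ring
    rw [h4, Nat.cast_sub Nat.card_pos] at h1
    have h5 : r 1 ≤ 1 := by push_cast at h1; linarith
    -- s 1 is a natural number, nonzero
    obtain ⟨m, hm⟩ := inner_char_natCast hresC hresC
    have h6 : (r 1 : ℝ) = m := by
      have : ((r 1 : ℝ) : ℂ) = m := by rw [← hsr, hs1, hm]
      exact_mod_cast this
    have h7 : m ≠ 0 := by
      intro h0
      apply hne 1
      rw [hsr, h6, h0]; simp
    have h8 : m = 1 := by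
      have : (m : ℝ) ≤ 1 := by rw [← h6]; exact h5
      have : m ≤ 1 := by exact_mod_cast this
      omega
    exact hirr (isIrr_of_norm_one hresC (by rw [hm, h8]; simp))
  · rintro ⟨x, hx⟩ hirr
    have h1 : s 1 = 1 := by rw [hs1, inner_irr_self hirr]
    have h2 : s x = 0 := (hzero x).2 hx
    -- s is a character of degree one
    have h3 := H18.CharInd.conj_char_one hchar
    have h4 : s * (fun g => (starRingEnd ℂ) (s g)) = fun _ => 1 := by
      obtain ⟨n, ρ, hρ⟩ := hchar
      have hn : n = 1 := by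
        have : ((n : ℕ) : ℂ) = 1 := by
          rw [← h1, ← hρ]; simp
        exact_mod_cast this
      subst hn
      -- in dimension one the character is multiplicative
      have hmul : ∀ a b : G, s (a * b) = s a * s b := by
        intro a b
        rw [← hρ]
        simp only [Representation.character, map_mul]
        have htr : ∀ T : (Fin 1 → ℂ) →ₗ[ℂ] (Fin 1 → ℂ), T = (LinearMap.trace ℂ _ T) • (1 : Module.End ℂ (Fin 1 → ℂ)) := by
          intro T
          have hfr : Module.finrank ℂ (Fin 1 → ℂ) = 1 := by simp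
          obtain ⟨c, hc⟩ : ∃ c : ℂ, T = c • (1 : Module.End ℂ (Fin 1 → ℂ)) := by
            refine ⟨T (fun _ => 1) 0, ?_⟩
            apply LinearMap.ext
            intro v
            funext i
            have hi : i = 0 := Subsingleton.elim _ _
            subst hi
            have hv : v = v 0 • (fun _ => (1 : ℂ)) := by
              funext j
              have hj : j = 0 := Subsingleton.elim _ _
              subst hj; simp
            conv_lhs => rw [hv, map_smul]
            simp [mul_comm]
          rw [hc]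
          simp
        rw [htr (ρ a)]
        rw [smul_mul_assoc, one_mul, map_smul, map_smul]
        simp
      funext g
      simp only [Pi.mul_apply]
      rw [← char_inv ⟨1, ρ, hρ⟩ g, ← hmul, mul_inv_cancel, h1]
    have h5 := congrFun h4 x
    simp only [Pi.mul_apply, h2, zero_mul] at h5
    exact zero_ne_one h5

end Cfsg.Agent.S4996
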