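import Cfsg.Statements.S5001
import Cfsg.Agent.Lib.H20.PPart
import Cfsg.Agent.Lib.H4.CenterIndex
import Cfsg.Agent.Lib.H18.CharQuot
import Cfsg.Agent.Lib.H18.CharBasic

set_option autoImplicit false
open Cfsg

namespace Cfsg.Agent.S5001

/-- extremal decomposition -/
theorem two_term {a b : ℕ} {u v w : ℂ} (hu : ‖u‖ ≤ a) (hv : ‖v‖ ≤ b) (hw : ‖w‖ = 1)
    (h : u + v = ((a : ℂ) + b) * w) : u = a * w := by
  have hww : w * (starRingEnd ℂ) w = 1 := by
    rw [Complex.mul_conj, Complex.normSq_eq_norm_sq, hw]; simp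
  have h1 : u * (starRingEnd ℂ) w + v * (starRingEnd ℂ) w = (a : ℂ) + b := by
    rw [← add_mul, h, mul_assoc, hww, mul_one]
  have n1 : ‖u * (starRingEnd ℂ) w‖ ≤ a := by
    rw [norm_mul, RCLike.norm_conj, hw, mul_one]; exact hu
  have n2 : ‖v * (starRingEnd ℂ) w‖ ≤ b := by
    rw [norm_mul, RCLike.norm_conj, hw, mul_one]; exact hv
  have r1 := (Complex.re_le_norm (u * (starRingEnd ℂ) w)).trans n1
  have r2 := (Complex.re_le_norm (v * (starRingEnd ℂ) w)).trans n2
  have h2 := congrArg Complex.re h1
  simp only [Complex.add_re, Complex.natCast_re] at h2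
  have h3 : (u * (starRingEnd ℂ) w).re = a := by linarith
  have h4 : ‖u * (starRingEnd ℂ) w‖ = (u * (starRingEnd ℂ) w).re := by
    apply le_antisymm
    · rw [h3]; exact n1
    · exact Complex.re_le_norm _
  have h5 : u * (starRingEnd ℂ) w = a := by
    have h6 : (u * (starRingEnd ℂ) w).im = 0 := by
      have h7 := Complex.sq_norm (u * (starRingEnd ℂ) w)
      rw [Complex.normSq_apply, h4] at h7
      nlinarith
    apply Complex.ext
    · rw [h3]; simp
    · rw [h6]; simp
  calc u = u * (w * (starRingEnd ℂ) w) := by rw [hww, mul_one]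
    _ = (u * (starRingEnd ℂ) w) * w := by ring
    _ = a * w := by rw [h5]

/-- Let p be a prime, G a finite group and B a p-block of G (relative to a maximal ideal M of the algebraic integers containing p) with defect group D. Let Z be a central p-subgroup of G contained in D and λ a linear character of Z (a homomorphism to the nonzero complex numbers). Say an irreducible character χ of G lies over λ when χ(z) = χ(1)λ(z) for all z ∈ Z. If some irreducible character in B lying over λ has height zero, then λ extends to a linear character of D. -/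
theorem result {G : Type*} [Group G] [Finite G] (p : ℕ) [Fact p.Prime] (M : Ideal Cfsg.AlgInt) (hM : Cfsg.IsPModular p M) (B : Set (Cfsg.IrrCharacter G)) (hB : Cfsg.IsPBlock M B) (D : Subgroup G) (hD : Cfsg.IsDefectGroup p M B D) (Z : Subgroup G) (hZc : Z ≤ Subgroup.center G) (hZp : IsPGroup p ↥Z) (hZD : Z ≤ D) (lam : ↥Z →* ℂˣ) (χ : Cfsg.IrrCharacter G) (hχ : χ ∈ B) (hover : (∀ z : ↥Z, (χ : G → ℂ) z = (χ : G → ℂ) 1 * (lam z : ℂ))) (h0 : Cfsg.blockHeight p B (χ : G → ℂ) = 0) : (∃ μ : ↥D →* ℂˣ, ∀ z : ↥Z, μ ⟨(z : G), hZD z.2⟩ = lam z) := by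

  classical
  haveI := H20.Loc.pm_isPrime hM
  obtain ⟨y, hy, P, hP⟩ := hD
  have hunit : ¬ Cfsg.MemLocalIdeal M ((χ : G → ℂ) y) := by
    have := H20.PPart.unit_mul hM hB hy (x := 1) ⟨0, by simp⟩ (Commute.one_left y) hχ h0
    rwa [one_mul] at this
  have hDp : IsPGroup p D := by rw [hP]; exact P.isPGroup'.map _
  have hcomm : ∀ d ∈ D, Commute d y := by
    intro d hd
    rw [hP] at hd
    obtain ⟨c, _, rfl⟩ := hd
    exact (Subgroup.mem_centralizer_iff.1 c.2 y rfl).symm
  let f : D × Subgroup.zpowers y →* G :=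
    MonoidHom.noncommCoprod D.subtype (Subgroup.zpowers y).subtype (by
      rintro ⟨d, hd⟩ ⟨z, hz⟩
      obtain ⟨k, rfl⟩ := Subgroup.mem_zpowers_iff.1 hz
      exact (hcomm d hd).zpow_right k)
  have hf : ∀ (d : D) (z : Subgroup.zpowers y), f (d, z) = d * z := fun d z => rfl
  have hchi := H4.CharBasic.isCharacter_comp f (H4.CharBasic.IsIrrCharacter.isCharacter χ.2)
  obtain ⟨s, hs, hsum⟩ := H18.CharBasic.exists_multiset hchi
  by_contra hcon
  apply hunit
  -- every constituent is non-linear
  have key : ∀ ψ ∈ s, Cfsg.MemLocalIdeal M (ψ (1, ⟨y, Subgroup.mem_zpowers y⟩)) := by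
    intro ψ hψ
    obtain ⟨n, ρ, hρ, rfl⟩ := hs ψ hψ
    set yy : D × Subgroup.zpowers y := (1, ⟨y, Subgroup.mem_zpowers y⟩) with hyy
    have hcen : ∀ z ∈ (⊥ : Subgroup D).prod (⊤ : Subgroup (Subgroup.zpowers y)),
        z ∈ Subgroup.center (D × Subgroup.zpowers y) := by
      rintro ⟨d, z⟩ hz
      rw [Subgroup.mem_prod] at hz
      have h1 : d = 1 := Subgroup.mem_bot.1 hz.1
      rw [Subgroup.mem_center_iff]
      rintro ⟨d', z'⟩
      have h2 : z' * z = z * z' := by
        obtain ⟨k, hk⟩ := Subgroup.mem_zpowers_iff.1 z.2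
        obtain ⟨l, hl⟩ := Subgroup.mem_zpowers_iff.1 z'.2
        apply Subtype.ext
        rw [Subgroup.coe_mul, Subgroup.coe_mul, ← hk, ← hl]
        exact ((Commute.refl y).zpow_zpow l k).eq
      rw [h1]
      simp only [Prod.mk_mul_mk, mul_one, one_mul, h2]
    have hdvd : Module.finrank ℂ (Fin n → ℂ) ∣ Nat.card D := by
      have h1 := H4.CenterIndex.finrank_dvd_index_of_scalar ρ hρ
        ((⊥ : Subgroup D).prod (⊤ : Subgroup (Subgroup.zpowers y)))
        (fun z hz => H4.CenterIndex.exists_scalar_of_center ρ hρ (hcen z hz))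
      rwa [Subgroup.index_prod, Subgroup.index_bot, Subgroup.index_top, mul_one] at h1
    obtain ⟨k, hk⟩ := IsPGroup.iff_card.1 hDp
    rw [hk] at hdvd
    obtain ⟨j, hj, hj'⟩ := (Nat.dvd_prime_pow (Fact.out : p.Prime)).1 hdvd
    rcases Nat.eq_zero_or_pos j with hj0 | hj0
    · exfalso
      rw [hj0, pow_zero] at hj'
      have hdeg : ρ.character 1 = 1 := by rw [Representation.char_one, hj']; simp
      obtain ⟨g, hg⟩ := H18.CharQuot.exists_hom_of_degree_one
        (H4.CharBasic.isCharacter_character ρ) hdeg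
      apply hcon
      refine ⟨g.comp (MonoidHom.inl D (Subgroup.zpowers y)), fun z => ?_⟩
      have hz1 : ‖(lam z : ℂ)‖ = 1 := H18.CharBasic.hom_norm_one lam z
      set zz : D × Subgroup.zpowers y := (⟨(z : G), hZD z.2⟩, 1) with hzz
      obtain ⟨t, ht⟩ := Multiset.exists_cons_of_mem hψ
      have htc : Cfsg.IsCharacter (D × Subgroup.zpowers y) t.sum := by
        apply H18.CharBasic.isCharacter_multiset_sum
        intro χ' hχ'
        exact H4.CharBasic.IsIrrCharacter.isCharacter
          (hs χ' (by rw [ht]; exact Multiset.mem_cons_of_mem hχ'))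
      have hsplit : (χ : G → ℂ) ∘ f = ρ.character + t.sum := by
        rw [hsum, ht, Multiset.sum_cons]
      have e1 : f zz = z := by rw [hzz, hf]; simp
      have e2 : ρ.character zz + t.sum zz = (χ : G → ℂ) z := by
        have := congrFun hsplit zz
        rw [Function.comp, e1] at this
        exact this.symm
      have e3 : ρ.character 1 + t.sum 1 = (χ : G → ℂ) 1 := by
        have := congrFun hsplit 1
        rw [Function.comp, map_one] at this
        exact this.symm
      obtain ⟨b, hb⟩ := H4.CharBasic.IsCharacter.exists_degree htc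
      have n1 := H4.CharBasic.IsCharacter.norm_le (H4.CharBasic.isCharacter_character ρ) zz
      have n2 := H4.CharBasic.IsCharacter.norm_le htc zz
      rw [hdeg] at n1
      rw [hb] at n2
      have h1 := two_term (a := 1) (b := b) (u := ρ.character zz) (v := t.sum zz)
        (w := (lam z : ℂ)) (by simpa using n1) (by simpa using n2) hz1 (by
          rw [e2, hover z, ← e3, hdeg, hb]; simp)
      rw [Nat.cast_one, one_mul] at h1
      apply Units.ext
      rw [← h1]
      have h2 := congrFun hg zz
      rw [h2]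
      rfl
    · obtain ⟨c, hc⟩ := H4.CenterIndex.exists_scalar_of_center ρ hρ (z := yy)
        (hcen yy (by rw [Subgroup.mem_prod]; exact ⟨Subgroup.mem_bot.2 rfl, Subgroup.mem_top _⟩))
      have hcint : IsIntegral ℤ c := by
        have hpos : 0 < orderOf yy := orderOf_pos yy
        have h1 : c ^ orderOf yy = 1 := by
          have h2 : ρ (yy ^ orderOf yy) = c ^ orderOf yy • (LinearMap.id : (Fin n → ℂ) →ₗ[ℂ] _) := by
            rw [map_pow, hc]
            have : ∀ m : ℕ, (c • (LinearMap.id : (Fin n → ℂ) →ₗ[ℂ] (Fin n → ℂ))) ^ m =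
                c ^ m • LinearMap.id := by
              intro m
              rw [smul_pow]; congr 1; exact one_pow m
            exact this _
          rw [pow_orderOf_eq_one, map_one] at h2
          have hn : 0 < Module.finrank ℂ (Fin n → ℂ) :=
            H4.CharBasic.finrank_pos_of_isIrreducible hρ
          have hnt : Nontrivial (Fin n → ℂ) := Module.finrank_pos_iff.1 hn
          obtain ⟨v, hv⟩ := exists_ne (0 : Fin n → ℂ)
          have h3 := LinearMap.congr_fun h2 v
          simp only [Module.End.one_apply, LinearMap.smul_apply, LinearMap.id_apply] at h3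
          have h4 : (c ^ orderOf yy - 1) • v = 0 := by rw [sub_smul, one_smul, ← h3, sub_self]
          rcases smul_eq_zero.1 h4 with h5 | h5
          · exact sub_eq_zero.1 h5
          · exact absurd h5 hv
        exact IsIntegral.of_pow hpos (by rw [h1]; exact isIntegral_one)
      have h1 : ρ.character yy = (p : ℂ) * (((p ^ (j - 1) : ℕ) : ℂ) * c) := by
        rw [Representation.character, hc, map_smul, ← Module.End.one_eq_id, LinearMap.trace_one,
          hj']
        obtain ⟨i, rfl⟩ := Nat.exists_eq_succ_of_ne_zero hj0.ne'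
        simp only [Nat.succ_eq_add_one, Nat.add_sub_cancel, smul_eq_mul, Nat.cast_pow]
        ring
      rw [h1]
      refine H20.Loc.locI_mul_right ?_ (H20.Loc.locR_mul (H20.Loc.locR_natCast _)
        (H20.Loc.isIntegral_mem hcint))
      have : ((p : Cfsg.AlgInt) : ℂ) = (p : ℂ) := by simp
      rw [← this]
      exact H20.Loc.locI_coe_iff.2 hM.2.2
  have e : (χ : G → ℂ) y = s.sum (1, ⟨y, Subgroup.mem_zpowers y⟩) := by
    rw [← hsum, Function.comp, hf]; simp
  rw [e]
  clear e hsum hs
  induction s using Multiset.induction_on with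
  | empty => simpa using H20.Loc.locI_zero
  | cons a t ih =>
    rw [Multiset.sum_cons]
    exact H20.Loc.locI_add (key a (Multiset.mem_cons_self a t))
      (ih fun ψ hψ => key ψ (Multiset.mem_cons_of_mem hψ))

end Cfsg.Agent.S5001
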