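import Cfsg.Statements.S5011


set_option autoImplicit false
open Cfsg

namespace Cfsg.Agent.S5011

/-- Let G be a finite non-abelian simple group and ρ an irreducible complex representation of G on a space of dimension greater than one (irreducible in the sense that the only subspaces invariant under every ρ(x) are 0 and the whole space). Then for every non-identity element g of G, the centralizer of g does not act irreducibly: there is a non-zero proper subspace invariant under ρ(c) for every c commuting with g. -/
theorem result {G : Type*} [Group G] [Finite G] [IsSimpleGroup G]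
    (hG : ¬ IsMulCommutative G) {V : Type*} [AddCommGroup V] [Module ℂ V] [FiniteDimensional ℂ V]
    (ρ : Representation ℂ G V)
    (hirr : ∀ W : Submodule ℂ V, (∀ x : G, ∀ v ∈ W, ρ x v ∈ W) → W = ⊥ ∨ W = ⊤)
    (hdim : 1 < Module.finrank ℂ V) (g : G) (hg : g ≠ 1) :
    ∃ W : Submodule ℂ V, W ≠ ⊥ ∧ W ≠ ⊤ ∧ ∀ c ∈ Subgroup.centralizer ({g} : Set G), ∀ v ∈ W, ρ c v ∈ W := by
  have hnt : Nontrivial V := Module.nontrivial_of_finrank_pos (R := ℂ) (by omega)
  obtain ⟨μ, hμ⟩ := Module.End.exists_eigenvalue (ρ g)
  have hWb : Module.End.eigenspace (ρ g) μ ≠ ⊥ := hμ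
  have hinv : ∀ c ∈ Subgroup.centralizer ({g} : Set G), ∀ v ∈ Module.End.eigenspace (ρ g) μ,
      ρ c v ∈ Module.End.eigenspace (ρ g) μ := by
    intro c hc v hv
    rw [Module.End.mem_eigenspace_iff] at hv ⊢
    have hcg : c * g = g * c := by
      have := Subgroup.mem_centralizer_iff.1 hc g rfl
      exact this.symm
    calc ρ g (ρ c v) = ρ (g * c) v := by rw [map_mul]; rfl
      _ = ρ (c * g) v := by rw [hcg]
      _ = ρ c (ρ g v) := by rw [map_mul]; rfl
      _ = μ • ρ c v := by rw [hv, map_smul]
  by_cases hW : Module.End.eigenspace (ρ g) μ = ⊤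
  · exfalso
    -- the elements acting as scalars form a normal subgroup
    let N : Subgroup G :=
      { carrier := {x | ∃ c : ℂ, ∀ v : V, ρ x v = c • v}
        one_mem' := ⟨1, fun v => by simp⟩
        mul_mem' := by
          rintro x y ⟨c, hc⟩ ⟨d, hd⟩
          refine ⟨c * d, fun v => ?_⟩
          rw [map_mul]
          show ρ x (ρ y v) = _
          rw [hd, map_smul, hc, smul_smul, mul_comm]
        inv_mem' := by
          rintro x ⟨c, hc⟩
          have hc0 : c ≠ 0 := by
            rintro rfl
            obtain ⟨v, hv⟩ := exists_ne (0 : V)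
            apply hv
            have : ρ x⁻¹ (ρ x v) = v := by
              rw [← Module.End.mul_apply, ← map_mul]; simp
            rw [hc, zero_smul, map_zero] at this
            exact this.symm
          refine ⟨c⁻¹, fun v => ?_⟩
          have : ρ x (ρ x⁻¹ v) = v := by
            rw [← Module.End.mul_apply, ← map_mul]; simp
          rw [hc] at this
          calc ρ x⁻¹ v = c⁻¹ • c • ρ x⁻¹ v := by rw [smul_smul, inv_mul_cancel₀ hc0, one_smul]
            _ = c⁻¹ • v := by rw [this] }
    have hNn : N.Normal := by
      constructor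
      rintro x ⟨c, hc⟩ y
      refine ⟨c, fun v => ?_⟩
      calc ρ (y * x * y⁻¹) v = ρ y (ρ x (ρ y⁻¹ v)) := by rw [map_mul, map_mul]; rfl
        _ = c • ρ y (ρ y⁻¹ v) := by rw [hc, map_smul]
        _ = c • v := by rw [← Module.End.mul_apply, ← map_mul]; simp
    have hgN : g ∈ N := by
      refine ⟨μ, fun v => ?_⟩
      have : v ∈ Module.End.eigenspace (ρ g) μ := by rw [hW]; trivial
      exact Module.End.mem_eigenspace_iff.1 this
    have hNtop : N = ⊤ := by
      rcases hNn.eq_bot_or_eq_top with h | h
      · rw [h, Subgroup.mem_bot] at hgN; exact absurd hgN hg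
      · exact h
    obtain ⟨v, hv⟩ := exists_ne (0 : V)
    rcases hirr (Submodule.span ℂ {v}) (by
      intro x w hw
      have hx : x ∈ N := by rw [hNtop]; trivial
      obtain ⟨c, hc⟩ := hx
      rw [hc]; exact Submodule.smul_mem _ _ hw) with h | h
    · rw [Submodule.span_singleton_eq_bot] at h
      exact hv h
    · have h1 := finrank_span_singleton (K := ℂ) hv
      rw [h, finrank_top] at h1
      omega
  · exact ⟨_, hWb, hW, hinv⟩

end Cfsg.Agent.S5011
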