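import Cfsg.Statements.S5075
import Cfsg.Agent.Lib.H85.McMain

set_option autoImplicit false
open Cfsg

namespace Cfsg.Agent.S5075

/-- Let p be an odd prime, V a finite-dimensional vector space over the field with p elements, and H a group of linear automorphisms of V generated by transvections (elements of order p fixing a hyperplane pointwise) and having no nontrivial normal p-subgroup. Then for some n ≥ 1 there are a decomposition V = V₀ ⊕ V₁ ⊕ ⋯ ⊕ Vₙ into H-invariant subspaces and a decomposition of H as the internal direct product of normal subgroups H₁, …, Hₙ such that Hⱼ acts trivially on every Vᵢ with i ≠ j, and Hⱼ induces on Vⱼ exactly the special linear group of Vⱼ or exactly the isometry group of a non-degenerate alternating form on Vⱼ. -/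
theorem result {p : ℕ} [Fact p.Prime] (hp : Odd p) {V : Type*} [AddCommGroup V] [Module (ZMod p) V] [Finite V]
    (H : Subgroup (V ≃ₗ[ZMod p] V)) (T : Set (V ≃ₗ[ZMod p] V)) (hHT : H = Subgroup.closure T)
    (hT : ∀ t ∈ T, orderOf t = p ∧
      Module.finrank (ZMod p) ↥(LinearMap.ker ((t : V →ₗ[ZMod p] V) - LinearMap.id)) + 1 =
        Module.finrank (ZMod p) V)
    (hOp : Cfsg.pCore p ↥H = ⊥) :
    ∃ (n : ℕ) (W : Fin (n + 1) → Submodule (ZMod p) V) (K : Fin n → Subgroup (V ≃ₗ[ZMod p] V)),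
      1 ≤ n ∧ DirectSum.IsInternal W ∧
      (∀ h ∈ H, ∀ i, (W i).map (h : V →ₗ[ZMod p] V) = W i) ∧
      (∀ j, K j ≤ H ∧ ((K j).subgroupOf H).Normal) ∧ ⨆ j, K j = H ∧
      (∀ j, K j ⊓ (⨆ j' ∈ {j' : Fin n | j' ≠ j}, K j') = ⊥) ∧
      (∀ j j', j ≠ j' → ∀ a ∈ K j, ∀ b ∈ K j', a * b = b * a) ∧
      (∀ j, ∀ h ∈ K j, ∀ i : Fin (n + 1), i ≠ j.succ → ∀ v ∈ W i, h v = v) ∧
      (∀ j, ∃ ρ : ↥(K j) →* (↥(W j.succ) ≃ₗ[ZMod p] ↥(W j.succ)),
        (∀ (h : ↥(K j)) (v : ↥(W j.succ)), ((ρ h v : ↥(W j.succ)) : V) = (h : V ≃ₗ[ZMod p] V) (v : V)) ∧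
        ((ρ.range : Set (↥(W j.succ) ≃ₗ[ZMod p] ↥(W j.succ))) =
            {f : ↥(W j.succ) ≃ₗ[ZMod p] ↥(W j.succ) | LinearMap.det (f : ↥(W j.succ) →ₗ[ZMod p] ↥(W j.succ)) = 1} ∨
          ∃ B : LinearMap.BilinForm (ZMod p) ↥(W j.succ), B.IsAlt ∧ B.Nondegenerate ∧
            (ρ.range : Set (↥(W j.succ) ≃ₗ[ZMod p] ↥(W j.succ))) = {f : ↥(W j.succ) ≃ₗ[ZMod p] ↥(W j.succ) | ∀ x y, B (f x) (f y) = B x y})) := by
  classical
  have h3 : 3 ≤ p := by
    have h1 := (Fact.out : p.Prime).two_le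
    rcases hp with ⟨m, hm⟩
    omega
  have h2 : (2 : ZMod p) ≠ 0 := by
    intro h
    have h4 : ((2 : ℕ) : ZMod p) = 0 := by exact_mod_cast h
    rw [ZMod.natCast_eq_zero_iff] at h4
    have := Nat.le_of_dvd (by norm_num) h4
    omega
  have hTr : ∀ t ∈ T, ∃ v φ, H85.Mc.DD H v φ ∧ ∀ x, t x = x + φ x • v := by
    intro t ht
    obtain ⟨v, φ, h4, h5, h6, h7⟩ := H85.Mc.exists_transv t (hT t ht).1 (hT t ht).2
    refine ⟨v, φ, ⟨h4, h5, h6, t, ?_, h7⟩, h7⟩
    rw [hHT]; exact Subgroup.subset_closure ht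
  have hG : H85.Mc.Gen H T := ⟨hHT, hTr⟩
  obtain ⟨n, rep, hrep, hdis, hcov⟩ := H85.Mc.exists_reps H
  by_cases hn : n = 0
  · -- trivial case
    subst hn
    have hTe : T = ∅ := by
      rw [Set.eq_empty_iff_forall_notMem]
      intro t ht
      obtain ⟨v, φ, h4, _⟩ := hTr t ht
      obtain ⟨j, _⟩ := hcov v φ h4
      exact j.elim0
    have hH : H = ⊥ := by rw [hHT, hTe, Subgroup.closure_empty]
    have h1 : ∀ h ∈ H, h = 1 := by intro h hh; rw [hH] at hh; exact Subgroup.mem_bot.1 hh
    refine ⟨1, ![⊤, ⊥], fun _ => ⊥, le_rfl, ?_, ?_, ?_, ?_, ?_, ?_, ?_, ?_⟩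
    · apply H85.Mc.internal_of (P := ![LinearMap.id, 0])
      · intro i x hx
        fin_cases i
        · rfl
        · have : x = 0 := hx
          rw [this, map_zero]
      · intro i j hij x hx
        fin_cases i <;> fin_cases j
        · exact absurd rfl hij
        · have : x = 0 := hx
          rw [this, map_zero]
        · rfl
        · exact absurd rfl hij
      · intro i x
        fin_cases i
        · exact Submodule.mem_top
        · exact Submodule.zero_mem _
      · intro x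
        rw [Fin.sum_univ_two]
        change x + 0 = x
        rw [add_zero]
    · intro h hh i
      rw [h1 h hh]
      exact Submodule.map_id _
    · intro j
      refine ⟨bot_le, ?_⟩
      rw [Subgroup.bot_subgroupOf]
      infer_instance
    · rw [hH]; simp
    · intro j; exact bot_inf_eq _
    · intro j j' _ a ha b hb
      rw [Subgroup.mem_bot.1 ha, Subgroup.mem_bot.1 hb]
    · intro j h hh i _ v _
      rw [Subgroup.mem_bot.1 hh]; rfl
    · intro j
      have hj : j = 0 := Subsingleton.elim _ _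
      subst hj
      refine ⟨1, ?_, Or.inl ?_⟩
      · intro h v
        rw [Subgroup.mem_bot.1 h.2]; rfl
      · have hsub : Subsingleton ((![⊤, ⊥] : Fin 2 → Submodule (ZMod p) V) (Fin.succ 0)) := by
          refine ⟨fun a b => Subtype.ext ?_⟩
          have ha : a.1 = 0 := a.2
          have hb : b.1 = 0 := b.2
          rw [ha, hb]
        ext f
        constructor
        · intro _
          change LinearMap.det _ = 1
          exact LinearMap.det_eq_one_of_subsingleton _
        · intro _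
          refine ⟨1, ?_⟩
          apply LinearEquiv.ext
          intro x
          exact Subsingleton.elim _ _
  -- main case
  have hn1 : 1 ≤ n := Nat.one_le_iff_ne_zero.2 hn
  set S := fun j : Fin n => H85.Mc.sysH h3 hOp hG (rep j) with hS
  have hproj : ∀ j : Fin n, ∃ P : V →ₗ[ZMod p] V, (∀ x ∈ (H85.Mc.sysH h3 hOp hG (rep j)).CU h2, P x = x) ∧
      (∀ x, (∀ v φ, H85.Mc.DH H (rep j) v φ → φ x = 0) → P x = 0) ∧
      (∀ x, P x ∈ (H85.Mc.sysH h3 hOp hG (rep j)).CU h2) ∧ ∀ x v φ, H85.Mc.DH H (rep j) v φ → φ (x - P x) = 0 :=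
    fun j => H85.Mc.exists_proj (H85.Mc.sysH h3 hOp hG (rep j)) h2
  choose P hP1 hP2 hP3 hP4 using hproj
  have hUR : ∀ j j' : Fin n, j ≠ j' → (H85.Mc.sysH h3 hOp hG (rep j')).CU h2 ≤ H85.Mc.Rs H (rep j) :=
    fun j j' hjj' => H85.Mc.CU_le_Rs h3 hOp hG h2 (hdis j j' hjj')
  have hR0 : ∀ x, x - ∑ j, P j x ∈ ⨅ j, H85.Mc.Rs H (rep j) := by
    intro x
    rw [Submodule.mem_iInf]
    intro i
    rw [← Finset.add_sum_erase _ _ (Finset.mem_univ i)]
    have e : x - (P i x + ∑ j ∈ Finset.univ.erase i, P j x) = (x - P i x) - ∑ j ∈ Finset.univ.erase i, P j x := by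
      abel
    rw [e]
    apply Submodule.sub_mem
    · intro v φ h
      exact hP4 i x v φ h
    · apply Submodule.sum_mem
      intro j hj
      exact hUR i j (Finset.ne_of_mem_erase hj).symm (hP3 j x)
  have hKH : ∀ j, H85.Mc.Kg (H85.Mc.DH H (rep j)) ≤ H := fun j => H85.Mc.Kg_le (rep j)
  have hint : ∀ j j', j ≠ j' → ∀ g ∈ H85.Mc.Kg (H85.Mc.DH H (rep j)),
      g ∈ H85.Mc.fixS ((H85.Mc.sysH h3 hOp hG (rep j')).CU h2) := by
    intro j j' hjj' g hg x hx
    exact H85.Mc.Kg_fix (rep j) hg x (hUR j j' hjj' hx)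
  refine ⟨n, Fin.cons (⨅ j, H85.Mc.Rs H (rep j)) (fun j => (H85.Mc.sysH h3 hOp hG (rep j)).CU h2),
    fun j => H85.Mc.Kg (H85.Mc.DH H (rep j)), hn1, ?_, ?_, ?_, ?_, ?_, ?_, ?_, ?_⟩
  · -- internal
    apply H85.Mc.internal_of (P := Fin.cons (LinearMap.id - ∑ j, P j) P)
    · intro i x hx
      induction i using Fin.cases with
      | zero =>
        rw [Fin.cons_zero] at hx ⊢
        rw [Submodule.mem_iInf] at hx
        rw [LinearMap.sub_apply, LinearMap.id_apply, LinearMap.sum_apply, Finset.sum_eq_zero, sub_zero]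
        intro j _
        exact hP2 j x (fun v φ h => hx j v φ h)
      | succ i =>
        rw [Fin.cons_succ] at hx ⊢
        exact hP1 i x hx
    · intro i j hij x hx
      induction i using Fin.cases with
      | zero =>
        induction j using Fin.cases with
        | zero => exact absurd rfl hij
        | succ j =>
          rw [Fin.cons_succ] at hx
          rw [Fin.cons_zero, LinearMap.sub_apply, LinearMap.id_apply, LinearMap.sum_apply,
            Finset.sum_eq_single j, hP1 j x hx, sub_self]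
          · intro i _ hi
            exact hP2 i x (fun v φ h => hUR i j hi hx v φ h)
          · intro h; exact absurd (Finset.mem_univ _) h
      | succ i =>
        rw [Fin.cons_succ]
        induction j using Fin.cases with
        | zero =>
          rw [Fin.cons_zero, Submodule.mem_iInf] at hx
          exact hP2 i x (fun v φ h => hx i v φ h)
        | succ j =>
          rw [Fin.cons_succ] at hx
          exact hP2 i x (fun v φ h => hUR i j (fun h => hij (by rw [h])) hx v φ h)
    · intro i x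
      induction i using Fin.cases with
      | zero =>
        rw [Fin.cons_zero, Fin.cons_zero, LinearMap.sub_apply, LinearMap.id_apply, LinearMap.sum_apply]
        exact hR0 x
      | succ i =>
        rw [Fin.cons_succ, Fin.cons_succ]
        exact hP3 i x
    · intro x
      rw [Fin.sum_univ_succ]
      simp only [Fin.cons_zero, Fin.cons_succ, LinearMap.sub_apply, LinearMap.id_apply, LinearMap.sum_apply]
      abel
  · -- invariance
    have hgen : ∀ W : Submodule (ZMod p) V, (∀ h ∈ H, ∀ x ∈ W, h x ∈ W) →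
        ∀ h ∈ H, W.map (h : V →ₗ[ZMod p] V) = W := by
      intro W hW h hh
      apply le_antisymm
      · rintro _ ⟨x, hx, rfl⟩
        exact hW h hh x hx
      · intro x hx
        exact ⟨h⁻¹ x, hW _ (H.inv_mem hh) x hx, h.apply_symm_apply x⟩
    intro h hh i
    induction i using Fin.cases with
    | zero =>
      rw [Fin.cons_zero]
      apply hgen _ _ h hh
      intro h hh x hx
      rw [Submodule.mem_iInf] at hx ⊢
      intro j
      exact H85.Mc.Rs_inv h3 hOp hG h hh x (hx j)
    | succ i =>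
      rw [Fin.cons_succ]
      exact hgen _ (H85.Mc.CU_inv h3 hOp hG h2 (rep i)) h hh
  · -- normality
    intro j
    refine ⟨hKH j, ⟨fun k hk g => ?_⟩⟩
    exact H85.Mc.Kg_conj h3 hOp hG h2 (rep j) g.2 hk
  · -- generation
    apply le_antisymm
    · exact iSup_le hKH
    · have h5 : Subgroup.closure T ≤ ⨆ j, H85.Mc.Kg (H85.Mc.DH H (rep j)) := by
        rw [Subgroup.closure_le]
        intro t ht
        obtain ⟨v, φ, hD, htx⟩ := hTr t ht
        obtain ⟨j, hj⟩ := hcov v φ hD
        exact (le_iSup (fun j => H85.Mc.Kg (H85.Mc.DH H (rep j))) j) (H85.Mc.Kg_mem hj htx)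
      exact hHT.le.trans h5
  · -- trivial intersections
    intro j
    rw [eq_bot_iff]
    rintro g ⟨hg, hg'⟩
    rw [Subgroup.mem_bot]
    apply H85.Mc.eq_one_of_fix h3 hOp hG h2 (rep j) (H85.Mc.Kg_fix (rep j) hg)
    have h4 : (⨆ j' ∈ {j' : Fin n | j' ≠ j}, H85.Mc.Kg (H85.Mc.DH H (rep j'))) ≤
        H85.Mc.fixS ((H85.Mc.sysH h3 hOp hG (rep j)).CU h2) := by
      apply iSup_le; intro j'
      apply iSup_le; intro hj'
      exact hint j' j hj'
    exact h4 hg'
  · -- commuting
    intro j j' hjj' a ha b hb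
    have h4 : a * b * a⁻¹ * b⁻¹ = 1 := by
      apply H85.Mc.eq_one_of_fix h3 hOp hG h2 (rep j)
      · have h5 : b * a⁻¹ * b⁻¹ ∈ H85.Mc.Kg (H85.Mc.DH H (rep j)) :=
          H85.Mc.Kg_conj h3 hOp hG h2 (rep j) (hKH j' hb) (Subgroup.inv_mem _ ha)
        have h6 := H85.Mc.Kg_fix (rep j) (Subgroup.mul_mem _ ha h5)
        have e : a * (b * a⁻¹ * b⁻¹) = a * b * a⁻¹ * b⁻¹ := by group
        rwa [e] at h6
      · have h5 : a * b * a⁻¹ ∈ H85.Mc.Kg (H85.Mc.DH H (rep j')) :=
          H85.Mc.Kg_conj h3 hOp hG h2 (rep j') (hKH j ha) hb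
        exact hint j' j hjj'.symm _ (Subgroup.mul_mem _ h5 (Subgroup.inv_mem _ hb))
    rw [mul_inv_eq_one, mul_inv_eq_iff_eq_mul] at h4
    exact h4
  · -- trivial action
    intro j h hh i hi v hv
    induction i using Fin.cases with
    | zero =>
      rw [Fin.cons_zero, Submodule.mem_iInf] at hv
      exact H85.Mc.Kg_fix (rep j) hh v (hv j)
    | succ i =>
      rw [Fin.cons_succ] at hv
      exact hint j i (fun h => hi (by rw [h])) h hh v hv
  · -- the action on the components
    intro j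
    have h4 := H85.Mc.comp_structure (H85.Mc.sysH h3 hOp hG (rep j)) h2
      ⟨(rep j).1, (rep j).2, hrep j, H85.Mc.con_refl _⟩ (H85.Mc.Kg_real (rep j))
    exact ⟨H85.Mc.resU (H85.Mc.Kg (H85.Mc.DH H (rep j))) _ (H85.Mc.Kg_inv (H85.Mc.sysH h3 hOp hG (rep j)) h2),
      fun h v => rfl, h4⟩

end Cfsg.Agent.S5075
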