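import Cfsg.Statements.S5125
import Cfsg.Agent.Lib.H89.Normal2
import Cfsg.Agent.Lib.H87.Basic

set_option autoImplicit false
open Cfsg

namespace Cfsg.Agent.S5125

section
open Cfsg.FusionSystem H86.FusBasic H86.FusSat H86.FusAlperin H89.Normal H89.Normal2
open scoped commutatorElement

theorem key {Ω : Type*} [Group Ω] {S : Subgroup Ω} [Finite S] {p : ℕ} [hp : Fact p.Prime] (hS : IsPGroup p S)
    {F : FusionSystem S} {P Q Q₁ : Subgroup Ω} (hPc : F.IsCentric P) (hPr : F.IsRadical p P)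
    (hQ : F.StronglyClosed Q) (hQ₁ : F.StronglyClosed Q₁) (hQ₁P : Q₁ ≤ P)
    (hab : ⁅Q, Q⁆ ≤ Q₁) (hAut : IsPGroup p ↥(F.autGroup Q₁)) : Q ≤ P := by
  have hfP : Finite P := H86.FusSat.finite_of_le hPc.1
  have hfA : Finite (MulAut P) := finite_mulAut P
  have hQN : S ≤ Subgroup.normalizer (Q : Set Ω) := by
    intro s hs
    rw [Subgroup.mem_normalizer_iff]
    intro x
    constructor
    · intro hx
      exact stronglyClosed_apply_mem hQ (F.conj_mem le_rfl hs) (x := ⟨x, hQ.1 hx⟩) hx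
    · intro hx
      have hx' : s * x * s⁻¹ ∈ S := hQ.1 hx
      have := stronglyClosed_apply_mem hQ (F.conj_mem le_rfl (S.inv_mem hs)) (x := ⟨_, hx'⟩) hx
      simpa [conjHom, mul_assoc] using this
  have inv : ∀ α ∈ F.autGroup P, ∀ x : P, (x : Ω) ∈ Q → ((α x : P) : Ω) ∈ Q := fun α hα x hx =>
    stronglyClosed_apply_mem hQ ((H86.FusBasic.mem_autGroup F hPc.1).1 hα) hx
  have inv₁ : ∀ α ∈ F.autGroup P, ∀ x : P, (x : Ω) ∈ Q₁ → ((α x : P) : Ω) ∈ Q₁ := fun α hα x hx =>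
    stronglyClosed_apply_mem hQ₁ ((H86.FusBasic.mem_autGroup F hPc.1).1 hα) hx
  let B : Subgroup (MulAut P) :=
    { carrier := {β | β ∈ F.autGroup P ∧ (∀ x : P, (x : Ω)⁻¹ * (β x : P) ∈ Q) ∧
        ∀ x : P, (x : Ω) ∈ Q → (x : Ω)⁻¹ * (β x : P) ∈ Q₁}
      mul_mem' := by
        rintro α β ⟨ha, ha1, ha2⟩ ⟨hb, hb1, hb2⟩
        have key : ∀ x : P, (x : Ω)⁻¹ * ((α * β) x : P) =
            ((x : Ω)⁻¹ * (α x : P)) * (α (x⁻¹ * β x) : P) := by
          intro x
          rw [map_mul, map_inv, MulAut.mul_apply]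
          simp [mul_assoc]
        refine ⟨Subgroup.mul_mem _ ha hb, fun x => ?_, fun x hx => ?_⟩
        · rw [key]
          exact Q.mul_mem (ha1 x) (inv α ha _ (hb1 x))
        · rw [key]
          exact Q₁.mul_mem (ha2 x hx) (inv₁ α ha _ (hb2 x hx))
      one_mem' := ⟨Subgroup.one_mem _, fun x => by simp, fun x hx => by simp⟩
      inv_mem' := by
        rintro α ⟨ha, ha1, ha2⟩
        have key : ∀ x : P, (x : Ω)⁻¹ * (α⁻¹ x : P) =
            (((α⁻¹ (x⁻¹ * α x) : P) : Ω))⁻¹ := by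
          intro x
          rw [map_mul, map_inv, MulAut.inv_apply_self]
          simp
        have ha' := Subgroup.inv_mem _ ha
        refine ⟨ha', fun x => ?_, fun x hx => ?_⟩
        · rw [key]
          exact Q.inv_mem (inv _ ha' _ (ha1 x))
        · rw [key]
          exact Q₁.inv_mem (inv₁ _ ha' _ (ha2 x hx)) }
  refine le_of_radical hS hPc hPr hQ.1 (hPc.1.trans hQN) B (fun β hβ => hβ.1) ?_ ?_ ?_
  · rintro α hα β ⟨hb, hb1, hb2⟩
    have hα' := Subgroup.inv_mem _ hα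
    have key : ∀ x : P, (x : Ω)⁻¹ * ((α * β * α⁻¹) x : P) =
        (α ((α⁻¹ x)⁻¹ * β (α⁻¹ x)) : P) := by
      intro x
      rw [map_mul, map_inv, MulAut.apply_inv_self, MulAut.mul_apply, MulAut.mul_apply]
      simp
    refine ⟨Subgroup.mul_mem _ (Subgroup.mul_mem _ hα hb) hα', fun x => ?_, fun x hx => ?_⟩
    · rw [key]
      exact inv α hα _ (hb1 _)
    · rw [key]
      exact inv₁ α hα _ (hb2 _ (inv _ hα' x hx))
  · refine isPGroup_of_coprime ?_
    rintro ⟨β, hb, hb1, hb2⟩ hord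
    have hord' : (orderOf β).Coprime p := by
      have h0 := Subgroup.orderOf_coe (⟨β, ⟨hb, hb1, hb2⟩⟩ : B)
      rw [← h0] at hord
      exact hord
    have hPp : IsPGroup p P := hS.to_le hPc.1
    -- the restriction to Q₁
    have hi := H87.Basic.StronglyClosed.isMap_iso hQ₁ (H87.Base.isMap_of_mem ((H86.FusBasic.mem_autGroup F hPc.1).1 hb)) hQ₁P
    have hγ : ∀ x (hx : x ∈ Q₁), ((hi.aut ⟨x, hx⟩ : Q₁) : Ω) = (β ⟨x, hQ₁P hx⟩ : P) := by
      intro x hx
      rw [H87.Base.IsIso.aut_apply, H87.Base.extFun_apply _ (hQ₁P hx)]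
      rfl
    have hpow : ∀ k : ℕ, ∀ x (hx : x ∈ Q₁), (((hi.aut ^ k) ⟨x, hx⟩ : Q₁) : Ω) = ((β ^ k) ⟨x, hQ₁P hx⟩ : P) := by
      intro k
      induction k with
      | zero => intro x hx; rfl
      | succ k ih =>
        intro x hx
        rw [pow_succ', pow_succ', MulAut.mul_apply, MulAut.mul_apply]
        have h1 := hγ _ ((hi.aut ^ k) ⟨x, hx⟩).2
        refine h1.trans ?_
        congr 2
        exact Subtype.ext (ih x hx)
    have hone : hi.aut = 1 := by
      have h1 : hi.aut ^ orderOf β = 1 := by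
        ext ⟨x, hx⟩
        rw [hpow, pow_orderOf_eq_one]
        rfl
      obtain ⟨j, hj⟩ := hAut ⟨hi.aut, hi.aut_mem⟩
      have h2 : hi.aut ^ p ^ j = 1 := congrArg Subtype.val hj
      have h3 : orderOf hi.aut ∣ 1 := by
        rw [← Nat.Coprime.gcd_eq_one (Nat.Coprime.pow_right j hord')]
        exact Nat.dvd_gcd (orderOf_dvd_of_pow_eq_one h1) (orderOf_dvd_of_pow_eq_one h2)
      rwa [Nat.dvd_one, orderOf_eq_one_iff] at h3
    have f1 : ∀ x : P, (x : Ω) ∈ Q₁ → β x = x := by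
      rintro ⟨x, hxP⟩ hx
      have h1 := hγ x hx
      rw [hone] at h1
      exact Subtype.ext h1.symm
    have f2 : ∀ x : P, (x : Ω) ∈ Q → β x = x := by
      intro x hx
      apply coprime_fix hPp hord'
      exact f1 _ (hb2 x hx)
    refine Subtype.ext (MulEquiv.ext fun x => ?_)
    show β x = x
    apply coprime_fix hPp hord'
    exact f2 _ (hb1 x)
  · intro g hg hgN
    refine ⟨autInducedBy_le_autGroup F hPc.1 (conjAut_mem_autInducedBy hgN (hQ.1 hg)), fun x => ?_, fun x hx => ?_⟩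
    · show (x : Ω)⁻¹ * (g * x * g⁻¹) ∈ Q
      have h1 : (x : Ω)⁻¹ * g * x ∈ Q := by
        have := (Subgroup.mem_normalizer_iff.1 (hQN (S.inv_mem (hPc.1 x.2))) g).1 hg
        simpa using this
      have h3 : (x : Ω)⁻¹ * (g * x * g⁻¹) = ((x : Ω)⁻¹ * g * x) * g⁻¹ := by group
      rw [h3]
      exact Q.mul_mem h1 (Q.inv_mem hg)
    · show (x : Ω)⁻¹ * (g * x * g⁻¹) ∈ Q₁
      apply hab
      have h3 : (x : Ω)⁻¹ * (g * x * g⁻¹) = ⁅(x : Ω)⁻¹, g⁆ := by
        rw [commutatorElement_def]; group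
      rw [h3]
      exact Subgroup.commutator_mem_commutator (Q.inv_mem hx) hg
end

/-- Let F be a saturated fusion system over a finite p-group S and Q a subgroup strongly closed in F. If Q has a subgroup Q₁ that is normal in F, with Q/Q₁ abelian and Aut_F(Q₁) a p-group, then Q is normal in F. -/
theorem result {Ω : Type*} [Group Ω] {S : Subgroup Ω} [Finite S] (p : ℕ) [Fact p.Prime] (hS : IsPGroup p S) (F : Cfsg.FusionSystem S) (hF : F.IsSaturated p) (Q Q₁ : Subgroup Ω) (hQ : F.StronglyClosed Q) (hQ₁Q : Q₁ ≤ Q) (hQ₁ : F.IsNormal Q₁) (hab : ⁅Q, Q⁆ ≤ Q₁) (hAut : IsPGroup p ↥(F.autGroup Q₁)) : F.IsNormal Q := by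
  rw [H89.Normal.isNormal_iff_stronglyClosed_le_radical hS hF]
  refine ⟨hQ, fun P hPc hPr => ?_⟩
  exact key hS hPc hPr hQ (H89.Normal.stronglyClosed_of_isNormal hQ₁)
    (H89.Normal.isNormal_le_of_radical hS hQ₁ hPc hPr) hab hAut

end Cfsg.Agent.S5125
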