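import Cfsg.Statements.S5127
import Cfsg.Agent.Lib.H90.CSE6

set_option autoImplicit false
open Cfsg

namespace Cfsg.Agent.S5127
open H87.Base H87.Basic H87.CMap H87.Sat

/-- Let F be a saturated fusion system over a finite p-group S and E a normal subsystem of F over T. Among the subgroups Y of C_S(T) whose centralizer system C_F(Y) contains E there is a largest one, C_S(E), and it is strongly closed in F. -/
theorem result {Ω : Type*} [Group Ω] {S : Subgroup Ω} [Finite S] (p : ℕ) [Fact p.Prime] (hS : IsPGroup p S) (F : Cfsg.FusionSystem S) (hF : F.IsSaturated p) {T : Subgroup Ω} (E : Cfsg.FusionSystem T) (hE : E.IsNormalIn F p) : ∃ C : Subgroup Ω, C ≤ Cfsg.FusionSystem.centralizerIn S T ∧ (∀ P : Subgroup Ω, E.Hom P ⊆ F.centralizerHom C P) ∧ (∀ Y : Subgroup Ω, Y ≤ Cfsg.FusionSystem.centralizerIn S T → (∀ P : Subgroup Ω, E.Hom P ⊆ F.centralizerHom Y P) → Y ≤ C) ∧ F.StronglyClosed C := by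
  have hT : F.StronglyClosed T := hE.1.2.2.2.1
  refine ⟨H90.CSE2.CS F E p, H90.CSE2.CS_le, fun P φ hφ => ?_, fun Y hY hEY => ?_, H90.CSE6.CS_stronglyClosed hS hE⟩
  · have hm := isMap_of_mem hφ
    obtain ⟨g, hg, g1, g2⟩ := H90.CSE3.wx_all hS hE P _ hm.le hm
    refine (mem_centralizerHom_iff (f := extFun φ) fun x => (extFun_coe φ x).symm).2 ⟨?_, ?_, g, hg, g1, g2⟩
    · intro x hx
      refine mem_centralizerIn.2 ⟨hT.1 (hm.le hx), fun y hy => ?_⟩
      exact ((mem_centralizerIn.1 (H90.CSE2.CS_le hy)).2 x (hm.le hx)).symm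
    · intro x hx
      refine mem_centralizerIn.2 ⟨hT.1 (hm.mem hx), fun y hy => ?_⟩
      exact ((mem_centralizerIn.1 (H90.CSE2.CS_le hy)).2 _ (hm.mem hx)).symm
  · refine H90.CSE2.le_CS_of hS hF (H87.Frat.sinv_of_invariant hE.1.2.2) hT hY fun P f hf => ?_
    obtain ⟨φ, hφ, e⟩ := hf
    exact (mem_centralizerHom_iff e).1 (hEY P hφ)

end Cfsg.Agent.S5127
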