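import Cfsg.Statements.S5136
import Cfsg.Agent.Lib.H87.Prod

set_option autoImplicit false
open Cfsg

namespace Cfsg.Agent.S5136

/-- Let F₁ and F₂ be fusion systems over finite p-groups S₁ and S₂ (inside ambient groups Ω₁ and Ω₂). Then their direct product exists: there is a fusion system over S₁ × S₂ inside Ω₁ × Ω₂ whose maps with source P ≤ S₁ × S₂ are exactly the restrictions to P of the homomorphisms (x₁, x₂) ↦ (φ₁ x₁, φ₂ x₂) with φ₁ a map of F₁ on the first projection of P and φ₂ a map of F₂ on the second projection. -/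
theorem result {Ω₁ Ω₂ : Type*} [Group Ω₁] [Group Ω₂] {S₁ : Subgroup Ω₁} {S₂ : Subgroup Ω₂} [Finite S₁] [Finite S₂] (p : ℕ) [Fact p.Prime] (h₁ : IsPGroup p S₁) (h₂ : IsPGroup p S₂) (F₁ : Cfsg.FusionSystem S₁) (F₂ : Cfsg.FusionSystem S₂) : ∃ E : Cfsg.FusionSystem (S₁.prod S₂), Cfsg.FusionSystem.IsProductSystem F₁ F₂ E := by
  exact H87.Prod.exists_productSystem F₁ F₂

end Cfsg.Agent.S5136
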