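import Cfsg.Statements.S5222
import Cfsg.Agent.Lib.H88.Tate2

set_option autoImplicit false
open Cfsg

namespace Cfsg.Agent.S5222

/-- Let F be a saturated fusion system over a finite p-group S whose normalizer fusion system of S is the inner fusion system of S (Aut_F(S) is a p-group). Then for every subgroup Q of S with [S, S] ≤ Q ≤ Φ(S), the normalizer fusion system of Q in F is the inner fusion system of N_S(Q) = S. -/
theorem result {Ω : Type*} [Group Ω] {S : Subgroup Ω} [Finite S] (p : ℕ) [Fact p.Prime] (hS : IsPGroup p S) (F : Cfsg.FusionSystem S) (hF : F.IsSaturated p) (hN : ∀ N : Cfsg.FusionSystem (Cfsg.FusionSystem.normalizerIn S S), F.IsNormalizerSystem S N → ∀ P : Subgroup Ω, N.Hom P = (Cfsg.innerFusionSystem (Cfsg.FusionSystem.normalizerIn S S)).Hom P) (Q : Subgroup Ω) (h1 : (commutator ↥S).map S.subtype ≤ Q) (h2 : Q ≤ (frattini ↥S).map S.subtype) : ∀ N : Cfsg.FusionSystem (Cfsg.FusionSystem.normalizerIn S Q), F.IsNormalizerSystem Q N → ∀ P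 : Subgroup Ω, N.Hom P = (Cfsg.innerFusionSystem (Cfsg.FusionSystem.normalizerIn S Q)).Hom P := by
  intro N hNQ P
  refine H88.Tate2.normalizer_inner hS hF ?_ h1 h2 hNQ P
  intro α hα
  have hα' := (H86.FusBasic.mem_autGroup F le_rfl).1 hα
  have h3 := hN _ (H89.KSat3.isNormalizerSystem_nSys F S le_rfl) S
  have h4 : S.subtype.comp α.toMonoidHom ∈ F.normalizerHom S S := by
    refine ⟨hα', H86.FusSat.le_normalizerIn le_rfl, fun x => H86.FusSat.le_normalizerIn le_rfl (α x).2, ?_⟩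
    refine ⟨(S.subtype.comp α.toMonoidHom).comp (Subgroup.inclusion (sup_le le_rfl le_rfl)),
      H86.FusBasic.restrict_mem F hα' _, fun x => rfl, ?_⟩
    ext y
    constructor
    · rintro ⟨x, hx, rfl⟩
      exact (α _).2
    · intro hy
      refine ⟨⟨(α.symm ⟨y, hy⟩ : S), Subgroup.mem_sup_left (α.symm ⟨y, hy⟩).2⟩, (α.symm ⟨y, hy⟩).2, ?_⟩
      show ((α (α.symm ⟨y, hy⟩) : S) : Ω) = y
      rw [α.apply_symm_apply]
  rw [← H89.KSat3.isNormalizerSystem_nSys F S le_rfl S, h3] at h4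
  obtain ⟨-, g, hg, hx⟩ := h4
  exact ⟨g, hg.1, hx⟩

end Cfsg.Agent.S5222
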