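import Cfsg.Statements.S5226
import Cfsg.Agent.Lib.H88.Chains

set_option autoImplicit false
open Cfsg

namespace Cfsg.Agent.S5226

/-- Let F be a saturated fusion system over a finite p-group S and Q a subgroup of S. Then Q is normal in F (F equals the normalizer system of Q) if and only if Q is strongly closed in F and admits a central series 1 = Q₀ ≤ Q₁ ≤ ⋯ ≤ Qₙ = Q ([Qᵢ₊₁, Q] ≤ Qᵢ) all of whose proper terms are weakly closed in F. -/
theorem result {Ω : Type*} [Group Ω] {S : Subgroup Ω} [Finite S] (p : ℕ) [Fact p.Prime] (hS : IsPGroup p S) (F : Cfsg.FusionSystem S) (hF : F.IsSaturated p) (Q : Subgroup Ω) : F.IsNormal Q ↔ F.StronglyClosed Q ∧ ∃ (n : ℕ) (C : Fin (n + 1) → Subgroup Ω), C 0 = ⊥ ∧ C (Fin.last n) = Q ∧ Monotone C ∧ (∀ i : Fin n, ⁅C i.succ, Q⁆ ≤ C i.castSucc) ∧ ∀ i : Fin n, F.WeaklyClosed (C i.castSucc) := by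
  constructor
  · intro hQ
    refine ⟨H89.Normal.stronglyClosed_of_isNormal hQ, ?_⟩
    obtain ⟨n, C, h0, hn, hm, h⟩ := (H89.Normal3.isNormal_iff_chain hS hF).1 hQ
    refine ⟨n, C, h0, hn, hm, fun i => ?_, fun i => ?_⟩
    · rw [Subgroup.commutator_comm]
      exact (h i).2
    · cases n with
      | zero => exact i.elim0
      | succ n =>
        refine Fin.cases ?_ (fun i => ?_) i
        · rw [Fin.castSucc_zero, h0]
          refine ⟨bot_le, fun φ hφ => ?_⟩
          rw [eq_bot_iff]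
          rintro _ ⟨x, rfl⟩
          have : x = 1 := Subsingleton.elim _ _
          rw [this, map_one]
          exact Subgroup.one_mem _
        · rw [← Fin.succ_castSucc]
          exact H88.Chains.weaklyClosed_of_stronglyClosed (h i.castSucc).1
  · rintro ⟨hQ, n, C, h0, hn, hm, hcomm, hw⟩
    let d : ℕ → Subgroup Ω := fun i => if hi : i < n + 1 then C ⟨i, hi⟩ else ⊤
    have hd : ∀ i (hi : i < n + 1), d i = C ⟨i, hi⟩ := fun i hi => dif_pos hi
    refine H88.Chains.isNormal_of_weaklyClosed_chain hS hF n d ?_ ?_ ?_ hQ ?_ ?_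
    · rw [hd 0 (Nat.succ_pos n)]; exact h0
    · rw [hd n (Nat.lt_succ_self n)]; exact hn
    · intro i hi
      rw [hd (i + 1) (Nat.succ_lt_succ hi), hd i (Nat.lt_succ_of_lt hi)]
      exact hm (by simp [Fin.le_def])
    · intro i hi
      rw [hd (i + 1) (Nat.succ_lt_succ hi), hd i (Nat.lt_succ_of_lt hi)]
      exact hcomm ⟨i, hi⟩
    · intro i hi
      rw [hd i (Nat.lt_succ_of_lt hi)]
      exact hw ⟨i, hi⟩

end Cfsg.Agent.S5226
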