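import Cfsg.Statements.S5256
import Cfsg.Agent.Lib.H89.FacHyp

set_option autoImplicit false
open Cfsg

namespace Cfsg.Agent.S5256

/-- Let F be a saturated fusion system over a finite p-group S, T a subgroup of S strongly closed in F, and E a factor system F/T realised along a homomorphism θ of S with kernel T. Then the hyperfocal subgroup of E is the image under θ of the hyperfocal subgroup of F (hyp(F/T) = T·hyp(F)/T). -/
theorem result {Ω : Type*} [Group Ω] {S : Subgroup Ω} [Finite S] (p : ℕ) [Fact p.Prime] (hS : IsPGroup p S) (F : Cfsg.FusionSystem S) (hF : F.IsSaturated p) (T : Subgroup Ω) (hT : F.StronglyClosed T) {Ω' : Type*} [Group Ω'] {S' : Subgroup Ω'} (θ : ↥S →* Ω') (E : Cfsg.FusionSystem S') (hE : F.IsFactorSystem T θ E) : E.hyperfocalSubgroup p = ((F.hyperfocalSubgroup p).subgroupOf S).map θ := by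
  exact H89.FacHyp.hyp_factor hS hF hT hE

end Cfsg.Agent.S5256
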