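import Cfsg.Statements.S5293
import Cfsg.Agent.Lib.H90.CSE3

set_option autoImplicit false
open Cfsg

namespace Cfsg.Agent.S5293
open H87.Base H87.Basic H87.CMap H87.Sat

/-- Let F be a saturated fusion system over a finite p-group S, E a normal subsystem of F over T ≤ S, and C the join of the subgroups X ≤ C_S(T) such that E is contained in the centralizer system C_F(X). Then for the centralizer fusion system C_F(T) over C_S(T), the focal subgroup of C_F(T) is contained in C. -/
theorem result {Ω : Type*} [Group Ω] {S : Subgroup Ω} [Finite S] (p : ℕ) [Fact p.Prime] (hS : IsPGroup p S)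
    (F : Cfsg.FusionSystem S) (hF : F.IsSaturated p)
    {T : Subgroup Ω} (E : Cfsg.FusionSystem T) (hE : E.IsNormalIn F p)
    (C : Subgroup Ω)
    (hC : C = sSup {X : Subgroup Ω | X ≤ Cfsg.FusionSystem.centralizerIn S T ∧ ∀ P : Subgroup Ω, E.Hom P ⊆ F.centralizerHom X P})
    (D : Cfsg.FusionSystem (Cfsg.FusionSystem.centralizerIn S T)) (hD : F.IsCentralizerSystem T D) :
    D.focalSubgroup ≤ C := by
  have hT : F.StronglyClosed T := hE.1.2.2.2.1
  refine (H90.CSE2.focal_le_CS (E := E) hS hF hT hD).trans ?_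
  rw [hC]
  refine le_sSup ⟨H90.CSE2.CS_le, fun P φ hφ => ?_⟩
  have hm := isMap_of_mem hφ
  obtain ⟨g, hg, g1, g2⟩ := H90.CSE3.wx_all hS hE P _ hm.le hm
  refine (mem_centralizerHom_iff (f := extFun φ) fun x => (extFun_coe φ x).symm).2 ⟨?_, ?_, g, hg, g1, g2⟩
  · intro x hx
    refine mem_centralizerIn.2 ⟨hT.1 (hm.le hx), fun y hy => ?_⟩
    exact ((mem_centralizerIn.1 (H90.CSE2.CS_le hy)).2 x (hm.le hx)).symm
  · intro x hx
    refine mem_centralizerIn.2 ⟨hT.1 (hm.mem hx), fun y hy => ?_⟩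
    exact ((mem_centralizerIn.1 (H90.CSE2.CS_le hy)).2 _ (hm.mem hx)).symm

end Cfsg.Agent.S5293
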