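import Cfsg.Statements.S5300
import Cfsg.Agent.Lib.H89.SmallFus

set_option autoImplicit false
universe u
open Cfsg

namespace Cfsg.Agent.S5300

/-- Let F be a saturated fusion system over a finite p-group S. If every cyclic subgroup of the focal subgroup of F of order p (of order 2 or 4 when p = 2) is normal in S, then S is normal in F. -/
theorem result {Ω : Type u} [Group Ω] {S : Subgroup Ω} [Finite S] (p : ℕ) [Fact p.Prime] (hS : IsPGroup p S)
    (F : Cfsg.FusionSystem S) (hF : F.IsSaturated p)
    (hnorm : ∀ x ∈ F.focalSubgroup, (x ^ p = 1 ∨ (p = 2 ∧ x ^ 4 = 1)) → ∀ s ∈ S, s * x * s⁻¹ ∈ Subgroup.zpowers x) :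
    F.IsNormal S := by
  exact H89.SmallFus.top_normal_of_cyclic_normal hS hF hnorm

end Cfsg.Agent.S5300
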