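import Cfsg.Statements.S5315
import Cfsg.Agent.Lib.H90.FusAb
import Cfsg.Agent.Lib.H87.CMap
import Cfsg.Agent.Lib.H87.Factor2
import Cfsg.Agent.Lib.H88.Focal
import Cfsg.Agent.Lib.H86.FusAlperin

set_option autoImplicit false
open Cfsg

namespace Cfsg.Agent.S5315

open Cfsg.FusionSystem H87.Base H87.Factor H87.Factor2 H87.Basic

variable {Ω : Type*} [Group Ω] {S : Subgroup Ω}

/-- If `u` is shifted by central elements under every automorphism in `Aut_F(P)` and is centralized by `S`, it is fixed. -/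
theorem fixed_of_shift [Finite S] {p : ℕ} [Fact p.Prime] (hS : IsPGroup p S) {F : FusionSystem S} {P : Subgroup Ω}
    (hP : F.IsFullyAutomized p P) {u : Ω} (huP : u ∈ P) (huS : ∀ s ∈ S, s * u = u * s)
    (hz : ∀ α ∈ F.autGroup P, u⁻¹ * ((α ⟨u, huP⟩ : P) : Ω) ∈ F.center) :
    ∀ α ∈ F.autGroup P, ((α ⟨u, huP⟩ : P) : Ω) = u := by
  have hPS : P ≤ S := hP.1
  have : Finite P := H87.Basic.finite_of_le hPS
  have : Finite (MulAut P) := H86.FusSat.finite_mulAut P
  have hZS : F.center ≤ S := H90.FusAb.center_le F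
  -- the shift homomorphism
  let lam : F.autGroup P →* F.center := MonoidHom.mk'
    (fun α => ⟨u⁻¹ * (((α : MulAut P) ⟨u, huP⟩ : P) : Ω), hz α α.2⟩) (by
      rintro ⟨α, hα⟩ ⟨β, hβ⟩
      apply Subtype.ext
      change u⁻¹ * ((α (β ⟨u, huP⟩) : P) : Ω) = u⁻¹ * ((α ⟨u, huP⟩ : P) : Ω) * (u⁻¹ * ((β ⟨u, huP⟩ : P) : Ω))
      have h1 := hz β hβ
      set z := u⁻¹ * ((β ⟨u, huP⟩ : P) : Ω) with hzdef
      have hzP : z ∈ P := P.mul_mem (P.inv_mem huP) (β ⟨u, huP⟩).2
      have h2 : β ⟨u, huP⟩ = ⟨u, huP⟩ * ⟨z, hzP⟩ := Subtype.ext (by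
        change ((β ⟨u, huP⟩ : P) : Ω) = u * z
        rw [hzdef]; group)
      have h3 : ((α ⟨z, hzP⟩ : P) : Ω) = z :=
        H90.FusAb.map_fixed_of_mem_center h1 ((H86.FusBasic.mem_autGroup' F hPS).1 hα) hzP
      rw [h2, map_mul, Subgroup.coe_mul, h3, mul_assoc])
  obtain ⟨-, R, hR⟩ := hP
  have hRk : (R : Subgroup (F.autGroup P)) ≤ lam.ker := by
    intro a ha
    rw [hR] at ha
    rw [MonoidHom.mem_ker]
    obtain ⟨g, hg, hx⟩ := H86.FusBasic.mem_autInducedBy.1 (Subgroup.mem_subgroupOf.1 ha)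
    apply Subtype.ext
    change u⁻¹ * (((a : MulAut P) ⟨u, huP⟩ : P) : Ω) = 1
    have h1 := hx ⟨u, huP⟩
    rw [h1]
    change u⁻¹ * (g * u * g⁻¹) = 1
    rw [huS g hg]; group
  have hcopr : ¬ p ∣ lam.ker.index := by
    intro h
    exact R.not_dvd_index (h.trans (Subgroup.index_dvd_of_le hRk))
  have hpow : ∃ k, lam.ker.index = p ^ k := by
    rw [Subgroup.index_ker]
    have h1 : IsPGroup p F.center := hS.of_injective (Subgroup.inclusion hZS) (Subgroup.inclusion_injective _)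
    have : Finite F.center := H87.Basic.finite_of_le hZS
    exact (IsPGroup.iff_card.1 (h1.to_subgroup lam.range))
  obtain ⟨k, hk⟩ := hpow
  have h1 : lam.ker.index = 1 := by
    rcases Nat.eq_zero_or_pos k with h0 | h0
    · rw [hk, h0, pow_zero]
    · exact absurd (hk ▸ dvd_pow_self p h0.ne') hcopr
  rw [Subgroup.index_eq_one] at h1
  intro α hα
  have h2 : (⟨α, hα⟩ : F.autGroup P) ∈ lam.ker := by rw [h1]; trivial
  rw [MonoidHom.mem_ker] at h2
  have h3 : u⁻¹ * ((α ⟨u, huP⟩ : P) : Ω) = 1 := congrArg Subtype.val h2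
  exact (inv_mul_eq_one.1 h3).symm

theorem center_factor [Finite S] {p : ℕ} [Fact p.Prime] (hS : IsPGroup p S) {F : FusionSystem S}
    (hF : F.IsSaturated p) (hperf : F.hyperfocalSubgroup p = S) {Ω' : Type*} [Group Ω'] {S' : Subgroup Ω'}
    (θ : S →* Ω') (E : FusionSystem S') (hE : F.IsFactorSystem F.center θ E) : E.center = ⊥ := by
  classical
  set Z := F.center with hZ
  have hZS : Z ≤ S := H90.FusAb.center_le F
  have hZc := isCentral_center F
  have hsc : F.StronglyClosed Z := H87.Basic.IsNormal.stronglyClosed (H87.Basic.IsCentral.isNormal hZc)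
  have hZfix : ∀ z ∈ Z, ∀ P f, IsMap F P f → z ∈ P → f z = z := by
    rintro z hz P f ⟨φ, hφ, e⟩ hzP
    rw [← e ⟨z, hzP⟩]
    exact H90.FusAb.map_fixed_of_mem_center hz hφ hzP
  have hZcomm : ∀ z ∈ Z, ∀ s ∈ S, s * z = z * s := fun z hz s hs => F.center_le_centralizer hz s hs
  have hsurj := factor_isSurjectiveMorphism hS hF hsc hE
  obtain ⟨-, hk, hr, h4⟩ := isFactorSystem_iff.1 hE
  have hk' : IsKer θ Z := hk
  have : Finite S' := by rw [← hr]; exact Set.finite_range θ |>.to_subtype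
  have hmor := (isMorphism_iff.1 hsurj.1)
  set U := preimageAlong θ E.center with hU
  have hUS : U ≤ S := preimageAlong_le
  have hEc : E.center ≤ S' := H90.FusAb.center_le E
  -- lifting
  have hA : ∀ P f, IsMap F P f → ∃ g, IsMap F (P ⊔ U) g ∧ (∀ x ∈ P, (f x)⁻¹ * g x ∈ Z) ∧ ∀ u ∈ U, u⁻¹ * g u ∈ Z := by
    intro P f hf
    obtain ⟨f', hf', hi⟩ := hmor.2 P f hf
    obtain ⟨g', hg', hg1, hg2⟩ := (isCentral_iff.1 (isCentral_center E)).2 _ _ hf'
    obtain ⟨-, g, hg, hig⟩ := (h4 _ _).1 hg'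
    have hle : P ⊔ U ≤ preimageAlong θ (imageAlong θ P ⊔ E.center) := by
      refine sup_le ?_ ?_
      · intro x hx
        exact mem_preimageAlong.2 ⟨hf.le hx, Subgroup.mem_sup_left (mem_imageAlong.2 ⟨x, hx, hf.le hx, rfl⟩)⟩
      · intro x hx
        obtain ⟨h5, h6⟩ := mem_preimageAlong.1 hx
        exact mem_preimageAlong.2 ⟨h5, Subgroup.mem_sup_right h6⟩
    have hg' := hg.mono hle
    refine ⟨g, hg', fun x hx => ?_, fun u hu => ?_⟩
    · rw [← hk'.eq_iff (hf.mem hx) (hg'.mem (Subgroup.mem_sup_left hx))]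
      rw [← hig x (hle (Subgroup.mem_sup_left hx)), hg1 _ (mem_imageAlong.2 ⟨x, hx, hf.le hx, rfl⟩), hi x hx]
    · rw [← hk'.eq_iff (hUS hu) (hg'.mem (Subgroup.mem_sup_right hu))]
      rw [← hig u (hle (Subgroup.mem_sup_right hu)), hg2 _ (mem_preimageAlong.1 hu).2]
  -- commutators with `U` are central
  have hB : ∀ u ∈ U, ∀ x ∈ S, x * u * x⁻¹ * u⁻¹ ∈ Z := by
    intro u hu x hx
    have huS := hUS hu
    rw [← hk _ (S.mul_mem (S.mul_mem (S.mul_mem hx huS) (S.inv_mem hx)) (S.inv_mem huS)),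
      ext_mul (S.mul_mem (S.mul_mem hx huS) (S.inv_mem hx)) (S.inv_mem huS), ext_conj hx huS, ext_inv huS]
    have h5 := E.center_le_centralizer (mem_preimageAlong.1 hu).2 (extFun θ x) (hmor.1 x hx)
    rw [h5]; group
  -- `U` is centralized by `S`
  have hC : ∀ u ∈ U, ∀ P f, IsMap F P f → ∀ x ∈ P, (x⁻¹ * f x) * u = u * (x⁻¹ * f x) := by
    intro u hu P f hf x hx
    obtain ⟨g, hg, hg1, hg2⟩ := hA P f hf
    have hxS := hf.le hx
    have huS := hUS hu
    have hxm : x ∈ P ⊔ U := Subgroup.mem_sup_left hx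
    have hum : u ∈ P ⊔ U := Subgroup.mem_sup_right hu
    set c := x * u * x⁻¹ * u⁻¹ with hc
    have hcZ : c ∈ Z := hB u hu x hxS
    have hcm : c ∈ P ⊔ U := by
      rw [hc]
      exact Subgroup.mul_mem _ (Subgroup.mul_mem _ (Subgroup.mul_mem _ hxm hum) (Subgroup.inv_mem _ hxm)) (Subgroup.inv_mem _ hum)
    have h5 : g c = c := hZfix c hcZ _ _ hg hcm
    have h6 : g c = g x * g u * (g x)⁻¹ * (g u)⁻¹ := by
      rw [hc, hg.map_mul (Subgroup.mul_mem _ (Subgroup.mul_mem _ hxm hum) (Subgroup.inv_mem _ hxm)) (Subgroup.inv_mem _ hum),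
        hg.map_conj hxm hum, hg.map_inv hum]
    obtain ⟨z, hz, hgx⟩ : ∃ z ∈ Z, g x = f x * z := ⟨_, hg1 x hx, by group⟩
    obtain ⟨w, hw, hgu⟩ : ∃ z ∈ Z, g u = u * z := ⟨_, hg2 u hu, by group⟩
    have h7 : g x * g u * (g x)⁻¹ * (g u)⁻¹ = f x * u * (f x)⁻¹ * u⁻¹ := by
      rw [hgx, hgu, mul_inv_rev, mul_inv_rev]
      have e1 := hZcomm z hz u huS
      have e2 := hZcomm w hw (f x) (hf.mem hx)
      have e3 := hZcomm w hw z (hZS hz)
      have e4 := hZcomm z hz (f x) (hf.mem hx)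
      calc f x * z * (u * w) * (z⁻¹ * (f x)⁻¹) * (w⁻¹ * u⁻¹)
          = f x * (z * u) * w * (z⁻¹ * (f x)⁻¹) * (w⁻¹ * u⁻¹) := by group
        _ = f x * u * (z * w) * (z⁻¹ * (f x)⁻¹) * (w⁻¹ * u⁻¹) := by rw [← e1]; group
        _ = f x * u * w * (f x)⁻¹ * w⁻¹ * u⁻¹ := by rw [e3]; group
        _ = f x * u * (f x)⁻¹ * ((f x) * w) * (f x)⁻¹ * w⁻¹ * u⁻¹ := by group
        _ = f x * u * (f x)⁻¹ * u⁻¹ := by rw [e2]; group
    have h8 : f x * u * (f x)⁻¹ * u⁻¹ = c := by rw [← h7, ← h6, h5]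
    have h9 : f x * u = c * u * f x := by rw [← h8]; group
    have h10 : x * u = c * u * x := by rw [hc]; group
    have h11 := hZcomm c hcZ x⁻¹ (S.inv_mem hxS)
    calc x⁻¹ * f x * u = x⁻¹ * (f x * u) := by group
      _ = (x⁻¹ * c) * u * f x := by rw [h9]; group
      _ = c * x⁻¹ * u * f x := by rw [h11]
      _ = c * x⁻¹ * (u * x) * (x⁻¹ * f x) := by group
      _ = c * x⁻¹ * (c⁻¹ * (c * u * x)) * (x⁻¹ * f x) := by group
      _ = c * (x⁻¹ * c⁻¹ * x) * u * (x⁻¹ * f x) := by rw [← h10]; group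
      _ = u * (x⁻¹ * f x) := by
        have h12 : x⁻¹ * c⁻¹ * x = c⁻¹ := by
          have h13 := hZcomm c hcZ x hxS
          have h14 : x⁻¹ * c⁻¹ * x = (x⁻¹ * c * x)⁻¹ := by group
          have h15 : x⁻¹ * c * x = c := by
            calc x⁻¹ * c * x = x⁻¹ * (c * x) := by group
              _ = c := by rw [← h13]; group
          rw [h14, h15]
        rw [h12]; group
  have hUZ : ∀ u ∈ U, ∀ s ∈ S, s * u = u * s := by
    intro u hu s hs
    have h5 : F.focalSubgroup ≤ Subgroup.centralizer {u} := by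
      unfold FusionSystem.focalSubgroup
      rw [Subgroup.closure_le]
      rintro _ ⟨P, φ, x, hφ, rfl⟩
      rw [SetLike.mem_coe, Subgroup.mem_centralizer_singleton_iff]
      have h6 := hC u hu P (extFun φ) (isMap_of_mem hφ) x x.2
      rw [extFun_coe] at h6
      exact h6
    have h6 : s ∈ Subgroup.centralizer {u} := by
      apply h5
      apply H88.Focal.hyp_le_foc F p
      rw [hperf]; exact hs
    exact Subgroup.mem_centralizer_singleton_iff.1 h6
  -- the centralizer system of `U` is everything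
  have hCS : centralizerIn S U = S := by
    apply le_antisymm inf_le_left
    intro g hg
    exact H86.FusSat.mem_centralizerIn.2 ⟨hg, fun x hx => (hUZ x hx g hg).symm⟩
  have hUc : U ≤ Z := by
    have key : ∀ (T : Subgroup Ω) (C : FusionSystem T), T = S → (∀ P, C.Hom P = F.centralizerHom U P) →
        F.IsCentral U := by
      intro T C hT hC
      subst hT
      have hle : F ≤ C := by
        apply H86.FusAlperin.alperin_goldschmidt hS hF C
        intro P hP
        have hPc : P ≤ T ∧ U ≤ P ∧ F.IsFullyAutomized p P := by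
          rcases hP with rfl | hP
          · exact ⟨le_rfl, hUS, (H86.FusSat.fullyNormalized_spec hS hF (H86.FusSat.fullyNormalized_self F)).2⟩
          · refine ⟨hP.1.1, ?_, (H86.FusSat.fullyNormalized_spec hS hF hP.2.1).2⟩
            intro u hu
            apply hP.1.2 P (H87.Base.isConj_refl F hP.1.1)
            exact H86.FusSat.mem_centralizerIn.2 ⟨hUS hu, fun x hx => hUZ u hu x (hP.1.1 hx)⟩
        obtain ⟨hPS, hUP, hPa⟩ := hPc
        intro α hα
        have hα' := (H86.FusBasic.mem_autGroup' F hPS).1 hα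
        rw [H86.FusBasic.mem_autGroup' C hPS, hC P]
        have hmap := isMap_of_mem hα'
        refine (H87.CMap.mem_centralizerHom_iff (fun x => (extFun_coe _ x).symm)).2
          ⟨by rw [hCS]; exact hPS, fun x hx => by rw [hCS]; exact hmap.mem hx, _, ?_, fun x _ => rfl, ?_⟩
        · rw [sup_eq_left.2 hUP]; exact hmap
        · intro u hu
          have hfix := fixed_of_shift hS hPa (hUP hu) (hUZ u hu) (fun β hβ => by
            have hβ' := isMap_of_mem ((H86.FusBasic.mem_autGroup' F hPS).1 hβ)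
            obtain ⟨g, hg, hg1, hg2⟩ := hA P _ hβ'
            obtain ⟨z, hz, hgx⟩ : ∃ z ∈ Z, g u = extFun (P.subtype.comp β.toMonoidHom) u * z := ⟨_, hg1 u (hUP hu), by group⟩
            obtain ⟨w, hw, hgu⟩ : ∃ z ∈ Z, g u = u * z := ⟨_, hg2 u hu, by group⟩
            have e1 : extFun (P.subtype.comp β.toMonoidHom) u = ((β ⟨u, hUP hu⟩ : P) : Ω) := extFun_apply _ (hUP hu)
            rw [← e1]
            have e2 : u⁻¹ * extFun (P.subtype.comp β.toMonoidHom) u = w * z⁻¹ := by
              have e3 : extFun (P.subtype.comp β.toMonoidHom) u = u * w * z⁻¹ := by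
                rw [← hgu, hgx]; group
              rw [e3]; group
            rw [e2]
            exact Z.mul_mem hw (Z.inv_mem hz)) α hα
          rw [extFun_apply _ (hUP hu)]
          exact hfix
      refine isCentral_iff.2 ⟨hUS, fun P f hf => ?_⟩
      obtain ⟨φ, hφ, e⟩ := hf
      have h5 := hle P hφ
      rw [hC P] at h5
      exact ((H87.CMap.mem_centralizerHom_iff e).1 h5).2.2
    obtain ⟨C, hC⟩ := H87.CMap.exists_centralizerSystem F hUS
    exact H87.Basic.IsCentral.le_center (key _ C hCS hC)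
  rw [eq_bot_iff]
  intro y hy
  obtain ⟨x, hx, rfl⟩ := mem_range_iff.1 (show y ∈ θ.range by rw [hr]; exact hEc hy)
  rw [Subgroup.mem_bot, hk x hx]
  exact hUc (mem_preimageAlong.2 ⟨hx, hy⟩)

/-- An analogue of Grün's lemma for fusion systems. Let F be a saturated fusion system over a finite p-group S that is perfect in the sense that its hyperfocal subgroup is all of S (F coincides with its p-residual subsystem). Then the second centre of F equals its centre: every fusion system over S/(Z(F) ∩ S) that is the factor system of F modulo its centre Z(F), read through the quotient map, has trivial centre. -/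
theorem result {Ω : Type*} [Group Ω] {S : Subgroup Ω} [Finite S] (p : ℕ) [Fact p.Prime] (hS : IsPGroup p S) (F : Cfsg.FusionSystem S) (hF : F.IsSaturated p)
    (hperf : F.hyperfocalSubgroup p = S)
    (E : Cfsg.FusionSystem (⊤ : Subgroup (↥S ⧸ (F.center).subgroupOf S)))
    (hE : F.IsFactorSystem F.center (QuotientGroup.mk' ((F.center).subgroupOf S)) E) : E.center = ⊥ :=
  center_factor hS hF hperf _ E hE

end Cfsg.Agent.S5315
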