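import Cfsg.Statements.S5328
import Cfsg.Agent.Lib.H88.CharBiset

set_option autoImplicit false
universe u
open Cfsg

namespace Cfsg.Agent.S5328

open Cfsg.FusionSystem H86.FusBasic H86.FusSat H88.GSet H88.Biset H88.CharBiset

variable {Ω : Type u} [Group Ω] {S : Subgroup Ω}

/-- the diagonal of `S × S` as a graph -/
abbrev diag (S : Subgroup Ω) : Subgroup (S × S) := graph S S S.subtype

theorem diag_mem (F : FusionSystem S) : diag S ∈ graphs F := graph_mem F (subtype_mem F le_rfl)

theorem card_diag [Finite S] (F : FusionSystem S) : Nat.card (diag S) = Nat.card S := card_graph (subtype_mem F le_rfl)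

theorem eq_diag [Finite S] (F : FusionSystem S) {D : Subgroup (S × S)} (hD : D ∈ graphs F) (h : diag S ≤ D) : D = diag S := by
  refine (Subgroup.eq_of_le_of_card_ge h ?_).symm
  rw [card_diag F]
  exact card_le_of_graphs hD

theorem exists_aux [Finite S] (F : FusionSystem S) (m : ℕ) :
    ∃ (Y : Type u) (_ : MulAction (S × S) Y) (_ : Finite Y),
      (∀ y : Y, MulAction.stabilizer (S × S) y ∈ graphs F) ∧
      (∃ y : Y, MulAction.stabilizer (S × S) y = diag S) ∧
      (∀ D ∈ graphs F, ∀ D' ∈ graphs F, F.IsConj (pr D) (pr D') → Nat.card S < Nat.card D + m →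
        mark D Y = mark D' Y) := by
  classical
  induction m with
  | zero =>
    refine ⟨(S × S) ⧸ diag S, inferInstance, inferInstance, ?_, ?_, ?_⟩
    · intro y
      obtain ⟨g, rfl⟩ := QuotientGroup.mk_surjective y
      rw [stabilizer_quotient]
      exact (tr_conj F _ g).mem (diag_mem F)
    · refine ⟨(QuotientGroup.mk (1 : S × S) : (S × S) ⧸ diag S), ?_⟩
      rw [stabilizer_quotient]
      ext q
      constructor
      · rintro ⟨d, hd, rfl⟩
        simpa using hd
      · intro hq
        exact ⟨q, hq, by simp⟩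
    · intro D hD D' hD' _ h
      have := card_le_of_graphs hD
      omega
  | succ m ih =>
    obtain ⟨X, _, _, hX1, ⟨x₀, hx₀⟩, hX3⟩ := ih
    by_cases hm : Nat.card S ≤ m
    · refine ⟨X, inferInstance, inferInstance, hX1, ⟨x₀, hx₀⟩, fun D hD D' hD' h _ => hX3 D hD D' hD' h ?_⟩
      have : 0 < Nat.card D := Nat.card_pos
      omega
    push Not at hm
    set n := Nat.card S - m with hn
    let C : Set (Subgroup (S × S)) := {D | D ∈ graphs F ∧ Nat.card D = n}
    let N := Nat.card (S × S)
    have hN : 0 < N := Nat.card_pos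
    let s : Subgroup (S × S) → ℕ := fun D =>
      sSup ((fun D' => mark D' X) '' {D' : Subgroup (S × S) | D' ∈ graphs F ∧ F.IsConj (pr D) (pr D')})
    have hbdd : ∀ D : Subgroup (S × S),
        BddAbove ((fun D' => mark D' X) '' {D' : Subgroup (S × S) | D' ∈ graphs F ∧ F.IsConj (pr D) (pr D')}) :=
      fun D => (Set.toFinite _).bddAbove
    have hs_le : ∀ D ∈ graphs F, mark D X ≤ s D := by
      intro D hD
      exact le_csSup (hbdd D) ⟨D, ⟨hD, isConj_refl F (pr_le D)⟩, rfl⟩
    have hs_eq : ∀ D D' : Subgroup (S × S), F.IsConj (pr D) (pr D') → s D = s D' := by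
      intro D D' h
      have : {D'' : Subgroup (S × S) | D'' ∈ graphs F ∧ F.IsConj (pr D) (pr D'')} =
          {D'' : Subgroup (S × S) | D'' ∈ graphs F ∧ F.IsConj (pr D') (pr D'')} := by
        ext D''
        exact ⟨fun h1 => ⟨h1.1, isConj_trans (isConj_symm h) h1.2⟩, fun h1 => ⟨h1.1, isConj_trans h h1.2⟩⟩
      change sSup _ = sSup _
      rw [this]
    let X' : Type u := ULift.{u} (Fin N) × X
    let _ : MulAction (S × S) X' :=
      { smul := fun g x => (x.1, g • x.2)
        one_smul := fun x => Prod.ext rfl (one_smul _ x.2)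
        mul_smul := fun g h x => Prod.ext rfl (mul_smul g h x.2) }
    have hX'mark : ∀ D : Subgroup (S × S), mark D X' = N * mark D X := by
      intro D
      unfold mark
      have h : Nat.card (ULift.{u} (Fin N) × {x : X // ∀ d ∈ D, d • x = x}) =
          N * Nat.card {x : X // ∀ d ∈ D, d • x = x} := by
        rw [Nat.card_prod, Nat.card_congr Equiv.ulift, Nat.card_fin]
      rw [← h]
      exact Nat.card_congr
        { toFun := fun x => (x.1.1, ⟨x.1.2, fun d hd => congrArg Prod.snd (x.2 d hd)⟩)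
          invFun := fun x => ⟨(x.1, x.2.1), fun d hd => Prod.ext rfl (x.2.2 d hd)⟩
          left_inv := fun x => rfl
          right_inv := fun x => rfl }
    have hX'stab : ∀ x : X', MulAction.stabilizer (S × S) x = MulAction.stabilizer (S × S) x.2 := by
      intro x
      ext g
      rw [MulAction.mem_stabilizer_iff, MulAction.mem_stabilizer_iff]
      exact ⟨fun h => congrArg Prod.snd h, fun h => Prod.ext rfl h⟩
    obtain ⟨Y, _, _, hY1, hY2, hY3⟩ := exists_step C n (fun D hD => hD.2)
      (fun D hD g => ⟨(tr_conj F D g).mem hD.1, by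
        rw [Subgroup.card_map_of_injective (MulEquiv.injective _)]
        exact hD.2⟩) (fun D => N * s D) (fun D hD g => by
          rw [hs_eq _ _ (tr_conj F D g).isConj]) _ X' rfl
      (fun D hD => by
        rw [hX'mark]
        exact Nat.mul_le_mul_left _ (hs_le D hD.1))
      (fun D hD => by
        rw [hX'mark, ← Nat.mul_sub]
        exact Dvd.dvd.mul_left (Dvd.dvd.mul_right (Subgroup.card_subgroup_dvd_card _) _) _)
    have hYs : ∀ y : Y, MulAction.stabilizer (S × S) y ∈ graphs F := by
      intro y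
      rcases hY3 y with ⟨x, hx⟩ | h
      · rw [← hx, hX'stab]; exact hX1 _
      · exact h.1
    refine ⟨Y, inferInstance, inferInstance, hYs, ?_, ?_⟩
    · have h1 : mark (diag S) X ≠ 0 := mark_ne_zero (x := x₀) hx₀.ge
      have h2 : mark (diag S) Y ≠ 0 := by
        by_cases hC : diag S ∈ C
        · rw [hY1 _ hC]
          have h3 := hs_le _ (diag_mem F)
          have h4 : 0 < s (diag S) := by omega
          exact (Nat.mul_pos hN h4).ne'
        · rw [hY2 _ (by rw [card_diag F]; omega) hC, hX'mark]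
          exact (Nat.mul_pos hN (Nat.pos_of_ne_zero h1)).ne'
      obtain ⟨y, hy⟩ := exists_of_mark_ne_zero h2
      exact ⟨y, eq_diag F (hYs y) hy⟩
    · intro D hD D' hD' hc hlt
      have hcard : Nat.card D = Nat.card D' := by
        rw [card_eq_card_pr hD, card_eq_card_pr hD']
        exact isConj_card hc
      by_cases h : Nat.card D = n
      · rw [hY1 D ⟨hD, h⟩, hY1 D' ⟨hD', by rw [← hcard, h]⟩, hs_eq D D' hc]
      · have h3 : n < Nat.card D := by omega
        rw [hY2 D h3.le (fun h4 => h h4.2), hY2 D' (by omega) (fun h4 => h (by rw [hcard, h4.2])), hX'mark, hX'mark,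
          hX3 D hD D' hD' hc (by omega)]

/-- An F-stable `S × S`-set containing the regular biset, for an arbitrary fusion system. -/
theorem exists_biset [Finite S] (F : FusionSystem S) :
    ∃ (Y : Type u) (_ : MulAction (S × S) Y) (_ : Finite Y),
      (∀ y : Y, MulAction.stabilizer (S × S) y ∈ graphs F) ∧
      (∃ y : Y, MulAction.stabilizer (S × S) y = diag S) ∧
      (∀ (P : Subgroup Ω) (φ : P →* Ω) (hφ : φ ∈ F.Hom P), ∃ g : Y ≃ Y,
        ∀ (a : S) (ha : (a : Ω) ∈ P) (b : S) (y : Y),
          g ((a, b) • y) = (((⟨φ ⟨a, ha⟩, apply_mem F hφ _⟩ : S), b) : S × S) • g y) := by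
  classical
  obtain ⟨Y, _, _, hY1, hY2, hY3⟩ := exists_aux F (Nat.card S)
  refine ⟨Y, inferInstance, inferInstance, hY1, hY2, fun P φ hφ => ?_⟩
  have hPS : P ≤ S := le_of_mem F hφ
  have : Finite P := finite_of_le hPS
  let j₁ : P × S →* S × S := MonoidHom.prodMap (Subgroup.inclusion hPS) (MonoidHom.id S)
  let j₂ : P × S →* S × S := MonoidHom.prodMap (φ.codRestrict S (apply_mem F hφ)) (MonoidHom.id S)
  have hmark : ∀ D : Subgroup (P × S),
      @mark (P × S) _ D Y (MulAction.compHom Y j₁) = @mark (P × S) _ D Y (MulAction.compHom Y j₂) := by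
    intro D
    rw [mark_compHom, mark_compHom]
    have htr : Tr F (D.map j₁) (D.map j₂) := by
      refine ⟨P, S, φ, S.subtype, hφ, subtype_mem F le_rfl, ?_, ?_⟩
      · rintro _ ⟨xb, hxb, rfl⟩
        exact ⟨xb.1.2, xb.2.2, _, ⟨xb, hxb, rfl⟩, rfl, rfl⟩
      · rintro _ ⟨xb, hxb, rfl⟩
        exact ⟨_, ⟨xb, hxb, rfl⟩, xb.1.2, xb.2.2, rfl, rfl⟩
    by_cases h : D.map j₁ ∈ graphs F
    · exact hY3 _ h _ (htr.mem h) htr.isConj (by
        have : 0 < Nat.card (D.map j₁) := Nat.card_pos
        omega)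
    · rw [mark_eq_zero graphs_down hY1 h,
        mark_eq_zero graphs_down hY1 (fun h' => h (htr.mem_iff.2 h'))]
  obtain ⟨g, hg⟩ := @exists_equiv_of_mark_eq (P × S) _ _ _ Y Y (MulAction.compHom Y j₁)
    (MulAction.compHom Y j₂) _ _ rfl hmark
  refine ⟨g, fun a ha b y => ?_⟩
  exact hg (⟨a, ha⟩, b) y

/-- Every fusion system over a finite p-group S, saturated or not, is realized inside some finite group: there is a finite group G and an injective homomorphism ι of S into G such that the maps of the system are exactly the homomorphisms between subgroups of S that become conjugations by elements of G (the image of S need not be a Sylow p-subgroup of G). -/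
theorem result {Ω : Type u} [Group Ω] {S : Subgroup Ω} [Finite S] (p : ℕ) [Fact p.Prime] (hS : IsPGroup p S) (F : Cfsg.FusionSystem S) : ∃ (G : Type u) (_ : Group G) (_ : Finite G) (ι : ↥S →* G), F.IsRealizedBy ι := by
  classical
  obtain ⟨Y, _, _, hY1, ⟨y₀, hy₀⟩, hY3⟩ := exists_biset F
  -- permutations commuting with the second factor
  let G : Subgroup (Equiv.Perm Y) :=
    { carrier := {g | ∀ (b : S) (y : Y), g (((1 : S), b) • y) = ((1 : S), b) • g y}
      one_mem' := fun _ _ => rfl
      mul_mem' := fun {g h} hg hh b y => by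
        change g (h (((1 : S), b) • y)) = ((1 : S), b) • g (h y)
        rw [hh, hg]
      inv_mem' := fun {g} hg b y => by
        change g⁻¹ (((1 : S), b) • y) = ((1 : S), b) • g⁻¹ y
        rw [Equiv.Perm.inv_eq_iff_eq, hg]
        congr 1
        exact (g.apply_symm_apply y).symm }
  let ι : S →* G :=
    { toFun := fun a => ⟨MulAction.toPerm ((a, (1 : S)) : S × S), fun b y => by
        change (a, (1 : S)) • (((1 : S), b) • y) = ((1 : S), b) • ((a, (1 : S)) • y)
        rw [smul_smul, smul_smul]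
        congr 1
        simp⟩
      map_one' := by
        apply Subtype.ext
        apply Equiv.ext
        intro y
        change ((1 : S), (1 : S)) • y = y
        exact one_smul _ y
      map_mul' := fun a a' => by
        apply Subtype.ext
        apply Equiv.ext
        intro y
        change (a * a', (1 : S)) • y = (a, (1 : S)) • ((a', (1 : S)) • y)
        rw [smul_smul]
        congr 1
        simp }
  have hι : ∀ (a : S) (y : Y), (ι a : Equiv.Perm Y) y = (a, (1 : S)) • y := fun _ _ => rfl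
  refine ⟨G, inferInstance, inferInstance, ι, ?_, ?_⟩
  · rw [injective_iff_map_eq_one]
    intro a ha
    have h1 : (a, (1 : S)) • y₀ = y₀ := by
      rw [← hι, ha]; rfl
    have h2 : (a, (1 : S)) ∈ MulAction.stabilizer (S × S) y₀ := h1
    rw [hy₀] at h2
    obtain ⟨_, h3⟩ := h2
    exact Subtype.ext h3
  · intro P hP φ hφ
    constructor
    · intro hφF
      obtain ⟨g, hg⟩ := hY3 P φ hφF
      refine ⟨⟨g, fun b y => ?_⟩, fun x => ?_⟩
      · have h1 := hg 1 P.one_mem b y
        rw [h1]
        congr 2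
        exact Subtype.ext (map_one φ)
      · rw [eq_mul_inv_iff_mul_eq]
        apply Subtype.ext
        apply Equiv.ext
        intro y
        exact (hg ⟨x, hP x.2⟩ x.2 1 y).symm
    · rintro ⟨g, hg⟩
      have hz : ∀ x : P, ((⟨φ x, hφ x⟩ : S), (⟨x, hP x.2⟩ : S)) ∈ MulAction.stabilizer (S × S) ((g : Equiv.Perm Y) y₀) := by
        intro x
        rw [MulAction.mem_stabilizer_iff]
        have h1 := hg x
        rw [eq_mul_inv_iff_mul_eq] at h1
        have h2 : (((ι ⟨φ x, hφ x⟩ * g : G) : Equiv.Perm Y)) (((1 : S), (⟨x, hP x.2⟩ : S)) • y₀) =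
            ((g * ι ⟨x, hP x.2⟩ : G) : Equiv.Perm Y) (((1 : S), (⟨x, hP x.2⟩ : S)) • y₀) := by rw [h1]
        have h3 : ((⟨x, hP x.2⟩ : S), (⟨x, hP x.2⟩ : S)) • y₀ = y₀ := by
          have h4 : ((⟨x, hP x.2⟩ : S), (⟨x, hP x.2⟩ : S)) ∈ MulAction.stabilizer (S × S) y₀ := by
            rw [hy₀]
            exact ⟨hP x.2, rfl⟩
          exact h4
        have h5 : (((ι ⟨φ x, hφ x⟩ * g : G) : Equiv.Perm Y)) (((1 : S), (⟨x, hP x.2⟩ : S)) • y₀) =
            ((⟨φ x, hφ x⟩ : S), (⟨x, hP x.2⟩ : S)) • (g : Equiv.Perm Y) y₀ := by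
          change ((⟨φ x, hφ x⟩ : S), (1 : S)) • (g : Equiv.Perm Y) (((1 : S), (⟨x, hP x.2⟩ : S)) • y₀) = _
          rw [g.2, smul_smul]
          congr 1
          simp
        have h6 : ((g * ι ⟨x, hP x.2⟩ : G) : Equiv.Perm Y) (((1 : S), (⟨x, hP x.2⟩ : S)) • y₀) = (g : Equiv.Perm Y) y₀ := by
          change (g : Equiv.Perm Y) (((⟨x, hP x.2⟩ : S), (1 : S)) • ((1 : S), (⟨x, hP x.2⟩ : S)) • y₀) = _
          rw [smul_smul]
          congr 1
          simpa using h3
        rw [← h5, h2, h6]
      obtain ⟨θ, hθ, hθD⟩ := hY1 ((g : Equiv.Perm Y) y₀)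
      obtain ⟨ψ, hψ, hψθ⟩ := F.inv_mem hθ
      have hx : ∀ x : P, ∃ h : (φ x) ∈ pr (MulAction.stabilizer (S × S) ((g : Equiv.Perm Y) y₀)), θ ⟨φ x, h⟩ = x :=
        fun x => ⟨fst_mem_pr (hz x), hθD _ (hz x)⟩
      have hPr : P ≤ θ.range := by
        intro x hxP
        obtain ⟨h, hh⟩ := hx ⟨x, hxP⟩
        exact ⟨_, hh⟩
      have e : φ = ψ.comp (Subgroup.inclusion hPr) := by
        ext x
        obtain ⟨h, hh⟩ := hx x
        rw [MonoidHom.comp_apply]
        have h1 : ψ ⟨θ ⟨φ x, h⟩, ⟨_, rfl⟩⟩ = φ x := hψθ ⟨φ x, h⟩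
        rw [← h1]
        congr 1
        exact Subtype.ext hh
      rw [e]
      exact restrict_mem F hψ hPr

end Cfsg.Agent.S5328
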