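import Cfsg.Statements.S5330
import Cfsg.Agent.Lib.H90.Transfer
import Cfsg.Agent.Lib.H88.Focal

set_option autoImplicit false
open Cfsg

namespace Cfsg.Agent.S5330

open H86.FusBasic

/-- Let F be a saturated fusion system over a finite abelian p-group S. Then S is the internal direct product of the centre of the system and the focal subgroup: Z(F) ∩ foc(F) = 1 and Z(F)·foc(F) = S. -/
theorem result {Ω : Type*} [Group Ω] {S : Subgroup Ω} [Finite S] (p : ℕ) [Fact p.Prime] (hS : IsPGroup p S) (F : Cfsg.FusionSystem S) (hF : F.IsSaturated p) (hab : ∀ x ∈ S, ∀ y ∈ S, x * y = y * x) : F.center ⊓ F.focalSubgroup = ⊥ ∧ F.center ⊔ F.focalSubgroup = S := by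
  classical
  have hcomm : ⁅S, S⁆ = ⊥ := by
    rw [Subgroup.commutator_eq_bot_iff_le_centralizer]
    intro x hx
    rw [Subgroup.mem_centralizer_iff]
    intro y hy
    exact hab y hy x hx
  constructor
  · rw [inf_comm, eq_bot_iff, ← hcomm]
    exact H90.Transfer.foc_inf_center_le hS hF
  · apply le_antisymm (sup_le (H90.FusAb.center_le F) (H88.Focal.foc_le F))
    intro s hs
    letI : CommGroup S := { (inferInstance : Group S) with mul_comm := fun a b => Subtype.ext (hab a a.2 b b.2) }
    have : Finite (MulAut S) := H86.FusSat.finite_mulAut S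
    have : Fintype (F.autGroup S) := Fintype.ofFinite _
    -- the norm
    let N : S := ∏ α : F.autGroup S, (α : MulAut S) ⟨s, hs⟩
    have hN : ((N : S) : Ω) ∈ F.center := by
      apply H90.FusAb.mem_center_of_fixed (F := F) (fun P φ hP hφ => H90.FusAb.exists_aut_extension hS hF hab hφ hP) N.2
      intro β hβ
      have : (β : MulAut S) N = N := by
        show β (∏ α : F.autGroup S, (α : MulAut S) ⟨s, hs⟩) = ∏ α : F.autGroup S, (α : MulAut S) ⟨s, hs⟩
        rw [map_prod]
        exact Equiv.prod_comp (Equiv.mulLeft (⟨β, hβ⟩ : F.autGroup S)) (fun α : F.autGroup S => (α : MulAut S) ⟨s, hs⟩)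
      exact congrArg Subtype.val this
    -- modulo the focal subgroup
    have hf : ∃ f ∈ F.focalSubgroup, (N : Ω) = s ^ Nat.card (F.autGroup S) * f := by
      have h1 : N = (∏ α : F.autGroup S, (⟨s, hs⟩ : S)) * ∏ α : F.autGroup S, ((⟨s, hs⟩ : S)⁻¹ * (α : MulAut S) ⟨s, hs⟩) := by
        rw [← Finset.prod_mul_distrib]
        apply Finset.prod_congr rfl
        intro α _
        rw [mul_inv_cancel_left]
      refine ⟨((∏ α : F.autGroup S, ((⟨s, hs⟩ : S)⁻¹ * (α : MulAut S) ⟨s, hs⟩) : S) : Ω), ?_, ?_⟩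
      · have h2 : ∏ α : F.autGroup S, ((⟨s, hs⟩ : S)⁻¹ * (α : MulAut S) ⟨s, hs⟩) ∈ F.focalSubgroup.subgroupOf S := by
          apply Subgroup.prod_mem
          intro α _
          exact H88.Focal.mem_foc ((mem_autGroup F le_rfl).1 α.2) ⟨s, hs⟩
        exact h2
      · rw [h1, Subgroup.coe_mul, Finset.prod_const, Finset.card_univ, Nat.card_eq_fintype_card]
        rfl
    obtain ⟨f, hf, hNf⟩ := hf
    have hpow : s ^ Nat.card (F.autGroup S) ∈ F.center ⊔ F.focalSubgroup := by
      have : s ^ Nat.card (F.autGroup S) = (N : Ω) * f⁻¹ := by rw [hNf, mul_inv_cancel_right]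
      rw [this]
      exact Subgroup.mul_mem _ ((le_sup_left : F.center ≤ _) hN) ((le_sup_right : _ ≤ F.center ⊔ F.focalSubgroup) (Subgroup.inv_mem _ hf))
    obtain ⟨k, hk⟩ := hS ⟨s, hs⟩
    have hk' : s ^ p ^ k = 1 := congrArg Subtype.val hk
    have hcop : Nat.Coprime (Nat.card (F.autGroup S)) (p ^ k) :=
      (((Fact.out : p.Prime).coprime_iff_not_dvd.2 (H90.FusAb.not_dvd_card_autGroup hS hF hab)).pow_left k).symm
    -- s is a power of its prime-to-p power
    have hz : s ∈ Subgroup.zpowers (s ^ Nat.card (F.autGroup S)) := by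
      have hord : (orderOf s).Coprime (Nat.card (F.autGroup S)) :=
        (Nat.Coprime.coprime_dvd_right (orderOf_dvd_of_pow_eq_one hk') hcop).symm
      obtain ⟨m, hm⟩ := exists_pow_eq_self_of_coprime hord.symm
      exact ⟨m, by simpa using hm⟩
    exact (Subgroup.zpowers_le.2 hpow) hz

end Cfsg.Agent.S5330
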