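import Cfsg.Statements.S5331
import Cfsg.Agent.Lib.H90.FusAb

set_option autoImplicit false
open Cfsg

namespace Cfsg.Agent.S5331

theorem zmod_torsion (a : ℕ) (ha : 1 ≤ a) (x : ZMod (2 ^ a)) (h : x + x = 0) :
    x = 0 ∨ x = ((2 ^ (a - 1) : ℕ) : ZMod (2 ^ a)) := by
  have hpos : 0 < 2 ^ a := by positivity
  have : NeZero (2 ^ a) := ⟨hpos.ne'⟩
  obtain ⟨b, rfl⟩ : ∃ b, a = b + 1 := ⟨a - 1, by omega⟩
  have h1 : ((2 * x.val : ℕ) : ZMod (2 ^ (b + 1))) = 0 := by
    push_cast
    rw [ZMod.natCast_zmod_val, two_mul, h]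
  rw [ZMod.natCast_eq_zero_iff] at h1
  have h2 : 2 ^ b ∣ x.val := by
    obtain ⟨v, hv⟩ : ∃ v, v = x.val := ⟨_, rfl⟩
    rw [← hv] at h1 ⊢
    rw [pow_succ, mul_comm] at h1
    exact Nat.dvd_of_mul_dvd_mul_left (by norm_num) h1
  have h3 : x.val < 2 ^ b * 2 := by
    have := ZMod.val_lt x
    rwa [← pow_succ]
  obtain ⟨c, hc⟩ := h2
  rw [hc] at h3
  have h4 : c < 2 := Nat.lt_of_mul_lt_mul_left h3
  rw [Nat.add_sub_cancel]
  interval_cases c
  · left
    rw [← ZMod.natCast_zmod_val x, hc]
    simp
  · right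
    rw [← ZMod.natCast_zmod_val x, hc]
    simp

variable {n : ℕ} {a : Fin n → ℕ}

/-- divisibility by `2^j` in the socle -/
theorem div_iff (ha1 : ∀ i, 1 ≤ a i) (x : (i : Fin n) → ZMod (2 ^ a i)) (hx : x + x = 0) (j : ℕ) :
    (∃ y, x = 2 ^ j • y) ↔ ∀ i, a i ≤ j → x i = 0 := by
  constructor
  · rintro ⟨y, rfl⟩ i hi
    rw [Pi.smul_apply, nsmul_eq_mul]
    have : ((2 ^ j : ℕ) : ZMod (2 ^ a i)) = 0 := by
      rw [ZMod.natCast_eq_zero_iff]
      exact pow_dvd_pow 2 hi
    rw [this, zero_mul]
  · intro h
    have h1 : ∀ i, ∃ y : ZMod (2 ^ a i), x i = 2 ^ j • y := by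
      intro i
      by_cases hi : a i ≤ j
      · exact ⟨0, by rw [h i hi, smul_zero]⟩
      · rcases zmod_torsion (a i) (ha1 i) (x i) (congrFun hx i) with h0 | h0
        · exact ⟨0, by rw [h0, smul_zero]⟩
        · refine ⟨((2 ^ (a i - 1 - j) : ℕ) : ZMod (2 ^ a i)), ?_⟩
          rw [h0, nsmul_eq_mul, ← Nat.cast_mul, ← pow_add]
          congr 2
          omega
    choose y hy using h1
    exact ⟨y, funext hy⟩

theorem odd_fix {A : Type*} [AddCommGroup A] (α : A ≃+ A) (m : ℕ) (hm : Odd m) (hα : ∀ x, α^[m] x = x)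
    (x d : A) (hd : α x = x + d) (hd2 : d + d = 0) (hdf : α d = d) : d = 0 := by
  have h1 : ∀ k : ℕ, α^[k] x = x + k • d := by
    intro k
    induction k with
    | zero => simp
    | succ k ih =>
      rw [Function.iterate_succ_apply', ih, map_add, map_nsmul, hd, hdf, succ_nsmul]
      abel
  have h2 := h1 m
  rw [hα] at h2
  have h3 : m • d = 0 := by
    have := h2.symm
    rwa [add_eq_left] at this
  obtain ⟨k, rfl⟩ := hm
  rw [add_smul, one_smul, mul_comm, mul_smul, two_smul, hd2, smul_zero, zero_add] at h3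
  exact h3

theorem odd_trivial (ha : StrictMono a) (ha1 : ∀ i, 1 ≤ a i)
    (α : ((i : Fin n) → ZMod (2 ^ a i)) ≃+ ((i : Fin n) → ZMod (2 ^ a i))) (m : ℕ) (hm : Odd m)
    (hα : ∀ x, α^[m] x = x) (x : (i : Fin n) → ZMod (2 ^ a i)) : α x = x := by
  -- fix the socle
  have hsocle : ∀ (k j : ℕ), (∀ i, a i ≤ j + k) → ∀ x : (i : Fin n) → ZMod (2 ^ a i), x + x = 0 →
      (∀ i, a i ≤ j → x i = 0) → α x = x := by
    intro k
    induction k with
    | zero =>
      intro j hj x hx hx0
      have : x = 0 := by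
        funext i
        exact hx0 i (hj i)
      rw [this, map_zero]
    | succ k ih =>
      intro j hj x hx hx0
      have hαx : α x + α x = 0 := by rw [← map_add, hx, map_zero]
      have hαx0 : ∀ i, a i ≤ j → (α x) i = 0 := by
        rw [← div_iff ha1 _ hαx j]
        obtain ⟨y, hy⟩ := (div_iff ha1 x hx j).2 hx0
        exact ⟨α y, by rw [hy, map_nsmul]⟩
      have hsum2 : (α x + x) + (α x + x) = 0 := by
        have : (α x + x) + (α x + x) = (α x + α x) + (x + x) := by abel
        rw [this, hαx, hx, add_zero]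
      -- the sum of x and α x lies deeper
      have hd0 : ∀ i, a i ≤ j + 1 → (α x + x) i = 0 := by
        intro i hi
        rw [Pi.add_apply]
        rcases Nat.lt_or_ge j (a i) with hji | hji
        · have hij : a i = j + 1 := by omega
          -- coordinates vanish below `j` and at `j` are `0` or the involution
          have hfix : ∀ z : (i : Fin n) → ZMod (2 ^ a i), z + z = 0 → (∀ i, a i ≤ j → z i = 0) →
              (z i = 0 ↔ ∀ i', a i' ≤ j + 1 → z i' = 0) := by
            intro z hz hz0
            constructor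
            · intro h i' hi'
              rcases Nat.lt_or_ge j (a i') with h' | h'
              · have : i' = i := ha.injective (by omega)
                rw [this, h]
              · exact hz0 i' h'
            · intro h
              exact h i hi
          have hequiv : x i = 0 ↔ (α x) i = 0 := by
            rw [hfix x hx hx0, hfix (α x) hαx hαx0, ← div_iff ha1 x hx, ← div_iff ha1 _ hαx]
            constructor
            · rintro ⟨y, hy⟩
              exact ⟨α y, by rw [hy, map_nsmul]⟩
            · rintro ⟨y, hy⟩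
              refine ⟨α.symm y, α.injective ?_⟩
              rw [map_nsmul, AddEquiv.apply_symm_apply, hy]
          rcases zmod_torsion (a i) (ha1 i) (x i) (congrFun hx i) with h0 | h0
          · rw [h0, hequiv.1 h0, add_zero]
          · rcases zmod_torsion (a i) (ha1 i) (α x i) (congrFun hαx i) with h1 | h1
            · rw [h1, hequiv.2 h1, add_zero]
            · rw [h1, ← h0]
              exact congrFun hx i
        · rw [hx0 i hji, hαx0 i hji, add_zero]
      have hfix := ih (j + 1) (fun i => by have := hj i; omega) (α x + x) hsum2 hd0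
      have hd : α x = x + (α x + x) := by
        have : x + (α x + x) = α x + (x + x) := by abel
        rw [this, hx, add_zero]
      have h0 := odd_fix α m hm hα x (α x + x) hd hsum2 hfix
      rw [h0, add_zero] at hd
      exact hd
  have hsoc : ∀ x : (i : Fin n) → ZMod (2 ^ a i), x + x = 0 → α x = x := by
    intro x hx
    refine hsocle (∑ i, a i) 0 (fun i => ?_) x hx (fun i hi => absurd (ha1 i) (by omega))
    rw [zero_add]
    exact Finset.single_le_sum (f := a) (fun _ _ => Nat.zero_le _) (Finset.mem_univ i)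
  -- lift
  have hall : ∀ (k : ℕ) (x : (i : Fin n) → ZMod (2 ^ a i)), 2 ^ k • x = 0 → α x = x := by
    intro k
    induction k with
    | zero =>
      intro x hx
      rw [pow_zero, one_smul] at hx
      rw [hx, map_zero]
    | succ k ih =>
      intro x hx
      have h2x : α (x + x) = x + x := by
        apply ih
        rw [← two_smul ℕ x, ← mul_smul, ← pow_succ, hx]
      have hd2 : (α x - x) + (α x - x) = 0 := by
        have : (α x - x) + (α x - x) = (α x + α x) - (x + x) := by abel
        rw [this, ← map_add, h2x, sub_self]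
      have h0 := odd_fix α m hm hα x (α x - x) (by abel) hd2 (hsoc _ hd2)
      exact sub_eq_zero.1 h0
  refine hall (∑ i, a i) x ?_
  funext i
  rw [Pi.smul_apply, nsmul_eq_mul]
  have : ((2 ^ (∑ i, a i) : ℕ) : ZMod (2 ^ a i)) = 0 := by
    rw [ZMod.natCast_eq_zero_iff]
    exact pow_dvd_pow 2 (Finset.single_le_sum (f := a) (fun _ _ => Nat.zero_le _) (Finset.mem_univ i))
  rw [this, zero_mul]
  rfl

/-- Let S be a finite abelian 2-group that is a direct product of cyclic groups of pairwise distinct orders 2^{a_1} < 2^{a_2} < ⋯ < 2^{a_n} (all a_i ≥ 1). Then every saturated fusion system over S is the inner one: its maps are exactly the conjugations by elements of S. -/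
theorem result {Ω : Type*} [Group Ω] {S : Subgroup Ω} [Finite S] (n : ℕ) (a : Fin n → ℕ) (ha : StrictMono a) (ha1 : ∀ i, 1 ≤ a i) (e : ↥S ≃* Multiplicative ((i : Fin n) → ZMod (2 ^ a i))) (F : Cfsg.FusionSystem S) (hF : F.IsSaturated 2) (P : Subgroup Ω) : F.Hom P = (Cfsg.innerFusionSystem S).Hom P := by
  have hab' : ∀ x y : S, x * y = y * x := by
    intro x y
    apply e.injective
    rw [map_mul, map_mul]
    exact mul_comm (e x) (e y)
  have hab : ∀ x ∈ S, ∀ y ∈ S, x * y = y * x := fun x hx y hy => congrArg Subtype.val (hab' ⟨x, hx⟩ ⟨y, hy⟩)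
  have : Fact (Nat.Prime 2) := ⟨Nat.prime_two⟩
  have hS : IsPGroup 2 S := by
    intro g
    refine ⟨∑ i, a i, ?_⟩
    apply e.injective
    rw [map_pow, map_one]
    apply Multiplicative.toAdd.injective
    rw [toAdd_pow, toAdd_one]
    funext i
    rw [Pi.smul_apply, nsmul_eq_mul]
    have : ((2 ^ (∑ i, a i) : ℕ) : ZMod (2 ^ a i)) = 0 := by
      rw [ZMod.natCast_eq_zero_iff]
      exact pow_dvd_pow 2 (Finset.single_le_sum (f := a) (fun _ _ => Nat.zero_le _) (Finset.mem_univ i))
    rw [this, zero_mul]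
    rfl
  have htriv : ∀ α ∈ F.autGroup S, α = 1 := by
    intro α hα
    have : Finite (MulAut S) := H86.FusSat.finite_mulAut S
    have hodd : Odd (orderOf (⟨α, hα⟩ : F.autGroup S)) := by
      rw [← Nat.not_even_iff_odd, even_iff_two_dvd]
      intro h
      exact H90.FusAb.not_dvd_card_autGroup hS hF hab (h.trans (orderOf_dvd_natCard _))
    rw [Subgroup.orderOf_mk] at hodd
    let β : ((i : Fin n) → ZMod (2 ^ a i)) ≃+ ((i : Fin n) → ZMod (2 ^ a i)) :=
      AddEquiv.toMultiplicative.symm (MulAut.congr e α)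
    have hβ : ∀ (k : ℕ) (x : (i : Fin n) → ZMod (2 ^ a i)), β^[k] x = Multiplicative.toAdd (e ((α ^ k) (e.symm (Multiplicative.ofAdd x)))) := by
      intro k
      induction k with
      | zero => intro x; simp
      | succ k ih =>
        intro x
        rw [Function.iterate_succ_apply', ih, pow_succ']
        have hβ1 : ∀ y, β y = Multiplicative.toAdd (e (α (e.symm (Multiplicative.ofAdd y)))) := fun y => rfl
        rw [hβ1]
        simp
    have h1 := odd_trivial ha ha1 β (orderOf α) hodd (by
      intro x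
      rw [hβ, pow_orderOf_eq_one]
      simp)
    ext x
    have h2 := h1 (Multiplicative.toAdd (e x))
    have h3 := hβ 1 (Multiplicative.toAdd (e x))
    rw [Function.iterate_one, h2] at h3
    simp only [ofAdd_toAdd, MulEquiv.symm_apply_apply, pow_one, EmbeddingLike.apply_eq_iff_eq] at h3
    rw [← h3]
    rfl
  ext φ
  constructor
  · intro hφ
    have hP := H86.FusBasic.le_of_mem F hφ
    obtain ⟨α, hα, hx⟩ := H90.FusAb.exists_aut_extension hS hF hab hφ hP
    refine ⟨hP, 1, S.one_mem, fun x => ?_⟩
    rw [hx, htriv α hα]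
    simp
  · intro hφ
    exact H90.FusAb.inner_le F P hφ

end Cfsg.Agent.S5331
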