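import Cfsg.Statements.S5521
import Mathlib
import Cfsg.Agent.Lib.H8.M24Trans

set_option autoImplicit false
open Cfsg

namespace Cfsg.Agent.S5521

/-- The Mathieu group M₂₄ in its natural action on the 24 coordinate positions of the binary Golay code has minimal base size exactly 7: every set of at most 6 positions is fixed pointwise by some non-identity element of M₂₄, while some set of 7 positions is fixed pointwise only by the identity. -/
theorem result :
    (∀ B : Finset Cfsg.GolayPt, B.card ≤ 6 → ∃ g ∈ Cfsg.M24, g ≠ 1 ∧ ∀ b ∈ B, g b = b) ∧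
    (∃ B : Finset Cfsg.GolayPt, B.card = 7 ∧ ∀ g ∈ Cfsg.M24, (∀ b ∈ B, g b = b) → g = 1) := by
  classical
  constructor
  · intro B hB
    obtain ⟨B', hBB', hB'⟩ := Finset.exists_superset_card_eq (s := B) (n := 6) hB
      (by rw [H8.GolayCode.card_pt]; norm_num)
    obtain ⟨x, hx, hxB⟩ := H8.M24Trans.exists_enum B' hB'
    by_contra hcon
    push Not at hcon
    have htriv : ∀ g ∈ Cfsg.M24, (∀ i, g (x i) = x i) → g = 1 := by
      intro g hg hfix
      by_contra hne
      obtain ⟨b, hb, hgb⟩ := hcon g hg hne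
      obtain ⟨i, hi⟩ := (hxB b).mp (hBB' hb)
      exact hgb (by rw [← hi]; exact hfix i)
    let φ : Cfsg.M24 → (Fin 6 ↪ Cfsg.GolayPt) := fun g => ⟨fun i => g.1 (x i), fun i j hij => hx (g.1.injective hij)⟩
    have hφ : Function.Injective φ := by
      intro g h hgh
      have h1 : ∀ i, g.1 (x i) = h.1 (x i) := fun i => DFunLike.congr_fun hgh i
      have h2 : h.1⁻¹ * g.1 = 1 := by
        apply htriv _ (Cfsg.M24.mul_mem (Cfsg.M24.inv_mem h.2) g.2)
        intro i
        rw [Equiv.Perm.mul_apply, h1 i]
        exact h.1.symm_apply_apply _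
      apply Subtype.ext
      exact (inv_mul_eq_one.mp h2).symm
    have h3 := Nat.card_le_card_of_injective φ hφ
    rw [H8.M24Chain.card_M24, Nat.card_eq_fintype_card, Fintype.card_embedding_eq, H8.GolayCode.card_pt,
      Fintype.card_fin] at h3
    norm_num [Nat.descFactorial] at h3
  · refine ⟨([4, 5, 3, 2, 1, 0, 23].map H8.GolayCode.pt).toFinset, by decide +kernel, ?_⟩
    intro g hg hfix
    apply H8.M24Chain.fix7
    rw [H8.M24Chain.mem_Fix]
    exact ⟨hg, fun y hy => hfix y (List.mem_toFinset.mpr hy)⟩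

end Cfsg.Agent.S5521
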