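import Cfsg.Statements.S5529
import Mathlib
import Cfsg.Agent.Lib.H93.M23Gen
import Cfsg.Agent.Lib.H93.Ree

set_option autoImplicit false
open Cfsg

namespace Cfsg.Agent.S5529


open Cfsg H8.GolayCode H8.GolayCount H8.GolayBasic H8.M24Mem H8.M24Trans H8.M24Chain H93.GolayMod H93.M23Gen H93.Ree

/-- fixed points modulo `p` on an invariant finite set -/
theorem fix_mod {α : Type*} [DecidableEq α] {g : Equiv.Perm α} {p : ℕ} (hp : p.Prime) (hg : g ^ p = 1)
    {s : Finset α} (hs : ∀ x ∈ s, g x ∈ s) : s.card % p = (s.filter fun x => g x = x).card % p := by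
  have hfact : Fact p.Prime := ⟨hp⟩
  have hpow : ∀ n : ℕ, ∀ x ∈ s, (g ^ n) x ∈ s := by
    intro n
    induction n with
    | zero => intro x hx; exact hx
    | succ n ih => intro x hx; rw [pow_succ', Equiv.Perm.mul_apply]; exact hs _ (ih x hx)
  let f : Function.End {x // x ∈ s} := fun x => ⟨g x.1, hs x.1 x.2⟩
  have hfn : ∀ n : ℕ, ∀ x : {x // x ∈ s}, ((f ^ n : Function.End {x // x ∈ s}) x).1 = (g ^ n) x.1 := by
    intro n
    induction n with
    | zero => intro x; rfl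
    | succ n ih =>
      intro x
      rw [pow_succ', pow_succ', Equiv.Perm.mul_apply, ← ih x]
      rfl
  have h1 : f ^ p ^ 1 = 1 := by
    funext x
    apply Subtype.ext
    rw [hfn, pow_one, hg]
    rfl
  have h2 := Equiv.Perm.card_fixedPoints_modEq (n := 1) h1
  have h3 : Fintype.card (Function.fixedPoints f) = (s.filter fun x => g x = x).card := by
    rw [← Fintype.card_coe]
    apply Fintype.card_congr
    refine ⟨fun x => ⟨x.1.1, Finset.mem_filter.mpr ⟨x.1.2, congrArg Subtype.val x.2⟩⟩,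
      fun x => ⟨⟨x.1, (Finset.mem_filter.mp x.2).1⟩, Subtype.ext (Finset.mem_filter.mp x.2).2⟩, fun x => rfl, fun x => rfl⟩
  have h4 : Fintype.card {x // x ∈ s} ≡ Fintype.card (Function.fixedPoints f) [MOD p] := h2
  rw [h3, Fintype.card_coe] at h4
  exact h4

theorem no_fix3 {g : Equiv.Perm GolayPt} (hg : g ∈ M24) (h3 : g ^ 3 = 1) :
    (Finset.univ.filter fun x => g x = x).card ≠ 3 := by
  intro hcard
  obtain ⟨a, b, c, hab, hac, hbc, hF⟩ := Finset.card_eq_three.mp hcard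
  have hga : g a = a := by
    have : a ∈ Finset.univ.filter fun x => g x = x := by rw [hF]; simp
    exact (Finset.mem_filter.mp this).2
  have hgb : g b = b := by
    have : b ∈ Finset.univ.filter fun x => g x = x := by rw [hF]; simp
    exact (Finset.mem_filter.mp this).2
  have hggg : ∀ x, g (g (g x)) = x := by
    intro x
    have := congrArg (fun k : Equiv.Perm GolayPt => k x) h3
    exact this
  set T := Finset.univ.filter fun x => ¬ (g x = x) with hT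
  have hTcard : T.card = 21 := by
    have h := Finset.card_filter_add_card_filter_not (s := (Finset.univ : Finset GolayPt)) (fun x => g x = x)
    rw [hcard, Finset.card_univ, card_pt, ← hT] at h
    omega
  have hex : ∀ x : GolayPt, ∃ O : Finset GolayPt, x ∈ T → (O ∈ octads ∧ a ∈ O ∧ b ∈ O ∧ x ∈ O ∧ g x ∈ O ∧ g (g x) ∈ O) := by
    intro x
    by_cases hx : x ∈ T
    · have hx' : ¬ g x = x := (Finset.mem_filter.mp hx).2
      have n1 : g x ≠ g (g x) := fun h => hx' (g.injective h).symm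
      have n2 : x ≠ g (g x) := by
        intro h
        have := congrArg g h
        rw [hggg] at this
        exact hx' this
      have na1 : ∀ y, a = g y → a = y := fun y h => g.injective (hga.trans h)
      have nb1 : ∀ y, b = g y → b = y := fun y h => g.injective (hgb.trans h)
      have nax : a ≠ x := by rintro rfl; exact hx' hga
      have nbx : b ≠ x := by rintro rfl; exact hx' hgb
      have hc5 : ({a, b, x, g x, g (g x)} : Finset GolayPt).card = 5 := by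
        rw [Finset.card_insert_of_notMem, Finset.card_insert_of_notMem, Finset.card_insert_of_notMem,
          Finset.card_insert_of_notMem, Finset.card_singleton]
        · simp only [Finset.mem_singleton]; exact n1
        · simp only [Finset.mem_insert, Finset.mem_singleton, not_or]; exact ⟨fun h => hx' h.symm, n2⟩
        · simp only [Finset.mem_insert, Finset.mem_singleton, not_or]
          exact ⟨nbx, fun h => nbx (nb1 _ h), fun h => nbx (nb1 _ (nb1 _ h))⟩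
        · simp only [Finset.mem_insert, Finset.mem_singleton, not_or]
          exact ⟨hab, nax, fun h => nax (na1 _ h), fun h => nax (na1 _ (na1 _ h))⟩
      obtain ⟨O, ⟨hO, hsub⟩, -⟩ := octads_steiner.2 _ hc5
      refine ⟨O, fun _ => ⟨hO, hsub (by simp), hsub (by simp), hsub (by simp), hsub (by simp), hsub (by simp)⟩⟩
    · exact ⟨∅, fun h => absurd h hx⟩
  choose O hO using hex
  -- uniqueness
  have huniq : ∀ x ∈ T, ∀ Q ∈ octads, a ∈ Q → b ∈ Q → x ∈ Q → g x ∈ Q → g (g x) ∈ Q → Q = O x := by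
    intro x hx Q hQ q1 q2 q3 q4 q5
    obtain ⟨o0, o1, o2, o3, o4, o5⟩ := hO x hx
    have hx' : ¬ g x = x := (Finset.mem_filter.mp hx).2
    have n1 : g x ≠ g (g x) := fun h => hx' (g.injective h).symm
    have n2 : x ≠ g (g x) := by
      intro h
      have := congrArg g h
      rw [hggg] at this
      exact hx' this
    have na1 : ∀ y, a = g y → a = y := fun y h => g.injective (hga.trans h)
    have nb1 : ∀ y, b = g y → b = y := fun y h => g.injective (hgb.trans h)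
    have nax : a ≠ x := by rintro rfl; exact hx' hga
    have nbx : b ≠ x := by rintro rfl; exact hx' hgb
    have hc5 : ({a, b, x, g x, g (g x)} : Finset GolayPt).card = 5 := by
      rw [Finset.card_insert_of_notMem, Finset.card_insert_of_notMem, Finset.card_insert_of_notMem,
        Finset.card_insert_of_notMem, Finset.card_singleton]
      · simp only [Finset.mem_singleton]; exact n1
      · simp only [Finset.mem_insert, Finset.mem_singleton, not_or]; exact ⟨fun h => hx' h.symm, n2⟩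
      · simp only [Finset.mem_insert, Finset.mem_singleton, not_or]
        exact ⟨nbx, fun h => nbx (nb1 _ h), fun h => nbx (nb1 _ (nb1 _ h))⟩
      · simp only [Finset.mem_insert, Finset.mem_singleton, not_or]
        exact ⟨hab, nax, fun h => nax (na1 _ h), fun h => nax (na1 _ (na1 _ h))⟩
    apply octad_unique hQ o0 (le_of_eq hc5.symm)
    · intro p hp
      simp only [Finset.mem_insert, Finset.mem_singleton] at hp
      rcases hp with rfl | rfl | rfl | rfl | rfl <;> assumption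
    · intro p hp
      simp only [Finset.mem_insert, Finset.mem_singleton] at hp
      rcases hp with rfl | rfl | rfl | rfl | rfl <;> assumption
  have hinv : ∀ x ∈ T, ∀ y ∈ O x, g y ∈ O x := by
    intro x hx y hy
    obtain ⟨o0, o1, o2, o3, o4, o5⟩ := hO x hx
    have h1 : (O x).image g = O x := by
      apply huniq x hx _ (image_octad hg o0)
      · rw [← hga]; exact Finset.mem_image_of_mem g o1
      · rw [← hgb]; exact Finset.mem_image_of_mem g o2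
      · have := Finset.mem_image_of_mem g o5
        rwa [hggg] at this
      · exact Finset.mem_image_of_mem g o3
      · exact Finset.mem_image_of_mem g o4
    rw [← h1]
    exact Finset.mem_image_of_mem g hy
  have hfib : ∀ x ∈ T, (T.filter fun y => O y = O x).card = 6 := by
    intro x hx
    obtain ⟨o0, o1, o2, o3, o4, o5⟩ := hO x hx
    have h1 : (T.filter fun y => O y = O x) = (O x).filter fun y => ¬ g y = y := by
      ext y
      constructor
      · intro hyy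
        obtain ⟨hy, h⟩ := Finset.mem_filter.mp hyy
        exact Finset.mem_filter.mpr ⟨by rw [← h]; exact (hO y hy).2.2.2.1, (Finset.mem_filter.mp hy).2⟩
      · intro hyy
        obtain ⟨hy, hy'⟩ := Finset.mem_filter.mp hyy
        have hyT : y ∈ T := Finset.mem_filter.mpr ⟨Finset.mem_univ _, hy'⟩
        exact Finset.mem_filter.mpr ⟨hyT, (huniq y hyT _ o0 o1 o2 hy (hinv x hx _ hy) (hinv x hx _ (hinv x hx _ hy))).symm⟩
    have h2 := Finset.card_filter_add_card_filter_not (s := O x) (fun y => g y = y)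
    have h3' := fix_mod (by norm_num : Nat.Prime 3) h3 (hinv x hx)
    have h4 : ((O x).filter fun y => g y = y).card ≤ 3 := by
      rw [← hcard]
      apply Finset.card_le_card
      intro y hy
      exact Finset.mem_filter.mpr ⟨Finset.mem_univ _, (Finset.mem_filter.mp hy).2⟩
    have h5 : 2 ≤ ((O x).filter fun y => g y = y).card := by
      rw [← Finset.card_pair hab]
      apply Finset.card_le_card
      intro y hy
      simp only [Finset.mem_insert, Finset.mem_singleton] at hy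
      rcases hy with rfl | rfl
      · exact Finset.mem_filter.mpr ⟨o1, hga⟩
      · exact Finset.mem_filter.mpr ⟨o2, hgb⟩
    have h8 : (O x).card = 8 := o0.2
    rw [h1]
    omega
  have hsum := Finset.card_eq_sum_card_image O T
  rw [Finset.sum_congr rfl (g := fun _ => 6) (by
    intro Q hQ
    rw [Finset.mem_image] at hQ
    obtain ⟨x, hx, rfl⟩ := hQ
    exact hfib x hx), Finset.sum_const, hTcard, smul_eq_mul] at hsum
  omega

theorem fix_ge_mod {g : Equiv.Perm GolayPt} {p : ℕ} (hp : p.Prime) (hg : g ^ p = 1) :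
    24 % p ≤ (Finset.univ.filter fun x => g x = x).card := by
  have h := fix_mod hp hg (s := Finset.univ) (fun x _ => Finset.mem_univ _)
  rw [Finset.card_univ, card_pt] at h
  rw [h]
  exact Nat.mod_le _ _

theorem fix_ge_two {g : Equiv.Perm GolayPt} (hg : g ∈ M24) (h2 : g ^ 2 = 1) (h0 : g none = none) :
    8 ≤ (Finset.univ.filter fun x => g x = x).card := by
  have hgg : ∀ x, g (g x) = x := by
    intro x
    have := congrArg (fun k : Equiv.Perm GolayPt => k x) h2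
    exact this
  have h := weight_cases (H93.GolayDual.fixed_mem_GS hg hgg)
  have hne : (Finset.univ.filter fun x => g x = x).card ≠ 0 := by
    rw [Finset.card_ne_zero]
    exact ⟨none, Finset.mem_filter.mpr ⟨Finset.mem_univ _, h0⟩⟩
  omega

theorem fix_ge_three {g : Equiv.Perm GolayPt} (hg : g ∈ M24) (h3 : g ^ 3 = 1) (h0 : g none = none) :
    6 ≤ (Finset.univ.filter fun x => g x = x).card := by
  have h := fix_mod (by norm_num : Nat.Prime 3) h3 (s := Finset.univ) (fun x _ => Finset.mem_univ _)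
  rw [Finset.card_univ, card_pt] at h
  have hne : (Finset.univ.filter fun x => g x = x).card ≠ 0 := by
    rw [Finset.card_ne_zero]
    exact ⟨none, Finset.mem_filter.mpr ⟨Finset.mem_univ _, h0⟩⟩
  have := no_fix3 hg h3
  omega

theorem pow_order {g : Spor.M23} {p : ℕ} (h : orderOf g = p) : (g : Equiv.Perm GolayPt) ^ p = 1 := by
  rw [← Subgroup.orderOf_coe] at h
  rw [← h]
  exact pow_orderOf_eq_one _

theorem rk2 {g : Spor.M23} (h : orderOf g = 2) : rk (g : Equiv.Perm GolayPt) ≤ 8 := by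
  have h1 := rk_le (by norm_num) (pow_order h)
  have h2 := fix_ge_two g.2.1 (pow_order h) g.2.2
  rw [card_pt] at h1
  omega

theorem rk3 {g : Spor.M23} (h : orderOf g = 3) : rk (g : Equiv.Perm GolayPt) ≤ 12 := by
  have h1 := rk_le (by norm_num) (pow_order h)
  have h2 := fix_ge_three g.2.1 (pow_order h) g.2.2
  rw [card_pt] at h1
  omega

theorem rk5 {g : Spor.M23} (h : orderOf g = 5) : rk (g : Equiv.Perm GolayPt) ≤ 16 := by
  have h1 := rk_le (by norm_num) (pow_order h)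
  have h2 := fix_ge_mod (by norm_num) (pow_order h)
  rw [card_pt] at h1
  omega

theorem rk7 {g : Spor.M23} (h : orderOf g = 7) : rk (g : Equiv.Perm GolayPt) ≤ 18 := by
  have h1 := rk_le (by norm_num) (pow_order h)
  have h2 := fix_ge_mod (by norm_num) (pow_order h)
  rw [card_pt] at h1
  omega

theorem rk_all {g : Spor.M23} {r : ℕ} (hr : r = 3 ∨ r = 5 ∨ r = 7 ∨ r = 11 ∨ r = 23) (h : orderOf g = r) :
    rk (g : Equiv.Perm GolayPt) ≤ 22 := by
  rcases hr with rfl | rfl | rfl | rfl | rfl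
  · have := rk3 h; omega
  · have := rk5 h; omega
  · have := rk7 h; omega
  · have h1 := rk_le (by norm_num) (pow_order h)
    have h2 := fix_ge_mod (by norm_num) (pow_order h)
    rw [card_pt] at h1
    omega
  · have h1 := rk_le (by norm_num) (pow_order h)
    have h2 := fix_ge_mod (by norm_num) (pow_order h)
    rw [card_pt] at h1
    omega

theorem inv_le {x y : Spor.M23} (h : Subgroup.closure {x, y} = ⊤) :
    Module.finrank ℚ (Inv (x : Equiv.Perm GolayPt) (y : Equiv.Perm GolayPt)) ≤ 2 := by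
  -- the invariant functions are constant on residues
  have hconst : ∀ f ∈ Inv (x : Equiv.Perm GolayPt) (y : Equiv.Perm GolayPt), ∀ (g : Spor.M23) (i : GolayPt),
      f (g.1 i) = f i := by
    intro f hf g
    have hg : g ∈ Subgroup.closure {x, y} := by rw [h]; exact Subgroup.mem_top _
    have hx := mem_ker_D.mp hf.1
    have hy := mem_ker_D.mp hf.2
    induction hg using Subgroup.closure_induction with
    | mem z hz =>
      simp only [Set.mem_insert_iff, Set.mem_singleton_iff] at hz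
      rcases hz with rfl | rfl
      · exact hx
      · exact hy
    | one => intro i; rfl
    | mul a b _ _ ha hb =>
      intro i
      have : (a * b).1 i = a.1 (b.1 i) := rfl
      rw [this, ha, hb]
    | inv a _ ha =>
      intro i
      have h1 := ha (a⁻¹.1 i)
      have h2 : a.1 (a⁻¹.1 i) = i := by
        show (a * a⁻¹).1 i = i
        rw [mul_inv_cancel]; rfl
      rw [h2] at h1
      exact h1.symm
  have hα : ∀ f ∈ Inv (x : Equiv.Perm GolayPt) (y : Equiv.Perm GolayPt), ∀ n : ℕ, f (some (n : ZMod 23)) = f (some 0) := by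
    intro f hf n
    induction n with
    | zero => rw [Nat.cast_zero]
    | succ n ih =>
      rw [← ih, ← hconst f hf ⟨gα, α_mem, α_none⟩ (some (n : ZMod 23))]
      congr 1
      rw [Nat.cast_succ]
      rfl
  let ψ : Inv (x : Equiv.Perm GolayPt) (y : Equiv.Perm GolayPt) →ₗ[ℚ] ℚ × ℚ :=
    { toFun := fun f => (f.1 none, f.1 (some 0))
      map_add' := fun _ _ => rfl
      map_smul' := fun _ _ => rfl }
  have h1 := LinearMap.finrank_le_finrank_of_injective (f := ψ) (by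
    intro a b hab
    apply Subtype.ext
    have e1 : a.1 none = b.1 none := congrArg Prod.fst hab
    have e2 : a.1 (some 0) = b.1 (some 0) := congrArg Prod.snd hab
    funext i
    cases i with
    | none => exact e1
    | some i =>
      have h1 := hα a.1 a.2 i.val
      have h2 := hα b.1 b.2 i.val
      rw [ZMod.natCast_zmod_val] at h1 h2
      rw [h1, h2, e2])
  have h2 : Module.finrank ℚ (ℚ × ℚ) = 2 := by
    rw [Module.finrank_prod, Module.finrank_self]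
  rw [h2] at h1
  exact h1

theorem ree_ineq {x y z : Spor.M23} (hxyz : x * y * z = 1) (h : Subgroup.closure {x, y} = ⊤) :
    44 ≤ rk (x : Equiv.Perm GolayPt) + rk (y : Equiv.Perm GolayPt) + rk (z : Equiv.Perm GolayPt) := by
  have h1 : (x : Equiv.Perm GolayPt) * (y : Equiv.Perm GolayPt) * (z : Equiv.Perm GolayPt) = 1 :=
    congrArg Subtype.val hxyz
  have h2 := scott h1
  have h3 := inv_le h
  rw [card_pt] at h2
  omega

theorem prime_cases {r : ℕ} (hr : r.Prime) (h : r ∣ 10200960) :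
    r = 2 ∨ r = 3 ∨ r = 5 ∨ r = 7 ∨ r = 11 ∨ r = 23 := by
  have h1 : r ∣ 2 ^ 7 * (3 ^ 2 * (5 * (7 * (11 * 23)))) := by
    have : (2 ^ 7 * (3 ^ 2 * (5 * (7 * (11 * 23)))) : ℕ) = 10200960 := by norm_num
    rw [this]; exact h
  rcases (Nat.Prime.dvd_mul hr).1 h1 with h1 | h1
  · left; exact (Nat.prime_dvd_prime_iff_eq hr Nat.prime_two).1 (hr.dvd_of_dvd_pow h1)
  rcases (Nat.Prime.dvd_mul hr).1 h1 with h1 | h1
  · right; left; exact (Nat.prime_dvd_prime_iff_eq hr Nat.prime_three).1 (hr.dvd_of_dvd_pow h1)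
  rcases (Nat.Prime.dvd_mul hr).1 h1 with h1 | h1
  · right; right; left; exact (Nat.prime_dvd_prime_iff_eq hr (by norm_num)).1 h1
  rcases (Nat.Prime.dvd_mul hr).1 h1 with h1 | h1
  · right; right; right; left; exact (Nat.prime_dvd_prime_iff_eq hr (by norm_num)).1 h1
  rcases (Nat.Prime.dvd_mul hr).1 h1 with h1 | h1
  · right; right; right; right; left; exact (Nat.prime_dvd_prime_iff_eq hr (by norm_num)).1 h1
  · right; right; right; right; right; exact (Nat.prime_dvd_prime_iff_eq hr (by norm_num)).1 h1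

/-- the certificates: `(p, q, r), (tables), words` -/
def certs : List ((ℕ × ℕ × ℕ) × (ℕ × ℕ × ℕ × ℕ) × (List ℕ × List ℕ)) := [
  ((2, 5, 11), (0xbd8a07ad30985ac92a2438aa8199d4, 0xbd8a07ad30985ac92a2438aa8199d4, 0xbc4940c2b32caca03cc84ac6d609c7, 0xbb63483ad250483330e8025f528a6b), ([2, 0, 3, 3, 0, 2, 0, 3, 3, 0, 2, 0, 3, 3, 0, 3, 3, 0, 3, 0, 3, 0, 2, 0, 3, 3], [2, 0, 2, 2, 0, 3, 0, 2, 2, 0, 2, 0, 2, 0, 3, 3, 0, 2, 2, 0, 2, 0, 3, 0, 2])),
  ((2, 5, 23), (0xba1929d230305555b53623c67289c0, 0xba1929d230305555b53623c67289c0, 0xb82a50d8c478daea2e12430538a927, 0xbcaab220697b1a6508270469071676), ([0, 2, 0, 3, 3, 0, 2, 2, 0, 2, 0, 2, 2, 0, 3, 0, 2, 0, 2, 0, 2, 0, 3, 0, 2, 0, 3], [3, 0, 2, 0, 3, 3, 0, 3, 0, 3, 0, 2, 0, 3, 0, 2, 2, 0])),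
  ((2, 7, 7), (0xbb4d225027782cc4a968854b318a2e, 0xbb4d225027782cc4a968854b318a2e, 0xbb80b9d1f6544a169c6981982aa244, 0xbc072985c78d965a3d02519a049195), ([0, 3, 0, 3, 3, 0, 3, 3, 0, 3, 0, 3, 3, 0, 2], [2, 2, 0, 3, 3, 0, 2, 0, 3, 0, 3, 3, 0, 3, 3, 3, 0, 2, 2, 0, 3, 0, 3, 3, 0])),
  ((2, 7, 11), (0xbac8f638e5a49b3b284889a151a420, 0xbac8f638e5a49b3b284889a151a420, 0xbbd41455a504ecc7412222e9130e47, 0xbb6457048ab2e2c3553300e071228f), ([3, 0, 2, 0, 3, 0, 2, 0, 2, 2, 0, 2, 0, 3, 3, 0, 3, 0, 3, 0, 2, 2, 0], [0, 3, 0, 2, 2, 0, 2, 0, 3, 0, 2, 2, 0, 2, 0, 2, 0, 3, 3, 3])),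
  ((2, 7, 23), (0xbdaa5636224ba530a9e8012861c167, 0xbdaa5636224ba530a9e8012861c167, 0xb8d73504e0141a97c4ceb5504a30b2, 0xb9cc3a014e5a1a2acd858a424b3e50), ([2, 0, 2, 2, 2, 0, 2, 0, 2, 0, 3, 3, 0, 3, 0, 2, 2, 0], [2, 0, 2, 2, 0, 3, 3, 3, 0, 2, 2, 0, 3, 3, 0, 2, 0, 2, 2, 2, 0, 2, 2])),
  ((2, 11, 11), (0xbc613a4ad57a5a1591c8198aa38182, 0xbc613a4ad57a5a1591c8198aa38182, 0xbac680363438a01759444be5564ca6, 0xba8901162d32e43b24f478028ab993), ([0, 2, 0, 2, 0, 2, 2, 0, 3, 3, 0, 3, 3, 0, 3, 0, 2, 2, 0, 3, 3, 0, 3], [3, 3, 0, 3, 3, 0, 3, 0, 2, 2, 0, 3, 0, 2])),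
  ((2, 11, 23), (0xbb62860eb07bad3594f44994291020, 0xbb62860eb07bad3594f44994291020, 0xbbe7489db621869408aa72e40832a1, 0xbc034a9663b1e223218b9392f6a804), ([0, 2, 0, 2, 2, 2, 2, 0, 2, 0, 2, 2, 2, 2, 0, 2, 0, 3, 3], [0, 3, 0, 2, 0, 3, 0, 3, 3, 3, 0, 2, 2, 2, 0, 3, 0, 2, 2, 0, 2])),
  ((2, 23, 23), (0xbd8b483033790525a90901aae1b627, 0xbd8b483033790525a90901aae1b627, 0xb8e367d40e14cad09d6c4d08a41a50, 0xbd246706a09c188490e3509a5b3d71), ([2, 0, 2, 0, 2, 2, 0, 2, 2, 0, 2, 0, 3, 0, 3, 3], [0, 3, 3, 3, 0, 3, 3, 3, 0, 2, 0, 2, 2, 2, 0, 2, 2, 0, 3, 3, 3, 0, 2])),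
  ((3, 3, 11), (0xbcc36a2e4f00dac8d528391c229950, 0xbd153b4560815ac9052838866712af, 0xba14b84aa70d9804c68e9bca4188cd, 0xbba293c9533200da5576804a4189ec), ([3, 0, 2, 0, 2, 0, 3, 0, 3, 0, 2, 0, 3, 0, 2, 0, 2, 1, 2, 0, 3, 1], [3, 1, 2, 1, 2, 0, 3, 1, 2, 0, 2, 0, 2, 1, 2, 1, 3, 0, 2, 1])),
  ((3, 3, 23), (0xb92b358470b224ca0a20518af49dae, 0xbbeaba35302002c99c6e118b68aa48, 0xbda020ca2b7a1b4a91c92a8663b013, 0xbd96c04a357a5a28190e190ea2d261), ([3, 1, 3, 1, 2, 1, 3, 0, 2, 0, 2, 1, 3, 1, 2, 0, 3, 1, 2, 0, 2, 1], [0, 3, 1, 3, 1, 2, 0, 3, 1, 2, 0, 2, 0, 3, 0, 2, 1, 2, 1, 3, 1])),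
  ((3, 5, 5), (0xbda83040a43bdac5a44874c32aaa26, 0xbd8753103271dac5894878230a24b3, 0xb8ad5825b27b986a4d4728c818ad00, 0xbd68b540737ba2d12641430e535880), ([3, 3, 1, 2, 2, 0, 3, 1, 2, 1, 2, 2, 1, 3], [2, 1, 3, 1, 2, 2, 0, 3, 0, 2, 0, 3, 1, 2, 0, 2, 0, 3])),
  ((3, 5, 7), (0xb8ea19d08e788ad5a2c03c5864c24a, 0xba6b2984c27c1855806a391b1b3a88, 0xbced429aa241d8180e4b6aa244bdc0, 0xbd634b24ab104ed4186f74a6454180), ([3, 1, 3, 3, 1, 3, 1, 3, 0, 2, 1, 3, 1, 2, 0, 2], [0, 2, 1, 3, 1, 2, 1, 3, 0, 2, 2, 0, 3, 0, 3])),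
  ((3, 5, 11), (0xbd98bac5a2a1e537a830019241a0ae, 0xbda6f6364858235a28a2718241c127, 0xb8671748cfa098345527b40ad02964, 0xb9d4faca8684c8d0892b444a063ac3), ([2, 0, 2, 2, 1, 2, 2, 0, 2, 0, 3, 0, 2, 1, 2, 2, 0], [1, 2, 0, 2, 2, 1, 2, 0, 2, 1, 2, 2, 1, 2, 0, 2])),
  ((3, 5, 23), (0xbb26d4507079a425a8b5484f1259c0, 0xb8912ab490786965a8f32b9238b0c0, 0xbdaa161e658980a23d326d05072c68, 0xbdaa68a1e450cf31312093a0b0968d), ([1, 2, 1, 2, 2, 0, 3, 0, 2, 0, 2, 0, 2, 1, 3, 3], [2, 0, 2, 0, 3, 1, 2, 2, 1, 2, 0, 2, 1, 2, 2, 0, 2, 1])),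
  ((3, 7, 7), (0xbb88d1cad09c54c5d0a1aa4c77a040, 0xbc4ea7c9d01da8c5b4c22153598500, 0xbc4459bdc4ad0c18316800ced4aa56, 0xb81ee986cb9448a488682b69035587), ([0, 3, 1, 3, 0, 3, 3, 0, 3, 3, 0, 3, 1, 2, 2, 1], [2, 0, 3, 0, 2, 0, 3, 0, 2, 2, 2, 0, 3, 0, 2, 2, 0])),
  ((3, 7, 11), (0xb88249c966a42276a9954b8af18116, 0xb810f9c9ae219698a8e1640b41daa2, 0xbd9ae48873428927b0d00ae91396a0, 0xbd825830885d2aa33a6f1a44d8c8e0), ([1, 3, 0, 3, 3, 3, 1, 3, 3, 0, 2, 1, 3, 3], [3, 1, 2, 2, 2, 0, 2, 1, 2, 0, 2, 1, 3, 0, 3])),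
  ((3, 7, 23), (0xbdaa219e8a9a5ae0958802e047c4d2, 0xbdab1780451b1a9341c8905449d167, 0xbad0aa5493634b24b8d138e0f05822, 0xb8a5383105229cfb51753a5b130023), ([0, 3, 0, 2, 0, 2, 0, 2, 2, 2, 0, 3, 3, 3, 1, 2], [2, 2, 2, 1, 3, 3, 0, 3, 0, 2, 0, 2, 1, 3, 1])),
  ((3, 11, 11), (0xbd90b112212b9b462a039c806a9d2f, 0xbd86c39a29039aba2835111f244e05, 0xbd5e5b0c4e0b1126a626801445ce87, 0xbcec113127ac16e1954d02284945e6), ([1, 2, 1, 2, 0, 2, 2, 2, 2, 1, 3, 0, 2, 2, 1], [1, 3, 0, 3, 1, 3, 1, 3, 1, 3, 3, 1, 2, 0])),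
  ((3, 11, 23), (0xba6d41c84a431a4582a5999ee38630, 0xbd5343c820291ae5c2cf1990c9c44a, 0xbba2d782c8aa47351a4511e845c181, 0xbc5e5626a29da811add03290469c12), ([1, 3, 1, 2, 2, 1, 2, 2, 1, 3, 0, 3], [2, 2, 2, 2, 1, 2, 0, 3, 3, 1, 2, 2, 1, 3, 0])),
  ((3, 23, 23), (0xbd8e14ca2ca38c0ab4625a904995f0, 0xbd96f1ca200b95039a65ab4444a28c, 0xb96908a58e986d2188d541d602354f, 0xbb5157b2740405128647326c35a9c4), ([2, 2, 1, 3, 0, 2, 1, 3, 0, 3, 0, 3, 0, 3, 3, 0], [3, 0, 2, 0, 3, 1, 2, 2, 1, 2, 1, 3, 1, 3, 1])),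
  ((5, 5, 5), (0xbd1b361c460ba25592aa402d21a60f, 0xb9536a11a103ab35a0479418a1c5e6, 0xb91519b1ae1d456a21f0918072ac29, 0xbb1cb99e884c2321540a218767b425), ([0, 2, 0, 3, 3, 1, 3, 0, 2, 1, 1, 3, 0, 0, 3], [1, 3, 0, 3, 0, 0, 2, 0, 2, 2, 1, 2])),
  ((5, 5, 7), (0xba927250325c66c335f0454b670803, 0xb90d26c1c848d4c7daa7a2cb300a21, 0xb903442c40b19a5849cf6563319d2a, 0xbbcd4228ab425a790033139961c6b0), ([0, 2, 2, 1, 2, 1, 3, 1, 3, 0, 3, 3, 1, 2], [0, 2, 1, 2, 2, 1, 2, 0, 2, 2, 1, 3, 3, 1, 1])),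
  ((5, 5, 11), (0xb8eb68905009d455b80c335f492513, 0xbd2a400e702a8c85b44171d92b45e9, 0xbd5693a9946b86f44ca1118048cad0, 0xb86d050860639f1aca8b9992469d05), ([2, 2, 0, 2, 0, 0, 2, 0, 0, 2, 0, 3, 3, 0], [0, 2, 1, 2, 1, 2, 0, 3, 0, 0, 2, 1, 2, 1])),
  ((5, 5, 23), (0xba5edb285564cc559c08246039502e, 0xbce0270cc5a828f5cac85358724429, 0xba5f20c4501add3b31b53a154310a0, 0xbad0465250ab52a716c638c227c660), ([0, 3, 3, 1, 3, 1, 1, 2, 2, 1, 1, 3, 0, 2, 2, 1], [3, 1, 2, 1, 2, 0, 3, 1, 3, 3, 1, 1, 2, 0])),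
  ((5, 7, 7), (0xbc9a4b0e0c0accfaa9143b92500a33, 0xbcd680583161ab0728a93b494909e3, 0xb96547b4315a09684c430192ea9d4c, 0xbb0745560b99240784ae11acd42627), ([0, 0, 2, 1, 2, 1, 2, 2, 2, 1, 2], [0, 3, 1, 1, 2, 0, 3, 1, 1, 3, 0, 3, 1, 3])),
  ((5, 7, 11), (0xbc8b199070550d6708093bd015b595, 0xbb00e9da9032c411bd053b6b28a889, 0xb8c3228a8403a6a5d4e96460f3590d, 0xb89516d0c5238075b10148e70b4aaf), ([2, 0, 0, 3, 0, 0, 3, 0, 3, 1, 1], [0, 2, 0, 2, 1, 3, 1, 3, 1, 2, 2, 1, 3, 1, 1])),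
  ((5, 7, 23), (0xbd9a47ad348c06c04d52754c728901, 0xbd8d0521ee99eac92621214746880b, 0xb99098841093a6b2546ca1ec22a9af, 0xb95476be700382860a953586b49251), ([3, 3, 3, 1, 3, 0, 2, 2, 2, 1, 2, 1, 3, 3, 0], [3, 3, 1, 2, 0, 3, 0, 2, 2, 1, 2, 0, 3, 3, 1])),
  ((5, 11, 11), (0xbbe082b4c00d1d55c55238ecc48a64, 0xb958e0a155b36445a4743c660309f0, 0xbad90b0a4d891333d10678d4570035, 0xbcc0a645f438e15b15a95a08e34822), ([2, 1, 2, 2, 1, 2, 0, 3, 0, 2, 0, 0, 3, 3, 1, 1], [0, 2, 0, 2, 2, 2, 2, 0, 2, 2, 1, 3, 3])),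
  ((5, 11, 23), (0xbda698280c591a8314750b8ef88a54, 0xbd900a8473219b07ca8c2ad4e488f1, 0xba8062c9c74245482c239c5af65496, 0xb804c3c8cb244a3559cf8526143535), ([0, 2, 2, 2, 0, 3, 0, 2, 0, 3, 3, 1], [3, 0, 2, 1, 3, 1, 3, 1, 1, 2, 0, 0, 3, 1, 3])),
  ((5, 23, 23), (0xbd92f9d20821a2e3a96018a45a858d, 0xbd872995b1a30014aab05b88f39848, 0xb950b7cec474640135411c28961cd5, 0xbc405935c69bd43a2495106d03ad0c), ([0, 3, 0, 2, 2, 1, 3, 0, 0, 3, 3, 0, 3], [0, 3, 3, 0, 3, 1, 2, 1, 1, 2, 1])),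
  ((7, 7, 7), (0xbb03199209b4962a550d79ca030dca, 0xbbd4b9ba91385166820930cb2132a4, 0xbd2aa2c04f9ac68881b69182c724e4, 0xba2b679d7280d247504c09a606c4aa), ([3, 1, 1, 2, 0, 0, 2, 1, 1, 1, 3, 0, 2], [2, 1, 3, 0, 3, 3, 1, 2, 0, 2, 1, 2, 0, 0])),
  ((7, 7, 11), (0xbb0569c8ef89a000a064495746baaa, 0xbd0249c9ed80876280ea8b8c84d56c, 0xbda91825030b0523a9e49adcd054a6, 0xbd8553b2934948e32a5158028835e3), ([3, 3, 3, 1, 1, 3, 3, 1, 3, 3, 0, 3], [0, 0, 0, 2, 1, 1, 2, 0, 0, 3, 3, 0, 2, 1])),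
  ((7, 7, 23), (0xbae2ca8e82348256ce0878144b1dc9, 0xb8e7153aa938574b140813d84941a6, 0xbad4d21693119903bd16901311b835, 0xba01181c8c50a8db54a95ba531bc26), ([0, 3, 0, 0, 3, 3, 3, 0, 3, 3, 0, 0, 0, 2], [1, 2, 1, 3, 0, 0, 0, 2, 0, 0, 2, 2, 1, 2])),
  ((7, 11, 11), (0xbd90180807ab2496a8c474d63a45e5, 0xbd9e33345309d6e2a9958240824a91, 0xb84926aec553d331d2ae3b01089902, 0xbc52a650647226693da138a15582c5), ([1, 3, 3, 1, 1, 1, 2, 1, 1, 3, 1, 1, 2, 2, 0], [0, 3, 1, 2, 1, 1, 3, 1, 3, 1, 3])),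
  ((7, 11, 23), (0xbbc319996a651a324a074a045ab816, 0xb806e9aa89b09af8c0e64488b616a1, 0xba0f06bd95544324cdc02d0461d964, 0xb8a06531d4926710bd76a90e0195a8), ([2, 1, 1, 3, 0, 2, 0, 2, 2, 1, 3, 0, 2, 1], [1, 3, 0, 2, 0, 3, 0, 3, 1, 3, 0])),
  ((7, 23, 23), (0xbbd2730a935d5a3759452321240031, 0xba9d181005b2da67a6a3a4d0764822, 0xb9d2cab671a082e2a08f3406b90156, 0xb826f88e0643254206aab1d692b9a2), ([0, 3, 3, 3, 0, 2, 1, 2, 1, 1, 2, 0, 0, 0], [1, 2, 0, 0, 0, 2, 0, 0, 0, 3, 0, 0, 0, 2])),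
  ((11, 11, 11), (0xb8e8592024039709a4f56bd513584c, 0xb89155cc8c338e06955248e90b062f, 0xb81b23c48181acc15574195537b909, 0xbb5482524f18aac494019b8d13ae16), ([1, 3, 3, 1, 2, 2, 1, 3, 1, 3, 3, 0, 3, 0], [0, 2, 0, 3, 0, 2, 1, 3, 3, 0, 2, 1, 1])),
  ((11, 11, 23), (0xbc8a8056d383d2e6c58720a811ad46, 0xbc6458594f73169105b4402a719893, 0xbb6213389063e8798905a8eca48172, 0xb94ed582b074acf0906964d1132a82), ([1, 3, 3, 3, 0, 3, 1, 2, 0, 3, 1, 1, 2, 2], [2, 2, 2, 1, 2, 1, 1, 3, 1, 3, 1, 2])),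
  ((11, 23, 23), (0xb8596134881a5d2819e03cea58ad54, 0xbd0a03306b4b655105d03a8917cec8, 0xb9602959d19a5eb400e46346aa06a6, 0xbc8237ce156c4c7611cb482c82d04a), ([1, 1, 2, 0, 0, 3, 3, 1, 2, 2, 0, 3, 0], [3, 0, 3, 0, 3, 1, 3, 0, 2, 2, 0, 2, 2, 1])),
  ((23, 23, 23), (0xbbad2240f19ac546a2af4a8c0604a3, 0xbd52c7d21245963718ea8943303444, 0xbb5643066a8d0752a50e9080c79e16, 0xb818e89de11a2c4ac14914d7469a45), ([1, 3, 3, 0, 3, 1, 3, 0, 3, 0, 3, 3, 3], [2, 0, 2, 0, 0, 0, 2, 1, 3, 1, 1, 1, 2]))]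

theorem certs_ok : (certs.all fun c => chk c.1.1 c.1.2.1 c.1.2.2 c.2.1.1 c.2.1.2.1 c.2.1.2.2.1 c.2.1.2.2.2 c.2.2.1 c.2.2.2) = true := by
  decide +kernel

theorem exists_gen {p q r : ℕ} (hp : p.Prime) (hq : q.Prime) (hr : r.Prime)
    (h : (certs.map fun c => c.1).contains (p, q, r) = true) :
    ∃ x y z : Spor.M23, orderOf x = p ∧ orderOf y = q ∧ orderOf z = r ∧ x * y * z = 1 ∧
        Subgroup.closure {x, y} = ⊤ := by
  rw [List.contains_iff_mem, List.mem_map] at h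
  obtain ⟨c, hc, he⟩ := h
  have h1 := certs_ok
  rw [List.all_eq_true] at h1
  have h2 := h1 c hc
  rw [he] at h2
  exact chk_spec hp hq hr h2

/-- Generation of the Mathieu group M₂₃ (the stabiliser of a point in the Mathieu group M₂₄ acting on 24 points) by triples of prime orders. Let p ≤ q ≤ r be primes dividing |M₂₃| = 10200960 = 2⁷·3²·5·7·11·23, not both p and q equal to 2. Then M₂₃ contains elements x, y, z of orders p, q, r with xyz = 1 and ⟨x, y⟩ = M₂₃ if and only if (p, q, r) is none of: (2, 3, r) for any r, (2, 5, 5), (2, 5, 7), (3, 3, 3), (3, 3, 5), (3, 3, 7). -/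
theorem result (p q r : ℕ) (hp : p.Prime) (hq : q.Prime)
    (hr : r.Prime) (hpq : p ≤ q) (hqr : q ≤ r) (hp2 : ¬ (p = 2 ∧ q = 2))
    (hdvd : p ∣ 10200960 ∧ q ∣ 10200960 ∧ r ∣ 10200960) :
    (∃ x y z : Cfsg.Spor.M23, orderOf x = p ∧ orderOf y = q ∧ orderOf z = r ∧ x * y * z = 1 ∧
        Subgroup.closure {x, y} = ⊤) ↔
      ¬ ((p = 2 ∧ q = 3) ∨ (p = 2 ∧ q = 5 ∧ r = 5) ∨ (p = 2 ∧ q = 5 ∧ r = 7) ∨ (p = 3 ∧ q = 3 ∧ r ≤ 7)) := by
  constructor
  · rintro ⟨x, y, z, hx, hy, hz, hxyz, hgen⟩ hbad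
    have hree := ree_ineq hxyz hgen
    rcases hbad with ⟨rfl, rfl⟩ | ⟨rfl, rfl, rfl⟩ | ⟨rfl, rfl, rfl⟩ | ⟨rfl, rfl, h7⟩
    · have h1 := rk2 hx
      have h2 := rk3 hy
      have h3 := rk_all (by
        rcases prime_cases hr hdvd.2.2 with h | h | h | h | h | h
        · omega
        · exact Or.inl h
        · exact Or.inr (Or.inl h)
        · exact Or.inr (Or.inr (Or.inl h))
        · exact Or.inr (Or.inr (Or.inr (Or.inl h)))
        · exact Or.inr (Or.inr (Or.inr (Or.inr h)))) hz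
      omega
    · have h1 := rk2 hx
      have h2 := rk5 hy
      have h3 := rk5 hz
      omega
    · have h1 := rk2 hx
      have h2 := rk5 hy
      have h3 := rk7 hz
      omega
    · have h1 := rk3 hx
      have h2 := rk3 hy
      rcases prime_cases hr hdvd.2.2 with h | h | h | h | h | h
      · omega
      · have h3 := rk3 (hz.trans h); omega
      · have h3 := rk5 (hz.trans h); omega
      · have h3 := rk7 (hz.trans h); omega
      · omega
      · omega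
  · intro hgood
    apply exists_gen hp hq hr
    have c1 := prime_cases hp hdvd.1
    have c2 := prime_cases hq hdvd.2.1
    have c3 := prime_cases hr hdvd.2.2
    clear hdvd hp hq hr
    rcases c1 with rfl | rfl | rfl | rfl | rfl | rfl <;>
    rcases c2 with rfl | rfl | rfl | rfl | rfl | rfl <;>
    first
    | (exfalso; omega)
    | (rcases c3 with rfl | rfl | rfl | rfl | rfl | rfl <;>
        first
        | (exfalso; omega)
        | decide +kernel)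

end Cfsg.Agent.S5529
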