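import Cfsg.Statements.S5562
import Mathlib

set_option autoImplicit false
open Cfsg

namespace Cfsg.Agent.S5562

/-- Let G be a finite group, d an involution of G whose conjugates pairwise have products of odd order, and x any involution of G. Then the conjugacy class of d is the disjoint union, over the conjugates a of d commuting with x, of the sets of conjugates of d commuting with ax: every conjugate of d commutes with ax for exactly one conjugate a of d that commutes with x. -/
theorem result {G : Type*} [Group G] [Finite G] (d : G) (hd : orderOf d = 2)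
    (hodd : ∀ a ∈ conjugatesOf d, ∀ b ∈ conjugatesOf d, Odd (orderOf (a * b)))
    (x : G) (hx : orderOf x = 2) :
    ∀ e ∈ conjugatesOf d,
      ∃! a : G, a ∈ conjugatesOf d ∧ Commute a x ∧ Commute e (a * x) := by
  have hsq : ∀ a ∈ conjugatesOf d, a * a = 1 := by
    intro a ha
    have h1 : orderOf a = 2 := by
      have h0 : IsConj d a := ha
      obtain ⟨c, hc⟩ := isConj_iff.mp h0
      rw [← hc, ← hd]
      exact (MulAut.conj c).orderOf_eq d
    have h2 := pow_orderOf_eq_one a
    rw [h1, pow_two] at h2
    exact h2
  have hconj : ∀ a ∈ conjugatesOf d, ∀ g : G, g * a * g⁻¹ ∈ conjugatesOf d := by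
    intro a ha g
    have h1 : IsConj d a := ha
    exact h1.trans (isConj_iff.mpr ⟨g, rfl⟩)
  have hx2 : x * x = 1 := by
    have h2 := pow_orderOf_eq_one x
    rw [hx, pow_two] at h2
    exact h2
  have hxinv : x⁻¹ = x := inv_eq_of_mul_eq_one_left hx2
  intro e he
  have hee := hsq e he
  have heinv : e⁻¹ = e := inv_eq_of_mul_eq_one_left hee
  -- surjectivity of a ↦ a e a on the class
  have hsurj : ∀ f ∈ conjugatesOf d, ∃ a ∈ conjugatesOf d, a * e * a = f := by
    intro f hf
    have hff := hsq f hf
    obtain ⟨m, hm⟩ := hodd e he f hf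
    set r := e * f with hr
    have hrn : r ^ (2 * m + 1) = 1 := by rw [← hm]; exact pow_orderOf_eq_one r
    have her : e * r = f := by rw [hr, ← mul_assoc, hee, one_mul]
    have hre : e * r * e = r⁻¹ := by
      rw [her, hr, mul_inv_rev, heinv, inv_eq_of_mul_eq_one_left hff]
    have hpow : ∀ k : ℕ, e * r ^ k * e = (r ^ k)⁻¹ := by
      intro k
      have h3 : e * r ^ k * e⁻¹ = (e * r * e⁻¹) ^ k := by
        rw [conj_pow]
      rw [heinv] at h3
      rw [h3, hre, inv_pow]
    have hdih : ∀ k : ℕ, (r ^ k)⁻¹ * e * r ^ k = e * r ^ (2 * k) := by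
      intro k
      rw [← hpow k]
      calc e * r ^ k * e * e * r ^ k = e * r ^ k * (e * e) * r ^ k := by group
        _ = e * r ^ (2 * k) := by rw [hee, mul_one, mul_assoc, ← pow_add]; congr 2; ring
    refine ⟨e * r ^ (m + 1), ?_, ?_⟩
    · have h4 : e * r ^ (m + 1) = (r ^ ((m + 1) * (m + 1)))⁻¹ * e * ((r ^ ((m + 1) * (m + 1)))⁻¹)⁻¹ := by
        rw [inv_inv, hdih]
        congr 1
        have : 2 * ((m + 1) * (m + 1)) = (m + 1) + (2 * m + 1) * (m + 1) := by ring
        rw [this, pow_add r (m + 1), pow_mul, hrn, one_pow, mul_one]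
      rw [h4]
      exact hconj e he _
    · calc e * r ^ (m + 1) * e * (e * r ^ (m + 1)) = e * r ^ (m + 1) * (e * e) * r ^ (m + 1) := by group
        _ = e * (r ^ (2 * m + 1) * r) := by
          rw [hee, mul_one, mul_assoc, ← pow_add, ← pow_succ]; congr 2; ring
        _ = f := by rw [hrn, one_mul, her]
  -- the map on the subtype
  let φ : {a : G // a ∈ conjugatesOf d} → {a : G // a ∈ conjugatesOf d} := fun a =>
    ⟨a.1 * e * a.1, by
      have h5 := hconj e he a.1
      rwa [inv_eq_of_mul_eq_one_left (hsq a.1 a.2)] at h5⟩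
  have hφs : Function.Surjective φ := by
    intro f
    obtain ⟨a, ha, haf⟩ := hsurj f.1 f.2
    exact ⟨⟨a, ha⟩, Subtype.ext haf⟩
  have hφi : Function.Injective φ := Finite.injective_iff_surjective.mpr hφs
  have huniq : ∀ a ∈ conjugatesOf d, ∀ b ∈ conjugatesOf d, a * e * a = b * e * b → a = b := by
    intro a ha b hb hab
    have := @hφi ⟨a, ha⟩ ⟨b, hb⟩ (Subtype.ext hab)
    exact congrArg Subtype.val this
  have hf : x * e * x ∈ conjugatesOf d := by
    have h6 := hconj e he x
    rwa [hxinv] at h6
  obtain ⟨a, ha, haf⟩ := hsurj (x * e * x) hf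
  have haa := hsq a ha
  have hax : x * a * x = a := by
    apply huniq (x * a * x) (by have h6 := hconj a ha x; rwa [hxinv] at h6) a ha
    have h7 : a * (x * e * x) * a = e := by
      rw [← haf]
      calc a * (a * e * a) * a = (a * a) * e * (a * a) := by group
        _ = e := by rw [haa]; group
    calc x * a * x * e * (x * a * x) = x * (a * (x * e * x) * a) * x := by group
      _ = x * e * x := by rw [h7]
      _ = a * e * a := haf.symm
  have hcax : Commute a x := by
    have : x * a = a * x := by
      calc x * a = x * a * (x * x) := by rw [hx2, mul_one]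
        _ = (x * a * x) * x := by group
        _ = a * x := by rw [hax]
    exact this.symm
  refine ⟨a, ⟨ha, hcax, ?_⟩, ?_⟩
  · show e * (a * x) = a * x * e
    calc e * (a * x) = (a * a) * e * a * x := by rw [haa]; group
      _ = a * (a * e * a) * x := by group
      _ = a * (x * e * x) * x := by rw [haf]
      _ = a * x * e * (x * x) := by group
      _ = a * x * e := by rw [hx2, mul_one]
  · rintro b ⟨hb, hbx, hbe⟩
    apply huniq b hb a ha
    rw [haf]
    have hbb := hsq b hb
    have h8 : e * (b * x) = b * x * e := hbe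
    calc b * e * b = b * (e * (b * x)) * x := by
          calc b * e * b = b * e * b * (x * x) := by rw [hx2, mul_one]
            _ = b * (e * (b * x)) * x := by group
      _ = b * (b * x * e) * x := by rw [h8]
      _ = (b * b) * (x * e * x) := by group
      _ = x * e * x := by rw [hbb, one_mul]

end Cfsg.Agent.S5562
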