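import Cfsg.Statements.S5712
import Cfsg.Agent.Lib.H7.SpTwoI

set_option autoImplicit false
open Cfsg

namespace Cfsg.Agent.S5712

open Module H95.SpBasic H95.SpGeom H95.Bridge H7.SpTwo
open H7.DickHom (Fx mem_Fx)

/-- Let F be a finite field of characteristic two, n ≥ 2, V = F^{2n} with the non-degenerate alternating form f(u, v) = Σ (u_i v_{n+i} + u_{n+i} v_i), and G the group of invertible matrices preserving f. Let a ≠ 0 be a vector, H its stabilizer in G, and X a subgroup of O₂(H) of order |F|^{2n−2} no element of which is a transvection (no element g has g − 1 of rank one). If L is a subgroup of G containing X that acts irreducibly on V (no proper non-zero L-invariant subspace), then L = G, or, for some quadratic form Q on V whose polar form is f, L is the isometry group of Q or its subgroup of the isometries g for which g − 1 has even rank, or |F| = 2, n = 2 and L is isomorphic to the alternating group of degree 6 or to the symmetric group of degree 5. -/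
theorem result {F : Type*} [Field F] [Fintype F] [CharP F 2] {n : ℕ} (hn : 2 ≤ n) (a : (Fin n ⊕ Fin n → F)) (ha : a ≠ 0)
    (X : Subgroup (GL (Fin n ⊕ Fin n) F)) (hXG : X ≤ Cfsg.preserving (Units.coeHom (Matrix (Fin n ⊕ Fin n) (Fin n ⊕ Fin n) F)) (fun u v : (Fin n ⊕ Fin n → F) => ∑ i : Fin n, (u (Sum.inl i) * v (Sum.inr i) + u (Sum.inr i) * v (Sum.inl i))))
    (hXO : ∀ H : Subgroup (GL (Fin n ⊕ Fin n) F),
      (∀ g : GL (Fin n ⊕ Fin n) F, g ∈ H ↔ (g ∈ Cfsg.preserving (Units.coeHom (Matrix (Fin n ⊕ Fin n) (Fin n ⊕ Fin n) F)) (fun u v : (Fin n ⊕ Fin n → F) => ∑ i : Fin n, (u (Sum.inl i) * v (Sum.inr i) + u (Sum.inr i) * v (Sum.inl i))) ∧ Matrix.mulVec (g : Matrix (Fin n ⊕ Fin n) (Fin n ⊕ Fin n) F) a = a)) →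
      X ≤ (Cfsg.pCore 2 ↥H).map H.subtype)
    (hcard : Nat.card ↥X = Fintype.card F ^ (2 * n - 2))
    (hntv : ∀ x ∈ X, ((x : Matrix (Fin n ⊕ Fin n) (Fin n ⊕ Fin n) F) - 1).rank ≠ 1)
    (L : Subgroup (GL (Fin n ⊕ Fin n) F)) (hXL : X ≤ L) (hLG : L ≤ Cfsg.preserving (Units.coeHom (Matrix (Fin n ⊕ Fin n) (Fin n ⊕ Fin n) F)) (fun u v : (Fin n ⊕ Fin n → F) => ∑ i : Fin n, (u (Sum.inl i) * v (Sum.inr i) + u (Sum.inr i) * v (Sum.inl i))))
    (hirr : ∀ W : Submodule F (Fin n ⊕ Fin n → F), (∀ g ∈ L, ∀ w ∈ W, Matrix.mulVec (g : Matrix (Fin n ⊕ Fin n) (Fin n ⊕ Fin n) F) w ∈ W) → W = ⊥ ∨ W = ⊤) :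
    L = Cfsg.preserving (Units.coeHom (Matrix (Fin n ⊕ Fin n) (Fin n ⊕ Fin n) F)) (fun u v : (Fin n ⊕ Fin n → F) => ∑ i : Fin n, (u (Sum.inl i) * v (Sum.inr i) + u (Sum.inr i) * v (Sum.inl i))) ∨
    (∃ Q : QuadraticForm F (Fin n ⊕ Fin n → F), (∀ u v, QuadraticMap.polar ⇑Q u v = (fun u v : (Fin n ⊕ Fin n → F) => ∑ i : Fin n, (u (Sum.inl i) * v (Sum.inr i) + u (Sum.inr i) * v (Sum.inl i))) u v) ∧
      (L = Cfsg.isometryGroup F ⇑Q ∨
        ∀ g : GL (Fin n ⊕ Fin n) F, g ∈ L ↔ (g ∈ Cfsg.isometryGroup F ⇑Q ∧ Even ((g : Matrix (Fin n ⊕ Fin n) (Fin n ⊕ Fin n) F) - 1).rank))) ∨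
    (Fintype.card F = 2 ∧ n = 2 ∧ (Nonempty (↥L ≃* ↥(alternatingGroup (Fin 6))) ∨ Nonempty (↥L ≃* Equiv.Perm (Fin 5)))) := by
  have hcd : (fun u v : (Fin n ⊕ Fin n → F) => ∑ i : Fin n, (u (Sum.inl i) * v (Sum.inr i) + u (Sum.inr i) * v (Sum.inl i))) = frm n F := rfl
  rw [hcd] at hXG hXO hLG
  rw [hcd]
  -- abstract objects
  obtain ⟨B, hBdef⟩ : ∃ B, B = spB n F := ⟨_, rfl⟩
  have hB : B.IsAlt := by rw [hBdef]; exact spB_isAlt n F
  have hnd : ∀ v, (∀ w, B v w = 0) → v = 0 := by rw [hBdef]; exact spB_nondeg n F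
  have hdim : finrank F (Fin n ⊕ Fin n → F) = 2 * n := finrank_eq
  have h4 : 4 ≤ finrank F (Fin n ⊕ Fin n → F) := by omega
  have hpres : ∀ g : GL (Fin n ⊕ Fin n) F, g ∈ Cfsg.preserving (Units.coeHom (Matrix (Fin n ⊕ Fin n) (Fin n ⊕ Fin n) F)) (frm n F) ↔
      toEq _ F g ∈ isom B := by rw [hBdef]; exact fun g => mem_pres
  let E := toEq (Fin n ⊕ Fin n) F
  -- the stabiliser of `a`
  let K : Subgroup ((Fin n ⊕ Fin n → F) ≃ₗ[F] (Fin n ⊕ Fin n → F)) :=
    { carrier := {g | g ∈ isom B ∧ g a = a}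
      one_mem' := ⟨(isom B).one_mem, rfl⟩
      mul_mem' := by
        rintro g h ⟨h1, h2⟩ ⟨h3, h4⟩
        refine ⟨(isom B).mul_mem h1 h3, ?_⟩
        show g (h a) = a
        rw [h4, h2]
      inv_mem' := by
        rintro g ⟨h1, h2⟩
        refine ⟨(isom B).inv_mem h1, ?_⟩
        conv_lhs => rw [← h2]
        exact inv_apply g a }
  let H : Subgroup (GL (Fin n ⊕ Fin n) F) := K.comap E.toMonoidHom
  have hH : ∀ g : GL (Fin n ⊕ Fin n) F, g ∈ H ↔ (g ∈ Cfsg.preserving (Units.coeHom (Matrix (Fin n ⊕ Fin n) (Fin n ⊕ Fin n) F)) (frm n F) ∧ Matrix.mulVec (g : Matrix (Fin n ⊕ Fin n) (Fin n ⊕ Fin n) F) a = a) := by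
    intro g
    rw [hpres, ← toEq_apply]
    exact Iff.rfl
  have hXN := hXO H hH
  let N : Subgroup ((Fin n ⊕ Fin n → F) ≃ₗ[F] (Fin n ⊕ Fin n → F)) :=
    ((Cfsg.pCore 2 ↥H).map H.subtype).map E.toMonoidHom
  have hNK : ∀ g ∈ N, g ∈ isom B ∧ g a = a := by
    rintro _ ⟨_, ⟨x, hx, rfl⟩, rfl⟩
    exact x.2
  have hNnorm : ∀ h ∈ isom B, h a = a → ∀ g ∈ N, h * g * h⁻¹ ∈ N := by
    rintro h hh hha _ ⟨_, ⟨x, hx, rfl⟩, rfl⟩
    have hhH : E.symm h ∈ H := by
      show E (E.symm h) ∈ K
      rw [MulEquiv.apply_symm_apply]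
      exact ⟨hh, hha⟩
    have hn : (Cfsg.pCore 2 ↥H).Normal := inferInstance
    have h1 := hn.conj_mem x hx ⟨E.symm h, hhH⟩
    refine ⟨_, ⟨_, h1, rfl⟩, ?_⟩
    show E (E.symm h * (x : GL (Fin n ⊕ Fin n) F) * (E.symm h)⁻¹) = _
    rw [map_mul, map_mul, map_inv, MulEquiv.apply_symm_apply]
    rfl
  have hNp : IsPGroup 2 N := ((H13.Cores.isPGroup_pCore).map _).map _
  have hform := core_form hB hnd (by omega) ha N hNK hNnorm hNp
  -- the group X
  let X' : Subgroup ((Fin n ⊕ Fin n → F) ≃ₗ[F] (Fin n ⊕ Fin n → F)) := X.map E.toMonoidHom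
  let L' : Subgroup ((Fin n ⊕ Fin n → F) ≃ₗ[F] (Fin n ⊕ Fin n → F)) := L.map E.toMonoidHom
  have hX'N : X' ≤ N := Subgroup.map_mono hXN
  have hX'L : X' ≤ L' := Subgroup.map_mono hXL
  have hmemL : ∀ g : GL (Fin n ⊕ Fin n) F, E g ∈ L' ↔ g ∈ L := by
    intro g
    constructor
    · rintro ⟨y, hy, hyx⟩
      have : y = g := E.injective hyx
      rwa [← this]
    · intro h
      exact ⟨g, h, rfl⟩
  have hcard' : Nat.card X' = Fintype.card F ^ (finrank F (Fin n ⊕ Fin n → F) - 2) := by
    rw [hdim, ← hcard]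
    exact (Nat.card_congr (Subgroup.equivMapOfInjective X E.toMonoidHom E.injective).toEquiv).symm
  have hex := ex_of_card hB hnd ha X' (fun g hg => hform g (hX'N hg)) hcard' (by
    rintro _ ⟨x, hx, rfl⟩ b hxb
    have hxb' : ∀ v, E x v = v + (b * B v a) • a := hxb
    by_cases hb : b = 0
    · apply LinearEquiv.ext
      intro v
      show E x v = v
      rw [hxb', hb, zero_mul, zero_smul, add_zero]
    exfalso
    apply hntv x hx
    -- the fixed space is `a^⊥`
    have h1 := rank_sub x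
    have h2 : Fx (toEq _ F x) = LinearMap.ker (B.flip a) := by
      ext v
      rw [mem_Fx, LinearMap.mem_ker]
      constructor
      · intro h
        have h3 : (b * B v a) • a = 0 := by
          have h5 := hxb' v
          have h6 : E x v = v := h
          rw [h6] at h5
          have h7 : v + 0 = v + (b * B v a) • a := by rw [add_zero]; exact h5
          exact (add_left_cancel h7).symm
        rcases smul_eq_zero.1 h3 with h | h
        · rcases mul_eq_zero.1 h with h | h
          · exact absurd h hb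
          · exact h
        · exact absurd h ha
      · intro h
        have h5 : B v a = 0 := h
        have h6 := hxb' v
        rw [h5, mul_zero, zero_smul, add_zero] at h6
        exact h6
    have hfs : Function.Surjective (B.flip a : (Fin n ⊕ Fin n → F) →ₗ[F] F) := by
      intro c
      obtain ⟨y, hy⟩ : ∃ y, B a y ≠ 0 := by
        by_contra hcon; push Not at hcon; exact ha (hnd a hcon)
      have hy' : B y a ≠ 0 := by rw [symm hB]; exact hy
      refine ⟨(c * (B y a)⁻¹) • y, ?_⟩
      show B ((c * (B y a)⁻¹) • y) a = c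
      rw [map_smul, LinearMap.smul_apply, smul_eq_mul, mul_assoc, inv_mul_cancel₀ hy', mul_one]
    have h3 := LinearMap.finrank_range_add_finrank_ker (B.flip a)
    rw [LinearMap.range_eq_top.2 hfs, finrank_top, finrank_self, hdim, ← h2] at h3
    omega)
  have S : Sit B L' a := by
    refine ⟨hB, hnd, ?_, ha, ?_, ?_⟩
    · rintro _ ⟨x, hx, rfl⟩
      exact (hpres x).1 (hLG hx)
    · intro W hW
      apply hirr W
      intro g hg w hw
      have := hW (E g) ((hmemL g).2 hg) w hw
      rw [← toEq_apply]; exact this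
    · intro w hw
      obtain ⟨b, g, hg, hgx⟩ := hex w hw
      exact ⟨b, g, hX'L hg, hgx⟩
  by_cases hT : ∃ b, b ≠ 0 ∧ Us B L' a 0 b
  · left
    have h1 := S.caseA (by omega) hT
    apply le_antisymm hLG
    intro g hg
    exact (hmemL g).1 (h1 ((hpres g).1 hg))
  right
  push Not at hT
  have T : SitT B L' a := ⟨S, fun b hb => by
    by_contra hne
    exact hT b hne hb⟩
  rcases T.main h4 with ⟨Q, hQ⟩ | ⟨hF, hfr, e, he, hea, hni, hc1⟩
  · left
    refine ⟨IsQ.toQF hQ.isq, ?_, ?_⟩
    · intro u v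
      rw [IsQ.polar, hBdef, spB_frm]
    · have hiso : ∀ g : GL (Fin n ⊕ Fin n) F, g ∈ Cfsg.isometryGroup F ⇑(IsQ.toQF hQ.isq) ↔ isoQ Q (E g) := by
        intro g
        constructor
        · intro h v
          have := h v 0
          show Q (toEq _ F g v) = Q v
          rw [toEq_apply]; exact this
        · intro h u v
          have := h u
          have h2 : Q (toEq _ F g u) = Q u := this
          rw [toEq_apply] at h2; exact h2
      rcases hQ.final T h4 (by rw [hdim]; exact even_two_mul n) with h | h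
      · left
        ext g
        rw [hiso, ← hmemL, h]
      · right
        intro g
        rw [hiso, ← hmemL, h]
        have h1 := rank_sub g
        have : Even (finrank F (Fx (E g))) ↔ Even (((g : Matrix (Fin n ⊕ Fin n) (Fin n ⊕ Fin n) F) - 1).rank) := by
          have h2 : finrank F (Fx (E g)) = finrank F (Fx (toEq _ F g)) := rfl
          rw [h2]
          rw [Nat.even_iff, Nat.even_iff]
          omega
        rw [this]
  · right
    have hcF : Fintype.card F = 2 := by
      classical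
      have hu : (Finset.univ : Finset F) = {0, 1} := by
        ext x
        simp only [Finset.mem_univ, Finset.mem_insert, Finset.mem_singleton, true_iff]
        by_cases h : x = 0
        · exact Or.inl h
        · exact Or.inr (hF x h)
      rw [← Finset.card_univ, hu, Finset.card_pair zero_ne_one]
    have hn2 : n = 2 := by omega
    subst hn2
    refine ⟨hcF, rfl, ?_⟩
    have eI := isoS6 F hcF
    rw [← hBdef] at eI
    have hLi : L' ≤ isom B := S.iso
    -- L as a subgroup of S6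
    let M : Subgroup (Equiv.Perm (Fin 6)) := (L'.subgroupOf (isom B)).map eI.toMonoidHom
    have eLM : ↥L ≃* M :=
      ((Subgroup.equivMapOfInjective L E.toMonoidHom E.injective).trans
        (Subgroup.subgroupOfEquivOfLe hLi).symm).trans
        (Subgroup.equivMapOfInjective (L'.subgroupOf (isom B)) eI.toMonoidHom eI.injective)
    have hidx : M.index = (L'.subgroupOf (isom B)).index := Subgroup.index_map_equiv _ eI
    by_cases hI : IsoAt B L' a
    · right
      have hc := T.exc_iso hF hfr he hea hni hc1 hI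
      rw [card_pairs hnd hcF hfr] at hc
      have hcM : Nat.card M = 120 := by
        rw [← Nat.card_congr eLM.toEquiv, ← hc]
        exact Nat.card_congr (Subgroup.equivMapOfInjective L E.toMonoidHom E.injective).toEquiv
      have h720 : Nat.card (Equiv.Perm (Fin 6)) = 720 := by
        rw [Nat.card_perm, Nat.card_eq_fintype_card, Fintype.card_fin]; rfl
      have h6 : M.index = 6 := by
        have := M.card_mul_index
        rw [hcM, h720] at this
        omega
      obtain ⟨e5⟩ := Cfsg.Agent.S5945.result.2.1 M h6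
      exact ⟨eLM.trans e5⟩
    · left
      obtain ⟨t, ht, htL, hall⟩ := T.exc_aniso hF hfr he hea hni hc1 hI
      have h2 : M.index = 2 := by
        rw [hidx, Subgroup.index_eq_two_iff]
        refine ⟨⟨t, ht⟩, fun b => ?_⟩
        simp only [Subgroup.mem_subgroupOf, Subgroup.coe_mul]
        rcases hall b b.2 with h | h
        · right
          refine ⟨h, fun h' => htL ?_⟩
          exact (Subgroup.mul_mem_cancel_left L' h).1 h'
        · left
          refine ⟨h, fun h' => htL ?_⟩
          exact (Subgroup.mul_mem_cancel_left L' h').1 h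
      have h3 := Equiv.Perm.eq_alternatingGroup_of_index_eq_two h2
      exact ⟨eLM.trans (MulEquiv.subgroupCongr h3)⟩

end Cfsg.Agent.S5712
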