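import Cfsg.Statements.S5713
import Cfsg.Agent.Lib.H95.MinDeg2

set_option autoImplicit false
open Cfsg

namespace Cfsg.Agent.S5713



/-- A classification-free minimal-degree bound. Let G be a finite group acting faithfully and primitively on a finite set Ω with n elements, and suppose that the image of G in the symmetric group on Ω does not contain the alternating group on Ω. Then every non-identity element of G moves at least (√n − 1)/2 points of Ω, that is, it fixes at most n − (√n − 1)/2 points. -/
theorem result {G Ω : Type*} [Group G] [Finite G] [MulAction G Ω] [FaithfulSMul G Ω] [Fintype Ω] [DecidableEq Ω]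
    (hprim : MulAction.IsPreprimitive G Ω)
    (hA : ¬ alternatingGroup Ω ≤ (MulAction.toPermHom G Ω).range)
    (g : G) (hg : g ≠ 1) :
    (Real.sqrt (Fintype.card Ω) - 1) / 2 ≤ (Fintype.card Ω : ℝ) - Nat.card (MulAction.fixedBy Ω g) := by
  classical
  obtain ⟨x₀, hx₀⟩ : ∃ x₀ : Ω, g • x₀ ≠ x₀ := by
    by_contra hcon
    push Not at hcon
    exact hg (eq_of_smul_eq_smul (α := Ω) fun x => by rw [hcon, one_smul])
  have h1 := H95.MinDeg.bound hprim hA g hx₀
  have h2 : Nat.card (MulAction.fixedBy Ω g) = (Finset.univ.filter fun x : Ω => g • x = x).card := by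
    rw [Nat.card_eq_fintype_card, Fintype.card_subtype]
    rfl
  have h3 : (Finset.univ.filter fun x : Ω => g • x = x).card +
      (Finset.univ.filter fun x : Ω => ¬ g • x = x).card = Fintype.card Ω := by
    rw [Finset.card_filter_add_card_filter_not, Finset.card_univ]
  set s := (Finset.univ.filter fun x : Ω => g • x ≠ x).card with hs
  rw [h2]
  have h5 : (Fintype.card Ω : ℝ) = ((Finset.univ.filter fun x : Ω => g • x = x).card : ℝ) + s := by
    rw [← h3]; push_cast; ring
  have h6 : Real.sqrt (Fintype.card Ω) ≤ 2 * (s : ℝ) + 1 := by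
    apply Real.sqrt_le_iff.2; refine ⟨by positivity, ?_⟩
    exact_mod_cast h1
  linarith


end Cfsg.Agent.S5713
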