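import Cfsg.Statements.S5736
import Cfsg.Agent.Lib.H61.BinAct
import Cfsg.Agent.Lib.H61.BinSL2d

set_option autoImplicit false
open Cfsg

namespace Cfsg.Agent.S5736

/-- Let F be a finite field with q ≥ 4 elements, q ≠ 5, let G = PSL₂(F) and let H be a proper subgroup of G. Then the action of G on the cosets of H is binary if and only if H is trivial, or q is a power of 2 and H is a Sylow 2-subgroup, or q = 2^a with a odd and H has order 3. Here an action is binary (relational complexity 2) when, for every n ≥ 2 and all n-tuples I, J of points, if for every pair of positions some group element carries the corresponding pair of entries of I to those of J, then a single group element carries I to J. -/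
theorem result {F : Type*} [Field F] [Fintype F] (h4 : 4 ≤ Fintype.card F) (h5 : Fintype.card F ≠ 5)
    (H : Subgroup (Matrix.ProjectiveSpecialLinearGroup (Fin 2) F)) (hH : H ≠ ⊤) :
    (∀ (n : ℕ) (I J : Fin n → Matrix.ProjectiveSpecialLinearGroup (Fin 2) F ⧸ H), 2 ≤ n →
        (∀ i j : Fin n, i ≠ j → ∃ g : Matrix.ProjectiveSpecialLinearGroup (Fin 2) F, g • I i = J i ∧ g • I j = J j) → ∃ g : Matrix.ProjectiveSpecialLinearGroup (Fin 2) F, ∀ i, g • I i = J i) ↔
      (H = ⊥ ∨ ((∃ a : ℕ, Fintype.card F = 2 ^ a) ∧ ∃ P : Sylow 2 (Matrix.ProjectiveSpecialLinearGroup (Fin 2) F), H = P) ∨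
        ((∃ a : ℕ, Odd a ∧ Fintype.card F = 2 ^ a) ∧ Nat.card H = 3)) := by
  classical
  have hbi := H61.BinAct.bin_iff H
  rw [hbi]
  set π : H61.SL2x.S F →* Matrix.ProjectiveSpecialLinearGroup (Fin 2) F :=
    QuotientGroup.mk' (Subgroup.center (H61.SL2x.S F)) with hπ
  have hs : Function.Surjective π := QuotientGroup.mk'_surjective _
  have hk : π.ker = Subgroup.center (H61.SL2x.S F) := QuotientGroup.ker_mk' _
  have hcm := H61.BinAct.bin_comap π hs H
  have hZH : Subgroup.center (H61.SL2x.S F) ≤ H.comap π := by
    intro z hz
    rw [← hk] at hz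
    show π z ∈ H
    rw [show π z = 1 from hz]; exact H.one_mem
  have hbot : H.comap π ≤ Subgroup.center (H61.SL2x.S F) → H = ⊥ := by
    intro h
    rw [eq_bot_iff]
    intro x hx
    obtain ⟨z, rfl⟩ := hs x
    have hz := h (show z ∈ H.comap π from hx)
    rw [← hk] at hz
    exact hz
  have htop : H.comap π = ⊤ → H = ⊤ := by
    intro h
    rw [eq_top_iff]
    intro x _
    obtain ⟨z, rfl⟩ := hs x
    have : z ∈ H.comap π := by rw [h]; trivial
    exact this
  constructor
  · intro hb
    rw [← hcm] at hb
    by_cases h2 : (2 : F) = 0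
    · -- even characteristic
      have hc2 : ringChar F = 2 := by
        apply CharP.ringChar_of_prime_eq_zero Nat.prime_two
        exact_mod_cast h2
      obtain ⟨n, hn, hcard⟩ := FiniteField.card F (ringChar F)
      rw [hc2] at hcard
      by_cases hcase : ∃ x ∈ H.comap π, ¬ H61.SL2x.Sc x ∧ H61.SL2x.tr x = 0
      · obtain ⟨x, hx, hxs, hx0⟩ := hcase
        obtain ⟨g, hg⟩ := H61.BinSL2.even_one h2 hb (fun h => hH (htop h)) hx hxs hx0
        right; left
        exact ⟨⟨n, hcard⟩, H61.BinSL2.sylow_of π hs hk h2 hg⟩
      · push Not at hcase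
        by_cases hx : ∃ x ∈ H.comap π, ¬ H61.SL2x.Sc x
        · obtain ⟨x, hx, hxs⟩ := hx
          obtain ⟨h3, hF⟩ := H61.BinSL2.even_two h2 hb (fun h => hH (htop h)) hcase hx hxs
          right; right
          refine ⟨⟨n, (H61.BinSL2.odd_iff h2 hcard).2 hF, hcard⟩, ?_⟩
          have hinj : Function.Injective π := by
            rw [← MonoidHom.ker_eq_bot_iff, hk, eq_bot_iff]
            intro z hz
            rw [Subgroup.mem_bot]
            exact H61.BinSL2.sc_one_of h2 (H61.SL2x.mem_center.1 hz)
          have e : (H.comap π).map π = H := Subgroup.map_comap_eq_self_of_surjective hs H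
          rw [← e, ← h3]
          exact (Nat.card_congr ((H.comap π).equivMapOfInjective π hinj).toEquiv).symm
        · push Not at hx
          left
          apply hbot
          intro z hz
          exact H61.SL2x.mem_center.2 (hx z hz)
    · left
      apply hbot
      by_contra hcon
      have hc2 : ringChar F ≠ 2 := by
        intro hc
        apply h2
        have := ringChar.Nat.cast_ringChar (R := F)
        rw [hc] at this
        exact_mod_cast this
      have hodd := FiniteField.odd_card_of_char_ne_two hc2
      have hF : 5 < Nat.card F := by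
        rw [Nat.card_eq_fintype_card]
        omega
      obtain ⟨K, hK1, hK2, hK3, hK4⟩ := H61.BinAct.exists_good (H := H.comap π) inferInstance hZH hb
        (H61.BinAct.IntC.refl _) hcon
      rcases H61.BinSL2.odd_main h2 hF hK4 with h | h
      · apply hH
        apply htop
        rw [eq_top_iff, ← h]; exact hK2
      · exact hK3 h
  · rintro (h | ⟨⟨a, ha⟩, P, hP⟩ | ⟨⟨a, hodd, ha⟩, h3⟩)
    · subst h
      apply H61.BinAct.bin_of_ti
      · intro g z hz hz1
        exact absurd hz hz1
      · intro a b x y ha ha1
        exact absurd (Subgroup.mem_bot.1 ha) ha1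
    · have h2 : (2 : F) = 0 := by
        have h1 : ((Fintype.card F : ℕ) : F) = 0 := Nat.cast_card_eq_zero F
        rw [ha] at h1
        push_cast at h1
        exact pow_eq_zero_iff (by
          rintro rfl
          rw [pow_zero] at ha; omega) |>.1 h1
      rw [hP, ← H61.BinAct.bin_comap π hs]
      exact H61.BinSL2.sylow_bin π hs hk h2 P
    · have h2 : (2 : F) = 0 := by
        have h1 : ((Fintype.card F : ℕ) : F) = 0 := Nat.cast_card_eq_zero F
        rw [ha] at h1
        push_cast at h1
        exact pow_eq_zero_iff (by
          rintro rfl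
          rw [pow_zero] at ha; omega) |>.1 h1
      rw [← hcm]
      apply H61.BinSL2.three_bin h2
      · rw [← h3]
        have hinj : Function.Injective π := by
          rw [← MonoidHom.ker_eq_bot_iff, hk, eq_bot_iff]
          intro z hz
          rw [Subgroup.mem_bot]
          exact H61.BinSL2.sc_one_of h2 (H61.SL2x.mem_center.1 hz)
        have e : (H.comap π).map π = H := Subgroup.map_comap_eq_self_of_surjective hs H
        conv_rhs => rw [← e]
        exact Nat.card_congr ((H.comap π).equivMapOfInjective π hinj).toEquiv
      · exact (H61.BinSL2.odd_iff h2 ha).1 hodd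

end Cfsg.Agent.S5736
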