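import Cfsg.Statements.S5751
import Cfsg.Agent.Lib.H47.ParLevel2
import Cfsg.Agent.Lib.H22.ChevAll

set_option autoImplicit false
open Cfsg

namespace Cfsg.Agent.S5751

namespace Aux

open H22.RGD H22.Coord H22.RCCheck H22.RCComb H22.ChevTri H22.ChevRel H22.ChevSys H22.ChevMain
open H22.ChevStd H22.ChevPar H22.ChevSolv H22.ChevUni H22.St H47.CoreSeq H47.ParLevel H47.MaxPar
open Cfsg.Lie (ChevalleyDatum chevE8)

abbrev T : ℕ := H22.RCE8.tabE8

theorem ck1 : (List.range 240).all (fun r => decide (H22.RCPack.co T 8 r 3 = 1 →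
    r ≠ chevE8.simple 3 →
    ([0, 1, 2, 4, 5, 6, 7].any fun k => decide (0 < chevE8.cartan k r)) = true)) = true := by
  decide +kernel

theorem ck2 : (List.range 240).all (fun r => decide (2 ≤ H22.RCPack.co T 8 r 3 →
    chevE8.cartan 3 r ≤ 1)) = true := by decide +kernel

theorem ck3 : (List.range 240).all (fun r => decide (120 ≤ r → H22.RCPack.co T 8 r 3 = 0 →
    [0, 2, 0, 1, 4, 5, 4, 6, 5, 4, 7, 6, 5, 4].foldr (fun i s => chevE8.reflectRoot i s) r < 120)) =
    true := by decide +kernel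

theorem ck4 : (List.range 240).all (fun r => decide (H22.RCPack.co T 8 r 3 ≤ 6)) = true := by
  decide +kernel

theorem ck5 : H22.RCPack.co T 8 239 3 = 6 := by decide +kernel

/-- adjacency in the Dynkin diagram -/
def adj (i k : ℕ) : Bool :=
  decide (chevE8.reflectRoot i (chevE8.simple k) ≠ chevE8.simple k ∧
    chevE8.simple k ≠ chevE8.simple i)

theorem ckA : adj 0 2 = true ∧ adj 7 6 = true ∧ adj 6 5 = true ∧ adj 5 4 = true ∧ adj 1 3 = true ∧
    adj 2 3 = true ∧ adj 4 3 = true := by decide +kernel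

abbrev X : RCX chevE8 := H22.PoinE8.rcxE8

theorem R : Rel chevE8 (ZMod 2) := H22.ChevAll.rel chevE8 (by simp) (ZMod 2)

theorem fr_eq {r : ℕ} : fr X.rc (cJ {k | k ≠ 3}) r = H22.RCPack.co T 8 r 3 := by
  unfold fr
  rw [Finset.sum_eq_single 3]
  · rw [cJ_of_not_mem (by simp), one_mul]; rfl
  · intro b _ hb
    rw [cJ_of_mem (show b ∈ {k | k ≠ 3} from hb), zero_mul]
  · intro h; exact absurd (Finset.mem_range.2 (by decide : 3 < chevE8.rank)) h

theorem all_spec {p : ℕ → Bool} (h : (List.range 240).all p = true) {r : ℕ} (hr : r < 240) :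
    p r = true := List.all_eq_true.1 h r (List.mem_range.2 hr)

theorem adj_of {i k : Fin chevE8.rank} (h : adj i k = true) : Adj (comb X) i k := by
  unfold adj at h
  rw [decide_eq_true_eq] at h
  exact ⟨fun e => h.1 (congrArg Fin.val e), fun e => h.2 (congrArg Fin.val e)⟩

theorem w_foldr (L : List (Fin chevE8.rank)) (r : Fin chevE8.nroots) :
    ((comb X).w L r : ℕ) = (L.map Fin.val).foldr (fun i s => chevE8.reflectRoot i s) r := by
  induction L with
  | nil => simp
  | cons k L ih =>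
    rw [RootComb.w_cons, Equiv.Perm.mul_apply, comb_refl_val, ih]; rfl

theorem torus_trivial : chevE8.diagonalSubgroup (ZMod 2) = ⊥ := by
  rw [diagonalSubgroup_eq R X, eq_bot_iff]
  unfold Hs
  rw [Subgroup.closure_le]
  rintro _ ⟨i, hi, c, hc, rfl⟩
  have : c = 1 := by
    revert hc; revert c; decide
  rw [this, hs_one R hi]
  exact Subgroup.one_mem _

abbrev j3 : Fin chevE8.rank := ⟨3, by decide⟩

theorem theDat : Dat (chevE8.parabolicSubgroup (ZMod 2) {k | k ≠ 3}) ((chevSys R X).n j3)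
    (fun i => gen (ZMod 2) (Lv X {k | k ≠ 3} i)) := by
  refine dat R X H22.ChevLex.lexE8 j3 ?_ ?_ torus_trivial ?_ ?_
  · intro r h1 h2
    have h3 := all_spec ck1 r.2
    rw [decide_eq_true_eq] at h3
    rw [fr_eq] at h1
    have h4 := h3 h1 h2
    rw [List.any_eq_true] at h4
    obtain ⟨k, hk, hk'⟩ := h4
    rw [decide_eq_true_eq] at hk'
    simp only [List.mem_cons, List.not_mem_nil, or_false] at hk
    refine ⟨k, ?_, ?_, hk'⟩
    · show k < 8
      omega
    · show k ≠ 3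
      omega
  · intro r h1
    have h3 := all_spec ck2 r.2
    rw [decide_eq_true_eq] at h3
    rw [fr_eq] at h1
    exact h3 h1
  · intro P hP hne hcl
    have A := ckA
    obtain ⟨i, hi⟩ := hne
    have hi3 := hP hi
    have h2 : ∀ (h : (⟨2, by decide⟩ : Fin chevE8.rank) ∈ P), ∃ i ∈ P, Adj (comb X) i j3 :=
      fun h => ⟨_, h, adj_of A.2.2.2.2.2.1⟩
    have h1 : ∀ (h : (⟨1, by decide⟩ : Fin chevE8.rank) ∈ P), ∃ i ∈ P, Adj (comb X) i j3 :=
      fun h => ⟨_, h, adj_of A.2.2.2.2.1⟩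
    have h4 : ∀ (h : (⟨4, by decide⟩ : Fin chevE8.rank) ∈ P), ∃ i ∈ P, Adj (comb X) i j3 :=
      fun h => ⟨_, h, adj_of A.2.2.2.2.2.2⟩
    have h0 : ∀ (h : (⟨0, by decide⟩ : Fin chevE8.rank) ∈ P), ∃ i ∈ P, Adj (comb X) i j3 :=
      fun h => h2 (hcl _ h ⟨2, by decide⟩ (by decide) (adj_of A.1))
    have h5 : ∀ (h : (⟨5, by decide⟩ : Fin chevE8.rank) ∈ P), ∃ i ∈ P, Adj (comb X) i j3 :=
      fun h => h4 (hcl _ h ⟨4, by decide⟩ (by decide) (adj_of A.2.2.2.1))
    have h6 : ∀ (h : (⟨6, by decide⟩ : Fin chevE8.rank) ∈ P), ∃ i ∈ P, Adj (comb X) i j3 :=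
      fun h => h5 (hcl _ h ⟨5, by decide⟩ (by decide) (adj_of A.2.2.1))
    have h7 : ∀ (h : (⟨7, by decide⟩ : Fin chevE8.rank) ∈ P), ∃ i ∈ P, Adj (comb X) i j3 :=
      fun h => h6 (hcl _ h ⟨6, by decide⟩ (by decide) (adj_of A.2.1))
    obtain ⟨i, hil⟩ := i
    have hil' : i < 8 := hil
    interval_cases i
    · exact h0 hi
    · exact h1 hi
    · exact h2 hi
    · exact absurd rfl hi3
    · exact h4 hi
    · exact h5 hi
    · exact h6 hi
    · exact h7 hi
  · refine ⟨[⟨0, by decide⟩, ⟨2, by decide⟩, ⟨0, by decide⟩, ⟨1, by decide⟩, ⟨4, by decide⟩,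
      ⟨5, by decide⟩, ⟨4, by decide⟩, ⟨6, by decide⟩, ⟨5, by decide⟩, ⟨4, by decide⟩,
      ⟨7, by decide⟩, ⟨6, by decide⟩, ⟨5, by decide⟩, ⟨4, by decide⟩], ?_, ?_⟩
    · intro k hk
      simp only [List.mem_cons, List.not_mem_nil, or_false] at hk
      rintro rfl
      revert hk
      decide
    · intro r hr h0
      rw [fr_eq] at h0
      have h3 := all_spec ck3 r.2
      rw [decide_eq_true_eq] at h3
      have h4 := h3 hr h0
      rw [comb_pos_iff, w_foldr]
      exact Nat.not_le.2 h4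

theorem gen6 : (gen (ZMod 2) (Lv X {k | k ≠ 3} 6)).subgroupOf (chevE8.group (ZMod 2)) ≠ ⊥ := by
  intro h
  have hr : 239 < chevE8.nroots := by decide
  have h1 : xg R 239 (1 : ZMod 2) ∈ gen (ZMod 2) (Lv X {k | k ≠ 3} 6) := by
    refine xg_mem_gen R hr ?_ 1
    rw [mem_Lv, fr_eq]
    simp only
    rw [ck5]; norm_num
  have h2 : (⟨xg R 239 (1 : ZMod 2), xg_mem_group R hr 1⟩ : chevE8.group (ZMod 2)) ∈
      (gen (ZMod 2) (Lv X {k | k ≠ 3} 6)).subgroupOf (chevE8.group (ZMod 2)) := h1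
  rw [h, Subgroup.mem_bot] at h2
  have h3 := congrArg Subtype.val h2
  simp only [Subgroup.coe_one] at h3
  rw [← xg_zero R 239] at h3
  exact one_ne_zero (xg_inj R X.rc hr h3)

theorem gen7 : (gen (ZMod 2) (Lv X {k | k ≠ 3} 7)).subgroupOf (chevE8.group (ZMod 2)) = ⊥ := by
  have h1 : gen (ZMod 2) (Lv X {k | k ≠ 3} 7) = ⊥ := by
    rw [eq_bot_iff]
    refine gen_le R fun s hs t => ?_
    exfalso
    rw [mem_Lv, fr_eq] at hs
    have h3 := all_spec ck4 s.2
    rw [decide_eq_true_eq] at h3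
    push_cast at hs
    omega
  rw [h1]; exact Subgroup.bot_subgroupOf _

end Aux

open Aux in
/-- An extremal example for iterated cores of conjugate maximal subgroups: there exist a finite group G and two distinct conjugate maximal subgroups M₁, M₂ of G, with M₁ having trivial core in G, such that, if we define two descending sequences of subgroups by A₀ = M₁, B₀ = M₂ and, for every i, A_{i+1} = the core in M₁ of A_i ∩ B_i and B_{i+1} = the core in M₂ of A_i ∩ B_i (the core in M of a subgroup Y ≤ M is the largest normal subgroup of M contained in Y), the subgroup A₆ is trivial while A₅ is not (so the index 6 cannot be lowered to 5). (One example is a maximal parabolic subgroup of the Chevalley group of type E₈ over a finite field and a suitable conjugate of it.) -/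
theorem result :
    ∃ (G : Type) (_ : Group G) (_ : Finite G) (M₁ M₂ : Subgroup G) (g : G) (A B : ℕ → Subgroup G),
      IsCoatom M₁ ∧ M₂ = M₁.map (MulAut.conj g).toMonoidHom ∧ M₁ ≠ M₂ ∧ M₁.normalCore = ⊥ ∧ A 0 = M₁ ∧ B 0 = M₂ ∧
      (∀ i, A (i + 1) = ((A i ⊓ B i).subgroupOf M₁).normalCore.map M₁.subtype) ∧
      (∀ i, B (i + 1) = ((A i ⊓ B i).subgroupOf M₂).normalCore.map M₂.subtype) ∧ A 6 = ⊥ ∧ A 5 ≠ ⊥ := by
  refine ⟨Cfsg.Lie.chevE8.group (ZMod 2), inferInstance, inferInstance, ?_⟩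
  have hM : Cfsg.Lie.chevE8.parabolicSubgroup (ZMod 2) {k | k ≠ 3} ≤
      Cfsg.Lie.chevE8.group (ZMod 2) := by
    rw [H22.ChevPar.par_eq R X, ← H22.ChevMain.chevSys_Γ R X]
    exact (H22.ChevMain.chevSys R X).par_le_Γ _
  have hn : (H22.ChevMain.chevSys R X).n j3 ∈ Cfsg.Lie.chevE8.group (ZMod 2) := by
    rw [← H22.ChevMain.chevSys_Γ R X]
    exact (H22.ChevMain.chevSys R X).N_le_Γ ((H22.ChevMain.chevSys R X).n_mem_N _)
  have hd := H47.ParLevel.dat_subgroupOf theDat hM hn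
  exact hd.main (H47.ParLevel.isCoatom_par R X H22.ChevLex.lexE8 j3) (k := 5) gen6 gen7 (by norm_num)

end Cfsg.Agent.S5751
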