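import Cfsg.Statements.S5752
import Cfsg.Agent.Lib.H15.TWFinal

set_option autoImplicit false
open Cfsg

namespace Cfsg.Agent.S5752

open H15.TW in
theorem aux {G : Type*} [Group G] [Finite G] {X Y A : Subgroup G} {r : ℕ} (hr : r.Prime)
    (hA : A = coreIn X (X ⊓ Y)) (h : Cfsg.generalizedFittingSubgroup ↥X = Cfsg.pCore r ↥X) :
    Cfsg.generalizedFittingSubgroup ↥A = Cfsg.pCore r ↥A := by
  have : Fact r.Prime := ⟨hr⟩
  have hAX : A ≤ X := hA ▸ coreIn_leM _ _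
  have hn : X ≤ Subgroup.normalizer (A : Set G) := hA ▸ coreIn_norm _ _
  rw [← H26.GenFitting.isPGroup_gFitting_iff] at h ⊢
  exact H36.SubnormalPerfect.isPGroup_gFitting_subnormal hAX
    (Subgroup.Normal.isSubnormal (Subgroup.normal_subgroupOf_of_le_normalizer hn)) h

/-- A form of the Thompson–Wielandt Theorem on primitive permutation groups. Let G be a finite group and M₁, M₂ two distinct conjugate maximal subgroups of G with trivial core in G; define two descending sequences of subgroups by A₀ = M₁, B₀ = M₂ and, for every i, A_{i+1} = the core in M₁ of A_i ∩ B_i and B_{i+1} = the core in M₂ of A_i ∩ B_i (the core in M of a subgroup Y ≤ M is the largest normal subgroup of M contained in Y). If A₂ and B₂ are both non-trivial, then for some prime p the subgroup generated by A₂ and B₂ is a p-group, and for each j the generalized Fitting subgroups of M_j and of its first core (A₁, resp. B₁) are their largest normal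 p-subgroups. -/
theorem result {G : Type*} [Group G] [Finite G] (M₁ M₂ : Subgroup G) (hmax : IsCoatom M₁) (g : G)
    (hconj : M₂ = M₁.map (MulAut.conj g).toMonoidHom) (hne : M₁ ≠ M₂) (hcore : M₁.normalCore = ⊥)
    (A B : ℕ → Subgroup G) (hA0 : A 0 = M₁) (hB0 : B 0 = M₂)
    (hA : ∀ i, A (i + 1) = ((A i ⊓ B i).subgroupOf M₁).normalCore.map M₁.subtype)
    (hB : ∀ i, B (i + 1) = ((A i ⊓ B i).subgroupOf M₂).normalCore.map M₂.subtype) (hA2 : A 2 ≠ ⊥) (hB2 : B 2 ≠ ⊥) :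
    ∃ p : ℕ, p.Prime ∧ IsPGroup p ↥(A 2 ⊔ B 2) ∧
      Cfsg.generalizedFittingSubgroup ↥M₁ = Cfsg.pCore p ↥M₁ ∧ Cfsg.generalizedFittingSubgroup ↥(A 1) = Cfsg.pCore p ↥(A 1) ∧
      Cfsg.generalizedFittingSubgroup ↥M₂ = Cfsg.pCore p ↥M₂ ∧ Cfsg.generalizedFittingSubgroup ↥(B 1) = Cfsg.pCore p ↥(B 1) := by
  have hX : H15.TW.Prim M₁ := H15.TW.prim_of_maximal hmax hcore
  have hY : H15.TW.Prim M₂ := hconj ▸ hX.conj g
  have e : M₁ ≃* M₂ := by
    rw [hconj]
    exact M₁.equivMapOfInjective _ (MulAut.conj g).injective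
  have hA1 : A 1 = H15.TW.coreIn M₁ (M₁ ⊓ M₂) := by
    have h1 := hA 0
    rw [hA0, hB0] at h1
    exact h1
  have hB1 : B 1 = H15.TW.coreIn M₂ (M₁ ⊓ M₂) := by
    have h1 := hB 0
    rw [hA0, hB0] at h1
    exact h1
  have hA2' : A 2 = H15.TW.coreIn M₁ (A 1 ⊓ B 1) := hA 1
  have hB2' : B 2 = H15.TW.coreIn M₂ (A 1 ⊓ B 1) := hB 1
  have hNA : H15.TW.NS (A 2) M₁ M₂ := by
    rw [hA2']
    exact H15.TW.ns_second hA1 hB1 (hA2' ▸ hA2)
  have hNB : H15.TW.NS (B 2) M₂ M₁ := by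
    rw [hB2', inf_comm (A 1) (B 1)]
    refine H15.TW.ns_second (inf_comm M₁ M₂ ▸ hB1) (inf_comm M₁ M₂ ▸ hA1) ?_
    rw [inf_comm (B 1) (A 1), ← hB2']
    exact hB2
  obtain ⟨p, hp, hAp, hBp, hFX, hFY⟩ := H15.TW.main hX hY hne e hNA hNB
  have hpf : Fact p.Prime := ⟨hp⟩
  refine ⟨p, hp, ?_, hFX, aux hp hA1 hFX, hFY, aux hp (inf_comm M₁ M₂ ▸ hB1) hFY⟩
  have h1 : A 2 ≤ H26.LocalFitting.pc p M₁ := H26.LocalFitting.le_pc hNA.leX hNA.norm hAp
  have h2 : B 2 ≤ H26.LocalFitting.pc p M₁ := H26.LocalFitting.le_pc_of_isSubnormal hNB.leY hNB.sub hBp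
  exact (H26.LocalFitting.isPGroup_pc p M₁).to_le (sup_le h1 h2)

end Cfsg.Agent.S5752
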