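import Cfsg.Statements.S5763
import Cfsg.Agent.Lib.H96.SylowS8

set_option autoImplicit false
open Cfsg

namespace Cfsg.Agent.S5763

/-- In the symmetric group on 8 letters any two Sylow 2-subgroups have non-trivial intersection: for a Sylow 2-subgroup H and every element x, H ∩ xHx⁻¹ ≠ 1. -/
theorem result (H : Sylow 2 (Equiv.Perm (Fin 8))) (x : Equiv.Perm (Fin 8)) :
    (H : Subgroup (Equiv.Perm (Fin 8))) ⊓ (H : Subgroup (Equiv.Perm (Fin 8))).map (MulAut.conj x).toMonoidHom ≠ ⊥ := by
  exact H96.SylowS8.main H x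

end Cfsg.Agent.S5763
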