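import Cfsg.Statements.S5769
import Cfsg.Agent.Lib.H47.E7Spec
import Cfsg.Agent.Lib.H47.Mat65b

set_option autoImplicit false
open Cfsg

namespace Cfsg.Agent.S5769

theorem key {M : Type*} [Group M] (H : Subgroup ↥(Cfsg.Lie.chevE7.group (ZMod 2)))
    (hM : ∃ g : M, orderOf g = 65) : IsEmpty (↥H ≃* M) := by
  refine ⟨fun φ => ?_⟩
  obtain ⟨g, hg⟩ := hM
  apply H47.E7Spec.no_65 ((φ.symm g : ↥H) : ↥(Cfsg.Lie.chevE7.group (ZMod 2)))
  rw [Subgroup.orderOf_coe, MulEquiv.orderOf_eq, hg]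

/-- The Chevalley group of type E₇ over the field with two elements (generated by its root elements in the adjoint representation) has no subgroup isomorphic to any of PSL₂(64), PSp₄(8), PSL₄(8), PSU₄(8) or PSp₆(8). Here F₈ and F₆₄ denote fields with 8 and 64 elements. -/
theorem result {F₈ F₆₄ : Type*} [Field F₈] [Fintype F₈] (h8 : Fintype.card F₈ = 8) [Field F₆₄] [Fintype F₆₄] (h64 : Fintype.card F₆₄ = 64)
    (H : Subgroup ↥(Cfsg.Lie.chevE7.group (ZMod 2))) :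
    IsEmpty (↥H ≃* Matrix.ProjectiveSpecialLinearGroup (Fin 2) F₆₄) ∧ IsEmpty (↥H ≃* Cfsg.PSp 2 F₈) ∧
    IsEmpty (↥H ≃* Matrix.ProjectiveSpecialLinearGroup (Fin 4) F₈) ∧ IsEmpty (↥H ≃* Cfsg.PSU 4 F₆₄ 8) ∧ IsEmpty (↥H ≃* Cfsg.PSp 3 F₈) := by
  let e : H64.F8 ≃+* F₈ := FiniteField.ringEquivOfCardEq (by rw [H64.F8.card, h8])
  refine ⟨key H ?_, key H (H47.Mat65.psp4 (e : H64.F8 →+* F₈)), key H (H47.Mat65.psl4 (e : H64.F8 →+* F₈)),
    key H (H47.Mat65.psu4 h64), key H (H47.Mat65.psp6 (e : H64.F8 →+* F₈))⟩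
  exact H11.Eppo.psl_orders_even (n := 6) (by rw [h64]; norm_num)
    (MulEquiv.refl (Matrix.ProjectiveSpecialLinearGroup (Fin 2) F₆₄)) (Or.inr (Or.inr (by norm_num)))

end Cfsg.Agent.S5769
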