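import Cfsg.Statements.S5886
import Cfsg.Agent.Lib.H7.ExtLin8

set_option autoImplicit false
open Cfsg

namespace Cfsg.Agent.S5886

open H7.ExtLin

/-- Let F be a finite field, n a positive integer and r a prime that divides n with r < n. Let K be a subalgebra of the algebra of n × n matrices over F which is a field of degree r over F (commutative, every non-zero element invertible, of dimension r over F; it contains the scalars). Then the normaliser N of K in GL_n(F) — the invertible F-linear maps that are semilinear over the field K, a group of type ΓL_{n/r}(F_{q^r}) for |F| = q — is a maximal subgroup of GL_n(F), and N ∩ SL_n(F) is a maximal subgroup of SL_n(F). No lower bound on n is assumed. -/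
theorem result {F : Type*} [Field F]
    [Fintype F] (n r : ℕ) (hr : r.Prime) (hrn : r ∣ n) (hlt : r < n) (K : Subalgebra F (Matrix (Fin n) (Fin n) F))
    (hK : Cfsg.Geo.IsFieldSubalgebra r K) :
    IsCoatom (Cfsg.Geo.subalgebraNormalizer K) ∧
      Cfsg.Geo.IsMaximalIn (Cfsg.Geo.specialLinear (Fin n) F)
        (Cfsg.Geo.subalgebraNormalizer K ⊓ Cfsg.Geo.specialLinear (Fin n) F) := by
  constructor
  · refine ⟨fun h0 => ?_, fun M hM => ?_⟩
    · obtain ⟨g, _, hg⟩ := exists_not_mem hr hrn hlt hK
      rw [h0] at hg
      exact hg trivial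
    · obtain ⟨hle, hex⟩ := SetLike.lt_iff_le_and_exists.1 hM
      have hSL : Cfsg.Geo.specialLinear (Fin n) F ≤ M := overgroup_mat hr hlt hK (inf_le_left.trans hle) hex
      rw [eq_top_iff]
      intro g _
      have hdet : (g : Matrix (Fin n) (Fin n) F).det ≠ 0 := by
        have := (Matrix.isUnit_iff_isUnit_det _).1 g.isUnit
        exact this.ne_zero
      obtain ⟨h, hh, hhd⟩ := exists_det hr hlt hK hdet
      have h1 : g * h⁻¹ ∈ Cfsg.Geo.specialLinear (Fin n) F := by
        refine MonoidHom.mem_ker.2 ?_
        rw [map_mul, map_inv, mul_inv_eq_one]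
        ext
        rw [Matrix.GeneralLinearGroup.val_det_apply, Matrix.GeneralLinearGroup.val_det_apply, hhd]
      have h2 := M.mul_mem (hSL h1) (hle hh)
      rwa [inv_mul_cancel_right] at h2
  · exact H95.Bridge.isMaximalIn_of (exists_not_mem hr hrn hlt hK)
      (fun M hM _ hg => overgroup_mat hr hlt hK hM hg)

end Cfsg.Agent.S5886
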