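import Cfsg.Statements.S5883
import Cfsg.Agent.Lib.H94.F23.Der

set_option autoImplicit false
open Cfsg

namespace Cfsg.Agent.S5883

/-- The constant 10 in the statement that H⁽¹⁰⁾ is perfect for every maximal subgroup H of a finite almost simple group cannot be lowered to 9: there exist a finite almost simple group G (with a non-abelian simple normal subgroup of trivial centralizer) and a maximal subgroup H of G whose ninth derived subgroup H⁽⁹⁾ is not perfect, i.e. H⁽¹⁰⁾ ≠ H⁽⁹⁾. (A solvable maximal subgroup of derived length 10 in the Fischer group Fi₂₃ is such an example.) -/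
theorem result :
    ∃ (G : Type) (_ : Group G) (_ : Finite G) (S H : Subgroup G), S.Normal ∧ IsSimpleGroup S ∧ ¬ IsMulCommutative S ∧
      Subgroup.centralizer (S : Set G) = ⊥ ∧ IsCoatom H ∧ derivedSeries H 10 ≠ derivedSeries H 9 := by
  have hfin : Finite Cfsg.Spor.Fi23 := H35.Fi23Main.fin
  have hs : IsSimpleGroup Cfsg.Spor.Fi23 := H35.Fi23Main.simple
  obtain ⟨g, hg⟩ := H94.F23.exists_nc
  refine ⟨Cfsg.Spor.Fi23, inferInstance, hfin, ⊤, H94.F23.H, inferInstance, ?_, ?_, ?_, H94.F23.coatom,
    H94.F23.derived_ne⟩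
  · exact (MulEquiv.isSimpleGroup_congr Subgroup.topEquiv).2 hs
  · intro hc
    have h1 := hc.is_comm.comm (⟨g, trivial⟩ : (⊤ : Subgroup Cfsg.Spor.Fi23)) ⟨H35.FiClass23.t, trivial⟩
    exact hg (congrArg Subtype.val h1)
  · rw [Subgroup.coe_top, Subgroup.centralizer_univ]
    rcases hs.eq_bot_or_eq_top_of_normal (Subgroup.center Cfsg.Spor.Fi23) inferInstance with h | h
    · exact h
    · exfalso
      have h1 : g ∈ Subgroup.center Cfsg.Spor.Fi23 := by rw [h]; trivial
      exact hg ((Subgroup.mem_center_iff.1 h1 H35.FiClass23.t).symm)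

end Cfsg.Agent.S5883
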