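import Cfsg.Statements.S5885
-- import your own Cfsg.Agent.* helpers here
import Cfsg.Agent.Lib.H98.SecondMax

set_option autoImplicit false
open Cfsg

namespace Cfsg.Agent.S5885

/-- Let n be an odd positive integer such that every primitive permutation group of degree n contains the alternating group (so the symmetric and alternating groups are the only primitive groups of degree n). Let G be a finite group, M a maximal subgroup of G of index n, and H a maximal subgroup of M. Then H is a second maximal subgroup of G: H is maximal in every maximal subgroup K of G containing H. -/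
theorem result {G : Type*} [Group G]
    [Finite G] (n : ℕ) (hodd : Odd n)
    (hA : ∀ P : Subgroup (Equiv.Perm (Fin n)), MulAction.IsPreprimitive P (Fin n) → alternatingGroup (Fin n) ≤ P)
    (M : Subgroup G) (hM : IsCoatom M) (hn : M.index = n) (H : Subgroup G) (hHM : H ≤ M)
    (hmax : IsCoatom (H.subgroupOf M)) (K : Subgroup G) (hK : IsCoatom K) (hHK : H ≤ K) :
    IsCoatom (H.subgroupOf K) := by
  classical
  haveI : Fintype (G ⧸ M) := Fintype.ofFinite _
  have hcard : Fintype.card (G ⧸ M) = n := by rw [← hn, Subgroup.index, Nat.card_eq_fintype_card]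
  have hstab : ∀ g : G, g ∈ M ↔ g • ((1 : G) : G ⧸ M) = ((1 : G) : G ⧸ M) := by
    intro g
    rw [MulAction.Quotient.smul_coe, smul_eq_mul, mul_one, eq_comm, QuotientGroup.eq, inv_one, one_mul]
  have hXn : Nontrivial (G ⧸ M) := by
    rw [← Fintype.one_lt_card_iff_nontrivial, ← Nat.card_eq_fintype_card]
    show 1 < M.index
    exact Subgroup.one_lt_index_of_ne_top hM.1
  have hst : MulAction.stabilizer G (((1 : G) : G ⧸ M)) = M := by
    ext g
    rw [MulAction.mem_stabilizer_iff, hstab]
  have hpre : MulAction.IsPreprimitive G (G ⧸ M) := by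
    rw [← MulAction.isCoatom_stabilizer_iff_preprimitive G (((1 : G) : G ⧸ M)), hst]
    exact hM
  have e : (G ⧸ M) ≃ Fin n := Fintype.equivFinOfCardEq hcard
  have halt : ∀ σ : Equiv.Perm (G ⧸ M), Equiv.Perm.sign σ = 1 → ∃ g : G, ∀ x, g • x = σ x := by
    intro σ hσ
    let φ : G →* Equiv.Perm (G ⧸ M) := MulAction.toPermHom G (G ⧸ M)
    let P : Subgroup (Equiv.Perm (Fin n)) := (e.permCongrHom.toMonoidHom.comp φ).range
    have hP : MulAction.IsPreprimitive P (Fin n) := by
      let ψ : G → P := fun g => ⟨e.permCongrHom.toMonoidHom.comp φ g, ⟨g, rfl⟩⟩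
      let f : (G ⧸ M) →ₑ[ψ] Fin n :=
        { toFun := e
          map_smul' := by
            intro g x
            show e (g • x) = e ((φ g) (e.symm (e x)))
            rw [Equiv.symm_apply_apply]
            rfl }
      exact MulAction.IsPreprimitive.of_surjective (f := f) e.surjective
    have h1 : e.permCongr σ ∈ alternatingGroup (Fin n) := by
      rw [Equiv.Perm.mem_alternatingGroup, Equiv.Perm.sign_permCongr, hσ]
    obtain ⟨g, hg⟩ := hA P hP h1
    refine ⟨g, fun x => ?_⟩
    have h2 : φ g = σ := e.permCongr.injective hg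
    exact congrArg (fun τ : Equiv.Perm (G ⧸ M) => τ x) h2
  obtain ⟨h1, h2⟩ := (H98.SecondMax.coatom_subgroupOf_iff hHM).mp hmax
  exact H98.SecondMax.core (by rw [hcard]; exact hodd) (((1 : G) : G ⧸ M)) hpre halt M H K hstab hM hHM h1 h2 hK hHK

end Cfsg.Agent.S5885
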