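import Cfsg.Statements.S5894
import Cfsg.Agent.Lib.H85.SecMax

set_option autoImplicit false
open Cfsg

namespace Cfsg.Agent.S5894

/-- For every m ≥ 2 the symmetric group on 2m letters has a maximal subgroup M of index 2m together with a maximal subgroup H of M that is not second maximal: some maximal subgroup K of the symmetric group contains H without H being maximal in K. (One may take M the stabiliser of a letter, H ≅ S_m × S_{m−1} inside it, and K ≅ S_m ≀ S₂ the stabiliser of a partition into two m-sets, with H < S_m × S_m < K.) So the prime-index hypothesis in the second-maximality criterion cannot be relaxed to any even index ≥ 4. -/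
theorem result (m : ℕ) (hm : 2 ≤ m) :
    ∃ M H K : Subgroup (Equiv.Perm (Fin (2 * m))), IsCoatom M ∧ M.index = 2 * m ∧ H ≤ M ∧ IsCoatom (H.subgroupOf M) ∧
      IsCoatom K ∧ H ≤ K ∧ ¬ IsCoatom (H.subgroupOf K) := by
  classical
  set x : Fin (2*m) := ⟨2*m-1, by omega⟩ with hx
  set s : Set (Fin (2*m)) := {i | i.val < m} with hs
  have hxs : x ∉ s := by
    intro h
    have : 2*m-1 < m := h
    omega
  have hrev : ∀ i : Fin (2*m), Fin.revPerm i ∈ s ↔ i ∉ s := by
    intro i
    have h1 : (Fin.revPerm i : Fin (2*m)).val = 2*m - (i.val + 1) := by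
      rw [Fin.revPerm_apply, Fin.val_rev]
    change (Fin.revPerm i : Fin (2*m)).val < m ↔ ¬ (i.val < m)
    rw [h1]
    have := i.isLt
    omega
  have hc : s.ncard = sᶜ.ncard := by
    have h1 : Fin.revPerm '' s = sᶜ := by
      ext i
      constructor
      · rintro ⟨j, hj, rfl⟩
        intro h
        exact (hrev j).1 h hj
      · intro hi
        refine ⟨Fin.revPerm i, (hrev i).2 hi, ?_⟩
        simp
    rw [← h1, Set.ncard_image_of_injective _ (Equiv.injective _)]
  have h2 : 2 ≤ s.ncard := by
    have h1 := Set.ncard_add_ncard_compl s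
    rw [Nat.card_eq_fintype_card, Fintype.card_fin] at h1
    omega
  have hnt : Nontrivial (Fin (2*m)) := Fin.nontrivial_iff_two_le.2 (by omega)
  have hK := H85.SecMax.isCoatom_partStab hc h2
  have hH := H85.SecMax.isCoatom_two hxs hc h2
  refine ⟨MulAction.stabilizer (Equiv.Perm (Fin (2*m))) x,
    H85.SecMax.setStab s ⊓ MulAction.stabilizer (Equiv.Perm (Fin (2*m))) x,
    H85.SecMax.partStab s, ?_, ?_, inf_le_right, hH, hK, ?_, ?_⟩
  · exact MulAction.IsPreprimitive.isCoatom_stabilizer_of_isPreprimitive (Equiv.Perm (Fin (2*m))) x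
  · rw [MulAction.index_stabilizer_of_transitive, Nat.card_eq_fintype_card, Fintype.card_fin]
  · exact fun g hg => Or.inl hg.1
  · apply H85.SecMax.not_coatom (L := H85.SecMax.setStab s)
    · refine lt_of_le_of_ne inf_le_left ?_
      intro he
      obtain ⟨v, hv⟩ : (sᶜ \ {x}).Nonempty := by
        rw [← Set.ncard_pos (Set.toFinite _), Set.ncard_sdiff_singleton_of_mem hxs]
        omega
      have h3 : Equiv.swap x v ∈ H85.SecMax.setStab s :=
        H85.SecMax.swap_mem_setStab ⟨fun h => absurd h hxs, fun h => absurd h hv.1⟩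
      rw [← he] at h3
      have h4 : Equiv.swap x v x = x := h3.2
      rw [Equiv.swap_apply_left] at h4
      exact hv.2 h4
    · refine lt_of_le_of_ne (fun g hg => Or.inl hg) ?_
      intro he
      have h3 : (Fin.revPerm : Equiv.Perm (Fin (2*m))) ∈ H85.SecMax.partStab s := Or.inr hrev
      rw [← he] at h3
      have h4 := h3 x
      have h5 := hrev x
      tauto

end Cfsg.Agent.S5894
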