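import Cfsg.Statements.S5895
import Cfsg.Agent.Lib.H85.SecMaxAff

set_option autoImplicit false
open Cfsg

namespace Cfsg.Agent.S5895

/-- For every prime p and every d ≥ 2 there is a finite group G with a maximal subgroup M of index p^d and a maximal subgroup H of M that is not second maximal in G: some maximal subgroup K of G contains H without H being maximal in K. (One may take G the affine group V ⋊ GL(V) of V = 𝔽_p^d, M = GL(V), H the stabiliser in M of a line W of V, and K = V ⋊ H, with H < W ⋊ H < K.) So the prime-index hypothesis in the second-maximality criterion cannot be relaxed to prime-power index. -/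
theorem result (p d : ℕ) (hp : p.Prime)
    (hd : 2 ≤ d) :
    ∃ (G : Type) (_ : Group G) (_ : Finite G) (M H K : Subgroup G), IsCoatom M ∧ M.index = p ^ d ∧ H ≤ M ∧
      IsCoatom (H.subgroupOf M) ∧ IsCoatom K ∧ H ≤ K ∧ ¬ IsCoatom (H.subgroupOf K) := by
  haveI : Fact p.Prime := ⟨hp⟩
  have hv : (Pi.single (⟨0, by omega⟩ : Fin d) (1 : ZMod p) : Fin d → ZMod p) ≠ 0 := by
    intro h
    have := congrFun h ⟨0, by omega⟩
    rw [Pi.single_eq_same] at this
    exact one_ne_zero this
  have hw : ∀ c : ZMod p, (Pi.single (⟨1, by omega⟩ : Fin d) (1 : ZMod p) : Fin d → ZMod p) ≠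
      c • (Pi.single (⟨0, by omega⟩ : Fin d) (1 : ZMod p) : Fin d → ZMod p) := by
    intro c h
    have := congrFun h ⟨1, by omega⟩
    rw [Pi.single_eq_same, Pi.smul_apply, Pi.single_eq_of_ne (by simp), smul_zero] at this
    exact one_ne_zero this
  haveI : Nontrivial (Fin d → ZMod p) := ⟨_, _, hv⟩
  haveI : Finite ((Fin d → ZMod p) ≃ₗ[ZMod p] (Fin d → ZMod p)) :=
    Finite.of_injective (fun f => (f : (Fin d → ZMod p) → (Fin d → ZMod p))) DFunLike.coe_injective
  haveI : Finite (Multiplicative (Fin d → ZMod p)) := inferInstanceAs (Finite (Fin d → ZMod p))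
  haveI : Finite (H85.SecMaxAff.Aff (ZMod p) (Fin d → ZMod p)) :=
    Finite.of_equiv _ (SemidirectProduct.equivProd).symm
  refine ⟨H85.SecMaxAff.Aff (ZMod p) (Fin d → ZMod p), inferInstance, inferInstance, _, _, _,
    H85.SecMaxAff.isCoatom_M, ?_, ?_,
    H85.SecMaxAff.isCoatom_H SemidirectProduct.inr SemidirectProduct.inr_injective
      (H85.SecMaxAff.isCoatom_P (K := ZMod p) _ hv hw),
    H85.SecMaxAff.isCoatom_comap _ SemidirectProduct.rightHom_surjective
      (H85.SecMaxAff.isCoatom_P (K := ZMod p) _ hv hw), ?_,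
    H85.SecMaxAff.not_coatom_H _ hv hw⟩
  · rw [H85.SecMaxAff.index_M, Nat.card_fun, Nat.card_zmod, Nat.card_eq_fintype_card, Fintype.card_fin]
  · exact Subgroup.map_le_range _ _
  · rintro _ ⟨g, hg, rfl⟩
    exact hg

end Cfsg.Agent.S5895
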