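import Cfsg.Statements.S5896

set_option autoImplicit false
open Cfsg

namespace Cfsg.Agent.S5896

open scoped commutatorElement

/-- If a subgroup `N` of `G` surjects onto `S`, the derived length of `G` is at least that of `S`. -/
theorem derived_ne_bot {G S : Type} [Group G] [Group S] (N : Subgroup G) (f : N →* S)
    (hf : Function.Surjective f) (d : ℕ) (hS : derivedSeries S d ≠ ⊥) : derivedSeries G d ≠ ⊥ := by
  intro h
  apply hS
  rw [← map_derivedSeries_eq hf d]
  have h1 : (derivedSeries N d).map N.subtype ≤ derivedSeries G d := map_derivedSeries_le_derivedSeries N.subtype d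
  rw [h, le_bot_iff, Subgroup.map_eq_bot_iff_of_injective _ N.subtype_injective] at h1
  rw [h1, Subgroup.map_bot]

theorem derived_commutator {G : Type} [Group G] (d : ℕ) :
    (derivedSeries (commutator G) d).map (commutator G).subtype = derivedSeries G (d + 1) := by
  induction d with
  | zero => simp [← MonoidHom.range_eq_map]
  | succ d ih => rw [derivedSeries_succ, Subgroup.map_commutator, ih, ← derivedSeries_succ]

theorem derived_succ_ne_bot {G S : Type} [Group G] [Group S] (N : Subgroup (commutator G)) (f : N →* S)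
    (hf : Function.Surjective f) (d : ℕ) (hS : derivedSeries S d ≠ ⊥) : derivedSeries G (d + 1) ≠ ⊥ := by
  intro h
  rw [← derived_commutator, Subgroup.map_eq_bot_iff_of_injective _ (commutator G).subtype_injective] at h
  exact derived_ne_bot N f hf d hS h

/-- wreath-type action: permuting coordinates. -/
def act (n : ℕ) (S : Type) [Group S] : Equiv.Perm (Fin n) →* MulAut (Fin n → S) where
  toFun σ :=
    { toFun := fun v i => v (σ⁻¹ i)
      invFun := fun v i => v (σ i)
      left_inv := fun v => by ext i; simp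
      right_inv := fun v => by ext i; simp
      map_mul' := fun v w => by ext i; simp }
  map_one' := by ext v i; simp
  map_mul' σ τ := by ext v i; simp [Equiv.Perm.mul_apply]

theorem act_single (n : ℕ) (S : Type) [Group S] (σ : Equiv.Perm (Fin n)) (i : Fin n) (s : S) :
    act n S σ (Pi.mulSingle i s) = Pi.mulSingle (σ i) s := by
  ext j
  simp only [act, MonoidHom.coe_mk, OneHom.coe_mk, MulEquiv.coe_mk, Equiv.coe_fn_mk]
  by_cases h : σ⁻¹ j = i
  · have : j = σ i := by rw [← h]; simp
    subst this
    simp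
  · have h2 : j ≠ σ i := fun hh => h (by rw [hh]; simp)
    rw [Pi.mulSingle_eq_of_ne h, Pi.mulSingle_eq_of_ne h2]

abbrev W (n : ℕ) (S : Type) [Group S] (T : Subgroup (Equiv.Perm (Fin n))) :=
  (Fin n → S) ⋊[(act n S).comp T.subtype] T

theorem finW (n : ℕ) (S : Type) [Group S] [Finite S] (T : Subgroup (Equiv.Perm (Fin n))) : Finite (W n S T) :=
  Finite.of_equiv _ SemidirectProduct.equivProd.symm

theorem solvable_pi (n : ℕ) (S : Type) [Group S] [hS : Group.IsSolvable S] : Group.IsSolvable (Fin n → S) := by
  obtain ⟨k, hk⟩ := hS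
  refine ⟨⟨k, ?_⟩⟩
  rw [eq_bot_iff]
  intro x hx
  rw [Subgroup.mem_bot]
  ext i
  have h1 := map_derivedSeries_le_derivedSeries (Pi.evalMonoidHom (fun _ : Fin n => S) i) k ⟨x, hx, rfl⟩
  rw [hk, Subgroup.mem_bot] at h1
  exact h1

theorem solvable_of_image {n : ℕ} {S : Type} [Group S] [Group.IsSolvable S] {T : Subgroup (Equiv.Perm (Fin n))}
    (H : Subgroup (W n S T)) (A : Subgroup T) [Group.IsSolvable A] (hH : ∀ x ∈ H, x.right ∈ A) :
    Group.IsSolvable H := by
  haveI := solvable_pi n S
  let g : H →* A :=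
    { toFun := fun x => ⟨x.1.right, hH x.1 x.2⟩
      map_one' := rfl
      map_mul' := fun _ _ => rfl }
  have hinj : Function.Injective (fun v : Fin n → S => (SemidirectProduct.inl v : W n S T)) :=
    SemidirectProduct.inl_injective
  let P : Subgroup (Fin n → S) := H.comap SemidirectProduct.inl
  let f : P →* H :=
    { toFun := fun v => ⟨SemidirectProduct.inl v.1, v.2⟩
      map_one' := by ext <;> simp
      map_mul' := fun a b => by apply Subtype.ext; simp }
  haveI : Group.IsSolvable P := inferInstance
  apply Group.isSolvable_of_ker_le_range f g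
  intro x hx
  have hx1 : x.1.right = 1 := by
    have := congrArg Subtype.val (MonoidHom.mem_ker.mp hx)
    exact this
  have hx2 : x.1 = SemidirectProduct.inl x.1.left := by
    apply SemidirectProduct.ext
    · simp
    · simp [hx1]
  refine ⟨⟨x.1.left, ?_⟩, ?_⟩
  · rw [Subgroup.mem_comap, ← hx2]; exact x.2
  · apply Subtype.ext; exact hx2.symm

/-- evaluation of the base part at a coordinate, on a subgroup acting trivially -/
def evalBase {n : ℕ} {S : Type} [Group S] {T : Subgroup (Equiv.Perm (Fin n))}
    {K : Type} [Group K] (π : K →* W n S T) (i : Fin n) :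
    ((SemidirectProduct.rightHom.comp π).ker : Subgroup K) →* S where
  toFun x := (π x.1).left i
  map_one' := by simp
  map_mul' a b := by
    have ha : (π a.1).right = 1 := a.2
    simp [SemidirectProduct.mul_left, ha]

theorem exists_solvable (d : ℕ) : ∃ (S : Type) (_ : Group S) (_ : Finite S), Group.IsSolvable S ∧ derivedSeries S d ≠ ⊥ := by
  induction d with
  | zero =>
    refine ⟨Multiplicative (ZMod 2), inferInstance, inferInstance, inferInstance, ?_⟩
    rw [derivedSeries_zero]
    exact top_ne_bot
  | succ d ih =>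
    obtain ⟨S, _, _, hS, hd⟩ := ih
    refine ⟨W 2 S ⊤, inferInstance, finW _ _ _, ?_, ?_⟩
    · haveI : Group.IsSolvable (Equiv.Perm (Fin 2)) := Group.isSolvable_of_comm (by decide)
      have := solvable_of_image (n := 2) (S := S) (T := ⊤) ⊤ ⊤ (fun _ _ => Subgroup.mem_top _)
      exact Group.isSolvable_of_surjective (f := (⊤ : Subgroup (W 2 S ⊤)).subtype) (fun x => ⟨⟨x, Subgroup.mem_top _⟩, rfl⟩)
    · refine derived_succ_ne_bot _ (evalBase (commutator (W 2 S ⊤)).subtype 0) ?_ d hd
      intro s
      let σ : (⊤ : Subgroup (Equiv.Perm (Fin 2))) := ⟨Equiv.swap 0 1, Subgroup.mem_top _⟩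
      let v : W 2 S ⊤ := SemidirectProduct.inl (Pi.mulSingle 0 s)
      let g : W 2 S ⊤ := SemidirectProduct.inr σ
      have hmem : ⁅v, g⁆ ∈ commutator (W 2 S ⊤) := Subgroup.commutator_mem_commutator (Subgroup.mem_top _) (Subgroup.mem_top _)
      refine ⟨⟨⟨⁅v, g⁆, hmem⟩, ?_⟩, ?_⟩
      · rw [MonoidHom.mem_ker]
        show SemidirectProduct.rightHom ⁅v, g⁆ = 1
        rw [map_commutatorElement]
        simp [v]
      · show (⁅v, g⁆).left 0 = s
        have : ⁅v, g⁆ = SemidirectProduct.inl (Pi.mulSingle 0 s * (Pi.mulSingle 1 s)⁻¹) := by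
          rw [commutatorElement_def]
          have h1 : g * v⁻¹ * g⁻¹ = SemidirectProduct.inl ((Pi.mulSingle 1 s)⁻¹) := by
            have := (SemidirectProduct.inl_aut (φ := (act 2 S).comp (⊤ : Subgroup (Equiv.Perm (Fin 2))).subtype) σ ((Pi.mulSingle 0 s)⁻¹)).symm
            simp only [g, v, ← map_inv]
            rw [this]
            congr 1
            rw [map_inv]
            congr 1
            exact act_single 2 S (Equiv.swap 0 1) 0 s
          rw [mul_assoc, mul_assoc, ← mul_assoc g, h1, map_mul]
        rw [this]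
        simp

theorem solvable_alt4 {α : Type} [Fintype α] [DecidableEq α] (h4 : Nat.card α = 4) :
    Group.IsSolvable (alternatingGroup α) := by
  refine ⟨⟨2, ?_⟩⟩
  rw [derivedSeries_succ, derivedSeries_one, ← alternatingGroup.kleinFour_eq_commutator h4]
  rw [Subgroup.commutator_eq_bot_iff_le_centralizer]
  intro x hx
  rw [Subgroup.mem_centralizer_iff]
  intro y hy
  have := (alternatingGroup.kleinFour_isKleinFour (α := α) h4).isMulCommutative
  have := this.is_comm.comm (⟨y, hy⟩ : alternatingGroup.kleinFour α) ⟨x, hx⟩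
  exact congrArg Subtype.val this

theorem solvable_perm4 {α : Type} [Fintype α] [DecidableEq α] (h4 : Nat.card α = 4) :
    Group.IsSolvable (Equiv.Perm α) := by
  haveI := solvable_alt4 h4
  apply Group.isSolvable_of_ker_le_range (alternatingGroup α).subtype (Equiv.Perm.sign (α := α))
  rw [Subgroup.range_subtype]
  exact le_of_eq (alternatingGroup_eq_sign_ker).symm

theorem solvable_stab5 (a : Fin 5) : Group.IsSolvable (MulAction.stabilizer (alternatingGroup (Fin 5)) a) := by
  classical
  let f : (MulAction.stabilizer (alternatingGroup (Fin 5)) a) →* Equiv.Perm {x : Fin 5 // x ≠ a} :=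
    { toFun := fun g => (g.1.1 : Equiv.Perm (Fin 5)).subtypePerm (by
        intro x
        have hg : (g.1.1 : Equiv.Perm (Fin 5)) a = a := g.2
        constructor
        · intro h hx; exact h (hx ▸ hg)
        · intro h hx
          apply h
          apply (g.1.1 : Equiv.Perm (Fin 5)).injective
          rw [hx, hg])
      map_one' := by ext; rfl
      map_mul' := fun g h => by ext; rfl }
  have hcard : Nat.card {x : Fin 5 // x ≠ a} = 4 := by
    rw [Nat.card_eq_fintype_card, Fintype.card_subtype_compl]; simp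
  haveI := solvable_perm4 hcard
  apply Group.isSolvable_of_isSolvable_injective (f := f)
  rw [← MonoidHom.ker_eq_bot_iff, eq_bot_iff]
  intro g hg
  rw [Subgroup.mem_bot]
  rw [MonoidHom.mem_ker] at hg
  apply Subtype.ext
  apply Subtype.ext
  ext x
  by_cases hx : x = a
  · subst hx
    have : (g.1.1 : Equiv.Perm (Fin 5)) x = x := g.2
    rw [this]; rfl
  · have h1 := congrArg (fun e : Equiv.Perm {x : Fin 5 // x ≠ a} => (e ⟨x, hx⟩).1) hg
    exact congrArg Fin.val h1

/-- elements with entry `s` at `i` and `s⁻¹` at `j` -/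
def dd {S : Type} [Group S] (i j : Fin 5) (s : S) : Fin 5 → S := Pi.mulSingle i s * (Pi.mulSingle j s)⁻¹

abbrev A5 : Subgroup (Equiv.Perm (Fin 5)) := alternatingGroup (Fin 5)

/-- the perfect group -/
def L (S : Type) [Group S] : Subgroup (W 5 S A5) :=
  Subgroup.closure ((Set.range (SemidirectProduct.inr : A5 →* W 5 S A5)) ∪
    {x | ∃ (i j : Fin 5) (s : S), i ≠ j ∧ x = SemidirectProduct.inl (dd i j s)})

theorem exists_three (i j : Fin 5) (hij : i ≠ j) : ∃ k l : Fin 5, k ≠ i ∧ k ≠ j ∧ l ≠ i ∧ l ≠ j ∧ k ≠ l := by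
  revert i j; decide

theorem L_perfect (S : Type) [Group S] : ⁅L S, L S⁆ = L S := by
  apply le_antisymm
  · exact Subgroup.commutator_le_self (L S)
  · nth_rewrite 1 [L]
    rw [Subgroup.closure_le]
    have hinr : (SemidirectProduct.inr : A5 →* W 5 S A5).range ≤ L S := by
      rintro _ ⟨a, rfl⟩
      exact Subgroup.subset_closure (Or.inl ⟨a, rfl⟩)
    rintro x (⟨a, rfl⟩ | ⟨i, j, s, hij, rfl⟩)
    · have h1 : a ∈ (⁅(⊤ : Subgroup A5), (⊤ : Subgroup A5)⁆ : Subgroup A5) := by
        have h5 : commutator A5 = ⊤ := commutator_alternatingGroup_eq_top (by simp)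
        rw [_root_.commutator] at h5
        rw [h5]; exact Subgroup.mem_top _
      have h2 : (SemidirectProduct.inr : A5 →* W 5 S A5) a ∈ Subgroup.map (SemidirectProduct.inr : A5 →* W 5 S A5) (⁅(⊤ : Subgroup A5), (⊤ : Subgroup A5)⁆ : Subgroup A5) := ⟨a, h1, rfl⟩
      rw [Subgroup.map_commutator, ← MonoidHom.range_eq_map] at h2
      exact Subgroup.commutator_mono hinr hinr h2
    · obtain ⟨k, l, hki, hkj, hli, hlj, hkl⟩ := exists_three i j hij
      let σ : A5 := ⟨Equiv.swap i l * Equiv.swap i j, by
        rw [Equiv.Perm.mem_alternatingGroup, map_mul, Equiv.Perm.sign_swap hli.symm, Equiv.Perm.sign_swap hij]; rfl⟩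
      have hσi : (σ : Equiv.Perm (Fin 5)) i = j := by
        simp only [σ, Equiv.Perm.mul_apply, Equiv.swap_apply_left]
        exact Equiv.swap_apply_of_ne_of_ne hij.symm hlj.symm
      have hσk : (σ : Equiv.Perm (Fin 5)) k = k := by
        simp only [σ, Equiv.Perm.mul_apply]
        rw [Equiv.swap_apply_of_ne_of_ne hki hkj, Equiv.swap_apply_of_ne_of_ne hki hkl]
      have hv : (SemidirectProduct.inl (dd i k s) : W 5 S A5) ∈ L S :=
        Subgroup.subset_closure (Or.inr ⟨i, k, s, hki.symm, rfl⟩)
      have hg : (SemidirectProduct.inr σ : W 5 S A5) ∈ L S := hinr ⟨σ, rfl⟩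
      have h3 : (⁅(SemidirectProduct.inl (dd i k s) : W 5 S A5), (SemidirectProduct.inr σ : W 5 S A5)⁆ : W 5 S A5) = SemidirectProduct.inl (dd i j s) := by
        rw [commutatorElement_def]
        have h1 : (SemidirectProduct.inr σ : W 5 S A5) * (SemidirectProduct.inl (dd i k s))⁻¹ * (SemidirectProduct.inr σ)⁻¹ = SemidirectProduct.inl ((dd j k s)⁻¹) := by
          have := (SemidirectProduct.inl_aut (φ := (act 5 S).comp A5.subtype) σ ((dd i k s)⁻¹)).symm
          simp only [← map_inv]
          rw [this]
          congr 1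
          rw [map_inv]
          congr 1
          show act 5 S σ.1 (Pi.mulSingle i s * (Pi.mulSingle k s)⁻¹) = _
          rw [map_mul, map_inv, act_single, act_single, hσi, hσk]
          rfl
        rw [mul_assoc, mul_assoc, ← mul_assoc (SemidirectProduct.inr σ), h1, ← map_mul]
        congr 1
        simp only [dd]
        rw [mul_inv_rev, inv_inv, mul_assoc, inv_mul_cancel_left]
      rw [← h3]
      exact Subgroup.commutator_mem_commutator hv hg

theorem result (d : ℕ) :
    ∃ (G : Type) (_ : Group G) (_ : Finite G) (H : Subgroup G), commutator G = ⊤ ∧ IsCoatom H ∧ Group.IsSolvable H ∧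
      derivedSeries H d ≠ ⊥ := by
  obtain ⟨S, _, _, hS, hd⟩ := exists_solvable d
  haveI := finW 5 S A5
  let π : L S →* A5 := (SemidirectProduct.rightHom : W 5 S A5 →* A5).comp (L S).subtype
  have hπ : Function.Surjective π := fun a =>
    ⟨⟨SemidirectProduct.inr a, Subgroup.subset_closure (Or.inl ⟨a, rfl⟩)⟩, by simp [π]⟩
  let M : Subgroup A5 := MulAction.stabilizer A5 (4 : Fin 5)
  have hM : IsCoatom M := by
    haveI : MulAction.IsPreprimitive A5 (Fin 5) :=
      alternatingGroup.isPreprimitive_of_three_le_card (Fin 5) (by simp)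
    exact MulAction.IsPreprimitive.isCoatom_stabilizer_of_isPreprimitive A5 (4 : Fin 5)
  haveI hMs : Group.IsSolvable M := solvable_stab5 4
  refine ⟨L S, inferInstance, inferInstance, M.comap π, ?_, ?_, ?_, ?_⟩
  · apply Subgroup.map_injective (L S).subtype_injective
    rw [Subgroup.map_subtype_commutator, L_perfect, ← MonoidHom.range_eq_map, Subgroup.range_subtype]
  · exact Subgroup.isCoatom_comap_of_surjective hπ hM
  · have h1 : Group.IsSolvable ((M.comap π).map (L S).subtype) := by
      apply solvable_of_image _ M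
      rintro _ ⟨x, hx, rfl⟩
      exact hx
    exact Group.isSolvable_of_isSolvable_injective (f := ((M.comap π).equivMapOfInjective _ (L S).subtype_injective).toMonoidHom)
      (MulEquiv.injective _)
  · refine derived_ne_bot _ (evalBase ((L S).subtype.comp (M.comap π).subtype) 0) ?_ d hd
    intro s
    have hmem : (SemidirectProduct.inl (dd 0 1 s) : W 5 S A5) ∈ L S :=
      Subgroup.subset_closure (Or.inr ⟨0, 1, s, by decide, rfl⟩)
    refine ⟨⟨⟨⟨SemidirectProduct.inl (dd 0 1 s), hmem⟩, ?_⟩, ?_⟩, ?_⟩
    · rw [Subgroup.mem_comap]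
      show SemidirectProduct.rightHom (SemidirectProduct.inl (dd 0 1 s) : W 5 S A5) ∈ M
      rw [SemidirectProduct.rightHom_inl]; exact M.one_mem
    · rw [MonoidHom.mem_ker]
      show SemidirectProduct.rightHom (SemidirectProduct.inl (dd 0 1 s) : W 5 S A5) = 1
      rw [SemidirectProduct.rightHom_inl]
    · show (SemidirectProduct.inl (dd 0 1 s) : W 5 S A5).left 0 = s
      simp [dd]

end Cfsg.Agent.S5896
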