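import Cfsg.Statements.S5902

set_option autoImplicit false
open Cfsg

namespace Cfsg.Agent.S5902

theorem core_aux {G : Type*} [Group G] [Finite G] (X M : Subgroup G)
    (hK : ComplementedLattice (Subgroup X))
    (huniq : ∀ M' : Subgroup G, IsCoatom M' → X ≤ M' → M' = M)
    (H : Subgroup G) (hH : ¬ H ≤ M) : ∃ C : Subgroup G, H ⊔ C = ⊤ ∧ H ⊓ C = ⊥ := by
  obtain ⟨D, hD⟩ := exists_isCompl (H.subgroupOf X)
  have hmap : ∀ A : Subgroup X, A.map X.subtype ≤ X := fun A => by
    rintro _ ⟨a, _, rfl⟩; exact a.2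
  refine ⟨D.map X.subtype, ?_, ?_⟩
  · have h1 : X ≤ H ⊔ D.map X.subtype := by
      have := congrArg (Subgroup.map X.subtype) hD.sup_eq_top
      rw [Subgroup.map_sup, ← MonoidHom.range_eq_map, Subgroup.range_subtype] at this
      refine this.symm.le.trans (sup_le_sup_right ?_ _)
      rw [Subgroup.subgroupOf_map_subtype]
      exact inf_le_left
    by_contra hne
    obtain ⟨M', hM', hle⟩ := (eq_top_or_exists_le_coatom (H ⊔ D.map X.subtype)).resolve_left hne
    have := huniq M' hM' (h1.trans hle)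
    exact hH (this ▸ (le_sup_left.trans hle))
  · rw [eq_bot_iff]
    rintro x ⟨hxH, ⟨y, hy, rfl⟩⟩
    have : y ∈ H.subgroupOf X ⊓ D := ⟨hxH, hy⟩
    rw [hD.inf_eq_bot, Subgroup.mem_bot] at this
    rw [this]; simp

theorem result {G : Type*} [Group G] [Finite G] (X M : Subgroup G)
    (hK : ComplementedLattice (Subgroup X))
    (hM : IsCoatom M) (hXM : X ≤ M) (huniq : ∀ M' : Subgroup G, IsCoatom M' → X ≤ M' → M' = M) :
    (∀ H : Subgroup G, ¬ H ≤ M.normalCore → ∃ C : Subgroup G, H ⊔ C = ⊤ ∧ H ⊓ C = ⊥) ∧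
    ComplementedLattice (Subgroup (G ⧸ M.normalCore)) := by
  have h1 : ∀ H : Subgroup G, ¬ H ≤ M.normalCore → ∃ C : Subgroup G, H ⊔ C = ⊤ ∧ H ⊓ C = ⊥ := by
    intro H hH
    obtain ⟨x, hxH, hxc⟩ := SetLike.not_le_iff_exists.mp hH
    have hxc' : ∃ g : G, g * x * g⁻¹ ∉ M := by
      by_contra hcon
      push Not at hcon
      exact hxc hcon
    obtain ⟨g, hg⟩ := hxc'
    obtain ⟨C, hC1, hC2⟩ := core_aux X M hK huniq (H.map (MulAut.conj g).toMonoidHom) (by
      intro hle
      exact hg (hle ⟨x, hxH, by simp⟩))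
    refine ⟨C.map (MulAut.conj g⁻¹).toMonoidHom, ?_, ?_⟩
    · have h3 : (H.map (MulAut.conj g).toMonoidHom).map (MulAut.conj g⁻¹).toMonoidHom = H := by
        rw [Subgroup.map_map]
        convert Subgroup.map_id H
        ext y
        simp [mul_assoc]
      rw [← h3, ← Subgroup.map_sup, hC1]
      exact Subgroup.map_top_of_surjective _ (MulAut.conj g⁻¹).surjective
    · have h3 : (H.map (MulAut.conj g).toMonoidHom).map (MulAut.conj g⁻¹).toMonoidHom = H := by
        rw [Subgroup.map_map]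
        convert Subgroup.map_id H
        ext y
        simp [mul_assoc]
      rw [← h3, ← Subgroup.map_inf _ _ _ (MulAut.conj g⁻¹).injective, hC2, Subgroup.map_bot]
  refine ⟨h1, ⟨fun Hb => ?_⟩⟩
  set K := M.normalCore with hKdef
  set H := Hb.comap (QuotientGroup.mk' K) with hHdef
  have hKH : K ≤ H := by
    intro k hk
    rw [hHdef, Subgroup.mem_comap]
    have : (QuotientGroup.mk' K) k = 1 := by
      rw [QuotientGroup.mk'_apply, QuotientGroup.eq_one_iff]; exact hk
    rw [this]; exact Hb.one_mem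
  have hmapH : H.map (QuotientGroup.mk' K) = Hb :=
    Subgroup.map_comap_eq_self_of_surjective (QuotientGroup.mk'_surjective K) Hb
  by_cases hHK : H ≤ K
  · refine ⟨⊤, ?_⟩
    have : Hb = ⊥ := by
      rw [← hmapH, eq_bot_iff]
      rintro _ ⟨y, hy, rfl⟩
      rw [Subgroup.mem_bot, QuotientGroup.mk'_apply, QuotientGroup.eq_one_iff]
      exact hHK hy
    rw [this]
    exact isCompl_bot_top
  · obtain ⟨C, hC1, hC2⟩ := h1 H hHK
    refine ⟨C.map (QuotientGroup.mk' K), ?_⟩
    rw [isCompl_iff, disjoint_iff, codisjoint_iff]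
    constructor
    · rw [eq_bot_iff, ← hmapH]
      rintro _ ⟨⟨h, hh, rfl⟩, ⟨c, hc, hce⟩⟩
      rw [Subgroup.mem_bot, QuotientGroup.mk'_apply, QuotientGroup.eq_one_iff]
      rw [QuotientGroup.mk'_apply, QuotientGroup.mk'_apply, QuotientGroup.eq] at hce
      -- c⁻¹ * h ∈ K ≤ H so c ∈ H
      have hcH : c ∈ H := by
        have h5 := H.mul_mem hh (H.inv_mem (hKH hce))
        simpa using h5
      have : c ∈ H ⊓ C := ⟨hcH, hc⟩
      rw [hC2, Subgroup.mem_bot] at this
      rw [this] at hce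
      simpa using hce
    · rw [← hmapH, ← Subgroup.map_sup, hC1]
      exact Subgroup.map_top_of_surjective _ (QuotientGroup.mk'_surjective K)

end Cfsg.Agent.S5902
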