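import Cfsg.Statements.S5903
import Cfsg.Agent.S5901

set_option autoImplicit false
open Cfsg

namespace Cfsg.Agent.S5903

theorem interval {G : Type*} [Group G] (X N : Subgroup G) (hNX : N ≤ X)
    [(N.subgroupOf X).Normal] (hK : ComplementedLattice (Subgroup (X ⧸ N.subgroupOf X)))
    (Y : Subgroup G) (hNY : N ≤ Y) (hYX : Y ≤ X) :
    ∃ C : Subgroup G, N ≤ C ∧ C ≤ X ∧ Y ⊔ C = X ∧ Y ⊓ C = N := by
  set K := N.subgroupOf X
  obtain ⟨D, hD⟩ := exists_isCompl ((Y.subgroupOf X).map (QuotientGroup.mk' K))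
  have hmk := QuotientGroup.mk'_surjective K
  set E := D.comap (QuotientGroup.mk' K) with hE
  have hKE : K ≤ E := by
    intro k hk
    rw [hE, Subgroup.mem_comap]
    have : (QuotientGroup.mk' K) k = 1 := by
      rw [QuotientGroup.mk'_apply, QuotientGroup.eq_one_iff]; exact hk
    rw [this]; exact D.one_mem
  have hmapE : E.map (QuotientGroup.mk' K) = D := Subgroup.map_comap_eq_self_of_surjective hmk D
  have hKY : K ≤ Y.subgroupOf X := fun k hk => hNY hk
  -- sup
  have hsup : Y.subgroupOf X ⊔ E = ⊤ := by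
    have h1 := hD.sup_eq_top
    rw [← hmapE, ← Subgroup.map_sup] at h1
    have h2 := congrArg (Subgroup.comap (QuotientGroup.mk' K)) h1
    rw [Subgroup.comap_top, Subgroup.comap_map_eq, QuotientGroup.ker_mk'] at h2
    rw [← h2]
    symm
    apply sup_eq_left.mpr
    exact hKY.trans le_sup_left
  have hinf : Y.subgroupOf X ⊓ E = K := by
    apply le_antisymm
    · rintro x ⟨hxY, hxE⟩
      have : (QuotientGroup.mk' K) x ∈ (Y.subgroupOf X).map (QuotientGroup.mk' K) ⊓ D :=
        ⟨⟨x, hxY, rfl⟩, hxE⟩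
      rw [hD.inf_eq_bot, Subgroup.mem_bot, QuotientGroup.mk'_apply, QuotientGroup.eq_one_iff] at this
      exact this
    · exact le_inf hKY hKE
  refine ⟨E.map X.subtype, ?_, ?_, ?_, ?_⟩
  · intro n hn
    exact ⟨⟨n, hNX hn⟩, hKE hn, rfl⟩
  · rintro _ ⟨a, _, rfl⟩; exact a.2
  · have h1 := congrArg (Subgroup.map X.subtype) hsup
    rw [Subgroup.map_sup, ← MonoidHom.range_eq_map, Subgroup.range_subtype,
      Subgroup.subgroupOf_map_subtype, inf_eq_left.mpr hYX] at h1
    exact h1
  · have h1 := congrArg (Subgroup.map X.subtype) hinf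
    rw [Subgroup.map_inf _ _ _ X.subtype_injective,
      Subgroup.subgroupOf_map_subtype, inf_eq_left.mpr hYX, Subgroup.subgroupOf_map_subtype,
      inf_eq_left.mpr hNX] at h1
    exact h1

theorem result {G : Type*} [Group G] [Finite G] [IsSimpleGroup G] (X M N : Subgroup G)
    (hM : IsCoatom M) (hXM : X ≤ M) (huniq : ∀ M' : Subgroup G, IsCoatom M' → X ≤ M' → M' = M)
    (hNX : N ≤ X) (hN : (Nat.card N).Prime) (hcen : ∀ n ∈ N, ∀ m ∈ M, m * n = n * m)
    [(N.subgroupOf X).Normal] (hK : ComplementedLattice (Subgroup (X ⧸ N.subgroupOf X))) :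
    ComplementedLattice (Subgroup G) := by
  refine ⟨fun H => ?_⟩
  by_cases hbot : H = ⊥
  · exact ⟨⊤, hbot ▸ isCompl_bot_top⟩
  by_cases htop : H = ⊤
  · exact ⟨⊥, htop ▸ isCompl_top_bot⟩
  have hXtop : X ≠ ⊤ := fun h => hM.1 (top_le_iff.mp (h ▸ hXM))
  have hNne : N ≠ ⊥ := by
    rintro rfl
    simp at hN
    exact Nat.not_prime_one hN
  -- the normalizer of H is proper
  have hnorm : Subgroup.normalizer (H : Set G) ≠ ⊤ := by
    intro h
    have hn : H.Normal := Subgroup.normalizer_eq_top_iff.mp h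
    rcases hn.eq_bot_or_eq_top with h' | h'
    · exact hbot h'
    · exact htop h'
  -- some conjugate of N is not in the normalizer
  have hex : ∃ g : G, ∃ n ∈ N, g * n * g⁻¹ ∉ Subgroup.normalizer (H : Set G) := by
    by_contra hcon
    push Not at hcon
    have h1 : Subgroup.normalClosure (N : Set G) ≤ Subgroup.normalizer (H : Set G) := by
      rw [Subgroup.normalClosure, Subgroup.closure_le]
      intro x hx
      rw [Group.mem_conjugatesOfSet_iff] at hx
      obtain ⟨a, ha, hax⟩ := hx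
      obtain ⟨c, hc⟩ := isConj_iff.mp hax
      rw [← hc]
      exact hcon c a ha
    have h2 : Subgroup.normalClosure (N : Set G) = ⊤ := by
      rcases (Subgroup.normalClosure_normal : (Subgroup.normalClosure (N : Set G)).Normal).eq_bot_or_eq_top with h | h
      · exfalso
        apply hNne
        rw [eq_bot_iff, ← h]
        exact Subgroup.subset_normalClosure
      · exact h
    rw [h2, top_le_iff] at h1
    exact hnorm h1
  obtain ⟨g, n, hnN, hgn⟩ := hex
  set H' := H.map (MulAut.conj g⁻¹).toMonoidHom with hH'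
  have hback : H'.map (MulAut.conj g).toMonoidHom = H := by
    rw [hH', Subgroup.map_map]
    convert Subgroup.map_id H
    ext y
    simp [mul_assoc]
  -- H' is not in M
  have h1 : ¬ H' ≤ M := by
    intro hle
    apply hgn
    have hcomm : ∀ h ∈ H, h * (g * n * g⁻¹) = (g * n * g⁻¹) * h := by
      intro h hh
      have hm : g⁻¹ * h * g ∈ M := hle ⟨h, hh, by simp⟩
      have := hcen n hnN _ hm
      have h5 : h * (g * n * g⁻¹) = g * ((g⁻¹ * h * g) * n) * g⁻¹ := by group
      rw [h5, this]; group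
    rw [Subgroup.mem_normalizer_iff]
    intro h
    constructor
    · intro hh
      rw [← hcomm h hh]
      simpa [mul_assoc] using hh
    · intro hh
      have h6 := hcomm _ hh
      have h7 : h = (g * n * g⁻¹) * h * (g * n * g⁻¹)⁻¹ := by
        have : (g * n * g⁻¹) * h * (g * n * g⁻¹)⁻¹ * (g * n * g⁻¹) = (g * n * g⁻¹) * ((g * n * g⁻¹) * h * (g * n * g⁻¹)⁻¹) := h6
        have h8 : (g * n * g⁻¹) * h = (g * n * g⁻¹) * ((g * n * g⁻¹) * h * (g * n * g⁻¹)⁻¹) := by
          rw [← this]; group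
        exact mul_left_cancel h8
      rw [h7]; exact hh
  -- H' meets N trivially
  have h2 : H' ⊓ N = ⊥ := by
    haveI : Fact (Nat.card N).Prime := ⟨hN⟩
    rcases (Subgroup.eq_bot_or_eq_top_of_prime_card (H'.subgroupOf N)) with h | h
    · rw [Subgroup.subgroupOf_eq_bot] at h
      exact disjoint_iff.mp h
    · exfalso
      rw [Subgroup.subgroupOf_eq_top] at h
      have hn' : n ∈ H' := h hnN
      have h3 : g * n * g⁻¹ ∈ H := by
        rw [← hback]
        exact ⟨n, hn', by simp⟩
      exact hgn (Subgroup.le_normalizer h3)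
  obtain ⟨C, hC1, hC2⟩ := Cfsg.Agent.S5901.result N X M hNX hXtop (interval X N hNX hK) hM hXM huniq H' h1 h2
  refine ⟨C.map (MulAut.conj g).toMonoidHom, ?_⟩
  rw [isCompl_iff, disjoint_iff, codisjoint_iff]
  constructor
  · nth_rewrite 1 [← hback]
    rw [← Subgroup.map_inf _ _ _ (MulAut.conj g).injective, hC2, Subgroup.map_bot]
  · nth_rewrite 1 [← hback]
    rw [← Subgroup.map_sup, hC1]
    exact Subgroup.map_top_of_surjective _ (MulAut.conj g).surjective

end Cfsg.Agent.S5903
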