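import Cfsg.Statements.S5904

set_option autoImplicit false
open scoped Pointwise
open Cfsg

namespace Cfsg.Agent.S5904

theorem result {Ω : Type*} [Fintype Ω] [DecidableEq Ω] (hΩ : 2 < Fintype.card Ω)
    (O : Set Ω) (hO : Nat.card O = Nat.card ↥Oᶜ) :
    ¬ IsCoatom (MulAction.stabilizer (Equiv.Perm Ω) O) := by
  classical
  intro hco
  have hcard : Nat.card O + Nat.card ↥Oᶜ = Fintype.card Ω := by
    rw [← Nat.card_eq_fintype_card, ← Set.ncard_add_ncard_compl O]; rfl
  -- the overgroup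
  let P : Subgroup (Equiv.Perm Ω) :=
    { carrier := {g | g • O = O ∨ g • O = Oᶜ}
      one_mem' := Or.inl (one_smul _ _)
      mul_mem' := by
        rintro a b (ha | ha) (hb | hb)
        · left; rw [mul_smul, hb, ha]
        · right; rw [mul_smul, hb, Set.smul_set_compl, ha]
        · right; rw [mul_smul, hb, ha]
        · left; rw [mul_smul, hb, Set.smul_set_compl, ha, compl_compl]
      inv_mem' := by
        rintro a (ha | ha)
        · left; rw [inv_smul_eq_iff, ha]
        · right; rw [inv_smul_eq_iff, Set.smul_set_compl, ha, compl_compl] }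
  have hlt : MulAction.stabilizer (Equiv.Perm Ω) O < P := by
    refine lt_of_le_of_ne (fun g hg => Or.inl hg) ?_
    intro heq
    -- an involution swapping O and its complement
    obtain ⟨e⟩ : Nonempty (O ≃ ↥Oᶜ) := Finite.card_eq.mp hO
    let g : Equiv.Perm Ω :=
      (Equiv.Set.sumCompl O).symm.trans ((Equiv.sumCongr e e.symm).trans ((Equiv.sumComm _ _).trans (Equiv.Set.sumCompl O)))
    have hg1 : ∀ x ∈ O, g x ∈ Oᶜ := by
      intro x hx
      have : (Equiv.Set.sumCompl O).symm x = Sum.inl ⟨x, hx⟩ := Equiv.Set.sumCompl_symm_apply_of_mem hx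
      simp only [g, Equiv.trans_apply, this, Equiv.sumCongr_apply, Sum.map_inl, Equiv.sumComm_apply, Sum.swap_inl, Equiv.Set.sumCompl_apply_inr]
      exact (e ⟨x, hx⟩).2
    have hg2 : g • O = Oᶜ := by
      apply Set.eq_of_subset_of_ncard_le
      · rintro _ ⟨x, hx, rfl⟩
        exact hg1 x hx
      · rw [Set.ncard_smul_set]
        exact le_of_eq hO.symm
      · exact Set.toFinite _
    have hgP : g ∈ P := Or.inr hg2
    rw [← heq, MulAction.mem_stabilizer_iff, hg2] at hgP
    have : 0 < Nat.card O := by omega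
    obtain ⟨⟨x, hx⟩⟩ := (Nat.card_pos_iff.mp this).1
    have h3 : x ∈ Oᶜ := by rw [hgP]; exact hx
    exact h3 hx
  have htop := hco.2 P hlt
  -- but P is proper
  have h2 : 1 < Nat.card O := by omega
  have h3 : 0 < Nat.card ↥Oᶜ := by omega
  obtain ⟨⟨x, hx⟩, ⟨y, hy⟩, hxy⟩ := (Finite.one_lt_card_iff_nontrivial.mp h2).exists_pair_ne
  obtain ⟨⟨z, hz⟩⟩ := (Nat.card_pos_iff.mp h3).1
  have hmem : Equiv.swap x z ∈ P := htop ▸ Subgroup.mem_top _
  have hyx : y ≠ x := fun h => hxy (by simp [h])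
  have hyz : y ≠ z := fun h => hz (h ▸ hy)
  have hzmem : z ∈ (Equiv.swap x z) • O := ⟨x, hx, by simp⟩
  have hymem : y ∈ (Equiv.swap x z) • O := ⟨y, hy, by simp [Equiv.swap_apply_of_ne_of_ne hyx hyz]⟩
  rcases hmem with h | h
  · rw [h] at hzmem; exact hz hzmem
  · rw [h] at hymem; exact hymem hy

end Cfsg.Agent.S5904
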