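import Cfsg.Statements.S5905

set_option autoImplicit false
open Cfsg

namespace Cfsg.Agent.S5905

/-- The stabilizer of the fibres of `f`. -/
def stab {Ω : Type*} {b : ℕ} (f : Ω → Fin b) : Subgroup (Equiv.Perm Ω) where
  carrier := {g | ∀ x y : Ω, f x = f y ↔ f (g x) = f (g y)}
  one_mem' := fun x y => Iff.rfl
  mul_mem' := by
    intro g h hg hh x y
    rw [Equiv.Perm.mul_apply, Equiv.Perm.mul_apply]
    exact (hh x y).trans (hg _ _)
  inv_mem' := by
    intro g hg x y
    have := hg (g⁻¹ x) (g⁻¹ y)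
    simpa using this.symm

theorem closure_eq {Ω : Type*} {b : ℕ} (f : Ω → Fin b) :
    Subgroup.closure {g : Equiv.Perm Ω | ∀ x y : Ω, f x = f y ↔ f (g x) = f (g y)} = stab f :=
  Subgroup.closure_eq (stab f)

theorem result {Ω : Type*} [Fintype Ω] [DecidableEq Ω] (a b : ℕ) (ha : 2 ≤ a) (hb : 2 ≤ b)
    (f : Ω → Fin b) (hf : ∀ i : Fin b, Nat.card {x : Ω // f x = i} = a) :
    IsCoatom (Subgroup.closure {g : Equiv.Perm Ω | ∀ x y : Ω, f x = f y ↔ f (g x) = f (g y)}) := by
  rw [closure_eq]
  -- swaps of two points in a fibre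
  have hswap : ∀ x y : Ω, f x = f y → Equiv.swap x y ∈ stab f := by
    intro x y hxy
    have h1 : ∀ z, f (Equiv.swap x y z) = f z := by
      intro z
      by_cases hzx : z = x
      · subst hzx; rw [Equiv.swap_apply_left, hxy]
      · by_cases hzy : z = y
        · subst hzy; rw [Equiv.swap_apply_right, hxy]
        · rw [Equiv.swap_apply_of_ne_of_ne hzx hzy]
    intro u v
    rw [h1, h1]
  have hne : ∀ i : Fin b, ∃ x y : Ω, f x = i ∧ f y = i ∧ x ≠ y := by
    intro i
    have h1 : 1 < Nat.card {x : Ω // f x = i} := by rw [hf]; omega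
    obtain ⟨⟨x, hx⟩, ⟨y, hy⟩, hxy⟩ := (Finite.one_lt_card_iff_nontrivial.mp h1).exists_pair_ne
    exact ⟨x, y, hx, hy, fun h => hxy (Subtype.ext h)⟩
  -- lifting permutations of the blocks
  obtain ⟨e⟩ : Nonempty (∀ i : Fin b, {x : Ω // f x = i} ≃ Fin a) := by
    refine ⟨fun i => ?_⟩
    haveI : Finite {x : Ω // f x = i} := inferInstance
    exact (Finite.card_eq.mp (by rw [hf, Nat.card_fin])).some
  have hlift : ∀ σ : Equiv.Perm (Fin b), ∃ g ∈ stab f, ∀ x, f (g x) = σ (f x) := by
    intro σ
    let g : Equiv.Perm Ω := (Equiv.sigmaFiberEquiv f).symm.trans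
      ((Equiv.sigmaCongr σ (fun i => (e i).trans (e (σ i)).symm)).trans (Equiv.sigmaFiberEquiv f))
    have hg : ∀ x, f (g x) = σ (f x) := by
      intro x
      simp only [g, Equiv.trans_apply, Equiv.sigmaFiberEquiv, Equiv.coe_fn_symm_mk, Equiv.coe_fn_mk]
      exact ((e (σ (f x))).symm (e (f x) ⟨x, rfl⟩)).2
    refine ⟨g, ?_, hg⟩
    intro x y
    rw [hg, hg]
    exact σ.injective.eq_iff.symm
  constructor
  · -- proper
    intro htop
    obtain ⟨x, y, hx, hy, hxy⟩ := hne ⟨0, by omega⟩
    obtain ⟨z, w, hz, hw, hzw⟩ := hne ⟨1, by omega⟩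
    have h1 : Equiv.swap x z ∈ stab f := htop ▸ Subgroup.mem_top _
    have h2 := (h1 x y).mp (by rw [hx, hy])
    have hyz : y ≠ z := by
      intro h; rw [h, hz] at hy; simp at hy
    rw [Equiv.swap_apply_left, Equiv.swap_apply_of_ne_of_ne hxy.symm hyz, hz, hy] at h2
    simp at h2
  · intro K hK
    obtain ⟨hle, g, hgK, hg⟩ := SetLike.lt_iff_le_and_exists.mp hK
    -- relation
    have hconj : ∀ (k : Equiv.Perm Ω) (x y : Ω), k ∈ K → Equiv.swap x y ∈ K → Equiv.swap (k x) (k y) ∈ K := by
      intro k x y hk hxy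
      have : Equiv.swap (k x) (k y) = k * Equiv.swap x y * k⁻¹ := by
        rw [Equiv.swap_apply_apply]
      rw [this]
      exact K.mul_mem (K.mul_mem hk hxy) (K.inv_mem hk)
    have htrans : ∀ x y z : Ω, Equiv.swap x y ∈ K → Equiv.swap y z ∈ K → Equiv.swap x z ∈ K := by
      intro x y z hxy hyz
      by_cases hxz : x = z
      · subst hxz; rw [Equiv.swap_self]; exact K.one_mem
      by_cases hxy' : x = y
      · subst hxy'; exact hyz
      have h1 := hconj (Equiv.swap x y) y z hxy hyz
      by_cases hyz' : y = z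
      · subst hyz'; exact hxy
      rwa [Equiv.swap_apply_right, Equiv.swap_apply_of_ne_of_ne (Ne.symm hxz) (Ne.symm hyz')] at h1
    have hfib : ∀ x y, f x = f y → Equiv.swap x y ∈ K := fun x y h => hle (hswap x y h)
    -- two points in different fibres related
    obtain ⟨x0, y0, hxy0, hswap0⟩ : ∃ x y : Ω, f x ≠ f y ∧ Equiv.swap x y ∈ K := by
      by_contra hcon
      push Not at hcon
      apply hg
      intro x y
      constructor
      · intro h
        by_contra hne'
        exact hcon (g x) (g y) hne' (hconj g x y hgK (hfib x y h))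
      · intro h
        by_contra hne'
        have h1 := hconj g⁻¹ (g x) (g y) (K.inv_mem hgK) (hfib _ _ h)
        have e1 : g⁻¹ (g x) = x := by simp
        have e2 : g⁻¹ (g y) = y := by simp
        rw [e1, e2] at h1
        exact hcon x y hne' h1
    -- all points related
    have hall : ∀ x y : Ω, Equiv.swap x y ∈ K := by
      intro x y
      by_cases hxy : f x = f y
      · exact hfib x y hxy
      · -- find σ with σ (f x0) = f x, σ (f y0) = f y
        obtain ⟨σ, hσ1, hσ2⟩ : ∃ σ : Equiv.Perm (Fin b), σ (f x0) = f x ∧ σ (f y0) = f y := by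
          refine ⟨Equiv.swap (Equiv.swap (f x0) (f x) (f y0)) (f y) * Equiv.swap (f x0) (f x), ?_, ?_⟩
          · rw [Equiv.Perm.mul_apply, Equiv.swap_apply_left]
            apply Equiv.swap_apply_of_ne_of_ne
            · intro h
              apply hxy0
              apply (Equiv.swap (f x0) (f x)).injective
              rw [Equiv.swap_apply_left]; exact h
            · exact hxy
          · rw [Equiv.Perm.mul_apply, Equiv.swap_apply_left]
        obtain ⟨k, hk, hkf⟩ := hlift σ
        have h1 := hconj k x0 y0 (hle hk) hswap0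
        have h2 : f x = f (k x0) := by rw [hkf, hσ1]
        have h3 : f (k y0) = f y := by rw [hkf, hσ2]
        exact htrans _ _ _ (htrans _ _ _ (hfib _ _ h2) h1) (hfib _ _ h3)
    rw [eq_top_iff, ← Equiv.Perm.closure_isSwap, Subgroup.closure_le]
    rintro _ ⟨x, y, _, rfl⟩
    exact hall x y

end Cfsg.Agent.S5905
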