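import Cfsg.Statements.S5908
-- import your own Cfsg.Agent.* helpers here
import Mathlib
import Cfsg.Agent.Lib.H7.UnitSU

set_option autoImplicit false
open Cfsg

namespace Cfsg.Agent.S5908

section field

variable {F : Type*} [Field F]

/-- powers of a primitive cube root of unity -/
def W (w : F) (e : ZMod 3) : F := w ^ e.val

theorem W_add {w : F} (hw : w ^ 3 = 1) (a b : ZMod 3) : W w (a + b) = W w a * W w b := by
  unfold W
  rw [← pow_add, ZMod.val_add]
  conv_rhs => rw [← Nat.mod_add_div (a.val + b.val) 3, pow_add, pow_mul, hw, one_pow, mul_one]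

theorem W_ne {w : F} (hw : w ^ 3 = 1) (a : ZMod 3) : W w a ≠ 0 := by
  have : w ≠ 0 := by
    rintro rfl
    norm_num at hw
  exact pow_ne_zero _ this

set_option synthInstance.maxHeartbeats 400000 in
set_option synthInstance.maxSize 2000 in
theorem perm3 : ∀ a b c : ZMod 3, (a ≠ b ∧ b ≠ c ∧ a ≠ c) →
      (a = 0 ∧ b = 1 ∧ c = 2) ∨ (a = 0 ∧ b = 2 ∧ c = 1) ∨ (a = 1 ∧ b = 0 ∧ c = 2) ∨
      (a = 1 ∧ b = 2 ∧ c = 0) ∨ (a = 2 ∧ b = 0 ∧ c = 1) ∨ (a = 2 ∧ b = 1 ∧ c = 0) := by decide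

theorem W_sum {w : F} (h2 : (2 : F) = 0) (hw : w ^ 2 + w + 1 = 0) (a b c : ZMod 3) :
    W w a + W w b + W w c = 0 ↔ (a ≠ b ∧ b ≠ c ∧ a ≠ c) := by
  have hw3 : w ^ 3 = 1 := by linear_combination (w - 1) * hw
  constructor
  · intro h
    refine ⟨?_, ?_, ?_⟩
    · rintro rfl
      exact W_ne hw3 c (by linear_combination h - W w a * h2)
    · rintro rfl
      exact W_ne hw3 a (by linear_combination h - W w b * h2)
    · rintro rfl
      exact W_ne hw3 b (by linear_combination h - W w a * h2)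
  · have h0 : W w 0 = 1 := pow_zero w
    have h1 : W w 1 = w := by
      show w ^ 1 = w
      exact pow_one w
    have h2' : W w 2 = w ^ 2 := rfl
    intro h
    rcases perm3 a b c h with ⟨rfl, rfl, rfl⟩ | ⟨rfl, rfl, rfl⟩ | ⟨rfl, rfl, rfl⟩ | ⟨rfl, rfl, rfl⟩ |
      ⟨rfl, rfl, rfl⟩ | ⟨rfl, rfl, rfl⟩ <;> rw [h0, h1, h2'] <;> linear_combination hw

theorem W_inj {w : F} (h2 : (2 : F) = 0) (hw : w ^ 2 + w + 1 = 0) {a : ZMod 3} (h : W w a = 1) : a = 0 := by
  have hw3 : w ^ 3 = 1 := by linear_combination (w - 1) * hw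
  by_contra ha
  have h3 : ∀ a : ZMod 3, a ≠ 0 → ∃ b : ZMod 3, a ≠ 0 ∧ 0 ≠ b ∧ a ≠ b := by decide
  obtain ⟨b, hb⟩ := h3 a ha
  have h4 := (W_sum h2 hw a 0 b).mpr hb
  rw [h, show W w 0 = 1 from pow_zero w] at h4
  exact W_ne hw3 b (by linear_combination h4 - h2)

theorem exists_w [Fintype F] (hF : Fintype.card F = 4) : (2 : F) = 0 ∧ ∃ w : F, w ^ 2 + w + 1 = 0 ∧
    ∀ x : F, x ≠ 0 → ∃ e : ZMod 3, x = W w e := by
  classical
  have hc : ((4 : ℕ) : F) = 0 := by
    rw [← hF]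
    exact Nat.cast_card_eq_zero F
  have h2 : (2 : F) = 0 := by
    have : (2 : F) ^ 2 = 0 := by
      rw [← hc]; push_cast; norm_num
    exact pow_eq_zero_iff (two_ne_zero) |>.mp this
  refine ⟨h2, ?_⟩
  have hex : ∃ w : F, w ∉ ({0, 1} : Finset F) := by
    by_contra hcon
    push Not at hcon
    have : Finset.univ ⊆ ({0, 1} : Finset F) := fun x _ => hcon x
    have := Finset.card_le_card this
    rw [Finset.card_univ, hF] at this
    have h5 := Finset.card_le_two (a := (0 : F)) (b := 1)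
    omega
  obtain ⟨w, hw⟩ := hex
  have hw0 : w ≠ 0 := fun h => hw (by simp [h])
  have hw1 : w ≠ 1 := fun h => hw (by simp [h])
  have h3 : ∀ x : F, x ≠ 0 → x ^ 3 = 1 := by
    intro x hx
    have := FiniteField.pow_card_sub_one_eq_one x hx
    rwa [hF] at this
  have hw2 : w ^ 2 + w + 1 = 0 := by
    have h4 := h3 w hw0
    have : (w - 1) * (w ^ 2 + w + 1) = 0 := by linear_combination h4
    exact (mul_eq_zero.mp this).resolve_left (sub_ne_zero.mpr hw1)
  refine ⟨w, hw2, ?_⟩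
  intro x hx
  have h4 := h3 x hx
  have : (x - 1) * ((x - w) * (x - w ^ 2)) = 0 := by
    linear_combination h4 + (x - 1) * (-x + (w - 1)) * hw2
  rcases mul_eq_zero.mp this with h | h
  · exact ⟨0, by rw [sub_eq_zero.mp h]; exact (pow_zero w).symm⟩
  rcases mul_eq_zero.mp h with h | h
  · refine ⟨1, ?_⟩
    rw [sub_eq_zero.mp h]
    show w = w ^ 1
    rw [pow_one]
  · exact ⟨2, by rw [sub_eq_zero.mp h]; rfl⟩

end field

/-- pairwise distinct -/
def D3 (a b c : ZMod 3) : Prop := a ≠ b ∧ b ≠ c ∧ a ≠ c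

instance (a b c : ZMod 3) : Decidable (D3 a b c) := inferInstanceAs (Decidable (a ≠ b ∧ b ≠ c ∧ a ≠ c))

set_option synthInstance.maxHeartbeats 400000 in
set_option synthInstance.maxSize 2000 in
set_option maxRecDepth 100000 in
theorem comb1 : ∀ u0 u1 u2 v0 v1 v2 : ZMod 3, D3 u0 u1 u2 → D3 v0 v1 v2 →
    D3 (u0 - v0) (u1 - v1) (u2 - v2) → ∃ ε b1 b2 : ZMod 3, ε ≠ 0 ∧ u0 = b1 ∧ u1 = b1 + ε ∧ u2 = b1 + 2 * ε ∧
      v0 = b2 ∧ v1 = b2 + 2 * ε ∧ v2 = b2 + ε := by
  decide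

/-- the exponent matrix -/
def E (a0 a1 a2 b1 b2 ε : ZMod 3) : Fin 3 → Fin 3 → ZMod 3 :=
  ![![a0, a0 + b1, a0 + b2], ![a1, a1 + b1 + ε, a1 + b2 + 2 * ε], ![a2, a2 + b1 + 2 * ε, a2 + b2 + ε]]

set_option synthInstance.maxHeartbeats 400000 in
set_option synthInstance.maxSize 2000 in
set_option maxRecDepth 100000 in
theorem comb2 : ∀ a0 a1 a2 b1 b2 ε : ZMod 3, ε ≠ 0 → a0 + a1 + a2 + b1 + b2 = 0 →
    (∃ i j : Fin 3, D3 (E a0 a1 a2 b1 b2 ε i 0 + E a0 a1 a2 b1 b2 ε 0 j) (E a0 a1 a2 b1 b2 ε i 1 + E a0 a1 a2 b1 b2 ε 1 j)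
      (E a0 a1 a2 b1 b2 ε i 2 + E a0 a1 a2 b1 b2 ε 2 j)) ∧
    (∃ i j : Fin 3, i ≠ j ∧ ¬ D3 (E a0 a1 a2 b1 b2 ε i 0 + E a0 a1 a2 b1 b2 ε 0 j) (E a0 a1 a2 b1 b2 ε i 1 + E a0 a1 a2 b1 b2 ε 1 j)
      (E a0 a1 a2 b1 b2 ε i 2 + E a0 a1 a2 b1 b2 ε 2 j)) := by
  decide

section mat

open Matrix H7.UnitSU

variable {F : Type*} [Field F]

theorem entry {M : Matrix (Fin 3) (Fin 3) F} (hM : Mᵀ * bar 2 M = 1) (i j : Fin 3) :
    M 0 i * M 0 j ^ 2 + M 1 i * M 1 j ^ 2 + M 2 i * M 2 j ^ 2 = if i = j then 1 else 0 := by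
  have := congrFun (congrFun hM i) j
  rw [Matrix.mul_apply, Fin.sum_univ_three, Matrix.one_apply] at this
  exact this

theorem sq_key [Fintype F] (hF : Fintype.card F = 4) {M : Matrix (Fin 3) (Fin 3) F} (hM : Mᵀ * bar 2 M = 1)
    (hd : M.det = 1) (hne : ∀ i j, M i j ≠ 0) :
    (∃ i j, (M * M) i j = 0) ∧ (∃ i j, i ≠ j ∧ (M * M) i j ≠ 0) := by
  obtain ⟨h2, w, hw, hex⟩ := exists_w hF
  have hw3 : w ^ 3 = 1 := by linear_combination (w - 1) * hw
  choose e he using fun i j => hex (M i j) (hne i j)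
  have hcol : ∀ i j, i ≠ j → D3 (e 0 i - e 0 j) (e 1 i - e 1 j) (e 2 i - e 2 j) := by
    intro i j hij
    have h := entry hM i j
    rw [if_neg hij] at h
    have h5 : ∀ k, M k i * M k j ^ 2 = W w (e k i - e k j) := by
      intro k
      have h3 : e k i - e k j = e k i + (e k j + e k j) := by
        have : ∀ a b : ZMod 3, a - b = a + (b + b) := by decide
        exact this _ _
      rw [h3, W_add hw3, W_add hw3, ← he, ← he]
      ring
    rw [h5, h5, h5] at h
    exact (W_sum h2 hw _ _ _).mp h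
  obtain ⟨ε, b1, b2, hε, hu0, hu1, hu2, hv0, hv1, hv2⟩ := comb1 (e 0 1 - e 0 0) (e 1 1 - e 1 0) (e 2 1 - e 2 0)
    (e 0 2 - e 0 0) (e 1 2 - e 1 0) (e 2 2 - e 2 0) (hcol 1 0 (by decide)) (hcol 2 0 (by decide)) (by
      have := hcol 1 2 (by decide)
      simp only [sub_sub_sub_cancel_right]
      exact this)
  have heE : ∀ i j, e i j = E (e 0 0) (e 1 0) (e 2 0) b1 b2 ε i j := by
    intro i j
    fin_cases i <;> fin_cases j
    · rfl
    · show e 0 1 = e 0 0 + b1
      rw [← hu0]; ring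
    · show e 0 2 = e 0 0 + b2
      rw [← hv0]; ring
    · rfl
    · show e 1 1 = e 1 0 + b1 + ε
      rw [add_assoc, ← hu1]; ring
    · show e 1 2 = e 1 0 + b2 + 2 * ε
      rw [add_assoc, ← hv1]; ring
    · rfl
    · show e 2 1 = e 2 0 + b1 + 2 * ε
      rw [add_assoc, ← hu2]; ring
    · show e 2 2 = e 2 0 + b2 + ε
      rw [add_assoc, ← hv2]; ring
  have hS : e 0 0 + e 1 0 + e 2 0 + b1 + b2 = 0 := by
    apply W_inj h2 hw
    rw [Matrix.det_fin_three] at hd
    simp only [he] at hd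
    simp only [heE 0 1, heE 0 2, heE 1 1, heE 1 2, heE 2 1, heE 2 2] at hd
    have h6 := (W_sum h2 hw 0 ε (2 * ε)).mpr ((by decide : ∀ ε : ZMod 3, ε ≠ 0 → (0 ≠ ε ∧ ε ≠ 2 * ε ∧ 0 ≠ 2 * ε)) ε hε)
    rw [← hd]
    simp only [E, Matrix.cons_val_zero, Matrix.cons_val_one, Matrix.cons_val, W_add hw3]
    have h7 : W w (2 * ε) = W w ε * W w ε := by rw [two_mul, W_add hw3]
    have h8 : W w 0 = 1 := pow_zero w
    rw [h7, h8] at h6
    rw [h7]
    have h9 : W w ε ^ 3 = 1 := by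
      unfold W
      rw [← pow_mul, mul_comm, pow_mul, hw3, one_pow]
    linear_combination (W w (e 0 0) * W w (e 1 0) * W w (e 2 0) * W w b1 * W w b2) *
      (W w ε * h9 + h6 + (W w ε - 2 * W w ε ^ 2) * h2)
  obtain ⟨⟨i, j, h1⟩, ⟨i', j', hij, h1'⟩⟩ := comb2 _ _ _ _ _ ε hε hS
  have hMM : ∀ i j, (M * M) i j = W w (e i 0 + e 0 j) + W w (e i 1 + e 1 j) + W w (e i 2 + e 2 j) := by
    intro i j
    rw [Matrix.mul_apply, Fin.sum_univ_three, W_add hw3, W_add hw3, W_add hw3]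
    simp only [← he]
  refine ⟨⟨i, j, ?_⟩, ⟨i', j', hij, ?_⟩⟩
  · rw [hMM, W_sum h2 hw]
    simp only [heE i, heE _ j]
    exact h1
  · rw [hMM]
    intro h
    rw [W_sum h2 hw] at h
    simp only [heE i', heE _ j'] at h
    exact h1' h

theorem dicho [Fintype F] (hF : Fintype.card F = 4) {M : Matrix (Fin 3) (Fin 3) F} (hM : Mᵀ * bar 2 M = 1)
    (h0 : ∃ i j, M i j = 0) : ∃ σ : Equiv.Perm (Fin 3), ∀ i j, i ≠ σ j → M i j = 0 := by
  obtain ⟨h2, -⟩ := exists_w hF
  have hc : ∀ x : F, x * x ^ 2 = 0 ∨ x * x ^ 2 = 1 := by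
    intro x
    by_cases hx : x = 0
    · left; simp [hx]
    · right
      have := FiniteField.pow_card_sub_one_eq_one x hx
      rw [hF] at this
      linear_combination this
  have hc0 : ∀ x : F, x ≠ 0 → x * x ^ 2 = 1 := by
    intro x hx
    rcases hc x with h | h
    · rcases mul_eq_zero.mp h with h | h
      · exact absurd h hx
      · exact absurd ((pow_eq_zero_iff (two_ne_zero)).mp h) hx
    · exact h
  have hcol : ∀ j, (∃ i, M i j = 0) → ∃ k, M k j ≠ 0 ∧ ∀ i, i ≠ k → M i j = 0 := by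
    intro j hj
    have he := entry hM j j
    rw [if_pos rfl] at he
    by_cases h0 : M 0 j = 0 <;> by_cases h1 : M 1 j = 0 <;> by_cases h2' : M 2 j = 0
    · rw [h0, h1, h2'] at he
      simp at he
    · exact ⟨2, h2', by intro i hi; fin_cases i; exacts [h0, h1, absurd rfl hi]⟩
    · exact ⟨1, h1, by intro i hi; fin_cases i; exacts [h0, absurd rfl hi, h2']⟩
    · rw [h0, hc0 _ h1, hc0 _ h2'] at he
      exfalso
      exact one_ne_zero (α := F) (by linear_combination h2 - he)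
    · exact ⟨0, h0, by intro i hi; fin_cases i; exacts [absurd rfl hi, h1, h2']⟩
    · rw [h1, hc0 _ h0, hc0 _ h2'] at he
      exfalso
      exact one_ne_zero (α := F) (by linear_combination h2 - he)
    · rw [h2', hc0 _ h0, hc0 _ h1] at he
      exfalso
      exact one_ne_zero (α := F) (by linear_combination h2 - he)
    · obtain ⟨i, hi⟩ := hj
      fin_cases i
      exacts [absurd hi h0, absurd hi h1, absurd hi h2']
  have hent : ∀ i j k, (∀ l, l ≠ k → M l i = 0) → i ≠ j → M k i * M k j ^ 2 = 0 := by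
    intro i j k hk hij
    have he := entry hM i j
    rw [if_neg hij] at he
    fin_cases k
    · rw [hk 1 (by decide), hk 2 (by decide)] at he
      simpa using he
    · rw [hk 0 (by decide), hk 2 (by decide)] at he
      simpa using he
    · rw [hk 0 (by decide), hk 1 (by decide)] at he
      simpa using he
  obtain ⟨i0, j0, hij0⟩ := h0
  obtain ⟨k0, hk0, hk0'⟩ := hcol j0 ⟨i0, hij0⟩
  have hall : ∀ j, ∃ k, M k j ≠ 0 ∧ ∀ i, i ≠ k → M i j = 0 := by
    intro j
    by_cases hj : j = j0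
    · rw [hj]; exact ⟨k0, hk0, hk0'⟩
    · refine hcol j ⟨k0, ?_⟩
      have := hent j0 j k0 hk0' (Ne.symm hj)
      rcases mul_eq_zero.mp this with h | h
      · exact absurd h hk0
      · exact (pow_eq_zero_iff (two_ne_zero)).mp h
  choose σ hσ hσ' using hall
  have hinj : Function.Injective σ := by
    intro i j hij
    by_contra hne
    have := hent i j (σ i) (hσ' i) hne
    rcases mul_eq_zero.mp this with h | h
    · exact hσ i h
    · rw [pow_eq_zero_iff (two_ne_zero), hij] at h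
      exact hσ j h
  refine ⟨Equiv.ofBijective σ (Finite.injective_iff_bijective.mp hinj), ?_⟩
  intro i j hij
  exact hσ' j i hij

/-- the monomial subgroup -/
def Mono (F : Type*) [Field F] : Subgroup (SU 3 F 2) where
  carrier := {M | ∃ σ : Equiv.Perm (Fin 3), ∀ i j, i ≠ σ j → ((M : SpecialLinearGroup (Fin 3) F) : Matrix (Fin 3) (Fin 3) F) i j = 0}
  one_mem' := ⟨1, fun i j hij => by
    show (1 : Matrix (Fin 3) (Fin 3) F) i j = 0
    exact Matrix.one_apply_ne hij⟩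
  mul_mem' := by
    rintro M N ⟨σ, hσ⟩ ⟨τ, hτ⟩
    refine ⟨σ * τ, fun i j hij => ?_⟩
    show (((M : SpecialLinearGroup (Fin 3) F) : Matrix (Fin 3) (Fin 3) F) * ((N : SpecialLinearGroup (Fin 3) F) : Matrix (Fin 3) (Fin 3) F)) i j = 0
    rw [Matrix.mul_apply]
    refine Finset.sum_eq_zero fun k _ => ?_
    by_cases hk : k = τ j
    · rw [hσ i k (by rw [hk]; exact hij), zero_mul]
    · rw [hτ k j hk, mul_zero]
  inv_mem' := by
    rintro M ⟨σ, hσ⟩
    have h1 : ((M : SpecialLinearGroup (Fin 3) F) : Matrix (Fin 3) (Fin 3) F) * (((M⁻¹ : SU 3 F 2) : SpecialLinearGroup (Fin 3) F) : Matrix (Fin 3) (Fin 3) F) = 1 := by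
      have : ((M * M⁻¹ : SU 3 F 2) : SpecialLinearGroup (Fin 3) F) = 1 := by rw [mul_inv_cancel]; rfl
      exact congrArg (fun x : SpecialLinearGroup (Fin 3) F => (x : Matrix (Fin 3) (Fin 3) F)) this
    have h2 : ∀ i j, ((M : SpecialLinearGroup (Fin 3) F) : Matrix (Fin 3) (Fin 3) F) (σ i) i *
        (((M⁻¹ : SU 3 F 2) : SpecialLinearGroup (Fin 3) F) : Matrix (Fin 3) (Fin 3) F) i j = (1 : Matrix (Fin 3) (Fin 3) F) (σ i) j := by
      intro i j
      have h3 := congrFun (congrFun h1 (σ i)) j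
      rw [Matrix.mul_apply, Finset.sum_eq_single i] at h3
      · exact h3
      · intro k _ hk
        rw [hσ (σ i) k (fun h => hk (σ.injective h).symm), zero_mul]
      · intro h; exact absurd (Finset.mem_univ _) h
    refine ⟨σ⁻¹, fun i j hij => ?_⟩
    have h3 := h2 i j
    rw [Matrix.one_apply_ne (fun h => hij (by rw [← h]; simp))] at h3
    refine (mul_eq_zero.mp h3).resolve_left fun h4 => ?_
    have h5 := h2 i (σ i)
    rw [h4, zero_mul, Matrix.one_apply_eq] at h5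
    exact zero_ne_one h5

end mat

open Matrix H7.UnitSU

/-- The subgroup lattice of PSU₃(2) (the solvable group of order 72, realised over the field with 4 elements) is not complemented: some subgroup H has no subgroup X with H ⊔ X = ⊤ and H ⊓ X = ⊥. -/
theorem result {F : Type*} [Field F] [Fintype F] (hF : Fintype.card F = 4) :
    ¬ ComplementedLattice (Subgroup (Cfsg.PSU 3 F 2)) := by
  classical
  have hF' : Fintype.card F = 2 ^ 2 := by rw [hF]; norm_num
  obtain ⟨h2, w, hw, hex⟩ := exists_w hF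
  have hw3 : w ^ 3 = 1 := by linear_combination (w - 1) * hw
  have hw0 : w ≠ 0 := by
    rintro rfl
    norm_num at hw3
  have hw1 : w ≠ 1 := by
    rintro rfl
    exact one_ne_zero (α := F) (by linear_combination hw - h2)
  intro hcl
  set π := QuotientGroup.mk' (Subgroup.center (SU 3 F 2)) with hπ
  have hsc : Subgroup.center (SU 3 F 2) ≤ Mono F := by
    intro z hz
    obtain ⟨c, hc⟩ := center_scalar hF' (by norm_num) hz
    refine ⟨1, fun i j hij => ?_⟩
    rw [hc]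
    exact Matrix.diagonal_apply_ne _ hij
  obtain ⟨X, hX⟩ := hcl.exists_isCompl ((Mono F).map π)
  have hmem : ∀ M : SU 3 F 2, π M ∈ (Mono F).map π → M ∈ Mono F := by
    rintro M ⟨N, hN, hNM⟩
    have : N⁻¹ * M ∈ Subgroup.center (SU 3 F 2) := by
      rw [← QuotientGroup.eq]
      exact hNM
    have h3 := (Mono F).mul_mem hN (hsc this)
    rwa [mul_inv_cancel_left] at h3
  have hsq : ∀ M : SU 3 F 2, M ∉ Mono F → M * M ∈ Mono F ∧ M * M ∉ Subgroup.center (SU 3 F 2) := by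
    intro M hM
    have hMu := (mem_SU_iff hF' (M : SpecialLinearGroup (Fin 3) F)).mp M.2
    have hne : ∀ i j, ((M : SpecialLinearGroup (Fin 3) F) : Matrix (Fin 3) (Fin 3) F) i j ≠ 0 := by
      intro i j h0
      exact hM (dicho hF hMu ⟨i, j, h0⟩)
    obtain ⟨h3, ⟨i, j, hij, h4⟩⟩ := sq_key hF hMu (M : SpecialLinearGroup (Fin 3) F).2 hne
    refine ⟨dicho hF ((mem_SU_iff hF' ((M * M : SU 3 F 2) : SpecialLinearGroup (Fin 3) F)).mp (M * M).2) h3, ?_⟩
    intro hz
    obtain ⟨c, hc⟩ := center_scalar hF' (by norm_num) hz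
    apply h4
    have h5 := congrFun (congrFun hc i) j
    rw [Matrix.diagonal_apply_ne _ hij] at h5
    exact h5
  have hXb : X = ⊥ := by
    rw [eq_bot_iff]
    intro x hx
    obtain ⟨M, rfl⟩ := QuotientGroup.mk'_surjective _ x
    have hin : π M ∈ (Mono F).map π → π M ∈ (⊥ : Subgroup (PSU 3 F 2)) := by
      intro h
      rw [← hX.inf_eq_bot]
      exact ⟨h, hx⟩
    by_cases hM : M ∈ Mono F
    · exact hin ⟨M, hM, rfl⟩
    · exfalso
      obtain ⟨h3, h4⟩ := hsq M hM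
      have h5 : π (M * M) ∈ (⊥ : Subgroup (PSU 3 F 2)) := by
        rw [← hX.inf_eq_bot]
        refine ⟨⟨_, h3, rfl⟩, ?_⟩
        rw [map_mul]
        exact X.mul_mem hx hx
      rw [Subgroup.mem_bot] at h5
      exact h4 ((QuotientGroup.eq_one_iff _).mp h5)
  have htop : (Mono F).map π = ⊤ := by
    have := hX.sup_eq_top
    rwa [hXb, sup_bot_eq] at this
  -- the Fourier matrix
  have hdet : (!![1, 1, 1; 1, w, w ^ 2; 1, w ^ 2, w] : Matrix (Fin 3) (Fin 3) F).det = 1 := by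
    rw [Matrix.det_fin_three]
    simp
    linear_combination -w * hw3 - hw + (2 * w ^ 2 - w) * h2
  obtain ⟨A, hA⟩ : ∃ A : SpecialLinearGroup (Fin 3) F, (A : Matrix (Fin 3) (Fin 3) F) = !![1, 1, 1; 1, w, w ^ 2; 1, w ^ 2, w] :=
    ⟨⟨_, hdet⟩, rfl⟩
  have hu : A ∈ SU 3 F 2 := by
    rw [mem_SU_iff hF', hA]
    ext i j
    rw [Matrix.mul_apply, Fin.sum_univ_three]
    fin_cases i <;> fin_cases j <;> simp [bar, Matrix.one_apply]
    · linear_combination h2
    · linear_combination w * hw3 + hw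
    · linear_combination w * hw3 + hw
    · linear_combination hw
    · linear_combination hw3 + (w ^ 3 + 1) * hw3 + h2
    · linear_combination (w ^ 2 + w) * hw3 + hw
    · linear_combination hw
    · linear_combination (w ^ 2 + w) * hw3 + hw
    · linear_combination hw3 + (w ^ 3 + 1) * hw3 + h2
  have hM := hmem ⟨_, hu⟩ (by rw [htop]; exact Subgroup.mem_top _)
  obtain ⟨σ, hσ⟩ := hM
  have hj : ∃ i : Fin 3, i ≠ σ 0 := by
    by_cases h : σ 0 = 0
    · exact ⟨1, by rw [h]; decide⟩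
    · exact ⟨0, Ne.symm h⟩
  obtain ⟨i, hi⟩ := hj
  have h6 := hσ i 0 hi
  change (A : Matrix (Fin 3) (Fin 3) F) i 0 = 0 at h6
  rw [hA] at h6
  fin_cases i <;> exact one_ne_zero h6

end Cfsg.Agent.S5908
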