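import Cfsg.Statements.S5909
import Cfsg.Agent.S5905

set_option autoImplicit false
open Cfsg
open scoped Pointwise

namespace Cfsg.Agent.S5909

open Cfsg.Agent.S5905 (stab closure_eq)

section
variable {Ω : Type*} [Fintype Ω] [DecidableEq Ω] {a b : ℕ} (f : Ω → Fin b)

theorem swap_mem (x y : Ω) (hxy : f x = f y) : Equiv.swap x y ∈ stab f := by
  have h1 : ∀ z, f (Equiv.swap x y z) = f z := by
    intro z
    by_cases hzx : z = x
    · subst hzx; rw [Equiv.swap_apply_left, hxy]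
    · by_cases hzy : z = y
      · subst hzy; rw [Equiv.swap_apply_right, hxy]
      · rw [Equiv.swap_apply_of_ne_of_ne hzx hzy]
  intro u v
  rw [h1, h1]

variable (hf : ∀ i : Fin b, Nat.card {x : Ω // f x = i} = a)
include hf

theorem fib_two (ha : 2 ≤ a) (i : Fin b) : ∃ x y : Ω, f x = i ∧ f y = i ∧ x ≠ y := by
  have h1 : 1 < Nat.card {x : Ω // f x = i} := by rw [hf]; omega
  obtain ⟨⟨x, hx⟩, ⟨y, hy⟩, hxy⟩ := (Finite.one_lt_card_iff_nontrivial.mp h1).exists_pair_ne
  exact ⟨x, y, hx, hy, fun h => hxy (Subtype.ext h)⟩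

theorem fib_three (ha : 3 ≤ a) (u : Ω) : ∃ x y : Ω, f x = f u ∧ f y = f u ∧ x ≠ y ∧ x ≠ u ∧ y ≠ u := by
  classical
  have h1 : 1 < Fintype.card {x : {x : Ω // f x = f u} // x ≠ ⟨u, rfl⟩} := by
    rw [Fintype.card_subtype_compl]
    simp only [Fintype.card_unique]
    rw [← Nat.card_eq_fintype_card, hf]
    omega
  obtain ⟨⟨⟨x, hx⟩, hx'⟩, ⟨⟨y, hy⟩, hy'⟩, hxy⟩ := Fintype.one_lt_card_iff.mp h1
  exact ⟨x, y, hx, hy, fun h => hxy (by subst h; rfl), fun h => hx' (Subtype.ext h), fun h => hy' (Subtype.ext h)⟩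

theorem exists_lift (σ : Equiv.Perm (Fin b)) : ∃ g ∈ stab f, ∀ x, f (g x) = σ (f x) := by
  obtain ⟨e⟩ : Nonempty (∀ i : Fin b, {x : Ω // f x = i} ≃ Fin a) := by
    refine ⟨fun i => ?_⟩
    haveI : Finite {x : Ω // f x = i} := inferInstance
    exact (Finite.card_eq.mp (by rw [hf, Nat.card_fin])).some
  let g : Equiv.Perm Ω := (Equiv.sigmaFiberEquiv f).symm.trans
    ((Equiv.sigmaCongr σ (fun i => (e i).trans (e (σ i)).symm)).trans (Equiv.sigmaFiberEquiv f))
  have hg : ∀ x, f (g x) = σ (f x) := by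
    intro x
    simp only [g, Equiv.trans_apply, Equiv.sigmaFiberEquiv, Equiv.coe_fn_symm_mk, Equiv.coe_fn_mk]
    exact ((e (σ (f x))).symm (e (f x) ⟨x, rfl⟩)).2
  refine ⟨g, ?_, hg⟩
  intro x y
  rw [hg, hg]
  exact σ.injective.eq_iff.symm

/-- even elements are transitive -/
theorem even_trans (ha : 2 ≤ a) (hb : 2 ≤ b) (x z : Ω) :
    ∃ g ∈ stab f ⊓ alternatingGroup Ω, g x = z := by
  obtain ⟨k, hk, hkf⟩ := exists_lift f hf (Equiv.swap (f x) (f z))
  have h1 : f (k x) = f z := by rw [hkf, Equiv.swap_apply_left]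
  set k' := Equiv.swap (k x) z * k with hk'
  have hk'm : k' ∈ stab f := (stab f).mul_mem (swap_mem f _ _ h1) hk
  have hk'x : k' x = z := by rw [hk', Equiv.Perm.mul_apply, Equiv.swap_apply_left]
  rcases Int.units_eq_one_or (Equiv.Perm.sign k') with h | h
  · exact ⟨k', ⟨hk'm, h⟩, hk'x⟩
  · haveI : Nontrivial (Fin b) := Fin.nontrivial_iff_two_le.mpr hb
    obtain ⟨i, hi⟩ := exists_ne (f z)
    obtain ⟨u, v, hu, hv, huv⟩ := fib_two f hf ha i
    refine ⟨Equiv.swap u v * k', ⟨(stab f).mul_mem (swap_mem f _ _ (by rw [hu, hv])) hk'm, ?_⟩, ?_⟩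
    · show Equiv.Perm.sign (Equiv.swap u v * k') = 1
      rw [map_mul, Equiv.Perm.sign_swap huv, h]; rfl
    · rw [Equiv.Perm.mul_apply, hk'x]
      apply Equiv.swap_apply_of_ne_of_ne
      · rintro rfl; exact hi hu.symm
      · rintro rfl; exact hi hv.symm

/-- even elements fixing a point are transitive outside its fibre -/
theorem even_trans2 (ha : 2 ≤ a) (hb : 2 ≤ b) (hab : 3 ≤ a ∨ 3 ≤ b) (x y z : Ω) (hxy : f x ≠ f y) (hxz : f x ≠ f z) :
    ∃ g ∈ stab f ⊓ alternatingGroup Ω, g x = x ∧ g y = z := by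
  obtain ⟨k, hk, hkf⟩ := exists_lift f hf (Equiv.swap (f y) (f z))
  have h1 : f (k x) = f x := by rw [hkf, Equiv.swap_apply_of_ne_of_ne hxy hxz]
  have h2 : f (k y) = f z := by rw [hkf, Equiv.swap_apply_left]
  set k' := Equiv.swap (k x) x * (Equiv.swap (k y) z * k) with hk'
  have hk'm : k' ∈ stab f := (stab f).mul_mem (swap_mem f _ _ h1) ((stab f).mul_mem (swap_mem f _ _ h2) hk)
  have hk'x : k' x = x := by
    rw [hk', Equiv.Perm.mul_apply, Equiv.Perm.mul_apply]
    rw [Equiv.swap_apply_of_ne_of_ne (a := k y) (b := z) (x := k x), Equiv.swap_apply_left]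
    · intro h; rw [h, h2] at h1; exact hxz h1.symm
    · intro h; rw [h] at h1; exact hxz h1.symm
  have hk'y : k' y = z := by
    rw [hk', Equiv.Perm.mul_apply, Equiv.Perm.mul_apply]
    rw [Equiv.swap_apply_left]
    apply Equiv.swap_apply_of_ne_of_ne
    · intro h; rw [← h] at h1; exact hxz h1.symm
    · intro h; rw [h] at hxz; exact hxz rfl
  rcases Int.units_eq_one_or (Equiv.Perm.sign k') with h | h
  · exact ⟨k', ⟨hk'm, h⟩, hk'x, hk'y⟩
  · -- a transposition fixing x and z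
    obtain ⟨u, v, huv, hne, hux, hvx, huz, hvz⟩ : ∃ u v : Ω, f u = f v ∧ u ≠ v ∧ u ≠ x ∧ v ≠ x ∧ u ≠ z ∧ v ≠ z := by
      rcases hab with h3 | h3
      · obtain ⟨u, v, hu, hv, huv, hux, hvx⟩ := fib_three f hf h3 x
        refine ⟨u, v, by rw [hu, hv], huv, hux, hvx, ?_, ?_⟩
        · rintro rfl; exact hxz hu.symm
        · rintro rfl; exact hxz hv.symm
      · obtain ⟨i, hi⟩ : ∃ i : Fin b, i ≠ f x ∧ i ≠ f z := by
          have : (({f x, f z} : Finset (Fin b))ᶜ).Nonempty := by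
            rw [← Finset.card_pos, Finset.card_compl, Fintype.card_fin]
            have := Finset.card_le_two (a := f x) (b := f z)
            omega
          obtain ⟨i, hi⟩ := this
          simp at hi
          exact ⟨i, hi⟩
        obtain ⟨u, v, hu, hv, huv⟩ := fib_two f hf ha i
        refine ⟨u, v, by rw [hu, hv], huv, ?_, ?_, ?_, ?_⟩
        · rintro rfl; exact hi.1 hu.symm
        · rintro rfl; exact hi.1 hv.symm
        · rintro rfl; exact hi.2 hu.symm
        · rintro rfl; exact hi.2 hv.symm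
    refine ⟨Equiv.swap u v * k', ⟨(stab f).mul_mem (swap_mem f _ _ huv) hk'm, ?_⟩, ?_, ?_⟩
    · show Equiv.Perm.sign (Equiv.swap u v * k') = 1
      rw [map_mul, Equiv.Perm.sign_swap hne, h]; rfl
    · rw [Equiv.Perm.mul_apply, hk'x]
      exact Equiv.swap_apply_of_ne_of_ne hux.symm hvx.symm
    · rw [Equiv.Perm.mul_apply, hk'y]
      exact Equiv.swap_apply_of_ne_of_ne huz.symm hvz.symm

theorem primitive (ha : 2 ≤ a) (hb : 2 ≤ b) (hab : 3 ≤ a ∨ 3 ≤ b) (K : Subgroup (Equiv.Perm Ω))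
    (hle : stab f ⊓ alternatingGroup Ω ≤ K) (hnle : ¬ K ≤ stab f) :
    MulAction.IsPreprimitive K Ω := by
  have htr : MulAction.IsPretransitive K Ω := ⟨fun x z => by
    obtain ⟨g, hg, hgx⟩ := even_trans f hf ha hb x z
    exact ⟨⟨g, hle hg⟩, hgx⟩⟩
  refine { isTrivialBlock_of_isBlock := ?_ }
  intro B hB
  rw [MulAction.isBlock_iff_smul_eq_smul_of_nonempty] at hB
  -- basic use of block property
  have hB1 : ∀ g ∈ K, ∀ x ∈ B, g x ∈ B → ∀ y ∈ B, g y ∈ B := by
    intro g hg x hx hgx y hy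
    have h1 := @hB ⟨g, hg⟩ 1 ⟨g x, ⟨x, hx, rfl⟩, by rw [one_smul]; exact hgx⟩
    rw [one_smul] at h1
    rw [← h1]
    exact ⟨y, hy, rfl⟩
  by_cases hsub : B.Subsingleton
  · exact Or.inl hsub
  right
  rw [Set.not_subsingleton_iff] at hsub
  obtain ⟨x, hx, y, hy, hxy⟩ := hsub
  by_cases hall : ∀ u ∈ B, ∀ v ∈ B, f u = f v
  · exfalso
    -- B is the fibre of x
    have hfull : ∀ z, f z = f x → z ∈ B := by
      intro z hz
      by_cases hzx : z = x
      · subst hzx; exact hx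
      by_cases hzy : z = y
      · subst hzy; exact hy
      -- three cycle x → y → z
      set c := Equiv.swap x z * Equiv.swap x y with hc
      have hcx : c x = y := by
        rw [hc, Equiv.Perm.mul_apply, Equiv.swap_apply_left]
        exact Equiv.swap_apply_of_ne_of_ne hxy.symm (Ne.symm hzy)
      have hcy : c y = z := by
        rw [hc, Equiv.Perm.mul_apply, Equiv.swap_apply_right, Equiv.swap_apply_left]
      have hcK : c ∈ K := by
        apply hle
        refine ⟨(stab f).mul_mem (swap_mem f _ _ hz.symm) (swap_mem f _ _ (hall x hx y hy)), ?_⟩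
        show Equiv.Perm.sign c = 1
        rw [hc, map_mul, Equiv.Perm.sign_swap (Ne.symm hzx), Equiv.Perm.sign_swap hxy]; rfl
      have := hB1 c hcK x hx (hcx ▸ hy) y hy
      rwa [hcy] at this
    apply hnle
    have key : ∀ k ∈ K, ∀ u v : Ω, f u = f v → f (k u) = f (k v) := by
      intro k hk u v huv
      obtain ⟨g, hg, hgx⟩ := even_trans f hf ha hb x u
      obtain ⟨h, hh, hhx⟩ := even_trans f hf ha hb x (k u)
      -- h⁻¹ k g maps x to x
      have h1 : (h⁻¹ * k * g) ∈ K := K.mul_mem (K.mul_mem (K.inv_mem (hle hh)) hk) (hle hg)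
      have h2 : (h⁻¹ * k * g) x = x := by
        rw [Equiv.Perm.mul_apply, Equiv.Perm.mul_apply, hgx, ← hhx]; simp
      have hgv : f (g⁻¹ v) = f x := by
        have := (hg.1 (g⁻¹ v) x).mpr (by simp [hgx, huv])
        exact this
      have h3 := hB1 _ h1 x hx (h2.symm ▸ hx) (g⁻¹ v) (hfull _ hgv)
      have h4 : (h⁻¹ * k * g) (g⁻¹ v) = h⁻¹ (k v) := by
        rw [Equiv.Perm.mul_apply, Equiv.Perm.mul_apply]; simp
      rw [h4] at h3
      have h5 := hall _ h3 x hx
      have h6 := (hh.1 (h⁻¹ (k v)) x).mp h5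
      rw [hhx] at h6
      simpa using h6.symm
    intro k hk u v
    refine ⟨key k hk u v, fun h => ?_⟩
    have := key k⁻¹ (K.inv_mem hk) _ _ h
    simpa using this
  · push Not at hall
    obtain ⟨u, hu, v, hv, huv⟩ := hall
    -- everything outside the fibre of u is in B
    have key : ∀ u ∈ B, ∀ v ∈ B, f u ≠ f v → ∀ z, f z ≠ f u → z ∈ B := by
      intro u hu v hv huv z hz
      obtain ⟨g, hg, hgu, hgv⟩ := even_trans2 f hf ha hb hab u v z huv hz.symm
      have := hB1 g (hle hg) u hu (hgu.symm ▸ hu) v hv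
      rwa [hgv] at this
    rw [Set.eq_univ_iff_forall]
    intro z
    by_cases hz : f z = f u
    · exact key v hv u hu huv.symm z (hz ▸ huv)
    · exact key u hu v hv huv z hz


theorem card_eq_mul : Fintype.card Ω = b * a := by
  rw [← Nat.card_eq_fintype_card, ← Nat.card_congr (Equiv.sigmaFiberEquiv f), Nat.card_sigma]
  rw [Finset.sum_congr rfl (fun i _ => hf i)]
  simp

/-- for blocks of size two, everything outside the stabilizer produces a three-cycle -/
theorem three_cycle_two (ha : a = 2) (hb : 5 ≤ b) (K : Subgroup (Equiv.Perm Ω))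
    (hle : stab f ⊓ alternatingGroup Ω ≤ K) (hnle : ¬ K ≤ stab f) :
    ∃ c ∈ K, c.IsThreeCycle := by
  have ha2 : 2 ≤ a := ha.ge
  obtain ⟨g, hgK, x, x', hxx', hgx⟩ : ∃ g ∈ K, ∃ x x' : Ω, f x = f x' ∧ f (g x) ≠ f (g x') := by
    obtain ⟨g, hgK, hg⟩ := SetLike.not_le_iff_exists.mp hnle
    by_contra hcon
    push Not at hcon
    apply hg
    intro x y
    refine ⟨fun h => hcon g hgK x y h, fun h => ?_⟩
    have := hcon g⁻¹ (K.inv_mem hgK) _ _ h
    simpa using this
  have hxne : x ≠ x' := by rintro rfl; exact hgx rfl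
  have hcompl : ∀ s : Finset (Fin b), s.card < b → ∃ i : Fin b, i ∉ s := by
    intro s hs
    by_contra hcon
    push Not at hcon
    have : s = Finset.univ := Finset.eq_univ_iff_forall.mpr hcon
    rw [this, Finset.card_univ, Fintype.card_fin] at hs
    exact lt_irrefl _ hs
  -- partner of u
  set u := g x with hu
  set v := g x' with hv
  have huv : u ≠ v := by intro h; rw [h] at hgx; exact hgx rfl
  obtain ⟨u', hu'f, hu'⟩ : ∃ u' : Ω, f u' = f u ∧ u' ≠ u := by
    obtain ⟨p, q, hp, hq, hpq⟩ := fib_two f hf ha2 (f u)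
    by_cases h : p = u
    · exact ⟨q, hq, fun h' => hpq (by rw [h, h'])⟩
    · exact ⟨p, hp, h⟩
  have hu'v : u' ≠ v := by rintro h; rw [h] at hu'f; exact hgx hu'f.symm
  obtain ⟨i, hi⟩ := hcompl {f x, f (g⁻¹ u')} (by
    have := Finset.card_le_two (a := f x) (b := f (g⁻¹ u')); omega)
  simp only [Finset.mem_insert, Finset.mem_singleton, not_or] at hi
  obtain ⟨y, y', hy, hy', hyy'⟩ := fib_two f hf ha2 i
  obtain ⟨l, hl⟩ := hcompl {f u, f v, f (g y), f (g y')} (by
    have := Finset.card_le_four (a := f u) (b := f v) (c := f (g y)) (d := f (g y')); omega)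
  simp only [Finset.mem_insert, Finset.mem_singleton, not_or] at hl
  obtain ⟨w, w', hw, hw', hww'⟩ := fib_two f hf ha2 l
  set σ₁ := Equiv.swap u v with hσ₁
  set σ₂ := Equiv.swap (g y) (g y') with hσ₂
  set τ₁ := Equiv.swap u u' with hτ₁
  set τ₂ := Equiv.swap w w' with hτ₂
  have hs : σ₁ * σ₂ ∈ K := by
    have h1 : Equiv.swap x x' * Equiv.swap y y' ∈ K := by
      apply hle
      refine ⟨(stab f).mul_mem (swap_mem f _ _ hxx') (swap_mem f _ _ (by rw [hy, hy'])), ?_⟩
      show Equiv.Perm.sign _ = 1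
      rw [map_mul, Equiv.Perm.sign_swap hxne, Equiv.Perm.sign_swap hyy']; rfl
    have h2 : σ₁ * σ₂ = g * (Equiv.swap x x' * Equiv.swap y y') * g⁻¹ := by
      rw [hσ₁, hσ₂, hu, hv, Equiv.swap_apply_apply, Equiv.swap_apply_apply]; group
    rw [h2]
    exact K.mul_mem (K.mul_mem hgK h1) (K.inv_mem hgK)
  have ht : τ₁ * τ₂ ∈ K := by
    apply hle
    refine ⟨(stab f).mul_mem (swap_mem f _ _ hu'f.symm) (swap_mem f _ _ (by rw [hw, hw'])), ?_⟩
    show Equiv.Perm.sign _ = 1
    rw [map_mul, Equiv.Perm.sign_swap hu'.symm, Equiv.Perm.sign_swap hww']; rfl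
  -- distinctness
  have hgy : ∀ z, f z = i → g z ≠ u ∧ g z ≠ v ∧ g z ≠ u' := by
    intro z hz
    refine ⟨fun h => ?_, fun h => ?_, fun h => ?_⟩
    · have : z = x := g.injective h
      exact hi.1 (by rw [← hz, this])
    · have : z = x' := g.injective h
      exact hi.1 (by rw [← hz, this, hxx'])
    · apply hi.2
      rw [← h, ← hz]; simp
  have hwne : ∀ z, f z = l → z ≠ u ∧ z ≠ v ∧ z ≠ u' ∧ z ≠ g y ∧ z ≠ g y' := by
    intro z hz
    refine ⟨fun h => hl.1 (by rw [← hz, h]), fun h => hl.2.1 (by rw [← hz, h]),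
      fun h => hl.1 (by rw [← hz, h, hu'f]), fun h => hl.2.2.1 (by rw [← hz, h]), fun h => hl.2.2.2 (by rw [← hz, h])⟩
  have hgne : g y ≠ g y' := fun h => hyy' (g.injective h)
  have comm : ∀ p q r s : Ω, p ≠ r → p ≠ s → q ≠ r → q ≠ s → Commute (Equiv.swap p q) (Equiv.swap r s) := by
    intro p q r s h1 h2 h3 h4
    apply Equiv.Perm.Disjoint.commute
    intro z
    by_cases hzp : z = p
    · subst hzp; right; exact Equiv.swap_apply_of_ne_of_ne h1 h2
    · by_cases hzq : z = q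
      · subst hzq; right; exact Equiv.swap_apply_of_ne_of_ne h3 h4
      · left; exact Equiv.swap_apply_of_ne_of_ne hzp hzq
  obtain ⟨hy1, hy2, hy3⟩ := hgy y hy
  obtain ⟨hy1', hy2', hy3'⟩ := hgy y' hy'
  obtain ⟨hw1, hw2, hw3, hw4, hw5⟩ := hwne w hw
  obtain ⟨hw1', hw2', hw3', hw4', hw5'⟩ := hwne w' hw'
  have c21 : Commute σ₂ τ₁ := comm _ _ _ _ hy1 hy3 hy1' hy3'
  have c11 : Commute σ₂ σ₁ := comm _ _ _ _ hy1 hy2 hy1' hy2'
  have c12 : Commute τ₂ σ₁ := comm _ _ _ _ hw1 hw2 hw1' hw2'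
  have c22 : Commute τ₂ τ₁ := comm _ _ _ _ hw1 hw3 hw1' hw3'
  have c23 : Commute τ₂ σ₂ := comm _ _ _ _ hw4 hw5 hw4' hw5'
  have e1 : (σ₁ * σ₂) * (τ₁ * τ₂) = (σ₁ * τ₁) * (σ₂ * τ₂) := by
    rw [mul_assoc, ← mul_assoc σ₂, c21.eq, mul_assoc, mul_assoc]
  have e2 : Commute (σ₂ * τ₂) (σ₁ * τ₁) :=
    Commute.mul_left (Commute.mul_right c11 c21) (Commute.mul_right c12 c22)
  have e3 : (σ₂ * τ₂) ^ 2 = 1 := by
    rw [pow_two, mul_assoc, ← mul_assoc τ₂, c23.eq, mul_assoc σ₂, Equiv.swap_mul_self, mul_one, Equiv.swap_mul_self]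
  have e4 : ((σ₁ * σ₂) * (τ₁ * τ₂)) ^ 2 = (σ₁ * τ₁) ^ 2 := by
    rw [e1, (e2.symm).mul_pow, e3, mul_one]
  have h3 : (σ₁ * τ₁).IsThreeCycle := Equiv.Perm.isThreeCycle_swap_mul_swap_same huv hu'.symm hu'v.symm
  refine ⟨(σ₁ * τ₁) ^ 2, ?_, ?_⟩
  · rw [← e4]; exact K.pow_mem (K.mul_mem hs ht) 2
  · rw [pow_two]; exact h3.isThreeCycle_sq

end

theorem orb_stab {G X : Type*} [Group G] [MulAction G X] (x : X) :
    Nat.card (MulAction.orbit G x) * Nat.card (MulAction.stabilizer G x) = Nat.card G := by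
  rw [← Subgroup.card_mul_index (MulAction.stabilizer G x), MulAction.index_stabilizer, mul_comm]
  rfl

theorem result {Ω : Type*} [Fintype Ω] [DecidableEq Ω] (h8 : Fintype.card Ω ≠ 8) (a b : ℕ) (ha : 2 ≤ a) (hb : 2 ≤ b)
    (f : Ω → Fin b) (hf : ∀ i : Fin b, Nat.card {x : Ω // f x = i} = a) :
    IsCoatom ((Subgroup.closure {g : Equiv.Perm Ω | ∀ x y : Ω, f x = f y ↔ f (g x) = f (g y)} ⊓ alternatingGroup Ω).subgroupOf (alternatingGroup Ω)) := by
  rw [closure_eq]
  set A := alternatingGroup Ω with hA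
  have hcardΩ := card_eq_mul f hf
  have hΩ4 : 4 ≤ Fintype.card Ω := by
    rw [hcardΩ]; calc 4 = 2 * 2 := rfl
      _ ≤ b * a := Nat.mul_le_mul hb ha
  haveI : Nontrivial Ω := Fintype.one_lt_card_iff_nontrivial.mp (by omega)
  have hprop : (stab f ⊓ A).subgroupOf A ≠ ⊤ := by
    intro htop
    rw [Subgroup.subgroupOf_eq_top] at htop
    obtain ⟨x, y, hx, hy, hxy⟩ := fib_two f hf ha ⟨0, by omega⟩
    obtain ⟨z, w, hz, hw, hzw⟩ := fib_two f hf ha ⟨1, by omega⟩
    have hyz : f y ≠ f z := by rw [hy, hz]; intro h; simp at h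
    have hzy' : z ≠ y := by rintro rfl; exact hyz rfl
    have hzx' : x ≠ z := by rintro rfl; rw [hx, ← hy] at hyz; exact hyz rfl
    have hc : Equiv.swap x z * Equiv.swap x y ∈ A := by
      show Equiv.Perm.sign _ = 1
      rw [map_mul, Equiv.Perm.sign_swap hxy, Equiv.Perm.sign_swap hzx']; rfl
    have h1 := ((htop hc).1 x y).mp (by rw [hx, hy])
    rw [Equiv.Perm.mul_apply, Equiv.Perm.mul_apply, Equiv.swap_apply_left, Equiv.swap_apply_right,
      Equiv.swap_apply_left, Equiv.swap_apply_of_ne_of_ne hxy.symm (Ne.symm hzy')] at h1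
    exact hyz h1
  refine ⟨hprop, ?_⟩
  intro K' hK'
  -- the overgroup in Perm
  have hle : stab f ⊓ A ≤ K'.map A.subtype := by
    intro g hg
    exact ⟨⟨g, hg.2⟩, hK'.le (show (⟨g, hg.2⟩ : A) ∈ (stab f ⊓ A).subgroupOf A from hg), rfl⟩
  have hnle : ¬ K'.map A.subtype ≤ stab f := by
    intro h
    apply hK'.not_ge
    intro x hx
    exact ⟨h ⟨x, hx, rfl⟩, x.2⟩
  have hfinal : A ≤ K'.map A.subtype → K' = ⊤ := by
    intro h
    rw [eq_top_iff]
    intro x _
    obtain ⟨y, hy, hyx⟩ := h x.2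
    have : y = x := Subtype.ext hyx
    exact this ▸ hy
  -- large cases
  have hlarge : (3 ≤ a ∨ 3 ≤ b) → (∃ c ∈ K'.map A.subtype, c.IsThreeCycle) → K' = ⊤ := by
    rintro hab ⟨c, hc, hc3⟩
    apply hfinal
    exact Equiv.Perm.alternatingGroup_le_of_isPreprimitive_of_isThreeCycle_mem
      (primitive f hf ha hb hab _ hle hnle) hc3 hc
  by_cases ha3 : 3 ≤ a
  · apply hlarge (Or.inl ha3)
    obtain ⟨x, -, hx, -, -⟩ := fib_two f hf ha ⟨0, by omega⟩
    obtain ⟨y, z, hy, hz, hyz, hyx, hzx⟩ := fib_three f hf ha3 x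
    refine ⟨Equiv.swap x y * Equiv.swap x z, hle ⟨(stab f).mul_mem (swap_mem f _ _ hy.symm) (swap_mem f _ _ hz.symm), ?_⟩,
      Equiv.Perm.isThreeCycle_swap_mul_swap_same hyx.symm hzx.symm hyz⟩
    show Equiv.Perm.sign _ = 1
    rw [map_mul, Equiv.Perm.sign_swap hyx.symm, Equiv.Perm.sign_swap hzx.symm]; rfl
  have ha2 : a = 2 := by omega
  subst ha2
  by_cases hb5 : 5 ≤ b
  · exact hlarge (Or.inr (by omega)) (three_cycle_two f hf rfl hb5 _ hle hnle)
  have hb4 : b ≠ 4 := by rintro rfl; exact h8 (by rw [hcardΩ])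
  -- transitivity on points
  have htr : MulAction.IsPretransitive (stab f ⊓ A : Subgroup (Equiv.Perm Ω)) Ω := ⟨fun x z => by
    obtain ⟨g, hg, hgx⟩ := even_trans f hf le_rfl hb x z
    exact ⟨⟨g, hg⟩, hgx⟩⟩
  obtain ⟨x, -, hx, -, -⟩ := fib_two f hf ha ⟨0, by omega⟩
  have horb : Fintype.card Ω * Nat.card (MulAction.stabilizer (stab f ⊓ A : Subgroup (Equiv.Perm Ω)) x) =
      Nat.card (stab f ⊓ A : Subgroup (Equiv.Perm Ω)) := by
    rw [← orb_stab (G := (stab f ⊓ A : Subgroup (Equiv.Perm Ω))) x,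
      MulAction.orbit_eq_univ, Nat.card_univ, Nat.card_eq_fintype_card (α := Ω)]
  have hidx : ((stab f ⊓ A).subgroupOf A).index * Nat.card (stab f ⊓ A : Subgroup (Equiv.Perm Ω)) = Nat.card A := by
    rw [← Nat.card_congr (Subgroup.subgroupOfEquivOfLe (inf_le_right : stab f ⊓ A ≤ A)).toEquiv]
    exact Subgroup.index_mul_card _
  have hAcard : 2 * Nat.card A = (Fintype.card Ω).factorial := by
    rw [Nat.card_eq_fintype_card, ← Fintype.card_perm]; exact two_mul_card_alternatingGroup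
  have hdvd : K'.index ∣ ((stab f ⊓ A).subgroupOf A).index := Subgroup.index_dvd_of_le hK'.le
  have hne : K'.index ≠ ((stab f ⊓ A).subgroupOf A).index := by
    intro h
    have h1 := Subgroup.relIndex_mul_index hK'.le
    rw [← h] at h1
    have h2 : K'.index ≠ 0 := Subgroup.index_ne_zero_of_finite
    have h3 : ((stab f ⊓ A).subgroupOf A).relIndex K' = 1 := by
      exact Nat.eq_of_mul_eq_mul_right (Nat.pos_of_ne_zero h2) (by rw [h1, one_mul])
    rw [Subgroup.relIndex_eq_one] at h3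
    exact hK'.not_ge h3
  have hb23 : b = 2 ∨ b = 3 := by omega
  rcases hb23 with rfl | rfl
  · -- degree 4
    norm_num at hcardΩ
    rw [hcardΩ] at horb hAcard
    have hf4 : Nat.factorial 4 = 24 := rfl
    rw [hf4] at hAcard
    have hA12 : Nat.card A = 12 := by omega
    rw [hA12, ← horb] at hidx
    have h3 : ((stab f ⊓ A).subgroupOf A).index ∣ 3 := by
      refine ⟨Nat.card (MulAction.stabilizer (stab f ⊓ A : Subgroup (Equiv.Perm Ω)) x), ?_⟩
      have : 4 * (((stab f ⊓ A).subgroupOf A).index * Nat.card (MulAction.stabilizer (stab f ⊓ A : Subgroup (Equiv.Perm Ω)) x)) = 4 * 3 := by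
        rw [← mul_assoc, mul_comm 4, mul_assoc, hidx]
      omega
    have h4 := (Nat.dvd_prime Nat.prime_three).mp h3
    have h5 := (Nat.dvd_prime Nat.prime_three).mp (hdvd.trans h3)
    rw [← Subgroup.index_eq_one]
    have h6 : ((stab f ⊓ A).subgroupOf A).index ≠ 1 := fun h => hprop (Subgroup.index_eq_one.mp h)
    omega
  · -- degree 6
    norm_num at hcardΩ
    rw [hcardΩ] at horb hAcard
    have hf6 : Nat.factorial 6 = 720 := rfl
    rw [hf6] at hAcard
    have hA360 : Nat.card A = 360 := by omega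
    -- stabilizer of x is transitive on the 4 points outside the fibre
    obtain ⟨y, -, hy, -, -⟩ := fib_two f hf ha ⟨1, by omega⟩
    have hxy : f x ≠ f y := by rw [hx, hy]; intro h; simp at h
    have horb2 : MulAction.orbit (MulAction.stabilizer (stab f ⊓ A : Subgroup (Equiv.Perm Ω)) x) y = {z | f z ≠ f x} := by
      ext z
      constructor
      · rintro ⟨⟨⟨g, hg⟩, hgx⟩, rfl⟩
        show f (g y) ≠ f x
        have hgx' : g x = x := hgx
        rw [← hgx']
        intro h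
        exact hxy ((hg.1 y x).mpr h).symm
      · intro hz
        obtain ⟨g, hg, hgx, hgy⟩ := even_trans2 f hf ha hb (Or.inr le_rfl) x y z hxy (Ne.symm hz)
        exact ⟨⟨⟨g, hg⟩, hgx⟩, hgy⟩
    have hcard4 : Nat.card {z : Ω // f z ≠ f x} = 4 := by
      have h1 := Fintype.card_subtype_compl (fun z => f z = f x)
      rw [← Nat.card_eq_fintype_card, ← Nat.card_eq_fintype_card (α := {z // f z = f x}), hf, hcardΩ] at h1
      exact h1
    have horb3 := orb_stab (G := (MulAction.stabilizer (stab f ⊓ A : Subgroup (Equiv.Perm Ω)) x)) y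
    rw [horb2] at horb3
    have hcard4' : Nat.card ({z | f z ≠ f x} : Set Ω) = 4 := hcard4
    rw [hcard4'] at horb3
    rw [hA360, ← horb, ← horb3] at hidx
    set t := Nat.card (MulAction.stabilizer (MulAction.stabilizer (stab f ⊓ A : Subgroup (Equiv.Perm Ω)) x) y)
    have h3 : ((stab f ⊓ A).subgroupOf A).index ∣ 15 := by
      refine ⟨t, ?_⟩
      have : 24 * (((stab f ⊓ A).subgroupOf A).index * t) = 24 * 15 := by
        rw [← mul_assoc, mul_comm 24, mul_assoc]
        have : 24 * t = 6 * (4 * t) := by ring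
        rw [this, hidx]
      omega
    have h5 : K'.index ∣ 15 := hdvd.trans h3
    by_contra hne1
    have hi1 : K'.index ≠ 1 := fun h => hne1 (Subgroup.index_eq_one.mp h)
    have hi15 : K'.index ≠ 15 := by
      intro h
      rw [h] at hdvd hne
      exact hne (Nat.dvd_antisymm hdvd h3)
    have hi35 : K'.index ≤ 5 := by
      have h6 : K'.index ∈ Nat.divisors 15 := Nat.mem_divisors.mpr ⟨h5, by norm_num⟩
      have h7 : Nat.divisors 15 = {1, 3, 5, 15} := by decide
      rw [h7] at h6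
      simp only [Finset.mem_insert, Finset.mem_singleton] at h6
      omega
    haveI : IsSimpleGroup A := alternatingGroup.isSimpleGroup (by rw [Nat.card_eq_fintype_card]; omega)
    have hcore : K'.normalCore = ⊥ := by
      rcases (inferInstance : K'.normalCore.Normal).eq_bot_or_eq_top with h | h
      · exact h
      · exact absurd (top_le_iff.mp (h ▸ K'.normalCore_le)) hne1
    have hinj : Function.Injective (MulAction.toPermHom A (A ⧸ K')) := by
      rw [← MonoidHom.ker_eq_bot_iff, ← Subgroup.normalCore_eq_ker, hcore]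
    have hcard := Nat.card_le_card_of_injective _ hinj
    rw [Nat.card_perm, hA360] at hcard
    have h6 : Nat.card (A ⧸ K') = K'.index := rfl
    rw [h6] at hcard
    have h7 : (K'.index).factorial ≤ (5).factorial := Nat.factorial_le hi35
    norm_num [Nat.factorial] at h7
    omega

end Cfsg.Agent.S5909
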