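import Cfsg.Statements.S5910
-- import your own Cfsg.Agent.* helpers here
import Mathlib

set_option autoImplicit false
open Cfsg

namespace Cfsg.Agent.S5910

abbrev A := ZMod 2 × ZMod 2

abbrev V := A × ZMod 2

theorem perm_affine : ∀ π : Equiv.Perm A, ∀ x y z : A, π (x + y + z) = π x + π y + π z := by
  decide

theorem eps_affine : ∀ σ : A → Equiv.Perm (ZMod 2), (∏ a, Equiv.Perm.sign (σ a)) = 1 →
    ∀ (x y z : A) (a b c : ZMod 2), σ (x + y + z) (a + b + c) = σ x a + σ y b + σ z c := by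
  intro σ h x y z a b c
  have h1 : ∀ (s : Equiv.Perm (ZMod 2)) (t : ZMod 2), s t = t + s 0 := by decide
  have h2 : ∀ (s : Equiv.Perm (ZMod 2)), Equiv.Perm.sign s = if s 0 = 0 then 1 else -1 := by decide
  have h3 : ∀ ε : A → ZMod 2, (∏ a, (if ε a = 0 then (1 : ℤˣ) else -1)) = 1 →
      ∀ x y z : A, ε (x + y + z) = ε x + ε y + ε z := by decide
  have h4 : (∏ a, (if (fun a => σ a 0) a = 0 then (1 : ℤˣ) else -1)) = 1 := by
    refine Eq.trans ?_ h
    exact Finset.prod_congr rfl fun a _ => (h2 (σ a)).symm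
  have h5 : σ (x + y + z) 0 = σ x 0 + σ y 0 + σ z 0 := h3 (fun a => σ a 0) h4 x y z
  rw [h1 (σ (x + y + z)), h1 (σ x), h1 (σ y), h1 (σ z), h5]
  ring

/-- affine permutations -/
def Aff : Subgroup (Equiv.Perm V) where
  carrier := {g | ∀ x y z : V, g (x + y + z) = g x + g y + g z}
  one_mem' := fun _ _ _ => rfl
  mul_mem' := by
    intro g h hg hh x y z
    simp only [Set.mem_setOf_eq, Equiv.Perm.mul_apply] at *
    rw [hh, hg]
  inv_mem' := by
    intro g hg x y z
    rw [Equiv.Perm.inv_eq_iff_eq, hg]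
    simp

theorem key (g : Equiv.Perm V) (hg : ∀ x y : V, x.1 = y.1 ↔ (g x).1 = (g y).1)
    (hs : Equiv.Perm.sign g = 1) : g ∈ Aff := by
  classical
  have hπ : Function.Injective (fun a : A => (g (a, 0)).1) := by
    intro a b h
    exact (hg (a, 0) (b, 0)).mpr h
  set π : Equiv.Perm A := Equiv.ofBijective _ (Finite.injective_iff_bijective.mp hπ) with hπd
  have hπ1 : ∀ x : V, (g x).1 = π x.1 := by
    intro x
    exact (hg x (x.1, 0)).mp rfl
  have hσ : ∀ a : A, Function.Injective (fun b : ZMod 2 => (g (a, b)).2) := by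
    intro a b c h
    have : g (a, b) = g (a, c) := Prod.ext ((hg _ _).mp rfl) h
    have := g.injective this
    exact (Prod.ext_iff.mp this).2
  set σ : A → Equiv.Perm (ZMod 2) := fun a => Equiv.ofBijective _ (Finite.injective_iff_bijective.mp (hσ a)) with hσd
  have hgeq : g = (Equiv.prodCongrLeft (fun _ : ZMod 2 => π) : Equiv.Perm V) * Equiv.prodCongrRight σ := by
    refine Equiv.ext fun x => Prod.ext ?_ ?_
    · rw [Equiv.Perm.mul_apply, hπ1]
      rfl
    · rfl
  have hsg : (∏ a, Equiv.Perm.sign (σ a)) = 1 := by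
    rw [hgeq, Equiv.Perm.sign_mul, Equiv.Perm.sign_prodCongrLeft, Equiv.Perm.sign_prodCongrRight] at hs
    have : (∏ _k : ZMod 2, Equiv.Perm.sign π) = 1 := by
      rw [Finset.prod_const, Finset.card_univ, ZMod.card]
      exact Int.units_sq _
    rwa [this, one_mul] at hs
  intro x y z
  rw [hgeq]
  obtain ⟨x, a⟩ := x
  obtain ⟨y, b⟩ := y
  obtain ⟨z, c⟩ := z
  refine Prod.ext ?_ ?_
  · exact perm_affine π x y z
  · exact eps_affine σ hsg x y z a b c

def s0 : Equiv.Perm V := Equiv.swap ((1, 0), 0) ((0, 0), 1) * Equiv.swap ((1, 1), 0) ((0, 1), 1)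

theorem s0_mem : s0 ∈ Aff := by
  show ∀ x y z : V, s0 (x + y + z) = s0 x + s0 y + s0 z
  decide

theorem s0_sign : Equiv.Perm.sign s0 = 1 := by
  rw [s0, Equiv.Perm.sign_mul, Equiv.Perm.sign_swap (by decide), Equiv.Perm.sign_swap (by decide)]
  rfl

def s1 : Equiv.Perm V := Equiv.swap ((1, 0), 0) ((0, 0), 1) * Equiv.swap ((1, 0), 0) ((0, 1), 1)

theorem s1_nmem : s1 ∉ Aff := by
  intro h
  have h : ∀ x y z : V, s1 (x + y + z) = s1 x + s1 y + s1 z := h
  revert h
  decide

theorem s1_sign : Equiv.Perm.sign s1 = 1 := by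
  rw [s1, Equiv.Perm.sign_mul, Equiv.Perm.sign_swap (by decide), Equiv.Perm.sign_swap (by decide)]
  rfl

/-- Let Ω be a set with 8 elements and f : Ω → Fin 4 a labelling whose four fibres all have size 2 (a partition of the 8 points into 4 pairs). Then the group of even permutations preserving this partition, (S₂ ≀ S₄) ∩ A₈, is not a maximal subgroup of the alternating group A₈ (it lies in a subgroup isomorphic to the affine group AGL₃(2)). -/
theorem result {Ω : Type*} [Fintype Ω] [DecidableEq Ω] (h8 : Fintype.card Ω = 8)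
    (f : Ω → Fin 4) (hf : ∀ i : Fin 4, Nat.card {x : Ω // f x = i} = 2) :
    ¬ IsCoatom ((Subgroup.closure {g : Equiv.Perm Ω | ∀ x y : Ω, f x = f y ↔ f (g x) = f (g y)} ⊓ alternatingGroup Ω).subgroupOf (alternatingGroup Ω)) := by
  classical
  have hcl : ∀ g ∈ Subgroup.closure {g : Equiv.Perm Ω | ∀ x y : Ω, f x = f y ↔ f (g x) = f (g y)},
      ∀ x y : Ω, f x = f y ↔ f (g x) = f (g y) := by
    intro g hg
    induction hg using Subgroup.closure_induction with
    | mem g hg => exact hg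
    | one => intro x y; rfl
    | mul g h _ _ hg hh => intro x y; rw [hh x y, hg (h x) (h y)]; rfl
    | inv g _ hg => intro x y; rw [hg (g⁻¹ x) (g⁻¹ y)]; simp
  have e4 : Fin 4 ≃ A := Fintype.equivOfCardEq (by decide)
  have hfib : ∀ i : Fin 4, Nonempty ({x : Ω // f x = i} ≃ ZMod 2) := by
    intro i
    refine ⟨Fintype.equivOfCardEq ?_⟩
    rw [← Nat.card_eq_fintype_card, hf i, ZMod.card]
  have ef : ∀ i : Fin 4, {x : Ω // f x = i} ≃ ZMod 2 := fun i => (hfib i).some
  obtain ⟨e, he⟩ : ∃ e : Ω ≃ V, ∀ x, (e x).1 = e4 (f x) := by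
    refine ⟨(Equiv.sigmaFiberEquiv f).symm.trans ((Equiv.sigmaCongrRight fun i => (ef i)).trans
      ((Equiv.sigmaEquivProd (Fin 4) (ZMod 2)).trans (Equiv.prodCongr e4 (Equiv.refl _)))), ?_⟩
    intro x
    rfl
  have hfe : ∀ x y : Ω, f x = f y ↔ (e x).1 = (e y).1 := by
    intro x y
    rw [he, he, e4.apply_eq_iff_eq]
  let φ : Equiv.Perm Ω ≃* Equiv.Perm V := e.permCongrHom
  have hφ : ∀ (g : Equiv.Perm Ω) (v : V), φ g v = e (g (e.symm v)) := fun _ _ => rfl
  have hφs : ∀ g : Equiv.Perm Ω, Equiv.Perm.sign (φ g) = Equiv.Perm.sign g := fun g => Equiv.Perm.sign_permCongr e g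
  intro hco
  have hle : (Subgroup.closure {g : Equiv.Perm Ω | ∀ x y : Ω, f x = f y ↔ f (g x) = f (g y)} ⊓ alternatingGroup Ω).subgroupOf (alternatingGroup Ω)
      ≤ (Subgroup.comap φ.toMonoidHom Aff).subgroupOf (alternatingGroup Ω) := by
    intro g hg
    rw [Subgroup.mem_subgroupOf, Subgroup.mem_inf] at hg
    rw [Subgroup.mem_subgroupOf, Subgroup.mem_comap]
    refine key (φ g) ?_ ?_
    · intro x y
      have := hcl g hg.1 (e.symm x) (e.symm y)
      rw [hfe, hfe, Equiv.apply_symm_apply, Equiv.apply_symm_apply] at this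
      exact this
    · rw [hφs]
      exact hg.2
  rcases hle.eq_or_lt with heq | hlt
  · have hs : Equiv.Perm.sign (φ.symm s0) = 1 := by
      rw [← hφs, MulEquiv.apply_symm_apply, s0_sign]
    have hm : (⟨φ.symm s0, hs⟩ : alternatingGroup Ω) ∈ (Subgroup.comap φ.toMonoidHom Aff).subgroupOf (alternatingGroup Ω) := by
      rw [Subgroup.mem_subgroupOf, Subgroup.mem_comap]
      show φ (φ.symm s0) ∈ Aff
      rw [MulEquiv.apply_symm_apply]
      exact s0_mem
    rw [← heq, Subgroup.mem_subgroupOf, Subgroup.mem_inf] at hm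
    have h1 := hcl _ hm.1 (e.symm ((0, 0), 0)) (e.symm ((0, 0), 1))
    rw [hfe, hfe, Equiv.apply_symm_apply, Equiv.apply_symm_apply] at h1
    have h2 : ∀ v, e ((φ.symm s0 : Equiv.Perm Ω) (e.symm v)) = s0 v := by
      intro v
      rw [← hφ, MulEquiv.apply_symm_apply]
    rw [h2, h2] at h1
    revert h1
    decide
  · have htop := hco.2 _ hlt
    have hs : Equiv.Perm.sign (φ.symm s1) = 1 := by
      rw [← hφs, MulEquiv.apply_symm_apply, s1_sign]
    have hm : (⟨φ.symm s1, hs⟩ : alternatingGroup Ω) ∈ (Subgroup.comap φ.toMonoidHom Aff).subgroupOf (alternatingGroup Ω) := by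
      rw [htop]; exact Subgroup.mem_top _
    rw [Subgroup.mem_subgroupOf, Subgroup.mem_comap] at hm
    have hm : φ (φ.symm s1) ∈ Aff := hm
    rw [MulEquiv.apply_symm_apply] at hm
    exact s1_nmem hm

end Cfsg.Agent.S5910
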