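import Cfsg.Statements.S5911
import Cfsg.Agent.Lib.H98.PermIndex2

set_option autoImplicit false
open Cfsg

namespace Cfsg.Agent.S5911

theorem of_le {Ω : Type*} [Fintype Ω] [DecidableEq Ω] (H : Subgroup (Equiv.Perm Ω)) (hH : H.index = Fintype.card Ω)
    (x : Ω) (hle : H ≤ MulAction.stabilizer (Equiv.Perm Ω) x) : H = MulAction.stabilizer (Equiv.Perm Ω) x := by
  apply Subgroup.eq_of_le_of_card_ge hle
  have h1 := H.card_mul_index
  have h2 := (MulAction.stabilizer (Equiv.Perm Ω) x).card_mul_index
  have hpos : 0 < Fintype.card Ω := Fintype.card_pos_iff.mpr ⟨x⟩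
  rw [MulAction.index_stabilizer_of_transitive, Nat.card_eq_fintype_card (α := Ω)] at h2
  rw [hH, ← h2] at h1
  exact (Nat.eq_of_mul_eq_mul_right hpos h1).ge

theorem result {Ω : Type*} [Fintype Ω] [DecidableEq Ω] (h6 : Fintype.card Ω ≠ 6)
    (H : Subgroup (Equiv.Perm Ω)) (hH : H.index = Fintype.card Ω) :
    ∃ x : Ω, H = MulAction.stabilizer (Equiv.Perm Ω) x := by
  classical
  by_cases h5 : 5 ≤ Fintype.card Ω
  · exact H98.PermIndex2.eq_stab h5 h6 H hH
  have h0 : Fintype.card Ω ≠ 0 := by
    rw [← hH]; exact Subgroup.index_ne_zero_of_finite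
  -- it is enough to find a fixed point
  suffices h : ∃ x : Ω, ∀ g ∈ H, g x = x by
    obtain ⟨x, hx⟩ := h
    exact ⟨x, of_le H hH x hx⟩
  have hcard : Nat.card H * Fintype.card Ω = (Fintype.card Ω).factorial := by
    rw [← hH, H.card_mul_index, Nat.card_perm, Nat.card_eq_fintype_card]; rw [hH]
  obtain ⟨x₀⟩ : Nonempty Ω := Fintype.card_pos_iff.mp (by omega)
  have hn : Fintype.card Ω = 1 ∨ Fintype.card Ω = 2 ∨ Fintype.card Ω = 3 ∨ Fintype.card Ω = 4 := by omega
  rcases hn with hn | hn | hn | hn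
  · haveI : Subsingleton Ω := Fintype.card_le_one_iff_subsingleton.mp (by omega)
    exact ⟨x₀, fun g _ => Subsingleton.elim _ _⟩
  · rw [hn] at hcard
    have h1 : Nat.card H = 1 := by
      have : (2 : ℕ).factorial = 2 := rfl
      omega
    have h2 : H = ⊥ := Subgroup.card_eq_one.mp h1
    refine ⟨x₀, fun g hg => ?_⟩
    rw [h2, Subgroup.mem_bot] at hg
    rw [hg]; rfl
  · rw [hn] at hcard
    have h1 : Nat.card H = 2 := by
      have : (3 : ℕ).factorial = 6 := rfl
      omega
    haveI : Fact (Nat.Prime 2) := ⟨Nat.prime_two⟩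
    have hp : IsPGroup 2 H := IsPGroup.of_card (n := 1) (by rw [h1, pow_one])
    obtain ⟨x, hx⟩ := hp.nonempty_fixed_point_of_prime_not_dvd_card Ω (by
      rw [Nat.card_eq_fintype_card, hn]; norm_num)
    exact ⟨x, fun g hg => hx ⟨g, hg⟩⟩
  · rw [hn] at hcard
    have h1 : Nat.card H = 6 := by
      have : (4 : ℕ).factorial = 24 := rfl
      omega
    haveI : Fact (Nat.Prime 3) := ⟨Nat.prime_three⟩
    obtain ⟨P⟩ : Nonempty (Sylow 3 H) := inferInstance
    have hP : Nat.card P = 3 := by
      rw [P.card_eq_multiplicity, h1]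
      have : (6 : ℕ).factorization 3 = 1 := by
        rw [show (6 : ℕ) = 3 ^ 1 * 2 by norm_num, Nat.factorization_mul (by norm_num) (by norm_num)]
        rw [Nat.Prime.factorization_pow (by norm_num)]
        simp [Nat.factorization_eq_zero_of_not_dvd (show ¬ 3 ∣ 2 by norm_num)]
      rw [this, pow_one]
    have hP' : Nat.card (P : Subgroup H) = 3 := hP
    have hPidx : (P : Subgroup H).index = 2 := by
      have := (P : Subgroup H).card_mul_index
      rw [hP', h1] at this; omega
    haveI hPn : (P : Subgroup H).Normal := Subgroup.normal_of_index_eq_two hPidx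
    have hmod := P.isPGroup'.card_modEq_card_fixedPoints Ω
    -- the number of fixed points is at most ... not 4
    have hne : ∃ y : Ω, y ∉ MulAction.fixedPoints P Ω := by
      by_contra hcon
      push Not at hcon
      have : (P : Subgroup H) = ⊥ := by
        rw [eq_bot_iff]
        intro g hg
        rw [Subgroup.mem_bot]
        apply Subtype.ext
        ext y
        exact hcon y ⟨g, hg⟩
      rw [this] at hP'
      simp at hP'
    obtain ⟨y, hy⟩ := hne
    have hlt : Nat.card (MulAction.fixedPoints P Ω) < 4 := by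
      have h3 : (MulAction.fixedPoints P Ω).ncard < (Set.univ : Set Ω).ncard :=
        Set.ncard_lt_ncard ⟨Set.subset_univ _, fun h => hy (h (Set.mem_univ y))⟩
      rw [Set.ncard_univ, Nat.card_eq_fintype_card, hn] at h3
      exact h3
    rw [Nat.card_eq_fintype_card, hn] at hmod
    unfold Nat.ModEq at hmod
    have hone : Nat.card (MulAction.fixedPoints P Ω) = 1 := by omega
    obtain ⟨⟨x, hx⟩, huniq⟩ := (Nat.card_eq_one_iff_exists).mp hone
    refine ⟨x, fun g hg => ?_⟩
    have h4 : g x ∈ MulAction.fixedPoints P Ω := by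
      rintro ⟨p, hp⟩
      have h5 : (⟨g, hg⟩ : H)⁻¹ * p * ⟨g, hg⟩ ∈ (P : Subgroup H) := by
        have := hPn.conj_mem p hp (⟨g, hg⟩ : H)⁻¹
        simpa using this
      have h6 := hx ⟨_, h5⟩
      have h7 : (g⁻¹ * p.1 * g) x = x := h6
      show p.1 (g x) = g x
      have h8 := congrArg g h7
      simpa [Equiv.Perm.mul_apply] using h8
    have := huniq ⟨g x, h4⟩
    exact congrArg Subtype.val this

end Cfsg.Agent.S5911
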