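import Cfsg.Statements.S5912
import Cfsg.Agent.Lib.H98.PermSix

set_option autoImplicit false
open Cfsg

namespace Cfsg.Agent.S5912

theorem result {Ω : Type*} [Fintype Ω] [DecidableEq Ω] (h6 : Fintype.card Ω = 6) :
    ∃ H₁ H₂ : Subgroup (Equiv.Perm Ω), H₁.index = 6 ∧ H₂.index = 6 ∧
      (¬ ∃ g : Equiv.Perm Ω, Subgroup.map (MulAut.conj g).toMonoidHom H₁ = H₂) ∧
      ∀ H : Subgroup (Equiv.Perm Ω), H.index = 6 →
        ∃ g : Equiv.Perm Ω, Subgroup.map (MulAut.conj g).toMonoidHom H₁ = H ∨ Subgroup.map (MulAut.conj g).toMonoidHom H₂ = H := by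
  classical
  obtain ⟨a⟩ : Nonempty Ω := Fintype.card_pos_iff.mp (by omega)
  obtain ⟨K, hK, hKn⟩ := H98.PermSix.exists_transitive h6
  refine ⟨MulAction.stabilizer (Equiv.Perm Ω) a, K, ?_, ?_, ?_, ?_⟩
  · rw [MulAction.index_stabilizer_of_transitive, Nat.card_eq_fintype_card, h6]
  · rw [hK, h6]
  · rintro ⟨g, hg⟩
    rw [← MulAction.stabilizer_smul_eq_stabilizer_map_conj] at hg
    exact hKn _ hg.symm
  · intro H hH
    by_cases hs : ∃ b : Ω, H = MulAction.stabilizer (Equiv.Perm Ω) b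
    · obtain ⟨b, rfl⟩ := hs
      refine ⟨Equiv.swap a b, Or.inl ?_⟩
      rw [← MulAction.stabilizer_smul_eq_stabilizer_map_conj]
      simp
    · push Not at hs
      obtain ⟨k, hk⟩ := H98.PermIndex2.conj_of_not_stab h6 H K (by rw [hH, h6]) hK hs hKn
      refine ⟨k⁻¹, Or.inr ?_⟩
      ext g
      rw [hk]
      constructor
      · rintro ⟨y, hy, rfl⟩
        simpa [mul_assoc] using hy
      · intro h
        exact ⟨k * g * k⁻¹, h, by simp [mul_assoc]⟩

end Cfsg.Agent.S5912
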