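import Cfsg.Statements.S5913

set_option autoImplicit false
open Cfsg

namespace Cfsg.Agent.S5913

theorem result {S : Type*} [Group S] [IsSimpleGroup S] (hS : ¬ IsMulCommutative S) (n : ℕ)
    (N : Subgroup (Fin n → S)) [N.Normal] :
    ∃ T : Finset (Fin n), ∀ x : Fin n → S, x ∈ N ↔ ∀ i, i ∉ T → x i = 1 := by
  classical
  -- S has trivial centre
  have hcen : Subgroup.center S = ⊥ := by
    rcases (inferInstance : (Subgroup.center S).Normal).eq_bot_or_eq_top with h | h
    · exact h
    · exfalso
      apply hS
      constructor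
      constructor
      intro a b
      have : a ∈ Subgroup.center S := h ▸ Subgroup.mem_top a
      exact (Subgroup.mem_center_iff.mp this b).symm
  -- the embedding of coordinate i
  have key : ∀ i : Fin n, (∃ x ∈ N, x i ≠ 1) → ∀ s : S, Pi.mulSingle i s ∈ N := by
    rintro i ⟨x, hxN, hxi⟩
    have hK : (N.comap (MonoidHom.mulSingle (fun _ : Fin n => S) i)).Normal := by
      infer_instance
    rcases hK.eq_bot_or_eq_top with h | h
    · exfalso
      -- x i not central
      have : x i ∉ Subgroup.center S := by
        rw [hcen, Subgroup.mem_bot]; exact hxi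
      rw [Subgroup.mem_center_iff] at this
      push Not at this
      obtain ⟨g, hg⟩ := this
      have hmem : (g * x i * g⁻¹ * (x i)⁻¹) ∈ N.comap (MonoidHom.mulSingle (fun _ : Fin n => S) i) := by
        rw [Subgroup.mem_comap]
        have h1 : (Pi.mulSingle i g : Fin n → S) * x * (Pi.mulSingle i g)⁻¹ * x⁻¹ ∈ N :=
          N.mul_mem (Subgroup.Normal.conj_mem inferInstance x hxN _) (N.inv_mem hxN)
        convert h1 using 1
        ext j
        by_cases hj : j = i
        · subst hj; simp
        · simp [hj]
      rw [h, Subgroup.mem_bot] at hmem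
      apply hg
      have h2 : g * x i * g⁻¹ = x i := by
        rwa [mul_inv_eq_one] at hmem
      rwa [mul_inv_eq_iff_eq_mul] at h2
    · intro s
      have : s ∈ N.comap (MonoidHom.mulSingle (fun _ : Fin n => S) i) := h ▸ Subgroup.mem_top s
      exact this
  refine ⟨Finset.univ.filter (fun i => ∃ x ∈ N, x i ≠ 1), fun x => ⟨?_, ?_⟩⟩
  · intro hx i hi
    by_contra hne
    exact hi (Finset.mem_filter.mpr ⟨Finset.mem_univ _, x, hx, hne⟩)
  · intro hx
    have hprod : x = (Finset.univ : Finset (Fin n)).noncommProd (fun i => Pi.mulSingle i (x i))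
        (fun i _ j _ hij => Pi.mulSingle_apply_commute x i j) := by
      exact (Finset.noncommProd_mulSingle x).symm
    rw [hprod]
    apply Subgroup.noncommProd_mem
    intro i _
    by_cases hi : ∃ y ∈ N, y i ≠ 1
    · exact key i hi (x i)
    · have : x i = 1 := hx i (by simpa using hi)
      rw [this, Pi.mulSingle_one]
      exact N.one_mem

end Cfsg.Agent.S5913
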