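import Cfsg.Statements.S5939
import Cfsg.Agent.Lib.H98.DicksonSmall
import Cfsg.Agent.S0804

set_option autoImplicit false
open Cfsg

namespace Cfsg.Agent.S5939

/-- Let p be a prime and F a finite field of characteristic p such that either F has p elements and p ≡ ±1 (mod 10), or F has p² elements and p ≡ ±3 (mod 10). Then PSL_2(F) has a maximal subgroup isomorphic to the alternating group A_5. -/
theorem result {F : Type*} [Field F] [Fintype F] (p : ℕ) [Fact p.Prime] [CharP F p] (h : (Fintype.card F = p ∧ (p % 10 = 1 ∨ p % 10 = 9)) ∨ (Fintype.card F = p ^ 2 ∧ (p % 10 = 3 ∨ p % 10 = 7))) : ∃ H : Subgroup (Matrix.ProjectiveSpecialLinearGroup (Fin 2) F), IsCoatom H ∧ Nonempty (H ≃* alternatingGroup (Fin 5)) := by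
  classical
  haveI hfG : Finite (Matrix.ProjectiveSpecialLinearGroup (Fin 2) F) := inferInstanceAs (Finite (_ ⧸ _))
  have hpp : p.Prime := Fact.out
  have hp1 := hpp.two_le
  have hFc : Nat.card F = Fintype.card F := Nat.card_eq_fintype_card
  have hodd : p % 2 = 1 := by rcases h with ⟨-, h⟩ | ⟨-, h⟩ <;> omega
  have hFo : Odd (Nat.card F) := by
    rw [hFc]
    rcases h with ⟨h, -⟩ | ⟨h, -⟩
    · rw [h, Nat.odd_iff]; exact hodd
    · rw [h]; exact (Nat.odd_iff.mpr hodd).pow
  have hFge : 9 ≤ Nat.card F := by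
    rw [hFc]
    rcases h with ⟨h, h'⟩ | ⟨h, h'⟩
    · rw [h]; omega
    · rw [h]
      have h3 : 3 ≤ p := by omega
      calc 9 = 3 ^ 2 := by norm_num
        _ ≤ p ^ 2 := Nat.pow_le_pow_left h3 2
  have h5 : 5 ∣ Fintype.card F * (Fintype.card F ^ 2 - 1) := by
    apply Dvd.dvd.mul_left
    rcases h with ⟨h, h'⟩ | ⟨h, h'⟩
    · rw [h]
      rcases h' with h' | h'
      · obtain ⟨s, hs⟩ : ∃ s, p = 10 * s + 1 := ⟨p / 10, by omega⟩
        have : p ^ 2 = 5 * (20 * s * s + 4 * s) + 1 := by rw [hs]; ring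
        rw [this]; simp
      · obtain ⟨s, hs⟩ : ∃ s, p = 10 * s + 9 := ⟨p / 10, by omega⟩
        have : p ^ 2 = 5 * (20 * s * s + 36 * s + 16) + 1 := by rw [hs]; ring
        rw [this]; simp
    · rw [h]
      rcases h' with h' | h'
      · obtain ⟨s, hs⟩ : ∃ s, p = 10 * s + 3 := ⟨p / 10, by omega⟩
        have : (p ^ 2) ^ 2 = 5 * (2000 * s^4 + 2400 * s^3 + 1080 * s^2 + 216 * s + 16) + 1 := by rw [hs]; ring
        rw [this]; simp
      · obtain ⟨s, hs⟩ : ∃ s, p = 10 * s + 7 := ⟨p / 10, by omega⟩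
        have : (p ^ 2) ^ 2 = 5 * (2000 * s^4 + 5600 * s^3 + 5880 * s^2 + 2744 * s + 480) + 1 := by rw [hs]; ring
        rw [this]; simp
  obtain ⟨H, hH⟩ := (Cfsg.Agent.S0804.result (F := F) rfl).mpr h5
  refine ⟨H, ?_, hH⟩
  have hcH := H98.DicksonIdx.card_A5 hH
  have hpF := H98.DicksonPGL.card_psl_eq F
  rw [H98.DicksonIdx.gcd_odd hFo] at hpF
  apply H98.DicksonMax.coatom_of
  · intro htop
    rw [htop, Subgroup.card_top] at hcH
    rw [hcH] at hpF
    have : 10 * (9 * 8) ≤ (Nat.card F + 1) * (Nat.card F * (Nat.card F - 1)) :=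
      Nat.mul_le_mul (by omega) (Nat.mul_le_mul hFge (by omega))
    omega
  · intro M hle hM
    have hdM : Nat.card H ∣ Nat.card M := Subgroup.card_dvd_of_le hle
    obtain ⟨⟨x, y, hxy⟩, a, b, hab, hab1⟩ := H98.DicksonSmall.A5_elts
    rcases H98.DicksonSmall.small_list' p (by omega) H M hM hle hH x y hxy a b hab hab1 with ⟨-, h6⟩ | ⟨-, h6⟩ | ⟨-, h6⟩ | ⟨K, m, hm, hK, hcM⟩
    · rw [hcH, h6] at hdM; norm_num at hdM
    · rw [hcH, h6] at hdM; norm_num at hdM
    · rw [hcH, h6]
    · exfalso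
      obtain ⟨j, hj1, hj⟩ := H98.DicksonIdx.char_dvd (F := K) p
      rw [hj, ← pow_mul, hFc] at hK
      rcases h with ⟨h, h'⟩ | ⟨h, h'⟩
      · rw [h] at hK
        have h7 : j * m = 1 := Nat.pow_right_injective hp1 (by show p ^ (j * m) = p ^ 1; rw [pow_one]; exact hK)
        have := Nat.eq_one_of_mul_eq_one_left h7
        omega
      · rw [h] at hK
        have h7 : j * m = 2 := Nat.pow_right_injective hp1 (by show p ^ (j * m) = p ^ 2; exact hK)
        have hj' : j = 1 := by
          by_contra hne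
          have : 2 * 2 ≤ j * m := Nat.mul_le_mul (by omega) hm
          omega
        rw [hj', pow_one] at hj
        rw [hj] at hcM
        have h8 : 60 ∣ 2 * ((p + 1) * (p * (p - 1))) := by
          rw [hcH] at hdM
          rcases hcM with hcM | hcM
          · rw [← hcM]; exact Dvd.dvd.mul_left hdM 2
          · rw [← hcM]; exact Dvd.dvd.mul_left (Dvd.dvd.mul_left hdM 2) 2
        have h9 : 5 ∣ 2 * ((p + 1) * (p * (p - 1))) := (by norm_num : 5 ∣ 60).trans h8
        rcases (Nat.Prime.dvd_mul Nat.prime_five).mp h9 with h6 | h6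
        · norm_num at h6
        · rcases (Nat.Prime.dvd_mul Nat.prime_five).mp h6 with h6 | h6
          · omega
          · rcases (Nat.Prime.dvd_mul Nat.prime_five).mp h6 with h7 | h7
            · omega
            · omega

end Cfsg.Agent.S5939
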