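import Cfsg.Statements.S5940
import Cfsg.Agent.Lib.H98.DicksonSmall
import Cfsg.Agent.S0802

set_option autoImplicit false
open Cfsg

namespace Cfsg.Agent.S5940

/-- Let p ≥ 5 be a prime with p ≡ ±3 (mod 8) and p ≢ ±1 (mod 10), and F a field with p elements. Then PSL_2(F) has a maximal subgroup isomorphic to the alternating group A_4. -/
theorem result {F : Type*} [Field F] [Fintype F] (p : ℕ) [Fact p.Prime] (hF : Fintype.card F = p) (h5 : 5 ≤ p) (h8 : p % 8 = 3 ∨ p % 8 = 5) (h10 : p % 10 ≠ 1 ∧ p % 10 ≠ 9) : ∃ H : Subgroup (Matrix.ProjectiveSpecialLinearGroup (Fin 2) F), IsCoatom H ∧ Nonempty (H ≃* alternatingGroup (Fin 4)) := by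
  classical
  haveI hfG : Finite (Matrix.ProjectiveSpecialLinearGroup (Fin 2) F) := inferInstanceAs (Finite (_ ⧸ _))
  have hF' : Nat.card F = p := by rw [Nat.card_eq_fintype_card, hF]
  have hpp : p.Prime := Fact.out
  haveI : CharP F p := by
    obtain ⟨l, hl⟩ := CharP.exists F
    haveI : Fact l.Prime := ⟨CharP.char_is_prime F l⟩
    obtain ⟨n, h1, hn⟩ := H98.DicksonIdx.char_dvd (F := F) l
    rw [hF'] at hn
    have : l ∣ p := by rw [hn]; exact dvd_pow_self l (by omega)
    rwa [(Nat.prime_dvd_prime_iff_eq Fact.out hpp).mp this] at hl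
  obtain ⟨H, hH⟩ := (Cfsg.Agent.S0802.result (F := F) p 1 (by rw [pow_one]; exact hF)).mpr (by omega)
  refine ⟨H, ?_, hH⟩
  have hcH := H98.DicksonIdx.card_A4 hH
  have hpF := H98.DicksonPGL.card_psl_eq F
  rw [H98.DicksonIdx.gcd_odd (by rw [hF', Nat.odd_iff]; omega), hF'] at hpF
  apply H98.DicksonMax.coatom_of
  · intro htop
    rw [htop, Subgroup.card_top] at hcH
    rw [hcH] at hpF
    have : 6 * (5 * 4) ≤ (p + 1) * (p * (p - 1)) := Nat.mul_le_mul (by omega) (Nat.mul_le_mul h5 (by omega))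
    omega
  · intro M hle hM
    have hdM : Nat.card H ∣ Nat.card M := Subgroup.card_dvd_of_le hle
    have hMG : 2 * Nat.card M ∣ (p + 1) * (p * (p - 1)) := by
      rw [← hpF]; exact Nat.mul_dvd_mul_left 2 (Subgroup.card_subgroup_dvd_card M)
    obtain ⟨⟨x, y, hxy⟩, a, b, hab, hab1⟩ := H98.DicksonSmall.A4_elts
    rcases H98.DicksonSmall.small_list' p (by omega) H M hM hle hH x y hxy a b hab hab1 with ⟨-, h⟩ | ⟨-, h⟩ | ⟨hne5, h⟩ | ⟨K, m, hm, hK, -⟩
    · rw [hcH, h]
    · exfalso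
      rw [h] at hMG
      have h16 : 16 ∣ (p + 1) * (p * (p - 1)) := (by norm_num : 16 ∣ 2 * 24).trans hMG
      rcases h8 with h8 | h8
      · obtain ⟨s, hs⟩ : ∃ s, p = 8 * s + 3 := ⟨p / 8, by omega⟩
        rw [hs, show 8 * s + 3 - 1 = 8 * s + 2 by omega] at h16
        have : (8 * s + 3 + 1) * ((8 * s + 3) * (8 * s + 2)) = 16 * (32 * s * s * s + 36 * s * s + 13 * s + 1) + 8 := by ring
        omega
      · obtain ⟨s, hs⟩ : ∃ s, p = 8 * s + 5 := ⟨p / 8, by omega⟩
        rw [hs, show 8 * s + 5 - 1 = 8 * s + 4 by omega] at h16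
        have : (8 * s + 5 + 1) * ((8 * s + 5) * (8 * s + 4)) = 16 * (32 * s * s * s + 60 * s * s + 37 * s + 7) + 8 := by ring
        omega
    · exfalso
      rw [h] at hMG
      have h5' : 5 ∣ (p + 1) * (p * (p - 1)) := (by norm_num : 5 ∣ 2 * 60).trans hMG
      rcases (Nat.Prime.dvd_mul Nat.prime_five).mp h5' with h6 | h6
      · omega
      · rcases (Nat.Prime.dvd_mul Nat.prime_five).mp h6 with h7 | h7
        · exact hne5 ((Nat.prime_dvd_prime_iff_eq Nat.prime_five hpp).mp h7).symm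
        · omega
    · exfalso
      rw [hF'] at hK
      have : ¬ p.Prime := by
        rw [← hK]
        exact Nat.Prime.not_prime_pow hm
      exact this hpp

end Cfsg.Agent.S5940
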