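import Cfsg.Statements.S5946

set_option autoImplicit false
open Cfsg

namespace Cfsg.Agent.S5946

theorem result {F K : Type*} [Field F] [Fintype F] [Field K] [Fintype K] [Algebra F K] (n : ℕ) (hn : 2 ≤ n) (hdim : Module.finrank F K = n) :
    Subgroup.centralizer (((Units.map ((Algebra.lmul F K : K →ₐ[F] Module.End F K) : K →* Module.End F K)).range : Subgroup (Module.End F K)ˣ) : Set (Module.End F K)ˣ) = (Units.map ((Algebra.lmul F K : K →ₐ[F] Module.End F K) : K →* Module.End F K)).range := by
  ext g
  rw [Subgroup.mem_centralizer_iff]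
  constructor
  · intro h
    have hne : (g : Module.End F K) 1 ≠ 0 := by
      intro h0
      have : ((g⁻¹ : (Module.End F K)ˣ) : Module.End F K) ((g : Module.End F K) 1) = 1 := by
        rw [← Module.End.mul_apply, ← Units.val_mul, inv_mul_cancel]; simp
      rw [h0, map_zero] at this
      exact zero_ne_one this
    refine ⟨Units.mk0 ((g : Module.End F K) 1) hne, ?_⟩
    ext x
    simp only [Units.coe_map, Units.val_mk0]
    by_cases hx : x = 0
    · subst hx; simp
    have h1 := h (Units.map ((Algebra.lmul F K : K →ₐ[F] Module.End F K) : K →* Module.End F K) (Units.mk0 x hx)) ⟨_, rfl⟩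
    have h2 := congrArg (fun u : (Module.End F K)ˣ => (u : Module.End F K) 1) h1
    simp at h2
    simp [mul_comm, h2]
  · rintro ⟨a, rfl⟩ _ ⟨b, rfl⟩
    rw [← map_mul, ← map_mul, mul_comm]

end Cfsg.Agent.S5946
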