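import Cfsg.Statements.S5947
import Cfsg.Agent.Lib.H70.Singer
import Cfsg.Agent.Lib.H53.Zsig

set_option autoImplicit false
open Cfsg

namespace Cfsg.Agent.S5947

/-- Let F ⊆ K be finite fields with |F| = q and [K : F] = n ≥ 2, regard K as an n-dimensional F-vector space, and let M ≤ GL_F(K) be the Singer group of multiplications by non-zero elements of K (cyclic of order q^n − 1). Assume (n, q) ≠ (6, 2), and that it is not the case that n = 2 with q a prime such that q + 1 is a power of 2. Then every abelian subgroup of GL_F(K) of order q^n − 1 is conjugate to M. -/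
theorem result {F K : Type*} [Field F] [Fintype F] [Field K] [Fintype K] [Algebra F K] (n : ℕ) (hn : 2 ≤ n) (hdim : Module.finrank F K = n)
    (hex1 : ¬ (n = 6 ∧ Fintype.card F = 2))
    (hex2 : ¬ (n = 2 ∧ (Fintype.card F).Prime ∧ ∃ a : ℕ, Fintype.card F + 1 = 2 ^ a))
    (U : Subgroup (Module.End F K)ˣ) (hU : IsMulCommutative U) (hcard : Nat.card U = Fintype.card K - 1) :
    ∃ g : (Module.End F K)ˣ, U.map (MulAut.conj g).toMonoidHom = (Units.map ((Algebra.lmul F K : K →ₐ[F] Module.End F K) : K →* Module.End F K)).range := by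
  obtain ⟨r, hr, hr1, hr2⟩ := H53.Zsig.zsigmondy (a := Fintype.card F) (n := n) Fintype.one_lt_card (by omega)
    (fun h => hex1 ⟨h.2, h.1⟩) (by
      rintro ⟨h2, m, hm⟩
      apply hex2
      refine ⟨h2, ?_, m, hm⟩
      obtain ⟨p, hp⟩ := CharP.exists F
      obtain ⟨k, hpp, hk⟩ := FiniteField.card F p
      by_cases hk1 : (k : ℕ) = 1
      · rw [hk, hk1, pow_one]; exact hpp
      · exfalso
        have h1 : 0 < (k : ℕ) := k.2
        have h2 : 2 ≤ (k : ℕ) := by omega
        exact H70.Singer.no_mersenne hpp (k := k) h2 (by rw [← hk]; exact hm))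
  haveI : Fact r.Prime := ⟨hr⟩
  exact H70.Singer.main hdim hr1 hr2 U (fun x hx y hy => congrArg Subtype.val (hU.is_comm.comm ⟨x, hx⟩ ⟨y, hy⟩)) hcard

end Cfsg.Agent.S5947
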